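import Mathlib
import Cfsg.Statements.S0290
import Cfsg.Agent.Lib.Helper2.QuadCount

set_option autoImplicit false
open Cfsg

namespace Cfsg.Agent.S0290

theorem arith_minus (q k N : ℕ) (hq : 0 < q)
    (h : N * q = q ^ (k + 1) * 1 + q ^ 2 * (q ^ k - 1) * q ^ k) :
    N = q ^ (2 * (k + 1) - 1) + q ^ (k + 1 - 1) - q ^ (k + 1) := by
  apply Nat.eq_of_mul_eq_mul_right hq
  rw [h]
  have e1 : 2 * (k + 1) - 1 = 2 * k + 1 := by omega
  have e2 : k + 1 - 1 = k := by omega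
  rw [e1, e2]
  have h1 : 1 ≤ q ^ k := Nat.one_le_pow _ _ hq
  have h2 : q ^ (k + 1) ≤ q ^ (2 * k + 1) + q ^ k :=
    le_add_right (Nat.pow_le_pow_right hq (by omega))
  zify [h1, h2]
  ring

/-- The minus-type quadratic form on F^(2m), m at least 1, has q^(2m-1) + q^(m-1) - q^m zeros (that is, (q^m + 1)(q^(m-1) - 1) non-zero isotropic vectors). -/
theorem result {F : Type*} [Field F] [Fintype F] {q : ℕ} (hF : Fintype.card F = q) (m : ℕ) (hm : 1 ≤ m) (a b : F) (hab : ∀ z₁ z₂ : F, z₁ ^ 2 + a * z₁ * z₂ + b * z₂ ^ 2 = 0 → z₁ = 0 ∧ z₂ = 0) : Nat.card {v : (Fin (m - 1) ⊕ Fin (m - 1)) ⊕ Fin 2 → F // Cfsg.quadFormMinus (m - 1) F a b v = 0} = q ^ (2 * m - 1) + q ^ (m - 1) - q ^ m := by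
  classical
  obtain ⟨k, rfl⟩ : ∃ k, m = k + 1 := ⟨m - 1, by omega⟩
  have hq : 0 < q := hF ▸ Fintype.card_pos
  have ek : k + 1 - 1 = k := by omega
  rw [show Nat.card {v : (Fin (k + 1 - 1) ⊕ Fin (k + 1 - 1)) ⊕ Fin 2 → F //
      Cfsg.quadFormMinus (k + 1 - 1) F a b v = 0} =
    Nat.card {v : (Fin k ⊕ Fin k) ⊕ Fin 2 → F // Cfsg.quadFormMinus k F a b v = 0} by rw [ek]]
  let φ : ((Fin k ⊕ Fin k) ⊕ Fin 2 → F) ≃ (Fin k → F) × (Fin k → F) × (Fin 2 → F) :=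
    (Equiv.sumArrowEquivProdArrow (Fin k ⊕ Fin k) (Fin 2) F).trans
      ((Equiv.prodCongr (Equiv.sumArrowEquivProdArrow (Fin k) (Fin k) F) (Equiv.refl _)).trans
        (Equiv.prodAssoc _ _ _))
  have key := Cfsg.Agent.Lib.Helper2.QuadCount.card_zeros (F := F) k
    (fun z : Fin 2 → F => z 0 ^ 2 + a * z 0 * z 1 + b * z 1 ^ 2) φ
    (Cfsg.quadFormMinus k F a b) (fun v => by
      simp [Cfsg.quadFormMinus, φ, Equiv.sumArrowEquivProdArrow])
  have hU : Nat.card {z : Fin 2 → F // z 0 ^ 2 + a * z 0 * z 1 + b * z 1 ^ 2 = 0} = 1 := by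
    haveI : Unique {z : Fin 2 → F // z 0 ^ 2 + a * z 0 * z 1 + b * z 1 ^ 2 = 0} :=
      ⟨⟨⟨0, by simp⟩⟩, fun z => Subtype.ext (by
        obtain ⟨h0, h1⟩ := hab _ _ z.2
        funext i
        fin_cases i
        · exact h0
        · exact h1)⟩
    exact Nat.card_unique
  have hE : Fintype.card (Fin 2 → F) = q ^ 2 := by
    rw [Fintype.card_pi_const, hF]
  rw [hU, hE, hF] at key
  exact arith_minus q k _ hq key

end Cfsg.Agent.S0290
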