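import Cfsg.Statements.S0288
import Cfsg.Agent.Lib.Helper15.Aniso2
import Cfsg.Agent.S0290

set_option autoImplicit false
open Cfsg

namespace Cfsg.Agent.S0288

theorem aux {F : Type*} [Field F] [Fintype F] {q : ℕ} (hF : Fintype.card F = q) (a b : F)
    (hab : ∀ z₁ z₂ : F, z₁ ^ 2 + a * z₁ * z₂ + b * z₂ ^ 2 = 0 → z₁ = 0 ∧ z₂ = 0) (k : ℕ) :
    Nat.card ↥(Cfsg.isometryGroup F (Cfsg.quadFormMinus k F a b))
      = 2 * q ^ ((k + 1) * k) * (q ^ (k + 1) + 1)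
        * ∏ i ∈ Finset.range k, (q ^ (2 * (i + 1)) - 1) := by
  have hq1 : 1 ≤ q := by rw [← hF]; exact Fintype.card_pos
  induction k with
  | zero =>
    rw [Cfsg.Agent.Lib.Helper15.Aniso2.card_minus_zero a b hab, hF]
    simp
  | succ k ih =>
    have hN : Nat.card {v : (Fin (k + 1) ⊕ Fin (k + 1)) ⊕ Fin 2 → F //
        Cfsg.quadFormMinus (k + 1) F a b v = 0}
        = q ^ (2 * (k + 2) - 1) + q ^ (k + 2 - 1) - q ^ (k + 2) :=
      Cfsg.Agent.S0290.result hF (k + 2) (by omega) a b hab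
    rw [Cfsg.Agent.Lib.Helper15.OrthOrder.card_minus_succ k a b hab, ih, hN, hF,
      Finset.prod_range_succ]
    obtain ⟨u, hx⟩ : ∃ u, q ^ (k + 1) = u + 1 :=
      ⟨q ^ (k + 1) - 1, by have := Nat.one_le_pow (k + 1) q hq1; omega⟩
    have e1 : q ^ (2 * (k + 2) - 1) = q * (u + 1) ^ 2 := by
      rw [← hx]
      have h : 2 * (k + 2) - 1 = 1 + (k + 1) + (k + 1) := by omega
      rw [h, pow_add, pow_add]
      ring
    have e2 : q ^ (k + 2) = q * (u + 1) := by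
      rw [← hx, pow_succ]
      ring
    have e2' : q ^ (k + 1 + 1) = q * (u + 1) := e2
    have e0 : q ^ (k + 2 - 1) = u + 1 := by
      rw [← hx]
      rfl
    have e3 : q ^ (2 * k + 2) = (u + 1) ^ 2 := by
      rw [← hx, ← pow_mul]
      congr 1
      ring
    have e3' : q ^ (2 * (k + 1)) = (u + 1) ^ 2 := by
      rw [← hx, ← pow_mul]
      congr 1
      ring
    have e4 : q ^ ((k + 1 + 1) * (k + 1)) = (u + 1) ^ 2 * q ^ ((k + 1) * k) := by
      rw [← hx, ← pow_mul, ← pow_add]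
      congr 1
      ring
    have s1 : q * (u + 1) ^ 2 + (u + 1) - q * (u + 1) - 1 = (q * (u + 1) + 1) * u := by
      have h : q * (u + 1) ^ 2 + (u + 1) = (q * (u + 1) + 1) * u + 1 + q * (u + 1) := by ring
      rw [h, Nat.add_sub_cancel, Nat.add_sub_cancel]
    have s4 : (u + 1) ^ 2 - 1 = u * (u + 2) := by
      have h : (u + 1) ^ 2 = u * (u + 2) + 1 := by ring
      rw [h, Nat.add_sub_cancel]
    rw [e1, e0, e2, e3, e3', e4, hx, s1, s4]
    ring


/-- |GO^-_{2m}(q)| = 2 q^(m(m-1)) (q^m + 1) prod_{i=1}^{m-1} (q^(2i) - 1), m at least 1, all q; the form is quadFormMinus (m-1) with an anisotropic binary part. -/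
theorem result {F : Type*} [Field F] [Fintype F] {q : ℕ} (hF : Fintype.card F = q) (m : ℕ) (hm : 1 ≤ m) (a b : F) (hab : ∀ z₁ z₂ : F, z₁ ^ 2 + a * z₁ * z₂ + b * z₂ ^ 2 = 0 → z₁ = 0 ∧ z₂ = 0) : Nat.card (Cfsg.isometryGroup F (Cfsg.quadFormMinus (m - 1) F a b)) = 2 * q ^ (m * (m - 1)) * (q ^ m + 1) * ∏ i ∈ Finset.range (m - 1), (q ^ (2 * (i + 1)) - 1) := by
  obtain ⟨k, rfl⟩ : ∃ k, m = k + 1 := ⟨m - 1, by omega⟩
  exact aux hF a b hab k

end Cfsg.Agent.S0288
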