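import Cfsg.Statements.S0756
import Mathlib

set_option autoImplicit false
open Cfsg

namespace Cfsg.Agent.S0756

universe u

theorem sq_class {F : Type*} [Field F] [Fintype F] (α c : F) (hα : ¬ IsSquare α)
    (hc : c ≠ 0) :
    (∃ r : F, r ≠ 0 ∧ c = r * r) ∨ (∃ r : F, r ≠ 0 ∧ c = α * (r * r)) := by
  classical
  by_cases hsq : IsSquare c
  · obtain ⟨r, hr⟩ := hsq
    left
    refine ⟨r, ?_, hr⟩
    rintro rfl
    simp at hr
    exact hc hr
  · right
    have hα0 : α ≠ 0 := by
      rintro rfl
      exact hα ⟨0, by simp⟩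
    have h1 : quadraticChar F (c * α⁻¹) = 1 := by
      rw [map_mul, (quadraticChar_neg_one_iff_not_isSquare).mpr hsq]
      have h0 : quadraticChar F α⁻¹ = -1 := by
        rw [quadraticChar_neg_one_iff_not_isSquare]
        intro h
        apply hα
        simpa using h.inv
      rw [h0]
      norm_num
    have h3 : IsSquare (c * α⁻¹) :=
      (quadraticChar_one_iff_isSquare (mul_ne_zero hc (inv_ne_zero hα0))).mp h1
    obtain ⟨r, hr⟩ := h3
    refine ⟨r, ?_, ?_⟩
    · rintro rfl
      simp at hr
      rcases hr with h | h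
      · exact hc h
      · exact hα0 h
    · rw [← hr]
      field_simp

theorem exists_family {F : Type*} [Field F] [Fintype F] (h2 : (2 : F) ≠ 0) (α : F)
    (hα : ¬ IsSquare α) :
    ∀ (n : ℕ) (V : Type u) [AddCommGroup V] [Module F V] [FiniteDimensional F V]
      (B : LinearMap.BilinForm F V), B.IsSymm → B.Nondegenerate → Module.finrank F V = n + 1 →
      ∃ e : Fin (n + 1) → V, (∀ i j, i ≠ j → B (e i) (e j) = 0) ∧
        (∀ i, i ≠ Fin.last n → B (e i) (e i) = 1) ∧
        (B (e (Fin.last n)) (e (Fin.last n)) = 1 ∨ B (e (Fin.last n)) (e (Fin.last n)) = α) := by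
  intro n
  induction n with
  | zero =>
    intro V _ _ _ B hS hB hn
    have hss : Subsingleton (Fin (0 + 1)) := (inferInstance : Subsingleton (Fin 1))
    have hnt : Nontrivial V := Module.nontrivial_of_finrank_pos (R := F) (by omega)
    obtain ⟨v, hv⟩ := exists_ne (0 : V)
    have hvv : B v v ≠ 0 := by
      intro h0
      apply hv
      apply hB.1 v
      intro w
      obtain ⟨c, rfl⟩ := (finrank_eq_one_iff_of_nonzero' v hv).mp hn w
      rw [map_smul, smul_eq_mul, h0, mul_zero]
    rcases sq_class α (B v v) hα hvv with ⟨r, hr0, hr⟩ | ⟨r, hr0, hr⟩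
    · refine ⟨fun _ => r⁻¹ • v, ?_, ?_, ?_⟩
      · intro i j hij
        exact absurd (Subsingleton.elim i j) hij
      · intro i hi
        exact absurd (Subsingleton.elim i _) hi
      · left
        simp only [map_smul, LinearMap.smul_apply, smul_eq_mul]
        rw [hr]
        field_simp
    · refine ⟨fun _ => r⁻¹ • v, ?_, ?_, ?_⟩
      · intro i j hij
        exact absurd (Subsingleton.elim i j) hij
      · intro i hi
        exact absurd (Subsingleton.elim i _) hi
      · right
        simp only [map_smul, LinearMap.smul_apply, smul_eq_mul]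
        rw [hr]
        field_simp
  | succ n ih =>
    intro V _ _ _ B hS hB hn
    have hinv : Invertible (2 : F) := invertibleOfNonzero h2
    obtain ⟨b, hb⟩ := LinearMap.BilinForm.exists_orthogonal_basis (LinearMap.BilinForm.isSymm_iff.mp hS)
    have h0 : 0 < Module.finrank F V := by omega
    have h1 : 1 < Module.finrank F V := by omega
    have ha : B (b ⟨0, h0⟩) (b ⟨0, h0⟩) ≠ 0 :=
      hb.not_isOrtho_basis_self_of_separatingLeft hB.1 _
    have hb1 : B (b ⟨1, h1⟩) (b ⟨1, h1⟩) ≠ 0 :=
      hb.not_isOrtho_basis_self_of_separatingLeft hB.1 _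
    have h01 : B (b ⟨0, h0⟩) (b ⟨1, h1⟩) = 0 :=
      LinearMap.BilinForm.iIsOrtho_def.mp hb _ _ (by simp [Fin.ext_iff])
    have h10 : B (b ⟨1, h1⟩) (b ⟨0, h0⟩) = 0 := by rw [hS.eq, h01]
    have hchar : ringChar F ≠ 2 := by
      intro h
      apply h2
      have h3 := CharP.cast_eq_zero F (ringChar F)
      rw [h] at h3
      exact_mod_cast h3
    have hodd : Fintype.card F % 2 = 1 := FiniteField.odd_card_of_char_ne_two hchar
    have hdeg1 : (Polynomial.C (B (b ⟨0, h0⟩) (b ⟨0, h0⟩)) * Polynomial.X ^ 2).degree = 2 := by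
      rw [Polynomial.degree_C_mul_X_pow 2 ha]
      rfl
    have hdeg2 : (Polynomial.C (B (b ⟨1, h1⟩) (b ⟨1, h1⟩)) * Polynomial.X ^ 2 - 1).degree = 2 := by
      rw [Polynomial.degree_sub_eq_left_of_degree_lt, Polynomial.degree_C_mul_X_pow 2 hb1]
      · rfl
      · rw [Polynomial.degree_C_mul_X_pow 2 hb1, Polynomial.degree_one]
        exact_mod_cast (by norm_num : (0 : ℕ) < 2)
    obtain ⟨s, t, hst⟩ := FiniteField.exists_root_sum_quadratic hdeg1 hdeg2 hodd
    simp only [Polynomial.eval_mul, Polynomial.eval_C, Polynomial.eval_pow, Polynomial.eval_X,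
      Polynomial.eval_sub, Polynomial.eval_one] at hst
    have hvv : B (s • b ⟨0, h0⟩ + t • b ⟨1, h1⟩) (s • b ⟨0, h0⟩ + t • b ⟨1, h1⟩) = 1 := by
      simp only [map_add, map_smul, LinearMap.add_apply, LinearMap.smul_apply, smul_eq_mul, h01,
        h10, mul_zero, add_zero, zero_add]
      linear_combination hst
    set v := s • b ⟨0, h0⟩ + t • b ⟨1, h1⟩ with hv
    have hvv0 : B v v ≠ 0 := by
      rw [hvv]
      exact one_ne_zero
    have hv0 : v ≠ 0 := by
      rintro h
      rw [h] at hvv0
      simp at hvv0
    have hWnd := LinearMap.BilinForm.restrict_nondegenerate_orthogonal_spanSingleton B hB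
      hS.isRefl hvv0
    have hWsymm := hS.restrict (B.orthogonal (Submodule.span F {v}))
    have hWrank : Module.finrank F (B.orthogonal (Submodule.span F {v})) = n + 1 := by
      rw [LinearMap.BilinForm.finrank_orthogonal hB, finrank_span_singleton hv0, hn]
      omega
    obtain ⟨e', he1, he2, he3⟩ := ih (B.orthogonal (Submodule.span F {v}))
      (B.restrict (B.orthogonal (Submodule.span F {v}))) hWsymm hWnd hWrank
    have hve : ∀ i, B v (e' i : V) = 0 := by
      intro i
      exact (e' i).2 v (Submodule.mem_span_singleton_self v)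
    refine ⟨Fin.cons v (fun i => (e' i : V)), ?_, ?_, ?_⟩
    · intro i j hij
      induction i using Fin.cases with
      | zero =>
        induction j using Fin.cases with
        | zero => exact absurd rfl hij
        | succ j =>
          simp only [Fin.cons_zero, Fin.cons_succ]
          exact hve j
      | succ i =>
        induction j using Fin.cases with
        | zero =>
          simp only [Fin.cons_zero, Fin.cons_succ]
          rw [hS.eq]
          exact hve i
        | succ j =>
          simp only [Fin.cons_succ]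
          exact he1 i j (fun h => hij (by rw [h]))
    · intro i hi
      induction i using Fin.cases with
      | zero =>
        simp only [Fin.cons_zero]
        exact hvv
      | succ i =>
        simp only [Fin.cons_succ]
        apply he2 i
        intro h
        apply hi
        rw [h, Fin.succ_last]
    · have hlast : (Fin.last (n + 1)) = Fin.succ (Fin.last n) := (Fin.succ_last n).symm
      rw [hlast]
      simp only [Fin.cons_succ]
      exact he3

/-- Classification of symmetric bilinear forms over finite fields of odd characteristic: if B is non-degenerate symmetric on V of dimension n + 1 and α is a fixed non-square of F, there is an orthogonal basis b_0, ..., b_n with B(b_i, b_i) = 1 for i < n and B(b_n, b_n) ∈ {1, α}. -/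
theorem result {F V : Type*} [Field F] [Finite F] [AddCommGroup V] [Module F V] [FiniteDimensional F V] (h2 : (2 : F) ≠ 0) (B : LinearMap.BilinForm F V) (hS : B.IsSymm) (hB : B.Nondegenerate) {n : ℕ} (hn : Module.finrank F V = n + 1) (α : F) (hα : ¬ IsSquare α) : ∃ b : Module.Basis (Fin (n + 1)) F V, (∀ i j, i ≠ j → B (b i) (b j) = 0) ∧ (∀ i, i ≠ Fin.last n → B (b i) (b i) = 1) ∧ (B (b (Fin.last n)) (b (Fin.last n)) = 1 ∨ B (b (Fin.last n)) (b (Fin.last n)) = α) := by
  have : Fintype F := Fintype.ofFinite F
  obtain ⟨e, he1, he2, he3⟩ := exists_family h2 α hα n V B hS hB hn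
  have hα0 : α ≠ 0 := by
    rintro rfl
    exact hα ⟨0, by simp⟩
  have hne : ∀ i, B (e i) (e i) ≠ 0 := by
    intro i
    by_cases hi : i = Fin.last n
    · rw [hi]
      rcases he3 with h | h
      · rw [h]; exact one_ne_zero
      · rw [h]; exact hα0
    · rw [he2 i hi]
      exact one_ne_zero
  have hli : LinearIndependent F e :=
    LinearMap.BilinForm.linearIndependent_of_iIsOrtho (LinearMap.BilinForm.iIsOrtho_def.mpr he1) hne
  refine ⟨basisOfLinearIndependentOfCardEqFinrank hli (by simp [hn]), ?_⟩
  rw [coe_basisOfLinearIndependentOfCardEqFinrank]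
  exact ⟨he1, he2, he3⟩

end Cfsg.Agent.S0756
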