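import Mathlib
import Cfsg.Statements.S0291
import Cfsg.Agent.Lib.Helper2.QuadCount

set_option autoImplicit false
open Cfsg

namespace Cfsg.Agent.S0291

theorem arith_odd (q m N : ℕ) (hq : 0 < q)
    (h : N * q = q ^ (m + 1) * 1 + q * (q ^ m - 1) * q ^ m) :
    N = q ^ (2 * m) := by
  apply Nat.eq_of_mul_eq_mul_right hq
  rw [h]
  have h1 : 1 ≤ q ^ m := Nat.one_le_pow _ _ hq
  zify [h1]
  ring

/-- For q odd, the form x_0^2 + sum_{i<m} x_i y_i on F^(2m+1) has exactly q^(2m) zeros. -/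
theorem result {F : Type*} [Field F] [Fintype F] {q : ℕ} (hF : Fintype.card F = q) (hodd : Odd q) (m : ℕ) : Nat.card {v : Unit ⊕ (Fin m ⊕ Fin m) → F // Cfsg.quadFormOdd m F v = 0} = q ^ (2 * m) := by
  classical
  have hq : 0 < q := hF ▸ Fintype.card_pos
  let φ : (Unit ⊕ (Fin m ⊕ Fin m) → F) ≃ (Fin m → F) × (Fin m → F) × F :=
    (Equiv.sumArrowEquivProdArrow Unit (Fin m ⊕ Fin m) F).trans
      ((Equiv.prodCongr (Equiv.funUnique Unit F)
        (Equiv.sumArrowEquivProdArrow (Fin m) (Fin m) F)).trans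
        ((Equiv.prodComm _ _).trans (Equiv.prodAssoc _ _ _)))
  have key := Cfsg.Agent.Lib.Helper2.QuadCount.card_zeros (F := F) m (fun x : F => x ^ 2) φ
    (Cfsg.quadFormOdd m F) (fun v => by
      simp [Cfsg.quadFormOdd, φ, Equiv.sumArrowEquivProdArrow, add_comm])
  have hU : Nat.card {e : F // e ^ 2 = 0} = 1 := by
    haveI : Unique {e : F // e ^ 2 = 0} :=
      ⟨⟨⟨0, by simp⟩⟩, fun b => Subtype.ext (by simpa using b.2)⟩
    exact Nat.card_unique
  rw [hU, hF] at key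
  exact arith_odd q m _ hq key

end Cfsg.Agent.S0291
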