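import Cfsg.Statements.S0286
import Cfsg.Agent.Lib.Helper15.OrthOrder0
import Cfsg.Agent.Lib.Helper15.Spinor2
import Cfsg.Agent.S0291

set_option autoImplicit false
open Cfsg

namespace Cfsg.Agent.S0286

/-- |GO_{2m+1}(q)| = 2 q^(m^2) prod_{i=1}^{m} (q^(2i) - 1) for q odd. -/
theorem result {F : Type*} [Field F] [Fintype F] {q : ℕ} (hF : Fintype.card F = q) (hodd : Odd q) (m : ℕ) : Nat.card (Cfsg.isometryGroup F (Cfsg.quadFormOdd m F)) = 2 * q ^ (m ^ 2) * ∏ i ∈ Finset.range m, (q ^ (2 * (i + 1)) - 1) := by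
  have h2 : (2 : F) ≠ 0 := Cfsg.Agent.Lib.Helper15.Spinor2.two_ne_zero_of_odd_card hF hodd
  induction m with
  | zero =>
    rw [Cfsg.Agent.Lib.Helper15.OrthOrder0.card_odd_zero h2]
    simp
  | succ m ih =>
    rw [Cfsg.Agent.Lib.Helper15.OrthOrder.card_odd_succ h2 m, ih,
      Cfsg.Agent.S0291.result hF hodd (m + 1), hF, Finset.prod_range_succ]
    have e : q ^ ((m + 1) ^ 2) = q ^ (2 * m + 1) * q ^ (m ^ 2) := by
      rw [← pow_add]
      congr 1
      ring
    rw [e]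
    ring

end Cfsg.Agent.S0286
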