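import Mathlib
import Cfsg.Statements.S4217
import Cfsg.Agent.S0051

set_option autoImplicit false
open Cfsg

namespace Cfsg.Agent.S4217

open scoped Pointwise

def tor {G : Type*} [Group G] (A : Subgroup G) (hc : ∀ x ∈ A, ∀ y ∈ A, x * y = y * x) (n : ℕ) :
    Subgroup G where
  carrier := {a | a ∈ A ∧ a ^ n = 1}
  mul_mem' := by
    rintro x y ⟨hx, hx1⟩ ⟨hy, hy1⟩
    refine ⟨A.mul_mem hx hy, ?_⟩
    have h : Commute x y := hc x hx y hy
    rw [h.mul_pow, hx1, hy1, one_mul]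
  one_mem' := ⟨A.one_mem, one_pow n⟩
  inv_mem' := by
    rintro x ⟨hx, hx1⟩
    exact ⟨A.inv_mem hx, by rw [inv_pow, hx1, inv_one]⟩

theorem mem_tor {G : Type*} [Group G] (A : Subgroup G) (hc : ∀ x ∈ A, ∀ y ∈ A, x * y = y * x)
    (n : ℕ) (x : G) : x ∈ tor A hc n ↔ x ∈ A ∧ x ^ n = 1 := Iff.rfl

theorem tor_le {G : Type*} [Group G] (A : Subgroup G) (hc : ∀ x ∈ A, ∀ y ∈ A, x * y = y * x)
    (n : ℕ) : tor A hc n ≤ A := fun _ hx => hx.1

theorem tor_normal {G : Type*} [Group G] (A : Subgroup G) [hA : A.Normal]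
    (hc : ∀ x ∈ A, ∀ y ∈ A, x * y = y * x) (n : ℕ) : (tor A hc n).Normal := by
  constructor
  intro x hx g
  rw [mem_tor] at hx ⊢
  refine ⟨hA.conj_mem x hx.1 g, ?_⟩
  rw [conj_pow, hx.2, mul_one, mul_inv_cancel]

theorem tor_comm {G : Type*} [Group G] (A : Subgroup G) (hc : ∀ x ∈ A, ∀ y ∈ A, x * y = y * x)
    (n : ℕ) : IsMulCommutative (tor A hc n) :=
  ⟨⟨fun x y => Subtype.ext (hc x.1 x.2.1 y.1 y.2.1)⟩⟩

theorem eq_one_of_pow_coprime {G : Type*} [Group G] (x : G) (m n : ℕ) (h : Nat.Coprime m n)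
    (hm : x ^ m = 1) (hn : x ^ n = 1) : x = 1 := by
  have h1 : orderOf x ∣ m := orderOf_dvd_of_pow_eq_one hm
  have h2 : orderOf x ∣ n := orderOf_dvd_of_pow_eq_one hn
  have h3 : orderOf x = 1 := Nat.eq_one_of_dvd_coprimes h h1 h2
  exact orderOf_eq_one_iff.mp h3

theorem tor_inf {G : Type*} [Group G] (A : Subgroup G) (hc : ∀ x ∈ A, ∀ y ∈ A, x * y = y * x)
    (m n : ℕ) (h : Nat.Coprime m n) : tor A hc m ⊓ tor A hc n = ⊥ := by
  rw [eq_bot_iff]
  intro x hx
  rw [Subgroup.mem_inf, mem_tor, mem_tor] at hx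
  rw [Subgroup.mem_bot]
  exact eq_one_of_pow_coprime x m n h hx.1.2 hx.2.2

theorem tor_sup {G : Type*} [Group G] [Finite G] (A : Subgroup G)
    (hc : ∀ x ∈ A, ∀ y ∈ A, x * y = y * x)
    (m n : ℕ) (h : Nat.Coprime m n) (hmn : m * n = Nat.card A) :
    tor A hc m ⊔ tor A hc n = A := by
  apply le_antisymm (sup_le (tor_le A hc m) (tor_le A hc n))
  intro a ha
  have haN : a ^ (m * n) = 1 := by
    rw [hmn]
    have := pow_card_eq_one' (G := A) (x := ⟨a, ha⟩)
    exact congrArg Subtype.val this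
  have hb := Nat.gcd_eq_gcd_ab m n
  rw [h.gcd_eq_one, Nat.cast_one] at hb
  have e : a = (a ^ n) ^ (Nat.gcdB m n) * (a ^ m) ^ (Nat.gcdA m n) := by
    rw [← zpow_natCast a n, ← zpow_natCast a m, ← zpow_mul, ← zpow_mul, ← zpow_add]
    have : (n : ℤ) * Nat.gcdB m n + (m : ℤ) * Nat.gcdA m n = 1 := by rw [hb]; ring
    rw [this, zpow_one]
  rw [e]
  apply Subgroup.mul_mem_sup
  · apply Subgroup.zpow_mem
    rw [mem_tor]
    refine ⟨A.pow_mem ha n, ?_⟩
    rw [← pow_mul, mul_comm]; exact haN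
  · apply Subgroup.zpow_mem
    rw [mem_tor]
    refine ⟨A.pow_mem ha m, ?_⟩
    rw [← pow_mul]; exact haN

theorem step1 {G : Type*} [Group G] [Finite G] (A : Subgroup G) [hAn : A.Normal]
    (hc : ∀ x ∈ A, ∀ y ∈ A, x * y = y * x) (p : ℕ) (hp : p.Prime)
    (K : Subgroup G) (hK : K ⊓ A = ⊥) (hidx : ¬ p ∣ (K ⊔ A).index) :
    ∃ H : Subgroup G, Subgroup.IsComplement' (tor A hc (p ^ (Nat.card A).factorization p)) H := by
  have hN : Nat.card A ≠ 0 := Nat.card_pos.ne'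
  obtain ⟨k, hk⟩ : ∃ k : ℕ, k = (Nat.card A).factorization p := ⟨_, rfl⟩
  obtain ⟨m, hm⟩ : ∃ m : ℕ, m = Nat.card A / p ^ k := ⟨_, rfl⟩
  have hmul : p ^ k * m = Nat.card A := by
    rw [hm, hk]; exact Nat.ordProj_mul_ordCompl_eq_self _ _
  have hndvd : ¬ p ∣ m := by
    rw [hm, hk]; exact Nat.not_dvd_ordCompl hp hN
  have hcop : Nat.Coprime (p ^ k) m := Nat.Coprime.pow_left k ((Nat.Prime.coprime_iff_not_dvd hp).mpr hndvd)
  rw [← hk]
  have hn1 : (tor A hc (p ^ k)).Normal := tor_normal A hc _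
  have hn2 : (tor A hc m).Normal := tor_normal A hc _
  have hc1 : IsMulCommutative (tor A hc (p ^ k)) := tor_comm A hc _
  have hpg : IsPGroup p (tor A hc (p ^ k)) := by
    intro x
    refine ⟨k, ?_⟩
    apply Subtype.ext
    rw [Subgroup.coe_pow]
    exact x.2.2
  have hfact : Fact p.Prime := ⟨hp⟩
  obtain ⟨j, hj⟩ := IsPGroup.iff_card.mp hpg
  have hcop2 : (Nat.card (tor A hc (p ^ k))).Coprime (K ⊔ A).index := by
    rw [hj]
    exact Nat.Coprime.pow_left j ((Nat.Prime.coprime_iff_not_dvd hp).mpr hidx)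
  refine Cfsg.Agent.S0051.result (tor A hc (p ^ k)) (K ⊔ A)
    ((tor_le A hc _).trans le_sup_right) hcop2 (K ⊔ tor A hc m)
    (sup_le_sup_left (tor_le A hc m) K) ?_ ?_
  · rw [eq_bot_iff]
    intro x hx
    rw [Subgroup.mem_inf] at hx
    obtain ⟨hx1, hx2⟩ := hx
    have hx1' : x ∈ ((K ⊔ tor A hc m : Subgroup G) : Set G) := hx1
    rw [Subgroup.mul_normal] at hx1'
    obtain ⟨u, hu, v, hv, huv⟩ := Set.mem_mul.mp hx1'
    have huA : u ∈ A := by
      have e : u = x * v⁻¹ := by rw [← huv]; group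
      rw [e]
      exact A.mul_mem (tor_le A hc _ hx2) (A.inv_mem (tor_le A hc _ hv))
    have hu1 : u = 1 := by
      have : u ∈ K ⊓ A := Subgroup.mem_inf.mpr ⟨hu, huA⟩
      rw [hK, Subgroup.mem_bot] at this
      exact this
    have hxv : x = v := by rw [← huv, hu1, one_mul]
    have : x ∈ tor A hc (p ^ k) ⊓ tor A hc m := Subgroup.mem_inf.mpr ⟨hx2, by rw [hxv]; exact hv⟩
    rw [tor_inf A hc _ _ hcop] at this
    exact this
  · rw [sup_left_comm, tor_sup A hc _ _ hcop hmul]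

theorem mem_of_coprime {G : Type*} [Group G] [Finite G] (A : Subgroup G)
    (hc : ∀ x ∈ A, ∀ y ∈ A, x * y = y * x) (q : ℕ) (H : Subgroup G)
    (hH : Subgroup.IsComplement' (tor A hc q) H) (a : G) (ha : a ∈ A) (n : ℕ) (hn : a ^ n = 1)
    (hcop : Nat.Coprime n q) : a ∈ H := by
  obtain ⟨⟨c, h⟩, hch, -⟩ := hH.existsUnique a
  have hch' : (c : G) * (h : G) = a := hch
  have hcA : (c : G) ∈ A := c.2.1
  have hhA : (h : G) ∈ A := by
    have e : (h : G) = (c : G)⁻¹ * a := by rw [← hch']; group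
    rw [e]; exact A.mul_mem (A.inv_mem hcA) ha
  have hcomm : Commute (c : G) (h : G) := hc _ hcA _ hhA
  have h1 : (c : G) ^ n * (h : G) ^ n = 1 := by rw [← hcomm.mul_pow, hch', hn]
  have h2 : (h : G) ^ n ∈ tor A hc q := by
    have e : (h : G) ^ n = ((c : G) ^ n)⁻¹ := eq_inv_of_mul_eq_one_right h1
    rw [e]
    exact (tor A hc q).inv_mem ((tor A hc q).pow_mem c.2 n)
  have h3 : (h : G) ^ n = 1 := by
    have := Subgroup.disjoint_def.mp hH.disjoint h2 (H.pow_mem h.2 n)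
    exact this
  have h4 : (c : G) ^ n = 1 := by rw [h3, mul_one] at h1; exact h1
  have h5 : (c : G) = 1 := eq_one_of_pow_coprime _ n q hcop h4 c.2.2
  rw [← hch', h5, one_mul]
  exact h.2

theorem exists_compl {G : Type*} [Group G] [Finite G] (A : Subgroup G) [hAn : A.Normal]
    (hc : ∀ x ∈ A, ∀ y ∈ A, x * y = y * x)
    (h : ∀ p : ℕ, p.Prime → p ∣ Nat.card A → ∃ K : Subgroup G, K ⊓ A = ⊥ ∧ ¬ p ∣ (K ⊔ A).index) :
    ∃ H : Subgroup G, H.IsComplement' A := by
  have hN : Nat.card A ≠ 0 := Nat.card_pos.ne'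
  have h1 : ∀ p : ℕ, ∃ H : Subgroup G, p.Prime → p ∣ Nat.card A →
      Subgroup.IsComplement' (tor A hc (p ^ (Nat.card A).factorization p)) H := by
    intro p
    by_cases hp : p.Prime ∧ p ∣ Nat.card A
    · obtain ⟨K, hK, hidx⟩ := h p hp.1 hp.2
      obtain ⟨H, hH⟩ := step1 A hc p hp.1 K hK hidx
      exact ⟨H, fun _ _ => hH⟩
    · exact ⟨⊤, fun h1 h2 => absurd ⟨h1, h2⟩ hp⟩
  choose Hc hHc using h1
  have hF3 : ∀ T : Finset ℕ, (∀ p ∈ T, p.Prime ∧ p ∣ Nat.card A) →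
      ∀ g : G, ∃ x : G, (∀ p ∈ T, x ∈ Hc p) ∧ x⁻¹ * g ∈ A := by
    intro T
    induction T using Finset.induction_on with
    | empty =>
      intro _ g
      exact ⟨g, fun p hp => absurd hp (Finset.notMem_empty p), by rw [inv_mul_cancel]; exact A.one_mem⟩
    | insert q T' hq ih =>
      intro hT g
      obtain ⟨x, hx1, hx2⟩ := ih (fun p hp => hT p (Finset.mem_insert_of_mem hp)) g
      have hqp := hT q (Finset.mem_insert_self q T')
      have hcq := hHc q hqp.1 hqp.2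
      obtain ⟨⟨c, y⟩, hcy, -⟩ := hcq.existsUnique x
      have hcy' : (c : G) * (y : G) = x := hcy
      have hcA : (c : G) ∈ A := c.2.1
      refine ⟨(y : G), ?_, ?_⟩
      · intro p hp
        rw [Finset.mem_insert] at hp
        rcases hp with hp | hp
        · rw [hp]; exact y.2
        · have hpp := hT p (Finset.mem_insert_of_mem hp)
          have hne : q ≠ p := fun e => hq (e ▸ hp)
          have hcp : (c : G) ∈ Hc p := by
            apply mem_of_coprime A hc _ (Hc p) (hHc p hpp.1 hpp.2) (c : G) hcA _ c.2.2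
            apply Nat.Coprime.pow_left
            apply Nat.Coprime.pow_right
            exact (Nat.coprime_primes hqp.1 hpp.1).mpr hne
          have e : (y : G) = (c : G)⁻¹ * x := by rw [← hcy']; group
          rw [e]
          exact (Hc p).mul_mem ((Hc p).inv_mem hcp) (hx1 p hp)
      · have e : (y : G)⁻¹ * g = (x⁻¹ * (c : G) * x⁻¹⁻¹) * (x⁻¹ * g) := by
          rw [← hcy']; group
        rw [e]
        exact A.mul_mem (hAn.conj_mem _ hcA _) hx2
  refine ⟨⨅ p ∈ (Nat.card A).primeFactors, Hc p,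
    Subgroup.isComplement'_of_disjoint_and_mul_eq_univ ?_ ?_⟩
  · rw [Subgroup.disjoint_def]
    intro x hxH hxA
    simp only [Subgroup.mem_iInf] at hxH
    by_contra hx1
    have ho : orderOf x ≠ 1 := fun h => hx1 (orderOf_eq_one_iff.mp h)
    have hopos : 0 < orderOf x := orderOf_pos x
    obtain ⟨p, hp⟩ : ∃ p : ℕ, p = (orderOf x).minFac := ⟨_, rfl⟩
    have hpp : p.Prime := by rw [hp]; exact Nat.minFac_prime ho
    have hpo : p ∣ orderOf x := by rw [hp]; exact Nat.minFac_dvd _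
    have hpN : p ∣ Nat.card A := hpo.trans (Subgroup.orderOf_dvd_natCard A hxA)
    have hpT : p ∈ (Nat.card A).primeFactors := Nat.mem_primeFactors.mpr ⟨hpp, hpN, hN⟩
    have hcomp := hHc p hpp hpN
    have hy1 : (x ^ (orderOf x / p)) ^ p = 1 := by
      rw [← pow_mul, Nat.div_mul_cancel hpo, pow_orderOf_eq_one]
    have hk : (Nat.card A).factorization p ≠ 0 :=
      (Nat.Prime.factorization_pos_of_dvd hpp hN hpN).ne'
    have hy2 : x ^ (orderOf x / p) ∈ tor A hc (p ^ (Nat.card A).factorization p) := by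
      rw [mem_tor]
      refine ⟨A.pow_mem hxA _, ?_⟩
      obtain ⟨d, hd⟩ := dvd_pow_self p hk
      rw [hd, pow_mul, hy1, one_pow]
    have hy3 : x ^ (orderOf x / p) = 1 :=
      Subgroup.disjoint_def.mp hcomp.disjoint hy2 ((Hc p).pow_mem (hxH p hpT) _)
    have hd := orderOf_dvd_of_pow_eq_one hy3
    have hlt : orderOf x / p < orderOf x := Nat.div_lt_self hopos hpp.one_lt
    have hpos : 0 < orderOf x / p := Nat.div_pos (Nat.le_of_dvd hopos hpo) hpp.pos
    have := Nat.le_of_dvd hpos hd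
    omega
  · ext g
    simp only [Set.mem_univ, iff_true]
    obtain ⟨x, hx1, hx2⟩ := hF3 (Nat.card A).primeFactors
      (fun p hp => ⟨(Nat.mem_primeFactors.mp hp).1, (Nat.mem_primeFactors.mp hp).2.1⟩) g
    refine Set.mem_mul.2 ⟨x, ?_, x⁻¹ * g, hx2, by group⟩
    rw [SetLike.mem_coe]
    simp only [Subgroup.mem_iInf]
    exact hx1

theorem result {G : Type*} [Group G] [Finite G] (A : Subgroup G) [A.Normal] (hA : IsMulCommutative A) : (∃ K : Subgroup G, K.IsComplement' A) ↔ ∀ p : ℕ, p.Prime → p ∣ A.index → ∃ (S : Sylow p (G ⧸ A)) (K : Subgroup G), K ⊓ A = ⊥ ∧ K ⊔ A = (S : Subgroup (G ⧸ A)).comap (QuotientGroup.mk' A) := by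
  have hc : ∀ x ∈ A, ∀ y ∈ A, x * y = y * x := by
    intro x hx y hy
    have := hA.is_comm.comm (⟨x, hx⟩ : A) ⟨y, hy⟩
    exact congrArg Subtype.val this
  constructor
  · rintro ⟨K, hK⟩ p hp hpA
    have hfact : Fact p.Prime := ⟨hp⟩
    obtain ⟨φ, hφ⟩ : ∃ φ : K →* G ⧸ A, φ = (QuotientGroup.mk' A).comp K.subtype := ⟨_, rfl⟩
    have hsurj : Function.Surjective φ := by
      intro q
      obtain ⟨g, hg⟩ := QuotientGroup.mk'_surjective A q
      obtain ⟨⟨k, a⟩, hka, -⟩ := hK.existsUnique g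
      have hka' : (k : G) * (a : G) = g := hka
      refine ⟨k, ?_⟩
      rw [hφ, MonoidHom.comp_apply, ← hg]
      show QuotientGroup.mk' A (k : G) = QuotientGroup.mk' A g
      rw [QuotientGroup.mk'_apply, QuotientGroup.mk'_apply, QuotientGroup.eq, ← hka']
      have e : (k : G)⁻¹ * ((k : G) * (a : G)) = a := by group
      rw [e]; exact a.2
    obtain ⟨P⟩ : Nonempty (Sylow p K) := inferInstance
    refine ⟨P.mapSurjective hsurj, (P : Subgroup K).map K.subtype, ?_, ?_⟩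
    · rw [eq_bot_iff]
      intro x hx
      rw [Subgroup.mem_inf] at hx
      have hxK : x ∈ K := by
        obtain ⟨y, -, hy⟩ := Subgroup.mem_map.mp hx.1
        rw [← hy]; exact y.2
      exact Subgroup.disjoint_def.mp hK.disjoint hxK hx.2
    · rw [Sylow.coe_mapSurjective, hφ, ← Subgroup.map_map, Subgroup.comap_map_eq,
        QuotientGroup.ker_mk']
  · intro h
    apply exists_compl A hc
    intro p hp hpA
    by_cases hidx : p ∣ A.index
    · obtain ⟨S, K, hK1, hK2⟩ := h p hp hidx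
      have hfact : Fact p.Prime := ⟨hp⟩
      refine ⟨K, hK1, ?_⟩
      rw [hK2, Subgroup.index_comap_of_surjective _ (QuotientGroup.mk'_surjective A)]
      exact S.not_dvd_index
    · refine ⟨⊥, bot_inf_eq _, ?_⟩
      rw [bot_sup_eq]; exact hidx

end Cfsg.Agent.S4217
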