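import Mathlib
import Cfsg.Statements.S2004
import Cfsg.Agent.Lib.Helper9.PStab

set_option autoImplicit false
open Cfsg

namespace Cfsg.Agent.S2004

/-- Let p be an odd prime and G a finite group such that SL₂(p) is not involved in N_G(P) for any nonidentity p-subgroup P of G. Then every section of G is p-stable in the normalizer form: in each section, whenever an element of the normalizer of a p-subgroup Q acts quadratically on Q, its image in N(Q)/C(Q) lies in O_p(N(Q)/C(Q)). -/
theorem result {G : Type*} [Group G] [Finite G] {p : ℕ} [Fact p.Prime] (hp : p ≠ 2) (h : ∀ P : Subgroup G, IsPGroup p ↥P → P ≠ ⊥ → ¬ Cfsg.Involves (Matrix.SpecialLinearGroup (Fin 2) (ZMod p)) ↥(Subgroup.normalizer ((P : Subgroup G) : Set G))) : ∀ (K R : Subgroup G) [hR : (R.subgroupOf K).Normal], Cfsg.IsNormalizerPStable p (↥K ⧸ R.subgroupOf K) := by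
  intro K R hR Pb hPb g hg hquad
  by_cases hne : Pb = ⊥
  · have h1 : (QuotientGroup.mk (s := (Subgroup.centralizer (Pb : Set (↥K ⧸ R.subgroupOf K))).subgroupOf
        (Subgroup.normalizer (Pb : Set (↥K ⧸ R.subgroupOf K))))
        (⟨g, hg⟩ : ↥(Subgroup.normalizer (Pb : Set (↥K ⧸ R.subgroupOf K))))) = 1 := by
      rw [QuotientGroup.eq_one_iff, Subgroup.mem_subgroupOf, Subgroup.mem_centralizer_iff]
      intro x hx
      rw [SetLike.mem_coe, hne, Subgroup.mem_bot] at hx
      rw [hx, one_mul, mul_one]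
    rw [h1]
    exact Subgroup.one_mem _
  · apply Cfsg.Agent.Lib.Helper9.PStab.pstab_normalizer p hp Pb hPb g hg hquad
    intro hS
    obtain ⟨P₀, hP₀, hP₀ne, hS₀⟩ :=
      Cfsg.Agent.Lib.Helper9.PStab.hasSL2_normalizer_section K R Pb hPb hne hS
    exact h P₀ hP₀ hP₀ne hS₀.involves

end Cfsg.Agent.S2004
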