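import Cfsg.Statements.S0751
import Mathlib
import Cfsg.Agent.Lib.Helper5.Witt

set_option autoImplicit false
open Cfsg

namespace Cfsg.Agent.S0751

open Cfsg.Agent.Lib.Helper5.Witt

theorem isom_equiv {F V : Type*} [Field F] [AddCommGroup V] [Module F V]
    [FiniteDimensional F V] (σ : F →+* F) (B : V →ₛₗ[σ] V →ₗ[F] F)
    (hB : B.Nondegenerate) (g : V →ₗ[F] V)
    (hg : ∀ a b, B (g a) (g b) = B a b) : ∃ e : V ≃ₗ[F] V, ∀ v, e v = g v := by
  have hinj : Function.Injective g := by
    rw [← LinearMap.ker_eq_bot, LinearMap.ker_eq_bot']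
    intro v hv
    apply hB.1 v
    intro w
    rw [← hg v w, hv]
    simp
  exact ⟨LinearEquiv.ofInjectiveEndo g hinj, fun v => by rw [LinearEquiv.coe_ofInjectiveEndo]⟩

theorem exists_repr {F V : Type*} [Field F] [Finite F] [AddCommGroup V] [Module F V]
    [FiniteDimensional F V] (σ : F →+* F) (B : V →ₛₗ[σ] V →ₗ[F] F) (hB : B.Nondegenerate)
    (l : Module.Dual F V) : ∃ z, ∀ w, B z w = l w := by
  have hfin : Finite V := Module.finite_of_finite F
  have hfin' : Finite (Module.Dual F V) := Module.finite_of_finite F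
  have hinj : Function.Injective (fun z : V => (B z : Module.Dual F V)) := by
    intro a b hab
    have h1 : B (a - b) = 0 := by
      rw [map_sub]
      exact sub_eq_zero.mpr hab
    have h2 := hB.1 (a - b) (fun w => by rw [h1]; rfl)
    exact sub_eq_zero.mp h2
  have hcard : Nat.card (Module.Dual F V) ≤ Nat.card V :=
    le_of_eq (Nat.card_congr (Module.finBasis F V).toDualEquiv.toEquiv).symm
  have hbij := hinj.bijective_of_nat_card_le hcard
  obtain ⟨z, hz⟩ := hbij.2 l
  exact ⟨z, fun w => by rw [← hz]⟩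

theorem exists_trace_one {F : Type*} [Field F] (σ : F →+* F) (hσ : σ ≠ RingHom.id F)
    (hσ2 : ∀ a, σ (σ a) = a) : ∃ t : F, t + σ t = 1 := by
  have hex : ∃ c : F, σ c ≠ c := by
    by_contra h
    push Not at h
    exact hσ (RingHom.ext h)
  obtain ⟨c, hc⟩ := hex
  have h1 : c - σ c ≠ 0 := fun h => hc (sub_eq_zero.mp h).symm
  have h2 : σ c - c ≠ 0 := fun h => hc (sub_eq_zero.mp h)
  refine ⟨c / (c - σ c), ?_⟩
  rw [map_div₀, map_sub, hσ2]
  field_simp
  ring

theorem refl_isom {F V : Type*} [Field F] [AddCommGroup V] [Module F V] (σ : F →+* F)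
    (B : V →ₛₗ[σ] V →ₗ[F] F) (hS : B.IsSymm) (u x : V) (hux : B u x ≠ 0)
    (hR : B x u + B u x + B u u = 0) (w w' : V) :
    B (w + (B u w / B u x) • u) (w' + (B u w' / B u x) • u) = B w w' := by
  have hxu : B x u ≠ 0 := by
    rw [← hS.eq u x]
    exact (map_ne_zero σ).mpr hux
  have h1 : B w u = σ (B u w) := (hS.eq u w).symm
  have h0 : σ (B u x) = B x u := hS.eq u x
  have huu : B u u = - B x u - B u x := by linear_combination hR
  simp only [map_add, map_smulₛₗ, LinearMap.add_apply, LinearMap.smul_apply, RingHom.id_apply,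
    smul_eq_mul, map_div₀, h1, h0, huu]
  field_simp
  ring

theorem siegel_isom {F V : Type*} [Field F] [AddCommGroup V] [Module F V] (σ : F →+* F)
    (hσ2 : ∀ a : F, σ (σ a) = a) (B : V →ₛₗ[σ] V →ₗ[F] F) (hS : B.IsSymm) (u z : V) (a : F)
    (l : Module.Dual F V) (hl : 1 + l u ≠ 0) (huu : B u u = 0) (hz : ∀ w, B z w = - l w)
    (ha : B z z = - a - σ a) (w w' : V) :
    B (w + l w • u + (B u w / (1 + σ (l u))) • (z + a • u))
      (w' + l w' • u + (B u w' / (1 + σ (l u))) • (z + a • u)) = B w w' := by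
  have hl' : 1 + σ (l u) ≠ 0 := by
    intro h
    apply hl
    have h9 := congrArg σ h
    rw [map_add, map_one, hσ2, map_zero] at h9
    exact h9
  have h1 : B w u = σ (B u w) := (hS.eq u w).symm
  have h2 : B w z = - σ (l w) := by rw [← hS.eq z w, hz, map_neg]
  have h3 : B u z = - σ (l u) := by rw [← hS.eq z u, hz, map_neg]
  simp only [map_add, map_smulₛₗ, LinearMap.add_apply, LinearMap.smul_apply, RingHom.id_apply,
    smul_eq_mul, map_div₀, map_one, hσ2, h1, h2, h3, huu, hz w', hz u, ha]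
  field_simp
  ring

theorem step {F V : Type*} [Field F] [Finite F] [AddCommGroup V] [Module F V]
    [FiniteDimensional F V] (σ : F →+* F) (hσ : σ ≠ RingHom.id F)
    (hσ2 : ∀ a : F, σ (σ a) = a) (B : V →ₛₗ[σ] V →ₗ[F] F) (hS : B.IsSymm)
    (hB : B.Nondegenerate) (f : V →ₗ[F] V) (X : Submodule F V)
    (hfB : ∀ a ∈ X, ∀ b ∈ X, B (f a) (f b) = B a b) (hfinj : ∀ x ∈ X, f x = 0 → x = 0)
    (H : Submodule F V) (hHX : H ≤ X) (g₀ : V ≃ₗ[F] V) (hg₀ : ∀ a b, B (g₀ a) (g₀ b) = B a b)
    (hg₀H : ∀ h ∈ H, g₀ h = f h) (x : V) (hxX : x ∈ X) (hxH : x ∉ H) :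
    ∃ g : V ≃ₗ[F] V, (∀ a b, B (g a) (g b) = B a b) ∧ (∀ h ∈ H, g h = f h) ∧ g x = f x := by
  obtain ⟨y, hy⟩ : ∃ y, y = g₀.symm (f x) := ⟨_, rfl⟩
  have hg₀y : g₀ y = f x := by rw [hy, LinearEquiv.apply_symm_apply]
  have hyH : y ∉ H := by
    intro hyH
    have h1 : f (x - y) = 0 := by
      rw [map_sub, ← hg₀H y hyH, hg₀y, sub_self]
    have h2 := hfinj (x - y) (X.sub_mem hxX (hHX hyH)) h1
    apply hxH
    rw [sub_eq_zero.mp h2]
    exact hyH
  obtain ⟨u, hu⟩ : ∃ u, u = y - x := ⟨_, rfl⟩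
  have hyu : y = x + u := by rw [hu]; abel
  have huH : ∀ h ∈ H, B u h = 0 := by
    intro h hh
    have h1 : B y h = B x h := by
      rw [← hg₀ y h, hg₀y, hg₀H h hh, hfB x hxX h (hHX hh)]
    rw [hu, map_sub, LinearMap.sub_apply, h1, sub_self]
  have hyy : B y y = B x x := by
    rw [← hg₀ y y, hg₀y, hfB x hxX x hxX]
  have hR : B x u + B u x + B u u = 0 := by
    rw [hyu] at hyy
    simp only [map_add, LinearMap.add_apply] at hyy
    linear_combination hyy
  have key : ∃ g₁ : V →ₗ[F] V, (∀ a b, B (g₁ a) (g₁ b) = B a b) ∧ (∀ h ∈ H, g₁ h = h) ∧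
      g₁ x = y := by
    by_cases hux : B u x = 0
    · have hxu : B x u = 0 := by rw [← hS.eq u x, hux, map_zero]
      have huu : B u u = 0 := by
        rw [hxu, hux] at hR
        linear_combination hR
      obtain ⟨l, hlH, hlx, hly⟩ := exists_functional H x y hxH hyH
      have hlu : 1 + l u = l y := by rw [hyu, map_add, hlx]
      have hl1 : 1 + l u ≠ 0 := by rw [hlu]; exact hly
      obtain ⟨z, hz⟩ := exists_repr σ B hB (-l)
      have hzw : ∀ w, B z w = - l w := fun w => by rw [hz w]; rfl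
      obtain ⟨t, ht⟩ := exists_trace_one σ hσ hσ2
      have hzz : σ (B z z) = B z z := hS.eq z z
      obtain ⟨a, ha⟩ : ∃ a, a = - B z z * t := ⟨_, rfl⟩
      have haz : B z z = - a - σ a := by
        rw [ha, map_mul, map_neg, hzz]
        linear_combination (- B z z) * ht
      refine ⟨LinearMap.id + l.smulRight u +
        (((1 + σ (l u))⁻¹ • (B u)).smulRight (z + a • u)), ?_, ?_, ?_⟩
      · intro c d
        have h1 := siegel_isom σ hσ2 B hS u z a l hl1 huu hzw haz c d
        rw [← h1]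
        simp only [LinearMap.add_apply, LinearMap.id_apply, LinearMap.smulRight_apply,
          LinearMap.smul_apply, smul_eq_mul, div_eq_inv_mul]
      · intro h hh
        simp only [LinearMap.add_apply, LinearMap.id_apply, LinearMap.smulRight_apply,
          LinearMap.smul_apply, smul_eq_mul,
          hlH h hh, huH h hh, mul_zero, zero_smul, add_zero]
      · simp only [LinearMap.add_apply, LinearMap.id_apply, LinearMap.smulRight_apply,
          LinearMap.smul_apply, smul_eq_mul,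
          hlx, hux, mul_zero, zero_smul, add_zero, one_smul]
        exact hyu.symm
    · refine ⟨LinearMap.id + (((B u x)⁻¹ • (B u)).smulRight u), ?_, ?_, ?_⟩
      · intro c d
        have h1 := refl_isom σ B hS u x hux hR c d
        rw [← h1]
        simp only [LinearMap.add_apply, LinearMap.id_apply, LinearMap.smulRight_apply,
          LinearMap.smul_apply, smul_eq_mul, div_eq_inv_mul]
      · intro h hh
        simp only [LinearMap.add_apply, LinearMap.id_apply, LinearMap.smulRight_apply,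
          LinearMap.smul_apply, smul_eq_mul,
          huH h hh, mul_zero, zero_smul, add_zero]
      · simp only [LinearMap.add_apply, LinearMap.id_apply, LinearMap.smulRight_apply,
          LinearMap.smul_apply, smul_eq_mul]
        rw [inv_mul_cancel₀ hux, one_smul]
        exact hyu.symm
  obtain ⟨g₁, hg₁B, hg₁H, hg₁x⟩ := key
  obtain ⟨e₁, he₁⟩ := isom_equiv σ B hB g₁ hg₁B
  refine ⟨e₁.trans g₀, ?_, ?_, ?_⟩
  · intro a b
    rw [LinearEquiv.trans_apply, LinearEquiv.trans_apply, hg₀, he₁, he₁, hg₁B]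
  · intro h hh
    rw [LinearEquiv.trans_apply, he₁, hg₁H h hh, hg₀H h hh]
  · rw [LinearEquiv.trans_apply, he₁, hg₁x, hg₀y]

/-- Witt's Lemma for Hermitian forms. Let σ be a non-identity involutive automorphism of a finite field F and B a non-degenerate σ-sesquilinear form on a finite-dimensional F-space V which is conjugate-symmetric (σ (B x y) = B y x). Then every linear equivalence between subspaces X, Y of V preserving B extends to a B-preserving linear automorphism of V. -/
theorem result {F V : Type*} [Field F] [Finite F] [AddCommGroup V] [Module F V] [FiniteDimensional F V] (σ : F →+* F) (hσ : σ ≠ RingHom.id F) (hσ2 : ∀ a : F, σ (σ a) = a) (B : V →ₛₗ[σ] V →ₗ[F] F) (hS : B.IsSymm) (hB : B.Nondegenerate) (X Y : Submodule F V) (φ : X ≃ₗ[F] Y) (hφ : ∀ x x' : X, B (φ x : V) (φ x' : V) = B (x : V) (x' : V)) : ∃ g : V ≃ₗ[F] V, (∀ u v : V, B (g u) (g v) = B u v) ∧ ∀ x : X, g (x : V) = (φ x : V) := by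
  obtain ⟨f, hf⟩ := LinearMap.exists_extend (Y.subtype ∘ₗ (φ : X →ₗ[F] Y))
  have hfx : ∀ x : X, f (x : V) = (φ x : V) := by
    intro x
    have h1 := congrArg (fun k => k x) hf
    simpa using h1
  have hfB : ∀ a ∈ X, ∀ b ∈ X, B (f a) (f b) = B a b := by
    intro a ha b hb
    have h1 := hfx ⟨a, ha⟩
    have h2 := hfx ⟨b, hb⟩
    simp only at h1 h2
    rw [h1, h2]
    exact hφ ⟨a, ha⟩ ⟨b, hb⟩
  have hfinj : ∀ x ∈ X, f x = 0 → x = 0 := by
    intro x hx h0
    have h1 := hfx ⟨x, hx⟩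
    simp only at h1
    rw [h0] at h1
    have h2 : φ ⟨x, hx⟩ = 0 := Subtype.ext h1.symm
    have h3 := φ.map_eq_zero_iff.mp h2
    exact congrArg Subtype.val h3
  obtain ⟨g, hg, hgX⟩ := witt_induction (fun g : V ≃ₗ[F] V => ∀ a b, B (g a) (g b) = B a b) f X
    (fun a b => rfl)
    (fun H hHX g₀ hg₀ hg₀H x hxX hxH =>
      step σ hσ hσ2 B hS hB f X hfB hfinj H hHX g₀ hg₀ hg₀H x hxX hxH)
  exact ⟨g, hg, fun x => by rw [hgX x x.2, hfx]⟩

end Cfsg.Agent.S0751
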