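import Cfsg.Statements.S0749
import Mathlib
import Cfsg.Agent.Lib.Helper5.Witt

set_option autoImplicit false
open Cfsg

namespace Cfsg.Agent.S0749

open Cfsg.Agent.Lib.Helper5.Witt

theorem isom_equiv {F V : Type*} [Field F] [AddCommGroup V] [Module F V]
    [FiniteDimensional F V] (B : LinearMap.BilinForm F V)
    (hB : B.Nondegenerate) (g : V →ₗ[F] V)
    (hg : ∀ a b, B (g a) (g b) = B a b) : ∃ e : V ≃ₗ[F] V, ∀ v, e v = g v := by
  have hinj : Function.Injective g := by
    rw [← LinearMap.ker_eq_bot, LinearMap.ker_eq_bot']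
    intro v hv
    apply hB.1 v
    intro w
    rw [← hg v w, hv]
    simp
  exact ⟨LinearEquiv.ofInjectiveEndo g hinj, fun v => by rw [LinearEquiv.coe_ofInjectiveEndo]⟩

theorem transv_isom {F V : Type*} [Field F] [AddCommGroup V] [Module F V]
    (B : LinearMap.BilinForm F V) (hA : B.IsAlt) (u x : V) (hux : B u x ≠ 0) (w w' : V) :
    B (w + (B u w / B u x) • u) (w' + (B u w' / B u x) • u) = B w w' := by
  have h1 : B w u = - B u w := (hA.neg_eq u w).symm
  have h4 : B u u = 0 := hA.self_eq_zero u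
  simp only [map_add, map_smul, LinearMap.add_apply, LinearMap.smul_apply, smul_eq_mul, h1, h4]
  field_simp
  ring

theorem siegel_isom {F V : Type*} [Field F] [AddCommGroup V] [Module F V]
    (B : LinearMap.BilinForm F V) (hA : B.IsAlt) (u z : V) (l : Module.Dual F V)
    (hl : 1 + l u ≠ 0) (hz : ∀ w, B z w = - l w) (w w' : V) :
    B (w + l w • u + (B w u / (1 + l u)) • z) (w' + l w' • u + (B w' u / (1 + l u)) • z)
      = B w w' := by
  have h1 : B u w' = - B w' u := (hA.neg_eq w' u).symm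
  have h2 : B w z = l w := by rw [← hA.neg_eq, hz]; ring
  have h3 : B u z = l u := by rw [← hA.neg_eq, hz]; ring
  have h4 : B u u = 0 := hA.self_eq_zero u
  have h5 : B z z = 0 := hA.self_eq_zero z
  simp only [map_add, map_smul, LinearMap.add_apply, LinearMap.smul_apply, smul_eq_mul, h1, h2,
    h3, h4, h5, hz]
  field_simp
  ring

theorem step {F V : Type*} [Field F] [AddCommGroup V] [Module F V]
    [FiniteDimensional F V] (B : LinearMap.BilinForm F V)
    (hB : B.Nondegenerate) (hA : B.IsAlt) (f : V →ₗ[F] V) (X : Submodule F V)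
    (hfB : ∀ a ∈ X, ∀ b ∈ X, B (f a) (f b) = B a b) (hfinj : ∀ x ∈ X, f x = 0 → x = 0)
    (H : Submodule F V) (hHX : H ≤ X) (g₀ : V ≃ₗ[F] V) (hg₀ : ∀ a b, B (g₀ a) (g₀ b) = B a b)
    (hg₀H : ∀ h ∈ H, g₀ h = f h) (x : V) (hxX : x ∈ X) (hxH : x ∉ H) :
    ∃ g : V ≃ₗ[F] V, (∀ a b, B (g a) (g b) = B a b) ∧ (∀ h ∈ H, g h = f h) ∧ g x = f x := by
  obtain ⟨y, hy⟩ : ∃ y, y = g₀.symm (f x) := ⟨_, rfl⟩
  have hg₀y : g₀ y = f x := by rw [hy, LinearEquiv.apply_symm_apply]
  have hyH : y ∉ H := by
    intro hyH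
    have h1 : f (x - y) = 0 := by
      rw [map_sub, ← hg₀H y hyH, hg₀y, sub_self]
    have h2 := hfinj (x - y) (X.sub_mem hxX (hHX hyH)) h1
    apply hxH
    rw [sub_eq_zero.mp h2]
    exact hyH
  obtain ⟨u, hu⟩ : ∃ u, u = y - x := ⟨_, rfl⟩
  have hyu : y = x + u := by rw [hu]; abel
  have huH : ∀ h ∈ H, B u h = 0 := by
    intro h hh
    have h1 : B y h = B x h := by
      rw [← hg₀ y h, hg₀y, hg₀H h hh, hfB x hxX h (hHX hh)]
    rw [hu, map_sub, LinearMap.sub_apply, h1, sub_self]
  have hHu : ∀ h ∈ H, B h u = 0 := by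
    intro h hh
    rw [← hA.neg_eq, huH h hh, neg_zero]
  have key : ∃ g₁ : V →ₗ[F] V, (∀ a b, B (g₁ a) (g₁ b) = B a b) ∧ (∀ h ∈ H, g₁ h = h) ∧
      g₁ x = y := by
    by_cases hux : B u x = 0
    · have hxu : B x u = 0 := by rw [← hA.neg_eq, hux, neg_zero]
      obtain ⟨l, hlH, hlx, hly⟩ := exists_functional H x y hxH hyH
      have hlu : 1 + l u = l y := by rw [hyu, map_add, hlx]
      have hl1 : 1 + l u ≠ 0 := by rw [hlu]; exact hly
      obtain ⟨z, hz⟩ : ∃ z, z = (LinearMap.BilinForm.toDual B hB).symm (-l) := ⟨_, rfl⟩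
      have hzw : ∀ w, B z w = - l w := by
        intro w
        have h1 := LinearMap.BilinForm.apply_toDual_symm_apply (B := B) (hB := hB) (-l) w
        rw [← hz] at h1
        rw [h1]
        rfl
      have hflip : ∀ a, B.flip u a = B a u := fun a => rfl
      refine ⟨LinearMap.id + l.smulRight u +
        (((1 + l u)⁻¹ • (B.flip u)).smulRight z), ?_, ?_, ?_⟩
      · intro a b
        have h1 := siegel_isom B hA u z l hl1 hzw a b
        rw [← h1]
        simp only [LinearMap.add_apply, LinearMap.id_apply, LinearMap.smulRight_apply,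
          LinearMap.smul_apply, hflip, smul_eq_mul, div_eq_inv_mul]
      · intro h hh
        simp only [LinearMap.add_apply, LinearMap.id_apply, LinearMap.smulRight_apply,
          LinearMap.smul_apply, hflip, smul_eq_mul,
          hlH h hh, hHu h hh, mul_zero, zero_smul, add_zero]
      · simp only [LinearMap.add_apply, LinearMap.id_apply, LinearMap.smulRight_apply,
          LinearMap.smul_apply, hflip, smul_eq_mul,
          hlx, hxu, mul_zero, zero_smul, add_zero, one_smul]
        exact hyu.symm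
    · refine ⟨LinearMap.id + (((B u x)⁻¹ • (B u)).smulRight u), ?_, ?_, ?_⟩
      · intro a b
        have h1 := transv_isom B hA u x hux a b
        rw [← h1]
        simp only [LinearMap.add_apply, LinearMap.id_apply, LinearMap.smulRight_apply,
          LinearMap.smul_apply, smul_eq_mul, div_eq_inv_mul]
      · intro h hh
        simp only [LinearMap.add_apply, LinearMap.id_apply, LinearMap.smulRight_apply,
          LinearMap.smul_apply, smul_eq_mul,
          huH h hh, mul_zero, zero_smul, add_zero]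
      · simp only [LinearMap.add_apply, LinearMap.id_apply, LinearMap.smulRight_apply,
          LinearMap.smul_apply, smul_eq_mul]
        rw [inv_mul_cancel₀ hux, one_smul]
        exact hyu.symm
  obtain ⟨g₁, hg₁B, hg₁H, hg₁x⟩ := key
  obtain ⟨e₁, he₁⟩ := isom_equiv B hB g₁ hg₁B
  refine ⟨e₁.trans g₀, ?_, ?_, ?_⟩
  · intro a b
    rw [LinearEquiv.trans_apply, LinearEquiv.trans_apply, hg₀, he₁, he₁, hg₁B]
  · intro h hh
    rw [LinearEquiv.trans_apply, he₁, hg₁H h hh, hg₀H h hh]
  · rw [LinearEquiv.trans_apply, he₁, hg₁x, hg₀y]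

/-- Witt's Lemma for alternating forms. If B is a non-degenerate alternating bilinear form on a finite-dimensional vector space V (over any field) and φ is a linear equivalence between subspaces X and Y of V preserving B, then φ extends to a B-preserving linear automorphism of V. -/
theorem result {F V : Type*} [Field F] [AddCommGroup V] [Module F V] [FiniteDimensional F V] (B : LinearMap.BilinForm F V) (hB : B.Nondegenerate) (hA : B.IsAlt) (X Y : Submodule F V) (φ : X ≃ₗ[F] Y) (hφ : ∀ x x' : X, B (φ x : V) (φ x' : V) = B (x : V) (x' : V)) : ∃ g : V ≃ₗ[F] V, (∀ u v : V, B (g u) (g v) = B u v) ∧ ∀ x : X, g (x : V) = (φ x : V) := by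
  obtain ⟨f, hf⟩ := LinearMap.exists_extend (Y.subtype ∘ₗ (φ : X →ₗ[F] Y))
  have hfx : ∀ x : X, f (x : V) = (φ x : V) := by
    intro x
    have h1 := congrArg (fun k => k x) hf
    simpa using h1
  have hfB : ∀ a ∈ X, ∀ b ∈ X, B (f a) (f b) = B a b := by
    intro a ha b hb
    have h1 := hfx ⟨a, ha⟩
    have h2 := hfx ⟨b, hb⟩
    simp only at h1 h2
    rw [h1, h2]
    exact hφ ⟨a, ha⟩ ⟨b, hb⟩
  have hfinj : ∀ x ∈ X, f x = 0 → x = 0 := by
    intro x hx h0
    have h1 := hfx ⟨x, hx⟩
    simp only at h1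
    rw [h0] at h1
    have h2 : φ ⟨x, hx⟩ = 0 := Subtype.ext h1.symm
    have h3 := φ.map_eq_zero_iff.mp h2
    exact congrArg Subtype.val h3
  obtain ⟨g, hg, hgX⟩ := witt_induction (fun g : V ≃ₗ[F] V => ∀ a b, B (g a) (g b) = B a b) f X
    (fun a b => rfl)
    (fun H hHX g₀ hg₀ hg₀H x hxX hxH => step B hB hA f X hfB hfinj H hHX g₀ hg₀ hg₀H x hxX hxH)
  exact ⟨g, hg, fun x => by rw [hgX x x.2, hfx]⟩

end Cfsg.Agent.S0749
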