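import Cfsg.Statements.S2162
import Mathlib

set_option autoImplicit false
open Cfsg

namespace Cfsg.Agent.S2162

theorem exists_sqrt {F : Type*} [Field F] [Fintype F] [CharP F 2] (x : F) : ∃ y : F, y * y = x := by
  have hinj : Function.Injective (frobenius F 2) := frobenius_inj F 2
  have hsurj : Function.Surjective (frobenius F 2) := Finite.surjective_of_injective hinj
  obtain ⟨y, hy⟩ := hsurj x
  exact ⟨y, by rw [← hy, frobenius_def, pow_two]⟩

theorem adapted {F : Type*} [Field F] {n : ℕ} (hn : 1 ≤ n) (N : Matrix (Fin n) (Fin n) F) (hN : N * N = 0)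
    (ℓ : ℕ) (hr : N.rank = ℓ) :
    ∃ (m : ℕ) (B : Module.Basis (Fin ℓ ⊕ (Fin m ⊕ Fin ℓ)) F (Fin n → F)),
      ℓ + (m + ℓ) = n ∧
      (∀ j, N.mulVec (B (Sum.inl j)) = B (Sum.inr (Sum.inr j))) ∧
      (∀ x, N.mulVec (B (Sum.inr x)) = 0) := by
  classical
  set f : (Fin n → F) →ₗ[F] (Fin n → F) := N.mulVecLin with hf
  have hff : ∀ v, f (f v) = 0 := by
    intro v
    show N.mulVec (N.mulVec v) = 0
    rw [Matrix.mulVec_mulVec, hN, Matrix.zero_mulVec]
  have hRK : LinearMap.range f ≤ LinearMap.ker f := by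
    rintro _ ⟨v, rfl⟩
    exact hff v
  have hrank : Module.finrank F (LinearMap.range f) = ℓ := hr
  have hker : Module.finrank F (LinearMap.ker f) = n - ℓ := by
    have := LinearMap.finrank_range_add_finrank_ker f
    rw [hrank, Module.finrank_fintype_fun_eq_card, Fintype.card_fin] at this
    omega
  obtain ⟨C₀, hC₀⟩ := Submodule.exists_isCompl (LinearMap.range f)
  set C := C₀ ⊓ LinearMap.ker f with hC
  have hdisj : LinearMap.range f ⊓ C = ⊥ := by
    rw [hC, ← inf_assoc, hC₀.inf_eq_bot, bot_inf_eq]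
  have hsup : LinearMap.range f ⊔ C = LinearMap.ker f := by
    rw [hC, ← sup_inf_assoc_of_le C₀ hRK, hC₀.sup_eq_top, top_inf_eq]
  have hCrank : Module.finrank F C = n - ℓ - ℓ := by
    have := Submodule.finrank_sup_add_finrank_inf_eq (LinearMap.range f) C
    rw [hsup, hdisj, finrank_bot, hker, hrank] at this
    omega
  have h2l : ℓ + ℓ ≤ n := by
    have h1 := Submodule.finrank_mono hRK
    rw [hrank, hker] at h1
    have h2 := LinearMap.finrank_range_add_finrank_ker f
    rw [hrank, hker, Module.finrank_fintype_fun_eq_card, Fintype.card_fin] at h2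
    omega
  let bR : Module.Basis (Fin ℓ) F (LinearMap.range f) := Module.finBasisOfFinrankEq F _ hrank
  let bC : Module.Basis (Fin (n - ℓ - ℓ)) F C := Module.finBasisOfFinrankEq F _ hCrank
  have hx : ∀ j, ∃ x, f x = (bR j : Fin n → F) := fun j => (bR j).2
  choose x hx using hx
  let v : Fin ℓ ⊕ (Fin (n - ℓ - ℓ) ⊕ Fin ℓ) → (Fin n → F) := fun i =>
    match i with
    | Sum.inl j => x j
    | Sum.inr (Sum.inl k) => (bC k : Fin n → F)
    | Sum.inr (Sum.inr j) => (bR j : Fin n → F)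
  have hCker : ∀ k, f (bC k : Fin n → F) = 0 := fun k => (bC k).2.2
  have hRker : ∀ j, f (bR j : Fin n → F) = 0 := fun j => hRK (bR j).2
  have hRli : LinearIndependent F (fun j => (bR j : Fin n → F)) :=
    bR.linearIndependent.map' (LinearMap.range f).subtype (Submodule.ker_subtype _)
  have hCli : LinearIndependent F (fun k => (bC k : Fin n → F)) :=
    bC.linearIndependent.map' C.subtype (Submodule.ker_subtype _)
  have hli : LinearIndependent F v := by
    rw [Fintype.linearIndependent_iff]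
    intro g hg
    rw [Fintype.sum_sum_type, Fintype.sum_sum_type] at hg
    simp only [v] at hg
    have h1 := congrArg f hg
    rw [map_add, map_add, map_sum, map_sum, map_sum, map_zero] at h1
    simp only [map_smul, hx, hCker, hRker, smul_zero, Finset.sum_const_zero, add_zero] at h1
    have hg1 : ∀ j, g (Sum.inl j) = 0 := Fintype.linearIndependent_iff.mp hRli _ h1
    simp only [hg1, zero_smul, Finset.sum_const_zero, zero_add] at hg
    have hs1C : (∑ k, g (Sum.inr (Sum.inl k)) • (bC k : Fin n → F)) ∈ C :=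
      Submodule.sum_mem _ (fun k _ => Submodule.smul_mem _ _ (bC k).2)
    have hs2R : (∑ j, g (Sum.inr (Sum.inr j)) • (bR j : Fin n → F)) ∈ LinearMap.range f :=
      Submodule.sum_mem _ (fun j _ => Submodule.smul_mem _ _ (bR j).2)
    have hs2 : (∑ j, g (Sum.inr (Sum.inr j)) • (bR j : Fin n → F)) =
        -(∑ k, g (Sum.inr (Sum.inl k)) • (bC k : Fin n → F)) := by
      rw [eq_neg_iff_add_eq_zero, add_comm]; exact hg
    have hs1R : (∑ k, g (Sum.inr (Sum.inl k)) • (bC k : Fin n → F)) ∈ LinearMap.range f := by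
      have := Submodule.neg_mem _ hs2R
      rw [hs2, neg_neg] at this
      exact this
    have hs1zero : (∑ k, g (Sum.inr (Sum.inl k)) • (bC k : Fin n → F)) = 0 := by
      have : (∑ k, g (Sum.inr (Sum.inl k)) • (bC k : Fin n → F)) ∈ LinearMap.range f ⊓ C := ⟨hs1R, hs1C⟩
      rw [hdisj] at this
      exact (Submodule.mem_bot F).mp this
    have hs2zero : (∑ j, g (Sum.inr (Sum.inr j)) • (bR j : Fin n → F)) = 0 := by
      rw [hs2, hs1zero, neg_zero]
    have hg2 : ∀ k, g (Sum.inr (Sum.inl k)) = 0 := Fintype.linearIndependent_iff.mp hCli _ hs1zero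
    have hg3 : ∀ j, g (Sum.inr (Sum.inr j)) = 0 := Fintype.linearIndependent_iff.mp hRli _ hs2zero
    rintro (j | k | j)
    · exact hg1 j
    · exact hg2 k
    · exact hg3 j
  have hcard : Fintype.card (Fin ℓ ⊕ (Fin (n - ℓ - ℓ) ⊕ Fin ℓ)) = Module.finrank F (Fin n → F) := by
    rw [Fintype.card_sum, Fintype.card_sum, Fintype.card_fin, Fintype.card_fin,
      Module.finrank_fintype_fun_eq_card, Fintype.card_fin]
    omega
  have hne : Nonempty (Fin ℓ ⊕ (Fin (n - ℓ - ℓ) ⊕ Fin ℓ)) := by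
    rw [← Fintype.card_pos_iff, hcard, Module.finrank_fintype_fun_eq_card, Fintype.card_fin]
    omega
  refine ⟨n - ℓ - ℓ, basisOfLinearIndependentOfCardEqFinrank hli hcard, by omega, ?_, ?_⟩
  · intro j
    rw [coe_basisOfLinearIndependentOfCardEqFinrank]
    exact hx j
  · intro i
    rw [coe_basisOfLinearIndependentOfCardEqFinrank]
    rcases i with k | j
    · exact hCker k
    · exact hRker j

theorem eq_zero_of_rank_zero {F : Type*} [Field F] {n : ℕ} (hn : 1 ≤ n) (N : Matrix (Fin n) (Fin n) F)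
    (hN : N * N = 0) (hr : N.rank = 0) : N = 0 := by
  obtain ⟨m, B, -, -, h2⟩ := adapted hn N hN 0 hr
  have h3 : N.mulVecLin = 0 := by
    apply B.ext
    intro i
    rcases i with j | x
    · exact Fin.elim0 j
    · exact h2 x
  apply (Matrix.toLin' (R := F) (m := Fin n) (n := Fin n)).injective
  rw [Matrix.toLin'_apply', h3, map_zero]

theorem exists_conj_matrix {F : Type*} [Field F] [Fintype F] [CharP F 2] {n : ℕ} (hn : 1 ≤ n)
    (Na Nb : Matrix (Fin n) (Fin n) F) (hNa : Na * Na = 0) (hNb : Nb * Nb = 0)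
    (ℓ : ℕ) (hℓ : 1 ≤ ℓ) (hra : Na.rank = ℓ) (hrb : Nb.rank = ℓ) :
    ∃ P : Matrix (Fin n) (Fin n) F, P.det = 1 ∧ P * Na = Nb * P := by
  classical
  obtain ⟨m, Ba, hm, ha1, ha2⟩ := adapted hn Na hNa ℓ hra
  obtain ⟨m', Bb, hm', hb1, hb2⟩ := adapted hn Nb hNb ℓ hrb
  obtain rfl : m = m' := by omega
  let φ : (Fin n → F) ≃ₗ[F] (Fin n → F) := Ba.equiv Bb (Equiv.refl _)
  have hφ : ∀ i, φ (Ba i) = Bb i := fun i => by
    show (Ba.equiv Bb (Equiv.refl _)) (Ba i) = Bb i
    rw [Module.Basis.equiv_apply, Equiv.refl_apply]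
  have hcommφ : Matrix.toLin' Nb ∘ₗ φ.toLinearMap = φ.toLinearMap ∘ₗ Matrix.toLin' Na := by
    apply Ba.ext
    intro i
    simp only [LinearMap.comp_apply, LinearEquiv.coe_coe, hφ, Matrix.toLin'_apply]
    rcases i with j | x
    · rw [hb1, ha1, hφ]
    · rw [hb2, ha2, map_zero]
  have hP : Nb * LinearMap.toMatrix' φ.toLinearMap = LinearMap.toMatrix' φ.toLinearMap * Na := by
    have := congrArg LinearMap.toMatrix' hcommφ
    rw [LinearMap.toMatrix'_comp, LinearMap.toMatrix'_comp, LinearMap.toMatrix'_toLin',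
      LinearMap.toMatrix'_toLin'] at this
    exact this
  have hdetP : (LinearMap.toMatrix' φ.toLinearMap).det ≠ 0 := by
    rw [LinearMap.det_toMatrix']
    exact (LinearEquiv.isUnit_det' φ).ne_zero
  obtain ⟨c, hc⟩ := exists_sqrt (LinearMap.toMatrix' φ.toLinearMap).det⁻¹
  let j₀ : Fin ℓ := ⟨0, hℓ⟩
  let wt : Fin ℓ ⊕ (Fin m ⊕ Fin ℓ) → F := fun i =>
    match i with
    | Sum.inl j => if j = j₀ then c else 1
    | Sum.inr (Sum.inl _) => 1
    | Sum.inr (Sum.inr j) => if j = j₀ then c else 1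
  let ζ : (Fin n → F) →ₗ[F] (Fin n → F) := Ba.constr F (fun i => wt i • Ba i)
  have hζ : ∀ i, ζ (Ba i) = wt i • Ba i := fun i => Ba.constr_basis F _ i
  have hcommζ : Matrix.toLin' Na ∘ₗ ζ = ζ ∘ₗ Matrix.toLin' Na := by
    apply Ba.ext
    intro i
    simp only [LinearMap.comp_apply, hζ, Matrix.toLin'_apply, Matrix.mulVec_smul]
    rcases i with j | x
    · rw [ha1, hζ]
    · rw [ha2, smul_zero, map_zero]
  have hZ : Na * LinearMap.toMatrix' ζ = LinearMap.toMatrix' ζ * Na := by
    have := congrArg LinearMap.toMatrix' hcommζ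
    rw [LinearMap.toMatrix'_comp, LinearMap.toMatrix'_comp, LinearMap.toMatrix'_toLin'] at this
    exact this
  have hdetZ : (LinearMap.toMatrix' ζ).det = c * c := by
    rw [LinearMap.det_toMatrix', ← LinearMap.det_toMatrix Ba]
    have hdiag : LinearMap.toMatrix Ba Ba ζ = Matrix.diagonal wt := by
      ext i j
      rw [LinearMap.toMatrix_apply, hζ, map_smul, Ba.repr_self, Matrix.diagonal_apply]
      by_cases hij : i = j
      · subst hij
        simp
      · have hji : ¬ j = i := fun h => hij h.symm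
        simp [hij, hji]
    rw [hdiag, Matrix.det_diagonal, Fintype.prod_sum_type, Fintype.prod_sum_type]
    simp only [wt]
    rw [Finset.prod_ite_eq' Finset.univ j₀ (fun _ => c)]
    simp
  refine ⟨LinearMap.toMatrix' φ.toLinearMap * LinearMap.toMatrix' ζ, ?_, ?_⟩
  · rw [Matrix.det_mul, hdetZ, hc, mul_inv_cancel₀ hdetP]
  · rw [Matrix.mul_assoc, ← hZ, ← Matrix.mul_assoc, ← hP, Matrix.mul_assoc]

theorem sub_one_sq {F : Type*} [Field F] [CharP F 2] {n : ℕ} (a : Matrix.SpecialLinearGroup (Fin n) F)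
    (ha : orderOf a = 2) : (a.1 - 1) * (a.1 - 1) = 0 := by
  have h2 : a ^ 2 = 1 := by
    have := pow_orderOf_eq_one a
    rwa [ha] at this
  have h3 : a.1 * a.1 = 1 := by
    rw [pow_two] at h2
    exact congrArg Subtype.val h2
  have h4 : a.1 + a.1 = 0 := by
    ext i j
    simp [CharTwo.add_self_eq_zero]
  have h5 : (1 : Matrix (Fin n) (Fin n) F) + 1 = 0 := by
    ext i j
    simp [CharTwo.add_self_eq_zero]
  have h6 : (a.1 - 1) * (a.1 - 1) = a.1 * a.1 - (a.1 + a.1) + 1 := by noncomm_ring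
  rw [h6, h3, h4, sub_zero, h5]

theorem result {F : Type*} [Field F] [Fintype F] [CharP F 2] {n : ℕ} (hn : 3 ≤ n) (a b : Matrix.SpecialLinearGroup (Fin n) F) (ha : orderOf a = 2) (hb : orderOf b = 2) :
    IsConj a b ↔ ((a : Matrix (Fin n) (Fin n) F) - 1).rank = ((b : Matrix (Fin n) (Fin n) F) - 1).rank := by
  constructor
  · intro h
    obtain ⟨g, hg⟩ := isConj_iff.mp h
    have h1 : b.1 - 1 = g.1 * (a.1 - 1) * (g⁻¹).1 := by
      have h2 : b.1 = g.1 * a.1 * (g⁻¹).1 := by rw [← hg]; rfl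
      have h3 : g.1 * (g⁻¹).1 = 1 := by
        have : g * g⁻¹ = 1 := mul_inv_cancel g
        exact congrArg Subtype.val this
      rw [h2, Matrix.mul_sub, Matrix.sub_mul, Matrix.mul_one, h3]
    have hu1 : IsUnit (g.1).det := by rw [g.2]; exact isUnit_one
    have hu2 : IsUnit ((g⁻¹).1).det := by rw [(g⁻¹).2]; exact isUnit_one
    rw [h1, Matrix.rank_mul_eq_left_of_isUnit_det _ _ hu2, Matrix.rank_mul_eq_right_of_isUnit_det _ _ hu1]
  · intro h
    have hNa := sub_one_sq a ha
    have hNb := sub_one_sq b hb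
    have hℓ : 1 ≤ (a.1 - 1).rank := by
      by_contra h0
      have h1 : (a.1 - 1).rank = 0 := by omega
      have h2 := eq_zero_of_rank_zero (by omega) _ hNa h1
      have h3 : a = 1 := Subtype.ext (sub_eq_zero.mp h2)
      rw [h3, orderOf_one] at ha
      omega
    obtain ⟨P, hdet, hP⟩ := exists_conj_matrix (by omega) (a.1 - 1) (b.1 - 1) hNa hNb _ hℓ rfl h.symm
    rw [isConj_iff]
    refine ⟨⟨P, hdet⟩, mul_inv_eq_iff_eq_mul.mpr ?_⟩
    apply Subtype.ext
    show P * a.1 = b.1 * P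
    have h1 : P * a.1 - P = b.1 * P - P := by
      have := hP
      rw [Matrix.mul_sub, Matrix.sub_mul, Matrix.mul_one, Matrix.one_mul] at this
      exact this
    exact sub_left_injective h1

end Cfsg.Agent.S2162
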