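import Cfsg.Statements.S0750
import Mathlib
import Cfsg.Agent.Lib.Helper5.Witt

set_option autoImplicit false
open Cfsg

namespace Cfsg.Agent.S0750

open Cfsg.Agent.Lib.Helper5.Witt

theorem polar_map {F V : Type*} [Field F] [AddCommGroup V] [Module F V]
    (Q : QuadraticForm F V) (g : V →ₗ[F] V) (X : Submodule F V)
    (hg : ∀ v ∈ X, Q (g v) = Q v) (a b : V) (ha : a ∈ X) (hb : b ∈ X) :
    QuadraticMap.polar Q (g a) (g b) = QuadraticMap.polar Q a b := by
  unfold QuadraticMap.polar
  rw [← map_add, hg _ (X.add_mem ha hb), hg a ha, hg b hb]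

theorem isom_equiv {F V : Type*} [Field F] [AddCommGroup V] [Module F V]
    [FiniteDimensional F V] (Q : QuadraticForm F V)
    (hQ : (QuadraticMap.polarBilin Q).Nondegenerate) (g : V →ₗ[F] V)
    (hg : ∀ v, Q (g v) = Q v) : ∃ e : V ≃ₗ[F] V, ∀ v, e v = g v := by
  have hinj : Function.Injective g := by
    rw [← LinearMap.ker_eq_bot, LinearMap.ker_eq_bot']
    intro v hv
    apply hQ.1 v
    intro w
    rw [QuadraticMap.polarBilin_apply_apply,
      ← polar_map Q g ⊤ (fun v _ => hg v) v w trivial trivial, hv]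
    simp
  exact ⟨LinearEquiv.ofInjectiveEndo g hinj, fun v => by rw [LinearEquiv.coe_ofInjectiveEndo]⟩

theorem refl_isom {F V : Type*} [Field F] [AddCommGroup V] [Module F V]
    (Q : QuadraticForm F V) (u x : V) (hux : QuadraticMap.polar Q u x ≠ 0)
    (hQu : Q u = - QuadraticMap.polar Q u x) (w : V) :
    Q (w + (QuadraticMap.polar Q u w / QuadraticMap.polar Q u x) • u) = Q w := by
  rw [QuadraticMap.map_add Q, QuadraticMap.map_smul, QuadraticMap.polar_smul_right, hQu,
    QuadraticMap.polar_comm Q w u]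
  simp only [smul_eq_mul]
  field_simp
  ring

theorem siegel_isom {F V : Type*} [Field F] [AddCommGroup V] [Module F V]
    (Q : QuadraticForm F V) (u z : V) (l : Module.Dual F V) (hQu : Q u = 0)
    (hl : 1 + l u ≠ 0) (hz : ∀ w, QuadraticMap.polar Q z w = - l w) (w : V) :
    Q (w + l w • u + (QuadraticMap.polar Q u w / (1 + l u)) • (z + (- Q z) • u)) = Q w := by
  obtain ⟨m, hm⟩ : ∃ m, m = QuadraticMap.polar Q u w / (1 + l u) := ⟨_, rfl⟩
  have hm' : m * (1 + l u) = QuadraticMap.polar Q u w := by
    rw [hm]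
    field_simp
  rw [← hm]
  have huu : QuadraticMap.polar Q u u = 0 := by
    rw [QuadraticMap.polar_self, hQu]
    simp
  have e1 : Q (z + (- Q z) • u) = Q z + Q z * l u := by
    rw [QuadraticMap.map_add Q, QuadraticMap.map_smul, hQu, QuadraticMap.polar_smul_right, hz u]
    simp only [smul_eq_mul]
    ring
  rw [QuadraticMap.map_add Q, QuadraticMap.map_add Q, QuadraticMap.map_smul,
    QuadraticMap.map_smul, e1, hQu]
  simp only [QuadraticMap.polar_add_left, QuadraticMap.polar_add_right,
    QuadraticMap.polar_smul_left, QuadraticMap.polar_smul_right, smul_eq_mul, huu,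
    QuadraticMap.polar_comm Q w u, QuadraticMap.polar_comm Q w z,
    QuadraticMap.polar_comm Q u z, hz]
  linear_combination (Q z * m - l w) * hm'

theorem step {F V : Type*} [Field F] [AddCommGroup V] [Module F V]
    [FiniteDimensional F V] (Q : QuadraticForm F V)
    (hQ : (QuadraticMap.polarBilin Q).Nondegenerate) (f : V →ₗ[F] V) (X : Submodule F V)
    (hfQ : ∀ x ∈ X, Q (f x) = Q x) (hfinj : ∀ x ∈ X, f x = 0 → x = 0)
    (H : Submodule F V) (hHX : H ≤ X) (g₀ : V ≃ₗ[F] V) (hg₀ : ∀ v, Q (g₀ v) = Q v)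
    (hg₀H : ∀ h ∈ H, g₀ h = f h) (x : V) (hxX : x ∈ X) (hxH : x ∉ H) :
    ∃ g : V ≃ₗ[F] V, (∀ v, Q (g v) = Q v) ∧ (∀ h ∈ H, g h = f h) ∧ g x = f x := by
  obtain ⟨y, hy⟩ : ∃ y, y = g₀.symm (f x) := ⟨_, rfl⟩
  have hg₀y : g₀ y = f x := by rw [hy, LinearEquiv.apply_symm_apply]
  have hyH : y ∉ H := by
    intro hyH
    have h1 : f (x - y) = 0 := by
      rw [map_sub, ← hg₀H y hyH, hg₀y, sub_self]
    have h2 := hfinj (x - y) (X.sub_mem hxX (hHX hyH)) h1
    apply hxH
    rw [sub_eq_zero.mp h2]
    exact hyH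
  have hQy : Q y = Q x := by rw [← hg₀ y, hg₀y, hfQ x hxX]
  obtain ⟨u, hu⟩ : ∃ u, u = y - x := ⟨_, rfl⟩
  have hyu : y = x + u := by rw [hu]; abel
  have huH : ∀ h ∈ H, QuadraticMap.polar Q u h = 0 := by
    intro h hh
    have hp : QuadraticMap.polar Q (g₀ y) (g₀ h) = QuadraticMap.polar Q y h :=
      polar_map Q (g₀ : V →ₗ[F] V) ⊤ (fun v _ => hg₀ v) y h trivial trivial
    have h1 : QuadraticMap.polar Q y h = QuadraticMap.polar Q x h := by
      rw [← hp, hg₀y, hg₀H h hh, polar_map Q f X hfQ x h hxX (hHX hh)]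
    rw [hu, QuadraticMap.polar_sub_left, h1, sub_self]
  have hQu : Q u = - QuadraticMap.polar Q u x := by
    have h1 := QuadraticMap.map_add Q x u
    rw [← hyu, hQy] at h1
    rw [QuadraticMap.polar_comm Q u x]
    linear_combination -h1
  have key : ∃ g₁ : V →ₗ[F] V, (∀ v, Q (g₁ v) = Q v) ∧ (∀ h ∈ H, g₁ h = h) ∧ g₁ x = y := by
    by_cases hu0 : u = 0
    · refine ⟨LinearMap.id, fun v => rfl, fun h _ => rfl, ?_⟩
      rw [hyu, hu0, add_zero]
      rfl
    · by_cases hux : QuadraticMap.polar Q u x = 0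
      · rw [hux, neg_zero] at hQu
        obtain ⟨l, hlH, hlx, hly⟩ := exists_functional H x y hxH hyH
        have hlu : 1 + l u = l y := by rw [hyu, map_add, hlx]
        have hl1 : 1 + l u ≠ 0 := by rw [hlu]; exact hly
        obtain ⟨z, hz⟩ : ∃ z, z = (LinearMap.BilinForm.toDual (QuadraticMap.polarBilin Q) hQ).symm (-l) := ⟨_, rfl⟩
        have hzw : ∀ w, QuadraticMap.polar Q z w = - l w := by
          intro w
          have h1 := LinearMap.BilinForm.apply_toDual_symm_apply (B := QuadraticMap.polarBilin Q)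
            (hB := hQ) (-l) w
          rw [← hz, QuadraticMap.polarBilin_apply_apply] at h1
          rw [h1]
          rfl
        refine ⟨LinearMap.id + l.smulRight u +
          (((1 + l u)⁻¹ • (QuadraticMap.polarBilin Q u)).smulRight (z + (- Q z) • u)), ?_, ?_, ?_⟩
        · intro v
          have h1 := siegel_isom Q u z l hQu hl1 hzw v
          rw [← h1]
          congr 1
          simp only [LinearMap.add_apply, LinearMap.id_apply, LinearMap.smulRight_apply,
            LinearMap.smul_apply, QuadraticMap.polarBilin_apply_apply, smul_eq_mul,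
            div_eq_inv_mul]
        · intro h hh
          simp only [LinearMap.add_apply, LinearMap.id_apply, LinearMap.smulRight_apply,
            LinearMap.smul_apply, QuadraticMap.polarBilin_apply_apply, smul_eq_mul,
            hlH h hh, huH h hh, mul_zero, zero_smul, add_zero]
        · simp only [LinearMap.add_apply, LinearMap.id_apply, LinearMap.smulRight_apply,
            LinearMap.smul_apply, QuadraticMap.polarBilin_apply_apply, smul_eq_mul,
            hlx, hux, mul_zero, zero_smul, add_zero, one_smul]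
          exact hyu.symm
      · refine ⟨LinearMap.id +
          (((QuadraticMap.polar Q u x)⁻¹ • (QuadraticMap.polarBilin Q u)).smulRight u), ?_, ?_, ?_⟩
        · intro v
          have h1 := refl_isom Q u x hux hQu v
          rw [← h1]
          congr 1
          simp only [LinearMap.add_apply, LinearMap.id_apply, LinearMap.smulRight_apply,
            LinearMap.smul_apply, QuadraticMap.polarBilin_apply_apply, smul_eq_mul,
            div_eq_inv_mul]
        · intro h hh
          simp only [LinearMap.add_apply, LinearMap.id_apply, LinearMap.smulRight_apply,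
            LinearMap.smul_apply, QuadraticMap.polarBilin_apply_apply, smul_eq_mul,
            huH h hh, mul_zero, zero_smul, add_zero]
        · simp only [LinearMap.add_apply, LinearMap.id_apply, LinearMap.smulRight_apply,
            LinearMap.smul_apply, QuadraticMap.polarBilin_apply_apply, smul_eq_mul]
          rw [inv_mul_cancel₀ hux, one_smul]
          exact hyu.symm
  obtain ⟨g₁, hg₁Q, hg₁H, hg₁x⟩ := key
  obtain ⟨e₁, he₁⟩ := isom_equiv Q hQ g₁ hg₁Q
  refine ⟨e₁.trans g₀, ?_, ?_, ?_⟩
  · intro v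
    rw [LinearEquiv.trans_apply, hg₀, he₁, hg₁Q]
  · intro h hh
    rw [LinearEquiv.trans_apply, he₁, hg₁H h hh, hg₀H h hh]
  · rw [LinearEquiv.trans_apply, he₁, hg₁x, hg₀y]

/-- Witt's Lemma for quadratic forms over a finite field, in any characteristic: if Q is a quadratic form on a finite-dimensional space V whose polar bilinear form is non-degenerate, then every linear equivalence between subspaces X, Y of V that preserves Q extends to a Q-preserving linear automorphism of V. (In odd characteristic this is the symmetric-bilinear case; in characteristic two it is the statement for non-degenerate quadratic forms.) -/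
theorem result {F V : Type*} [Field F] [Finite F] [AddCommGroup V] [Module F V] [FiniteDimensional F V] (Q : QuadraticForm F V) (hQ : (QuadraticMap.polarBilin Q).Nondegenerate) (X Y : Submodule F V) (φ : X ≃ₗ[F] Y) (hφ : ∀ x : X, Q (φ x : V) = Q (x : V)) : ∃ g : V ≃ₗ[F] V, (∀ v : V, Q (g v) = Q v) ∧ ∀ x : X, g (x : V) = (φ x : V) := by
  obtain ⟨f, hf⟩ := LinearMap.exists_extend (Y.subtype ∘ₗ (φ : X →ₗ[F] Y))
  have hfx : ∀ x : X, f (x : V) = (φ x : V) := by
    intro x
    have h1 := congrArg (fun k => k x) hf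
    simpa using h1
  have hfQ : ∀ x ∈ X, Q (f x) = Q x := by
    intro x hx
    have h1 := hfx ⟨x, hx⟩
    simp only at h1
    rw [h1]
    exact hφ ⟨x, hx⟩
  have hfinj : ∀ x ∈ X, f x = 0 → x = 0 := by
    intro x hx h0
    have h1 := hfx ⟨x, hx⟩
    simp only at h1
    rw [h0] at h1
    have h2 : φ ⟨x, hx⟩ = 0 := Subtype.ext h1.symm
    have h3 := φ.map_eq_zero_iff.mp h2
    exact congrArg Subtype.val h3
  obtain ⟨g, hg, hgX⟩ := witt_induction (fun g : V ≃ₗ[F] V => ∀ v, Q (g v) = Q v) f X
    (fun v => rfl)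
    (fun H hHX g₀ hg₀ hg₀H x hxX hxH => step Q hQ f X hfQ hfinj H hHX g₀ hg₀ hg₀H x hxX hxH)
  exact ⟨g, hg, fun x => by rw [hgX x x.2, hfx]⟩

end Cfsg.Agent.S0750
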