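import Cfsg.Statements.S2166
import Mathlib
import Cfsg.Agent.S5631
import Cfsg.Agent.S5645
import Cfsg.Agent.Lib.Helper5.Symp
import Cfsg.Agent.Lib.Helper28.Herm
import Cfsg.Agent.Lib.Helper13.HermInv
import Cfsg.Agent.Lib.Helper13.AltInv

set_option autoImplicit false
open Cfsg

namespace Cfsg.Agent.S2166

open Matrix
open Cfsg.Agent.S5631 Cfsg.Agent.S5645
open Cfsg.Agent.Lib.Helper28.Herm (Isom isom_inv isom_mul)
open Cfsg.Agent.Lib.Helper13.AltInv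
open Cfsg.Agent.Lib.Helper5.Symp (sympForm_mulVec_of_mem mem_of_sympForm_mulVec)

variable {F : Type*} [Field F] {m : ℕ}

/-- the `GL` element of an involution of the symplectic group -/
def invGL (a : ↥(Matrix.symplecticGroup (Fin m) F)) (h : a * a = 1) : GL (Fin m ⊕ Fin m) F :=
  ⟨a.1, a.1, congrArg Subtype.val h, congrArg Subtype.val h⟩

theorem invGL_coe (a : ↥(Matrix.symplecticGroup (Fin m) F)) (h : a * a = 1) :
    ((invGL a h : GL (Fin m ⊕ Fin m) F) : Matrix (Fin m ⊕ Fin m) (Fin m ⊕ Fin m) F) = a.1 := rfl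

theorem rank_of_conj (a b c : ↥(Matrix.symplecticGroup (Fin m) F)) (hc : c * a * c⁻¹ = b) :
    ((a : Matrix (Fin m ⊕ Fin m) (Fin m ⊕ Fin m) F) - 1).rank =
      ((b : Matrix (Fin m ⊕ Fin m) (Fin m ⊕ Fin m) F) - 1).rank := by
  have h1 : (c : Matrix (Fin m ⊕ Fin m) (Fin m ⊕ Fin m) F) *
      ((c⁻¹ : ↥(Matrix.symplecticGroup (Fin m) F)) : Matrix (Fin m ⊕ Fin m) (Fin m ⊕ Fin m) F) = 1 :=
    congrArg Subtype.val (mul_inv_cancel c)
  have e : (b : Matrix (Fin m ⊕ Fin m) (Fin m ⊕ Fin m) F) =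
      (c : Matrix (Fin m ⊕ Fin m) (Fin m ⊕ Fin m) F) * (a : Matrix (Fin m ⊕ Fin m) (Fin m ⊕ Fin m) F) *
      ((c⁻¹ : ↥(Matrix.symplecticGroup (Fin m) F)) : Matrix (Fin m ⊕ Fin m) (Fin m ⊕ Fin m) F) :=
    (congrArg Subtype.val hc).symm
  have h3 : (b : Matrix (Fin m ⊕ Fin m) (Fin m ⊕ Fin m) F) - 1 =
      (c : Matrix (Fin m ⊕ Fin m) (Fin m ⊕ Fin m) F) *
        ((a : Matrix (Fin m ⊕ Fin m) (Fin m ⊕ Fin m) F) - 1) *
      ((c⁻¹ : ↥(Matrix.symplecticGroup (Fin m) F)) : Matrix (Fin m ⊕ Fin m) (Fin m ⊕ Fin m) F) := by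
    rw [e, Matrix.mul_sub, Matrix.sub_mul, mul_one, h1]
  rw [h3, Matrix.rank_mul_eq_left_of_isUnit_det, Matrix.rank_mul_eq_right_of_isUnit_det]
  · exact Matrix.isUnit_det_of_right_inverse h1
  · first | exact Matrix.isUnit_det_of_right_inverse h1 | exact Matrix.isUnit_det_of_left_inverse h1

theorem card_of_conj (a b c : ↥(Matrix.symplecticGroup (Fin m) F)) (hc : c * a * c⁻¹ = b) :
    Nat.card {v : Fin m ⊕ Fin m → F // Cfsg.sympForm m F v
        (Matrix.mulVec (a : Matrix (Fin m ⊕ Fin m) (Fin m ⊕ Fin m) F) v) = 0} =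
      Nat.card {v : Fin m ⊕ Fin m → F // Cfsg.sympForm m F v
        (Matrix.mulVec (b : Matrix (Fin m ⊕ Fin m) (Fin m ⊕ Fin m) F) v) = 0} := by
  have h1 : (c : Matrix (Fin m ⊕ Fin m) (Fin m ⊕ Fin m) F) *
      ((c⁻¹ : ↥(Matrix.symplecticGroup (Fin m) F)) : Matrix (Fin m ⊕ Fin m) (Fin m ⊕ Fin m) F) = 1 :=
    congrArg Subtype.val (mul_inv_cancel c)
  have h1' : ((c⁻¹ : ↥(Matrix.symplecticGroup (Fin m) F)) : Matrix (Fin m ⊕ Fin m) (Fin m ⊕ Fin m) F) *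
      (c : Matrix (Fin m ⊕ Fin m) (Fin m ⊕ Fin m) F) = 1 :=
    congrArg Subtype.val (inv_mul_cancel c)
  have e : (b : Matrix (Fin m ⊕ Fin m) (Fin m ⊕ Fin m) F) *
      (c : Matrix (Fin m ⊕ Fin m) (Fin m ⊕ Fin m) F) =
      (c : Matrix (Fin m ⊕ Fin m) (Fin m ⊕ Fin m) F) *
        (a : Matrix (Fin m ⊕ Fin m) (Fin m ⊕ Fin m) F) := by
    have : b * c = c * a := by rw [← hc]; group
    exact congrArg Subtype.val this
  have e' : (a : Matrix (Fin m ⊕ Fin m) (Fin m ⊕ Fin m) F) *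
      ((c⁻¹ : ↥(Matrix.symplecticGroup (Fin m) F)) : Matrix (Fin m ⊕ Fin m) (Fin m ⊕ Fin m) F) =
      ((c⁻¹ : ↥(Matrix.symplecticGroup (Fin m) F)) : Matrix (Fin m ⊕ Fin m) (Fin m ⊕ Fin m) F) *
        (b : Matrix (Fin m ⊕ Fin m) (Fin m ⊕ Fin m) F) := by
    have : a * c⁻¹ = c⁻¹ * b := by rw [← hc]; group
    exact congrArg Subtype.val this
  apply Nat.card_congr
  refine ⟨fun v => ⟨(c : Matrix (Fin m ⊕ Fin m) (Fin m ⊕ Fin m) F) *ᵥ v.1, ?_⟩,
    fun v => ⟨((c⁻¹ : ↥(Matrix.symplecticGroup (Fin m) F)) :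
      Matrix (Fin m ⊕ Fin m) (Fin m ⊕ Fin m) F) *ᵥ v.1, ?_⟩, ?_, ?_⟩
  · rw [Matrix.mulVec_mulVec, e, ← Matrix.mulVec_mulVec, sympForm_mulVec_of_mem m c.2]
    exact v.2
  · rw [Matrix.mulVec_mulVec, e', ← Matrix.mulVec_mulVec, sympForm_mulVec_of_mem m (c⁻¹).2]
    exact v.2
  · intro v
    apply Subtype.ext
    show ((c⁻¹ : ↥(Matrix.symplecticGroup (Fin m) F)) :
      Matrix (Fin m ⊕ Fin m) (Fin m ⊕ Fin m) F) *ᵥ
        ((c : Matrix (Fin m ⊕ Fin m) (Fin m ⊕ Fin m) F) *ᵥ v.1) = v.1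
    rw [Matrix.mulVec_mulVec, h1', Matrix.one_mulVec]
  · intro v
    apply Subtype.ext
    show (c : Matrix (Fin m ⊕ Fin m) (Fin m ⊕ Fin m) F) *ᵥ
      (((c⁻¹ : ↥(Matrix.symplecticGroup (Fin m) F)) :
        Matrix (Fin m ⊕ Fin m) (Fin m ⊕ Fin m) F) *ᵥ v.1) = v.1
    rw [Matrix.mulVec_mulVec, h1, Matrix.one_mulVec]

theorem all_of_card {α : Type*} [Finite α] (P Q : α → Prop) (hP : ∀ x, P x)
    (h : Nat.card {x // P x} = Nat.card {x // Q x}) : ∀ x, Q x := by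
  classical
  have := Fintype.ofFinite α
  by_contra hcon
  push Not at hcon
  obtain ⟨x, hx⟩ := hcon
  have h1 : Nat.card {x // P x} = Nat.card α := Nat.card_congr (Equiv.subtypeUnivEquiv hP)
  have h2 : Fintype.card {x // Q x} < Fintype.card α := Fintype.card_subtype_lt hx
  rw [h1, Nat.card_eq_fintype_card, Nat.card_eq_fintype_card] at h
  omega

theorem dataA [Fintype F] [CharP F 2] (a : ↥(Matrix.symplecticGroup (Fin m) F)) (haa : a * a = 1)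
    (hP : ∀ v, Cfsg.sympForm m F v
      ((a : Matrix (Fin m ⊕ Fin m) (Fin m ⊕ Fin m) F) *ᵥ v) = 0) :
    ∃ (r : ℕ) (u v : Fin r → (Fin m ⊕ Fin m) → F), LinearIndependent F (Sum.elim u v) ∧
      (∀ i j, Cfsg.sympForm m F (Sum.elim u v i) (Sum.elim u v j) = 0) ∧
      (∀ y, ((invGL a haa : GL (Fin m ⊕ Fin m) F) : Matrix (Fin m ⊕ Fin m) (Fin m ⊕ Fin m) F) *ᵥ y =
        y + ∑ i, (Cfsg.sympForm m F y (u i) • v i + Cfsg.sympForm m F y (v i) • u i)) ∧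
      ((a : Matrix (Fin m ⊕ Fin m) (Fin m ⊕ Fin m) F) - 1).rank = r + r := by
  classical
  have hf := symp_isAlt m (F := F)
  have h2 : (2 : F) = 0 := CharTwo.two_eq_zero
  have hi : Isom (Cfsg.sympForm m F) (invGL a haa) :=
    fun u v => sympForm_mulVec_of_mem m a.2 u v
  have hs : invGL a haa * invGL a haa = 1 := Units.ext (congrArg Subtype.val haa)
  have halt : ∀ y, Cfsg.sympForm m F
      (((invGL a haa : GL (Fin m ⊕ Fin m) F) : Matrix (Fin m ⊕ Fin m) (Fin m ⊕ Fin m) F) *ᵥ y - y)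
        y = 0 := by
    intro y
    rw [hf.sub_left, hf.self, sub_zero, hf.swap, neg_eq_zero]
    exact hP y
  obtain ⟨r, u, v, hu1, hv1, hind, hform⟩ :=
    nf_A hf h2 (Fintype.card (Fin m ⊕ Fin m)) (invGL a haa) hi hs (by omega) halt
  have hmem : ∀ i, ∃ z, Sum.elim u v i =
      ((invGL a haa : GL (Fin m ⊕ Fin m) F) : Matrix (Fin m ⊕ Fin m) (Fin m ⊕ Fin m) F) *ᵥ z - z := by
    intro i
    rcases i with i | i
    · exact hu1 i
    · exact hv1 i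
  have hli := ind_sum u v hind
  have hN : ∀ y, ((a : Matrix (Fin m ⊕ Fin m) (Fin m ⊕ Fin m) F) - 1) *ᵥ y ∈
      Submodule.span F (Set.range (Sum.elim u v)) := by
    intro y
    have e : ((a : Matrix (Fin m ⊕ Fin m) (Fin m ⊕ Fin m) F) - 1) *ᵥ y =
        ∑ i, (Cfsg.sympForm m F y (u i) • v i + Cfsg.sympForm m F y (v i) • u i) := by
      rw [Matrix.sub_mulVec, Matrix.one_mulVec, sub_eq_iff_eq_add']
      exact hform y
    rw [e]
    apply Submodule.sum_mem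
    intro i _
    apply Submodule.add_mem
    · exact Submodule.smul_mem _ _ (Submodule.subset_span ⟨Sum.inr i, rfl⟩)
    · exact Submodule.smul_mem _ _ (Submodule.subset_span ⟨Sum.inl i, rfl⟩)
  have hw1 : ∀ i, ∃ z, Sum.elim u v i =
      ((a : Matrix (Fin m ⊕ Fin m) (Fin m ⊕ Fin m) F) - 1) *ᵥ z := by
    intro i
    obtain ⟨z, hz⟩ := hmem i
    exact ⟨z, by rw [hz, Matrix.sub_mulVec, Matrix.one_mulVec]; rfl⟩
  refine ⟨r, u, v, hli, ?_, hform, ?_⟩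
  · intro i j
    obtain ⟨z, hz⟩ := hmem i
    obtain ⟨z', hz'⟩ := hmem j
    rw [hz, hz']
    exact ainv_iso hf h2 _ hi hs z z'
  · rw [rank_of_span _ _ hN hw1 hli, Fintype.card_sum, Fintype.card_fin]

theorem dataB [Fintype F] [CharP F 2] (a : ↥(Matrix.symplecticGroup (Fin m) F)) (haa : a * a = 1)
    (hP : ¬ ∀ v, Cfsg.sympForm m F v
      ((a : Matrix (Fin m ⊕ Fin m) (Fin m ⊕ Fin m) F) *ᵥ v) = 0) :
    ∃ (k : ℕ) (u : Fin k → (Fin m ⊕ Fin m) → F), LinearIndependent F u ∧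
      (∀ i j, Cfsg.sympForm m F (u i) (u j) = 0) ∧
      (∀ y, ((invGL a haa : GL (Fin m ⊕ Fin m) F) : Matrix (Fin m ⊕ Fin m) (Fin m ⊕ Fin m) F) *ᵥ y =
        y + ∑ i, Cfsg.sympForm m F y (u i) • u i) ∧
      ((a : Matrix (Fin m ⊕ Fin m) (Fin m ⊕ Fin m) F) - 1).rank = k := by
  classical
  have hf := symp_isAlt m (F := F)
  have h2 : (2 : F) = 0 := CharTwo.two_eq_zero
  have hi : Isom (Cfsg.sympForm m F) (invGL a haa) :=
    fun u v => sympForm_mulVec_of_mem m a.2 u v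
  have hs : invGL a haa * invGL a haa = 1 := Units.ext (congrArg Subtype.val haa)
  have htype : (∀ y, ((invGL a haa : GL (Fin m ⊕ Fin m) F) :
        Matrix (Fin m ⊕ Fin m) (Fin m ⊕ Fin m) F) *ᵥ y = y) ∨
      ∃ y, Cfsg.sympForm m F (((invGL a haa : GL (Fin m ⊕ Fin m) F) :
        Matrix (Fin m ⊕ Fin m) (Fin m ⊕ Fin m) F) *ᵥ y - y) y ≠ 0 := by
    right
    push Not at hP
    obtain ⟨y, hy⟩ := hP
    refine ⟨y, ?_⟩
    rw [hf.sub_left, hf.self, sub_zero, hf.swap, neg_ne_zero]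
    exact hy
  obtain ⟨k, u, hu1, hli, hform⟩ :=
    nf_B hf h2 (Fintype.card (Fin m ⊕ Fin m)) (invGL a haa) hi hs (by omega) htype
  have hN : ∀ y, ((a : Matrix (Fin m ⊕ Fin m) (Fin m ⊕ Fin m) F) - 1) *ᵥ y ∈
      Submodule.span F (Set.range u) := by
    intro y
    have e : ((a : Matrix (Fin m ⊕ Fin m) (Fin m ⊕ Fin m) F) - 1) *ᵥ y =
        ∑ i, Cfsg.sympForm m F y (u i) • u i := by
      rw [Matrix.sub_mulVec, Matrix.one_mulVec, sub_eq_iff_eq_add']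
      exact hform y
    rw [e]
    apply Submodule.sum_mem
    intro i _
    exact Submodule.smul_mem _ _ (Submodule.subset_span ⟨i, rfl⟩)
  have hw1 : ∀ i, ∃ z, u i = ((a : Matrix (Fin m ⊕ Fin m) (Fin m ⊕ Fin m) F) - 1) *ᵥ z := by
    intro i
    obtain ⟨z, hz⟩ := hu1 i
    exact ⟨z, by rw [hz, Matrix.sub_mulVec, Matrix.one_mulVec]; rfl⟩
  refine ⟨k, u, hli, ?_, hform, ?_⟩
  · intro i j
    obtain ⟨z, hz⟩ := hu1 i
    obtain ⟨z', hz'⟩ := hu1 j
    rw [hz, hz']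
    exact ainv_iso hf h2 _ hi hs z z'
  · rw [rank_of_span _ _ hN hw1 hli, Fintype.card_fin]

theorem conj_of [Fintype F] [CharP F 2] (a b : ↥(Matrix.symplecticGroup (Fin m) F))
    (haa : a * a = 1) (hbb : b * b = 1)
    (hrank : ((a : Matrix (Fin m ⊕ Fin m) (Fin m ⊕ Fin m) F) - 1).rank =
      ((b : Matrix (Fin m ⊕ Fin m) (Fin m ⊕ Fin m) F) - 1).rank)
    (hcard : Even ((a : Matrix (Fin m ⊕ Fin m) (Fin m ⊕ Fin m) F) - 1).rank →
      Nat.card {v : Fin m ⊕ Fin m → F // Cfsg.sympForm m F v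
        (Matrix.mulVec (a : Matrix (Fin m ⊕ Fin m) (Fin m ⊕ Fin m) F) v) = 0} =
      Nat.card {v : Fin m ⊕ Fin m → F // Cfsg.sympForm m F v
        (Matrix.mulVec (b : Matrix (Fin m ⊕ Fin m) (Fin m ⊕ Fin m) F) v) = 0}) :
    IsConj a b := by
  classical
  have hf := symp_isAlt m (F := F)
  have key : ∃ g : GL (Fin m ⊕ Fin m) F, Isom (Cfsg.sympForm m F) g ∧
      g * invGL a haa = invGL b hbb * g := by
    by_cases hPa : ∀ v, Cfsg.sympForm m F v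
        ((a : Matrix (Fin m ⊕ Fin m) (Fin m ⊕ Fin m) F) *ᵥ v) = 0
    · obtain ⟨r, u, v, hind, hti, hform, hrk⟩ := dataA a haa hPa
      have hPb : ∀ v, Cfsg.sympForm m F v
          ((b : Matrix (Fin m ⊕ Fin m) (Fin m ⊕ Fin m) F) *ᵥ v) = 0 := by
        have hev : Even ((a : Matrix (Fin m ⊕ Fin m) (Fin m ⊕ Fin m) F) - 1).rank := by
          rw [hrk]
          exact ⟨r, rfl⟩
        exact all_of_card _ _ hPa (hcard hev)
      obtain ⟨r', u', v', hind', hti', hform', hrk'⟩ := dataA b hbb hPb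
      have hrr : r = r' := by
        rw [hrk, hrk'] at hrank
        omega
      subst hrr
      exact conj_A hf _ _ u v u' v' hind hind' hti hti' hform hform'
    · obtain ⟨k, u, hind, hti, hform, hrk⟩ := dataB a haa hPa
      have hPb : ¬ ∀ v, Cfsg.sympForm m F v
          ((b : Matrix (Fin m ⊕ Fin m) (Fin m ⊕ Fin m) F) *ᵥ v) = 0 := by
        intro hPb
        obtain ⟨r', u', v', hind', hti', hform', hrk'⟩ := dataA b hbb hPb
        have hev : Even ((a : Matrix (Fin m ⊕ Fin m) (Fin m ⊕ Fin m) F) - 1).rank := by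
          rw [hrank, hrk']
          exact ⟨r', rfl⟩
        exact hPa (all_of_card _ _ hPb (hcard hev).symm)
      obtain ⟨k', u', hind', hti', hform', hrk'⟩ := dataB b hbb hPb
      have hkk : k = k' := by
        rw [hrk, hrk'] at hrank
        exact hrank
      subst hkk
      exact conj_B hf _ _ u u' hind hind' hti hti' hform hform'
  obtain ⟨g, hg1, hg2⟩ := key
  rw [isConj_iff]
  refine ⟨⟨(g : Matrix (Fin m ⊕ Fin m) (Fin m ⊕ Fin m) F), mem_of_sympForm_mulVec m hg1⟩, ?_⟩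
  apply mul_inv_eq_of_eq_mul
  apply Subtype.ext
  exact congrArg Units.val hg2

theorem result {F : Type*} [Field F] [Fintype F] [CharP F 2] {m : ℕ} (hm : 2 ≤ m) (a b : ↥(Matrix.symplecticGroup (Fin m) F)) (ha : orderOf a = 2) (hb : orderOf b = 2) :
    IsConj a b ↔ ((((a : ↥(Matrix.symplecticGroup (Fin m) F)) : Matrix (Fin m ⊕ Fin m) (Fin m ⊕ Fin m) F) - 1).rank = (((b : ↥(Matrix.symplecticGroup (Fin m) F)) : Matrix (Fin m ⊕ Fin m) (Fin m ⊕ Fin m) F) - 1).rank ∧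
      (Even (((a : ↥(Matrix.symplecticGroup (Fin m) F)) : Matrix (Fin m ⊕ Fin m) (Fin m ⊕ Fin m) F) - 1).rank → Nat.card {v : Fin m ⊕ Fin m → F // Cfsg.sympForm m F v (Matrix.mulVec ((a : ↥(Matrix.symplecticGroup (Fin m) F)) : Matrix (Fin m ⊕ Fin m) (Fin m ⊕ Fin m) F) v) = 0} = Nat.card {v : Fin m ⊕ Fin m → F // Cfsg.sympForm m F v (Matrix.mulVec ((b : ↥(Matrix.symplecticGroup (Fin m) F)) : Matrix (Fin m ⊕ Fin m) (Fin m ⊕ Fin m) F) v) = 0})) := by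
  have haa : a * a = 1 := by rw [← pow_two, ← ha]; exact pow_orderOf_eq_one a
  have hbb : b * b = 1 := by rw [← pow_two, ← hb]; exact pow_orderOf_eq_one b
  constructor
  · intro h
    rw [isConj_iff] at h
    obtain ⟨c, hc⟩ := h
    exact ⟨rank_of_conj a b c hc, fun _ => card_of_conj a b c hc⟩
  · rintro ⟨hrank, hcard⟩
    exact conj_of a b haa hbb hrank hcard

end Cfsg.Agent.S2166
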