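import Cfsg.Statements.S2593
import Mathlib
import Cfsg.Agent.S5631
import Cfsg.Agent.S5645
import Cfsg.Agent.S2166
import Cfsg.Agent.Lib.Helper5.Symp
import Cfsg.Agent.Lib.Helper28.Herm
import Cfsg.Agent.Lib.Helper13.AltInv
import Cfsg.Agent.Lib.Helper13.InvCount

set_option autoImplicit false
open Cfsg

namespace Cfsg.Agent.S2593

open Matrix
open Cfsg.Agent.S5631 Cfsg.Agent.S5645
open Cfsg.Agent.Lib.Helper28.Herm (Isom isom_inv isom_mul)
open Cfsg.Agent.Lib.Helper13.AltInv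
open Cfsg.Agent.Lib.Helper13.InvCount
open Cfsg.Agent.Lib.Helper5.Symp (sympForm_mulVec_of_mem mem_of_sympForm_mulVec
  sympForm_single_inl sympForm_single_inr)
open Cfsg.Agent.S2166 (invGL rank_of_conj card_of_conj all_of_card dataA dataB)

/-- a nonzero matrix has positive rank -/
theorem rank_pos_of_ne {ι : Type} [Fintype ι] [DecidableEq ι] {F : Type*} [Field F]
    (N : Matrix ι ι F) (hN : N ≠ 0) : 0 < N.rank := by
  by_contra h
  have h0 : Module.finrank F (LinearMap.range N.mulVecLin) = 0 := by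
    have : N.rank = 0 := by omega
    exact this
  have h1 : LinearMap.range N.mulVecLin = ⊥ := Submodule.finrank_eq_zero.mp h0
  have h2 : N.mulVecLin = 0 := LinearMap.range_eq_bot.mp h1
  apply hN
  apply Matrix.ext_iff_mulVec.mpr
  intro y
  have := LinearMap.congr_fun h2 y
  rw [Matrix.zero_mulVec]
  exact this

/-- disjoint injections of `Fin r` into `Fin m` -/
theorem two_inj (r m : ℕ) (hr : r + r ≤ m) : ∃ p q : Fin r → Fin m,
    Function.Injective p ∧ Function.Injective q ∧ ∀ i j, p i ≠ q j := by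
  refine ⟨fun j => ⟨j.val, by have := j.2; omega⟩, fun j => ⟨r + j.val, by have := j.2; omega⟩,
    ?_, ?_, ?_⟩
  · intro i j h
    have h' := congrArg Fin.val h
    exact Fin.ext h'
  · intro i j h
    have h' := congrArg Fin.val h
    simp only at h'
    exact Fin.ext (by omega)
  · intro i j h
    have h' := congrArg Fin.val h
    simp only at h'
    have := i.2
    omega

variable {F : Type*} [Field F] {m : ℕ}

/-- the alternating type of an involution -/
def AltT (a : ↥(Matrix.symplecticGroup (Fin m) F)) : Prop :=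
  ∀ v, Cfsg.sympForm m F v ((a : Matrix (Fin m ⊕ Fin m) (Fin m ⊕ Fin m) F) *ᵥ v) = 0

theorem sq_of_order (a : ↥(Matrix.symplecticGroup (Fin m) F)) (ha : orderOf a = 2) :
    a * a = 1 := by
  rw [← pow_two, ← ha]
  exact pow_orderOf_eq_one a

theorem type_of_conj [Finite F] (a b : ↥(Matrix.symplecticGroup (Fin m) F)) (h : IsConj a b) :
    AltT a ↔ AltT b := by
  obtain ⟨c, hc⟩ := isConj_iff.mp h
  have h1 := card_of_conj a b c hc
  exact ⟨fun ha => all_of_card _ _ ha h1, fun hb => all_of_card _ _ hb h1.symm⟩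

theorem rank_of_conj' (a b : ↥(Matrix.symplecticGroup (Fin m) F)) (h : IsConj a b) :
    ((a : Matrix (Fin m ⊕ Fin m) (Fin m ⊕ Fin m) F) - 1).rank =
      ((b : Matrix (Fin m ⊕ Fin m) (Fin m ⊕ Fin m) F) - 1).rank := by
  obtain ⟨c, hc⟩ := isConj_iff.mp h
  exact rank_of_conj a b c hc

theorem conj_same [Fintype F] [CharP F 2] (a b : ↥(Matrix.symplecticGroup (Fin m) F))
    (haa : a * a = 1) (hbb : b * b = 1)
    (hrank : ((a : Matrix (Fin m ⊕ Fin m) (Fin m ⊕ Fin m) F) - 1).rank =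
      ((b : Matrix (Fin m ⊕ Fin m) (Fin m ⊕ Fin m) F) - 1).rank)
    (htype : AltT a ↔ AltT b) : IsConj a b := by
  classical
  have hf := symp_isAlt m (F := F)
  have key : ∃ g : GL (Fin m ⊕ Fin m) F, Isom (Cfsg.sympForm m F) g ∧
      g * invGL a haa = invGL b hbb * g := by
    by_cases hPa : AltT a
    · obtain ⟨r, u, v, hind, hti, hform, hrk⟩ := dataA a haa hPa
      obtain ⟨r', u', v', hind', hti', hform', hrk'⟩ := dataA b hbb (htype.mp hPa)
      have hrr : r = r' := by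
        rw [hrk, hrk'] at hrank
        omega
      subst hrr
      exact conj_A hf _ _ u v u' v' hind hind' hti hti' hform hform'
    · obtain ⟨k, u, hind, hti, hform, hrk⟩ := dataB a haa hPa
      obtain ⟨k', u', hind', hti', hform', hrk'⟩ := dataB b hbb (fun h => hPa (htype.mpr h))
      have hkk : k = k' := by
        rw [hrk, hrk'] at hrank
        exact hrank
      subst hkk
      exact conj_B hf _ _ u u' hind hind' hti hti' hform hform'
  obtain ⟨g, hg1, hg2⟩ := key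
  rw [isConj_iff]
  refine ⟨⟨(g : Matrix (Fin m ⊕ Fin m) (Fin m ⊕ Fin m) F), mem_of_sympForm_mulVec m hg1⟩, ?_⟩
  apply mul_inv_eq_of_eq_mul
  apply Subtype.ext
  exact congrArg Units.val hg2

theorem of_gl (M : GL (Fin m ⊕ Fin m) F) (hi : Isom (Cfsg.sympForm m F) M) (hs : M * M = 1)
    (hrk : 0 < ((M : Matrix (Fin m ⊕ Fin m) (Fin m ⊕ Fin m) F) - 1).rank) :
    ∃ a : ↥(Matrix.symplecticGroup (Fin m) F),
      (a : Matrix (Fin m ⊕ Fin m) (Fin m ⊕ Fin m) F) = M ∧ orderOf a = 2 := by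
  refine ⟨⟨(M : Matrix (Fin m ⊕ Fin m) (Fin m ⊕ Fin m) F), mem_of_sympForm_mulVec m hi⟩, rfl, ?_⟩
  apply orderOf_eq_prime
  · rw [pow_two]
    apply Subtype.ext
    exact congrArg Units.val hs
  · intro h
    have h1 : (M : Matrix (Fin m ⊕ Fin m) (Fin m ⊕ Fin m) F) = 1 := congrArg Subtype.val h
    rw [h1, sub_self, Matrix.rank_zero] at hrk
    exact lt_irrefl 0 hrk

theorem alt_iff (M : Matrix (Fin m ⊕ Fin m) (Fin m ⊕ Fin m) F) :
    (∀ y, Cfsg.sympForm m F (M *ᵥ y - y) y = 0) ↔ ∀ v, Cfsg.sympForm m F v (M *ᵥ v) = 0 := by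
  have hf := symp_isAlt m (F := F)
  constructor
  · intro h v
    have := h v
    rw [hf.sub_left, hf.self, sub_zero, hf.swap, neg_eq_zero] at this
    exact this
  · intro h y
    rw [hf.sub_left, hf.self, sub_zero, hf.swap, neg_eq_zero]
    exact h y

theorem hde (i j : Fin m) : Cfsg.sympForm m F (Pi.single (Sum.inr i) 1) (Pi.single (Sum.inl j) 1) =
    if i = j then 1 else 0 := by
  rw [sympForm_single_inl, Pi.single_apply]
  by_cases h : i = j
  · subst h
    simp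
  · rw [if_neg h, if_neg]
    intro h'
    exact h (Sum.inr.inj h').symm

theorem hee (i j : Fin m) : Cfsg.sympForm m F (Pi.single (Sum.inl i) 1) (Pi.single (Sum.inl j) 1) =
    0 := by
  rw [sympForm_single_inl, Pi.single_apply, if_neg]
  intro h
  exact Sum.inr_ne_inl h

theorem ex_B [Fintype F] [CharP F 2] (k : ℕ) (hk0 : 0 < k) (hk : k ≤ m) :
    ∃ a : ↥(Matrix.symplecticGroup (Fin m) F), orderOf a = 2 ∧
      ((a : Matrix (Fin m ⊕ Fin m) (Fin m ⊕ Fin m) F) - 1).rank = k ∧ ¬ AltT a := by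
  classical
  have hf := symp_isAlt m (F := F)
  have h2 : (2 : F) = 0 := CharTwo.two_eq_zero
  obtain ⟨p, hp⟩ : ∃ p : Fin k → Fin m, Function.Injective p := by
    refine ⟨fun j => ⟨j.val, by have := j.2; omega⟩, fun i j h => ?_⟩
    have h' := congrArg Fin.val h
    exact Fin.ext h'
  obtain ⟨u, hu⟩ : ∃ u : Fin k → (Fin m ⊕ Fin m → F),
      u = fun j => Pi.single (Sum.inl (p j)) 1 := ⟨_, rfl⟩
  obtain ⟨z, hz⟩ : ∃ z : Fin k → (Fin m ⊕ Fin m → F),
      z = fun j => Pi.single (Sum.inr (p j)) 1 := ⟨_, rfl⟩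
  have huu : ∀ i j, Cfsg.sympForm m F (u i) (u j) = 0 := by
    intro i j
    rw [hu]
    exact hee _ _
  have hzu : ∀ i j, Cfsg.sympForm m F (z i) (u j) = if i = j then 1 else 0 := by
    intro i j
    rw [hu, hz]
    show Cfsg.sympForm m F (Pi.single (Sum.inr (p i)) 1) (Pi.single (Sum.inl (p j)) 1) = _
    rw [hde]
    simp only [hp.eq_iff]
  obtain ⟨M, hi, hs, hform⟩ := exB hf h2 k u huu
  obtain ⟨hrk, hB⟩ := B_data hf M u z hform hzu
  obtain ⟨a, ha1, ha2⟩ := of_gl M hi hs (by rw [hrk]; exact hk0)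
  refine ⟨a, ha2, by rw [ha1]; exact hrk, ?_⟩
  intro hA
  obtain ⟨y, hy⟩ := hB hk0
  apply hy
  have hA' : ∀ v, Cfsg.sympForm m F v
      ((M : Matrix (Fin m ⊕ Fin m) (Fin m ⊕ Fin m) F) *ᵥ v) = 0 := by
    rw [← ha1]
    exact hA
  exact (alt_iff _).mpr hA' y

theorem ex_A [Fintype F] [CharP F 2] (r : ℕ) (hr0 : 0 < r) (hr : r + r ≤ m) :
    ∃ a : ↥(Matrix.symplecticGroup (Fin m) F), orderOf a = 2 ∧
      ((a : Matrix (Fin m ⊕ Fin m) (Fin m ⊕ Fin m) F) - 1).rank = r + r ∧ AltT a := by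
  classical
  have hf := symp_isAlt m (F := F)
  have h2 : (2 : F) = 0 := CharTwo.two_eq_zero
  obtain ⟨p, q, hp, hq, hpq⟩ := two_inj r m hr
  obtain ⟨u, hu⟩ : ∃ u : Fin r → (Fin m ⊕ Fin m → F),
      u = fun j => Pi.single (Sum.inl (p j)) 1 := ⟨_, rfl⟩
  obtain ⟨v, hv⟩ : ∃ v : Fin r → (Fin m ⊕ Fin m → F),
      v = fun j => Pi.single (Sum.inl (q j)) 1 := ⟨_, rfl⟩
  obtain ⟨zu, hzu⟩ : ∃ z : Fin r → (Fin m ⊕ Fin m → F),
      z = fun j => Pi.single (Sum.inr (p j)) 1 := ⟨_, rfl⟩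
  obtain ⟨zv, hzv⟩ : ∃ z : Fin r → (Fin m ⊕ Fin m → F),
      z = fun j => Pi.single (Sum.inr (q j)) 1 := ⟨_, rfl⟩
  have huu : ∀ i j, Cfsg.sympForm m F (u i) (u j) = 0 := by
    intro i j
    rw [hu]
    exact hee _ _
  have huv : ∀ i j, Cfsg.sympForm m F (u i) (v j) = 0 := by
    intro i j
    rw [hu, hv]
    exact hee _ _
  have hvv : ∀ i j, Cfsg.sympForm m F (v i) (v j) = 0 := by
    intro i j
    rw [hv]
    exact hee _ _
  have hzuu : ∀ i j, Cfsg.sympForm m F (zu i) (u j) = if i = j then 1 else 0 := by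
    intro i j
    rw [hu, hzu]
    show Cfsg.sympForm m F (Pi.single (Sum.inr (p i)) 1) (Pi.single (Sum.inl (p j)) 1) = _
    rw [hde]
    simp only [hp.eq_iff]
  have hzuv : ∀ i j, Cfsg.sympForm m F (zu i) (v j) = 0 := by
    intro i j
    rw [hv, hzu]
    show Cfsg.sympForm m F (Pi.single (Sum.inr (p i)) 1) (Pi.single (Sum.inl (q j)) 1) = _
    rw [hde, if_neg (hpq i j)]
  have hzvv : ∀ i j, Cfsg.sympForm m F (zv i) (v j) = if i = j then 1 else 0 := by
    intro i j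
    rw [hv, hzv]
    show Cfsg.sympForm m F (Pi.single (Sum.inr (q i)) 1) (Pi.single (Sum.inl (q j)) 1) = _
    rw [hde]
    simp only [hq.eq_iff]
  have hzvu : ∀ i j, Cfsg.sympForm m F (zv i) (u j) = 0 := by
    intro i j
    rw [hu, hzv]
    show Cfsg.sympForm m F (Pi.single (Sum.inr (q i)) 1) (Pi.single (Sum.inl (p j)) 1) = _
    rw [hde, if_neg (fun h => hpq j i h.symm)]
  obtain ⟨M, hi, hs, hform⟩ := exA hf h2 r u v huu huv hvv
  obtain ⟨hrk, hAl⟩ := A_data hf h2 M u v zu zv hform hzuu hzuv hzvv hzvu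
  obtain ⟨a, ha1, ha2⟩ := of_gl M hi hs (by rw [hrk]; omega)
  refine ⟨a, ha2, by rw [ha1]; exact hrk, ?_⟩
  intro w
  rw [ha1]
  exact (alt_iff _).mp hAl w

/-- the classification of involutions by rank and type -/
def Pcls : Fin m ⊕ Fin (m / 2) → ↥(Matrix.symplecticGroup (Fin m) F) → Prop
  | Sum.inl i, g => ((g : Matrix (Fin m ⊕ Fin m) (Fin m ⊕ Fin m) F) - 1).rank = i.val + 1 ∧
      ¬ AltT g
  | Sum.inr j, g => ((g : Matrix (Fin m ⊕ Fin m) (Fin m ⊕ Fin m) F) - 1).rank =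
      (j.val + 1) + (j.val + 1) ∧ AltT g

theorem result {F : Type*} [Field F] [Fintype F] [CharP F 2] {m : ℕ} (hm : 1 ≤ m) : Nat.card {C : ConjClasses ↥(Matrix.symplecticGroup (Fin m) F) // ∃ g : Matrix.symplecticGroup (Fin m) F, ConjClasses.mk g = C ∧ orderOf g = 2} = m + m / 2 := by
  classical
  have h2 : (2 : F) = 0 := CharTwo.two_eq_zero
  have key := class_count' (Pcls (F := F) (m := m)) ?_ ?_ ?_ ?_
  · rw [key, Fintype.card_sum, Fintype.card_fin, Fintype.card_fin]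
  · rintro (i | j)
    · obtain ⟨a, h1, h3, h4⟩ := ex_B (F := F) (m := m) (i.val + 1) (by omega) (by have := i.2; omega)
      exact ⟨a, h1, h3, h4⟩
    · obtain ⟨a, h1, h3, h4⟩ := ex_A (F := F) (m := m) (j.val + 1) (by omega)
        (by have := j.2; omega)
      exact ⟨a, h1, h3, h4⟩
  · intro g hg
    have hgg := sq_of_order g hg
    have hne : 0 < ((g : Matrix (Fin m ⊕ Fin m) (Fin m ⊕ Fin m) F) - 1).rank := by
      apply rank_pos_of_ne
      intro h0
      have h1 : g = 1 := Subtype.ext (sub_eq_zero.mp h0)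
      rw [h1, orderOf_one] at hg
      omega
    have hle : 2 * ((g : Matrix (Fin m ⊕ Fin m) (Fin m ⊕ Fin m) F) - 1).rank ≤ m + m := by
      have := rank_le h2 (invGL g hgg) (Units.ext (congrArg Subtype.val hgg))
      rw [Fintype.card_sum, Fintype.card_fin] at this
      exact this
    by_cases hA : AltT g
    · obtain ⟨r, u, v, _, _, _, hrk⟩ := dataA g hgg hA
      refine ⟨Sum.inr ⟨r - 1, by omega⟩, ?_, hA⟩
      show ((g : Matrix (Fin m ⊕ Fin m) (Fin m ⊕ Fin m) F) - 1).rank = (r - 1 + 1) + (r - 1 + 1)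
      omega
    · refine ⟨Sum.inl ⟨((g : Matrix (Fin m ⊕ Fin m) (Fin m ⊕ Fin m) F) - 1).rank - 1, by omega⟩,
        ?_, hA⟩
      show ((g : Matrix (Fin m ⊕ Fin m) (Fin m ⊕ Fin m) F) - 1).rank =
        ((g : Matrix (Fin m ⊕ Fin m) (Fin m ⊕ Fin m) F) - 1).rank - 1 + 1
      omega
  · rintro (i | j) g h hg hh ⟨h1, h3⟩ ⟨h4, h5⟩
    · exact conj_same g h (sq_of_order g hg) (sq_of_order h hh) (by rw [h1, h4])
        ⟨fun x => absurd x h3, fun x => absurd x h5⟩
    · exact conj_same g h (sq_of_order g hg) (sq_of_order h hh) (by rw [h1, h4])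
        ⟨fun _ => h5, fun _ => h3⟩
  · rintro (i | j) (i' | j') g h ⟨h1, h3⟩ ⟨h4, h5⟩ hc
    · have hr := rank_of_conj' g h hc
      rw [h1, h4] at hr
      congr 1
      exact Fin.ext (by omega)
    · exact absurd ((type_of_conj g h hc).mpr h5) h3
    · exact absurd ((type_of_conj g h hc).mp h3) h5
    · have hr := rank_of_conj' g h hc
      rw [h1, h4] at hr
      congr 1
      exact Fin.ext (by omega)

end Cfsg.Agent.S2593
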