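import Cfsg.Statements.S2595
import Mathlib
import Cfsg.Agent.S5631
import Cfsg.Agent.S5645
import Cfsg.Agent.S2593
import Cfsg.Agent.Lib.Helper15.StdForms
import Cfsg.Agent.Lib.Helper28.Herm
import Cfsg.Agent.Lib.Helper13.AltInv
import Cfsg.Agent.Lib.Helper13.OrthInv
import Cfsg.Agent.Lib.Helper13.InvCount
import Cfsg.Agent.Lib.Helper13.OrthCount

set_option autoImplicit false
open Cfsg

namespace Cfsg.Agent.S2595

open Matrix
open Cfsg.Agent.S5631 Cfsg.Agent.S5645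
open Cfsg.Agent.Lib.Helper28.Herm (Isom isom_inv isom_mul)
open Cfsg.Agent.Lib.Helper13.AltInv
open Cfsg.Agent.Lib.Helper13.OrthInv
open Cfsg.Agent.Lib.Helper13.InvCount
open Cfsg.Agent.Lib.Helper13.OrthCount
open Cfsg.Agent.Lib.Helper15.StdForms (plusQF plusQF_apply plus_nondeg polar_plus)
open Cfsg.Agent.S2593 (two_inj)

variable {F : Type*} [Field F] {m : ℕ}

theorem pol (u v : Fin m ⊕ Fin m → F) : pf (plusQF m F) u v =
    ∑ i : Fin m, (u (Sum.inl i) * v (Sum.inr i) + v (Sum.inl i) * u (Sum.inr i)) :=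
  polar_plus m u v

theorem pol_ee (i j : Fin m) :
    pf (plusQF m F) (Pi.single (Sum.inl i) 1) (Pi.single (Sum.inl j) 1) = 0 := by
  rw [pol]
  simp [Pi.single_apply]

theorem pol_dd (i j : Fin m) :
    pf (plusQF m F) (Pi.single (Sum.inr i) 1) (Pi.single (Sum.inr j) 1) = 0 := by
  rw [pol]
  simp [Pi.single_apply]

theorem pol_de (i j : Fin m) :
    pf (plusQF m F) (Pi.single (Sum.inr i) 1) (Pi.single (Sum.inl j) 1) =
      if i = j then 1 else 0 := by
  rw [pol]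
  by_cases h : i = j
  · subst h
    simp [Pi.single_apply]
  · simp [Pi.single_apply, h]

theorem pol_ed (i j : Fin m) :
    pf (plusQF m F) (Pi.single (Sum.inl i) 1) (Pi.single (Sum.inr j) 1) =
      if i = j then 1 else 0 := by
  rw [pol]
  by_cases h : i = j
  · subst h
    simp [Pi.single_apply]
  · have h' : ¬ j = i := fun e => h e.symm
    simp [Pi.single_apply, h, h']

theorem Q_e (i : Fin m) : plusQF m F (Pi.single (Sum.inl i) 1) = 0 := by
  rw [plusQF_apply]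
  unfold Cfsg.quadFormPlus
  simp [Pi.single_apply]

theorem Q_ed (i : Fin m) :
    plusQF m F (Pi.single (Sum.inl i) 1 + Pi.single (Sum.inr i) 1) = 1 := by
  rw [plusQF_apply]
  unfold Cfsg.quadFormPlus
  simp [Pi.single_apply]

theorem ex_B [Fintype F] [CharP F 2] (k : ℕ) (hk0 : 0 < k) (hk : k ≤ m) :
    ∃ M : GL (Fin m ⊕ Fin m) F,
      (∀ v, plusQF m F ((M : Matrix (Fin m ⊕ Fin m) (Fin m ⊕ Fin m) F) *ᵥ v) = plusQF m F v) ∧
      M * M = 1 ∧ ((M : Matrix (Fin m ⊕ Fin m) (Fin m ⊕ Fin m) F) - 1).rank = k ∧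
      ((∀ y, pf (plusQF m F) ((M : Matrix (Fin m ⊕ Fin m) (Fin m ⊕ Fin m) F) *ᵥ y - y) y = 0) ↔
        False) := by
  classical
  have h2 : (2 : F) = 0 := CharTwo.two_eq_zero
  have hnd := plus_nondeg (F := F) m
  have hf := pf_isAlt (plusQF m F) hnd h2
  obtain ⟨p, hp⟩ : ∃ p : Fin k → Fin m, Function.Injective p := by
    refine ⟨fun j => ⟨j.val, by have := j.2; omega⟩, fun i j h => ?_⟩
    have h' := congrArg Fin.val h
    exact Fin.ext h'
  obtain ⟨u, hu⟩ : ∃ u : Fin k → (Fin m ⊕ Fin m → F),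
      u = fun j => Pi.single (Sum.inl (p j)) 1 + Pi.single (Sum.inr (p j)) 1 := ⟨_, rfl⟩
  obtain ⟨z, hz⟩ : ∃ z : Fin k → (Fin m ⊕ Fin m → F),
      z = fun j => Pi.single (Sum.inl (p j)) 1 := ⟨_, rfl⟩
  have huu : ∀ i j, pf (plusQF m F) (u i) (u j) = 0 := by
    intro i j
    rw [hu]
    simp only [hf.add_left, hf.add_right, pol_ee, pol_ed, pol_de, pol_dd, zero_add, add_zero]
    by_cases h : p i = p j
    · rw [if_pos h]
      linear_combination h2
    · rw [if_neg h, add_zero]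
  have hq : ∀ i, plusQF m F (u i) = 1 := by
    intro i
    rw [hu]
    exact Q_ed _
  have hzu : ∀ i j, pf (plusQF m F) (z i) (u j) = if i = j then 1 else 0 := by
    intro i j
    rw [hu, hz]
    simp only [hf.add_right, pol_ee, pol_ed, zero_add, hp.eq_iff]
  obtain ⟨M, hM, hs, hform⟩ := exB_Q (plusQF m F) hnd h2 k u huu hq
  obtain ⟨hrk, hB⟩ := B_data hf M u z hform hzu
  refine ⟨M, hM, hs, hrk, fun hA => ?_, fun h => h.elim⟩
  obtain ⟨y, hy⟩ := hB hk0
  exact hy (hA y)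

theorem ex_A [Fintype F] [CharP F 2] (r : ℕ) (hr : r + r ≤ m) :
    ∃ M : GL (Fin m ⊕ Fin m) F,
      (∀ v, plusQF m F ((M : Matrix (Fin m ⊕ Fin m) (Fin m ⊕ Fin m) F) *ᵥ v) = plusQF m F v) ∧
      M * M = 1 ∧ ((M : Matrix (Fin m ⊕ Fin m) (Fin m ⊕ Fin m) F) - 1).rank = r + r ∧
      ((∀ y, pf (plusQF m F) ((M : Matrix (Fin m ⊕ Fin m) (Fin m ⊕ Fin m) F) *ᵥ y - y) y = 0) ↔
        True) := by
  classical
  have h2 : (2 : F) = 0 := CharTwo.two_eq_zero
  have hnd := plus_nondeg (F := F) m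
  have hf := pf_isAlt (plusQF m F) hnd h2
  obtain ⟨p, q, hp, hq, hpq⟩ := two_inj r m hr
  obtain ⟨u, hu⟩ : ∃ u : Fin r → (Fin m ⊕ Fin m → F),
      u = fun j => Pi.single (Sum.inl (p j)) 1 := ⟨_, rfl⟩
  obtain ⟨v, hv⟩ : ∃ v : Fin r → (Fin m ⊕ Fin m → F),
      v = fun j => Pi.single (Sum.inl (q j)) 1 := ⟨_, rfl⟩
  obtain ⟨zu, hzu⟩ : ∃ z : Fin r → (Fin m ⊕ Fin m → F),
      z = fun j => Pi.single (Sum.inr (p j)) 1 := ⟨_, rfl⟩
  obtain ⟨zv, hzv⟩ : ∃ z : Fin r → (Fin m ⊕ Fin m → F),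
      z = fun j => Pi.single (Sum.inr (q j)) 1 := ⟨_, rfl⟩
  have huu : ∀ i j, pf (plusQF m F) (u i) (u j) = 0 := by
    intro i j
    rw [hu]
    exact pol_ee _ _
  have huv : ∀ i j, pf (plusQF m F) (u i) (v j) = 0 := by
    intro i j
    rw [hu, hv]
    exact pol_ee _ _
  have hvv : ∀ i j, pf (plusQF m F) (v i) (v j) = 0 := by
    intro i j
    rw [hv]
    exact pol_ee _ _
  have hqu : ∀ i, plusQF m F (u i) = 0 := by
    intro i
    rw [hu]
    exact Q_e _
  have hqv : ∀ i, plusQF m F (v i) = 0 := by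
    intro i
    rw [hv]
    exact Q_e _
  have hzuu : ∀ i j, pf (plusQF m F) (zu i) (u j) = if i = j then 1 else 0 := by
    intro i j
    rw [hu, hzu]
    simp only [pol_de, hp.eq_iff]
  have hzuv : ∀ i j, pf (plusQF m F) (zu i) (v j) = 0 := by
    intro i j
    rw [hv, hzu]
    simp only [pol_de]
    rw [if_neg (hpq i j)]
  have hzvv : ∀ i j, pf (plusQF m F) (zv i) (v j) = if i = j then 1 else 0 := by
    intro i j
    rw [hv, hzv]
    simp only [pol_de, hq.eq_iff]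
  have hzvu : ∀ i j, pf (plusQF m F) (zv i) (u j) = 0 := by
    intro i j
    rw [hu, hzv]
    simp only [pol_de]
    rw [if_neg (fun h => hpq j i h.symm)]
  obtain ⟨M, hM, hs, hform⟩ := exA_Q (plusQF m F) hnd h2 r u v huu huv hvv hqu hqv
  obtain ⟨hrk, hAl⟩ := A_data hf h2 M u v zu zv hform hzuu hzuv hzvv hzvu
  exact ⟨M, hM, hs, hrk, fun _ => trivial, fun _ => hAl⟩

theorem result {F : Type*} [Field F] [Fintype F] [CharP F 2] {m : ℕ} (hm : 1 ≤ m) : Nat.card {C : ConjClasses ↥(Cfsg.isometryGroup F (Cfsg.quadFormPlus m F)) // ∃ g : ↥(Cfsg.isometryGroup F (Cfsg.quadFormPlus m F)), ConjClasses.mk g = C ∧ orderOf g = 2} = m + m / 2 := by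
  classical
  have h2 : (2 : F) = 0 := CharTwo.two_eq_zero
  have hnd := plus_nondeg (F := F) m
  have key := orth_count (Cfsg.quadFormPlus m F) (plusQF m F) (plusQF_apply m) hnd h2
    (I := Fin m ⊕ Fin (m / 2)) (Sum.elim (fun i => i.val + 1) (fun j => (j.val + 1) + (j.val + 1)))
    (Sum.elim (fun _ => False) (fun _ => True)) ?_ ?_ ?_ ?_
  · rw [key, Fintype.card_sum, Fintype.card_fin, Fintype.card_fin]
  · rintro (i | j) (i' | j') h1 h3
    · simp only [Sum.elim_inl] at h1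
      congr 1
      exact Fin.ext (by omega)
    · simp only [Sum.elim_inl, Sum.elim_inr] at h3
      exact (h3.mpr trivial).elim
    · simp only [Sum.elim_inl, Sum.elim_inr] at h3
      exact (h3.mp trivial).elim
    · simp only [Sum.elim_inr] at h1
      congr 1
      exact Fin.ext (by omega)
  · rintro (i | j)
    · simp only [Sum.elim_inl]
      omega
    · simp only [Sum.elim_inr]
      omega
  · rintro (i | j)
    · obtain ⟨M, h⟩ := ex_B (F := F) (m := m) (i.val + 1) (by omega) (by have := i.2; omega)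
      exact ⟨M, h⟩
    · obtain ⟨M, h⟩ := ex_A (F := F) (m := m) (j.val + 1) (by have := j.2; omega)
      exact ⟨M, h⟩
  · intro M hM hs hne
    obtain ⟨hpos, hle, hA⟩ := inv_cases (plusQF m F) hnd h2 M hM hs hne
    rw [Fintype.card_sum, Fintype.card_fin] at hle
    by_cases halt : ∀ y, pf (plusQF m F)
        ((M : Matrix (Fin m ⊕ Fin m) (Fin m ⊕ Fin m) F) *ᵥ y - y) y = 0
    · obtain ⟨r, w, hrk, _, _, _⟩ := hA halt
      refine ⟨Sum.inr ⟨r - 1, by omega⟩, ?_, ?_⟩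
      · show ((M : Matrix (Fin m ⊕ Fin m) (Fin m ⊕ Fin m) F) - 1).rank = (r - 1 + 1) + (r - 1 + 1)
        omega
      · exact ⟨fun _ => trivial, fun _ => halt⟩
    · refine ⟨Sum.inl ⟨((M : Matrix (Fin m ⊕ Fin m) (Fin m ⊕ Fin m) F) - 1).rank - 1, by omega⟩,
        ?_, ?_⟩
      · show ((M : Matrix (Fin m ⊕ Fin m) (Fin m ⊕ Fin m) F) - 1).rank =
          ((M : Matrix (Fin m ⊕ Fin m) (Fin m ⊕ Fin m) F) - 1).rank - 1 + 1
        omega
      · exact ⟨fun h => halt h, fun h => h.elim⟩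

end Cfsg.Agent.S2595
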