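import Cfsg.Statements.S2596
import Mathlib
import Cfsg.Agent.S5631
import Cfsg.Agent.S5645
import Cfsg.Agent.S2593
import Cfsg.Agent.Lib.Helper15.StdForms
import Cfsg.Agent.Lib.Helper28.Herm
import Cfsg.Agent.Lib.Helper13.AltInv
import Cfsg.Agent.Lib.Helper13.OrthInv
import Cfsg.Agent.Lib.Helper13.InvCount
import Cfsg.Agent.Lib.Helper13.OrthCount

set_option autoImplicit false
open Cfsg

namespace Cfsg.Agent.S2596

open Matrix
open Cfsg.Agent.S5631 Cfsg.Agent.S5645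
open Cfsg.Agent.Lib.Helper28.Herm (Isom isom_inv isom_mul)
open Cfsg.Agent.Lib.Helper13.AltInv
open Cfsg.Agent.Lib.Helper13.OrthInv
open Cfsg.Agent.Lib.Helper13.InvCount
open Cfsg.Agent.Lib.Helper13.OrthCount
open Cfsg.Agent.Lib.Helper15.StdForms (minusQF minusQF_apply minus_nondeg polar_minus coe_minusQF
  disc_ne_zero)
open Cfsg.Agent.S2593 (two_inj)

variable {F : Type*} [Field F] {k : ℕ} {a b : F}

theorem pol (u v : (Fin k ⊕ Fin k) ⊕ Fin 2 → F) : pf (minusQF k F a b) u v =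
    (∑ i : Fin k, (u (Sum.inl (Sum.inl i)) * v (Sum.inl (Sum.inr i))
          + v (Sum.inl (Sum.inl i)) * u (Sum.inl (Sum.inr i))))
        + (2 * u (Sum.inr 0) * v (Sum.inr 0)
          + a * (u (Sum.inr 0) * v (Sum.inr 1) + u (Sum.inr 1) * v (Sum.inr 0))
          + 2 * b * u (Sum.inr 1) * v (Sum.inr 1)) := by
  show QuadraticMap.polar (⇑(minusQF k F a b)) u v = _
  rw [coe_minusQF]
  exact polar_minus k a b u v

theorem pol_ee (i j : Fin k) :
    pf (minusQF k F a b) (Pi.single (Sum.inl (Sum.inl i)) 1) (Pi.single (Sum.inl (Sum.inl j)) 1) =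
      0 := by
  rw [pol]
  simp [Pi.single_apply]

theorem pol_de (i j : Fin k) :
    pf (minusQF k F a b) (Pi.single (Sum.inl (Sum.inr i)) 1) (Pi.single (Sum.inl (Sum.inl j)) 1) =
      if i = j then 1 else 0 := by
  rw [pol]
  by_cases h : i = j
  · subst h
    simp [Pi.single_apply]
  · simp [Pi.single_apply, h]

theorem pol_ed (i j : Fin k) :
    pf (minusQF k F a b) (Pi.single (Sum.inl (Sum.inl i)) 1) (Pi.single (Sum.inl (Sum.inr j)) 1) =
      if i = j then 1 else 0 := by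
  rw [pol]
  by_cases h : i = j
  · subst h
    simp [Pi.single_apply]
  · have h' : ¬ j = i := fun e => h e.symm
    simp [Pi.single_apply, h, h']

theorem pol_dd (i j : Fin k) :
    pf (minusQF k F a b) (Pi.single (Sum.inl (Sum.inr i)) 1) (Pi.single (Sum.inl (Sum.inr j)) 1) =
      0 := by
  rw [pol]
  simp [Pi.single_apply]

theorem pol_e_w1 (i : Fin k) :
    pf (minusQF k F a b) (Pi.single (Sum.inl (Sum.inl i)) 1) (Pi.single (Sum.inr 0) 1) = 0 := by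
  rw [pol]
  simp [Pi.single_apply]

theorem pol_d_w1 (i : Fin k) :
    pf (minusQF k F a b) (Pi.single (Sum.inl (Sum.inr i)) 1) (Pi.single (Sum.inr 0) 1) = 0 := by
  rw [pol]
  simp [Pi.single_apply]

theorem pol_w1_e (i : Fin k) :
    pf (minusQF k F a b) (Pi.single (Sum.inr 0) 1) (Pi.single (Sum.inl (Sum.inl i)) 1) = 0 := by
  rw [pol]
  simp [Pi.single_apply]

theorem pol_w1_d (i : Fin k) :
    pf (minusQF k F a b) (Pi.single (Sum.inr 0) 1) (Pi.single (Sum.inl (Sum.inr i)) 1) = 0 := by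
  rw [pol]
  simp [Pi.single_apply]

theorem pol_w2_e (i : Fin k) :
    pf (minusQF k F a b) (Pi.single (Sum.inr 1) 1) (Pi.single (Sum.inl (Sum.inl i)) 1) = 0 := by
  rw [pol]
  simp [Pi.single_apply]

theorem pol_w2_d (i : Fin k) :
    pf (minusQF k F a b) (Pi.single (Sum.inr 1) 1) (Pi.single (Sum.inl (Sum.inr i)) 1) = 0 := by
  rw [pol]
  simp [Pi.single_apply]

theorem pol_w2_w1 :
    pf (minusQF k F a b) (Pi.single (Sum.inr 1) 1) (Pi.single (Sum.inr 0) 1) = a := by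
  rw [pol]
  simp

theorem Q_e (i : Fin k) : minusQF k F a b (Pi.single (Sum.inl (Sum.inl i)) 1) = 0 := by
  rw [minusQF_apply]
  unfold Cfsg.quadFormMinus
  simp [Pi.single_apply]

theorem Q_ed (i : Fin k) :
    minusQF k F a b (Pi.single (Sum.inl (Sum.inl i)) 1 + Pi.single (Sum.inl (Sum.inr i)) 1) =
      1 := by
  rw [minusQF_apply]
  unfold Cfsg.quadFormMinus
  simp [Pi.single_apply]

theorem Q_w1 : minusQF k F a b (Pi.single (Sum.inr 0) 1) = 1 := by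
  rw [minusQF_apply]
  unfold Cfsg.quadFormMinus
  simp

theorem a_ne_zero [Finite F] (h2 : (2 : F) = 0)
    (hab : ∀ z₁ z₂ : F, z₁ ^ 2 + a * z₁ * z₂ + b * z₂ ^ 2 = 0 → z₁ = 0 ∧ z₂ = 0) : a ≠ 0 := by
  have h := disc_ne_zero a b hab
  intro h0
  apply h
  rw [h0]
  linear_combination (2 * b) * h2

theorem ex_B [Fintype F] [CharP F 2]
    (hab : ∀ z₁ z₂ : F, z₁ ^ 2 + a * z₁ * z₂ + b * z₂ ^ 2 = 0 → z₁ = 0 ∧ z₂ = 0)
    (k' : ℕ) (hk : k' ≤ k) :
    ∃ M : GL ((Fin k ⊕ Fin k) ⊕ Fin 2) F,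
      (∀ v, minusQF k F a b ((M : Matrix ((Fin k ⊕ Fin k) ⊕ Fin 2) ((Fin k ⊕ Fin k) ⊕ Fin 2) F)
        *ᵥ v) = minusQF k F a b v) ∧
      M * M = 1 ∧
      ((M : Matrix ((Fin k ⊕ Fin k) ⊕ Fin 2) ((Fin k ⊕ Fin k) ⊕ Fin 2) F) - 1).rank = k' + 1 ∧
      ((∀ y, pf (minusQF k F a b)
        ((M : Matrix ((Fin k ⊕ Fin k) ⊕ Fin 2) ((Fin k ⊕ Fin k) ⊕ Fin 2) F) *ᵥ y - y) y = 0) ↔
        False) := by
  classical
  have h2 : (2 : F) = 0 := CharTwo.two_eq_zero
  have hnd := minus_nondeg (F := F) k a b hab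
  have hf := pf_isAlt (minusQF k F a b) hnd h2
  have ha := a_ne_zero h2 hab
  obtain ⟨p, hp⟩ : ∃ p : Fin k' → Fin k, Function.Injective p := by
    refine ⟨fun j => ⟨j.val, by have := j.2; omega⟩, fun i j h => ?_⟩
    have h' := congrArg Fin.val h
    exact Fin.ext h'
  obtain ⟨u, hu⟩ : ∃ u : Fin (k' + 1) → ((Fin k ⊕ Fin k) ⊕ Fin 2 → F),
      u = Fin.cons (Pi.single (Sum.inr 0) 1) (fun j => Pi.single (Sum.inl (Sum.inl (p j))) 1 +
        Pi.single (Sum.inl (Sum.inr (p j))) 1) := ⟨_, rfl⟩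
  obtain ⟨z, hz⟩ : ∃ z : Fin (k' + 1) → ((Fin k ⊕ Fin k) ⊕ Fin 2 → F),
      z = Fin.cons (a⁻¹ • Pi.single (Sum.inr 1) 1)
        (fun j => Pi.single (Sum.inl (Sum.inl (p j))) 1) := ⟨_, rfl⟩
  have huu : ∀ i j, pf (minusQF k F a b) (u i) (u j) = 0 := by
    intro i j
    rw [hu]
    refine Fin.cases ?_ (fun i' => ?_) i <;> refine Fin.cases ?_ (fun j' => ?_) j
    · simp only [Fin.cons_zero]
      exact hf.self _
    · simp only [Fin.cons_zero, Fin.cons_succ, hf.add_right, pol_w1_e, pol_w1_d, add_zero]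
    · simp only [Fin.cons_zero, Fin.cons_succ, hf.add_left, pol_e_w1, pol_d_w1, add_zero]
    · simp only [Fin.cons_succ, hf.add_left, hf.add_right, pol_ee, pol_ed, pol_de, pol_dd,
        zero_add, add_zero]
      by_cases h : p i' = p j'
      · rw [if_pos h]
        linear_combination h2
      · rw [if_neg h, add_zero]
  have hq : ∀ i, minusQF k F a b (u i) = 1 := by
    intro i
    rw [hu]
    refine Fin.cases ?_ (fun i' => ?_) i
    · simp only [Fin.cons_zero]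
      exact Q_w1
    · simp only [Fin.cons_succ]
      exact Q_ed _
  have hzu : ∀ i j, pf (minusQF k F a b) (z i) (u j) = if i = j then 1 else 0 := by
    intro i j
    rw [hu, hz]
    refine Fin.cases ?_ (fun i' => ?_) i <;> refine Fin.cases ?_ (fun j' => ?_) j
    · simp only [Fin.cons_zero, hf.smul_left, pol_w2_w1, if_true]
      exact inv_mul_cancel₀ ha
    · simp only [Fin.cons_zero, Fin.cons_succ, hf.smul_left, hf.add_right, pol_w2_e, pol_w2_d,
        add_zero, mul_zero]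
      rw [if_neg (Fin.succ_ne_zero j').symm]
    · simp only [Fin.cons_zero, Fin.cons_succ, pol_e_w1]
      rw [if_neg (Fin.succ_ne_zero i')]
    · simp only [Fin.cons_succ, hf.add_right, pol_ee, pol_ed, zero_add, hp.eq_iff,
        Fin.succ_inj]
  obtain ⟨M, hM, hs, hform⟩ := exB_Q (minusQF k F a b) hnd h2 (k' + 1) u huu hq
  obtain ⟨hrk, hB⟩ := B_data hf M u z hform hzu
  refine ⟨M, hM, hs, hrk, fun hA => ?_, fun h => h.elim⟩
  obtain ⟨y, hy⟩ := hB (Nat.succ_pos k')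
  exact hy (hA y)

theorem ex_A [Fintype F] [CharP F 2]
    (hab : ∀ z₁ z₂ : F, z₁ ^ 2 + a * z₁ * z₂ + b * z₂ ^ 2 = 0 → z₁ = 0 ∧ z₂ = 0)
    (r : ℕ) (hr : r + r ≤ k) :
    ∃ M : GL ((Fin k ⊕ Fin k) ⊕ Fin 2) F,
      (∀ v, minusQF k F a b ((M : Matrix ((Fin k ⊕ Fin k) ⊕ Fin 2) ((Fin k ⊕ Fin k) ⊕ Fin 2) F)
        *ᵥ v) = minusQF k F a b v) ∧
      M * M = 1 ∧
      ((M : Matrix ((Fin k ⊕ Fin k) ⊕ Fin 2) ((Fin k ⊕ Fin k) ⊕ Fin 2) F) - 1).rank = r + r ∧
      ((∀ y, pf (minusQF k F a b)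
        ((M : Matrix ((Fin k ⊕ Fin k) ⊕ Fin 2) ((Fin k ⊕ Fin k) ⊕ Fin 2) F) *ᵥ y - y) y = 0) ↔
        True) := by
  classical
  have h2 : (2 : F) = 0 := CharTwo.two_eq_zero
  have hnd := minus_nondeg (F := F) k a b hab
  have hf := pf_isAlt (minusQF k F a b) hnd h2
  obtain ⟨p, q, hp, hq, hpq⟩ := two_inj r k hr
  obtain ⟨u, hu⟩ : ∃ u : Fin r → ((Fin k ⊕ Fin k) ⊕ Fin 2 → F),
      u = fun j => Pi.single (Sum.inl (Sum.inl (p j))) 1 := ⟨_, rfl⟩
  obtain ⟨v, hv⟩ : ∃ v : Fin r → ((Fin k ⊕ Fin k) ⊕ Fin 2 → F),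
      v = fun j => Pi.single (Sum.inl (Sum.inl (q j))) 1 := ⟨_, rfl⟩
  obtain ⟨zu, hzu⟩ : ∃ z : Fin r → ((Fin k ⊕ Fin k) ⊕ Fin 2 → F),
      z = fun j => Pi.single (Sum.inl (Sum.inr (p j))) 1 := ⟨_, rfl⟩
  obtain ⟨zv, hzv⟩ : ∃ z : Fin r → ((Fin k ⊕ Fin k) ⊕ Fin 2 → F),
      z = fun j => Pi.single (Sum.inl (Sum.inr (q j))) 1 := ⟨_, rfl⟩
  have huu : ∀ i j, pf (minusQF k F a b) (u i) (u j) = 0 := by
    intro i j
    rw [hu]
    exact pol_ee _ _
  have huv : ∀ i j, pf (minusQF k F a b) (u i) (v j) = 0 := by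
    intro i j
    rw [hu, hv]
    exact pol_ee _ _
  have hvv : ∀ i j, pf (minusQF k F a b) (v i) (v j) = 0 := by
    intro i j
    rw [hv]
    exact pol_ee _ _
  have hqu : ∀ i, minusQF k F a b (u i) = 0 := by
    intro i
    rw [hu]
    exact Q_e _
  have hqv : ∀ i, minusQF k F a b (v i) = 0 := by
    intro i
    rw [hv]
    exact Q_e _
  have hzuu : ∀ i j, pf (minusQF k F a b) (zu i) (u j) = if i = j then 1 else 0 := by
    intro i j
    rw [hu, hzu]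
    simp only [pol_de, hp.eq_iff]
  have hzuv : ∀ i j, pf (minusQF k F a b) (zu i) (v j) = 0 := by
    intro i j
    rw [hv, hzu]
    simp only [pol_de]
    rw [if_neg (hpq i j)]
  have hzvv : ∀ i j, pf (minusQF k F a b) (zv i) (v j) = if i = j then 1 else 0 := by
    intro i j
    rw [hv, hzv]
    simp only [pol_de, hq.eq_iff]
  have hzvu : ∀ i j, pf (minusQF k F a b) (zv i) (u j) = 0 := by
    intro i j
    rw [hu, hzv]
    simp only [pol_de]
    rw [if_neg (fun h => hpq j i h.symm)]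
  obtain ⟨M, hM, hs, hform⟩ := exA_Q (minusQF k F a b) hnd h2 r u v huu huv hvv hqu hqv
  obtain ⟨hrk, hAl⟩ := A_data hf h2 M u v zu zv hform hzuu hzuv hzvv hzvu
  exact ⟨M, hM, hs, hrk, fun _ => trivial, fun _ => hAl⟩

/-- the Witt index of the minus form is `k` -/
theorem ts_bound [Fintype F] [CharP F 2]
    (hab : ∀ z₁ z₂ : F, z₁ ^ 2 + a * z₁ * z₂ + b * z₂ ^ 2 = 0 → z₁ = 0 ∧ z₂ = 0)
    {κ : Type} [Fintype κ] (w : κ → (Fin k ⊕ Fin k) ⊕ Fin 2 → F) (hli : LinearIndependent F w)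
    (hti : ∀ i j, pf (minusQF k F a b) (w i) (w j) = 0) (hq : ∀ i, minusQF k F a b (w i) = 0) :
    Fintype.card κ ≤ k := by
  classical
  have h2 : (2 : F) = 0 := CharTwo.two_eq_zero
  have hnd := minus_nondeg (F := F) k a b hab
  have hf := pf_isAlt (minusQF k F a b) hnd h2
  by_contra hcon
  have hle : Fintype.card (Fin k) ≤ Fintype.card κ := by
    rw [Fintype.card_fin]
    omega
  obtain ⟨ι₀⟩ := Function.Embedding.nonempty_of_card_le hle
  obtain ⟨e, he⟩ : ∃ e : Fin k → ((Fin k ⊕ Fin k) ⊕ Fin 2 → F),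
      e = fun j => Pi.single (Sum.inl (Sum.inl j)) 1 := ⟨_, rfl⟩
  have hed : ∀ i j, pf (minusQF k F a b) (Pi.single (Sum.inl (Sum.inr i)) 1) (e j) =
      if i = j then 1 else 0 := by
    intro i j
    rw [he]
    exact pol_de i j
  have heli : LinearIndependent F e := li_of_dual hf e _ hed
  have hee : ∀ i j, pf (minusQF k F a b) (e i) (e j) = 0 := by
    intro i j
    rw [he]
    exact pol_ee _ _
  obtain ⟨h, hh1, hh2⟩ := witt_Q (minusQF k F a b) hnd h2 (fun j => w (ι₀ j)) e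
    (hli.comp _ ι₀.injective) heli (fun i j => hti _ _) hee
    (fun i => by rw [hq, he]; exact (Q_e i).symm)
  have hhi := isom_of_Q _ h hh1
  -- every `h (w x)` is supported on the `e`-coordinates
  have hsupp : ∀ x, (∀ j, ((h : Matrix ((Fin k ⊕ Fin k) ⊕ Fin 2) ((Fin k ⊕ Fin k) ⊕ Fin 2) F) *ᵥ
      w x) (Sum.inl (Sum.inr j)) = 0) ∧
      (∀ t, ((h : Matrix ((Fin k ⊕ Fin k) ⊕ Fin 2) ((Fin k ⊕ Fin k) ⊕ Fin 2) F) *ᵥ w x)
        (Sum.inr t) = 0) := by
    intro x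
    obtain ⟨y, hy⟩ : ∃ y, y = (h : Matrix ((Fin k ⊕ Fin k) ⊕ Fin 2) ((Fin k ⊕ Fin k) ⊕ Fin 2) F) *ᵥ
      w x := ⟨_, rfl⟩
    rw [← hy]
    have h1 : ∀ j, y (Sum.inl (Sum.inr j)) = 0 := by
      intro j
      have e1 : pf (minusQF k F a b) y (e j) = 0 := by
        rw [hy, ← hh2 j, hhi]
        exact hti _ _
      rw [he, pol] at e1
      simpa [Pi.single_apply] using e1
    have hQy : minusQF k F a b y = 0 := by
      rw [hy, hh1, hq]
    rw [minusQF_apply] at hQy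
    unfold Cfsg.quadFormMinus at hQy
    simp only [h1, mul_zero, Finset.sum_const_zero, zero_add] at hQy
    obtain ⟨h3, h4⟩ := hab _ _ hQy
    refine ⟨h1, fun t => ?_⟩
    fin_cases t
    · exact h3
    · exact h4
  have hY : LinearIndependent F (fun x =>
      (h : Matrix ((Fin k ⊕ Fin k) ⊕ Fin 2) ((Fin k ⊕ Fin k) ⊕ Fin 2) F) *ᵥ w x) := by
    have := hli.map' (Matrix.mulVecLin
      (h : Matrix ((Fin k ⊕ Fin k) ⊕ Fin 2) ((Fin k ⊕ Fin k) ⊕ Fin 2) F)) (by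
        rw [LinearMap.ker_eq_bot]
        intro x y hxy
        have h5 := congrArg (fun v => ((h⁻¹ : GL ((Fin k ⊕ Fin k) ⊕ Fin 2) F) :
          Matrix ((Fin k ⊕ Fin k) ⊕ Fin 2) ((Fin k ⊕ Fin k) ⊕ Fin 2) F) *ᵥ v) hxy
        simp only [Matrix.mulVecLin_apply] at h5
        rw [gl_inv_mulVec, gl_inv_mulVec] at h5
        exact h5)
    exact this
  have hspan : Submodule.span F (Set.range (fun x =>
      (h : Matrix ((Fin k ⊕ Fin k) ⊕ Fin 2) ((Fin k ⊕ Fin k) ⊕ Fin 2) F) *ᵥ w x)) ≤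
      Submodule.span F (Set.range e) := by
    rw [Submodule.span_le]
    rintro _ ⟨x, rfl⟩
    obtain ⟨h1, h3⟩ := hsupp x
    have e1 : (h : Matrix ((Fin k ⊕ Fin k) ⊕ Fin 2) ((Fin k ⊕ Fin k) ⊕ Fin 2) F) *ᵥ w x =
        ∑ j, ((h : Matrix ((Fin k ⊕ Fin k) ⊕ Fin 2) ((Fin k ⊕ Fin k) ⊕ Fin 2) F) *ᵥ w x)
          (Sum.inl (Sum.inl j)) • e j := by
      funext c
      rw [he]
      rcases c with (c | c) | c
      · simp [Finset.sum_apply, Pi.single_apply]
      · simp [Finset.sum_apply, h1]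
      · simp [Finset.sum_apply, h3]
    show (h : Matrix ((Fin k ⊕ Fin k) ⊕ Fin 2) ((Fin k ⊕ Fin k) ⊕ Fin 2) F) *ᵥ w x ∈
      Submodule.span F (Set.range e)
    rw [e1]
    exact Submodule.sum_mem _
      (fun j _ => Submodule.smul_mem _ _ (Submodule.subset_span ⟨j, rfl⟩))
  have hfr := Submodule.finrank_mono hspan
  rw [finrank_span_eq_card hY] at hfr
  have hfr2 := finrank_range_le_card (R := F) e
  rw [Fintype.card_fin] at hfr2
  have hfr3 : Module.finrank F (Submodule.span F (Set.range e)) ≤ k := hfr2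
  omega

theorem result {F : Type*} [Field F] [Fintype F] [CharP F 2] {m : ℕ} (hm : 1 ≤ m) (a b : F) (hab : ∀ z₁ z₂ : F, z₁ ^ 2 + a * z₁ * z₂ + b * z₂ ^ 2 = 0 → z₁ = 0 ∧ z₂ = 0) : Nat.card {C : ConjClasses ↥(Cfsg.isometryGroup F (Cfsg.quadFormMinus (m - 1) F a b)) // ∃ g : ↥(Cfsg.isometryGroup F (Cfsg.quadFormMinus (m - 1) F a b)), ConjClasses.mk g = C ∧ orderOf g = 2} = m + (m - 1) / 2 := by
  classical
  have h2 : (2 : F) = 0 := CharTwo.two_eq_zero
  have hnd := minus_nondeg (F := F) (m - 1) a b hab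
  have key := orth_count (Cfsg.quadFormMinus (m - 1) F a b) (minusQF (m - 1) F a b)
    (minusQF_apply (m - 1) a b) hnd h2
    (I := Fin m ⊕ Fin ((m - 1) / 2))
    (Sum.elim (fun i => i.val + 1) (fun j => (j.val + 1) + (j.val + 1)))
    (Sum.elim (fun _ => False) (fun _ => True)) ?_ ?_ ?_ ?_
  · rw [key, Fintype.card_sum, Fintype.card_fin, Fintype.card_fin]
  · rintro (i | j) (i' | j') h1 h3
    · simp only [Sum.elim_inl] at h1
      congr 1
      exact Fin.ext (by omega)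
    · simp only [Sum.elim_inl, Sum.elim_inr] at h3
      exact (h3.mpr trivial).elim
    · simp only [Sum.elim_inl, Sum.elim_inr] at h3
      exact (h3.mp trivial).elim
    · simp only [Sum.elim_inr] at h1
      congr 1
      exact Fin.ext (by omega)
  · rintro (i | j)
    · simp only [Sum.elim_inl]
      omega
    · simp only [Sum.elim_inr]
      omega
  · rintro (i | j)
    · obtain ⟨M, h⟩ := ex_B (F := F) (k := m - 1) hab i.val (by have := i.2; omega)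
      exact ⟨M, h⟩
    · obtain ⟨M, h⟩ := ex_A (F := F) (k := m - 1) hab (j.val + 1) (by have := j.2; omega)
      exact ⟨M, h⟩
  · intro M hM hs hne
    obtain ⟨hpos, hle, hA⟩ := inv_cases (minusQF (m - 1) F a b) hnd h2 M hM hs hne
    rw [Fintype.card_sum, Fintype.card_sum, Fintype.card_fin, Fintype.card_fin] at hle
    by_cases halt : ∀ y, pf (minusQF (m - 1) F a b)
        ((M : Matrix ((Fin (m - 1) ⊕ Fin (m - 1)) ⊕ Fin 2) ((Fin (m - 1) ⊕ Fin (m - 1)) ⊕ Fin 2) F)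
          *ᵥ y - y) y = 0
    · obtain ⟨r, w, hrk, hli, hti, hq⟩ := hA halt
      have hb := ts_bound hab w hli hti hq
      rw [Fintype.card_sum, Fintype.card_fin] at hb
      refine ⟨Sum.inr ⟨r - 1, by omega⟩, ?_, ?_⟩
      · show ((M : Matrix ((Fin (m - 1) ⊕ Fin (m - 1)) ⊕ Fin 2)
          ((Fin (m - 1) ⊕ Fin (m - 1)) ⊕ Fin 2) F) - 1).rank = (r - 1 + 1) + (r - 1 + 1)
        omega
      · exact ⟨fun _ => trivial, fun _ => halt⟩
    · refine ⟨Sum.inl ⟨((M : Matrix ((Fin (m - 1) ⊕ Fin (m - 1)) ⊕ Fin 2)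
          ((Fin (m - 1) ⊕ Fin (m - 1)) ⊕ Fin 2) F) - 1).rank - 1, by omega⟩, ?_, ?_⟩
      · show ((M : Matrix ((Fin (m - 1) ⊕ Fin (m - 1)) ⊕ Fin 2)
          ((Fin (m - 1) ⊕ Fin (m - 1)) ⊕ Fin 2) F) - 1).rank =
          ((M : Matrix ((Fin (m - 1) ⊕ Fin (m - 1)) ⊕ Fin 2)
            ((Fin (m - 1) ⊕ Fin (m - 1)) ⊕ Fin 2) F) - 1).rank - 1 + 1
        omega
      · exact ⟨fun h => halt h, fun h => h.elim⟩

end Cfsg.Agent.S2596
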