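import Cfsg.Statements.S5986
import Mathlib
import Cfsg.Agent.Lib.Helper13.NsMinus

set_option autoImplicit false
open Cfsg

namespace Cfsg.Agent.S5986

open Matrix
open Cfsg.Agent.Lib.Helper15.StdForms (minusQF minus_nondeg)
open Cfsg.Agent.Lib.Helper13.OrthInv (pf Q_range)
open Cfsg.Agent.Lib.Helper13.OmegaCount (rk alt Qx fix_ns mkO index_two)
open Cfsg.Agent.Lib.Helper13.OrthCent4 (q_ge)
open Cfsg.Agent.Lib.Helper13.OrthCent (N1_eq)
open Cfsg.Agent.Lib.Helper13.NsPoint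
open Cfsg.Agent.Lib.Helper13.NsMinus (minus_elem)

theorem N1_minus {F : Type*} [Field F] [Fintype F] [CharP F 2] (k : ℕ) (a b : F)
    (hab : ∀ z₁ z₂ : F, z₁ ^ 2 + a * z₁ * z₂ + b * z₂ ^ 2 = 0 → z₁ = 0 ∧ z₂ = 0) :
    Nat.card {v : (Fin k ⊕ Fin k) ⊕ Fin 2 → F // minusQF k F a b v = 1} =
      Fintype.card F ^ k * (Fintype.card F ^ (k + 1) + 1) := by
  classical
  have h1 := N1_eq (minusQF k F a b)
  have h2 := Cfsg.Agent.Lib.Helper15.EvenForms.card_minus_ab k a b hab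
  rw [Fintype.card_sum, Fintype.card_sum, Fintype.card_fin, Fintype.card_fin] at h1
  have e0 : Nat.card {v : (Fin k ⊕ Fin k) ⊕ Fin 2 → F // minusQF k F a b v = 0} =
      Fintype.card {v : (Fin k ⊕ Fin k) ⊕ Fin 2 → F // Cfsg.quadFormMinus k F a b v = 0} := by
    rw [← Nat.card_eq_fintype_card]
    exact Nat.card_congr (Equiv.subtypeEquivRight (fun v => by
      rw [Cfsg.Agent.Lib.Helper15.StdForms.minusQF_apply]))
  have h2' : Fintype.card F * Nat.card {v : (Fin k ⊕ Fin k) ⊕ Fin 2 → F // minusQF k F a b v = 0} =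
      Fintype.card F ^ (k + 1) +
        Fintype.card F ^ 2 * ((Fintype.card F ^ k - 1) * Fintype.card F ^ k) := by
    rw [e0, ← Cfsg.Agent.Lib.Helper15.EvenForms.card_nonzero_vec]
    exact h2
  have hq : 2 ≤ Fintype.card F := Fintype.one_lt_card
  obtain ⟨t, ht⟩ : ∃ t, Fintype.card F = t + 1 := ⟨Fintype.card F - 1, by omega⟩
  obtain ⟨u, hu⟩ : ∃ u, Fintype.card F ^ k = u + 1 :=
    ⟨Fintype.card F ^ k - 1, by have := Nat.pow_pos (n := k) (show 0 < Fintype.card F by omega); omega⟩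
  have e1 : Fintype.card F ^ (k + 1) = (t + 1) * (u + 1) := by rw [pow_succ, hu, ht]; ring
  have e2 : Fintype.card F ^ (k + k + 2) = (t + 1) ^ 2 * (u + 1) ^ 2 := by
    have : Fintype.card F ^ (k + k + 2) = Fintype.card F ^ 2 * (Fintype.card F ^ k) ^ 2 := by ring
    rw [this, hu, ht]
  rw [e1, hu, ht, Nat.add_sub_cancel] at h2'
  rw [e2, ht, Nat.add_sub_cancel] at h1
  rw [e1, hu]
  have hN0 : Nat.card {v : (Fin k ⊕ Fin k) ⊕ Fin 2 → F // minusQF k F a b v = 0} =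
      (u + 1) * (1 + (t + 1) * u) := by
    apply Nat.eq_of_mul_eq_mul_left (show 0 < t + 1 by omega)
    rw [h2']
    ring
  rw [hN0] at h1
  have e3 : (u + 1) * ((t + 1) * (u + 1) + 1) * t + (u + 1) * (1 + (t + 1) * u) =
      (t + 1) ^ 2 * (u + 1) ^ 2 := by ring
  have h3 := Nat.add_right_cancel (h1.trans e3.symm)
  exact Nat.eq_of_mul_eq_mul_right (show 0 < t by omega) h3

theorem result {F : Type*} [Field F] [Fintype F] {p : ℕ} [Fact p.Prime] [CharP F p] {q : ℕ} (hq : Fintype.card F = q)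
    (hp : p = 2) (d : ℕ) (hd : 4 ≤ d) (a b : F) (hab : ∀ x y : F, x ^ 2 + a * x * y + b * y ^ 2 = 0 → x = 0 ∧ y = 0) (r : ℕ) [Fact r.Prime]
    (hrΩ : r ∣ Nat.card {W : Submodule F ((Fin (d - 1) ⊕ Fin (d - 1)) ⊕ Fin 2 → F) // Module.finrank F ↥W = 1 ∧ ∃ v ∈ W, Cfsg.quadFormMinus (d - 1) F a b v ≠ 0}) :
    (∀ x : GL ((Fin (d - 1) ⊕ Fin (d - 1)) ⊕ Fin 2) F, x ∈ Cfsg.Geo.omegaGL (Cfsg.quadFormMinus (d - 1) F a b) →
      (∃ z : F, ((x ^ r : GL ((Fin (d - 1) ⊕ Fin (d - 1)) ⊕ Fin 2) F) : Matrix ((Fin (d - 1) ⊕ Fin (d - 1)) ⊕ Fin 2) ((Fin (d - 1) ⊕ Fin (d - 1)) ⊕ Fin 2) F) = z • (1 : Matrix ((Fin (d - 1) ⊕ Fin (d - 1)) ⊕ Fin 2) ((Fin (d - 1) ⊕ Fin (d - 1)) ⊕ Fin 2) F)) →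
      (∀ z : F, (x : Matrix ((Fin (d - 1) ⊕ Fin (d - 1)) ⊕ Fin 2) ((Fin (d - 1) ⊕ Fin (d - 1)) ⊕ Fin 2) F) ≠ z • (1 : Matrix ((Fin (d - 1) ⊕ Fin (d - 1)) ⊕ Fin 2) ((Fin (d - 1) ⊕ Fin (d - 1)) ⊕ Fin 2) F)) →
      ∃ W : Submodule F ((Fin (d - 1) ⊕ Fin (d - 1)) ⊕ Fin 2 → F), (Module.finrank F ↥W = 1 ∧ ∃ v ∈ W, Cfsg.quadFormMinus (d - 1) F a b v ≠ 0) ∧ W.map (Matrix.toLin' (x : Matrix ((Fin (d - 1) ⊕ Fin (d - 1)) ⊕ Fin 2) ((Fin (d - 1) ⊕ Fin (d - 1)) ⊕ Fin 2) F)) ≤ W) ↔ r = 2 := by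
  subst hp
  rw [← Cfsg.Agent.Lib.Helper15.StdForms.coe_minusQF (d - 1) a b] at hrΩ ⊢
  have hcard : Fintype.card ((Fin (d - 1) ⊕ Fin (d - 1)) ⊕ Fin 2) = 2 * d := by
    rw [Fintype.card_sum, Fintype.card_sum, Fintype.card_fin, Fintype.card_fin]
    omega
  have hc : Fintype.card F ≠ 2 ∨ Fintype.card ((Fin (d - 1) ⊕ Fin (d - 1)) ⊕ Fin 2) ≠ 4 :=
    Or.inr (by rw [hcard]; omega)
  have hq2 : 2 ≤ q := q_ge hq
  have hnd := minus_nondeg (d - 1) a b hab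
  have hN1 := N1_minus (d - 1) a b hab
  have e1 : d - 1 + 1 = d := by omega
  rw [e1, hq] at hN1
  have hN : Nat.card {W : Submodule F ((Fin (d - 1) ⊕ Fin (d - 1)) ⊕ Fin 2 → F) //
      Module.finrank F ↥W = 1 ∧ ∃ v ∈ W, minusQF (d - 1) F a b v ≠ 0} =
      q ^ (d - 1) * (q ^ d + 1) := by
    rw [← hN1]
    exact ns_points_card (minusQF (d - 1) F a b)
  have hpos : 0 < q ^ (d - 1) * (q ^ d + 1) :=
    Nat.mul_pos (Nat.pow_pos (by omega)) (by omega)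
  obtain ⟨v0, hv0⟩ : ∃ v : (Fin (d - 1) ⊕ Fin (d - 1)) ⊕ Fin 2 → F,
      minusQF (d - 1) F a b v = 1 := by
    have h2 : 0 < Nat.card {v : (Fin (d - 1) ⊕ Fin (d - 1)) ⊕ Fin 2 → F //
        minusQF (d - 1) F a b v = 1} := by rw [hN1]; exact hpos
    obtain ⟨⟨v, hv⟩⟩ := (Nat.card_pos_iff.mp h2).1
    exact ⟨v, hv⟩
  have hv0' : minusQF (d - 1) F a b v0 ≠ 0 := by rw [hv0]; exact one_ne_zero
  constructor
  · intro hall
    by_contra hr2
    have hr : r.Prime := Fact.out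
    have hrd : r ∣ Fintype.card F ^ d + 1 := by
      rw [hN] at hrΩ
      rw [hq]
      rcases (Nat.Prime.dvd_mul hr).1 hrΩ with h1 | h1
      · exfalso
        have h2 := hr.dvd_of_dvd_pow h1
        obtain ⟨n, _, hn⟩ := FiniteField.card F 2
        rw [← hq, hn] at h2
        have h3 := hr.dvd_of_dvd_pow h2
        exact hr2 ((Nat.prime_dvd_prime_iff_eq hr Nat.prime_two).1 h3)
      · exact h1
    obtain ⟨X, hX, hXr, hXfix⟩ := minus_elem F d (by omega) a b hab r hr hr2 hrd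
    have hX' : ∀ v, minusQF (d - 1) F a b
        ((X : Matrix ((Fin (d - 1) ⊕ Fin (d - 1)) ⊕ Fin 2) ((Fin (d - 1) ⊕ Fin (d - 1)) ⊕ Fin 2) F) *ᵥ v) =
        minusQF (d - 1) F a b v := by
      intro v
      rw [Cfsg.Agent.Lib.Helper15.StdForms.minusQF_apply,
        Cfsg.Agent.Lib.Helper15.StdForms.minusQF_apply]
      exact hX v
    have hyr : mkO (minusQF (d - 1) F a b) X hX' ^ r = 1 := Subtype.ext hXr
    have hyΩ : mkO (minusQF (d - 1) F a b) X hX' ∈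
        commutator ↥(Cfsg.isometryGroup F ⇑(minusQF (d - 1) F a b)) := by
      by_contra hno
      have h1 := index_two (minusQF (d - 1) F a b) hnd hc _ _ hno hno
      obtain ⟨k, hk⟩ := hr.eq_two_or_odd'.resolve_left hr2
      have h2 : mkO (minusQF (d - 1) F a b) X hX' *
          (mkO (minusQF (d - 1) F a b) X hX' * mkO (minusQF (d - 1) F a b) X hX') ^ k = 1 := by
        rw [← pow_two, ← pow_mul, ← pow_succ', ← hk, hyr]
      have h3 : mkO (minusQF (d - 1) F a b) X hX' =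
          ((mkO (minusQF (d - 1) F a b) X hX' * mkO (minusQF (d - 1) F a b) X hX') ^ k)⁻¹ :=
        eq_inv_of_mul_eq_one_left h2
      apply hno
      rw [h3]
      exact Subgroup.inv_mem _ (Subgroup.pow_mem _ h1 k)
    have hne : ∀ z : F, (X : Matrix ((Fin (d - 1) ⊕ Fin (d - 1)) ⊕ Fin 2) ((Fin (d - 1) ⊕ Fin (d - 1)) ⊕ Fin 2) F) ≠
        z • (1 : Matrix ((Fin (d - 1) ⊕ Fin (d - 1)) ⊕ Fin 2) ((Fin (d - 1) ⊕ Fin (d - 1)) ⊕ Fin 2) F) := by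
      intro z hz
      have h1 : (X : Matrix ((Fin (d - 1) ⊕ Fin (d - 1)) ⊕ Fin 2) ((Fin (d - 1) ⊕ Fin (d - 1)) ⊕ Fin 2) F) *ᵥ v0 =
          z • v0 := by
        rw [hz, Matrix.smul_mulVec, Matrix.one_mulVec]
      have h2 : z = 1 := smul_fix (minusQF (d - 1) F a b) v0 hv0' z (by rw [← h1, hX'])
      rw [h2, one_smul] at h1
      have h3 := hXfix v0 h1
      rw [h3, QuadraticMap.map_zero] at hv0'
      exact hv0' rfl
    obtain ⟨W, hW, hmap⟩ := hall X ⟨mkO (minusQF (d - 1) F a b) X hX', hyΩ, rfl⟩ ⟨1, by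
      rw [hXr, one_smul]
      rfl⟩ hne
    obtain ⟨w, hw, hfix⟩ := (fix_point_iff (minusQF (d - 1) F a b) _ hX').1 ⟨W, hW, hmap⟩
    have h3 := hXfix w hfix
    rw [h3, QuadraticMap.map_zero] at hw
    exact hw rfl
  · rintro rfl x hxΩ ⟨z, hz⟩ hns
    obtain ⟨y, hyΩ, rfl⟩ := hxΩ
    have hyy : y * y = 1 := invol_of_sq_scalar (minusQF (d - 1) F a b) y v0 hv0' z hz
    have h2 : (2 : F) = 0 := CharTwo.two_eq_zero
    have hnot : ¬ (rk (minusQF (d - 1) F a b) y = d ∧ alt (minusQF (d - 1) F a b) y) := by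
      rintro ⟨h1, h3⟩
      have hle := Cfsg.Agent.Lib.Helper13.NsMinus.rk_le_of_alt (minusQF (d - 1) F a b) y h3 (d - 1)
        (fun U hU => Cfsg.Agent.Lib.Helper15.InvSplit.minus_ts_le (d - 1) a b hab U hU)
      omega
    obtain ⟨w, hw, hxw⟩ := fix_ns (minusQF (d - 1) F a b) hnd d hcard y hyy hnot
    exact (fix_point_iff (minusQF (d - 1) F a b) _ (Qx (minusQF (d - 1) F a b) y)).2 ⟨w, hw, hxw⟩

end Cfsg.Agent.S5986
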