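import Cfsg.Statements.S2579


set_option autoImplicit false
open Cfsg

namespace Cfsg.Agent.S2579

open Matrix

theorem det_tv {n : ℕ} {F : Type*} [Field F] (a γ : Fin n → F) :
    (1 + Matrix.vecMulVec a γ).det = 1 + γ ⬝ᵥ a := by
  rw [Matrix.vecMulVec_eq Unit, Matrix.det_one_add_replicateCol_mul_replicateRow]

theorem exists_ne {n : ℕ} {F : Type*} [Field F] (u : Fin n → F) (hu : u ≠ 0) : ∃ i, u i ≠ 0 := by
  by_contra h
  apply hu
  funext i
  by_contra hi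
  exact h ⟨i, hi⟩

/-- A vector pairing to one with `u` and non-trivially with `u'`. -/
theorem exists_dual {n : ℕ} {F : Type*} [Field F] (u u' : Fin n → F) (hu : u ≠ 0) (hu' : u' ≠ 0) :
    ∃ α : Fin n → F, α ⬝ᵥ u = 1 ∧ α ⬝ᵥ u' ≠ 0 := by
  obtain ⟨i, hi⟩ := exists_ne u hu
  obtain ⟨k, hk⟩ := exists_ne u' hu'
  by_cases h1 : (Pi.single i (u i)⁻¹ : Fin n → F) ⬝ᵥ u' = 0
  · by_cases h2 : u k = 0
    · refine ⟨Pi.single i (u i)⁻¹ + Pi.single k 1, ?_, ?_⟩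
      · rw [add_dotProduct, single_dotProduct, single_dotProduct, inv_mul_cancel₀ hi, h2]
        simp
      · rw [add_dotProduct, h1, single_dotProduct]
        simpa using hk
    · refine ⟨Pi.single k (u k)⁻¹, ?_, ?_⟩
      · rw [single_dotProduct, inv_mul_cancel₀ h2]
      · rw [single_dotProduct]
        exact mul_ne_zero (inv_ne_zero h2) hk
  · exact ⟨Pi.single i (u i)⁻¹, by rw [single_dotProduct, inv_mul_cancel₀ hi], h1⟩

theorem exists_move {n : ℕ} {F : Type*} [Field F] (u u' : Fin n → F) (hu : u ≠ 0) (hu' : u' ≠ 0) :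
    ∃ G : Matrix (Fin n) (Fin n) F, G.det ≠ 0 ∧ G *ᵥ u = u' := by
  obtain ⟨α, h1, h2⟩ := exists_dual u u' hu hu'
  refine ⟨1 + vecMulVec (u' - u) α, ?_, ?_⟩
  · rw [det_tv, dotProduct_sub, h1]
    simpa using h2
  · rw [add_mulVec, one_mulVec, vecMulVec_mulVec, h1]
    simp

theorem exists_adjust {n : ℕ} {F : Type*} [Field F] (u φ φ₂ : Fin n → F) (hφ : φ ≠ 0)
    (hφ₂ : φ₂ ≠ 0) (h1 : φ ⬝ᵥ u = 0) (h2 : φ₂ ⬝ᵥ u = 0) :
    ∃ H : Matrix (Fin n) (Fin n) F, H.det ≠ 0 ∧ H *ᵥ u = u ∧ φ₂ ᵥ* H = φ := by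
  obtain ⟨a, ha1, ha2⟩ := exists_dual φ₂ φ hφ₂ hφ
  refine ⟨1 + vecMulVec a (φ - φ₂), ?_, ?_, ?_⟩
  · rw [det_tv, sub_dotProduct, dotProduct_comm φ₂ a, ha1, dotProduct_comm φ a]
    simpa using ha2
  · rw [add_mulVec, one_mulVec, vecMulVec_mulVec, sub_dotProduct, h1, h2]
    simp
  · rw [vecMul_add, vecMul_one, vecMul_vecMulVec, dotProduct_comm, ha1, one_smul]
    abel

theorem exists_conj {n : ℕ} {F : Type*} [Field F] (u φ u' φ' : Fin n → F) (hu : u ≠ 0)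
    (hφ : φ ≠ 0) (hu' : u' ≠ 0) (hφ' : φ' ≠ 0) (h : φ ⬝ᵥ u = 0) (h' : φ' ⬝ᵥ u' = 0) :
    ∃ G : Matrix (Fin n) (Fin n) F, G.det ≠ 0 ∧
      G * (1 + vecMulVec u φ) = (1 + vecMulVec u' φ') * G := by
  obtain ⟨G₁, hd1, hG1⟩ := exists_move u u' hu hu'
  have hφ₂ : φ' ᵥ* G₁ ≠ 0 := fun h0 => hφ' (eq_zero_of_vecMul_eq_zero hd1 h0)
  have h2 : (φ' ᵥ* G₁) ⬝ᵥ u = 0 := by rw [← dotProduct_mulVec, hG1, h']
  obtain ⟨H, hd2, hH1, hH2⟩ := exists_adjust u φ (φ' ᵥ* G₁) hφ hφ₂ h h2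
  refine ⟨G₁ * H, ?_, ?_⟩
  · rw [det_mul]
    exact mul_ne_zero hd1 hd2
  · rw [mul_add, mul_one, add_mul, one_mul, mul_vecMulVec, vecMulVec_mul, ← mulVec_mulVec, hH1,
      hG1, ← vecMul_vecMul, hH2]

theorem exists_comm {n : ℕ} {F : Type*} [Field F] (hn : 3 ≤ n) (u φ : Fin n → F) (hu : u ≠ 0)
    (hφ : φ ≠ 0) (h : φ ⬝ᵥ u = 0) :
    ∃ a γ : Fin n → F, φ ⬝ᵥ a = 0 ∧ γ ⬝ᵥ u = 0 ∧ γ ⬝ᵥ a = 1 := by
  obtain ⟨i, hi⟩ := exists_ne u hu
  obtain ⟨j, hji, hj⟩ : ∃ j, j ≠ i ∧ φ j ≠ 0 := by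
    by_contra hno
    have hall : ∀ j, j ≠ i → φ j = 0 := fun j hj => by
      by_contra h'
      exact hno ⟨j, hj, h'⟩
    have h1 : φ ⬝ᵥ u = φ i * u i := by
      unfold dotProduct
      rw [Finset.sum_eq_single i]
      · intro b _ hb
        rw [hall b hb, zero_mul]
      · intro hni
        exact absurd (Finset.mem_univ i) hni
    rw [h1] at h
    have hφi : φ i = 0 := by
      rcases mul_eq_zero.1 h with h' | h'
      · exact h'
      · exact absurd h' hi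
    apply hφ
    funext j
    by_cases hj : j = i
    · rw [hj]
      exact hφi
    · exact hall j hj
  obtain ⟨k, hki, hkj⟩ : ∃ k : Fin n, k ≠ i ∧ k ≠ j := by
    by_contra hno
    have hsub : (Finset.univ : Finset (Fin n)) ⊆ {i, j} := by
      intro k _
      by_contra hk
      rw [Finset.mem_insert, Finset.mem_singleton] at hk
      exact hno ⟨k, fun h => hk (Or.inl h), fun h => hk (Or.inr h)⟩
    have h1 := Finset.card_le_card hsub
    rw [Finset.card_univ, Fintype.card_fin] at h1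
    have h2 : ({i, j} : Finset (Fin n)).card ≤ 2 := Finset.card_le_two
    omega
  refine ⟨Pi.single k 1 - (φ k / φ j) • Pi.single j 1,
    Pi.single k 1 - (u k / u i) • Pi.single i 1, ?_, ?_, ?_⟩
  · rw [dotProduct_sub, dotProduct_smul, dotProduct_single, dotProduct_single, smul_eq_mul]
    field_simp
    ring
  · rw [sub_dotProduct, smul_dotProduct, single_dotProduct, single_dotProduct, smul_eq_mul]
    field_simp
    ring
  · rw [sub_dotProduct, smul_dotProduct, single_dotProduct, single_dotProduct]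
    simp [hkj, Ne.symm hki, Ne.symm hji]

theorem rank_one_decomp {n : ℕ} {F : Type*} [Field F] (N : Matrix (Fin n) (Fin n) F)
    (hN : N.rank = 1) : ∃ u φ : Fin n → F, N = vecMulVec u φ := by
  have h1 : Module.finrank F ↥(LinearMap.range N.mulVecLin) = 1 := hN
  obtain ⟨v, hv0, hv⟩ := finrank_eq_one_iff'.1 h1
  have hcol : ∀ j, ∃ c : F, c • (v : Fin n → F) = N *ᵥ Pi.single j 1 := by
    intro j
    obtain ⟨c, hc⟩ := hv ⟨N *ᵥ Pi.single j 1, ⟨Pi.single j 1, rfl⟩⟩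
    exact ⟨c, congrArg Subtype.val hc⟩
  choose φ hφ using hcol
  refine ⟨v, φ, ?_⟩
  ext i j
  have h2 := congrFun (hφ j) i
  rw [Matrix.mulVec_single_one] at h2
  rw [vecMulVec_apply]
  simp only [Pi.smul_apply, smul_eq_mul, Matrix.col_apply] at h2
  rw [← h2, mul_comm]

theorem tv_data {n : ℕ} {F : Type*} [Field F] (S : Matrix (Fin n) (Fin n) F)
    (hS : Cfsg.IsTransvection S) :
    ∃ u φ : Fin n → F, u ≠ 0 ∧ φ ≠ 0 ∧ φ ⬝ᵥ u = 0 ∧ S = 1 + vecMulVec u φ := by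
  obtain ⟨hs1, hs2⟩ := hS
  obtain ⟨u, φ, hN⟩ := rank_one_decomp _ hs1
  have hne : vecMulVec u φ ≠ 0 := by
    intro h0
    rw [hN, h0, Matrix.rank_zero] at hs1
    exact zero_ne_one hs1
  have hu : u ≠ 0 := by
    rintro rfl
    exact hne (vecMulVec_eq_zero.2 (Or.inl rfl))
  have hφ : φ ≠ 0 := by
    rintro rfl
    exact hne (vecMulVec_eq_zero.2 (Or.inr rfl))
  refine ⟨u, φ, hu, hφ, ?_, ?_⟩
  · rw [hN, vecMulVec_mul_vecMulVec] at hs2
    rcases vecMulVec_eq_zero.1 hs2 with h | h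
    · exact absurd h hu
    · rcases smul_eq_zero.1 h with h' | h'
      · exact h'
      · exact absurd h' hφ
  · rw [← hN]
    abel


/-- In SL_n(F) with n ≥ 3, over a finite field F, any two transvections (matrices t with t − 1 of rank one and square zero) are conjugate by an element of SL_n(F). -/
theorem result {F : Type*} [Field F] [Finite F] {n : ℕ} (hn : 3 ≤ n) (s t : Matrix.SpecialLinearGroup (Fin n) F) (hs : Cfsg.IsTransvection (s : Matrix (Fin n) (Fin n) F)) (ht : Cfsg.IsTransvection (t : Matrix (Fin n) (Fin n) F)) : IsConj s t := by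
  obtain ⟨u, φ, hu, hφ, hφu, hSeq⟩ := tv_data _ hs
  obtain ⟨u', φ', hu', hφ', hφu', hTeq⟩ := tv_data _ ht
  obtain ⟨G, hdG, hG⟩ := exists_conj u φ u' φ' hu hφ hu' hφ' hφu hφu'
  obtain ⟨a, γ, ha1, ha2, ha3⟩ := exists_comm hn u φ hu hφ hφu
  have hdC : (1 + vecMulVec ((G.det⁻¹ - 1) • a) γ).det = G.det⁻¹ := by
    rw [det_tv, dotProduct_smul, ha3]
    simp
  have hcomm : (1 + vecMulVec ((G.det⁻¹ - 1) • a) γ) * (1 + vecMulVec u φ)
      = (1 + vecMulVec u φ) * (1 + vecMulVec ((G.det⁻¹ - 1) • a) γ) := by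
    simp only [mul_add, add_mul, mul_one, one_mul]
    rw [vecMulVec_mul_vecMulVec, vecMulVec_mul_vecMulVec, ha2, dotProduct_smul, ha1]
    simp
    abel
  have hdet : (G * (1 + vecMulVec ((G.det⁻¹ - 1) • a) γ)).det = 1 := by
    rw [det_mul, hdC, mul_inv_cancel₀ hdG]
  have hconj : (G * (1 + vecMulVec ((G.det⁻¹ - 1) • a) γ)) * (s : Matrix (Fin n) (Fin n) F)
      = (t : Matrix (Fin n) (Fin n) F) * (G * (1 + vecMulVec ((G.det⁻¹ - 1) • a) γ)) := by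
    rw [hSeq, hTeq, mul_assoc, hcomm, ← mul_assoc, hG, mul_assoc]
  obtain ⟨g, hg⟩ : ∃ g : Matrix.SpecialLinearGroup (Fin n) F,
      (g : Matrix (Fin n) (Fin n) F) = G * (1 + vecMulVec ((G.det⁻¹ - 1) • a) γ) :=
    ⟨⟨_, hdet⟩, rfl⟩
  rw [← hg] at hconj
  rw [isConj_iff]
  refine ⟨g, ?_⟩
  rw [mul_inv_eq_iff_eq_mul]
  apply Subtype.ext
  exact hconj

end Cfsg.Agent.S2579
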