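import Cfsg.Statements.S2644
import Cfsg.Agent.Lib.Helper2.Unitary
import Cfsg.Agent.Lib.Helper28.Herm
import Cfsg.Agent.S2579

set_option autoImplicit false
open Cfsg

namespace Cfsg.Agent.S2644

open Matrix Cfsg.Agent.Lib.Helper2.Unitary

/-- A transvection preserving the Hermitian form is a unitary transvection. -/
theorem tv_unitary {K : Type*} [Field K] [Fintype K] {q n : ℕ} (hK : Fintype.card K = q ^ 2)
    (S : Matrix (Fin n) (Fin n) K) (hU : IsU n q S) (hS : Cfsg.IsTransvection S) :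
    ∃ (u : Fin n → K) (c : K), u ≠ 0 ∧ c ≠ 0 ∧ Cfsg.hermForm n K q u u = 0 ∧ c + c ^ q = 0 ∧
      S = Cfsg.unitaryTransvection n q u c := by
  obtain ⟨u, φ, hu, hφ, hφu, hSeq⟩ := Cfsg.Agent.S2579.tv_data S hS
  have hact : ∀ x, S *ᵥ x = x + (φ ⬝ᵥ x) • u := by
    intro x
    rw [hSeq, add_mulVec, one_mulVec, vecMulVec_mulVec, op_smul_eq_smul]
  have key : ∀ x y, (φ ⬝ᵥ y) ^ q * Cfsg.hermForm n K q x u + (φ ⬝ᵥ x) * Cfsg.hermForm n K q u y
      + (φ ⬝ᵥ x) * ((φ ⬝ᵥ y) ^ q * Cfsg.hermForm n K q u u) = 0 := by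
    intro x y
    have h := hU x y
    rw [hact, hact] at h
    simp only [H_add_left, H_add_right hK, H_smul_left, H_smul_right] at h
    linear_combination h
  obtain ⟨j, hj⟩ := Cfsg.Agent.S2579.exists_ne φ hφ
  have hy0 : φ ⬝ᵥ Pi.single j 1 = φ j := by
    rw [dotProduct_single, mul_one]
  have hker : ∀ x, φ ⬝ᵥ x = 0 → Cfsg.hermForm n K q x u = 0 := by
    intro x hx
    have h := key x (Pi.single j 1)
    rw [hx, hy0] at h
    have h1 : (φ j) ^ q * Cfsg.hermForm n K q x u = 0 := by linear_combination h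
    rcases mul_eq_zero.1 h1 with h2 | h2
    · exact absurd h2 (pow_ne_zero _ hj)
    · exact h2
  obtain ⟨κ, hκ⟩ : ∃ κ, κ = Cfsg.hermForm n K q (Pi.single j 1) u / φ j := ⟨_, rfl⟩
  have hprop : ∀ x, Cfsg.hermForm n K q x u = (φ ⬝ᵥ x) * κ := by
    intro x
    have h := hker (x - ((φ ⬝ᵥ x) / φ j) • Pi.single j 1) (by
      rw [dotProduct_sub, dotProduct_smul, hy0, smul_eq_mul]
      field_simp
      ring)
    rw [H_sub_left, H_smul_left] at h
    rw [hκ]
    field_simp
    field_simp at h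
    linear_combination h
  obtain ⟨i, hi⟩ := Cfsg.Agent.S2579.exists_ne u hu
  have hκ0 : κ ≠ 0 := by
    intro h0
    have h1 := hprop (Pi.single i 1)
    rw [h0, mul_zero, H_single_left hK] at h1
    exact pow_ne_zero _ hi h1
  have hφeq : φ = κ⁻¹ • (fun j => u j ^ q) := by
    funext k
    have h1 := hprop (Pi.single k 1)
    rw [H_single_left hK, dotProduct_single, mul_one] at h1
    simp only [Pi.smul_apply, smul_eq_mul]
    rw [h1]
    field_simp
  have huu : Cfsg.hermForm n K q u u = 0 := by rw [hprop u, hφu, zero_mul]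
  have hx0 : Cfsg.hermForm n K q (Pi.single i 1) u ≠ 0 := by
    rw [H_single_left hK]
    exact pow_ne_zero _ hi
  have hc : κ⁻¹ + (κ⁻¹) ^ q = 0 := by
    have h := key (Pi.single i 1) (Pi.single i 1)
    rw [huu, mul_zero, mul_zero, add_zero] at h
    have h1 : φ ⬝ᵥ Pi.single i 1 = κ⁻¹ * Cfsg.hermForm n K q (Pi.single i 1) u := by
      rw [hprop (Pi.single i 1)]
      field_simp
    rw [h1, mul_pow, ← H_conj hK n (Pi.single i 1) u] at h
    have h2 : (κ⁻¹ + (κ⁻¹) ^ q) * (Cfsg.hermForm n K q (Pi.single i 1) u *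
        (Cfsg.hermForm n K q (Pi.single i 1) u) ^ q) = 0 := by linear_combination h
    rcases mul_eq_zero.1 h2 with h3 | h3
    · exact h3
    · exact absurd h3 (mul_ne_zero hx0 (pow_ne_zero _ hx0))
  refine ⟨u, κ⁻¹, hu, inv_ne_zero hκ0, huu, hc, ?_⟩
  rw [hSeq, hφeq]
  unfold Cfsg.unitaryTransvection
  rw [vecMulVec_smul]

theorem det_ut {K : Type*} [Field K] {q n : ℕ} (v : Fin n → K) (a : K) :
    (Cfsg.unitaryTransvection n q v a).det = 1 + a * Cfsg.hermForm n K q v v := by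
  unfold Cfsg.unitaryTransvection
  rw [← smul_vecMulVec, Cfsg.Agent.S2579.det_tv, dotProduct_smul, smul_eq_mul, dotProduct_comm]
  rfl

/-- A unitary dilatation with prescribed determinant of norm one. -/
theorem dil {K : Type*} [Field K] [Fintype K] {q n : ℕ} (hK : Fintype.card K = q ^ 2)
    (w : Fin n → K) (hw : Cfsg.hermForm n K q w w ≠ 0) (δ : K) (hδ : δ * δ ^ q = 1) :
    IsU n q (Cfsg.unitaryTransvection n q w ((δ - 1) / Cfsg.hermForm n K q w w)) ∧
      (Cfsg.unitaryTransvection n q w ((δ - 1) / Cfsg.hermForm n K q w w)).det = δ := by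
  have hfix : (Cfsg.hermForm n K q w w) ^ q = Cfsg.hermForm n K q w w := H_conj hK n w w
  constructor
  · apply qr_isU hK
    rw [div_pow, hfix, Cfsg.Agent.Lib.Helper2.HermCount.pow_q_sub hK, one_pow]
    field_simp
    linear_combination hδ
  · rw [det_ut]
    field_simp
    ring

/-- An element of `SU` moving an isotropic vector to a non-orthogonal isotropic vector. -/
theorem move1 {K : Type*} [Field K] [Fintype K] {q n : ℕ} (hK : Fintype.card K = q ^ 2)
    (hn : 3 ≤ n) (u u'' : Fin n → K) (hu : Cfsg.hermForm n K q u u = 0)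
    (hu'' : Cfsg.hermForm n K q u'' u'' = 0) (hβ : Cfsg.hermForm n K q u u'' ≠ 0) :
    ∃ g : ↥(Cfsg.SU n K q),
      ((g : Matrix.SpecialLinearGroup (Fin n) K) : Matrix (Fin n) (Fin n) K) *ᵥ u = u'' := by
  have hf := Cfsg.Agent.Lib.Helper28.Herm.hermForm_isHerm hK n
  have hq0 : q ≠ 0 := by
    have := Cfsg.Agent.Lib.Helper2.HermCount.two_le_q hK
    omega
  obtain ⟨β, hβdef⟩ : ∃ β, β = Cfsg.hermForm n K q u u'' := ⟨_, rfl⟩
  rw [← hβdef] at hβ
  have hβq : Cfsg.hermForm n K q u'' u = β ^ q := by rw [hβdef, H_conj hK]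
  have hβq0 : β ^ q ≠ 0 := pow_ne_zero _ hβ
  have hdd : Cfsg.hermForm n K q (u - u'') (u - u'') = -(β + β ^ q) := by
    rw [H_sub_left, H_sub_right hK, H_sub_right hK, hu, hu'', ← hβdef, hβq]
    ring
  have hR : IsU n q (Cfsg.unitaryTransvection n q (u - u'') β⁻¹) := by
    apply qr_isU hK
    rw [hdd, inv_pow]
    field_simp
    ring
  have hRu : Cfsg.unitaryTransvection n q (u - u'') β⁻¹ *ᵥ u = u'' := by
    rw [qr_mulVec, H_sub_right hK, hu, ← hβdef]
    have h1 : β⁻¹ * (0 - β) = -1 := by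
      field_simp
      ring
    rw [h1]
    module
  have hRdet : (Cfsg.unitaryTransvection n q (u - u'') β⁻¹).det = -(β ^ q / β) := by
    rw [det_ut, hdd]
    field_simp
    ring
  obtain ⟨w, hw, hww⟩ := hf.exists_aniso ![u''] (by rw [Fintype.card_fin]; omega)
  have hwu : Cfsg.hermForm n K q w u'' = 0 := hw 0
  have hu''w : Cfsg.hermForm n K q u'' w = 0 := by
    rw [← H_conj hK n w u'', hwu, zero_pow hq0]
  obtain ⟨δ, hδdef⟩ : ∃ δ, δ = -(β / β ^ q) := ⟨_, rfl⟩
  have hδ : δ * δ ^ q = 1 := by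
    rw [hδdef, pow_q_neg hK, div_pow, pow_q_pow_q hK]
    field_simp
  obtain ⟨hD, hDdet⟩ := dil hK w hww δ hδ
  have hDu : Cfsg.unitaryTransvection n q w ((δ - 1) / Cfsg.hermForm n K q w w) *ᵥ u'' = u'' := by
    rw [qr_mulVec, hu''w, mul_zero, zero_smul, add_zero]
  have hdet : (Cfsg.unitaryTransvection n q w ((δ - 1) / Cfsg.hermForm n K q w w) *
      Cfsg.unitaryTransvection n q (u - u'') β⁻¹).det = 1 := by
    rw [det_mul, hDdet, hRdet, hδdef]
    field_simp
  refine ⟨⟨⟨_, hdet⟩, (mem_SU_iff n q _).2 (isU_mul hD hR)⟩, ?_⟩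
  show (Cfsg.unitaryTransvection n q w ((δ - 1) / Cfsg.hermForm n K q w w) *
      Cfsg.unitaryTransvection n q (u - u'') β⁻¹) *ᵥ u = u''
  rw [← mulVec_mulVec, hRu, hDu]

/-- `SU_n`, `n ≥ 3`, is transitive on non-zero isotropic vectors. -/
theorem move {K : Type*} [Field K] [Fintype K] {q n : ℕ} (hK : Fintype.card K = q ^ 2)
    (hn : 3 ≤ n) (u u'' : Fin n → K) (hu0 : u ≠ 0) (hu''0 : u'' ≠ 0)
    (hu : Cfsg.hermForm n K q u u = 0) (hu'' : Cfsg.hermForm n K q u'' u'' = 0) :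
    ∃ g : ↥(Cfsg.SU n K q),
      ((g : Matrix.SpecialLinearGroup (Fin n) K) : Matrix (Fin n) (Fin n) K) *ᵥ u = u'' := by
  have hq0 : q ≠ 0 := by
    have := Cfsg.Agent.Lib.Helper2.HermCount.two_le_q hK
    omega
  by_cases hβ : Cfsg.hermForm n K q u u'' = 0
  · have hf := Cfsg.Agent.Lib.Helper28.Herm.hermForm_isHerm hK n
    obtain ⟨i, hi⟩ := Cfsg.Agent.S2579.exists_ne u hu0
    obtain ⟨k, hk⟩ := Cfsg.Agent.S2579.exists_ne u'' hu''0
    have h1 : Cfsg.hermForm n K q u (Pi.single i 1) ≠ 0 := by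
      rw [H_single_right hK]
      exact hi
    have h2 : Cfsg.hermForm n K q u'' (Pi.single k 1) ≠ 0 := by
      rw [H_single_right hK]
      exact hk
    obtain ⟨y, hy1, hy2⟩ : ∃ y, Cfsg.hermForm n K q u y ≠ 0 ∧ Cfsg.hermForm n K q u'' y ≠ 0 := by
      by_cases h3 : Cfsg.hermForm n K q u'' (Pi.single i 1) = 0
      · by_cases h4 : Cfsg.hermForm n K q u (Pi.single k 1) = 0
        · refine ⟨Pi.single i 1 + Pi.single k 1, ?_, ?_⟩
          · rw [H_add_right hK, h4, add_zero]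
            exact h1
          · rw [H_add_right hK, h3, zero_add]
            exact h2
        · exact ⟨Pi.single k 1, h4, h2⟩
      · exact ⟨Pi.single i 1, h1, h3⟩
    obtain ⟨μ, hμ⟩ := hf.iso_fix u y hu hy1
    have hc1 : Cfsg.hermForm n K q u (y + μ • u) ≠ 0 := by
      rw [H_add_right hK, H_smul_right, hu, mul_zero, add_zero]
      exact hy1
    have hu''u : Cfsg.hermForm n K q u'' u = 0 := by
      rw [← H_conj hK n u u'', hβ, zero_pow hq0]
    have hc2 : Cfsg.hermForm n K q (y + μ • u) u'' ≠ 0 := by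
      have h5 : Cfsg.hermForm n K q u'' (y + μ • u) ≠ 0 := by
        rw [H_add_right hK, H_smul_right, hu''u, mul_zero, add_zero]
        exact hy2
      rw [← H_conj hK]
      exact pow_ne_zero _ h5
    obtain ⟨g1, hg1⟩ := move1 hK hn u (y + μ • u) hu hμ hc1
    obtain ⟨g2, hg2⟩ := move1 hK hn (y + μ • u) u'' hμ hu'' hc2
    refine ⟨g2 * g1, ?_⟩
    rw [Subgroup.coe_mul, Matrix.SpecialLinearGroup.coe_mul, ← mulVec_mulVec, hg1, hg2]
  · exact move1 hK hn u u'' hu hu'' hβ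

/-- In the special unitary group SU_n(q) with n ≥ 3 (isometries of Σ u_i v_i^q of determinant one over the field with q² elements), any two transvections (elements t with t − 1 of rank one and square zero) are conjugate. -/
theorem result {K : Type*} [Field K] [Fintype K] {q n : ℕ} (hK : Fintype.card K = q ^ 2) (hn : 3 ≤ n) (s t : ↥(Cfsg.SU n K q)) (hs : Cfsg.IsTransvection (((s : GL (Fin n) K) : Matrix (Fin n) (Fin n) K))) (ht : Cfsg.IsTransvection (((t : GL (Fin n) K) : Matrix (Fin n) (Fin n) K))) : IsConj s t := by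

  have hs' : Cfsg.IsTransvection ((s : Matrix.SpecialLinearGroup (Fin n) K) :
      Matrix (Fin n) (Fin n) K) := hs
  have ht' : Cfsg.IsTransvection ((t : Matrix.SpecialLinearGroup (Fin n) K) :
      Matrix (Fin n) (Fin n) K) := ht
  obtain ⟨u, c, hu0, hc0, huu, hc, hS⟩ := tv_unitary hK _ ((mem_SU_iff n q _).1 s.2) hs'
  obtain ⟨u', c', hu'0, hc'0, hu'u', hc', hT⟩ := tv_unitary hK _ ((mem_SU_iff n q _).1 t.2) ht'
  have hf := Cfsg.Agent.Lib.Helper28.Herm.hermForm_isHerm hK n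
  have hκ : (c' / c) ^ q = c' / c := by
    rw [div_pow]
    have h1 : c ^ q = -c := by linear_combination hc
    have h2 : c' ^ q = -c' := by linear_combination hc'
    rw [h1, h2, neg_div_neg_eq]
  obtain ⟨lam, hlam⟩ := hf.norm_surj (c' / c) hκ
  have hlam' : lam ^ q * lam = c' / c := hlam
  have hlam0 : lam ≠ 0 := by
    rintro rfl
    rw [mul_zero] at hlam'
    exact (div_ne_zero hc'0 hc0) hlam'.symm
  have hlu : Cfsg.hermForm n K q (lam • u') (lam • u') = 0 := by
    rw [H_smul_left, H_smul_right, hu'u', mul_zero, mul_zero]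
  obtain ⟨g, hg⟩ := move hK hn u (lam • u') hu0 (smul_ne_zero hlam0 hu'0) huu hlu
  rw [isConj_iff]
  refine ⟨g, ?_⟩
  rw [mul_inv_eq_iff_eq_mul]
  apply Subtype.ext
  apply Subtype.ext
  show ((g : Matrix.SpecialLinearGroup (Fin n) K) : Matrix (Fin n) (Fin n) K) *
      ((s : Matrix.SpecialLinearGroup (Fin n) K) : Matrix (Fin n) (Fin n) K) =
    ((t : Matrix.SpecialLinearGroup (Fin n) K) : Matrix (Fin n) (Fin n) K) *
      ((g : Matrix.SpecialLinearGroup (Fin n) K) : Matrix (Fin n) (Fin n) K)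
  have hvec : (fun j => u' j ^ q) ᵥ* ((g : Matrix.SpecialLinearGroup (Fin n) K) :
      Matrix (Fin n) (Fin n) K) = (lam ^ q)⁻¹ • (fun j => u j ^ q) := by
    funext k
    have hU := (mem_SU_iff n q _).1 g.2 (Pi.single k 1) u
    rw [hg, H_smul_right, H_single_left hK] at hU
    have h3 : Cfsg.hermForm n K q (((g : Matrix.SpecialLinearGroup (Fin n) K) :
        Matrix (Fin n) (Fin n) K) *ᵥ Pi.single k 1) u' =
        ((fun j => u' j ^ q) ᵥ* ((g : Matrix.SpecialLinearGroup (Fin n) K) :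
          Matrix (Fin n) (Fin n) K)) k := by
      show (((g : Matrix.SpecialLinearGroup (Fin n) K) :
        Matrix (Fin n) (Fin n) K) *ᵥ Pi.single k 1) ⬝ᵥ (fun j => u' j ^ q) = _
      rw [dotProduct_comm, dotProduct_mulVec, dotProduct_single, mul_one]
    rw [← h3]
    simp only [Pi.smul_apply, smul_eq_mul]
    rw [← hU]
    field_simp
  rw [hS, hT]
  unfold Cfsg.unitaryTransvection
  rw [mul_add, add_mul, mul_one, one_mul, mul_smul_comm, smul_mul_assoc, mul_vecMulVec,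
    vecMulVec_mul, hg, hvec, smul_vecMulVec, vecMulVec_smul, smul_smul, smul_smul]
  have hq0 : lam ^ q ≠ 0 := pow_ne_zero _ hlam0
  have hsc : c * lam = c' * (lam ^ q)⁻¹ := by
    rw [eq_mul_inv_iff_mul_eq₀ hq0]
    have h5 : lam ^ q * lam * c = c' := by rw [hlam']; field_simp
    linear_combination h5
  rw [hsc]

end Cfsg.Agent.S2644
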