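import Cfsg.Statements.S3947
import Cfsg.Agent.Lib.Helper17.Flavell

set_option autoImplicit false
open Cfsg

namespace Cfsg.Agent.S3947

/-- Let G be a finite group and A a proper subgroup of G whose normal closure is G. Let Y be the join of all proper subgroups H of G that contain A and are generated by their own conjugates of A (the normal closure of A in H is H). Then either Y = G, or A is contained in exactly one maximal subgroup of G. -/
theorem result {G : Type*} [Group G] [Finite G] (A : Subgroup G) (hA : Subgroup.normalClosure (A : Set G) = ⊤) (hAG : A ≠ ⊤) :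
    sSup {H : Subgroup G | A ≤ H ∧ H ≠ ⊤ ∧ Subgroup.normalClosure ((A.subgroupOf H : Subgroup ↥H) : Set ↥H) = ⊤} = ⊤ ∨
      ∃! M : Subgroup G, IsCoatom M ∧ A ≤ M := by
  have hnc : Cfsg.Agent.Lib.Helper17.Flavell.NC A ⊤ := by
    intro N hAN _ hN
    haveI : N.Normal := Subgroup.normalizer_eq_top_iff.1 (top_le_iff.1 hN)
    have h1 : Subgroup.normalClosure (A : Set G) ≤ N := Subgroup.normalClosure_le_normal hAN
    rw [hA] at h1
    exact top_le_iff.1 h1
  have hset : {H : Subgroup G | A ≤ H ∧ H ≠ ⊤ ∧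
      Subgroup.normalClosure ((A.subgroupOf H : Subgroup ↥H) : Set ↥H) = ⊤} =
      {H : Subgroup G | A ≤ H ∧ H ≠ ⊤ ∧ Cfsg.Agent.Lib.Helper17.Flavell.NC A H} := by
    ext H
    constructor
    · rintro ⟨h1, h2, h3⟩
      exact ⟨h1, h2, (Cfsg.Agent.Lib.Helper17.Flavell.nc_iff h1).1 h3⟩
    · rintro ⟨h1, h2, h3⟩
      exact ⟨h1, h2, (Cfsg.Agent.Lib.Helper17.Flavell.nc_iff h1).2 h3⟩
  rw [hset]
  exact Cfsg.Agent.Lib.Helper17.Flavell.flavell_aux _ A rfl hnc hAG

end Cfsg.Agent.S3947
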