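import Cfsg.Statements.S1018
import Mathlib

set_option autoImplicit false
open Cfsg

namespace Cfsg.Agent.S1018

variable {G : Type*} [Group G] [Finite G]

/-- A `p`-element normalizing a Sylow `p`-subgroup lies in it. -/
theorem mem_of_mem_normalizer {p : ℕ} [Fact p.Prime] (P : Sylow p G) (u : G)
    (hu : u ∈ Subgroup.normalizer ((P : Subgroup G) : Set G)) (k : ℕ) (hk : u ^ (p ^ k) = 1) :
    u ∈ (P : Subgroup G) := by
  have hz : IsPGroup p (Subgroup.zpowers u) := by
    rintro ⟨x, hx⟩
    obtain ⟨j, rfl⟩ := Subgroup.mem_zpowers_iff.mp hx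
    refine ⟨k, Subtype.ext ?_⟩
    simp only [Subgroup.coe_pow, Subgroup.coe_one]
    rw [← zpow_natCast, ← zpow_mul, mul_comm, zpow_mul, zpow_natCast, hk, one_zpow]
  have hsup := IsPGroup.to_sup_of_normal_right' hz P.2 (by rw [Subgroup.zpowers_le]; exact hu)
  have := P.is_maximal' hsup le_sup_right
  rw [← this]
  exact (le_sup_left : Subgroup.zpowers u ≤ _) (Subgroup.mem_zpowers u)

theorem gen {p : ℕ} [Fact p.Prime] (P : Subgroup G) (hP : Nat.card P = p) {u : G} (hu : u ∈ P)
    (hu1 : u ≠ 1) : ∀ w ∈ P, ∃ k : ℤ, w = u ^ k := by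
  intro w hw
  have h1 : Subgroup.zpowers (⟨u, hu⟩ : P) = ⊤ :=
    zpowers_eq_top_of_prime_card hP (fun h => hu1 (congrArg Subtype.val h))
  have h2 : (⟨w, hw⟩ : P) ∈ Subgroup.zpowers (⟨u, hu⟩ : P) := by rw [h1]; exact Subgroup.mem_top _
  obtain ⟨k, hk⟩ := Subgroup.mem_zpowers_iff.mp h2
  refine ⟨k, ?_⟩
  have := congrArg Subtype.val hk
  simpa using this.symm

/-- conjugation by `g⁻¹` maps `P` into `P` as soon as it does so for one non-identity element -/
theorem mem_normalizer_of_conj {p : ℕ} [Fact p.Prime] (P : Sylow p G) (hP : Nat.card ↥(P : Subgroup G) = p)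
    {c g : G} (hc : c ∈ (P : Subgroup G)) (hc1 : c ≠ 1) (hcg : g⁻¹ * c * g ∈ (P : Subgroup G)) :
    g ∈ Subgroup.normalizer ((P : Subgroup G) : Set G) := by
  have hc1' : g⁻¹ * c * g ≠ 1 := by
    intro h
    apply hc1
    have : c = g * (g⁻¹ * c * g) * g⁻¹ := by group
    rw [this, h]; group
  rw [Subgroup.mem_normalizer_iff'']
  intro w
  constructor
  · intro hw
    obtain ⟨k, rfl⟩ := gen (P : Subgroup G) hP hc hc1 w hw
    have : g⁻¹ * c ^ k * g = (g⁻¹ * c * g) ^ k := by
      have := conj_zpow (a := g⁻¹) (b := c) (i := k)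
      rw [inv_inv] at this
      exact this.symm
    rw [this]
    exact zpow_mem hcg k
  · intro hw
    obtain ⟨k, hk⟩ := gen (P : Subgroup G) hP hcg hc1' _ hw
    have h2 : g⁻¹ * w * g = g⁻¹ * c ^ k * g := by
      rw [hk]
      have := conj_zpow (a := g⁻¹) (b := c) (i := k)
      rw [inv_inv] at this
      exact this
    have h3 : w = c ^ k := by
      have : w = g * (g⁻¹ * w * g) * g⁻¹ := by group
      rw [this, h2]; group
    rw [h3]
    exact zpow_mem hc k

theorem fixed_iff (H : Subgroup G) (y g : G) :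
    y • (QuotientGroup.mk g : G ⧸ H) = QuotientGroup.mk g ↔ g⁻¹ * y * g ∈ H := by
  have : y • (QuotientGroup.mk g : G ⧸ H) = QuotientGroup.mk (y * g) := rfl
  rw [this, eq_comm, QuotientGroup.eq, mul_assoc]

/-- Let P be a Sylow p-subgroup of order p of a finite group G, and consider the action of G on the left cosets of the normalizer N of P. Then every element of order p fixes exactly one coset, and an element of N that does not centralize P fixes at most as many cosets as there are orbits of P. -/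
theorem result {G : Type*} [Group G] [Finite G] (p : ℕ) [Fact p.Prime] (P : Sylow p G) (hP : Nat.card ↥(P : Subgroup G) = p) : (∀ y : G, orderOf y = p → Nat.card (MulAction.fixedBy (G ⧸ Subgroup.normalizer ((P : Subgroup G) : Set G)) y) = 1) ∧ ∀ x : G, x ∈ Subgroup.normalizer ((P : Subgroup G) : Set G) → x ∉ Subgroup.centralizer ((P : Subgroup G) : Set G) → Nat.card (MulAction.fixedBy (G ⧸ Subgroup.normalizer ((P : Subgroup G) : Set G)) x) ≤ Nat.card (MulAction.orbitRel.Quotient ↥(P : Subgroup G) (G ⧸ Subgroup.normalizer ((P : Subgroup G) : Set G))) := by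
  classical
  have hp : p.Prime := Fact.out
  constructor
  · intro y hy
    have hy1 : y ≠ 1 := by
      rintro rfl
      rw [orderOf_one] at hy
      exact hp.one_lt.ne hy
    have hyp : y ^ (p ^ 1) = 1 := by rw [pow_one, ← hy]; exact pow_orderOf_eq_one y
    have hconj : ∀ g : G, (g⁻¹ * y * g) ^ (p ^ 1) = 1 := by
      intro g
      have := conj_pow (a := g⁻¹) (b := y) (i := p ^ 1)
      rw [inv_inv] at this
      rw [this, hyp]; group
    have hconj1 : ∀ g : G, g⁻¹ * y * g ≠ 1 := by
      intro g h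
      apply hy1
      have : y = g * (g⁻¹ * y * g) * g⁻¹ := by group
      rw [this, h]; group
    rw [Nat.card_eq_one_iff_unique]
    constructor
    · refine ⟨fun a b => ?_⟩
      obtain ⟨a, ha⟩ := a
      obtain ⟨b, hb⟩ := b
      apply Subtype.ext
      show a = b
      induction a using QuotientGroup.induction_on with | H g =>
      induction b using QuotientGroup.induction_on with | H k =>
      rw [MulAction.mem_fixedBy, fixed_iff] at ha hb
      have hg := mem_of_mem_normalizer P _ ha 1 (hconj g)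
      have hk := mem_of_mem_normalizer P _ hb 1 (hconj k)
      rw [QuotientGroup.eq]
      -- g⁻¹ * k normalizes P
      have h1 : (g⁻¹ * k)⁻¹ * (g⁻¹ * y * g) * (g⁻¹ * k) = k⁻¹ * y * k := by group
      exact mem_normalizer_of_conj P hP hg (hconj1 g) (by rw [h1]; exact hk)
    · -- existence
      have hz : IsPGroup p (Subgroup.zpowers y) := by
        rintro ⟨x, hx⟩
        obtain ⟨j, rfl⟩ := Subgroup.mem_zpowers_iff.mp hx
        refine ⟨1, Subtype.ext ?_⟩
        simp only [Subgroup.coe_pow, Subgroup.coe_one]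
        rw [← zpow_natCast, ← zpow_mul, mul_comm, zpow_mul, zpow_natCast, hyp, one_zpow]
      obtain ⟨Q, hQ⟩ := hz.exists_le_sylow
      obtain ⟨g, hg⟩ := MulAction.exists_smul_eq G P Q
      have hyQ : y ∈ (Q : Subgroup G) := hQ (Subgroup.mem_zpowers y)
      rw [← hg, Sylow.coe_subgroup_smul, Subgroup.mem_pointwise_smul_iff_inv_smul_mem] at hyQ
      have hyQ' : g⁻¹ * y * g ∈ (P : Subgroup G) := by
        have : (MulAut.conj g)⁻¹ • y = g⁻¹ * y * g := by
          rw [MulAut.smul_def, MulAut.conj_inv_apply]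
        rw [← this]; exact hyQ
      refine ⟨⟨QuotientGroup.mk g, ?_⟩⟩
      rw [MulAction.mem_fixedBy, fixed_iff]
      exact Subgroup.le_normalizer hyQ'
  · intro x hxN hxC
    let f : MulAction.fixedBy (G ⧸ Subgroup.normalizer ((P : Subgroup G) : Set G)) x →
        MulAction.orbitRel.Quotient ↥(P : Subgroup G) (G ⧸ Subgroup.normalizer ((P : Subgroup G) : Set G)) :=
      fun q => Quotient.mk'' q.1
    apply Nat.card_le_card_of_injective f
    rintro ⟨a, ha⟩ ⟨b, hb⟩ hab
    apply Subtype.ext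
    show a = b
    have hab' : (Quotient.mk'' a : MulAction.orbitRel.Quotient ↥(P : Subgroup G) (G ⧸ Subgroup.normalizer ((P : Subgroup G) : Set G))) = Quotient.mk'' b := hab
    rw [Quotient.eq''] at hab'
    have hab2 : a ∈ MulAction.orbit ↥(P : Subgroup G) b := hab'
    obtain ⟨u, hu⟩ := hab2
    induction b using QuotientGroup.induction_on with | H g =>
    have hu' : a = QuotientGroup.mk ((u : G) * g) := hu.symm
    rw [hu'] at ha ⊢
    rw [MulAction.mem_fixedBy, fixed_iff] at ha hb
    by_cases hu1 : (u : G) = 1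
    · rw [hu1, one_mul]
    -- c = x⁻¹ u⁻¹ x u
    have hcP : x⁻¹ * (u : G)⁻¹ * x * (u : G) ∈ (P : Subgroup G) := by
      have h1 : x⁻¹ * (u : G)⁻¹ * x ∈ (P : Subgroup G) := by
        have := (Subgroup.mem_normalizer_iff''.mp hxN ((u : G)⁻¹)).mp (inv_mem u.2)
        exact this
      exact mul_mem h1 u.2
    have hcN : g⁻¹ * (x⁻¹ * (u : G)⁻¹ * x * (u : G)) * g ∈ Subgroup.normalizer ((P : Subgroup G) : Set G) := by
      have : g⁻¹ * (x⁻¹ * (u : G)⁻¹ * x * (u : G)) * g = (g⁻¹ * x * g)⁻¹ * (((u : G) * g)⁻¹ * x * ((u : G) * g)) := by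
        group
      rw [this]
      exact mul_mem (inv_mem hb) ha
    obtain ⟨k, hk⟩ := IsPGroup.iff_orderOf.mp P.isPGroup' ⟨_, hcP⟩
    have hck : (x⁻¹ * (u : G)⁻¹ * x * (u : G)) ^ (p ^ k) = 1 := by
      have h1 := pow_orderOf_eq_one (⟨_, hcP⟩ : ↥(P : Subgroup G))
      rw [hk] at h1
      exact congrArg Subtype.val h1
    have hcg : g⁻¹ * (x⁻¹ * (u : G)⁻¹ * x * (u : G)) * g ∈ (P : Subgroup G) := by
      apply mem_of_mem_normalizer P _ hcN k
      have := conj_pow (a := g⁻¹) (b := x⁻¹ * (u : G)⁻¹ * x * (u : G)) (i := p ^ k)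
      rw [inv_inv] at this
      rw [this, hck]; group
    by_cases hc1 : x⁻¹ * (u : G)⁻¹ * x * (u : G) = 1
    · -- x commutes with u, hence centralizes P
      exfalso
      apply hxC
      have hxu : x * (u : G) = (u : G) * x := by
        have : x * (u : G) = (u : G) * x * (x⁻¹ * (u : G)⁻¹ * x * (u : G)) := by group
        rw [this, hc1, mul_one]
      rw [Subgroup.mem_centralizer_iff]
      intro w hw
      obtain ⟨j, rfl⟩ := gen (P : Subgroup G) hP u.2 hu1 w hw
      exact ((Commute.zpow_right (show Commute x (u : G) from hxu) j).eq).symm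
    · have hgN := mem_normalizer_of_conj P hP hcP hc1 hcg
      rw [QuotientGroup.eq]
      have : ((u : G) * g)⁻¹ * g = g⁻¹ * (u : G)⁻¹ * g := by group
      rw [this]
      exact mul_mem (mul_mem (inv_mem hgN) (Subgroup.le_normalizer (inv_mem u.2))) hgN

end Cfsg.Agent.S1018
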