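import Cfsg.Statements.S1003
import Mathlib
import Cfsg.Agent.Lib.Helper13.SylowCount
import Cfsg.Agent.S1018

set_option autoImplicit false
open Cfsg

namespace Cfsg.Agent.S1003

open Cfsg.Agent.Lib.Helper13.SmallSimple Cfsg.Agent.Lib.Helper2.SimpleIndex
open Cfsg.Agent.Lib.Helper13.SylowCount Cfsg.Agent.Lib.Helper2.Simple60

/-- A Sylow subgroup of prime order is contained in its centralizer. -/
theorem le_centralizer_of_prime_card {G : Type*} [Group G] [Finite G] {p : ℕ} [Fact p.Prime]
    (P : Sylow p G) (hP : Nat.card (P : Subgroup G) = p) :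
    (P : Subgroup G) ≤ Subgroup.centralizer ((P : Subgroup G) : Set G) := by
  intro x hx
  rw [Subgroup.mem_centralizer_iff]
  intro y hy
  have hcyc : IsCyclic (P : Subgroup G) := isCyclic_of_prime_card hP
  have hc := (IsCyclic.isMulCommutative (α := ↥(P : Subgroup G))).is_comm.comm ⟨y, hy⟩ ⟨x, hx⟩
  exact congrArg Subtype.val hc

/-- In a simple group of order 168 the number of Sylow 3-subgroups is not 7. -/
theorem n3_ne_7 {G : Type*} [Group G] [Finite G] [IsSimpleGroup G] (h : Nat.card G = 168)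
    [Fact (Nat.Prime 3)] (P : Sylow 3 G) (hP : Nat.card (P : Subgroup G) = 3) :
    Nat.card (Sylow 3 G) ≠ 7 := by
  classical
  intro h7
  have hNP := card_normalizer_mul P
  rw [h7, h] at hNP
  obtain ⟨hfix1, -⟩ := Cfsg.Agent.S1018.result 3 P hP
  obtain ⟨N, hNdef⟩ : ∃ N : Subgroup G, N = Subgroup.normalizer ((P : Subgroup G) : Set G) :=
    ⟨_, rfl⟩
  rw [← hNdef] at hNP hfix1
  have hNcard : Nat.card N = 24 := by omega
  have hidxN : N.index = 7 := by
    rw [hNdef]; exact (Sylow.card_eq_index_normalizer P).symm.trans h7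
  have hNtop : N ≠ ⊤ := by
    intro htop
    rw [htop, Subgroup.index_top] at hidxN
    omega
  -- the centralizer of P is large
  have hrel := relIndex_centralizer_dvd P hP
  have hmul := card_mul_relIndex (Subgroup.centralizer_le_normalizer ((P : Subgroup G) : Set G))
  rw [← hNdef, hNcard] at hmul
  rw [← hNdef] at hrel
  have hC12 : 12 ≤ Nat.card (Subgroup.centralizer ((P : Subgroup G) : Set G)) := by
    have hr : (Subgroup.centralizer ((P : Subgroup G) : Set G)).relIndex N ≤ 2 :=
      Nat.le_of_dvd (by norm_num) hrel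
    nlinarith
  -- a generator
  obtain ⟨x, hxP, hx1⟩ : ∃ x ∈ (P : Subgroup G), x ≠ 1 := by
    have h1 : 1 < Nat.card (P : Subgroup G) := by rw [hP]; norm_num
    rw [Subgroup.one_lt_card_iff_ne_bot, Subgroup.ne_bot_iff_exists_ne_one] at h1
    obtain ⟨⟨x, hx⟩, hne⟩ := h1
    exact ⟨x, hx, fun h' => hne (Subtype.ext h')⟩
  have hord : orderOf x = 3 := by
    have hd := orderOf_dvd_natCard (⟨x, hxP⟩ : ↥(P : Subgroup G))
    rw [hP, ← Subgroup.orderOf_coe] at hd
    rcases (Nat.dvd_prime (by norm_num : Nat.Prime 3)).mp hd with h' | h'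
    · exact absurd (orderOf_eq_one_iff.mp h') hx1
    · exact h'
  have hCx : 12 ≤ Nat.card (Subgroup.centralizer ({x} : Set G)) :=
    le_trans hC12 (Subgroup.card_le_of_le
      (Subgroup.centralizer_le (Set.singleton_subset_iff.mpr hxP)))
  -- the permutation induced by x on G/N
  have : Fintype (G ⧸ N) := Fintype.ofFinite _
  have hinj := inj_of_ne_top N hNtop
  obtain ⟨σ, hσ⟩ : ∃ σ : Equiv.Perm (G ⧸ N), σ = MulAction.toPermHom G (G ⧸ N) x := ⟨_, rfl⟩
  have hσ3 : σ ^ 3 = 1 := by rw [hσ, ← map_pow, ← hord, pow_orderOf_eq_one, map_one]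
  have hfixeq : Function.fixedPoints σ = MulAction.fixedBy (G ⧸ N) x := by
    ext y; rw [hσ]; rfl
  have hct := Equiv.Perm.cycleType_of_pow_prime_eq_one hσ3
  have hc7 : Fintype.card (G ⧸ N) = 7 := by
    rw [Fintype.card_eq_nat_card, ← Subgroup.index_eq_card, hidxN]
  have hfp := Equiv.Perm.card_fixedPoints σ
  have hk := Equiv.Perm.sum_cycleType_le σ
  have hsumct : σ.cycleType.sum = Multiset.card σ.cycleType * 3 := by
    rw [hct, Multiset.sum_replicate, smul_eq_mul, Multiset.card_replicate]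
  rw [hsumct, hc7] at hfp hk
  simp only [Fintype.card_eq_nat_card] at hfp
  rw [hfixeq, hfix1 x hord] at hfp
  have hcard2 : Multiset.card σ.cycleType = 2 := by omega
  rw [hcard2] at hct
  have hcent : Nat.card (Subgroup.centralizer ({σ} : Set (Equiv.Perm (G ⧸ N)))) = 18 := by
    rw [Equiv.Perm.nat_card_centralizer, hct, hc7]
    decide
  have hmap : (Subgroup.centralizer ({x} : Set G)).map (MulAction.toPermHom G (G ⧸ N)) ≤
      Subgroup.centralizer ({σ} : Set (Equiv.Perm (G ⧸ N))) := by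
    rintro _ ⟨g, hg0, rfl⟩
    have hg : g ∈ Subgroup.centralizer ({x} : Set G) := hg0
    rw [Subgroup.mem_centralizer_singleton_iff] at hg ⊢
    rw [hσ, ← map_mul, ← map_mul, hg]
  have hdvd18 := Subgroup.card_dvd_of_le hmap
  rw [Subgroup.card_map_of_injective hinj, hcent] at hdvd18
  have hdvd168 := Subgroup.card_subgroup_dvd_card (Subgroup.centralizer ({x} : Set G))
  rw [h] at hdvd168
  have hdvd6 : Nat.card (Subgroup.centralizer ({x} : Set G)) ∣ 6 := Nat.dvd_gcd hdvd18 hdvd168
  have := Nat.le_of_dvd (by norm_num) hdvd6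
  omega

/-- In a simple group of order 168 with 28 Sylow 3-subgroups the number of Sylow 2-subgroups
is not 7. -/
theorem n2_ne_7 {G : Type*} [Group G] [Finite G] [IsSimpleGroup G] (h : Nat.card G = 168)
    [Fact (Nat.Prime 3)] [Fact (Nat.Prime 2)]
    (hcard3 : ∀ P : Sylow 3 G, Nat.card (P : Subgroup G) = 3)
    (h28 : Nat.card (Sylow 3 G) = 28)
    (P2 : Sylow 2 G) (hP2 : Nat.card (P2 : Subgroup G) = 8) :
    Nat.card (Sylow 2 G) ≠ 7 := by
  classical
  intro h7
  have hNP := card_normalizer_mul P2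
  rw [h7, h] at hNP
  have hNcard : Nat.card (Subgroup.normalizer ((P2 : Subgroup G) : Set G)) = 24 := by omega
  -- an element of order 3 in the normalizer
  obtain ⟨x, hx⟩ := exists_prime_orderOf_dvd_card'
    (G := ↥(Subgroup.normalizer ((P2 : Subgroup G) : Set G))) 3 (by rw [hNcard]; norm_num)
  have hxG : orderOf (x : G) = 3 := by rw [Subgroup.orderOf_coe]; exact hx
  have hx1 : (x : G) ≠ 1 := by
    intro h1
    rw [h1, orderOf_one] at hxG
    omega
  -- the fixed points of x on P2
  have hK : IsPGroup 3 (Subgroup.zpowers x) := by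
    apply IsPGroup.of_card (n := 1)
    rw [Nat.card_zpowers, hx, pow_one]
  have hmod := hK.card_modEq_card_fixedPoints (α := ↥(P2 : Subgroup G))
  rw [hP2] at hmod
  have hfp : ∃ z : ↥(P2 : Subgroup G), z ≠ 1 ∧
      z ∈ MulAction.fixedPoints (Subgroup.zpowers x) ↥(P2 : Subgroup G) := by
    by_contra hall
    push Not at hall
    have hsub : Subsingleton (MulAction.fixedPoints (Subgroup.zpowers x) ↥(P2 : Subgroup G)) := by
      constructor
      rintro ⟨a, ha⟩ ⟨b, hb⟩
      apply Subtype.ext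
      show a = b
      have ha1 : a = 1 := by
        by_contra hne
        exact hall a hne ha
      have hb1 : b = 1 := by
        by_contra hne
        exact hall b hne hb
      rw [ha1, hb1]
    have hle := Finite.card_le_one_iff_subsingleton.mpr hsub
    have h8 : (8 : ℕ) % 3 =
        Nat.card (MulAction.fixedPoints (Subgroup.zpowers x) ↥(P2 : Subgroup G)) % 3 := hmod
    omega
  obtain ⟨z, hz1, hzfix⟩ := hfp
  have hcomm : (x : G) * (z : G) * (x : G)⁻¹ = (z : G) := by
    have h1 := hzfix ⟨x, Subgroup.mem_zpowers x⟩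
    exact congrArg Subtype.val h1
  have hcomm' : (x : G) * (z : G) = (z : G) * (x : G) := by
    have h2 : (x : G) * (z : G) = ((x : G) * (z : G) * (x : G)⁻¹) * (x : G) := by group
    rw [h2, hcomm]
  -- the Sylow 3-subgroup containing x
  have hz3 : IsPGroup 3 (Subgroup.zpowers (x : G)) := by
    apply IsPGroup.of_card (n := 1)
    rw [Nat.card_zpowers, hxG, pow_one]
  obtain ⟨P3, hP3⟩ := hz3.exists_le_sylow
  have hxP3 : (x : G) ∈ (P3 : Subgroup G) := hP3 (Subgroup.mem_zpowers _)
  have hzC : (z : G) ∈ Subgroup.centralizer ((P3 : Subgroup G) : Set G) := by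
    rw [Subgroup.mem_centralizer_iff]
    intro w hw
    obtain ⟨k, rfl⟩ := Cfsg.Agent.S1018.gen (P3 : Subgroup G) (hcard3 P3) hxP3 hx1 w hw
    exact ((Commute.zpow_left (show Commute (x : G) (z : G) from hcomm') k).eq)
  have hNP3 := card_normalizer_mul P3
  rw [h28, h] at hNP3
  have hN3 : Nat.card (Subgroup.normalizer ((P3 : Subgroup G) : Set G)) = 6 := by omega
  have h3dvd : 3 ∣ Nat.card (Subgroup.centralizer ((P3 : Subgroup G) : Set G)) := by
    have := Subgroup.card_dvd_of_le (le_centralizer_of_prime_card P3 (hcard3 P3))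
    rwa [hcard3 P3] at this
  have h2dvd : 2 ∣ Nat.card (Subgroup.centralizer ((P3 : Subgroup G) : Set G)) := by
    have hd := orderOf_dvd_natCard
      (⟨(z : G), hzC⟩ : ↥(Subgroup.centralizer ((P3 : Subgroup G) : Set G)))
    rw [← Subgroup.orderOf_coe] at hd
    have hd' : orderOf (z : G) ∣ Nat.card (Subgroup.centralizer ((P3 : Subgroup G) : Set G)) := hd
    refine Dvd.dvd.trans ?_ hd'
    have ho := orderOf_dvd_natCard z
    rw [hP2, ← Subgroup.orderOf_coe] at ho
    have hne1 : orderOf (z : G) ≠ 1 := by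
      intro h1
      exact hz1 (Subtype.ext (orderOf_eq_one_iff.mp h1))
    obtain ⟨o, ho'⟩ : ∃ o, o = orderOf (z : G) := ⟨_, rfl⟩
    rw [← ho'] at ho hne1 ⊢
    have hle : o ≤ 8 := Nat.le_of_dvd (by norm_num) ho
    have h0 : 8 % o = 0 := Nat.mod_eq_zero_of_dvd ho
    interval_cases o <;> omega
  have h6 : 2 * 3 ∣ Nat.card (Subgroup.centralizer ((P3 : Subgroup G) : Set G)) :=
    Nat.Coprime.mul_dvd_of_dvd_of_dvd (by norm_num) h2dvd h3dvd
  have hle6 := Nat.le_of_dvd Nat.card_pos h6
  have heq : Subgroup.centralizer ((P3 : Subgroup G) : Set G) =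
      Subgroup.normalizer ((P3 : Subgroup G) : Set G) :=
    Subgroup.eq_of_le_of_card_ge (Subgroup.centralizer_le_normalizer _) (by rw [hN3]; omega)
  exact false_of_normalizer_le_centralizer P3 (by rw [hcard3 P3]; norm_num)
    (by rw [hcard3 P3, h]; norm_num) (le_of_eq heq.symm)

/-- A simple group of order 168 has exactly 21 Sylow 2-subgroups, 28 Sylow 3-subgroups and 8 Sylow 7-subgroups. -/
theorem result {G : Type*} [Group G] [Finite G] [IsSimpleGroup G] (h : Nat.card G = 168) : Nat.card (Sylow 2 G) = 21 ∧ Nat.card (Sylow 3 G) = 28 ∧ Nat.card (Sylow 7 G) = 8 := by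
  have : Fact (Nat.Prime 2) := ⟨by norm_num⟩
  have : Fact (Nat.Prime 3) := ⟨by norm_num⟩
  have : Fact (Nat.Prime 7) := ⟨by norm_num⟩
  have hcard2 : ∀ P : Sylow 2 G, Nat.card (P : Subgroup G) = 8 := by
    intro P
    have := sylow_card_of 3 21 (by rw [h]; norm_num) (by norm_num) P
    simpa using this
  have hcard3 : ∀ P : Sylow 3 G, Nat.card (P : Subgroup G) = 3 := by
    intro P
    have := sylow_card_of 1 56 (by rw [h]; norm_num) (by norm_num) P
    simpa using this
  have hcard7 : ∀ P : Sylow 7 G, Nat.card (P : Subgroup G) = 7 := by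
    intro P
    have := sylow_card_of 1 24 (by rw [h]; norm_num) (by norm_num) P
    simpa using this
  have hidx : ∀ H : Subgroup G, H ≠ ⊤ → 7 ≤ H.index := by
    intro H hH
    have h1 := card_dvd_factorial_index H hH
    rw [h] at h1
    by_contra hlt
    push Not at hlt
    have h7 : 7 ∣ (H.index).factorial := Dvd.dvd.trans (by norm_num) h1
    have h2 : (H.index).factorial ∣ Nat.factorial 6 := Nat.factorial_dvd_factorial (by omega)
    have h3 : 7 ∣ Nat.factorial 6 := h7.trans h2
    revert h3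
    decide
  have h7 : Nat.card (Sylow 7 G) = 8 := by
    obtain ⟨P⟩ : Nonempty (Sylow 7 G) := inferInstance
    have hidxP : (P : Subgroup G).index = 24 :=
      sylow_index_of 1 24 (by rw [h]; norm_num) (by norm_num) P
    have hdvd := P.card_dvd_index
    rw [hidxP] at hdvd
    have hmod : Nat.card (Sylow 7 G) % 7 = 1 := card_sylow_modEq_one 7 G
    have hne := card_sylow_ne_one P (by rw [hcard7 P]; norm_num) (by rw [hcard7 P, h]; norm_num)
    obtain ⟨n, hn⟩ : ∃ n, n = Nat.card (Sylow 7 G) := ⟨_, rfl⟩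
    rw [← hn] at hdvd hmod hne ⊢
    have hle : n ≤ 24 := Nat.le_of_dvd (by norm_num) hdvd
    have h0 : 24 % n = 0 := Nat.mod_eq_zero_of_dvd hdvd
    interval_cases n <;> omega
  have h3 : Nat.card (Sylow 3 G) = 28 := by
    obtain ⟨P⟩ : Nonempty (Sylow 3 G) := inferInstance
    have hidxP : (P : Subgroup G).index = 56 :=
      sylow_index_of 1 56 (by rw [h]; norm_num) (by norm_num) P
    have hdvd := P.card_dvd_index
    rw [hidxP] at hdvd
    have hmod : Nat.card (Sylow 3 G) % 3 = 1 := card_sylow_modEq_one 3 G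
    have hge : 7 ≤ Nat.card (Sylow 3 G) := by
      rw [Sylow.card_eq_index_normalizer P]
      exact hidx _ (normalizer_sylow_ne_top P (by rw [hcard3 P]; norm_num)
        (by rw [hcard3 P, h]; norm_num))
    have hne7 := n3_ne_7 h P (hcard3 P)
    obtain ⟨n, hn⟩ : ∃ n, n = Nat.card (Sylow 3 G) := ⟨_, rfl⟩
    rw [← hn] at hdvd hmod hge hne7 ⊢
    have hle : n ≤ 56 := Nat.le_of_dvd (by norm_num) hdvd
    have h0 : 56 % n = 0 := Nat.mod_eq_zero_of_dvd hdvd
    interval_cases n <;> omega
  have h2 : Nat.card (Sylow 2 G) = 21 := by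
    obtain ⟨P⟩ : Nonempty (Sylow 2 G) := inferInstance
    have hidxP : (P : Subgroup G).index = 21 :=
      sylow_index_of 3 21 (by rw [h]; norm_num) (by norm_num) P
    have hdvd := P.card_dvd_index
    rw [hidxP] at hdvd
    have hge : 7 ≤ Nat.card (Sylow 2 G) := by
      rw [Sylow.card_eq_index_normalizer P]
      exact hidx _ (normalizer_sylow_ne_top P (by rw [hcard2 P]; norm_num)
        (by rw [hcard2 P, h]; norm_num))
    have hne7 := n2_ne_7 h hcard3 h3 P (hcard2 P)
    obtain ⟨n, hn⟩ : ∃ n, n = Nat.card (Sylow 2 G) := ⟨_, rfl⟩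
    rw [← hn] at hdvd hge hne7 ⊢
    have hle : n ≤ 21 := Nat.le_of_dvd (by norm_num) hdvd
    have h0 : 21 % n = 0 := Nat.mod_eq_zero_of_dvd hdvd
    interval_cases n <;> omega
  exact ⟨h2, h3, h7⟩

end Cfsg.Agent.S1003
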