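import Mathlib
import Cfsg.Statements.S0495
import Cfsg.Agent.Lib.Helper2.L27Emb
import Cfsg.Agent.Lib.Helper2.Fano7
import Cfsg.Agent.S1003
import Cfsg.Agent.S0243

set_option autoImplicit false
open Cfsg

namespace Cfsg.Agent.S0495

theorem perm_apply_inv {α : Type*} (f : Equiv.Perm α) (x : α) : f (f⁻¹ x) = x := by
  rw [Equiv.Perm.inv_def, Equiv.apply_symm_apply]

theorem perm_inv_apply {α : Type*} (f : Equiv.Perm α) (x : α) : f⁻¹ (f x) = x := by
  rw [Equiv.Perm.inv_def, Equiv.symm_apply_apply]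

open Cfsg.Agent.Lib.Helper2.L27Data in
/-- A permutation semiconjugating the translation to one of its powers is affine. -/
theorem semiconj_form (p : Equiv.Perm (Fin 8)) (k : ℕ) (h : p * sg = sg ^ k * p) :
    ∃ k' b : Fin 7, ∀ x, p x = A k' b x := by
  have h7 : sg ^ 7 = 1 := Equiv.ext sg_seven
  have hk : sg ^ k = sg ^ (k % 7) := by
    conv_lhs => rw [← Nat.div_add_mod k 7, pow_add, pow_mul, h7, one_pow, one_mul]
  let k' : Fin 7 := ⟨k % 7, Nat.mod_lt _ (by norm_num)⟩
  have h' : ∀ x, p (sg x) = (sg ^ k'.val) (p x) := by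
    intro x
    have h1 := congrArg (fun q : Equiv.Perm (Fin 8) => q x) h
    simp only [Equiv.Perm.mul_apply] at h1
    rw [h1, hk]
  have hiter : ∀ n : ℕ, p ((sg ^ n) 0) = (sg ^ (k'.val * n)) (p 0) := by
    intro n
    induction n with
    | zero => rw [Nat.mul_zero, pow_zero]; rfl
    | succ n ih =>
      have e : k'.val * (n + 1) = k'.val + k'.val * n := by ring
      rw [pow_succ', Equiv.Perm.mul_apply, h', ih, ← Equiv.Perm.mul_apply, ← pow_add, e]
  have hB : ∀ x, p x = B k' (p 0) (p 7) x := by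
    intro x
    by_cases hx : x = 7
    · subst hx
      show p 7 = if (7 : Fin 8) = 7 then p 7 else _
      rw [if_pos rfl]
    · show p x = if x = 7 then p 7 else (sg ^ (k'.val * x.val)) (p 0)
      rw [if_neg hx, ← hiter x.val, sg_pow_zero x hx]
  have hinj : ∀ x x' : Fin 8, B k' (p 0) (p 7) x = B k' (p 0) (p 7) x' → x = x' := by
    intro x x' hxx
    rw [← hB, ← hB] at hxx
    exact p.injective hxx
  have hfix : (sg ^ k'.val) (p 7) = p 7 := by
    have h1 := h' 7
    rw [sg_fix] at h1
    exact h1.symm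
  obtain ⟨b, hb⟩ := B_spec k' (p 0) (p 7) hinj hfix
  exact ⟨k', b, fun x => (hB x).trans (hb x)⟩

open Cfsg.Agent.Lib.Helper2.L27Data in
/-- The normal form of the elements normalising the translations. -/
theorem normal_form (p : Equiv.Perm (Fin 8)) (k : ℕ) (h : p * sg = sg ^ k * p)
    (h21 : p ^ 21 = 1) : ∃ b : Fin 7, ∃ j : Fin 3, p = sg ^ b.val * ta ^ j.val := by
  obtain ⟨k', b, hp⟩ := semiconj_form p k h
  have hfun : ⇑p = A k' b := funext hp
  have hit : ∀ x, (A k' b)^[21] x = x := by
    intro x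
    rw [← hfun, ← Equiv.Perm.coe_pow, h21]
    rfl
  obtain ⟨j, hj⟩ := A_form k' b hit
  exact ⟨b, j, Equiv.ext fun x => (hp x).trans (hj x)⟩

open Cfsg.Agent.Lib.Helper13.SmallSimple Cfsg.Agent.Lib.Helper2.SimpleIndex in
/-- In a simple group of order 168 an element of order three commutes with no involution. -/
theorem no_comm {G : Type*} [Group G] [Finite G] [IsSimpleGroup G] (h : Nat.card G = 168)
    (a t : G) (ha : orderOf a = 3) (ht : orderOf t = 2) (hc : a * t = t * a) : False := by
  classical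
  have : Fact (Nat.Prime 3) := ⟨by norm_num⟩
  obtain ⟨-, hn3, -⟩ := Cfsg.Agent.S1003.result h
  have hz : IsPGroup 3 (Subgroup.zpowers a) :=
    IsPGroup.of_card (n := 1) (by rw [Nat.card_zpowers, ha, pow_one])
  obtain ⟨R, hR⟩ := hz.exists_le_sylow
  have hR3 : Nat.card (R : Subgroup G) = 3 := by
    have := sylow_card_of 1 56 (by rw [h]; norm_num) (by norm_num) R
    simpa using this
  have hReq : Subgroup.zpowers a = (R : Subgroup G) :=
    Subgroup.eq_of_le_of_card_ge hR (by rw [hR3, Nat.card_zpowers, ha])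
  have hN6 : Nat.card (Subgroup.normalizer ((R : Subgroup G) : Set G)) = 6 := by
    have := card_normalizer_mul R
    rw [hn3, h] at this
    omega
  have hcomm : Commute a t := hc
  have hx6 : orderOf (a * t) = 6 := by
    rw [hcomm.orderOf_mul_eq_mul_orderOf_of_coprime (by rw [ha, ht]; decide), ha, ht]
  have hxC : a * t ∈ Subgroup.centralizer ((R : Subgroup G) : Set G) := by
    rw [Subgroup.mem_centralizer_iff]
    intro r hr
    have hr' : r ∈ Subgroup.zpowers a := by rw [hReq]; exact hr
    obtain ⟨m, rfl⟩ := Subgroup.mem_zpowers_iff.mp hr'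
    have h1 : Commute (a * t) a := by
      show a * t * a = a * (a * t)
      rw [mul_assoc, ← hc]
    exact (h1.zpow_right m).symm
  have hle : Subgroup.zpowers (a * t) ≤ Subgroup.centralizer ((R : Subgroup G) : Set G) := by
    rw [Subgroup.zpowers_le]
    exact hxC
  have hCN : Subgroup.centralizer ((R : Subgroup G) : Set G)
      ≤ Subgroup.normalizer ((R : Subgroup G) : Set G) := Subgroup.centralizer_le_normalizer _
  have heq : Subgroup.zpowers (a * t) = Subgroup.normalizer ((R : Subgroup G) : Set G) :=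
    Subgroup.eq_of_le_of_card_ge (hle.trans hCN) (by rw [hN6, Nat.card_zpowers, hx6])
  have hNC : Subgroup.normalizer ((R : Subgroup G) : Set G)
      ≤ Subgroup.centralizer ((R : Subgroup G) : Set G) := by
    rw [← heq]
    exact hle
  have hcompl := MonoidHom.ker_transferSylow_isComplement' R hNC
  have hcard := hcompl.card_mul_card
  rw [hR3, h] at hcard
  rcases IsSimpleGroup.eq_bot_or_eq_top_of_normal (MonoidHom.transferSylow R hNC).ker inferInstance
    with hk | hk
  · rw [hk, Subgroup.card_bot] at hcard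
    omega
  · rw [hk, Subgroup.card_top, h] at hcard
    omega

open Cfsg.Agent.Lib.Helper2.L27Data in
/-- A simple group of order 168 acts faithfully and transitively on eight points, a suitable
element acting as the standard translation. -/
theorem exists_action {G : Type*} [Group G] [Finite G] [IsSimpleGroup G] (h : Nat.card G = 168) :
    ∃ (φ : G →* Equiv.Perm (Fin 8)) (s : G), Function.Injective φ ∧
      (∀ x y : Fin 8, ∃ g : G, φ g x = y) ∧ φ s = sg := by
  classical
  have : Fact (Nat.Prime 7) := ⟨by norm_num⟩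
  obtain ⟨-, -, hn7⟩ := Cfsg.Agent.S1003.result h
  have hfin : Finite (Sylow 7 G) := inferInstance
  let e : Sylow 7 G ≃ Fin 8 := Finite.equivFinOfCardEq hn7
  let φ₀ : G →* Equiv.Perm (Sylow 7 G) := MulAction.toPermHom G (Sylow 7 G)
  let φ₁ : G →* Equiv.Perm (Fin 8) := (e.permCongrHom).toMonoidHom.comp φ₀
  have hφ₁_apply : ∀ (g : G) (x : Fin 8), φ₁ g x = e (g • e.symm x) := fun g x => rfl
  have htr₁ : ∀ x y : Fin 8, ∃ g : G, φ₁ g x = y := by
    intro x y
    obtain ⟨g, hg⟩ := MulAction.exists_smul_eq G (e.symm x) (e.symm y)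
    exact ⟨g, by rw [hφ₁_apply, hg, Equiv.apply_symm_apply]⟩
  have hinj₁ : Function.Injective φ₁ := by
    rw [← MonoidHom.ker_eq_bot_iff]
    rcases IsSimpleGroup.eq_bot_or_eq_top_of_normal φ₁.ker inferInstance with hk | hk
    · exact hk
    · exfalso
      obtain ⟨g, hg⟩ := htr₁ 0 1
      have hgk : g ∈ φ₁.ker := by rw [hk]; exact Subgroup.mem_top g
      rw [MonoidHom.mem_ker] at hgk
      rw [hgk] at hg
      exact absurd hg (by decide)
  obtain ⟨s₀, hs₀⟩ := exists_prime_orderOf_dvd_card' (G := G) 7 (by rw [h]; norm_num)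
  have ho : orderOf (φ₁ s₀) = 7 := by rw [orderOf_injective φ₁ hinj₁, hs₀]
  have hct : ∀ q : Equiv.Perm (Fin 8), orderOf q = 7 → q.cycleType = {7} := by
    intro q hq
    obtain ⟨n, hn⟩ := Equiv.Perm.cycleType_prime_order (σ := q) (by rw [hq]; norm_num)
    have hsum := q.sum_cycleType_le
    rw [hn, hq, Multiset.sum_replicate, Fintype.card_fin, smul_eq_mul] at hsum
    have hn0 : n = 0 := by omega
    rw [hn, hq, hn0]
    rfl
  have hsg : orderOf sg = 7 :=
    orderOf_eq_prime (Equiv.ext sg_seven) (fun hh => sg_ne (by rw [hh]; rfl))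
  have hconj : IsConj (φ₁ s₀) sg := by
    rw [Equiv.Perm.isConj_iff_cycleType_eq, hct _ ho, hct _ hsg]
  obtain ⟨π, hπ⟩ := isConj_iff.mp hconj
  refine ⟨(MulAut.conj π).toMonoidHom.comp φ₁, s₀, ?_, ?_, ?_⟩
  · exact (MulAut.conj π).injective.comp hinj₁
  · intro x y
    obtain ⟨g, hg⟩ := htr₁ (π⁻¹ x) (π⁻¹ y)
    refine ⟨g, ?_⟩
    show (π * φ₁ g * π⁻¹) x = y
    rw [Equiv.Perm.mul_apply, Equiv.Perm.mul_apply, hg, perm_apply_inv]
  · exact hπ

open Cfsg.Agent.Lib.Helper2.L27Data Cfsg.Agent.Lib.Helper13.SmallSimple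
  Cfsg.Agent.Lib.Helper2.SimpleIndex in
/-- The image of the action contains the standard copy of the group of order 168. -/
theorem core {G : Type*} [Group G] [Finite G] [IsSimpleGroup G] (h : Nat.card G = 168)
    (φ : G →* Equiv.Perm (Fin 8)) (hφ : Function.Injective φ)
    (htr : ∀ x y : Fin 8, ∃ g : G, φ g x = y) (s : G) (hs : φ s = sg) :
    jPerm.range ≤ φ.range := by
  classical
  have : Fact (Nat.Prime 7) := ⟨by norm_num⟩
  have : Fact (Nat.Prime 3) := ⟨by norm_num⟩
  obtain ⟨-, -, hn7⟩ := Cfsg.Agent.S1003.result h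
  have hsg7 : sg ^ 7 = 1 := Equiv.ext sg_seven
  have hta3 : ta ^ 3 = 1 := Equiv.ext ta_three
  -- the order of s
  have hs7 : s ^ 7 = 1 := hφ (by rw [map_pow, hs, map_one]; exact hsg7)
  have hs1 : s ≠ 1 := by
    rintro rfl
    rw [map_one] at hs
    exact sg_ne (by rw [← hs]; rfl)
  have hos : orderOf s = 7 := orderOf_eq_prime hs7 hs1
  -- the Sylow 7-subgroup and its normaliser
  have hz : IsPGroup 7 (Subgroup.zpowers s) :=
    IsPGroup.of_card (n := 1) (by rw [Nat.card_zpowers, hos, pow_one])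
  obtain ⟨Q, hQ⟩ := hz.exists_le_sylow
  have hQ7 : Nat.card (Q : Subgroup G) = 7 := by
    have := sylow_card_of 1 24 (by rw [h]; norm_num) (by norm_num) Q
    simpa using this
  have hQeq : Subgroup.zpowers s = (Q : Subgroup G) :=
    Subgroup.eq_of_le_of_card_ge hQ (by rw [hQ7, Nat.card_zpowers, hos])
  have hN21 : Nat.card (Subgroup.normalizer ((Q : Subgroup G) : Set G)) = 21 := by
    have := card_normalizer_mul Q
    rw [hn7, h] at this
    omega
  have hNform : ∀ u ∈ Subgroup.normalizer ((Q : Subgroup G) : Set G),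
      ∃ b : Fin 7, ∃ j : Fin 3, φ u = sg ^ b.val * ta ^ j.val := by
    intro u hu
    have h1 : u * s * u⁻¹ ∈ Subgroup.zpowers s := by
      rw [hQeq]
      exact (Subgroup.mem_normalizer_iff.mp hu s).mp (by rw [← hQeq]; exact Subgroup.mem_zpowers s)
    obtain ⟨k, hk⟩ := (Submonoid.mem_powers_iff _ _).mp ((mem_powers_iff_mem_zpowers).mpr h1)
    apply normal_form (φ u) k
    · have h2 := congrArg φ hk
      rw [map_pow, hs, map_mul, map_mul, hs, map_inv] at h2
      rw [h2]
      group
    · rw [← map_pow]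
      have h3 : u ^ 21 = 1 := by
        have h4 := pow_card_eq_one' (G := Subgroup.normalizer ((Q : Subgroup G) : Set G))
          (x := ⟨u, hu⟩)
        rw [hN21] at h4
        exact congrArg Subtype.val h4
      rw [h3, map_one]
  -- an element acting as the doubling map
  obtain ⟨a, ha⟩ : ∃ a : G, φ a = ta := by
    obtain ⟨u, hu3⟩ := exists_prime_orderOf_dvd_card'
      (G := Subgroup.normalizer ((Q : Subgroup G) : Set G)) 3 (by rw [hN21]; norm_num)
    obtain ⟨b, j, hbj⟩ := hNform u.1 u.2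
    have hu3' : (u : G) ^ 3 = 1 := by
      have h1 := pow_orderOf_eq_one u
      rw [hu3] at h1
      exact congrArg Subtype.val h1
    have hu1 : (u : G) ≠ 1 := by
      intro hh
      have h1 : u = 1 := Subtype.ext hh
      rw [h1, orderOf_one] at hu3
      omega
    have e1 : φ (s ^ (7 - b.val) * u) = ta ^ j.val := by
      rw [map_mul, map_pow, hs, hbj, ← mul_assoc, ← pow_add,
        Nat.sub_add_cancel (by omega : b.val ≤ 7), hsg7, one_mul]
    have hj : ∀ j : Fin 3, j = 0 ∨ j = 1 ∨ j = 2 := by decide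
    rcases hj j with rfl | rfl | rfl
    · exfalso
      have hb0 : b = 0 := cube_sg b (fun x => by
        have h1 := congrArg (fun q : Equiv.Perm (Fin 8) => q x) (congrArg φ hu3')
        rw [map_pow, map_one, hbj] at h1
        simpa using h1)
      apply hu1
      apply hφ
      rw [hbj, hb0, map_one]
      rfl
    · exact ⟨_, e1.trans (pow_one ta)⟩
    · refine ⟨(s ^ (7 - b.val) * u) ^ 2, ?_⟩
      rw [map_pow, e1]
      show (ta ^ 2) ^ 2 = ta
      rw [← pow_mul, show 2 * 2 = 3 + 1 from rfl, pow_add, hta3, one_mul, pow_one]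
  -- point stabilisers have order 21
  let _ : MulAction G (Fin 8) := MulAction.compHom (Fin 8) φ
  have hsmul : ∀ (g : G) (x : Fin 8), g • x = φ g x := fun g x => rfl
  have hstab : ∀ x : Fin 8, Nat.card (MulAction.stabilizer G x) = 21 := by
    intro x
    have horb : MulAction.orbit G x = Set.univ := by
      ext y
      simp only [Set.mem_univ, iff_true]
      obtain ⟨g, hg⟩ := htr x y
      exact ⟨g, hg⟩
    have h1 := (MulAction.stabilizer G x).card_mul_index
    rw [MulAction.index_stabilizer, horb, Set.ncard_univ, Nat.card_eq_fintype_card (α := Fin 8),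
      Fintype.card_fin, h] at h1
    omega
  have hN7 : Subgroup.normalizer ((Q : Subgroup G) : Set G) = MulAction.stabilizer G (7 : Fin 8) := by
    apply Subgroup.eq_of_le_of_card_ge
    · intro u hu
      obtain ⟨b, j, hbj⟩ := hNform u hu
      rw [MulAction.mem_stabilizer_iff, hsmul, hbj]
      exact fix7 b j
    · rw [hstab, hN21]
  have hform70 : ∀ g : G, φ g 7 = 7 → φ g 0 = 0 → ∃ j : Fin 3, φ g = ta ^ j.val := by
    intro g h7 h0
    have hg : g ∈ Subgroup.normalizer ((Q : Subgroup G) : Set G) := by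
      rw [hN7, MulAction.mem_stabilizer_iff, hsmul]
      exact h7
    obtain ⟨b, j, hbj⟩ := hNform g hg
    have hb : b = 0 := fix0 b j (by rw [← hbj]; exact h0)
    subst hb
    exact ⟨j, by rw [hbj]; rfl⟩
  -- an involution interchanging the two special points
  obtain ⟨g, hg⟩ := htr 7 0
  have hy7 : (φ g)⁻¹ 7 ≠ 7 := by
    intro hh
    have h1 := congrArg (φ g) hh
    rw [perm_apply_inv, hg] at h1
    exact absurd h1 (by decide)
  obtain ⟨y, hy⟩ : ∃ y : Fin 8, y = (φ g)⁻¹ 7 := ⟨_, rfl⟩
  rw [← hy] at hy7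
  obtain ⟨t, ht⟩ : ∃ t : G, t = g * s ^ y.val := ⟨_, rfl⟩
  have ht7 : φ t 7 = 0 := by
    rw [ht, map_mul, map_pow, hs, Equiv.Perm.mul_apply,
      Equiv.Perm.pow_apply_eq_self_of_apply_eq_self sg_fix, hg]
  have ht0 : φ t 0 = 7 := by
    rw [ht, map_mul, map_pow, hs, Equiv.Perm.mul_apply, sg_pow_zero y hy7, hy, perm_apply_inv]
  have h2_7 : φ (t * t) 7 = 7 := by rw [map_mul, Equiv.Perm.mul_apply, ht7, ht0]
  have h2_0 : φ (t * t) 0 = 0 := by rw [map_mul, Equiv.Perm.mul_apply, ht0, ht7]
  obtain ⟨j2, hj2⟩ := hform70 (t * t) h2_7 h2_0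
  obtain ⟨t1, ht1⟩ : ∃ t1 : G, t1 = t * t * t := ⟨_, rfl⟩
  have ht1sq : t1 * t1 = 1 := by
    apply hφ
    have e : t1 * t1 = (t * t) * (t * t) * (t * t) := by
      rw [ht1]
      group
    rw [e, map_mul, map_mul, hj2, map_one, ← pow_add, ← pow_add,
      show j2.val + j2.val + j2.val = 3 * j2.val by ring, pow_mul, hta3, one_pow]
  have ht17 : φ t1 7 = 0 := by
    rw [ht1, map_mul, Equiv.Perm.mul_apply, ht7, h2_0]
  have ht10 : φ t1 0 = 7 := by
    rw [ht1, map_mul, Equiv.Perm.mul_apply, ht0, h2_7]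
  have hfpf : ∀ x : Fin 8, φ t1 x ≠ x := by
    intro x hx
    have hmem : t1 ∈ MulAction.stabilizer G x := by
      rw [MulAction.mem_stabilizer_iff, hsmul]
      exact hx
    have h21 : t1 ^ 21 = 1 := by
      have h4 := pow_card_eq_one' (G := MulAction.stabilizer G x) (x := ⟨t1, hmem⟩)
      rw [hstab] at h4
      exact congrArg Subtype.val h4
    have h2 : t1 ^ 2 = 1 := by
      rw [pow_two]
      exact ht1sq
    have e : t1 ^ 21 = t1 := by
      rw [show 21 = 2 * 10 + 1 from rfl, pow_add, pow_mul, h2, one_pow, one_mul, pow_one]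
    rw [e] at h21
    rw [h21, map_one] at ht17
    exact absurd ht17 (by decide)
  have hpp : φ t1 * φ t1 = 1 := by rw [← map_mul, ht1sq, map_one]
  -- the action of the involution on the two-point stabiliser
  have hc7 : φ (t1 * a * t1) 7 = 7 := by
    rw [map_mul, map_mul, Equiv.Perm.mul_apply, Equiv.Perm.mul_apply, ht17, ha,
      show ta 0 = 0 from rfl, ht10]
  have hc0 : φ (t1 * a * t1) 0 = 0 := by
    rw [map_mul, map_mul, Equiv.Perm.mul_apply, Equiv.Perm.mul_apply, ht10, ha,
      show ta 7 = 7 from rfl, ht17]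
  obtain ⟨j3, hj3⟩ := hform70 _ hc7 hc0
  have ha3 : orderOf a = 3 := by
    apply orderOf_eq_prime
    · apply hφ
      rw [map_pow, ha, hta3, map_one]
    · rintro rfl
      rw [map_one] at ha
      exact ta_ne (by rw [← ha]; rfl)
  have hj : ∀ j : Fin 3, j = 0 ∨ j = 1 ∨ j = 2 := by decide
  have hg3 : ∃ g3 : G, φ g3 = t3 := by
    rcases hj j3 with rfl | rfl | rfl
    · exfalso
      have h1 : t1 * a * t1 = 1 := hφ (by rw [hj3, map_one]; rfl)
      have h2 : a = 1 := by
        calc a = t1 * (t1 * a * t1) * t1 := by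
              rw [← mul_assoc, ← mul_assoc, ht1sq, one_mul, mul_assoc, ht1sq, mul_one]
          _ = 1 := by rw [h1, mul_one, ht1sq]
      rw [h2, orderOf_one] at ha3
      omega
    · exfalso
      have h1 : t1 * a * t1 = a := hφ (by rw [hj3, ha]; exact pow_one ta)
      have h2 : a * t1 = t1 * a := by
        calc a * t1 = t1 * a * t1 * t1 := by rw [h1]
          _ = t1 * a := by rw [mul_assoc, ht1sq, mul_one]
      have ht2 : orderOf t1 = 2 := by
        apply orderOf_eq_prime
        · rw [pow_two]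
          exact ht1sq
        · rintro rfl
          rw [map_one] at ht17
          exact absurd ht17 (by decide)
      exact no_comm h a t1 ha3 ht2 h2
    · -- the inverting case
      have hrel : ∀ x : Fin 8, φ t1 (ta x) = (ta ^ 2) (φ t1 x) := by
        intro x
        have h1 : φ t1 * ta * φ t1 = ta ^ 2 := by
          have h0 : φ t1 * φ a * φ t1 = ta ^ 2 := by
            rw [← map_mul, ← map_mul, hj3]
            rfl
          rw [ha] at h0
          exact h0
        have h2 : φ t1 * ta = ta ^ 2 * φ t1 := by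
          calc φ t1 * ta = φ t1 * ta * (φ t1 * φ t1) := by rw [hpp, mul_one]
            _ = (φ t1 * ta * φ t1) * φ t1 := by group
            _ = ta ^ 2 * φ t1 := by rw [h1]
        have h3 := congrArg (fun q : Equiv.Perm (Fin 8) => q x) h2
        simpa only [Equiv.Perm.mul_apply] using h3
      have hta4 : ∀ z : Fin 8, (ta ^ 2) ((ta ^ 2) z) = ta z := by
        intro z
        rw [← Equiv.Perm.mul_apply, ← pow_add, show 2 + 2 = 3 + 1 from rfl, pow_add, hta3,
          one_mul, pow_one]
      have hT : ∀ x : Fin 8, φ t1 x = T (φ t1 1) (φ t1 3) x := by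
        have e2 : φ t1 2 = (ta ^ 2) (φ t1 1) := hrel 1
        have e4 : φ t1 4 = ta (φ t1 1) := by
          have h1 : φ t1 4 = (ta ^ 2) (φ t1 2) := hrel 2
          rw [h1, e2, hta4]
        have e6 : φ t1 6 = (ta ^ 2) (φ t1 3) := hrel 3
        have e5 : φ t1 5 = ta (φ t1 3) := by
          have h1 : φ t1 5 = (ta ^ 2) (φ t1 6) := hrel 6
          rw [h1, e6, hta4]
        intro x
        fin_cases x
        · exact ht10
        · rfl
        · exact e2
        · rfl
        · exact e4
        · exact e5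
        · exact e6
        · exact ht17
      have hinv : ∀ x, T (φ t1 1) (φ t1 3) (T (φ t1 1) (φ t1 3) x) = x := by
        intro x
        rw [← hT, ← hT, ← Equiv.Perm.mul_apply, hpp]
        rfl
      have hfp : ∀ x, T (φ t1 1) (φ t1 3) x ≠ x := by
        intro x
        rw [← hT]
        exact hfpf x
      rcases T_spec _ _ hinv hfp with h3 | h5 | h6
      · exact ⟨t1, Equiv.ext fun x => (hT x).trans (h3 x)⟩
      · refine ⟨a ^ 2 * t1 * a, ?_⟩
        have e : φ t1 = t5 := Equiv.ext fun x => (hT x).trans (h5 x)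
        rw [map_mul, map_mul, map_pow, ha, e]
        exact Equiv.ext t5_conj
      · refine ⟨a * t1 * a ^ 2, ?_⟩
        have e : φ t1 = t6 := Equiv.ext fun x => (hT x).trans (h6 x)
        rw [map_mul, map_mul, map_pow, ha, e]
        exact Equiv.ext t6_conj
  obtain ⟨g3, hg3⟩ := hg3
  exact jPerm_range_le φ.range ⟨s, hs⟩ ⟨a, ha⟩ ⟨g3, hg3⟩

/-- A simple group of order 168 is isomorphic to the projective special linear group of dimension 2 over the field with
7 elements. -/
theorem result {G : Type*} [Group G] [Finite G] [IsSimpleGroup G]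
    (h : Nat.card G = 168) {F : Type*} [Field F] [Fintype F] (hF : Fintype.card F = 7) :
    Nonempty (G ≃* Matrix.ProjectiveSpecialLinearGroup (Fin 2) F) := by
  classical
  obtain ⟨φ, s, hφ, htr, hs⟩ := exists_action h
  have hle := core h φ hφ htr s hs
  obtain ⟨e1⟩ := Cfsg.Agent.Lib.Helper2.Fano7.main7 (F := F) (K := ZMod 2) hF (ZMod.card 2)
  let e2 : Matrix.ProjectiveSpecialLinearGroup (Fin 3) (ZMod 2) ≃*
      Cfsg.Agent.Lib.Helper2.U33Tab.SL32 :=
    (QuotientGroup.quotientMulEquivOfEq Cfsg.Agent.Lib.Helper2.U33Tab.center_SL32).trans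
      QuotientGroup.quotientBot
  have hc1 : Nat.card Cfsg.Agent.Lib.Helper2.U33Tab.SL32 = 168 := by
    rw [← Nat.card_congr (e1.trans e2).toEquiv]
    have hc := Cfsg.Agent.S0243.result (F := F) hF 2 le_rfl
    have h2 : Nat.gcd 2 (7 - 1) = 2 := by decide
    rw [h2, Fin.prod_univ_two] at hc
    norm_num [-Nat.card_eq_fintype_card] at hc
    omega
  have heq : Cfsg.Agent.Lib.Helper2.L27Data.jPerm.range = φ.range := by
    apply Subgroup.eq_of_le_of_card_ge hle
    rw [← Nat.card_congr (MonoidHom.ofInjective hφ).toEquiv,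
      ← Nat.card_congr
        (MonoidHom.ofInjective Cfsg.Agent.Lib.Helper2.L27Data.jPerm_injective).toEquiv, h, hc1]
  exact ⟨(MonoidHom.ofInjective hφ).trans ((MulEquiv.subgroupCongr heq.symm).trans
    ((MonoidHom.ofInjective Cfsg.Agent.Lib.Helper2.L27Data.jPerm_injective).symm.trans
      (e2.symm.trans e1.symm)))⟩

end Cfsg.Agent.S0495
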