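import Cfsg.Statements.S0920
import Cfsg.Agent.Lib.Helper24.Brauer22

set_option autoImplicit false
open Cfsg

namespace Cfsg.Agent.S0920

open Cfsg.Agent.Lib.Helper1 Cfsg.Agent.Lib.Helper6 Cfsg.Agent.Lib.Helper24

theorem result {G : Type*} [Group G] [Finite G] (p : ℕ) [Fact p.Prime] (M : Ideal Cfsg.AlgInt) (hM : Cfsg.IsPModular p M) (D : Subgroup G) (hD : IsPGroup p D) : (∀ b : Set (Cfsg.IrrCharacter (Subgroup.normalizer (D : Set G))), Cfsg.IsPBlock M b → Cfsg.IsDefectGroup p M b (D.subgroupOf (Subgroup.normalizer (D : Set G))) → ∃ B : Set (Cfsg.IrrCharacter G), Cfsg.IsPBlock M B ∧ Cfsg.IsDefectGroup p M B D ∧ Cfsg.IsInducedBlock M (Subgroup.normalizer (D : Set G)) b B) ∧ (∀ B : Set (Cfsg.IrrCharacter G), Cfsg.IsPBlock M B → Cfsg.IsDefectGroup p M B D → ∃! b : Set (Cfsg.IrrCharacter (Subgroup.normalizer (D : Set G))), Cfsg.IsPBlock M b ∧ Cfsg.IsDefectGroup p M b (D.subgroupOf (Subgroup.normalizer (D : Set G))) ∧ Cfsg.IsInducedBlock M (Subgroup.normalizer (D : Set G)) b B)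 := by
  haveI : Fintype G := Fintype.ofFinite G
  have hmap : (D.subgroupOf (Subgroup.normalizer (D : Set G))).map
      (Subgroup.normalizer (D : Set G)).subtype = D :=
    Subgroup.map_subgroupOf_eq_of_le Subgroup.le_normalizer
  have hNH : Subgroup.normalizer (((D.subgroupOf (Subgroup.normalizer (D : Set G))).map
      (Subgroup.normalizer (D : Set G)).subtype : Subgroup G) : Set G)
      ≤ Subgroup.normalizer (D : Set G) := by
    rw [hmap]
  have key := Brauer.first_induced hM (Subgroup.normalizer (D : Set G))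
    (D.subgroupOf (Subgroup.normalizer (D : Set G))) hD.comap_subtype hNH
  rw [hmap] at key
  exact key

end Cfsg.Agent.S0920
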