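import Cfsg.Statements.S4437
import Cfsg.Agent.Lib.Helper24.Brauer23

set_option autoImplicit false
open Cfsg

namespace Cfsg.Agent.S4437

open Cfsg.Agent.Lib.Helper1 Cfsg.Agent.Lib.Helper6 Cfsg.Agent.Lib.Helper24

theorem result {G : Type*} [Group G] [Fintype G] (p : ℕ) [Fact p.Prime] (M : Ideal Cfsg.AlgInt) (hM : Cfsg.IsPModular p M) (P : Subgroup G) (hP : IsPGroup p P) (H : Subgroup G) [Fintype H] (hH : H = P ⊔ Subgroup.centralizer (P : Set G)) (b : Set (Cfsg.IrrCharacter H)) (hb : Cfsg.IsPBlock M b) (hbP : Cfsg.IsDefectGroup p M b (P.subgroupOf H)) (B : Set (Cfsg.IrrCharacter G)) (hind : Cfsg.IsInducedBlock M H b B) (T : Subgroup G) (hT : ∀ g : G, g ∈ T ↔ (g ∈ Subgroup.normalizer (P : Set G) ∧ ∀ θ ∈ b, ∀ θ' : Cfsg.IrrCharacter H, (∀ h h' : H, (h' : G) = g * h * g⁻¹ → (θ' : H → ℂ) h' = (θ : H → ℂ) h) → θ' ∈ b)) : Cfsg.IsDefectGroup p M B P ↔ ¬ p ∣ H.relIndex T := by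
  obtain ⟨P', hP'⟩ : ∃ P' : Subgroup H, P = P'.map H.subtype :=
    ⟨P.subgroupOf H, (Subgroup.map_subgroupOf_eq_of_le (by rw [hH]; exact le_sup_left)).symm⟩
  subst hP'
  have h1 : (P'.map H.subtype).subgroupOf H = P' :=
    Subgroup.comap_map_eq_self_of_injective H.subtype_injective P'
  rw [h1] at hbP
  have hP'p : IsPGroup p P' := by
    have h2 := hP.comap_of_injective H.subtype H.subtype_injective
    rwa [Subgroup.comap_map_eq_self_of_injective H.subtype_injective] at h2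
  exact Brauer.defect_iff_index hM H P' hP'p hH b hb hbP B hind T hT

end Cfsg.Agent.S4437
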