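import Cfsg.Statements.S4637
import Cfsg.Agent.Lib.Helper24.KF6
import Cfsg.Agent.Lib.Helper24.KF1

set_option autoImplicit false
open Cfsg

namespace Cfsg.Agent.S4637

theorem result {G : Type*} [Group G] [Finite G] (M : Ideal Cfsg.AlgInt) (hM : Cfsg.IsPModular 2 M) (B : Set (Cfsg.IrrCharacter G)) (hB : Cfsg.IsPBlock M B) (P : Subgroup G) (hPD : Cfsg.IsDefectGroup 2 M B P) (hV : IsKleinFour P) (c : Set (Cfsg.IrrCharacter (Subgroup.centralizer (P : Set G)))) (hc : Cfsg.IsInducedBlock M (Subgroup.centralizer (P : Set G)) c B) (T : Subgroup G) (hT : ∀ g : G, g ∈ T ↔ (g ∈ Subgroup.normalizer (P : Set G) ∧ Cfsg.StabilizesBlock (Subgroup.centralizer (P : Set G)) c g)) (e : ℕ) (he : (Subgroup.centralizer (P : Set G)).relIndex T = e) : (e = 1 ∨ e = 3) ∧ Nat.card B = 4 ∧ Cfsg.blockRank 2 B = e := by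
  classical
  have hfinG : Fintype G := Fintype.ofFinite G
  have hP4 : Nat.card P = 4 := hV.card_four
  have hPsq : ∀ y ∈ P, y * y = 1 := by
    intro y hy
    have h := @IsKleinFour.mul_self P _ hV ⟨y, hy⟩
    exact congrArg Subtype.val h
  have hPab : ∀ x ∈ P, ∀ y ∈ P, x * y = y * x := by
    intro y hy z hz
    have h1 := hPsq y hy
    have h2 := hPsq z hz
    have h3 := hPsq (y * z) (P.mul_mem hy hz)
    calc y * z = y * (y * z * (y * z)) * z := by rw [h3, mul_one]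
      _ = (y * y) * z * y * (z * z) := by group
      _ = z * y := by rw [h1, h2, one_mul, mul_one]
  have hPp : IsPGroup 2 P := IsPGroup.of_card (n := 2) (by rw [hP4]; norm_num)
  have hpair : IsBrauerPairOf 2 M B P c :=
    (Cfsg.Agent.Lib.Helper24.Brauer.induced_centralizer_iff hM P hPp c B).mp hc
  have hmax := Cfsg.Agent.Lib.Helper24.Brauer.maximal_of_defect hM B P c hpair hPD
  have hodd := Cfsg.Agent.Lib.Helper24.KF.index_odd hM B hB P hPD hPab c hc T hT
  have hTN : T ≤ Subgroup.normalizer (P : Set G) := fun t ht => ((hT t).mp ht).1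
  obtain ⟨X, hX, hXrep⟩ := Cfsg.Agent.Lib.Helper24.KF.exists_reps (G := G) 2
  have hCx : ∀ x : G, Subgroup.centralizer ((Subgroup.zpowers x : Subgroup G) : Set G)
      = Subgroup.centralizer ({x} : Set G) :=
    fun x => (Cfsg.Agent.Lib.Helper24.Brauer.centralizer_singleton_eq x).symm
  have hfinset : ∀ x : G, ∃ I : Finset (Set (IrrCharacter
      (Subgroup.centralizer ((Subgroup.zpowers x : Subgroup G) : Set G)))),
      ∀ b, b ∈ I ↔ IsInducedBlock M
        (Subgroup.centralizer ((Subgroup.zpowers x : Subgroup G) : Set G)) b B := by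
    intro x
    have hfinIrr : Fintype (IrrCharacter
        (Subgroup.centralizer ((Subgroup.zpowers x : Subgroup G) : Set G))) :=
      Cfsg.Agent.Lib.Helper1.irrFintype
    exact ⟨(Set.toFinite {b : Set (IrrCharacter
      (Subgroup.centralizer ((Subgroup.zpowers x : Subgroup G) : Set G))) |
        IsInducedBlock M (Subgroup.centralizer ((Subgroup.zpowers x : Subgroup G) : Set G))
          b B}).toFinset, fun b => by rw [Set.Finite.mem_toFinset]; rfl⟩
  choose Ind hInd using hfinset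
  obtain ⟨J, hJdef⟩ : ∃ J : Finset (Σ x : G, Set (IrrCharacter
      (Subgroup.centralizer ((Subgroup.zpowers x : Subgroup G) : Set G)))),
      J = (X.erase 1).sigma Ind := ⟨_, rfl⟩
  have hJ : ∀ j, j ∈ J ↔ (j.1 ∈ X ∧ j.1 ≠ 1 ∧ IsInducedBlock M
      (Subgroup.centralizer ((Subgroup.zpowers j.1 : Subgroup G) : Set G)) j.2 B) := by
    intro j
    rw [hJdef, Finset.mem_sigma, Finset.mem_erase, hInd]
    tauto
  have hgoodall : ∀ x ∈ X, x ≠ 1 → ∀ b ∈ Ind x, x * x = 1 ∧ blockRank 2 b = 1 ∧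
      ∃ D : Subgroup (Subgroup.centralizer ((Subgroup.zpowers x : Subgroup G) : Set G)),
        IsDefectGroup 2 M b D ∧ Nat.card D = 4 := by
    intro x hxX hx1 b hb
    exact Cfsg.Agent.Lib.Helper24.KF.good hM B P c hmax hP4 hPsq x hx1 (hX x hxX) b
      ((hInd x b).mp hb)
  have hex : ∀ j : (Σ x : G, Set (IrrCharacter
      (Subgroup.centralizer ((Subgroup.zpowers x : Subgroup G) : Set G)))),
      ∃ d : IrrCharacter G → ℤ, j ∈ J →
        ∃ φ : Subgroup.centralizer ((Subgroup.zpowers j.1 : Subgroup G) : Set G) → ℂ,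
          Cfsg.Agent.Lib.Helper24.KF.SubData B j.1
            (Subgroup.centralizer ((Subgroup.zpowers j.1 : Subgroup G) : Set G)) j.2 d φ := by
    intro j
    by_cases hj : j ∈ J
    · obtain ⟨hjX, hj1, hjb⟩ := (hJ j).mp hj
      obtain ⟨hxx, hrk, D, hD, hD4⟩ := hgoodall j.1 hjX hj1 j.2 ((hInd j.1 j.2).mpr hjb)
      have hfinC : Fintype (Subgroup.centralizer
          ((Subgroup.zpowers j.1 : Subgroup G) : Set G)) := Fintype.ofFinite _
      obtain ⟨d, φ, hdφ⟩ := Cfsg.Agent.Lib.Helper24.KF.sub_num hM B j.1 hxx _ (hCx j.1) j.2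
        hjb hrk D hD hD4
      exact ⟨d, fun _ => ⟨φ, hdφ⟩⟩
    · exact ⟨fun _ => 0, fun h => absurd h hj⟩
  choose V hV' using hex
  have hgood : ∀ x ∈ X, x ≠ 1 → ∀ b ∈ Ind x, x * x = 1 ∧
      ∃ φ : Subgroup.centralizer ((Subgroup.zpowers x : Subgroup G) : Set G) → ℂ,
        Cfsg.Agent.Lib.Helper24.KF.SubData B x
          (Subgroup.centralizer ((Subgroup.zpowers x : Subgroup G) : Set G)) b
          (V ⟨x, b⟩) φ := by
    intro x hxX hx1 b hb
    exact ⟨(hgoodall x hxX hx1 b hb).1,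
      hV' ⟨x, b⟩ ((hJ _).mpr ⟨hxX, hx1, (hInd x b).mp hb⟩)⟩
  have hdef : blockDefect 2 B = 2 := by
    have h1 := Cfsg.Agent.Lib.Helper24.DefectGroup.card_defectGroup hM B hB P hPD
    rw [hP4] at h1
    exact Nat.pow_right_injective (le_refl 2)
      (h1.symm.trans (by norm_num) : 2 ^ blockDefect 2 B = 2 ^ 2)
  have hrel : ∀ χ ∈ B, ∀ ψ ∈ B,
      (2 : ℤ) ^ (Nat.card G).factorization 2 * ∑ j ∈ J, V j χ * V j ψ
        = 4 * ((if χ = ψ then (2 : ℤ) ^ (Nat.card G).factorization 2 else 0)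
          - Cfsg.Agent.Lib.Helper6.regCoef 2 χ ψ) := by
    intro χ hχ ψ hψ
    rw [hJdef]
    exact Cfsg.Agent.Lib.Helper24.KF.total_id hM B hB X hX hXrep
      (fun x => Subgroup.centralizer ((Subgroup.zpowers x : Subgroup G) : Set G)) hCx Ind hInd
      V hgood χ ψ hχ hψ
  have hcol : ∀ j ∈ J, ∑ᶠ χ ∈ B, ((V j χ : ℤ) : ℂ) ^ 2 = 4 := by
    intro j hj
    obtain ⟨φ, hφ⟩ := hV' j hj
    exact hφ.2.1
  have hrank : Nat.card B = blockRank 2 B + J.card := by
    rw [hJdef]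
    exact Cfsg.Agent.Lib.Helper24.KF.card_eq_rank_add hM B hB X hX hXrep
      (fun x => Subgroup.centralizer ((Subgroup.zpowers x : Subgroup G) : Set G)) hCx Ind hInd
      (fun x hxX hx1 b hb => (hgoodall x hxX hx1 b hb).2.1)
  rcases Cfsg.Agent.Lib.Helper24.KF.inertial P T hP4 hTN hodd with ⟨h1, hTC⟩ | ⟨h3, htr⟩
  · have hJ3 : J.card = 3 := Cfsg.Agent.Lib.Helper24.KF.count_one hM B P c hmax hP4 hPab X hX
      hXrep J hJ (fun t htN htst => hTC ((hT t).mpr ⟨htN, htst⟩))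
    have hB4 : Nat.card B = 4 := Cfsg.Agent.Lib.Helper24.KF.core hM B hB hdef J
      (Finset.card_pos.mp (by rw [hJ3]; norm_num)) (by rw [hJ3]) V hcol hrel
      (fun χ _ => Cfsg.Agent.Lib.Helper24.KF.regCoef_pos χ)
    rw [← he, h1]
    refine ⟨Or.inl rfl, hB4, ?_⟩
    rw [hB4, hJ3] at hrank
    omega
  · have hJ1 : J.card = 1 := Cfsg.Agent.Lib.Helper24.KF.count_three hM B P c hmax hP4 X hX
      hXrep J hJ (fun u hu hu1 u' hu' hu1' => by
        obtain ⟨t, htT, htu⟩ := htr u hu hu1 u' hu' hu1'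
        exact ⟨t, ((hT t).mp htT).1, ((hT t).mp htT).2, htu⟩)
    have hB4 : Nat.card B = 4 := Cfsg.Agent.Lib.Helper24.KF.core hM B hB hdef J
      (Finset.card_pos.mp (by rw [hJ1]; norm_num)) (by rw [hJ1]; norm_num) V hcol hrel
      (fun χ _ => Cfsg.Agent.Lib.Helper24.KF.regCoef_pos χ)
    rw [← he, h3]
    refine ⟨Or.inr rfl, hB4, ?_⟩
    rw [hB4, hJ1] at hrank
    omega

end Cfsg.Agent.S4637
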