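import Cfsg.Statements.S2119
import Mathlib

set_option autoImplicit false
open Cfsg

namespace Cfsg.Agent.S2119

open Equiv Equiv.Perm

section basics
variable {α : Type*} [DecidableEq α] [Fintype α]

/-- the 3-cycle `a → b → c → a` -/
def cyc (a b c : α) : Perm α := swap a c * swap a b

lemma cyc_fst {a b c : α} (hab : a ≠ b) (hbc : b ≠ c) : cyc a b c a = b := by
  simp [cyc, swap_apply_of_ne_of_ne hab.symm hbc]

lemma cyc_snd {a b c : α} : cyc a b c b = c := by
  simp [cyc]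

lemma cyc_thd {a b c : α} (hac : a ≠ c) (hbc : b ≠ c) : cyc a b c c = a := by
  simp [cyc, swap_apply_of_ne_of_ne hac.symm hbc.symm]

lemma cyc_other {a b c x : α} (ha : x ≠ a) (hb : x ≠ b) (hc : x ≠ c) : cyc a b c x = x := by
  simp [cyc, swap_apply_of_ne_of_ne ha hb, swap_apply_of_ne_of_ne ha hc]

lemma cyc_inv (a b c : α) : (cyc a b c)⁻¹ = cyc a c b := by
  simp [cyc, mul_inv_rev]

lemma cyc_three {a b c : α} (hab : a ≠ b) (hbc : b ≠ c) (hac : a ≠ c) : (cyc a b c).IsThreeCycle :=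
  isThreeCycle_swap_mul_swap_same hac hab hbc.symm

lemma cyc_conj (σ : Perm α) (a b c : α) : σ * cyc a b c * σ⁻¹ = cyc (σ a) (σ b) (σ c) := by
  unfold cyc
  rw [Equiv.swap_apply_apply, Equiv.swap_apply_apply]
  group

lemma three_cycle_eq_cyc {t : Perm α} (ht : t.IsThreeCycle) {q : α} (hq : t q ≠ q) :
    q ≠ t q ∧ t q ≠ t (t q) ∧ q ≠ t (t q) ∧ t (t (t q)) = q ∧ t = cyc q (t q) (t (t q)) := by
  have h3 : t ^ 3 = 1 := by rw [← ht.orderOf]; exact pow_orderOf_eq_one t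
  have e3 : t (t (t q)) = q := by
    have h := congrArg (fun f : Perm α => f q) h3
    have e : t ^ 3 = t * t * t := by rw [pow_succ, pow_succ, pow_one]
    rw [e] at h
    simpa [mul_apply] using h
  have h1 : q ≠ t q := fun h => hq h.symm
  have h2 : t q ≠ t (t q) := fun h => h1 (t.injective h)
  have h3' : q ≠ t (t q) := by
    intro h
    apply hq
    have h' : t q = t (t (t q)) := congrArg t h
    rw [e3] at h'; exact h'
  refine ⟨h1, h2, h3', e3, ?_⟩
  have hs : ({q, t q, t (t q)} : Finset α) = t.support := by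
    apply Finset.eq_of_subset_of_card_le
    · intro x hx
      simp only [Finset.mem_insert, Finset.mem_singleton] at hx
      rw [mem_support]
      rcases hx with rfl | rfl | rfl
      · exact hq
      · exact fun h => h2 h.symm
      · rw [e3]; exact fun h => h3' h
    · rw [ht.card_support, Finset.card_insert_of_notMem, Finset.card_insert_of_notMem,
        Finset.card_singleton]
      · simpa using h2
      · simp only [Finset.mem_insert, Finset.mem_singleton, not_or]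
        exact ⟨h1, h3'⟩
  ext x
  by_cases hx : x ∈ t.support
  · rw [← hs] at hx
    simp only [Finset.mem_insert, Finset.mem_singleton] at hx
    rcases hx with rfl | rfl | rfl
    · rw [cyc_fst h1 h2]
    · rw [cyc_snd]
    · rw [cyc_thd h3' h2, e3]
  · have hx' : x ∉ ({q, t q, t (t q)} : Finset α) := by rw [hs]; exact hx
    simp only [Finset.mem_insert, Finset.mem_singleton, not_or] at hx'
    rw [notMem_support.mp hx, cyc_other hx'.1 hx'.2.1 hx'.2.2]

lemma three_cycle_moved {t : Perm α} (ht : t.IsThreeCycle) {q y : α} (hq : t q ≠ q)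
    (hy : t y ≠ y) : y = q ∨ y = t q ∨ y = t (t q) := by
  obtain ⟨-, -, -, -, e⟩ := three_cycle_eq_cyc ht hq
  by_contra hcon
  push Not at hcon
  apply hy
  rw [e]
  have := cyc_other hcon.1 hcon.2.1 hcon.2.2
  rw [← e] at this ⊢
  exact this

lemma small_even {σ : Perm α} (hs : Perm.sign σ = 1) (hc : σ.support.card ≤ 5) : σ ^ 30 = 1 := by
  rw [← orderOf_dvd_iff_pow_eq_one, ← lcm_cycleType]
  apply Multiset.lcm_dvd.mpr
  intro k hk
  have h2 : 2 ≤ k := two_le_of_mem_cycleType hk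
  have hsum : σ.cycleType.sum ≤ 5 := by rw [sum_cycleType]; exact hc
  have hk5 : k ≤ 5 := le_trans (Multiset.le_sum_of_mem hk) hsum
  have hk4 : k ≠ 4 := by
    rintro rfl
    obtain ⟨m, hm⟩ := Multiset.exists_cons_of_mem hk
    have hm0 : m = 0 := by
      by_contra hne
      obtain ⟨j, hj⟩ := Multiset.exists_mem_of_ne_zero hne
      have hj2 : 2 ≤ j := two_le_of_mem_cycleType (by rw [hm]; exact Multiset.mem_cons_of_mem hj)
      have : j ≤ m.sum := Multiset.le_sum_of_mem hj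
      rw [hm, Multiset.sum_cons] at hsum
      omega
    rw [sign_of_cycleType, hm, hm0] at hs
    revert hs
    simp
    decide
  interval_cases k
  · decide
  · decide
  · exact absurd rfl hk4
  · decide

lemma pow30 {c d : Perm α} (hc : c.IsThreeCycle) (hd : d.IsThreeCycle) : (c * d) ^ 30 = 1 := by
  have hc3 : c ^ 3 = 1 := by rw [← hc.orderOf]; exact pow_orderOf_eq_one c
  have hd3 : d ^ 3 = 1 := by rw [← hd.orderOf]; exact pow_orderOf_eq_one d
  by_cases hdis : Disjoint c d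
  · rw [hdis.commute.mul_pow]
    have e1 : c ^ 30 = 1 := by rw [show 30 = 3 * 10 by norm_num, pow_mul, hc3, one_pow]
    have e2 : d ^ 30 = 1 := by rw [show 30 = 3 * 10 by norm_num, pow_mul, hd3, one_pow]
    rw [e1, e2, one_mul]
  · apply small_even
    · rw [map_mul, hc.sign, hd.sign, one_mul]
    · rw [disjoint_iff_disjoint_support, Finset.not_disjoint_iff] at hdis
      obtain ⟨x, hx1, hx2⟩ := hdis
      have h1 : (c * d).support.card ≤ (c.support ∪ d.support).card :=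
        Finset.card_le_card (support_mul_le c d)
      have h2 := Finset.card_union_add_card_inter c.support d.support
      have h3 : 1 ≤ (c.support ∩ d.support).card :=
        Finset.card_pos.mpr ⟨x, Finset.mem_inter.mpr ⟨hx1, hx2⟩⟩
      rw [hc.card_support, hd.card_support] at h2
      omega

lemma small_invol {σ : Perm α} (h2 : σ ^ 2 = 1) (h1 : σ ≠ 1) (hs : Perm.sign σ = 1) :
    4 ≤ σ.support.card := by
  haveI : Fact (Nat.Prime 2) := ⟨Nat.prime_two⟩
  have ho : orderOf σ = 2 := orderOf_eq_prime h2 h1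
  obtain ⟨k, hk⟩ := cycleType_prime_order (σ := σ) (by rw [ho]; exact Nat.prime_two)
  rw [ho] at hk
  rw [sign_of_cycleType, hk, Multiset.sum_replicate, Multiset.card_replicate] at hs
  have hev : Even ((k + 1) • 2 + (k + 1)) := by
    rw [← neg_one_pow_eq_one_iff_even (R := ℤˣ) (by decide)]
    exact hs
  rw [← sum_cycleType, hk, Multiset.sum_replicate]
  have : 1 ≤ k := by
    rcases Nat.eq_zero_or_pos k with rfl | h
    · exfalso; revert hev; decide
    · exact h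
  simp only [smul_eq_mul]
  omega

/-- the edge lemma -/
lemma edge {t t' : Perm α} (ht : t.IsThreeCycle) (ht' : t'.IsThreeCycle)
    (h2 : (t * t') ^ 2 = 1) (h1 : t * t' ≠ 1) : ∃ q r, q ≠ r ∧ t q = r ∧ t' q = r := by
  have hs : Perm.sign (t * t') = 1 := by rw [map_mul, ht.sign, ht'.sign, one_mul]
  have h4 := small_invol h2 h1 hs
  have hnot : ¬ t'.support ⊆ t.support := by
    intro hsub
    have h5 : (t * t').support.card ≤ t.support.card := by
      apply Finset.card_le_card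
      refine (support_mul_le t t').trans ?_
      exact Finset.union_subset (Finset.Subset.refl _) hsub
    rw [ht.card_support] at h5
    omega
  rw [Finset.not_subset] at hnot
  obtain ⟨p, hp', hp⟩ := hnot
  rw [mem_support] at hp'
  rw [notMem_support] at hp
  obtain ⟨e1, e2, e3, e4, -⟩ := three_cycle_eq_cyc ht' hp'
  refine ⟨t' p, t' (t' p), e2, ?_, rfl⟩
  have h := congrArg (fun f : Perm α => f p) h2
  have e : (t * t') ^ 2 = t * t' * t * t' := by rw [pow_two, mul_assoc, mul_assoc, mul_assoc]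
  rw [e] at h
  simp only [mul_apply, one_apply] at h
  -- h : t (t' (t (t' p))) = p
  have h' : t' (t (t' p)) = p := by
    apply t.injective
    rw [h, hp]
  apply t'.injective
  rw [h', e4]

end basics
section partA
variable {α : Type*} [DecidableEq α] [Fintype α]

lemma dsw_1 {a b c d : α} (hac : a ≠ c) (had : a ≠ d) : (swap a b * swap c d) a = b := by
  simp [swap_apply_of_ne_of_ne hac had]

lemma dsw_2 {a b c d : α} (hbc : b ≠ c) (hbd : b ≠ d) : (swap a b * swap c d) b = a := by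
  simp [swap_apply_of_ne_of_ne hbc hbd]

lemma dsw_3 {a b c d : α} (hda : d ≠ a) (hdb : d ≠ b) : (swap a b * swap c d) c = d := by
  simp [swap_apply_of_ne_of_ne hda hdb]

lemma dsw_4 {a b c d : α} (hca : c ≠ a) (hcb : c ≠ b) : (swap a b * swap c d) d = c := by
  simp [swap_apply_of_ne_of_ne hca hcb]

lemma dsw_5 {a b c d w : α} (ha : w ≠ a) (hb : w ≠ b) (hc : w ≠ c) (hd : w ≠ d) :
    (swap a b * swap c d) w = w := by
  simp [swap_apply_of_ne_of_ne ha hb, swap_apply_of_ne_of_ne hc hd]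

lemma key_aux {x : Perm α} {a0 a1 a2 a3 a4 a5 : α}
    (E0 : x a0 = a1) (E1 : x a1 = a2) (E2 : x a2 = a0)
    (E3 : x a3 = a4) (E4 : x a4 = a5) (E5 : x a5 = a3)
    (h01 : a0 ≠ a1) (h12 : a1 ≠ a2) (h02 : a0 ≠ a2)
    (h34 : a3 ≠ a4) (h45 : a4 ≠ a5) (h35 : a3 ≠ a5)
    (h03 : a0 ≠ a3) (h13 : a1 ≠ a3) (h23 : a2 ≠ a3)
    (hcard : Fintype.card α ≠ 6) (x3 : ∀ w, x (x (x w)) = w)
    (H : ∀ g : Perm α, Perm.sign g = 1 → (x * (g * x * g⁻¹)) ^ 30 = 1) : False := by
  have h04 : a0 ≠ a4 := fun h => h23 (x.injective (by rw [E2, E3, h]))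
  have h14 : a1 ≠ a4 := fun h => h03 (x.injective (by rw [E0, E3, h]))
  have h24 : a2 ≠ a4 := fun h => h13 (x.injective (by rw [E1, E3, h]))
  have h05 : a0 ≠ a5 := fun h => h24 (x.injective (by rw [E2, E4, h]))
  have h15 : a1 ≠ a5 := fun h => h04 (x.injective (by rw [E0, E4, h]))
  have h25 : a2 ≠ a5 := fun h => h14 (x.injective (by rw [E1, E4, h]))
  have hS : ({a0, a1, a2, a3, a4, a5} : Finset α).card = 6 := by
    rw [Finset.card_insert_of_notMem, Finset.card_insert_of_notMem, Finset.card_insert_of_notMem,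
      Finset.card_insert_of_notMem, Finset.card_insert_of_notMem, Finset.card_singleton]
    all_goals simp only [Finset.mem_insert, Finset.mem_singleton, not_or]
    all_goals first
      | exact h45
      | exact ⟨h34, h35⟩
      | exact ⟨h23, h24, h25⟩
      | exact ⟨h12, h13, h14, h15⟩
      | exact ⟨h01, h02, h03, h04, h05⟩
  have hlt : ({a0, a1, a2, a3, a4, a5} : Finset α).card < (Finset.univ : Finset α).card := by
    have := Finset.card_le_univ ({a0, a1, a2, a3, a4, a5} : Finset α)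
    rw [Finset.card_univ]
    omega
  obtain ⟨a6, -, ha6⟩ := Finset.exists_mem_notMem_of_card_lt_card hlt
  simp only [Finset.mem_insert, Finset.mem_singleton, not_or] at ha6
  obtain ⟨h60, h61, h62, h63, h64, h65⟩ := ha6
  set g : Perm α := swap a0 a3 * swap a1 a6 with hg
  set gi : Perm α := swap a1 a6 * swap a0 a3 with hgi
  have hginv : g⁻¹ = gi := by simp [hg, hgi, mul_inv_rev]
  have hsg : Perm.sign g = 1 := by
    rw [hg, map_mul, sign_swap h03, sign_swap (Ne.symm h61)]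
    decide
  have hz30 := H g hsg
  set z : Perm α := x * (g * x * g⁻¹) with hz
  have hzw : ∀ w, z w = x (g (x (gi w))) := by
    intro w; rw [hz, hginv]; rfl
  -- values of g
  have g0 : g a0 = a3 := dsw_1 h01 (Ne.symm h60)
  have g3 : g a3 = a0 := dsw_2 (Ne.symm h13) (Ne.symm h63)
  have g1 : g a1 = a6 := dsw_3 h60 h63
  have g6 : g a6 = a1 := dsw_4 (Ne.symm h01) h13
  have gfix : ∀ w, w ≠ a0 → w ≠ a1 → w ≠ a3 → w ≠ a6 → g w = w :=
    fun w w0 w1 w3 w6 => dsw_5 w0 w3 w1 w6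
  have gi1 : gi a1 = a6 := dsw_1 (Ne.symm h01) h13
  have gi6 : gi a6 = a1 := dsw_2 h60 h63
  have gi0 : gi a0 = a3 := dsw_3 (Ne.symm h13) (Ne.symm h63)
  have gi3 : gi a3 = a0 := dsw_4 h01 (Ne.symm h60)
  have gifix : ∀ w, w ≠ a0 → w ≠ a1 → w ≠ a3 → w ≠ a6 → gi w = w :=
    fun w w0 w1 w3 w6 => dsw_5 w1 w6 w0 w3
  have g2 : g a2 = a2 := gfix a2 (Ne.symm h02) (Ne.symm h12) h23 (Ne.symm h62)
  have g4 : g a4 = a4 := gfix a4 (Ne.symm h04) (Ne.symm h14) (Ne.symm h34) (Ne.symm h64)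
  have g5 : g a5 = a5 := gfix a5 (Ne.symm h05) (Ne.symm h15) (Ne.symm h35) (Ne.symm h65)
  have gi2 : gi a2 = a2 := gifix a2 (Ne.symm h02) (Ne.symm h12) h23 (Ne.symm h62)
  have gi4 : gi a4 = a4 := gifix a4 (Ne.symm h04) (Ne.symm h14) (Ne.symm h34) (Ne.symm h64)
  have gi5 : gi a5 = a5 := gifix a5 (Ne.symm h05) (Ne.symm h15) (Ne.symm h35) (Ne.symm h65)
  have z6 : z a6 = a0 := by rw [hzw, gi6, E1, g2, E2]
  have z0 : z a0 = a5 := by rw [hzw, gi0, E3, g4, E4]
  have z5 : z a5 = a1 := by rw [hzw, gi5, E5, g3, E0]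
  have z2 : z a2 = a4 := by rw [hzw, gi2, E2, g0, E3]
  have z4 : z a4 = a3 := by rw [hzw, gi4, E4, g5, E5]
  have h30 : (z ^ 30) a6 = a6 := by rw [hz30]; rfl
  by_cases hx6 : x a6 = a6
  · have z1 : z a1 = a2 := by rw [hzw, gi1, hx6, g6, E1]
    have z3 : z a3 = a6 := by rw [hzw, gi3, E0, g1, hx6]
    have h7 : (z ^ 7) a6 = a6 := by
      have e : z ^ 7 = z * z * z * z * z * z * z := by
        rw [pow_succ, pow_succ, pow_succ, pow_succ, pow_succ, pow_succ, pow_one]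
      rw [e]
      simp only [mul_apply]
      rw [z6, z0, z5, z1, z2, z4, z3]
    have e30 : z ^ 30 = z * z * (z ^ 7) ^ 4 := by
      rw [← pow_mul, ← pow_two, ← pow_add]
    rw [e30] at h30
    simp only [mul_apply] at h30
    rw [pow_apply_eq_self_of_apply_eq_self h7, z6, z0] at h30
    exact h65 h30.symm
  · obtain ⟨u, hu⟩ : ∃ u, x a6 = u := ⟨_, rfl⟩
    obtain ⟨v, hv⟩ : ∃ v, x u = v := ⟨_, rfl⟩
    have xv : x v = a6 := by rw [← hv, ← hu]; exact x3 a6
    have hu6 : u ≠ a6 := fun h => hx6 (by rw [hu, h])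
    have hu0 : u ≠ a0 := fun h => h62 (x.injective (by rw [hu, E2, h]))
    have hu1 : u ≠ a1 := fun h => h60 (x.injective (by rw [hu, E0, h]))
    have hu3 : u ≠ a3 := fun h => h65 (x.injective (by rw [hu, E5, h]))
    have hv6 : v ≠ a6 := by
      intro h
      apply hu6
      rw [← hu, ← h, xv, h]
    have hu2 : u ≠ a2 := fun h => h61 (x.injective (by rw [hu, E1, h]))
    have hu5 : u ≠ a5 := fun h => h64 (x.injective (by rw [hu, E4, h]))
    have hv0 : v ≠ a0 := fun h => hu2 (x.injective (by rw [hv, E2, h]))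
    have hv1 : v ≠ a1 := fun h => hu0 (x.injective (by rw [hv, E0, h]))
    have hv3 : v ≠ a3 := fun h => hu5 (x.injective (by rw [hv, E5, h]))
    have gu : g u = u := gfix u hu0 hu1 hu3 hu6
    have gv : g v = v := gfix v hv0 hv1 hv3 hv6
    have giu : gi u = u := gifix u hu0 hu1 hu3 hu6
    have giv : gi v = v := gifix v hv0 hv1 hv3 hv6
    have z3 : z a3 = u := by rw [hzw, gi3, E0, g1, hu]
    have zu : z u = a6 := by rw [hzw, giu, hv, gv, xv]
    have z1 : z a1 = v := by rw [hzw, gi1, hu, gu, hv]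
    have zv : z v = a2 := by rw [hzw, giv, xv, g6, E1]
    have h9 : (z ^ 9) a6 = a6 := by
      have e : z ^ 9 = z * z * z * z * z * z * z * z * z := by
        rw [pow_succ, pow_succ, pow_succ, pow_succ, pow_succ, pow_succ, pow_succ, pow_succ, pow_one]
      rw [e]
      simp only [mul_apply]
      rw [z6, z0, z5, z1, zv, z2, z4, z3, zu]
    have e30 : z ^ 30 = z * z * z * (z ^ 9) ^ 3 := by
      rw [← pow_mul, ← pow_two, ← pow_succ, ← pow_add]
    rw [e30] at h30
    simp only [mul_apply] at h30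
    rw [pow_apply_eq_self_of_apply_eq_self h9, z6, z0, z5] at h30
    exact h61 h30.symm

lemma key_x {x : Perm α} (hcard : Fintype.card α ≠ 6) (hx3 : x ^ 3 = 1) (hx1 : x ≠ 1)
    (H : ∀ g : Perm α, Perm.sign g = 1 → (x * (g * x * g⁻¹)) ^ 30 = 1) : x.IsThreeCycle := by
  have x3 : ∀ w, x (x (x w)) = w := by
    intro w
    have h := congrArg (fun f : Perm α => f w) hx3
    have e : x ^ 3 = x * x * x := by rw [pow_succ, pow_succ, pow_one]
    rw [e] at h
    simpa [mul_apply] using h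
  have orb : ∀ w, x w ≠ w → w ≠ x w ∧ x w ≠ x (x w) ∧ w ≠ x (x w) := by
    intro w hw
    refine ⟨fun h => hw h.symm, fun h => hw (x.injective h).symm, fun h => hw ?_⟩
    have h' := congrArg x h
    rw [x3] at h'
    exact h'
  obtain ⟨a0, ha0⟩ : ∃ a, x a ≠ a := by
    by_contra hcon
    push Not at hcon
    exact hx1 (Perm.ext hcon)
  obtain ⟨h01, h12, h02⟩ := orb a0 ha0
  by_contra hnot
  have hex : ∃ a3, x a3 ≠ a3 ∧ a3 ≠ a0 ∧ a3 ≠ x a0 ∧ a3 ≠ x (x a0) := by
    by_contra hcon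
    push Not at hcon
    apply hnot
    rw [← card_support_eq_three_iff]
    have hs : x.support = {a0, x a0, x (x a0)} := by
      ext y
      simp only [mem_support, Finset.mem_insert, Finset.mem_singleton]
      constructor
      · intro hy
        by_contra hc2
        push Not at hc2
        exact hc2.2.2 (hcon y hy hc2.1 hc2.2.1)
      · rintro (rfl | rfl | rfl)
        · exact ha0
        · exact fun h => h12 h.symm
        · rw [x3]; exact fun h => h02 h
    rw [hs, Finset.card_insert_of_notMem, Finset.card_insert_of_notMem, Finset.card_singleton]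
    · simpa using h12
    · simp only [Finset.mem_insert, Finset.mem_singleton, not_or]; exact ⟨h01, h02⟩
  obtain ⟨a3, ha3, h30, h31, h32⟩ := hex
  obtain ⟨h34, h45, h35⟩ := orb a3 ha3
  exact key_aux (x := x) rfl rfl (x3 a0) rfl rfl (x3 a3) h01 h12 h02 h34 h45 h35
    (Ne.symm h30) (Ne.symm h31) (Ne.symm h32) hcard x3 H

end partA
section family
variable {α : Type*} [DecidableEq α] [Fintype α]

lemma cyc_moved {a b c y : α} (hy : cyc a b c y ≠ y) : y = a ∨ y = b ∨ y = c := by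
  by_contra hcon
  push Not at hcon
  exact hy (cyc_other hcon.1 hcon.2.1 hcon.2.2)

lemma family {o₀ o₁ i₂ i₃ : α} (h01 : o₀ ≠ o₁) (h20 : i₂ ≠ o₀) (h21 : i₂ ≠ o₁)
    (h30 : i₃ ≠ o₀) (h31 : i₃ ≠ o₁) (h23 : i₂ ≠ i₃) (T : α → Perm α)
    (hT3 : ∀ i, i ≠ o₀ → i ≠ o₁ → (T i).IsThreeCycle)
    (hT2 : ∀ i j, i ≠ o₀ → i ≠ o₁ → j ≠ o₀ → j ≠ o₁ → i ≠ j →
      (T i * T j) ^ 2 = 1 ∧ T i * T j ≠ 1) :
    ∃ σ : Perm α, ∀ i, i ≠ o₀ → i ≠ o₁ → σ * cyc o₀ o₁ i * σ⁻¹ = T i := by
  have hinj : ∀ i j, i ≠ o₀ → i ≠ o₁ → j ≠ o₀ → j ≠ o₁ → i ≠ j → T i ≠ T j := by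
    intro i j hi0 hi1 hj0 hj1 hij heq
    obtain ⟨h2, h1⟩ := hT2 i j hi0 hi1 hj0 hj1 hij
    rw [← heq] at h2 h1
    have h3 : (T i) ^ 3 = 1 := by rw [← (hT3 i hi0 hi1).orderOf]; exact pow_orderOf_eq_one _
    have h4 : T i = 1 := by
      have e : (T i * T i) ^ 2 = (T i) ^ 3 * T i := by
        rw [← pow_two, ← pow_mul, ← pow_succ]
      rw [e, h3, one_mul] at h2
      exact h2
    exact h1 (by rw [h4, one_mul])
  obtain ⟨a, b, hab, ha2, ha3⟩ := edge (hT3 i₂ h20 h21) (hT3 i₃ h30 h31)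
    (hT2 i₂ i₃ h20 h21 h30 h31 h23).1 (hT2 i₂ i₃ h20 h21 h30 h31 h23).2
  have hm2 : T i₂ a ≠ a := by rw [ha2]; exact hab.symm
  have hm3 : T i₃ a ≠ a := by rw [ha3]; exact hab.symm
  obtain ⟨-, p2, p3, p4, p5⟩ := three_cycle_eq_cyc (hT3 i₂ h20 h21) hm2
  obtain ⟨-, q2, q3, q4, q5⟩ := three_cycle_eq_cyc (hT3 i₃ h30 h31) hm3
  rw [ha2] at p2 p3 p4 p5
  rw [ha3] at q2 q3 q4 q5
  obtain ⟨e₂, he₂⟩ : ∃ e, T i₂ b = e := ⟨_, rfl⟩
  obtain ⟨e₃, he₃⟩ : ∃ e, T i₃ b = e := ⟨_, rfl⟩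
  rw [he₂] at p2 p3 p4 p5
  rw [he₃] at q2 q3 q4 q5
  have he23 : e₂ ≠ e₃ := by
    intro h
    apply hinj i₂ i₃ h20 h21 h30 h31 h23
    rw [p5, q5, h]
  have claim : ∀ i, i ≠ o₀ → i ≠ o₁ → T i a = b := by
    intro i hi0 hi1
    by_cases hi2 : i = i₂
    · rw [hi2]; exact ha2
    by_cases hi3 : i = i₃
    · rw [hi3]; exact ha3
    obtain ⟨q, r, hqr, hq1, hq2⟩ := edge (hT3 i hi0 hi1) (hT3 i₂ h20 h21)
      (hT2 i i₂ hi0 hi1 h20 h21 hi2).1 (hT2 i i₂ hi0 hi1 h20 h21 hi2).2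
    obtain ⟨q', r', hqr', hq1', hq2'⟩ := edge (hT3 i hi0 hi1) (hT3 i₃ h30 h31)
      (hT2 i i₃ hi0 hi1 h30 h31 hi3).1 (hT2 i i₃ hi0 hi1 h30 h31 hi3).2
    have hq : q = a ∨ q = b ∨ q = e₂ := by
      apply cyc_moved (a := a) (b := b) (c := e₂)
      rw [← p5, hq2]; exact hqr.symm
    have hq' : q' = a ∨ q' = b ∨ q' = e₃ := by
      apply cyc_moved (a := a) (b := b) (c := e₃)
      rw [← q5, hq2']; exact hqr'.symm
    have A2 : T i a = b ∨ T i b = e₂ ∨ T i e₂ = a := by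
      rcases hq with h | h | h
      · left; rw [← h, hq1, ← hq2, h, ha2]
      · right; left; rw [← h, hq1, ← hq2, h, he₂]
      · right; right; rw [← h, hq1, ← hq2, h, p4]
    have A3 : T i a = b ∨ T i b = e₃ ∨ T i e₃ = a := by
      rcases hq' with h | h | h
      · left; rw [← h, hq1', ← hq2', h, ha3]
      · right; left; rw [← h, hq1', ← hq2', h, he₃]
      · right; right; rw [← h, hq1', ← hq2', h, q4]
    rcases A2 with h | h | h
    · exact h
    · rcases A3 with h' | h' | h'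
      · exact h'
      · exact absurd (h.symm.trans h') he23
      · exfalso
        have hb : T i b ≠ b := by rw [h]; exact p2.symm
        have hy : T i e₃ ≠ e₃ := by rw [h']; exact q3
        rcases three_cycle_moved (hT3 i hi0 hi1) hb hy with h3 | h3 | h3
        · exact q2 h3.symm
        · rw [h] at h3; exact he23 h3.symm
        · obtain ⟨-, -, -, e4, -⟩ := three_cycle_eq_cyc (hT3 i hi0 hi1) hb
          rw [← h3, h'] at e4
          exact hab e4
    · rcases A3 with h' | h' | h'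
      · exact h'
      · exfalso
        have hb : T i b ≠ b := by rw [h']; exact q2.symm
        have hy : T i e₂ ≠ e₂ := by rw [h]; exact p3
        rcases three_cycle_moved (hT3 i hi0 hi1) hb hy with h3 | h3 | h3
        · exact p2 h3.symm
        · rw [h'] at h3; exact he23 h3
        · obtain ⟨-, -, -, e4, -⟩ := three_cycle_eq_cyc (hT3 i hi0 hi1) hb
          rw [← h3, h] at e4
          exact hab e4
      · exact absurd ((T i).injective (h.trans h'.symm)) he23
  have hstr : ∀ i, i ≠ o₀ → i ≠ o₁ → b ≠ T i b ∧ a ≠ T i b ∧ T i = cyc a b (T i b) := by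
    intro i hi0 hi1
    have hm : T i a ≠ a := by rw [claim i hi0 hi1]; exact hab.symm
    obtain ⟨-, s2, s3, -, s5⟩ := three_cycle_eq_cyc (hT3 i hi0 hi1) hm
    rw [claim i hi0 hi1] at s2 s3 s5
    exact ⟨s2, s3, s5⟩
  let f : α → α := fun x => if x = o₀ then a else if x = o₁ then b else T x b
  have f0 : f o₀ = a := by simp [f]
  have f1 : f o₁ = b := by simp [f, h01.symm]
  have fi : ∀ i, i ≠ o₀ → i ≠ o₁ → f i = T i b := by intro i h0 h1; simp [f, h0, h1]
  have finj : Function.Injective f := by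
    intro x y hxy
    by_cases hx0 : x = o₀
    · by_cases hy0 : y = o₀
      · rw [hx0, hy0]
      · exfalso
        rw [hx0, f0] at hxy
        by_cases hy1 : y = o₁
        · rw [hy1, f1] at hxy; exact hab hxy
        · rw [fi y hy0 hy1] at hxy; exact (hstr y hy0 hy1).2.1 hxy
    · by_cases hx1 : x = o₁
      · by_cases hy0 : y = o₀
        · exfalso; rw [hx1, hy0, f0, f1] at hxy; exact hab hxy.symm
        · by_cases hy1 : y = o₁
          · rw [hx1, hy1]
          · exfalso; rw [hx1, f1, fi y hy0 hy1] at hxy; exact (hstr y hy0 hy1).1 hxy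
      · rw [fi x hx0 hx1] at hxy
        by_cases hy0 : y = o₀
        · exfalso; rw [hy0, f0] at hxy; exact (hstr x hx0 hx1).2.1 hxy.symm
        · by_cases hy1 : y = o₁
          · exfalso; rw [hy1, f1] at hxy; exact (hstr x hx0 hx1).1 hxy.symm
          · rw [fi y hy0 hy1] at hxy
            by_contra hne
            apply hinj x y hx0 hx1 hy0 hy1 hne
            rw [(hstr x hx0 hx1).2.2, (hstr y hy0 hy1).2.2, hxy]
  refine ⟨Equiv.ofBijective f ⟨finj, Finite.injective_iff_surjective.mp finj⟩, ?_⟩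
  intro i hi0 hi1
  rw [cyc_conj]
  show cyc (f o₀) (f o₁) (f i) = T i
  rw [f0, f1, fi i hi0 hi1]
  exact (hstr i hi0 hi1).2.2.symm

end family
section gen
variable {α : Type*} [DecidableEq α] [Fintype α]

lemma cyc_id1 {o₀ o₁ q r : α} (h01 : o₀ ≠ o₁) (hq0 : q ≠ o₀) (hq1 : q ≠ o₁) (hr0 : r ≠ o₀)
    (hr1 : r ≠ o₁) (hqr : q ≠ r) : cyc o₀ q r = cyc o₀ o₁ r * cyc o₀ q o₁ := by
  ext x
  rw [mul_apply]
  by_cases hx0 : x = o₀
  · rw [hx0, cyc_fst hq0.symm hqr, cyc_fst hq0.symm hq1, cyc_other hq0 hq1 hqr]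
  by_cases hxq : x = q
  · rw [hxq, cyc_snd, cyc_snd, cyc_snd]
  by_cases hxr : x = r
  · rw [hxr, cyc_thd hr0.symm hqr, cyc_other hr0 hqr.symm hr1, cyc_thd hr0.symm hr1.symm]
  by_cases hx1 : x = o₁
  · rw [hx1, cyc_other h01.symm hq1.symm hr1.symm, cyc_thd h01 hq1, cyc_fst h01 hr1.symm]
  · rw [cyc_other hx0 hxq hxr, cyc_other hx0 hxq hx1, cyc_other hx0 hx1 hxr]

lemma cyc_id2 {o₀ o₁ q r : α} (h01 : o₀ ≠ o₁) (hq0 : q ≠ o₀) (hq1 : q ≠ o₁) (hr0 : r ≠ o₀)
    (hr1 : r ≠ o₁) (hqr : q ≠ r) : cyc o₁ q r = cyc o₀ r o₁ * cyc o₀ o₁ q := by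
  ext x
  rw [mul_apply]
  by_cases hx1 : x = o₁
  · rw [hx1, cyc_fst hq1.symm hqr, cyc_snd, cyc_other hq0 hqr hq1]
  by_cases hxq : x = q
  · rw [hxq, cyc_snd, cyc_thd hq0.symm hq1.symm, cyc_fst hr0.symm hr1]
  by_cases hxr : x = r
  · rw [hxr, cyc_thd hr1.symm hqr, cyc_other hr0 hr1 hqr.symm, cyc_snd]
  by_cases hx0 : x = o₀
  · rw [hx0, cyc_other h01 hq0.symm hr0.symm, cyc_fst h01 hq1.symm, cyc_thd h01 hr1]
  · rw [cyc_other hx1 hxq hxr, cyc_other hx0 hx1 hxq, cyc_other hx0 hxr hx1]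

lemma cyc_pair {o₀ o₁ i j : α} (h01 : o₀ ≠ o₁) (hi0 : i ≠ o₀) (hi1 : i ≠ o₁) (hj0 : j ≠ o₀)
    (hj1 : j ≠ o₁) (hij : i ≠ j) :
    (cyc o₀ o₁ i * cyc o₀ o₁ j) ^ 2 = 1 ∧ cyc o₀ o₁ i * cyc o₀ o₁ j ≠ 1 := by
  have z0 : (cyc o₀ o₁ i * cyc o₀ o₁ j) o₀ = i := by
    rw [mul_apply, cyc_fst h01 hj1.symm, cyc_snd]
  have zi : (cyc o₀ o₁ i * cyc o₀ o₁ j) i = o₀ := by
    rw [mul_apply, cyc_other hi0 hi1 hij, cyc_thd hi0.symm hi1.symm]
  have z1 : (cyc o₀ o₁ i * cyc o₀ o₁ j) o₁ = j := by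
    rw [mul_apply, cyc_snd, cyc_other hj0 hj1 hij.symm]
  have zj : (cyc o₀ o₁ i * cyc o₀ o₁ j) j = o₁ := by
    rw [mul_apply, cyc_thd hj0.symm hj1.symm, cyc_fst h01 hi1.symm]
  have zx : ∀ x, x ≠ o₀ → x ≠ o₁ → x ≠ i → x ≠ j → (cyc o₀ o₁ i * cyc o₀ o₁ j) x = x := by
    intro x h0 h1 hi hj
    rw [mul_apply, cyc_other h0 h1 hj, cyc_other h0 h1 hi]
  constructor
  · ext x
    rw [pow_two, mul_apply, one_apply]
    by_cases h0 : x = o₀
    · rw [h0, z0, zi]
    by_cases h1 : x = o₁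
    · rw [h1, z1, zj]
    by_cases hi : x = i
    · rw [hi, zi, z0]
    by_cases hj : x = j
    · rw [hj, zj, z1]
    · rw [zx x h0 h1 hi hj, zx x h0 h1 hi hj]
  · intro h
    rw [h, one_apply] at z0
    exact hi0 z0.symm

lemma gen (H : Subgroup (Perm α)) {o₀ o₁ : α} (h01 : o₀ ≠ o₁)
    (hH : ∀ i, i ≠ o₀ → i ≠ o₁ → cyc o₀ o₁ i ∈ H) :
    ∀ t : Perm α, t.IsThreeCycle → t ∈ H := by
  have hinv : ∀ i, i ≠ o₀ → i ≠ o₁ → cyc o₀ i o₁ ∈ H := by
    intro i h0 h1
    rw [← cyc_inv]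
    exact H.inv_mem (hH i h0 h1)
  have h0qr : ∀ q r, q ≠ o₀ → q ≠ o₁ → r ≠ o₀ → r ≠ o₁ → q ≠ r → cyc o₀ q r ∈ H := by
    intro q r hq0 hq1 hr0 hr1 hqr
    rw [cyc_id1 h01 hq0 hq1 hr0 hr1 hqr]
    exact H.mul_mem (hH r hr0 hr1) (hinv q hq0 hq1)
  intro t ht
  by_cases ht0 : t o₀ = o₀
  · by_cases ht1 : t o₁ = o₁
    · obtain ⟨p, hp⟩ : ∃ p, t p ≠ p := by
        by_contra hcon
        push Not at hcon
        have h1 : t = 1 := Perm.ext hcon
        have h3 := ht.card_support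
        rw [h1] at h3
        simp at h3
      obtain ⟨s1, s2, s3, s4, s5⟩ := three_cycle_eq_cyc ht hp
      have mv : ∀ y, t y ≠ y → y ≠ o₀ ∧ y ≠ o₁ := by
        intro y hy
        exact ⟨fun h => hy (by rw [h, ht0]), fun h => hy (by rw [h, ht1])⟩
      obtain ⟨hp0, hp1⟩ := mv p hp
      obtain ⟨hq0, hq1⟩ := mv (t p) (fun h => s2 h.symm)
      obtain ⟨hr0, hr1⟩ := mv (t (t p)) (by rw [s4]; exact fun h => s3 h)
      have e : cyc p (t p) (t (t p)) =
          cyc o₀ p o₁ * cyc o₀ (t p) (t (t p)) * (cyc o₀ p o₁)⁻¹ := by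
        rw [cyc_conj, cyc_fst hp0.symm hp1, cyc_other hq0 (Ne.symm s1) hq1,
          cyc_other hr0 (Ne.symm s3) hr1]
      rw [s5, e]
      exact H.mul_mem (H.mul_mem (hinv p hp0 hp1) (h0qr _ _ hq0 hq1 hr0 hr1 s2))
        (H.inv_mem (hinv p hp0 hp1))
    · obtain ⟨s1, s2, s3, s4, s5⟩ := three_cycle_eq_cyc ht ht1
      have hq0 : t o₁ ≠ o₀ := fun h => h01 (t.injective (by rw [ht0, h])).symm
      have hr0 : t (t o₁) ≠ o₀ := fun h => hq0 (t.injective (by rw [ht0, h]))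
      rw [s5, cyc_id2 h01 hq0 (Ne.symm s1) hr0 (Ne.symm s3) s2]
      exact H.mul_mem (hinv _ hr0 (Ne.symm s3)) (hH _ hq0 (Ne.symm s1))
  · obtain ⟨s1, s2, s3, s4, s5⟩ := three_cycle_eq_cyc ht ht0
    by_cases hq1 : t o₀ = o₁
    · have hr1 : t (t o₀) ≠ o₁ := by
        intro h
        apply s2
        rw [h, hq1]
      have e : cyc o₀ (t o₀) (t (t o₀)) = cyc o₀ o₁ (t (t o₀)) := by rw [hq1]
      rw [s5, e]
      exact hH _ (Ne.symm s3) hr1
    · by_cases hr1 : t (t o₀) = o₁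
      · have e : cyc o₀ (t o₀) (t (t o₀)) = cyc o₀ (t o₀) o₁ := by rw [hr1]
        rw [s5, e]
        exact hinv _ (Ne.symm s1) hq1
      · rw [s5]
        exact h0qr _ _ (Ne.symm s1) hq1 (Ne.symm s3) hr1 s2

lemma exists_two_other (h4 : 4 ≤ Fintype.card α) (x y : α) :
    ∃ z w, z ≠ x ∧ z ≠ y ∧ w ≠ x ∧ w ≠ y ∧ z ≠ w := by
  have h1 : ({x, y} : Finset α).card < (Finset.univ : Finset α).card := by
    have := Finset.card_le_two (a := x) (b := y)
    rw [Finset.card_univ]; omega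
  obtain ⟨z, -, hz⟩ := Finset.exists_mem_notMem_of_card_lt_card h1
  have h2 : ({x, y, z} : Finset α).card < (Finset.univ : Finset α).card := by
    have := Finset.card_le_three (a := x) (b := y) (c := z)
    rw [Finset.card_univ]; omega
  obtain ⟨w, -, hw⟩ := Finset.exists_mem_notMem_of_card_lt_card h2
  simp only [Finset.mem_insert, Finset.mem_singleton, not_or] at hz hw
  exact ⟨z, w, hz.1, hz.2, hw.1, hw.2.1, fun h => hw.2.2 h.symm⟩

lemma partA (hcard : Fintype.card α ≠ 6) (φ : MulAut (alternatingGroup α))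
    (c : alternatingGroup α) (hc : (c : Perm α).IsThreeCycle) :
    ((φ c : alternatingGroup α) : Perm α).IsThreeCycle := by
  apply key_x hcard
  · have h3 : (c : Perm α) ^ 3 = 1 := by rw [← hc.orderOf]; exact pow_orderOf_eq_one _
    have h3' : c ^ 3 = 1 := Subtype.ext (by simpa using h3)
    have h3'' : (φ c) ^ 3 = 1 := by rw [← map_pow, h3', map_one]
    have h := congrArg Subtype.val h3''
    simpa using h
  · intro h
    have h1 : φ c = 1 := Subtype.ext (by simpa using h)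
    have h2 : c = 1 := by simpa using h1
    have h3 := hc.card_support
    rw [h2] at h3
    simp at h3
  · intro g hg
    obtain ⟨g', hg'⟩ : ∃ g' : alternatingGroup α, (g' : Perm α) = g :=
      ⟨⟨g, mem_alternatingGroup.mpr hg⟩, rfl⟩
    obtain ⟨g₀, hg₀⟩ : ∃ g₀ : alternatingGroup α, φ g₀ = g' := ⟨φ.symm g', φ.apply_symm_apply g'⟩
    have hconj : ((g₀ : Perm α) * (c : Perm α) * (g₀ : Perm α)⁻¹).IsThreeCycle := by
      unfold IsThreeCycle
      rw [cycleType_conj]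
      exact hc
    have h30 := pow30 hc hconj
    have hA : (c * (g₀ * c * g₀⁻¹)) ^ 30 = 1 := Subtype.ext (by simpa using h30)
    have hB := congrArg φ hA
    rw [map_pow, map_mul, map_mul, map_mul, map_inv, map_one, hg₀] at hB
    have h := congrArg Subtype.val hB
    simp only [Subgroup.coe_pow, Subgroup.coe_mul, Subgroup.coe_inv, Subgroup.coe_one] at h
    rw [hg'] at h
    exact h

end gen

/-- Automorphisms of the alternating groups: for n ≥ 4 with n ≠ 6, every automorphism of the alternating group of degree n is conjugation by a unique permutation, i.e. conjugation induces an isomorphism from the symmetric group of degree n onto the automorphism group of the alternating group (so the outer automorphism group has order 2). -/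
theorem result (n : ℕ) (hn : 4 ≤ n) (h6 : n ≠ 6) : Function.Bijective (MulAut.conjNormal : Equiv.Perm (Fin n) →* MulAut ↥(alternatingGroup (Fin n))) := by
  have hcard : Fintype.card (Fin n) ≠ 6 := by rw [Fintype.card_fin]; exact h6
  have hcard4 : 4 ≤ Fintype.card (Fin n) := by rw [Fintype.card_fin]; exact hn
  obtain ⟨o₀, o₁, i₂, i₃, h01, h20, h21, h30, h31, h23⟩ : ∃ o₀ o₁ i₂ i₃ : Fin n,
      o₀ ≠ o₁ ∧ i₂ ≠ o₀ ∧ i₂ ≠ o₁ ∧ i₃ ≠ o₀ ∧ i₃ ≠ o₁ ∧ i₂ ≠ i₃ :=
    ⟨⟨0, by omega⟩, ⟨1, by omega⟩, ⟨2, by omega⟩, ⟨3, by omega⟩, by simp [Fin.ext_iff]⟩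
  constructor
  · rw [injective_iff_map_eq_one]
    intro σ hσ
    by_contra hne
    obtain ⟨x, hx⟩ : ∃ x, σ x ≠ x := by
      by_contra hcon
      push Not at hcon
      exact hne (Perm.ext hcon)
    obtain ⟨z, w, hzx, hzy, hwx, hwy, hzw⟩ := exists_two_other hcard4 x (σ x)
    have hc : cyc (σ x) z w ∈ alternatingGroup (Fin n) :=
      (cyc_three (Ne.symm hzy) hzw (Ne.symm hwy)).mem_alternatingGroup
    have h := congrArg (fun f : MulAut (alternatingGroup (Fin n)) =>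
      ((f ⟨_, hc⟩ : alternatingGroup (Fin n)) : Perm (Fin n))) hσ
    simp only [MulAut.conjNormal_apply, MulAut.one_apply] at h
    have h2 := congrArg (fun f : Perm (Fin n) => f (σ x)) h
    simp only [mul_apply] at h2
    have e : σ⁻¹ (σ x) = x := by simp
    rw [e, cyc_other (Ne.symm hx) (Ne.symm hzx) (Ne.symm hwx),
      cyc_fst (Ne.symm hzy) hzw] at h2
    exact hzy h2.symm
  · intro φ
    have hcm : ∀ i, i ≠ o₀ → i ≠ o₁ → cyc o₀ o₁ i ∈ alternatingGroup (Fin n) :=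
      fun i h0 h1 => (cyc_three h01 (Ne.symm h1) (Ne.symm h0)).mem_alternatingGroup
    let T : Fin n → Perm (Fin n) := fun i =>
      if h : i ≠ o₀ ∧ i ≠ o₁ then
        ((φ ⟨cyc o₀ o₁ i, hcm i h.1 h.2⟩ : alternatingGroup (Fin n)) : Perm (Fin n))
      else 1
    have hT : ∀ i (h0 : i ≠ o₀) (h1 : i ≠ o₁), T i =
        ((φ ⟨cyc o₀ o₁ i, hcm i h0 h1⟩ : alternatingGroup (Fin n)) : Perm (Fin n)) := by
      intro i h0 h1
      simp only [T, dif_pos (And.intro h0 h1)]
    have hT3 : ∀ i, i ≠ o₀ → i ≠ o₁ → (T i).IsThreeCycle := by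
      intro i h0 h1
      rw [hT i h0 h1]
      exact partA hcard φ _ (cyc_three h01 (Ne.symm h1) (Ne.symm h0))
    have hT2 : ∀ i j, i ≠ o₀ → i ≠ o₁ → j ≠ o₀ → j ≠ o₁ → i ≠ j →
        (T i * T j) ^ 2 = 1 ∧ T i * T j ≠ 1 := by
      intro i j hi0 hi1 hj0 hj1 hij
      rw [hT i hi0 hi1, hT j hj0 hj1]
      have key := cyc_pair h01 hi0 hi1 hj0 hj1 hij
      have k1 : ((⟨cyc o₀ o₁ i, hcm i hi0 hi1⟩ : alternatingGroup (Fin n)) *
          ⟨cyc o₀ o₁ j, hcm j hj0 hj1⟩) ^ 2 = 1 := Subtype.ext key.1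
      constructor
      · have k2 := congrArg φ k1
        rw [map_pow, map_mul, map_one] at k2
        have k3 := congrArg Subtype.val k2
        simpa only [Subgroup.coe_pow, Subgroup.coe_mul, Subgroup.coe_one] using k3
      · intro h
        have k2 : φ ((⟨cyc o₀ o₁ i, hcm i hi0 hi1⟩ : alternatingGroup (Fin n)) *
            ⟨cyc o₀ o₁ j, hcm j hj0 hj1⟩) = 1 := by
          rw [map_mul]
          exact Subtype.ext h
        have k3 : ((⟨cyc o₀ o₁ i, hcm i hi0 hi1⟩ : alternatingGroup (Fin n)) *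
            ⟨cyc o₀ o₁ j, hcm j hj0 hj1⟩) = 1 := by
          apply φ.injective
          rw [k2, map_one]
        exact key.2 (congrArg Subtype.val k3)
    obtain ⟨σ, hσ⟩ := family h01 h20 h21 h30 h31 h23 T hT3 hT2
    refine ⟨σ, ?_⟩
    apply MulEquiv.ext
    intro x
    set H : Subgroup (Perm (Fin n)) :=
      (MonoidHom.eqLocus (MulAut.conjNormal σ : MulAut (alternatingGroup (Fin n))).toMonoidHom
        φ.toMonoidHom).map (alternatingGroup (Fin n)).subtype with hH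
    have hHc : ∀ i, i ≠ o₀ → i ≠ o₁ → cyc o₀ o₁ i ∈ H := by
      intro i h0 h1
      rw [hH, Subgroup.mem_map]
      refine ⟨⟨cyc o₀ o₁ i, hcm i h0 h1⟩, ?_, rfl⟩
      show (MulAut.conjNormal σ : MulAut (alternatingGroup (Fin n))) ⟨cyc o₀ o₁ i, hcm i h0 h1⟩ =
        φ ⟨cyc o₀ o₁ i, hcm i h0 h1⟩
      apply Subtype.ext
      rw [MulAut.conjNormal_apply, ← hT i h0 h1]
      exact hσ i h0 h1
    have hle : alternatingGroup (Fin n) ≤ H := by
      rw [← closure_three_cycles_eq_alternating, Subgroup.closure_le]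
      intro t ht
      exact gen H h01 hHc t ht
    obtain ⟨y, hy, hyx⟩ := Subgroup.mem_map.mp (hle x.2)
    have hyx' : y = x := Subtype.ext hyx
    rw [← hyx']
    exact hy

end Cfsg.Agent.S2119
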