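import Mathlib
import Cfsg.Statements.S0899
import Cfsg.Agent.Lib.Helper25.ItoSpecial
import Cfsg.Agent.S0898

set_option autoImplicit false
set_option linter.unusedSectionVars false
open Cfsg

namespace Cfsg.Agent.S0899

open Cfsg.Agent.Lib.Helper1
open scoped ComplexConjugate

universe u

/-- `p`-elements -/
def PE (p : ℕ) {G : Type u} [Group G] (x : G) : Prop := ∃ k : ℕ, x ^ (p ^ k) = 1

/-- the `p`-elements of `L` are closed under products -/
def PC (p : ℕ) {G : Type u} [Group G] (L : Subgroup G) : Prop :=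
  ∀ x ∈ L, ∀ y ∈ L, PE p x → PE p y → PE p (x * y)

section basic

variable {G : Type u} [Group G] (p : ℕ)

theorem PE_one : PE p (1 : G) := ⟨0, by simp⟩

theorem PE_inv {x : G} (h : PE p x) : PE p x⁻¹ := by
  obtain ⟨k, hk⟩ := h
  exact ⟨k, by rw [inv_pow, hk, inv_one]⟩

theorem PE_conj {x : G} (h : PE p x) (g : G) : PE p (g * x * g⁻¹) := by
  obtain ⟨k, hk⟩ := h
  exact ⟨k, by rw [conj_pow, hk, mul_one, mul_inv_cancel]⟩

theorem PE_zpow {x : G} (h : PE p x) (i : ℤ) : PE p (x ^ i) := by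
  obtain ⟨k, hk⟩ := h
  exact ⟨k, by rw [← zpow_natCast, ← zpow_mul, mul_comm, zpow_mul, zpow_natCast, hk, one_zpow]⟩

theorem PE_pow {x : G} (h : PE p x) (i : ℕ) : PE p (x ^ i) := by
  obtain ⟨k, hk⟩ := h
  exact ⟨k, by rw [← pow_mul, mul_comm, pow_mul, hk, one_pow]⟩

theorem PE_coe (L : Subgroup G) (x : L) : PE p (x : G) ↔ PE p x := by
  constructor
  · rintro ⟨k, hk⟩
    exact ⟨k, Subtype.ext (by rw [Subgroup.coe_pow, hk]; rfl)⟩
  · rintro ⟨k, hk⟩
    exact ⟨k, by rw [← Subgroup.coe_pow, hk]; rfl⟩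

theorem PE_of_isPGroup (Q : Subgroup G) (hQ : IsPGroup p Q) {x : G} (hx : x ∈ Q) : PE p x := by
  obtain ⟨k, hk⟩ := hQ ⟨x, hx⟩
  exact (PE_coe p Q ⟨x, hx⟩).mpr ⟨k, hk⟩

/-- the subgroup of `p`-elements of `L` -/
def pSub (L : Subgroup G) (h : PC p L) : Subgroup G where
  carrier := {x | x ∈ L ∧ PE p x}
  mul_mem' := fun {a b} ha hb => ⟨L.mul_mem ha.1 hb.1, h a ha.1 b hb.1 ha.2 hb.2⟩
  one_mem' := ⟨L.one_mem, PE_one p⟩
  inv_mem' := fun {_} ha => ⟨L.inv_mem ha.1, PE_inv p ha.2⟩

theorem mem_pSub (L : Subgroup G) (h : PC p L) (x : G) :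
    x ∈ pSub p L h ↔ x ∈ L ∧ PE p x := Iff.rfl

theorem pSub_isPGroup (L : Subgroup G) (h : PC p L) : IsPGroup p (pSub p L h) := by
  intro x
  obtain ⟨k, hk⟩ := x.2.2
  exact ⟨k, Subtype.ext (by rw [Subgroup.coe_pow, hk]; rfl)⟩

end basic

section sylow

variable {G : Type u} [Group G] [Finite G] (p : ℕ) [hp : Fact p.Prime]

/-- a normal Sylow subgroup contains all `p`-elements -/
theorem mem_of_normal (Q : Sylow p G) (hQ : (Q : Subgroup G).Normal) {x : G} (hx : PE p x) :
    x ∈ (Q : Subgroup G) := by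
  have hZ : IsPGroup p (Subgroup.zpowers x) := by
    intro y
    obtain ⟨i, hi⟩ := Subgroup.mem_zpowers_iff.mp y.2
    have h1 := PE_zpow p hx i
    rw [hi] at h1
    exact (PE_coe p _ y).mp h1
  obtain ⟨R, hR⟩ := hZ.exists_le_sylow
  obtain ⟨g, hg⟩ := MulAction.exists_smul_eq G Q R
  have hQ' : (Q : Subgroup G).Normal := hQ
  rw [Sylow.smul_eq_of_normal] at hg
  rw [hg]
  exact hR (Subgroup.mem_zpowers x)

theorem PC_of_normal (Q : Sylow p G) (hQ : (Q : Subgroup G).Normal) :
    PC p (⊤ : Subgroup G) := by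
  intro x _ y _ hx hy
  exact PE_of_isPGroup p (Q : Subgroup G) Q.2
    (Subgroup.mul_mem _ (mem_of_normal p Q hQ hx) (mem_of_normal p Q hQ hy))

theorem normal_of_PC (h : PC p (⊤ : Subgroup G)) (Q : Sylow p G) : (Q : Subgroup G).Normal := by
  have hT := pSub_isPGroup p ⊤ h
  have hle : (Q : Subgroup G) ≤ pSub p ⊤ h :=
    fun x hx => ⟨Subgroup.mem_top x, PE_of_isPGroup p (Q : Subgroup G) Q.2 hx⟩
  have heq := Q.is_maximal' hT hle
  rw [← heq]
  constructor
  intro x hx g
  exact ⟨Subgroup.mem_top _, PE_conj p hx.2 g⟩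

open scoped IsMulCommutative in
/-- transfer: an abelian Sylow subgroup meets `Z(G) ∩ G'` trivially -/
theorem transfer_triv (Q : Sylow p G)
    (hab : ∀ a ∈ (Q : Subgroup G), ∀ b ∈ (Q : Subgroup G), a * b = b * a) (z : G)
    (hz : z ∈ (Q : Subgroup G)) (hzc : z ∈ Subgroup.center G) (hzk : z ∈ commutator G) :
    z = 1 := by
  haveI : IsMulCommutative (Q : Subgroup G) := ⟨⟨fun a b => Subtype.ext (hab a a.2 b b.2)⟩⟩
  have key : ∀ (k : ℕ) (g₀ : G), g₀⁻¹ * z ^ k * g₀ ∈ (Q : Subgroup G) →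
      g₀⁻¹ * z ^ k * g₀ = z ^ k := by
    intro k g₀ _
    have h1 := (Subgroup.mem_center_iff.mp (Subgroup.pow_mem _ hzc k)) g₀
    rw [mul_assoc, ← h1, inv_mul_cancel_left]
  have h1 := MonoidHom.transfer_eq_pow (MonoidHom.id (Q : Subgroup G)) z key
  have h2 : MonoidHom.transfer (MonoidHom.id (Q : Subgroup G)) z = 1 := by
    have h3 := Abelianization.commutator_subset_ker
      (MonoidHom.transfer (MonoidHom.id (Q : Subgroup G))) hzk
    exact MonoidHom.mem_ker.mp h3
  rw [h2] at h1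
  have h3 : z ^ (Q : Subgroup G).index = 1 := by
    have h4 := congrArg Subtype.val h1
    simpa using h4.symm
  obtain ⟨k, hk⟩ := PE_of_isPGroup p (Q : Subgroup G) Q.2 hz
  have hcop : Nat.Coprime (p ^ k) (Q : Subgroup G).index :=
    Nat.Coprime.pow_left _ ((Nat.Prime.coprime_iff_not_dvd hp.out).mpr Q.not_dvd_index)
  have h4 : orderOf z ∣ 1 := by
    rw [← Nat.Coprime.gcd_eq_one hcop]
    exact Nat.dvd_gcd (orderOf_dvd_of_pow_eq_one hk) (orderOf_dvd_of_pow_eq_one h3)
  exact orderOf_eq_one_iff.mp (Nat.dvd_one.mp h4)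

end sylow

section chars

variable {G : Type u} [Group G] [Finite G]

/-- decomposition of a character into irreducibles, with the degree bound -/
theorem decomp [Fintype (IrrCharacter G)] {ψ : G → ℂ} (hψ : IsCharacter G ψ) {n : ℕ}
    (hψ1 : ψ 1 = n) :
    ∃ m : IrrCharacter G → ℕ,
      (∀ g, ψ g = ∑ φ : IrrCharacter G, (m φ : ℂ) * (φ : G → ℂ) g) ∧
      ∀ φ : IrrCharacter G, m φ ≠ 0 → ∃ d : ℕ, (φ : G → ℂ) 1 = d ∧ 0 < d ∧ d ≤ n := by
  classical
  have hfin : Fintype G := Fintype.ofFinite G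
  obtain ⟨m, hm1, hm2⟩ := IsCharacter.eq_sum_irr hψ
  have hval : ∀ g, ψ g = ∑ φ : IrrCharacter G, (m φ : ℂ) * (φ : G → ℂ) g := by
    intro g
    have h1 := congrFun hm2 g
    rw [h1]
    simp only [Finset.sum_apply, Pi.smul_apply, smul_eq_mul]
  refine ⟨m, hval, ?_⟩
  intro φ hφ
  obtain ⟨d, hd0, hd⟩ := IsIrrCharacter.degree_pos φ.2
  refine ⟨d, hd, hd0, ?_⟩
  have hdeg : ∀ φ' : IrrCharacter G, ∃ d' : ℕ, (φ' : G → ℂ) 1 = d' := fun φ' =>
    let ⟨d', _, h⟩ := IsIrrCharacter.degree_pos φ'.2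
    ⟨d', h⟩
  choose dd hdd using hdeg
  have h1 := hval 1
  rw [hψ1] at h1
  have h2 : (n : ℂ) = ((∑ φ' : IrrCharacter G, m φ' * dd φ' : ℕ) : ℂ) := by
    rw [h1]
    push_cast
    exact Finset.sum_congr rfl (fun φ' _ => by rw [hdd])
  have h3 : n = ∑ φ' : IrrCharacter G, m φ' * dd φ' := by exact_mod_cast h2
  have h4 : m φ * dd φ ≤ n := by
    rw [h3]
    exact Finset.single_le_sum (f := fun φ' => m φ' * dd φ') (fun _ _ => Nat.zero_le _)
      (Finset.mem_univ φ)
  have h5 : dd φ = d := by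
    have h6 := hdd φ
    rw [hd] at h6
    exact_mod_cast h6.symm
  rw [h5] at h4
  calc d = 1 * d := (one_mul d).symm
    _ ≤ m φ * d := Nat.mul_le_mul_right d (Nat.pos_of_ne_zero hφ)
    _ ≤ n := h4

/-- an irreducible constituent separating `c` from `1` -/
theorem exists_constituent {ψ : G → ℂ} (hψ : IsCharacter G ψ) {n : ℕ} (hψ1 : ψ 1 = n) (c : G)
    (hc : ψ c ≠ ψ 1) :
    ∃ χ : G → ℂ, IsIrrCharacter G χ ∧ χ c ≠ χ 1 ∧ ∃ d : ℕ, χ 1 = d ∧ d ≤ n := by
  classical
  have hfin : Fintype G := Fintype.ofFinite G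
  have hfinI : Fintype (IrrCharacter G) := irrFintype
  obtain ⟨m, hval, hdeg⟩ := decomp hψ hψ1
  by_contra hcon
  push Not at hcon
  apply hc
  rw [hval c, hval 1]
  refine Finset.sum_congr rfl (fun φ _ => ?_)
  by_cases hm : m φ = 0
  · rw [hm]
    simp
  · obtain ⟨d, hd, -, hdn⟩ := hdeg φ hm
    by_contra hne
    have h1 : (φ : G → ℂ) c ≠ (φ : G → ℂ) 1 := by
      intro h
      apply hne
      rw [h]
    exact absurd hdn (not_le.mpr (hcon φ φ.2 h1 d hd))

/-- `p`-subgroups are abelian when there is a faithful character of degree `< p` -/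
theorem pgroup_comm (p : ℕ) [hp : Fact p.Prime] {ψ : G → ℂ} (hψ : IsCharacter G ψ) {n : ℕ}
    (hψ1 : ψ 1 = n) (hn : n < p) (hfaith : ∀ g, ψ g = ψ 1 → g = 1) (Q : Subgroup G)
    (hQ : IsPGroup p Q) : ∀ a ∈ Q, ∀ b ∈ Q, a * b = b * a := by
  classical
  intro a ha b hb
  have hfinQ : Fintype Q := Fintype.ofFinite Q
  have hfinIQ : Fintype (IrrCharacter Q) := irrFintype
  have hres : IsCharacter Q (fun q : Q => ψ q) := IsCharacter.restrict hψ Q
  have hres1 : (fun q : Q => ψ q) 1 = n := by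
    show ψ ((1 : Q) : G) = n
    rw [Subgroup.coe_one, hψ1]
  obtain ⟨m, hval, hdeg⟩ := decomp hres hres1
  obtain ⟨c, hc⟩ : ∃ c : Q, c = ⟨a, ha⟩ * ⟨b, hb⟩ * ⟨a, ha⟩⁻¹ * ⟨b, hb⟩⁻¹ := ⟨_, rfl⟩
  have h1 : (fun q : Q => ψ q) c = (fun q : Q => ψ q) 1 := by
    show ψ (c : G) = ψ ((1 : Q) : G)
    rw [hval c, hval 1]
    refine Finset.sum_congr rfl (fun φ _ => ?_)
    by_cases hm : m φ = 0
    · rw [hm]
      simp
    · obtain ⟨d, hd, hd0, hdn⟩ := hdeg φ hm
      obtain ⟨d', hd', hdvd, -⟩ := IsIrrCharacter.degree_dvd_card φ.2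
      have hdd : d' = d := by
        rw [hd] at hd'
        exact_mod_cast hd'.symm
      rw [hdd] at hdvd
      obtain ⟨k, hk⟩ := IsPGroup.iff_card.mp hQ
      rw [hk] at hdvd
      obtain ⟨j, -, hj⟩ := (Nat.dvd_prime_pow hp.out).mp hdvd
      have hj0 : j = 0 := by
        by_contra hj0
        have : p ≤ p ^ j := Nat.le_self_pow hj0 p
        omega
      rw [hj0, pow_zero] at hj
      have hφ1 : (φ : Q → ℂ) 1 = 1 := by
        rw [hd, hj]
        simp
      obtain ⟨lam, hlam⟩ := IsIrrCharacter.exists_monoidHom φ.2 hφ1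
      congr 1
      rw [hlam c, hlam 1, hc, map_mul, map_mul, map_mul, map_inv, map_inv, map_one,
        mul_comm (lam ⟨a, ha⟩) (lam ⟨b, hb⟩)]
      congr 1
      group
  have h2 : (c : G) = 1 := hfaith c h1
  have h3 : a * b * a⁻¹ * b⁻¹ = 1 := by
    rw [← h2, hc]
    rfl
  calc a * b = a * b * a⁻¹ * b⁻¹ * (b * a) := by group
    _ = b * a := by rw [h3, one_mul]

end chars

section step

variable {G : Type u} [Group G] [Finite G]

set_option maxHeartbeats 1000000 in
/-- the minimal counterexample argument -/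
theorem step (p : ℕ) [hp : Fact p.Prime] (n : ℕ) (hn : n + 1 < p) (ψ : G → ℂ)
    (hψ : IsCharacter G ψ) (hψ1 : ψ 1 = n) (hfaith : ∀ g, ψ g = ψ 1 → g = 1)
    (hcase : (n + 1) ^ 2 ≤ p ∨ ∀ K : Subgroup G, ¬ p ^ 2 ∣ Nat.card K → PC p K)
    (hsub : ∀ L : Subgroup G, L ≠ ⊤ → PC p L) : PC p (⊤ : Subgroup G) := by
  classical
  by_contra hnot
  have hfinG : Fintype G := Fintype.ofFinite G
  have hN : ∀ Q : Sylow p G, ¬ (Q : Subgroup G).Normal :=
    fun Q hQ => hnot (PC_of_normal p Q hQ)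
  have hA : ∀ Q : Subgroup G, IsPGroup p Q → ∀ a ∈ Q, ∀ b ∈ Q, a * b = b * a :=
    fun Q hQ => pgroup_comm p hψ hψ1 (by omega) hfaith Q hQ
  have hF2 : ∀ Q : Sylow p G, ∀ L : Subgroup G, L ≠ ⊤ → (Q : Subgroup G) ≤ L →
      ∀ z ∈ L, PE p z → z ∈ (Q : Subgroup G) := by
    intro Q L hL hQL z hz hpz
    have hT := pSub_isPGroup p L (hsub L hL)
    have hle : (Q : Subgroup G) ≤ pSub p L (hsub L hL) :=
      fun x hx => ⟨hQL hx, PE_of_isPGroup p (Q : Subgroup G) Q.2 hx⟩
    have heq := Q.is_maximal' hT hle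
    rw [← heq]
    exact ⟨hz, hpz⟩
  have hF4 : ∀ Q : Sylow p G, ∀ M : Subgroup G, M.Normal → (Q : Subgroup G) ≤ M → M = ⊤ := by
    intro Q M hM hQM
    by_contra hne
    apply hN Q
    constructor
    intro x hx g
    exact hF2 Q M hne hQM _ (hM.conj_mem x (hQM hx) g)
      (PE_conj p (PE_of_isPGroup p (Q : Subgroup G) Q.2 hx) g)
  have hF5 : ∀ Q : Sylow p G, ∀ z ∈ (Q : Subgroup G), z ∈ Subgroup.center G →
      z ∈ commutator G → z = 1 :=
    fun Q z hz hzc hzk => transfer_triv p Q (hA (Q : Subgroup G) Q.2) z hz hzc hzk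
  obtain ⟨P⟩ : Nonempty (Sylow p G) := inferInstance
  have hPc : ¬ (P : Subgroup G) ≤ Subgroup.center G := by
    intro hle
    apply hN P
    constructor
    intro x hx g
    have h1 := Subgroup.mem_center_iff.mp (hle hx) g
    rw [h1, mul_inv_cancel_right]
    exact hx
  obtain ⟨x, hxP, hxc⟩ := SetLike.not_le_iff_exists.mp hPc
  have hxg : ∃ g : G, g * x ≠ x * g := by
    by_contra hcon
    push Not at hcon
    exact hxc (Subgroup.mem_center_iff.mpr hcon)
  obtain ⟨g, hg⟩ := hxg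
  have hpx : PE p x := PE_of_isPGroup p (P : Subgroup G) P.2 hxP
  have hcne : x * g * x⁻¹ * g⁻¹ ≠ 1 := by
    intro h1
    apply hg
    calc g * x = (x * g * x⁻¹ * g⁻¹)⁻¹ * (x * g) := by group
      _ = x * g := by rw [h1, inv_one, one_mul]
  have hψc : ψ (x * g * x⁻¹ * g⁻¹) ≠ ψ 1 := fun h => hcne (hfaith _ h)
  obtain ⟨χ, hχ, hχc, d, hd, hdn⟩ := exists_constituent hψ hψ1 _ hψc
  by_cases hperf : commutator G = ⊤
  · -- the perfect case
    have hZ : ∀ Q : Sylow p G, ∀ z ∈ (Q : Subgroup G), z ∈ Subgroup.center G → z = 1 :=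
      fun Q z hz hzc => hF5 Q z hz hzc (by rw [hperf]; exact Subgroup.mem_top z)
    have hH1 : ∀ Q : Sylow p G, ∀ y ∈ (Q : Subgroup G), y ≠ 1 → ∀ z, PE p z →
        z * y = y * z → z ∈ (Q : Subgroup G) := by
      intro Q y hy hy1 z hz hzy
      have hM : Subgroup.centralizer ({y} : Set G) ≠ ⊤ := by
        intro htop
        apply hy1
        apply hZ Q y hy
        rw [Subgroup.centralizer_eq_top_iff_subset] at htop
        exact htop (Set.mem_singleton y)
      have hQM : (Q : Subgroup G) ≤ Subgroup.centralizer ({y} : Set G) := by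
        intro q hq
        rw [Subgroup.mem_centralizer_iff]
        intro h hh
        rw [Set.mem_singleton_iff] at hh
        rw [hh]
        exact hA (Q : Subgroup G) Q.2 y hy q hq
      apply hF2 Q _ hM hQM z _ hz
      rw [Subgroup.mem_centralizer_iff]
      intro h hh
      rw [Set.mem_singleton_iff] at hh
      rw [hh]
      exact hzy.symm
    have hH2 : ∀ g' : G, g' ∉ Subgroup.center G → ∀ y y' : G,
        y ∈ Subgroup.centralizer ({g'} : Set G) → y' ∈ Subgroup.centralizer ({g'} : Set G) →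
        PE p y → PE p y' → y * y' = y' * y := by
      intro g' hg' y y' hy hy' hpy hpy'
      have hL : Subgroup.centralizer ({g'} : Set G) ≠ ⊤ := by
        intro htop
        rw [Subgroup.centralizer_eq_top_iff_subset] at htop
        exact hg' (htop (Set.mem_singleton g'))
      exact hA (pSub p _ (hsub _ hL)) (pSub_isPGroup p _ _) y ⟨hy, hpy⟩ y' ⟨hy', hpy'⟩
    have hone : ∀ g' : G, g' ∉ Subgroup.center G → ∀ a b : G,
        Subgroup.centralizer ({g'} : Set G) ⊓
          (P : Subgroup G).map (MulAut.conj a).toMonoidHom ≠ ⊥ →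
        Subgroup.centralizer ({g'} : Set G) ⊓
          (P : Subgroup G).map (MulAut.conj b).toMonoidHom ≠ ⊥ →
        (P : Subgroup G).map (MulAut.conj a).toMonoidHom =
          (P : Subgroup G).map (MulAut.conj b).toMonoidHom := by
      intro g' hg' a b ha hb
      have hcoe : ∀ c : G, ((c • P : Sylow p G) : Subgroup G) =
          (P : Subgroup G).map (MulAut.conj c).toMonoidHom := by
        intro c
        rw [Sylow.coe_subgroup_smul]
        rfl
      rw [← hcoe a] at ha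
      rw [← hcoe b] at hb
      rw [← hcoe a, ← hcoe b]
      obtain ⟨⟨y, hy⟩, hy1⟩ := (Subgroup.ne_bot_iff_exists_ne_one).mp ha
      obtain ⟨⟨y', hy'⟩, hy1'⟩ := (Subgroup.ne_bot_iff_exists_ne_one).mp hb
      have hy1 : y ≠ 1 := fun h => hy1 (Subtype.ext h)
      have hy1' : y' ≠ 1 := fun h => hy1' (Subtype.ext h)
      rw [Subgroup.mem_inf] at hy hy'
      have hpy : PE p y := PE_of_isPGroup p _ (a • P).2 hy.2
      have hpy' : PE p y' := PE_of_isPGroup p _ (b • P).2 hy'.2
      have hcomm := hH2 g' hg' y y' hy.1 hy'.1 hpy hpy'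
      have hy'a : y' ∈ ((a • P : Sylow p G) : Subgroup G) :=
        hH1 (a • P) y hy.2 hy1 y' hpy' hcomm.symm
      have hle : ((a • P : Sylow p G) : Subgroup G) ≤ ((b • P : Sylow p G) : Subgroup G) := by
        intro q hq
        apply hH1 (b • P) y' hy'.2 hy1' q (PE_of_isPGroup p _ (a • P).2 hq)
        exact hA _ (a • P).2 q hq y' hy'a
      exact ((a • P).is_maximal' (b • P).2 hle).symm
    have hfinP : Fintype (P : Subgroup G) := Fintype.ofFinite _
    have hxχ : χ x ≠ χ 1 := by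
      intro h
      apply hχc
      have hchar := IsIrrCharacter.isCharacter hχ
      have h4 : χ x⁻¹ = χ 1 := by
        have h5 := IsCharacter.mul_left_of_eq_degree hchar h x⁻¹
        rw [mul_inv_cancel] at h5
        exact h5.symm
      have h5 : x * g * x⁻¹ * g⁻¹ = x * (g * x⁻¹ * g⁻¹) := by group
      rw [h5, IsCharacter.mul_left_of_eq_degree hchar h,
        IsIrrCharacter.isClassFunction hχ x⁻¹ g, h4]
    have hd1 : χ 1 ≠ 1 := by
      intro h1
      obtain ⟨lam, hlam⟩ := IsIrrCharacter.exists_monoidHom hχ h1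
      apply hχc
      rw [hlam, hlam, map_mul, map_mul, map_mul, map_inv, map_inv, map_one,
        mul_comm (lam x) (lam g)]
      congr 1
      group
    have hZ' : (P : Subgroup G) ⊓ Subgroup.center G = ⊥ := by
      rw [Subgroup.eq_bot_iff_forall]
      intro z hz
      rw [Subgroup.mem_inf] at hz
      exact hZ P z hz.1 hz.2
    have hres := (Cfsg.Agent.S0898.result (P : Subgroup G) (hA _ P.2) hZ' hone χ hχ
      ⟨x, hxP, hxχ⟩).2 hd1 (fun M hM hPM => hF4 P M hM hPM)
    rw [hd] at hres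
    simp only [Complex.natCast_re] at hres
    have hlt : Nat.card (P : Subgroup G) < (d + 1) ^ 2 := by
      have h1 : (Nat.card (P : Subgroup G) : ℝ) < ((d + 1 : ℕ) : ℝ) ^ 2 := by
        push_cast
        have h2 : ((d : ℝ) + 1) ^ 2 = (1 + (d : ℝ)) ^ 2 := by ring
        rw [h2]
        exact hres
      exact_mod_cast h1
    have hlt2 : Nat.card (P : Subgroup G) < (n + 1) ^ 2 :=
      lt_of_lt_of_le hlt (Nat.pow_le_pow_left (by omega) 2)
    have hPdvd : p ∣ Nat.card (P : Subgroup G) := by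
      rcases IsPGroup.card_eq_or_dvd P.2 with h1 | h1
      · exfalso
        have h2 := Subgroup.eq_bot_of_card_eq _ h1
        rw [h2, Subgroup.mem_bot] at hxP
        rw [hxP] at hxc
        exact hxc (Subgroup.one_mem _)
      · exact h1
    rcases hcase with hA' | hB
    · have h1 := Nat.le_of_dvd Nat.card_pos hPdvd
      omega
    · have hlt3 : Nat.card (P : Subgroup G) < p ^ 2 :=
        lt_of_lt_of_le hlt2 (Nat.pow_le_pow_left (by omega) 2)
      rw [Sylow.card_eq_multiplicity] at hlt3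
      have hk : (Nat.card G).factorization p < 2 :=
        (Nat.pow_lt_pow_iff_right hp.out.one_lt).mp hlt3
      have hnd : ¬ p ^ 2 ∣ Nat.card (⊤ : Subgroup G) := by
        rw [Subgroup.card_top, Nat.Prime.pow_dvd_iff_le_factorization hp.out Nat.card_pos.ne']
        omega
      exact hnot (hB ⊤ hnd)
  · -- the non-perfect case
    obtain ⟨K, hKdef⟩ : ∃ K : Subgroup G, K = commutator G := ⟨_, rfl⟩
    have hKtop : K ≠ ⊤ := by
      rw [hKdef]
      exact hperf
    have hKn : K.Normal := by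
      rw [hKdef]
      infer_instance
    have hcommK : ∀ a b : G, a * b * a⁻¹ * b⁻¹ ∈ K := by
      intro a b
      rw [hKdef, commutator_def]
      have h1 := Subgroup.commutator_mem_commutator (Subgroup.mem_top a) (Subgroup.mem_top b)
        (H₁ := ⊤) (H₂ := ⊤)
      rwa [commutatorElement_def] at h1
    have hKp : ∀ k ∈ K, PE p k → k = 1 := by
      intro k hk hpk
      obtain ⟨T, hT⟩ : ∃ T : Subgroup G, T = pSub p K (hsub K hKtop) := ⟨_, rfl⟩
      have hTp : IsPGroup p T := by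
        rw [hT]
        exact pSub_isPGroup p K _
      obtain ⟨Q, hQ⟩ := hTp.exists_le_sylow
      have hTn : T.Normal := by
        constructor
        intro t ht g'
        rw [hT] at ht ⊢
        exact ⟨hKn.conj_mem t ht.1 g', PE_conj p ht.2 g'⟩
      have hcent : Subgroup.centralizer (T : Set G) = ⊤ := by
        apply hF4 Q _ inferInstance
        intro q hq
        rw [Subgroup.mem_centralizer_iff]
        intro t ht
        exact hA (Q : Subgroup G) Q.2 t (hQ ht) q hq
      have hkT : k ∈ T := by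
        rw [hT]
        exact ⟨hk, hpk⟩
      apply hF5 Q k (hQ hkT)
      · rw [Subgroup.centralizer_eq_top_iff_subset] at hcent
        exact hcent hkT
      · rw [← hKdef]
        exact hk
    have hstar : ∀ y : G, PE p y → y ∉ Subgroup.center G → K ⊔ Subgroup.zpowers y = ⊤ := by
      intro y hpy hyc
      by_contra hL
      have hLn : ∀ l ∈ K ⊔ Subgroup.zpowers y, ∀ g' : G,
          g' * l * g'⁻¹ ∈ K ⊔ Subgroup.zpowers y := by
        intro l hl g'
        have h1 : g' * l * g'⁻¹ = (g' * l * g'⁻¹ * l⁻¹) * l := by group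
        rw [h1]
        exact Subgroup.mul_mem _ (Subgroup.mem_sup_left (hcommK g' l)) hl
      have hyg : ∃ g' : G, g' * y ≠ y * g' := by
        by_contra hcon
        push Not at hcon
        exact hyc (Subgroup.mem_center_iff.mpr hcon)
      obtain ⟨g', hg'⟩ := hyg
      have hyL : y ∈ K ⊔ Subgroup.zpowers y := Subgroup.mem_sup_right (Subgroup.mem_zpowers y)
      have h2 : PE p (y * (g' * y⁻¹ * g'⁻¹)) :=
        hsub _ hL y hyL _ (hLn _ (Subgroup.inv_mem _ hyL) g') hpy (PE_conj p (PE_inv p hpy) g')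
      have h3 : y * (g' * y⁻¹ * g'⁻¹) = 1 := by
        apply hKp _ _ h2
        have h5 := hcommK y g'
        have h4 : y * g' * y⁻¹ * g'⁻¹ = y * (g' * y⁻¹ * g'⁻¹) := by group
        rwa [h4] at h5
      apply hg'
      calc g' * y = (y * (g' * y⁻¹ * g'⁻¹))⁻¹ * (y * g') := by group
        _ = y * g' := by rw [h3, inv_one, one_mul]
    have hgen := hstar x hpx hxc
    have hxpc : x ^ p ∈ Subgroup.center G := by
      by_contra hnc
      have h1 := hstar (x ^ p) (PE_pow p hpx p) hnc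
      have hx1 : x ∈ K ⊔ Subgroup.zpowers (x ^ p) := by
        rw [h1]
        exact Subgroup.mem_top x
      have h2 : x ∈ ((K ⊔ Subgroup.zpowers (x ^ p) : Subgroup G) : Set G) := hx1
      rw [Subgroup.normal_mul] at h2
      obtain ⟨k, hk, z, hz, hkz⟩ := Set.mem_mul.mp h2
      obtain ⟨i, hi⟩ := Subgroup.mem_zpowers_iff.mp hz
      have hk' : k = x ^ (1 - (p : ℤ) * i) := by
        have h3 : k = x * z⁻¹ := by
          rw [← hkz]
          group
        rw [h3, ← hi, ← zpow_natCast x p, ← zpow_mul, zpow_sub, zpow_one]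
      have hk1 : k = 1 := hKp k hk (by rw [hk']; exact PE_zpow p hpx _)
      rw [hk1] at hk'
      have h3 : (orderOf x : ℤ) ∣ 1 - (p : ℤ) * i := orderOf_dvd_iff_zpow_eq_one.mpr hk'.symm
      have hx1' : x ≠ 1 := by
        rintro rfl
        exact hxc (Subgroup.one_mem _)
      obtain ⟨j, hj⟩ := hpx
      obtain ⟨a, -, ha⟩ := (Nat.dvd_prime_pow hp.out).mp (orderOf_dvd_of_pow_eq_one hj)
      have ha0 : a ≠ 0 := by
        rintro rfl
        rw [pow_zero, orderOf_eq_one_iff] at ha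
        exact hx1' ha
      have h4 : (p : ℤ) ∣ (orderOf x : ℤ) := by
        rw [ha]
        push_cast
        exact dvd_pow_self _ ha0
      have h5 : (p : ℤ) ∣ 1 - (p : ℤ) * i := dvd_trans h4 h3
      have h6 : (p : ℤ) ∣ 1 := by
        have h7 : (p : ℤ) ∣ (1 - (p : ℤ) * i) + (p : ℤ) * i := dvd_add h5 (dvd_mul_right _ _)
        simpa using h7
      have h8 : p ∣ 1 := by exact_mod_cast h6
      have h9 := Nat.le_of_dvd (by norm_num) h8
      have h10 := hp.out.two_le
      omega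
    exact hχc (Cfsg.Agent.Lib.Helper25.ItoSpecial.ito_special p K hKp x hpx hgen hxpc χ hχ d hd
      (by omega) g)

end step

section final

/-- the induction on the group order -/
theorem main (p : ℕ) [hp : Fact p.Prime] (n : ℕ) (hn : n + 1 < p) (N : ℕ) :
    ∀ (G : Type u) [Group G] [Finite G], Nat.card G ≤ N → ∀ ψ : G → ℂ, IsCharacter G ψ →
      ψ 1 = n → (∀ g, ψ g = ψ 1 → g = 1) →
      ((n + 1) ^ 2 ≤ p ∨ ∀ K : Subgroup G, ¬ p ^ 2 ∣ Nat.card K → PC p K) →
      PC p (⊤ : Subgroup G) := by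
  induction N with
  | zero =>
    intro G _ _ hcard
    have := Nat.card_pos (α := G)
    omega
  | succ N ih =>
    intro G _ _ hcard ψ hψ hψ1 hfaith hcase
    apply step p n hn ψ hψ hψ1 hfaith hcase
    intro L hL
    have hlt : Nat.card L ≤ N := by
      by_contra hcon
      apply hL
      apply Subgroup.eq_top_of_le_card
      omega
    have hres1 : (fun l : L => ψ l) 1 = n := by
      show ψ ((1 : L) : G) = n
      rw [Subgroup.coe_one, hψ1]
    have hfaithL : ∀ l : L, (fun l : L => ψ l) l = (fun l : L => ψ l) 1 → l = 1 := by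
      intro l hl
      apply Subtype.ext
      apply hfaith
      exact hl
    have hcaseL : (n + 1) ^ 2 ≤ p ∨ ∀ K' : Subgroup L, ¬ p ^ 2 ∣ Nat.card K' → PC p K' := by
      rcases hcase with h | h
      · exact Or.inl h
      · right
        intro K' hK'
        have hcard' : Nat.card (K'.map L.subtype) = Nat.card K' :=
          Subgroup.card_map_of_injective (Subgroup.subtype_injective L)
        have hPC := h (K'.map L.subtype) (by rw [hcard']; exact hK')
        intro x hx y hy hpx hpy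
        rw [← PE_coe]
        exact hPC x (Subgroup.mem_map_of_mem _ hx) y (Subgroup.mem_map_of_mem _ hy)
          ((PE_coe p L x).mpr hpx) ((PE_coe p L y).mpr hpy)
    have hL' := ih L hlt (fun l : L => ψ l) (IsCharacter.restrict hψ L) hres1 hfaithL hcaseL
    intro x hx y hy hpx hpy
    have h1 := hL' ⟨x, hx⟩ (Subgroup.mem_top _) ⟨y, hy⟩ (Subgroup.mem_top _)
      ((PE_coe p L ⟨x, hx⟩).mp hpx) ((PE_coe p L ⟨y, hy⟩).mp hpy)
    exact (PE_coe p L (⟨x, hx⟩ * ⟨y, hy⟩)).mpr h1

end final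

/-- Let G be a finite group with a faithful complex representation of degree n (on Fin n → ℂ) and p a prime. Suppose either that (n + 1) ^ 2 ≤ p, or that n + 1 < p and every subgroup of G whose order is not divisible by p ^ 2 has a normal Sylow p-subgroup. Then every Sylow p-subgroup of G is normal. -/
theorem result {G : Type*} [Group G] [Finite G] (n : ℕ) (ρ : Representation ℂ G (Fin n → ℂ)) (hρ : Function.Injective ρ) (p : ℕ) [Fact p.Prime] (h : (n + 1) ^ 2 ≤ p ∨ (n + 1 < p ∧ ∀ K : Subgroup G, ¬ p ^ 2 ∣ Nat.card K → ∀ Q : Sylow p K, (Q : Subgroup K).Normal)) (P : Sylow p G) : (P : Subgroup G).Normal := by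
  have hp : p.Prime := Fact.out
  have hn : n + 1 < p := by
    rcases h with h | h
    · by_contra hcon
      have h2 := hp.two_le
      nlinarith
    · exact h.1
  have hψ : IsCharacter G ρ.character := ⟨n, ρ, rfl⟩
  have hψ1 : ρ.character 1 = n := by
    rw [Representation.char_one]
    simp
  have hfaith : ∀ g, ρ.character g = ρ.character 1 → g = 1 := by
    intro g hg
    rw [Representation.char_one] at hg
    have h1 := (char_eq_finrank_iff ρ g).mp hg
    apply hρ
    rw [h1, map_one]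
    rfl
  have hcase : (n + 1) ^ 2 ≤ p ∨ ∀ K : Subgroup G, ¬ p ^ 2 ∣ Nat.card K → PC p K := by
    rcases h with h | h
    · exact Or.inl h
    · right
      intro K hK
      obtain ⟨Q⟩ : Nonempty (Sylow p K) := inferInstance
      have hQn := h.2 K hK Q
      have hPC := PC_of_normal p Q hQn
      intro x hx y hy hpx hpy
      have h1 := hPC ⟨x, hx⟩ (Subgroup.mem_top _) ⟨y, hy⟩ (Subgroup.mem_top _)
        ((PE_coe p K ⟨x, hx⟩).mp hpx) ((PE_coe p K ⟨y, hy⟩).mp hpy)
      exact (PE_coe p K (⟨x, hx⟩ * ⟨y, hy⟩)).mpr h1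
  exact normal_of_PC p (main p n hn (Nat.card G) G le_rfl ρ.character hψ hψ1 hfaith hcase) P

end Cfsg.Agent.S0899
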