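import Cfsg.Statements.S5103
import Cfsg.Agent.Lib.Helper26.FusReal
import Cfsg.Agent.Lib.Helper26.Rigid
import Cfsg.Agent.Lib.Lead.Cores

set_option autoImplicit false
open Cfsg

namespace Cfsg.Agent.S5103

open Cfsg.Agent.Lib.Helper26 Cfsg.FusionSystem

/-- A fusion system over a finite p-group that has a model (a finite group realizing it on a Sylow p-subgroup with self-centralizing largest normal p-subgroup) is constrained. -/
theorem result {Ω : Type*} [Group Ω] {S : Subgroup Ω} [Finite S] (p : ℕ) [Fact p.Prime] (hS : IsPGroup p S) (F : Cfsg.FusionSystem S) {G : Type*} [Group G] (ι : S →* G) (hG : F.IsModel p G ι) : F.IsConstrained p := by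
  obtain ⟨hfin, hreal, ⟨T₀, hT₀⟩, hcent⟩ := hG
  haveI : Finite G := hfin
  have hα := realized_surjectiveMorphism F ι hreal (T₀ : Subgroup G) hT₀
  have hsat : F.IsSaturated p := image_saturated T₀.isPGroup'
    (Cfsg.groupFusionSystem (T₀ : Subgroup G)) (groupFusion_saturated T₀) F _ hα
  refine ⟨hsat, ?_⟩
  haveI hOn : (Cfsg.pCore p G).Normal := Cfsg.Agent.Lib.Lead.Cores.pCore_normal p
  have hOp : IsPGroup p (Cfsg.pCore p G) := Cfsg.Agent.Lib.Lead.Cores.pCore_isPGroup p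
  have hOT : Cfsg.pCore p G ≤ (T₀ : Subgroup G) := normal_pGroup_le_sylow _ hOp T₀
  have hOr : Cfsg.pCore p G ≤ ι.range := hT₀ ▸ hOT
  have hQS : ((Cfsg.pCore p G).comap ι).map S.subtype ≤ S := Subgroup.map_subtype_le _
  have hQmem : ∀ y : Ω, y ∈ ((Cfsg.pCore p G).comap ι).map S.subtype ↔
      ∃ hy : y ∈ S, ι ⟨y, hy⟩ ∈ Cfsg.pCore p G := by
    intro y
    constructor
    · rintro ⟨s, hs, rfl⟩
      exact ⟨s.2, hs⟩
    · rintro ⟨hy, h⟩
      exact ⟨⟨y, hy⟩, h, rfl⟩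
  generalize ((Cfsg.pCore p G).comap ι).map S.subtype = Q at hQS hQmem
  have hnormal : F.IsNormal Q := by
    refine ⟨hQS, fun P φ hφ => ?_⟩
    obtain ⟨hP, hφS⟩ := F.le_of_mem hφ
    obtain ⟨g, hg⟩ := (hreal.2 P hP φ hφS).mp hφ
    have hPQ : P ⊔ Q ≤ S := sup_le hP hQS
    have hval : ∀ y : ↥(P ⊔ Q),
        ((MulAut.conj g).toMonoidHom.comp (ι.comp (Subgroup.inclusion hPQ))) y ∈ ι.range := by
      have h1 := eq_top_of_forall_sup (A := P) (B := Q)
        (ι.range.comap ((MulAut.conj g).toMonoidHom.comp (ι.comp (Subgroup.inclusion hPQ)))) ?_ ?_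
      · intro z
        have h2 : z ∈ ι.range.comap
            ((MulAut.conj g).toMonoidHom.comp (ι.comp (Subgroup.inclusion hPQ))) := by
          rw [h1]
          exact Subgroup.mem_top z
        exact h2
      · intro x
        show g * ι ⟨x, hPQ (le_sup_left (a := P) x.2)⟩ * g⁻¹ ∈ ι.range
        have h3 := hg x
        rw [← h3]
        exact ⟨_, rfl⟩
      · intro x
        show g * ι ⟨x, hPQ (le_sup_right (b := Q) x.2)⟩ * g⁻¹ ∈ ι.range
        apply hOr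
        obtain ⟨_, h4⟩ := (hQmem _).mp x.2
        exact hOn.conj_mem _ h4 g
    have hψS : ∀ y : ↥(P ⊔ Q), (S.subtype.comp ((MonoidHom.ofInjective hreal.1).symm.toMonoidHom.comp
        (((MulAut.conj g).toMonoidHom.comp (ι.comp (Subgroup.inclusion hPQ))).codRestrict
          ι.range hval))) y ∈ S := fun y => Subtype.property _
    have hιψ : ∀ y : ↥(P ⊔ Q), ι ⟨(S.subtype.comp ((MonoidHom.ofInjective hreal.1).symm.toMonoidHom.comp
        (((MulAut.conj g).toMonoidHom.comp (ι.comp (Subgroup.inclusion hPQ))).codRestrict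
          ι.range hval))) y, hψS y⟩ = g * ι ⟨y, hPQ y.2⟩ * g⁻¹ := by
      intro y
      exact MonoidHom.apply_ofInjective_symm hreal.1 _
    generalize (S.subtype.comp ((MonoidHom.ofInjective hreal.1).symm.toMonoidHom.comp
        (((MulAut.conj g).toMonoidHom.comp (ι.comp (Subgroup.inclusion hPQ))).codRestrict
          ι.range hval))) = ψ at hψS hιψ
    have hψ : ψ ∈ F.Hom (P ⊔ Q) := (hreal.2 (P ⊔ Q) hPQ ψ hψS).mpr ⟨g, hιψ⟩
    refine ⟨ψ, hψ, fun x => ?_, ?_⟩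
    · have h1 := hιψ (Subgroup.inclusion le_sup_left x)
      have h2 := hg x
      have h3 : ι ⟨ψ (Subgroup.inclusion le_sup_left x), hψS _⟩ = ι ⟨φ x, hφS x⟩ := by
        rw [h1, h2]
        rfl
      exact congrArg (fun z : ↥S => (z : Ω)) (hreal.1 h3)
    · apply le_antisymm
      · rintro _ ⟨y, hy, rfl⟩
        rw [hQmem]
        refine ⟨hψS y, ?_⟩
        rw [hιψ]
        obtain ⟨_, h4⟩ := (hQmem _).mp (Subgroup.mem_subgroupOf.mp hy)
        exact hOn.conj_mem _ h4 g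
      · intro q hq
        obtain ⟨hqS, hqO⟩ := (hQmem q).mp hq
        have h1 : g⁻¹ * ι ⟨q, hqS⟩ * g⁻¹⁻¹ ∈ Cfsg.pCore p G := hOn.conj_mem _ hqO g⁻¹
        obtain ⟨q₀, hq₀⟩ := hOr h1
        have hq₀Q : (q₀ : Ω) ∈ Q := (hQmem _).mpr ⟨q₀.2, by
          have e : (⟨(q₀ : Ω), q₀.2⟩ : S) = q₀ := rfl
          rw [e, hq₀]
          exact h1⟩
        refine ⟨⟨q₀, Subgroup.mem_sup_right hq₀Q⟩, Subgroup.mem_subgroupOf.mpr hq₀Q, ?_⟩
        have h3 := hιψ ⟨q₀, Subgroup.mem_sup_right hq₀Q⟩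
        have h4 : ι ⟨ψ ⟨q₀, Subgroup.mem_sup_right hq₀Q⟩, hψS _⟩ = ι ⟨q, hqS⟩ := by
          rw [h3]
          have e : (⟨(q₀ : Ω), hPQ (Subgroup.mem_sup_right hq₀Q)⟩ : S) = q₀ := rfl
          rw [e, hq₀]
          group
        exact congrArg (fun z : ↥S => (z : Ω)) (hreal.1 h4)
  have hcentric : F.IsCentric Q := by
    refine ⟨hQS, fun Q₁ hconj => ?_⟩
    have hsc := stronglyClosed_of_isNormal F hnormal
    obtain ⟨φ, hφ, hr⟩ := hconj
    have hQ₁ : Q₁ = Q := by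
      rw [← hr]
      apply le_antisymm
      · rintro _ ⟨x, rfl⟩
        exact hsc.2 Q le_rfl φ hφ x
      · intro q hq
        obtain ⟨x, -, hx⟩ := stronglyClosed_surj F hsc hφ le_rfl q hq
        exact ⟨x, hx⟩
    rw [hQ₁]
    intro y hy
    obtain ⟨hyS, hyC⟩ := mem_centralizerIn_iff.mp hy
    rw [hQmem]
    refine ⟨hyS, hcent ?_⟩
    rw [Subgroup.mem_centralizer_iff]
    intro z hz
    obtain ⟨z₀, rfl⟩ := hOr hz
    have hz₀Q : (z₀ : Ω) ∈ Q := (hQmem _).mpr ⟨z₀.2, hz⟩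
    have h1 : (z₀ : Ω) * y = y * z₀ := Subgroup.mem_centralizer_iff.mp hyC z₀ hz₀Q
    have h2 : z₀ * ⟨y, hyS⟩ = ⟨y, hyS⟩ * z₀ := Subtype.ext h1
    rw [← map_mul, ← map_mul, h2]
  exact ⟨Q, hnormal, hcentric⟩

end Cfsg.Agent.S5103
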