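import Cfsg.Statements.S3771
import Mathlib
import Cfsg.Agent.Lib.Helper20.ESpecial
import Cfsg.Agent.Lib.Helper16.Basic

set_option autoImplicit false
open Cfsg

namespace Cfsg.Agent.S3771

open Cfsg.Agent.Lib.Helper20.ESpecial

theorem card_succ_le {R : Type*} [Group R] [Finite R] {p : ℕ} [Fact p.Prime] (hR : IsPGroup p R)
    {H K : Subgroup R} (h : H < K) {a : ℕ} (hH : p ^ a ≤ Nat.card H) :
    p ^ (a + 1) ≤ Nat.card K := by
  have hp : p.Prime := Fact.out
  obtain ⟨k, hk⟩ := IsPGroup.iff_card.mp (hR.to_subgroup K)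
  obtain ⟨j, hj⟩ := IsPGroup.iff_card.mp (hR.to_subgroup H)
  have hlt : Nat.card H < Nat.card K := by
    by_contra hcon
    push Not at hcon
    exact h.ne (Subgroup.eq_of_le_of_card_ge h.le hcon)
  rw [hj] at hH hlt
  rw [hk] at hlt ⊢
  have h1 : a ≤ j := (Nat.pow_le_pow_iff_right hp.one_lt).mp hH
  have h2 : j < k := (Nat.pow_lt_pow_iff_right hp.one_lt).mp hlt
  exact Nat.pow_le_pow_right hp.pos (by omega)

theorem closure_comm {G : Type*} [Group G] {S : Set G} (hS : ∀ a ∈ S, ∀ b ∈ S, a * b = b * a) :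
    IsMulCommutative (Subgroup.closure S) :=
  ⟨⟨fun a b => Subtype.ext (Cfsg.Agent.Lib.Helper16.Basic.closure_commute hS a a.2 b b.2)⟩⟩

theorem result {R : Type*} [Group R] [Finite R] {p : ℕ} [Fact p.Prime] (hR : IsPGroup p R) (hrank : Cfsg.PRankLE p 2 R) (hexp : ∀ x : R, x ^ p = 1) : Nat.card R ≤ p ^ 3 := by
  have hp : p.Prime := Fact.out
  by_contra hcon
  push Not at hcon
  have hrank' : ∀ A : Subgroup R, IsMulCommutative A → Nat.card A ≤ p ^ 2 :=
    fun A hA => hrank A hA (fun a _ => hexp a)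
  have hnt : Nontrivial R := by
    rw [← Finite.one_lt_card_iff_nontrivial]
    exact lt_of_le_of_lt (Nat.one_le_pow _ _ hp.pos) hcon
  have hcn := hR.center_nontrivial
  obtain ⟨⟨z, hzc⟩, hz1⟩ := exists_ne (1 : Subgroup.center R)
  have hz1' : z ≠ 1 := fun h => hz1 (Subtype.ext h)
  have hzo : orderOf z = p := orderOf_eq_prime (hexp z) hz1'
  obtain ⟨Z, hZ⟩ : ∃ Z : Subgroup R, Z = Subgroup.zpowers z := ⟨_, rfl⟩
  have hZc : Z ≤ Subgroup.center R := by
    rw [hZ]
    exact Subgroup.zpowers_le.mpr hzc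
  have hZn : Z.Normal := ⟨fun n hn g => by
    have h1 := Subgroup.mem_center_iff.mp (hZc hn) g
    rw [h1]
    simpa using hn⟩
  have hZcard : Nat.card Z = p := by rw [hZ, Nat.card_zpowers, hzo]
  have hqnt : Nontrivial (R ⧸ Z) := by
    rw [← Finite.one_lt_card_iff_nontrivial]
    have e := Subgroup.card_eq_card_quotient_mul_card_subgroup Z
    rw [hZcard] at e
    by_contra h
    push Not at h
    have h1 : Nat.card (R ⧸ Z) = 1 := le_antisymm h Nat.card_pos
    rw [h1, one_mul] at e
    rw [e] at hcon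
    have h2 : p ^ 1 ≤ p ^ 3 := Nat.pow_le_pow_right hp.pos (by norm_num)
    rw [pow_one] at h2
    omega
  have hqc := (hR.to_quotient Z).center_nontrivial
  obtain ⟨⟨ub, hubc⟩, hub1⟩ := exists_ne (1 : Subgroup.center (R ⧸ Z))
  obtain ⟨u, rfl⟩ := QuotientGroup.mk_surjective ub
  have huZ : u ∉ Z := fun h => hub1 (Subtype.ext ((QuotientGroup.eq_one_iff u).mpr h))
  have hcomm : ∀ g : R, g * u * g⁻¹ * u⁻¹ ∈ Z := by
    intro g
    rw [← QuotientGroup.eq_one_iff]
    have h' : (QuotientGroup.mk g : R ⧸ Z) * QuotientGroup.mk u =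
        QuotientGroup.mk u * QuotientGroup.mk g :=
      Subgroup.mem_center_iff.mp hubc (QuotientGroup.mk g)
    simp only [QuotientGroup.mk_mul, QuotientGroup.mk_inv]
    rw [h']
    group
  have hCcard : Nat.card R ≤ Nat.card (Subgroup.centralizer ({u} : Set R)) * p := by
    have e := Subgroup.card_mul_index (Subgroup.centralizer ({u} : Set R))
    by_cases huc : u ∈ Subgroup.center R
    · have h1 : Subgroup.centralizer ({u} : Set R) = ⊤ := by
        rw [eq_top_iff]
        intro g _
        rw [Subgroup.mem_centralizer_singleton_iff]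
        exact Subgroup.mem_center_iff.mp huc g
      rw [h1, Subgroup.card_top]
      exact Nat.le_mul_of_pos_right _ hp.pos
    · rw [index_centralizer_eq_prime Z hZcard hZc u hcomm huc] at e
      exact e.ge
  have hR4 : p ^ 4 ≤ Nat.card R := by
    obtain ⟨n, hn⟩ := IsPGroup.iff_card.mp hR
    rw [hn] at hcon ⊢
    have h1 := (Nat.pow_lt_pow_iff_right hp.one_lt).mp hcon
    exact Nat.pow_le_pow_right hp.pos h1
  have hC3 : p ^ 3 ≤ Nat.card (Subgroup.centralizer ({u} : Set R)) := by
    have h1 : p ^ 3 * p ≤ Nat.card (Subgroup.centralizer ({u} : Set R)) * p := by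
      calc p ^ 3 * p = p ^ 4 := by ring
        _ ≤ _ := hR4.trans hCcard
    exact Nat.le_of_mul_le_mul_right h1 hp.pos
  have hzall : ∀ g : R, g * z = z * g := Subgroup.mem_center_iff.mp hzc
  have h23 : p ^ 2 < p ^ 3 := Nat.pow_lt_pow_right hp.one_lt (by norm_num)
  have hNab : IsMulCommutative (Subgroup.closure ({z, u} : Set R)) := by
    apply closure_comm
    rintro a (rfl | rfl) b (rfl | rfl)
    · rfl
    · exact (hzall b).symm
    · exact hzall a
    · rfl
  have hNcard := hrank' _ hNab
  have hNC : Subgroup.closure ({z, u} : Set R) ≤ Subgroup.centralizer ({u} : Set R) := by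
    rw [Subgroup.closure_le]
    rintro y (rfl | rfl)
    · rw [SetLike.mem_coe, Subgroup.mem_centralizer_singleton_iff]
      exact (hzall u).symm
    · rw [SetLike.mem_coe, Subgroup.mem_centralizer_singleton_iff]
  obtain ⟨x, hxC, hxN⟩ : ∃ x ∈ Subgroup.centralizer ({u} : Set R),
      x ∉ Subgroup.closure ({z, u} : Set R) := by
    by_contra h
    push Not at h
    have h1 := Subgroup.card_le_of_le
      (show Subgroup.centralizer ({u} : Set R) ≤ Subgroup.closure ({z, u} : Set R) from h)
    omega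
  have hxu : x * u = u * x := Subgroup.mem_centralizer_singleton_iff.mp hxC
  have hEab : IsMulCommutative (Subgroup.closure ({z, u, x} : Set R)) := by
    apply closure_comm
    rintro a (rfl | rfl | rfl) b (rfl | rfl | rfl)
    · rfl
    · exact (hzall b).symm
    · exact (hzall b).symm
    · exact hzall a
    · rfl
    · exact hxu.symm
    · exact hzall a
    · exact hxu
    · rfl
  have hEcard := hrank' _ hEab
  have hZN : Z < Subgroup.closure ({z, u} : Set R) := by
    refine lt_of_le_of_ne ?_ (fun h => huZ (h ▸ Subgroup.subset_closure (by simp)))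
    rw [hZ]
    exact Subgroup.zpowers_le.mpr (Subgroup.subset_closure (by simp))
  have hNE : Subgroup.closure ({z, u} : Set R) < Subgroup.closure ({z, u, x} : Set R) := by
    refine lt_of_le_of_ne (Subgroup.closure_mono ?_)
      (fun h => hxN (h ▸ Subgroup.subset_closure (by simp)))
    intro y hy
    simp only [Set.mem_insert_iff, Set.mem_singleton_iff] at hy ⊢
    tauto
  have h2 := card_succ_le hR hZN (a := 1) (by rw [pow_one, hZcard])
  have h3 : p ^ 3 ≤ Nat.card ↥(Subgroup.closure ({z, u, x} : Set R)) :=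
    card_succ_le hR hNE h2
  omega

end Cfsg.Agent.S3771
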