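import Cfsg.Statements.S1449
import Mathlib
import Cfsg.Agent.Lib.Helper12.SmallExp
import Cfsg.Agent.Lib.Helper27.OddGL2D
import Cfsg.Agent.S3771

set_option autoImplicit false
open Cfsg

namespace Cfsg.Agent.S1449

open scoped commutatorElement
open Cfsg.Agent.Lib.Helper27.OddGL2

/-- core: an element of order prime to `p` in the derived subgroup of an odd-order solvable
group acting faithfully on a `p`-group of rank at most two is trivial -/
theorem core (p : ℕ) [Fact p.Prime] (hp : p ≠ 2) {P : Type*} [Group P] [Finite P]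
    (hP : IsPGroup p P) (hr : Cfsg.PRankLE p 2 P) {X : Type*} [Group X] [Finite X]
    (hodd : Odd (Nat.card X)) [Group.IsSolvable X] (φ : X →* MulAut P)
    (hφ : Function.Injective φ) (a : X) (ha : a ∈ commutator X)
    (hco : (orderOf a).Coprime p) : a = 1 := by
  have hpp : p.Prime := Fact.out
  obtain ⟨D, hDinv, -, hDexp, hDc, hDf⟩ :=
    Cfsg.Agent.Lib.Helper12.SmallExp.exists_small_exp hP ⊤ (fun g => Subgroup.mem_top _) ⊤
      (fun _ _ _ _ => Subgroup.mem_top _) (fun _ _ _ _ => Subgroup.mem_top _)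
  have hDexp' : ∀ d ∈ D, d ^ p = 1 := fun d hd => (hDexp d hd).resolve_right (fun h => hp h.1)
  have hDinv' : ∀ (α : MulAut P), ∀ d ∈ D, α d ∈ D :=
    fun α d hd => hDinv α (Subgroup.mem_top _) d hd
  obtain ⟨Z, hZ⟩ : ∃ Z : Subgroup P, Z = D ⊓ Subgroup.centralizer (D : Set P) := ⟨_, rfl⟩
  have hZmem : ∀ z, z ∈ Z ↔ z ∈ D ∧ ∀ d ∈ D, d * z = z * d := by
    intro z
    rw [hZ, Subgroup.mem_inf, Subgroup.mem_centralizer_iff]
    rfl
  have hZD : Z ≤ D := fun z hz => ((hZmem z).mp hz).1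
  have hZinv : ∀ (α : MulAut P), ∀ z ∈ Z, α z ∈ Z := by
    intro α z hz
    obtain ⟨hzD, hzc⟩ := (hZmem z).mp hz
    refine (hZmem _).mpr ⟨hDinv' α z hzD, ?_⟩
    intro d hd
    have h1 := hzc (α⁻¹ d) (hDinv' α⁻¹ d hd)
    have h2 := congrArg α h1
    rw [map_mul, map_mul, ← MulAut.mul_apply, mul_inv_cancel, MulAut.one_apply] at h2
    exact h2
  have hcommZ : ∀ d ∈ D, ∀ x : P, ⁅d, x⁆ ∈ Z := fun d hd x =>
    (hZmem _).mpr ⟨(hDc d hd x).1, fun d' hd' => ((hDc d hd x).2 d' hd').symm⟩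
  -- orders
  have hZcomm : ∀ x y : ↥Z, x * y = y * x := by
    intro x y
    apply Subtype.ext
    exact ((hZmem y).mp y.2).2 x (hZD x.2)
  have hZcard : Nat.card Z ≤ p ^ 2 :=
    hr Z ⟨⟨hZcomm⟩⟩ (fun z hz => hDexp' z (hZD hz))
  have hDp : IsPGroup p ↥D := hP.to_subgroup D
  have hrD : Cfsg.PRankLE p 2 ↥D := by
    intro A hAc hAe
    have h1 := hr (A.map D.subtype)
      ⟨⟨fun x y => by
        obtain ⟨x, hx⟩ := x
        obtain ⟨y, hy⟩ := y
        obtain ⟨x', hx', rfl⟩ := hx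
        obtain ⟨y', hy', rfl⟩ := hy
        apply Subtype.ext
        have h2 := hAc.is_comm.comm ⟨x', hx'⟩ ⟨y', hy'⟩
        exact congrArg (fun t : ↥A => ((t : ↥D) : P)) h2⟩⟩
      (by
        rintro x ⟨x', hx', rfl⟩
        have h2 := hAe x' hx'
        exact congrArg (fun t : ↥D => (t : P)) h2)
    rw [Subgroup.card_map_of_injective D.subtype_injective] at h1
    exact h1
  have hDcard : Nat.card D ≤ p ^ 3 :=
    Cfsg.Agent.S3771.result hDp hrD (fun x => Subtype.ext (by
      rw [Subgroup.coe_pow]; exact hDexp' x x.2))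
  -- the actions
  obtain ⟨ψ₁, hψ₁⟩ := exists_res φ Z (fun x z hz => hZinv (φ x) z hz)
  obtain ⟨ρ, hρ⟩ := exists_res φ D (fun x d hd => hDinv' (φ x) d hd)
  obtain ⟨N, hN⟩ : ∃ N : Subgroup ↥D, N = Z.subgroupOf D := ⟨_, rfl⟩
  have hNmem : ∀ n : ↥D, n ∈ N ↔ (n : P) ∈ Z := by
    intro n
    rw [hN, Subgroup.mem_subgroupOf]
  haveI hNn : N.Normal := ⟨fun n hn g => by
    rw [hNmem] at hn ⊢
    have h1 := ((hZmem _).mp hn).2 g g.2
    have h2 : ((g * n * g⁻¹ : ↥D) : P) = (n : P) := by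
      rw [Subgroup.coe_mul, Subgroup.coe_mul, Subgroup.coe_inv, h1, mul_inv_cancel_right]
    rw [h2]
    exact hn⟩
  obtain ⟨ψ₂, hψ₂⟩ := exists_quot ρ N (fun x n hn => by
    rw [hNmem] at hn ⊢
    rw [hρ]
    exact hZinv (φ x) _ hn)
  -- the quotient is small
  have hQcomm : ∀ x y : ↥D ⧸ N, x * y = y * x := by
    intro x y
    induction x using QuotientGroup.induction_on with
    | H d =>
    induction y using QuotientGroup.induction_on with
    | H d' =>
    rw [← QuotientGroup.mk_mul, ← QuotientGroup.mk_mul, QuotientGroup.eq, hNmem]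
    have h1 := hcommZ (d' : P)⁻¹ (D.inv_mem d'.2) (d : P)⁻¹
    have h2 : (((d * d')⁻¹ * (d' * d) : ↥D) : P) = ⁅(d' : P)⁻¹, (d : P)⁻¹⁆ := by
      rw [commutatorElement_def, Subgroup.coe_mul, Subgroup.coe_inv, Subgroup.coe_mul,
        Subgroup.coe_mul]
      group
    rw [h2]
    exact h1
  have hQexp : ∀ x : ↥D ⧸ N, x ^ p = 1 := by
    intro x
    induction x using QuotientGroup.induction_on with
    | H d =>
    rw [← QuotientGroup.mk_pow]
    have h1 : d ^ p = 1 := Subtype.ext (by rw [Subgroup.coe_pow]; exact hDexp' d d.2)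
    rw [h1, QuotientGroup.mk_one]
  have hQcard : Nat.card (↥D ⧸ N) ≤ p ^ 2 := by
    have hmul := Subgroup.card_eq_card_quotient_mul_card_subgroup N
    by_cases hDt : Nontrivial ↥D
    · haveI := hDt
      haveI := hDp.center_nontrivial
      obtain ⟨⟨z, hzc⟩, hz1⟩ := exists_ne (1 : Subgroup.center ↥D)
      have hzN : z ∈ N := by
        rw [hNmem]
        refine (hZmem _).mpr ⟨z.2, ?_⟩
        intro d hd
        have h1 := Subgroup.mem_center_iff.mp hzc ⟨d, hd⟩
        exact congrArg (fun t : ↥D => (t : P)) h1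
      have hz1' : z ≠ 1 := fun h => hz1 (Subtype.ext h)
      have hNp : IsPGroup p ↥N := hDp.to_subgroup N
      obtain ⟨j, hj⟩ := IsPGroup.iff_card.mp hNp
      have hj1 : j ≠ 0 := by
        rintro rfl
        rw [pow_zero] at hj
        have hsub : Subsingleton ↥N := (Nat.card_eq_one_iff_unique.mp hj).1
        have h1 : (⟨z, hzN⟩ : ↥N) = 1 := Subsingleton.elim _ _
        exact hz1' (congrArg (fun t : ↥N => (t : ↥D)) h1)
      have hpj : p ≤ Nat.card ↥N := by
        rw [hj]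
        calc p = p ^ 1 := (pow_one p).symm
          _ ≤ p ^ j := Nat.pow_le_pow_right hpp.pos (Nat.one_le_iff_ne_zero.mpr hj1)
      have h3 : Nat.card (↥D ⧸ N) * p ≤ p ^ 2 * p := by
        calc Nat.card (↥D ⧸ N) * p ≤ Nat.card (↥D ⧸ N) * Nat.card ↥N :=
              Nat.mul_le_mul_left _ hpj
          _ = Nat.card ↥D := hmul.symm
          _ ≤ p ^ 3 := hDcard
          _ = p ^ 2 * p := by ring
      exact Nat.le_of_mul_le_mul_right h3 hpp.pos
    · rw [not_nontrivial_iff_subsingleton] at hDt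
      haveI := hDt
      have h1 : Nat.card (↥D ⧸ N) ≤ 1 := Finite.card_le_one_iff_subsingleton.mpr inferInstance
      exact h1.trans (Nat.one_le_pow _ _ hpp.pos)
  -- both actions are trivial for `a`
  have t1 : ψ₁ a = 1 := trivial_on_small p hp hodd hZcomm
    (fun x => Subtype.ext (by rw [Subgroup.coe_pow]; exact hDexp' x (hZD x.2))) hZcard ψ₁ a ha hco
  have t2 : ψ₂ a = 1 := trivial_on_small p hp hodd hQcomm hQexp hQcard ψ₂ a ha hco
  have hfixZ : ∀ z ∈ Z, φ a z = z := by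
    intro z hz
    have h1 := hψ₁ a ⟨z, hz⟩
    rw [t1, MulAut.one_apply] at h1
    exact h1.symm
  have hmodZ : ∀ d ∈ D, d⁻¹ * φ a d ∈ Z := by
    intro d hd
    have h1 := hψ₂ a ⟨d, hd⟩
    rw [t2, MulAut.one_apply] at h1
    have h2 := QuotientGroup.eq.mp h1
    rw [hNmem, Subgroup.coe_mul, Subgroup.coe_inv, hρ] at h2
    exact h2
  have hcoφ : (orderOf (φ a)).Coprime p := Nat.Coprime.coprime_dvd_left (orderOf_map_dvd φ a) hco
  have hfixD : ∀ d ∈ D, φ a d = d := by
    intro d hd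
    apply Cfsg.Agent.Lib.Helper12.SmallExp.fix_of_coprime hP (φ a) hcoφ d
    exact hfixZ _ (hmodZ d hd)
  have h1 : φ a = 1 := hDf (φ a) (Subgroup.mem_top _) hcoφ hfixD
  exact hφ (by rw [h1, map_one])

/-- Let G be a finite group, p an odd prime, R a p-subgroup with no elementary abelian subgroup of order p ^ 3, and A a solvable subgroup of odd order normalizing R with A ∩ C_G(R) = 1. Then the derived subgroup [A, A] is a p-group. -/
theorem result {G : Type*} [Group G] [Finite G] (p : ℕ) [Fact p.Prime] (hp : p ≠ 2) (R A : Subgroup G) (hR : IsPGroup p R) (hr : Cfsg.PRankLE p 2 R)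
    (hA : (A ≤ Subgroup.normalizer (R : Set G))) (hAs : Group.IsSolvable A) (hAodd : Odd (Nat.card A)) (hfaith : A ⊓ Subgroup.centralizer (R : Set G) = ⊥) :
    IsPGroup p ↥⁅A, A⁆ := by
  have hpp : p.Prime := Fact.out
  obtain ⟨φ, hφdef⟩ : ∃ φ : ↥A →* MulAut ↥R,
      φ = (Subgroup.normalizerMonoidHom R).comp (Subgroup.inclusion hA) := ⟨_, rfl⟩
  have hφ : Function.Injective φ := by
    rw [injective_iff_map_eq_one]
    intro x hx
    have h1 : Subgroup.inclusion hA x ∈ (Subgroup.normalizerMonoidHom R).ker := by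
      rw [MonoidHom.mem_ker]
      rw [hφdef] at hx
      exact hx
    rw [Subgroup.normalizerMonoidHom_ker, Subgroup.mem_subgroupOf, Subgroup.coe_inclusion] at h1
    have h2 : (x : G) ∈ A ⊓ Subgroup.centralizer (R : Set G) := ⟨x.2, h1⟩
    rw [hfaith, Subgroup.mem_bot] at h2
    exact Subtype.ext h2
  haveI := hAs
  apply IsPGroup.of_card (n := (Nat.card ↥⁅A, A⁆).primeFactorsList.length)
  apply Nat.eq_prime_pow_of_unique_prime_dvd Nat.card_pos.ne'
  intro q hq hqd
  by_contra hne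
  haveI : Fact q.Prime := ⟨hq⟩
  obtain ⟨c, hc⟩ := exists_prime_orderOf_dvd_card' q hqd
  have hcm : (c : G) ∈ (commutator ↥A).map A.subtype := by
    rw [Subgroup.map_subtype_commutator]
    exact c.2
  obtain ⟨a, ha, hac⟩ := hcm
  have hoa : orderOf a = q := by
    rw [← Subgroup.orderOf_coe a, ← hc, ← Subgroup.orderOf_coe c]
    exact congrArg orderOf hac
  have hco : (orderOf a).Coprime p := by
    rw [hoa]
    exact (Nat.coprime_primes hq hpp).mpr hne
  have h1 := core p hp hR hr hAodd φ hφ a ha hco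
  rw [h1, orderOf_one] at hoa
  exact hq.one_lt.ne hoa

end Cfsg.Agent.S1449
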