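import Cfsg.Statements.S1450
import Mathlib
import Cfsg.Agent.S1449
import Cfsg.Agent.Lib.Helper6.Fong
import Cfsg.Agent.Lib.Helper9.Cores

set_option autoImplicit false

open Cfsg

namespace Cfsg.Agent.S1450

open scoped commutatorElement
open Cfsg.Agent.Lib.Helper27.OddGL2

/-- an automorphism of prime order `q > p` (both odd) of a group of exponent `p` and order at
most `p ^ 2` is trivial (count fixed points modulo `q`) -/
theorem small_aut (p q : ℕ) [Fact p.Prime] (hq : q.Prime) (hp2 : p ≠ 2) (hq2 : q ≠ 2)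
    (hpq : p < q) {V : Type*} [Group V] [Finite V] (hexp : ∀ x : V, x ^ p = 1)
    (hcard : Nat.card V ≤ p ^ 2) (α : MulAut V) (hα : α ^ q = 1) : α = 1 := by
  classical
  have hpp : p.Prime := Fact.out
  by_contra hne
  let F : Subgroup V :=
    { carrier := {v | α v = v}
      mul_mem' := fun {a b} ha hb => by
        have ha' : α a = a := ha
        have hb' : α b = b := hb
        show α (a * b) = a * b
        rw [map_mul, ha', hb']
      one_mem' := map_one α
      inv_mem' := fun {a} ha => by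
        have ha' : α a = a := ha
        show α a⁻¹ = a⁻¹
        rw [map_inv, ha'] }
  have hFmem : ∀ v, v ∈ F ↔ α v = v := fun v => Iff.rfl
  have hFtop : F ≠ ⊤ := by
    intro h
    apply hne
    apply MulEquiv.ext
    intro v
    rw [MulAut.one_apply]
    exact (hFmem v).mp (by rw [h]; exact Subgroup.mem_top v)
  have hV : IsPGroup p V := fun g => ⟨1, by rw [pow_one]; exact hexp g⟩
  obtain ⟨j, hj⟩ := IsPGroup.iff_card.mp hV
  obtain ⟨i, hi⟩ := IsPGroup.iff_card.mp (hV.to_subgroup F)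
  have hj2 : j ≤ 2 := by
    rw [hj] at hcard
    exact (Nat.pow_le_pow_iff_right hpp.one_lt).mp hcard
  have hij : i < j := by
    have h1 : Nat.card F ≤ Nat.card V := Subgroup.card_le_card_group F
    have h2 : Nat.card F ≠ Nat.card V := fun h => hFtop (Subgroup.eq_top_of_card_eq F h)
    have h3 : p ^ i < p ^ j := by rw [← hi, ← hj]; exact lt_of_le_of_ne h1 h2
    exact (Nat.pow_lt_pow_iff_right hpp.one_lt).mp h3
  letI : Fintype V := Fintype.ofFinite V
  haveI : Fact q.Prime := ⟨hq⟩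
  let f : Function.End V := (α : V → V)
  have hfpow : ∀ n : ℕ, f ^ n = ((α ^ n : MulAut V) : V → V) := by
    intro n
    induction n with
    | zero => rfl
    | succ n ih => rw [pow_succ, pow_succ, ih]; rfl
  have hf : f ^ q ^ 1 = 1 := by
    rw [pow_one, hfpow, hα]; rfl
  have hmod := Equiv.Perm.card_fixedPoints_modEq (f := f) (p := q) (n := 1) hf
  have hc1 : Fintype.card V = p ^ j := by rw [← hj, Nat.card_eq_fintype_card]
  have hc2 : Fintype.card (Function.fixedPoints f) = p ^ i := by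
    rw [← hi, ← Nat.card_eq_fintype_card]
    exact Nat.card_congr (Equiv.subtypeEquivRight (fun v => Iff.rfl))
  rw [hc1, hc2] at hmod
  have hle : p ^ i ≤ p ^ j := Nat.pow_le_pow_right hpp.pos hij.le
  have hdvd : q ∣ p ^ j - p ^ i := (Nat.modEq_iff_dvd' hle).mp hmod.symm
  have hp3 : 3 ≤ p := by
    have := hpp.two_le
    omega
  have hn1 : ¬ q ∣ p - 1 := by
    intro h
    have := Nat.le_of_dvd (by omega) h
    omega
  have hn2 : ¬ q ∣ p := by
    intro h
    have := Nat.le_of_dvd hpp.pos h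
    omega
  have hn3 : ¬ q ∣ p + 1 := by
    intro h
    have h1 := Nat.le_of_dvd (by omega) h
    have h2 : q = p + 1 := by omega
    have hpodd : Odd p := hpp.odd_of_ne_two hp2
    have hqeven : Even q := by rw [h2]; exact Odd.add_odd hpodd odd_one
    exact hq2 ((Nat.Prime.even_iff hq).mp hqeven)
  have hcases : (i = 0 ∧ j = 1) ∨ (i = 0 ∧ j = 2) ∨ (i = 1 ∧ j = 2) := by omega
  rcases hcases with ⟨rfl, rfl⟩ | ⟨rfl, rfl⟩ | ⟨rfl, rfl⟩
  · rw [pow_one, pow_zero] at hdvd
    exact hn1 hdvd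
  · rw [pow_zero] at hdvd
    have h1 : p ^ 2 - 1 = (p + 1) * (p - 1) := by
      have := Nat.sq_sub_sq p 1
      simpa using this
    rw [h1] at hdvd
    rcases (Nat.Prime.dvd_mul hq).mp hdvd with h | h
    · exact hn3 h
    · exact hn1 h
  · rw [pow_one] at hdvd
    have h1 : p ^ 2 - p = p * (p - 1) := by
      rw [Nat.mul_sub, mul_one, sq]
    rw [h1] at hdvd
    rcases (Nat.Prime.dvd_mul hq).mp hdvd with h | h
    · exact hn2 h
    · exact hn1 h

theorem core2 (p : ℕ) [Fact p.Prime] (hp : p ≠ 2) {P : Type*} [Group P] [Finite P]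
    (hP : IsPGroup p P) (hr : Cfsg.PRankLE p 2 P) {X : Type*} [Group X] (φ : X →* MulAut P)
    (a : X) (q : ℕ) (hq : q.Prime) (hq2 : q ≠ 2) (hpq : p < q) (haq : a ^ q = 1) :
    φ a = 1 := by
  have hpp : p.Prime := Fact.out
  obtain ⟨D, hDinv, -, hDexp, hDc, hDf⟩ :=
    Cfsg.Agent.Lib.Helper12.SmallExp.exists_small_exp hP ⊤ (fun g => Subgroup.mem_top _) ⊤
      (fun _ _ _ _ => Subgroup.mem_top _) (fun _ _ _ _ => Subgroup.mem_top _)
  have hDexp' : ∀ d ∈ D, d ^ p = 1 := fun d hd => (hDexp d hd).resolve_right (fun h => hp h.1)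
  have hDinv' : ∀ (α : MulAut P), ∀ d ∈ D, α d ∈ D :=
    fun α d hd => hDinv α (Subgroup.mem_top _) d hd
  obtain ⟨Z, hZ⟩ : ∃ Z : Subgroup P, Z = D ⊓ Subgroup.centralizer (D : Set P) := ⟨_, rfl⟩
  have hZmem : ∀ z, z ∈ Z ↔ z ∈ D ∧ ∀ d ∈ D, d * z = z * d := by
    intro z
    rw [hZ, Subgroup.mem_inf, Subgroup.mem_centralizer_iff]
    rfl
  have hZD : Z ≤ D := fun z hz => ((hZmem z).mp hz).1
  have hZinv : ∀ (α : MulAut P), ∀ z ∈ Z, α z ∈ Z := by
    intro α z hz
    obtain ⟨hzD, hzc⟩ := (hZmem z).mp hz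
    refine (hZmem _).mpr ⟨hDinv' α z hzD, ?_⟩
    intro d hd
    have h1 := hzc (α⁻¹ d) (hDinv' α⁻¹ d hd)
    have h2 := congrArg α h1
    rw [map_mul, map_mul, ← MulAut.mul_apply, mul_inv_cancel, MulAut.one_apply] at h2
    exact h2
  have hcommZ : ∀ d ∈ D, ∀ x : P, ⁅d, x⁆ ∈ Z := fun d hd x =>
    (hZmem _).mpr ⟨(hDc d hd x).1, fun d' hd' => ((hDc d hd x).2 d' hd').symm⟩
  -- orders
  have hZcomm : ∀ x y : ↥Z, x * y = y * x := by
    intro x y
    apply Subtype.ext
    exact ((hZmem y).mp y.2).2 x (hZD x.2)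
  have hZcard : Nat.card Z ≤ p ^ 2 :=
    hr Z ⟨⟨hZcomm⟩⟩ (fun z hz => hDexp' z (hZD hz))
  have hDp : IsPGroup p ↥D := hP.to_subgroup D
  have hrD : Cfsg.PRankLE p 2 ↥D := by
    intro A hAc hAe
    have h1 := hr (A.map D.subtype)
      ⟨⟨fun x y => by
        obtain ⟨x, hx⟩ := x
        obtain ⟨y, hy⟩ := y
        obtain ⟨x', hx', rfl⟩ := hx
        obtain ⟨y', hy', rfl⟩ := hy
        apply Subtype.ext
        have h2 := hAc.is_comm.comm ⟨x', hx'⟩ ⟨y', hy'⟩
        exact congrArg (fun t : ↥A => ((t : ↥D) : P)) h2⟩⟩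
      (by
        rintro x ⟨x', hx', rfl⟩
        have h2 := hAe x' hx'
        exact congrArg (fun t : ↥D => (t : P)) h2)
    rw [Subgroup.card_map_of_injective D.subtype_injective] at h1
    exact h1
  have hDcard : Nat.card D ≤ p ^ 3 :=
    Cfsg.Agent.S3771.result hDp hrD (fun x => Subtype.ext (by
      rw [Subgroup.coe_pow]; exact hDexp' x x.2))
  -- the actions
  obtain ⟨ψ₁, hψ₁⟩ := exists_res φ Z (fun x z hz => hZinv (φ x) z hz)
  obtain ⟨ρ, hρ⟩ := exists_res φ D (fun x d hd => hDinv' (φ x) d hd)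
  obtain ⟨N, hN⟩ : ∃ N : Subgroup ↥D, N = Z.subgroupOf D := ⟨_, rfl⟩
  have hNmem : ∀ n : ↥D, n ∈ N ↔ (n : P) ∈ Z := by
    intro n
    rw [hN, Subgroup.mem_subgroupOf]
  haveI hNn : N.Normal := ⟨fun n hn g => by
    rw [hNmem] at hn ⊢
    have h1 := ((hZmem _).mp hn).2 g g.2
    have h2 : ((g * n * g⁻¹ : ↥D) : P) = (n : P) := by
      rw [Subgroup.coe_mul, Subgroup.coe_mul, Subgroup.coe_inv, h1, mul_inv_cancel_right]
    rw [h2]
    exact hn⟩
  obtain ⟨ψ₂, hψ₂⟩ := exists_quot ρ N (fun x n hn => by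
    rw [hNmem] at hn ⊢
    rw [hρ]
    exact hZinv (φ x) _ hn)
  -- the quotient is small
  have hQcomm : ∀ x y : ↥D ⧸ N, x * y = y * x := by
    intro x y
    induction x using QuotientGroup.induction_on with
    | H d =>
    induction y using QuotientGroup.induction_on with
    | H d' =>
    rw [← QuotientGroup.mk_mul, ← QuotientGroup.mk_mul, QuotientGroup.eq, hNmem]
    have h1 := hcommZ (d' : P)⁻¹ (D.inv_mem d'.2) (d : P)⁻¹
    have h2 : (((d * d')⁻¹ * (d' * d) : ↥D) : P) = ⁅(d' : P)⁻¹, (d : P)⁻¹⁆ := by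
      rw [commutatorElement_def, Subgroup.coe_mul, Subgroup.coe_inv, Subgroup.coe_mul,
        Subgroup.coe_mul]
      group
    rw [h2]
    exact h1
  have hQexp : ∀ x : ↥D ⧸ N, x ^ p = 1 := by
    intro x
    induction x using QuotientGroup.induction_on with
    | H d =>
    rw [← QuotientGroup.mk_pow]
    have h1 : d ^ p = 1 := Subtype.ext (by rw [Subgroup.coe_pow]; exact hDexp' d d.2)
    rw [h1, QuotientGroup.mk_one]
  have hQcard : Nat.card (↥D ⧸ N) ≤ p ^ 2 := by
    have hmul := Subgroup.card_eq_card_quotient_mul_card_subgroup N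
    by_cases hDt : Nontrivial ↥D
    · haveI := hDt
      haveI := hDp.center_nontrivial
      obtain ⟨⟨z, hzc⟩, hz1⟩ := exists_ne (1 : Subgroup.center ↥D)
      have hzN : z ∈ N := by
        rw [hNmem]
        refine (hZmem _).mpr ⟨z.2, ?_⟩
        intro d hd
        have h1 := Subgroup.mem_center_iff.mp hzc ⟨d, hd⟩
        exact congrArg (fun t : ↥D => (t : P)) h1
      have hz1' : z ≠ 1 := fun h => hz1 (Subtype.ext h)
      have hNp : IsPGroup p ↥N := hDp.to_subgroup N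
      obtain ⟨j, hj⟩ := IsPGroup.iff_card.mp hNp
      have hj1 : j ≠ 0 := by
        rintro rfl
        rw [pow_zero] at hj
        have hsub : Subsingleton ↥N := (Nat.card_eq_one_iff_unique.mp hj).1
        have h1 : (⟨z, hzN⟩ : ↥N) = 1 := Subsingleton.elim _ _
        exact hz1' (congrArg (fun t : ↥N => (t : ↥D)) h1)
      have hpj : p ≤ Nat.card ↥N := by
        rw [hj]
        calc p = p ^ 1 := (pow_one p).symm
          _ ≤ p ^ j := Nat.pow_le_pow_right hpp.pos (Nat.one_le_iff_ne_zero.mpr hj1)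
      have h3 : Nat.card (↥D ⧸ N) * p ≤ p ^ 2 * p := by
        calc Nat.card (↥D ⧸ N) * p ≤ Nat.card (↥D ⧸ N) * Nat.card ↥N :=
              Nat.mul_le_mul_left _ hpj
          _ = Nat.card ↥D := hmul.symm
          _ ≤ p ^ 3 := hDcard
          _ = p ^ 2 * p := by ring
      exact Nat.le_of_mul_le_mul_right h3 hpp.pos
    · rw [not_nontrivial_iff_subsingleton] at hDt
      haveI := hDt
      have h1 : Nat.card (↥D ⧸ N) ≤ 1 := Finite.card_le_one_iff_subsingleton.mpr inferInstance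
      exact h1.trans (Nat.one_le_pow _ _ hpp.pos)
  -- both actions are trivial for `a`
  have t1 : ψ₁ a = 1 := small_aut p q hq hp hq2 hpq
    (fun x => Subtype.ext (by rw [Subgroup.coe_pow]; exact hDexp' x (hZD x.2))) hZcard (ψ₁ a)
    (by rw [← map_pow, haq, map_one])
  have t2 : ψ₂ a = 1 := small_aut p q hq hp hq2 hpq hQexp hQcard (ψ₂ a)
    (by rw [← map_pow, haq, map_one])
  have hfixZ : ∀ z ∈ Z, φ a z = z := by
    intro z hz
    have h1 := hψ₁ a ⟨z, hz⟩
    rw [t1, MulAut.one_apply] at h1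
    exact h1.symm
  have hmodZ : ∀ d ∈ D, d⁻¹ * φ a d ∈ Z := by
    intro d hd
    have h1 := hψ₂ a ⟨d, hd⟩
    rw [t2, MulAut.one_apply] at h1
    have h2 := QuotientGroup.eq.mp h1
    rw [hNmem, Subgroup.coe_mul, Subgroup.coe_inv, hρ] at h2
    exact h2
  have hcoφ : (orderOf (φ a)).Coprime p :=
    Nat.Coprime.coprime_dvd_left (orderOf_dvd_of_pow_eq_one (by rw [← map_pow, haq, map_one]))
      ((Nat.coprime_primes hq hpp).mpr (ne_of_gt hpq))
  have hfixD : ∀ d ∈ D, φ a d = d := by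
    intro d hd
    apply Cfsg.Agent.Lib.Helper12.SmallExp.fix_of_coprime hP (φ a) hcoφ d
    exact hfixZ _ (hmodZ d hd)
  exact hDf (φ a) (Subgroup.mem_top _) hcoφ hfixD

/-- a normal subgroup of order prime to `p` with `p`-group quotient is a normal `p`-complement -/
theorem npc_of {H : Type*} [Group H] [Finite H] (p : ℕ) [Fact p.Prime] (N : Subgroup H) [N.Normal]
    (hN : (Nat.card N).Coprime p) (hq : IsPGroup p (H ⧸ N)) : Cfsg.HasNormalPComplement p H := by
  have hpp : p.Prime := Fact.out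
  obtain ⟨P⟩ : Nonempty (Sylow p H) := inferInstance
  refine ⟨P, N, inferInstance, ?_⟩
  obtain ⟨m, hm⟩ := IsPGroup.iff_card.mp hq
  have hcard : Nat.card H = p ^ m * Nat.card N := by
    rw [← hm]; exact Subgroup.card_eq_card_quotient_mul_card_subgroup N
  have hNpos : Nat.card N ≠ 0 := Nat.card_pos.ne'
  have hndvd : ¬ p ∣ Nat.card N := (Nat.Prime.coprime_iff_not_dvd hpp).mp hN.symm
  have hP : Nat.card (P : Subgroup H) = p ^ m := by
    rw [Sylow.card_eq_multiplicity, hcard, Nat.factorization_mul (pow_ne_zero _ hpp.ne_zero) hNpos,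
      Finsupp.add_apply, Nat.Prime.factorization_pow hpp, Finsupp.single_eq_same,
      Nat.factorization_eq_zero_of_not_dvd hndvd, add_zero]
  apply Subgroup.isComplement'_of_coprime
  · rw [hP, hcard, mul_comm]
  · rw [hP]; exact Nat.Coprime.pow_right m hN

/-- the `p`-rank bound passes to subgroups of a quotient by a normal `p'`-subgroup -/
theorem rank_lift {G : Type*} [Group G] [Finite G] (p : ℕ) [Fact p.Prime] (N : Subgroup G)
    [N.Normal] (hN : (Nat.card N).Coprime p) (hr : Cfsg.PRankLE p 2 G) (B : Subgroup (G ⧸ N)) :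
    Cfsg.PRankLE p 2 ↥B := by
  have hpp : p.Prime := Fact.out
  intro A hAc hAe
  obtain ⟨Ab, hAb⟩ : ∃ Ab : Subgroup (G ⧸ N), Ab = A.map B.subtype := ⟨_, rfl⟩
  have hAbcard : Nat.card Ab = Nat.card A := by
    rw [hAb]; exact Subgroup.card_map_of_injective B.subtype_injective
  have hAbcomm : ∀ x ∈ Ab, ∀ y ∈ Ab, x * y = y * x := by
    rw [hAb]
    rintro x ⟨x', hx', rfl⟩ y ⟨y', hy', rfl⟩
    have h := hAc.is_comm.comm ⟨x', hx'⟩ ⟨y', hy'⟩
    exact congrArg (fun t : ↥A => ((t : ↥B) : G ⧸ N)) h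
  have hAbexp : ∀ x ∈ Ab, x ^ p = 1 := by
    rw [hAb]
    rintro x ⟨x', hx', rfl⟩
    have h := hAe x' hx'
    exact congrArg (fun t : ↥B => (t : G ⧸ N)) h
  obtain ⟨Ah, hAh⟩ : ∃ Ah : Subgroup G, Ah = Ab.comap (QuotientGroup.mk' N) := ⟨_, rfl⟩
  obtain ⟨S⟩ : Nonempty (Sylow p ↥Ah) := inferInstance
  obtain ⟨A₀, hA₀⟩ : ∃ A₀ : Subgroup G, A₀ = (S : Subgroup ↥Ah).map Ah.subtype := ⟨_, rfl⟩
  have hA₀card : Nat.card A₀ = Nat.card (S : Subgroup ↥Ah) := by
    rw [hA₀]; exact Subgroup.card_map_of_injective Ah.subtype_injective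
  have hA₀le : A₀ ≤ Ah := by rw [hA₀]; exact Subgroup.map_subtype_le _
  have hA₀p : ∀ x ∈ A₀, ∃ k : ℕ, x ^ p ^ k = 1 := by
    rw [hA₀]
    rintro x ⟨x', hx', rfl⟩
    obtain ⟨k, hk⟩ := S.isPGroup' ⟨x', hx'⟩
    exact ⟨k, congrArg (fun t : ↥(S : Subgroup ↥Ah) => ((t : ↥Ah) : G)) hk⟩
  have htriv : ∀ x ∈ A₀, x ∈ N → x = 1 := by
    intro x hx hxN
    obtain ⟨k, hk⟩ := hA₀p x hx
    have h1 : orderOf x ∣ p ^ k := orderOf_dvd_of_pow_eq_one hk
    have h2 : orderOf x ∣ Nat.card N := by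
      have := orderOf_dvd_natCard (⟨x, hxN⟩ : ↥N)
      rwa [Subgroup.orderOf_mk] at this
    have h3 : orderOf x ∣ Nat.gcd (Nat.card N) (p ^ k) := Nat.dvd_gcd h2 h1
    rw [Nat.Coprime.gcd_eq_one (Nat.Coprime.pow_right k hN)] at h3
    exact orderOf_eq_one_iff.mp (Nat.dvd_one.mp h3)
  have hmemAb : ∀ x ∈ A₀, (QuotientGroup.mk' N x) ∈ Ab := by
    intro x hx
    have := hA₀le hx
    rw [hAh] at this
    exact Subgroup.mem_comap.mp this
  have hA₀comm : IsMulCommutative ↥A₀ := ⟨⟨by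
    rintro ⟨x, hx⟩ ⟨y, hy⟩
    apply Subtype.ext
    show x * y = y * x
    have h1 := hAbcomm _ (hmemAb x hx) _ (hmemAb y hy)
    have h2 : (y * x)⁻¹ * (x * y) ∈ N := by
      rw [← QuotientGroup.eq, QuotientGroup.mk_mul, QuotientGroup.mk_mul]
      exact h1.symm
    have h3 : (y * x)⁻¹ * (x * y) ∈ A₀ :=
      A₀.mul_mem (A₀.inv_mem (A₀.mul_mem hy hx)) (A₀.mul_mem hx hy)
    have h4 := htriv _ h3 h2
    calc x * y = (y * x) * ((y * x)⁻¹ * (x * y)) := by group
      _ = y * x := by rw [h4, mul_one]⟩⟩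
  have hA₀exp : ∀ a ∈ A₀, a ^ p = 1 := by
    intro x hx
    have h1 := hAbexp _ (hmemAb x hx)
    have h2 : x ^ p ∈ N := by
      rw [← QuotientGroup.eq_one_iff, QuotientGroup.mk_pow]; exact h1
    exact htriv _ (A₀.pow_mem hx p) h2
  have hle := hr A₀ hA₀comm hA₀exp
  have hAbp : IsPGroup p ↥Ab := by
    rintro ⟨x, hx⟩
    exact ⟨1, Subtype.ext (by rw [pow_one, Subgroup.coe_pow, Subgroup.coe_one]; exact hAbexp x hx)⟩
  obtain ⟨m, hm⟩ := IsPGroup.iff_card.mp hAbp
  have hdvd : p ^ m ∣ Nat.card ↥Ah := by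
    rw [← hm]
    have hsurj : Function.Surjective ((QuotientGroup.mk' N).subgroupComap Ab) :=
      MonoidHom.subgroupComap_surjective_of_surjective _ _ (QuotientGroup.mk'_surjective N)
    have := Subgroup.card_dvd_of_surjective _ hsurj
    rw [hAh]; exact this
  have h5 := S.pow_dvd_card_of_pow_dvd_card hdvd
  have h6 : p ^ m ≤ Nat.card (S : Subgroup ↥Ah) := Nat.le_of_dvd Nat.card_pos h5
  calc Nat.card A = Nat.card Ab := hAbcard.symm
    _ = p ^ m := hm
    _ ≤ Nat.card (S : Subgroup ↥Ah) := h6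
    _ = Nat.card A₀ := hA₀card.symm
    _ ≤ p ^ 2 := hle

/-- the analysis of a solvable group of odd order with `C(O_p) ≤ O_p` and `O_p` of rank at most two -/
theorem quot_analysis {Q : Type*} [Group Q] [Finite Q] [Group.IsSolvable Q]
    (hodd : Odd (Nat.card Q)) (p : ℕ) [Fact p.Prime] (hp2 : p ≠ 2)
    (hcent : Subgroup.centralizer (Cfsg.pCore p Q : Set Q) ≤ Cfsg.pCore p Q)
    (hPp : IsPGroup p ↥(Cfsg.pCore p Q)) (hrk : Cfsg.PRankLE p 2 ↥(Cfsg.pCore p Q)) :
    commutator Q ≤ Cfsg.pCore p Q ∧ ¬ p ∣ (Cfsg.pCore p Q).index ∧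
      (∀ q : ℕ, q.Prime → q ∣ Nat.card Q → q ≤ p) := by
  have hpp : p.Prime := Fact.out
  obtain ⟨ψ, hψ⟩ : ∃ ψ : Q →* MulAut ↥(Cfsg.pCore p Q), ψ = MulAut.conjNormal := ⟨_, rfl⟩
  have hψapp : ∀ (g : Q) (h : ↥(Cfsg.pCore p Q)),
      ((ψ g h : ↥(Cfsg.pCore p Q)) : Q) = g * h * g⁻¹ := by
    intro g h; rw [hψ]; exact MulAut.conjNormal_apply g h
  have hker : ∀ g : Q, ψ g = 1 → g ∈ Cfsg.pCore p Q := by
    intro g hg
    apply hcent
    rw [Subgroup.mem_centralizer_iff]
    intro h hh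
    have h1 := hψapp g ⟨h, hh⟩
    rw [hg, MulAut.one_apply] at h1
    have h2 : h = g * h * g⁻¹ := h1
    calc h * g = (g * h * g⁻¹) * g := by rw [← h2]
      _ = g * h := by group
  have hpelt : ∀ g : Q, g ∈ Cfsg.pCore p Q → ∃ k : ℕ, g ^ p ^ k = 1 := by
    intro g hg
    obtain ⟨k, hk⟩ := hPp ⟨g, hg⟩
    exact ⟨k, congrArg (fun t : ↥(Cfsg.pCore p Q) => (t : Q)) hk⟩
  have hθ : ∀ g : Q, QuotientGroup.kerLift ψ (QuotientGroup.mk' ψ.ker g) = ψ g :=
    fun g => QuotientGroup.kerLift_mk ψ g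
  have hXodd : Odd (Nat.card (Q ⧸ ψ.ker)) :=
    Odd.of_dvd_nat hodd (Subgroup.card_quotient_dvd_card _)
  have hcore : ∀ y : Q ⧸ ψ.ker, y ∈ commutator (Q ⧸ ψ.ker) → ∃ k : ℕ, y ^ p ^ k = 1 := by
    intro y hy
    have ho : orderOf y ≠ 0 := (orderOf_pos y).ne'
    obtain ⟨k, m, hm, hkm⟩ := Nat.exists_eq_pow_mul_and_not_dvd ho p hpp.ne_one
    refine ⟨k, ?_⟩
    apply Cfsg.Agent.S1449.core p hp2 hPp hrk hXodd (QuotientGroup.kerLift ψ)
      (QuotientGroup.kerLift_injective ψ) (y ^ p ^ k) (Subgroup.pow_mem _ hy _)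
    have h1 : orderOf (y ^ p ^ k) = m := by
      rw [orderOf_pow' y (pow_ne_zero k hpp.ne_zero), hkm, Nat.gcd_eq_right (Dvd.intro _ rfl)]
      exact Nat.mul_div_cancel_left m (pow_pos hpp.pos k)
    rw [h1]
    exact ((Nat.Prime.coprime_iff_not_dvd hpp).mpr hm).symm
  have hcomm : commutator Q ≤ Cfsg.pCore p Q := by
    have hEn : ((commutator (Q ⧸ ψ.ker)).comap (QuotientGroup.mk' ψ.ker)).Normal :=
      Subgroup.Normal.comap inferInstance _
    have hEp : IsPGroup p ↥((commutator (Q ⧸ ψ.ker)).comap (QuotientGroup.mk' ψ.ker)) := by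
      rintro ⟨x, hx⟩
      obtain ⟨k, hk⟩ := hcore _ (Subgroup.mem_comap.mp hx)
      have h1 : ψ (x ^ p ^ k) = 1 := by
        rw [← hθ, map_pow, hk, map_one]
      obtain ⟨j, hj⟩ := hpelt _ (hker _ h1)
      refine ⟨k + j, Subtype.ext ?_⟩
      rw [Subgroup.coe_pow, Subgroup.coe_one, pow_add, pow_mul]
      exact hj
    have hE := Cfsg.Agent.Lib.Helper9.le_pCore hEn hEp
    intro g hg
    apply hE
    rw [Subgroup.mem_comap]
    have h1 : (QuotientGroup.mk' ψ.ker) g ∈ (commutator Q).map (QuotientGroup.mk' ψ.ker) :=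
      Subgroup.mem_map_of_mem _ hg
    rw [commutator_def, Subgroup.map_commutator] at h1
    exact Subgroup.commutator_mono le_top le_top h1
  refine ⟨hcomm, ?_, ?_⟩
  · intro hdvd
    rw [Subgroup.index_eq_card] at hdvd
    obtain ⟨y, hy⟩ := exists_prime_orderOf_dvd_card' p hdvd
    have hab : ∀ a b : Q ⧸ Cfsg.pCore p Q, a * b = b * a := by
      intro a b
      induction a using QuotientGroup.induction_on with
      | H a =>
      induction b using QuotientGroup.induction_on with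
      | H b =>
      rw [← QuotientGroup.mk_mul, ← QuotientGroup.mk_mul, QuotientGroup.eq]
      apply hcomm
      have h1 : (a * b)⁻¹ * (b * a) = ⁅b⁻¹, a⁻¹⁆ := by rw [commutatorElement_def]; group
      rw [h1, commutator_def]
      exact Subgroup.commutator_mem_commutator (Subgroup.mem_top _) (Subgroup.mem_top _)
    have hyp : y ^ p = 1 := by
      have := pow_orderOf_eq_one y
      rwa [hy] at this
    have hTn : ((Subgroup.zpowers y).comap (QuotientGroup.mk' (Cfsg.pCore p Q))).Normal := by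
      haveI : (Subgroup.zpowers y).Normal := ⟨fun n hn g => by
        have h1 : g * n * g⁻¹ = n := by rw [hab g n, mul_inv_cancel_right]
        rw [h1]; exact hn⟩
      exact Subgroup.Normal.comap inferInstance _
    have hTp : IsPGroup p ↥((Subgroup.zpowers y).comap (QuotientGroup.mk' (Cfsg.pCore p Q))) := by
      rintro ⟨x, hx⟩
      obtain ⟨n, hn⟩ := Subgroup.mem_zpowers_iff.mp (Subgroup.mem_comap.mp hx)
      have h1 : (QuotientGroup.mk' (Cfsg.pCore p Q) x) ^ p = 1 := by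
        rw [← hn, ← zpow_natCast, ← zpow_mul, mul_comm, zpow_mul, zpow_natCast, hyp, one_zpow]
      have h2 : x ^ p ∈ Cfsg.pCore p Q := by
        rw [← QuotientGroup.eq_one_iff, QuotientGroup.mk_pow]
        exact h1
      obtain ⟨j, hj⟩ := hpelt _ h2
      refine ⟨j + 1, Subtype.ext ?_⟩
      rw [Subgroup.coe_pow, Subgroup.coe_one, pow_succ', pow_mul]
      exact hj
    have hT := Cfsg.Agent.Lib.Helper9.le_pCore hTn hTp
    obtain ⟨g, rfl⟩ := QuotientGroup.mk_surjective y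
    have hg : g ∈ Cfsg.pCore p Q := hT (Subgroup.mem_comap.mpr (Subgroup.mem_zpowers _))
    have h1 : ((g : Q) : Q ⧸ Cfsg.pCore p Q) = 1 := (QuotientGroup.eq_one_iff g).mpr hg
    rw [h1, orderOf_one] at hy
    exact hpp.one_lt.ne hy
  · intro q hq hqd
    by_contra hlt
    push Not at hlt
    haveI : Fact q.Prime := ⟨hq⟩
    obtain ⟨y, hy⟩ := exists_prime_orderOf_dvd_card' q hqd
    have hq2 : q ≠ 2 := by
      intro h
      rw [h] at hqd
      exact (Nat.not_even_iff_odd.mpr hodd) (even_iff_two_dvd.mpr hqd)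
    have hyq : y ^ q = 1 := by
      have := pow_orderOf_eq_one y
      rwa [hy] at this
    have h1 : ψ y = 1 := core2 p hp2 hPp hrk ψ y q hq hq2 hlt hyq
    obtain ⟨k, hk⟩ := hpelt y (hker y h1)
    have h2 : q ∣ p ^ k := by rw [← hy]; exact orderOf_dvd_of_pow_eq_one hk
    have h3 := (Nat.prime_dvd_prime_iff_eq hq hpp).mp (hq.dvd_of_dvd_pow h2)
    omega

/-- Let G be a solvable group of odd order, p a prime dividing its order with G having no elementary abelian subgroup of order p ^ 3. Then every prime dividing the index of O_{p'}(G) is at most p; if p = 3 or p is the smallest prime divisor of #G then G has a normal p-complement; the derived subgroup G' has a normal p-complement; every subgroup of G' of order coprime to p lies in O_{p'}(G'); and G/O_{p',p}(G) is abelian of order coprime to p. -/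
theorem result {G : Type*} [Group G] [Finite G] [Group.IsSolvable G] (hodd : Odd (Nat.card G)) (p : ℕ) [Fact p.Prime] (hpG : p ∣ Nat.card G) (hr : Cfsg.PRankLE p 2 G) :
    (∀ q : ℕ, q.Prime → q ∣ (Cfsg.pPrimeCore p G).index → q ≤ p) ∧
      ((p = 3 ∨ ∀ q : ℕ, q.Prime → q ∣ Nat.card G → p ≤ q) → Cfsg.HasNormalPComplement p G) ∧
      Cfsg.HasNormalPComplement p ↥(commutator G) ∧
      (∀ L : Subgroup ↥(commutator G), (Nat.card L).Coprime p → L ≤ Cfsg.pPrimeCore p ↥(commutator G)) ∧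
      commutator G ≤ Cfsg.pPrimePCore p G ∧ ((Cfsg.pPrimePCore p G).index).Coprime p := by
  have hpp : p.Prime := Fact.out
  have hp2 : p ≠ 2 := by
    intro h
    rw [h] at hpG
    exact (Nat.not_even_iff_odd.mpr hodd) (even_iff_two_dvd.mpr hpG)
  have hKco : (Nat.card ↥(Cfsg.pPrimeCore p G)).Coprime p :=
    Cfsg.Agent.Lib.Helper9.pPrimeCore_coprime p G
  have hObot : Cfsg.pPrimeCore p (G ⧸ Cfsg.pPrimeCore p G) = ⊥ :=
    Cfsg.Agent.Lib.Helper9.pPrimeCore_quotient_eq_bot p G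
  have hcent := Cfsg.Agent.Lib.Helper6.centralizer_pCore_le_of_solvable
    (X := G ⧸ Cfsg.pPrimeCore p G) p hObot
  have hPp : IsPGroup p ↥(Cfsg.pCore p (G ⧸ Cfsg.pPrimeCore p G)) :=
    Cfsg.Agent.Lib.Helper9.pCore_isPGroup p _
  have hrk := rank_lift p (Cfsg.pPrimeCore p G) hKco hr (Cfsg.pCore p (G ⧸ Cfsg.pPrimeCore p G))
  have hoddQ : Odd (Nat.card (G ⧸ Cfsg.pPrimeCore p G)) :=
    Odd.of_dvd_nat hodd (Subgroup.card_quotient_dvd_card _)
  obtain ⟨hQ1, hQ2, hQ3⟩ := quot_analysis hoddQ p hp2 hcent hPp hrk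
  -- elements of the quotient have p-power order in the p-core
  have hpelt : ∀ g : G ⧸ Cfsg.pPrimeCore p G, g ∈ Cfsg.pCore p (G ⧸ Cfsg.pPrimeCore p G) →
      ∃ k : ℕ, g ^ p ^ k = 1 := by
    intro g hg
    obtain ⟨k, hk⟩ := hPp ⟨g, hg⟩
    exact ⟨k, congrArg (fun t : ↥(Cfsg.pCore p (G ⧸ Cfsg.pPrimeCore p G)) =>
      (t : G ⧸ Cfsg.pPrimeCore p G)) hk⟩
  -- the image of a commutator lies in the p-core of the quotient
  have hcm : ∀ g : G, g ∈ commutator G →
      (QuotientGroup.mk' (Cfsg.pPrimeCore p G) g) ∈ Cfsg.pCore p (G ⧸ Cfsg.pPrimeCore p G) := by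
    intro g hg
    apply hQ1
    have h1 : (QuotientGroup.mk' (Cfsg.pPrimeCore p G)) g ∈
        (commutator G).map (QuotientGroup.mk' (Cfsg.pPrimeCore p G)) :=
      Subgroup.mem_map_of_mem _ hg
    rw [commutator_def, Subgroup.map_commutator] at h1
    exact Subgroup.commutator_mono le_top le_top h1
  -- conjunct 1
  have c1 : ∀ q : ℕ, q.Prime → q ∣ (Cfsg.pPrimeCore p G).index → q ≤ p := by
    intro q hq hqd
    rw [Subgroup.index_eq_card] at hqd
    exact hQ3 q hq hqd
  -- the quotient of the commutator subgroup by its intersection with the p'-core is a p-group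
  have hDq : IsPGroup p (↥(commutator G) ⧸ (Cfsg.pPrimeCore p G).subgroupOf (commutator G)) := by
    intro x
    induction x using QuotientGroup.induction_on with
    | H x =>
    obtain ⟨k, hk⟩ := hpelt _ (hcm x.1 x.2)
    refine ⟨k, ?_⟩
    rw [← QuotientGroup.mk_pow, QuotientGroup.eq_one_iff, Subgroup.mem_subgroupOf,
      Subgroup.coe_pow, ← QuotientGroup.eq_one_iff, QuotientGroup.mk_pow]
    exact hk
  have hDco : (Nat.card ↥((Cfsg.pPrimeCore p G).subgroupOf (commutator G))).Coprime p := by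
    have h1 : Nat.card ↥((Cfsg.pPrimeCore p G).subgroupOf (commutator G)) ∣
        Nat.card ↥(Cfsg.pPrimeCore p G) := by
      have h2 : Nat.card ↥((Cfsg.pPrimeCore p G).subgroupOf (commutator G)) =
          Nat.card ↥(((Cfsg.pPrimeCore p G).subgroupOf (commutator G)).map (commutator G).subtype) :=
        (Subgroup.card_map_of_injective (commutator G).subtype_injective).symm
      rw [h2]
      apply Subgroup.card_dvd_of_le
      rw [Subgroup.subgroupOf_map_subtype]
      exact inf_le_left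
    exact Nat.Coprime.coprime_dvd_left h1 hKco
  refine ⟨c1, ?_, npc_of p _ hDco hDq, ?_, ?_, ?_⟩
  · -- conjunct 2
    intro hsm
    apply npc_of p (Cfsg.pPrimeCore p G) hKco
    have hcard : Nat.card (G ⧸ Cfsg.pPrimeCore p G) =
        p ^ (Nat.card (G ⧸ Cfsg.pPrimeCore p G)).primeFactorsList.length := by
      apply Nat.eq_prime_pow_of_unique_prime_dvd Nat.card_pos.ne'
      intro q hq hqd
      have hqp := hQ3 q hq hqd
      rcases hsm with h3 | hmin
      · have hq2 : q ≠ 2 := by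
          intro h
          rw [h] at hqd
          exact (Nat.not_even_iff_odd.mpr hoddQ) (even_iff_two_dvd.mpr hqd)
        have := hq.two_le
        omega
      · have := hmin q hq (dvd_trans hqd (Subgroup.card_quotient_dvd_card _))
        omega
    exact IsPGroup.of_card hcard
  · -- conjunct 4
    intro L hL
    have hNle : (Cfsg.pPrimeCore p G).subgroupOf (commutator G) ≤ Cfsg.pPrimeCore p ↥(commutator G) :=
      Cfsg.Agent.Lib.Helper9.le_pPrimeCore inferInstance hDco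
    refine le_trans ?_ hNle
    intro x hx
    obtain ⟨k, hk⟩ := hDq (QuotientGroup.mk x)
    have h1 : orderOf (QuotientGroup.mk x : ↥(commutator G) ⧸ (Cfsg.pPrimeCore p G).subgroupOf (commutator G)) ∣ p ^ k :=
      orderOf_dvd_of_pow_eq_one hk
    have h2 : orderOf (QuotientGroup.mk x : ↥(commutator G) ⧸ (Cfsg.pPrimeCore p G).subgroupOf (commutator G)) ∣ Nat.card L := by
      have h3 : orderOf x ∣ Nat.card L := by
        have := orderOf_dvd_natCard (⟨x, hx⟩ : ↥L)
        rwa [Subgroup.orderOf_mk] at this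
      exact dvd_trans (orderOf_map_dvd (QuotientGroup.mk' _) x) h3
    have h4 := Nat.dvd_gcd h2 h1
    rw [Nat.Coprime.gcd_eq_one (Nat.Coprime.pow_right k hL)] at h4
    exact (QuotientGroup.eq_one_iff x).mp (orderOf_eq_one_iff.mp (Nat.dvd_one.mp h4))
  · -- conjunct 5
    intro g hg
    exact Subgroup.mem_comap.mpr (hcm g hg)
  · -- conjunct 6
    have h1 : (Cfsg.pPrimePCore p G).index = (Cfsg.pCore p (G ⧸ Cfsg.pPrimeCore p G)).index :=
      Subgroup.index_comap_of_surjective _ (QuotientGroup.mk'_surjective _)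
    rw [h1]
    exact ((Nat.Prime.coprime_iff_not_dvd hpp).mpr hQ2).symm

end Cfsg.Agent.S1450
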