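import Cfsg.Statements.S1184
import Cfsg.Agent.Lib.Helper8.IsoInv

set_option autoImplicit false
open Cfsg

namespace Cfsg.Agent.S1184

open Cfsg.Agent.Lib.Helper8.IsoInv

theorem pow_conj_aux {G : Type*} [Group G] (a x : G) (ha : a * x * a⁻¹ = x⁻¹) (j : ℕ) :
    (a ^ j) * x * (a ^ j)⁻¹ = x ∨ (a ^ j) * x * (a ^ j)⁻¹ = x⁻¹ := by
  induction j with
  | zero => left; simp
  | succ j ih =>
    have e : a ^ (j + 1) * x * (a ^ (j + 1))⁻¹ = a * (a ^ j * x * (a ^ j)⁻¹) * a⁻¹ := by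
      rw [pow_succ']; group
    rcases ih with h | h
    · right; rw [e, h, ha]
    · left
      rw [e, h]
      have : a * x⁻¹ * a⁻¹ = (a * x * a⁻¹)⁻¹ := by group
      rw [this, ha, inv_inv]

/-- Let z be an isolated involution of the finite group G. If s and t are distinct conjugates of z, then st does not commute with z. -/
theorem result {G : Type*} [Group G] [Finite G] (z : G) (hz : Cfsg.IsIsolatedInvolution z) (g h : G) (hne : g * z * g⁻¹ ≠ h * z * h⁻¹) : ¬ Commute (g * z * g⁻¹ * (h * z * h⁻¹)) z := by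
  intro hcomm
  have hzz : z * z = 1 := mul_self_of_orderOf_two hz.1
  have hzi : z⁻¹ = z := inv_eq_self_of_mul_self hzz
  have hsiso : Cfsg.IsIsolatedInvolution (g * z * g⁻¹) := conj_isolated hz g
  have hss : (g * z * g⁻¹) * (g * z * g⁻¹) = 1 := conj_mul_self hzz g
  have htt : (h * z * h⁻¹) * (h * z * h⁻¹) = 1 := conj_mul_self hzz h
  have hts : h * z * h⁻¹ = (h * g⁻¹) * (g * z * g⁻¹) * (h * g⁻¹)⁻¹ := by group
  obtain ⟨m, hm⟩ := exists_pow_conj hz g
  have hxodd : Odd (orderOf ((g * z * g⁻¹) * (h * z * h⁻¹))) := by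
    have := odd_orderOf_mul_conj hsiso (h * g⁻¹)
    rw [← hts] at this
    exact this
  generalize g * z * g⁻¹ = s at *
  generalize h * z * h⁻¹ = t at *
  have hsi : s⁻¹ = s := inv_eq_self_of_mul_self hss
  have hti : t⁻¹ = t := inv_eq_self_of_mul_self htt
  have hsx : s * (s * t) * s⁻¹ = (s * t)⁻¹ := by
    rw [mul_inv_rev, hsi, hti]
    calc s * (s * t) * s = (s * s) * t * s := by group
      _ = t * s := by rw [hss, one_mul]
  generalize hx : s * t = x at *
  have hzx : z * x * z⁻¹ = x := by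
    have : x * z = z * x := hcomm
    calc z * x * z⁻¹ = x * z * z⁻¹ := by rw [this]
      _ = x := by group
  have hzsx : (z * s) * x * (z * s)⁻¹ = x⁻¹ := by
    calc (z * s) * x * (z * s)⁻¹ = z * (s * x * s⁻¹) * z⁻¹ := by group
      _ = z * x⁻¹ * z⁻¹ := by rw [hsx]
      _ = (z * x * z⁻¹)⁻¹ := by group
      _ = x⁻¹ := by rw [hzx]
  have hyx := pow_conj_aux (z * s) x hzsx m
  generalize (z * s) ^ m = y at *
  have hzx2 : z * x⁻¹ * z⁻¹ = x⁻¹ := by
    have : z * x⁻¹ * z⁻¹ = (z * x * z⁻¹)⁻¹ := by group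
    rw [this, hzx]
  have e : s * x * s⁻¹ = y * (z * (y⁻¹ * x * y) * z⁻¹) * y⁻¹ := by
    rw [← hm]; group
  have hsx2 : s * x * s⁻¹ = x := by
    rw [e]
    rcases hyx with h1 | h1
    · have h2 : y⁻¹ * x * y = x := by
        calc y⁻¹ * x * y = y⁻¹ * (y * x * y⁻¹) * y := by rw [h1]
          _ = x := by group
      rw [h2, hzx, h1]
    · have h3 : y * x⁻¹ * y⁻¹ = x := by
        have : y * x⁻¹ * y⁻¹ = (y * x * y⁻¹)⁻¹ := by group
        rw [this, h1, inv_inv]
      have h2 : y⁻¹ * x * y = x⁻¹ := by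
        calc y⁻¹ * x * y = y⁻¹ * (y * x⁻¹ * y⁻¹) * y := by rw [h3]
          _ = x⁻¹ := by group
      rw [h2, hzx2, h3]
  have hxx : x = x⁻¹ := hsx2.symm.trans hsx
  have hx2 : x ^ 2 = 1 := by
    rw [pow_two]
    nth_rewrite 2 [hxx]
    exact mul_inv_cancel x
  have hx1 : x = 1 := by
    apply eq_of_sq_eq_of_odd hxodd (by rw [orderOf_one]; exact odd_one)
    rw [hx2, one_pow]
  apply hne
  have : s * t = 1 := hx.trans hx1
  calc s = t⁻¹ := eq_inv_of_mul_eq_one_left this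
    _ = t := hti

end Cfsg.Agent.S1184
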