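import Cfsg.Statements.S3820
import Mathlib

set_option autoImplicit false
open Cfsg

namespace Cfsg.Agent.S3820

theorem map_conj_mul {G : Type*} [Group G] (K : Subgroup G) (a b : G) :
    K.map (MulAut.conj (a * b)).toMonoidHom = (K.map (MulAut.conj b).toMonoidHom).map (MulAut.conj a).toMonoidHom := by
  rw [Subgroup.map_map]
  congr 1
  ext y
  simp [mul_assoc]

theorem map_conj_one {G : Type*} [Group G] (K : Subgroup G) :
    K.map (MulAut.conj (1 : G)).toMonoidHom = K := by
  ext y
  simp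

theorem map_conj_le_of_mem {G : Type*} [Group G] (K J : Subgroup G) (x : G) (hK : K ≤ J) (hx : x ∈ J) :
    K.map (MulAut.conj x).toMonoidHom ≤ J := by
  rintro _ ⟨k, hk, rfl⟩
  simp only [MulEquiv.toMonoidHom_eq_coe, MonoidHom.coe_coe, MulAut.conj_apply]
  exact mul_mem (mul_mem hx (hK hk)) (inv_mem hx)

theorem result {G : Type*} [Group G] [Finite G] (S H : Subgroup G) (hSH : S ≤ H)
    (hS : Cfsg.IsPronormal S) :
    Cfsg.IsPronormal H ↔
      ∀ g ∈ Subgroup.normalizer (S : Set G), ∃ w ∈ H ⊔ H.map (MulAut.conj g).toMonoidHom,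
        H.map (MulAut.conj g).toMonoidHom = H.map (MulAut.conj w).toMonoidHom := by
  constructor
  · intro h g _
    exact h g
  · intro h g
    obtain ⟨x, hx, hxe⟩ := hS g
    have hn : x⁻¹ * g ∈ Subgroup.normalizer (S : Set G) := by
      rw [Subgroup.mem_normalizer_iff_map_conj_eq]
      have h1 := map_conj_mul S x⁻¹ g
      have h2 := map_conj_mul S x⁻¹ x
      rw [hxe, ← h2, inv_mul_cancel, map_conj_one] at h1
      exact h1
    obtain ⟨w, hw, hwe⟩ := h (x⁻¹ * g) hn
    have hxJ : x ∈ H ⊔ H.map (MulAut.conj g).toMonoidHom := by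
      have : S ⊔ S.map (MulAut.conj g).toMonoidHom ≤ H ⊔ H.map (MulAut.conj g).toMonoidHom :=
        sup_le_sup hSH (Subgroup.map_mono hSH)
      exact this hx
    refine ⟨x * w, ?_, ?_⟩
    · refine mul_mem hxJ ?_
      have h3 : H ⊔ H.map (MulAut.conj (x⁻¹ * g)).toMonoidHom ≤ H ⊔ H.map (MulAut.conj g).toMonoidHom := by
        refine sup_le le_sup_left ?_
        rw [map_conj_mul]
        exact map_conj_le_of_mem _ _ _ le_sup_right (inv_mem hxJ)
      exact h3 hw
    · rw [map_conj_mul H x w, ← hwe, ← map_conj_mul]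
      simp

end Cfsg.Agent.S3820
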