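import Cfsg.Statements.S0039
import Mathlib

set_option autoImplicit false
open Pointwise
open Cfsg

namespace Cfsg.Agent.S0039

theorem mem_conj {G : Type*} [Group G] (H : Subgroup G) (g x : G) :
    x ∈ MulAut.conj g • H ↔ g⁻¹ * x * g ∈ H := by
  rw [Subgroup.mem_pointwise_smul_iff_inv_smul_mem]
  simp only [MulAut.smul_def, MulAut.conj_inv_apply]

/-- In a finite group that is a semidirect product of a normal subgroup K by a nontrivial subgroup H, H is a Frobenius complement exactly when each nonidentity element of H acts without nonidentity fixed points on K by conjugation. -/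
theorem result {G : Type*} [Group G] [Finite G] (K H : Subgroup G) [K.Normal]
    (hc : Subgroup.IsComplement' K H) (hK : K ≠ ⊥) (hH : H ≠ ⊥) :
    Cfsg.IsFrobeniusComplement H ↔ ∀ h ∈ H, h ≠ 1 → K ⊓ Subgroup.centralizer {h} = ⊥ := by
  have hdisj : ∀ x : G, x ∈ K → x ∈ H → x = 1 := by
    intro x hxK hxH
    have h1 : x ∈ K ⊓ H := Subgroup.mem_inf.2 ⟨hxK, hxH⟩
    rw [disjoint_iff.1 hc.disjoint] at h1
    exact Subgroup.mem_bot.1 h1
  constructor
  · rintro ⟨-, -, hfrob⟩ h hh hh1
    rw [eq_bot_iff]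
    intro k hk
    obtain ⟨hkK, hkC⟩ := Subgroup.mem_inf.1 hk
    rw [Subgroup.mem_bot]
    by_contra hk1
    have hkH : k ∉ H := fun hkH => hk1 (hdisj k hkK hkH)
    have h1 := hfrob k hkH
    have h2 : h ∈ H ⊓ MulAut.conj k • H := by
      refine Subgroup.mem_inf.2 ⟨hh, ?_⟩
      rw [mem_conj]
      have h3 : h * k = k * h := (Subgroup.mem_centralizer_iff.1 hkC) h (Set.mem_singleton h)
      have h4 : k⁻¹ * h * k = h := by rw [mul_assoc, h3, ← mul_assoc, inv_mul_cancel, one_mul]
      rw [h4]; exact hh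
    rw [h1] at h2
    exact hh1 (Subgroup.mem_bot.1 h2)
  · intro hfpf
    refine ⟨hH, ?_, ?_⟩
    · intro htop
      rw [htop, Subgroup.isComplement'_top_right] at hc
      exact hK hc
    · intro g hg
      rw [eq_bot_iff]
      intro x hx
      obtain ⟨hxH, hxc⟩ := Subgroup.mem_inf.1 hx
      rw [Subgroup.mem_bot]
      obtain ⟨⟨k, h₀⟩, hkh⟩ := hc.2 g
      have hkh' : (k : G) * (h₀ : G) = g := hkh
      rw [mem_conj, ← hkh'] at hxc
      have hy : (k : G)⁻¹ * x * (k : G) ∈ H := by
        have h1 := H.mul_mem (H.mul_mem h₀.2 hxc) (H.inv_mem h₀.2)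
        have h2 : (h₀ : G) * (((k : G) * (h₀ : G))⁻¹ * x * ((k : G) * (h₀ : G))) * (h₀ : G)⁻¹ =
            (k : G)⁻¹ * x * (k : G) := by group
        rwa [h2] at h1
      have hk1 : (k : G) ≠ 1 := by
        intro hk1
        apply hg
        rw [← hkh', hk1, one_mul]
        exact h₀.2
      have hxy : x * ((k : G)⁻¹ * x * (k : G))⁻¹ ∈ K := by
        have h1 : x * ((k : G)⁻¹ * x * (k : G))⁻¹ = (x * (k : G)⁻¹ * x⁻¹) * (k : G) := by group
        rw [h1]
        exact K.mul_mem (‹K.Normal›.conj_mem _ (K.inv_mem k.2) x) k.2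
      have hxy1 := hdisj _ hxy (H.mul_mem hxH (H.inv_mem hy))
      have hcomm : x = (k : G)⁻¹ * x * (k : G) := by
        rw [mul_inv_eq_one] at hxy1
        exact hxy1
      by_contra hx1
      have h3 : (k : G) ∈ K ⊓ Subgroup.centralizer {x} := by
        refine Subgroup.mem_inf.2 ⟨k.2, ?_⟩
        rw [Subgroup.mem_centralizer_iff]
        intro y hy'
        rw [Set.mem_singleton_iff] at hy'
        rw [hy']
        have h4 : (k : G) * ((k : G)⁻¹ * x * (k : G)) = x * (k : G) := by group
        rw [← hcomm] at h4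
        exact h4.symm
      rw [hfpf x hxH hx1] at h3
      exact hk1 (Subgroup.mem_bot.1 h3)

end Cfsg.Agent.S0039
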