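import Cfsg.Statements.S0048
import Cfsg.Agent.S0043
import Cfsg.Agent.Lib.Lead.Cores

set_option autoImplicit false
open Cfsg

namespace Cfsg.Agent.S0048

open Cfsg.Agent.Lib.Lead.Cores in
theorem index_eq_relIndex {G : Type*} [Group G] [Finite G] (M N : Subgroup G) [N.Normal]
    (h : M ⊔ N = ⊤) : M.index = M.relIndex N := by
  have h1 := card_mul_relIndex_of_le (le_sup_right : N ≤ M ⊔ N)
  rw [Subgroup.relIndex_sup_right] at h1
  have h2 := card_mul_relIndex_of_le (inf_le_left : M ⊓ N ≤ M)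
  rw [Subgroup.inf_relIndex_left] at h2
  have h3 := card_mul_relIndex_of_le (inf_le_right : M ⊓ N ≤ N)
  rw [Subgroup.inf_relIndex_right] at h3
  have h4 := Subgroup.card_mul_index M
  rw [h, Subgroup.card_top] at h1
  have h5 : Nat.card M * M.index = Nat.card M * M.relIndex N := by
    rw [h4, ← h1, ← h3, ← h2]; ring
  exact Nat.eq_of_mul_eq_mul_left Nat.card_pos h5

/-- In a finite solvable group every maximal subgroup has index a prime power. -/
theorem result {G : Type*} [Group G] [Finite G] [Group.IsSolvable G]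
    (M : Subgroup G) (hM : IsCoatom M) : IsPrimePow M.index := by
  have hKM : M.normalCore ≤ M := M.normalCore_le
  have hsurj : Function.Surjective (QuotientGroup.mk' M.normalCore) := QuotientGroup.mk'_surjective _
  have hnt : (⊤ : Subgroup (G ⧸ M.normalCore)) ≠ ⊥ := by
    intro h
    have h1 := congrArg (Subgroup.comap (QuotientGroup.mk' M.normalCore)) h
    rw [Subgroup.comap_top, MonoidHom.comap_bot, QuotientGroup.ker_mk'] at h1
    exact hM.1 (top_le_iff.1 (h1 ▸ hKM))
  obtain ⟨Nb, -, hNb⟩ := Finite.exists_le_minimal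
    (p := fun L : Subgroup (G ⧸ M.normalCore) => L.Normal ∧ L ≠ ⊥) (a := ⊤) ⟨inferInstance, hnt⟩
  have hNbn : Nb.Normal := hNb.prop.1
  have hNb0 : Nb ≠ ⊥ := hNb.prop.2
  obtain ⟨-, p, hp, hexp⟩ := Cfsg.Agent.S0043.result Nb hNb0 (by
    intro L hL hLN
    by_cases hL0 : L = ⊥
    · exact Or.inl hL0
    · exact Or.inr (le_antisymm hLN (hNb.le_of_le ⟨hL, hL0⟩ hLN)))
  have : Fact p.Prime := ⟨hp⟩
  have hNbp : IsPGroup p Nb := by
    intro g
    refine ⟨1, ?_⟩
    apply Subtype.ext
    simpa using hexp g g.2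
  obtain ⟨k, hk⟩ := hNbp.exists_card_eq
  obtain ⟨N, hNdef⟩ : ∃ N : Subgroup G, N = Nb.comap (QuotientGroup.mk' M.normalCore) := ⟨_, rfl⟩
  have hNn : N.Normal := hNdef ▸ hNbn.comap _
  have hmap : N.map (QuotientGroup.mk' M.normalCore) = Nb := by
    rw [hNdef]; exact Subgroup.map_comap_eq_self_of_surjective hsurj Nb
  have hNM : ¬ N ≤ M := by
    intro hle
    have h1 : N ≤ M.normalCore := Subgroup.normal_le_normalCore.2 hle
    apply hNb0
    rw [← hmap, eq_bot_iff]
    rintro _ ⟨x, hx, rfl⟩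
    rw [Subgroup.mem_bot]
    exact (QuotientGroup.eq_one_iff x).2 (h1 hx)
  have hsup : M ⊔ N = ⊤ := by
    apply hM.2
    apply lt_of_le_of_ne le_sup_left
    intro h
    have h2 : N ≤ M ⊔ N := le_sup_right
    exact hNM (h2.trans (le_of_eq h.symm))
  have hidx := index_eq_relIndex M N hsup
  have hKN : M.normalCore ≤ N := by
    intro x hx
    rw [hNdef, Subgroup.mem_comap]
    have : (QuotientGroup.mk' M.normalCore) x = 1 := (QuotientGroup.eq_one_iff x).2 hx
    rw [this]; exact Nb.one_mem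
  have hdvd : M.relIndex N ∣ p ^ k := by
    have h1 : (QuotientGroup.mk' M.normalCore).ker.relIndex N
        = Nat.card (N.map (QuotientGroup.mk' M.normalCore)) :=
      Subgroup.relIndex_ker _ _
    rw [hmap, hk, QuotientGroup.ker_mk'] at h1
    rw [← h1]
    exact Subgroup.relIndex_dvd_of_le_left _ hKM
  rw [← hidx] at hdvd
  obtain ⟨j, -, hj⟩ := (Nat.dvd_prime_pow hp).1 hdvd
  rw [isPrimePow_nat_iff]
  refine ⟨p, j, hp, ?_, hj.symm⟩
  rcases Nat.eq_zero_or_pos j with h0 | h0
  · exfalso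
    rw [h0, pow_zero, Subgroup.index_eq_one] at hj
    exact hM.1 hj
  · exact h0

end Cfsg.Agent.S0048
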