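import Cfsg.Statements.S0076
import Cfsg.Agent.Lib.Helper12.SylowBasic
import Mathlib

set_option autoImplicit false
open Cfsg

namespace Cfsg.Agent.S0076

open scoped Pointwise

/-- The stabilizer of a set under conjugation. -/
def setStab {G : Type*} [Group G] (Y : Set G) : Subgroup G where
  carrier := {h | (fun y => h * y * h⁻¹) '' Y = Y}
  one_mem' := by simp
  mul_mem' := by
    intro a b ha hb
    simp only [Set.mem_setOf_eq] at *
    have : (fun y => a * b * y * (a * b)⁻¹) = (fun y => a * y * a⁻¹) ∘ (fun y => b * y * b⁻¹) := by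
      funext y; simp [mul_assoc]
    rw [this, Set.image_comp, hb, ha]
  inv_mem' := by
    intro a ha
    simp only [Set.mem_setOf_eq] at *
    conv_lhs => rw [← ha]
    rw [← Set.image_comp]
    have : (fun y => a⁻¹ * y * a⁻¹⁻¹) ∘ (fun y => a * y * a⁻¹) = id := by
      funext y; simp [mul_assoc]
    rw [this, Set.image_id]

theorem mem_setStab {G : Type*} [Group G] (Y : Set G) (h : G) :
    h ∈ setStab Y ↔ (fun y => h * y * h⁻¹) '' Y = Y := Iff.rfl

/-- Two P-invariant subsets of a Sylow p-subgroup P that are conjugate in G are conjugate under the normalizer of P. -/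
theorem result {G : Type*} [Group G] [Finite G] {p : ℕ} [Fact p.Prime] (P : Sylow p G) (X Y : Set G) (hXP : X ⊆ P) (hYP : Y ⊆ P) (hX : ∀ x ∈ P, (fun y => x * y * x⁻¹) '' X = X) (hY : ∀ x ∈ P, (fun y => x * y * x⁻¹) '' Y = Y) (g : G) (hg : (fun y => g * y * g⁻¹) '' X = Y) : ∃ n ∈ Subgroup.normalizer (P : Set G), (fun y => n * y * n⁻¹) '' X = Y := by
  classical
  have hP : (P : Subgroup G) ≤ setStab Y := fun x hx => hY x hx
  have hP' : ((g • P : Sylow p G) : Subgroup G) ≤ setStab Y := by
    intro x hx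
    rw [Cfsg.Agent.Lib.Helper12.SylowBasic.mem_smul_sylow_iff] at hx
    rw [mem_setStab]
    have h1 := hX _ hx
    rw [← hg, ← Set.image_comp]
    conv_rhs => rw [← h1, ← Set.image_comp]
    congr 1
    funext y; simp [mul_assoc]
  obtain ⟨c, hc, hcP⟩ := Cfsg.Agent.Lib.Helper12.SylowBasic.exists_mem_smul_eq P (g • P) (setStab Y) hP hP'
  refine ⟨c * g, ?_, ?_⟩
  · have : (c * g) • P = P := by rw [mul_smul]; exact hcP
    exact Sylow.smul_eq_iff_mem_normalizer.mp this
  · have : (fun y => c * g * y * (c * g)⁻¹) = (fun y => c * y * c⁻¹) ∘ (fun y => g * y * g⁻¹) := by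
      funext y; simp [mul_assoc]
    rw [this, Set.image_comp, hg]; exact hc

end Cfsg.Agent.S0076
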