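import Cfsg.Statements.S0078
import Cfsg.Agent.Lib.Helper1.TransTate
open Cfsg.Agent.Lib.Helper1.Tr Cfsg.Agent.Lib.Helper16.Basic

set_option autoImplicit false
open Cfsg

namespace Cfsg.Agent.S0078

/-- In a p-normal group, a Sylow p-subgroup P meets O^p(G) exactly where it meets O^p(V), for any subgroup V containing the normalizer of the centre of P. -/
theorem result {G : Type*} [Group G] [Finite G] {p : ℕ} [Fact p.Prime] (P : Sylow p G) (hn : ∀ Q : Sylow p G, (P : Subgroup G) ⊓ Subgroup.centralizer (P : Set G) ≤ (Q : Subgroup G) → (Q : Subgroup G) ⊓ Subgroup.centralizer (Q : Set G) = (P : Subgroup G) ⊓ Subgroup.centralizer (P : Set G)) (V : Subgroup G) (hV : Subgroup.normalizer (((P : Subgroup G) ⊓ Subgroup.centralizer (P : Set G) : Subgroup G) : Set G) ≤ V) : (P : Subgroup G) ⊓ Cfsg.pResidual p G = (P : Subgroup G) ⊓ (Cfsg.pResidual p V).map V.subtype := by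
  classical
  have hZc : (P : Subgroup G) ⊓ Subgroup.centralizer (P : Set G) ≤
      Subgroup.centralizer (P : Set G) := inf_le_right
  have hW : Cfsg.IsWeaklyClosed ((P : Subgroup G) ⊓ Subgroup.centralizer (P : Set G))
      (P : Subgroup G) := by
    refine ⟨inf_le_left, fun g hg => ?_⟩
    rw [conj_le_iff] at hg
    have hQ : ((g⁻¹ • P : Sylow p G) : Subgroup G) =
        (P : Subgroup G).map (MulAut.conj g⁻¹).toMonoidHom := rfl
    have h1 : ((g⁻¹ • P : Sylow p G) : Subgroup G) ⊓
        Subgroup.centralizer ((((g⁻¹ • P : Sylow p G) : Subgroup G)) : Set G) =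
        (P : Subgroup G) ⊓ Subgroup.centralizer (P : Set G) :=
      hn (g⁻¹ • P) (by rw [hQ]; exact hg)
    rw [hQ, centralizer_conj, ← conj_inf] at h1
    have h2 : ((P : Subgroup G) ⊓ Subgroup.centralizer (P : Set G)).map
        (MulAut.conj g⁻¹).toMonoidHom =
        (P : Subgroup G) ⊓ Subgroup.centralizer (P : Set G) := h1
    rw [conj_eq_self_iff] at h2 ⊢
    have := Subgroup.inv_mem _ h2
    rwa [inv_inv] at this
  have hPV : (P : Subgroup G) ≤ V :=
    (le_normalizer_of_le_centralizer' hZc).trans hV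
  apply le_antisymm
  · refine le_inf inf_le_left ?_
    apply tate_general P V hPV ⊥ (fun X _ _ _ => bot_le)
    rw [sup_bot_eq]
    refine le_inf ?_ inf_le_left
    have h1 : (P : Subgroup G) ⊓ Cfsg.pResidual p G ≤ commutator G ⊓ (P : Subgroup G) :=
      le_inf (sylow_inf_pResidual_le_commutator P) inf_le_left
    rw [grun_weakly_closed P _ hZc hW] at h1
    exact h1.trans (inf_le_left.trans (Subgroup.commutator_mono hV hV))
  · refine inf_le_inf_left _ ?_
    have := Cfsg.Agent.Lib.Helper16.Residual.pResidualOf_mono (p := p) (le_top : V ≤ ⊤)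
    rwa [Cfsg.Agent.Lib.Helper16.Residual.pResidualOf_top] at this

end Cfsg.Agent.S0078
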