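import Cfsg.Statements.S0096
import Cfsg.Agent.Lib.Helper18.UniqueInvolution
import Mathlib

set_option autoImplicit false
open Cfsg

namespace Cfsg.Agent.S0096

open scoped commutatorElement

/-- In a group of class at most two and for an odd prime `p`, the elements of order dividing
`p` are closed under multiplication. -/
theorem mul_pow_eq_one {P : Type*} [Group P] {p : ℕ} [Fact p.Prime] (hp : p ≠ 2)
    (h2 : ⁅commutator P, (⊤ : Subgroup P)⁆ = ⊥) (g h : P) (hg : g ^ p = 1) (hh : h ^ p = 1) :
    (g * h) ^ p = 1 := by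
  have hpp : p.Prime := Fact.out
  have hcen : ∀ c ∈ commutator P, ∀ x : P, c * x = x * c := by
    intro c hc x
    have : ⁅c, x⁆ ∈ ⁅commutator P, (⊤ : Subgroup P)⁆ :=
      Subgroup.commutator_mem_commutator hc (Subgroup.mem_top x)
    rw [h2, Subgroup.mem_bot, commutatorElement_eq_one_iff_mul_comm] at this
    exact this
  set c := ⁅h⁻¹, g⁻¹⁆ with hcdef
  have hcC : c ∈ commutator P :=
    Subgroup.commutator_mem_commutator (Subgroup.mem_top _) (Subgroup.mem_top _)
  have hc : h * g = g * h * c := by rw [hcdef, commutatorElement_def]; group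
  obtain ⟨e1, e2⟩ := Cfsg.Agent.Lib.Helper18.UniqueInvolution.pow_mul_comm_of_central g h c hc
    (hcen c hcC g) (hcen c hcC h) p
  rw [hh, one_mul, mul_one] at e1
  have hcp : c ^ p = 1 := by
    have : g * c ^ p = g * 1 := by rw [mul_one]; exact e1.symm
    exact mul_left_cancel this
  have hdvd : p ∣ p.choose 2 := by
    apply hpp.dvd_choose_self (by norm_num)
    have := hpp.two_le
    omega
  obtain ⟨m, hm⟩ := hdvd
  rw [e2, hg, hh, one_mul, one_mul, hm, pow_mul, hcp, one_pow]

/-- For odd p, in a p-group of class at most two the elements of order dividing p generate a subgroup of exponent dividing p. -/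
theorem result {P : Type*} [Group P] [Finite P] {p : ℕ} [Fact p.Prime] (hp : p ≠ 2) (hP : IsPGroup p P) (h2 : ⁅commutator P, (⊤ : Subgroup P)⁆ = ⊥) (g : P) (hg : g ∈ Subgroup.closure {x : P | x ^ p = 1}) : g ^ p = 1 := by
  induction hg using Subgroup.closure_induction with
  | mem x hx => exact hx
  | one => exact one_pow p
  | mul x y _ _ hx hy => exact mul_pow_eq_one hp h2 x y hx hy
  | inv x _ hx => rw [inv_pow, hx, inv_one]

end Cfsg.Agent.S0096
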