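import Cfsg.Statements.S0097
import Cfsg.Agent.S0096
import Cfsg.Agent.S0012
import Cfsg.Agent.Lib.Helper18.UniqueInvolution
import Mathlib

set_option autoImplicit false
open Cfsg

namespace Cfsg.Agent.S0097

open scoped commutatorElement

/-- In an extraspecial `p`-group with `p` odd the `p`-th power map is multiplicative. -/
theorem mul_pow_of_extraspecial {E : Type*} [Group E] [Finite E] {p : ℕ} [Fact p.Prime]
    (hp : p ≠ 2) (h : Cfsg.IsExtraspecial p E) (g k : E) : (g * k) ^ p = g ^ p * k ^ p := by
  have hpp : p.Prime := Fact.out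
  obtain ⟨⟨hP, hfr, hcm⟩, hZ⟩ := h
  set c := ⁅k⁻¹, g⁻¹⁆ with hcdef
  have hcC : c ∈ Subgroup.center E := by
    rw [← hcm]
    exact Subgroup.commutator_mem_commutator (Subgroup.mem_top _) (Subgroup.mem_top _)
  have hc : k * g = g * k * c := by rw [hcdef, commutatorElement_def]; group
  obtain ⟨-, e2⟩ := Cfsg.Agent.Lib.Helper18.UniqueInvolution.pow_mul_comm_of_central g k c hc
    (Subgroup.mem_center_iff.mp hcC g).symm (Subgroup.mem_center_iff.mp hcC k).symm p
  have hcp : c ^ p = 1 := by
    have h1 : (⟨c, hcC⟩ : Subgroup.center E) ^ Nat.card (Subgroup.center E) = 1 := pow_card_eq_one'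
    rw [hZ] at h1
    exact congrArg Subtype.val h1
  have hdvd : p ∣ p.choose 2 := by
    apply hpp.dvd_choose_self (by norm_num)
    have := hpp.two_le
    omega
  obtain ⟨m, hm⟩ := hdvd
  rw [e2, hm, pow_mul, hcp, one_pow, mul_one]

/-- For odd p and E extraspecial, the subgroup generated by the elements of order dividing p has exponent dividing p and index at most p. -/
theorem result {E : Type*} [Group E] [Finite E] {p : ℕ} [Fact p.Prime] (hp : p ≠ 2) (h : Cfsg.IsExtraspecial p E) : (Subgroup.closure {x : E | x ^ p = 1}).index ≤ p ∧ ∀ g ∈ Subgroup.closure {x : E | x ^ p = 1}, g ^ p = 1 := by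
  have hpp : p.Prime := Fact.out
  have h' := h
  obtain ⟨⟨hP, hfr, hcm⟩, hZ⟩ := h'
  constructor
  · have hpow : ∀ x : E, x ^ p ∈ Subgroup.center E := by
      intro x
      rw [← hfr]
      exact (Cfsg.Agent.S0012.result p hP).2 x
    let φ : E →* Subgroup.center E :=
      { toFun := fun x => ⟨x ^ p, hpow x⟩
        map_one' := by apply Subtype.ext; simp
        map_mul' := fun a b => by
          apply Subtype.ext
          exact mul_pow_of_extraspecial hp h a b }
    have hker : φ.ker ≤ Subgroup.closure {x : E | x ^ p = 1} := by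
      intro x hx
      apply Subgroup.subset_closure
      have : φ x = 1 := hx
      exact congrArg Subtype.val this
    have h1 : (Subgroup.closure {x : E | x ^ p = 1}).index ∣ φ.ker.index :=
      Subgroup.index_dvd_of_le hker
    have h2 : φ.ker.index = Nat.card φ.range := Subgroup.index_ker φ
    have h3 : Nat.card φ.range ∣ p := by
      rw [← hZ]; exact Subgroup.card_subgroup_dvd_card _
    exact Nat.le_of_dvd hpp.pos (h1.trans (h2 ▸ h3))
  · intro g hg
    apply Cfsg.Agent.S0096.result hp hP ?_ g hg
    rw [hcm, Subgroup.commutator_eq_bot_iff_le_centralizer]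
    intro z hz
    rw [Subgroup.mem_centralizer_iff]
    intro x _
    exact Subgroup.mem_center_iff.mp hz x

end Cfsg.Agent.S0097
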