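import Cfsg.Statements.S0110
import Cfsg.Agent.S0014
import Cfsg.Agent.Lib.Helper20.ESpecial

set_option autoImplicit false
open Cfsg

namespace Cfsg.Agent.S0110

open scoped commutatorElement

/-- In a p-group G, an extraspecial subgroup E with [G, E] ≤ Z(E) satisfies G = E C_G(E). -/
theorem result {G : Type*} [Group G] [Finite G] {p : ℕ} [Fact p.Prime] (hG : IsPGroup p G) (E : Subgroup G) (hE : Cfsg.IsExtraspecial p E) (h : ⁅(⊤ : Subgroup G), E⁆ ≤ E ⊓ Subgroup.centralizer (E : Set G)) : E ⊔ Subgroup.centralizer (E : Set G) = ⊤ := by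
  classical
  have hpp : p.Prime := Fact.out
  obtain ⟨⟨hEp, hfr, hcom⟩, hZc⟩ := hE
  -- Z(E) inside G
  have hZmap : (Subgroup.center ↥E).map E.subtype = E ⊓ Subgroup.centralizer (E : Set G) := by
    ext x
    rw [Lib.Helper20.ESpecial.mem_center_map_iff]
    constructor
    · rintro ⟨hx, hq⟩
      exact ⟨hx, Subgroup.mem_centralizer_iff.2 (fun q hq' => hq q hq')⟩
    · rintro ⟨hx, hq⟩
      exact ⟨hx, fun q hq' => Subgroup.mem_centralizer_iff.1 hq q hq'⟩
  have hZcard : Nat.card (E ⊓ Subgroup.centralizer (E : Set G) : Subgroup G) = p := by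
    rw [← hZmap, Subgroup.card_map_of_injective E.subtype_injective, hZc]
  obtain ⟨d, hd⟩ : ∃ d, (frattini ↥E).index = p ^ d := by
    obtain ⟨k, hk⟩ := IsPGroup.iff_card.1 hEp
    have h1 : (frattini ↥E).index ∣ p ^ k := hk ▸ Subgroup.index_dvd_card _
    obtain ⟨d, -, hd⟩ := (Nat.dvd_prime_pow hpp).1 h1
    exact ⟨d, hd⟩
  haveI : Fintype ↥E := Fintype.ofFinite _
  obtain ⟨T, -, hTc, hTgen⟩ := (S0014.result p d hEp hd).1 Finset.univ
    (by rw [Finset.coe_univ, Subgroup.closure_univ])
  let Θ : G → (↥T → ↥(E ⊓ Subgroup.centralizer (E : Set G) : Subgroup G)) := fun g t =>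
    ⟨⁅g, ((t : ↥E) : G)⁆,
      h (Subgroup.commutator_mem_commutator (Subgroup.mem_top g) (t : ↥E).2)⟩
  have hΘ : ∀ g g' : G, Θ g = Θ g' → g⁻¹ * g' ∈ Subgroup.centralizer (E : Set G) := by
    intro g g' hgg
    have h1 : ∀ t ∈ T, Commute ((t : ↥E) : G) (g⁻¹ * g') := by
      intro t ht
      have h2 : ⁅g, ((t : ↥E) : G)⁆ = ⁅g', ((t : ↥E) : G)⁆ :=
        congrArg Subtype.val (congrFun hgg ⟨t, ht⟩)
      rw [commutatorElement_def, commutatorElement_def] at h2
      have h3 : g * (t : G) * g⁻¹ = g' * (t : G) * g'⁻¹ := mul_right_cancel h2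
      show (t : G) * (g⁻¹ * g') = g⁻¹ * g' * (t : G)
      calc (t : G) * (g⁻¹ * g') = g⁻¹ * (g * (t : G) * g⁻¹) * g' := by group
        _ = g⁻¹ * (g' * (t : G) * g'⁻¹) * g' := by rw [h3]
        _ = g⁻¹ * g' * (t : G) := by group
    rw [Subgroup.mem_centralizer_iff]
    intro y hy
    have hy' : (⟨y, hy⟩ : ↥E) ∈ Subgroup.closure (T : Set ↥E) := by
      rw [hTgen]; exact Subgroup.mem_top _
    have h4 : ∀ e : ↥E, e ∈ Subgroup.closure (T : Set ↥E) → Commute (e : G) (g⁻¹ * g') := by
      intro e he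
      induction he using Subgroup.closure_induction with
      | mem t ht => exact h1 t ht
      | one => exact Commute.one_left _
      | mul a b _ _ iha ihb => exact Commute.mul_left iha ihb
      | inv a _ iha => exact Commute.inv_left iha
    exact h4 ⟨y, hy⟩ hy'
  have hcard1 : (Subgroup.centralizer (E : Set G)).index ≤ p ^ d := by
    have hinj : Function.Injective
        (fun q : G ⧸ Subgroup.centralizer (E : Set G) => Θ (Quotient.out q)) := by
      intro q q' hqq
      have h1 := hΘ _ _ hqq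
      rw [← QuotientGroup.eq] at h1
      rwa [QuotientGroup.out_eq', QuotientGroup.out_eq'] at h1
    have h1 := Nat.card_le_card_of_injective _ hinj
    rw [Nat.card_fun, hZcard, Nat.card_eq_fintype_card (α := ↥T), Fintype.card_coe, hTc] at h1
    rwa [Subgroup.index_eq_card]
  have hcard2 : p ^ d ≤ (Subgroup.centralizer (E : Set G)).relIndex
      (E ⊔ Subgroup.centralizer (E : Set G)) := by
    have h1 : (Subgroup.centralizer (E : Set G)).relIndex E ≤
        (Subgroup.centralizer (E : Set G)).relIndex (E ⊔ Subgroup.centralizer (E : Set G)) :=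
      Subgroup.relIndex_le_of_le_right le_sup_left
        (by rw [Subgroup.relIndex]; exact Subgroup.index_ne_zero_of_finite)
    have h2 : (Subgroup.centralizer (E : Set G)).relIndex E = p ^ d := by
      rw [Subgroup.relIndex, ← hd, hfr]
      congr 1
      ext x
      rw [Subgroup.mem_subgroupOf, Subgroup.mem_center_iff, Subgroup.mem_centralizer_iff]
      constructor
      · intro hx y; exact Subtype.ext (hx y y.2)
      · intro hx y hy; exact congrArg Subtype.val (hx ⟨y, hy⟩)
    rw [← h2]; exact h1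
  have h3 : (Subgroup.centralizer (E : Set G)).relIndex (E ⊔ Subgroup.centralizer (E : Set G))
      * (E ⊔ Subgroup.centralizer (E : Set G)).index
      = (Subgroup.centralizer (E : Set G)).index := Subgroup.relIndex_mul_index le_sup_right
  have h4 : (E ⊔ Subgroup.centralizer (E : Set G)).index = 1 := by
    have hpos : 0 < (Subgroup.centralizer (E : Set G)).relIndex
        (E ⊔ Subgroup.centralizer (E : Set G)) := lt_of_lt_of_le (pow_pos hpp.pos d) hcard2
    have hi0 : (E ⊔ Subgroup.centralizer (E : Set G)).index ≠ 0 :=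
      Subgroup.index_ne_zero_of_finite
    by_contra hne
    have h5 : 2 ≤ (E ⊔ Subgroup.centralizer (E : Set G)).index := by omega
    have h6 := Nat.mul_le_mul_left ((Subgroup.centralizer (E : Set G)).relIndex
      (E ⊔ Subgroup.centralizer (E : Set G))) h5
    rw [h3] at h6
    omega
  exact Subgroup.index_eq_one.1 h4

end Cfsg.Agent.S0110
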