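import Mathlib
import Cfsg.Statements.S0165
import Mathlib
import Cfsg.Agent.Lib.Helper25.MaxPair
import Cfsg.Agent.Lib.Helper25.KGV

set_option autoImplicit false
open Cfsg

namespace Cfsg.Agent.S0165

/-- If p ^ n is the exact power of the prime p dividing the order of a finite group and p ^ n divides the degree of an irreducible complex representation, then its character vanishes at every element of order divisible by p. -/
theorem result {G : Type*} [Group G] [Finite G] {V : Type*} [AddCommGroup V] [Module ℂ V] [FiniteDimensional ℂ V] (ρ : Representation ℂ G V) [ρ.IsIrreducible] (p n : ℕ) (hp : p.Prime) (hn : p ^ n ∣ Nat.card G) (hn' : ¬ p ^ (n + 1) ∣ Nat.card G) (hdeg : p ^ n ∣ Module.finrank ℂ V) (x : G) (hx : p ∣ orderOf x) : ρ.character x = 0 := by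
  classical
  haveI : Fintype G := Fintype.ofFinite G
  obtain ⟨M, hM⟩ := Cfsg.Agent.Lib.Helper25.KGV.exists_pModular p hp
  have hirr : Cfsg.IsIrrCharacter G ρ.character := Cfsg.Agent.Lib.Helper1.isIrrCharacter_character ρ
  obtain ⟨ψ, hψ⟩ : ∃ ψ : Cfsg.IrrCharacter G, (ψ : G → ℂ) = ρ.character := ⟨⟨ρ.character, hirr⟩, rfl⟩
  have h1 := Cfsg.Agent.Lib.Helper24.CharBasic.char_one_nat
    (Cfsg.Agent.Lib.Helper24.CharBasic.isCharacter_of_irr ψ.2)
  have hdegeq : Cfsg.charDegree (ψ : G → ℂ) = Module.finrank ℂ V := by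
    rw [hψ, Representation.char_one] at h1
    rw [hψ]
    exact_mod_cast h1.symm
  obtain ⟨_, hpos⟩ := Cfsg.Agent.Lib.Helper24.Defect.charDegree_dvd_card ψ
  have hcard : (Nat.card G).factorization p = n := by
    have hG : Nat.card G ≠ 0 := Nat.card_pos.ne'
    have a1 := (Nat.Prime.pow_dvd_iff_le_factorization hp hG).mp hn
    have a2 : ¬ (n + 1 ≤ (Nat.card G).factorization p) := fun h =>
      hn' ((Nat.Prime.pow_dvd_iff_le_factorization hp hG).mpr h)
    omega
  have hdeg' : (Nat.card G).factorization p ≤ (Cfsg.charDegree (ψ : G → ℂ)).factorization p := by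
    rw [hcard]
    apply (Nat.Prime.pow_dvd_iff_le_factorization hp hpos.ne').mp
    rw [hdegeq]
    exact hdeg
  have hsing := Cfsg.Agent.Lib.Helper25.MaxPair.blockOf_eq_singleton hM ψ hdeg'
  have hzero := Cfsg.Agent.Lib.Helper24.Defect.blockCoeff_eq_zero_of_singular hM
    (Cfsg.blockOf M (ψ : G → ℂ)) ⟨ψ, rfl⟩ x hx
  rw [hsing] at hzero
  unfold Cfsg.blockCoeff at hzero
  rw [finsum_mem_singleton] at hzero
  have hG : (Nat.card G : ℂ) ≠ 0 := by
    have := Nat.card_pos (α := G)
    exact_mod_cast this.ne'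
  have h1' : (ψ : G → ℂ) 1 ≠ 0 := by
    rw [h1]
    exact_mod_cast hpos.ne'
  rcases mul_eq_zero.mp hzero with h | h
  · exact absurd (inv_eq_zero.mp h) hG
  · rcases mul_eq_zero.mp h with h | h
    · exact absurd h h1'
    · rw [← hψ]
      have := congrArg (starRingEnd ℂ) h
      simpa using this

end Cfsg.Agent.S0165
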