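import Cfsg.Statements.S0437
import Cfsg.Agent.S0436

set_option autoImplicit false
open Cfsg

namespace Cfsg.Agent.S0437

theorem mul_cancel_self {G : Type*} [Group G] {d : G} (h : d * d = 1) (z : G) : d * (d * z) = z := by
  rw [← mul_assoc, h, one_mul]

/-- For three distinct, pairwise commuting members a, b, c of a set of 3-transpositions E, a member e of E centralises a * b * c if and only if it centralises each of a, b and c. -/
theorem result {G : Type*} [Group G] {E : Set G} (hE : Cfsg.IsThreeTranspositionSet E) {a b c e : G} (ha : a ∈ E) (hb : b ∈ E) (hc : c ∈ E) (he : e ∈ E) (hab : a ≠ b) (hac : a ≠ c) (hbc : b ≠ c) (h₁ : Commute a b) (h₂ : Commute a c) (h₃ : Commute b c) : Commute e (a * b * c) ↔ (Commute e a ∧ Commute e b ∧ Commute e c) := by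
  have ha2 := Cfsg.Agent.S0436.sq_of_mem hE ha
  have hb2 := Cfsg.Agent.S0436.sq_of_mem hE hb
  have hc2 := Cfsg.Agent.S0436.sq_of_mem hE hc
  have he2 := Cfsg.Agent.S0436.sq_of_mem hE he
  have ha2' := mul_cancel_self ha2
  have hb2' := mul_cancel_self hb2
  have hc2' := mul_cancel_self hc2
  have he2' := mul_cancel_self he2
  constructor
  · intro hx
    by_cases hea : Commute e a
    · have h : Commute e (b * c) := by
        have : b * c = a * (a * b * c) := by simp only [mul_assoc, ha2']
        rw [this]; exact hea.mul_right hx
      have := (Cfsg.Agent.S0436.result hE hb hc he hbc h₃).1 h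
      exact ⟨hea, this.1, this.2⟩
    by_cases heb : Commute e b
    · have h : Commute e (a * c) := by
        have : a * c = b * (a * b * c) := by
          rw [h₁.eq]; simp only [mul_assoc, hb2']
        rw [this]; exact heb.mul_right hx
      have := (Cfsg.Agent.S0436.result hE ha hc he hac h₂).1 h
      exact ⟨this.1, heb, this.2⟩
    by_cases hec : Commute e c
    · have h : Commute e (a * b) := by
        have : a * b = (a * b * c) * c := by
          simp only [mul_assoc, hc2, mul_one]
        rw [this]; exact hx.mul_right hec
      have := (Cfsg.Agent.S0436.result hE ha hb he hab h₁).1 h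
      exact ⟨this.1, this.2, hec⟩
    exfalso
    have r1 := Cfsg.Agent.S0436.cube_of_not_commute hE he ha hea
    have r2 := Cfsg.Agent.S0436.cube_of_not_commute hE he hb heb
    have r3 := Cfsg.Agent.S0436.cube_of_not_commute hE he hc hec
    have s1 : e * (a * b * c) * e = a * b * c := by
      rw [hx.eq, mul_assoc, he2, mul_one]
    have s2 : e * (a * b * c) * e = (e * a * e) * (e * b * e) * (e * c * e) := by
      simp only [mul_assoc, he2']
    rw [s2, r1, r2, r3] at s1
    have s4 : e * a * b * e * b * c * e = b := by
      have := congrArg (fun z => a * z * c) s1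
      simp only [mul_assoc, ha2', hc2, mul_one] at this
      simpa only [mul_assoc] using this
    have s5 : a * b * e = b * e * c := by
      have := congrArg (fun z => e * z * e * c * b) s4
      simp only [mul_assoc, he2', he2, mul_one] at this
      simp only [hc2', hb2, mul_one] at this
      have r2' : ∀ z, e * (b * (e * z)) = b * (e * (b * z)) := fun z => by
        have := congrArg (fun w => w * z) r2
        simpa only [mul_assoc] using this
      rw [r2', h₃.symm.eq, hb2'] at this
      simpa only [mul_assoc] using this
    have s6 : a * e = e * c := by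
      have := congrArg (fun z => b * z) s5
      rw [h₁.eq] at this
      simpa only [mul_assoc, hb2'] using this
    have t1 : a = e * c * e := by
      have := congrArg (fun z => z * e) s6
      simpa only [mul_assoc, he2, mul_one] using this
    rw [r3] at t1
    have t2 : c * a * c = e := by
      rw [t1]; simp only [mul_assoc, hc2', hc2, mul_one]
    have t3 : c * a * c = a := by
      rw [h₂.symm.eq, mul_assoc, hc2, mul_one]
    have s7 : e = a := t2.symm.trans t3
    apply hea
    rw [s7]
  · rintro ⟨h1, h2, h3⟩
    exact (h1.mul_right h2).mul_right h3

end Cfsg.Agent.S0437
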