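import Mathlib
import Cfsg.Statements.S0600
import Cfsg.Agent.Lib.Lead.Cores

set_option autoImplicit false
open Cfsg

namespace Cfsg.Agent.S0600

universe u

/-- an element mapping into a normal `p`-subgroup of `G ⧸ C` is a product of an element of
any given Sylow `p`-subgroup and an element of `C` -/
theorem exists_mul_of_mem {G : Type u} [Group G] [Finite G] {p : ℕ} [Fact p.Prime]
    (C : Subgroup G) [C.Normal] (N : Subgroup (G ⧸ C)) [N.Normal] (hN : IsPGroup p N)
    (S : Sylow p G) {x : G} (hx : (QuotientGroup.mk' C) x ∈ N) :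
    ∃ s ∈ (S : Subgroup G), ∃ c ∈ C, x = s * c := by
  have h1 : N ≤ (S.mapSurjective (QuotientGroup.mk'_surjective C) : Subgroup (G ⧸ C)) :=
    hN.le_sylow_of_normal _
  obtain ⟨s, hs, hsx⟩ := h1 hx
  refine ⟨s, hs, s⁻¹ * x, ?_, by group⟩
  rw [← QuotientGroup.eq_one_iff]
  have : QuotientGroup.mk' C (s⁻¹ * x) = 1 := by
    rw [map_mul, map_inv, hsx, inv_mul_cancel]
  exact this

/-- membership in the centralizer of a join of subgroups -/
theorem mem_centralizer_iSup {G : Type u} [Group G] {ι : Sort*} (K : ι → Subgroup G) (x : G)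
    (h : ∀ i, ∀ v ∈ K i, v * x = x * v) :
    x ∈ Subgroup.centralizer ((⨆ i, K i : Subgroup G) : Set G) := by
  have h1 : (⨆ i, K i) ≤ Subgroup.centralizer {x} := by
    apply iSup_le
    intro i v hv
    rw [Subgroup.mem_centralizer_iff]
    intro y hy
    rw [Set.mem_singleton_iff] at hy; subst hy
    exact (h i v hv).symm
  rw [Subgroup.mem_centralizer_iff]
  intro v hv
  have := Subgroup.mem_centralizer_iff.mp (h1 hv) x (Set.mem_singleton x)
  exact this.symm

/-- A normal elementary abelian p-subgroup generated by the fixed points of the Sylow p-subgroups admits no nontrivial normal p-subgroup of G modulo its centralizer. -/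
theorem result {G : Type*} [Group G] [Finite G] {p : ℕ} [Fact p.Prime] (V : Subgroup G) [V.Normal] (hV : Cfsg.IsElementaryAbelian p V) (hgen : V = ⨆ S : Sylow p G, V ⊓ Subgroup.centralizer ((S : Subgroup G) : Set G)) : Cfsg.pCore p (G ⧸ Subgroup.centralizer (V : Set G)) = ⊥ := by
  set C := Subgroup.centralizer (V : Set G) with hC
  haveI hNn : (Cfsg.pCore p (G ⧸ C)).Normal := Cfsg.Agent.Lib.Lead.Cores.pCore_normal p
  have hNp : IsPGroup p (Cfsg.pCore p (G ⧸ C)) := Cfsg.Agent.Lib.Lead.Cores.pCore_isPGroup p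
  rw [eq_bot_iff]
  intro y hy
  obtain ⟨x, rfl⟩ := QuotientGroup.mk'_surjective C y
  rw [Subgroup.mem_bot]
  have hxC : x ∈ C := by
    rw [hC, hgen]
    apply mem_centralizer_iSup
    intro S v hv
    obtain ⟨s, hs, c, hc, rfl⟩ := exists_mul_of_mem C (Cfsg.pCore p (G ⧸ C)) hNp S hy
    have hv' := Subgroup.mem_inf.mp hv
    have h1 : s * v = v * s := Subgroup.mem_centralizer_iff.mp hv'.2 s hs
    have h2 : v * c = c * v := Subgroup.mem_centralizer_iff.mp hc v hv'.1
    calc v * (s * c) = (v * s) * c := by group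
      _ = s * (v * c) := by rw [← h1]; group
      _ = s * c * v := by rw [h2]; group
  exact (QuotientGroup.eq_one_iff x).mpr hxC

end Cfsg.Agent.S0600
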