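import Mathlib
import Cfsg.Statements.S0601
import Cfsg.Agent.Lib.Lead.Cores
import Cfsg.Agent.Lib.Helper4.Conj
import Cfsg.Agent.S0600

set_option autoImplicit false
open Cfsg

open scoped Pointwise

namespace Cfsg.Agent.S0601

universe u

open Cfsg.Agent.Lib.Helper4.Conj

/-- `E S = Ω₁(Z(S))` as in the statement -/
def E {G : Type u} [Group G] (p : ℕ) (S : Subgroup G) : Subgroup G :=
  Cfsg.omegaOne p (S ⊓ Subgroup.centralizer (S : Set G))

theorem map_conj_E_le {G : Type u} [Group G] (p : ℕ) (g : G) (S : Subgroup G) :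
    (E p S).map (MulAut.conj g).toMonoidHom ≤ E p (MulAut.conj g • S) := by
  rw [Subgroup.map_le_iff_le_comap]
  unfold E Cfsg.omegaOne
  rw [Subgroup.closure_le]
  rintro x ⟨hx, hxp⟩
  have hx' := Subgroup.mem_inf.mp hx
  rw [SetLike.mem_coe, Subgroup.mem_comap]
  apply Subgroup.subset_closure
  refine ⟨Subgroup.mem_inf.mpr ⟨?_, ?_⟩, ?_⟩
  · exact conj_mem_conj_smul hx'.1
  · rw [Subgroup.mem_centralizer_iff]
    intro y hy
    rw [SetLike.mem_coe, mem_conj_smul] at hy
    have h1 := Subgroup.mem_centralizer_iff.mp hx'.2 _ hy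
    show y * (g * x * g⁻¹) = (g * x * g⁻¹) * y
    calc y * (g * x * g⁻¹) = g * ((g⁻¹ * y * g) * x) * g⁻¹ := by group
      _ = g * (x * (g⁻¹ * y * g)) * g⁻¹ := by rw [h1]
      _ = (g * x * g⁻¹) * y := by group
  · show (g * x * g⁻¹) ^ p = 1
    rw [conj_pow, hxp]; group

theorem W_normal {G : Type u} [Group G] (p : ℕ) :
    (⨆ S : Sylow p G, E p (S : Subgroup G)).Normal := by
  constructor
  intro n hn g
  have h1 : (⨆ S : Sylow p G, E p (S : Subgroup G)).map (MulAut.conj g).toMonoidHom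
      ≤ ⨆ S : Sylow p G, E p (S : Subgroup G) := by
    rw [Subgroup.map_iSup]
    apply iSup_le
    intro S
    refine (map_conj_E_le p g (S : Subgroup G)).trans ?_
    exact le_iSup (fun S : Sylow p G => E p (S : Subgroup G)) (g • S)
  exact h1 (Subgroup.mem_map_of_mem _ hn)

/-- the elements of order dividing `p` in the centre of `Q` -/
def E0 {G : Type u} [Group G] (p : ℕ) (Q : Subgroup G) : Subgroup G where
  carrier := {x | x ∈ Q ∧ x ∈ Subgroup.centralizer (Q : Set G) ∧ x ^ p = 1}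
  one_mem' := ⟨one_mem _, one_mem _, one_pow _⟩
  mul_mem' := by
    rintro x y ⟨hx1, hx2, hx3⟩ ⟨hy1, hy2, hy3⟩
    refine ⟨mul_mem hx1 hy1, mul_mem hx2 hy2, ?_⟩
    have hc : Commute x y := (Subgroup.mem_centralizer_iff.mp hy2 x hx1)
    rw [hc.mul_pow, hx3, hy3, one_mul]
  inv_mem' := by
    rintro x ⟨hx1, hx2, hx3⟩
    exact ⟨inv_mem hx1, inv_mem hx2, by rw [inv_pow, hx3, inv_one]⟩

theorem W_le_E0 {G : Type u} [Group G] [Finite G] (p : ℕ) [Fact p.Prime]
    (hc : Subgroup.centralizer (Cfsg.pCore p G : Set G) ≤ Cfsg.pCore p G) :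
    (⨆ S : Sylow p G, E p (S : Subgroup G)) ≤ E0 p (Cfsg.pCore p G) := by
  apply iSup_le
  intro S
  unfold E Cfsg.omegaOne
  rw [Subgroup.closure_le]
  rintro x ⟨hx, hxp⟩
  have hx' := Subgroup.mem_inf.mp hx
  haveI : (Cfsg.pCore p G).Normal := Cfsg.Agent.Lib.Lead.Cores.pCore_normal p
  have hQS : Cfsg.pCore p G ≤ (S : Subgroup G) :=
    (Cfsg.Agent.Lib.Lead.Cores.pCore_isPGroup p).le_sylow_of_normal S
  have hxc : x ∈ Subgroup.centralizer (Cfsg.pCore p G : Set G) := by
    rw [Subgroup.mem_centralizer_iff]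
    intro y hy
    exact Subgroup.mem_centralizer_iff.mp hx'.2 y (hQS hy)
  exact ⟨hc hxc, hxc, hxp⟩

/-- When O_p(G) contains its centralizer, the normal closure of Ω₁(Z(S)) is elementary abelian and G has no nontrivial normal p-subgroup modulo its centralizer. -/
theorem result {G : Type*} [Group G] [Finite G] {p : ℕ} [Fact p.Prime] (hc : Subgroup.centralizer (Cfsg.pCore p G : Set G) ≤ Cfsg.pCore p G) : (⨆ S : Sylow p G, Cfsg.omegaOne p (((S : Subgroup G)) ⊓ Subgroup.centralizer ((S : Subgroup G) : Set G))).Normal ∧ Cfsg.IsElementaryAbelian p (⨆ S : Sylow p G, Cfsg.omegaOne p (((S : Subgroup G)) ⊓ Subgroup.centralizer ((S : Subgroup G) : Set G))) ∧ ∀ D : Subgroup G, D.Normal → Subgroup.centralizer ((⨆ S : Sylow p G, Cfsg.omegaOne p (((S : Subgroup G)) ⊓ Subgroup.centralizer ((S : Subgroup G) : Set G)) : Subgroup G) : Set G) ≤ D → (∃ k : ℕ, (Subgroup.centralizer ((⨆ S : Sylow p G, Cfsg.omegaOne p (((S : Subgroup G)) ⊓ Subgroup.centralizer ((S : Subgroup G) : Set G))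 : Subgroup G) : Set G)).relIndex D = p ^ k) → D = Subgroup.centralizer ((⨆ S : Sylow p G, Cfsg.omegaOne p (((S : Subgroup G)) ⊓ Subgroup.centralizer ((S : Subgroup G) : Set G)) : Subgroup G) : Set G) := by
  have hWn : (⨆ S : Sylow p G, E p (S : Subgroup G)).Normal := W_normal p
  have hWE : (⨆ S : Sylow p G, E p (S : Subgroup G)) ≤ E0 p (Cfsg.pCore p G) := W_le_E0 p hc
  refine ⟨hWn, ⟨⟨⟨fun a b => ?_⟩⟩, fun a ha => (hWE ha).2.2⟩, ?_⟩
  · apply Subtype.ext
    have ha := hWE a.2
    have hb := hWE b.2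
    exact (Subgroup.mem_centralizer_iff.mp ha.2.1 b hb.1).symm
  · intro D hD hCD hk
    obtain ⟨k, hk⟩ := hk
    haveI := hWn
    change Subgroup.centralizer ((⨆ S : Sylow p G, E p (S : Subgroup G) : Subgroup G) : Set G) ≤ D at hCD
    change (Subgroup.centralizer ((⨆ S : Sylow p G, E p (S : Subgroup G) : Subgroup G) : Set G)).relIndex D = p ^ k at hk
    show D = Subgroup.centralizer ((⨆ S : Sylow p G, E p (S : Subgroup G) : Subgroup G) : Set G)
    apply le_antisymm _ hCD
    set C := Subgroup.centralizer ((⨆ S : Sylow p G, E p (S : Subgroup G) : Subgroup G) : Set G) with hC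
    haveI hNn : (D.map (QuotientGroup.mk' C)).Normal := hD.map _ (QuotientGroup.mk'_surjective C)
    have hNp : IsPGroup p (D.map (QuotientGroup.mk' C)) := by
      apply IsPGroup.of_card (n := k)
      rw [← hk]
      have := Subgroup.relIndex_ker (QuotientGroup.mk' C) (K := D)
      rw [QuotientGroup.ker_mk'] at this
      exact this.symm
    intro x hx
    rw [hC]
    apply Cfsg.Agent.S0600.mem_centralizer_iSup
    intro S v hv
    obtain ⟨s, hs, c, hc', rfl⟩ := Cfsg.Agent.S0600.exists_mul_of_mem C (D.map (QuotientGroup.mk' C)) hNp S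
      (Subgroup.mem_map_of_mem _ hx)
    -- s * c centralizes E p S
    have h1 : E p (S : Subgroup G) ≤ Subgroup.centralizer {s * c} := by
      unfold E Cfsg.omegaOne
      rw [Subgroup.closure_le]
      rintro w ⟨hw, hwp⟩
      have hw' := Subgroup.mem_inf.mp hw
      have hwW : w ∈ (⨆ S : Sylow p G, E p (S : Subgroup G)) := by
        apply Subgroup.mem_iSup_of_mem S
        exact Subgroup.subset_closure ⟨hw, hwp⟩
      rw [SetLike.mem_coe, Subgroup.mem_centralizer_iff]
      intro y hy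
      rw [Set.mem_singleton_iff] at hy; subst hy
      have e1 : s * w = w * s := Subgroup.mem_centralizer_iff.mp hw'.2 s hs
      have e2 : w * c = c * w := Subgroup.mem_centralizer_iff.mp hc' w hwW
      calc s * c * w = s * (c * w) := by group
        _ = (s * w) * c := by rw [← e2]; group
        _ = w * (s * c) := by rw [e1]; group
    have := Subgroup.mem_centralizer_iff.mp (h1 hv) (s * c) (Set.mem_singleton _)
    exact this.symm

end Cfsg.Agent.S0601
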