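import Mathlib
import Cfsg.Statements.S0629
import Cfsg.Agent.Lib.Helper4.PPrimeQuot
import Cfsg.Agent.Lib.Helper4.PSolv
import Cfsg.Agent.Lib.Helper12.PSolvable
import Cfsg.Agent.S0630

set_option autoImplicit false
open Cfsg

namespace Cfsg.Agent.S0629

/-- A group in which the centralizer of a Sylow p-subgroup of O_{p',p}(G) is p-solvable is p-constrained. -/
theorem result {G : Type*} [Group G] [Finite G] {p : ℕ} [Fact p.Prime] (P : Sylow p ↥(Cfsg.pPrimePCore p G)) (hsol : Cfsg.IsPSolvable p ↥(Subgroup.centralizer (((P : Subgroup ↥(Cfsg.pPrimePCore p G)).map (Cfsg.pPrimePCore p G).subtype : Subgroup G) : Set G))) : Cfsg.IsPConstrained p G := by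
  classical
  have hO := Cfsg.Agent.Lib.Helper9.pPrimeCore_coprime p G
  have hbot := Cfsg.Agent.Lib.Helper9.pPrimeCore_quotient_eq_bot p G
  have hP₀p : IsPGroup p ((P : Subgroup ↥(pPrimePCore p G)).map (pPrimePCore p G).subtype) :=
    P.2.map _
  have hmap := Cfsg.Agent.S0630.sylow_map_eq p P
  obtain ⟨Cb, hCb⟩ : ∃ Cb : Subgroup (G ⧸ pPrimeCore p G), Cb = Subgroup.centralizer
      (pCore p (G ⧸ pPrimeCore p G) : Set (G ⧸ pPrimeCore p G)) := ⟨_, rfl⟩
  haveI hCbn : Cb.Normal := by rw [hCb]; infer_instance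
  have hCbsol : IsPSolvable p Cb := by
    let f : ↥(Subgroup.centralizer
        (((P : Subgroup ↥(pPrimePCore p G)).map (pPrimePCore p G).subtype : Subgroup G) : Set G)) →* Cb :=
      ((QuotientGroup.mk' (pPrimeCore p G)).comp (Subgroup.centralizer
        (((P : Subgroup ↥(pPrimePCore p G)).map (pPrimePCore p G).subtype : Subgroup G) : Set G)).subtype).codRestrict
        Cb (fun c => by
          rw [hCb, ← hmap]
          exact Cfsg.Agent.Lib.Helper4.PPrimeQuot.cent_map _ _ c.2)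
    have hf : Function.Surjective f := by
      rintro ⟨y, hy⟩
      obtain ⟨g, rfl⟩ := QuotientGroup.mk'_surjective _ y
      rw [hCb, ← hmap] at hy
      obtain ⟨u, hu, hc⟩ := Cfsg.Agent.Lib.Helper4.PPrimeQuot.cent_lift hO hP₀p g hy
      refine ⟨⟨u * g, hc⟩, Subtype.ext ?_⟩
      show QuotientGroup.mk' (pPrimeCore p G) (u * g) = QuotientGroup.mk' (pPrimeCore p G) g
      have hu1 : QuotientGroup.mk' (pPrimeCore p G) u = 1 := (QuotientGroup.eq_one_iff u).mpr hu
      rw [map_mul, hu1, one_mul]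
    exact Cfsg.Agent.Lib.Helper4.PSolv.isPSolvable_of_surjective f hf hsol
  have hCbO : pPrimeCore p Cb = ⊥ := by
    have h1 := Cfsg.Agent.Lib.Helper9.pPrimeCore_subtype_le p Cb
    rw [hbot] at h1
    rw [← Subgroup.map_eq_bot_iff_of_injective _ Cb.subtype_injective]
    exact le_bot_iff.mp h1
  have hkey := Cfsg.Agent.Lib.Helper12.PSolvable.hall_higman hCbsol hCbO
  have hsub := Cfsg.Agent.Lib.Helper9.pCore_subtype_le p Cb
  have hcent : Subgroup.centralizer (pCore p (G ⧸ pPrimeCore p G) : Set (G ⧸ pPrimeCore p G))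
      ≤ pCore p (G ⧸ pPrimeCore p G) := by
    intro c hc
    have hcCb : c ∈ Cb := by rw [hCb]; exact hc
    have h1 : (⟨c, hcCb⟩ : Cb) ∈ Subgroup.centralizer (pCore p Cb : Set Cb) := by
      rw [Subgroup.mem_centralizer_iff]
      intro y hy
      apply Subtype.ext
      exact (Subgroup.mem_centralizer_iff.mp hc) (y : G ⧸ pPrimeCore p G)
        (hsub (Subgroup.mem_map_of_mem _ hy))
    exact hsub ⟨⟨c, hcCb⟩, hkey h1, rfl⟩
  intro P' c hc
  have h2 := Cfsg.Agent.Lib.Helper4.PPrimeQuot.cent_map (QuotientGroup.mk' (pPrimeCore p G)) _ hc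
  rw [Cfsg.Agent.S0630.sylow_map_eq p P'] at h2
  exact hcent h2

end Cfsg.Agent.S0629
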