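import Mathlib
import Cfsg.Statements.S0717
import Cfsg.Agent.S0896
import Cfsg.Agent.Lib.Helper25.Brauer6
import Cfsg.Agent.Lib.Helper10.FS

set_option autoImplicit false
open scoped ComplexConjugate
open Cfsg

namespace Cfsg.Agent.S0717

open Cfsg.Agent.Lib.Helper1 Cfsg.Agent.Lib.Helper25.Brauer

section count

variable {G : Type*} [Group G] [Fintype G] {Ω : Type*} [Fintype Ω] [MulAction G Ω]
  [DecidableEq Ω]

/-- Double counting of the pairs fixed by a group element. -/
theorem count_pairs :
    ∑ g : G, (∑ ω : Ω, if g • ω = ω then 1 else 0) ^ 2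
      = ∑ ω : Ω, ∑ β : Ω, ∑ g : G, if (g • ω = ω ∧ g • β = β) then 1 else 0 := by
  have h1 : ∀ g : G, (∑ ω : Ω, if g • ω = ω then 1 else 0) ^ 2
      = ∑ ω : Ω, ∑ β : Ω, if (g • ω = ω ∧ g • β = β) then 1 else 0 := by
    intro g
    rw [sq, Finset.sum_mul_sum]
    refine Finset.sum_congr rfl (fun ω _ => Finset.sum_congr rfl (fun β _ => ?_))
    by_cases h1 : g • ω = ω <;> by_cases h2 : g • β = β <;> simp [h1, h2]
  rw [Finset.sum_congr rfl (fun g _ => h1 g), Finset.sum_comm]
  refine Finset.sum_congr rfl (fun ω _ => ?_)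
  rw [Finset.sum_comm]

/-- Double counting of the pairs interchanged by a group element. -/
theorem count_sq :
    ∑ g : G, (∑ ω : Ω, if (g * g) • ω = ω then 1 else 0)
      = ∑ ω : Ω, ∑ β : Ω, ∑ g : G, if (g • ω = β ∧ g • β = ω) then 1 else 0 := by
  have h1 : ∀ g : G, (∑ ω : Ω, if (g * g) • ω = ω then 1 else 0)
      = ∑ ω : Ω, ∑ β : Ω, if (g • ω = β ∧ g • β = ω) then 1 else 0 := by
    intro g
    refine Finset.sum_congr rfl (fun ω _ => ?_)
    rw [Finset.sum_eq_single (g • ω)]
    · rw [mul_smul]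
      by_cases h : g • g • ω = ω
      · rw [if_pos h, if_pos ⟨rfl, h⟩]
      · rw [if_neg h, if_neg (fun h' => h h'.2)]
    · intro β _ hβ
      rw [if_neg (fun h' => hβ h'.1.symm)]
    · intro h
      exact absurd (Finset.mem_univ _) h
  rw [Finset.sum_congr rfl (fun g _ => h1 g), Finset.sum_comm]
  refine Finset.sum_congr rfl (fun ω _ => ?_)
  rw [Finset.sum_comm]

/-- The elements interchanging two points form a coset of the two point stabilizer, or are
absent. -/
theorem swap_le (ω β : Ω) :
    (∑ g : G, if (g • ω = β ∧ g • β = ω) then 1 else 0)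
      ≤ ∑ g : G, if (g • ω = ω ∧ g • β = β) then 1 else 0 := by
  by_cases hex : ∃ g₀ : G, g₀ • ω = β ∧ g₀ • β = ω
  · obtain ⟨g₀, h1, h2⟩ := hex
    apply le_of_eq
    rw [← Equiv.sum_comp (Equiv.mulLeft g₀)
      (fun g : G => if (g • ω = β ∧ g • β = ω) then 1 else 0)]
    refine Finset.sum_congr rfl (fun g _ => ?_)
    rw [Equiv.coe_mulLeft]
    have e : ((g₀ * g) • ω = β ∧ (g₀ * g) • β = ω) ↔ (g • ω = ω ∧ g • β = β) := by
      rw [mul_smul, mul_smul]
      constructor
      · rintro ⟨h3, h4⟩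
        constructor
        · have : g₀ • g • ω = g₀ • ω := by rw [h3, h1]
          exact smul_left_cancel g₀ this
        · have : g₀ • g • β = g₀ • β := by rw [h4, h2]
          exact smul_left_cancel g₀ this
      · rintro ⟨h3, h4⟩
        rw [h3, h4]
        exact ⟨h1, h2⟩
    rw [if_congr e rfl rfl]
  · rw [Finset.sum_eq_zero]
    · exact Nat.zero_le _
    · intro g _
      rw [if_neg (fun h => hex ⟨g, h⟩)]

theorem swap_eq (ω β : Ω) (hex : ∃ g₀ : G, g₀ • ω = β ∧ g₀ • β = ω) :
    (∑ g : G, if (g • ω = β ∧ g • β = ω) then 1 else 0)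
      = ∑ g : G, if (g • ω = ω ∧ g • β = β) then 1 else 0 := by
  apply le_antisymm (swap_le ω β)
  obtain ⟨g₀, h1, h2⟩ := hex
  apply le_of_eq
  rw [← Equiv.sum_comp (Equiv.mulLeft g₀)
    (fun g : G => if (g • ω = β ∧ g • β = ω) then 1 else 0)]
  refine Finset.sum_congr rfl (fun g _ => ?_)
  rw [Equiv.coe_mulLeft]
  have e : ((g₀ * g) • ω = β ∧ (g₀ * g) • β = ω) ↔ (g • ω = ω ∧ g • β = β) := by
    rw [mul_smul, mul_smul]
    constructor
    · rintro ⟨h3, h4⟩
      constructor
      · have : g₀ • g • ω = g₀ • ω := by rw [h3, h1]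
        exact smul_left_cancel g₀ this
      · have : g₀ • g • β = g₀ • β := by rw [h4, h2]
        exact smul_left_cancel g₀ this
    · rintro ⟨h3, h4⟩
      rw [h3, h4]
      exact ⟨h1, h2⟩
  rw [if_congr e rfl rfl]

theorem swap_pos (ω β : Ω)
    (h : (∑ g : G, if (g • ω = β ∧ g • β = ω) then 1 else 0)
      = ∑ g : G, if (g • ω = ω ∧ g • β = β) then 1 else 0) :
    ∃ g : G, g • ω = β ∧ g • β = ω := by
  by_contra hex
  rw [Finset.sum_eq_zero (fun g _ => if_neg (fun h' => hex ⟨g, h'⟩))] at h
  have h1 := (Finset.sum_eq_zero_iff.mp h.symm) 1 (Finset.mem_univ _)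
  rw [if_pos ⟨one_smul _ _, one_smul _ _⟩] at h1
  exact one_ne_zero h1

end count

/-- A real-valued irreducible character whose representation has a one-dimensional space of
`H`-fixed vectors has Frobenius–Schur indicator `1`: an invariant alternating form would vanish
identically on the fixed line. -/
theorem ind_eq_one_of_fixed {G : Type*} [Group G] [Fintype G] (n : ℕ)
    (ρ : Representation ℂ G (Fin n → ℂ)) [ρ.IsIrreducible]
    (hreal : ∀ g : G, (ρ.character g).im = 0) (H : Subgroup G) [Fintype H]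
    (hH : ∑ h : H, ρ.character (h : G) = (Nat.card H : ℂ)) :
    Cfsg.Agent.Lib.Helper10.FS.ind ρ.character = 1 := by
  classical
  rcases Cfsg.Agent.Lib.Helper10.FS.dichotomy n ρ with
    ⟨-, -, s, hs⟩ | ⟨M0, ε, hM0inv, hM0ne, hM0unit, hε, hind, -, htr, -⟩
  · exact absurd (hreal s) hs
  · rcases hε with rfl | rfl
    · exact hind
    · exfalso
      obtain ⟨X, hXdef⟩ : ∃ X : G → Matrix (Fin n) (Fin n) ℂ,
          X = fun g => LinearMap.toMatrix' (ρ g) := ⟨_, rfl⟩
      have hX : ∀ g h : G, X (g * h) = X g * X h := by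
        intro g h
        rw [hXdef]
        show LinearMap.toMatrix' (ρ (g * h)) = _
        rw [map_mul, LinearMap.toMatrix'_mul]
      have hinv : ∀ g : G, (X g).transpose * M0 * X g = M0 := by
        intro g
        rw [hXdef]
        exact hM0inv g
      have hskew : M0.transpose = -M0 := by
        rw [htr M0 hM0inv]
        simp
      have hchar : ∀ g : G, ρ.character g = (X g).trace := by
        intro g
        rw [hXdef]
        show LinearMap.trace ℂ _ (ρ g) = _
        rw [LinearMap.trace_eq_matrix_trace ℂ (Pi.basisFun ℂ (Fin n)) (ρ g),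
          LinearMap.toMatrix_eq_toMatrix']
      have hH0 : (Nat.card H : ℂ) ≠ 0 := by
        have := Nat.card_pos (α := H)
        exact_mod_cast this.ne'
      obtain ⟨E, hE⟩ : ∃ E : Matrix (Fin n) (Fin n) ℂ,
          E = (Nat.card H : ℂ)⁻¹ • ∑ h : H, X (h : G) := ⟨_, rfl⟩
      have hXE : ∀ k : H, X (k : G) * E = E := by
        intro k
        rw [hE, Matrix.mul_smul, Finset.mul_sum]
        congr 1
        rw [← Equiv.sum_comp (Equiv.mulLeft k) (fun h : H => X (h : G))]
        refine Finset.sum_congr rfl (fun h _ => ?_)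
        rw [Equiv.coe_mulLeft, Subgroup.coe_mul, hX]
      have hcardH : (Finset.univ : Finset H).card = Nat.card H := by
        rw [Finset.card_univ, Nat.card_eq_fintype_card]
      have hEE : E * E = E := by
        have h1 : E * E = ((Nat.card H : ℂ)⁻¹ • ∑ h : H, X (h : G)) * E := by rw [← hE]
        rw [h1, Matrix.smul_mul, Finset.sum_mul, Finset.sum_congr rfl (fun k _ => hXE k),
          Finset.sum_const, hcardH, ← Nat.cast_smul_eq_nsmul ℂ, smul_smul, inv_mul_cancel₀ hH0,
          one_smul]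
      have htrE : E.trace = 1 := by
        rw [hE, Matrix.trace_smul, Matrix.trace_sum]
        simp only [← hchar]
        rw [hH, smul_eq_mul, inv_mul_cancel₀ hH0]
      have hN : E.transpose * M0 * E = M0 * E := by
        have h1 : E.transpose * M0 * E
            = ((Nat.card H : ℂ)⁻¹ • ∑ h : H, X (h : G)).transpose * M0 * E := by rw [← hE]
        have h2 : ∀ h : H, (X (h : G)).transpose * M0 * E = M0 * E := by
          intro h
          have h3 : (X (h : G)).transpose * M0 * E
              = (X (h : G)).transpose * M0 * (X (h : G) * E) := by rw [hXE h]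
          rw [h3, ← Matrix.mul_assoc, hinv]
        rw [h1, Matrix.transpose_smul, Matrix.transpose_sum, Matrix.smul_mul, Matrix.smul_mul,
          Finset.sum_mul, Finset.sum_mul, Finset.sum_congr rfl (fun h _ => h2 h),
          Finset.sum_const, hcardH, ← Nat.cast_smul_eq_nsmul ℂ, smul_smul, inv_mul_cancel₀ hH0,
          one_smul]
      -- the rank of `E`
      have hproj : LinearMap.IsProj (LinearMap.range (Matrix.toLin' E)) (Matrix.toLin' E) := by
        refine ⟨fun x => LinearMap.mem_range_self _ x, ?_⟩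
        rintro x ⟨y, rfl⟩
        rw [← LinearMap.comp_apply, ← Matrix.toLin'_mul, hEE]
      have hrank : Module.finrank ℂ (LinearMap.range (Matrix.toLin' E)) = 1 := by
        have h1 := LinearMap.IsProj.trace hproj
        rw [LinearMap.trace_eq_matrix_trace ℂ (Pi.basisFun ℂ (Fin n)) (Matrix.toLin' E),
          LinearMap.toMatrix_eq_toMatrix', LinearMap.toMatrix'_toLin', htrE] at h1
        exact_mod_cast h1.symm
      obtain ⟨v, -, hv⟩ := finrank_eq_one_iff'.mp hrank
      have hvv : (v : Fin n → ℂ) ⬝ᵥ (M0.mulVec (v : Fin n → ℂ)) = 0 := by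
        have h1 : (v : Fin n → ℂ) ⬝ᵥ (M0.mulVec (v : Fin n → ℂ))
            = -((v : Fin n → ℂ) ⬝ᵥ (M0.mulVec (v : Fin n → ℂ))) := by
          conv_lhs => rw [Matrix.dotProduct_mulVec, ← Matrix.mulVec_transpose, hskew,
            Matrix.neg_mulVec, neg_dotProduct, dotProduct_comm]
        have h2 : (2 : ℂ) * ((v : Fin n → ℂ) ⬝ᵥ (M0.mulVec (v : Fin n → ℂ))) = 0 := by
          linear_combination h1
        rcases mul_eq_zero.mp h2 with h | h
        · norm_num at h
        · exact h
      have hzero : ∀ x y : Fin n → ℂ, (E.mulVec x) ⬝ᵥ (M0.mulVec (E.mulVec y)) = 0 := by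
        intro x y
        obtain ⟨c, hc⟩ := hv ⟨E.mulVec x, ⟨x, Matrix.toLin'_apply E x⟩⟩
        obtain ⟨c', hc'⟩ := hv ⟨E.mulVec y, ⟨y, Matrix.toLin'_apply E y⟩⟩
        have hc1 : E.mulVec x = c • (v : Fin n → ℂ) := (congrArg Subtype.val hc).symm
        have hc2 : E.mulVec y = c' • (v : Fin n → ℂ) := (congrArg Subtype.val hc').symm
        rw [hc1, hc2, Matrix.mulVec_smul, smul_dotProduct, dotProduct_smul, hvv]
        simp
      have hN0 : M0 * E = 0 := by
        rw [← hN]
        apply Matrix.toLin'.injective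
        apply LinearMap.ext
        intro y
        rw [map_zero, LinearMap.zero_apply, Matrix.toLin'_apply]
        apply (dotProduct_eq_zero_iff).mp
        intro x
        rw [dotProduct_comm, ← Matrix.mulVec_mulVec, ← Matrix.mulVec_mulVec,
          Matrix.dotProduct_mulVec, Matrix.vecMul_transpose]
        exact hzero x y
      have hE0 : E = 0 := (hM0unit.mul_right_eq_zero).mp hN0
      rw [hE0, Matrix.trace_zero] at htrE
      exact zero_ne_one htrE

/-- All suborbits of a transitive group are self-paired (every pair of points is interchanged by some group element) if and only if the permutation character is multiplicity-free and each of its irreducible constituents is real-valued. -/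
theorem result {G : Type*} [Group G] [Fintype G] {Ω : Type*} [Fintype Ω] [MulAction G Ω] [MulAction.IsPretransitive G Ω] : (∀ a b : Ω, ∃ g : G, g • a = b ∧ g • b = a) ↔ ∀ χ : G → ℂ, Cfsg.IsIrrCharacter G χ → Cfsg.classInner (fun g : G => (Nat.card (MulAction.fixedBy Ω g) : ℂ)) χ ≠ 0 → Cfsg.classInner (fun g : G => (Nat.card (MulAction.fixedBy Ω g) : ℂ)) χ = 1 ∧ ∀ g : G, (starRingEnd ℂ) (χ g) = χ g := by
  classical
  haveI : Fintype (IrrCharacter G) := irrFintype
  obtain ⟨c, hc⟩ : ∃ c : G → ℕ, c = fun g => ∑ ω : Ω, if g • ω = ω then 1 else 0 := ⟨_, rfl⟩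
  have hπc : (fun g : G => (Nat.card (MulAction.fixedBy Ω g) : ℂ)) = fun g => (c g : ℂ) := by
    funext g
    rw [hc]
    congr 1
    show Nat.card (MulAction.fixedBy Ω g) = ∑ ω : Ω, if g • ω = ω then 1 else 0
    rw [← Finset.card_filter, Nat.card_eq_fintype_card, Fintype.card_subtype]
    congr 1
  rw [hπc]
  obtain ⟨π, hπ⟩ : ∃ π : G → ℂ, π = fun g => (c g : ℂ) := ⟨_, rfl⟩
  rw [← hπ]
  have hπind : ∀ a : Ω, π = indFun (MulAction.stabilizer G a) (fun _ => (1 : ℂ)) := by
    intro a
    funext g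
    rw [indFun_stab a g, hπ, hc]
    push_cast
    refine Finset.sum_congr rfl (fun ω _ => ?_)
    have h1 : ω ∈ MulAction.orbit G a := by
      rw [MulAction.orbit_eq_univ]
      exact Set.mem_univ _
    simp only [h1, true_and]
  have hπchar : IsCharacter G π := by
    rcases isEmpty_or_nonempty Ω with hemp | ⟨⟨a⟩⟩
    · have h0 : π = 0 := by
        funext g
        rw [hπ, hc]
        simp
      rw [h0]
      exact isCharacter_zero
    · rw [hπind a]
      exact indFun_isCharacter _ (IsIrrCharacter.isCharacter isIrrCharacter_one)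
  obtain ⟨m, hm1, hm2⟩ := IsCharacter.eq_sum_irr hπchar
  have hν : ∀ χ : IrrCharacter G, ∃ z : ℤ,
      Cfsg.Agent.Lib.Helper10.FS.ind (χ : G → ℂ) = z ∧ z ≤ 1 ∧
      (z = 1 → ∀ g : G, conj ((χ : G → ℂ) g) = (χ : G → ℂ) g) := by
    intro χ
    obtain ⟨n, ρ, hρ, hρχ⟩ := χ.2
    haveI := hρ
    rcases Cfsg.Agent.Lib.Helper10.FS.dichotomy n ρ with
      ⟨-, h0, -⟩ | ⟨M0, ε, -, -, -, hε, hind, -, -, hreal⟩
    · refine ⟨0, ?_, by norm_num, fun h => absurd h (by norm_num)⟩
      rw [← hρχ, h0]
      simp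
    · rcases hε with rfl | rfl
      · refine ⟨1, ?_, le_refl _, fun _ g => ?_⟩
        · rw [← hρχ, hind]
          simp
        · rw [← hρχ]
          exact Complex.conj_eq_iff_im.mpr (hreal g)
      · refine ⟨-1, ?_, by norm_num, fun h => absurd h (by norm_num)⟩
        rw [← hρχ, hind]
        simp
  choose ν hνa hνb hνc using hν
  have hG0 : (Nat.card G : ℂ) ≠ 0 := by
    have := Nat.card_pos (α := G)
    exact_mod_cast this.ne'
  have hA : ((∑ g : G, c g ^ 2 : ℕ) : ℂ)
      = (Nat.card G : ℂ) * ((∑ χ : IrrCharacter G, m χ * m χ : ℕ) : ℂ) := by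
    have h1 := Cfsg.Agent.S0896.classInner_eq_sum_mul hπchar m m hm1 hm1
    unfold classInner at h1
    rw [← h1, ← mul_assoc, mul_inv_cancel₀ hG0, one_mul]
    push_cast
    refine Finset.sum_congr rfl (fun g _ => ?_)
    rw [hπ]
    simp only
    rw [Complex.conj_natCast, sq]
  have hB : ((∑ g : G, c (g * g) : ℕ) : ℂ)
      = (Nat.card G : ℂ) * ((∑ χ : IrrCharacter G, (m χ : ℤ) * ν χ : ℤ) : ℂ) := by
    push_cast
    have h1 : ∀ g : G, (c (g * g) : ℂ)
        = ∑ χ : IrrCharacter G, (m χ : ℂ) * (χ : G → ℂ) (g * g) := by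
      intro g
      have h2 := congrFun hm2 (g * g)
      rw [hπ] at h2
      simp only [Finset.sum_apply, Pi.smul_apply, smul_eq_mul] at h2
      exact h2
    rw [Finset.sum_congr rfl (fun g _ => h1 g), Finset.sum_comm, Finset.mul_sum]
    refine Finset.sum_congr rfl (fun χ _ => ?_)
    rw [← Finset.mul_sum, ← hνa χ]
    unfold Cfsg.Agent.Lib.Helper10.FS.ind
    field_simp
  have hAZ : ((∑ g : G, c g ^ 2 : ℕ) : ℤ)
      = (Nat.card G : ℤ) * ∑ χ : IrrCharacter G, (m χ : ℤ) * (m χ : ℤ) := by
    exact_mod_cast hA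
  have hBZ : ((∑ g : G, c (g * g) : ℕ) : ℤ)
      = (Nat.card G : ℤ) * ∑ χ : IrrCharacter G, (m χ : ℤ) * ν χ := by
    exact_mod_cast hB
  have hcA : ∑ g : G, c g ^ 2
      = ∑ ω : Ω, ∑ β : Ω, ∑ g : G, if (g • ω = ω ∧ g • β = β) then 1 else 0 := by
    rw [hc]
    exact count_pairs
  have hcB : ∑ g : G, c (g * g)
      = ∑ ω : Ω, ∑ β : Ω, ∑ g : G, if (g • ω = β ∧ g • β = ω) then 1 else 0 := by
    rw [hc]
    exact count_sq
  have hGpos : (0 : ℤ) < (Nat.card G : ℤ) := by
    exact_mod_cast Nat.card_pos (α := G)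
  constructor
  · intro hall χ hχ hne
    have heq : ∑ g : G, c (g * g) = ∑ g : G, c g ^ 2 := by
      rw [hcA, hcB]
      exact Finset.sum_congr rfl (fun ω _ => Finset.sum_congr rfl
        (fun β _ => swap_eq ω β (hall ω β)))
    have hsum : ∑ χ : IrrCharacter G, (m χ : ℤ) * ((m χ : ℤ) - ν χ) = 0 := by
      have h1 : (Nat.card G : ℤ) * ∑ χ : IrrCharacter G, (m χ : ℤ) * (m χ : ℤ)
          = (Nat.card G : ℤ) * ∑ χ : IrrCharacter G, (m χ : ℤ) * ν χ := by
        rw [← hAZ, ← hBZ, heq]
      have h2 := mul_left_cancel₀ hGpos.ne' h1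
      simp only [mul_sub, Finset.sum_sub_distrib]
      rw [h2, sub_self]
    have hterm : ∀ χ ∈ (Finset.univ : Finset (IrrCharacter G)),
        (0 : ℤ) ≤ (m χ : ℤ) * ((m χ : ℤ) - ν χ) := by
      intro χ _
      have h1 := hνb χ
      rcases Nat.eq_zero_or_pos (m χ) with h0 | h0
      · rw [h0]
        simp
      · have h3 : (1 : ℤ) ≤ m χ := by exact_mod_cast h0
        nlinarith
    have hz := (Finset.sum_eq_zero_iff_of_nonneg hterm).mp hsum ⟨χ, hχ⟩ (Finset.mem_univ _)
    have hm0 : m ⟨χ, hχ⟩ ≠ 0 := by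
      intro h0
      apply hne
      rw [hm1 ⟨χ, hχ⟩, h0]
      simp
    have hmν : (m ⟨χ, hχ⟩ : ℤ) = ν ⟨χ, hχ⟩ := by
      rcases mul_eq_zero.mp hz with h | h
      · exfalso
        exact hm0 (by exact_mod_cast h)
      · linarith
    have hν1 : ν ⟨χ, hχ⟩ = 1 := by
      have h1 := hνb ⟨χ, hχ⟩
      have h2 : (1 : ℤ) ≤ m ⟨χ, hχ⟩ := by exact_mod_cast Nat.pos_of_ne_zero hm0
      linarith
    refine ⟨?_, hνc ⟨χ, hχ⟩ hν1⟩
    rw [hm1 ⟨χ, hχ⟩]
    have h5 : m ⟨χ, hχ⟩ = 1 := by
      rw [hν1] at hmν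
      exact_mod_cast hmν
    rw [h5]
    simp
  · intro hall a b
    have hkey : ∀ χ : IrrCharacter G, (m χ : ℤ) * (m χ : ℤ) = (m χ : ℤ) * ν χ := by
      intro χ
      rcases Nat.eq_zero_or_pos (m χ) with h0 | h0
      · rw [h0]
        simp
      · have hne : classInner π (χ : G → ℂ) ≠ 0 := by
          rw [hm1 χ]
          exact_mod_cast h0.ne'
        obtain ⟨h1, hreal⟩ := hall χ χ.2 hne
        have hm : m χ = 1 := by
          rw [hm1 χ] at h1
          exact_mod_cast h1
        have hν1 : ν χ = 1 := by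
          obtain ⟨n, ρ, hρ, hρχ⟩ := χ.2
          haveI := hρ
          have hfr : classInner (fun _ : MulAction.stabilizer G a => (1 : ℂ))
              (fun h : MulAction.stabilizer G a => (χ : G → ℂ) h) = 1 := by
            rw [← frobenius_reciprocity _ _
              (IsCharacter.isClassFunction (IsIrrCharacter.isCharacter χ.2)), ← hπind a]
            exact h1
          have hsumH : ∑ h : MulAction.stabilizer G a, ρ.character (h : G)
              = (Nat.card (MulAction.stabilizer G a) : ℂ) := by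
            unfold classInner at hfr
            rw [hρχ]
            have h2 : ∑ h : MulAction.stabilizer G a,
                (fun _ : MulAction.stabilizer G a => (1 : ℂ)) h
                  * conj ((fun h : MulAction.stabilizer G a => (χ : G → ℂ) h) h)
                = ∑ h : MulAction.stabilizer G a, (χ : G → ℂ) (h : G) := by
              refine Finset.sum_congr rfl (fun h _ => ?_)
              simp only
              rw [one_mul, hreal]
            rw [h2] at hfr
            have hH0 : (Nat.card (MulAction.stabilizer G a) : ℂ) ≠ 0 := by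
              have := Nat.card_pos (α := MulAction.stabilizer G a)
              exact_mod_cast this.ne'
            rw [inv_mul_eq_iff_eq_mul₀ hH0, mul_one] at hfr
            exact hfr
          have hind := ind_eq_one_of_fixed n ρ
            (fun g => by rw [hρχ]; exact Complex.conj_eq_iff_im.mp (hreal g))
            (MulAction.stabilizer G a) hsumH
          rw [hρχ] at hind
          have h3 := hνa χ
          rw [hind] at h3
          exact_mod_cast h3.symm
        rw [hm, hν1]
        simp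
    have heq : ∑ g : G, c (g * g) = ∑ g : G, c g ^ 2 := by
      have h1 : ((∑ g : G, c (g * g) : ℕ) : ℤ) = ((∑ g : G, c g ^ 2 : ℕ) : ℤ) := by
        rw [hAZ, hBZ, Finset.sum_congr rfl (fun χ _ => hkey χ)]
      exact_mod_cast h1
    rw [hcA, hcB] at heq
    have h1 := (Finset.sum_eq_sum_iff_of_le
      (fun ω _ => Finset.sum_le_sum (fun β _ => swap_le ω β))).mp heq a (Finset.mem_univ _)
    have h2 := (Finset.sum_eq_sum_iff_of_le (fun β _ => swap_le a β)).mp h1 b (Finset.mem_univ _)
    exact swap_pos a b h2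

end Cfsg.Agent.S0717
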