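import Cfsg.Statements.S0752
import Mathlib

set_option autoImplicit false
open Cfsg

namespace Cfsg.Agent.S0752

universe u

theorem exists_family {F : Type*} [Field F] :
    ∀ (n : ℕ) (V : Type u) [AddCommGroup V] [Module F V] [FiniteDimensional F V]
      (B : LinearMap.BilinForm F V), B.IsAlt → Module.finrank F V = n →
      ∃ (m k : ℕ) (e f : Fin m → V) (r : Fin k → V),
        (∀ i j, B (e i) (f j) = if i = j then 1 else 0) ∧ (∀ i j, B (e i) (e j) = 0) ∧
        (∀ i j, B (f i) (f j) = 0) ∧ (∀ j x, B (r j) x = 0) ∧ LinearIndependent F r ∧
        2 * m + k = n := by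
  intro n
  induction n using Nat.strong_induction_on with
  | _ n ih =>
    intro V _ _ _ B hA hn
    by_cases hB : B = 0
    · subst hB
      refine ⟨0, n, Fin.elim0, Fin.elim0, fun j => Module.finBasis F V (Fin.cast hn.symm j),
        ?_, ?_, ?_, ?_, ?_, ?_⟩
      · intro i; exact i.elim0
      · intro i; exact i.elim0
      · intro i; exact i.elim0
      · intro j x; simp
      · have h1 := (Module.finBasis F V).linearIndependent
        exact h1.comp _ (Fin.cast_injective _)
      · omega
    · have hex : ∃ u v, B u v ≠ 0 := by
        by_contra h
        push Not at h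
        apply hB
        apply LinearMap.ext
        intro u
        apply LinearMap.ext
        intro v
        simpa using h u v
      obtain ⟨u, v0, huv⟩ := hex
      obtain ⟨v, hv⟩ : ∃ v, v = (B u v0)⁻¹ • v0 := ⟨_, rfl⟩
      have huv1 : B u v = 1 := by
        rw [hv, map_smul, smul_eq_mul]
        exact inv_mul_cancel₀ huv
      have hvu : B v u = -1 := by rw [← hA.neg_eq, huv1]
      have huu : B u u = 0 := hA.self_eq_zero u
      have hvv : B v v = 0 := hA.self_eq_zero v
      obtain ⟨φ, hφ⟩ : ∃ φ : V →ₗ[F] F × F, φ = (B u).prod (B v) := ⟨_, rfl⟩
      have hφapp : ∀ x, φ x = (B u x, B v x) := by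
        intro x
        rw [hφ]
        rfl
      have hmemW : ∀ w, w ∈ LinearMap.ker φ ↔ B u w = 0 ∧ B v w = 0 := by
        intro w
        rw [LinearMap.mem_ker, hφapp, Prod.mk_eq_zero]
      have hWrank : Module.finrank F (LinearMap.ker φ) + 2 = n := by
        have h1 := LinearMap.finrank_range_add_finrank_ker φ
        have h2 : LinearMap.range φ = ⊤ := by
          rw [LinearMap.range_eq_top]
          rintro ⟨a, b⟩
          refine ⟨a • v - b • u, ?_⟩
          rw [hφapp]
          simp only [map_sub, map_smul, smul_eq_mul, huv1, huu, hvu, hvv]
          ext <;> simp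
        rw [h2, finrank_top, Module.finrank_prod, Module.finrank_self] at h1
        omega
      have hWA : (B.restrict (LinearMap.ker φ)).IsAlt := by
        intro x
        exact hA.self_eq_zero (x : V)
      obtain ⟨m', k', e', f', r', h1, h2, h3, h4, h5, h6⟩ :=
        ih (Module.finrank F (LinearMap.ker φ)) (by omega) (LinearMap.ker φ)
          (B.restrict (LinearMap.ker φ)) hWA rfl
      simp only [LinearMap.BilinForm.restrict_apply, LinearMap.domRestrict_apply] at h1 h2 h3 h4
      have hue : ∀ i, B u (e' i : V) = 0 := fun i => ((hmemW _).mp (e' i).2).1
      have hve : ∀ i, B v (e' i : V) = 0 := fun i => ((hmemW _).mp (e' i).2).2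
      have huf : ∀ i, B u (f' i : V) = 0 := fun i => ((hmemW _).mp (f' i).2).1
      have hvf : ∀ i, B v (f' i : V) = 0 := fun i => ((hmemW _).mp (f' i).2).2
      have hur : ∀ i, B u (r' i : V) = 0 := fun i => ((hmemW _).mp (r' i).2).1
      have hvr : ∀ i, B v (r' i : V) = 0 := fun i => ((hmemW _).mp (r' i).2).2
      have hswap : ∀ x y, B x y = 0 → B y x = 0 := by
        intro x y h
        rw [← hA.neg_eq, h, neg_zero]
      refine ⟨m' + 1, k', Fin.cons u (fun i => (e' i : V)), Fin.cons v (fun i => (f' i : V)),
        fun j => (r' j : V), ?_, ?_, ?_, ?_, ?_, ?_⟩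
      · intro i j
        induction i using Fin.cases with
        | zero =>
          induction j using Fin.cases with
          | zero =>
            simp only [Fin.cons_zero]
            rw [huv1]
            simp
          | succ j =>
            simp only [Fin.cons_zero, Fin.cons_succ]
            rw [huf j, if_neg (Fin.succ_ne_zero j).symm]
        | succ i =>
          induction j using Fin.cases with
          | zero =>
            simp only [Fin.cons_zero, Fin.cons_succ]
            rw [hswap _ _ (hve i), if_neg (Fin.succ_ne_zero i)]
          | succ j =>
            simp only [Fin.cons_succ]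
            rw [h1 i j]
            simp only [Fin.succ_inj]
      · intro i j
        induction i using Fin.cases with
        | zero =>
          induction j using Fin.cases with
          | zero =>
            simp only [Fin.cons_zero]
            exact huu
          | succ j =>
            simp only [Fin.cons_zero, Fin.cons_succ]
            exact hue j
        | succ i =>
          induction j using Fin.cases with
          | zero =>
            simp only [Fin.cons_zero, Fin.cons_succ]
            exact hswap _ _ (hue i)
          | succ j =>
            simp only [Fin.cons_succ]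
            exact h2 i j
      · intro i j
        induction i using Fin.cases with
        | zero =>
          induction j using Fin.cases with
          | zero =>
            simp only [Fin.cons_zero]
            exact hvv
          | succ j =>
            simp only [Fin.cons_zero, Fin.cons_succ]
            exact hvf j
        | succ i =>
          induction j using Fin.cases with
          | zero =>
            simp only [Fin.cons_zero, Fin.cons_succ]
            exact hswap _ _ (hvf i)
          | succ j =>
            simp only [Fin.cons_succ]
            exact h3 i j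
      · intro j x
        have hx : x - (B u x) • v + (B v x) • u ∈ LinearMap.ker φ := by
          rw [hmemW]
          constructor
          · simp only [map_add, map_sub, map_smul, smul_eq_mul, huv1, huu]
            ring
          · simp only [map_add, map_sub, map_smul, smul_eq_mul, hvu, hvv]
            ring
        have h7 := h4 j ⟨_, hx⟩
        simp only [map_add, map_sub, map_smul, smul_eq_mul, hswap _ _ (hur j),
          hswap _ _ (hvr j), mul_zero, sub_zero, add_zero] at h7
        exact h7
      · exact h5.map' (LinearMap.ker φ).subtype (Submodule.ker_subtype _)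
      · omega

/-- Classification of alternating forms: for an alternating bilinear form B on a finite-dimensional space over any field there is a basis indexed by (Fin m ⊕ Fin m) ⊕ Fin k such that B (e_i, f_j) = δ_ij, the e's are pairwise orthogonal, the f's are pairwise orthogonal, and the last k basis vectors are orthogonal to everything (they span the radical). -/
theorem result {F V : Type*} [Field F] [AddCommGroup V] [Module F V] [FiniteDimensional F V] (B : LinearMap.BilinForm F V) (hA : B.IsAlt) : ∃ (m k : ℕ) (b : Module.Basis ((Fin m ⊕ Fin m) ⊕ Fin k) F V), (∀ i j : Fin m, B (b (Sum.inl (Sum.inl i))) (b (Sum.inl (Sum.inr j))) = if i = j then 1 else 0) ∧ (∀ i j : Fin m, B (b (Sum.inl (Sum.inl i))) (b (Sum.inl (Sum.inl j))) = 0) ∧ (∀ i j : Fin m, B (b (Sum.inl (Sum.inr i))) (b (Sum.inl (Sum.inr j))) = 0) ∧ (∀ (j : Fin k) (v : V), B (b (Sum.inr j)) v = 0) := by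
  classical
  obtain ⟨m, k, e, f, r, h1, h2, h3, h4, h5, h6⟩ :=
    exists_family (Module.finrank F V) V B hA rfl
  have hswap : ∀ x y, B x y = 0 → B y x = 0 := by
    intro x y h
    rw [← hA.neg_eq, h, neg_zero]
  have hli : LinearIndependent F (Sum.elim (Sum.elim e f) r) := by
    rw [Fintype.linearIndependent_iff]
    intro g hg
    simp only [Fintype.sum_sum_type, Sum.elim_inl, Sum.elim_inr] at hg
    have ha : ∀ j, g (Sum.inl (Sum.inl j)) = 0 := by
      intro j
      have h7 := congrArg (fun x => B x (f j)) hg
      simp only [map_add, map_sum, map_smul, LinearMap.add_apply, LinearMap.sum_apply,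
        LinearMap.smul_apply, smul_eq_mul, h1, h3, h4, mul_zero, Finset.sum_const_zero,
        add_zero, map_zero, LinearMap.zero_apply, mul_ite, mul_one,
        Finset.sum_ite_eq', Finset.mem_univ, if_true] at h7
      exact h7
    have hb : ∀ j, g (Sum.inl (Sum.inr j)) = 0 := by
      intro j
      have h7 := congrArg (fun x => B (e j) x) hg
      simp only [map_add, map_sum, map_smul, smul_eq_mul, h1, h2, hswap _ _ (h4 _ _), mul_zero,
        Finset.sum_const_zero, add_zero, zero_add, map_zero, mul_ite, mul_one,
        Finset.sum_ite_eq, Finset.mem_univ, if_true] at h7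
      exact h7
    have hc : ∀ j, g (Sum.inr j) = 0 := by
      simp only [ha, hb, zero_smul, Finset.sum_const_zero, zero_add] at hg
      exact Fintype.linearIndependent_iff.mp h5 (fun j => g (Sum.inr j)) hg
    rintro ((i | i) | j)
    · exact ha i
    · exact hb i
    · exact hc j
  refine ⟨m, k, basisOfLinearIndependentOfCardEqFinrank' _ hli (by simp; omega), ?_⟩
  rw [coe_basisOfLinearIndependentOfCardEqFinrank']
  simp only [Sum.elim_inl, Sum.elim_inr]
  exact ⟨h1, h2, h3, h4⟩

end Cfsg.Agent.S0752
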