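import Cfsg.Statements.S0781
import Mathlib
import Cfsg.Agent.S5631
import Cfsg.Agent.S5645
import Cfsg.Agent.S5642
import Cfsg.Agent.Lib.Helper28.SLGen
import Cfsg.Agent.Lib.Helper28.Herm

set_option autoImplicit false
open Cfsg

namespace Cfsg.Agent.S0781

open Matrix
open Cfsg.Agent.S5631 Cfsg.Agent.S5645 Cfsg.Agent.S5642 Cfsg.Agent.Lib.Helper28.SLGen
open Cfsg.Agent.Lib.Helper28.Herm

theorem ut_mulVec {F : Type*} [Field F] (n q : ℕ) (v : Fin n → F) (c : F) (x : Fin n → F) :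
    Cfsg.unitaryTransvection n q v c *ᵥ x = x + (c * Cfsg.hermForm n F q x v) • v := by
  have e : (fun j => v j ^ q) ⬝ᵥ x = Cfsg.hermForm n F q x v := by
    simp only [dotProduct, Cfsg.hermForm]
    apply Finset.sum_congr rfl
    intro i _
    ring
  rw [Cfsg.unitaryTransvection, Matrix.add_mulVec, Matrix.one_mulVec, Matrix.smul_mulVec,
    Matrix.vecMulVec_mulVec, e, op_smul_eq_smul, smul_smul]

/-- In SU_n(q) with n ≥ 4, or n = 3 and q > 2, every element whose matrix is a unitary transvection x ↦ x + c h(x, v) v (v isotropic) is a commutator ⁅B, C⁆ of two elements of SU_n(q). -/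
theorem result {F : Type*} [Field F] [Fintype F] {q : ℕ} (hF : Fintype.card F = q ^ 2) (n : ℕ) (hn : 4 ≤ n ∨ (n = 3 ∧ 3 ≤ q)) (A : ↥(Cfsg.SU n F q)) (v : Fin n → F) (c : F) (hv0 : Cfsg.hermForm n F q v v = 0) (hA : ((A : Matrix.SpecialLinearGroup (Fin n) F) : Matrix (Fin n) (Fin n) F) = Cfsg.unitaryTransvection n q v c) : A ∈ commutatorSet ↥(Cfsg.SU n F q) := by
  have hf := hermForm_isHerm hF n
  have hn3 : 3 ≤ n := by
    rcases hn with h | ⟨h, -⟩ <;> omega
  have : Nonempty (Fin n) := ⟨⟨0, by omega⟩⟩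
  have hAx : ∀ x, ((A : Matrix.SpecialLinearGroup (Fin n) F) : Matrix (Fin n) (Fin n) F) *ᵥ x =
      x + (c * Cfsg.hermForm n F q x v) • v := by
    intro x
    rw [hA, ut_mulVec]
  by_cases hv : v = 0
  · have hA1 : A = 1 := by
      apply Subtype.ext
      apply Subtype.ext
      rw [hA, Cfsg.unitaryTransvection, hv]
      simp
    rw [hA1]
    exact ⟨1, 1, by simp⟩
  have hc : c + sigq hF c = 0 := by
    obtain ⟨x, hx⟩ : ∃ x, Cfsg.hermForm n F q x v ≠ 0 := by
      by_contra hcon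
      push Not at hcon
      exact hv (hf.nondeg v hcon)
    have hAU : Cfsg.hermForm n F q
        (((A : Matrix.SpecialLinearGroup (Fin n) F) : Matrix (Fin n) (Fin n) F) *ᵥ x)
        (((A : Matrix.SpecialLinearGroup (Fin n) F) : Matrix (Fin n) (Fin n) F) *ᵥ x) =
        Cfsg.hermForm n F q x x := A.2 x x
    rw [hAx] at hAU
    rw [hf.add_left, hf.add_right, hf.add_right, hf.smul_left, hf.smul_left, hf.smul_right,
      hf.smul_right, hv0, map_mul] at hAU
    have h2 : sigq hF (Cfsg.hermForm n F q x v) = Cfsg.hermForm n F q v x := (hf.herm v x).symm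
    rw [h2] at hAU
    have hvx : Cfsg.hermForm n F q v x ≠ 0 := hf.ne_zero_symm hx
    have h3 : (c + sigq hF c) * (Cfsg.hermForm n F q x v * Cfsg.hermForm n F q v x) = 0 := by
      linear_combination hAU
    rcases mul_eq_zero.mp h3 with h | h
    · exact h
    · exact absurd h (mul_ne_zero hx hvx)
  obtain ⟨e, he0, hee⟩ := hf.exists_aniso ![v] (by rw [Fintype.card_fin]; omega)
  have hev : Cfsg.hermForm n F q e v = 0 := he0 0
  have hve : Cfsg.hermForm n F q v e = 0 := hf.eq_zero_symm hev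
  obtain ⟨α, hα⟩ := hf.exists_tr 1 (map_one _)
  obtain ⟨N, hN⟩ : ∃ N, N = Cfsg.hermForm n F q e e := ⟨_, rfl⟩
  have hN0 : N ≠ 0 := by
    rw [hN]
    exact hee
  have hσN : sigq hF N = N := by
    rw [hN]
    exact hf.self_fix e
  obtain ⟨μ, hμ⟩ : ∃ μ, μ = -(c / N) * α := ⟨_, rfl⟩
  have hμc : (sigq hF μ - μ) * N = c := by
    have hσc : sigq hF c = -c := by linear_combination hc
    have hσα : sigq hF α = 1 - α := by linear_combination hα
    rw [hμ, map_mul, map_neg, map_div₀, hσN, hσc, hσα]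
    field_simp
    ring
  obtain ⟨lam, hlam⟩ := hf.exists_tr (-(Cfsg.hermForm n F q e e)) (by rw [map_neg, hf.self_fix])
  obtain ⟨lam', hlam'⟩ := hf.exists_tr (-(Cfsg.hermForm n F q (μ • e) (μ • e)))
    (by rw [map_neg, hf.self_fix])
  have hu'v : Cfsg.hermForm n F q (μ • e) v = 0 := by
    rw [hf.smul_left, hev, mul_zero]
  have hvu' : Cfsg.hermForm n F q v (μ • e) = 0 := hf.eq_zero_symm hu'v
  obtain ⟨B, hB, hBi, hBS⟩ := eich_exists hf v e lam hv0 hev hlam
  obtain ⟨C, hC, hCi, hCS⟩ := eich_exists hf v (μ • e) lam' hv0 hu'v hlam'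
  have hcc : c = Cfsg.hermForm n F q e (μ • e) - Cfsg.hermForm n F q (μ • e) e := by
    rw [hf.smul_right, hf.smul_left, ← hN]
    linear_combination -hμc
  have hCv : ∀ x, Cfsg.hermForm n F q ((C : Matrix (Fin n) (Fin n) F) *ᵥ x) v =
      Cfsg.hermForm n F q x v := by
    intro x
    simp only [hC, hf.add_left, hf.sub_left, hf.smul_left, hev, hv0]
    ring
  have hBv : ∀ x, Cfsg.hermForm n F q ((B : Matrix (Fin n) (Fin n) F) *ᵥ x) v =
      Cfsg.hermForm n F q x v := by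
    intro x
    simp only [hB, hf.add_left, hf.sub_left, hf.smul_left, hev, hv0]
    ring
  have hCu : ∀ x, Cfsg.hermForm n F q ((C : Matrix (Fin n) (Fin n) F) *ᵥ x) e =
      Cfsg.hermForm n F q x e + Cfsg.hermForm n F q x v * Cfsg.hermForm n F q (μ • e) e := by
    intro x
    simp only [hC, hf.add_left, hf.sub_left, hf.smul_left, hve]
    ring
  have hBu : ∀ x, Cfsg.hermForm n F q ((B : Matrix (Fin n) (Fin n) F) *ᵥ x) (μ • e) =
      Cfsg.hermForm n F q x (μ • e) +
        Cfsg.hermForm n F q x v * Cfsg.hermForm n F q e (μ • e) := by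
    intro x
    simp only [hB, hf.add_left, hf.sub_left, hf.smul_left, hvu']
    ring
  have key : (B : Matrix (Fin n) (Fin n) F) * (C : Matrix (Fin n) (Fin n) F) =
      ((A : Matrix.SpecialLinearGroup (Fin n) F) : Matrix (Fin n) (Fin n) F) *
        ((C : Matrix (Fin n) (Fin n) F) * (B : Matrix (Fin n) (Fin n) F)) := by
    rw [Matrix.ext_iff_mulVec]
    intro x
    rw [← Matrix.mulVec_mulVec, ← Matrix.mulVec_mulVec, ← Matrix.mulVec_mulVec, hAx,
      hB ((C : Matrix (Fin n) (Fin n) F) *ᵥ x), hCv, hCu, hCv, hC ((B : Matrix (Fin n) (Fin n) F) *ᵥ x),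
      hBv, hBu, hC x, hB x, hcc]
    module
  let B' : Matrix.SpecialLinearGroup (Fin n) F :=
    ⟨(B : Matrix (Fin n) (Fin n) F), det_eq_one_of_mem_SL B hBS⟩
  let C' : Matrix.SpecialLinearGroup (Fin n) F :=
    ⟨(C : Matrix (Fin n) (Fin n) F), det_eq_one_of_mem_SL C hCS⟩
  have hB' : B' ∈ Cfsg.SU n F q := fun x y => hBi x y
  have hC' : C' ∈ Cfsg.SU n F q := fun x y => hCi x y
  refine ⟨⟨B', hB'⟩, ⟨C', hC'⟩, ?_⟩
  have key' : (⟨B', hB'⟩ : ↥(Cfsg.SU n F q)) * ⟨C', hC'⟩ = A * (⟨C', hC'⟩ * ⟨B', hB'⟩) := by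
    apply Subtype.ext
    apply Subtype.ext
    exact key
  rw [commutatorElement_def, key']
  group

end Cfsg.Agent.S0781
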