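import Cfsg.Statements.S0780
import Mathlib
import Cfsg.Agent.S5631
import Cfsg.Agent.S5645
import Cfsg.Agent.S5642
import Cfsg.Agent.S0781
import Cfsg.Agent.Lib.Helper28.SLGen
import Cfsg.Agent.Lib.Helper28.Herm
import Cfsg.Agent.Lib.Helper13.HermGen
import Cfsg.Agent.Lib.Helper13.HermGen4

set_option autoImplicit false
open Cfsg

namespace Cfsg.Agent.S0780

open Matrix
open Cfsg.Agent.S5631 Cfsg.Agent.S5645 Cfsg.Agent.S5642 Cfsg.Agent.Lib.Helper28.SLGen
open Cfsg.Agent.Lib.Helper28.Herm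
open Cfsg.Agent.Lib.Helper13.HermGen

/-- the embedding of the special unitary group into the general linear group -/
def suToGL {F : Type*} [Field F] (n q : ℕ) : ↥(Cfsg.SU n F q) →* GL (Fin n) F :=
  Matrix.SpecialLinearGroup.toGL.comp (Cfsg.SU n F q).subtype

theorem suToGL_coe {F : Type*} [Field F] (n q : ℕ) (A : ↥(Cfsg.SU n F q)) :
    ((suToGL n q A : GL (Fin n) F) : Matrix (Fin n) (Fin n) F) =
      ((A : Matrix.SpecialLinearGroup (Fin n) F) : Matrix (Fin n) (Fin n) F) := rfl

theorem suToGL_inj {F : Type*} [Field F] (n q : ℕ) :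
    Function.Injective (suToGL (F := F) n q) := by
  intro A B h
  apply Subtype.ext
  apply Subtype.ext
  have := congrArg (fun g : GL (Fin n) F => (g : Matrix (Fin n) (Fin n) F)) h
  exact this

/-- lifting an isometry of determinant one to the special unitary group -/
theorem lift_su {F : Type*} [Field F] (n q : ℕ) (g : GL (Fin n) F)
    (hg : Isom (Cfsg.hermForm n F q) g) (hdet : (g : Matrix (Fin n) (Fin n) F).det = 1) :
    ∃ A : ↥(Cfsg.SU n F q), suToGL n q A = g ∧
      ((A : Matrix.SpecialLinearGroup (Fin n) F) : Matrix (Fin n) (Fin n) F) =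
        (g : Matrix (Fin n) (Fin n) F) := by
  let A' : Matrix.SpecialLinearGroup (Fin n) F := ⟨(g : Matrix (Fin n) (Fin n) F), hdet⟩
  have hA' : A' ∈ Cfsg.SU n F q := fun x y => hg x y
  exact ⟨⟨A', hA'⟩, Units.ext rfl, rfl⟩

/-- an element of the fixed field other than 0 and 1 -/
theorem exists_fixed {F : Type*} [Field F] [Fintype F] {q : ℕ} (hF : Fintype.card F = q ^ 2)
    (hq : 3 ≤ q) : ∃ a : F, sigq hF a = a ∧ a ≠ 0 ∧ a ≠ 1 := by
  obtain ⟨g, hg⟩ := IsCyclic.exists_generator (α := Fˣ)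
  have hord : orderOf g = Nat.card Fˣ := orderOf_eq_card_of_forall_mem_zpowers hg
  rw [Nat.card_units, Nat.card_eq_fintype_card, hF] at hord
  refine ⟨(g : F) ^ (q + 1), ?_, pow_ne_zero _ g.ne_zero, ?_⟩
  · rw [sigq_apply, ← pow_mul]
    have h1 : (g : F) ^ (q ^ 2) = g := by
      have := FiniteField.pow_card (g : F)
      rwa [hF] at this
    have e : (q + 1) * q = q ^ 2 + q := by ring
    rw [e, pow_add, h1, pow_succ']
  · intro h
    have h1 : g ^ (q + 1) = 1 := by
      apply Units.ext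
      rw [Units.val_pow_eq_pow_val, Units.val_one]
      exact h
    have h3 := orderOf_dvd_of_pow_eq_one h1
    rw [hord] at h3
    have h4 := Nat.le_of_dvd (by omega) h3
    have h5 : 3 * q ≤ q ^ 2 := by nlinarith
    omega

/-- Generation of SU_n(q), n ≥ 3, (n, q) ≠ (3, 2), by unitary transvections: the subgroup generated by the elements whose matrix is x ↦ x + c h(x, v) v with v isotropic is all of SU_n(q). -/
theorem result {F : Type*} [Field F] [Fintype F] {q : ℕ} (hF : Fintype.card F = q ^ 2) (n : ℕ) (hn : 3 ≤ n) (h32 : ¬ (n = 3 ∧ q = 2)) : Subgroup.closure {A : ↥(Cfsg.SU n F q) | ∃ (v : Fin n → F) (c : F), Cfsg.hermForm n F q v v = 0 ∧ ((A : Matrix.SpecialLinearGroup (Fin n) F) : Matrix (Fin n) (Fin n) F) = Cfsg.unitaryTransvection n q v c} = ⊤ := by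
  have hf := hermForm_isHerm hF n
  obtain ⟨S, hS⟩ : ∃ S : Set ↥(Cfsg.SU n F q), S = {A : ↥(Cfsg.SU n F q) | ∃ (v : Fin n → F) (c : F), Cfsg.hermForm n F q v v = 0 ∧ ((A : Matrix.SpecialLinearGroup (Fin n) F) : Matrix (Fin n) (Fin n) F) = Cfsg.unitaryTransvection n q v c} := ⟨_, rfl⟩
  rw [← hS]
  obtain ⟨K, hK⟩ : ∃ K : Subgroup (GL (Fin n) F), K = Subgroup.closure (suToGL n q '' S) :=
    ⟨_, rfl⟩
  have hKmap : K = (Subgroup.closure S).map (suToGL n q) := by
    rw [hK, MonoidHom.map_closure]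
  have hmemK : ∀ A : ↥(Cfsg.SU n F q), A ∈ S → suToGL n q A ∈ K := by
    intro A hA
    rw [hK]
    exact Subgroup.subset_closure ⟨A, hA, rfl⟩
  have hG : Gen (sigq hF) (Cfsg.hermForm n F q) K := by
    refine ⟨hf, ?_, ?_, ?_, ?_⟩
    · intro k hk
      rw [hKmap] at hk
      obtain ⟨A, -, rfl⟩ := hk
      exact fun x y => A.2 x y
    · intro k hk
      rw [hKmap] at hk
      obtain ⟨A, -, rfl⟩ := hk
      exact (A : Matrix.SpecialLinearGroup (Fin n) F).2
    · intro a ha
      refine ⟨ha, fun c hc => ?_⟩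
      have h0 := uT_dot hf a c ha
      refine ⟨h0, ?_⟩
      obtain ⟨A, hA1, hA2⟩ := lift_su n q (tvG a (c • rep (Cfsg.hermForm n F q) a) h0)
        (uT_isom hf a c ha hc h0) (det_eq_one_of_mem_SL _ (tvG_mem_SL _ _ h0))
      rw [← hA1]
      apply hmemK
      rw [hS]
      refine ⟨a, c, ha, ?_⟩
      rw [hA2, Matrix.ext_iff_mulVec]
      intro x
      rw [uT_mulVec hf, Cfsg.Agent.S0781.ut_mulVec]
    · intro g hg k hk
      rw [hK] at hk ⊢
      induction hk using Subgroup.closure_induction with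
      | mem x hx =>
        obtain ⟨A, hA, rfl⟩ := hx
        rw [hS] at hA
        obtain ⟨v, c, hv, hAm⟩ := hA
        have hi : Isom (Cfsg.hermForm n F q) (g * suToGL n q A * g⁻¹) :=
          isom_mul (isom_mul hg (fun x y => A.2 x y)) (isom_inv hg)
        have hd : ((g * suToGL n q A * g⁻¹ : GL (Fin n) F) : Matrix (Fin n) (Fin n) F).det = 1 := by
          have h1 : ((g * suToGL n q A * g⁻¹ : GL (Fin n) F) : Matrix (Fin n) (Fin n) F) =
              (g : Matrix (Fin n) (Fin n) F) * ((suToGL n q A : GL (Fin n) F) : Matrix (Fin n) (Fin n) F) * ((g⁻¹ : GL (Fin n) F) : Matrix (Fin n) (Fin n) F) := by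
            rw [Units.val_mul, Units.val_mul]
          have h2 : (g : Matrix (Fin n) (Fin n) F).det * ((g⁻¹ : GL (Fin n) F) : Matrix (Fin n) (Fin n) F).det = 1 := by
            rw [← Matrix.det_mul, ← Units.val_mul, mul_inv_cancel, Units.val_one, Matrix.det_one]
          have h3 : ((suToGL n q A : GL (Fin n) F) : Matrix (Fin n) (Fin n) F).det = 1 :=
            (A : Matrix.SpecialLinearGroup (Fin n) F).2
          rw [h1, Matrix.det_mul, Matrix.det_mul, h3, mul_one, h2]
        obtain ⟨B, hB1, hB2⟩ := lift_su n q _ hi hd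
        rw [← hB1]
        apply Subgroup.subset_closure
        refine ⟨B, ?_, rfl⟩
        rw [hS]
        refine ⟨(g : Matrix (Fin n) (Fin n) F) *ᵥ v, c, by rw [hg]; exact hv, ?_⟩
        rw [hB2, Matrix.ext_iff_mulVec]
        intro x
        obtain ⟨y, rfl⟩ : ∃ y, x = (g : Matrix (Fin n) (Fin n) F) *ᵥ y :=
          ⟨_, (gl_mulVec_inv g x).symm⟩
        rw [Units.val_mul, Units.val_mul, ← Matrix.mulVec_mulVec, ← Matrix.mulVec_mulVec,
          gl_inv_mulVec, suToGL_coe, hAm, Cfsg.Agent.S0781.ut_mulVec,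
          Cfsg.Agent.S0781.ut_mulVec, hg, Matrix.mulVec_add, Matrix.mulVec_smul]
      | one =>
        rw [mul_one, mul_inv_cancel]
        exact Subgroup.one_mem _
      | mul x y _ _ hx hy =>
        have e : g * (x * y) * g⁻¹ = (g * x * g⁻¹) * (g * y * g⁻¹) := by group
        rw [e]
        exact Subgroup.mul_mem _ hx hy
      | inv x _ hx =>
        have e : g * x⁻¹ * g⁻¹ = (g * x * g⁻¹)⁻¹ := by group
        rw [e]
        exact Subgroup.inv_mem _ hx
  have hq : Fintype.card (Fin n) = 3 → ∃ a : F, sigq hF a = a ∧ a ≠ 0 ∧ a ≠ 1 := by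
    intro h3
    rw [Fintype.card_fin] at h3
    have h2 := two_le_q hF
    exact exists_fixed hF (by
      by_contra hcon
      exact h32 ⟨h3, by omega⟩)
  rw [eq_top_iff]
  intro A _
  have h1 : suToGL n q A ∈ K := main hG (by rw [Fintype.card_fin]; exact hn) hq _
    (fun x y => A.2 x y) (A : Matrix.SpecialLinearGroup (Fin n) F).2
  rw [hKmap] at h1
  obtain ⟨B, hB, hBA⟩ := h1
  rw [← suToGL_inj n q hBA]
  exact hB

end Cfsg.Agent.S0780
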