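import Cfsg.Statements.S0804
import Cfsg.Agent.Lib.Helper16.PSL2A5

set_option autoImplicit false
open Cfsg

namespace Cfsg.Agent.S0804

/-- PSL_2(q) has a subgroup isomorphic to A_5 iff 5 ∣ q(q² − 1). -/
theorem result {F : Type*} [Field F] [Fintype F] {q : ℕ} (hF : Fintype.card F = q) : (∃ H : Subgroup (Matrix.ProjectiveSpecialLinearGroup (Fin 2) F), Nonempty (H ≃* alternatingGroup (Fin 5))) ↔ 5 ∣ q * (q ^ 2 - 1) := by
  haveI := Cfsg.Agent.Lib.Helper16.PSL2A4.finite_psl (F := F)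
  constructor
  · rintro ⟨H, ⟨e⟩⟩
    have hA : Nat.card (alternatingGroup (Fin 5)) = 60 := by
      rw [nat_card_alternatingGroup, Nat.card_fin]
      rfl
    have hH : Nat.card H = 60 := by
      rw [Nat.card_congr e.toEquiv]
      exact hA
    have h1 : Nat.card H ∣ Nat.card (Matrix.ProjectiveSpecialLinearGroup (Fin 2) F) :=
      Subgroup.card_subgroup_dvd_card H
    have h2 : Nat.card (Matrix.ProjectiveSpecialLinearGroup (Fin 2) F) ∣
        Nat.card (Matrix.SpecialLinearGroup (Fin 2) F) :=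
      Subgroup.card_quotient_dvd_card _
    rw [hH] at h1
    rw [Cfsg.Agent.S2301.card_SL2, hF] at h2
    have h3 : 5 ∣ (q ^ 2 - 1) * q := (by norm_num : 5 ∣ 60).trans (h1.trans h2)
    rwa [mul_comm] at h3
  · intro h
    rw [← hF] at h
    obtain ⟨τ, hτ⟩ := Cfsg.Agent.Lib.Helper16.PSL2A5.exists_tau h
    obtain ⟨x, y, hx, hy, hxy, hx1⟩ := Cfsg.Agent.Lib.Helper16.PSL2A5.exists_a5_elts τ hτ
    exact Cfsg.Agent.Lib.Helper16.PSL2A5.exists_a5_of_elts x y hx hy hxy hx1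

end Cfsg.Agent.S0804
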