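import Cfsg.Statements.S2550
import Mathlib
import Cfsg.Agent.S0242
import Cfsg.Agent.Lib.Helper13.NilNormal

set_option autoImplicit false
open Cfsg

namespace Cfsg.Agent.S2550
open Matrix

theorem two_eq_zero_of_card {F : Type*} [Field F] [Fintype F] (k : ℕ) (hF : Fintype.card F = 2 ^ k) :
    (2 : F) = 0 := by
  have h := card_nsmul_eq_zero (G := F) (x := (1 : F))
  rw [hF] at h
  have h2 : ((2 : F)) ^ k = 0 := by
    have : ((2 ^ k : ℕ) : F) = 0 := by simpa using h
    push_cast at this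
    exact this
  first | exact eq_zero_of_pow_eq_zero h2 | exact pow_eq_zero h2

theorem card_psl4 {F : Type*} [Field F] [Fintype F] (hF : Fintype.card F = 2) :
    Nat.card (Matrix.ProjectiveSpecialLinearGroup (Fin 4) F) = 20160 := by
  have h1 := Cfsg.Agent.S0242.result hF 4 (by norm_num)
  rw [Fin.prod_univ_four] at h1
  norm_num at h1
  have h2 := Subgroup.card_eq_card_quotient_mul_card_subgroup
    (Subgroup.center (Matrix.SpecialLinearGroup (Fin 4) F))
  have h3 : Nat.card (Subgroup.center (Matrix.SpecialLinearGroup (Fin 4) F)) = 1 := by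
    rw [Nat.card_congr (Matrix.SpecialLinearGroup.center_equiv_rootsOfUnity' (0 : Fin 4)).toEquiv]
    have h4 := Subgroup.card_subgroup_dvd_card (rootsOfUnity (Fintype.card (Fin 4)) F)
    have h5 : Nat.card Fˣ = 1 := by rw [Nat.card_units, Nat.card_eq_fintype_card, hF]
    rw [h5] at h4
    exact Nat.eq_one_of_dvd_one h4
  rw [h3, mul_one, h1] at h2
  exact h2.symm

theorem card_psl3 {K : Type*} [Field K] [Fintype K] (hK : Fintype.card K = 4) :
    Nat.card (Matrix.ProjectiveSpecialLinearGroup (Fin 3) K) = 20160 := by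
  have h1 := Cfsg.Agent.S0242.result hK 3 (by norm_num)
  rw [Fin.prod_univ_three] at h1
  norm_num at h1
  have h2 := Subgroup.card_eq_card_quotient_mul_card_subgroup
    (Subgroup.center (Matrix.SpecialLinearGroup (Fin 3) K))
  have h3 : Nat.card (Subgroup.center (Matrix.SpecialLinearGroup (Fin 3) K)) = 3 := by
    rw [Nat.card_congr (Matrix.SpecialLinearGroup.center_equiv_rootsOfUnity' (0 : Fin 3)).toEquiv]
    have h4 : rootsOfUnity (Fintype.card (Fin 3)) K = ⊤ := by
      rw [eq_top_iff]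
      intro u _
      rw [mem_rootsOfUnity]
      have h5 : Nat.card Kˣ = 3 := by rw [Nat.card_units, Nat.card_eq_fintype_card, hK]
      have := pow_card_eq_one' (x := u)
      rw [h5] at this
      simpa using this
    have h5 : Nat.card Kˣ = 3 := by rw [Nat.card_units, Nat.card_eq_fintype_card, hK]
    rw [h4, Subgroup.card_top, h5]
  rw [h3] at h2
  change Nat.card (Matrix.SpecialLinearGroup (Fin 3) K ⧸ Subgroup.center (Matrix.SpecialLinearGroup (Fin 3) K)) = 20160
  omega


theorem exists_pair {F : Type*} [Field F] [Fintype F] (hF : Fintype.card F = 2) :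
    ∃ a b : Matrix.ProjectiveSpecialLinearGroup (Fin 4) F,
      a * a = 1 ∧ a ≠ 1 ∧ a * b = b * a ∧ b * b * b = 1 ∧ b ≠ 1 := by
  classical
  have h2 : (2 : F) = 0 := two_eq_zero_of_card 1 (by simpa using hF)
  have h11 : (1 : F) + 1 = 0 := by rw [one_add_one_eq_two]; exact h2
  have hone : ∀ x : F, x ≠ 0 → x = 1 := by
    intro x hx
    have := FiniteField.pow_card_sub_one_eq_one x hx
    rw [hF] at this
    simpa using this
  let A₀m : Matrix (Fin 4) (Fin 4) F := !![1,1,0,0; 0,1,0,0; 0,0,1,0; 0,0,0,1]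
  let B₀m : Matrix (Fin 4) (Fin 4) F := !![1,0,0,0; 0,1,0,0; 0,0,0,1; 0,0,1,1]
  have hA₀ : A₀m * A₀m = 1 := by
    ext i j
    fin_cases i <;> fin_cases j <;> simp [A₀m, Matrix.mul_apply, Fin.sum_univ_four, h11]
  have hB₀ : B₀m * B₀m * B₀m = 1 := by
    ext i j
    fin_cases i <;> fin_cases j <;> simp [B₀m, Matrix.mul_apply, Fin.sum_univ_four, h11]
  have hAB : A₀m * B₀m = B₀m * A₀m := by
    ext i j
    fin_cases i <;> fin_cases j <;> simp [A₀m, B₀m, Matrix.mul_apply, Fin.sum_univ_four]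
  have hdetA : A₀m.det = 1 := by
    apply hone
    intro h0
    have := congrArg Matrix.det hA₀
    rw [Matrix.det_mul, h0, Matrix.det_one] at this
    simp at this
  have hdetB : B₀m.det = 1 := by
    apply hone
    intro h0
    have := congrArg Matrix.det hB₀
    rw [Matrix.det_mul, Matrix.det_mul, h0, Matrix.det_one] at this
    simp at this
  let A₀ : Matrix.SpecialLinearGroup (Fin 4) F := ⟨A₀m, hdetA⟩
  let B₀ : Matrix.SpecialLinearGroup (Fin 4) F := ⟨B₀m, hdetB⟩
  refine ⟨QuotientGroup.mk A₀, QuotientGroup.mk B₀, ?_, ?_, ?_, ?_, ?_⟩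
  · rw [← QuotientGroup.mk_mul]
    have : A₀ * A₀ = 1 := Subtype.ext hA₀
    rw [this]; rfl
  · intro h
    rw [QuotientGroup.eq_one_iff, Matrix.SpecialLinearGroup.mem_center_iff] at h
    obtain ⟨r, -, hr⟩ := h
    have := congrFun (congrFun hr 0) 1
    simp [A₀, A₀m] at this
  · rw [← QuotientGroup.mk_mul, ← QuotientGroup.mk_mul]
    have : A₀ * B₀ = B₀ * A₀ := Subtype.ext hAB
    rw [this]
  · rw [← QuotientGroup.mk_mul, ← QuotientGroup.mk_mul]
    have : B₀ * B₀ * B₀ = 1 := Subtype.ext hB₀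
    rw [this]; rfl
  · intro h
    rw [QuotientGroup.eq_one_iff, Matrix.SpecialLinearGroup.mem_center_iff] at h
    obtain ⟨r, -, hr⟩ := h
    have := congrFun (congrFun hr 2) 3
    simp [B₀, B₀m] at this


theorem scalar_of_comm {K : Type*} [Field K] [Fintype K] (hK : Fintype.card K = 4)
    (A' B : Matrix (Fin 3) (Fin 3) K) (hA2 : A' * A' = 1) (hA : ¬ ∃ r : K, A' = r • 1)
    (hB : B.det = 1) (hAB : A' * B = B * A') (t : K) (hB3 : B * B * B = t • 1) :
    ∃ r : K, B = r • 1 := by
  classical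
  have h2 : (2 : K) = 0 := two_eq_zero_of_card 2 (by rw [hK]; norm_num)
  haveI : CharP K 2 := CharTwo.of_one_ne_zero_of_two_eq_zero one_ne_zero h2
  have hcube : ∀ x : K, x ≠ 0 → x ^ 3 = 1 := by
    intro x hx
    have := FiniteField.pow_card_sub_one_eq_one x hx
    rw [hK] at this
    simpa using this
  set N : Matrix (Fin 3) (Fin 3) K := A' + 1 with hN
  have hNsq : N * N = 0 := by
    rw [hN, add_mul, mul_add, mul_add, hA2, Matrix.mul_one, Matrix.one_mul, Matrix.mul_one]
    have : (1 : Matrix (Fin 3) (Fin 3) K) + A' + (A' + 1) = (2 : K) • (1 + A') := by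
      rw [two_smul]; abel
    rw [this, h2, zero_smul]
  have hN0 : N ≠ 0 := by
    intro h
    apply hA
    refine ⟨-1, ?_⟩
    rw [hN] at h
    rw [neg_smul, one_smul]
    exact eq_neg_of_add_eq_zero_left h
  have hNB : N * B = B * N := by
    rw [hN, add_mul, mul_add, hAB, Matrix.one_mul, Matrix.mul_one]
  obtain ⟨P, i₁, hdetP, hi₁, hNP⟩ := Cfsg.Agent.Lib.Helper13.NilNormal.normal_form 1 N hNsq
    (Cfsg.Agent.Lib.Helper13.NilNormal.rank_one_of_sq_zero N hNsq hN0)
  have hPu : IsUnit P.det := isUnit_iff_ne_zero.mpr hdetP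
  have hPiP : P⁻¹ * P = 1 := Matrix.nonsing_inv_mul P hPu
  have hPPi : P * P⁻¹ = 1 := Matrix.mul_nonsing_inv P hPu
  set E : Matrix (Fin 3) (Fin 3) K := Matrix.vecMulVec (Pi.single i₁ 1) (Pi.single 0 1) with hE
  have hEeq : E = P⁻¹ * N * P := by
    rw [Matrix.mul_assoc, hNP, ← Matrix.mul_assoc, hPiP, Matrix.one_mul]
  set B' : Matrix (Fin 3) (Fin 3) K := P⁻¹ * B * P with hB'
  have hcomm : E * B' = B' * E := by
    rw [hEeq, hB']
    calc P⁻¹ * N * P * (P⁻¹ * B * P) = P⁻¹ * N * (P * P⁻¹) * B * P := by simp only [Matrix.mul_assoc]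
      _ = P⁻¹ * (N * B) * P := by rw [hPPi, Matrix.mul_one, Matrix.mul_assoc P⁻¹ N B]
      _ = P⁻¹ * (B * N) * P := by rw [hNB]
      _ = P⁻¹ * B * (P * P⁻¹) * N * P := by rw [hPPi, Matrix.mul_one, Matrix.mul_assoc P⁻¹ B N]
      _ = P⁻¹ * B * P * (P⁻¹ * N * P) := by simp only [Matrix.mul_assoc]
  have hdetB' : B'.det = 1 := by
    rw [hB', Matrix.det_mul, Matrix.det_mul, hB, mul_one, ← Matrix.det_mul, hPiP, Matrix.det_one]
  have hB'3 : B' * B' * B' = t • 1 := by
    rw [hB']
    calc P⁻¹ * B * P * (P⁻¹ * B * P) * (P⁻¹ * B * P)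
        = P⁻¹ * B * (P * P⁻¹) * B * (P * P⁻¹) * B * P := by simp only [Matrix.mul_assoc]
      _ = P⁻¹ * (B * B * B) * P := by rw [hPPi]; simp only [Matrix.mul_one, Matrix.mul_assoc]
      _ = t • 1 := by rw [hB3, Matrix.mul_smul, Matrix.smul_mul, Matrix.mul_one, hPiP]
  -- entries
  have hent : ∀ k l : Fin 3, (E * B') k l = (B' * E) k l := fun k l => by rw [hcomm]
  set lam := B' 0 0 with hlam
  have key : (B' - lam • 1) * (B' - lam • 1) * (B' - lam • 1) = 0 ∧ lam ≠ 0 := by
    fin_cases i₁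
    · exact absurd rfl hi₁
    · -- i₁ = 1
      have f1 := hent 1 1
      have f2 := hent 1 2
      have f3 := hent 1 0
      have f4 := hent 2 0
      simp [hE, Matrix.mul_apply, Fin.sum_univ_three, Matrix.vecMulVec_apply, Pi.single_apply] at f1 f2 f3 f4
      have hdet := hdetB'
      rw [Matrix.det_fin_three] at hdet
      simp only [f1, f2, ← f4, ← f3] at hdet
      have hl0 : lam ≠ 0 := by
        intro h0
        rw [hlam] at h0
        simp [h0] at hdet
      have hmu : B' 2 2 = lam := by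
        have h3 := hcube lam hl0
        have : lam ^ 2 * (B' 2 2 - lam) = 0 := by
          rw [hlam] at h3 ⊢
          linear_combination hdet - h3
        rcases mul_eq_zero.mp this with h | h
        · exact absurd (pow_eq_zero_iff (n := 2) (by norm_num) |>.mp h) hl0
        · exact sub_eq_zero.mp h
      refine ⟨?_, hl0⟩
      ext k l
      fin_cases k <;> fin_cases l <;>
        simp [Matrix.mul_apply, Fin.sum_univ_three, Matrix.sub_apply, Matrix.smul_apply,
          Matrix.one_apply, f1, f2, ← f3, ← f4, hmu, ← hlam]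
    · -- i₁ = 2
      have f1 := hent 2 1
      have f2 := hent 2 2
      have f3 := hent 2 0
      have f4 := hent 1 0
      simp [hE, Matrix.mul_apply, Fin.sum_univ_three, Matrix.vecMulVec_apply, Pi.single_apply] at f1 f2 f3 f4
      have hdet := hdetB'
      rw [Matrix.det_fin_three] at hdet
      simp only [f1, f2, ← f4, ← f3] at hdet
      have hl0 : lam ≠ 0 := by
        intro h0
        rw [hlam] at h0
        simp [h0] at hdet
      have hmu : B' 1 1 = lam := by
        have h3 := hcube lam hl0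
        have : lam ^ 2 * (B' 1 1 - lam) = 0 := by
          rw [hlam] at h3 ⊢
          linear_combination hdet - h3
        rcases mul_eq_zero.mp this with h | h
        · exact absurd (pow_eq_zero_iff (n := 2) (by norm_num) |>.mp h) hl0
        · exact sub_eq_zero.mp h
      refine ⟨?_, hl0⟩
      ext k l
      fin_cases k <;> fin_cases l <;>
        simp [Matrix.mul_apply, Fin.sum_univ_three, Matrix.sub_apply, Matrix.smul_apply,
          Matrix.one_apply, f1, f2, ← f3, ← f4, hmu, ← hlam]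
  obtain ⟨hM3, hl0⟩ := key
  have ht0 : t ≠ 0 := by
    intro h0
    have := congrArg Matrix.det hB'3
    rw [Matrix.det_mul, Matrix.det_mul, hdetB', h0, zero_smul, Matrix.det_zero] at this
    simp at this
  have hcomm2 : Commute (lam • (1 : Matrix (Fin 3) (Fin 3) K)) (B' - lam • 1) := by
    apply Commute.smul_left
    exact Commute.one_left _
  have hB'4 : B' ^ 4 = lam ^ 4 • (1 : Matrix (Fin 3) (Fin 3) K) := by
    haveI : Fact (Nat.Prime 2) := ⟨Nat.prime_two⟩
    have h4 := add_pow_char_pow_of_commute 2 2 hcomm2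
    have e1 : lam • (1 : Matrix (Fin 3) (Fin 3) K) + (B' - lam • 1) = B' := by abel
    have e2 : (B' - lam • (1 : Matrix (Fin 3) (Fin 3) K)) ^ 2 ^ 2 = 0 := by
      have : (B' - lam • (1 : Matrix (Fin 3) (Fin 3) K)) ^ 2 ^ 2
          = (B' - lam • 1) * (B' - lam • 1) * (B' - lam • 1) * (B' - lam • 1) := by
        norm_num [pow_succ]
      rw [this, hM3, Matrix.zero_mul]
    rw [e1, e2, add_zero, _root_.smul_pow, one_pow] at h4
    norm_num at h4
    exact h4
  have hB'4' : B' ^ 4 = t • B' := by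
    have : B' ^ 4 = B' * B' * B' * B' := by norm_num [pow_succ]
    rw [this, hB'3, Matrix.smul_mul, Matrix.one_mul]
  have hB'sc : B' = (t⁻¹ * lam ^ 4) • (1 : Matrix (Fin 3) (Fin 3) K) := by
    have : t • B' = lam ^ 4 • (1 : Matrix (Fin 3) (Fin 3) K) := by rw [← hB'4', hB'4]
    rw [mul_smul, ← this, smul_smul, inv_mul_cancel₀ ht0, one_smul]
  refine ⟨t⁻¹ * lam ^ 4, ?_⟩
  have hBeq : B = P * B' * P⁻¹ := by
    rw [hB']
    calc B = (P * P⁻¹) * B * (P * P⁻¹) := by rw [hPPi, Matrix.one_mul, Matrix.mul_one]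
      _ = P * (P⁻¹ * B * P) * P⁻¹ := by simp only [Matrix.mul_assoc]
  rw [hBeq, hB'sc, Matrix.mul_smul, Matrix.smul_mul, Matrix.mul_one, hPPi]

theorem psl3_lemma {K : Type*} [Field K] [Fintype K] (hK : Fintype.card K = 4)
    (a b : Matrix.ProjectiveSpecialLinearGroup (Fin 3) K)
    (ha2 : a * a = 1) (ha : a ≠ 1) (hab : a * b = b * a) (hb3 : b * b * b = 1) : b = 1 := by
  classical
  obtain ⟨A, rfl⟩ := QuotientGroup.mk_surjective a
  obtain ⟨B, rfl⟩ := QuotientGroup.mk_surjective b
  have hcube : ∀ x : K, x ≠ 0 → x ^ 3 = 1 := by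
    intro x hx
    have := FiniteField.pow_card_sub_one_eq_one x hx
    rw [hK] at this
    simpa using this
  rw [← QuotientGroup.mk_mul, QuotientGroup.eq_one_iff, Matrix.SpecialLinearGroup.mem_center_iff] at ha2
  obtain ⟨r, hr3, hr⟩ := ha2
  rw [← QuotientGroup.mk_mul, ← QuotientGroup.mk_mul, QuotientGroup.eq_one_iff,
    Matrix.SpecialLinearGroup.mem_center_iff] at hb3
  obtain ⟨t, ht3, ht⟩ := hb3
  rw [← QuotientGroup.mk_mul, ← QuotientGroup.mk_mul, QuotientGroup.eq,
    Matrix.SpecialLinearGroup.mem_center_iff] at hab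
  obtain ⟨s, hs3, hs⟩ := hab
  simp only [Fintype.card_fin] at hr3 ht3 hs3
  -- matrix-level facts
  have hA2 : A.1 * A.1 = r • (1 : Matrix (Fin 3) (Fin 3) K) := by
    have : (A * A).1 = A.1 * A.1 := rfl
    rw [← this, ← hr]; ext i j; simp [Matrix.scalar_apply, Matrix.one_apply, Matrix.diagonal_apply]
  have hB3 : B.1 * B.1 * B.1 = t • (1 : Matrix (Fin 3) (Fin 3) K) := by
    have : (B * B * B).1 = B.1 * B.1 * B.1 := rfl
    rw [← this, ← ht]; ext i j; simp [Matrix.scalar_apply, Matrix.one_apply, Matrix.diagonal_apply]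
  have hBA : B.1 * A.1 = s • (A.1 * B.1) := by
    have h1 : B * A = (A * B) * ((A * B)⁻¹ * (B * A)) := by group
    have h2 : (B * A).1 = (A * B).1 * ((A * B)⁻¹ * (B * A)).1 := by
      conv_lhs => rw [h1]
      rfl
    have h3 : ((A * B)⁻¹ * (B * A)).1 = s • (1 : Matrix (Fin 3) (Fin 3) K) := by
      rw [← hs]; ext i j; simp [Matrix.scalar_apply, Matrix.one_apply, Matrix.diagonal_apply]
    rw [h3] at h2
    have h4 : (B * A).1 = B.1 * A.1 := rfl
    have h5 : (A * B).1 = A.1 * B.1 := rfl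
    rw [h4, h5, Matrix.mul_smul, Matrix.mul_one] at h2
    exact h2
  have hr0 : r ≠ 0 := by
    intro h0; rw [h0] at hr3; simp at hr3
  set A' : Matrix (Fin 3) (Fin 3) K := r • A.1 with hA'
  have hA'2 : A' * A' = 1 := by
    rw [hA', Matrix.smul_mul, Matrix.mul_smul, hA2, smul_smul, smul_smul]
    have : r * r * r = 1 := by rw [← hr3]; ring
    rw [this, one_smul]
  have hBA' : B.1 * A' = s • (A' * B.1) := by
    rw [hA', Matrix.mul_smul, hBA, Matrix.smul_mul, smul_comm]
  have hB0 : B.1 ≠ 0 := by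
    intro h0
    have := B.2
    rw [h0, Matrix.det_zero] at this
    exact zero_ne_one this
  have hs1 : s = 1 := by
    have h1 : B.1 * A' * A' = (s * s) • B.1 := by
      rw [hBA', Matrix.smul_mul, Matrix.mul_assoc, hBA', Matrix.mul_smul, ← Matrix.mul_assoc, hA'2,
        Matrix.one_mul, smul_smul]
    rw [Matrix.mul_assoc, hA'2, Matrix.mul_one] at h1
    have h2 : (1 - s * s) • B.1 = 0 := by
      rw [sub_smul, one_smul, ← h1, sub_self]
    rcases smul_eq_zero.mp h2 with h | h
    · have : s * s = 1 := (sub_eq_zero.mp h).symm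
      calc s = s * (s * s) * (s * s)⁻¹ := by
              rw [this]; simp
        _ = s ^ 3 * (s * s)⁻¹ := by ring
        _ = 1 := by rw [hs3, this]; simp
    · exact absurd h hB0
  rw [hs1, one_smul] at hBA'
  have hnotsc : ¬ ∃ c : K, A' = c • 1 := by
    rintro ⟨c, hc⟩
    apply ha
    rw [QuotientGroup.eq_one_iff, Matrix.SpecialLinearGroup.mem_center_iff]
    have hA1 : A.1 = (r⁻¹ * c) • (1 : Matrix (Fin 3) (Fin 3) K) := by
      rw [mul_smul, ← hc, hA', smul_smul, inv_mul_cancel₀ hr0, one_smul]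
    refine ⟨r⁻¹ * c, ?_, ?_⟩
    · have := A.2
      rw [hA1, Matrix.det_smul, Matrix.det_one] at this
      simpa using this
    · rw [hA1]; ext i j; simp [Matrix.scalar_apply, Matrix.one_apply, Matrix.diagonal_apply]
  obtain ⟨c, hc⟩ := scalar_of_comm hK A' B.1 hA'2 hnotsc B.2 hBA'.symm t hB3
  rw [QuotientGroup.eq_one_iff, Matrix.SpecialLinearGroup.mem_center_iff]
  refine ⟨c, ?_, ?_⟩
  · have := B.2
    rw [hc, Matrix.det_smul, Matrix.det_one] at this
    simpa using this
  · rw [hc]; ext i j; simp [Matrix.scalar_apply, Matrix.one_apply, Matrix.diagonal_apply]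

/-- Let F be a field with 2 elements and K a field with 4 elements. PSL_4(F) and PSL_3(K) have the same order (20160) but are not isomorphic. -/
theorem result {F K : Type*} [Field F] [Fintype F] [Field K] [Fintype K] (hF : Fintype.card F = 2) (hK : Fintype.card K = 4) : Nat.card (Matrix.ProjectiveSpecialLinearGroup (Fin 4) F) = Nat.card (Matrix.ProjectiveSpecialLinearGroup (Fin 3) K) ∧ ¬ Nonempty (Matrix.ProjectiveSpecialLinearGroup (Fin 4) F ≃* Matrix.ProjectiveSpecialLinearGroup (Fin 3) K) := by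
  refine ⟨by rw [card_psl4 hF, card_psl3 hK], ?_⟩
  rintro ⟨e⟩
  obtain ⟨a, b, ha2, ha, hab, hb3, hb⟩ := exists_pair hF
  apply hb
  have := psl3_lemma hK (e a) (e b) (by rw [← map_mul, ha2, map_one])
    (fun h => ha (by simpa using h)) (by rw [← map_mul, ← map_mul, hab])
    (by rw [← map_mul, ← map_mul, hb3, map_one])
  simpa using this

end Cfsg.Agent.S2550
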