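import Cfsg.Statements.S0819
import Mathlib
import Cfsg.Agent.S2550

set_option autoImplicit false
open Cfsg

namespace Cfsg.Agent.S0819
open Matrix

theorem fixed_dim {F : Type*} [Field F] [Fintype F] (hF : Fintype.card F = 4)
    (H : Matrix (Fin 3) (Fin 3) F) (hH5 : H ^ 5 = 1) (hH1 : H ≠ 1) :
    ∃ v : Fin 3 → F, v ≠ 0 ∧ H *ᵥ v = v ∧ ∀ u : Fin 3 → F, H *ᵥ u = u → ∃ c : F, u = c • v := by
  classical
  let f : Function.End (Fin 3 → F) := fun u => H *ᵥ u
  have hfpow : ∀ n : ℕ, ∀ u, (f ^ n) u = (H ^ n) *ᵥ u := by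
    intro n
    induction n with
    | zero => intro u; rw [pow_zero, pow_zero, Matrix.one_mulVec]; rfl
    | succ n ih =>
      intro u
      rw [pow_succ', pow_succ']
      show f ((f ^ n) u) = _
      rw [ih, ← Matrix.mulVec_mulVec]
  have hf5 : f ^ 5 ^ 1 = 1 := by
    funext u
    rw [pow_one, hfpow, hH5, Matrix.one_mulVec]; rfl
  have : Fact (Nat.Prime 5) := ⟨by norm_num⟩
  have hcount := Equiv.Perm.card_fixedPoints_modEq (p := 5) (n := 1) hf5
  let S : Submodule F (Fin 3 → F) := LinearMap.ker (Matrix.mulVecLin (H - 1))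
  have hS : ∀ u, u ∈ S ↔ H *ᵥ u = u := by
    intro u
    simp only [S, LinearMap.mem_ker, Matrix.mulVecLin_apply, Matrix.sub_mulVec, Matrix.one_mulVec,
      sub_eq_zero]
  have hfix : Function.fixedPoints f = (S : Set (Fin 3 → F)) := by
    ext u
    rw [Function.mem_fixedPoints, Function.IsFixedPt, SetLike.mem_coe, hS]
  have hcardS : Fintype.card (Function.fixedPoints f) = 4 ^ Module.finrank F S := by
    rw [← Nat.card_eq_fintype_card, hfix]
    have := Module.natCard_eq_pow_finrank (K := F) (V := S)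
    rw [Nat.card_eq_fintype_card (α := F), hF] at this
    exact this
  have hV : Fintype.card (Fin 3 → F) = 64 := by simp [hF]
  rw [hcardS, hV] at hcount
  have hle : Module.finrank F S ≤ 3 := by
    have := Submodule.finrank_le S
    simpa using this
  have hd : Module.finrank F S = 1 ∨ Module.finrank F S = 3 := by
    generalize Module.finrank F S = d at hcount hle
    interval_cases d <;> simp_all [Nat.ModEq]
  rcases hd with hd | hd
  · obtain ⟨⟨v, hvS⟩, hv0, hv⟩ := finrank_eq_one_iff'.mp hd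
    refine ⟨v, ?_, (hS v).mp hvS, ?_⟩
    · intro h; apply hv0; exact Subtype.ext h
    · intro u hu
      obtain ⟨c, hc⟩ := hv ⟨u, (hS u).mpr hu⟩
      exact ⟨c, by have := congrArg Subtype.val hc; simpa using this.symm⟩
  · exfalso
    apply hH1
    have htop : S = ⊤ := Submodule.eq_top_of_finrank_eq (by simpa using hd)
    ext i j
    have h1 := (hS (Pi.single j 1)).mp (by rw [htop]; trivial)
    have h2 := congrFun h1 i
    simpa [Matrix.mulVec_single_one, Matrix.one_apply, Pi.single_apply] using h2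

theorem exists_P {F : Type*} [Field F] (v : Fin 3 → F) (hv : v ≠ 0) :
    ∃ P : Matrix (Fin 3) (Fin 3) F, P.det ≠ 0 ∧ P *ᵥ Pi.single 0 1 = v := by
  have : ∃ i, v i ≠ 0 := by
    by_contra h
    push Not at h
    exact hv (funext h)
  obtain ⟨i, hi⟩ := this
  fin_cases i
  · refine ⟨!![v 0,0,0; v 1,1,0; v 2,0,1], ?_, ?_⟩
    · rw [Matrix.det_fin_three]; simpa using hi
    · ext j; fin_cases j <;> simp [Matrix.mulVec, dotProduct, Fin.sum_univ_three]
  · refine ⟨!![v 0,1,0; v 1,0,0; v 2,0,1], ?_, ?_⟩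
    · rw [Matrix.det_fin_three]; simpa using hi
    · ext j; fin_cases j <;> simp [Matrix.mulVec, dotProduct, Fin.sum_univ_three]
  · refine ⟨!![v 0,1,0; v 1,0,1; v 2,0,0], ?_, ?_⟩
    · rw [Matrix.det_fin_three]; simpa using hi
    · ext j; fin_cases j <;> simp [Matrix.mulVec, dotProduct, Fin.sum_univ_three]

/-- the lower-right `2 × 2` block -/
def blk {F : Type*} (M : Matrix (Fin 3) (Fin 3) F) : Matrix (Fin 2) (Fin 2) F :=
  !![M 1 1, M 1 2; M 2 1, M 2 2]

theorem tri_mul {F : Type*} [Field F] (M N : Matrix (Fin 3) (Fin 3) F)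
    (hM1 : M 1 0 = 0) (hM2 : M 2 0 = 0) (hN1 : N 1 0 = 0) (hN2 : N 2 0 = 0) :
    (M * N) 1 0 = 0 ∧ (M * N) 2 0 = 0 ∧ blk (M * N) = blk M * blk N ∧
      (M * N) 0 0 = M 0 0 * N 0 0 := by
  refine ⟨?_, ?_, ?_, ?_⟩
  · simp [Matrix.mul_apply, Fin.sum_univ_three, hM1, hN1, hN2]
  · simp [Matrix.mul_apply, Fin.sum_univ_three, hM2, hN1, hN2]
  · ext i j
    fin_cases i <;> fin_cases j <;>
      simp [blk, Matrix.mul_apply, Fin.sum_univ_three, Fin.sum_univ_two, hM1, hM2]
  · simp [Matrix.mul_apply, Fin.sum_univ_three, hN1, hN2]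

theorem two_by_two {F : Type*} [Field F] [Fintype F] (hF : Fintype.card F = 4)
    (H₂ K₂ : Matrix (Fin 2) (Fin 2) F) (hH5 : H₂ * H₂ * H₂ * H₂ * H₂ = 1)
    (t a : F) (hK3 : K₂ * K₂ * K₂ = t • 1) (hcomm : H₂ * K₂ = K₂ * H₂)
    (ha3 : a * a * a = t) (hdet : a * K₂.det = 1) : H₂ = 1 ∨ K₂ = a • 1 := by
  classical
  have h2 : (2 : F) = 0 := Cfsg.Agent.S2550.two_eq_zero_of_card 2 (by rw [hF]; norm_num)
  have hchar : CharP F 2 := CharTwo.of_one_ne_zero_of_two_eq_zero one_ne_zero h2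
  have hxx : ∀ x : F, x + x = 0 := by
    intro x
    have : x + x = 2 * x := by ring
    rw [this, h2, zero_mul]
  have hneg : ∀ x : F, -x = x := fun x => neg_eq_of_add_eq_zero_left (hxx x)
  have hMM : ∀ M : Matrix (Fin 2) (Fin 2) F, M + M = 0 := by
    intro M
    have : M + M = (2 : F) • M := by rw [two_smul]
    rw [this, h2, zero_smul]
  have hcube : ∀ x : F, x ≠ 0 → x ^ 3 = 1 := by
    intro x hx
    have := FiniteField.pow_card_sub_one_eq_one x hx
    rw [hF] at this
    simpa using this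
  have hfour : ∀ x : F, x ^ 4 = x := by
    intro x
    have := FiniteField.pow_card x
    rw [hF] at this
    exact this
  have ha0 : a ≠ 0 := left_ne_zero_of_mul_eq_one hdet
  have ht : t = 1 := by
    rw [← ha3]
    have := hcube a ha0
    linear_combination this
  rw [ht, one_smul] at hK3
  set τ := K₂ 0 0 + K₂ 1 1 with hτ
  set δ := K₂.det with hδ
  have hCH : K₂ * K₂ = τ • K₂ - δ • 1 := by
    ext i j
    fin_cases i <;> fin_cases j <;>
      simp [Matrix.det_fin_two, Matrix.mul_apply, Fin.sum_univ_two, τ, δ] <;> ring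
  have hK3' : (τ * τ - δ) • K₂ - (τ * δ) • (1 : Matrix (Fin 2) (Fin 2) F) = 1 := by
    have h3 : K₂ * K₂ * K₂ = (τ * τ - δ) • K₂ - (τ * δ) • (1 : Matrix (Fin 2) (Fin 2) F) := by
      rw [hCH, sub_mul, Matrix.smul_mul, Matrix.smul_mul, Matrix.one_mul, hCH]
      module
    rw [← h3, hK3]
  by_cases hcase : τ * τ - δ = 0
  · left
    have hτδ : τ * δ = 1 := by
      rw [hcase, zero_smul, zero_sub] at hK3'
      have := congrFun (congrFun hK3' 0) 0
      simp at this
      rw [hneg] at this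
      exact this
    have hτ0 : τ ≠ 0 := left_ne_zero_of_mul_eq_one hτδ
    have hpol : H₂ * K₂ + K₂ * H₂ = τ • H₂ + (H₂ 0 0 + H₂ 1 1) • K₂
        + ((H₂ * K₂) 0 0 + (H₂ * K₂) 1 1 - (H₂ 0 0 + H₂ 1 1) * τ) • 1 := by
      ext i j
      fin_cases i <;> fin_cases j <;>
        simp [Matrix.mul_apply, Fin.sum_univ_two, τ] <;> ring
    rw [← hcomm, hMM] at hpol
    set y := (H₂ 0 0 + H₂ 1 1) with hy
    set c := ((H₂ * K₂) 0 0 + (H₂ * K₂) 1 1 - y * τ) with hc
    have hH : H₂ = (τ⁻¹ * c) • (1 : Matrix (Fin 2) (Fin 2) F) + (τ⁻¹ * y) • K₂ := by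
      have h1 : τ • H₂ = c • (1 : Matrix (Fin 2) (Fin 2) F) + y • K₂ := by
        have h3 : τ • H₂ = -(y • K₂ + c • (1 : Matrix (Fin 2) (Fin 2) F)) := by
          rw [eq_neg_iff_add_eq_zero, ← add_assoc]
          exact hpol.symm
        rw [h3]
        have h4 : ∀ M : Matrix (Fin 2) (Fin 2) F, -M = M := fun M =>
          neg_eq_of_add_eq_zero_left (hMM M)
        rw [h4, add_comm]
      calc H₂ = τ⁻¹ • (τ • H₂) := by rw [smul_smul, inv_mul_cancel₀ hτ0, one_smul]
        _ = _ := by rw [h1, smul_add, smul_smul, smul_smul]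
    have hK4 : K₂ ^ 4 = K₂ := by
      have : K₂ ^ 4 = K₂ * K₂ * K₂ * K₂ := by simp [pow_succ]
      rw [this, hK3, Matrix.one_mul]
    have hH4 : H₂ ^ 4 = H₂ := by
      have hfact : Fact (Nat.Prime 2) := ⟨Nat.prime_two⟩
      have hcm : Commute ((τ⁻¹ * c) • (1 : Matrix (Fin 2) (Fin 2) F)) ((τ⁻¹ * y) • K₂) :=
        ((Commute.one_left K₂).smul_left _).smul_right _
      have h4 := add_pow_char_pow_of_commute 2 2 hcm
      rw [← hH] at h4
      have e : (2 : ℕ) ^ 2 = 4 := by norm_num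
      rw [e] at h4
      rw [h4, _root_.smul_pow, _root_.smul_pow, one_pow, hfour, hfour, hK4, ← hH]
    have hH2 : H₂ * H₂ = 1 := by
      have : H₂ * H₂ * H₂ * H₂ = H₂ ^ 4 := by simp [pow_succ]
      rw [this, hH4] at hH5
      exact hH5
    have : H₂ ^ 4 = 1 := by
      have : H₂ ^ 4 = (H₂ * H₂) * (H₂ * H₂) := by simp [pow_succ, Matrix.mul_assoc]
      rw [this, hH2, Matrix.one_mul]
    rw [hH4] at this
    exact this
  · right
    have hsc : K₂ = ((τ * τ - δ)⁻¹ * (1 + τ * δ)) • (1 : Matrix (Fin 2) (Fin 2) F) := by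
      have h1 : (τ * τ - δ) • K₂ = (1 + τ * δ) • (1 : Matrix (Fin 2) (Fin 2) F) := by
        have h5 := hK3'
        rw [sub_eq_iff_eq_add] at h5
        rw [h5, add_smul, one_smul]
      calc K₂ = (τ * τ - δ)⁻¹ • ((τ * τ - δ) • K₂) := by
            rw [smul_smul, inv_mul_cancel₀ hcase, one_smul]
        _ = _ := by rw [h1, smul_smul]
    set e := (τ * τ - δ)⁻¹ * (1 + τ * δ) with he
    have hdet2 : δ = e * e := by
      rw [hδ, hsc, Matrix.det_smul, Matrix.det_one]
      simp [pow_two]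
    have he3 : e * e * e = 1 := by
      rw [hsc] at hK3
      have := congrFun (congrFun hK3 0) 0
      simp at this
      linear_combination this
    have : a = e := by
      rw [hdet2] at hdet
      calc a = a * (e * e * e) := by rw [he3, mul_one]
        _ = (a * (e * e)) * e := by ring
        _ = e := by rw [hdet, one_mul]
    rw [this]
    exact hsc

theorem key {F : Type*} [Field F] [Fintype F] (hF : Fintype.card F = 4)
    (H K : Matrix (Fin 3) (Fin 3) F) (hH5 : H ^ 5 = 1) (hH1 : H ≠ 1) (hHK : H * K = K * H)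
    (t : F) (hK3 : K * K * K = t • 1) (hdetK : K.det = 1) : ∃ c : F, K = c • 1 := by
  classical
  have h2 : (2 : F) = 0 := Cfsg.Agent.S2550.two_eq_zero_of_card 2 (by rw [hF]; norm_num)
  have hxx : ∀ x : F, x + x = 0 := by
    intro x
    have : x + x = 2 * x := by ring
    rw [this, h2, zero_mul]
  obtain ⟨v, hv0, hHv, hS⟩ := fixed_dim hF H hH5 hH1
  obtain ⟨a, hKv⟩ : ∃ a : F, K *ᵥ v = a • v := by
    apply hS
    rw [Matrix.mulVec_mulVec, hHK, ← Matrix.mulVec_mulVec, hHv]
  obtain ⟨P, hdetP, hPv⟩ := exists_P v hv0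
  have hPu : IsUnit P.det := isUnit_iff_ne_zero.mpr hdetP
  have hPiP : P⁻¹ * P = 1 := Matrix.nonsing_inv_mul P hPu
  have hPPi : P * P⁻¹ = 1 := Matrix.mul_nonsing_inv P hPu
  have hc : ∀ A B : Matrix (Fin 3) (Fin 3) F,
      (P⁻¹ * A * P) * (P⁻¹ * B * P) = P⁻¹ * (A * B) * P := by
    intro A B
    calc P⁻¹ * A * P * (P⁻¹ * B * P) = P⁻¹ * A * (P * P⁻¹) * B * P := by
          simp only [Matrix.mul_assoc]
      _ = P⁻¹ * (A * B) * P := by rw [hPPi, Matrix.mul_one, Matrix.mul_assoc P⁻¹ A B]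
  have hcol : ∀ (A : Matrix (Fin 3) (Fin 3) F) (b : F), A *ᵥ v = b • v →
      ∀ i, (P⁻¹ * A * P) i 0 = if i = 0 then b else 0 := by
    intro A b hA i
    have h1 : (P⁻¹ * A * P) *ᵥ Pi.single 0 1 = b • Pi.single 0 1 := by
      rw [← Matrix.mulVec_mulVec, hPv, ← Matrix.mulVec_mulVec, hA, Matrix.mulVec_smul, ← hPv,
        Matrix.mulVec_mulVec, hPiP, Matrix.one_mulVec]
    have h2 := congrFun h1 i
    simpa [Matrix.mulVec_single_one, Pi.single_apply] using h2
  have hback : ∀ (A : Matrix (Fin 3) (Fin 3) F) (b : F), P⁻¹ * A * P = b • 1 → A = b • 1 := by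
    intro A b h
    calc A = (P * P⁻¹) * A * (P * P⁻¹) := by rw [hPPi, Matrix.one_mul, Matrix.mul_one]
      _ = P * (P⁻¹ * A * P) * P⁻¹ := by simp only [Matrix.mul_assoc]
      _ = b • 1 := by rw [h, Matrix.mul_smul, Matrix.smul_mul, Matrix.mul_one, hPPi]
  have hH'5 : (P⁻¹ * H * P) * (P⁻¹ * H * P) * (P⁻¹ * H * P) * (P⁻¹ * H * P) * (P⁻¹ * H * P) = 1 := by
    rw [hc, hc, hc, hc]
    have : H * H * H * H * H = H ^ 5 := by simp [pow_succ]
    rw [this, hH5, Matrix.mul_one, hPiP]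
  have hK'3 : (P⁻¹ * K * P) * (P⁻¹ * K * P) * (P⁻¹ * K * P) = t • 1 := by
    rw [hc, hc, hK3, Matrix.mul_smul, Matrix.smul_mul, Matrix.mul_one, hPiP]
  have hcomm' : (P⁻¹ * H * P) * (P⁻¹ * K * P) = (P⁻¹ * K * P) * (P⁻¹ * H * P) := by
    rw [hc, hc, hHK]
  have hdetK' : (P⁻¹ * K * P).det = 1 := by
    rw [Matrix.det_mul, Matrix.det_mul, hdetK, mul_one, ← Matrix.det_mul, hPiP, Matrix.det_one]
  have hHcol := hcol H 1 (by rw [one_smul]; exact hHv)
  have hKcol := hcol K a hKv
  have hbackH := hback H 1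
  have hbackK := hback K
  set H' := P⁻¹ * H * P with hH'def
  set K' := P⁻¹ * K * P with hK'def
  have hH10 : H' 1 0 = 0 := by simpa using hHcol 1
  have hH20 : H' 2 0 = 0 := by simpa using hHcol 2
  have hH00 : H' 0 0 = 1 := by simpa using hHcol 0
  have hK10 : K' 1 0 = 0 := by simpa using hKcol 1
  have hK20 : K' 2 0 = 0 := by simpa using hKcol 2
  have hK00 : K' 0 0 = a := by simpa using hKcol 0
  obtain ⟨hHH1, hHH2, hHHb, hHH0⟩ := tri_mul H' H' hH10 hH20 hH10 hH20
  obtain ⟨hH31, hH32, hH3b, hH30⟩ := tri_mul (H' * H') H' hHH1 hHH2 hH10 hH20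
  obtain ⟨hH41, hH42, hH4b, hH40⟩ := tri_mul (H' * H' * H') H' hH31 hH32 hH10 hH20
  obtain ⟨hH51, hH52, hH5b, hH50⟩ := tri_mul (H' * H' * H' * H') H' hH41 hH42 hH10 hH20
  have hbH5 : blk H' * blk H' * blk H' * blk H' * blk H' = 1 := by
    rw [← hHHb, ← hH3b, ← hH4b, ← hH5b, hH'5]
    ext i j
    fin_cases i <;> fin_cases j <;> simp [blk]
  obtain ⟨hKK1, hKK2, hKKb, hKK0⟩ := tri_mul K' K' hK10 hK20 hK10 hK20
  obtain ⟨hK31, hK32, hK3b, hK30⟩ := tri_mul (K' * K') K' hKK1 hKK2 hK10 hK20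
  have hbK3 : blk K' * blk K' * blk K' = t • 1 := by
    rw [← hKKb, ← hK3b, hK'3]
    ext i j
    fin_cases i <;> fin_cases j <;> simp [blk]
  have ha3 : a * a * a = t := by
    have := hK30
    rw [hKK0, hK00, hK'3] at this
    simpa using this.symm
  obtain ⟨-, -, hHKb, -⟩ := tri_mul H' K' hH10 hH20 hK10 hK20
  obtain ⟨-, -, hKHb, -⟩ := tri_mul K' H' hK10 hK20 hH10 hH20
  have hbcomm : blk H' * blk K' = blk K' * blk H' := by rw [← hHKb, ← hKHb, hcomm']
  have hbdet : a * (blk K').det = 1 := by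
    rw [← hdetK', Matrix.det_fin_three, Matrix.det_fin_two, hK10, hK20, hK00]
    simp [blk]
    ring
  rcases two_by_two hF (blk H') (blk K') hbH5 t a hbK3 hbcomm ha3 hbdet with h | h
  · exfalso
    apply hH1
    have e11 : H' 1 1 = 1 := by have := congrFun (congrFun h 0) 0; simpa [blk] using this
    have e12 : H' 1 2 = 0 := by have := congrFun (congrFun h 0) 1; simpa [blk] using this
    have e21 : H' 2 1 = 0 := by have := congrFun (congrFun h 1) 0; simpa [blk] using this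
    have e22 : H' 2 2 = 1 := by have := congrFun (congrFun h 1) 1; simpa [blk] using this
    have hsq : H' * H' = 1 := by
      ext i j
      fin_cases i <;> fin_cases j <;>
        simp [Matrix.mul_apply, Fin.sum_univ_three, hH10, hH20, hH00, e11, e12, e21, e22, hxx]
    have hH'1 : H' = 1 := by
      have := hH'5
      rw [hsq, Matrix.one_mul, hsq, Matrix.one_mul] at this
      exact this
    have := hbackH (by rw [one_smul]; exact hH'1)
    rw [one_smul] at this
    exact this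
  · have e11 : K' 1 1 = a := by have := congrFun (congrFun h 0) 0; simpa [blk] using this
    have e12 : K' 1 2 = 0 := by have := congrFun (congrFun h 0) 1; simpa [blk] using this
    have e21 : K' 2 1 = 0 := by have := congrFun (congrFun h 1) 0; simpa [blk] using this
    have e22 : K' 2 2 = a := by have := congrFun (congrFun h 1) 1; simpa [blk] using this
    have hsq : K' * K' = (a * a) • 1 := by
      ext i j
      fin_cases i <;> fin_cases j <;>
        simp [Matrix.mul_apply, Fin.sum_univ_three, hK10, hK20, hK00, e11, e12, e21, e22]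
      · linear_combination hxx (a * K' 0 1)
      · linear_combination hxx (a * K' 0 2)
    have ha0 : a ≠ 0 := left_ne_zero_of_mul_eq_one hbdet
    have hK'sc : K' = ((a * a)⁻¹ * t) • 1 := by
      have h1 := hK'3
      rw [hsq, Matrix.smul_mul, Matrix.one_mul] at h1
      calc K' = (a * a)⁻¹ • ((a * a) • K') := by
            rw [smul_smul, inv_mul_cancel₀ (mul_ne_zero ha0 ha0), one_smul]
        _ = _ := by rw [h1, smul_smul]
    exact ⟨_, hbackK _ hK'sc⟩

/-- No element of PSL_3(4) has order 15. -/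
theorem result {F : Type*} [Field F] [Fintype F] (hF : Fintype.card F = 4) (g : Matrix.ProjectiveSpecialLinearGroup (Fin 3) F) : orderOf g ≠ 15 := by
  classical
  intro hg
  obtain ⟨G₀, rfl⟩ := QuotientGroup.mk_surjective g
  have h15 : (QuotientGroup.mk G₀ : Matrix.ProjectiveSpecialLinearGroup (Fin 3) F) ^ 15 = 1 := by
    rw [← hg]; exact pow_orderOf_eq_one _
  rw [← QuotientGroup.mk_pow, QuotientGroup.eq_one_iff, Matrix.SpecialLinearGroup.mem_center_iff] at h15
  obtain ⟨u, hu3, hu⟩ := h15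
  simp only [Fintype.card_fin] at hu3
  have hG15 : G₀.1 ^ 15 = u • (1 : Matrix (Fin 3) (Fin 3) F) := by
    have : (G₀ ^ 15).1 = G₀.1 ^ 15 := Matrix.SpecialLinearGroup.coe_pow _ _
    rw [← this, ← hu]
    ext i j
    simp [Matrix.scalar_apply, Matrix.one_apply, Matrix.diagonal_apply]
  have hu0 : u ≠ 0 := by
    intro h0; rw [h0] at hu3; simp at hu3
  set H : Matrix (Fin 3) (Fin 3) F := u • (G₀.1 ^ 3) with hH
  set K : Matrix (Fin 3) (Fin 3) F := G₀.1 ^ 5 with hK
  have hH5 : H ^ 5 = 1 := by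
    rw [hH, _root_.smul_pow, ← pow_mul, hG15, smul_smul]
    have : u ^ 5 * u = 1 := by
      calc u ^ 5 * u = (u ^ 3) ^ 2 := by ring
        _ = 1 := by rw [hu3]; norm_num
    rw [this, one_smul]
  have hHK : H * K = K * H := by
    rw [hH, hK, Matrix.smul_mul, Matrix.mul_smul, ← pow_add, ← pow_add]
  have hK3 : K * K * K = u • 1 := by
    rw [hK, ← pow_add, ← pow_add]; exact hG15
  have hdetK : K.det = 1 := by rw [hK, Matrix.det_pow, G₀.2, one_pow]
  have hH1 : H ≠ 1 := by
    intro h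
    have h3 : (QuotientGroup.mk G₀ : Matrix.ProjectiveSpecialLinearGroup (Fin 3) F) ^ 3 = 1 := by
      rw [← QuotientGroup.mk_pow, QuotientGroup.eq_one_iff, Matrix.SpecialLinearGroup.mem_center_iff]
      refine ⟨u⁻¹, ?_, ?_⟩
      · simp [hu3]
      · have e : (G₀ ^ 3).1 = G₀.1 ^ 3 := Matrix.SpecialLinearGroup.coe_pow _ _
        have : (G₀ ^ 3).1 = u⁻¹ • (1 : Matrix (Fin 3) (Fin 3) F) := by
          rw [e]
          calc G₀.1 ^ 3 = u⁻¹ • (u • G₀.1 ^ 3) := by rw [smul_smul, inv_mul_cancel₀ hu0, one_smul]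
            _ = u⁻¹ • 1 := by rw [← hH, h]
        rw [this]
        ext i j
        simp [Matrix.scalar_apply, Matrix.one_apply, Matrix.diagonal_apply]
    have := orderOf_dvd_of_pow_eq_one h3
    rw [hg] at this
    norm_num at this
  obtain ⟨c, hc⟩ := key hF H K hH5 hH1 hHK u hK3 hdetK
  have h5 : (QuotientGroup.mk G₀ : Matrix.ProjectiveSpecialLinearGroup (Fin 3) F) ^ 5 = 1 := by
    rw [← QuotientGroup.mk_pow, QuotientGroup.eq_one_iff, Matrix.SpecialLinearGroup.mem_center_iff]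
    refine ⟨c, ?_, ?_⟩
    · have := hdetK
      rw [hc, Matrix.det_smul, Matrix.det_one] at this
      simpa using this
    · have e : (G₀ ^ 5).1 = G₀.1 ^ 5 := Matrix.SpecialLinearGroup.coe_pow _ _
      rw [e, ← hK, hc]
      ext i j
      simp [Matrix.scalar_apply, Matrix.one_apply, Matrix.diagonal_apply]
  have := orderOf_dvd_of_pow_eq_one h5
  rw [hg] at this
  norm_num at this

end Cfsg.Agent.S0819
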