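import Cfsg.Statements.S0820
import Mathlib
import Cfsg.Agent.S2550
import Cfsg.Agent.Lib.Helper13.NilNormal

set_option autoImplicit false
open Cfsg

namespace Cfsg.Agent.S0820
open Matrix

theorem conj_T {K : Type*} [Field K] [Fintype K] (hK : Fintype.card K = 4)
    (T : Matrix.SpecialLinearGroup (Fin 3) K) (hT : T.1 = !![1,0,0; 1,1,0; 0,0,1])
    (x : Matrix.ProjectiveSpecialLinearGroup (Fin 3) K) (hx : orderOf x = 2) :
    IsConj (QuotientGroup.mk T : Matrix.ProjectiveSpecialLinearGroup (Fin 3) K) x := by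
  classical
  have h2 : (2 : K) = 0 := Cfsg.Agent.S2550.two_eq_zero_of_card 2 (by rw [hK]; norm_num)
  have h11 : (1 : K) + 1 = 0 := by rw [one_add_one_eq_two]; exact h2
  have hx2 : x * x = 1 := by rw [← pow_two, ← hx, pow_orderOf_eq_one]
  have hx1 : x ≠ 1 := by
    intro h; rw [h, orderOf_one] at hx; norm_num at hx
  obtain ⟨A, rfl⟩ := QuotientGroup.mk_surjective x
  rw [← QuotientGroup.mk_mul, QuotientGroup.eq_one_iff, Matrix.SpecialLinearGroup.mem_center_iff] at hx2
  obtain ⟨r, hr3, hr⟩ := hx2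
  simp only [Fintype.card_fin] at hr3
  have hA2 : A.1 * A.1 = r • (1 : Matrix (Fin 3) (Fin 3) K) := by
    have : (A * A).1 = A.1 * A.1 := rfl
    rw [← this, ← hr]; ext i j; simp [Matrix.scalar_apply, Matrix.one_apply, Matrix.diagonal_apply]
  have hr0 : r ≠ 0 := by
    intro h0; rw [h0] at hr3; simp at hr3
  have hZdet : (r • (1 : Matrix (Fin 3) (Fin 3) K)).det = 1 := by
    rw [Matrix.det_smul, Matrix.det_one]; simpa using hr3
  let Z : Matrix.SpecialLinearGroup (Fin 3) K := ⟨r • 1, hZdet⟩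
  have hZc : Z ∈ Subgroup.center (Matrix.SpecialLinearGroup (Fin 3) K) := by
    rw [Matrix.SpecialLinearGroup.mem_center_iff]
    refine ⟨r, by simpa using hr3, ?_⟩
    ext i j; simp [Z, Matrix.scalar_apply, Matrix.one_apply, Matrix.diagonal_apply]
  let As : Matrix.SpecialLinearGroup (Fin 3) K := Z * A
  have hAs : As.1 = r • A.1 := by
    show (r • (1 : Matrix (Fin 3) (Fin 3) K)) * A.1 = r • A.1
    rw [Matrix.smul_mul, Matrix.one_mul]
  have hmk : (QuotientGroup.mk As : Matrix.ProjectiveSpecialLinearGroup (Fin 3) K) = QuotientGroup.mk A := by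
    show (QuotientGroup.mk (Z * A) : Matrix.ProjectiveSpecialLinearGroup (Fin 3) K) = QuotientGroup.mk A
    rw [QuotientGroup.mk_mul, (QuotientGroup.eq_one_iff Z).mpr hZc, one_mul]
  set A' : Matrix (Fin 3) (Fin 3) K := As.1 with hA'
  have hA'2 : A' * A' = 1 := by
    rw [hAs, Matrix.smul_mul, Matrix.mul_smul, hA2, smul_smul, smul_smul]
    have : r * r * r = 1 := by rw [← hr3]; ring
    rw [this, one_smul]
  have hnotsc : ¬ ∃ c : K, A' = c • 1 := by
    rintro ⟨c, hc⟩
    apply hx1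
    rw [← hmk, QuotientGroup.eq_one_iff, Matrix.SpecialLinearGroup.mem_center_iff]
    refine ⟨c, ?_, ?_⟩
    · have := As.2
      rw [← hA', hc, Matrix.det_smul, Matrix.det_one] at this
      simpa using this
    · rw [← hA', hc]; ext i j; simp [Matrix.scalar_apply, Matrix.one_apply, Matrix.diagonal_apply]
  set N : Matrix (Fin 3) (Fin 3) K := A' + 1 with hN
  have htwo : ∀ M : Matrix (Fin 3) (Fin 3) K, M + M = 0 := by
    intro M
    have : M + M = (2 : K) • M := by rw [two_smul]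
    rw [this, h2, zero_smul]
  have hNsq : N * N = 0 := by
    rw [hN, add_mul, mul_add, mul_add, hA'2, Matrix.mul_one, Matrix.one_mul, Matrix.mul_one]
    have : (1 : Matrix (Fin 3) (Fin 3) K) + A' + (A' + 1) = (1 + A') + (1 + A') := by abel
    rw [this, htwo]
  have hN0 : N ≠ 0 := by
    intro h
    apply hnotsc
    refine ⟨-1, ?_⟩
    rw [hN] at h
    rw [neg_smul, one_smul]
    exact eq_neg_of_add_eq_zero_left h
  obtain ⟨P, i₁, hdetP, hi₁, hNP⟩ := Cfsg.Agent.Lib.Helper13.NilNormal.normal_form 1 N hNsq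
    (Cfsg.Agent.Lib.Helper13.NilNormal.rank_one_of_sq_zero N hNsq hN0)
  have hAP : A' * P = P * (1 + Matrix.vecMulVec (Pi.single i₁ 1) (Pi.single 0 1)) := by
    rw [mul_add, ← hNP, hN, add_mul, Matrix.mul_one, Matrix.one_mul]
    have : P + (A' * P + P) = A' * P + (P + P) := by abel
    rw [this, htwo, add_zero]
  have hex1 : ∃ P₁ : Matrix (Fin 3) (Fin 3) K, P₁.det ≠ 0 ∧ A' * P₁ = P₁ * T.1 := by
    fin_cases i₁
    · exact absurd rfl hi₁
    · refine ⟨P, hdetP, ?_⟩
      rw [hAP]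
      congr 1
      rw [hT]
      ext i j
      fin_cases i <;> fin_cases j <;> simp [Matrix.vecMulVec_apply, Pi.single_apply, Matrix.one_apply]
    · refine ⟨P * !![1,0,0; 0,0,1; 0,1,0], ?_, ?_⟩
      · rw [Matrix.det_mul]
        refine mul_ne_zero hdetP ?_
        rw [Matrix.det_fin_three]
        simp
      · rw [← Matrix.mul_assoc, hAP, Matrix.mul_assoc, Matrix.mul_assoc]
        congr 1
        rw [hT]
        ext i j
        fin_cases i <;> fin_cases j <;>
          simp [Matrix.vecMulVec_apply, Pi.single_apply, Matrix.one_apply, Matrix.mul_apply,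
            Fin.sum_univ_three, Matrix.add_apply]
  obtain ⟨P₁, hdetP₁, hAP₁⟩ := hex1
  have hex2 : ∃ P₂ : Matrix (Fin 3) (Fin 3) K, P₂.det = 1 ∧ A' * P₂ = P₂ * T.1 := by
    refine ⟨P₁ * !![1,0,0; 0,1,0; 0,0,(P₁.det)⁻¹], ?_, ?_⟩
    · have hd : (!![1,0,0; 0,1,0; 0,0,(P₁.det)⁻¹] : Matrix (Fin 3) (Fin 3) K).det = (P₁.det)⁻¹ := by
        rw [Matrix.det_fin_three]; simp
      rw [Matrix.det_mul, hd, mul_inv_cancel₀ hdetP₁]
    · rw [← Matrix.mul_assoc, hAP₁, Matrix.mul_assoc, Matrix.mul_assoc]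
      congr 1
      rw [hT]
      ext i j
      fin_cases i <;> fin_cases j <;>
        simp [Matrix.mul_apply, Fin.sum_univ_three]
  obtain ⟨P₂, hdet2, hAP₂⟩ := hex2
  let Ps : Matrix.SpecialLinearGroup (Fin 3) K := ⟨P₂, hdet2⟩
  have hcomm : As * Ps = Ps * T := Subtype.ext hAP₂
  rw [← hmk, isConj_iff]
  refine ⟨QuotientGroup.mk Ps, ?_⟩
  rw [← QuotientGroup.mk_mul, ← QuotientGroup.mk_inv, ← QuotientGroup.mk_mul, ← hcomm]
  congr 1
  group

/-- Any two elements of order 2 of PSL_3(4) are conjugate. -/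
theorem result {F : Type*} [Field F] [Fintype F] (hF : Fintype.card F = 4) (x y : Matrix.ProjectiveSpecialLinearGroup (Fin 3) F) (hx : orderOf x = 2) (hy : orderOf y = 2) : IsConj x y := by
  have hdet : (!![1,0,0; 1,1,0; 0,0,1] : Matrix (Fin 3) (Fin 3) F).det = 1 := by
    rw [Matrix.det_fin_three]; simp
  exact (conj_T hF ⟨_, hdet⟩ rfl x hx).symm.trans (conj_T hF ⟨_, hdet⟩ rfl y hy)

end Cfsg.Agent.S0820
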