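import Cfsg.Statements.S0839
import Mathlib
import Cfsg.Agent.S2162

set_option autoImplicit false
open Cfsg

namespace Cfsg.Agent.S0839

open Matrix in
theorem result {F : Type*} [Field F] (n : ℕ) (t : Matrix.SpecialLinearGroup (Fin (n + 2)) F) (ht : Cfsg.IsTransvection (t : Matrix (Fin (n + 2)) (Fin (n + 2)) F)) : ∃ (g : Matrix.SpecialLinearGroup (Fin (n + 2)) F) (v : Fin (n + 2) → F), v 0 = 0 ∧ ((g⁻¹ * t * g : Matrix.SpecialLinearGroup (Fin (n + 2)) F) : Matrix (Fin (n + 2)) (Fin (n + 2)) F) = 1 + Matrix.vecMulVec v (Pi.single 0 1) := by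
  classical
  obtain ⟨hrank, hsq⟩ := ht
  set N : Matrix (Fin (n + 2)) (Fin (n + 2)) F := (t : Matrix (Fin (n + 2)) (Fin (n + 2)) F) - 1 with hN
  obtain ⟨m, B, hm, hB1, hB2⟩ := Cfsg.Agent.S2162.adapted (by omega : 1 ≤ n + 2) N hsq 1 hrank
  -- an equivalence sending `inl 0` to `0`
  have hcard : Fintype.card (Fin 1 ⊕ (Fin m ⊕ Fin 1)) = Fintype.card (Fin (n + 2)) := by
    simp; omega
  let e₀ : Fin 1 ⊕ (Fin m ⊕ Fin 1) ≃ Fin (n + 2) := Fintype.equivOfCardEq hcard
  let e : Fin 1 ⊕ (Fin m ⊕ Fin 1) ≃ Fin (n + 2) := e₀.trans (Equiv.swap (e₀ (Sum.inl 0)) 0)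
  have he0 : e (Sum.inl 0) = 0 := by
    show Equiv.swap (e₀ (Sum.inl 0)) 0 (e₀ (Sum.inl 0)) = 0
    exact Equiv.swap_apply_left _ _
  have hesymm0 : e.symm 0 = Sum.inl 0 := by
    rw [Equiv.symm_apply_eq, he0]
  set i₁ : Fin (n + 2) := e (Sum.inr (Sum.inr 0)) with hi₁
  have hi₁0 : i₁ ≠ 0 := by
    rw [hi₁, ← he0]
    intro h
    have := e.injective h
    simp at this
  let φ : (Fin (n + 2) → F) ≃ₗ[F] (Fin (n + 2) → F) :=
    (Pi.basisFun F (Fin (n + 2))).equiv (B.reindex e) (Equiv.refl _)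
  have hφ : ∀ j, φ (Pi.single j 1) = B (e.symm j) := fun j => by
    show ((Pi.basisFun F (Fin (n + 2))).equiv (B.reindex e) (Equiv.refl _)) (Pi.single j 1) = _
    rw [← Pi.basisFun_apply, Module.Basis.equiv_apply, Equiv.refl_apply, Module.Basis.reindex_apply]
  set P : Matrix (Fin (n + 2)) (Fin (n + 2)) F := LinearMap.toMatrix' φ.toLinearMap with hP
  have hPv : ∀ x, P *ᵥ x = φ x := fun x => by
    rw [← Matrix.toLin'_apply, hP, Matrix.toLin'_toMatrix']; rfl
  have hdetP : P.det ≠ 0 := by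
    rw [hP, LinearMap.det_toMatrix']
    exact (LinearEquiv.isUnit_det' φ).ne_zero
  set d := P.det with hd
  -- N P = P (e_{i₁} e₀ᵀ)
  have hNP : N * P = P * Matrix.vecMulVec (Pi.single i₁ 1) (Pi.single 0 1) := by
    have : ∀ j, (N * P) *ᵥ Pi.single j 1 = (P * Matrix.vecMulVec (Pi.single i₁ 1) (Pi.single 0 1)) *ᵥ Pi.single j 1 := by
      intro j
      rw [← Matrix.mulVec_mulVec, hPv, hφ, ← Matrix.mulVec_mulVec]
      by_cases hj : j = 0
      · subst hj
        rw [hesymm0, hB1]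
        have : Matrix.vecMulVec (Pi.single i₁ (1 : F)) (Pi.single (0 : Fin (n + 2)) (1 : F)) *ᵥ Pi.single (0 : Fin (n + 2)) (1 : F) = Pi.single i₁ 1 := by
          rw [Matrix.vecMulVec_mulVec, dotProduct_single]
          simp
        rw [this, hPv, hφ, hi₁, Equiv.symm_apply_apply]
      · have : Matrix.vecMulVec (Pi.single i₁ (1 : F)) (Pi.single (0 : Fin (n + 2)) (1 : F)) *ᵥ Pi.single j (1 : F) = 0 := by
          rw [Matrix.vecMulVec_mulVec, dotProduct_single, Pi.single_eq_of_ne hj]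
          simp
        rw [this, Matrix.mulVec_zero]
        have : ∃ x, e.symm j = Sum.inr x := by
          rcases h : e.symm j with j' | x
          · exfalso
            apply hj
            have : j' = 0 := Subsingleton.elim _ _
            rw [this, ← hesymm0] at h
            exact e.symm.injective h
          · exact ⟨x, rfl⟩
        obtain ⟨x, hx⟩ := this
        rw [hx, hB2]
    ext i j
    have := congrFun (this j) i
    simpa using this
  -- scaling
  set D : Matrix (Fin (n + 2)) (Fin (n + 2)) F := Matrix.diagonal (Function.update 1 0 d⁻¹) with hD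
  have hdetD : D.det = d⁻¹ := by
    rw [hD, Matrix.det_diagonal, Fin.prod_univ_succ]
    simp
  have hdetG : (P * D).det = 1 := by
    rw [Matrix.det_mul, hdetD, mul_inv_cancel₀ hdetP]
  obtain ⟨G, hG⟩ : ∃ G : Matrix.SpecialLinearGroup (Fin (n + 2)) F, (G : Matrix (Fin (n + 2)) (Fin (n + 2)) F) = P * D := ⟨⟨P * D, hdetG⟩, rfl⟩
  refine ⟨G, d⁻¹ • Pi.single i₁ 1, by simp [hi₁0], ?_⟩
  have hNG : N * (P * D) = (P * D) * Matrix.vecMulVec (d⁻¹ • Pi.single i₁ 1) (Pi.single 0 1) := by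
    rw [← Matrix.mul_assoc, hNP, Matrix.mul_assoc, Matrix.mul_assoc]
    congr 1
    ext i j
    rw [Matrix.vecMulVec_mul, Matrix.mul_vecMulVec, Matrix.vecMulVec_apply, Matrix.vecMulVec_apply, hD,
      Matrix.vecMul_diagonal, Matrix.mulVec_diagonal]
    by_cases hi : i = i₁ <;> by_cases hj : j = 0 <;> simp [hi, hj, hi₁0]
  have hinv : ((G⁻¹ : Matrix.SpecialLinearGroup (Fin (n + 2)) F) : Matrix (Fin (n + 2)) (Fin (n + 2)) F) * (P * D) = 1 := by
    have := congrArg Subtype.val (inv_mul_cancel G)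
    rw [Matrix.SpecialLinearGroup.coe_mul, hG] at this
    exact this
  have ht1 : (t : Matrix (Fin (n + 2)) (Fin (n + 2)) F) = 1 + N := by rw [hN]; abel
  rw [Matrix.SpecialLinearGroup.coe_mul, Matrix.SpecialLinearGroup.coe_mul, ht1, hG]
  rw [mul_add, add_mul, mul_one, hinv, Matrix.mul_assoc, hNG, ← Matrix.mul_assoc, hinv, Matrix.one_mul]

end Cfsg.Agent.S0839
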