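import Mathlib
import Cfsg.Statements.S0840
import Cfsg.Agent.S0932
import Cfsg.Agent.Lib.Helper24.ClassMult
import Cfsg.Agent.Lib.Helper6.ClassOrth

set_option autoImplicit false
open Cfsg
open scoped ComplexConjugate

namespace Cfsg.Agent.S0840

open Classical in
/-- The number of `s` with `s a s⁻¹ = u`. -/
theorem fiber_card' {G : Type*} [Group G] [Fintype G] (a u : G) :
    (Finset.univ.filter (fun s : G => s * a * s⁻¹ = u)).card
      = if IsConj a u then Nat.card (Subgroup.centralizer ({a} : Set G)) else 0 := by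
  rw [← Cfsg.Agent.S0932.fiber_card a u]
  apply Finset.card_bij (fun s _ => s⁻¹)
  · intro s hs
    simp only [Finset.mem_filter, Finset.mem_univ, true_and, inv_inv] at hs ⊢
    exact hs
  · intro s _ t _ h
    exact inv_injective h
  · intro t ht
    refine ⟨t⁻¹, ?_, inv_inv t⟩
    simp only [Finset.mem_filter, Finset.mem_univ, true_and, inv_inv] at ht ⊢
    exact ht

open Classical in
/-- Counting pairs of conjugating elements. -/
theorem count_pairs {G : Type*} [Group G] [Fintype G] (a b c : G) :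
    ∑ s : G, ∑ t : G, (if s * a * s⁻¹ * (t * b * t⁻¹) = c then (1 : ℂ) else 0)
      = (Nat.card (Subgroup.centralizer ({a} : Set G)) : ℂ)
        * (Nat.card (Subgroup.centralizer ({b} : Set G)) : ℂ)
        * (Nat.card {p : G × G // IsConj a p.1 ∧ IsConj b p.2 ∧ p.1 * p.2 = c} : ℂ) := by
  have h1 : ∀ s t : G, (if s * a * s⁻¹ * (t * b * t⁻¹) = c then (1 : ℂ) else 0)
      = ∑ u : G, ∑ v : G, (if s * a * s⁻¹ = u then (1 : ℂ) else 0)
          * ((if t * b * t⁻¹ = v then (1 : ℂ) else 0) * (if u * v = c then (1 : ℂ) else 0)) := by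
    intro s t
    rw [Finset.sum_eq_single (s * a * s⁻¹) (fun u _ hu => ?_) (fun h => absurd (Finset.mem_univ _) h)]
    · rw [Finset.sum_eq_single (t * b * t⁻¹) (fun v _ hv => ?_) (fun h => absurd (Finset.mem_univ _) h)]
      · rw [if_pos rfl, if_pos rfl, one_mul, one_mul]
      · rw [if_neg (Ne.symm hv), zero_mul, mul_zero]
    · apply Finset.sum_eq_zero
      intro v _
      rw [if_neg (Ne.symm hu), zero_mul]
  simp_rw [h1]
  have h2 : ∑ s : G, ∑ t : G, ∑ u : G, ∑ v : G, (if s * a * s⁻¹ = u then (1 : ℂ) else 0)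
          * ((if t * b * t⁻¹ = v then (1 : ℂ) else 0) * (if u * v = c then (1 : ℂ) else 0))
      = ∑ u : G, ∑ v : G, (∑ s : G, if s * a * s⁻¹ = u then (1 : ℂ) else 0)
          * ((∑ t : G, if t * b * t⁻¹ = v then (1 : ℂ) else 0) * (if u * v = c then (1 : ℂ) else 0)) := by
    have e1 : ∀ u v : G, (∑ s : G, if s * a * s⁻¹ = u then (1 : ℂ) else 0)
          * ((∑ t : G, if t * b * t⁻¹ = v then (1 : ℂ) else 0) * (if u * v = c then (1 : ℂ) else 0))
        = ∑ s : G, ∑ t : G, (if s * a * s⁻¹ = u then (1 : ℂ) else 0)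
          * ((if t * b * t⁻¹ = v then (1 : ℂ) else 0) * (if u * v = c then (1 : ℂ) else 0)) := by
      intro u v
      rw [Finset.sum_mul, Finset.sum_mul]
      simp_rw [Finset.mul_sum]
    simp_rw [e1]
    calc ∑ s : G, ∑ t : G, ∑ u : G, ∑ v : G, (if s * a * s⁻¹ = u then (1 : ℂ) else 0)
          * ((if t * b * t⁻¹ = v then (1 : ℂ) else 0) * (if u * v = c then (1 : ℂ) else 0))
        = ∑ s : G, ∑ u : G, ∑ t : G, ∑ v : G, (if s * a * s⁻¹ = u then (1 : ℂ) else 0)
          * ((if t * b * t⁻¹ = v then (1 : ℂ) else 0) * (if u * v = c then (1 : ℂ) else 0)) := by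
          apply Finset.sum_congr rfl; intro s _; exact Finset.sum_comm
      _ = ∑ u : G, ∑ s : G, ∑ t : G, ∑ v : G, (if s * a * s⁻¹ = u then (1 : ℂ) else 0)
          * ((if t * b * t⁻¹ = v then (1 : ℂ) else 0) * (if u * v = c then (1 : ℂ) else 0)) :=
          Finset.sum_comm
      _ = ∑ u : G, ∑ s : G, ∑ v : G, ∑ t : G, (if s * a * s⁻¹ = u then (1 : ℂ) else 0)
          * ((if t * b * t⁻¹ = v then (1 : ℂ) else 0) * (if u * v = c then (1 : ℂ) else 0)) := by
          apply Finset.sum_congr rfl; intro u _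
          apply Finset.sum_congr rfl; intro s _; exact Finset.sum_comm
      _ = ∑ u : G, ∑ v : G, ∑ s : G, ∑ t : G, (if s * a * s⁻¹ = u then (1 : ℂ) else 0)
          * ((if t * b * t⁻¹ = v then (1 : ℂ) else 0) * (if u * v = c then (1 : ℂ) else 0)) := by
          apply Finset.sum_congr rfl; intro u _; exact Finset.sum_comm
  rw [h2]
  have h3 : ∀ u : G, (∑ s : G, if s * a * s⁻¹ = u then (1 : ℂ) else 0)
      = if IsConj a u then (Nat.card (Subgroup.centralizer ({a} : Set G)) : ℂ) else 0 := by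
    intro u
    rw [Finset.sum_boole, fiber_card']
    split_ifs <;> simp
  have h4 : ∀ v : G, (∑ t : G, if t * b * t⁻¹ = v then (1 : ℂ) else 0)
      = if IsConj b v then (Nat.card (Subgroup.centralizer ({b} : Set G)) : ℂ) else 0 := by
    intro v
    rw [Finset.sum_boole, fiber_card']
    split_ifs <;> simp
  simp_rw [h3, h4]
  have h5 : (Nat.card {p : G × G // IsConj a p.1 ∧ IsConj b p.2 ∧ p.1 * p.2 = c} : ℂ)
      = ∑ u : G, ∑ v : G, if IsConj a u ∧ IsConj b v ∧ u * v = c then (1 : ℂ) else 0 := by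
    rw [Nat.card_eq_fintype_card, Fintype.card_subtype, ← Fintype.sum_prod_type', Finset.sum_boole]
  rw [h5, Finset.mul_sum]
  apply Finset.sum_congr rfl
  intro u _
  rw [Finset.mul_sum]
  apply Finset.sum_congr rfl
  intro v _
  by_cases hall : IsConj a u ∧ IsConj b v ∧ u * v = c
  · rw [if_pos hall.1, if_pos hall.2.1, if_pos hall.2.2, if_pos hall]; ring
  · rw [if_neg hall, mul_zero]
    by_cases hu : IsConj a u
    · by_cases hv : IsConj b v
      · have hc : ¬ u * v = c := fun h => hall ⟨hu, hv, h⟩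
        rw [if_neg hc, mul_zero, mul_zero]
      · rw [if_neg hv, zero_mul, mul_zero]
    · rw [if_neg hu, zero_mul]

/-- The regular character detects the identity. -/
theorem reg_delta {G : Type*} [Group G] [Fintype G] [Fintype (IrrCharacter G)] [DecidableEq G]
    (g : G) :
    ∑ χ : IrrCharacter G, (χ : G → ℂ) 1 * (χ : G → ℂ) g
      = if g = 1 then (Nat.card G : ℂ) else 0 := by
  split_ifs with hg
  · subst hg
    have h1 := Cfsg.Agent.Lib.Helper1.col_orth (1 : G) (1 : G)
    rw [if_pos (IsConj.refl _)] at h1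
    have h2 : Nat.card (Subgroup.centralizer ({1} : Set G)) = Nat.card G := by
      have : Subgroup.centralizer ({1} : Set G) = ⊤ := by
        rw [Subgroup.centralizer_eq_top_iff_subset]
        intro x hx
        rw [Set.mem_singleton_iff] at hx
        rw [hx]
        exact Subgroup.one_mem _
      rw [this, Subgroup.card_top]
    rw [h2] at h1
    rw [← h1]
    refine Finset.sum_congr rfl (fun χ _ => ?_)
    rw [Cfsg.Agent.Lib.Helper24.CharBasic.char_one_nat
      (Cfsg.Agent.Lib.Helper24.CharBasic.isCharacter_of_irr χ.2), Complex.conj_natCast]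
  · exact Cfsg.Agent.Lib.Helper24.ClassMult.reg_orth g hg

theorem result {G : Type*} [Group G] [Finite G] (a b c : G) : (Nat.card {p : G × G // IsConj a p.1 ∧ IsConj b p.2 ∧ p.1 * p.2 = c} : ℂ) = (Nat.card {x : G // IsConj a x} : ℂ) * (Nat.card {x : G // IsConj b x} : ℂ) / (Nat.card G : ℂ) * ∑ᶠ χ : Cfsg.IrrCharacter G, (χ : G → ℂ) a * (χ : G → ℂ) b * conj ((χ : G → ℂ) c) / (χ : G → ℂ) 1 := by
  classical
  haveI := Fintype.ofFinite G
  haveI : Fintype (IrrCharacter G) := Cfsg.Agent.Lib.Helper1.irrFintype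
  rw [finsum_eq_sum_of_fintype]
  have hG : (Nat.card G : ℂ) ≠ 0 := Cfsg.Agent.Lib.Helper6.card_ne_zero
  have hCa := Cfsg.Agent.Lib.Helper6.card_centralizer_ne_zero a
  have hCb := Cfsg.Agent.Lib.Helper6.card_centralizer_ne_zero b
  have hKa : (Nat.card {x : G // IsConj a x} : ℂ)
      * (Nat.card (Subgroup.centralizer ({a} : Set G)) : ℂ) = (Nat.card G : ℂ) := by
    have h := Cfsg.Agent.Lib.Helper1.card_conj_mul_card_centralizer a
    have e : Nat.card {x : G // IsConj a x} = Nat.card {x : G // IsConj x a} :=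
      Nat.card_congr (Equiv.subtypeEquivRight (fun x => isConj_comm))
    rw [e]
    exact_mod_cast h
  have hKb : (Nat.card {x : G // IsConj b x} : ℂ)
      * (Nat.card (Subgroup.centralizer ({b} : Set G)) : ℂ) = (Nat.card G : ℂ) := by
    have h := Cfsg.Agent.Lib.Helper1.card_conj_mul_card_centralizer b
    have e : Nat.card {x : G // IsConj b x} = Nat.card {x : G // IsConj x b} :=
      Nat.card_congr (Equiv.subtypeEquivRight (fun x => isConj_comm))
    rw [e]
    exact_mod_cast h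
  have hcount := count_pairs a b c
  -- the other evaluation
  have hT : (Nat.card G : ℂ) * ∑ s : G, ∑ t : G,
        (if s * a * s⁻¹ * (t * b * t⁻¹) = c then (1 : ℂ) else 0)
      = (Nat.card G : ℂ) ^ 2 * ∑ χ : IrrCharacter G,
          (χ : G → ℂ) a * (χ : G → ℂ) b * conj ((χ : G → ℂ) c) / (χ : G → ℂ) 1 := by
    have e1 : ∀ s t : G, (Nat.card G : ℂ) * (if s * a * s⁻¹ * (t * b * t⁻¹) = c then (1 : ℂ) else 0)
        = ∑ χ : IrrCharacter G, (χ : G → ℂ) 1 * (χ : G → ℂ) (s * a * s⁻¹ * (t * b * t⁻¹) * c⁻¹) := by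
      intro s t
      rw [reg_delta]
      by_cases h : s * a * s⁻¹ * (t * b * t⁻¹) = c
      · rw [if_pos h, if_pos (by rw [h, mul_inv_cancel]), mul_one]
      · rw [if_neg h, if_neg (fun h' => h (mul_inv_eq_one.mp h')), mul_zero]
    have e0 : (Nat.card G : ℂ) * ∑ s : G, ∑ t : G,
          (if s * a * s⁻¹ * (t * b * t⁻¹) = c then (1 : ℂ) else 0)
        = ∑ s : G, ∑ t : G, ∑ χ : IrrCharacter G,
          (χ : G → ℂ) 1 * (χ : G → ℂ) (s * a * s⁻¹ * (t * b * t⁻¹) * c⁻¹) := by
      rw [Finset.mul_sum]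
      apply Finset.sum_congr rfl; intro s _
      rw [Finset.mul_sum]
      apply Finset.sum_congr rfl; intro t _
      exact e1 s t
    have e2 : ∑ s : G, ∑ t : G, ∑ χ : IrrCharacter G,
          (χ : G → ℂ) 1 * (χ : G → ℂ) (s * a * s⁻¹ * (t * b * t⁻¹) * c⁻¹)
        = ∑ χ : IrrCharacter G, (χ : G → ℂ) 1 * ∑ s : G, ∑ t : G,
          (χ : G → ℂ) (s * a * s⁻¹ * (t * b * t⁻¹) * c⁻¹) := by
      calc ∑ s : G, ∑ t : G, ∑ χ : IrrCharacter G,
          (χ : G → ℂ) 1 * (χ : G → ℂ) (s * a * s⁻¹ * (t * b * t⁻¹) * c⁻¹)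
          = ∑ s : G, ∑ χ : IrrCharacter G, ∑ t : G,
          (χ : G → ℂ) 1 * (χ : G → ℂ) (s * a * s⁻¹ * (t * b * t⁻¹) * c⁻¹) := by
            apply Finset.sum_congr rfl; intro s _; exact Finset.sum_comm
        _ = ∑ χ : IrrCharacter G, ∑ s : G, ∑ t : G,
          (χ : G → ℂ) 1 * (χ : G → ℂ) (s * a * s⁻¹ * (t * b * t⁻¹) * c⁻¹) := Finset.sum_comm
        _ = _ := by
            apply Finset.sum_congr rfl; intro χ _
            rw [Finset.mul_sum]
            apply Finset.sum_congr rfl; intro s _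
            rw [Finset.mul_sum]
    rw [e0, e2, Finset.mul_sum]
    apply Finset.sum_congr rfl
    intro χ _
    have hne : (χ : G → ℂ) 1 ≠ 0 := Cfsg.Agent.Lib.Helper24.CharBasic.irr_one_ne_zero χ.2
    have h3 := Cfsg.Agent.Lib.Helper24.ClassMult.cs3 χ.2 a b c⁻¹
    rw [Cfsg.Agent.Lib.Helper1.IsCharacter.inv
      (Cfsg.Agent.Lib.Helper24.CharBasic.isCharacter_of_irr χ.2) c] at h3
    field_simp
    rw [h3]
    ring
  rw [hcount] at hT
  have hN : (Nat.card {p : G × G // IsConj a p.1 ∧ IsConj b p.2 ∧ p.1 * p.2 = c} : ℂ)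
      = (Nat.card G : ℂ) / ((Nat.card (Subgroup.centralizer ({a} : Set G)) : ℂ)
        * (Nat.card (Subgroup.centralizer ({b} : Set G)) : ℂ)) * ∑ χ : IrrCharacter G,
          (χ : G → ℂ) a * (χ : G → ℂ) b * conj ((χ : G → ℂ) c) / (χ : G → ℂ) 1 := by
    field_simp
    have := hT
    field_simp at this
    linear_combination this
  rw [hN]
  congr 1
  have hKa' : (Nat.card {x : G // IsConj a x} : ℂ)
      = (Nat.card G : ℂ) / (Nat.card (Subgroup.centralizer ({a} : Set G)) : ℂ) := by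
    rw [eq_div_iff hCa]; exact hKa
  have hKb' : (Nat.card {x : G // IsConj b x} : ℂ)
      = (Nat.card G : ℂ) / (Nat.card (Subgroup.centralizer ({b} : Set G)) : ℂ) := by
    rw [eq_div_iff hCb]; exact hKb
  rw [hKa', hKb']
  field_simp

end Cfsg.Agent.S0840
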