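import Mathlib
import Cfsg.Statements.S0870
import Cfsg.Agent.Lib.Helper25.Brauer6

set_option autoImplicit false
open Cfsg

namespace Cfsg.Agent.S0870

open Cfsg.Agent.Lib.Helper1 Cfsg.Agent.Lib.Helper25.Brauer

/-- For subgroups H and K of a finite group G, the pointwise product of the functions induced from the constant function 1 on H and on K is a sum, over subgroups U of H with natural-number coefficients, of the functions induced from the constant function 1 on U. -/
theorem result {G : Type*} [Group G] [Fintype G] (H K : Subgroup G) : ∃ a : Subgroup G → ℕ, (∀ U, a U ≠ 0 → U ≤ H) ∧ Cfsg.indFun H (fun _ => 1) * Cfsg.indFun K (fun _ => 1) = ∑ U : Subgroup G, (a U : ℂ) • Cfsg.indFun U (fun _ => 1) := by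
  classical
  haveI : Fintype H := Fintype.ofFinite H
  letI : Fintype (G ⧸ K) := Fintype.ofFinite _
  letI : Fintype (MulAction.orbitRel.Quotient H (G ⧸ K)) := Fintype.ofFinite _
  have h1 : (fun h : H => indFun K (fun _ => (1 : ℂ)) (h : G))
      = ∑ q : MulAction.orbitRel.Quotient H (G ⧸ K),
          indFun (MulAction.stabilizer H q.out) (fun _ => (1 : ℂ)) := by
    funext h
    rw [Finset.sum_apply, indFun_one_eq_fix K (h : G)]
    convert fix_eq_sum (G := H) (Ω := G ⧸ K) h
    rfl
  have h2 : indFun H (fun _ => (1 : ℂ)) * indFun K (fun _ => (1 : ℂ))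
      = ∑ q : MulAction.orbitRel.Quotient H (G ⧸ K),
          indFun ((MulAction.stabilizer H q.out).map H.subtype) (fun _ => (1 : ℂ)) := by
    rw [mul_comm, indFun_mul H _ (indFun_isClassFunction K _)]
    have e : (fun h : H => indFun K (fun _ => (1 : ℂ)) (h : G)) * (fun _ : H => (1 : ℂ))
        = ∑ q : MulAction.orbitRel.Quotient H (G ⧸ K),
            indFun (MulAction.stabilizer H q.out) (fun _ => (1 : ℂ)) := by
      rw [← h1]
      funext h
      simp
    rw [e, indFun_sum]
    refine Finset.sum_congr rfl (fun q _ => ?_)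
    rw [indFun_map]
    rfl
  refine ⟨fun U => (Finset.univ.filter (fun q : MulAction.orbitRel.Quotient H (G ⧸ K) =>
    (MulAction.stabilizer H q.out).map H.subtype = U)).card, ?_, ?_⟩
  · intro U hU
    obtain ⟨q, hq⟩ := Finset.card_pos.mp (Nat.pos_of_ne_zero hU)
    rw [Finset.mem_filter] at hq
    rw [← hq.2]
    exact Subgroup.map_subtype_le _
  · rw [h2, ← Finset.sum_fiberwise Finset.univ
      (fun q : MulAction.orbitRel.Quotient H (G ⧸ K) =>
        (MulAction.stabilizer H q.out).map H.subtype)
      (fun q => indFun ((MulAction.stabilizer H q.out).map H.subtype) (fun _ => (1 : ℂ)))]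
    refine Finset.sum_congr rfl (fun U _ => ?_)
    have h3 : ∀ q ∈ Finset.univ.filter (fun q : MulAction.orbitRel.Quotient H (G ⧸ K) =>
        (MulAction.stabilizer H q.out).map H.subtype = U),
        indFun ((MulAction.stabilizer H q.out).map H.subtype) (fun _ => (1 : ℂ))
          = indFun U (fun _ => (1 : ℂ)) := by
      intro q hq
      rw [Finset.mem_filter] at hq
      exact indFun_congr hq.2 _ _ (fun _ _ _ => rfl)
    rw [Finset.sum_congr rfl h3, Finset.sum_const, Nat.cast_smul_eq_nsmul]

end Cfsg.Agent.S0870
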