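import Mathlib
import Cfsg.Statements.S0875
import Cfsg.Agent.Lib.Helper25.BrauerInt

set_option autoImplicit false
open Cfsg

namespace Cfsg.Agent.S0875

open Cfsg.Agent.Lib.Helper1

/-- Let G be a finite group of order m * n with m and n coprime, and g an element whose order is coprime to m. Every x in G factors uniquely as x = u * v with u, v commuting, the order of u coprime to n and the order of v coprime to m; let ϑ be the function on G equal to n at those x whose factor v is conjugate to g and equal to 0 elsewhere. Then ϑ is a linear combination of the irreducible characters of G with algebraic-integer coefficients. -/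
theorem result {G : Type*} [Group G] [Fintype G] (m n : ℕ) (hmn : Nat.card G = m * n) (hcop : Nat.Coprime m n) (g : G) (hg : Nat.Coprime (orderOf g) m) (ϑ : G → ℂ) (hϑ1 : ∀ x : G, (∃ v : G, IsConj v g ∧ (∃ u : G, x = u * v ∧ Commute u v ∧ Nat.Coprime (orderOf u) n ∧ Nat.Coprime (orderOf v) m)) → ϑ x = n) (hϑ0 : ∀ x : G, (¬ ∃ v : G, IsConj v g ∧ (∃ u : G, x = u * v ∧ Commute u v ∧ Nat.Coprime (orderOf u) n ∧ Nat.Coprime (orderOf v) m)) → ϑ x = 0) : ∃ c : Cfsg.IrrCharacter G → ℂ, (∀ χ, c χ ∈ Cfsg.AlgInt) ∧ ϑ = ∑ᶠ χ : Cfsg.IrrCharacter G, c χ • (χ : G → ℂ) := by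
  classical
  haveI : Fintype (IrrCharacter G) := irrFintype
  obtain ⟨b, hb0, hb1⟩ := Nat.chineseRemainder hcop 0 1
  obtain ⟨b', hb'1, hb'0⟩ := Nat.chineseRemainder hcop 1 0
  have hord : ∀ x : G, orderOf x ∣ m * n := fun x => by rw [← hmn]; exact orderOf_dvd_natCard x
  -- the two defining conditions in power form
  have h1 : ∀ x : G, IsConj (x ^ b) g → ϑ x = (n : ℂ) := by
    intro x hc
    apply hϑ1
    refine ⟨x ^ b, hc, x ^ b', ?_, ?_, ?_, ?_⟩
    · rw [← pow_add]
      have h2 : b' + b ≡ 1 [MOD m * n] := by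
        apply (Nat.modEq_and_modEq_iff_modEq_mul hcop).mp
        constructor
        · have h3 := hb'1.add hb0
          simpa using h3
        · have h3 := hb'0.add hb1
          simpa using h3
      have h3 : b' + b ≡ 1 [MOD orderOf x] := Nat.ModEq.of_dvd (hord x) h2
      have h4 := pow_eq_pow_iff_modEq.mpr h3
      rw [h4, pow_one]
    · exact (Commute.refl x).pow_pow b' b
    · have h2 : (x ^ b') ^ m = 1 := by
        obtain ⟨t, ht⟩ := (Nat.modEq_zero_iff_dvd).mp hb'0
        have e1 : b' * m = t * Nat.card G := by rw [ht, hmn]; ring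
        rw [← pow_mul, e1, pow_mul, pow_card_eq_one']
      exact Nat.Coprime.coprime_dvd_left (orderOf_dvd_of_pow_eq_one h2) hcop
    · have h2 : (x ^ b) ^ n = 1 := by
        obtain ⟨t, ht⟩ := (Nat.modEq_zero_iff_dvd).mp hb0
        have e1 : b * n = t * Nat.card G := by rw [ht, hmn]; ring
        rw [← pow_mul, e1, pow_mul, pow_card_eq_one']
      exact Nat.Coprime.coprime_dvd_left (orderOf_dvd_of_pow_eq_one h2) hcop.symm
  have h0 : ∀ x : G, ¬ IsConj (x ^ b) g → ϑ x = 0 := by
    intro x hc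
    apply hϑ0
    rintro ⟨v, hv, u, hx, hcomm, hu, hv'⟩
    apply hc
    have hu1 : u ^ b = 1 := by
      have h2 : orderOf u ∣ m := Nat.Coprime.dvd_of_dvd_mul_right hu (hord u)
      exact orderOf_dvd_iff_pow_eq_one.mp (dvd_trans h2 ((Nat.modEq_zero_iff_dvd).mp hb0))
    have hv1 : v ^ b = v := by
      have h2 : orderOf v ∣ n := Nat.Coprime.dvd_of_dvd_mul_left hv' (hord v)
      have h3 : b ≡ 1 [MOD orderOf v] := Nat.ModEq.of_dvd h2 hb1
      have h4 := pow_eq_pow_iff_modEq.mpr h3
      rw [h4, pow_one]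
    rw [hx, hcomm.mul_pow, hu1, hv1, one_mul]
    exact hv
  have hcl : IsClassFunction G ϑ := by
    have hϑ : ∀ x, ϑ x = if IsConj (x ^ b) g then (n : ℂ) else 0 := by
      intro x
      by_cases hc : IsConj (x ^ b) g
      · rw [if_pos hc]; exact h1 x hc
      · rw [if_neg hc]; exact h0 x hc
    intro x k
    rw [hϑ, hϑ, conj_pow]
    have h2 : IsConj (k * x ^ b * k⁻¹) g ↔ IsConj (x ^ b) g := by
      have h3 : IsConj (x ^ b) (k * x ^ b * k⁻¹) := isConj_iff.mpr ⟨_, rfl⟩
      exact ⟨fun h => h3.trans h, fun h => h3.symm.trans h⟩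
    simp only [h2]
  refine ⟨fun χ => classInner ϑ (χ : G → ℂ), ?_, ?_⟩
  · intro χ
    exact Cfsg.Agent.Lib.Helper25.BS.section_integral m n hmn hcop g b hb0 hb1 ϑ h1 h0
      (IsIrrCharacter.isCharacter χ.2)
  · rw [finsum_eq_sum_of_fintype]
    exact classFunction_expansion hcl

end Cfsg.Agent.S0875
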