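import Cfsg.Statements.S0888
import Cfsg.Agent.Lib.Helper10.CentExt2

set_option autoImplicit false
open Cfsg

namespace Cfsg.Agent.S0888

open Cfsg.Agent.Lib.Helper10 Cfsg.Agent.Lib.Helper1

/-- Let N be a normal subgroup of the finite group G and ϑ an irreducible character of N invariant under conjugation by G. Suppose that for every prime p there are a subgroup P containing N, of index prime to p and with the index of N in P a power of p, and an irreducible character of P restricting to ϑ. Then ϑ is the restriction of an irreducible character of G. -/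
theorem result {G : Type*} [Group G] [Finite G] (N : Subgroup G) [hN : N.Normal] (ϑ : N → ℂ) (hϑ : Cfsg.IsIrrCharacter N ϑ) (hinv : ∀ (g : G) (n : N), ϑ ⟨g * n * g⁻¹, hN.conj_mem (n : G) n.2 g⟩ = ϑ n) (hsyl : ∀ p : ℕ, p.Prime → ∃ (P : Subgroup G) (hNP : N ≤ P) (η : P → ℂ), Nat.Coprime P.index p ∧ (∃ k : ℕ, N.relIndex P = p ^ k) ∧ Cfsg.IsIrrCharacter P η ∧ ∀ n : N, η ⟨(n : G), hNP n.2⟩ = ϑ n) : ∃ χ : G → ℂ, Cfsg.IsIrrCharacter G χ ∧ ∀ n : N, χ n = ϑ n := by
  classical
  obtain ⟨d, Y, hYirr, rfl⟩ := hϑ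
  haveI := hYirr
  have hinv' : ∀ (g : G) (n : N), Y.character (MulAut.conjNormal g n) = Y.character n := by
    intro g n
    have e1 : MulAut.conjNormal g n = ⟨g * n * g⁻¹, hN.conj_mem n n.2 g⟩ :=
      Subtype.ext (by simp [MulAut.conjNormal_apply])
    rw [e1]
    exact hinv g n
  have hsyl' : ∀ p : ℕ, p.Prime → ∃ (P : Subgroup G) (hNP : N ≤ P)
      (X : Representation ℂ P (Fin d → ℂ)),
      Nat.Coprime P.index p ∧ (∃ k : ℕ, N.relIndex P = p ^ k) ∧
        ∀ n : N, X ⟨(n : G), hNP n.2⟩ = Y n := by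
    intro p hp
    obtain ⟨P, hNP, η, hcop, hk, hη, hηN⟩ := hsyl p hp
    obtain ⟨d', X₀, hX₀, rfl⟩ := hη
    have hchar : Representation.character
        (X₀.comp (Subgroup.inclusion hNP) : Representation ℂ N (Fin d' → ℂ)) = Y.character := by
      funext n
      exact hηN n
    obtain ⟨φ⟩ := equiv_of_char_eq
      (X₀.comp (Subgroup.inclusion hNP) : Representation ℂ N (Fin d' → ℂ)) Y hchar
    refine ⟨P, hNP, conjRep X₀ φ.toLinearEquiv, hcop, hk, fun n => ?_⟩
    have h := φ.toIntertwiningMap.isIntertwining' n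
    show φ.toLinearEquiv.conj (X₀ ⟨(n : G), hNP n.2⟩) = Y n
    apply LinearMap.ext
    intro v
    rw [LinearEquiv.conj_apply]
    simp only [LinearMap.comp_apply, LinearEquiv.coe_coe]
    have h2 := congrArg (fun f => f (φ.toLinearEquiv.symm v)) h
    simp only [LinearMap.comp_apply] at h2
    have h3 : φ.toIntertwiningMap.toLinearMap (φ.toLinearEquiv.symm v) = v :=
      φ.toLinearEquiv.apply_symm_apply v
    rw [h3] at h2
    exact h2
  obtain ⟨X, hX⟩ := Cfsg.Agent.Lib.Helper10.CentExt.ext_of_sylow N Y hinv' hsyl'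
  have hXirr : X.IsIrreducible := Cfsg.Agent.Lib.Helper10.CentExt.irr_of_comp X N.subtype (by
    have : X.comp N.subtype = Y := MonoidHom.ext hX
    rw [this]
    exact hYirr)
  exact ⟨X.character, ⟨d, X, hXirr, rfl⟩, fun n => by
    rw [character_apply, character_apply, hX]⟩

end Cfsg.Agent.S0888
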