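import Cfsg.Statements.S0908
import Cfsg.Agent.Lib.Helper24.Defect

set_option autoImplicit false
open Cfsg

namespace Cfsg.Agent.S0908

theorem result {G : Type*} [Group G] [Finite G] (p : ℕ) [Fact p.Prime] (M : Ideal Cfsg.AlgInt) (hM : Cfsg.IsPModular p M) (B : Set (Cfsg.IrrCharacter G)) (hB : Cfsg.IsPBlock M B) (D : Subgroup G) (hD : Cfsg.IsDefectGroup p M B D) : Nat.card D = p ^ Cfsg.blockDefect p B := by
  obtain ⟨g, ⟨-, hg2, hg3⟩, P, rfl⟩ := hD
  obtain ⟨χ, hχ⟩ := Cfsg.Agent.Lib.Helper24.Defect.block_nonempty hM.2.1 B hB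
  have h1 := (Cfsg.Agent.Lib.Helper24.Defect.defect_le_of_blockCoeff hM B hB g hg2).2
  have h2 := Cfsg.Agent.Lib.Helper24.Defect.defect_ge_of_centralChar hM B hB χ hχ g (hg3 χ hχ)
  rw [Subgroup.card_map_of_injective (Subgroup.subtype_injective _), Sylow.card_eq_multiplicity P,
    le_antisymm h1 h2]

end Cfsg.Agent.S0908
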