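import Mathlib
import Cfsg.Statements.S0914
import Cfsg.Agent.Lib.Helper6.BlockVanish

set_option autoImplicit false
open Cfsg

namespace Cfsg.Agent.S0914

/-- Let χ be an irreducible character of the finite group G, p a prime and M a maximal ideal of the algebraic integers containing p. Then p does not divide the integer (Nat.card G) / χ(1) if and only if the block of χ relative to M consists of χ alone. -/
theorem result {G : Type*} [Group G] [Finite G] (p : ℕ) [Fact p.Prime] (M : Ideal Cfsg.AlgInt) (hM : Cfsg.IsPModular p M) (χ : Cfsg.IrrCharacter G) : ¬ p ∣ Nat.card G / Cfsg.charDegree (χ : G → ℂ) ↔ Cfsg.blockOf M (χ : G → ℂ) = {χ} := by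
  classical
  haveI := Fintype.ofFinite G
  have hmax := hM.2.1
  have hp := hM.1
  obtain ⟨n, hn1, hndvd, hnpos⟩ := Cfsg.Agent.Lib.Helper1.IsIrrCharacter.degree_dvd_card χ.2
  have hdeg : charDegree (χ : G → ℂ) = n := by
    unfold charDegree
    rw [hn1]
    simp
  rw [hdeg]
  have hG : (Nat.card G : ℂ) ≠ 0 := Cfsg.Agent.Lib.Helper6.card_ne_zero
  constructor
  · intro hnd
    apply Set.Subset.antisymm
    · apply Cfsg.Agent.Lib.Helper6.blockOf_subset_of_sVal hmax {χ} _ χ (Set.mem_singleton χ)
      intro g
      unfold blockCoeff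
      rw [finsum_mem_singleton, hn1]
      obtain ⟨k, hk⟩ := hndvd
      have hk' : Nat.card G / n = k := by rw [hk]; exact Nat.mul_div_cancel_left k hnpos
      rw [hk'] at hnd
      have hn0 : (n : ℂ) ≠ 0 := by exact_mod_cast hnpos.ne'
      have hk0 : (k : ℂ) ≠ 0 := by
        intro h0
        have : k = 0 := by exact_mod_cast h0
        rw [this] at hnd
        exact hnd (dvd_zero p)
      have e : (Nat.card G : ℂ)⁻¹ * ((n : ℂ) * (starRingEnd ℂ) ((χ : G → ℂ) g))
          = (starRingEnd ℂ) ((χ : G → ℂ) g) * ((k : ℂ))⁻¹ := by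
        rw [hk]
        push_cast
        field_simp
      rw [e]
      exact Cfsg.Agent.Lib.Helper6.MemLocalRing.mul hmax
        (Cfsg.Agent.Lib.Helper6.memLocalRing_of_isIntegral hmax
          (Cfsg.Agent.Lib.Helper6.isIntegral_conj_irr χ g))
        (Cfsg.Agent.Lib.Helper6.memLocalRing_inv_natCast hM hnd)
    · intro ψ hψ
      rw [Set.mem_singleton_iff.mp hψ]
      exact Cfsg.Agent.Lib.Helper6.mem_blockOf_self hmax χ
  · intro hB
    have hvan := Cfsg.Agent.Lib.Helper6.irr_eq_zero_of_singular hM χ hB
    let P₀ : Sylow p G := default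
    obtain ⟨P, hPdef⟩ : ∃ P : Subgroup G, P = (P₀ : Subgroup G) := ⟨_, rfl⟩
    have hPp : IsPGroup p P := by rw [hPdef]; exact P₀.isPGroup'
    have hidx : ¬ p ∣ P.index := by rw [hPdef]; exact Sylow.not_dvd_index P₀
    have hξ : IsCharacter P (fun u : P => (χ : G → ℂ) u) :=
      Cfsg.Agent.Lib.Helper1.IsCharacter.restrict
        (Cfsg.Agent.Lib.Helper1.IsIrrCharacter.isCharacter χ.2) P
    obtain ⟨m, hm⟩ := Cfsg.Agent.Lib.Helper1.IsCharacter.classInner_nat hξ
      (Cfsg.Agent.Lib.Helper1.isCharacter_one (G := P))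
    have hP0 : (Nat.card P : ℂ) ≠ 0 := by
      exact_mod_cast (Nat.card_pos (α := P)).ne'
    unfold classInner at hm
    rw [Finset.sum_eq_single (1 : P)] at hm
    rotate_left
    · intro u _ hu
      have hdvd : p ∣ orderOf (u : G) := by
        rw [Subgroup.orderOf_coe]
        obtain ⟨k, hk⟩ := (IsPGroup.iff_orderOf.mp hPp) u
        rw [hk]
        have hk0 : k ≠ 0 := by
          intro h0
          rw [h0, pow_zero, orderOf_eq_one_iff] at hk
          exact hu hk
        exact dvd_pow_self p hk0
      have hz : (χ : G → ℂ) (u : G) = 0 := hvan _ hdvd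
      simp only [hz, zero_mul]
    · intro h
      exact absurd (Finset.mem_univ _) h
    simp only [map_one, mul_one, OneMemClass.coe_one] at hm
    rw [hn1] at hm
    have hnm : n = Nat.card P * m := by
      have : (n : ℂ) = (Nat.card P : ℂ) * (m : ℂ) := by
        rw [← hm]
        field_simp
      exact_mod_cast this
    have hcard := Subgroup.card_mul_index P
    intro hdvd
    apply hidx
    have hPpos : 0 < Nat.card P := Nat.card_pos
    have hmdvd : m ∣ P.index := by
      have h1 : Nat.card P * m ∣ Nat.card P * P.index := by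
        rw [hcard, ← hnm]
        exact hndvd
      exact (Nat.mul_dvd_mul_iff_left hPpos).mp h1
    have hdiv : Nat.card G / n = P.index / m := by
      rw [← hcard, hnm]
      exact Nat.mul_div_mul_left _ _ hPpos
    rw [hdiv] at hdvd
    exact hdvd.trans (Nat.div_dvd_of_dvd hmdvd)

end Cfsg.Agent.S0914
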