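import Cfsg.Statements.S0928
import Cfsg.Agent.Lib.Helper24.Knorr

set_option autoImplicit false
open Cfsg

namespace Cfsg.Agent.S0928

theorem result {G : Type*} [Group G] [Finite G] (p : ℕ) [Fact p.Prime] (χ : Cfsg.IrrCharacter G) (hvan : ∀ g : G, orderOf g = p → (χ : G → ℂ) g = 0) : (Cfsg.charDegree (χ : G → ℂ)).factorization p = (Nat.card G).factorization p := by
  exact Cfsg.Agent.Lib.Helper24.Knorr.knorr p χ hvan

end Cfsg.Agent.S0928
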