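import Cfsg.Statements.S4733
import Cfsg.Agent.Lib.Helper24.Trunc

set_option autoImplicit false
open Cfsg

namespace Cfsg.Agent.S4733

theorem result {G : Type*} [Group G] [Finite G] (p : ℕ) [Fact p.Prime] (M : Ideal Cfsg.AlgInt) (hM : Cfsg.IsPModular p M) (B : Set (Cfsg.IrrCharacter G)) (hB : Cfsg.IsPBlock M B) : Cfsg.blockRank p B ≤ Nat.card B ∧ (Cfsg.blockDefect p B = 0 ↔ (Nat.card B = 1 ∧ Cfsg.blockRank p B = 1)) ∧ (Cfsg.blockDefect p B = 0 ↔ Nat.card B = Cfsg.blockRank p B) := by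
  classical
  have hfinG : Fintype G := Fintype.ofFinite G
  have hfin : Fintype (IrrCharacter G) := Cfsg.Agent.Lib.Helper1.irrFintype
  have hp : p.Prime := Fact.out
  have h0 : blockDefect p B = 0 → Nat.card B = 1 ∧ blockRank p B = 1 := by
    intro hd
    obtain ⟨χ₀, hχ₀, e1, -⟩ := Cfsg.Agent.Lib.Helper24.Defect.exists_height_zero p B
      (Cfsg.Agent.Lib.Helper24.Defect.block_nonempty hM.2.1 B hB)
    rw [hd, add_zero] at e1
    have hLR : ∀ g : G, MemLocalRing M (blockCoeff ({χ₀} : Set (IrrCharacter G)) g) := by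
      intro g
      have e : blockCoeff ({χ₀} : Set (IrrCharacter G)) g
          = ((charDegree (χ₀ : G → ℂ) : ℕ) : ℂ) / ((Nat.card G : ℕ) : ℂ)
            * (starRingEnd ℂ) ((χ₀ : G → ℂ) g) := by
        show (Nat.card G : ℂ)⁻¹ * ∑ᶠ χ ∈ ({χ₀} : Set (IrrCharacter G)),
          (χ : G → ℂ) 1 * (starRingEnd ℂ) ((χ : G → ℂ) g) = _
        rw [finsum_mem_singleton, Cfsg.Agent.Lib.Helper24.CharBasic.char_one_nat
          (Cfsg.Agent.Lib.Helper24.CharBasic.isCharacter_of_irr χ₀.2)]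
        ring
      rw [e]
      exact Cfsg.Agent.Lib.Helper6.MemLocalRing.mul hM.2.1
        (Cfsg.Agent.Lib.Helper24.Defect.ratio_memLocalRing hM Nat.card_pos.ne' e1.ge)
        (Cfsg.Agent.Lib.Helper6.memLocalRing_of_isIntegral hM.2.1
          (map_isIntegral_int (starRingEnd ℂ) (Cfsg.Agent.Lib.Helper24.CharBasic.char_isIntegral
            (Cfsg.Agent.Lib.Helper24.CharBasic.isCharacter_of_irr χ₀.2) g)))
    have hsub := Cfsg.Agent.Lib.Helper6.blockOf_subset_of_sVal hM.2.1 {χ₀} hLR χ₀ rfl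
    rw [← Cfsg.Agent.Lib.Helper24.Defect.block_eq_blockOf hM.2.1 B hB hχ₀] at hsub
    have hBeq : B = {χ₀} := Set.Subset.antisymm hsub (Set.singleton_subset_iff.mpr hχ₀)
    rw [hBeq]
    refine ⟨?_, ?_⟩
    · rw [Nat.card_coe_set_eq, Set.ncard_singleton]
    · show Module.finrank ℂ (Submodule.span ℂ
        ((fun χ : IrrCharacter G => pRegularPart p (χ : G → ℂ)) '' {χ₀})) = 1
      rw [Set.image_singleton]
      apply finrank_span_singleton
      intro h0
      have h1 := congrFun h0 1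
      rw [Cfsg.Agent.Lib.Helper24.Trunc.pRegularPart_of_reg _
        (by rw [orderOf_one]; exact hp.one_lt.ne' ∘ Nat.dvd_one.mp)] at h1
      exact Cfsg.Agent.Lib.Helper24.CharBasic.irr_one_ne_zero χ₀.2 h1
  have hkl : Nat.card B = blockRank p B → blockDefect p B = 0 := by
    intro h
    obtain ⟨χ₀, hχ₀, e1, -⟩ := Cfsg.Agent.Lib.Helper24.Defect.exists_height_zero p B
      (Cfsg.Agent.Lib.Helper24.Defect.block_nonempty hM.2.1 B hB)
    have hv : ∀ g : G, p ∣ orderOf g → (χ₀ : G → ℂ) g = 0 := by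
      intro g hg
      rw [← Cfsg.Agent.Lib.Helper24.Trunc.trunc_eq_self_of_rank_eq hM B hB h χ₀ hχ₀]
      exact Cfsg.Agent.Lib.Helper24.Trunc.pRegularPart_of_sing _ hg
    have h3 := Cfsg.Agent.Lib.Helper24.Trunc.factorization_le_of_vanish χ₀ hv
    omega
  refine ⟨Cfsg.Agent.Lib.Helper24.Trunc.blockRank_le_card p B, ⟨h0, ?_⟩, ⟨fun hd => ?_, hkl⟩⟩
  · rintro ⟨h1, h2⟩
    exact hkl (h1.trans h2.symm)
  · obtain ⟨h1, h2⟩ := h0 hd
    rw [h1, h2]

end Cfsg.Agent.S4733
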