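import Cfsg.Statements.S0931
import Cfsg.Agent.Lib.Helper24.PSection
import Cfsg.Agent.Lib.Helper24.Trunc
import Cfsg.Agent.S4733

set_option autoImplicit false
open Cfsg

namespace Cfsg.Agent.S0931

theorem result {G : Type*} [Group G] [Finite G] (p : ℕ) [Fact p.Prime] (M : Ideal Cfsg.AlgInt) (hM : Cfsg.IsPModular p M) (H : Subgroup G) (b : Set (Cfsg.IrrCharacter H)) (B : Set (Cfsg.IrrCharacter G)) (hind : Cfsg.IsInducedBlock M H b B) : Cfsg.blockDefect p b = 0 ↔ Cfsg.blockDefect p B = 0 := by
  classical
  obtain ⟨hb, hB, hcong⟩ := hind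
  have hp : p.Prime := Fact.out
  have hfinG : Fintype G := Fintype.ofFinite G
  have hfinH : Fintype H := Fintype.ofFinite H
  obtain ⟨ξ, hξ⟩ := Cfsg.Agent.Lib.Helper24.Defect.block_nonempty hM.2.1 b hb
  obtain ⟨χ, hχ⟩ := Cfsg.Agent.Lib.Helper24.Defect.block_nonempty hM.2.1 B hB
  obtain ⟨y, hy⟩ := Cfsg.Agent.Lib.Helper6.exists_defectClass hM.2.1 B hB
  obtain ⟨hyreg, hyd⟩ := Cfsg.Agent.Lib.Helper24.PSection.defectClass_facts hM B hB y hy
  constructor
  · intro hd
    by_contra hne
    have hkl := ((Cfsg.Agent.S4733.result p M hM b hb).2.2).mp hd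
    have hv : ∀ h : H, p ∣ orderOf h → (ξ : H → ℂ) h = 0 := by
      intro h hh
      rw [← Cfsg.Agent.Lib.Helper24.Trunc.trunc_eq_self_of_rank_eq hM b hb hkl ξ hξ]
      exact Cfsg.Agent.Lib.Helper24.Trunc.pRegularPart_of_sing _ hh
    obtain ⟨P⟩ : Nonempty (Sylow p (Subgroup.centralizer ({y} : Set G))) := inferInstance
    have hPcard : Nat.card P = p ^ blockDefect p B := by
      rw [Sylow.card_eq_multiplicity, hyd]
    have hPnt : Nontrivial P := by
      rw [← Finite.one_lt_card_iff_nontrivial, hPcard]
      exact Nat.one_lt_pow hne hp.one_lt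
    have hcn := IsPGroup.center_nontrivial P.isPGroup'
    obtain ⟨⟨z, hz⟩, hz1⟩ := exists_ne (1 : Subgroup.center P)
    have hz1' : z ≠ 1 := fun h => hz1 (Subtype.ext h)
    have hx1 : ((z : Subgroup.centralizer ({y} : Set G)) : G) ≠ 1 := by
      intro h
      apply hz1'
      apply Subtype.ext
      apply Subtype.ext
      exact h
    obtain ⟨k, hk⟩ := P.isPGroup' z
    have hxk : ((z : Subgroup.centralizer ({y} : Set G)) : G) ^ (p ^ k) = 1 := by
      have h1 := congrArg (fun w : (P : Subgroup (Subgroup.centralizer ({y} : Set G))) =>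
        ((w : Subgroup.centralizer ({y} : Set G)) : G)) hk
      exact h1
    have hxy : Commute ((z : Subgroup.centralizer ({y} : Set G)) : G) y :=
      (Subgroup.mem_centralizer_iff.mp (z : Subgroup.centralizer ({y} : Set G)).2 y rfl).symm
    have hQ : Nat.card ((P : Subgroup (Subgroup.centralizer ({y} : Set G))).map
        (Subgroup.centralizer ({y} : Set G)).subtype) = p ^ blockDefect p B := by
      rw [Subgroup.card_map_of_injective (Subgroup.subtype_injective _)]
      exact hPcard
    have hQc : ∀ w ∈ (P : Subgroup (Subgroup.centralizer ({y} : Set G))).map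
        (Subgroup.centralizer ({y} : Set G)).subtype,
        Commute w (((z : Subgroup.centralizer ({y} : Set G)) : G) * y) := by
      rintro w ⟨v, hv', rfl⟩
      have h0 := Subgroup.mem_center_iff.mp hz ⟨v, hv'⟩
      have h1 : (v : G) * ((z : Subgroup.centralizer ({y} : Set G)) : G)
          = ((z : Subgroup.centralizer ({y} : Set G)) : G) * (v : G) := by
        have h2 := congrArg (fun w : (P : Subgroup (Subgroup.centralizer ({y} : Set G))) =>
          ((w : Subgroup.centralizer ({y} : Set G)) : G)) h0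
        exact h2
      have h2 : y * (v : G) = (v : G) * y := Subgroup.mem_centralizer_iff.mp v.2 y rfl
      show (v : G) * (((z : Subgroup.centralizer ({y} : Set G)) : G) * y)
        = ((z : Subgroup.centralizer ({y} : Set G)) : G) * y * (v : G)
      rw [← mul_assoc, h1, mul_assoc, mul_assoc, h2]
    have hnot := Cfsg.Agent.Lib.Helper24.PSection.centralChar_not_mem_of_defectClass hM B hB y hy
      ((z : Subgroup.centralizer ({y} : Set G)) : G) hxy hxk _ hQ hQc χ hχ
    apply hnot
    have h1 := hcong ξ hξ χ hχ (((z : Subgroup.centralizer ({y} : Set G)) : G) * y)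
    have hpx : p ∣ orderOf ((z : Subgroup.centralizer ({y} : Set G)) : G) := by
      obtain ⟨j, hj⟩ := (Nat.dvd_prime_pow hp).mp (orderOf_dvd_of_pow_eq_one hxk)
      rw [hj.2]
      apply dvd_pow_self
      rintro rfl
      rw [pow_zero, orderOf_eq_one_iff] at hj
      exact hx1 hj.2
    have hcop : (orderOf ((z : Subgroup.centralizer ({y} : Set G)) : G)).Coprime (orderOf y) := by
      obtain ⟨j, hj⟩ := (Nat.dvd_prime_pow hp).mp (orderOf_dvd_of_pow_eq_one hxk)
      rw [hj.2]
      exact Nat.Coprime.pow_left j ((Nat.Prime.coprime_iff_not_dvd hp).mpr hyreg)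
    have h2 : inducedCentralChar H (ξ : H → ℂ) (((z : Subgroup.centralizer ({y} : Set G)) : G) * y)
        = 0 := by
      show ∑ᶠ h ∈ {h : H | IsConj (((z : Subgroup.centralizer ({y} : Set G)) : G) * y) (h : G)},
        (ξ : H → ℂ) h / (ξ : H → ℂ) 1 = 0
      apply finsum_mem_eq_zero_of_forall_eq_zero
      intro h hh
      have ho : orderOf (h : G)
          = orderOf (((z : Subgroup.centralizer ({y} : Set G)) : G) * y) := by
        obtain ⟨c, hc⟩ := hh
        exact hc.orderOf_eq.symm
      rw [hv h, zero_div]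
      rw [← Subgroup.orderOf_coe, ho, hxy.orderOf_mul_eq_mul_orderOf_of_coprime hcop]
      exact Dvd.dvd.mul_right hpx _
    rw [h2, zero_sub] at h1
    have h3 := Cfsg.Agent.Lib.Helper6.MemLocalIdeal.neg h1
    rwa [neg_neg] at h3
  · intro hd
    by_contra hne
    apply hy.2.2 χ hχ
    have h1 := hcong ξ hξ χ hχ y
    have hT : ∀ h k : H, IsConj y (h : G) → IsConj y ((k * h * k⁻¹ : H) : G) := by
      intro h k hh
      refine hh.trans ?_
      rw [isConj_iff]
      exact ⟨(k : G), rfl⟩
    have hDc : IsClassFunction H (fun h : H => if IsConj y (h : G)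
        then (ξ : H → ℂ) h / (ξ : H → ℂ) 1 else 0) := by
      intro h k
      have hξc := Cfsg.Agent.Lib.Helper1.IsIrrCharacter.isClassFunction ξ.2
      show (if IsConj y ((k * h * k⁻¹ : H) : G) then (ξ : H → ℂ) (k * h * k⁻¹) / (ξ : H → ℂ) 1
        else 0) = (if IsConj y (h : G) then (ξ : H → ℂ) h / (ξ : H → ℂ) 1 else 0)
      by_cases hh : IsConj y (h : G)
      · rw [if_pos hh, if_pos (hT h k hh), hξc h k]
      · have hh' : ¬ IsConj y ((k * h * k⁻¹ : H) : G) := by
          intro hc
          apply hh
          have h5 := hT (k * h * k⁻¹) k⁻¹ hc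
          have e5 : k⁻¹ * (k * h * k⁻¹) * k⁻¹⁻¹ = h := by group
          rwa [e5] at h5
        rw [if_neg hh, if_neg hh']
    have h2 : MemLocalIdeal M (inducedCentralChar H (ξ : H → ℂ) y) := by
      show MemLocalIdeal M (∑ᶠ h ∈ {h : H | IsConj y (h : G)}, (ξ : H → ℂ) h / (ξ : H → ℂ) 1)
      rw [Cfsg.Agent.Lib.Helper6.finsum_mem_setOf_eq_sum_filter]
      have e : ∑ h ∈ Finset.univ.filter (fun h : H => IsConj y (h : G)),
          (ξ : H → ℂ) h / (ξ : H → ℂ) 1
          = ∑ h ∈ Finset.univ.filter (fun h : H => IsConj y (h : G)),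
            (if IsConj y (h : G) then (ξ : H → ℂ) h / (ξ : H → ℂ) 1 else 0) :=
        Finset.sum_congr rfl (fun h hh => (if_pos (Finset.mem_filter.mp hh).2).symm)
      rw [e]
      have key := Cfsg.Agent.Lib.Helper6.sum_conjStable_memLocalIdeal hM.2.1 _ hDc _ hT ?_
      · convert key using 2
        ext h
        simp only [Finset.mem_filter, Finset.mem_univ, true_and]
      intro h
      by_cases hh : IsConj y (h : G)
      · rw [if_pos hh]
        have e2 : ((Subgroup.centralizer ({h} : Set H)).index : ℂ)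
            * ((ξ : H → ℂ) h / (ξ : H → ℂ) 1) = centralChar (ξ : H → ℂ) h := by
          show _ = ((Subgroup.centralizer ({h} : Set H)).index : ℂ) * (ξ : H → ℂ) h
            / (ξ : H → ℂ) 1
          ring
        rw [e2]
        by_contra hnot
        have h3 := Cfsg.Agent.Lib.Helper24.Defect.defect_ge_of_centralChar hM b hb ξ hξ h hnot
        have h4 : (Subgroup.centralizer ({h} : Set H)).map H.subtype
            ≤ Subgroup.centralizer ({(h : G)} : Set G) := by
          rintro _ ⟨c, hc, rfl⟩
          rw [Subgroup.mem_centralizer_iff]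
          intro w hw
          rw [Set.mem_singleton_iff] at hw
          rw [hw]
          have h5 := Subgroup.mem_centralizer_iff.mp hc h rfl
          exact congrArg (fun w : H => (w : G)) h5
        have h5 : Nat.card (Subgroup.centralizer ({h} : Set H))
            ∣ Nat.card (Subgroup.centralizer ({(h : G)} : Set G)) := by
          rw [← Subgroup.card_map_of_injective (Subgroup.subtype_injective H)]
          exact Subgroup.card_dvd_of_le h4
        have h6 := (Nat.factorization_le_iff_dvd Nat.card_pos.ne' Nat.card_pos.ne').mpr h5 p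
        rw [← Cfsg.Agent.Lib.Helper6.card_centralizer_conj hh, hyd, hd] at h6
        omega
      · rw [if_neg hh, mul_zero]
        exact Cfsg.Agent.Lib.Helper6.memLocalIdeal_zero hM.2.1
    have h3 := Cfsg.Agent.Lib.Helper6.MemLocalIdeal.sub hM.2.1 h2 h1
    rwa [sub_sub_cancel] at h3

end Cfsg.Agent.S0931
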