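import Mathlib
import Cfsg.Statements.S4431
import Cfsg.Agent.Lib.Helper6.RegInner
import Cfsg.Agent.Lib.Helper6.Covering

set_option autoImplicit false
open Cfsg

namespace Cfsg.Agent.S4431

/-- Let H be a subgroup of the finite group G and b a block of H whose induced block B₀ in G is defined (relative to a maximal ideal M of the algebraic integers containing p). Let χ be an irreducible character of G, ψ ∈ b, and let η be the class function on H equal to p^a · χ on the p-regular elements of H and zero elsewhere, p^a being the p-part of the order of H. Then (a) if χ ∉ B₀, the number [η, ψ]/ψ(1) lies in the local ideal at M; (b) if χ ∈ B₀ has height zero, it does not. -/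
theorem result {G : Type*} [Group G] [Fintype G] (p : ℕ) [Fact p.Prime] (M : Ideal Cfsg.AlgInt) (hM : Cfsg.IsPModular p M) (H : Subgroup G) [Fintype H] (b : Set (Cfsg.IrrCharacter H)) (B₀ : Set (Cfsg.IrrCharacter G)) (hind : Cfsg.IsInducedBlock M H b B₀) (χ : Cfsg.IrrCharacter G) (ψ : Cfsg.IrrCharacter H) (hψ : ψ ∈ b) : (χ ∉ B₀ → Cfsg.MemLocalIdeal M (Cfsg.classInner (fun h : H => if p ∣ orderOf h then (0 : ℂ) else ((p ^ (Nat.card H).factorization p : ℕ) : ℂ) * (χ : G → ℂ) h) (ψ : H → ℂ) / (ψ : H → ℂ) 1)) ∧ (χ ∈ B₀ → Cfsg.blockHeight p B₀ (χ : G → ℂ) = 0 → ¬ Cfsg.MemLocalIdeal M (Cfsg.classInner (fun h : H => if p ∣ orderOf h then (0 : ℂ) else ((p ^ (Nat.card H).factorization p : ℕ) : ℂ) * (χ : G → ℂ) h) (ψ : H → ℂ) / (ψ : H → ℂ) 1)) := by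
  classical
  haveI : Fintype (ConjClasses G) := Fintype.ofFinite _
  have hmax := hM.2.1
  obtain ⟨hb, hB₀, hcong⟩ := hind
  have hχc := Cfsg.Agent.Lib.Helper1.IsIrrCharacter.isCharacter χ.2
  have hψc := Cfsg.Agent.Lib.Helper1.IsIrrCharacter.isCharacter ψ.2
  have hresc : Cfsg.IsCharacter H (fun h : H => (χ : G → ℂ) h) :=
    Cfsg.Agent.Lib.Helper1.IsCharacter.restrict hχc H
  have hfcl : Cfsg.IsClassFunction G (Cfsg.Agent.Lib.Helper6.regTrunc p (χ : G → ℂ)) :=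
    Cfsg.Agent.Lib.Helper6.isClassFunction_regTrunc p
      (Cfsg.Agent.Lib.Helper1.IsIrrCharacter.isClassFunction χ.2)
  have hfS : Cfsg.Agent.Lib.Helper6.SVal M (Cfsg.Agent.Lib.Helper6.regTrunc p (χ : G → ℂ)) :=
    Cfsg.Agent.Lib.Helper6.sVal_regTrunc hmax p hχc
  have key : ∀ φ ∈ B₀, Cfsg.MemLocalIdeal M
      ((Cfsg.Agent.Lib.Helper6.ordCompl H p : ℂ) *
        (Cfsg.classInner (Cfsg.Agent.Lib.Helper6.regPart p (fun h : H => (χ : G → ℂ) h))
          (ψ : H → ℂ) / (ψ : H → ℂ) 1) -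
        (Cfsg.Agent.Lib.Helper6.ordCompl G p : ℂ) *
          ((Cfsg.Agent.Lib.Helper6.regCoef p χ φ : ℂ) /
            (Cfsg.charDegree (φ : G → ℂ) : ℂ))) := by
    intro φ hφ
    have h1 := Cfsg.Agent.Lib.Helper6.omega_res_sub_eq H (ψ : H → ℂ)
      (Cfsg.Agent.Lib.Helper1.IsIrrCharacter.isClassFunction φ.2) hfcl
    have h2 : (fun h : H => Cfsg.Agent.Lib.Helper6.regTrunc p (χ : G → ℂ) (h : G)) =
        Cfsg.Agent.Lib.Helper6.regTrunc p (fun h : H => (χ : G → ℂ) h) := by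
      funext h
      unfold Cfsg.Agent.Lib.Helper6.regTrunc
      rw [Subgroup.orderOf_coe]
    rw [h2, Cfsg.Agent.Lib.Helper6.omega_regTrunc p hresc hψc,
      Cfsg.Agent.Lib.Helper6.omega_regTrunc_irr] at h1
    have h3 : Cfsg.MemLocalIdeal M (∑ C : ConjClasses G,
        Cfsg.Agent.Lib.Helper6.regTrunc p (χ : G → ℂ) (Cfsg.Agent.Lib.Helper6.crep C) *
          (Cfsg.inducedCentralChar H (ψ : H → ℂ) (Cfsg.Agent.Lib.Helper6.crep C) -
            Cfsg.centralChar (φ : G → ℂ) (Cfsg.Agent.Lib.Helper6.crep C))) := by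
      apply Cfsg.Agent.Lib.Helper6.memLocalIdeal_sum hmax
      intro C _
      exact Cfsg.Agent.Lib.Helper6.MemLocalIdeal.mul_left hmax (hfS _) (hcong ψ hψ φ hφ _)
    rw [← h1] at h3
    convert h3 using 1
    ring
  have hnH0 : (Cfsg.Agent.Lib.Helper6.ordCompl H p : ℂ) ≠ 0 := by
    have := Cfsg.Agent.Lib.Helper6.ordCompl_pos (G := H) p
    exact_mod_cast this.ne'
  have hnG0 : (Cfsg.Agent.Lib.Helper6.ordCompl G p : ℂ) ≠ 0 := by
    have := Cfsg.Agent.Lib.Helper6.ordCompl_pos (G := G) p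
    exact_mod_cast this.ne'
  constructor
  · intro hχB
    obtain ⟨φ, hφ⟩ := Cfsg.Agent.Lib.Helper24.Defect.block_nonempty hmax B₀ hB₀
    have h0 : Cfsg.Agent.Lib.Helper6.regCoef p χ φ = 0 :=
      Cfsg.Agent.Lib.Helper6.regCoef_eq_zero hM χ φ (fun h => hχB (by
        rw [Cfsg.Agent.Lib.Helper24.Defect.block_eq_blockOf hmax B₀ hB₀ hφ]
        exact Cfsg.Agent.Lib.Helper6.sameBlock_symm h))
    have h1 := key φ hφ
    rw [h0] at h1
    simp only [Int.cast_zero, zero_div, mul_zero, sub_zero] at h1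
    have h2 := Cfsg.Agent.Lib.Helper6.MemLocalIdeal.mul_left hmax
      (Cfsg.Agent.Lib.Helper6.memLocalRing_inv_natCast hM
        (Cfsg.Agent.Lib.Helper6.not_dvd_ordCompl (G := H) p)) h1
    rw [← mul_assoc, inv_mul_cancel₀ hnH0, one_mul] at h2
    exact h2
  · intro hχB hht hJ0
    have hJ : Cfsg.MemLocalIdeal M
        (Cfsg.classInner (Cfsg.Agent.Lib.Helper6.regPart p (fun h : H => (χ : G → ℂ) h))
          (ψ : H → ℂ) / (ψ : H → ℂ) 1) := hJ0
    have h1 := key χ hχB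
    have h2 : Cfsg.MemLocalIdeal M ((Cfsg.Agent.Lib.Helper6.ordCompl G p : ℂ) *
        ((Cfsg.Agent.Lib.Helper6.regCoef p χ χ : ℂ) /
          (Cfsg.charDegree (χ : G → ℂ) : ℂ))) := by
      have h3 := Cfsg.Agent.Lib.Helper6.MemLocalIdeal.mul_left hmax
        (Cfsg.Agent.Lib.Helper6.memLocalRing_natCast hmax
          (Cfsg.Agent.Lib.Helper6.ordCompl H p)) hJ
      have h4 := Cfsg.Agent.Lib.Helper6.MemLocalIdeal.sub hmax h3 h1
      rw [sub_sub_cancel] at h4
      exact h4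
    have h5 := Cfsg.Agent.Lib.Helper6.MemLocalIdeal.mul_left hmax
      (Cfsg.Agent.Lib.Helper6.memLocalRing_inv_natCast hM
        (Cfsg.Agent.Lib.Helper6.not_dvd_ordCompl (G := G) p)) h2
    rw [← mul_assoc, inv_mul_cancel₀ hnG0, one_mul] at h5
    refine Cfsg.Agent.Lib.Helper6.regCoef_not_mem_of_min hM χ χ
      (Cfsg.Agent.Lib.Helper6.sameBlock_refl hmax _) ?_ h5
    intro ψ' hψ'
    have hψ'B : ψ' ∈ B₀ := by
      rw [Cfsg.Agent.Lib.Helper24.Defect.block_eq_blockOf hmax B₀ hB₀ hχB]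
      exact hψ'
    unfold Cfsg.blockHeight at hht
    rw [Nat.sub_eq_zero_iff_le] at hht
    exact le_trans hht (Nat.sInf_le ⟨ψ', hψ'B, rfl⟩)

end Cfsg.Agent.S4431
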