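import Mathlib
import Cfsg.Statements.S0935
import Cfsg.Agent.Lib.Helper6.RegRes
import Cfsg.Agent.S4431

set_option autoImplicit false
open Cfsg

namespace Cfsg.Agent.S0935

/-- Let H be a subgroup of the finite group G and χ an irreducible character of G whose restriction to H is irreducible; fix a maximal ideal M of the algebraic integers containing the prime p and suppose χ and its restriction have height zero in their blocks B and b. If e is a block of H whose induced block is defined, then e induces B if and only if e = b. -/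
theorem result {G : Type*} [Group G] [Finite G] (p : ℕ) [Fact p.Prime] (M : Ideal Cfsg.AlgInt) (hM : Cfsg.IsPModular p M) (H : Subgroup G) (χ : Cfsg.IrrCharacter G) (hres : Cfsg.IsIrrCharacter H (fun h : H => (χ : G → ℂ) h)) (hχ0 : Cfsg.blockHeight p (Cfsg.blockOf M (χ : G → ℂ)) (χ : G → ℂ) = 0) (hψ0 : Cfsg.blockHeight p (Cfsg.blockOf M (fun h : H => (χ : G → ℂ) h)) (fun h : H => (χ : G → ℂ) h) = 0) (e : Set (Cfsg.IrrCharacter H)) (he : Cfsg.InducedBlockDefined M H e) : Cfsg.IsInducedBlock M H e (Cfsg.blockOf M (χ : G → ℂ)) ↔ e = Cfsg.blockOf M (fun h : H => (χ : G → ℂ) h) := by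
  classical
  haveI : Fintype G := Fintype.ofFinite G
  haveI : Fintype H := Fintype.ofFinite H
  have hmax := hM.2.1
  obtain ⟨ψ₀, hψ₀⟩ : ∃ ψ₀ : Cfsg.IrrCharacter H, (ψ₀ : H → ℂ) = fun h : H => (χ : G → ℂ) h :=
    ⟨⟨_, hres⟩, rfl⟩
  rw [← hψ₀] at hψ0 ⊢
  have hχB : χ ∈ Cfsg.blockOf M (χ : G → ℂ) := Cfsg.Agent.Lib.Helper6.mem_blockOf_self hmax χ
  have hψb : ψ₀ ∈ Cfsg.blockOf M (ψ₀ : H → ℂ) := Cfsg.Agent.Lib.Helper6.mem_blockOf_self hmax ψ₀
  have hBblock : Cfsg.IsPBlock M (Cfsg.blockOf M (χ : G → ℂ)) := ⟨χ, rfl⟩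
  have hbblock : Cfsg.IsPBlock M (Cfsg.blockOf M (ψ₀ : H → ℂ)) := ⟨ψ₀, rfl⟩
  have hkey : ∀ ψ' : Cfsg.IrrCharacter H, Cfsg.classInner (fun h : H => if p ∣ orderOf h
      then (0 : ℂ) else ((p ^ (Nat.card H).factorization p : ℕ) : ℂ) * (χ : G → ℂ) h)
      (ψ' : H → ℂ) / (ψ' : H → ℂ) 1 =
      (Cfsg.Agent.Lib.Helper6.regCoef p ψ₀ ψ' : ℂ) / (Cfsg.charDegree (ψ' : H → ℂ) : ℂ) := by
    intro ψ'
    rw [Cfsg.Agent.Lib.Helper24.CharBasic.char_one_nat
      (Cfsg.Agent.Lib.Helper1.IsIrrCharacter.isCharacter ψ'.2),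
      ← Cfsg.Agent.Lib.Helper6.classInner_regPart_eq p ψ₀ ψ', hψ₀]
    rfl
  constructor
  · intro hind
    obtain ⟨he1, -, -⟩ := id hind
    obtain ⟨ψ', hψ'⟩ := Cfsg.Agent.Lib.Helper24.Defect.block_nonempty hmax e he1
    have h1 := (Cfsg.Agent.S4431.result p M hM H e _ hind χ ψ' hψ').2 hχB hχ0
    rw [hkey ψ'] at h1
    have h2 : Cfsg.SameBlock M (ψ₀ : H → ℂ) (ψ' : H → ℂ) := by
      by_contra hns
      apply h1
      rw [Cfsg.Agent.Lib.Helper6.regCoef_eq_zero hM ψ₀ ψ' hns]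
      simp only [Int.cast_zero, zero_div]
      exact Cfsg.Agent.Lib.Helper6.memLocalIdeal_zero hmax
    rw [Cfsg.Agent.Lib.Helper24.Defect.block_eq_blockOf hmax e he1 hψ']
    ext φ
    constructor
    · intro hφ
      exact Cfsg.Agent.Lib.Helper6.sameBlock_trans hmax h2 hφ
    · intro hφ
      exact Cfsg.Agent.Lib.Helper6.sameBlock_trans hmax
        (Cfsg.Agent.Lib.Helper6.sameBlock_symm h2) hφ
  · intro heq
    obtain ⟨B', hind⟩ := he
    have hψe : ψ₀ ∈ e := by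
      rw [heq]
      exact hψb
    have h1 := (Cfsg.Agent.S4431.result p M hM H e B' hind χ ψ₀ hψe).1
    have hχB' : χ ∈ B' := by
      by_contra hn
      have h2 := h1 hn
      rw [hkey ψ₀] at h2
      exact Cfsg.Agent.Lib.Helper6.regCoef_not_mem_of_height_zero hM _ hbblock hψb hψ0 hψb h2
    have h3 : B' = Cfsg.blockOf M (χ : G → ℂ) :=
      Cfsg.Agent.Lib.Helper24.Defect.block_eq_blockOf hmax B' hind.2.1 hχB'
    rw [← h3]
    exact hind

end Cfsg.Agent.S0935
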