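import Mathlib
import Cfsg.Statements.S0936
import Cfsg.Agent.Lib.Helper6.Third

set_option autoImplicit false
open Cfsg

namespace Cfsg.Agent.S0936

/-- Brauer's Third Main Theorem. Let H be a subgroup of the finite group G and b a block of H (relative to a maximal ideal M of the algebraic integers containing the prime p) whose induced block in G is defined. Then b induces the principal block of G if and only if b is the principal block of H. -/
theorem result {G : Type*} [Group G] [Finite G] (p : ℕ) [Fact p.Prime] (M : Ideal Cfsg.AlgInt) (hM : Cfsg.IsPModular p M) (H : Subgroup G) (b : Set (Cfsg.IrrCharacter H)) (hdef : Cfsg.InducedBlockDefined M H b) : Cfsg.IsInducedBlock M H b (Cfsg.principalBlock M G) ↔ b = Cfsg.principalBlock M H := by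
  classical
  haveI : Fintype G := Fintype.ofFinite G
  have hmax := hM.2.1
  have h1G : IsIrrCharacter G (fun _ : G => (1 : ℂ)) :=
    Cfsg.Agent.Lib.Helper1.isIrrCharacter_one
  have h1H : IsIrrCharacter H (fun _ : H => (1 : ℂ)) :=
    Cfsg.Agent.Lib.Helper1.isIrrCharacter_one
  have hcf1 : IsClassFunction G (fun _ : G => (1 : ℂ)) := fun _ _ => rfl
  constructor
  · rintro ⟨⟨ξ₀, hb⟩, -, hcong⟩
    have hξ₀ : ξ₀ ∈ b := by
      rw [hb]
      exact Cfsg.Agent.Lib.Helper6.mem_blockOf_self hmax ξ₀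
    have h1mem : (⟨fun _ : G => (1 : ℂ), h1G⟩ : IrrCharacter G) ∈ principalBlock M G :=
      Cfsg.Agent.Lib.Helper6.sameBlock_refl hmax _
    have h2 := Cfsg.Agent.Lib.Helper6.omega_res_sub_mem hmax H hcf1 (hcong ξ₀ hξ₀ _ h1mem)
      (Cfsg.Agent.Lib.Helper6.isClassFunction_regInd p)
      (Cfsg.Agent.Lib.Helper6.sVal_regInd hmax p)
    rw [Cfsg.Agent.Lib.Helper6.regInd_res] at h2
    have h3 : ξ₀ ∈ principalBlock M H := by
      apply Cfsg.Agent.Lib.Helper6.mem_principalBlock_of_omega_regInd hM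
      intro h0
      rw [h0, zero_sub] at h2
      have h4 := Cfsg.Agent.Lib.Helper6.MemLocalIdeal.neg h2
      rw [neg_neg] at h4
      exact Cfsg.Agent.Lib.Helper6.omega_one_regInd_not_mem hM h4
    rw [hb]
    ext ψ
    constructor
    · intro hψ
      exact Cfsg.Agent.Lib.Helper6.sameBlock_trans hmax h3 hψ
    · intro hψ
      exact Cfsg.Agent.Lib.Helper6.sameBlock_trans hmax
        (Cfsg.Agent.Lib.Helper6.sameBlock_symm h3) hψ
  · intro hb
    obtain ⟨B, hb1, ⟨χ₀, hB2⟩, hcong⟩ := hdef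
    have h1mem : (⟨fun _ : H => (1 : ℂ), h1H⟩ : IrrCharacter H) ∈ b := by
      rw [hb]
      exact Cfsg.Agent.Lib.Helper6.sameBlock_refl hmax _
    have hχ₀ : χ₀ ∈ B := by
      rw [hB2]
      exact Cfsg.Agent.Lib.Helper6.mem_blockOf_self hmax χ₀
    have h2 := Cfsg.Agent.Lib.Helper6.omega_res_sub_mem hmax H
      (Cfsg.Agent.Lib.Helper6.irr_isClassFunction χ₀) (hcong _ h1mem χ₀ hχ₀)
      (Cfsg.Agent.Lib.Helper6.isClassFunction_regInd p)
      (Cfsg.Agent.Lib.Helper6.sVal_regInd hmax p)
    rw [Cfsg.Agent.Lib.Helper6.regInd_res] at h2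
    have h3 : χ₀ ∈ principalBlock M G := by
      apply Cfsg.Agent.Lib.Helper6.mem_principalBlock_of_omega_regInd hM
      intro h0
      rw [h0, sub_zero] at h2
      exact Cfsg.Agent.Lib.Helper6.omega_one_regInd_not_mem hM h2
    have hBeq : B = principalBlock M G := by
      rw [hB2]
      ext ψ
      constructor
      · intro hψ
        exact Cfsg.Agent.Lib.Helper6.sameBlock_trans hmax h3 hψ
      · intro hψ
        exact Cfsg.Agent.Lib.Helper6.sameBlock_trans hmax
          (Cfsg.Agent.Lib.Helper6.sameBlock_symm h3) hψ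
    rw [← hBeq]
    exact ⟨hb1, ⟨χ₀, hB2⟩, hcong⟩

end Cfsg.Agent.S0936
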