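import Mathlib
import Cfsg.Statements.S0937
import Cfsg.Agent.Lib.Helper6.RegRes
import Cfsg.Agent.S4431

set_option autoImplicit false
open Cfsg

namespace Cfsg.Agent.S0937

/-- Let H be a subgroup of the finite group G and fix a maximal ideal M of the algebraic integers containing the prime p. If the block b of H induces the block B of G and χ ∈ B has height zero, then there is ξ ∈ b of height zero whose multiplicity in the restriction of χ to H is a natural number not divisible by p. -/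
theorem result {G : Type*} [Group G] [Fintype G] (p : ℕ) [Fact p.Prime] (M : Ideal Cfsg.AlgInt) (hM : Cfsg.IsPModular p M) (H : Subgroup G) [Fintype H] (b : Set (Cfsg.IrrCharacter H)) (B : Set (Cfsg.IrrCharacter G)) (hind : Cfsg.IsInducedBlock M H b B) (χ : Cfsg.IrrCharacter G) (hχ : χ ∈ B) (h0 : Cfsg.blockHeight p B (χ : G → ℂ) = 0) : ∃ ξ ∈ b, Cfsg.blockHeight p b (ξ : H → ℂ) = 0 ∧ ∃ n : ℕ, Cfsg.classInner (fun h : H => (χ : G → ℂ) h) (ξ : H → ℂ) = (n : ℂ) ∧ ¬ p ∣ n := by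
  classical
  haveI : Fintype (Cfsg.IrrCharacter H) := Cfsg.Agent.Lib.Helper1.irrFintype
  have hmax := hM.2.1
  have hp := hM.1
  obtain ⟨hb, hB, hcong⟩ := id hind
  obtain ⟨ψ, hψ⟩ := Cfsg.Agent.Lib.Helper24.Defect.block_nonempty hmax b hb
  have h431 := (Cfsg.Agent.S4431.result p M hM H b B hind χ ψ hψ).2 hχ h0
  obtain ⟨c, hc1, hc2⟩ := Cfsg.Agent.Lib.Helper6.char_expansion_nat
    (Cfsg.Agent.Lib.Helper1.IsCharacter.restrict
      (Cfsg.Agent.Lib.Helper1.IsIrrCharacter.isCharacter χ.2) H)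
  by_contra hcon
  push_neg at hcon
  apply h431
  have e1 : Cfsg.classInner (fun h : H => if p ∣ orderOf h then (0 : ℂ)
      else ((p ^ (Nat.card H).factorization p : ℕ) : ℂ) * (χ : G → ℂ) h) (ψ : H → ℂ) =
      ∑ ξ : Cfsg.IrrCharacter H, (c ξ : ℂ) * (Cfsg.Agent.Lib.Helper6.regCoef p ξ ψ : ℂ) := by
    have h2 := Cfsg.Agent.Lib.Helper6.classInner_regPart_sum p (fun ξ => (c ξ : ℂ)) ψ
    rw [← hc2] at h2
    exact h2
  rw [e1, Finset.sum_div, Cfsg.Agent.Lib.Helper24.CharBasic.char_one_nat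
    (Cfsg.Agent.Lib.Helper1.IsIrrCharacter.isCharacter ψ.2)]
  apply Cfsg.Agent.Lib.Helper6.memLocalIdeal_sum hmax
  intro ξ _
  rw [mul_div_assoc]
  by_cases hξb : ξ ∈ b
  · by_cases hξ0 : Cfsg.blockHeight p b (ξ : H → ℂ) = 0
    · have h3 := hcon ξ hξb hξ0 (c ξ) (hc1 ξ)
      exact Cfsg.Agent.Lib.Helper6.MemLocalIdeal.mul_right hmax
        ((Cfsg.Agent.Lib.Helper6.memLocalIdeal_natCast_iff hM _).mpr h3)
        (Cfsg.Agent.Lib.Helper6.regCoef_ratio_memLocalRing hM ξ ψ)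
    · apply Cfsg.Agent.Lib.Helper6.MemLocalIdeal.mul_left hmax
        (Cfsg.Agent.Lib.Helper6.memLocalRing_natCast hmax _)
      by_contra hnot
      exact hξ0 (Cfsg.Agent.Lib.Helper6.height_zero_of_regCoef_not_mem hM b hb hξb hψ hnot)
  · rw [Cfsg.Agent.Lib.Helper6.regCoef_eq_zero_of_not_mem hM b hb hξb hψ]
    simp only [Int.cast_zero, zero_div, mul_zero]
    exact Cfsg.Agent.Lib.Helper6.memLocalIdeal_zero hmax

end Cfsg.Agent.S0937
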