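import Mathlib
import Cfsg.Statements.S0954
import Cfsg.Agent.Lib.Helper6.Covering
import Cfsg.Agent.Lib.Helper6.Regular
import Cfsg.Agent.Lib.Helper1.CharMore

set_option autoImplicit false
open Cfsg

namespace Cfsg.Agent.S0954

/-- Let N be a normal subgroup of the finite group G of order prime to p and of p-power index (a normal p-complement), and fix a maximal ideal M of the algebraic integers containing p. Then two irreducible characters χ, ψ of G lie in the same block if and only if some irreducible character of N has nonzero inner product with both the restriction of χ and the restriction of ψ. -/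
theorem result {G : Type*} [Group G] [Fintype G] (p : ℕ) [Fact p.Prime] (M : Ideal Cfsg.AlgInt) (hM : Cfsg.IsPModular p M) (N : Subgroup G) [N.Normal] [Fintype N] (hN : ¬ p ∣ Nat.card N) (hidx : ∃ k : ℕ, N.index = p ^ k) (χ ψ : Cfsg.IrrCharacter G) : Cfsg.SameBlock M (χ : G → ℂ) (ψ : G → ℂ) ↔ ∃ θ : Cfsg.IrrCharacter N, Cfsg.classInner (fun n : N => (χ : G → ℂ) n) (θ : N → ℂ) ≠ 0 ∧ Cfsg.classInner (fun n : N => (ψ : G → ℂ) n) (θ : N → ℂ) ≠ 0 := by
  classical
  have hp : p.Prime := Fact.out
  have hmax := hM.2.1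
  constructor
  · intro h
    have hres : IsCharacter N (fun n : N => (χ : G → ℂ) n) :=
      Cfsg.Agent.Lib.Helper1.IsCharacter.restrict
        (Cfsg.Agent.Lib.Helper24.CharBasic.isCharacter_of_irr χ.2) N
    have h1 : (fun n : N => (χ : G → ℂ) n) 1 ≠ 0 := by
      show (χ : G → ℂ) ((1 : N) : G) ≠ 0
      rw [Subgroup.coe_one]
      exact Cfsg.Agent.Lib.Helper6.irr_one_ne_zero χ.2
    obtain ⟨φ, hφ, hφc⟩ := Cfsg.Agent.Lib.Helper1.exists_irr_constituent hres h1
    refine ⟨⟨φ, hφ⟩, hφc, ?_⟩
    exact Cfsg.Agent.Lib.Helper6.cover_of_sameBlock N hM hN χ ψ h ⟨φ, hφ⟩ hφc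
  · rintro ⟨θ, hχθ, hψθ⟩
    apply Cfsg.Agent.Lib.Helper6.sameBlock_of_regular hM χ ψ
    intro g hg
    obtain ⟨k, hk⟩ := hidx
    have hgN : g ∈ N := by
      have h1 : orderOf (QuotientGroup.mk' N g) ∣ orderOf g := orderOf_map_dvd _ g
      have hcardQ : Nat.card (G ⧸ N) = N.index := rfl
      have h2 : orderOf (QuotientGroup.mk' N g) ∣ p ^ k := by
        rw [← hk, ← hcardQ]
        exact orderOf_dvd_natCard _
      obtain ⟨j, -, hj⟩ := (Nat.dvd_prime_pow hp).mp h2
      have hj0 : j = 0 := by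
        by_contra hne
        apply hg
        refine dvd_trans ?_ h1
        rw [hj]
        exact dvd_pow_self p hne
      rw [hj0, pow_zero] at hj
      have h3 : QuotientGroup.mk' N g = 1 := orderOf_eq_one_iff.mp hj
      exact (QuotientGroup.eq_one_iff g).mp h3
    rw [Cfsg.Agent.Lib.Helper6.centralChar_eq_inducedCentralChar_of_over N χ θ hχθ g hgN,
      Cfsg.Agent.Lib.Helper6.centralChar_eq_inducedCentralChar_of_over N ψ θ hψθ g hgN, sub_self]
    exact Cfsg.Agent.Lib.Helper6.memLocalIdeal_zero hmax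

end Cfsg.Agent.S0954
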