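import Cfsg.Statements.S0955
import Cfsg.Agent.Lib.Helper24.Brauer22

set_option autoImplicit false
open Cfsg

namespace Cfsg.Agent.S0955

open Cfsg.Agent.Lib.Helper1 Cfsg.Agent.Lib.Helper6 Cfsg.Agent.Lib.Helper24

theorem result {G : Type*} [Group G] [Finite G] (p : ℕ) [Fact p.Prime] (M : Ideal Cfsg.AlgInt) (hM : Cfsg.IsPModular p M) (B : Set (Cfsg.IrrCharacter G)) (hB : Cfsg.IsPBlock M B) (D : Subgroup G) (hD : Cfsg.IsDefectGroup p M B D) : (Cfsg.pCore p (Subgroup.normalizer (D : Set G))).map (Subgroup.normalizer (D : Set G)).subtype = D := by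
  haveI : Fintype G := Fintype.ofFinite G
  have hmap : (D.subgroupOf (Subgroup.normalizer (D : Set G))).map
      (Subgroup.normalizer (D : Set G)).subtype = D :=
    Subgroup.map_subgroupOf_eq_of_le Subgroup.le_normalizer
  have hNH : Subgroup.normalizer (((D.subgroupOf (Subgroup.normalizer (D : Set G))).map
      (Subgroup.normalizer (D : Set G)).subtype : Subgroup G) : Set G)
      ≤ Subgroup.normalizer (D : Set G) := by
    rw [hmap]
  have hD' : Cfsg.IsDefectGroup p M B ((D.subgroupOf (Subgroup.normalizer (D : Set G))).map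
      (Subgroup.normalizer (D : Set G)).subtype) := by
    rw [hmap]
    exact hD
  have hDp : IsPGroup p D := by
    obtain ⟨g, -, P, hPD⟩ := hD
    rw [hPD]
    exact P.isPGroup'.map _
  obtain ⟨c, ⟨hc, hcD, -⟩, -⟩ := (Brauer.brauer_first hM (Subgroup.normalizer (D : Set G))
    (D.subgroupOf (Subgroup.normalizer (D : Set G))) hDp.comap_subtype hNH).1 B hB hD'
  have hfinN : Fintype (Subgroup.normalizer (D : Set G)) := Fintype.ofFinite _
  haveI hn : (Cfsg.pCore p (Subgroup.normalizer (D : Set G))).Normal :=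
    Subgroup.sSup_normal _ (fun _ h => h.1)
  have hpg : IsPGroup p (Cfsg.pCore p (Subgroup.normalizer (D : Set G))) :=
    Sylow.sSup_of_normal _ (fun _ hH => hH.2) (fun _ hH => hH.1)
  have h1 : Cfsg.pCore p (Subgroup.normalizer (D : Set G))
      ≤ D.subgroupOf (Subgroup.normalizer (D : Set G)) :=
    Brauer.normal_le_defect hM _ hpg c hc _ hcD
  have h2 : D.subgroupOf (Subgroup.normalizer (D : Set G))
      ≤ Cfsg.pCore p (Subgroup.normalizer (D : Set G)) :=
    le_sSup ⟨Subgroup.normal_subgroupOf_of_le_normalizer le_rfl, hDp.comap_subtype⟩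
  rw [le_antisymm h1 h2]
  exact hmap

end Cfsg.Agent.S0955
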