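import Cfsg.Statements.S4505
import Cfsg.Agent.Lib.Helper24.Defect

set_option autoImplicit false
open Cfsg

namespace Cfsg.Agent.S4505

theorem result {G : Type*} [Group G] [Finite G] (p : ℕ) [Fact p.Prime] (M : Ideal Cfsg.AlgInt) (hM : Cfsg.IsPModular p M) (σ : ℕ) : Nat.card {B : Set (Cfsg.IrrCharacter G) // Cfsg.IsPBlock M B ∧ Cfsg.blockDefect p B = σ} ≤ Nat.card {C : ConjClasses G // ∃ g : G, ConjClasses.mk g = C ∧ ¬ p ∣ orderOf g ∧ (Nat.card (Subgroup.centralizer ({g} : Set G))).factorization p = σ} := by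
  classical
  have hfinG : Fintype G := Fintype.ofFinite G
  have hfin : Fintype (IrrCharacter G) := Cfsg.Agent.Lib.Helper1.irrFintype
  have hfinC : Fintype (ConjClasses G) := Fintype.ofFinite _
  have hfI : Fintype {B : Set (Cfsg.IrrCharacter G) // Cfsg.IsPBlock M B ∧ Cfsg.blockDefect p B = σ} :=
    Fintype.ofFinite _
  have hfJ : Fintype {C : ConjClasses G // ∃ g : G, ConjClasses.mk g = C ∧ ¬ p ∣ orderOf g ∧
      (Nat.card (Subgroup.centralizer ({g} : Set G))).factorization p = σ} := Fintype.ofFinite _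
  rw [Nat.card_eq_fintype_card, Nat.card_eq_fintype_card]
  have hrep : ∀ B : {B : Set (Cfsg.IrrCharacter G) // Cfsg.IsPBlock M B ∧ Cfsg.blockDefect p B = σ},
      ∃ χ : IrrCharacter G, χ ∈ B.1 :=
    fun B => Cfsg.Agent.Lib.Helper24.Defect.block_nonempty hM.2.1 B.1 B.2.1
  choose rep hrep using hrep
  let X : Matrix {B : Set (Cfsg.IrrCharacter G) // Cfsg.IsPBlock M B ∧ Cfsg.blockDefect p B = σ}
      {C : ConjClasses G // ∃ g : G, ConjClasses.mk g = C ∧ ¬ p ∣ orderOf g ∧
      (Nat.card (Subgroup.centralizer ({g} : Set G))).factorization p = σ} ℂ :=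
    fun B C => blockCoeff B.1 (Cfsg.Agent.Lib.Helper6.crep C.1)
  let Y : Matrix {C : ConjClasses G // ∃ g : G, ConjClasses.mk g = C ∧ ¬ p ∣ orderOf g ∧
      (Nat.card (Subgroup.centralizer ({g} : Set G))).factorization p = σ}
      {B : Set (Cfsg.IrrCharacter G) // Cfsg.IsPBlock M B ∧ Cfsg.blockDefect p B = σ} ℂ :=
    fun C B => centralChar (rep B : G → ℂ) (Cfsg.Agent.Lib.Helper6.crep C.1)
  have hXY : ∀ B B', MemLocalIdeal M ((X * Y) B B' - (1 : Matrix _ _ ℂ) B B') := by
    intro B B'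
    have hk := Cfsg.Agent.Lib.Helper24.Defect.key_congr hM B.1 B.2.1 (rep B')
      (by rw [← Cfsg.Agent.Lib.Helper24.Defect.block_eq_blockOf hM.2.1 B'.1 B'.2.1 (hrep B'),
        B'.2.2, B.2.2])
    have e1 : (X * Y) B B' = ∑ C ∈ Finset.univ.filter (fun C : ConjClasses G =>
        ¬ p ∣ orderOf (Cfsg.Agent.Lib.Helper6.crep C) ∧
        (Nat.card (Subgroup.centralizer ({Cfsg.Agent.Lib.Helper6.crep C} : Set G))).factorization p
          = blockDefect p B.1),
        blockCoeff B.1 (Cfsg.Agent.Lib.Helper6.crep C)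
          * centralChar (rep B' : G → ℂ) (Cfsg.Agent.Lib.Helper6.crep C) := by
      rw [Matrix.mul_apply]
      symm
      apply Finset.sum_subtype
      intro C
      rw [Finset.mem_filter, B.2.2, Cfsg.Agent.Lib.Helper24.Defect.class_pred_iff]
      simp only [Finset.mem_univ, true_and]
    have e2 : (1 : Matrix _ _ ℂ) B B' = if rep B' ∈ B.1 then (1 : ℂ) else 0 := by
      rw [Matrix.one_apply]
      by_cases hBB : B = B'
      · rw [if_pos hBB, if_pos (by rw [hBB]; exact hrep B')]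
      · rw [if_neg hBB, if_neg]
        intro hmem
        apply hBB
        apply Subtype.ext
        rw [Cfsg.Agent.Lib.Helper24.Defect.block_eq_blockOf hM.2.1 B.1 B.2.1 hmem,
          Cfsg.Agent.Lib.Helper24.Defect.block_eq_blockOf hM.2.1 B'.1 B'.2.1 (hrep B')]
    rw [e1, e2]
    have h3 := Cfsg.Agent.Lib.Helper6.MemLocalIdeal.neg hk
    rwa [neg_sub] at h3
  have hdet := Cfsg.Agent.Lib.Helper24.Osima.det_ne_zero_of_congr_one hM.2.1 (X * Y) hXY
  have hunit : IsUnit (X * Y) :=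
    (Matrix.isUnit_iff_isUnit_det _).mpr (isUnit_iff_ne_zero.mpr hdet)
  have hr := Matrix.rank_of_isUnit (X * Y) hunit
  calc Fintype.card {B : Set (Cfsg.IrrCharacter G) // Cfsg.IsPBlock M B ∧ Cfsg.blockDefect p B = σ}
      = (X * Y).rank := hr.symm
    _ ≤ X.rank := Matrix.rank_mul_le_left X Y
    _ ≤ _ := Matrix.rank_le_card_width X

end Cfsg.Agent.S4505
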