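import Cfsg.Statements.S0962
import Mathlib
import Cfsg.Agent.S4505

set_option autoImplicit false
open Cfsg

namespace Cfsg.Agent.S0962

/-- Fix a maximal ideal M of the algebraic integers containing the prime p and a natural number d. The number of blocks of the finite group G of defect at least d is at most the number of conjugacy classes of p-regular elements of G of defect at least d, where the defect of a class is the exponent of p in the order of the centralizer of any of its elements. -/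
theorem result {G : Type*} [Group G] [Finite G] (p : ℕ) [Fact p.Prime] (M : Ideal Cfsg.AlgInt) (hM : Cfsg.IsPModular p M) (d : ℕ) : Nat.card {B : Set (Cfsg.IrrCharacter G) // Cfsg.IsPBlock M B ∧ d ≤ Cfsg.blockDefect p B} ≤ Nat.card {C : ConjClasses G // ∃ g : G, ConjClasses.mk g = C ∧ Cfsg.IsPRegular p g ∧ d ≤ (Nat.card (Subgroup.centralizer ({g} : Set G))).factorization p} := by
  classical
  have hfinG : Fintype G := Fintype.ofFinite G
  have hfin : Fintype (Cfsg.IrrCharacter G) := Cfsg.Agent.Lib.Helper1.irrFintype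
  have hemb : ∀ σ : ℕ, ∃ f : {B : Set (Cfsg.IrrCharacter G) // Cfsg.IsPBlock M B ∧ Cfsg.blockDefect p B = σ} →
      {C : ConjClasses G // ∃ g : G, ConjClasses.mk g = C ∧ ¬ p ∣ orderOf g ∧
        (Nat.card (Subgroup.centralizer ({g} : Set G))).factorization p = σ}, Function.Injective f := by
    intro σ
    have h := Cfsg.Agent.S4505.result (G := G) p M hM σ
    have hfI : Fintype {B : Set (Cfsg.IrrCharacter G) // Cfsg.IsPBlock M B ∧ Cfsg.blockDefect p B = σ} :=
      Fintype.ofFinite _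
    have hfJ : Fintype {C : ConjClasses G // ∃ g : G, ConjClasses.mk g = C ∧ ¬ p ∣ orderOf g ∧
        (Nat.card (Subgroup.centralizer ({g} : Set G))).factorization p = σ} := Fintype.ofFinite _
    rw [Nat.card_eq_fintype_card, Nat.card_eq_fintype_card] at h
    obtain ⟨e⟩ := Function.Embedding.nonempty_of_card_le h
    exact ⟨e, e.injective⟩
  choose f hf using hemb
  have hfcongr : ∀ (σ σ' : ℕ) (e : σ = σ') (B : Set (Cfsg.IrrCharacter G)) (hB : Cfsg.IsPBlock M B)
      (h1 : Cfsg.blockDefect p B = σ) (h2 : Cfsg.blockDefect p B = σ'),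
      (f σ ⟨B, hB, h1⟩).1 = (f σ' ⟨B, hB, h2⟩).1 := by
    intro σ σ' e B hB h1 h2
    subst e
    rfl
  have hcent : ∀ g g' : G, ConjClasses.mk g = ConjClasses.mk g' →
      Nat.card (Subgroup.centralizer ({g} : Set G)) = Nat.card (Subgroup.centralizer ({g'} : Set G)) := by
    intro g g' h
    rw [ConjClasses.mk_eq_mk_iff_isConj, isConj_iff] at h
    obtain ⟨c, hc⟩ := h
    subst hc
    refine Nat.card_congr ⟨fun x => ⟨c * x.1 * c⁻¹, ?_⟩, fun x => ⟨c⁻¹ * x.1 * c, ?_⟩, ?_, ?_⟩
    · have hx := Subgroup.mem_centralizer_singleton_iff.1 x.2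
      rw [Subgroup.mem_centralizer_singleton_iff]
      calc c * x.1 * c⁻¹ * (c * g * c⁻¹) = c * (x.1 * g) * c⁻¹ := by group
        _ = c * (g * x.1) * c⁻¹ := by rw [hx]
        _ = c * g * c⁻¹ * (c * x.1 * c⁻¹) := by group
    · have hx := Subgroup.mem_centralizer_singleton_iff.1 x.2
      rw [Subgroup.mem_centralizer_singleton_iff]
      calc c⁻¹ * x.1 * c * g = c⁻¹ * (x.1 * (c * g * c⁻¹)) * c := by group
        _ = c⁻¹ * ((c * g * c⁻¹) * x.1) * c := by rw [hx]
        _ = g * (c⁻¹ * x.1 * c) := by group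
    · intro x
      apply Subtype.ext
      simp only
      group
    · intro x
      apply Subtype.ext
      simp only
      group
  have hfinR : Finite {C : ConjClasses G // ∃ g : G, ConjClasses.mk g = C ∧ Cfsg.IsPRegular p g ∧
      d ≤ (Nat.card (Subgroup.centralizer ({g} : Set G))).factorization p} := inferInstance
  refine Nat.card_le_card_of_injective
    (fun x : {B : Set (Cfsg.IrrCharacter G) // Cfsg.IsPBlock M B ∧ d ≤ Cfsg.blockDefect p B} =>
      (⟨(f (Cfsg.blockDefect p x.1) ⟨x.1, x.2.1, rfl⟩).1, by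
        obtain ⟨g, h1, h2, h3⟩ := (f (Cfsg.blockDefect p x.1) ⟨x.1, x.2.1, rfl⟩).2
        exact ⟨g, h1, h2, h3 ▸ x.2.2⟩⟩ :
      {C : ConjClasses G // ∃ g : G, ConjClasses.mk g = C ∧ Cfsg.IsPRegular p g ∧
        d ≤ (Nat.card (Subgroup.centralizer ({g} : Set G))).factorization p})) ?_
  intro x y hxy
  have hxy' : (f (Cfsg.blockDefect p x.1) ⟨x.1, x.2.1, rfl⟩).1 =
      (f (Cfsg.blockDefect p y.1) ⟨y.1, y.2.1, rfl⟩).1 := congrArg Subtype.val hxy
  obtain ⟨g1, h1, _, h3⟩ := (f (Cfsg.blockDefect p x.1) ⟨x.1, x.2.1, rfl⟩).2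
  obtain ⟨g2, k1, _, k3⟩ := (f (Cfsg.blockDefect p y.1) ⟨y.1, y.2.1, rfl⟩).2
  have hσ : Cfsg.blockDefect p x.1 = Cfsg.blockDefect p y.1 := by
    rw [← h3, ← k3, hcent g1 g2 (by rw [h1, k1, hxy'])]
  have h4 := hfcongr (Cfsg.blockDefect p y.1) (Cfsg.blockDefect p x.1) hσ.symm y.1 y.2.1 rfl hσ.symm
  rw [h4] at hxy'
  have h5 := hf (Cfsg.blockDefect p x.1) (Subtype.ext hxy')
  apply Subtype.ext
  exact congrArg (fun z => (z.1 : Set (Cfsg.IrrCharacter G))) h5

end Cfsg.Agent.S0962
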