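import Mathlib
import Cfsg.Statements.S0964
import Cfsg.Agent.Lib.Helper6.Covering2

set_option autoImplicit false
open Cfsg

namespace Cfsg.Agent.S0964

/-- Let N be a normal subgroup of the finite group G, B a block of G and b a block of N relative to a maximal ideal M of the algebraic integers containing the prime p. Suppose some χ ∈ B has a constituent θ ∈ b on restriction to N. Then for every χ' ∈ B and every constituent ψ of the restriction of χ' to N there are g ∈ G and θ' ∈ b with ψ n = θ' (g n g⁻¹) for all n ∈ N. -/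
theorem result {G : Type*} [Group G] [Fintype G] (p : ℕ) [Fact p.Prime] (M : Ideal Cfsg.AlgInt) (hM : Cfsg.IsPModular p M) (N : Subgroup G) [hN : N.Normal] [Fintype N] (B : Set (Cfsg.IrrCharacter G)) (hB : Cfsg.IsPBlock M B) (b : Set (Cfsg.IrrCharacter N)) (hb : Cfsg.IsPBlock M b) (χ : Cfsg.IrrCharacter G) (hχ : χ ∈ B) (θ : Cfsg.IrrCharacter N) (hθ : θ ∈ b) (hcon : Cfsg.classInner (fun n : N => (χ : G → ℂ) n) (θ : N → ℂ) ≠ 0) (χ' : Cfsg.IrrCharacter G) (hχ' : χ' ∈ B) (ψ : Cfsg.IrrCharacter N) (hψ : Cfsg.classInner (fun n : N => (χ' : G → ℂ) n) (ψ : N → ℂ) ≠ 0) : ∃ g : G, ∃ θ' ∈ b, ∀ n : N, (ψ : N → ℂ) n = (θ' : N → ℂ) ⟨g * n * g⁻¹, hN.conj_mem n n.2 g⟩ := by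
  classical
  have hmax := hM.2.1
  have hsb : SameBlock M (χ' : G → ℂ) (χ : G → ℂ) :=
    Cfsg.Agent.Lib.Helper24.Defect.sameBlock_of_mem hmax B hB hχ' hχ
  have hcong : ∀ n : G, n ∈ N → MemLocalIdeal M
      (inducedCentralChar N (ψ : N → ℂ) n - inducedCentralChar N (θ : N → ℂ) n) := by
    intro n hn
    rw [← Cfsg.Agent.Lib.Helper6.centralChar_eq_inducedCentralChar_of_over N χ' ψ hψ n hn,
      ← Cfsg.Agent.Lib.Helper6.centralChar_eq_inducedCentralChar_of_over N χ θ hcon n hn]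
    exact hsb n
  obtain ⟨g, θ', hθ', heq⟩ :=
    Cfsg.Agent.Lib.Helper6.exists_conj_mem_block hmax N b hb θ hθ ψ hcong
  refine ⟨g⁻¹, θ', hθ', ?_⟩
  intro n
  rw [heq]
  show (ψ : N → ℂ) n = (ψ : N → ℂ) ⟨g * (g⁻¹ * (n : G) * g⁻¹⁻¹) * g⁻¹, _⟩
  have e : n = (⟨g * (g⁻¹ * (n : G) * g⁻¹⁻¹) * g⁻¹, by
      have h1 : g * (g⁻¹ * (n : G) * g⁻¹⁻¹) * g⁻¹ = (n : G) := by group
      rw [h1]
      exact n.2⟩ : N) := by
    apply Subtype.ext
    show (n : G) = g * (g⁻¹ * (n : G) * g⁻¹⁻¹) * g⁻¹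
    group
  exact congrArg (ψ : N → ℂ) e

end Cfsg.Agent.S0964
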