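import Mathlib
import Cfsg.Statements.S0965
import Cfsg.Agent.Lib.Helper6.Covering2

set_option autoImplicit false
open Cfsg

namespace Cfsg.Agent.S0965

/-- Let N be a normal subgroup of the finite group G and let B, b be blocks of G and of N relative to a maximal ideal M of the algebraic integers containing the prime p. Then some χ ∈ B has a constituent in b on restriction to N if and only if, for all χ ∈ B, θ ∈ b and n ∈ N, the central character of χ at n is congruent modulo the local ideal at M to the sum of θ m / θ 1 over the elements m ∈ N conjugate in G to n. -/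
theorem result {G : Type*} [Group G] [Fintype G] (p : ℕ) [Fact p.Prime] (M : Ideal Cfsg.AlgInt) (hM : Cfsg.IsPModular p M) (N : Subgroup G) [N.Normal] [Fintype N] (B : Set (Cfsg.IrrCharacter G)) (hB : Cfsg.IsPBlock M B) (b : Set (Cfsg.IrrCharacter N)) (hb : Cfsg.IsPBlock M b) : (∃ χ ∈ B, ∃ θ ∈ b, Cfsg.classInner (fun n : N => (χ : G → ℂ) n) (θ : N → ℂ) ≠ 0) ↔ ∀ χ ∈ B, ∀ θ ∈ b, ∀ n : N, Cfsg.MemLocalIdeal M (Cfsg.centralChar (χ : G → ℂ) (n : G) - Cfsg.inducedCentralChar N (θ : N → ℂ) (n : G)) := by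
  classical
  have hmax := hM.2.1
  constructor
  · rintro ⟨χ₀, hχ₀, θ₀, hθ₀, hover⟩ χ hχ θ hθ n
    exact Cfsg.Agent.Lib.Helper6.covering_congr hmax N B hB b hb χ₀ hχ₀ θ₀ hθ₀ hover χ hχ θ hθ
      (n : G) n.2
  · intro h
    obtain ⟨χ, hχ⟩ := Cfsg.Agent.Lib.Helper24.Defect.block_nonempty hmax B hB
    obtain ⟨θ₁, hθ₁⟩ := Cfsg.Agent.Lib.Helper24.Defect.block_nonempty hmax b hb
    have hres : IsCharacter N (fun n : N => (χ : G → ℂ) n) :=
      Cfsg.Agent.Lib.Helper1.IsCharacter.restrict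
        (Cfsg.Agent.Lib.Helper24.CharBasic.isCharacter_of_irr χ.2) N
    have h1 : (fun n : N => (χ : G → ℂ) n) 1 ≠ 0 := by
      show (χ : G → ℂ) ((1 : N) : G) ≠ 0
      rw [Subgroup.coe_one]
      exact Cfsg.Agent.Lib.Helper6.irr_one_ne_zero χ.2
    obtain ⟨φ, hφ, hφc⟩ := Cfsg.Agent.Lib.Helper1.exists_irr_constituent hres h1
    have hcong : ∀ n : G, n ∈ N → MemLocalIdeal M
        (inducedCentralChar N φ n - inducedCentralChar N (θ₁ : N → ℂ) n) := by
      intro n hn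
      rw [← Cfsg.Agent.Lib.Helper6.centralChar_eq_inducedCentralChar_of_over N χ ⟨φ, hφ⟩ hφc n hn]
      exact h χ hχ θ₁ hθ₁ ⟨n, hn⟩
    obtain ⟨g, θ', hθ', heq⟩ :=
      Cfsg.Agent.Lib.Helper6.exists_conj_mem_block hmax N b hb θ₁ hθ₁ ⟨φ, hφ⟩ hcong
    refine ⟨χ, hχ, θ', hθ', ?_⟩
    rw [heq, Cfsg.Agent.Lib.Helper1.classInner_restrict_conjChar N
      (Cfsg.Agent.Lib.Helper6.irr_isClassFunction χ)]
    exact hφc

end Cfsg.Agent.S0965
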