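import Mathlib
import Cfsg.Statements.S0966
import Cfsg.Agent.Lib.Helper6.Covering2
import Cfsg.Agent.Lib.Helper6.Regular

set_option autoImplicit false
open Cfsg

namespace Cfsg.Agent.S0966

/-- Let N be a normal subgroup of p-power index in the finite group G and b a block of N relative to a maximal ideal M of the algebraic integers containing p. Then there is exactly one block B of G containing a character whose restriction to N has a constituent in b. -/
theorem result {G : Type*} [Group G] [Fintype G] (p : ℕ) [Fact p.Prime] (M : Ideal Cfsg.AlgInt) (hM : Cfsg.IsPModular p M) (N : Subgroup G) [N.Normal] [Fintype N] (hidx : ∃ k : ℕ, N.index = p ^ k) (b : Set (Cfsg.IrrCharacter N)) (hb : Cfsg.IsPBlock M b) : ∃! B : Set (Cfsg.IrrCharacter G), Cfsg.IsPBlock M B ∧ ∃ χ ∈ B, ∃ θ ∈ b, Cfsg.classInner (fun n : N => (χ : G → ℂ) n) (θ : N → ℂ) ≠ 0 := by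
  classical
  have hp : p.Prime := Fact.out
  have hmax := hM.2.1
  obtain ⟨k, hk⟩ := hidx
  obtain ⟨θ, hθ⟩ := Cfsg.Agent.Lib.Helper24.Defect.block_nonempty hmax b hb
  obtain ⟨χ, hχθ⟩ := Cfsg.Agent.Lib.Helper6.exists_irr_over_sub N θ
  refine ⟨blockOf M (χ : G → ℂ), ⟨⟨χ, rfl⟩, χ, Cfsg.Agent.Lib.Helper6.mem_blockOf_self hmax χ,
    θ, hθ, hχθ⟩, ?_⟩
  rintro B' ⟨hB', χ', hχ', θ', hθ', hover'⟩
  have hsb : SameBlock M (χ : G → ℂ) (χ' : G → ℂ) := by
    apply Cfsg.Agent.Lib.Helper6.sameBlock_of_regular hM χ χ'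
    intro g hg
    have hgN : g ∈ N := Cfsg.Agent.Lib.Helper6.mem_of_regular_of_index_pow hp N hk hg
    rw [Cfsg.Agent.Lib.Helper6.centralChar_eq_inducedCentralChar_of_over N χ θ hχθ g hgN,
      Cfsg.Agent.Lib.Helper6.centralChar_eq_inducedCentralChar_of_over N χ' θ' hover' g hgN]
    exact Cfsg.Agent.Lib.Helper6.inducedCentralChar_sub_mem_of_sameBlock hmax N θ θ'
      (Cfsg.Agent.Lib.Helper24.Defect.sameBlock_of_mem hmax b hb hθ hθ') g
  rw [Cfsg.Agent.Lib.Helper24.Defect.block_eq_blockOf hmax B' hB' hχ']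
  ext φ
  constructor
  · intro hφ
    exact Cfsg.Agent.Lib.Helper6.sameBlock_trans hmax hsb hφ
  · intro hφ
    exact Cfsg.Agent.Lib.Helper6.sameBlock_trans hmax
      (Cfsg.Agent.Lib.Helper6.sameBlock_symm hsb) hφ

end Cfsg.Agent.S0966
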