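import Cfsg.Statements.S0968
import Cfsg.Agent.Lib.Helper24.CentProd

set_option autoImplicit false
open Cfsg

namespace Cfsg.Agent.S0968

open Cfsg.Agent.Lib.Helper1 Cfsg.Agent.Lib.Helper6 Cfsg.Agent.Lib.Helper24

theorem result {G : Type*} [Group G] [Finite G] (p : ℕ) [Fact p.Prime] (M : Ideal Cfsg.AlgInt) (hM : Cfsg.IsPModular p M) (P : Subgroup G) (hP : IsPGroup p P) (hG : P ⊔ Subgroup.centralizer (P : Set G) = ⊤) (B : Set (Cfsg.IrrCharacter G)) (hB : Cfsg.IsPBlock M B) (hD : Cfsg.IsDefectGroup p M B P) : (∃! θ : Cfsg.IrrCharacter G, θ ∈ B ∧ ∀ x ∈ P, (θ : G → ℂ) x = (θ : G → ℂ) 1) ∧ (∀ θ ∈ B, (∀ x ∈ P, (θ : G → ℂ) x = (θ : G → ℂ) 1) → (Cfsg.charDegree (θ : G → ℂ)).factorization p = P.index.factorization p) ∧ Nat.card B = Nat.card (ConjClasses P) := by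
  classical
  have hfinG : Fintype G := Fintype.ofFinite G
  have hPn : P.Normal := CentProd.normal_of_sup P hG
  have hC := PrinRank.index_centralizer_pow P hP hG
  obtain ⟨θ, hθ, hker⟩ := exists_ker_in_block hM P hP B hB
  refine ⟨⟨θ, ⟨hθ, hker⟩, ?_⟩, ?_, ?_⟩
  · rintro θ' ⟨hθ', hker'⟩
    exact CentProd.canonical_unique hM P hP hC B hB hD θ' θ hθ' hθ hker' hker
  · intro θ' hθ' hker'
    exact CentProd.index_val_eq hM P B hB hD θ' hθ' hker'
  · exact CentProd.card_block hM P hP hG B hB hD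

end Cfsg.Agent.S0968
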