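import Mathlib
import Cfsg.Statements.S0971
import Cfsg.Agent.Lib.Helper6.Covering2
import Cfsg.Agent.Lib.Helper6.AugApp

set_option autoImplicit false
open Cfsg

namespace Cfsg.Agent.S0971

/-- Let Q be a normal p-subgroup of the finite group G, let N = Q ⊔ C_G(Q) (a normal subgroup) and let b be a block of N relative to a maximal ideal M of the algebraic integers containing p. Then b induces some block of G, and every block B of G containing a character whose restriction to N has a constituent in b is induced by b. -/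
theorem result {G : Type*} [Group G] [Fintype G] (p : ℕ) [Fact p.Prime] (M : Ideal Cfsg.AlgInt) (hM : Cfsg.IsPModular p M) (Q : Subgroup G) [Q.Normal] (hQ : IsPGroup p Q) [Fintype ↥(Q ⊔ Subgroup.centralizer (Q : Set G))] (b : Set (Cfsg.IrrCharacter ↥(Q ⊔ Subgroup.centralizer (Q : Set G)))) (hb : Cfsg.IsPBlock M b) : Cfsg.InducedBlockDefined M (Q ⊔ Subgroup.centralizer (Q : Set G)) b ∧ ∀ B : Set (Cfsg.IrrCharacter G), Cfsg.IsPBlock M B → (∃ χ ∈ B, ∃ θ ∈ b, Cfsg.classInner (fun n : ↥(Q ⊔ Subgroup.centralizer (Q : Set G)) => (χ : G → ℂ) n) (θ : ↥(Q ⊔ Subgroup.centralizer (Q : Set G)) → ℂ) ≠ 0) → Cfsg.IsInducedBlock M (Q ⊔ Subgroup.centralizer (Q : Set G)) b B := by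
  classical
  have hmax := hM.2.1
  have key : ∀ B : Set (IrrCharacter G), IsPBlock M B →
      (∃ χ ∈ B, ∃ θ ∈ b, classInner
        (fun n : ↥(Q ⊔ Subgroup.centralizer (Q : Set G)) => (χ : G → ℂ) n)
        (θ : ↥(Q ⊔ Subgroup.centralizer (Q : Set G)) → ℂ) ≠ 0) →
      IsInducedBlock M (Q ⊔ Subgroup.centralizer (Q : Set G)) b B := by
    rintro B hB ⟨χ₀, hχ₀, θ₀, hθ₀, hover⟩
    refine ⟨hb, hB, ?_⟩
    intro ξ hξ χ hχ g
    by_cases hg : g ∈ Q ⊔ Subgroup.centralizer (Q : Set G)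
    · have h1 := Cfsg.Agent.Lib.Helper6.covering_congr hmax
        (Q ⊔ Subgroup.centralizer (Q : Set G)) B hB b hb χ₀ hχ₀ θ₀ hθ₀ hover χ hχ ξ hξ g hg
      have h2 := Cfsg.Agent.Lib.Helper6.MemLocalIdeal.neg h1
      rwa [neg_sub] at h2
    · rw [Cfsg.Agent.Lib.Helper6.inducedCentralChar_eq_zero_of_not_mem
        (Q ⊔ Subgroup.centralizer (Q : Set G)) _ g hg, zero_sub]
      apply Cfsg.Agent.Lib.Helper6.MemLocalIdeal.neg
      apply Cfsg.Agent.Lib.Helper6.centralChar_mem_of_not_centralizer hM Q hQ χ.2 g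
      intro hc
      exact hg ((le_sup_right : Subgroup.centralizer (Q : Set G) ≤ _) hc)
  refine ⟨?_, key⟩
  obtain ⟨θ, hθ⟩ := Cfsg.Agent.Lib.Helper24.Defect.block_nonempty hmax b hb
  obtain ⟨χ, hχθ⟩ := Cfsg.Agent.Lib.Helper6.exists_irr_over_sub
    (Q ⊔ Subgroup.centralizer (Q : Set G)) θ
  exact ⟨blockOf M (χ : G → ℂ), key _ ⟨χ, rfl⟩
    ⟨χ, Cfsg.Agent.Lib.Helper6.mem_blockOf_self hmax χ, θ, hθ, hχθ⟩⟩

end Cfsg.Agent.S0971
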