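import Cfsg.Statements.S0973
import Cfsg.Agent.Lib.Helper24.ExtFirst

set_option autoImplicit false
open Cfsg

namespace Cfsg.Agent.S0973

open Cfsg.Agent.Lib.Helper1 Cfsg.Agent.Lib.Helper6 Cfsg.Agent.Lib.Helper24

theorem result {G : Type*} [Group G] [Finite G] (p : ℕ) [Fact p.Prime] (M : Ideal Cfsg.AlgInt) (hM : Cfsg.IsPModular p M) (B : Set (Cfsg.IrrCharacter G)) (hB : Cfsg.IsPBlock M B) (P : Subgroup G) (hP : Cfsg.IsDefectGroup p M B P) : (∃ b : Set (Cfsg.IrrCharacter ↥(P ⊔ Subgroup.centralizer (P : Set G))), Cfsg.IsDefectGroup p M b (P.subgroupOf (P ⊔ Subgroup.centralizer (P : Set G))) ∧ Cfsg.IsInducedBlock M (P ⊔ Subgroup.centralizer (P : Set G)) b B) ∧ ∀ b b' : Set (Cfsg.IrrCharacter ↥(P ⊔ Subgroup.centralizer (P : Set G))), Cfsg.IsInducedBlock M (P ⊔ Subgroup.centralizer (P : Set G)) b B → Cfsg.IsInducedBlock M (P ⊔ Subgroup.centralizer (P : Set G)) b' B → ∃ n ∈ Subgroup.normalizer (P : Set G), ∀ θ ∈ b, ∃ θ' ∈ b',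 ∀ x : ↥(P ⊔ Subgroup.centralizer (P : Set G)), ∀ hx : n * (x : G) * n⁻¹ ∈ P ⊔ Subgroup.centralizer (P : Set G), (θ' : ↥(P ⊔ Subgroup.centralizer (P : Set G)) → ℂ) x = (θ : ↥(P ⊔ Subgroup.centralizer (P : Set G)) → ℂ) ⟨n * (x : G) * n⁻¹, hx⟩ := by
  classical
  have hfinG : Fintype G := Fintype.ofFinite G
  have hPp : IsPGroup p P :=
    IsPGroup.of_card (DefectGroup.card_defectGroup hM B hB P hP)
  generalize hH : P ⊔ Subgroup.centralizer (P : Set G) = H
  have hPH : P ≤ H := by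
    rw [← hH]
    exact le_sup_left
  obtain ⟨P', hP'⟩ : ∃ P' : Subgroup H, P = P'.map H.subtype :=
    ⟨P.subgroupOf H, (Subgroup.map_subgroupOf_eq_of_le hPH).symm⟩
  subst hP'
  have hPp' : IsPGroup p P' := by
    have h1 := hPp.comap_of_injective H.subtype H.subtype_injective
    rwa [Subgroup.comap_map_eq_self_of_injective H.subtype_injective] at h1
  have hsub : (P'.map H.subtype).subgroupOf H = P' :=
    Subgroup.comap_map_eq_self_of_injective H.subtype_injective P'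
  rw [hsub]
  exact ExtFirst.ext_first hM H P' hPp' hH.symm B hB hP

end Cfsg.Agent.S0973
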