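import Mathlib
import Cfsg.Statements.S1002
import Cfsg.Agent.Lib.Helper6.TIPrime4

set_option autoImplicit false
open Cfsg

namespace Cfsg.Agent.S1002

/-- No finite simple group has order 1004913 = 3^3 * 7 * 13 * 409. -/
theorem result {G : Type*} [Group G] [Finite G] [IsSimpleGroup G] : Nat.card G ≠ 1004913 := by
  intro hcard
  classical
  obtain ⟨_⟩ := nonempty_fintype G
  haveI hfinIrr : Fintype (Cfsg.IrrCharacter G) := Cfsg.Agent.Lib.Helper1.irrFintype
  obtain ⟨⟨P, hP⟩, hna⟩ := Cfsg.Agent.Lib.Helper6.TIPrime.exists_tiHyp (G := G) 409 3 819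
    (by norm_num) (by norm_num) (by norm_num) (by rw [hcard]) (by norm_num) (by
      intro n hn h
      have h1 : n ≤ 2457 := Nat.le_of_dvd (by norm_num) hn
      obtain ⟨k, hk⟩ : ∃ k, n = 409 * k + 1 := ⟨n / 409, by omega⟩
      have hk6 : k ≤ 6 := by omega
      subst hk
      interval_cases k <;> simp_all)
  obtain ⟨d, a, b, ε, δ₁, δ₂, ψ₁, ψ₂, hε, hδ₁, hδ₂, hψ₁, hψ₂, ha, hb, hd0, hdvd, hadvd, hbdvd,
    hbounda, hboundb, hdmod, hamod, hbmod, hrel⟩ := hP.endgame3 (by norm_num)
  rw [hcard] at hdvd hadvd hbdvd hbounda hboundb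
  norm_num at hbounda hboundb
  have hd85 : d ≤ 85 := by nlinarith
  have hab : a = 1 ∨ b = 1 := by
    unfold Int.ModEq at hdmod hamod hbmod
    push_cast at hdmod hamod hbmod
    rcases hε with rfl | rfl
    · have hd3 : d = 3 := by omega
      subst hd3
      have ha1001 : a ≤ 1001 := by nlinarith
      have hb1001 : b ≤ 1001 := by nlinarith
      rcases hδ₁ with rfl | rfl <;> rcases hδ₂ with rfl | rfl
      · left; omega
      · have h1 : a = 410 ∨ b = 817 := by omega
        rcases h1 with rfl | rfl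
        · norm_num at hadvd
        · norm_num at hbdvd
      · have h1 : b = 410 ∨ a = 817 := by omega
        rcases h1 with rfl | rfl
        · norm_num at hbdvd
        · norm_num at hadvd
      · omega
    · omega
  rcases hab with h1 | h1
  · exact hψ₁ (Cfsg.Agent.Lib.Helper6.TIPrime.linear_trivial hna ψ₁ (ha.trans h1))
  · exact hψ₂ (Cfsg.Agent.Lib.Helper6.TIPrime.linear_trivial hna ψ₂ (hb.trans h1))

end Cfsg.Agent.S1002
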