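import Cfsg.Statements.S1242
import Mathlib
import Cfsg.Agent.Lib.Helper8.TrCtl
import Cfsg.Agent.Lib.Helper16.Residual

set_option autoImplicit false
open Cfsg

namespace Cfsg.Agent.S1242

open Cfsg.Agent.Lib.Helper8.TrCtl
open scoped IsMulCommutative

/-- Let G be a finite group, p a prime and H a subgroup of index prime to p such that any two elements of H of p-power order that are conjugate in G are conjugate in H. Then (O^p(G)·G') ∩ H = O^p(H)·H', where O^p denotes the subgroup generated by the elements of order prime to p. -/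
theorem result {G : Type*} [Group G] [Finite G] {p : ℕ} [Fact p.Prime] (H : Subgroup G) (hidx : Nat.Coprime p H.index) (hfus : ∀ g ∈ H, (∃ k : ℕ, orderOf g = p ^ k) → ∀ a : G, a * g * a⁻¹ ∈ H → ∃ h ∈ H, h * g * h⁻¹ = a * g * a⁻¹) : (Cfsg.pResidual p G ⊔ commutator G) ⊓ H = (Cfsg.pResidual p ↥H ⊔ commutator ↥H).map H.subtype := by
  have hp : p.Prime := Fact.out
  have hRn : (Cfsg.pResidual p ↥H).Normal := Cfsg.Agent.Lib.Helper16.Residual.pResidual_normal ↥H p
  have hNn : (Cfsg.pResidual p ↥H ⊔ commutator ↥H).Normal := inferInstance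
  have : IsMulCommutative (↥H ⧸ (Cfsg.pResidual p ↥H ⊔ commutator ↥H)) :=
    Subgroup.Normal.quotient_commutative_iff_commutator_le.mpr le_sup_right
  -- p'-elements die
  have F1 : ∀ y : ↥H, (orderOf y).Coprime p →
      (QuotientGroup.mk' (Cfsg.pResidual p ↥H ⊔ commutator ↥H)) y = 1 := by
    intro y hy
    rw [QuotientGroup.mk'_apply, QuotientGroup.eq_one_iff]
    exact le_sup_left (a := Cfsg.pResidual p ↥H) (Subgroup.subset_closure hy)
  have F2 : ∀ a : ↥H ⧸ (Cfsg.pResidual p ↥H ⊔ commutator ↥H), ∃ k : ℕ, a ^ (p ^ k) = 1 := by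
    intro a
    obtain ⟨y, rfl⟩ := QuotientGroup.mk'_surjective _ a
    obtain ⟨k, hk⟩ := Cfsg.Agent.Lib.Helper16.Residual.exists_pow_mem_pResidual (p := p) y
    refine ⟨k, ?_⟩
    rw [← map_pow, QuotientGroup.mk'_apply, QuotientGroup.eq_one_iff]
    exact le_sup_left (a := Cfsg.pResidual p ↥H) hk
  have F3 : ∀ (x : ↥H) (e : ℕ), orderOf (x : G) = p ^ e →
      MonoidHom.transfer (QuotientGroup.mk' (Cfsg.pResidual p ↥H ⊔ commutator ↥H)) (x : G) =
        (QuotientGroup.mk' (Cfsg.pResidual p ↥H ⊔ commutator ↥H)) x ^ H.index := by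
    intro x e he
    apply transfer_eq_pow_of
    intro n a h
    have hxn : (x : G) ^ n ∈ H := H.pow_mem x.2 n
    have hord : ∃ k : ℕ, orderOf ((x : G) ^ n) = p ^ k := by
      have hd : orderOf ((x : G) ^ n) ∣ p ^ e := by
        rw [← he]; exact orderOf_pow_dvd n
      obtain ⟨k, _, hk⟩ := (Nat.dvd_prime_pow hp).mp hd
      exact ⟨k, hk⟩
    obtain ⟨h', hh', heq⟩ := hfus _ hxn hord a⁻¹ (by rw [inv_inv]; exact h)
    rw [inv_inv] at heq
    have e1 : (⟨a⁻¹ * (x : G) ^ n * a, h⟩ : H) = ⟨h', hh'⟩ * x ^ n * (⟨h', hh'⟩ : H)⁻¹ := by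
      apply Subtype.ext
      show a⁻¹ * (x : G) ^ n * a = h' * (x : G) ^ n * h'⁻¹
      exact heq.symm
    rw [e1, map_mul, map_mul, map_inv, mul_comm, inv_mul_cancel_left]
  have F4 : Cfsg.pResidual p G ⊔ commutator G ≤
      (MonoidHom.transfer (QuotientGroup.mk' (Cfsg.pResidual p ↥H ⊔ commutator ↥H))).ker := by
    apply sup_le
    · have hdef : Cfsg.pResidual p G = Subgroup.closure {g : G | Nat.Coprime (orderOf g) p} := rfl
      rw [hdef, Subgroup.closure_le]
      intro g hg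
      rw [SetLike.mem_coe, MonoidHom.mem_ker]
      obtain ⟨k, hk⟩ := F2 (MonoidHom.transfer (QuotientGroup.mk' (Cfsg.pResidual p ↥H ⊔ commutator ↥H)) g)
      have h1 : MonoidHom.transfer (QuotientGroup.mk' (Cfsg.pResidual p ↥H ⊔ commutator ↥H)) g ^ orderOf g = 1 := by
        rw [← map_pow, pow_orderOf_eq_one, map_one]
      exact eq_one_of_pow_coprime h1 hk (Nat.Coprime.pow_right k hg)
    · exact Abelianization.commutator_subset_ker _
  apply le_antisymm
  · rintro x ⟨hx1, hx2⟩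
    have hVx : MonoidHom.transfer (QuotientGroup.mk' (Cfsg.pResidual p ↥H ⊔ commutator ↥H)) x = 1 :=
      F4 hx1
    have hn : orderOf x ≠ 0 := (orderOf_pos x).ne'
    obtain ⟨e, m, hm, hem⟩ := Nat.exists_eq_pow_mul_and_not_dvd hn p hp.ne_one
    have hm0 : m ≠ 0 := by
      rintro rfl
      exact hm (dvd_zero p)
    have hmd : m ∣ orderOf x := ⟨p ^ e, by rw [hem, mul_comm]⟩
    have hy : orderOf (((⟨x, hx2⟩ : H) ^ m : H) : G) = p ^ e := by
      show orderOf (x ^ m) = p ^ e
      rw [orderOf_pow_of_dvd hm0 hmd, hem, Nat.mul_div_cancel _ (Nat.pos_of_ne_zero hm0)]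
    have h1 := F3 ((⟨x, hx2⟩ : H) ^ m) e hy
    have h2 : MonoidHom.transfer (QuotientGroup.mk' (Cfsg.pResidual p ↥H ⊔ commutator ↥H))
        ((((⟨x, hx2⟩ : H) ^ m : H)) : G) = 1 := by
      show MonoidHom.transfer (QuotientGroup.mk' (Cfsg.pResidual p ↥H ⊔ commutator ↥H)) (x ^ m) = 1
      rw [map_pow, hVx, one_pow]
    rw [h2] at h1
    have h3 : (QuotientGroup.mk' (Cfsg.pResidual p ↥H ⊔ commutator ↥H)) ((⟨x, hx2⟩ : H) ^ m) ^ (p ^ e) = 1 := by
      rw [← map_pow]
      have : ((⟨x, hx2⟩ : H) ^ m) ^ (p ^ e) = 1 := by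
        apply Subtype.ext
        show (x ^ m) ^ (p ^ e) = 1
        rw [← pow_mul, mul_comm, ← hem, pow_orderOf_eq_one]
      rw [this, map_one]
    have h4 : (QuotientGroup.mk' (Cfsg.pResidual p ↥H ⊔ commutator ↥H)) ((⟨x, hx2⟩ : H) ^ m) = 1 :=
      eq_one_of_pow_coprime h1.symm h3 (Nat.Coprime.pow_right e hidx.symm)
    rw [map_pow] at h4
    obtain ⟨k, hk⟩ := F2 ((QuotientGroup.mk' (Cfsg.pResidual p ↥H ⊔ commutator ↥H)) (⟨x, hx2⟩ : H))
    have hmp : Nat.Coprime m (p ^ k) :=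
      Nat.Coprime.pow_right k ((Nat.Prime.coprime_iff_not_dvd hp).mpr hm).symm
    have h5 := eq_one_of_pow_coprime h4 hk hmp
    rw [QuotientGroup.mk'_apply, QuotientGroup.eq_one_iff] at h5
    exact ⟨⟨x, hx2⟩, h5, rfl⟩
  · rw [Subgroup.map_sup]
    apply le_inf
    · apply sup_le_sup
      · rw [Subgroup.map_le_iff_le_comap]
        have hdef : Cfsg.pResidual p ↥H = Subgroup.closure {g : ↥H | Nat.Coprime (orderOf g) p} := rfl
        rw [hdef, Subgroup.closure_le]
        intro y hy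
        rw [SetLike.mem_coe, Subgroup.mem_comap]
        apply Subgroup.subset_closure
        show (orderOf (y : G)).Coprime p
        rw [Subgroup.orderOf_coe]
        exact hy
      · rw [commutator_def, Subgroup.map_commutator, commutator_def]
        exact Subgroup.commutator_mono le_top le_top
    · rw [← Subgroup.map_sup]
      exact Subgroup.map_subtype_le _

end Cfsg.Agent.S1242
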