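import Cfsg.Statements.S1183
import Mathlib
import Cfsg.Agent.S1182
import Cfsg.Agent.S1242
import Cfsg.Agent.Lib.Helper8.IsoInv
import Cfsg.Agent.Lib.Helper16.Residual
-- import your own Cfsg.Agent.* helpers here

set_option autoImplicit false
open Cfsg

namespace Cfsg.Agent.S1183

open Cfsg.Agent.Lib.Helper8.IsoInv Cfsg.Agent.Lib.Helper16.Residual

theorem pResidual_eq_top_of_sup {X : Type*} [Group X] [Finite X] (p : ℕ) [Fact p.Prime]
    (h : Cfsg.pResidual p X ⊔ commutator X = ⊤) : Cfsg.pResidual p X = ⊤ := by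
  have hN : (Cfsg.pResidual p X).Normal := pResidual_normal X p
  have hP : IsPGroup p (X ⧸ Cfsg.pResidual p X) := quotient_pResidual_isPGroup hN
  have hnil : Group.IsNilpotent (X ⧸ Cfsg.pResidual p X) := hP.isNilpotent
  have hsolv : Group.IsSolvable (X ⧸ Cfsg.pResidual p X) := inferInstance
  by_contra hne
  have hnt : Nontrivial (X ⧸ Cfsg.pResidual p X) := by
    by_contra hnn
    rw [not_nontrivial_iff_subsingleton] at hnn
    exact hne (QuotientGroup.subgroup_eq_top_of_subsingleton _ hnn)
  have hlt := Group.IsSolvable.commutator_lt_top_of_nontrivial (X ⧸ Cfsg.pResidual p X)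
  apply hlt.ne
  rw [eq_top_iff]
  intro q _
  induction q using QuotientGroup.induction_on with
  | H g =>
    have hg : g ∈ Cfsg.pResidual p X ⊔ commutator X := by rw [h]; trivial
    have hle : Cfsg.pResidual p X ⊔ commutator X ≤
        (commutator (X ⧸ Cfsg.pResidual p X)).comap (QuotientGroup.mk' (Cfsg.pResidual p X)) := by
      apply sup_le
      · intro x hx
        rw [Subgroup.mem_comap, QuotientGroup.mk'_apply, (QuotientGroup.eq_one_iff x).2 hx]
        exact Subgroup.one_mem _
      · have h2 := Subgroup.map_commutator (⊤ : Subgroup X) ⊤ (QuotientGroup.mk' (Cfsg.pResidual p X))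
        rw [← Subgroup.map_le_iff_le_comap]
        rw [commutator_def, h2, commutator_def]
        exact Subgroup.commutator_mono le_top le_top
    exact hle hg

theorem sylow_le_centralizer {G : Type*} [Group G] [Finite G] (z : G)
    (hz : Cfsg.IsIsolatedInvolution z) :
    ∃ S : Sylow 2 G, (S : Subgroup G) ≤ Subgroup.centralizer ({z} : Set G) := by
  have hzz : z * z = 1 := mul_self_of_orderOf_two hz.1
  have hzi : z⁻¹ = z := inv_eq_self_of_mul_self hzz
  have hp2 : IsPGroup 2 (Subgroup.zpowers z) := by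
    apply IsPGroup.of_card (n := 1)
    rw [Nat.card_zpowers, hz.1, pow_one]
  obtain ⟨S, hS⟩ := hp2.exists_le_sylow
  have hzS : z ∈ (S : Subgroup G) := hS (Subgroup.mem_zpowers z)
  refine ⟨S, ?_⟩
  intro g hg
  rw [Subgroup.mem_centralizer_iff]
  intro y hy
  rw [Set.mem_singleton_iff] at hy
  subst hy
  have hodd := odd_orderOf_mul_conj hz g
  have hmem : y * (g * y * g⁻¹) ∈ (S : Subgroup G) :=
    S.1.mul_mem hzS (S.1.mul_mem (S.1.mul_mem hg hzS) (S.1.inv_mem hg))
  obtain ⟨k, hk⟩ := S.2 ⟨_, hmem⟩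
  have hk' : (y * (g * y * g⁻¹)) ^ 2 ^ k = 1 := by
    have := congrArg Subtype.val hk
    simpa using this
  have hdvd : orderOf (y * (g * y * g⁻¹)) ∣ 2 ^ k := orderOf_dvd_of_pow_eq_one hk'
  have hone : orderOf (y * (g * y * g⁻¹)) = 1 := by
    have hc : Nat.Coprime (orderOf (y * (g * y * g⁻¹))) (2 ^ k) :=
      Nat.Coprime.pow_right k (Nat.coprime_two_right.mpr hodd)
    exact Nat.Coprime.eq_one_of_dvd hc hdvd
  rw [orderOf_eq_one_iff] at hone
  -- y * (g y g⁻¹) = 1 → g y g⁻¹ = y
  have h1 : g * y * g⁻¹ = y := by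
    have : g * y * g⁻¹ = y⁻¹ := by
      rw [eq_inv_iff_mul_eq_one]
      have h3 : (g * y * g⁻¹) * y = y⁻¹ * (y * (g * y * g⁻¹)) * y := by group
      rw [h3, hone]; group
    rw [this, hzi]
  calc y * g = g * y * g⁻¹ * g := by rw [h1]
    _ = g * y := by group

theorem result {G : Type*} [Group G] [Finite G] (z : G) (hz : Cfsg.IsIsolatedInvolution z) : Cfsg.pResidual 2 G = ⊤ ↔ Cfsg.pResidual 2 ↥(Subgroup.centralizer ({z} : Set G)) = ⊤ := by
  have : Fact (Nat.Prime 2) := ⟨Nat.prime_two⟩
  obtain ⟨S, hS⟩ := sylow_le_centralizer z hz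
  have hidx : Nat.Coprime 2 (Subgroup.centralizer ({z} : Set G)).index := by
    rw [Nat.Prime.coprime_iff_not_dvd Nat.prime_two]
    intro hd
    exact S.not_dvd_index (dvd_trans hd (Subgroup.index_dvd_of_le hS))
  have hfus : ∀ g ∈ Subgroup.centralizer ({z} : Set G), (∃ k : ℕ, orderOf g = 2 ^ k) →
      ∀ a : G, a * g * a⁻¹ ∈ Subgroup.centralizer ({z} : Set G) →
      ∃ h ∈ Subgroup.centralizer ({z} : Set G), h * g * h⁻¹ = a * g * a⁻¹ := by
    intro g hg _ a ha
    have hgz : Commute g z := by
      have := Subgroup.mem_centralizer_iff.mp hg z (Set.mem_singleton z)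
      exact this.symm
    have haz : Commute (a * g * a⁻¹) z := by
      have := Subgroup.mem_centralizer_iff.mp ha z (Set.mem_singleton z)
      exact this.symm
    obtain ⟨c, -, hc, hcc⟩ := Cfsg.Agent.S1182.result z hz ⊤ (Subgroup.mem_normalizer_iff.mpr (fun _ => by simp)) g (a * g * a⁻¹)
      (Subgroup.mem_top _) (Subgroup.mem_top _) hgz haz a (Subgroup.mem_top _) rfl
    refine ⟨c, ?_, hcc⟩
    rw [Subgroup.mem_centralizer_iff]
    intro y hy
    rw [Set.mem_singleton_iff] at hy
    subst hy
    exact hc.symm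
  have key := Cfsg.Agent.S1242.result (p := 2) (Subgroup.centralizer ({z} : Set G)) hidx hfus
  constructor
  · intro hG
    apply pResidual_eq_top_of_sup 2
    rw [hG, top_sup_eq, top_inf_eq] at key
    apply Subgroup.map_injective (Subgroup.centralizer ({z} : Set G)).subtype_injective
    rw [← key, ← MonoidHom.range_eq_map, Subgroup.range_subtype]
  · intro hC
    rw [hC, top_sup_eq] at key
    have hCle : Subgroup.centralizer ({z} : Set G) ≤ Cfsg.pResidual 2 G ⊔ commutator G := by
      have h1 : (⊤ : Subgroup ↥(Subgroup.centralizer ({z} : Set G))).map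
          (Subgroup.centralizer ({z} : Set G)).subtype = Subgroup.centralizer ({z} : Set G) := by
        rw [← MonoidHom.range_eq_map, Subgroup.range_subtype]
      rw [h1] at key
      exact inf_eq_right.mp key
    apply pResidual_eq_top_of_sup 2
    have hRn : (Cfsg.pResidual 2 G).Normal := pResidual_normal G 2
    have hMn : (Cfsg.pResidual 2 G ⊔ commutator G).Normal := inferInstance
    have hPq : IsPGroup 2 (G ⧸ (Cfsg.pResidual 2 G ⊔ commutator G)) := by
      intro x
      induction x using QuotientGroup.induction_on with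
      | H g =>
        obtain ⟨k, hk⟩ := exists_pow_mem_pResidual (p := 2) g
        refine ⟨k, ?_⟩
        rw [← QuotientGroup.mk_pow]
        exact (QuotientGroup.eq_one_iff _).2 (le_sup_left (a := Cfsg.pResidual 2 G) hk)
    have := sylow_sup_eq_top_of_isPGroup_quotient S _ hPq
    rw [← this]
    exact (sup_eq_right.mpr (hS.trans hCle)).symm

end Cfsg.Agent.S1183
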