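import Cfsg.Statements.S1186
import Cfsg.Agent.Lib.Helper8.IsoK

set_option autoImplicit false
open Cfsg

namespace Cfsg.Agent.S1186

open Cfsg.Agent.Lib.Helper8.IsoInv Cfsg.Agent.Lib.Helper8.IsoK

theorem card_eq_K {G : Type*} [Group G] [Finite G] (z : G) (hz : Cfsg.IsIsolatedInvolution z) :
    Nat.card G = Nat.card {k : G // Odd (orderOf k) ∧ z * k * z⁻¹ = k⁻¹} *
      Nat.card (Subgroup.centralizer ({z} : Set G)) := by
  rw [← Nat.card_prod]
  symm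
  let f : {k : G // Odd (orderOf k) ∧ z * k * z⁻¹ = k⁻¹} × (Subgroup.centralizer ({z} : Set G)) → G :=
    fun p => (p.1 : G) * (p.2 : G)
  have hf : Function.Bijective f := by
    constructor
    · rintro ⟨⟨k, hk1, hk2⟩, ⟨c, hc⟩⟩ ⟨⟨k', hk1', hk2'⟩, ⟨c', hc'⟩⟩ h
      have h' : k * c = k' * c' := h
      rw [Subgroup.mem_centralizer_singleton_iff] at hc hc'
      have e1 : k * z * k⁻¹ = (k * c) * z * (k * c)⁻¹ := by
        calc k * z * k⁻¹ = k * (z * c) * c⁻¹ * k⁻¹ := by group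
          _ = k * (c * z) * c⁻¹ * k⁻¹ := by rw [hc]
          _ = (k * c) * z * (k * c)⁻¹ := by group
      have e2 : k' * z * k'⁻¹ = (k' * c') * z * (k' * c')⁻¹ := by
        calc k' * z * k'⁻¹ = k' * (z * c') * c'⁻¹ * k'⁻¹ := by group
          _ = k' * (c' * z) * c'⁻¹ * k'⁻¹ := by rw [hc']
          _ = (k' * c') * z * (k' * c')⁻¹ := by group
      have e3 : k = k' := K_unique hk1 hk2 hk1' hk2' (by rw [e1, e2, h'])
      subst e3
      have e4 : c = c' := mul_left_cancel h'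
      subst e4
      rfl
    · intro g
      obtain ⟨k, hk1, hk2, hk3⟩ := K_exists hz g
      refine ⟨⟨⟨k, hk1, hk2⟩, ⟨k⁻¹ * g, ?_⟩⟩, ?_⟩
      · rw [Subgroup.mem_centralizer_singleton_iff]
        calc k⁻¹ * g * z = k⁻¹ * (g * z * g⁻¹) * g := by group
          _ = k⁻¹ * (k * z * k⁻¹) * g := by rw [hk3]
          _ = z * (k⁻¹ * g) := by group
      · show k * (k⁻¹ * g) = g
        group
  exact Nat.card_congr (Equiv.ofBijective f hf)

theorem mid {G : Type*} [Group G] {z s a b : G} (hss : s * s = 1) (hsz : s * z = z * s)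
    (ha : a * s = s * a) (hb : b * (s * z) = (s * z) * b) :
    (a * z * a⁻¹) * ((a * b) * z * (a * b)⁻¹) * (a * z * a⁻¹)⁻¹ = s * ((a * b) * z * (a * b)⁻¹) * s⁻¹ := by
  have hsi : s⁻¹ = s := inv_eq_self_of_mul_self hss
  have hb' : b⁻¹ * (s * z) = (s * z) * b⁻¹ := by
    calc b⁻¹ * (s * z) = b⁻¹ * ((s * z) * b) * b⁻¹ := by group
      _ = b⁻¹ * (b * (s * z)) * b⁻¹ := by rw [hb]
      _ = (s * z) * b⁻¹ := by group
  have ha' : a⁻¹ * s = s * a⁻¹ := by
    calc a⁻¹ * s = a⁻¹ * (s * a) * a⁻¹ := by group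
      _ = a⁻¹ * (a * s) * a⁻¹ := by rw [ha]
      _ = s * a⁻¹ := by group
  have h1 : (s * z) * (b * z * b⁻¹) = (b * z * b⁻¹) * (s * z) := by
    calc (s * z) * (b * z * b⁻¹) = ((s * z) * b) * z * b⁻¹ := by group
      _ = (b * (s * z)) * z * b⁻¹ := by rw [hb]
      _ = b * (s * z * z) * b⁻¹ := by group
      _ = b * (z * s * z) * b⁻¹ := by rw [hsz]
      _ = b * z * ((s * z) * b⁻¹) := by group
      _ = b * z * (b⁻¹ * (s * z)) := by rw [hb']
      _ = (b * z * b⁻¹) * (s * z) := by group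
  have h2 : z * (b * z * b⁻¹) * z⁻¹ = s * (b * z * b⁻¹) * s⁻¹ := by
    calc z * (b * z * b⁻¹) * z⁻¹ = (s * s) * z * (b * z * b⁻¹) * z⁻¹ := by rw [hss, one_mul]
      _ = s * ((s * z) * (b * z * b⁻¹)) * z⁻¹ := by group
      _ = s * ((b * z * b⁻¹) * (s * z)) * z⁻¹ := by rw [h1]
      _ = s * (b * z * b⁻¹) * s := by group
      _ = s * (b * z * b⁻¹) * s⁻¹ := by rw [hsi]
  calc (a * z * a⁻¹) * ((a * b) * z * (a * b)⁻¹) * (a * z * a⁻¹)⁻¹
      = a * (z * (b * z * b⁻¹) * z⁻¹) * a⁻¹ := by group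
    _ = a * (s * (b * z * b⁻¹) * s⁻¹) * a⁻¹ := by rw [h2]
    _ = (a * s) * (b * z * b⁻¹) * (s * a⁻¹) := by rw [hsi]; group
    _ = (s * a) * (b * z * b⁻¹) * (a⁻¹ * s) := by rw [ha, ha']
    _ = s * ((a * b) * z * (a * b)⁻¹) * s := by group
    _ = s * ((a * b) * z * (a * b)⁻¹) * s⁻¹ := by rw [hsi]

theorem sm_eq {G : Type*} [Group G] {s m w : G} (hss : s * s = 1) (hmm : m * m = 1)
    (hg : m * w * m⁻¹ = s * w * s⁻¹) :
    (s * m * s⁻¹) * (s * w * s⁻¹) * (s * m * s⁻¹)⁻¹ = m * (s * w * s⁻¹) * m⁻¹ := by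
  calc (s * m * s⁻¹) * (s * w * s⁻¹) * (s * m * s⁻¹)⁻¹ = s * (m * w * m⁻¹) * s⁻¹ := by group
    _ = s * (s * w * s⁻¹) * s⁻¹ := by rw [hg]
    _ = (s * s) * w * (s * s)⁻¹ := by group
    _ = w := by rw [hss]; group
    _ = (m * m) * w * (m * m)⁻¹ := by rw [hmm]; group
    _ = m * (m * w * m⁻¹) * m⁻¹ := by group
    _ = m * (s * w * s⁻¹) * m⁻¹ := by rw [hg]

theorem card_K_eq {G : Type*} [Group G] [Finite G] (z : G) (hz : Cfsg.IsIsolatedInvolution z)
    (s : G) (hss : s * s = 1) (hsz : s * z = z * s) :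
    Nat.card {k : G // Odd (orderOf k) ∧ z * k * z⁻¹ = k⁻¹} =
      Nat.card {k : G // Odd (orderOf k) ∧ z * k * z⁻¹ = k⁻¹ ∧ Commute k s} *
      Nat.card {k : G // Odd (orderOf k) ∧ z * k * z⁻¹ = k⁻¹ ∧ Commute k (s * z)} := by
  have hzz : z * z = 1 := mul_self_of_orderOf_two hz.1
  have hzi : z⁻¹ = z := inv_eq_self_of_mul_self hzz
  have hsi : s⁻¹ = s := inv_eq_self_of_mul_self hss
  rw [← Nat.card_prod]
  symm
  let f : {k : G // Odd (orderOf k) ∧ z * k * z⁻¹ = k⁻¹ ∧ Commute k s} ×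
      {k : G // Odd (orderOf k) ∧ z * k * z⁻¹ = k⁻¹ ∧ Commute k (s * z)} →
      {k : G // Odd (orderOf k) ∧ z * k * z⁻¹ = k⁻¹} := fun p =>
    ⟨Classical.choose (K_exists hz ((p.1 : G) * (p.2 : G))),
      (Classical.choose_spec (K_exists hz ((p.1 : G) * (p.2 : G)))).1,
      (Classical.choose_spec (K_exists hz ((p.1 : G) * (p.2 : G)))).2.1⟩
  have hfspec : ∀ p, ((f p : G)) * z * ((f p : G))⁻¹ = ((p.1 : G) * (p.2 : G)) * z * ((p.1 : G) * (p.2 : G))⁻¹ :=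
    fun p => (Classical.choose_spec (K_exists hz ((p.1 : G) * (p.2 : G)))).2.2
  have hf : Function.Bijective f := by
    constructor
    · rintro ⟨⟨a, ha1, ha2, ha3⟩, ⟨b, hb1, hb2, hb3⟩⟩ ⟨⟨a', ha1', ha2', ha3'⟩, ⟨b', hb1', hb2', hb3'⟩⟩ h
      have e1 := hfspec ⟨⟨a, ha1, ha2, ha3⟩, ⟨b, hb1, hb2, hb3⟩⟩
      have e2 := hfspec ⟨⟨a', ha1', ha2', ha3'⟩, ⟨b', hb1', hb2', hb3'⟩⟩
      rw [h] at e1
      have e3 : (a * b) * z * (a * b)⁻¹ = (a' * b') * z * (a' * b')⁻¹ := e1.symm.trans e2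
      have m1 := mid hss hsz ha3.eq hb3.eq
      have m2 := mid hss hsz ha3'.eq hb3'.eq
      rw [← e3] at m2
      have e4 : a * z * a⁻¹ = a' * z * a'⁻¹ := mid_unique hz a a' (a * b) (m1.trans m2.symm)
      have e5 : a = a' := K_unique ha1 ha2 ha1' ha2' e4
      subst e5
      have e6 : b * z * b⁻¹ = b' * z * b'⁻¹ := by
        calc b * z * b⁻¹ = a⁻¹ * ((a * b) * z * (a * b)⁻¹) * a := by group
          _ = a⁻¹ * ((a * b') * z * (a * b')⁻¹) * a := by rw [e3]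
          _ = b' * z * b'⁻¹ := by group
      have e7 : b = b' := K_unique hb1 hb2 hb1' hb2' e6
      subst e7
      rfl
    · rintro ⟨k, hk1, hk2⟩
      obtain ⟨g, hg⟩ := mid_exists hz k (s * k)
      obtain ⟨a, ha1, ha2, ha3⟩ := K_exists hz g
      have hmm : (g * z * g⁻¹) * (g * z * g⁻¹) = 1 := conj_mul_self hzz g
      have hmi : (g * z * g⁻¹)⁻¹ = g * z * g⁻¹ := inv_eq_self_of_mul_self hmm
      have hsk : (s * k) * z * (s * k)⁻¹ = s * (k * z * k⁻¹) * s⁻¹ := by group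
      rw [hsk] at hg
      have hsm : s * (g * z * g⁻¹) * s⁻¹ = g * z * g⁻¹ := by
        have e1 : s * (g * z * g⁻¹) * s⁻¹ = (s * g) * z * (s * g)⁻¹ := by group
        rw [e1]
        apply mid_unique hz (s * g) g (s * k)
        rw [← e1, hsk]
        exact sm_eq hss hmm hg
      have has : a * s = s * a := by
        obtain ⟨hc1, hc2⟩ := K_conj ha1 ha2 hsz
        have e1 : (s * a * s⁻¹) * z * (s * a * s⁻¹)⁻¹ = a * z * a⁻¹ := by
          calc (s * a * s⁻¹) * z * (s * a * s⁻¹)⁻¹ = s * a * (s⁻¹ * z * s) * a⁻¹ * s⁻¹ := by group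
            _ = s * a * z * a⁻¹ * s⁻¹ := by
                have : s⁻¹ * z * s = z := by rw [hsi, mul_assoc, ← hsz, ← mul_assoc, hss, one_mul]
                rw [mul_assoc (s * a), mul_assoc (s * a), this]; group
            _ = s * (a * z * a⁻¹) * s⁻¹ := by group
            _ = a * z * a⁻¹ := by rw [ha3, hsm]
        have e2 : s * a * s⁻¹ = a := K_unique hc1 hc2 ha1 ha2 e1
        calc a * s = (s * a * s⁻¹) * s := by rw [e2]
          _ = s * a := by group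
      have has' : a⁻¹ * s = s * a⁻¹ := by
        calc a⁻¹ * s = a⁻¹ * (s * a) * a⁻¹ := by group
          _ = a⁻¹ * (a * s) * a⁻¹ := by rw [has]
          _ = s * a⁻¹ := by group
      obtain ⟨b, hb1, hb2, hb3⟩ := K_exists hz (a⁻¹ * k)
      have hz1 : (a⁻¹ * k) * z * (a⁻¹ * k)⁻¹ = a⁻¹ * (k * z * k⁻¹) * a := by group
      rw [hz1] at hb3
      have hzz1 : z * (a⁻¹ * (k * z * k⁻¹) * a) * z⁻¹ = s * (a⁻¹ * (k * z * k⁻¹) * a) * s⁻¹ := by
        calc z * (a⁻¹ * (k * z * k⁻¹) * a) * z⁻¹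
            = a⁻¹ * ((a * z * a⁻¹) * (k * z * k⁻¹) * (a * z * a⁻¹)⁻¹) * a := by group
          _ = a⁻¹ * (s * (k * z * k⁻¹) * s⁻¹) * a := by rw [ha3, hg]
          _ = (a⁻¹ * s) * (k * z * k⁻¹) * (s * a) := by rw [hsi]; group
          _ = (s * a⁻¹) * (k * z * k⁻¹) * (a * s) := by rw [has, has']
          _ = s * (a⁻¹ * (k * z * k⁻¹) * a) * s := by group
          _ = s * (a⁻¹ * (k * z * k⁻¹) * a) * s⁻¹ := by rw [hsi]
      have hcz : (s * z) * z = z * (s * z) := by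
        calc (s * z) * z = (z * s) * z := by rw [hsz]
          _ = z * (s * z) := by group
      have hbsz : b * (s * z) = (s * z) * b := by
        obtain ⟨hc1, hc2⟩ := K_conj hb1 hb2 hcz
        have e1 : ((s * z) * b * (s * z)⁻¹) * z * ((s * z) * b * (s * z)⁻¹)⁻¹ = b * z * b⁻¹ := by
          have e0 : (s * z)⁻¹ * z * (s * z) = z := by
            calc (s * z)⁻¹ * z * (s * z) = (s * z)⁻¹ * (z * (s * z)) := by group
              _ = (s * z)⁻¹ * ((s * z) * z) := by rw [hcz]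
              _ = z := by group
          calc ((s * z) * b * (s * z)⁻¹) * z * ((s * z) * b * (s * z)⁻¹)⁻¹
              = (s * z) * b * ((s * z)⁻¹ * z * (s * z)) * b⁻¹ * (s * z)⁻¹ := by group
            _ = (s * z) * (b * z * b⁻¹) * (s * z)⁻¹ := by rw [e0]; group
            _ = s * (z * (a⁻¹ * (k * z * k⁻¹) * a) * z⁻¹) * s⁻¹ := by rw [hb3]; group
            _ = s * (s * (a⁻¹ * (k * z * k⁻¹) * a) * s⁻¹) * s⁻¹ := by rw [hzz1]
            _ = (s * s) * (a⁻¹ * (k * z * k⁻¹) * a) * (s * s)⁻¹ := by group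
            _ = b * z * b⁻¹ := by rw [hss, hb3]; group
        have e2 : (s * z) * b * (s * z)⁻¹ = b := K_unique hc1 hc2 hb1 hb2 e1
        calc b * (s * z) = ((s * z) * b * (s * z)⁻¹) * (s * z) := by rw [e2]
          _ = (s * z) * b := by group
      refine ⟨⟨⟨a, ha1, ha2, has⟩, ⟨b, hb1, hb2, hbsz⟩⟩, ?_⟩
      apply Subtype.ext
      have e1 := hfspec ⟨⟨a, ha1, ha2, has⟩, ⟨b, hb1, hb2, hbsz⟩⟩
      apply K_unique (f ⟨⟨a, ha1, ha2, has⟩, ⟨b, hb1, hb2, hbsz⟩⟩).2.1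
        (f ⟨⟨a, ha1, ha2, has⟩, ⟨b, hb1, hb2, hbsz⟩⟩).2.2 hk1 hk2
      rw [e1]
      show (a * b) * z * (a * b)⁻¹ = k * z * k⁻¹
      calc (a * b) * z * (a * b)⁻¹ = a * (b * z * b⁻¹) * a⁻¹ := by group
        _ = a * (a⁻¹ * (k * z * k⁻¹) * a) * a⁻¹ := by rw [hb3]
        _ = k * z * k⁻¹ := by group
  exact Nat.card_congr (Equiv.ofBijective f hf)

/-- Let z be an isolated involution of the finite group G, C = C_G(z), K the set of elements of odd order inverted by z, and s an involution of C. Then |G| = |C| · |C_K(sz)| · |C_K(s)|. -/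
theorem result {G : Type*} [Group G] [Finite G] (z : G) (hz : Cfsg.IsIsolatedInvolution z) (s : G) (hs : orderOf s = 2) (hsz : Commute s z) : Nat.card G = Nat.card (Subgroup.centralizer ({z} : Set G)) * Nat.card {k : G // Odd (orderOf k) ∧ z * k * z⁻¹ = k⁻¹ ∧ Commute k (s * z)} * Nat.card {k : G // Odd (orderOf k) ∧ z * k * z⁻¹ = k⁻¹ ∧ Commute k s} := by
  rw [card_eq_K z hz, card_K_eq z hz s (mul_self_of_orderOf_two hs) hsz.eq]
  ring

end Cfsg.Agent.S1186
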