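import Cfsg.Statements.S1313
import Cfsg.Agent.Lib.Helper9.Central

set_option autoImplicit false
open Cfsg

namespace Cfsg.Agent.S1313

/-- For a finite group H, |H| ≤ |F*(H)|!. -/
theorem result {H : Type*} [Group H] [Finite H] : Nat.card H ≤ Nat.factorial (Nat.card ↥(Cfsg.generalizedFittingSubgroup H)) := by
  open Cfsg.Agent.Lib.Helper9 in
  classical
  have hn : (Cfsg.generalizedFittingSubgroup H).Normal := gfitting_normal H
  let φ : H →* MulAut (Cfsg.generalizedFittingSubgroup H) := MulAut.conjNormal
  have hker : φ.ker ≤ Cfsg.generalizedFittingSubgroup H := by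
    intro g hg
    apply centralizer_gfitting_le H
    rw [Subgroup.mem_centralizer_iff]
    intro f hf
    rw [MonoidHom.mem_ker] at hg
    have h1 : (φ g) ⟨f, hf⟩ = ⟨f, hf⟩ := by rw [hg]; rfl
    have h2 : ((φ g) ⟨f, hf⟩ : H) = g * f * g⁻¹ := MulAut.conjNormal_apply g ⟨f, hf⟩
    rw [h1] at h2
    have h3 : f = g * f * g⁻¹ := h2
    calc f * g = g * f * g⁻¹ * g := by rw [← h3]
      _ = g * f := by group
  have e1 : Nat.card H = Nat.card φ.ker * Nat.card φ.range := by
    rw [Subgroup.card_eq_card_quotient_mul_card_subgroup φ.ker,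
      Nat.card_congr (QuotientGroup.quotientKerEquivRange φ).toEquiv, mul_comm]
  have e2 : Nat.card φ.ker ≤ Nat.card (Cfsg.generalizedFittingSubgroup H) :=
    Subgroup.card_le_of_le hker
  have e3 : Nat.card φ.range ≤ Nat.card (MulAut (Cfsg.generalizedFittingSubgroup H)) :=
    Subgroup.card_le_card_group _
  let ψ : (Cfsg.generalizedFittingSubgroup H) × MulAut (Cfsg.generalizedFittingSubgroup H) →
      Equiv.Perm (Cfsg.generalizedFittingSubgroup H) :=
    fun p => p.2.toEquiv.trans (Equiv.mulLeft p.1)
  have hψ : Function.Injective ψ := by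
    rintro ⟨a, α⟩ ⟨b, β⟩ hab
    have h1 : ∀ f, a * α f = b * β f := fun f => congrArg (fun σ => σ f) hab
    have h2 : a = b := by simpa using h1 1
    subst h2
    have h3 : α = β := by
      ext f
      have := h1 f
      exact congrArg Subtype.val (mul_left_cancel this)
    rw [h3]
  have e4 : Nat.card (Cfsg.generalizedFittingSubgroup H) *
      Nat.card (MulAut (Cfsg.generalizedFittingSubgroup H)) ≤
      Nat.factorial (Nat.card (Cfsg.generalizedFittingSubgroup H)) := by
    rw [← Nat.card_perm, ← Nat.card_prod]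
    exact Nat.card_le_card_of_injective ψ hψ
  calc Nat.card H = Nat.card φ.ker * Nat.card φ.range := e1
    _ ≤ Nat.card (Cfsg.generalizedFittingSubgroup H) *
        Nat.card (MulAut (Cfsg.generalizedFittingSubgroup H)) := Nat.mul_le_mul e2 e3
    _ ≤ _ := e4

end Cfsg.Agent.S1313
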