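import Cfsg.Statements.S1451
import Mathlib
import Cfsg.Agent.Lib.Helper5.HallTower2

set_option autoImplicit false

open Cfsg

namespace Cfsg.Agent.S1451

open Cfsg.Agent.Lib.Helper5.HallTower

/-- Let G be a solvable group of odd order such that G, or its Fitting subgroup, has no elementary abelian subgroup of order q ^ 3 for any prime q. Then G' is nilpotent; for every Sylow subgroup S of G, every characteristic subgroup T of S with T ≤ [S, S] is normal in G; and for every prime p, G has a characteristic subgroup that is a Hall subgroup for the set of primes greater than p. -/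
theorem result {G : Type*} [Group G] [Finite G] [Group.IsSolvable G] (hodd : Odd (Nat.card G)) (hr : Cfsg.RankLE 2 G ∨ Cfsg.RankLE 2 (Cfsg.fittingSubgroup G)) :
    Group.IsNilpotent ↥(commutator G) ∧
      (∀ (q : ℕ) [Fact q.Prime] (S : Sylow q G) (T : Subgroup ↥(S : Subgroup G)), T.Characteristic → T.map (S : Subgroup G).subtype ≤ ⁅(S : Subgroup G), (S : Subgroup G)⁆ →
        (T.map (S : Subgroup G).subtype).Normal) ∧
      ∀ p : ℕ, ∃ N : Subgroup G, N.Characteristic ∧ Cfsg.IsPiHall {q | q.Prime ∧ p < q} N := by
  have hrk : ∀ q : ℕ, [Fact q.Prime] → Cfsg.PRankLE q 2 ↥(Cfsg.pCore q G) := by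
    intro q hq
    rcases hr with h | h
    · exact prank_of_inj q 2 (Cfsg.pCore q G).subtype (Subgroup.subtype_injective _) (h q hq.out)
    · exact prank_of_inj q 2
        (Subgroup.inclusion (Cfsg.Agent.Lib.Lead.Cores.pCore_le_fittingSubgroup q))
        (Subgroup.inclusion_injective _) (h q hq.out)
  have hKF := comm_le_fitting hodd hrk
  exact ⟨comm_nilpotent hKF, fun q _ S T hT hTle => char_normal hodd hrk hKF q S T hT hTle,
    fun p => hall_tower hodd hrk hKF p⟩

end Cfsg.Agent.S1451
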