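import Cfsg.Statements.S1892
import Cfsg.Agent.Lib.Helper12.PSolvable
import Cfsg.Agent.Lib.Helper10.Coprime

set_option autoImplicit false
open Cfsg

namespace Cfsg.Agent.S1892

open Cfsg.Agent.Lib.Helper10.Coprime
open scoped commutatorElement

/-- the subgroup of elements normalizing `R` and acting trivially on `P` modulo `R` -/
def KR {S : Type*} [Group S] (P R : Subgroup S) : Subgroup S where
  carrier := {g | g ∈ Subgroup.normalizer (R : Set S) ∧ ∀ y ∈ P, g * y * g⁻¹ * y⁻¹ ∈ R}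
  one_mem' := by
    refine ⟨Subgroup.one_mem _, ?_⟩
    intro y _
    have e : (1 : S) * y * 1⁻¹ * y⁻¹ = 1 := by group
    rw [e]
    exact R.one_mem
  mul_mem' := by
    rintro g h ⟨hg, hg'⟩ ⟨hh, hh'⟩
    refine ⟨Subgroup.mul_mem _ hg hh, ?_⟩
    intro y hy
    have e : g * h * y * (g * h)⁻¹ * y⁻¹ = g * (h * y * h⁻¹ * y⁻¹) * g⁻¹ * (g * y * g⁻¹ * y⁻¹) := by
      group
    rw [e]
    exact R.mul_mem ((Subgroup.mem_normalizer_iff.mp hg _).mp (hh' y hy)) (hg' y hy)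
  inv_mem' := by
    rintro g ⟨hg, hg'⟩
    refine ⟨Subgroup.inv_mem _ hg, ?_⟩
    intro y hy
    have e : g⁻¹ * y * g⁻¹⁻¹ * y⁻¹ = g⁻¹ * (g * y * g⁻¹ * y⁻¹)⁻¹ * g⁻¹⁻¹ := by group
    rw [e]
    exact (Subgroup.mem_normalizer_iff.mp (Subgroup.inv_mem _ hg) _).mp (R.inv_mem (hg' y hy))

theorem mem_KR {S : Type*} [Group S] (P R : Subgroup S) (g : S) :
    g ∈ KR P R ↔ g ∈ Subgroup.normalizer (R : Set S) ∧ ∀ y ∈ P, g * y * g⁻¹ * y⁻¹ ∈ R :=
  Iff.rfl

theorem conj_mem_KR {S : Type*} [Group S] (P R : Subgroup S) [P.Normal] (n k : S)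
    (hn : n ∈ Subgroup.normalizer (R : Set S)) (hk : k ∈ KR P R) : n * k * n⁻¹ ∈ KR P R := by
  obtain ⟨hk1, hk2⟩ := hk
  refine ⟨Subgroup.mul_mem _ (Subgroup.mul_mem _ hn hk1) (Subgroup.inv_mem _ hn), ?_⟩
  intro y hy
  have hy' : n⁻¹ * y * n ∈ P := by
    have := (inferInstance : P.Normal).conj_mem y hy n⁻¹
    rwa [inv_inv] at this
  have e : n * k * n⁻¹ * y * (n * k * n⁻¹)⁻¹ * y⁻¹ =
      n * (k * (n⁻¹ * y * n) * k⁻¹ * (n⁻¹ * y * n)⁻¹) * n⁻¹ := by group
  rw [e]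
  exact (Subgroup.mem_normalizer_iff.mp hn _).mp (hk2 _ hy')

theorem pow_conj_step {S : Type*} [Group S] (x y r : S) (hr : x * y * x⁻¹ = r * y)
    (hxr : x * r = r * x) (n : ℕ) : x ^ n * y * (x ^ n)⁻¹ = r ^ n * y := by
  induction n with
  | zero => simp
  | succ n ih =>
    have e : x ^ (n + 1) * y * (x ^ (n + 1))⁻¹ = x * (x ^ n * y * (x ^ n)⁻¹) * x⁻¹ := by
      rw [pow_succ']
      group
    rw [e, ih]
    have e2 : x * (r ^ n * y) * x⁻¹ = (x * r ^ n * x⁻¹) * (x * y * x⁻¹) := by group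
    rw [e2, hr]
    have hc : Commute x (r ^ n) := (show Commute x r from hxr).pow_right n
    have e3 : x * r ^ n * x⁻¹ = r ^ n := by
      rw [hc.eq]
      group
    rw [e3, pow_succ, mul_assoc]

/-- Let S be a finite p-solvable group with no nontrivial normal subgroup of order prime to p, A a p-subgroup of S, and Q a nontrivial A-invariant subgroup of order prime to p with [A, Q] = Q. Then the commutator [O_p(S), A, Q] is nontrivial. -/
theorem result {S : Type*} [Group S] [Finite S] {p : ℕ} [Fact p.Prime]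
    (hS : Cfsg.IsPSolvable p S) (hred : Cfsg.pPrimeCore p S = ⊥)
    (A Q : Subgroup S) (hA : IsPGroup p A) (hQ : ¬ p ∣ Nat.card Q) (hQ1 : Q ≠ ⊥)
    (hinv : ∀ a ∈ A, ∀ x ∈ Q, a * x * a⁻¹ ∈ Q) (hAQ : ⁅A, Q⁆ = Q) :
    ⁅⁅Cfsg.pCore p S, A⁆, Q⁆ ≠ ⊥ := by
  intro hbot
  have hPn : (pCore p S).Normal := pCore_normal p S
  have hPp : IsPGroup p ↥(pCore p S) := Cfsg.Agent.Lib.Helper9.pCore_isPGroup p S
  have hRP : ⁅pCore p S, A⁆ ≤ pCore p S := Subgroup.commutator_le_left _ _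
  have hcent := Subgroup.commutator_eq_bot_iff_le_centralizer.mp hbot
  have hQN : Q ≤ Subgroup.normalizer ((⁅pCore p S, A⁆ : Subgroup S) : Set S) := by
    intro q hq
    apply mem_normalizer_of_conj_mem
    intro s hs
    have h1 := Subgroup.mem_centralizer_iff.mp (hcent hs) q hq
    have e : q * s * q⁻¹ = s := by
      rw [h1]
      group
    rw [e]
    exact hs
  have hAN : A ≤ Subgroup.normalizer ((⁅pCore p S, A⁆ : Subgroup S) : Set S) :=
    le_normalizer_commutator_right _ _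
  have hAK : A ≤ KR (pCore p S) ⁅pCore p S, A⁆ := by
    intro a ha
    refine ⟨hAN ha, ?_⟩
    intro y hy
    have h1 : ⁅y, a⁆ ∈ ⁅pCore p S, A⁆ := Subgroup.commutator_mem_commutator hy ha
    have e : a * y * a⁻¹ * y⁻¹ = ⁅y, a⁆⁻¹ := by
      rw [commutatorElement_def]
      group
    rw [e]
    exact Subgroup.inv_mem _ h1
  have hQK : Q ≤ KR (pCore p S) ⁅pCore p S, A⁆ := by
    have h1 : ⁅A, Q⁆ ≤ KR (pCore p S) ⁅pCore p S, A⁆ := by
      rw [Subgroup.commutator_le]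
      intro a ha q hq
      have e : ⁅a, q⁆ = a * (q * a⁻¹ * q⁻¹) := by
        rw [commutatorElement_def]
        group
      rw [e]
      exact Subgroup.mul_mem _ (hAK ha)
        (conj_mem_KR _ _ q a⁻¹ (hQN hq) (Subgroup.inv_mem _ (hAK ha)))
    rwa [hAQ] at h1
  have hQC : Q ≤ Subgroup.centralizer (pCore p S : Set S) := by
    intro x hx
    rw [Subgroup.mem_centralizer_iff]
    intro y hy
    obtain ⟨-, hx2⟩ := hQK hx
    have hr := hx2 y hy
    have hxr : x * (x * y * x⁻¹ * y⁻¹) = (x * y * x⁻¹ * y⁻¹) * x :=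
      Subgroup.mem_centralizer_iff.mp (hcent hr) x hx
    have hconj : x * y * x⁻¹ = (x * y * x⁻¹ * y⁻¹) * y := by group
    have h1 := pow_conj_step x y _ hconj hxr (orderOf x)
    rw [pow_orderOf_eq_one] at h1
    have h2 : (x * y * x⁻¹ * y⁻¹) ^ orderOf x = 1 := by
      have : (x * y * x⁻¹ * y⁻¹) ^ orderOf x * y = y := by
        rw [← h1]
        group
      exact mul_eq_right.mp this
    obtain ⟨k, hk⟩ := (hPp.to_le hRP) ⟨_, hr⟩
    have hk' : (x * y * x⁻¹ * y⁻¹) ^ p ^ k = 1 := by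
      have := congrArg Subtype.val hk
      rwa [Subgroup.coe_pow] at this
    have hcop : (orderOf (x * y * x⁻¹ * y⁻¹)).Coprime p := by
      have h3 : orderOf (x * y * x⁻¹ * y⁻¹) ∣ orderOf x := orderOf_dvd_of_pow_eq_one h2
      have h4 : orderOf x ∣ Nat.card Q := Subgroup.orderOf_dvd_natCard Q hx
      have h5 : (Nat.card Q).Coprime p :=
        ((Nat.Prime.coprime_iff_not_dvd Fact.out).mpr hQ).symm
      exact Nat.Coprime.coprime_dvd_left (h3.trans h4) h5
    have h6 := Cfsg.Agent.Lib.Helper12.PSolvable.eq_one_of_coprime_of_pow k hk' hcop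
    have : x * y * x⁻¹ = y := by
      rw [hconj, h6, one_mul]
    calc y * x = (x * y * x⁻¹) * x := by rw [this]
      _ = x * y := by group
  have hQP : Q ≤ pCore p S :=
    hQC.trans (Cfsg.Agent.Lib.Helper12.PSolvable.hall_higman hS hred)
  apply hQ1
  rw [eq_bot_iff]
  intro x hx
  rw [Subgroup.mem_bot]
  obtain ⟨k, hk⟩ := hPp ⟨x, hQP hx⟩
  have hk' : x ^ p ^ k = 1 := by
    have := congrArg Subtype.val hk
    rwa [Subgroup.coe_pow] at this
  have hcop : (orderOf x).Coprime p := by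
    have h4 : orderOf x ∣ Nat.card Q := Subgroup.orderOf_dvd_natCard Q hx
    have h5 : (Nat.card Q).Coprime p :=
      ((Nat.Prime.coprime_iff_not_dvd Fact.out).mpr hQ).symm
    exact Nat.Coprime.coprime_dvd_left h4 h5
  exact Cfsg.Agent.Lib.Helper12.PSolvable.eq_one_of_coprime_of_pow k hk' hcop

end Cfsg.Agent.S1892
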