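import Cfsg.Statements.S1894
import Cfsg.Agent.Lib.Helper12.PGroupLemmas

set_option autoImplicit false
open Cfsg

namespace Cfsg.Agent.S1894

open Cfsg.Agent.Lib.Helper12.PGroupLemmas

/-- Let P be a finite p-group, A a normal subgroup of P and B an abelian subgroup of A that is normal in P. Then some subgroup C of A containing B is normal in P and is self-centralizing and normal in A (C ∈ SCN(A)). -/
theorem result {P : Type*} [Group P] [Finite P] {p : ℕ} [Fact p.Prime] (hP : IsPGroup p P)
    (A : Subgroup P) [A.Normal] (B : Subgroup P) [B.Normal] (hBA : B ≤ A) (hB : IsMulCommutative B) :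
    ∃ C : Subgroup P, C.Normal ∧ B ≤ C ∧ Cfsg.IsSCN A C := by
  classical
  have hfin : ({C : Subgroup P | C.Normal ∧ B ≤ C ∧ C ≤ A ∧ IsMulCommutative ↥C}).Finite :=
    Set.toFinite _
  obtain ⟨C, hC, hmax⟩ := hfin.exists_maximal ⟨B, inferInstance, le_rfl, hBA, hB⟩
  obtain ⟨hCn, hBC, hCA, hCcomm⟩ := hC
  have hCcent : C ≤ Subgroup.centralizer (C : Set P) :=
    Subgroup.le_centralizer_iff_isMulCommutative.mpr hCcomm
  refine ⟨C, hCn, hBC, hCA, ?_, ?_⟩
  · rw [Subgroup.normalizer_eq_top]
    exact le_top
  · apply le_antisymm _ (le_inf hCA hCcent)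
    by_contra hDC
    have hDn : (A ⊓ Subgroup.centralizer (C : Set P)).Normal := by
      have h1 : (Subgroup.centralizer (C : Set P)).Normal := inferInstance
      exact Subgroup.normal_inf_normal _ _
    obtain ⟨d, hdD, hdC, hdZ⟩ := exists_central_mod hP C (A ⊓ Subgroup.centralizer (C : Set P)) hDC
    have hdA : d ∈ A := (Subgroup.mem_inf.mp hdD).1
    have hdcent : d ∈ Subgroup.centralizer (C : Set P) := (Subgroup.mem_inf.mp hdD).2
    -- the enlarged subgroup
    have hC1n : (C ⊔ Subgroup.zpowers d).Normal := by
      constructor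
      intro n hn g
      have hmap : (C ⊔ Subgroup.zpowers d).map (MulAut.conj g).toMonoidHom ≤
          C ⊔ Subgroup.zpowers d := by
        rw [Subgroup.map_sup, sup_le_iff]
        constructor
        · rintro _ ⟨c, hc, rfl⟩
          exact Subgroup.mem_sup_left (hCn.conj_mem c hc g)
        · rw [MonoidHom.map_zpowers, Subgroup.zpowers_le]
          have e : (MulAut.conj g).toMonoidHom d = (g * d * g⁻¹ * d⁻¹) * d := by
            simp [MulAut.conj_apply]
          rw [e]
          exact Subgroup.mul_mem _ (Subgroup.mem_sup_left (hdZ g))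
            (Subgroup.mem_sup_right (Subgroup.mem_zpowers d))
      exact hmap ⟨n, hn, by simp [MulAut.conj_apply]⟩
    have hC1A : C ⊔ Subgroup.zpowers d ≤ A :=
      sup_le hCA ((Subgroup.zpowers_le).mpr hdA)
    have hC1comm : IsMulCommutative ↥(C ⊔ Subgroup.zpowers d) := by
      rw [← Subgroup.le_centralizer_iff_isMulCommutative]
      have hzc : Subgroup.zpowers d ≤ Subgroup.centralizer (C : Set P) :=
        (Subgroup.zpowers_le).mpr hdcent
      have h1 : C ⊔ Subgroup.zpowers d ≤ Subgroup.centralizer (C : Set P) := sup_le hCcent hzc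
      have h2 : C ⊔ Subgroup.zpowers d ≤ Subgroup.centralizer ((Subgroup.zpowers d : Subgroup P) : Set P) := by
        rw [sup_le_iff]
        constructor
        · intro c hc
          rw [Subgroup.mem_centralizer_iff]
          intro y hy
          have := (Subgroup.mem_centralizer_iff.mp (hzc hy)) c hc
          exact this.symm
        · rw [Subgroup.zpowers_le, Subgroup.mem_centralizer_iff]
          intro y hy
          obtain ⟨k, rfl⟩ := Subgroup.mem_zpowers_iff.mp hy
          exact ((Commute.refl d).zpow_left k).eq
      intro y hy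
      rw [Subgroup.mem_centralizer_iff]
      intro z hz
      have hz' : z ∈ C ⊔ Subgroup.zpowers d := hz
      have h3 : C ⊔ Subgroup.zpowers d ≤ Subgroup.centralizer ({y} : Set P) := by
        rw [sup_le_iff]
        constructor
        · intro c hc
          rw [Subgroup.mem_centralizer_iff]
          intro w hw
          rw [Set.mem_singleton_iff] at hw
          rw [hw]
          exact ((Subgroup.mem_centralizer_iff.mp (h1 hy)) c hc).symm
        · intro c hc
          rw [Subgroup.mem_centralizer_iff]
          intro w hw
          rw [Set.mem_singleton_iff] at hw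
          rw [hw]
          exact ((Subgroup.mem_centralizer_iff.mp (h2 hy)) c hc).symm
      have := (Subgroup.mem_centralizer_iff.mp (h3 hz')) y rfl
      exact this.symm
    have hle := hmax ⟨hC1n, hBC.trans le_sup_left, hC1A, hC1comm⟩ le_sup_left
    exact hdC (hle (Subgroup.mem_sup_right (Subgroup.mem_zpowers d)))

end Cfsg.Agent.S1894
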