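import Cfsg.Statements.S1898
import Cfsg.Agent.Lib.Helper12.ChainStab

set_option autoImplicit false
open Cfsg

namespace Cfsg.Agent.S1898

open scoped commutatorElement

section
variable {X : Type*} [Group X] (hel : Cfsg.IsElementaryAbelian 2 (commutator X))
  (hcen : commutator X ≤ Subgroup.center X)
include hel hcen

theorem pow_four_mul (x y : X) : (x * y) ^ 4 = x ^ 4 * y ^ 4 := by
  have hzmem : ⁅y⁻¹, x⁻¹⁆ ∈ commutator X := by
    rw [commutator_def]
    exact Subgroup.commutator_mem_commutator (Subgroup.mem_top _) (Subgroup.mem_top _)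
  have hzc : ∀ g : X, g * ⁅y⁻¹, x⁻¹⁆ = ⁅y⁻¹, x⁻¹⁆ * g := fun g =>
    Subgroup.mem_center_iff.mp (hcen hzmem) g
  have hzz : ⁅y⁻¹, x⁻¹⁆ ^ 2 = 1 := hel.2 _ hzmem
  have hyx : y * x = x * y * ⁅y⁻¹, x⁻¹⁆ := by
    rw [commutatorElement_def]; group
  generalize ⁅y⁻¹, x⁻¹⁆ = z at hzc hzz hyx
  have hzz' : z * z = 1 := by rw [← pow_two]; exact hzz
  have h2 : (x * y) ^ 2 = x ^ 2 * y ^ 2 * z := by
    calc (x * y) ^ 2 = x * (y * x) * y := by rw [pow_two]; group
      _ = x * (x * y * z) * y := by rw [hyx]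
      _ = x * x * y * (z * y) := by group
      _ = x * x * y * (y * z) := by rw [← hzc y]
      _ = x ^ 2 * y ^ 2 * z := by rw [pow_two, pow_two]; group
  have hyyx : Commute (y ^ 2) x := by
    show y ^ 2 * x = x * y ^ 2
    calc y ^ 2 * x = y * (y * x) := by rw [pow_two]; group
      _ = y * (x * y * z) := by rw [hyx]
      _ = (y * x) * y * z := by group
      _ = (x * y * z) * y * z := by rw [hyx]
      _ = x * y * (z * y) * z := by group
      _ = x * y * (y * z) * z := by rw [← hzc y]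
      _ = x * y * y * (z * z) := by group
      _ = x * y ^ 2 := by rw [hzz', mul_one, pow_two]; group
  have hc2 : Commute (x ^ 2) (y ^ 2) := (hyyx.pow_right 2).symm
  have hc1 : Commute (x ^ 2 * y ^ 2) z := hzc _
  calc (x * y) ^ 4 = ((x * y) ^ 2) ^ 2 := by rw [← pow_mul]
    _ = (x ^ 2 * y ^ 2 * z) ^ 2 := by rw [h2]
    _ = (x ^ 2 * y ^ 2) ^ 2 * z ^ 2 := hc1.mul_pow 2
    _ = (x ^ 2) ^ 2 * (y ^ 2) ^ 2 := by rw [hzz, mul_one, hc2.mul_pow 2]
    _ = x ^ 4 * y ^ 4 := by rw [← pow_mul, ← pow_mul]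

theorem pow_four_pow_mul (j : ℕ) (x y : X) : (x * y) ^ (4 ^ j) = x ^ (4 ^ j) * y ^ (4 ^ j) := by
  induction j with
  | zero => simp
  | succ j ih =>
    rw [pow_succ, pow_mul, pow_mul, pow_mul, ih]
    exact pow_four_mul hel hcen _ _

/-- `x ↦ x ^ (4 ^ j)` as an endomorphism -/
def θ (j : ℕ) : X →* X where
  toFun x := x ^ (4 ^ j)
  map_one' := one_pow _
  map_mul' := pow_four_pow_mul hel hcen j

end

/-- Let X be a finite 2-group whose derived subgroup is elementary abelian and central. Then the subgroup generated by the elements of order dividing 4 has exponent dividing 4, and every automorphism of X fixing each element of order dividing 4 has 2-power order. -/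
theorem result {X : Type*} [Group X] [Finite X] (hX : IsPGroup 2 X)
    (hel : Cfsg.IsElementaryAbelian 2 (commutator X)) (hcen : commutator X ≤ Subgroup.center X) :
    (∀ x ∈ Subgroup.closure {g : X | g ^ 4 = 1}, x ^ 4 = 1) ∧
      ∀ φ : MulAut X, (∀ g : X, g ^ 4 = 1 → φ g = g) → ∃ k : ℕ, φ ^ (2 ^ k) = 1 := by
  constructor
  · intro x hx
    have h1 : Subgroup.closure {g : X | g ^ 4 = 1} ≤ (θ hel hcen 1).ker := by
      rw [Subgroup.closure_le]
      intro g hg
      show g ^ (4 ^ 1) = 1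
      rw [pow_one]; exact hg
    have h2 := h1 hx
    have h3 : x ^ (4 ^ 1) = 1 := h2
    rw [pow_one] at h3
    exact h3
  · intro φ hφ
    haveI : Fact (Nat.Prime 2) := ⟨Nat.prime_two⟩
    obtain ⟨e, he⟩ := IsPGroup.iff_card.mp hX
    -- the chain N i = ker (θ (e + 1 - i))
    have htop : (θ hel hcen (e + 1)).ker = ⊤ := by
      rw [eq_top_iff]
      intro x _
      show x ^ (4 ^ (e + 1)) = 1
      have h1 : x ^ (2 ^ e) = 1 := by rw [← he]; exact pow_card_eq_one'
      have h2 : (4 : ℕ) ^ (e + 1) = 2 ^ e * 2 ^ (e + 2) := by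
        rw [show (4 : ℕ) = 2 ^ 2 by norm_num, ← pow_mul, ← pow_add]
        congr 1; omega
      rw [h2, pow_mul, h1, one_pow]
    have hφθ : ∀ (j : ℕ) (x : X), (θ hel hcen j) (φ x) = φ ((θ hel hcen j) x) := by
      intro j x
      show (φ x) ^ (4 ^ j) = φ (x ^ (4 ^ j))
      rw [map_pow]
    have key := Cfsg.Agent.Lib.Helper12.ChainStab.exists_pow_eq_one_of_chain hX φ
      (fun i => (θ hel hcen (e + 1 - i)).ker) e (by simpa using htop)
      ⟨0, by
        intro x hx
        have h1 : x ^ (4 ^ (e + 1 - e)) = 1 := hx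
        rw [show e + 1 - e = 1 by omega, pow_one] at h1
        rw [pow_zero, pow_one]
        exact hφ x h1⟩
      (by
        intro i hi
        constructor
        · intro x hx
          have h1 : (θ hel hcen (e + 1 - i)) x = 1 := hx
          show (θ hel hcen (e + 1 - i)) (φ x) = 1
          rw [hφθ, h1, map_one]
        · intro x hx
          have h1 : x ^ (4 ^ (e + 1 - i)) = 1 := hx
          show (θ hel hcen (e + 1 - (i + 1))) (x⁻¹ * φ x) = 1
          have h2 : ((θ hel hcen (e + 1 - (i + 1))) x) ^ 4 = 1 := by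
            show (x ^ (4 ^ (e + 1 - (i + 1)))) ^ 4 = 1
            rw [← pow_mul, ← pow_succ, show e + 1 - (i + 1) + 1 = e + 1 - i by omega]
            exact h1
          have h3 := hφ _ h2
          rw [map_mul, map_inv, hφθ, h3, inv_mul_cancel])
    exact key

end Cfsg.Agent.S1898
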