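import Cfsg.Statements.S1899

set_option autoImplicit false
open Cfsg

namespace Cfsg.Agent.S1899

/-- Let a dihedral group of order 2n, n odd and n > 1, act on a finite abelian 2-group A through automorphisms d and t with d^n = 1, t² = 1 and t d t⁻¹ = d⁻¹, and suppose that d fixes only the identity. Then A is the internal direct product of C_A(t) and its image under d. -/
theorem result {A : Type*} [CommGroup A] [Finite A] (hA : IsPGroup 2 A)
    {n : ℕ} (hn : Odd n) (hn1 : 1 < n) (d t : MulAut A) (hd : d ^ n = 1) (ht : t ^ 2 = 1) (hdt : t * d * t⁻¹ = d⁻¹)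
    (hfix : ∀ a : A, d a = a → a = 1) :
    (MulEquiv.toMonoidHom t).eqLocus (MonoidHom.id A) ⊓ ((MulEquiv.toMonoidHom t).eqLocus (MonoidHom.id A)).map d.toMonoidHom = ⊥ ∧
      (MulEquiv.toMonoidHom t).eqLocus (MonoidHom.id A) ⊔ ((MulEquiv.toMonoidHom t).eqLocus (MonoidHom.id A)).map d.toMonoidHom = ⊤ := by
  have htt : ∀ a : A, t (t a) = a := by
    intro a
    have h := DFunLike.congr_fun ht a
    rw [pow_two, MulAut.mul_apply, MulAut.one_apply] at h
    exact h
  have h1 : t * d = d⁻¹ * t := by rw [← hdt]; group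
  have h2 : t * d⁻¹ = d * t := by
    have e : d = (t * d * t⁻¹)⁻¹ := by rw [hdt, inv_inv]
    conv_rhs => rw [e]
    group
  have htd : ∀ a : A, t (d a) = d⁻¹ (t a) := by
    intro a
    have h := DFunLike.congr_fun h1 a
    rw [MulAut.mul_apply, MulAut.mul_apply] at h
    exact h
  have htd' : ∀ a : A, t (d⁻¹ a) = d (t a) := by
    intro a
    have h := DFunLike.congr_fun h2 a
    rw [MulAut.mul_apply, MulAut.mul_apply] at h
    exact h
  have hdd : ∀ a : A, d (d⁻¹ a) = a := fun a => MulAut.apply_inv_self A d a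
  have hdd' : ∀ a : A, d⁻¹ (d a) = a := fun a => MulAut.inv_apply_self A d a
  -- d² has no nontrivial fixed points
  have hfix2 : ∀ c : A, d (d c) = c → c = 1 := by
    intro c hc
    obtain ⟨m, hm⟩ := hn
    have e : d = (d * d) ^ (m + 1) := by
      rw [← pow_two, ← pow_mul, show 2 * (m + 1) = n + 1 by omega, pow_succ, hd, one_mul]
    have hk : ∀ k : ℕ, ((d * d) ^ k) c = c := by
      intro k
      induction k with
      | zero => rw [pow_zero, MulAut.one_apply]
      | succ k ih =>
        rw [pow_succ, MulAut.mul_apply, MulAut.mul_apply, hc, ih]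
    apply hfix c
    conv_lhs => rw [e]
    exact hk (m + 1)
  constructor
  · rw [eq_bot_iff]
    intro a ha
    obtain ⟨ha1, b, hb, rfl⟩ := Subgroup.mem_inf.mp ha
    have hta : t (d b) = d b := ha1
    have htb : t b = b := hb
    rw [Subgroup.mem_bot]
    rw [htd, htb] at hta
    have h3 : d (d b) = b := by
      have := congrArg d hta
      rw [hdd] at this
      exact this.symm
    have hb1 := hfix2 b h3
    show d b = 1
    rw [hb1, map_one]
  · rw [eq_top_iff]
    intro x _
    let ψ : A →* A := MonoidHom.mk' (fun c => c * (d (d c))⁻¹) (by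
      intro a b
      simp only [map_mul, mul_inv]
      rw [mul_mul_mul_comm])
    have hinj : Function.Injective ψ := by
      rw [injective_iff_map_eq_one]
      intro c hc
      apply hfix2
      have hc' : c * (d (d c))⁻¹ = 1 := hc
      exact (mul_inv_eq_one.mp hc').symm
    obtain ⟨c, hc⟩ := Finite.surjective_of_injective hinj x
    have hc' : c * (d (d c))⁻¹ = x := hc
    have hmem1 : t c * c ∈ (MulEquiv.toMonoidHom t).eqLocus (MonoidHom.id A) := by
      show t (t c * c) = t c * c
      rw [map_mul, htt, mul_comm]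
    have hmem2 : t c * d (d c) ∈
        ((MulEquiv.toMonoidHom t).eqLocus (MonoidHom.id A)).map d.toMonoidHom := by
      refine ⟨d⁻¹ (t c) * d c, ?_, ?_⟩
      · show t (d⁻¹ (t c) * d c) = d⁻¹ (t c) * d c
        rw [map_mul, htd', htt, htd, mul_comm]
      · show d (d⁻¹ (t c) * d c) = t c * d (d c)
        rw [map_mul, hdd]
    have e : x = (t c * c) * (t c * d (d c))⁻¹ := by
      rw [← hc', mul_inv, mul_mul_mul_comm, mul_inv_cancel, one_mul]
    rw [e]
    exact Subgroup.mul_mem_sup hmem1 (Subgroup.inv_mem _ hmem2)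

end Cfsg.Agent.S1899
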