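import Cfsg.Statements.S1900
import Cfsg.Agent.Lib.Helper16.Generation
import Cfsg.Agent.Lib.Helper10.Coprime
import Cfsg.Agent.Lib.Helper9.Local
import Cfsg.Agent.Lib.Helper12.FusionLift

set_option autoImplicit false
open Cfsg

namespace Cfsg.Agent.S1900

open Cfsg.Agent.Lib.Helper10.Coprime Cfsg.Agent.Lib.Helper12.FusionLift Cfsg.Agent.Lib.Helper12.CharP

universe u

/-- If `X` acts coprimely and fixed-point-freely on `E`, normalizes `F ≤ E`, and `e ∈ E` is fixed
by `X` modulo `F`, then `e ∈ F`. -/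
theorem fpf_lift {G : Type u} [Group G] [Finite G] (E F X : Subgroup G)
    (hFE : F ≤ E) (hXE : X ≤ Subgroup.normalizer (E : Set G)) (hXF : X ≤ Subgroup.normalizer (F : Set G))
    (hcop : (Nat.card E).Coprime (Nat.card X)) (hsolv : Group.IsSolvable F ∨ Group.IsSolvable X)
    (hfix : E ⊓ Subgroup.centralizer (X : Set G) = ⊥)
    (e : G) (he : e ∈ E) (h : ∀ a ∈ X, e⁻¹ * a * e * a⁻¹ ∈ F) : e ∈ F := by
  have hcopF : (Nat.card F).Coprime (Nat.card X) :=
    Nat.Coprime.coprime_dvd_left (Subgroup.card_dvd_of_le hFE) hcop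
  obtain ⟨f, hf, hconj⟩ := key_lemma F X hXF hcopF hsolv e h
  have hdisj : X ⊓ E = ⊥ := Subgroup.inf_eq_bot_of_coprime hcop.symm
  have hef : e * f ∈ E := E.mul_mem he (hFE hf)
  have hc := mem_centralizer_of_normalizes X E hXE hdisj (e * f) hef hconj
  have h1 : e * f ∈ E ⊓ Subgroup.centralizer (X : Set G) := ⟨hef, hc⟩
  rw [hfix, Subgroup.mem_bot] at h1
  have h2 : e = f⁻¹ := eq_inv_of_mul_eq_one_left h1
  rw [h2]; exact F.inv_mem hf

theorem gen_of_card_prime {G : Type*} [Group G] [Finite G] {q : ℕ} (hq : q.Prime) (X : Subgroup G)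
    (hX : Nat.card X = q) : ∃ a ∈ X, orderOf a = q ∧ Subgroup.zpowers a = X := by
  have hne : X ≠ ⊥ := by
    intro h
    rw [h, Subgroup.card_bot] at hX
    exact hq.one_lt.ne hX
  obtain ⟨a, ha1⟩ := (Subgroup.ne_bot_iff_exists_ne_one).mp hne
  have ha1' : (a : G) ≠ 1 := fun h => ha1 (Subtype.ext h)
  have hd : orderOf (a : G) ∣ q := by
    rw [← hX]; exact Subgroup.orderOf_dvd_natCard X a.2
  have ho : orderOf (a : G) = q := by
    rcases (Nat.dvd_prime hq).mp hd with h | h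
    · exact absurd (orderOf_eq_one_iff.mp h) ha1'
    · exact h
  refine ⟨a, a.2, ho, ?_⟩
  apply Subgroup.eq_of_le_of_card_ge (Subgroup.zpowers_le.mpr a.2)
  rw [Nat.card_zpowers, ho, hX]

/-- Let S = PQ be a finite group with P a normal Sylow p-subgroup and Q elementary abelian of order q², q a prime different from p. If exactly two subgroups X₁, X₂ of order q in Q have a nontrivial centralizer in P, then P is the internal direct product of C_P(X₁) and C_P(X₂): they commute elementwise, meet trivially and generate P. -/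
theorem result {S : Type*} [Group S] [Finite S] {p q : ℕ} [Fact p.Prime] [Fact q.Prime] (hpq : p ≠ q)
    (P : Sylow p S) [(P : Subgroup S).Normal] (Q : Subgroup S) (hQ : Cfsg.IsElementaryAbelian q Q) (hQc : Nat.card Q = q ^ 2)
    (hS : (P : Subgroup S) ⊔ Q = ⊤)
    (X₁ X₂ : Subgroup S) (h₁ : X₁ ≤ Q) (h₂ : X₂ ≤ Q) (h₁₂ : X₁ ≠ X₂) (hc₁ : Nat.card X₁ = q) (hc₂ : Nat.card X₂ = q)
    (hf₁ : (P : Subgroup S) ⊓ Subgroup.centralizer (X₁ : Set S) ≠ ⊥)
    (hf₂ : (P : Subgroup S) ⊓ Subgroup.centralizer (X₂ : Set S) ≠ ⊥)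
    (honly : ∀ X : Subgroup S, X ≤ Q → Nat.card X = q →
      (P : Subgroup S) ⊓ Subgroup.centralizer (X : Set S) ≠ ⊥ → X = X₁ ∨ X = X₂) :
    ⁅(P : Subgroup S) ⊓ Subgroup.centralizer (X₁ : Set S), (P : Subgroup S) ⊓ Subgroup.centralizer (X₂ : Set S)⁆ = ⊥ ∧
      ((P : Subgroup S) ⊓ Subgroup.centralizer (X₁ : Set S)) ⊓ ((P : Subgroup S) ⊓ Subgroup.centralizer (X₂ : Set S)) = ⊥ ∧
      ((P : Subgroup S) ⊓ Subgroup.centralizer (X₁ : Set S)) ⊔ ((P : Subgroup S) ⊓ Subgroup.centralizer (X₂ : Set S)) = P := by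
  classical
  have hp := (Fact.out : p.Prime)
  have hq := (Fact.out : q.Prime)
  have hPn : (P : Subgroup S).Normal := inferInstance
  have hPp : IsPGroup p (P : Subgroup S) := P.isPGroup'
  have hQc : ∀ x ∈ Q, ∀ y ∈ Q, x * y = y * x := by
    intro x hx y hy
    have h1 := hQ.1.is_comm.comm (⟨x, hx⟩ : Q) ⟨y, hy⟩
    exact congrArg Subtype.val h1
  obtain ⟨a, haX, hao, haz⟩ := gen_of_card_prime hq X₁ hc₁
  obtain ⟨b, hbX, hbo, hbz⟩ := gen_of_card_prime hq X₂ hc₂
  have haQ : a ∈ Q := h₁ haX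
  have hbQ : b ∈ Q := h₂ hbX
  have hab : a * b = b * a := hQc a haQ b hbQ
  have hap : a ^ q = 1 := hQ.2 a haQ
  have hanb : a ∉ Subgroup.zpowers b := by
    intro h
    apply h₁₂
    have hle : X₁ ≤ X₂ := by rw [← haz, ← hbz]; exact Subgroup.zpowers_le.mpr h
    exact Subgroup.eq_of_le_of_card_ge hle (by rw [hc₁, hc₂])
  have hcopP : ∀ R : Subgroup S, R ≤ (P : Subgroup S) → (Nat.card R).Coprime q := by
    intro R hR
    obtain ⟨n, hn⟩ := IsPGroup.iff_card.mp (hPp.to_le hR)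
    rw [hn]
    exact Nat.Coprime.pow_left n ((Nat.coprime_primes hp hq).mpr hpq)
  have hcen : ∀ c : S, Subgroup.centralizer {c} ≤
      Subgroup.centralizer ((Subgroup.zpowers c : Subgroup S) : Set S) := by
    intro c g hg
    rw [Subgroup.mem_centralizer_iff] at hg ⊢
    intro x hx
    obtain ⟨k, rfl⟩ := Subgroup.mem_zpowers_iff.mp hx
    have h1 : c * g = g * c := hg c (Set.mem_singleton c)
    exact (Commute.zpow_left (show Commute c g from h1) k).eq
  have gen : ∀ R : Subgroup S, R ≤ (P : Subgroup S) → a ∈ Subgroup.normalizer (R : Set S) →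
      b ∈ Subgroup.normalizer (R : Set S) →
      R ≤ (R ⊓ Subgroup.centralizer (X₁ : Set S)) ⊔ (R ⊓ Subgroup.centralizer (X₂ : Set S)) := by
    intro R hRP haR hbR
    apply Cfsg.Agent.Lib.Helper16.Generation.gen_by_centralizers (p := q) R (hcopP R hRP) a b haR hbR
      hab hap hbo hanb
    rintro c hc1 ⟨i, j, hcij⟩
    have hcQ : c ∈ Q := by rw [hcij]; exact Q.mul_mem (Q.pow_mem haQ i) (Q.pow_mem hbQ j)
    have hco : orderOf c = q := by
      have h1 : orderOf c ∣ q := orderOf_dvd_of_pow_eq_one (hQ.2 c hcQ)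
      rcases (Nat.dvd_prime hq).mp h1 with h | h
      · exact absurd (orderOf_eq_one_iff.mp h) hc1
      · exact h
    have hXc : Nat.card (Subgroup.zpowers c) = q := by rw [Nat.card_zpowers, hco]
    have hXQ : Subgroup.zpowers c ≤ Q := Subgroup.zpowers_le.mpr hcQ
    by_cases hbot : (P : Subgroup S) ⊓
        Subgroup.centralizer ((Subgroup.zpowers c : Subgroup S) : Set S) = ⊥
    · intro g hg
      have h2 : g ∈ (P : Subgroup S) ⊓
          Subgroup.centralizer ((Subgroup.zpowers c : Subgroup S) : Set S) := ⟨hRP hg.1, hcen c hg.2⟩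
      rw [hbot, Subgroup.mem_bot] at h2
      rw [h2]; exact Subgroup.one_mem _
    · rcases honly _ hXQ hXc hbot with h | h
      · intro g hg
        exact Subgroup.mem_sup_left ⟨hg.1, by rw [← h]; exact hcen c hg.2⟩
      · intro g hg
        exact Subgroup.mem_sup_right ⟨hg.1, by rw [← h]; exact hcen c hg.2⟩
  have hQnC : ∀ X : Subgroup S, X ≤ Q → ∀ g ∈ Q,
      ∀ y ∈ (P : Subgroup S) ⊓ Subgroup.centralizer (X : Set S),
      g * y * g⁻¹ ∈ (P : Subgroup S) ⊓ Subgroup.centralizer (X : Set S) := by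
    intro X hXQ g hg y hy
    refine Subgroup.mem_inf.mpr ⟨hPn.conj_mem y hy.1 g, ?_⟩
    rw [Subgroup.mem_centralizer_iff]
    intro x hx
    have h1 : x * y = y * x := (Subgroup.mem_centralizer_iff.mp hy.2) x hx
    have h2 : g * x = x * g := hQc g hg x (hXQ hx)
    have h3 : x * g⁻¹ = g⁻¹ * x := by
      calc x * g⁻¹ = g⁻¹ * (g * x) * g⁻¹ := by group
        _ = g⁻¹ * (x * g) * g⁻¹ := by rw [h2]
        _ = g⁻¹ * x := by group
    calc x * (g * y * g⁻¹) = (x * g) * y * g⁻¹ := by group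
      _ = (g * x) * y * g⁻¹ := by rw [h2]
      _ = g * (x * y) * g⁻¹ := by group
      _ = g * (y * x) * g⁻¹ := by rw [h1]
      _ = g * y * (x * g⁻¹) := by group
      _ = g * y * (g⁻¹ * x) := by rw [h3]
      _ = g * y * g⁻¹ * x := by group
  have hQcenX : ∀ X : Subgroup S, X ≤ Q → ∀ g ∈ Q, g ∈ Subgroup.centralizer (X : Set S) := by
    intro X hXQ g hg
    rw [Subgroup.mem_centralizer_iff]
    intro x hx
    exact hQc x (hXQ hx) g hg
  obtain ⟨C₁, hC₁⟩ : ∃ C : Subgroup S, C = (P : Subgroup S) ⊓ Subgroup.centralizer (X₁ : Set S) :=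
    ⟨_, rfl⟩
  obtain ⟨C₂, hC₂⟩ : ∃ C : Subgroup S, C = (P : Subgroup S) ⊓ Subgroup.centralizer (X₂ : Set S) :=
    ⟨_, rfl⟩
  rw [← hC₁, ← hC₂]
  have hC₁P : C₁ ≤ (P : Subgroup S) := by rw [hC₁]; exact inf_le_left
  have hC₂P : C₂ ≤ (P : Subgroup S) := by rw [hC₂]; exact inf_le_left
  have hQC₁ : ∀ g ∈ Q, ∀ y ∈ C₁, g * y * g⁻¹ ∈ C₁ := by
    intro g hg y hy
    rw [hC₁] at hy ⊢
    exact hQnC X₁ h₁ g hg y hy
  have hQC₂ : ∀ g ∈ Q, ∀ y ∈ C₂, g * y * g⁻¹ ∈ C₂ := by
    intro g hg y hy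
    rw [hC₂] at hy ⊢
    exact hQnC X₂ h₂ g hg y hy
  have hQnC₂ : ∀ g ∈ Q, g ∈ Subgroup.normalizer (C₂ : Set S) :=
    fun g hg => mem_normalizer_of_conj_mem (hQC₂ g hg)
  -- a third subgroup of order `q`
  have hdisj : C₁ ⊓ C₂ = ⊥ := by
    have hab1 : a * b ≠ 1 := by
      intro h
      apply hanb
      have h1 : a = b⁻¹ := eq_inv_of_mul_eq_one_left h
      rw [h1]; exact Subgroup.inv_mem _ (Subgroup.mem_zpowers b)
    have habQ : a * b ∈ Q := Q.mul_mem haQ hbQ
    have hco : orderOf (a * b) = q := by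
      have h1 : orderOf (a * b) ∣ q := orderOf_dvd_of_pow_eq_one (hQ.2 _ habQ)
      rcases (Nat.dvd_prime hq).mp h1 with h | h
      · exact absurd (orderOf_eq_one_iff.mp h) hab1
      · exact h
    have hX3 : Nat.card (Subgroup.zpowers (a * b)) = q := by rw [Nat.card_zpowers, hco]
    have hbot : (P : Subgroup S) ⊓
        Subgroup.centralizer ((Subgroup.zpowers (a * b) : Subgroup S) : Set S) = ⊥ := by
      by_contra hne
      rcases honly _ (Subgroup.zpowers_le.mpr habQ) hX3 hne with h | h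
      · have h1 : a * b ∈ X₁ := by rw [← h]; exact Subgroup.mem_zpowers _
        have h2 : b ∈ X₁ := by
          have h3 := X₁.mul_mem (X₁.inv_mem haX) h1
          simpa using h3
        apply h₁₂
        symm
        have hle : X₂ ≤ X₁ := by rw [← hbz]; exact Subgroup.zpowers_le.mpr h2
        exact Subgroup.eq_of_le_of_card_ge hle (by rw [hc₁, hc₂])
      · have h1 : a * b ∈ X₂ := by rw [← h]; exact Subgroup.mem_zpowers _
        have h2 : a ∈ X₂ := by
          have h3 := X₂.mul_mem h1 (X₂.inv_mem hbX)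
          simpa using h3
        apply hanb
        rw [hbz]; exact h2
    rw [eq_bot_iff]
    intro g hg
    rw [← hbot]
    refine ⟨hC₁P hg.1, hcen (a * b) ?_⟩
    rw [Subgroup.mem_centralizer_iff]
    intro x hx
    rw [Set.mem_singleton_iff] at hx
    rw [hx]
    have hg1 : g ∈ (P : Subgroup S) ⊓ Subgroup.centralizer (X₁ : Set S) := by rw [← hC₁]; exact hg.1
    have hg2 : g ∈ (P : Subgroup S) ⊓ Subgroup.centralizer (X₂ : Set S) := by rw [← hC₂]; exact hg.2
    have e1 : a * g = g * a := (Subgroup.mem_centralizer_iff.mp hg1.2) a haX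
    have e2 : b * g = g * b := (Subgroup.mem_centralizer_iff.mp hg2.2) b hbX
    calc a * b * g = a * (b * g) := by group
      _ = a * (g * b) := by rw [e2]
      _ = (a * g) * b := by group
      _ = g * a * b := by rw [e1]
      _ = g * (a * b) := by group
  obtain ⟨N, hN⟩ : ∃ N : Subgroup S, N = (P : Subgroup S) ⊓ Subgroup.normalizer (C₂ : Set S) :=
    ⟨_, rfl⟩
  have hNP : N ≤ (P : Subgroup S) := by rw [hN]; exact inf_le_left
  have hNn : N ≤ Subgroup.normalizer (C₂ : Set S) := by rw [hN]; exact inf_le_right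
  have hC₂N : C₂ ≤ N := by rw [hN]; exact le_inf hC₂P Subgroup.le_normalizer
  have hQnN : ∀ g ∈ Q, g ∈ Subgroup.normalizer (N : Set S) := by
    intro g hg
    apply mem_normalizer_of_conj_mem
    intro y hy
    rw [hN] at hy ⊢
    exact ⟨hPn.conj_mem y hy.1 g, Subgroup.mul_mem _ (Subgroup.mul_mem _ (hQnC₂ g hg) hy.2)
      (Subgroup.inv_mem _ (hQnC₂ g hg))⟩
  obtain ⟨D₁, hD₁⟩ : ∃ D : Subgroup S, D = N ⊓ Subgroup.centralizer (X₁ : Set S) := ⟨_, rfl⟩
  have hD₁N : D₁ ≤ N := by rw [hD₁]; exact inf_le_left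
  have hD₁C₁ : D₁ ≤ C₁ := by
    rw [hD₁, hC₁]; exact inf_le_inf_right _ hNP
  have hQnD₁ : ∀ g ∈ Q, g ∈ Subgroup.normalizer (D₁ : Set S) := by
    intro g hg
    rw [hD₁]
    exact Subgroup.inf_normalizer_le_normalizer_inf
      ⟨hQnN g hg, Subgroup.le_normalizer (hQcenX X₁ h₁ g hg)⟩
  -- `D₁` centralizes `C₂`
  have hD₁cen : D₁ ≤ Subgroup.centralizer (C₂ : Set S) := by
    intro d hd
    have hres := fpf_lift D₁ (D₁ ⊓ Subgroup.centralizer (C₂ : Set S)) X₂ inf_le_left
      (fun g hg => hQnD₁ g (h₂ hg))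
      (fun g hg => Subgroup.inf_normalizer_le_normalizer_inf
        ⟨hQnD₁ g (h₂ hg), normalizer_le_normalizer_cent C₂ (hQnC₂ g (h₂ hg))⟩)
      (by rw [hc₂]; exact hcopP D₁ (hD₁N.trans hNP))
      (Or.inl (Cfsg.Agent.Lib.Helper9.isSolvable_of_isPGroup
        (hPp.to_le (inf_le_left.trans (hD₁N.trans hNP)))))
      (by
        rw [eq_bot_iff, ← hdisj]
        intro g hg
        refine ⟨hD₁C₁ hg.1, ?_⟩
        rw [hC₂]
        exact ⟨hNP (hD₁N hg.1), hg.2⟩)
      d hd
      (by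
        intro x hx
        have hxQ := h₂ hx
        have h1 : d⁻¹ * x * d * x⁻¹ ∈ D₁ := by
          have h2 := D₁.mul_mem (D₁.inv_mem hd) (conj_mem_of_mem_normalizer (hQnD₁ x hxQ) hd)
          have e : d⁻¹ * x * d * x⁻¹ = d⁻¹ * (x * d * x⁻¹) := by group
          rw [e]; exact h2
        refine Subgroup.mem_inf.mpr ⟨h1, ?_⟩
        rw [Subgroup.mem_centralizer_iff]
        intro c hc
        have hcx : ∀ c' ∈ C₂, x * c' = c' * x := by
          intro c' hc'
          rw [hC₂] at hc'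
          exact (Subgroup.mem_centralizer_iff.mp hc'.2) x hx
        have e1 : x⁻¹ * c * x = c := by
          rw [mul_assoc, ← hcx c hc]; group
        have hdc : d * c * d⁻¹ ∈ C₂ := conj_mem_of_mem_normalizer (hNn (hD₁N hd)) hc
        have e2 : x * (d * c * d⁻¹) * x⁻¹ = d * c * d⁻¹ := by
          rw [hcx _ hdc]; group
        symm
        calc (d⁻¹ * x * d * x⁻¹) * c = d⁻¹ * x * d * (x⁻¹ * c * x) * x⁻¹ := by group
          _ = d⁻¹ * x * d * c * x⁻¹ := by rw [e1]
          _ = d⁻¹ * (x * (d * c * d⁻¹) * x⁻¹) * (x * d * x⁻¹) := by group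
          _ = d⁻¹ * (d * c * d⁻¹) * (x * d * x⁻¹) := by rw [e2]
          _ = c * (d⁻¹ * x * d * x⁻¹) := by group)
    exact hres.2
  have hNgen : N ≤ D₁ ⊔ C₂ := by
    refine (gen N hNP (hQnN a haQ) (hQnN b hbQ)).trans (sup_le_sup (by rw [hD₁]) ?_)
    rw [hC₂]; exact inf_le_inf_right _ hNP
  -- the normalizer of `N` in `P` is `N`
  have hN₂ : (P : Subgroup S) ⊓ Subgroup.normalizer (N : Set S) ≤ N := by
    have hQn₂ : ∀ g ∈ Q, g ∈ Subgroup.normalizer
        (((P : Subgroup S) ⊓ Subgroup.normalizer (N : Set S) : Subgroup S) : Set S) := by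
      intro g hg
      apply mem_normalizer_of_conj_mem
      intro y hy
      exact ⟨hPn.conj_mem y hy.1 g, Subgroup.mul_mem _ (Subgroup.mul_mem _ (hQnN g hg) hy.2)
        (Subgroup.inv_mem _ (hQnN g hg))⟩
    refine (gen _ inf_le_left (hQn₂ a haQ) (hQn₂ b hbQ)).trans (sup_le ?_ ?_)
    · intro d hd
      obtain ⟨⟨hdP, hdN⟩, hdX⟩ := hd
      have hdx : ∀ g ∈ X₁, g * d = d * g := fun g hg => (Subgroup.mem_centralizer_iff.mp hdX) g hg
      rw [hN]
      refine ⟨hdP, ?_⟩
      apply mem_normalizer_of_conj_mem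
      intro c hc
      -- the subgroup `E = d C₂ d⁻¹`
      have hEP : C₂.map (MulAut.conj d).toMonoidHom ≤ (P : Subgroup S) := by
        rw [Cfsg.Agent.Lib.Helper12.SylowBasic.map_conj_le_iff]
        intro y hy
        exact hPn.conj_mem y (hC₂P hy) d
      have hXE : ∀ g ∈ X₁, g ∈ Subgroup.normalizer
          ((C₂.map (MulAut.conj d).toMonoidHom : Subgroup S) : Set S) := by
        intro g hg
        apply mem_normalizer_of_conj_mem
        intro y hy
        rw [Cfsg.Agent.Lib.Helper12.SylowBasic.mem_map_conj_iff] at hy ⊢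
        have h1 := hQC₂ g (h₁ hg) _ hy
        have e : d⁻¹ * (g * y * g⁻¹) * d = g * (d⁻¹ * y * d) * g⁻¹ := by
          have h2 := hdx g hg
          have h3 : g⁻¹ * d = d * g⁻¹ := by
            calc g⁻¹ * d = g⁻¹ * (d * g) * g⁻¹ := by group
              _ = g⁻¹ * (g * d) * g⁻¹ := by rw [h2]
              _ = d * g⁻¹ := by group
          calc d⁻¹ * (g * y * g⁻¹) * d = d⁻¹ * g * y * (g⁻¹ * d) := by group
            _ = d⁻¹ * g * y * (d * g⁻¹) := by rw [h3]
            _ = d⁻¹ * (g * d) * (d⁻¹ * y * d) * g⁻¹ := by group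
            _ = d⁻¹ * (d * g) * (d⁻¹ * y * d) * g⁻¹ := by rw [h2]
            _ = g * (d⁻¹ * y * d) * g⁻¹ := by group
        rw [e]; exact h1
      have he : d * c * d⁻¹ ∈ C₂.map (MulAut.conj d).toMonoidHom :=
        Cfsg.Agent.Lib.Helper12.SylowBasic.conj_mem_map_conj C₂ d c hc
      have hres := fpf_lift (C₂.map (MulAut.conj d).toMonoidHom)
        (C₂.map (MulAut.conj d).toMonoidHom ⊓ C₂) X₁ inf_le_left hXE
        (fun g hg => Subgroup.inf_normalizer_le_normalizer_inf ⟨hXE g hg, hQnC₂ g (h₁ hg)⟩)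
        (by rw [hc₁]; exact hcopP _ hEP)
        (Or.inl (Cfsg.Agent.Lib.Helper9.isSolvable_of_isPGroup
          (hPp.to_le (inf_le_left.trans hEP))))
        (by
          rw [eq_bot_iff]
          intro y hy
          obtain ⟨hyE, hyX⟩ := Subgroup.mem_inf.mp hy
          rw [Cfsg.Agent.Lib.Helper12.SylowBasic.mem_map_conj_iff] at hyE
          have h1 : d⁻¹ * y * d ∈ C₁ ⊓ C₂ := by
            refine Subgroup.mem_inf.mpr ⟨?_, hyE⟩
            rw [hC₁]
            refine Subgroup.mem_inf.mpr ⟨hC₂P hyE, ?_⟩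
            rw [Subgroup.mem_centralizer_iff]
            intro g hg
            have h2 := hdx g hg
            have h3 : g * y = y * g := (Subgroup.mem_centralizer_iff.mp hyX) g hg
            have h4 : g * d⁻¹ = d⁻¹ * g := by
              calc g * d⁻¹ = d⁻¹ * (d * g) * d⁻¹ := by group
                _ = d⁻¹ * (g * d) * d⁻¹ := by rw [h2]
                _ = d⁻¹ * g := by group
            calc g * (d⁻¹ * y * d) = (g * d⁻¹) * y * d := by group
              _ = (d⁻¹ * g) * y * d := by rw [h4]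
              _ = d⁻¹ * (g * y) * d := by group
              _ = d⁻¹ * (y * g) * d := by rw [h3]
              _ = d⁻¹ * y * (g * d) := by group
              _ = d⁻¹ * y * (d * g) := by rw [h2]
              _ = d⁻¹ * y * d * g := by group
          rw [hdisj, Subgroup.mem_bot] at h1
          rw [Subgroup.mem_bot]
          calc y = d * (d⁻¹ * y * d) * d⁻¹ := by group
            _ = 1 := by rw [h1]; group)
        (d * c * d⁻¹) he
        (by
          intro g hg
          have h1 : (d * c * d⁻¹)⁻¹ * g * (d * c * d⁻¹) * g⁻¹ ∈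
              C₂.map (MulAut.conj d).toMonoidHom := by
            have h2 := Subgroup.mul_mem _ (Subgroup.inv_mem _ he)
              (conj_mem_of_mem_normalizer (hXE g hg) he)
            have e : (d * c * d⁻¹)⁻¹ * g * (d * c * d⁻¹) * g⁻¹ =
                (d * c * d⁻¹)⁻¹ * (g * (d * c * d⁻¹) * g⁻¹) := by group
            rw [e]; exact h2
          refine ⟨h1, ?_⟩
          have heN : d * c * d⁻¹ ∈ N := conj_mem_of_mem_normalizer hdN (hC₂N hc)
          obtain ⟨d', hd', c', hc', hdc⟩ := mem_sup_of_le_normalizer (hD₁N.trans hNn) (hNgen heN)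
          have hd'g : g * d' = d' * g := by
            have h5 : d' ∈ Subgroup.centralizer (X₁ : Set S) := by
              have h6 := hd'
              rw [hD₁] at h6
              exact h6.2
            exact (Subgroup.mem_centralizer_iff.mp h5) g hg
          have h7 : g * c' * g⁻¹ ∈ C₂ := hQC₂ g (h₁ hg) c' hc'
          have e : (d * c * d⁻¹)⁻¹ * g * (d * c * d⁻¹) * g⁻¹ = c'⁻¹ * (g * c' * g⁻¹) := by
            rw [hdc]
            calc (d' * c')⁻¹ * g * (d' * c') * g⁻¹ = c'⁻¹ * d'⁻¹ * (g * d') * c' * g⁻¹ := by group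
              _ = c'⁻¹ * d'⁻¹ * (d' * g) * c' * g⁻¹ := by rw [hd'g]
              _ = c'⁻¹ * (g * c' * g⁻¹) := by group
          rw [e]
          exact C₂.mul_mem (C₂.inv_mem hc') h7)
      exact hres.2
    · intro y hy
      apply hC₂N
      rw [hC₂]
      exact ⟨hy.1.1, hy.2⟩
  have hNeq : N = (P : Subgroup S) := by
    by_contra hne
    have hlt : N < (P : Subgroup S) := lt_of_le_of_ne hNP hne
    have h1 := lt_inf_normalizer N (P : Subgroup S) hPp hlt
    exact lt_irrefl _ (lt_of_lt_of_le h1 hN₂)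
  have hC₁D₁ : C₁ ≤ D₁ := by
    rw [hD₁, hNeq, hC₁]
  refine ⟨?_, hdisj, ?_⟩
  · rw [Subgroup.commutator_eq_bot_iff_le_centralizer]
    exact hC₁D₁.trans hD₁cen
  · apply le_antisymm (sup_le hC₁P hC₂P)
    have h1 := gen (P : Subgroup S) le_rfl
      (by rw [Subgroup.normalizer_eq_top]; exact Subgroup.mem_top a)
      (by rw [Subgroup.normalizer_eq_top]; exact Subgroup.mem_top b)
    rw [← hC₁, ← hC₂] at h1
    exact h1

end Cfsg.Agent.S1900
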