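import Cfsg.Statements.S1901
import Cfsg.Agent.Lib.Helper12.PSolvable
import Cfsg.Agent.Lib.Helper12.SylowBasic
import Cfsg.Agent.Lib.Helper10.Coprime

set_option autoImplicit false
open Cfsg

namespace Cfsg.Agent.S1901

open Cfsg.Agent.Lib.Helper10.Coprime

universe u

theorem pow_conj_step {S : Type*} [Group S] (x y r : S) (hr : x * y * x⁻¹ = r * y)
    (hxr : x * r = r * x) (n : ℕ) : x ^ n * y * (x ^ n)⁻¹ = r ^ n * y := by
  induction n with
  | zero => simp
  | succ n ih =>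
    have e : x ^ (n + 1) * y * (x ^ (n + 1))⁻¹ = x * (x ^ n * y * (x ^ n)⁻¹) * x⁻¹ := by
      rw [pow_succ']
      group
    rw [e, ih]
    have e2 : x * (r ^ n * y) * x⁻¹ = (x * r ^ n * x⁻¹) * (x * y * x⁻¹) := by group
    rw [e2, hr]
    have hc : Commute x (r ^ n) := (show Commute x r from hxr).pow_right n
    have e3 : x * r ^ n * x⁻¹ = r ^ n := by
      rw [hc.eq]
      group
    rw [e3, pow_succ, mul_assoc]

theorem eq_one_of_mem_of_pow {G : Type*} [Group G] {p : ℕ} (Q : Subgroup G)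
    (hQ : (Nat.card Q).Coprime p) (r : G) (hr : r ∈ Q) (k : ℕ) (hk : r ^ p ^ k = 1) : r = 1 :=
  Cfsg.Agent.Lib.Helper12.PSolvable.eq_one_of_coprime_of_pow k hk
    (Nat.Coprime.coprime_dvd_left (Subgroup.orderOf_dvd_natCard Q hr) hQ)

theorem key {p : ℕ} [Fact p.Prime] : ∀ n : ℕ, ∀ (G : Type u) [Group G] [Finite G], Nat.card G = n →
    IsPSolvable p G → ∀ (Q : Subgroup G), (Nat.card Q).Coprime p → ∀ P : Sylow p G,
    Q ≤ Subgroup.normalizer ((P : Subgroup G) : Set G) →
    ∀ x ∈ Subgroup.normalizer (Q : Set G), ∀ k : ℕ, x ^ p ^ k = 1 →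
    ∀ q ∈ Q, x * q * x⁻¹ = q := by
  intro n
  induction n using Nat.strong_induction_on with
  | _ n ih =>
  intro G _ _ hn hG Q hQ P hQP x hx k hxk q hq
  by_cases hnt : Nontrivial G
  swap
  · rw [not_nontrivial_iff_subsingleton] at hnt
    exact Subsingleton.elim _ _
  obtain ⟨N, hNn, hN1, hN⟩ := Cfsg.Agent.S3744.exists_normal hG
  have hcard : Nat.card (G ⧸ N) < n := by
    have h1 : Nat.card (G ⧸ N) * Nat.card N = Nat.card G := by
      rw [← Subgroup.index_eq_card, Subgroup.index_mul_card]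
    have h2 : 1 < Nat.card N := (Subgroup.one_lt_card_iff_ne_bot N).mpr hN1
    have h3 : 0 < Nat.card (G ⧸ N) := Nat.card_pos
    rw [← hn, ← h1]
    nlinarith
  have hQbar : (Nat.card (Q.map (QuotientGroup.mk' N))).Coprime p :=
    Nat.Coprime.coprime_dvd_left (Subgroup.card_map_dvd Q _) hQ
  have hxQ : ∀ q ∈ Q, x * q * x⁻¹ ∈ Q := fun q hq =>
    (Subgroup.mem_normalizer_iff.mp hx q).mp hq
  have hstep : ∀ q ∈ Q, x * q * x⁻¹ * q⁻¹ ∈ N := by
    intro q hq
    have hP' : Q.map (QuotientGroup.mk' N) ≤ Subgroup.normalizer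
        (((P.mapSurjective (QuotientGroup.mk'_surjective N) : Sylow p (G ⧸ N)) :
          Subgroup (G ⧸ N)) : Set (G ⧸ N)) := by
      rw [Sylow.coe_mapSurjective]
      exact (Subgroup.map_mono hQP).trans (Subgroup.le_normalizer_map _)
    have hx' : QuotientGroup.mk' N x ∈ Subgroup.normalizer
        ((Q.map (QuotientGroup.mk' N) : Subgroup (G ⧸ N)) : Set (G ⧸ N)) :=
      Subgroup.le_normalizer_map _ ⟨x, hx, rfl⟩
    have hxk' : (QuotientGroup.mk' N x) ^ p ^ k = 1 := by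
      rw [← map_pow, hxk, map_one]
    have h1 := ih _ hcard (G ⧸ N) rfl (Cfsg.Agent.S3744.isPSolvable_quotient hG N)
      (Q.map (QuotientGroup.mk' N)) hQbar (P.mapSurjective (QuotientGroup.mk'_surjective N))
      hP' (QuotientGroup.mk' N x) hx' k hxk' (QuotientGroup.mk' N q) ⟨q, hq, rfl⟩
    have h2 : QuotientGroup.mk' N (x * q * x⁻¹ * q⁻¹) = 1 := by
      rw [map_mul, map_mul, map_mul, map_inv, map_inv, h1, mul_inv_cancel]
    exact (QuotientGroup.eq_one_iff _).mp h2
  have hconj : x * q * x⁻¹ = (x * q * x⁻¹ * q⁻¹) * q := by group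
  have hrQ : x * q * x⁻¹ * q⁻¹ ∈ Q := Q.mul_mem (hxQ q hq) (Q.inv_mem hq)
  rcases hN with hNp | hNc
  · -- `N` is a `p`-group: `[x, q] ∈ Q ∩ N = 1`
    obtain ⟨j, hj⟩ := hNp ⟨_, hstep q hq⟩
    have hj' : (x * q * x⁻¹ * q⁻¹) ^ p ^ j = 1 := by
      have := congrArg Subtype.val hj
      rwa [Subgroup.coe_pow] at this
    have h6 := eq_one_of_mem_of_pow Q hQ _ hrQ j hj'
    rw [hconj, h6, one_mul]
  · -- `N` is a `p'`-group
    have hPcent : ∀ r ∈ Q ⊓ N, ∀ y ∈ (P : Subgroup G), r * y = y * r := by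
      intro r hr y hy
      have h1 : r * y * r⁻¹ ∈ (P : Subgroup G) :=
        (Subgroup.mem_normalizer_iff.mp (hQP (Subgroup.mem_inf.mp hr).1) y).mp hy
      have h2 : r * y * r⁻¹ * y⁻¹ ∈ (P : Subgroup G) :=
        Subgroup.mul_mem _ h1 (Subgroup.inv_mem _ hy)
      have h3 : r * y * r⁻¹ * y⁻¹ ∈ N := by
        have e : r * y * r⁻¹ * y⁻¹ = r * (y * r⁻¹ * y⁻¹) := by group
        rw [e]
        exact N.mul_mem (Subgroup.mem_inf.mp hr).2
          (hNn.conj_mem _ (N.inv_mem (Subgroup.mem_inf.mp hr).2) y)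
      obtain ⟨j, hj⟩ := P.isPGroup' ⟨_, h2⟩
      have hj' : (r * y * r⁻¹ * y⁻¹) ^ p ^ j = 1 := by
        have := congrArg Subtype.val hj
        rwa [Subgroup.coe_pow] at this
      have h6 := eq_one_of_mem_of_pow N hNc _ h3 j hj'
      calc r * y = (r * y * r⁻¹ * y⁻¹) * (y * r) := by group
        _ = y * r := by rw [h6, one_mul]
    have hxN1 : x ∈ Subgroup.normalizer ((Q ⊓ N : Subgroup G) : Set G) := by
      apply mem_normalizer_of_conj_mem
      intro s hs
      exact Subgroup.mem_inf.mpr ⟨hxQ s (Subgroup.mem_inf.mp hs).1,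
        hNn.conj_mem _ (Subgroup.mem_inf.mp hs).2 x⟩
    have hPle : (P : Subgroup G) ≤ Subgroup.normalizer ((Q ⊓ N : Subgroup G) : Set G) := by
      intro y hy
      apply mem_normalizer_of_conj_mem
      intro s hs
      have e : y * s * y⁻¹ = s := by
        rw [← hPcent s hs y hy]
        group
      rw [e]
      exact hs
    have hzp : IsPGroup p ↥(Subgroup.zpowers x) := by
      rintro ⟨y, hy⟩
      obtain ⟨i, rfl⟩ := Subgroup.mem_zpowers_iff.mp hy
      refine ⟨k, ?_⟩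
      apply Subtype.ext
      rw [Subgroup.coe_pow]
      show (x ^ i) ^ p ^ k = 1
      rw [← zpow_natCast, ← zpow_mul, mul_comm, zpow_mul, zpow_natCast, hxk, one_zpow]
    obtain ⟨c, hc, hcx⟩ := Cfsg.Agent.Lib.Helper12.SylowBasic.exists_conj_le_of_le P _ hPle
      (Subgroup.zpowers x) ((Subgroup.zpowers_le).mpr hxN1) hzp
    have hcxP : c * x * c⁻¹ ∈ (P : Subgroup G) := hcx x (Subgroup.mem_zpowers x)
    have hxcent : ∀ r ∈ Q ⊓ N, x * r = r * x := by
      intro r hr
      have hr' : c * r * c⁻¹ ∈ Q ⊓ N := (Subgroup.mem_normalizer_iff.mp hc r).mp hr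
      have h1 := hPcent _ hr' _ hcxP
      have e1 : x * r = c⁻¹ * ((c * x * c⁻¹) * (c * r * c⁻¹)) * c := by group
      have e2 : r * x = c⁻¹ * ((c * r * c⁻¹) * (c * x * c⁻¹)) * c := by group
      rw [e1, e2, h1]
    have hxr : x * (x * q * x⁻¹ * q⁻¹) = (x * q * x⁻¹ * q⁻¹) * x :=
      hxcent _ (Subgroup.mem_inf.mpr ⟨hrQ, hstep q hq⟩)
    have h1 := pow_conj_step x q _ hconj hxr (p ^ k)
    rw [hxk] at h1
    have h2 : (x * q * x⁻¹ * q⁻¹) ^ p ^ k = 1 := by
      have : (x * q * x⁻¹ * q⁻¹) ^ p ^ k * q = q := by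
        rw [← h1]
        group
      exact mul_eq_right.mp this
    have h6 := eq_one_of_mem_of_pow Q hQ _ hrQ k h2
    rw [hconj, h6, one_mul]

/-- Let G be a finite p-solvable group and Q a subgroup of order prime to p such that p divides the index of C_G(Q) in N_G(Q). Then Q normalizes no Sylow p-subgroup of G. -/
theorem result {G : Type*} [Group G] [Finite G] {p : ℕ} [Fact p.Prime]
    (hG : Cfsg.IsPSolvable p G) (Q : Subgroup G) (hQ : ¬ p ∣ Nat.card Q)
    (hA : p ∣ (Subgroup.centralizer (Q : Set G)).relIndex (Subgroup.normalizer (Q : Set G)))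
    (P : Sylow p G) : ¬ Q ≤ Subgroup.normalizer ((P : Subgroup G) : Set G) := by
  intro hQP
  have hQc : (Nat.card Q).Coprime p := ((Nat.Prime.coprime_iff_not_dvd Fact.out).mpr hQ).symm
  obtain ⟨S⟩ : Nonempty (Sylow p ↥(Subgroup.normalizer (Q : Set G))) := inferInstance
  have hXC : (S : Subgroup ↥(Subgroup.normalizer (Q : Set G))).map
      (Subgroup.normalizer (Q : Set G)).subtype ≤ Subgroup.centralizer (Q : Set G) := by
    rintro _ ⟨x, hx, rfl⟩
    obtain ⟨k, hk⟩ := S.isPGroup' ⟨x, hx⟩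
    have hk' : x ^ p ^ k = 1 := congrArg Subtype.val hk
    have hk'' : (x : G) ^ p ^ k = 1 := by
      have := congrArg Subtype.val hk'
      rwa [Subgroup.coe_pow] at this
    rw [Subgroup.mem_centralizer_iff]
    intro q hq
    have h1 := key (Nat.card G) G rfl hG Q hQc P hQP (x : G) x.2 k hk'' q hq
    show q * (x : G) = (x : G) * q
    calc q * (x : G) = ((x : G) * q * (x : G)⁻¹) * (x : G) := by rw [h1]
      _ = (x : G) * q := by group
  have h1 := Subgroup.relIndex_dvd_of_le_left (Subgroup.normalizer (Q : Set G)) hXC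
  have h2 : ((S : Subgroup ↥(Subgroup.normalizer (Q : Set G))).map
      (Subgroup.normalizer (Q : Set G)).subtype).relIndex (Subgroup.normalizer (Q : Set G)) =
      (S : Subgroup ↥(Subgroup.normalizer (Q : Set G))).index := by
    rw [Subgroup.relIndex, Subgroup.subgroupOf, Subgroup.comap_map_eq_self_of_injective
      (Subgroup.subtype_injective _)]
  rw [h2] at h1
  exact S.not_dvd_index (hA.trans h1)

end Cfsg.Agent.S1901
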