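import Cfsg.Statements.S1924
import Cfsg.Agent.Lib.Helper12.SignTransfer
import Cfsg.Agent.Lib.Helper16.Residual

set_option autoImplicit false
open Cfsg

namespace Cfsg.Agent.S1924

open Cfsg.Agent.Lib.Helper12.SignTransfer

section aux

variable {G : Type*} [Group G]

theorem card_mul_relIndex {H K : Subgroup G} (h : H ≤ K) :
    Nat.card H * H.relIndex K = Nat.card K := by
  have h1 := Subgroup.card_mul_index (H.subgroupOf K)
  rwa [Nat.card_congr (Subgroup.subgroupOfEquivOfLe h).toEquiv] at h1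

/-- In a dihedral group, the elements outside a cyclic subgroup of index two are involutions. -/
theorem dihedral_outside (D C : Subgroup G) (hCD : C ≤ D)
    (hDih : ∃ n : ℕ, 2 ≤ n ∧ Nonempty (↥D ≃* DihedralGroup n)) (hC : IsCyclic ↥C)
    (hCi : C.relIndex D = 2) (x : G) (hxD : x ∈ D) (hxC : x ∉ C) : orderOf x = 2 := by
  obtain ⟨n, hn, ⟨e⟩⟩ := hDih
  haveI : NeZero n := ⟨by omega⟩
  have hcardD : Nat.card ↥D = 2 * n := by
    rw [Nat.card_congr e.toEquiv, DihedralGroup.nat_card]
  have hcardC : Nat.card ↥C = n := by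
    have h1 := card_mul_relIndex hCD
    rw [hCi, hcardD] at h1
    omega
  have hord : orderOf x = orderOf (e ⟨x, hxD⟩) := by
    rw [MulEquiv.orderOf_eq, Subgroup.orderOf_mk]
  rw [hord]
  obtain ⟨g, hg⟩ := hC.exists_generator
  have hgord : orderOf (e ⟨(g : G), hCD g.2⟩) = n := by
    rw [MulEquiv.orderOf_eq, Subgroup.orderOf_mk, Subgroup.orderOf_coe,
      orderOf_eq_card_of_forall_mem_zpowers hg, hcardC]
  cases hx' : e ⟨x, hxD⟩ with
  | sr i => exact DihedralGroup.orderOf_sr i
  | r i =>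
    rcases Nat.lt_or_ge n 3 with hn3 | hn3
    · have hn2 : n = 2 := by omega
      subst hn2
      have hi : i ≠ 0 := by
        intro hi
        apply hxC
        rw [hi] at hx'
        have h1 : e ⟨x, hxD⟩ = 1 := hx'
        have h2 : (⟨x, hxD⟩ : ↥D) = 1 := by
          rw [← map_one e] at h1
          exact e.injective h1
        have h3 : x = 1 := congrArg Subtype.val h2
        rw [h3]
        exact C.one_mem
      have hi1 : i = 1 := by
        fin_cases i
        · exact absurd rfl hi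
        · rfl
      rw [hi1]
      exact DihedralGroup.orderOf_r_one
    · exfalso
      apply hxC
      cases hy : e ⟨(g : G), hCD g.2⟩ with
      | sr j =>
        rw [hy, DihedralGroup.orderOf_sr] at hgord
        omega
      | r j =>
        rw [hy] at hgord
        have hle : Subgroup.zpowers (DihedralGroup.r j) ≤
            Subgroup.zpowers (DihedralGroup.r (1 : ZMod n)) := by
          rw [Subgroup.zpowers_le]
          refine Subgroup.mem_zpowers_iff.mpr ⟨(j.val : ℤ), ?_⟩
          rw [zpow_natCast, DihedralGroup.r_one_pow, ZMod.natCast_zmod_val]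
        have heq : Subgroup.zpowers (DihedralGroup.r j) =
            Subgroup.zpowers (DihedralGroup.r (1 : ZMod n)) := by
          apply Subgroup.eq_of_le_of_card_ge hle
          rw [Nat.card_zpowers, Nat.card_zpowers, hgord, DihedralGroup.orderOf_r_one]
        have hri : DihedralGroup.r i ∈ Subgroup.zpowers (DihedralGroup.r j) := by
          rw [heq]
          refine Subgroup.mem_zpowers_iff.mpr ⟨(i.val : ℤ), ?_⟩
          rw [zpow_natCast, DihedralGroup.r_one_pow, ZMod.natCast_zmod_val]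
        obtain ⟨k, hk⟩ := Subgroup.mem_zpowers_iff.mp hri
        rw [← hy, ← hx', ← map_zpow] at hk
        have h2 := e.injective hk
        have h3 : (g : G) ^ k = x := by
          have h4 := congrArg Subtype.val h2
          simpa using h4
        rw [← h3]
        exact C.zpow_mem g.2 k

end aux

/-- A consequence of Thompson's transfer lemma. Let G be a finite group, L a subgroup with O²(L) = L, T a Sylow 2-subgroup of L and S a Sylow 2-subgroup of G containing T. Suppose D ≤ S is a dihedral subgroup of order at least 4 (the four-group counts) with D ∩ T = 1 and S = TD as a set of products (so |S| = |T|·|D|), and C ≤ D is cyclic of index 2 in D. If no involution of D outside C is G-conjugate to an involution of the subgroup generated by T and C, and the involution of C is not G-conjugate to any involution of T, then G has a normal subgroup K, containing every Sylow 2-subgroup of L as a Sylow 2-subgroup, with G = KD. -/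
theorem result {G : Type*} [Group G] [Finite G] (L T S D C : Subgroup G) (hL : Cfsg.pResidual 2 ↥L = ⊤)
    (hTL : T ≤ L) (hT2 : IsPGroup 2 T) (hTsyl : ¬ 2 ∣ T.relIndex L)
    (hS2 : IsPGroup 2 S) (hSsyl : ¬ 2 ∣ S.index) (hTS : T ≤ S)
    (hDS : D ≤ S) (hDih : ∃ n : ℕ, 2 ≤ n ∧ Nonempty (↥D ≃* DihedralGroup n)) (hDT : D ⊓ T = ⊥) (hTD : T ⊔ D = S) (hTDc : Nat.card T * Nat.card D = Nat.card S)
    (hCD : C ≤ D) (hC : IsCyclic ↥C) (hCi : C.relIndex D = 2)
    (h1 : ∀ x ∈ D, x ∉ C → orderOf x = 2 → ∀ g : G, g * x * g⁻¹ ∈ T ⊔ C → False)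
    (h2 : ∀ c ∈ C, orderOf c = 2 → ∀ g : G, g * c * g⁻¹ ∈ T → False) :
    ∃ K : Subgroup G, K.Normal ∧ K ⊔ D = ⊤ ∧
      ∀ T' : Subgroup G, T' ≤ L → IsPGroup 2 T' → ¬ 2 ∣ T'.relIndex L → T' ≤ K ∧ ¬ 2 ∣ T'.relIndex K := by
  classical
  have hp2 : Fact (Nat.Prime 2) := ⟨Nat.prime_two⟩
  have hKn : (pResidual 2 G).Normal := Cfsg.Agent.Lib.Helper16.Residual.pResidual_normal G 2
  have hLK : L ≤ pResidual 2 G := by
    have h3 := Cfsg.Agent.Lib.Helper16.Residual.pResidualOf_mono (p := 2) (le_top : L ≤ ⊤)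
    rw [Cfsg.Agent.Lib.Helper16.Residual.pResidualOf_top, hL, ← MonoidHom.range_eq_map,
      Subgroup.range_subtype] at h3
    exact h3
  have hTK : T ≤ pResidual 2 G := hTL.trans hLK
  have hinvol : ∀ x ∈ D, x ∉ C → orderOf x = 2 := fun x hxD hxC =>
    dihedral_outside D C hCD hDih hC hCi x hxD hxC
  -- cardinalities
  have hcT : Nat.card T * T.relIndex S = Nat.card S := card_mul_relIndex hTS
  have hTrel : T.relIndex S = Nat.card D := by
    have hpos : 0 < Nat.card T := Nat.card_pos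
    rw [← hTDc] at hcT
    exact Nat.eq_of_mul_eq_mul_left hpos hcT
  have hcC : Nat.card C * 2 = Nat.card D := by
    have h3 := card_mul_relIndex hCD
    rwa [hCi] at h3
  have hC2 : IsPGroup 2 ↥C := hS2.to_le (hCD.trans hDS)
  obtain ⟨m, hm⟩ := IsPGroup.iff_card.mp hC2
  obtain ⟨g, hg⟩ := hC.exists_generator
  have hbord : orderOf (g : G) = 2 ^ m := by
    rw [Subgroup.orderOf_coe, orderOf_eq_card_of_forall_mem_zpowers hg, hm]
  have hCz : C = Subgroup.zpowers (g : G) := by
    apply le_antisymm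
    · intro c hc
      obtain ⟨k, hk⟩ := Subgroup.mem_zpowers_iff.mp (hg ⟨c, hc⟩)
      refine Subgroup.mem_zpowers_iff.mpr ⟨k, ?_⟩
      have h3 := congrArg Subtype.val hk
      simpa using h3
    · exact Subgroup.zpowers_le.mpr g.2
  have hodd : Odd S.index := Nat.odd_iff.mpr (Nat.two_dvd_ne_zero.mp hSsyl)
  -- an involution of `D` outside `C`
  obtain ⟨x, hxD, hxC⟩ : ∃ x ∈ D, x ∉ C := by
    by_contra hne
    have hDC : D ≤ C := by
      intro d hd
      by_contra hdC
      exact hne ⟨d, hd, hdC⟩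
    have h3 := Subgroup.relIndex_eq_one.mpr hDC
    rw [hCi] at h3
    omega
  have hTCS : T ⊔ C ≤ S := sup_le hTS (hCD.trans hDS)
  have hTCne : ∀ y ∈ D, y ∉ C → y ∉ T ⊔ C := by
    intro y hyD hyC hy
    apply h1 y hyD hyC (hinvol y hyD hyC) 1
    simpa using hy
  -- the index of `T ⊔ C` in `S` is two
  have hTC : T ⊓ C = ⊥ := by
    have h3 : T ⊓ C ≤ D ⊓ T := le_inf (inf_le_right.trans hCD) inf_le_left
    rw [hDT] at h3
    exact le_bot_iff.mp h3
  have hcardTC : Nat.card T * Nat.card C ≤ Nat.card ↥(T ⊔ C) := by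
    rw [← Nat.card_prod]
    let f : ↥T × ↥C → ↥(T ⊔ C) := fun p =>
      ⟨(p.1 : G) * (p.2 : G), Subgroup.mul_mem_sup p.1.2 p.2.2⟩
    apply Nat.card_le_card_of_injective f
    rintro ⟨t₁, c₁⟩ ⟨t₂, c₂⟩ h
    have h3 : (t₁ : G) * (c₁ : G) = (t₂ : G) * (c₂ : G) := congrArg Subtype.val h
    have h4 : (t₂ : G)⁻¹ * (t₁ : G) = (c₂ : G) * (c₁ : G)⁻¹ := by
      calc (t₂ : G)⁻¹ * (t₁ : G) = (t₂ : G)⁻¹ * ((t₁ : G) * (c₁ : G)) * (c₁ : G)⁻¹ := by group
        _ = (t₂ : G)⁻¹ * ((t₂ : G) * (c₂ : G)) * (c₁ : G)⁻¹ := by rw [h3]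
        _ = (c₂ : G) * (c₁ : G)⁻¹ := by group
    have h5 : (t₂ : G)⁻¹ * (t₁ : G) ∈ T ⊓ C := by
      refine Subgroup.mem_inf.mpr ⟨T.mul_mem (T.inv_mem t₂.2) t₁.2, ?_⟩
      rw [h4]
      exact C.mul_mem c₂.2 (C.inv_mem c₁.2)
    rw [hTC, Subgroup.mem_bot] at h5
    have h6 : (t₁ : G) = t₂ := by
      have h7 : (t₁ : G) = (t₂ : G) * ((t₂ : G)⁻¹ * (t₁ : G)) := by group
      rw [h7, h5, mul_one]
    have h8 : (c₁ : G) = c₂ := by
      rw [h6] at h3
      exact mul_left_cancel h3
    exact Prod.ext (Subtype.ext h6) (Subtype.ext h8)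
  have hrelTC : (T ⊔ C).relIndex S = 2 := by
    have h3 := card_mul_relIndex hTCS
    have hq1 : (T ⊔ C).relIndex S ≠ 1 := by
      intro h
      rw [Subgroup.relIndex_eq_one] at h
      exact hTCne x hxD hxC (h (hDS hxD))
    have hq0 : (T ⊔ C).relIndex S ≠ 0 := by
      intro h
      rw [h, mul_zero] at h3
      exact (Nat.card_pos (α := ↥S)).ne' h3.symm
    by_contra hq2
    have hq3 : 3 ≤ (T ⊔ C).relIndex S := by omega
    have h4 : Nat.card T * Nat.card C * 3 ≤ Nat.card ↥(T ⊔ C) * (T ⊔ C).relIndex S :=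
      Nat.mul_le_mul hcardTC hq3
    rw [h3, ← hTDc, ← hcC] at h4
    have hpos : 0 < Nat.card T * Nat.card C := Nat.mul_pos Nat.card_pos Nat.card_pos
    have h5 : Nat.card T * (Nat.card C * 2) = Nat.card T * Nat.card C * 2 := by ring
    omega
  -- first step: the sign on the cosets of `T ⊔ C`
  have hOM : pResidual 2 G ≤ signKer ⊤ (T ⊔ C) := pResidual_le_signKer le_top
  have hnotM : ∀ y ∈ D, y ∉ C → y ∉ signKer ⊤ (T ⊔ C) := by
    intro y hyD hyC
    have hyo := hinvol y hyD hyC
    refine not_mem_signKer (Subgroup.mem_top y) 1 S.index le_rfl (by rw [hyo, pow_one]) ?_ hodd ?_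
    · intro j hj n _ hmem
      have hyj : y ^ j = y := by
        rw [← pow_mod_orderOf, hyo]
        rcases Nat.mod_two_eq_zero_or_one j with h | h
        · exfalso
          apply hj
          rw [← pow_mod_orderOf, hyo, h, pow_zero]
        · rw [h, pow_one]
      rw [hyj] at hmem
      apply h1 y hyD hyC hyo n⁻¹
      rw [inv_inv]
      exact hmem
    · rw [Subgroup.relIndex_top_right, ← Subgroup.relIndex_mul_index hTCS, hrelTC, pow_one,
        mul_comm]
  have hMidx : (signKer ⊤ (T ⊔ C)).index = 2 := by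
    have h3 := signKer_relIndex_dvd ⊤ (T ⊔ C)
    rw [Subgroup.relIndex_top_right] at h3
    rcases (Nat.dvd_prime Nat.prime_two).mp h3 with h | h
    · exfalso
      rw [Subgroup.index_eq_one] at h
      apply hnotM x hxD hxC
      rw [h]
      exact Subgroup.mem_top x
    · exact h
  have hCM : C ≤ signKer ⊤ (T ⊔ C) := by
    intro c hc
    by_contra hcM
    have h3 := (Subgroup.mul_mem_iff_of_index_two hMidx (a := x) (b := c)).mpr
      (iff_of_false (hnotM x hxD hxC) hcM)
    refine hnotM (x * c) (D.mul_mem hxD (hCD hc)) (fun h => hxC ?_) h3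
    have h4 := C.mul_mem h (C.inv_mem hc)
    simpa using h4
  have hDM : D ⊓ signKer ⊤ (T ⊔ C) ≤ C := by
    intro y hy
    by_contra hyC
    exact hnotM y (Subgroup.mem_inf.mp hy).1 hyC (Subgroup.mem_inf.mp hy).2
  -- second step: the iterated sign argument along `C`
  have hTM : T ≤ signKer ⊤ (T ⊔ C) := hTK.trans hOM
  have hOC : pResidual 2 G ⊓ C = ⊥ := by
    rw [hCz]
    refine residual_inf_zpowers T hTK m (signKer ⊤ (T ⊔ C)) (g : G) hOM (hCM g.2) hbord ?_
      ⟨S.index, hodd, ?_⟩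
    · intro j hj n _ hmem
      have hyC : (g : G) ^ j ∈ C := C.pow_mem g.2 j
      have hdvd : orderOf ((g : G) ^ j) ∣ 2 ^ m := by
        rw [← hbord]
        exact orderOf_pow_dvd j
      obtain ⟨a, -, ha⟩ := (Nat.dvd_prime_pow Nat.prime_two).mp hdvd
      have ha1 : 1 ≤ a := by
        rcases Nat.eq_zero_or_pos a with h | h
        · exfalso
          rw [h, pow_zero, orderOf_eq_one_iff] at ha
          exact hj ha
        · exact h
      have hcord : orderOf (((g : G) ^ j) ^ 2 ^ (a - 1)) = 2 := by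
        rw [orderOf_pow_of_dvd (pow_ne_zero _ (by norm_num))
          (by rw [ha]; exact pow_dvd_pow 2 (by omega)), ha]
        have h3 : 2 ^ a = 2 ^ (a - 1) * 2 := by
          rw [← pow_succ]
          congr 1
          omega
        rw [h3, Nat.mul_div_cancel_left _ (pow_pos (by norm_num) _)]
      apply h2 _ (C.pow_mem hyC _) hcord n⁻¹
      have h3 : n⁻¹ * ((g : G) ^ j) ^ 2 ^ (a - 1) * n⁻¹⁻¹ =
          (n⁻¹ * (g : G) ^ j * n) ^ 2 ^ (a - 1) := by
        have h4 := conj_pow (a := n⁻¹) (b := (g : G) ^ j) (i := 2 ^ (a - 1))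
        rw [inv_inv] at h4 ⊢
        exact h4.symm
      rw [h3]
      exact T.pow_mem hmem _
    · have h3 := Subgroup.relIndex_mul_index hTM
      have h4 := Subgroup.relIndex_mul_index hTS
      rw [hMidx] at h3
      rw [hTrel, ← hcC, hm] at h4
      have h5 : T.relIndex (signKer ⊤ (T ⊔ C)) * 2 = S.index * 2 ^ m * 2 := by
        rw [h3, ← h4]
        ring
      exact Nat.eq_of_mul_eq_mul_right (by norm_num) h5
  have hOD : pResidual 2 G ⊓ D = ⊥ := by
    rw [Subgroup.eq_bot_iff_forall]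
    intro y hy
    obtain ⟨hyO, hyD⟩ := Subgroup.mem_inf.mp hy
    have hyC : y ∈ C := hDM (Subgroup.mem_inf.mpr ⟨hyD, hOM hyO⟩)
    have h3 : y ∈ pResidual 2 G ⊓ C := Subgroup.mem_inf.mpr ⟨hyO, hyC⟩
    rw [hOC, Subgroup.mem_bot] at h3
    exact h3
  -- counting
  have hSK : S ⊔ pResidual 2 G = ⊤ := by
    have h3 := Cfsg.Agent.Lib.Helper16.Residual.sylow_sup_pResidual_eq_top (hS2.toSylow hSsyl)
    rwa [IsPGroup.toSylow_coe] at h3
  have hdvd1 : Nat.card D ∣ (pResidual 2 G).index := by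
    have hinj : Function.Injective ((QuotientGroup.mk' (pResidual 2 G)).comp D.subtype) := by
      rw [← MonoidHom.ker_eq_bot_iff, Subgroup.eq_bot_iff_forall]
      intro d hd
      have hd' : ((QuotientGroup.mk' (pResidual 2 G)).comp D.subtype) d = 1 :=
        MonoidHom.mem_ker.mp hd
      have h3 : (d : G) ∈ pResidual 2 G := (QuotientGroup.eq_one_iff _).mp hd'
      have h4 : (d : G) ∈ pResidual 2 G ⊓ D := Subgroup.mem_inf.mpr ⟨h3, d.2⟩
      rw [hOD, Subgroup.mem_bot] at h4
      exact Subtype.ext h4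
    exact Subgroup.card_dvd_of_injective _ hinj
  have hTKS : T ≤ pResidual 2 G ⊓ S := le_inf hTK hTS
  have hdvd2 : (pResidual 2 G).index ∣ Nat.card D := by
    have h3 : (pResidual 2 G).index = (pResidual 2 G ⊓ S).relIndex S := by
      rw [Subgroup.inf_relIndex_right, ← Subgroup.relIndex_sup_right, hSK,
        Subgroup.relIndex_top_right]
    have h4 := Subgroup.relIndex_mul_relIndex T (pResidual 2 G ⊓ S) S hTKS inf_le_right
    rw [hTrel, ← h3] at h4
    exact Dvd.intro_left _ h4
  have hidxK : (pResidual 2 G).index = Nat.card D := Nat.dvd_antisymm hdvd2 hdvd1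
  have hcardpos : 0 < Nat.card D := Nat.card_pos
  refine ⟨pResidual 2 G, hKn, ?_, ?_⟩
  · rw [← Subgroup.index_eq_one]
    have h3 : (pResidual 2 G).relIndex (pResidual 2 G ⊔ D) = Nat.card D := by
      rw [Subgroup.relIndex_sup_left, ← Subgroup.inf_relIndex_right, hOD,
        Subgroup.relIndex_bot_left]
    have h4 := Subgroup.relIndex_mul_index (le_sup_left : pResidual 2 G ≤ pResidual 2 G ⊔ D)
    rw [h3, hidxK] at h4
    exact Nat.eq_of_mul_eq_mul_left hcardpos (by rw [h4, mul_one])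
  · intro T' hT'L hT'2 hT'syl
    have hT'K : T' ≤ pResidual 2 G := hT'L.trans hLK
    refine ⟨hT'K, ?_⟩
    -- `|T'| = |T|`
    have hc1 := card_mul_relIndex hT'L
    have hc2 := card_mul_relIndex hTL
    obtain ⟨i, hi⟩ := IsPGroup.iff_card.mp hT'2
    obtain ⟨j, hj⟩ := IsPGroup.iff_card.mp hT2
    have hcop1 : Nat.Coprime (2 ^ i) (T.relIndex L) :=
      Nat.Coprime.pow_left i ((Nat.Prime.coprime_iff_not_dvd Nat.prime_two).mpr hTsyl)
    have hcop2 : Nat.Coprime (2 ^ j) (T'.relIndex L) :=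
      Nat.Coprime.pow_left j ((Nat.Prime.coprime_iff_not_dvd Nat.prime_two).mpr hT'syl)
    have hd1 : 2 ^ i ∣ 2 ^ j := by
      apply hcop1.dvd_of_dvd_mul_right
      rw [← hj, hc2, ← hc1, hi]
      exact Dvd.intro _ rfl
    have hd2 : 2 ^ j ∣ 2 ^ i := by
      apply hcop2.dvd_of_dvd_mul_right
      rw [← hi, hc1, ← hc2, hj]
      exact Dvd.intro _ rfl
    have hcardeq : Nat.card T' = Nat.card T := by
      rw [hi, hj]
      exact Nat.dvd_antisymm hd1 hd2
    have hk1 := card_mul_relIndex hT'K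
    have hk2 := card_mul_relIndex hTK
    have hrel : T'.relIndex (pResidual 2 G) = T.relIndex (pResidual 2 G) := by
      rw [hcardeq, ← hk2] at hk1
      exact Nat.eq_of_mul_eq_mul_left Nat.card_pos hk1
    have hTrelK : T.relIndex (pResidual 2 G) = S.index := by
      have h3 := Subgroup.card_mul_index (pResidual 2 G)
      have h4 := Subgroup.card_mul_index S
      rw [hidxK, ← hk2] at h3
      rw [← hTDc, ← h3] at h4
      have h5 : Nat.card T * Nat.card D * S.index = Nat.card T * Nat.card D * T.relIndex (pResidual 2 G) := by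
        rw [h4]
        ring
      exact (Nat.eq_of_mul_eq_mul_left (Nat.mul_pos Nat.card_pos hcardpos) h5).symm
    rw [hrel, hTrelK]
    exact hSsyl

end Cfsg.Agent.S1924
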