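import Cfsg.Statements.S1939

set_option autoImplicit false
open Cfsg

namespace Cfsg.Agent.S1939

open scoped Pointwise

theorem exists_conj_le_sylow {G : Type*} [Group G] [Finite G] {p : ℕ} [Fact p.Prime] (P : Sylow p G)
    (Q : Subgroup G) (hQ : IsPGroup p ↥Q) : ∃ g : G, ∀ x ∈ Q, g * x * g⁻¹ ∈ (P : Subgroup G) := by
  obtain ⟨P', hP'⟩ := hQ.exists_le_sylow
  obtain ⟨g, hg⟩ := MulAction.exists_smul_eq G P' P
  refine ⟨g, fun x hx => ?_⟩
  have h1 : x ∈ (P' : Subgroup G) := hP' hx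
  have h2 : MulAut.conj g • x ∈ MulAut.conj g • (P' : Subgroup G) :=
    Subgroup.smul_mem_pointwise_smul x (MulAut.conj g) (P' : Subgroup G) h1
  have h3 : (MulAut.conj g • (P' : Subgroup G)) = ((g • P' : Sylow p G) : Subgroup G) := rfl
  rw [h3, hg] at h2
  have h4 : g * x * g⁻¹ ∈ (P : Subgroup G) := by simpa [MulAut.smul_def] using h2
  exact h4

theorem exists_conj_le_of_le {G : Type*} [Group G] [Finite G] {p : ℕ} [Fact p.Prime] (P : Sylow p G)
    (H : Subgroup G) (hPH : (P : Subgroup G) ≤ H) (Q : Subgroup G) (hQH : Q ≤ H) (hQ : IsPGroup p ↥Q) :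
    ∃ c ∈ H, ∀ x ∈ Q, c * x * c⁻¹ ∈ (P : Subgroup G) := by
  obtain ⟨c, hc⟩ := exists_conj_le_sylow (P.subtype hPH) (Q.subgroupOf H) (hQ.comap_subtype)
  refine ⟨c, c.2, fun x hx => ?_⟩
  have h1 : (⟨x, hQH hx⟩ : H) ∈ Q.subgroupOf H := by
    rw [Subgroup.mem_subgroupOf]; exact hx
  have h2 := hc _ h1
  rw [Sylow.coe_subtype, Subgroup.mem_subgroupOf] at h2
  simpa using h2

/-- Let S be a Sylow p-subgroup of the finite group G and a an element of S that is the only G-conjugate of a lying in S. Then every power of a has the same property: for every n, the only G-conjugate of a^n lying in S is a^n. -/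
theorem result {G : Type*} [Group G] [Finite G] {p : ℕ} [Fact p.Prime] (S : Sylow p G) (a : G)
    (haS : a ∈ (S : Subgroup G)) (hwc : ∀ g : G, g * a * g⁻¹ ∈ (S : Subgroup G) → g * a * g⁻¹ = a) (n : ℕ) :
    ∀ g : G, g * a ^ n * g⁻¹ ∈ (S : Subgroup G) → g * a ^ n * g⁻¹ = a ^ n := by
  intro g hg
  have hcen : ∀ s ∈ (S : Subgroup G), s * a = a * s := by
    intro s hs
    have h1 : s * a * s⁻¹ ∈ (S : Subgroup G) :=
      (S : Subgroup G).mul_mem ((S : Subgroup G).mul_mem hs haS) ((S : Subgroup G).inv_mem hs)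
    have h2 := hwc s h1
    calc s * a = s * a * s⁻¹ * s := by group
      _ = a * s := by rw [h2]
  set C : Subgroup G := Subgroup.centralizer ({a ^ n} : Set G) with hC
  have hSC : (S : Subgroup G) ≤ C := by
    intro s hs
    rw [hC, Subgroup.mem_centralizer_iff]
    intro y hy
    rw [Set.mem_singleton_iff] at hy
    subst hy
    have : Commute s a := hcen s hs
    exact (this.pow_right n).eq.symm
  have hwC : g⁻¹ * a * g ∈ C := by
    rw [hC, Subgroup.mem_centralizer_iff]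
    intro y hy
    rw [Set.mem_singleton_iff] at hy
    subst hy
    have h1 := hcen _ hg
    calc a ^ n * (g⁻¹ * a * g) = g⁻¹ * ((g * a ^ n * g⁻¹) * a) * g := by group
      _ = g⁻¹ * (a * (g * a ^ n * g⁻¹)) * g := by rw [h1]
      _ = g⁻¹ * a * g * a ^ n := by group
  have hQ : IsPGroup p ((Subgroup.zpowers a).map (MulAut.conj g⁻¹).toMonoidHom) :=
    (S.isPGroup'.to_le ((Subgroup.zpowers_le).mpr haS)).map _
  have hQC : (Subgroup.zpowers a).map (MulAut.conj g⁻¹).toMonoidHom ≤ C := by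
    rintro _ ⟨y, hy, rfl⟩
    obtain ⟨k, rfl⟩ := Subgroup.mem_zpowers_iff.mp hy
    have : (MulAut.conj g⁻¹).toMonoidHom (a ^ k) = (g⁻¹ * a * g) ^ k := by
      rw [map_zpow]
      simp [MulAut.conj_apply]
    rw [this]
    exact C.zpow_mem hwC k
  obtain ⟨c, hcC, hc⟩ := exists_conj_le_of_le S C hSC _ hQC hQ
  have h1 : c * (g⁻¹ * a * g) * c⁻¹ ∈ (S : Subgroup G) := by
    apply hc
    refine ⟨a, Subgroup.mem_zpowers a, ?_⟩
    simp [MulAut.conj_apply]
  have h2 : (c * g⁻¹) * a * (c * g⁻¹)⁻¹ = a := by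
    apply hwc
    have e : (c * g⁻¹) * a * (c * g⁻¹)⁻¹ = c * (g⁻¹ * a * g) * c⁻¹ := by group
    rw [e]; exact h1
  have h3 : (c * g⁻¹) * a ^ n * (c * g⁻¹)⁻¹ = a ^ n := by
    have : (c * g⁻¹) * a ^ n * (c * g⁻¹)⁻¹ = ((c * g⁻¹) * a * (c * g⁻¹)⁻¹) ^ n := by
      rw [conj_pow]
    rw [this, h2]
  have h4 : a ^ n * c = c * a ^ n := by
    have := (Subgroup.mem_centralizer_iff.mp hcC) (a ^ n) (Set.mem_singleton _)
    exact this
  have h5 : g⁻¹ * a ^ n * g = a ^ n := by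
    calc g⁻¹ * a ^ n * g = c⁻¹ * ((c * g⁻¹) * a ^ n * (c * g⁻¹)⁻¹) * c := by group
      _ = c⁻¹ * (a ^ n * c) := by rw [h3]; group
      _ = a ^ n := by rw [h4]; group
  calc g * a ^ n * g⁻¹ = g * (g⁻¹ * a ^ n * g) * g⁻¹ := by rw [h5]
    _ = a ^ n := by group

end Cfsg.Agent.S1939
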