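import Cfsg.Statements.S1940

set_option autoImplicit false
open Cfsg

namespace Cfsg.Agent.S1940

/-- Let the finite group L act by automorphisms on the finite abelian group M, and let N be an L-invariant subgroup of M such that M/N is a p-group on which L acts trivially (every l • m lies in the coset mN). If every element of M is a product of an element of N and an element fixed by a Sylow p-subgroup T of L, then every element of M is a product of an element of N and an element fixed by all of L. -/
theorem result {L : Type*} [Group L] [Finite L] {M : Type*} [CommGroup M] [Finite M] [MulDistribMulAction L M]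
    {p : ℕ} [Fact p.Prime] (N : Subgroup M) (hN : ∀ (l : L) (m : M), m ∈ N → l • m ∈ N)
    (hquot : IsPGroup p (M ⧸ N)) (htriv : ∀ (l : L) (m : M), (l • m) * m⁻¹ ∈ N) (T : Sylow p L)
    (hT : ∀ m : M, ∃ n ∈ N, ∃ c : M, (∀ t ∈ (T : Subgroup L), t • c = c) ∧ m = n * c) :
    ∀ m : M, ∃ n ∈ N, ∃ c : M, (∀ l : L, l • c = c) ∧ m = n * c := by
  classical
  letI : Fintype (L ⧸ (T : Subgroup L)) := Fintype.ofFinite _
  have hp : p.Prime := Fact.out
  have hkp : Nat.Coprime (T : Subgroup L).index p :=
    Nat.Coprime.symm ((Nat.Prime.coprime_iff_not_dvd hp).mpr T.not_dvd_index)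
  -- suffices: every m lies in N ⊔ Fix
  suffices H : ∀ m : M, m ∈ N ⊔ FixedPoints.subgroup L M by
    intro m
    obtain ⟨n, hn, c, hc, rfl⟩ := Subgroup.mem_sup.mp (H m)
    exact ⟨n, hn, c, (FixedPoints.mem_subgroup L M c).mp hc, rfl⟩
  have key : ∀ c : M, (∀ t ∈ (T : Subgroup L), t • c = c) →
      c ^ (T : Subgroup L).index ∈ N ⊔ FixedPoints.subgroup L M := by
    intro c hc
    have h1 : (∏ q : L ⧸ (T : Subgroup L), (q.out • c)) ∈ FixedPoints.subgroup L M := by
      rw [FixedPoints.mem_subgroup]
      intro l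
      have e1 : l • (∏ q : L ⧸ (T : Subgroup L), (q.out • c)) =
          ∏ q : L ⧸ (T : Subgroup L), (l • (q.out • c)) := Finset.smul_prod'
      rw [e1]
      have e2 : ∀ q : L ⧸ (T : Subgroup L), l • (q.out • c) = (l • q).out • c := by
        intro q
        have h3 : ((l • q).out : L ⧸ (T : Subgroup L)) = ((l * q.out : L) : L ⧸ (T : Subgroup L)) := by
          rw [QuotientGroup.out_eq']
          conv_lhs => rw [← QuotientGroup.out_eq' q]
          rfl
        have h4 : ((l • q).out)⁻¹ * (l * q.out) ∈ (T : Subgroup L) := QuotientGroup.eq.mp h3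
        have h5 := hc _ h4
        rw [← mul_smul]
        have e3 : l * q.out = (l • q).out * (((l • q).out)⁻¹ * (l * q.out)) := by group
        rw [e3, mul_smul, h5]
      rw [Finset.prod_congr rfl (fun q _ => e2 q)]
      exact Equiv.prod_comp (MulAction.toPerm l) (fun q : L ⧸ (T : Subgroup L) => q.out • c)
    have h2 : (∏ q : L ⧸ (T : Subgroup L), (q.out • c))⁻¹ * c ^ (T : Subgroup L).index ∈ N := by
      have e : (∏ q : L ⧸ (T : Subgroup L), (q.out • c))⁻¹ * c ^ (T : Subgroup L).index =
          (∏ q : L ⧸ (T : Subgroup L), ((q.out • c) * c⁻¹))⁻¹ := by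
        rw [Finset.prod_mul_distrib, Finset.prod_const, Finset.card_univ,
          ← Nat.card_eq_fintype_card]
        have : Nat.card (L ⧸ (T : Subgroup L)) = (T : Subgroup L).index := rfl
        rw [this]
        simp [mul_comm]
      rw [e]
      exact N.inv_mem (Subgroup.prod_mem _ (fun q _ => htriv q.out c))
    have e : c ^ (T : Subgroup L).index =
        ((∏ q : L ⧸ (T : Subgroup L), (q.out • c))⁻¹ * c ^ (T : Subgroup L).index) *
          (∏ q : L ⧸ (T : Subgroup L), (q.out • c)) := by
      rw [mul_comm, mul_inv_cancel_left]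
    rw [e]
    exact Subgroup.mul_mem _ (Subgroup.mem_sup_left h2) (Subgroup.mem_sup_right h1)
  intro m
  obtain ⟨n, hn, c, hc, rfl⟩ := hT m
  have hk : (n * c) ^ (T : Subgroup L).index ∈ N ⊔ FixedPoints.subgroup L M := by
    rw [mul_pow]
    exact Subgroup.mul_mem _ (Subgroup.mem_sup_left (N.pow_mem hn _)) (key c hc)
  obtain ⟨j, hj⟩ := hquot ((n * c : M) : M ⧸ N)
  have hpj : (n * c) ^ (p ^ j) ∈ N := by
    rw [← QuotientGroup.eq_one_iff]
    simpa using hj
  have hcop : Nat.Coprime (p ^ j) (T : Subgroup L).index := (Nat.Coprime.pow_left j hkp.symm)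
  have hgcd := Nat.gcd_eq_gcd_ab (p ^ j) (T : Subgroup L).index
  rw [hcop] at hgcd
  have e : n * c = ((n * c) ^ (p ^ j)) ^ (Nat.gcdA (p ^ j) (T : Subgroup L).index) *
      ((n * c) ^ (T : Subgroup L).index) ^ (Nat.gcdB (p ^ j) (T : Subgroup L).index) := by
    rw [← zpow_natCast, ← zpow_natCast, ← zpow_mul, ← zpow_mul, ← zpow_add, ← hgcd]
    simp
  rw [e]
  exact Subgroup.mul_mem _ (Subgroup.zpow_mem _ (Subgroup.mem_sup_left hpj) _)
    (Subgroup.zpow_mem _ hk _)

end Cfsg.Agent.S1940
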