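import Cfsg.Statements.S1941
import Cfsg.Agent.Lib.Helper12.CrossedHom
import Cfsg.Agent.Lib.Helper12.SylowBasic
import Cfsg.Agent.Lib.Helper9.CharP

set_option autoImplicit false
open Cfsg

namespace Cfsg.Agent.S1941

open Cfsg.Agent.Lib.Helper12.CrossedHom Cfsg.Agent.Lib.Helper12.SylowBasic

/-- commutative group structure on an abelian subgroup -/
@[reducible] def commGroupOf {G : Type*} [Group G] (A : Subgroup G)
    (hA : ∀ a ∈ A, ∀ b ∈ A, a * b = b * a) : CommGroup ↥A :=
  { (inferInstance : Group ↥A) with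
    mul_comm := fun a b => Subtype.ext (hA a a.2 b b.2) }

/-- conjugation action of `G` on a normal subgroup `A` -/
@[reducible] def conjActTop {G : Type*} [Group G] (A : Subgroup G)
    (hNA : ∀ n : G, ∀ a ∈ A, n * a * n⁻¹ ∈ A) : MulDistribMulAction G ↥A where
  smul n a := ⟨n * (a : G) * n⁻¹, hNA n a a.2⟩
  one_smul a := Subtype.ext (by show (1 : G) * (a : G) * (1 : G)⁻¹ = a; group)
  mul_smul m n a := Subtype.ext (by
    show (m * n) * (a : G) * (m * n)⁻¹ = m * (n * (a : G) * n⁻¹) * m⁻¹
    group)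
  smul_mul n a b := Subtype.ext (by
    show n * ((a : G) * (b : G)) * n⁻¹ = (n * (a : G) * n⁻¹) * (n * (b : G) * n⁻¹)
    group)
  smul_one n := Subtype.ext (by show n * (1 : G) * n⁻¹ = 1; group)

/-- Let G be a finite group with no nontrivial normal subgroup of order prime to p, T a Sylow p-subgroup of G and E(G) the layer of G (the subgroup generated by its components). An automorphism of G of p-power order that fixes T and E(G) elementwise is inner. -/
theorem result {G : Type*} [Group G] [Finite G] {p : ℕ} [Fact p.Prime] (hcore : Cfsg.pPrimeCore p G = ⊥)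
    (T : Sylow p G) (α : MulAut G) (hα : ∃ j : ℕ, orderOf α = p ^ j) (hfixT : ∀ x ∈ (T : Subgroup G), α x = x)
    (hfixE : ∀ x ∈ Cfsg.layer G, α x = x) : ∃ g : G, ∀ x : G, α x = g * x * g⁻¹ := by
  -- F(G) ≤ O_p(G) ≤ T
  have hF : Cfsg.fittingSubgroup G ≤ Cfsg.pCore p G := by
    apply Cfsg.Agent.Lib.Helper9.fitting_le_of_forall_pCore_le
    intro q hq
    by_cases hqp : q = p
    · rw [hqp]
    · haveI : Fact q.Prime := ⟨hq⟩
      have h1 : Cfsg.pCore q G ≤ Cfsg.pPrimeCore p G :=
        Cfsg.Agent.Lib.Helper9.le_pPrimeCore (Cfsg.pCore_normal q G)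
          (Cfsg.Agent.Lib.Helper9.card_coprime_of_isPGroup_of_ne
            (Cfsg.Agent.Lib.Helper9.pCore_isPGroup q G) hqp)
      rw [hcore] at h1
      exact h1.trans bot_le
  have hFT : Cfsg.fittingSubgroup G ≤ (T : Subgroup G) := hF.trans (pCore_le_sylow T)
  -- α fixes F*(G) elementwise
  have hfix : ∀ x ∈ Cfsg.generalizedFittingSubgroup G, α x = x := by
    have h1 : Cfsg.generalizedFittingSubgroup G ≤
        (α.toMonoidHom).eqLocus (MonoidHom.id G) := by
      apply sup_le
      · intro x hx; exact hfixE x hx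
      · intro x hx; exact hfixT x (hFT hx)
    intro x hx
    exact h1 hx
  have hFn : (Cfsg.generalizedFittingSubgroup G).Normal := Cfsg.Agent.Lib.Helper9.gfitting_normal G
  have hZn : (Subgroup.centralizer (Cfsg.generalizedFittingSubgroup G : Set G)).Normal :=
    Subgroup.normal_centralizer
  have hZle := Cfsg.Agent.Lib.Helper9.centralizer_gfitting_le G
  have hZcomm : ∀ a ∈ Subgroup.centralizer (Cfsg.generalizedFittingSubgroup G : Set G),
      ∀ b ∈ Subgroup.centralizer (Cfsg.generalizedFittingSubgroup G : Set G), a * b = b * a := by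
    intro a ha b hb
    exact (Subgroup.mem_centralizer_iff.mp hb) a (hZle ha)
  letI iC : CommGroup ↥(Subgroup.centralizer (Cfsg.generalizedFittingSubgroup G : Set G)) :=
    commGroupOf _ hZcomm
  letI iA : MulDistribMulAction G ↥(Subgroup.centralizer (Cfsg.generalizedFittingSubgroup G : Set G)) :=
    conjActTop _ (fun n a ha => hZn.conj_mem a ha n)
  have hsmul : ∀ (n : G) (a : ↥(Subgroup.centralizer (Cfsg.generalizedFittingSubgroup G : Set G))),
      ((n • a : ↥(Subgroup.centralizer (Cfsg.generalizedFittingSubgroup G : Set G))) : G) =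
        n * (a : G) * n⁻¹ := fun n a => rfl
  -- Z is a p-group
  have hZnil : Group.IsNilpotent ↥(Subgroup.centralizer (Cfsg.generalizedFittingSubgroup G : Set G)) :=
    CommGroup.isNilpotent
  have hZF : Subgroup.centralizer (Cfsg.generalizedFittingSubgroup G : Set G) ≤ Cfsg.pCore p G :=
    (Cfsg.Agent.Lib.Helper9.le_fitting hZn hZnil).trans hF
  have hZp : IsPGroup p ↥(Subgroup.centralizer (Cfsg.generalizedFittingSubgroup G : Set G)) :=
    (Cfsg.Agent.Lib.Helper9.pCore_isPGroup p G).to_le hZF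
  -- the crossed homomorphism
  have hεmem : ∀ x : G, α x * x⁻¹ ∈ Subgroup.centralizer (Cfsg.generalizedFittingSubgroup G : Set G) := by
    intro x
    rw [Subgroup.mem_centralizer_iff]
    intro f hf
    have h1 : x⁻¹ * f * x ∈ Cfsg.generalizedFittingSubgroup G := by
      have := hFn.conj_mem f hf x⁻¹
      simpa using this
    have h2 := hfix _ h1
    rw [map_mul, map_mul, map_inv, hfix f hf] at h2
    -- h2 : (α x)⁻¹ * f * α x = x⁻¹ * f * x
    calc f * (α x * x⁻¹) = α x * ((α x)⁻¹ * f * α x) * x⁻¹ := by group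
      _ = α x * (x⁻¹ * f * x) * x⁻¹ := by rw [h2]
      _ = α x * x⁻¹ * f := by group
  have hT : ¬ p ∣ (T : Subgroup G).index := T.not_dvd_index
  obtain ⟨u, hu⟩ := crossed_hom_principal hZp (T : Subgroup G) hT
    (fun x => (⟨α x * x⁻¹, hεmem x⟩ :
      ↥(Subgroup.centralizer (Cfsg.generalizedFittingSubgroup G : Set G))))
    (by
      intro x y
      rw [mul_comm]
      apply Subtype.ext
      show α (x * y) * (x * y)⁻¹ = (α x * x⁻¹) * (x * (α y * y⁻¹) * x⁻¹)
      rw [map_mul]
      group)
    (by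
      intro t ht
      apply Subtype.ext
      show α t * t⁻¹ = 1
      rw [hfixT t ht, mul_inv_cancel])
  refine ⟨(u : G), fun x => ?_⟩
  have h1 := congrArg Subtype.val (hu x)
  have h2 : α x * x⁻¹ = (u : G) * (x * (u : G) * x⁻¹)⁻¹ := h1
  calc α x = α x * x⁻¹ * x := by group
    _ = (u : G) * (x * (u : G) * x⁻¹)⁻¹ * x := by rw [h2]
    _ = (u : G) * x * (u : G)⁻¹ := by group

end Cfsg.Agent.S1941
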