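import Cfsg.Statements.S1949
import Cfsg.Agent.Lib.Helper12.SmallExp
import Cfsg.Agent.Lib.Helper12.NPC

set_option autoImplicit false
open Cfsg

namespace Cfsg.Agent.S1949

/-- Let P be a finite p-group and G a group of automorphisms of P containing the inner automorphisms. Then there is a G-invariant subgroup D of P, contained in the subgroup generated by the elements x⁻¹α(x) with x in P and α in O^p(G), of exponent dividing p when p is odd and dividing 4 when p = 2, with [D, P] ≤ Z(D), such that every automorphism in G of order prime to p that fixes D elementwise is the identity; moreover every maximal abelian subgroup A of D is normal in P and every automorphism in G fixing A elementwise has p-power order. -/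
theorem result {P : Type*} [Group P] [Finite P] {p : ℕ} [Fact p.Prime] (hP : IsPGroup p P)
    (G : Subgroup (MulAut P)) (hG : Cfsg.Inn P ≤ G) :
    ∃ D : Subgroup P,
      (∀ α ∈ G, D.map α.toMonoidHom = D) ∧
      D ≤ Subgroup.closure {y : P | ∃ α ∈ Cfsg.pResidual p ↥G, ∃ x : P, y = x⁻¹ * (α : MulAut P) x} ∧
      (∀ d ∈ D, d ^ p = 1 ∨ (p = 2 ∧ d ^ 4 = 1)) ∧
      ⁅D, (⊤ : Subgroup P)⁆ ≤ D ⊓ Subgroup.centralizer (D : Set P) ∧
      (∀ α ∈ G, (orderOf α).Coprime p → (∀ d ∈ D, α d = d) → α = 1) ∧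
      ∀ A : Subgroup P, A ≤ D → IsMulCommutative ↥A →
        (∀ B : Subgroup P, A ≤ B → B ≤ D → IsMulCommutative ↥B → B = A) →
        A.Normal ∧ ∀ α ∈ G, (∀ a ∈ A, α a = a) → ∃ k : ℕ, orderOf α = p ^ k := by
  obtain ⟨R, hR⟩ : ∃ R : Subgroup P, R = Subgroup.closure
      {y : P | ∃ α ∈ Cfsg.pResidual p ↥G, ∃ x : P, y = x⁻¹ * (α : MulAut P) x} := ⟨_, rfl⟩
  have hGc : ∀ g : P, MulAut.conj g ∈ G := fun g => hG ⟨g, rfl⟩
  haveI hResN : (Cfsg.pResidual p ↥G).Normal :=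
    Cfsg.Agent.Lib.Helper12.NPC.pResidual_normal p ↥G
  have hRinv : ∀ α ∈ G, ∀ x ∈ R, α x ∈ R := by
    intro α hα x hx
    rw [hR] at hx ⊢
    refine Subgroup.closure_induction (p := fun y _ => α y ∈ Subgroup.closure
      {y : P | ∃ α ∈ Cfsg.pResidual p ↥G, ∃ x : P, y = x⁻¹ * (α : MulAut P) x}) ?_ ?_ ?_ ?_ hx
    · rintro y ⟨β, hβ, x, rfl⟩
      apply Subgroup.subset_closure
      refine ⟨⟨α, hα⟩ * β * ⟨α, hα⟩⁻¹, hResN.conj_mem β hβ ⟨α, hα⟩, α x, ?_⟩
      simp [MulAut.mul_apply]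
    · rw [map_one]; exact Subgroup.one_mem _
    · intro a b _ _ ha hb
      rw [map_mul]; exact Subgroup.mul_mem _ ha hb
    · intro a _ ha
      rw [map_inv]; exact Subgroup.inv_mem _ ha
  have hRres : ∀ α ∈ G, (orderOf α).Coprime p → ∀ x : P, x⁻¹ * α x ∈ R := by
    intro α hα hcop x
    rw [hR]
    apply Subgroup.subset_closure
    refine ⟨⟨α, hα⟩, Subgroup.subset_closure ?_, x, rfl⟩
    show Nat.Coprime (orderOf (⟨α, hα⟩ : ↥G)) p
    rw [← Subgroup.orderOf_coe]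
    exact hcop
  obtain ⟨D, h1, h2, h3, h4, h5⟩ :=
    Cfsg.Agent.Lib.Helper12.SmallExp.exists_small_exp hP G hGc R hRinv hRres
  refine ⟨D, ?_, ?_, h3, ?_, h5, ?_⟩
  · intro α hα
    apply le_antisymm
    · rintro _ ⟨d, hd, rfl⟩
      exact h1 α hα d hd
    · intro d hd
      refine ⟨α⁻¹ d, h1 _ (G.inv_mem hα) d hd, ?_⟩
      simp
  · rw [← hR]; exact h2
  · rw [Subgroup.commutator_le]
    intro d hd x _
    obtain ⟨h6, h7⟩ := h4 d hd x
    exact ⟨h6, Subgroup.mem_centralizer_iff.mpr (fun d' hd' => (h7 d' hd').symm)⟩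
  · intro A hAD hAab hmax
    have hAab' : ∀ a ∈ A, ∀ b ∈ A, a * b = b * a := fun a ha b hb =>
      congrArg Subtype.val (mul_comm' (⟨a, ha⟩ : ↥A) ⟨b, hb⟩)
    exact Cfsg.Agent.Lib.Helper12.SmallExp.max_abelian hP G D h1 h4 h5 A hAD hAab'
      (fun B hAB hBD hBab => hmax B hAB hBD ⟨⟨fun a b => Subtype.ext (hBab a a.2 b b.2)⟩⟩)

end Cfsg.Agent.S1949
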