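import Cfsg.Statements.S1956

set_option autoImplicit false
open Cfsg

namespace Cfsg.Agent.S1956

open scoped Pointwise

theorem exists_conj_le_sylow {G : Type*} [Group G] [Finite G] {p : ℕ} [Fact p.Prime] (P : Sylow p G)
    (Q : Subgroup G) (hQ : IsPGroup p ↥Q) : ∃ g : G, ∀ x ∈ Q, g * x * g⁻¹ ∈ (P : Subgroup G) := by
  obtain ⟨P', hP'⟩ := hQ.exists_le_sylow
  obtain ⟨g, hg⟩ := MulAction.exists_smul_eq G P' P
  refine ⟨g, fun x hx => ?_⟩
  have h1 : x ∈ (P' : Subgroup G) := hP' hx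
  have h2 : MulAut.conj g • x ∈ MulAut.conj g • (P' : Subgroup G) :=
    Subgroup.smul_mem_pointwise_smul x (MulAut.conj g) (P' : Subgroup G) h1
  have h3 : (MulAut.conj g • (P' : Subgroup G)) = ((g • P' : Sylow p G) : Subgroup G) := rfl
  rw [h3, hg] at h2
  have h4 : g * x * g⁻¹ ∈ (P : Subgroup G) := by simpa [MulAut.smul_def] using h2
  exact h4

theorem exists_conj_le_of_le {G : Type*} [Group G] [Finite G] {p : ℕ} [Fact p.Prime] (P : Sylow p G)
    (H : Subgroup G) (hPH : (P : Subgroup G) ≤ H) (Q : Subgroup G) (hQH : Q ≤ H) (hQ : IsPGroup p ↥Q) :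
    ∃ c ∈ H, ∀ x ∈ Q, c * x * c⁻¹ ∈ (P : Subgroup G) := by
  obtain ⟨c, hc⟩ := exists_conj_le_sylow (P.subtype hPH) (Q.subgroupOf H) (hQ.comap_subtype)
  refine ⟨c, c.2, fun x hx => ?_⟩
  have h1 : (⟨x, hQH hx⟩ : H) ∈ Q.subgroupOf H := by
    rw [Subgroup.mem_subgroupOf]; exact hx
  have h2 := hc _ h1
  rw [Sylow.coe_subtype, Subgroup.mem_subgroupOf] at h2
  simpa using h2

theorem mem_smul_sylow_iff {G : Type*} [Group G] {p : ℕ} (P : Sylow p G) (g y : G) :
    y ∈ ((g • P : Sylow p G) : Subgroup G) ↔ g⁻¹ * y * g ∈ (P : Subgroup G) := by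
  have h3 : ((g • P : Sylow p G) : Subgroup G) = (MulAut.conj g • (P : Subgroup G)) := rfl
  rw [h3, Subgroup.mem_pointwise_smul_iff_inv_smul_mem]
  simp [MulAut.smul_def]

theorem exists_mem_smul_eq {G : Type*} [Group G] [Finite G] {p : ℕ} [Fact p.Prime] (P P' : Sylow p G)
    (H : Subgroup G) (hP : (P : Subgroup G) ≤ H) (hP' : (P' : Subgroup G) ≤ H) :
    ∃ c ∈ H, c • P' = P := by
  obtain ⟨c, hcH, hc⟩ := exists_conj_le_of_le P H hP (P' : Subgroup G) hP' P'.isPGroup'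
  refine ⟨c, hcH, ?_⟩
  have hle : ((c • P' : Sylow p G) : Subgroup G) ≤ (P : Subgroup G) := by
    intro y hy
    rw [mem_smul_sylow_iff] at hy
    have := hc _ hy
    have e : c * (c⁻¹ * y * c) * c⁻¹ = y := by group
    rw [e] at this
    exact this
  have := (c • P').is_maximal' P.isPGroup' hle
  exact Sylow.ext this.symm

/-- Let P be a Sylow p-subgroup of the finite group G such that every element of P of order dividing p (dividing 4 when p = 2) is central in P. Then the fusion of these elements is controlled by N_G(P): if such an element a of P has g a g⁻¹ in P, then g = n c with n normalizing P and c commuting with a. -/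
theorem result {G : Type*} [Group G] [Finite G] {p : ℕ} [Fact p.Prime] (P : Sylow p G)
    (hcen : ∀ a ∈ (P : Subgroup G), (a ^ p = 1 ∨ (p = 2 ∧ a ^ 4 = 1)) → ∀ y ∈ (P : Subgroup G), a * y = y * a) :
    ∀ a ∈ (P : Subgroup G), (a ^ p = 1 ∨ (p = 2 ∧ a ^ 4 = 1)) → ∀ g : G, g * a * g⁻¹ ∈ (P : Subgroup G) →
      ∃ n ∈ Subgroup.normalizer ((P : Subgroup G) : Set G), ∃ c : G, c * a = a * c ∧ g = n * c := by
  intro a haP ha g hg
  set b := g * a * g⁻¹ with hb
  have hb' : b ^ p = 1 ∨ (p = 2 ∧ b ^ 4 = 1) := by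
    rcases ha with h | ⟨h2, h4⟩
    · left; rw [hb, conj_pow, h]; group
    · right; refine ⟨h2, ?_⟩; rw [hb, conj_pow, h4]; group
  have hPC : (P : Subgroup G) ≤ Subgroup.centralizer ({b} : Set G) := by
    intro y hy
    rw [Subgroup.mem_centralizer_iff]
    intro z hz
    rw [Set.mem_singleton_iff] at hz
    subst hz
    exact hcen _ hg hb' y hy
  have hP'C : ((g • P : Sylow p G) : Subgroup G) ≤ Subgroup.centralizer ({b} : Set G) := by
    intro y hy
    rw [mem_smul_sylow_iff] at hy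
    rw [Subgroup.mem_centralizer_iff]
    intro z hz
    rw [Set.mem_singleton_iff] at hz
    subst hz
    have h1 := hcen a haP ha _ hy
    calc g * a * g⁻¹ * y = g * (a * (g⁻¹ * y * g)) * g⁻¹ := by group
      _ = g * ((g⁻¹ * y * g) * a) * g⁻¹ := by rw [h1]
      _ = y * (g * a * g⁻¹) := by group
  obtain ⟨c, hcC, hc⟩ := exists_mem_smul_eq P (g • P) _ hPC hP'C
  have hn : c * g ∈ Subgroup.normalizer ((P : Subgroup G) : Set G) := by
    apply Sylow.smul_eq_iff_mem_normalizer.mp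
    rw [mul_smul]; exact hc
  have hcb : b * c = c * b := (Subgroup.mem_centralizer_iff.mp hcC) b (Set.mem_singleton _)
  refine ⟨c * g, hn, (c * g)⁻¹ * c⁻¹ * (c * g), ?_, by group⟩
  have hcb' : c⁻¹ * b = b * c⁻¹ := by
    calc c⁻¹ * b = c⁻¹ * (b * c) * c⁻¹ := by group
      _ = c⁻¹ * (c * b) * c⁻¹ := by rw [hcb]
      _ = b * c⁻¹ := by group
  calc (c * g)⁻¹ * c⁻¹ * (c * g) * a = g⁻¹ * (c⁻¹ * (c⁻¹ * (c * (g * a * g⁻¹)))) * g := by group
    _ = g⁻¹ * (c⁻¹ * (c⁻¹ * (c * b))) * g := by rw [hb]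
    _ = g⁻¹ * (c⁻¹ * (c⁻¹ * (b * c))) * g := by rw [hcb]
    _ = g⁻¹ * (c⁻¹ * ((c⁻¹ * b) * c)) * g := by group
    _ = g⁻¹ * (c⁻¹ * ((b * c⁻¹) * c)) * g := by rw [hcb']
    _ = g⁻¹ * ((c⁻¹ * b)) * g := by group
    _ = g⁻¹ * ((b * c⁻¹)) * g := by rw [hcb']
    _ = g⁻¹ * ((g * a * g⁻¹ * c⁻¹)) * g := by rw [hb]
    _ = a * ((c * g)⁻¹ * c⁻¹ * (c * g)) := by group

end Cfsg.Agent.S1956
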