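import Cfsg.Statements.S1987
import Cfsg.Agent.S1969
import Cfsg.Agent.Lib.Helper12.KInf
import Cfsg.Agent.Lib.Helper12.QStab
import Cfsg.Agent.Lib.Helper12.KInfStable

set_option autoImplicit false
universe u
open Cfsg

namespace Cfsg.Agent.S1987

/-- Let p be an odd prime and G a finite group every section of which is p-stable in the normalizer form (in each section, an element of the normalizer of a p-subgroup Q acting quadratically on Q maps into O_p of N(Q)/C(Q)). Then for every Sylow p-subgroup S of G the lower K-infinity subgroup of S controls strong fusion in G. -/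
theorem result {G : Type u} [Group G] [Finite G] {p : ℕ} [Fact p.Prime] (hp : p ≠ 2) (hst : ∀ (K R : Subgroup G) [hR : (R.subgroupOf K).Normal], Cfsg.IsNormalizerPStable p (↥K ⧸ R.subgroupOf K)) (S : Sylow p G) : Cfsg.ControlsStrongFusion p (Cfsg.inducedFunctor Cfsg.kInfLower (S : Subgroup G)) := by
  have hq : Cfsg.Agent.Lib.Helper12.QStab.QStab p G :=
    Cfsg.Agent.Lib.Helper12.QStab.qstab_of_sections hst
  have hHyp : Cfsg.Agent.S1969.Hyp p Cfsg.kInfLower G := by
    intro Y _ K f hf hc T
    haveI : Finite Y := Finite.of_surjective f hf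
    exact (Cfsg.Agent.Lib.Helper12.KInfStable.kinf_normal_of_stable
      (Cfsg.Agent.Lib.Helper12.QStab.qstab_section hq K f hf) hc T).1
  have hmain := Cfsg.Agent.S1969.main Cfsg.kInfLower
    (Cfsg.Agent.Lib.Helper12.KInf.isChar_kInfLower p) _ G rfl hHyp S
  have hconj := Cfsg.Agent.S1969.isConj_induced Cfsg.kInfLower
    (Cfsg.Agent.Lib.Helper12.KInf.isChar_kInfLower p) G
  refine ⟨S, (hconj S S.isPGroup').1, fun A hA => ⟨hA, fun g hg => ?_⟩⟩
  obtain ⟨x, hx, hx2⟩ := hmain A g (Subgroup.mem_top _) hA (fun a ha => hg ⟨a, ha, rfl⟩)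
  exact ⟨x, hx, fun a ha => (hx2 a ha).symm⟩

end Cfsg.Agent.S1987
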