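import Cfsg.Statements.S2001
import Cfsg.Agent.Lib.Helper12.PairLG

set_option autoImplicit false
open Cfsg

namespace Cfsg.Agent.S2001

open Cfsg.Agent.Lib.Helper12.SylowBasic Cfsg.Agent.Lib.Helper12.Alperin
  Cfsg.Agent.Lib.Helper12.WellPlaced Cfsg.Agent.Lib.Helper12.LocalGlobal
  Cfsg.Agent.Lib.Helper12.SecFusion Cfsg.Agent.Lib.Helper12.PairLG
  Cfsg.Agent.Lib.Helper12.TransferCtl
open scoped commutatorElement

/-- the product of two subgroups, the second normalizing the first -/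
def Mgrp {G : Type*} [Group G] (A B : Subgroup G) (h : ∀ b ∈ B, ∀ a ∈ A, b * a * b⁻¹ ∈ A) :
    Subgroup G where
  carrier := {x | ∃ a ∈ A, ∃ b ∈ B, x = a * b}
  one_mem' := ⟨1, A.one_mem, 1, B.one_mem, by simp⟩
  mul_mem' := by
    rintro _ _ ⟨a₁, ha₁, b₁, hb₁, rfl⟩ ⟨a₂, ha₂, b₂, hb₂, rfl⟩
    exact ⟨a₁ * (b₁ * a₂ * b₁⁻¹), A.mul_mem ha₁ (h b₁ hb₁ a₂ ha₂), b₁ * b₂, B.mul_mem hb₁ hb₂,
      by group⟩
  inv_mem' := by
    rintro _ ⟨a, ha, b, hb, rfl⟩
    exact ⟨b⁻¹ * a⁻¹ * b⁻¹⁻¹, h b⁻¹ (B.inv_mem hb) a⁻¹ (A.inv_mem ha), b⁻¹, B.inv_mem hb,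
      by group⟩

/-- transfer-type realizability: `b⁻¹ b^g ∈ M` -/
def RealT {G : Type*} [Group G] (M : Subgroup G) (B : Subgroup G) (g : G) : Prop :=
  ∀ b ∈ B, b⁻¹ * (g⁻¹ * b * g) ∈ M

theorem realAx_realT {G : Type*} [Group G] (M : Subgroup G) : RealAx (RealT M) := by
  refine ⟨?_, ?_, ?_, ?_⟩
  · intro B b _
    have e : b⁻¹ * ((1 : G)⁻¹ * b * 1) = 1 := by group
    rw [e]
    exact M.one_mem
  · intro B B' g hB h b hb
    exact h b (hB hb)
  · intro B g h h1 h2 b hb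
    have e : b⁻¹ * ((g * h)⁻¹ * b * (g * h)) =
        (b⁻¹ * (g⁻¹ * b * g)) * ((g⁻¹ * b * g)⁻¹ * (h⁻¹ * (g⁻¹ * b * g) * h)) := by group
    rw [e]
    exact M.mul_mem (h1 b hb) (h2 _ (rc_mem g B hb))
  · intro B g g' hgg h b hb
    rw [← hgg b hb]
    exact h b hb

theorem rc_commutator {G : Type*} [Group G] (a : G) (K L : Subgroup G) :
    rc a ⁅K, L⁆ = ⁅rc a K, rc a L⁆ := Subgroup.map_commutator K L _

theorem comm_conj {G : Type*} [Group G] {N : Subgroup G} {g x : G} (hg : g ∈ N)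
    (hx : x ∈ ⁅N, N⁆) : g⁻¹ * x * g ∈ ⁅N, N⁆ := by
  have := rc_mem g ⁅N, N⁆ hx
  rwa [rc_commutator, rc_eq_of_mem_normalizer (Subgroup.le_normalizer hg)] at this

theorem claim3T {G : Type*} [Group G] [Finite G] {p : ℕ} [Fact p.Prime] (P : Sylow p G)
    (W V : Subgroup G → Subgroup G)
    (hW : Cfsg.IsConjugacyFunctor p W) (hV : Cfsg.IsConjugacyFunctor p V)
    (hWZ : ∀ H : Subgroup G, IsPGroup p ↥H →
      H ⊓ Subgroup.centralizer ((H : Subgroup G) : Set G) ≤ W H)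
    (hVmono : ∀ H K : Subgroup G, IsPGroup p ↥H → IsPGroup p ↥K → H ≠ ⊥ → K ≠ ⊥ →
      H ⊓ Subgroup.centralizer ((H : Subgroup G) : Set G) ≤
        K ⊓ Subgroup.centralizer ((K : Subgroup G) : Set G) → V H ≤ V K)
    (hP : (P : Subgroup G) ≠ ⊥) (M : Subgroup G)
    (hM1 : (P : Subgroup G) ⊓ ⁅Subgroup.normalizer ((W (P : Subgroup G) : Subgroup G) : Set G),
      Subgroup.normalizer ((W (P : Subgroup G) : Subgroup G) : Set G)⁆ ≤ M)
    (hM2 : (P : Subgroup G) ⊓ ⁅Subgroup.centralizer ((V (P : Subgroup G) : Subgroup G) : Set G),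
      Subgroup.centralizer ((V (P : Subgroup G) : Subgroup G) : Set G)⁆ ≤ M)
    (hloc : ∀ H : Subgroup G,
      (P : Subgroup G) ⊓ Subgroup.centralizer ((P : Subgroup G) : Set G) ≤ H →
      H ≤ (P : Subgroup G) → ∃ Q : Subgroup G, Q ≤ Subgroup.normalizer (H : Set G) ∧
        IsPGroup p ↥Q ∧ ¬ p ∣ Q.relIndex (Subgroup.normalizer (H : Set G)) ∧
        ∀ x ∈ Q ⊓ ⁅Subgroup.normalizer (H : Set G), Subgroup.normalizer (H : Set G)⁆,
          ∃ a ∈ Q ⊓ ⁅Subgroup.normalizer ((W Q : Subgroup G) : Set G),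
            Subgroup.normalizer ((W Q : Subgroup G) : Set G)⁆,
          ∃ b ∈ Q ⊓ ⁅Subgroup.centralizer ((V Q : Subgroup G) : Set G),
            Subgroup.centralizer ((V Q : Subgroup G) : Set G)⁆, x = a * b)
    (k : ℕ)
    (IH : ∀ B' : Subgroup G, B' ≤ (P : Subgroup G) → k < Nat.card ↥B' →
      ∀ g : G, rc g B' ≤ (P : Subgroup G) → RealT M B' g) :
    ∀ n : ℕ, ∀ H : Subgroup G,
      (P : Subgroup G) ⊓ Subgroup.centralizer ((P : Subgroup G) : Set G) ≤ H →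
      H ≤ (P : Subgroup G) →
      Nat.card ↥(P : Subgroup G) -
        Nat.card ↥((P : Subgroup G) ⊓ Subgroup.normalizer (H : Set G)) = n →
      ((P : Subgroup G) ⊓ Subgroup.normalizer (H : Set G) ≠ (P : Subgroup G) →
        k < Nat.card ↥((P : Subgroup G) ⊓ Subgroup.normalizer (H : Set G))) →
      (P : Subgroup G) ⊓ Subgroup.normalizer (H : Set G) ⊓
        ⁅Subgroup.normalizer (H : Set G), Subgroup.normalizer (H : Set G)⁆ ≤ M := by
  have hPp : IsPGroup p ↥(P : Subgroup G) := P.isPGroup'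
  intro n
  induction n using Nat.strong_induction_on with
  | _ n ih =>
    intro H hZH hHP hn hside t ht
    obtain ⟨htT, htC⟩ := Subgroup.mem_inf.mp ht
    obtain ⟨Q, hQN, hQp, hQidx, hQloc⟩ := hloc H hZH hHP
    obtain ⟨n₀, hn₀, a, hn₀T, haQ, hr1, -, hZQ', hcard⟩ := sylow_setup P (realAx_realT M)
      k IH H hHP hside Q hQN hQp hQidx
    have hQ'p : IsPGroup p ↥(rc a Q) := rc_isPGroup a hQp
    have ht₁ : n₀⁻¹ * t * n₀ ∈ Q ⊓ ⁅Subgroup.normalizer (H : Set G),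
        Subgroup.normalizer (H : Set G)⁆ :=
      Subgroup.mem_inf.mpr ⟨hn₀T (rc_mem n₀ _ htT), comm_conj hn₀ htC⟩
    obtain ⟨u, hu, v, hv, huv⟩ := hQloc _ ht₁
    have hu' : a⁻¹ * u * a ∈ rc a Q ⊓ ⁅Subgroup.normalizer ((W (rc a Q) : Subgroup G) : Set G),
        Subgroup.normalizer ((W (rc a Q) : Subgroup G) : Set G)⁆ := by
      refine Subgroup.mem_inf.mpr ⟨rc_mem a Q (Subgroup.mem_inf.mp hu).1, ?_⟩
      have := rc_mem a _ (Subgroup.mem_inf.mp hu).2
      rwa [rc_commutator, ← rc_normalizer, ← rc_W hW a hQp] at this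
    have hv' : a⁻¹ * v * a ∈ rc a Q ⊓ ⁅Subgroup.centralizer ((V (rc a Q) : Subgroup G) : Set G),
        Subgroup.centralizer ((V (rc a Q) : Subgroup G) : Set G)⁆ := by
      refine Subgroup.mem_inf.mpr ⟨rc_mem a Q (Subgroup.mem_inf.mp hv).1, ?_⟩
      have := rc_mem a _ (Subgroup.mem_inf.mp hv).2
      rw [rc_commutator] at this
      have hle := rc_centralizer_le a (V Q)
      rw [← rc_W hV a hQp] at hle
      exact Subgroup.commutator_mono hle hle this
    have hvM : a⁻¹ * v * a ∈ M := by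
      by_cases hQ'0 : rc a Q = ⊥
      · have := (Subgroup.mem_inf.mp hv').1
        rw [hQ'0, Subgroup.mem_bot] at this
        rw [this]
        exact M.one_mem
      · have hle := centralizer_V_le P hVmono hP (rc a Q) haQ hZQ' hQ'0
        exact hM2 (Subgroup.mem_inf.mpr ⟨haQ (Subgroup.mem_inf.mp hv').1,
          Subgroup.commutator_mono hle hle (Subgroup.mem_inf.mp hv').2⟩)
    have huM : a⁻¹ * u * a ∈ M := by
      by_cases hQ'P : rc a Q = (P : Subgroup G)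
      · rw [hQ'P] at hu'
        exact hM1 hu'
      · obtain ⟨h1, h2, h3, h4⟩ := next_H P hW hWZ (rc a Q) haQ hZQ'
        have h4' := h4 hQ'P
        have hle : Nat.card ↥((P : Subgroup G) ⊓
            Subgroup.normalizer ((W (rc a Q) : Subgroup G) : Set G)) ≤
            Nat.card ↥(P : Subgroup G) := Subgroup.card_le_of_le inf_le_left
        refine ih (Nat.card ↥(P : Subgroup G) - Nat.card ↥((P : Subgroup G) ⊓
            Subgroup.normalizer ((W (rc a Q) : Subgroup G) : Set G))) (by omega)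
          (W (rc a Q)) h1 h2 rfl ?_
          (Subgroup.mem_inf.mpr ⟨h3 (Subgroup.mem_inf.mp hu').1, (Subgroup.mem_inf.mp hu').2⟩)
        intro _
        by_cases hT : (P : Subgroup G) ⊓ Subgroup.normalizer (H : Set G) = (P : Subgroup G)
        · exfalso
          apply hQ'P
          apply Subgroup.eq_of_le_of_card_ge haQ
          rw [hT] at hcard
          exact hcard
        · have := hside hT
          omega
    have h5 := hr1 t htT
    have e1 : (n₀ * a)⁻¹ * t * (n₀ * a) = a⁻¹ * u * a * (a⁻¹ * v * a) := by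
      have : (n₀ * a)⁻¹ * t * (n₀ * a) = a⁻¹ * (n₀⁻¹ * t * n₀) * a := by group
      rw [this, huv]
      group
    have h6 : (n₀ * a)⁻¹ * t * (n₀ * a) ∈ M := by
      rw [e1]
      exact M.mul_mem huM hvM
    have e2 : t = ((n₀ * a)⁻¹ * t * (n₀ * a)) * (t⁻¹ * ((n₀ * a)⁻¹ * t * (n₀ * a)))⁻¹ := by group
    rw [e2]
    exact M.mul_mem h6 (M.inv_mem h5)

/-- Let p be a prime dividing the order of the finite group G, P a Sylow p-subgroup, W a conjugacy functor for p on G with Z(H) ≤ W(H) for every nontrivial p-subgroup H, and V a central functor: a conjugacy functor with V(H) ≤ Z(H), and V(H) ≤ V(K) whenever Z(H) ≤ Z(K), for nontrivial p-subgroups H, K. Say that W with V controls transfer in a subgroup L when some Sylow p-subgroup Q of L satisfies Q ∩ L' = (Q ∩ (N_L(W(Q)))')·(Q ∩ (C_L(V(Q)))') as a product of two subgroups. If W with V controls transfer in N_G(H) for every subgroup H with Z(P) ≤ H ≤ P, then W with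 V controls transfer in G. -/
theorem result {G : Type*} [Group G] [Finite G] {p : ℕ} [Fact p.Prime] (hdiv : p ∣ Nat.card G) (P : Sylow p G) (W V : Subgroup G → Subgroup G) (hW : Cfsg.IsConjugacyFunctor p W) (hV : Cfsg.IsConjugacyFunctor p V) (hWZ : ∀ H : Subgroup G, IsPGroup p ↥H → H ⊓ Subgroup.centralizer ((H : Subgroup G) : Set G) ≤ W H) (hVZ : ∀ H : Subgroup G, IsPGroup p ↥H → V H ≤ H ⊓ Subgroup.centralizer ((H : Subgroup G) : Set G)) (hVmono : ∀ H K : Subgroup G, IsPGroup p ↥H → IsPGroup p ↥K → H ≠ ⊥ → K ≠ ⊥ → H ⊓ Subgroup.centralizer ((H : Subgroup G) : Set G) ≤ K ⊓ Subgroup.centralizer ((K : Subgroup G) : Set G) → V H ≤ V K) (hloc : ∀ H : Subgroup G, (P : Subgroup G) ⊓ Subgroup.centralizer (((P : Subgroup G) : Subgroup G) : Set G) ≤ H → H ≤ (P : Subgroup G) → ∃ Q : Subgroup G, Q ≤ Subgroup.normalizer ((H : Subgroup G) : Set G) ∧ IsPGroup p ↥Q ∧ ¬ p ∣ (Q).relIndex (Subgroup.normalizer ((H : Subgroup G) :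 Set G)) ∧ ∀ x : G, x ∈ Q ⊓ ⁅Subgroup.normalizer ((H : Subgroup G) : Set G), Subgroup.normalizer ((H : Subgroup G) : Set G)⁆ ↔ ∃ a ∈ Q ⊓ ⁅Subgroup.normalizer ((H : Subgroup G) : Set G) ⊓ Subgroup.normalizer ((W Q : Subgroup G) : Set G), Subgroup.normalizer ((H : Subgroup G) : Set G) ⊓ Subgroup.normalizer ((W Q : Subgroup G) : Set G)⁆, ∃ b ∈ Q ⊓ ⁅Subgroup.normalizer ((H : Subgroup G) : Set G) ⊓ Subgroup.centralizer ((V Q : Subgroup G) : Set G), Subgroup.normalizer ((H : Subgroup G) : Set G) ⊓ Subgroup.centralizer ((V Q : Subgroup G) : Set G)⁆, x = a * b) : ∃ Q : Subgroup G, IsPGroup p ↥Q ∧ ¬ p ∣ Q.index ∧ ∀ x : G, x ∈ Q ⊓ commutator G ↔ ∃ a ∈ Q ⊓ ⁅Subgroup.normalizer ((W Q : Subgroup G) : Set G), Subgroup.normalizer ((W Q : Subgroup G) : Set G)⁆, ∃ b ∈ Q ⊓ ⁅Subgroup.centralizer ((V Q : Subgroup G) : Set G), Subgroup.centralizer ((V Q : Subgroup G) : Set G)⁆, x = a * b := by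
  have hP : (P : Subgroup G) ≠ ⊥ := P.ne_bot_of_dvd_card hdiv
  have hPp : IsPGroup p ↥(P : Subgroup G) := P.isPGroup'
  have hPN₁ : (P : Subgroup G) ≤ Subgroup.normalizer ((W (P : Subgroup G) : Subgroup G) : Set G) :=
    Subgroup.le_normalizer.trans (normalizer_le_normalizer_W hW hPp)
  have hnorm : ∀ b ∈ (P : Subgroup G) ⊓ ⁅Subgroup.centralizer ((V (P : Subgroup G) : Subgroup G) : Set G),
      Subgroup.centralizer ((V (P : Subgroup G) : Subgroup G) : Set G)⁆,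
      ∀ a ∈ (P : Subgroup G) ⊓ ⁅Subgroup.normalizer ((W (P : Subgroup G) : Subgroup G) : Set G),
        Subgroup.normalizer ((W (P : Subgroup G) : Subgroup G) : Set G)⁆,
      b * a * b⁻¹ ∈ (P : Subgroup G) ⊓ ⁅Subgroup.normalizer ((W (P : Subgroup G) : Subgroup G) : Set G),
        Subgroup.normalizer ((W (P : Subgroup G) : Subgroup G) : Set G)⁆ := by
    intro b hb a ha
    have hbP := (Subgroup.mem_inf.mp hb).1
    refine Subgroup.mem_inf.mpr ⟨Subgroup.mul_mem _ (Subgroup.mul_mem _ hbP (Subgroup.mem_inf.mp ha).1)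
      (Subgroup.inv_mem _ hbP), ?_⟩
    have := comm_conj (Subgroup.inv_mem _ (hPN₁ hbP)) (Subgroup.mem_inf.mp ha).2
    rwa [inv_inv] at this
  have hloc' : ∀ H : Subgroup G,
      (P : Subgroup G) ⊓ Subgroup.centralizer ((P : Subgroup G) : Set G) ≤ H →
      H ≤ (P : Subgroup G) → ∃ Q : Subgroup G, Q ≤ Subgroup.normalizer (H : Set G) ∧
        IsPGroup p ↥Q ∧ ¬ p ∣ Q.relIndex (Subgroup.normalizer (H : Set G)) ∧
        ∀ x ∈ Q ⊓ ⁅Subgroup.normalizer (H : Set G), Subgroup.normalizer (H : Set G)⁆,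
          ∃ a ∈ Q ⊓ ⁅Subgroup.normalizer ((W Q : Subgroup G) : Set G),
            Subgroup.normalizer ((W Q : Subgroup G) : Set G)⁆,
          ∃ b ∈ Q ⊓ ⁅Subgroup.centralizer ((V Q : Subgroup G) : Set G),
            Subgroup.centralizer ((V Q : Subgroup G) : Set G)⁆, x = a * b := by
    intro H h1 h2
    obtain ⟨Q, hQN, hQp, hQidx, hQ⟩ := hloc H h1 h2
    refine ⟨Q, hQN, hQp, hQidx, fun x hx => ?_⟩
    obtain ⟨a, ha, b, hb, hab⟩ := (hQ x).mp hx
    exact ⟨a, Subgroup.mem_inf.mpr ⟨(Subgroup.mem_inf.mp ha).1,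
        Subgroup.commutator_mono inf_le_right inf_le_right (Subgroup.mem_inf.mp ha).2⟩,
      b, Subgroup.mem_inf.mpr ⟨(Subgroup.mem_inf.mp hb).1,
        Subgroup.commutator_mono inf_le_right inf_le_right (Subgroup.mem_inf.mp hb).2⟩, hab⟩
  have hM1 : (P : Subgroup G) ⊓ ⁅Subgroup.normalizer ((W (P : Subgroup G) : Subgroup G) : Set G),
      Subgroup.normalizer ((W (P : Subgroup G) : Subgroup G) : Set G)⁆ ≤ Mgrp _ _ hnorm :=
    fun a ha => ⟨a, ha, 1, Subgroup.one_mem _, (mul_one a).symm⟩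
  have hM2 : (P : Subgroup G) ⊓ ⁅Subgroup.centralizer ((V (P : Subgroup G) : Subgroup G) : Set G),
      Subgroup.centralizer ((V (P : Subgroup G) : Subgroup G) : Set G)⁆ ≤ Mgrp _ _ hnorm :=
    fun b hb => ⟨1, Subgroup.one_mem _, b, hb, (one_mul b).symm⟩
  have main := reduce P (realAx_realT (Mgrp _ _ hnorm))
    (fun k IH H hZ hHP hside B hB d hd hdB => by
      intro b hb
      have hbH : b ∈ H := hB hb
      have hbd : d⁻¹ * b * d ∈ H := hdB (rc_mem d B hb)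
      apply claim3T P W V hW hV hWZ hVmono hP (Mgrp _ _ hnorm) hM1 hM2 hloc' k IH _ H hZ hHP rfl hside
      refine Subgroup.mem_inf.mpr ⟨Subgroup.mem_inf.mpr ⟨hHP (H.mul_mem (H.inv_mem hbH) hbd),
        Subgroup.le_normalizer (H.mul_mem (H.inv_mem hbH) hbd)⟩, ?_⟩
      have e : b⁻¹ * (d⁻¹ * b * d) = ⁅b⁻¹, d⁻¹⁆ := by
        rw [commutatorElement_def]
        group
      rw [e]
      exact Subgroup.commutator_mem_commutator
        (Subgroup.inv_mem _ (Subgroup.le_normalizer hbH)) (Subgroup.inv_mem _ hd))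
  have hfocal : (P : Subgroup G) ⊓ ⁅(⊤ : Subgroup G), ⊤⁆ ≤ Mgrp _ _ hnorm := by
    apply inf_commutator_le_of_focal ⊤ (P : Subgroup G) _ le_top hPp (sylow_relIndex_top P)
    intro x hx u _ hxu
    have h1 : (fun a => u⁻¹⁻¹ * a * u⁻¹) '' ({x⁻¹} : Set G) ⊆ ((P : Subgroup G) : Set G) := by
      rintro _ ⟨a, ha, rfl⟩
      rw [Set.mem_singleton_iff.mp ha]
      have e : u⁻¹⁻¹ * x⁻¹ * u⁻¹ = x⁻¹ * ⁅x, u⁆ := by
        rw [commutatorElement_def]
        group
      show u⁻¹⁻¹ * x⁻¹ * u⁻¹ ∈ (P : Subgroup G)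
      rw [e]
      exact Subgroup.mul_mem _ (Subgroup.inv_mem _ hx) hxu
    have h2 := main (Subgroup.closure {x⁻¹}) ((Subgroup.closure_le _).mpr (by
      rintro _ ha
      rw [Set.mem_singleton_iff.mp ha]
      exact Subgroup.inv_mem _ hx)) u⁻¹ (rc_closure_le _ _ _ h1) x⁻¹
      (Subgroup.subset_closure (Set.mem_singleton _))
    have e : x⁻¹⁻¹ * (u⁻¹⁻¹ * x⁻¹ * u⁻¹) = ⁅x, u⁆ := by
      rw [commutatorElement_def]
      group
    rwa [e] at h2
  refine ⟨P, hPp, P.not_dvd_index, fun x => ⟨fun hx => ?_, ?_⟩⟩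
  · rw [commutator_def] at hx
    exact hfocal hx
  · rintro ⟨a, ha, b, hb, rfl⟩
    rw [commutator_def]
    exact Subgroup.mem_inf.mpr ⟨Subgroup.mul_mem _ (Subgroup.mem_inf.mp ha).1 (Subgroup.mem_inf.mp hb).1,
      Subgroup.mul_mem _ (Subgroup.commutator_mono le_top le_top (Subgroup.mem_inf.mp ha).2)
        (Subgroup.commutator_mono le_top le_top (Subgroup.mem_inf.mp hb).2)⟩

end Cfsg.Agent.S2001
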