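import Cfsg.Statements.S2002
import Cfsg.Agent.Lib.Helper12.PairLG

set_option autoImplicit false
open Cfsg

namespace Cfsg.Agent.S2002

open Cfsg.Agent.Lib.Helper12.SylowBasic Cfsg.Agent.Lib.Helper12.Alperin
  Cfsg.Agent.Lib.Helper12.WellPlaced Cfsg.Agent.Lib.Helper12.LocalGlobal
  Cfsg.Agent.Lib.Helper12.SecFusion Cfsg.Agent.Lib.Helper12.PairLG

theorem dec_of_list {G : Type*} [Group G] (𝒩 : Set (Subgroup G)) (S : Subgroup G) :
    ∀ (l : List G) (B : Subgroup G), (∀ x ∈ l, ∃ N ∈ 𝒩, x ∈ N) →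
      (∀ k ≤ l.length, rc (l.take k).prod B ≤ S) → Dec (Stp 𝒩 S) B l.prod := by
  intro l
  induction l with
  | nil =>
    intro B _ _
    rw [List.prod_nil]
    exact Dec.one _ _
  | cons x l ih =>
    intro B hmem hk
    rw [List.prod_cons]
    have hB : B ≤ S := by
      have := hk 0 (Nat.zero_le _)
      simpa [rc_one] using this
    obtain ⟨N, hN, hx⟩ := hmem x List.mem_cons_self
    apply Dec.append (Dec.single ⟨rfl, N, hN, hx⟩ hB)
    apply ih
    · intro y hy
      exact hmem y (List.mem_cons_of_mem _ hy)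
    · intro k hk'
      have := hk (k + 1) (by simpa using hk')
      rw [List.take_succ_cons, List.prod_cons, rc_mul] at this
      exact this

/-- from the format of the statement to chains -/
theorem realN_of_loc {G : Type*} [Group G] (L N₁ N₂ Q : Subgroup G)
    (h : ∀ (X : Set G) (a : G), X ⊆ Q → a ∈ L → (fun x => a⁻¹ * x * a) '' X ⊆ Q →
      ∃ c ∈ L ⊓ Subgroup.centralizer X, ∃ (n : ℕ) (b : Fin n → G),
        (∀ i, b i ∈ L ⊓ N₁ ∨ b i ∈ L ⊓ N₂) ∧ a = c * (List.ofFn b).prod ∧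
        ∀ k : ℕ, k ≤ n → (fun x => (((List.ofFn b).take k).prod)⁻¹ * x *
          ((List.ofFn b).take k).prod) '' ((fun x => c⁻¹ * x * c) '' X) ⊆ Q)
    (B : Subgroup G) (hB : B ≤ Q) (a : G) (ha : a ∈ L) (haB : rc a B ≤ Q) :
    RealN {N₁, N₂} Q B a := by
  obtain ⟨c, hc, n, b, hb, hab, hk⟩ := h (B : Set G) a hB ha (by
    rintro _ ⟨x, hx, rfl⟩
    exact haB (rc_mem a B hx))
  have hcB : ∀ u ∈ B, c⁻¹ * u * c = u := by
    intro u hu
    have := Subgroup.mem_centralizer_iff.mp (Subgroup.mem_inf.mp hc).2 u hu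
    rw [mul_assoc, this]
    group
  refine ⟨(List.ofFn b).prod, ?_, ?_⟩
  · intro u hu
    rw [hab]
    have e : (c * (List.ofFn b).prod)⁻¹ * u * (c * (List.ofFn b).prod) =
        ((List.ofFn b).prod)⁻¹ * (c⁻¹ * u * c) * (List.ofFn b).prod := by group
    rw [e, hcB u hu]
  · apply dec_of_list
    · intro x hx
      rw [List.mem_ofFn] at hx
      obtain ⟨i, rfl⟩ := hx
      rcases hb i with h1 | h1
      · exact ⟨N₁, Or.inl rfl, (Subgroup.mem_inf.mp h1).2⟩
      · exact ⟨N₂, Or.inr rfl, (Subgroup.mem_inf.mp h1).2⟩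
    · intro k hk'
      rw [rc_le_iff]
      intro u hu
      have := hk k (by simpa using hk') ⟨c⁻¹ * u * c, ⟨u, hu, rfl⟩, rfl⟩
      rw [hcB u hu] at this
      exact this

/-- from chains to the format of the statement -/
theorem loc_of_realN {G : Type*} [Group G] (N₁ N₂ Q : Subgroup G) (X : Set G) (a : G)
    (hXa : (fun x => a⁻¹ * x * a) '' X ⊆ Q)
    (hr : RealN {N₁, N₂} Q (Subgroup.closure X) a) :
    ∃ c ∈ Subgroup.centralizer X, ∃ (n : ℕ) (b : Fin n → G),
      (∀ i, b i ∈ ⊤ ⊓ N₁ ∨ b i ∈ ⊤ ⊓ N₂) ∧ a = c * (List.ofFn b).prod ∧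
      ∀ k : ℕ, k ≤ n → (fun x => (((List.ofFn b).take k).prod)⁻¹ * x *
        ((List.ofFn b).take k).prod) '' ((fun x => c⁻¹ * x * c) '' X) ⊆ Q := by
  obtain ⟨g', hg', l, hc, hl⟩ := hr
  have e : List.ofFn (fun i : Fin l.length => (l.get i).2) = l.map Prod.snd := by
    rw [show (fun i : Fin l.length => (l.get i).2) = Prod.snd ∘ l.get from rfl, ← List.map_ofFn,
      List.ofFn_get]
  have hlen : (l.map Prod.snd).length = l.length := List.length_map _
  have hprod : (l.map Prod.snd).prod = g' := hl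
  have hcX : ∀ x ∈ X, (a * g'⁻¹)⁻¹ * x * (a * g'⁻¹) = x := by
    intro x hx
    have h1 := hg' x (Subgroup.subset_closure hx)
    calc (a * g'⁻¹)⁻¹ * x * (a * g'⁻¹) = g' * (a⁻¹ * x * a) * g'⁻¹ := by group
      _ = g' * (g'⁻¹ * x * g') * g'⁻¹ := by rw [h1]
      _ = x := by group
  refine ⟨a * g'⁻¹, ?_, l.length, fun i => (l.get i).2, ?_, ?_, ?_⟩
  · rw [Subgroup.mem_centralizer_iff]
    intro x hx
    have h1 := hcX x hx
    calc x * (a * g'⁻¹) = (a * g'⁻¹) * ((a * g'⁻¹)⁻¹ * x * (a * g'⁻¹)) := by group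
      _ = a * g'⁻¹ * x := by rw [h1]
  · intro i
    obtain ⟨⟨_, N, hN, hx⟩, _⟩ := hc.getElem i.val i.isLt
    rcases hN with rfl | rfl
    · exact Or.inl (Subgroup.mem_inf.mpr ⟨Subgroup.mem_top _, hx⟩)
    · exact Or.inr (Subgroup.mem_inf.mpr ⟨Subgroup.mem_top _, hx⟩)
  · rw [e, hprod]
    group
  · intro k hk
    rw [e]
    rintro _ ⟨_, ⟨x, hx, rfl⟩, rfl⟩
    have hxB : x ∈ Subgroup.closure X := Subgroup.subset_closure hx
    show (((l.map Prod.snd).take k).prod)⁻¹ * ((a * g'⁻¹)⁻¹ * x * (a * g'⁻¹)) *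
      ((l.map Prod.snd).take k).prod ∈ Q
    rw [hcX x hx]
    by_cases hk2 : k < l.length
    · obtain ⟨⟨hT, _⟩, hle⟩ := hc.getElem k hk2
      have := hle (rc_mem _ _ hxB)
      rwa [hT] at this
    · rw [List.take_of_length_le (by rw [hlen]; omega), hprod, hg' x hxB]
      exact hXa ⟨x, hx, rfl⟩

theorem claim3 {G : Type*} [Group G] [Finite G] {p : ℕ} [Fact p.Prime] (P : Sylow p G)
    (W V : Subgroup G → Subgroup G)
    (hW : Cfsg.IsConjugacyFunctor p W) (hV : Cfsg.IsConjugacyFunctor p V)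
    (hWZ : ∀ H : Subgroup G, IsPGroup p ↥H →
      H ⊓ Subgroup.centralizer ((H : Subgroup G) : Set G) ≤ W H)
    (hVmono : ∀ H K : Subgroup G, IsPGroup p ↥H → IsPGroup p ↥K → H ≠ ⊥ → K ≠ ⊥ →
      H ⊓ Subgroup.centralizer ((H : Subgroup G) : Set G) ≤
        K ⊓ Subgroup.centralizer ((K : Subgroup G) : Set G) → V H ≤ V K)
    (hP : (P : Subgroup G) ≠ ⊥)
    (hloc : ∀ H : Subgroup G,
      (P : Subgroup G) ⊓ Subgroup.centralizer ((P : Subgroup G) : Set G) ≤ H →
      H ≤ (P : Subgroup G) → ∃ Q : Subgroup G, Q ≤ Subgroup.normalizer (H : Set G) ∧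
        IsPGroup p ↥Q ∧ ¬ p ∣ Q.relIndex (Subgroup.normalizer (H : Set G)) ∧
        ∀ B : Subgroup G, B ≤ Q → ∀ a ∈ Subgroup.normalizer (H : Set G), rc a B ≤ Q →
          RealN {Subgroup.normalizer ((W Q : Subgroup G) : Set G),
            Subgroup.centralizer ((V Q : Subgroup G) : Set G)} Q B a)
    (k : ℕ)
    (IH : ∀ B' : Subgroup G, B' ≤ (P : Subgroup G) → k < Nat.card ↥B' →
      ∀ g : G, rc g B' ≤ (P : Subgroup G) →
        RealN {Subgroup.normalizer ((W (P : Subgroup G) : Subgroup G) : Set G),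
          Subgroup.centralizer ((V (P : Subgroup G) : Subgroup G) : Set G)} (P : Subgroup G) B' g) :
    ∀ n : ℕ, ∀ H : Subgroup G,
      (P : Subgroup G) ⊓ Subgroup.centralizer ((P : Subgroup G) : Set G) ≤ H →
      H ≤ (P : Subgroup G) →
      Nat.card ↥(P : Subgroup G) -
        Nat.card ↥((P : Subgroup G) ⊓ Subgroup.normalizer (H : Set G)) = n →
      ((P : Subgroup G) ⊓ Subgroup.normalizer (H : Set G) ≠ (P : Subgroup G) →
        k < Nat.card ↥((P : Subgroup G) ⊓ Subgroup.normalizer (H : Set G))) →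
      ∀ B : Subgroup G, B ≤ (P : Subgroup G) ⊓ Subgroup.normalizer (H : Set G) →
        ∀ d ∈ Subgroup.normalizer (H : Set G),
          rc d B ≤ (P : Subgroup G) ⊓ Subgroup.normalizer (H : Set G) →
          RealN {Subgroup.normalizer ((W (P : Subgroup G) : Subgroup G) : Set G),
            Subgroup.centralizer ((V (P : Subgroup G) : Subgroup G) : Set G)}
            (P : Subgroup G) B d := by
  have hPp : IsPGroup p ↥(P : Subgroup G) := P.isPGroup'
  intro n
  induction n using Nat.strong_induction_on with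
  | _ n ih =>
    intro H hZH hHP hn hside B hB d hd hdB
    obtain ⟨Q, hQN, hQp, hQidx, hQreal⟩ := hloc H hZH hHP
    obtain ⟨n₀, hn₀, a, hn₀T, haQ, hr1, hr2, hZQ', hcard⟩ := sylow_setup P
      (realAx_realN {Subgroup.normalizer ((W (P : Subgroup G) : Subgroup G) : Set G),
        Subgroup.centralizer ((V (P : Subgroup G) : Subgroup G) : Set G)} (P : Subgroup G))
      k IH H hHP hside Q hQN hQp hQidx
    have hQ'p : IsPGroup p ↥(rc a Q) := rc_isPGroup a hQp
    have hB₁ : rc n₀ B ≤ Q := (rc_mono n₀ hB).trans hn₀T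
    have hd₁ : n₀⁻¹ * d * n₀ ∈ Subgroup.normalizer (H : Set G) :=
      Subgroup.mul_mem _ (Subgroup.mul_mem _ (Subgroup.inv_mem _ hn₀) hd) hn₀
    have hd₁B : rc (n₀⁻¹ * d * n₀) (rc n₀ B) ≤ Q := by
      rw [← rc_mul]
      have e : n₀ * (n₀⁻¹ * d * n₀) = d * n₀ := by group
      rw [e, rc_mul]
      exact (rc_mono n₀ hdB).trans hn₀T
    have r0 := hQreal (rc n₀ B) hB₁ _ hd₁ hd₁B
    have r1 := r0.map (MulAut.conj a⁻¹).toMonoidHom
      (𝒩' := {Subgroup.normalizer ((W (rc a Q) : Subgroup G) : Set G),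
        Subgroup.centralizer ((V (rc a Q) : Subgroup G) : Set G)}) (by
      intro N hN
      rcases hN with rfl | rfl
      · refine ⟨_, Or.inl rfl, ?_⟩
        rw [rc_W hW a hQp, rc_normalizer]
        exact le_rfl
      · refine ⟨_, Or.inr rfl, ?_⟩
        rw [rc_W hV a hQp]
        exact rc_centralizer_le a (V Q))
    have r2 : RealN {Subgroup.normalizer ((W (P : Subgroup G) : Subgroup G) : Set G),
        Subgroup.centralizer ((V (P : Subgroup G) : Subgroup G) : Set G)} (P : Subgroup G)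
        (rc a (rc n₀ B)) (a⁻¹ * (n₀⁻¹ * d * n₀) * a) := by
      have hfin : rc (a⁻¹ * (n₀⁻¹ * d * n₀) * a) (rc a (rc n₀ B)) ≤ rc a Q := by
        rw [← rc_mul]
        have e : a * (a⁻¹ * (n₀⁻¹ * d * n₀) * a) = (n₀⁻¹ * d * n₀) * a := by group
        rw [e, rc_mul]
        exact rc_mono a hd₁B
      have r1' : RealN {Subgroup.normalizer ((W (rc a Q) : Subgroup G) : Set G),
          Subgroup.centralizer ((V (rc a Q) : Subgroup G) : Set G)} (rc a Q)
          (rc a (rc n₀ B)) (a⁻¹ * (n₀⁻¹ * d * n₀) * a) := by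
        have e : (MulAut.conj a⁻¹).toMonoidHom (n₀⁻¹ * d * n₀) = a⁻¹ * (n₀⁻¹ * d * n₀) * a := by
          simp [MulAut.conj_apply]
        rw [← e]
        exact r1
      apply real_of_realN (realAx_realN _ _) ?_ hfin r1'
      intro N hN D hD x hx hxD
      by_cases hD0 : D = ⊥
      · rw [hD0]
        exact realN_bot _ _ _
      have hQ'0 : rc a Q ≠ ⊥ := fun h => hD0 (le_bot_iff.mp (h ▸ hD))
      rcases hN with rfl | rfl
      · by_cases hQ'P : rc a Q = (P : Subgroup G)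
        · rw [hQ'P] at hx hD
          exact RealN.single hD (Or.inl rfl) hx
        · obtain ⟨h1, h2, h3, h4⟩ := next_H P hW hWZ (rc a Q) haQ hZQ'
          have h4' := h4 hQ'P
          have hle : Nat.card ↥((P : Subgroup G) ⊓
              Subgroup.normalizer ((W (rc a Q) : Subgroup G) : Set G)) ≤
              Nat.card ↥(P : Subgroup G) := Subgroup.card_le_of_le inf_le_left
          refine ih (Nat.card ↥(P : Subgroup G) - Nat.card ↥((P : Subgroup G) ⊓
              Subgroup.normalizer ((W (rc a Q) : Subgroup G) : Set G))) (by omega)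
            (W (rc a Q)) h1 h2 rfl ?_ D (hD.trans h3) x hx (hxD.trans h3)
          intro _
          by_cases hT : (P : Subgroup G) ⊓ Subgroup.normalizer (H : Set G) = (P : Subgroup G)
          · exfalso
            apply hQ'P
            apply Subgroup.eq_of_le_of_card_ge haQ
            rw [hT] at hcard
            exact hcard
          · have := hside hT
            omega
      · exact RealN.single (hD.trans haQ) (Or.inr rfl)
          (centralizer_V_le P hVmono hP (rc a Q) haQ hZQ' hQ'0 hx)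
    have e1 : rc a (rc n₀ B) = rc (n₀ * a) B := (rc_mul n₀ a B).symm
    have s1 := hr1.mono hB
    have s2 : RealN {Subgroup.normalizer ((W (P : Subgroup G) : Subgroup G) : Set G),
        Subgroup.centralizer ((V (P : Subgroup G) : Subgroup G) : Set G)} (P : Subgroup G)
        (rc (n₀ * a) B) (a⁻¹ * (n₀⁻¹ * d * n₀) * a) := by
      rw [← e1]
      exact r2
    have s3 : RealN {Subgroup.normalizer ((W (P : Subgroup G) : Subgroup G) : Set G),
        Subgroup.centralizer ((V (P : Subgroup G) : Subgroup G) : Set G)} (P : Subgroup G)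
        (rc (n₀ * a * (a⁻¹ * (n₀⁻¹ * d * n₀) * a)) B) (n₀ * a)⁻¹ := by
      apply hr2.mono
      have e : n₀ * a * (a⁻¹ * (n₀⁻¹ * d * n₀) * a) = d * (n₀ * a) := by group
      rw [e, rc_mul]
      exact rc_mono _ hdB
    have s := (s1.comp s2).comp s3
    have e : n₀ * a * (a⁻¹ * (n₀⁻¹ * d * n₀) * a) * (n₀ * a)⁻¹ = d := by group
    rwa [e] at s

/-- Let p be a prime dividing the order of the finite group G, P a Sylow p-subgroup, W a conjugacy functor for p on G with Z(H) ≤ W(H) for every nontrivial p-subgroup H, and V a central functor (a conjugacy functor with V(H) ≤ Z(H), and V(H) ≤ V(K) whenever Z(H) ≤ Z(K)). Say that W with V controls strong fusion in a subgroup L when some Sylow p-subgroup Q of L has the property: whenever X ⊆ Q and a ∈ L with a⁻¹Xa ⊆ Q, then a = c b with c ∈ C_L(X) and b = b₁ ⋯ bₙ a product of elements each in N_L(W(Q)) or in C_L(V(Q)) such that every partial conjugate (b₁ ⋯ bₖ)⁻¹ X (b₁ ⋯ bₖ) lies in Q. If W with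 V controls strong fusion in N_G(H) for every subgroup H with Z(P) ≤ H ≤ P, then W with V controls strong fusion in G. -/
theorem result {G : Type*} [Group G] [Finite G] {p : ℕ} [Fact p.Prime] (hdiv : p ∣ Nat.card G) (P : Sylow p G) (W V : Subgroup G → Subgroup G) (hW : Cfsg.IsConjugacyFunctor p W) (hV : Cfsg.IsConjugacyFunctor p V) (hWZ : ∀ H : Subgroup G, IsPGroup p ↥H → H ⊓ Subgroup.centralizer ((H : Subgroup G) : Set G) ≤ W H) (hVZ : ∀ H : Subgroup G, IsPGroup p ↥H → V H ≤ H ⊓ Subgroup.centralizer ((H : Subgroup G) : Set G)) (hVmono : ∀ H K : Subgroup G, IsPGroup p ↥H → IsPGroup p ↥K → H ≠ ⊥ → K ≠ ⊥ → H ⊓ Subgroup.centralizer ((H : Subgroup G) : Set G) ≤ K ⊓ Subgroup.centralizer ((K : Subgroup G) : Set G) → V H ≤ V K) (hloc : ∀ H : Subgroup G, (P : Subgroup G) ⊓ Subgroup.centralizer (((P : Subgroup G) : Subgroup G) : Set G) ≤ H → H ≤ (P : Subgroup G) → ∃ Q : Subgroup G, Q ≤ Subgroup.normalizer ((H : Subgroup G) : Set G) ∧ IsPGroup p ↥Q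 ∧ ¬ p ∣ (Q).relIndex (Subgroup.normalizer ((H : Subgroup G) : Set G)) ∧ ∀ (X : Set G) (a : G), X ⊆ Q → a ∈ Subgroup.normalizer ((H : Subgroup G) : Set G) → (fun x => a⁻¹ * x * a) '' X ⊆ Q → ∃ c ∈ Subgroup.normalizer ((H : Subgroup G) : Set G) ⊓ Subgroup.centralizer X, ∃ (n : ℕ) (b : Fin n → G), (∀ i, b i ∈ Subgroup.normalizer ((H : Subgroup G) : Set G) ⊓ Subgroup.normalizer ((W Q : Subgroup G) : Set G) ∨ b i ∈ Subgroup.normalizer ((H : Subgroup G) : Set G) ⊓ Subgroup.centralizer ((V Q : Subgroup G) : Set G)) ∧ a = c * (List.ofFn b).prod ∧ ∀ k : ℕ, k ≤ n → (fun x => (((List.ofFn b).take k).prod)⁻¹ * x * ((List.ofFn b).take k).prod) '' ((fun x => c⁻¹ * x * c) '' X) ⊆ Q) : ∃ Q : Subgroup G, IsPGroup p ↥Q ∧ ¬ p ∣ Q.index ∧ ∀ (X : Set G) (a : G), X ⊆ Q → (fun x => a⁻¹ * x * a) '' X ⊆ Q → ∃ c ∈ Subgroup.centralizer X, ∃ (n : ℕ) (b : Fin n → G), (∀ i, b i ∈ ⊤ ⊓ Subgroup.normalizer ((W Q : Subgroup G) : Set G) ∨ b i ∈ ⊤ ⊓ Subgroup.centralizer ((V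 Q : Subgroup G) : Set G)) ∧ a = c * (List.ofFn b).prod ∧ ∀ k : ℕ, k ≤ n → (fun x => (((List.ofFn b).take k).prod)⁻¹ * x * ((List.ofFn b).take k).prod) '' ((fun x => c⁻¹ * x * c) '' X) ⊆ Q := by
  have hP : (P : Subgroup G) ≠ ⊥ := P.ne_bot_of_dvd_card hdiv
  have hPp : IsPGroup p ↥(P : Subgroup G) := P.isPGroup'
  have hloc' : ∀ H : Subgroup G,
      (P : Subgroup G) ⊓ Subgroup.centralizer ((P : Subgroup G) : Set G) ≤ H →
      H ≤ (P : Subgroup G) → ∃ Q : Subgroup G, Q ≤ Subgroup.normalizer (H : Set G) ∧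
        IsPGroup p ↥Q ∧ ¬ p ∣ Q.relIndex (Subgroup.normalizer (H : Set G)) ∧
        ∀ B : Subgroup G, B ≤ Q → ∀ a ∈ Subgroup.normalizer (H : Set G), rc a B ≤ Q →
          RealN {Subgroup.normalizer ((W Q : Subgroup G) : Set G),
            Subgroup.centralizer ((V Q : Subgroup G) : Set G)} Q B a := by
    intro H h1 h2
    obtain ⟨Q, hQN, hQp, hQidx, hQ⟩ := hloc H h1 h2
    exact ⟨Q, hQN, hQp, hQidx, fun B hB a ha haB => realN_of_loc _ _ _ Q hQ B hB a ha haB⟩
  have main := reduce P (realAx_realN {Subgroup.normalizer ((W (P : Subgroup G) : Subgroup G) : Set G),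
      Subgroup.centralizer ((V (P : Subgroup G) : Subgroup G) : Set G)} (P : Subgroup G))
    (fun k IH H hZ hHP hside B hB d hd hdB =>
      claim3 P W V hW hV hWZ hVmono hP hloc' k IH _ H hZ hHP rfl hside B
        (hB.trans (le_inf hHP Subgroup.le_normalizer)) d hd
        (hdB.trans (le_inf hHP Subgroup.le_normalizer)))
  refine ⟨P, hPp, P.not_dvd_index, fun X a hX hXa => ?_⟩
  apply loc_of_realN _ _ _ X a hXa
  exact main (Subgroup.closure X) ((Subgroup.closure_le _).mpr hX) a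
    (rc_closure_le _ _ _ hXa)

end Cfsg.Agent.S2002
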