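import Cfsg.Statements.S2015
import Cfsg.Agent.S1984

set_option autoImplicit false
universe u
open Cfsg

namespace Cfsg.Agent.S2015

open Cfsg.Agent.Lib.Helper12.SylowBasic Cfsg.Agent.Lib.Helper12.TransferCtl
  Cfsg.Agent.Lib.Helper12.KInf
open scoped commutatorElement

/-- For p ≥ 5, every finite p-group P has a characteristic subgroup K containing Z(P), depending only on P, whose normalizer controls transfer wherever P is a Sylow subgroup: for every finite group G and every embedding ι of P onto a Sylow p-subgroup of G, the intersection of ι(P) with the derived subgroup of G equals its intersection with the derived subgroup of N_G(ι(K)). -/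
theorem result (p : ℕ) [Fact p.Prime] (hp : 5 ≤ p) (P : Type u) [Group P] [Finite P] (hP : IsPGroup p P) : ∃ K : Subgroup P, K.Characteristic ∧ Subgroup.center P ≤ K ∧ ∀ (G : Type u) [Group G] [Finite G] (ι : P →* G), Function.Injective ι → (∃ T : Sylow p G, (T : Subgroup G) = ι.range) → ι.range ⊓ commutator G = ι.range ⊓ (commutator ↥(Subgroup.normalizer ((K.map ι : Subgroup G) : Set G))).map (Subgroup.normalizer ((K.map ι : Subgroup G) : Set G)).subtype := by
  have hW : Cfsg.IsCharPFunctor.{u} p Cfsg.kInfLower := isChar_kInfLower p
  refine ⟨Cfsg.kInfLower P, ?_, center_le_kInfLower P, ?_⟩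
  · rw [Subgroup.characteristic_iff_map_eq]
    intro φ
    exact hW.2 P P hP φ
  · intro G _ _ ι hι hT
    obtain ⟨T, hT⟩ := hT
    have hconj := Cfsg.Agent.S1969.isConj_induced Cfsg.kInfLower hW G
    have hctl := controlsTransferIn_sylow hconj (Cfsg.Agent.S1984.result (G := G) hp)
      (T : Subgroup G) le_top T.isPGroup' (sylow_relIndex_top T)
    rw [hT] at hctl
    have hK : Cfsg.inducedFunctor Cfsg.kInfLower ι.range = (Cfsg.kInfLower P).map ι := by
      have h1 := hW.2 P ↥ι.range hP (MonoidHom.ofInjective hι)
      show (Cfsg.kInfLower ↥ι.range).map ι.range.subtype = _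
      rw [← h1, Subgroup.map_map]
      rfl
    rw [hK, top_inf_eq] at hctl
    have h3 : (commutator ↥(Subgroup.normalizer (((Cfsg.kInfLower P).map ι : Subgroup G) : Set G))).map
        (Subgroup.normalizer (((Cfsg.kInfLower P).map ι : Subgroup G) : Set G)).subtype =
        ⁅Subgroup.normalizer (((Cfsg.kInfLower P).map ι : Subgroup G) : Set G),
          Subgroup.normalizer (((Cfsg.kInfLower P).map ι : Subgroup G) : Set G)⁆ := by
      rw [commutator_def, Subgroup.map_commutator, ← MonoidHom.range_eq_map,
        Subgroup.range_subtype]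
    rw [h3, commutator_def]
    exact hctl

end Cfsg.Agent.S2015
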