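import Cfsg.Statements.S2163
import Mathlib

set_option autoImplicit false
open Cfsg

namespace Cfsg.Agent.S2163

/-- the matrix with ones at (j + (n - ℓ), j), j < ℓ -/
def eMat (F : Type*) [Field F] (n ℓ : ℕ) : Matrix (Fin n) (Fin n) F :=
  Matrix.of (fun i j : Fin n => if j.val < ℓ ∧ i.val = j.val + (n - ℓ) then (1 : F) else 0)

theorem eMat_sq (F : Type*) [Field F] (n ℓ : ℕ) (h2 : 2 * ℓ ≤ n) : eMat F n ℓ * eMat F n ℓ = 0 := by
  ext i k
  simp only [Matrix.mul_apply, eMat, Matrix.of_apply, Matrix.zero_apply]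
  apply Finset.sum_eq_zero
  intro j _
  by_cases h1 : j.val < ℓ ∧ i.val = j.val + (n - ℓ)
  · have h3 : ¬ (k.val < ℓ ∧ j.val = k.val + (n - ℓ)) := by
      intro h; omega
    simp [h3]
  · simp [h1]

theorem eMat_rank (F : Type*) [Field F] (n ℓ : ℕ) (hℓ : 1 ≤ ℓ) (h2 : 2 * ℓ ≤ n) :
    (eMat F n ℓ).rank = ℓ := by
  classical
  have hn : 0 < n := by omega
  have : NeZero n := ⟨by omega⟩
  let c : Fin n := ⟨n - ℓ, by omega⟩
  let σ : Equiv.Perm (Fin n) := Equiv.subRight c
  let d : Fin n → F := fun j => if j.val < ℓ then 1 else 0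
  have hE : eMat F n ℓ = σ.permMatrix F * Matrix.diagonal d := by
    ext i j
    rw [Equiv.Perm.permMatrix, PEquiv.toMatrix_toPEquiv_mul]
    simp only [eMat, Matrix.of_apply, Matrix.submatrix_apply, id, Matrix.diagonal_apply, d]
    by_cases hj : j.val < ℓ
    · have key : (σ i = j) ↔ i.val = j.val + (n - ℓ) := by
        simp only [σ, Equiv.subRight_apply]
        rw [sub_eq_iff_eq_add]
        constructor
        · intro h
          rw [h, Fin.val_add]
          simp only [c]
          rw [Nat.mod_eq_of_lt (by omega)]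
        · intro h
          apply Fin.ext
          rw [Fin.val_add]
          simp only [c]
          rw [Nat.mod_eq_of_lt (by omega)]
          exact h
      by_cases hi : i.val = j.val + (n - ℓ)
      · simp [hj, hi, key.mpr hi]
      · have : ¬ σ i = j := fun h => hi (key.mp h)
        simp [hj, hi, this]
    · by_cases h : σ i = j
      · simp [h, hj]
      · simp [h, hj]
  rw [hE, Matrix.rank_mul_eq_right_of_isUnit_det]
  · rw [Matrix.rank_diagonal]
    have : Fintype.card {i : Fin n // d i ≠ 0} = Fintype.card {i : Fin n // i.val < ℓ} := by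
      apply Fintype.card_congr
      apply Equiv.subtypeEquivRight
      intro i
      simp only [d]
      by_cases hi : i.val < ℓ <;> simp [hi]
    rw [this, Fintype.card_subtype]
    have hlt : ℓ < n := by omega
    have : (Finset.univ.filter fun i : Fin n => i.val < ℓ) = Finset.Iio (⟨ℓ, hlt⟩ : Fin n) := by
      ext i
      simp [Fin.lt_def]
    rw [this, Fin.card_Iio]
  · rw [Matrix.det_permutation]
    rcases Int.units_eq_one_or (Equiv.Perm.sign σ) with h | h <;> simp [h]

theorem result {F : Type*} [Field F] [Fintype F] [CharP F 2] {n : ℕ} (hn : 3 ≤ n) (ℓ : ℕ) (h1 : 1 ≤ ℓ) (h2 : 2 * ℓ ≤ n) :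
    ∃ a : Matrix.SpecialLinearGroup (Fin n) F, (a : Matrix (Fin n) (Fin n) F) = 1 + Matrix.of (fun i j : Fin n => if j.val < ℓ ∧ i.val = j.val + (n - ℓ) then (1 : F) else 0) ∧ orderOf a = 2 ∧ ((a : Matrix (Fin n) (Fin n) F) - 1).rank = ℓ := by
  have hdet : (1 + eMat F n ℓ).det = 1 := by
    rw [Matrix.det_of_isLowerTriangular]
    · apply Finset.prod_eq_one
      intro i _
      simp [eMat]
      omega
    · intro i j hij
      have hij' : i < j := hij
      have hne : i ≠ j := ne_of_lt hij'
      have : ¬ (j.val < ℓ ∧ i.val = j.val + (n - ℓ)) := by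
        have := Fin.lt_def.mp hij'
        omega
      simp [eMat, this, Matrix.one_apply, hne]
  have hadd : eMat F n ℓ + eMat F n ℓ = 0 := by
    ext i j
    simp [CharTwo.add_self_eq_zero]
  let a : Matrix.SpecialLinearGroup (Fin n) F := ⟨1 + eMat F n ℓ, hdet⟩
  have ha : (a : Matrix (Fin n) (Fin n) F) = 1 + eMat F n ℓ := rfl
  refine ⟨a, rfl, ?_, ?_⟩
  · have : Fact (Nat.Prime 2) := ⟨Nat.prime_two⟩
    apply orderOf_eq_prime
    · apply Subtype.ext
      rw [Matrix.SpecialLinearGroup.coe_pow, Matrix.SpecialLinearGroup.coe_one, ha, pow_two]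
      have : (1 + eMat F n ℓ) * (1 + eMat F n ℓ) = 1 + (eMat F n ℓ + eMat F n ℓ) + eMat F n ℓ * eMat F n ℓ := by
        noncomm_ring
      rw [this, hadd, eMat_sq F n ℓ h2]
      simp
    · intro h
      have h3 := congrArg (fun a : Matrix.SpecialLinearGroup (Fin n) F => (a : Matrix (Fin n) (Fin n) F) ⟨n - ℓ, by omega⟩ ⟨0, by omega⟩) h
      have hne : (⟨n - ℓ, by omega⟩ : Fin n) ≠ ⟨0, by omega⟩ := by
        intro h; have := congrArg Fin.val h; simp at this; omega
      simp [ha, eMat, Matrix.one_apply, hne] at h3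
      omega
  · have : (a : Matrix (Fin n) (Fin n) F) - 1 = eMat F n ℓ := by
      rw [ha]; simp
    rw [this]
    exact eMat_rank F n ℓ h1 h2

end Cfsg.Agent.S2163
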