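import Cfsg.Statements.S2164
import Mathlib
import Cfsg.Agent.S5631
import Cfsg.Agent.S5645
import Cfsg.Agent.S5642
import Cfsg.Agent.S0781
import Cfsg.Agent.S0780
import Cfsg.Agent.Lib.Helper2.Unitary
import Cfsg.Agent.Lib.Helper2.Unitary2
import Cfsg.Agent.Lib.Helper28.SLGen
import Cfsg.Agent.Lib.Helper28.Herm
import Cfsg.Agent.Lib.Helper13.HermSub
import Cfsg.Agent.Lib.Helper13.HermSimple
import Cfsg.Agent.Lib.Helper13.HermInv

set_option autoImplicit false
open Cfsg

namespace Cfsg.Agent.S2164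

open Matrix
open Cfsg.Agent.S5631 Cfsg.Agent.S5645 Cfsg.Agent.S5642 Cfsg.Agent.Lib.Helper28.SLGen
open Cfsg.Agent.Lib.Helper28.Herm
open Cfsg.Agent.Lib.Helper13.HermSimple
open Cfsg.Agent.Lib.Helper13.HermInv
open Cfsg.Agent.S0780 (suToGL suToGL_coe suToGL_inj lift_su)

theorem coe_mul' {F : Type*} [Field F] {n q : ℕ} (A B : ↥(Cfsg.SU n F q)) :
    (((A * B : ↥(Cfsg.SU n F q)) : Matrix.SpecialLinearGroup (Fin n) F) :
      Matrix (Fin n) (Fin n) F) =
    ((A : Matrix.SpecialLinearGroup (Fin n) F) : Matrix (Fin n) (Fin n) F) *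
      ((B : Matrix.SpecialLinearGroup (Fin n) F) : Matrix (Fin n) (Fin n) F) := rfl

/-- conjugate elements of `SL` have differences from the identity of the same rank -/
theorem rank_of_conj {F : Type*} [Field F] {n : ℕ} (a b : Matrix.SpecialLinearGroup (Fin n) F)
    (h : IsConj a b) :
    ((a : Matrix (Fin n) (Fin n) F) - 1).rank = ((b : Matrix (Fin n) (Fin n) F) - 1).rank := by
  rw [isConj_iff] at h
  obtain ⟨c, hc⟩ := h
  have h1 : (c : Matrix (Fin n) (Fin n) F) * ((c⁻¹ : Matrix.SpecialLinearGroup (Fin n) F) :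
      Matrix (Fin n) (Fin n) F) = 1 := by
    rw [← Matrix.SpecialLinearGroup.coe_mul, mul_inv_cancel, Matrix.SpecialLinearGroup.coe_one]
  have h3 : (b : Matrix (Fin n) (Fin n) F) - 1 =
      (c : Matrix (Fin n) (Fin n) F) * ((a : Matrix (Fin n) (Fin n) F) - 1) *
      ((c⁻¹ : Matrix.SpecialLinearGroup (Fin n) F) : Matrix (Fin n) (Fin n) F) := by
    rw [← hc, Matrix.SpecialLinearGroup.coe_mul, Matrix.SpecialLinearGroup.coe_mul,
      Matrix.mul_sub, Matrix.sub_mul, mul_one, h1]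
  rw [h3, Matrix.rank_mul_eq_left_of_isUnit_det, Matrix.rank_mul_eq_right_of_isUnit_det]
  · rw [c.2]
    exact isUnit_one
  · rw [(c⁻¹ : Matrix.SpecialLinearGroup (Fin n) F).2]
    exact isUnit_one

/-- the structure of an involution -/
theorem inv_data {F : Type*} [Field F] [Fintype F] [CharP F 2] {n q : ℕ}
    (hF : Fintype.card F = q ^ 2) (a : ↥(Cfsg.SU n F q)) (ha : orderOf a = 2) :
    ∃ (u : Fin ((((a : Matrix.SpecialLinearGroup (Fin n) F) : Matrix (Fin n) (Fin n) F) - 1).rank)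
        → Fin n → F), LinearIndependent F u ∧ (∀ i j, Cfsg.hermForm n F q (u i) (u j) = 0) ∧
      ∀ y, ((suToGL n q a : GL (Fin n) F) : Matrix (Fin n) (Fin n) F) *ᵥ y =
        y + ∑ i, Cfsg.hermForm n F q y (u i) • u i := by
  have hf := hermForm_isHerm hF n
  have h2 : (2 : F) = 0 := by
    have := CharP.cast_eq_zero F 2
    exact_mod_cast this
  have haa : suToGL n q a * suToGL n q a = 1 := by
    rw [← map_mul, ← pow_two, ← ha, pow_orderOf_eq_one, map_one]
  have hai : Isom (Cfsg.hermForm n F q) (suToGL n q a) := fun x y => a.2 x y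
  obtain ⟨k, u, hu1, hu2, hu3⟩ := inv_form hf h2 (Fintype.card (Fin n)) (suToGL n q a) hai haa
    (by omega)
  have hk : (((a : Matrix.SpecialLinearGroup (Fin n) F) : Matrix (Fin n) (Fin n) F) - 1).rank
      = k := by
    apply rank_of_form _ u (fun y i => Cfsg.hermForm n F q y (u i))
    · intro y
      rw [Matrix.sub_mulVec, Matrix.one_mulVec, ← suToGL_coe n q a, hu3]
      abel
    · intro i
      obtain ⟨z, hz⟩ := hu1 i
      exact ⟨z, by rw [hz, Matrix.sub_mulVec, Matrix.one_mulVec]; rfl⟩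
    · exact hu2
  subst hk
  refine ⟨u, hu2, fun i j => ?_, hu3⟩
  obtain ⟨z, hz⟩ := hu1 i
  obtain ⟨w, hw⟩ := hu1 j
  rw [hz, hw]
  exact inv_iso hf h2 _ hai haa z w

/-- involutions of the same rank are conjugate in the special unitary group -/
theorem conj_of_rank {F : Type*} [Field F] [Fintype F] [CharP F 2] {n q : ℕ}
    (hF : Fintype.card F = q ^ 2) (a b : ↥(Cfsg.SU n F q)) (ha : orderOf a = 2)
    (hb : orderOf b = 2)
    (hr : (((a : Matrix.SpecialLinearGroup (Fin n) F) : Matrix (Fin n) (Fin n) F) - 1).rank =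
      (((b : Matrix.SpecialLinearGroup (Fin n) F) : Matrix (Fin n) (Fin n) F) - 1).rank) :
    IsConj a b := by
  have hf := hermForm_isHerm hF n
  have h2 : (2 : F) = 0 := by
    have := CharP.cast_eq_zero F 2
    exact_mod_cast this
  obtain ⟨u, hu2, huo, hu3⟩ := inv_data hF a ha
  obtain ⟨u', hu'2, hu'o, hu'3⟩ := inv_data hF b hb
  obtain ⟨k, hk⟩ : ∃ k, (((b : Matrix.SpecialLinearGroup (Fin n) F) :
      Matrix (Fin n) (Fin n) F) - 1).rank = k := ⟨_, rfl⟩
  rw [hk] at hr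
  revert u u'
  rw [hr, hk]
  intro u hu2 huo hu3 u' hu'2 hu'o hu'3
  -- the rank is positive
  obtain ⟨k', rfl⟩ : ∃ k', k = k' + 1 := by
    rcases Nat.eq_zero_or_pos k with h0 | h0
    · exfalso
      subst h0
      have h1 : b = 1 := by
        apply suToGL_inj n q
        apply gl_ext
        intro y
        rw [hu'3, Finset.univ_eq_empty, Finset.sum_empty, add_zero, map_one, Units.val_one,
          Matrix.one_mulVec]
      rw [h1, orderOf_one] at hb
      omega
    · exact ⟨k - 1, by omega⟩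
  obtain ⟨g, hgi, hgu⟩ := witt_ti hf (k' + 1) u u' hu2 hu'2 huo hu'o
  -- a partner of `u' 0`
  have hnot : u' 0 ∉ Submodule.span F (u' '' {i | i ≠ 0}) :=
    hu'2.notMem_span_image (by simp)
  obtain ⟨y, hy0, hy1⟩ := hf.exists_perp _ (u' 0) hnot
  obtain ⟨μ, hμ⟩ := hf.iso_fix (u' 0) y (hu'o 0 0) (by rw [hy1]; exact one_ne_zero)
  obtain ⟨x₁, hx₁⟩ : ∃ x₁, x₁ = y + μ • u' 0 := ⟨_, rfl⟩
  rw [← hx₁] at hμ
  have hx0 : Cfsg.hermForm n F q (u' 0) x₁ = 1 := by
    rw [hx₁, hf.add_right, hf.smul_right, hu'o, mul_zero, add_zero, hy1]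
  have hxs : ∀ j : Fin k', Cfsg.hermForm n F q (u' j.succ) x₁ = 0 := by
    intro j
    rw [hx₁, hf.add_right, hf.smul_right, hu'o, mul_zero, add_zero]
    exact hy0 _ (Submodule.subset_span ⟨j.succ, Fin.succ_ne_zero j, rfl⟩)
  -- the determinant correction
  have hdn := Cfsg.Agent.Lib.Helper2.Unitary.det_norm hF (M := (g : Matrix (Fin n) (Fin n) F))
    (fun x y => hgi x y)
  obtain ⟨δ, hδ⟩ : ∃ δ, δ = (g : Matrix (Fin n) (Fin n) F).det := ⟨_, rfl⟩
  rw [← hδ] at hdn
  have hδ0 : δ ≠ 0 := left_ne_zero_of_mul_eq_one hdn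
  have hqe : Even q := by
    obtain ⟨m, -, hm⟩ := FiniteField.card F 2
    rw [hF] at hm
    have h3 : 2 ∣ q ^ 2 := by
      rw [hm]
      exact dvd_pow_self 2 m.ne_zero
    exact even_iff_two_dvd.mpr (Nat.prime_two.dvd_of_dvd_pow h3)
  obtain ⟨j, hj⟩ := hqe
  have hε : δ⁻¹ ^ (q + 1) = 1 := by
    have e : δ ^ (q + 1) = 1 := by
      rw [pow_succ, mul_comm]
      exact hdn
    rw [inv_pow, e, inv_one]
  obtain ⟨lam, hlam⟩ : ∃ lam, lam = δ⁻¹ ^ (j + 1) := ⟨_, rfl⟩
  have hl2 : lam * lam = δ⁻¹ := by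
    rw [hlam, ← pow_add]
    have e : j + 1 + (j + 1) = (q + 1) + 1 := by omega
    rw [e, pow_succ, hε, one_mul]
  have hlσ : lam * sigq hF lam = 1 := by
    rw [sigq_apply, ← pow_succ', hlam, ← pow_mul, mul_comm, pow_mul, hε, one_pow]
  obtain ⟨c, hci, hcd, hcx⟩ := scal_plane hf (u' 0) x₁ (hu'o 0 0) hμ hx0 lam hlσ
  have hcomm := scal_comm hf u' hu'o x₁ hx0 hxs lam (suToGL n q b) c hu'3 hcx
  -- the conjugating element
  have hdet : ((c * g : GL (Fin n) F) : Matrix (Fin n) (Fin n) F).det = 1 := by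
    rw [Units.val_mul, Matrix.det_mul, hcd, hl2, ← hδ, inv_mul_cancel₀ hδ0]
  obtain ⟨H, hH, -⟩ := lift_su n q (c * g) (isom_mul hci hgi) hdet
  have hga : g * suToGL n q a = suToGL n q b * g := by
    apply gl_ext
    intro y
    rw [Units.val_mul, Units.val_mul, ← Matrix.mulVec_mulVec, ← Matrix.mulVec_mulVec, hu3, hu'3,
      Matrix.mulVec_add, Matrix.mulVec_sum]
    congr 1
    apply Finset.sum_congr rfl
    intro i _
    rw [Matrix.mulVec_smul, hgu i, ← hgu i, hgi, hgu i]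
  rw [isConj_iff]
  refine ⟨H, ?_⟩
  apply suToGL_inj n q
  rw [map_mul, map_mul, map_inv, hH]
  have e : c * g * suToGL n q a * (c * g)⁻¹ = c * (g * suToGL n q a) * g⁻¹ * c⁻¹ := by group
  rw [e, hga]
  have e2 : c * (suToGL n q b * g) * g⁻¹ * c⁻¹ = (c * suToGL n q b) * c⁻¹ := by group
  rw [e2, hcomm]
  group

/-- Conjugacy of involutions in the special unitary group SU_n(q), q even, n ≥ 3, realised over the field F with q² elements as the matrices of determinant 1 preserving the form Σ u_i v_i^q: for two elements of order 2 of SU_n(q) the following are equivalent — they are conjugate in SU_n(q); they are conjugate in SL_n(F); the matrices a − 1 and b − 1 have the same rank. -/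
theorem result {F : Type*} [Field F] [Fintype F] [CharP F 2] {n q : ℕ} (hF : Fintype.card F = q ^ 2) (hn : 3 ≤ n) (a b : ↥(Cfsg.SU n F q)) (ha : orderOf a = 2) (hb : orderOf b = 2) :
    (IsConj a b ↔ IsConj (a : Matrix.SpecialLinearGroup (Fin n) F) (b : Matrix.SpecialLinearGroup (Fin n) F)) ∧
    (IsConj a b ↔ (((a : Matrix.SpecialLinearGroup (Fin n) F) : Matrix (Fin n) (Fin n) F) - 1).rank = (((b : Matrix.SpecialLinearGroup (Fin n) F) : Matrix (Fin n) (Fin n) F) - 1).rank) := by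
  have h1 : IsConj a b → IsConj (a : Matrix.SpecialLinearGroup (Fin n) F)
      (b : Matrix.SpecialLinearGroup (Fin n) F) := by
    intro h
    rw [isConj_iff] at h ⊢
    obtain ⟨c, hc⟩ := h
    exact ⟨c, by rw [← hc]; rfl⟩
  have h2 : IsConj (a : Matrix.SpecialLinearGroup (Fin n) F)
      (b : Matrix.SpecialLinearGroup (Fin n) F) →
      (((a : Matrix.SpecialLinearGroup (Fin n) F) : Matrix (Fin n) (Fin n) F) - 1).rank =
        (((b : Matrix.SpecialLinearGroup (Fin n) F) : Matrix (Fin n) (Fin n) F) - 1).rank :=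
    rank_of_conj _ _
  have h3 := conj_of_rank hF a b ha hb
  exact ⟨⟨h1, fun h => h3 (h2 h)⟩, ⟨fun h => h2 (h1 h), h3⟩⟩

end Cfsg.Agent.S2164
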