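import Cfsg.Statements.S2165
import Cfsg.Agent.S2163
import Mathlib

set_option autoImplicit false
open Cfsg

namespace Cfsg.Agent.S2165

open Cfsg.Agent.S2163

theorem det_one_add_eMat (F : Type*) [Field F] (n ℓ : ℕ) (h1 : 1 ≤ ℓ) (h2 : 2 * ℓ ≤ n) :
    (1 + eMat F n ℓ).det = 1 := by
  rw [Matrix.det_of_isLowerTriangular]
  · apply Finset.prod_eq_one
    intro i _
    simp [eMat]
    omega
  · intro i j hij
    have hij' : i < j := hij
    have hne : i ≠ j := ne_of_lt hij'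
    have : ¬ (j.val < ℓ ∧ i.val = j.val + (n - ℓ)) := by
      have := Fin.lt_def.mp hij'
      omega
    simp [eMat, this, hne]

theorem eMat_mul_transpose (F : Type*) [Field F] (n ℓ : ℕ) (h1 : 1 ≤ ℓ) (h2 : 2 * ℓ ≤ n) :
    eMat F n ℓ * (eMat F n ℓ).transpose =
      Matrix.diagonal (fun i : Fin n => if n - ℓ ≤ i.val then (1 : F) else 0) := by
  ext i j
  simp only [Matrix.mul_apply, Matrix.transpose_apply, eMat, Matrix.of_apply, Matrix.diagonal_apply]
  by_cases hc : i = j ∧ n - ℓ ≤ i.val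
  · obtain ⟨rfl, hi⟩ := hc
    rw [if_pos (rfl : i = i), if_pos hi]
    rw [Finset.sum_eq_single (⟨i.val - (n - ℓ), by omega⟩ : Fin n)]
    · have h3 : (i.val - (n - ℓ) < ℓ ∧ i.val = i.val - (n - ℓ) + (n - ℓ)) := by
        have := i.2; omega
      rw [if_pos h3, mul_one]
    · intro k _ hk
      have h3 : ¬ (k.val < ℓ ∧ i.val = k.val + (n - ℓ)) := by
        intro h
        apply hk
        apply Fin.ext
        simp only []
        omega
      rw [if_neg h3, zero_mul]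
    · intro h; exact absurd (Finset.mem_univ _) h
  · have hz : ∀ k : Fin n, (if k.val < ℓ ∧ i.val = k.val + (n - ℓ) then (1 : F) else 0) *
        (if k.val < ℓ ∧ j.val = k.val + (n - ℓ) then (1 : F) else 0) = 0 := by
      intro k
      by_cases ha : k.val < ℓ ∧ i.val = k.val + (n - ℓ)
      · by_cases hb : k.val < ℓ ∧ j.val = k.val + (n - ℓ)
        · exfalso
          apply hc
          refine ⟨Fin.ext (by omega), by omega⟩
        · simp [hb]
      · simp [ha]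
    rw [Finset.sum_eq_zero (fun k _ => hz k)]
    by_cases hij : i = j
    · subst hij
      have : ¬ (n - ℓ ≤ i.val) := fun h => hc ⟨rfl, h⟩
      simp [this]
    · simp [hij]

theorem eMat_transpose_mul (F : Type*) [Field F] (n ℓ : ℕ) (h1 : 1 ≤ ℓ) (h2 : 2 * ℓ ≤ n) :
    (eMat F n ℓ).transpose * eMat F n ℓ =
      Matrix.diagonal (fun i : Fin n => if i.val < ℓ then (1 : F) else 0) := by
  ext i j
  simp only [Matrix.mul_apply, Matrix.transpose_apply, eMat, Matrix.of_apply, Matrix.diagonal_apply]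
  by_cases hc : i = j ∧ i.val < ℓ
  · obtain ⟨rfl, hi⟩ := hc
    rw [if_pos (rfl : i = i), if_pos hi]
    rw [Finset.sum_eq_single (⟨i.val + (n - ℓ), by omega⟩ : Fin n)]
    · have h3 : (i.val < ℓ ∧ i.val + (n - ℓ) = i.val + (n - ℓ)) := ⟨hi, rfl⟩
      rw [if_pos h3, mul_one]
    · intro k _ hk
      have h3 : ¬ (i.val < ℓ ∧ k.val = i.val + (n - ℓ)) := by
        intro h
        apply hk
        apply Fin.ext
        simp only []
        omega
      rw [if_neg h3, zero_mul]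
    · intro h; exact absurd (Finset.mem_univ _) h
  · have hz : ∀ k : Fin n, (if i.val < ℓ ∧ k.val = i.val + (n - ℓ) then (1 : F) else 0) *
        (if j.val < ℓ ∧ k.val = j.val + (n - ℓ) then (1 : F) else 0) = 0 := by
      intro k
      by_cases ha : i.val < ℓ ∧ k.val = i.val + (n - ℓ)
      · by_cases hb : j.val < ℓ ∧ k.val = j.val + (n - ℓ)
        · exfalso
          apply hc
          refine ⟨Fin.ext (by omega), by omega⟩
        · simp [hb]
      · simp [ha]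
    rw [Finset.sum_eq_zero (fun k _ => hz k)]
    by_cases hij : i = j
    · subst hij
      have : ¬ (i.val < ℓ) := fun h => hc ⟨rfl, h⟩
      simp [this]
    · simp [hij]

theorem diag_high_mul_eMat (F : Type*) [Field F] (n ℓ : ℕ) (h1 : 1 ≤ ℓ) (h2 : 2 * ℓ ≤ n) :
    Matrix.diagonal (fun i : Fin n => if n - ℓ ≤ i.val then (1 : F) else 0) * eMat F n ℓ = eMat F n ℓ := by
  ext i j
  rw [Matrix.diagonal_mul]
  simp only [eMat, Matrix.of_apply]
  by_cases h : j.val < ℓ ∧ i.val = j.val + (n - ℓ)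
  · have : n - ℓ ≤ i.val := by omega
    simp [h, this]
  · simp [h]

/-- the statement's matrix -/
def pMat (F : Type*) [Field F] (n ℓ : ℕ) : Matrix (Fin n) (Fin n) F :=
  Matrix.of (fun i j : Fin n => if (j.val < ℓ ∧ i.val = j.val + (n - ℓ)) ∨ (i.val < ℓ ∧ j.val = i.val + (n - ℓ)) ∨ (i = j ∧ ℓ ≤ i.val ∧ i.val < n - ℓ) then (1 : F) else 0)

/-- the underlying involution -/
def tau (n ℓ : ℕ) (h2 : 2 * ℓ ≤ n) (i : Fin n) : Fin n :=
  if h : i.val < ℓ then ⟨i.val + (n - ℓ), by omega⟩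
  else if h' : n - ℓ ≤ i.val then ⟨i.val - (n - ℓ), by have := i.2; omega⟩ else i

theorem tau_invol (n ℓ : ℕ) (h2 : 2 * ℓ ≤ n) : Function.Involutive (tau n ℓ h2) := by
  intro i
  apply Fin.ext
  have hi := i.2
  unfold tau
  by_cases h : i.val < ℓ
  · rw [dif_pos h]
    have h3 : ¬ (i.val + (n - ℓ) < ℓ) := by omega
    have h4 : n - ℓ ≤ i.val + (n - ℓ) := by omega
    simp only [dif_neg h3, dif_pos h4]
    omega
  · rw [dif_neg h]
    by_cases h' : n - ℓ ≤ i.val
    · rw [dif_pos h']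
      have h3 : i.val - (n - ℓ) < ℓ := by omega
      simp only [dif_pos h3]
      omega
    · rw [dif_neg h']
      simp only [dif_neg h, dif_neg h']

theorem pMat_apply (F : Type*) [Field F] (n ℓ : ℕ) (h2 : 2 * ℓ ≤ n) (i j : Fin n) :
    pMat F n ℓ i j = if tau n ℓ h2 i = j then 1 else 0 := by
  have hi := i.2
  have hj := j.2
  simp only [pMat, Matrix.of_apply]
  have key : ((j.val < ℓ ∧ i.val = j.val + (n - ℓ)) ∨ (i.val < ℓ ∧ j.val = i.val + (n - ℓ)) ∨ (i = j ∧ ℓ ≤ i.val ∧ i.val < n - ℓ)) ↔ tau n ℓ h2 i = j := by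
    rw [Fin.ext_iff (a := i) (b := j), Fin.ext_iff]
    unfold tau
    by_cases h : i.val < ℓ
    · rw [dif_pos h]
      simp only []
      omega
    · rw [dif_neg h]
      by_cases h' : n - ℓ ≤ i.val
      · rw [dif_pos h']
        simp only []
        omega
      · rw [dif_neg h']
        omega
  by_cases h : tau n ℓ h2 i = j
  · rw [if_pos h, if_pos (key.mpr h)]
  · rw [if_neg h, if_neg (fun hh => h (key.mp hh))]

theorem pMat_mulVec (F : Type*) [Field F] (n ℓ : ℕ) (h2 : 2 * ℓ ≤ n) (u : Fin n → F) :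
    Matrix.mulVec (pMat F n ℓ) u = fun i => u (tau n ℓ h2 i) := by
  ext i
  simp only [Matrix.mulVec, dotProduct, pMat_apply F n ℓ h2]
  simp

theorem pMat_eq_perm (F : Type*) [Field F] (n ℓ : ℕ) (h2 : 2 * ℓ ≤ n) :
    pMat F n ℓ = (Function.Involutive.toPerm _ (tau_invol n ℓ h2)).permMatrix F := by
  ext i j
  rw [pMat_apply F n ℓ h2]
  simp [Equiv.Perm.permMatrix, PEquiv.toMatrix_apply, Equiv.toPEquiv_apply]

theorem pMat_det (F : Type*) [Field F] [CharP F 2] (n ℓ : ℕ) (h2 : 2 * ℓ ≤ n) :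
    (pMat F n ℓ).det = 1 := by
  rw [pMat_eq_perm F n ℓ h2, Matrix.det_permutation]
  rcases Int.units_eq_one_or (Equiv.Perm.sign (Function.Involutive.toPerm _ (tau_invol n ℓ h2))) with h | h
  · simp [h]
  · simp [h, CharTwo.neg_eq]

theorem pMat_sq (F : Type*) [Field F] (n ℓ : ℕ) (h2 : 2 * ℓ ≤ n) :
    pMat F n ℓ * pMat F n ℓ = 1 := by
  ext i k
  rw [Matrix.mul_apply]
  simp only [pMat_apply F n ℓ h2]
  simp only [ite_mul, one_mul, zero_mul, Finset.sum_ite_eq, Finset.mem_univ, if_true]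
  rw [tau_invol n ℓ h2 i, Matrix.one_apply]

theorem pMat_sub_one (F : Type*) [Field F] [CharP F 2] (n ℓ : ℕ) (h1 : 1 ≤ ℓ) (h2 : 2 * ℓ ≤ n) :
    pMat F n ℓ - 1 = (1 + eMat F n ℓ) * (eMat F n ℓ).transpose * (1 + eMat F n ℓ) := by
  have e1 : (1 + eMat F n ℓ) * (eMat F n ℓ).transpose * (1 + eMat F n ℓ) =
      (eMat F n ℓ).transpose + eMat F n ℓ * (eMat F n ℓ).transpose + (eMat F n ℓ).transpose * eMat F n ℓ
        + eMat F n ℓ * (eMat F n ℓ).transpose * eMat F n ℓ := by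
    noncomm_ring
  rw [e1, eMat_mul_transpose F n ℓ h1 h2, eMat_transpose_mul F n ℓ h1 h2, diag_high_mul_eMat F n ℓ h1 h2]
  ext i j
  have hi := i.2
  have hj := j.2
  have h11 : (1 : F) + 1 = 0 := CharTwo.add_self_eq_zero 1
  simp only [pMat, Matrix.sub_apply, Matrix.add_apply, Matrix.of_apply, Matrix.one_apply,
    Matrix.diagonal_apply, Matrix.transpose_apply, eMat]
  by_cases hij : i = j
  · subst hij
    have ha : ¬ (i.val < ℓ ∧ i.val = i.val + (n - ℓ)) := by omega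
    simp only [ha, if_false, if_true, false_or, true_and]
    by_cases hl : i.val < ℓ
    · have : ¬ (ℓ ≤ i.val ∧ i.val < n - ℓ) := by omega
      have h3 : ¬ (n - ℓ ≤ i.val) := by omega
      simp [this, hl, h3, CharTwo.neg_eq]
    · by_cases hh : n - ℓ ≤ i.val
      · have : ¬ (ℓ ≤ i.val ∧ i.val < n - ℓ) := by omega
        simp [this, hl, hh, CharTwo.neg_eq]
      · have : (ℓ ≤ i.val ∧ i.val < n - ℓ) := by omega
        simp [this, hl, hh]
  · have hv : i.val ≠ j.val := fun h => hij (Fin.ext h)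
    simp only [hij, if_false, false_and, or_false, sub_zero, add_zero]
    by_cases ha : (j.val < ℓ ∧ i.val = j.val + (n - ℓ))
    · have hb : ¬ (i.val < ℓ ∧ j.val = i.val + (n - ℓ)) := by omega
      rw [if_pos (Or.inl ha), if_pos ha, if_neg hb, zero_add]
    · by_cases hb : (i.val < ℓ ∧ j.val = i.val + (n - ℓ))
      · rw [if_pos (Or.inr hb), if_neg ha, if_pos hb, add_zero]
      · rw [if_neg (by tauto), if_neg ha, if_neg hb, add_zero]

theorem pMat_rank (F : Type*) [Field F] [CharP F 2] (n ℓ : ℕ) (h1 : 1 ≤ ℓ) (h2 : 2 * ℓ ≤ n) :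
    (pMat F n ℓ - 1).rank = ℓ := by
  have hu : IsUnit (1 + eMat F n ℓ).det := by
    rw [det_one_add_eMat F n ℓ h1 h2]; exact isUnit_one
  rw [pMat_sub_one F n ℓ h1 h2, Matrix.rank_mul_eq_left_of_isUnit_det _ _ hu,
    Matrix.rank_mul_eq_right_of_isUnit_det _ _ hu, Matrix.rank_transpose, eMat_rank F n ℓ h1 h2]

theorem result {F : Type*} [Field F] [Fintype F] [CharP F 2] {n q : ℕ} (hF : Fintype.card F = q ^ 2) (hn : 3 ≤ n) (ℓ : ℕ) (h1 : 1 ≤ ℓ) (h2 : 2 * ℓ ≤ n) :
    ∃ a : ↥(Cfsg.SU n F q), (((a : Matrix.SpecialLinearGroup (Fin n) F) : Matrix (Fin n) (Fin n) F) = Matrix.of (fun i j : Fin n => if (j.val < ℓ ∧ i.val = j.val + (n - ℓ)) ∨ (i.val < ℓ ∧ j.val = i.val + (n - ℓ)) ∨ (i = j ∧ ℓ ≤ i.val ∧ i.val < n - ℓ) then (1 : F) else 0)) ∧ orderOf a = 2 ∧ ((((a : Matrix.SpecialLinearGroup (Fin n) F) : Matrix (Fin n) (Fin n) F)) - 1).rank = ℓ := by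
  let a0 : Matrix.SpecialLinearGroup (Fin n) F := ⟨pMat F n ℓ, pMat_det F n ℓ h2⟩
  have hmem : a0 ∈ Cfsg.SU n F q := by
    intro u v
    show hermForm n F q (Matrix.mulVec (pMat F n ℓ) u) (Matrix.mulVec (pMat F n ℓ) v) = hermForm n F q u v
    rw [pMat_mulVec F n ℓ h2, pMat_mulVec F n ℓ h2]
    unfold hermForm
    exact Equiv.sum_comp (Function.Involutive.toPerm _ (tau_invol n ℓ h2)) (fun i => u i * v i ^ q)
  refine ⟨⟨a0, hmem⟩, rfl, ?_, pMat_rank F n ℓ h1 h2⟩
  have : Fact (Nat.Prime 2) := ⟨Nat.prime_two⟩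
  apply orderOf_eq_prime
  · apply Subtype.ext
    apply Subtype.ext
    show ((a0 ^ 2 : Matrix.SpecialLinearGroup (Fin n) F) : Matrix (Fin n) (Fin n) F) = 1
    rw [Matrix.SpecialLinearGroup.coe_pow, pow_two]
    exact pMat_sq F n ℓ h2
  · intro h
    have h0 : a0 = 1 := congrArg Subtype.val h
    have h3 : pMat F n ℓ ⟨n - ℓ, by omega⟩ ⟨0, by omega⟩ = (1 : Matrix (Fin n) (Fin n) F) ⟨n - ℓ, by omega⟩ ⟨0, by omega⟩ := by
      have h4 : pMat F n ℓ = (1 : Matrix (Fin n) (Fin n) F) := congrArg Subtype.val h0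
      rw [h4]
    have hne : (⟨n - ℓ, by omega⟩ : Fin n) ≠ ⟨0, by omega⟩ := by
      intro h; have := congrArg Fin.val h; simp only [] at this; omega
    rw [Matrix.one_apply, if_neg hne] at h3
    simp only [pMat, Matrix.of_apply] at h3
    have hc : ((0 : ℕ) < ℓ ∧ n - ℓ = 0 + (n - ℓ)) := ⟨by omega, by omega⟩
    rw [if_pos (Or.inl hc)] at h3
    exact one_ne_zero h3

end Cfsg.Agent.S2165
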