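import Cfsg.Statements.S2167
import Cfsg.Agent.S0752
import Mathlib

set_option autoImplicit false
open Cfsg

namespace Cfsg.Agent.S2167

open Matrix

variable {F : Type*} [Field F] {m : ℕ}

theorem form_def (u v : Fin m ⊕ Fin m → F) :
    Cfsg.sympForm m F u v = u ⬝ᵥ ((Matrix.J (Fin m) F).mulVec v) := rfl

theorem J_mulVec (v : Fin m ⊕ Fin m → F) :
    (Matrix.J (Fin m) F).mulVec v = Sum.elim (-(v ∘ Sum.inr)) (v ∘ Sum.inl) := by
  rw [Matrix.J, Matrix.fromBlocks_mulVec]
  simp [Matrix.neg_mulVec]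

theorem form_self (v : Fin m ⊕ Fin m → F) : v ⬝ᵥ ((Matrix.J (Fin m) F).mulVec v) = 0 := by
  rw [J_mulVec, dotProduct, Fintype.sum_sum_type, ← Finset.sum_add_distrib]
  apply Finset.sum_eq_zero
  intro i _
  simp only [Sum.elim_inl, Sum.elim_inr, Pi.neg_apply, Function.comp_apply]
  ring

theorem form_nondeg (w : Fin m ⊕ Fin m → F) (h : ∀ u, Cfsg.sympForm m F u w = 0) : w = 0 := by
  have h1 : (Matrix.J (Fin m) F).mulVec w = 0 := by
    funext i
    have h2 := h (Pi.single i 1)
    rw [form_def, single_one_dotProduct] at h2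
    simpa using h2
  have h2 : (Matrix.J (Fin m) F * Matrix.J (Fin m) F).mulVec w = 0 := by
    rw [← Matrix.mulVec_mulVec, h1, Matrix.mulVec_zero]
  rw [Matrix.J_squared, Matrix.neg_mulVec, Matrix.one_mulVec, neg_eq_zero] at h2
  exact h2

/-- additive map from a skew matrix -/
def Qhom {n : Type*} [Fintype n] (G : Matrix n n F) (hG : Gᵀ = -G) : (n → F) →+ F where
  toFun v := v ⬝ᵥ G.mulVec v
  map_zero' := by simp
  map_add' u v := by
    have h1 : v ⬝ᵥ G.mulVec u = - (u ⬝ᵥ G.mulVec v) := by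
      rw [Matrix.dotProduct_mulVec, ← Matrix.mulVec_transpose, hG, Matrix.neg_mulVec,
        neg_dotProduct, dotProduct_comm]
    rw [Matrix.mulVec_add, add_dotProduct, dotProduct_add, dotProduct_add, h1]
    ring

theorem result {F : Type*} [Field F] [Fintype F] [CharP F 2] {m : ℕ} (hm : 2 ≤ m) (a : ↥(Matrix.symplecticGroup (Fin m) F)) (ha : orderOf a = 2) :
    (Nat.card {v : Fin m ⊕ Fin m → F // Cfsg.sympForm m F v (Matrix.mulVec ((a : ↥(Matrix.symplecticGroup (Fin m) F)) : Matrix (Fin m ⊕ Fin m) (Fin m ⊕ Fin m) F) v) = 0} = Fintype.card F ^ (2 * m) ∨ Nat.card {v : Fin m ⊕ Fin m → F // Cfsg.sympForm m F v (Matrix.mulVec ((a : ↥(Matrix.symplecticGroup (Fin m) F)) : Matrix (Fin m ⊕ Fin m) (Fin m ⊕ Fin m) F) v) = 0} * Fintype.card F = Fintype.card F ^ (2 * m)) ∧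
    ((∀ v : Fin m ⊕ Fin m → F, Cfsg.sympForm m F v (Matrix.mulVec ((a : ↥(Matrix.symplecticGroup (Fin m) F)) : Matrix (Fin m ⊕ Fin m) (Fin m ⊕ Fin m) F) v) = 0) → Even (((a : ↥(Matrix.symplecticGroup (Fin m) F)) : Matrix (Fin m ⊕ Fin m) (Fin m ⊕ Fin m) F) - 1).rank) := by
  obtain ⟨A, hA⟩ : ∃ A : Matrix (Fin m ⊕ Fin m) (Fin m ⊕ Fin m) F, A = (a : Matrix _ _ F) := ⟨_, rfl⟩
  rw [← hA]
  have hAmem : A ∈ Matrix.symplecticGroup (Fin m) F := hA ▸ a.2
  have hAA : A * A = 1 := by
    have h1 : a ^ 2 = 1 := by rw [← ha]; exact pow_orderOf_eq_one a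
    have h2 : ((a ^ 2 : ↥(Matrix.symplecticGroup (Fin m) F)) : Matrix (Fin m ⊕ Fin m) (Fin m ⊕ Fin m) F) = 1 := by rw [h1]; rfl
    rw [hA, ← h2, pow_two]; rfl
  have hAJ : Aᵀ * Matrix.J (Fin m) F * A = Matrix.J (Fin m) F := SymplecticGroup.mem_iff'.mp hAmem
  have hG : (Matrix.J (Fin m) F * A)ᵀ = -(Matrix.J (Fin m) F * A) := by
    rw [Matrix.transpose_mul, Matrix.J_transpose, Matrix.mul_neg]
    congr 1
    calc Aᵀ * Matrix.J (Fin m) F = Aᵀ * Matrix.J (Fin m) F * (A * A) := by rw [hAA, Matrix.mul_one]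
      _ = (Aᵀ * Matrix.J (Fin m) F * A) * A := (Matrix.mul_assoc _ _ _).symm
      _ = Matrix.J (Fin m) F * A := by rw [hAJ]
  have hkey : ∀ v, Cfsg.sympForm m F v (A.mulVec v) = Qhom _ hG v := by
    intro v
    rw [form_def, Matrix.mulVec_mulVec]; rfl
  have hscal : ∀ (c : F) v, Qhom _ hG (c • v) = c * c * Qhom _ hG v := by
    intro c v
    show (c • v) ⬝ᵥ (Matrix.J (Fin m) F * A).mulVec (c • v) = c * c * (v ⬝ᵥ (Matrix.J (Fin m) F * A).mulVec v)
    rw [Matrix.mulVec_smul, smul_dotProduct, dotProduct_smul, smul_eq_mul, smul_eq_mul, mul_assoc]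
  have hcardV : Nat.card (Fin m ⊕ Fin m → F) = Fintype.card F ^ (2 * m) := by
    rw [Nat.card_eq_fintype_card, Fintype.card_fun, Fintype.card_sum, Fintype.card_fin, two_mul]
  have hcongr : Nat.card {v : Fin m ⊕ Fin m → F // Cfsg.sympForm m F v (A.mulVec v) = 0} = Nat.card (Qhom _ hG).ker :=
    Nat.card_congr (Equiv.subtypeEquivRight (fun v => by rw [AddMonoidHom.mem_ker, hkey]))
  refine ⟨?_, ?_⟩
  · rw [hcongr]
    by_cases hQ : ∀ v, Qhom _ hG v = 0
    · left
      have hk : (Qhom _ hG).ker = ⊤ := by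
        ext v; simp [AddMonoidHom.mem_ker, hQ v]
      rw [hk, AddSubgroup.card_top, hcardV]
    · right
      push Not at hQ
      obtain ⟨v0, hv0⟩ := hQ
      have hsurj : Function.Surjective (Qhom _ hG) := by
        intro x
        obtain ⟨c, hc⟩ := FiniteField.isSquare_of_char_two (ringChar.eq F 2) (x / Qhom _ hG v0)
        refine ⟨c • v0, ?_⟩
        rw [hscal, ← hc, div_mul_cancel₀ _ hv0]
      have h1 := AddSubgroup.card_mul_index (Qhom _ hG).ker
      rw [AddSubgroup.index_ker, AddMonoidHom.range_eq_top.mpr hsurj, AddSubgroup.card_top, hcardV,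
        Nat.card_eq_fintype_card (α := F)] at h1
      exact h1
  · intro hall
    have hQ0 : ∀ v, v ⬝ᵥ (Matrix.J (Fin m) F * A).mulVec v = 0 := by
      intro v; rw [← Matrix.mulVec_mulVec]; exact hall v
    obtain ⟨N, hN⟩ : ∃ N : Matrix (Fin m ⊕ Fin m) (Fin m ⊕ Fin m) F, N = A - 1 := ⟨_, rfl⟩
    rw [← hN]
    obtain ⟨B, hB⟩ : ∃ B : LinearMap.BilinForm F (Fin m ⊕ Fin m → F),
        B = Matrix.toBilin' (Matrix.J (Fin m) F * N) := ⟨_, rfl⟩
    have hBapp : ∀ u v, B u v = Cfsg.sympForm m F u (N.mulVec v) := by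
      intro u v
      rw [hB, Matrix.toBilin'_apply', form_def, Matrix.mulVec_mulVec]
    have hAlt : B.IsAlt := by
      intro v
      rw [hBapp, hN, form_def, Matrix.sub_mulVec, Matrix.one_mulVec, Matrix.mulVec_sub,
        dotProduct_sub, form_self, sub_zero, Matrix.mulVec_mulVec]
      exact hQ0 v
    obtain ⟨m', k, b, h1, h2, h3, h4⟩ := Cfsg.Agent.S0752.result B hAlt
    have h1' : ∀ i j, B (b (Sum.inl (Sum.inr i))) (b (Sum.inl (Sum.inl j))) =
        -(if j = i then 1 else 0) := by
      intro i j; rw [← hAlt.neg_eq, h1]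
    have h4' : ∀ (j : Fin k) v, B v (b (Sum.inr j)) = 0 := by
      intro j v; rw [← hAlt.neg_eq, h4, neg_zero]
    have hker : LinearMap.ker N.mulVecLin = Submodule.span F (Set.range (b ∘ Sum.inr)) := by
      apply le_antisymm
      · intro v hv
        have hv0 : N.mulVec v = 0 := by simpa using hv
        have hBv : ∀ u, B u v = 0 := by
          intro u; rw [hBapp, hv0, form_def, Matrix.mulVec_zero, dotProduct_zero]
        have hexp : ∀ u, B u v = ∑ x, b.repr v x * B u (b x) := by
          intro u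
          conv_lhs => rw [← b.sum_repr v]
          rw [map_sum]
          apply Finset.sum_congr rfl
          intro x _
          rw [map_smul, smul_eq_mul]
        have hc1 : ∀ i, b.repr v (Sum.inl (Sum.inr i)) = 0 := by
          intro i
          have e1 := hexp (b (Sum.inl (Sum.inl i)))
          rw [hBv, Fintype.sum_sum_type, Fintype.sum_sum_type] at e1
          simp [h1, h2, h4'] at e1
          exact e1.symm
        have hc2 : ∀ i, b.repr v (Sum.inl (Sum.inl i)) = 0 := by
          intro i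
          have e1 := hexp (b (Sum.inl (Sum.inr i)))
          rw [hBv, Fintype.sum_sum_type, Fintype.sum_sum_type] at e1
          simp [h1', h3, h4'] at e1
          exact e1
        rw [← b.sum_repr v, Fintype.sum_sum_type]
        apply Submodule.add_mem
        · apply Submodule.sum_mem; intro x _
          have hx0 : b.repr v (Sum.inl x) = 0 := by
            rcases x with i | i
            · exact hc2 i
            · exact hc1 i
          rw [hx0, zero_smul]; exact Submodule.zero_mem _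
        · apply Submodule.sum_mem; intro j _
          exact Submodule.smul_mem _ _ (Submodule.subset_span ⟨j, rfl⟩)
      · rw [Submodule.span_le]
        rintro _ ⟨j, rfl⟩
        rw [SetLike.mem_coe, LinearMap.mem_ker, Matrix.mulVecLin_apply]
        apply form_nondeg
        intro u
        rw [← hBapp]; exact h4' j u
    have hk : Module.finrank F (LinearMap.ker N.mulVecLin) = k := by
      rw [hker, finrank_span_eq_card (b.linearIndependent.comp _ Sum.inr_injective), Fintype.card_fin]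
    have hrk := LinearMap.finrank_range_add_finrank_ker N.mulVecLin
    have e1 := Module.finrank_eq_card_basis b
    rw [hk] at hrk
    rw [e1] at hrk
    simp only [Fintype.card_sum, Fintype.card_fin] at hrk
    have hfin : N.rank = 2 * m' := by
      show Module.finrank F (LinearMap.range N.mulVecLin) = 2 * m'
      omega
    rw [hfin]; exact even_two_mul m'

end Cfsg.Agent.S2167
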