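import Cfsg.Statements.S2170
import Mathlib
import Cfsg.Agent.Lib.Helper15.StdForms
import Cfsg.Agent.Lib.Helper13.OrthInv

set_option autoImplicit false
open Cfsg

namespace Cfsg.Agent.S2170

theorem result {F : Type*} [Field F] [Fintype F] [CharP F 2] {m : ℕ} (hm : 4 ≤ m) (c d : F) (hcd : ∀ z₁ z₂ : F, z₁ ^ 2 + c * z₁ * z₂ + d * z₂ ^ 2 = 0 → z₁ = 0 ∧ z₂ = 0) (t s : ↥(Cfsg.isometryGroup F (Cfsg.quadFormMinus (m - 1) F c d))) (ht : orderOf t = 2) (hs : orderOf s = 2) :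
    IsConj t s ↔ ∃ g ∈ Cfsg.preserving (Units.coeHom (Matrix ((Fin (m - 1) ⊕ Fin (m - 1)) ⊕ Fin 2) ((Fin (m - 1) ⊕ Fin (m - 1)) ⊕ Fin 2) F)) (fun u v => Cfsg.quadFormMinus (m - 1) F c d (u + v) - Cfsg.quadFormMinus (m - 1) F c d u - Cfsg.quadFormMinus (m - 1) F c d v), g * ((t : ↥(Cfsg.isometryGroup F (Cfsg.quadFormMinus (m - 1) F c d))) : GL ((Fin (m - 1) ⊕ Fin (m - 1)) ⊕ Fin 2) F) * g⁻¹ = ((s : ↥(Cfsg.isometryGroup F (Cfsg.quadFormMinus (m - 1) F c d))) : GL ((Fin (m - 1) ⊕ Fin (m - 1)) ⊕ Fin 2) F) :=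
  Cfsg.Agent.Lib.Helper13.OrthInv.orth_main (Cfsg.quadFormMinus (m - 1) F c d)
    (Cfsg.Agent.Lib.Helper15.StdForms.minusQF (m - 1) F c d)
    (Cfsg.Agent.Lib.Helper15.StdForms.minusQF_apply (m - 1) c d)
    (Cfsg.Agent.Lib.Helper15.StdForms.minus_nondeg (m - 1) c d hcd) CharTwo.two_eq_zero t s ht hs

end Cfsg.Agent.S2170
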