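import Cfsg.Statements.S2172
import Cfsg.Agent.Lib.Helper15.InvSplit

set_option autoImplicit false
open Cfsg

namespace Cfsg.Agent.S2172

open Module Cfsg.Agent.Lib.Helper15.Spinor Cfsg.Agent.Lib.Helper15.CD2
  Cfsg.Agent.Lib.Helper15.Parity Cfsg.Agent.Lib.Helper15.Witt Cfsg.Agent.Lib.Helper15.WittInf
  Cfsg.Agent.Lib.Helper15.RankParity Cfsg.Agent.Lib.Helper15.StdForms
  Cfsg.Agent.Lib.Helper15.InvSplit

theorem aux1 {F : Type*} [Field F] [Fintype F] [CharP F 2] {m : ℕ} (hm : 4 ≤ m)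
    (t s : ↥(Cfsg.isometryGroup F ⇑(plusQF m F))) (ht : orderOf t = 2) (hconj : IsConj t s)
    (hnot : ¬ ((((t : Matrix.GeneralLinearGroup (Fin m ⊕ Fin m) F) :
        Matrix (Fin m ⊕ Fin m) (Fin m ⊕ Fin m) F) - 1).rank = m ∧
      ∀ v : Fin m ⊕ Fin m → F, plusQF m F (v + Matrix.mulVec
        ((t : Matrix.GeneralLinearGroup (Fin m ⊕ Fin m) F) :
          Matrix (Fin m ⊕ Fin m) (Fin m ⊕ Fin m) F) v) = 0)) :
    ∃ g ∈ commutator ↥(Cfsg.isometryGroup F ⇑(plusQF m F)), g * t * g⁻¹ = s := by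
  have hQ := plus_nondeg (F := F) m
  have hnd : ∀ x, (∀ y, QuadraticMap.polar ⇑(plusQF m F) x y = 0) → x = 0 :=
    fun x hx => hQ.1 x hx
  have hcard : Fintype.card (Fin m ⊕ Fin m) = 2 * m := by
    rw [Fintype.card_sum, Fintype.card_fin]; omega
  have hc : Fintype.card F ≠ 2 ∨ Fintype.card (Fin m ⊕ Fin m) ≠ 4 := by
    right
    rw [hcard]
    omega
  obtain ⟨g, hg⟩ := isConj_iff.1 hconj
  have ht2 : t * t = 1 := by
    have h := pow_orderOf_eq_one t
    rw [ht, pow_two] at h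
    exact h
  have hinv : ∀ x, act (plusQF m F) t (act (plusQF m F) t x) = x := fun x => by
    rw [← act_mul, ht2, act_one]
  have hex : ∃ w ∈ fixSp (plusQF m F) t, plusQF m F w ≠ 0 := by
    by_contra hno
    have hts : ∀ w ∈ fixSp (plusQF m F) t, plusQF m F w = 0 := fun w hw => by
      by_contra h
      exact hno ⟨w, hw, h⟩
    obtain ⟨h1, h2⟩ := fix_ts (plusQF m F) hQ t hinv hts
    apply hnot
    constructor
    · rw [rank_eq, hcard]
      omega
    · intro v
      apply hts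
      rw [← h1]
      refine ⟨v, ?_⟩
      rw [LinearMap.sub_apply, LinearMap.id_apply, sub_eq_add_two, act_apply]
  obtain ⟨w, hwfix, hw⟩ := hex
  exact conj_in_omega (plusQF m F) hnd hc t s g hg w hw ((mem_fixSp (plusQF m F) t w).1 hwfix)

theorem aux2 {F : Type*} [Field F] [Fintype F] [CharP F 2] {m : ℕ} (hm : 4 ≤ m)
    (t s : ↥(Cfsg.isometryGroup F ⇑(plusQF m F)))
    (htO : t ∈ commutator ↥(Cfsg.isometryGroup F ⇑(plusQF m F))) (hconj : IsConj t s)
    (hyes : (((t : Matrix.GeneralLinearGroup (Fin m ⊕ Fin m) F) :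
        Matrix (Fin m ⊕ Fin m) (Fin m ⊕ Fin m) F) - 1).rank = m ∧
      ∀ v : Fin m ⊕ Fin m → F, plusQF m F (v + Matrix.mulVec
        ((t : Matrix.GeneralLinearGroup (Fin m ⊕ Fin m) F) :
          Matrix (Fin m ⊕ Fin m) (Fin m ⊕ Fin m) F) v) = 0) :
    (∃ g ∈ commutator ↥(Cfsg.isometryGroup F ⇑(plusQF m F)), g * t * g⁻¹ = s) ↔
      Even (finrank F ↥(LinearMap.range (Matrix.toLin'
        (((t : Matrix.GeneralLinearGroup (Fin m ⊕ Fin m) F) :
          Matrix (Fin m ⊕ Fin m) (Fin m ⊕ Fin m) F) - 1)) ⊓ LinearMap.range (Matrix.toLin'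
        (((s : Matrix.GeneralLinearGroup (Fin m ⊕ Fin m) F) :
          Matrix (Fin m ⊕ Fin m) (Fin m ⊕ Fin m) F) - 1)))) := by
  have hQ := plus_nondeg (F := F) m
  have hcard : Fintype.card (Fin m ⊕ Fin m) = 2 * m := by
    rw [Fintype.card_sum, Fintype.card_fin]; omega
  have hc : Fintype.card F ≠ 2 ∨ Fintype.card (Fin m ⊕ Fin m) ≠ 4 := by
    right
    rw [hcard]
    omega
  obtain ⟨hrank, hts0⟩ := hyes
  rw [Matrix.toLin'_apply', Matrix.toLin'_apply', mulVecLin_sub_one (plusQF m F) t,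
    mulVecLin_sub_one (plusQF m F) s]
  have hR0 : ∀ x ∈ LinearMap.range (act (plusQF m F) t - LinearMap.id), plusQF m F x = 0 := by
    rintro _ ⟨v, rfl⟩
    rw [LinearMap.sub_apply, LinearMap.id_apply, sub_eq_add_two, act_apply]
    exact hts0 v
  have hRm : finrank F ↥(LinearMap.range (act (plusQF m F) t - LinearMap.id)) = m := by
    have h := hrank
    unfold Matrix.rank at h
    rw [mulVecLin_sub_one (plusQF m F) t] at h
    exact h
  have hmeven : Even m := by
    have h := (mem_commutator_iff_rank (plusQF m F) hQ hc t).1 htO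
    rw [hrank] at h
    exact h
  have hle : finrank F ↥(LinearMap.range (act (plusQF m F) t - LinearMap.id)
      ⊓ LinearMap.range (act (plusQF m F) s - LinearMap.id)) ≤ m := by
    have h := Submodule.finrank_mono (inf_le_left :
      LinearMap.range (act (plusQF m F) t - LinearMap.id)
        ⊓ LinearMap.range (act (plusQF m F) s - LinearMap.id)
        ≤ LinearMap.range (act (plusQF m F) t - LinearMap.id))
    rw [hRm] at h
    exact h
  have hiff : ∀ h : ↥(Cfsg.isometryGroup F ⇑(plusQF m F)), h * t * h⁻¹ = s →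
      (h ∈ commutator ↥(Cfsg.isometryGroup F ⇑(plusQF m F)) ↔
        Even (finrank F ↥(LinearMap.range (act (plusQF m F) t - LinearMap.id)
          ⊓ LinearMap.range (act (plusQF m F) s - LinearMap.id)))) := by
    intro h hh
    rw [conj_max_ts (plusQF m F) hQ hc m hcard t s h hh hR0 hRm]
    rw [Nat.even_iff] at hmeven
    rw [Nat.even_iff, Nat.even_iff]
    omega
  constructor
  · rintro ⟨g, hgO, hg⟩
    exact (hiff g hg).1 hgO
  · intro he
    obtain ⟨g, hg⟩ := isConj_iff.1 hconj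
    exact ⟨g, (hiff g hg).2 he, hg⟩


/-- Splitting of involution classes from O to Ω for the hyperbolic quadratic form Q = Σ x_i y_i in dimension 2m over a finite field F of characteristic two, m ≥ 4. Let t, s be involutions of the commutator subgroup Ω that are conjugate in the full isometry group O. If it is not the case that t − 1 has rank m and Q(v + t v) = 0 for every vector v, then t and s are conjugate by an element of Ω. If t − 1 has rank m and Q(v + t v) = 0 for all v, then t and s are conjugate by an element of Ω exactly when the intersection of the images of t − 1 and s − 1 has even dimension (so the class of t in O meets at most two classes of Ω). -/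
theorem result {F : Type*} [Field F] [Fintype F] [CharP F 2] {m : ℕ} (hm : 4 ≤ m) (t s : ↥(Cfsg.isometryGroup F (Cfsg.quadFormPlus m F))) (ht : orderOf t = 2) (hs : orderOf s = 2) (htO : t ∈ Cfsg.Omega F (Cfsg.quadFormPlus m F)) (hsO : s ∈ Cfsg.Omega F (Cfsg.quadFormPlus m F)) (hconj : IsConj t s) :
    (¬ (((((t : ↥(Cfsg.isometryGroup F (Cfsg.quadFormPlus m F))) : GL (Fin m ⊕ Fin m) F) : Matrix (Fin m ⊕ Fin m) (Fin m ⊕ Fin m) F) - 1).rank = m ∧ ∀ v : Fin m ⊕ Fin m → F, Cfsg.quadFormPlus m F (v + Matrix.mulVec (((t : ↥(Cfsg.isometryGroup F (Cfsg.quadFormPlus m F))) : GL (Fin m ⊕ Fin m) F) : Matrix (Fin m ⊕ Fin m) (Fin m ⊕ Fin m) F) v) = 0) →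
      ∃ g ∈ Cfsg.Omega F (Cfsg.quadFormPlus m F), g * t * g⁻¹ = s) ∧
    ((((((t : ↥(Cfsg.isometryGroup F (Cfsg.quadFormPlus m F))) : GL (Fin m ⊕ Fin m) F) : Matrix (Fin m ⊕ Fin m) (Fin m ⊕ Fin m) F) - 1).rank = m ∧ ∀ v : Fin m ⊕ Fin m → F, Cfsg.quadFormPlus m F (v + Matrix.mulVec (((t : ↥(Cfsg.isometryGroup F (Cfsg.quadFormPlus m F))) : GL (Fin m ⊕ Fin m) F) : Matrix (Fin m ⊕ Fin m) (Fin m ⊕ Fin m) F) v) = 0) →
      ((∃ g ∈ Cfsg.Omega F (Cfsg.quadFormPlus m F), g * t * g⁻¹ = s) ↔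
        Even (Module.finrank F ↥(LinearMap.range (Matrix.toLin' ((((t : ↥(Cfsg.isometryGroup F (Cfsg.quadFormPlus m F))) : GL (Fin m ⊕ Fin m) F) : Matrix (Fin m ⊕ Fin m) (Fin m ⊕ Fin m) F) - 1)) ⊓ LinearMap.range (Matrix.toLin' ((((s : ↥(Cfsg.isometryGroup F (Cfsg.quadFormPlus m F))) : GL (Fin m ⊕ Fin m) F) : Matrix (Fin m ⊕ Fin m) (Fin m ⊕ Fin m) F) - 1)))))) := by
  exact ⟨aux1 hm t s ht hconj, aux2 hm t s htO hconj⟩

end Cfsg.Agent.S2172
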