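import Cfsg.Statements.S2173
import Cfsg.Agent.Lib.Helper15.InvSplit

set_option autoImplicit false
open Cfsg

namespace Cfsg.Agent.S2173

open Module Cfsg.Agent.Lib.Helper15.Spinor Cfsg.Agent.Lib.Helper15.CD2
  Cfsg.Agent.Lib.Helper15.Parity Cfsg.Agent.Lib.Helper15.Witt Cfsg.Agent.Lib.Helper15.WittInf
  Cfsg.Agent.Lib.Helper15.RankParity Cfsg.Agent.Lib.Helper15.StdForms
  Cfsg.Agent.Lib.Helper15.InvSplit

theorem aux {F : Type*} [Field F] [Fintype F] [CharP F 2] (k : ℕ) (hk : 3 ≤ k) (c d : F)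
    (hcd : ∀ z₁ z₂ : F, z₁ ^ 2 + c * z₁ * z₂ + d * z₂ ^ 2 = 0 → z₁ = 0 ∧ z₂ = 0) :
    ∀ t s : ↥(Cfsg.isometryGroup F ⇑(minusQF k F c d)), orderOf t = 2 → IsConj t s →
      ∃ g ∈ commutator ↥(Cfsg.isometryGroup F ⇑(minusQF k F c d)), g * t * g⁻¹ = s := by
  intro t s ht hconj
  have hQ := minus_nondeg k c d hcd
  have hnd : ∀ x, (∀ y, QuadraticMap.polar ⇑(minusQF k F c d) x y = 0) → x = 0 :=
    fun x hx => hQ.1 x hx
  have hc : Fintype.card F ≠ 2 ∨ Fintype.card ((Fin k ⊕ Fin k) ⊕ Fin 2) ≠ 4 := by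
    right
    rw [Fintype.card_sum, Fintype.card_sum, Fintype.card_fin, Fintype.card_fin]
    omega
  obtain ⟨g, hg⟩ := isConj_iff.1 hconj
  have ht2 : t * t = 1 := by
    have h := pow_orderOf_eq_one t
    rw [ht, pow_two] at h
    exact h
  have hinv : ∀ x, act (minusQF k F c d) t (act (minusQF k F c d) t x) = x := fun x => by
    rw [← act_mul, ht2, act_one]
  have hex : ∃ w ∈ fixSp (minusQF k F c d) t, minusQF k F c d w ≠ 0 := by
    by_contra hno
    have hts : ∀ w ∈ fixSp (minusQF k F c d) t, minusQF k F c d w = 0 := fun w hw => by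
      by_contra h
      exact hno ⟨w, hw, h⟩
    obtain ⟨-, h2⟩ := fix_ts (minusQF k F c d) hQ t hinv hts
    have h3 := minus_ts_le k c d hcd (fixSp (minusQF k F c d) t) hts
    simp only [Fintype.card_sum, Fintype.card_fin] at h2
    omega
  obtain ⟨w, hwfix, hw⟩ := hex
  exact conj_in_omega (minusQF k F c d) hnd hc t s g hg w hw
    ((mem_fixSp (minusQF k F c d) t w).1 hwfix)


/-- For the quadratic form Σ x_i y_i + (z₁² + c z₁ z₂ + d z₂²) in dimension 2m with anisotropic binary part over a finite field F of characteristic two, m ≥ 4 (minus type): two involutions of the commutator subgroup Ω that are conjugate in the full isometry group O are conjugate by an element of Ω (no class of involutions of O inside Ω splits). -/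
theorem result {F : Type*} [Field F] [Fintype F] [CharP F 2] {m : ℕ} (hm : 4 ≤ m) (c d : F) (hcd : ∀ z₁ z₂ : F, z₁ ^ 2 + c * z₁ * z₂ + d * z₂ ^ 2 = 0 → z₁ = 0 ∧ z₂ = 0) (t s : ↥(Cfsg.isometryGroup F (Cfsg.quadFormMinus (m - 1) F c d))) (ht : orderOf t = 2) (hs : orderOf s = 2) (htO : t ∈ Cfsg.Omega F (Cfsg.quadFormMinus (m - 1) F c d)) (hsO : s ∈ Cfsg.Omega F (Cfsg.quadFormMinus (m - 1) F c d)) (hconj : IsConj t s) :
    ∃ g ∈ Cfsg.Omega F (Cfsg.quadFormMinus (m - 1) F c d), g * t * g⁻¹ = s := by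
  have h := aux (m - 1) (by omega) c d hcd
  rw [coe_minusQF] at h
  exact h t s ht hconj

end Cfsg.Agent.S2173
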