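import Cfsg.Statements.S2231
import Cfsg.Agent.S2301
import Mathlib

set_option autoImplicit false
open Cfsg

namespace Cfsg.Agent.S2231

/-- all `p`-subgroups are commutative -/
def AbP (p : ℕ) (G : Type*) [Group G] : Prop :=
  ∀ Q : Subgroup G, IsPGroup p Q → ∀ a ∈ Q, ∀ b ∈ Q, a * b = b * a

theorem AbP.subgroup {p : ℕ} {G : Type*} [Group G] (h : AbP p G) (H : Subgroup G) : AbP p ↥H := by
  intro Q hQ a ha b hb
  have hQ' : IsPGroup p (Q.map H.subtype) := hQ.map H.subtype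
  have := h (Q.map H.subtype) hQ' a.1 (Subgroup.mem_map_of_mem _ ha) b.1 (Subgroup.mem_map_of_mem _ hb)
  exact Subtype.ext this

theorem AbP.of_surjective {p : ℕ} [Fact p.Prime] {G H : Type*} [Group G] [Group H] [Finite G] (h : AbP p G)
    (f : G →* H) (hf : Function.Surjective f) : AbP p H := by
  intro Q hQ a ha b hb
  have hf' : Function.Surjective (f.subgroupComap Q) := f.subgroupComap_surjective_of_surjective Q hf
  let P : Sylow p (Q.comap f) := default
  have hT : IsPGroup p (⊤ : Subgroup Q) := by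
    intro g
    obtain ⟨k, hk⟩ := hQ g.1
    exact ⟨k, Subtype.ext hk⟩
  have hP' : ((P.mapSurjective hf' : Sylow p Q) : Subgroup Q) = ⊤ :=
    ((P.mapSurjective hf').is_maximal' hT le_top).symm
  rw [Sylow.coe_mapSurjective] at hP'
  have hamem : (⟨a, ha⟩ : Q) ∈ (P : Subgroup (Q.comap f)).map (f.subgroupComap Q) := by
    rw [hP']; exact Subgroup.mem_top _
  have hbmem : (⟨b, hb⟩ : Q) ∈ (P : Subgroup (Q.comap f)).map (f.subgroupComap Q) := by
    rw [hP']; exact Subgroup.mem_top _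
  obtain ⟨x, hx, hxa⟩ := hamem
  obtain ⟨y, hy, hyb⟩ := hbmem
  have hPG : IsPGroup p ((P : Subgroup (Q.comap f)).map (Q.comap f).subtype) := P.isPGroup'.map _
  have hcomm := h _ hPG x.1 (Subgroup.mem_map_of_mem _ hx) y.1 (Subgroup.mem_map_of_mem _ hy)
  have hfx : f x.1 = a := congrArg Subtype.val hxa
  have hfy : f y.1 = b := congrArg Subtype.val hyb
  rw [← hfx, ← hfy, ← map_mul, ← map_mul, hcomm]

theorem AbP_SL2 {K : Type*} [Field K] [Fintype K] (p : ℕ) [Fact p.Prime] [CharP K p] :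
    AbP p (Matrix.SpecialLinearGroup (Fin 2) K) := by
  classical
  let uHom : Multiplicative K →* Matrix.SpecialLinearGroup (Fin 2) K :=
    { toFun := fun b => S2301.uMat (Multiplicative.toAdd b)
      map_one' := S2301.uMat_zero
      map_mul' := fun a b => (S2301.uMat_mul _ _).symm }
  have hinj : Function.Injective uHom := fun a b hab => by
    have h1 : S2301.uMat (Multiplicative.toAdd a) = S2301.uMat (Multiplicative.toAdd b) := hab
    exact Multiplicative.toAdd.injective (S2301.uMat_inj h1)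
  have hcardU : Nat.card uHom.range = Fintype.card K := by
    rw [← Nat.card_congr (MonoidHom.ofInjective hinj).toEquiv,
      Nat.card_congr (Multiplicative.toAdd : Multiplicative K ≃ K), Nat.card_eq_fintype_card]
  obtain ⟨n, hp, hq⟩ := FiniteField.card K p
  have hfac : (Nat.card (Matrix.SpecialLinearGroup (Fin 2) K)).factorization p = n := by
    rw [S2301.card_SL2, hq]
    have hpn : 2 ≤ p ^ (n : ℕ) := by
      calc 2 ≤ p := hp.two_le
        _ = p ^ 1 := (pow_one p).symm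
        _ ≤ p ^ (n : ℕ) := Nat.pow_le_pow_right hp.pos n.pos
    have hsq : 4 ≤ (p ^ (n : ℕ)) ^ 2 := by nlinarith
    have h1 : (p ^ (n : ℕ)) ^ 2 - 1 ≠ 0 := by omega
    have h2 : ¬ p ∣ (p ^ (n : ℕ)) ^ 2 - 1 := by
      intro hd
      have h3 : p ∣ (p ^ (n : ℕ)) ^ 2 := by
        rw [← pow_mul]
        exact dvd_pow_self p (by have := n.pos; positivity)
      have h4 : p ∣ (p ^ (n : ℕ)) ^ 2 - ((p ^ (n : ℕ)) ^ 2 - 1) := Nat.dvd_sub h3 hd
      have h5 : (p ^ (n : ℕ)) ^ 2 - ((p ^ (n : ℕ)) ^ 2 - 1) = 1 := by omega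
      rw [h5] at h4
      exact hp.one_lt.ne' (Nat.dvd_one.mp h4)
    rw [Nat.factorization_mul h1 (pow_ne_zero _ hp.ne_zero), Finsupp.add_apply,
      Nat.factorization_eq_zero_of_not_dvd h2, zero_add, Nat.Prime.factorization_pow hp,
      Finsupp.single_eq_same]
  let P₀ : Sylow p (Matrix.SpecialLinearGroup (Fin 2) K) :=
    Sylow.ofCard uHom.range (by rw [hcardU, hfac, hq])
  have hP₀ : (P₀ : Subgroup (Matrix.SpecialLinearGroup (Fin 2) K)) = uHom.range := Sylow.coe_ofCard _ _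
  intro Q hQ a ha b hb
  obtain ⟨P, hQP⟩ := hQ.exists_le_sylow
  obtain ⟨g, hg⟩ := MulAction.exists_smul_eq (Matrix.SpecialLinearGroup (Fin 2) K) P₀ P
  have key : ∀ c ∈ Q, g⁻¹ * c * g ∈ uHom.range := by
    intro c hc
    have hcP : c ∈ ((g • P₀ : Sylow p (Matrix.SpecialLinearGroup (Fin 2) K)) : Subgroup (Matrix.SpecialLinearGroup (Fin 2) K)) := by
      rw [hg]; exact hQP hc
    rw [Sylow.coe_subgroup_smul, Subgroup.mem_pointwise_smul_iff_inv_smul_mem, hP₀] at hcP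
    have h5 : (MulAut.conj g)⁻¹ • c = g⁻¹ * c * g := by
      rw [MulAut.smul_def, MulAut.conj_inv_apply]
    rw [h5] at hcP
    exact hcP
  obtain ⟨s, hs⟩ := key a ha
  obtain ⟨t, ht⟩ := key b hb
  have e : g⁻¹ * a * g * (g⁻¹ * b * g) = g⁻¹ * b * g * (g⁻¹ * a * g) := by
    rw [← hs, ← ht, ← map_mul, ← map_mul, mul_comm]
  have e1 : a * b = g * (g⁻¹ * a * g * (g⁻¹ * b * g)) * g⁻¹ := by group
  have e2 : b * a = g * (g⁻¹ * b * g * (g⁻¹ * a * g)) * g⁻¹ := by group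
  rw [e1, e2, e]

/-- upper unitriangular 3 × 3 matrices -/
def IsU {R : Type*} [CommRing R] (M : Matrix (Fin 3) (Fin 3) R) : Prop :=
  M 0 0 = 1 ∧ M 1 1 = 1 ∧ M 2 2 = 1 ∧ M 1 0 = 0 ∧ M 2 0 = 0 ∧ M 2 1 = 0

theorem IsU.one {R : Type*} [CommRing R] : IsU (1 : Matrix (Fin 3) (Fin 3) R) := by
  simp [IsU]

theorem IsU.mul {R : Type*} [CommRing R] {M N : Matrix (Fin 3) (Fin 3) R} (hM : IsU M) (hN : IsU N) :
    IsU (M * N) := by
  obtain ⟨m00, m11, m22, m10, m20, m21⟩ := hM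
  obtain ⟨n00, n11, n22, n10, n20, n21⟩ := hN
  refine ⟨?_, ?_, ?_, ?_, ?_, ?_⟩ <;>
    simp [Matrix.mul_apply, Fin.sum_univ_three, m00, m11, m22, m10, m20, m21, n00, n11, n22, n10, n20, n21]

theorem IsU.pow {R : Type*} [CommRing R] {M : Matrix (Fin 3) (Fin 3) R} (hM : IsU M) (k : ℕ) :
    IsU (M ^ k) := by
  induction k with
  | zero => rw [pow_zero]; exact IsU.one
  | succ k ih => rw [pow_succ]; exact ih.mul hM

theorem IsU.pow_p {p : ℕ} [Fact p.Prime] (hp : p ≠ 2) {M : Matrix (Fin 3) (Fin 3) (ZMod p)} (hM : IsU M) :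
    M ^ p = 1 := by
  obtain ⟨m00, m11, m22, m10, m20, m21⟩ := hM
  have hp' : p.Prime := Fact.out
  have hp3 : 3 ≤ p := by have := hp'.two_le; omega
  have hMeq : M = 1 + !![0, M 0 1, M 0 2; 0, 0, M 1 2; 0, 0, 0] := by
    ext i j
    fin_cases i <;> fin_cases j <;> simp [m00, m11, m22, m10, m20, m21]
  have hN3 : (!![0, M 0 1, M 0 2; 0, 0, M 1 2; 0, 0, 0] : Matrix (Fin 3) (Fin 3) (ZMod p)) ^ 3 = 0 := by
    rw [pow_succ, pow_two, Matrix.mul_fin_three, Matrix.mul_fin_three]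
    ext i j
    fin_cases i <;> fin_cases j <;> simp
  have hNp : (!![0, M 0 1, M 0 2; 0, 0, M 1 2; 0, 0, 0] : Matrix (Fin 3) (Fin 3) (ZMod p)) ^ p = 0 := by
    exact pow_eq_zero_of_le hp3 hN3
  rw [hMeq, add_pow_char_of_commute p (Commute.one_left _), one_pow, hNp, add_zero]

/-- the unitriangular subgroup -/
def uniSub (p : ℕ) [Fact p.Prime] (hp : p ≠ 2) : Subgroup (Matrix.SpecialLinearGroup (Fin 3) (ZMod p)) where
  carrier := {g | IsU g.1}
  one_mem' := IsU.one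
  mul_mem' := fun {a b} ha hb => IsU.mul ha hb
  inv_mem' := fun {g} hg => by
    have hg' : IsU g.1 := hg
    have h1 : g ^ p = 1 := by
      apply Subtype.ext
      rw [Matrix.SpecialLinearGroup.coe_pow]
      exact IsU.pow_p hp hg'
    have hp' : p.Prime := Fact.out
    have h2 : g⁻¹ = g ^ (p - 1) := by
      apply inv_eq_of_mul_eq_one_right
      rw [← pow_succ']
      have : p - 1 + 1 = p := by have := hp'.two_le; omega
      rw [this, h1]
    show IsU (g⁻¹).1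
    rw [h2, Matrix.SpecialLinearGroup.coe_pow]
    exact IsU.pow hg' _

/-- two non-commuting unitriangular elements -/
def xE (p : ℕ) : Matrix.SpecialLinearGroup (Fin 3) (ZMod p) :=
  ⟨!![1, 1, 0; 0, 1, 0; 0, 0, 1], by simp [Matrix.det_fin_three]⟩

/-- the second element -/
def yE (p : ℕ) : Matrix.SpecialLinearGroup (Fin 3) (ZMod p) :=
  ⟨!![1, 0, 0; 0, 1, 1; 0, 0, 1], by simp [Matrix.det_fin_three]⟩

theorem xy_ne (p : ℕ) [Fact p.Prime] : xE p * yE p ≠ yE p * xE p := by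
  intro h
  have h1 : ((xE p).1 * (yE p).1) 0 2 = ((yE p).1 * (xE p).1) 0 2 := by
    have h2 : (xE p).1 * (yE p).1 = (yE p).1 * (xE p).1 := congrArg Subtype.val h
    rw [h2]
  simp [xE, yE, Matrix.mul_apply, Fin.sum_univ_three] at h1

theorem not_AbP_qd (p : ℕ) [Fact p.Prime] (hp : p ≠ 2) : ¬ AbP p ↥(Cfsg.qd p) := by
  intro h
  have hle : uniSub p hp ≤ Cfsg.qd p := by
    intro g hg
    apply Subgroup.subset_closure
    have hg' : IsU g.1 := hg
    exact ⟨hg'.2.2.2.2.1, hg'.2.2.2.2.2, hg'.2.2.1⟩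
  have hQ : IsPGroup p ((uniSub p hp).subgroupOf (Cfsg.qd p)) := by
    intro g
    refine ⟨1, ?_⟩
    rw [pow_one]
    have hg : (g.1 : Matrix.SpecialLinearGroup (Fin 3) (ZMod p)) ∈ uniSub p hp := Subgroup.mem_subgroupOf.mp g.2
    have hg' : IsU (g.1 : Matrix.SpecialLinearGroup (Fin 3) (ZMod p)).1 := hg
    have h1 : (g.1 : Matrix.SpecialLinearGroup (Fin 3) (ZMod p)) ^ p = 1 := by
      apply Subtype.ext
      rw [Matrix.SpecialLinearGroup.coe_pow]
      exact IsU.pow_p hp hg'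
    apply Subtype.ext
    apply Subtype.ext
    exact h1
  have hx : xE p ∈ uniSub p hp := by
    show IsU (xE p).1
    simp [IsU, xE]
  have hy : yE p ∈ uniSub p hp := by
    show IsU (yE p).1
    simp [IsU, yE]
  have h3 := h _ hQ ⟨xE p, hle hx⟩ (Subgroup.mem_subgroupOf.mpr hx) ⟨yE p, hle hy⟩ (Subgroup.mem_subgroupOf.mpr hy)
  exact xy_ne p (congrArg Subtype.val h3)

theorem result {p : ℕ} [Fact p.Prime] (hp : p ≠ 2) {K : Type*} [Field K] [Fintype K] [CharP K p] : ¬ Cfsg.Involves ↥(Cfsg.qd p) (Matrix.ProjectiveSpecialLinearGroup (Fin 2) K) := by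
  rintro ⟨K₀, R, hnorm, ⟨e⟩⟩
  have hA1 : AbP p (Matrix.SpecialLinearGroup (Fin 2) K) := AbP_SL2 p
  have hA2 : AbP p (Matrix.ProjectiveSpecialLinearGroup (Fin 2) K) :=
    hA1.of_surjective (QuotientGroup.mk' _) (QuotientGroup.mk'_surjective _)
  have hA3 : AbP p ↥K₀ := hA2.subgroup K₀
  have hA4 : AbP p (↥K₀ ⧸ R.subgroupOf K₀) :=
    hA3.of_surjective (QuotientGroup.mk' _) (QuotientGroup.mk'_surjective _)
  have hA5 : AbP p ↥(Cfsg.qd p) := hA4.of_surjective e.toMonoidHom e.surjective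
  exact not_AbP_qd p hp hA5

end Cfsg.Agent.S2231
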