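import Cfsg.Statements.S2232
import Cfsg.Agent.Lib.Helper9.QdComm
import Cfsg.Agent.Lib.Helper9.QdStab
import Cfsg.Agent.Lib.Helper28.Herm
import Cfsg.Agent.Lib.Helper2.HermCount

set_option autoImplicit false
open Cfsg

namespace Cfsg.Agent.S2232

open Cfsg.Agent.Lib.Helper28.Herm Matrix

section frame

variable {F : Type*} [Field F] {σ : F →+* F} {f : (Fin 3 → F) → (Fin 3 → F) → F}

/-- a hyperbolic partner of a nonzero isotropic vector -/
theorem exists_partner (hf : IsHerm σ f) (a : Fin 3 → F) (ha0 : a ≠ 0) (ha : f a a = 0) :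
    ∃ b, f b b = 0 ∧ f a b = 1 := by
  have h1 : ∃ v, f a v ≠ 0 := by
    by_contra hcon
    simp only [not_exists, not_not] at hcon
    exact ha0 (hf.nondeg' a hcon)
  obtain ⟨v, hv⟩ := h1
  obtain ⟨μ, hμ⟩ := hf.iso_fix a v ha hv
  have h2 : f a (v + μ • a) = f a v := by
    rw [hf.add_right, hf.smul_right, ha, mul_zero, add_zero]
  refine ⟨σ (f a v)⁻¹ • (v + μ • a), ?_, ?_⟩
  · rw [hf.smul_left, hf.smul_right, hμ, mul_zero, mul_zero]
  · rw [hf.smul_right, hf.invol, h2, inv_mul_cancel₀ hv]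

/-- the frame `a, c, b` attached to a hyperbolic pair in a three-dimensional unitary space -/
theorem exists_frame (hf : IsHerm σ f) (a b : Fin 3 → F) (ha : f a a = 0) (hb : f b b = 0)
    (hab : f a b = 1) :
    ∃ c, f c a = 0 ∧ f c b = 0 ∧ f c c ≠ 0 ∧
      ∀ v, v = f v b • a + (f v c / f c c) • c + f v a • b := by
  have hba : f b a = 1 := by rw [hf.herm, hab, map_one]
  let Φ : (Fin 3 → F) →ₗ[F] (Fin 2 → F) :=
    { toFun := fun v => ![f v a, f v b]
      map_add' := fun x y => by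
        rw [hf.add_left, hf.add_left]
        ext i
        fin_cases i <;> simp
      map_smul' := fun k x => by
        rw [hf.smul_left, hf.smul_left]
        ext i
        fin_cases i <;> simp }
  have hker : LinearMap.ker Φ ≠ ⊥ := by
    apply LinearMap.ker_ne_bot_of_finrank_lt
    simp
  obtain ⟨c, hcker, hc0⟩ := (Submodule.ne_bot_iff _).mp hker
  have hΦc : Φ c = 0 := LinearMap.mem_ker.mp hcker
  have hca : f c a = 0 := by
    have h1 := congrFun hΦc 0
    exact h1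
  have hcb : f c b = 0 := by
    have h1 := congrFun hΦc 1
    exact h1
  have hac : f a c = 0 := hf.eq_zero_symm hca
  have hbc : f b c = 0 := hf.eq_zero_symm hcb
  have hli : LinearIndependent F ![a, b, c] := by
    rw [Fintype.linearIndependent_iff]
    intro g hg
    rw [Fin.sum_univ_three] at hg
    have hg' : g 0 • a + g 1 • b + g 2 • c = 0 := hg
    have e0 : g 0 = 0 := by
      have h1 : f (g 0 • a + g 1 • b + g 2 • c) b = 0 := by rw [hg', hf.zero_left]
      rw [hf.add_left, hf.add_left, hf.smul_left, hf.smul_left, hf.smul_left, hab, hb, hcb,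
        mul_one, mul_zero, mul_zero, add_zero, add_zero] at h1
      exact h1
    have e1 : g 1 = 0 := by
      have h1 : f (g 0 • a + g 1 • b + g 2 • c) a = 0 := by rw [hg', hf.zero_left]
      rw [hf.add_left, hf.add_left, hf.smul_left, hf.smul_left, hf.smul_left, ha, hba, hca,
        mul_one, mul_zero, mul_zero, zero_add, add_zero] at h1
      exact h1
    have e2 : g 2 = 0 := by
      rw [e0, e1, zero_smul, zero_smul, zero_add, zero_add] at hg'
      exact (smul_eq_zero.mp hg').resolve_right hc0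
    intro i
    fin_cases i
    · exact e0
    · exact e1
    · exact e2
  have hspan : Submodule.span F (Set.range ![a, b, c]) = ⊤ :=
    hli.span_eq_top_of_card_eq_finrank' (by simp)
  have hzero : ∀ v', f v' a = 0 → f v' b = 0 → f v' c = 0 → v' = 0 := by
    intro v' h1 h2 h3
    apply hf.nondeg' v'
    intro w
    have hw : w ∈ Submodule.span F (Set.range ![a, b, c]) := by
      rw [hspan]
      exact Submodule.mem_top
    induction hw using Submodule.span_induction with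
    | mem x hx =>
      obtain ⟨i, rfl⟩ := hx
      fin_cases i
      · exact h1
      · exact h2
      · exact h3
    | zero => exact hf.zero_right v'
    | add x y _ _ hx hy => rw [hf.add_right, hx, hy, add_zero]
    | smul k x _ hx => rw [hf.smul_right, hx, mul_zero]
  have hcc : f c c ≠ 0 := fun h => hc0 (hzero c hca hcb h)
  refine ⟨c, hca, hcb, hcc, fun v => ?_⟩
  have h := hzero (v - (f v b • a + (f v c / f c c) • c + f v a • b)) ?_ ?_ ?_
  · exact sub_eq_zero.mp h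
  · rw [hf.sub_left, hf.add_left, hf.add_left, hf.smul_left, hf.smul_left, hf.smul_left, ha, hca,
      hba]
    ring
  · rw [hf.sub_left, hf.add_left, hf.add_left, hf.smul_left, hf.smul_left, hf.smul_left, hab, hcb,
      hb]
    ring
  · rw [hf.sub_left, hf.add_left, hf.add_left, hf.smul_left, hf.smul_left, hf.smul_left, hac, hbc]
    field_simp
    ring

end frame

section group

variable {F : Type*} [Field F] {σ : F →+* F} {f : (Fin 3 → F) → (Fin 3 → F) → F}
variable {Γ : Type*} [Group Γ] (M : Γ →* Matrix (Fin 3) (Fin 3) F)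

theorem inv_mulVec (g : Γ) (v : Fin 3 → F) : M g⁻¹ *ᵥ (M g *ᵥ v) = v := by
  rw [Matrix.mulVec_mulVec, ← map_mul, inv_mul_cancel, map_one, Matrix.one_mulVec]

theorem mulVec_inv (g : Γ) (v : Fin 3 → F) : M g *ᵥ (M g⁻¹ *ᵥ v) = v := by
  rw [Matrix.mulVec_mulVec, ← map_mul, mul_inv_cancel, map_one, Matrix.one_mulVec]

/-- eigenvalue of the inverse -/
theorem eig_inv (g : Γ) (a : Fin 3 → F) (ha0 : a ≠ 0) (k : F) (hk : M g *ᵥ a = k • a) :
    k ≠ 0 ∧ M g⁻¹ *ᵥ a = k⁻¹ • a := by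
  have hk0 : k ≠ 0 := by
    rintro rfl
    rw [zero_smul] at hk
    have h1 := inv_mulVec M g a
    rw [hk, Matrix.mulVec_zero] at h1
    exact ha0 h1.symm
  refine ⟨hk0, ?_⟩
  have h1 := inv_mulVec M g a
  rw [hk, Matrix.mulVec_smul] at h1
  calc M g⁻¹ *ᵥ a = k⁻¹ • (k • M g⁻¹ *ᵥ a) := by rw [smul_smul, inv_mul_cancel₀ hk0, one_smul]
    _ = k⁻¹ • a := by rw [h1]

/-- a nontrivial `p`-group of isometries fixes at most one isotropic point -/
theorem fixed_iso_unique (hf : IsHerm σ f) (hM : ∀ g u v, f (M g *ᵥ u) (M g *ᵥ v) = f u v)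
    (hinj : Function.Injective M) {p : ℕ} [Fact p.Prime] [CharP F p]
    (T : Subgroup Γ) (hT1 : T ≠ ⊥) (hTp : ∀ t ∈ T, ∃ k : ℕ, t ^ p ^ k = 1)
    (a : Fin 3 → F) (ha0 : a ≠ 0) (ha : f a a = 0) (haT : ∀ t ∈ T, M t *ᵥ a = a)
    (a' : Fin 3 → F) (ha' : f a' a' = 0) (haT' : ∀ t ∈ T, M t *ᵥ a' = a') :
    ∃ k : F, a' = k • a := by
  by_cases h : f a a' = 0
  · obtain ⟨b, hb, hab⟩ := exists_partner hf a ha0 ha
    obtain ⟨c, hca, hcb, hcc, hdec⟩ := exists_frame hf a b ha hb hab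
    have h1 := hdec a'
    have ha'a : f a' a = 0 := hf.eq_zero_symm h
    rw [ha'a, zero_smul, add_zero] at h1
    have h3 : f a' a' = f (f a' b • a + (f a' c / f c c) • c) a' :=
      congrArg (fun x => f x a') h1
    rw [hf.add_left, hf.smul_left, hf.smul_left, h, mul_zero, zero_add, ha', hf.herm c a'] at h3
    have h4 : f a' c = 0 := by
      rcases mul_eq_zero.mp h3.symm with h5 | h5
      · rcases div_eq_zero_iff.mp h5 with h6 | h6
        · exact h6
        · exact absurd h6 hcc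
      · have h6 := congrArg σ h5
        rw [hf.invol, map_zero] at h6
        exact h6
    rw [h4, zero_div, zero_smul, add_zero] at h1
    exact ⟨_, h1⟩
  · exfalso
    apply hT1
    obtain ⟨b, hbdef⟩ : ∃ b, b = σ (f a a')⁻¹ • a' := ⟨_, rfl⟩
    have hb : f b b = 0 := by
      rw [hbdef, hf.smul_left, hf.smul_right, ha', mul_zero, mul_zero]
    have hab : f a b = 1 := by
      rw [hbdef, hf.smul_right, hf.invol, inv_mul_cancel₀ h]
    have hbT : ∀ t ∈ T, M t *ᵥ b = b := fun t ht => by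
      rw [hbdef, Matrix.mulVec_smul, haT' t ht]
    obtain ⟨c, hca, hcb, hcc, hdec⟩ := exists_frame hf a b ha hb hab
    have hc0 : c ≠ 0 := by
      rintro rfl
      exact hcc (hf.zero_left 0)
    rw [Subgroup.eq_bot_iff_forall]
    intro t ht
    apply hinj
    rw [map_one]
    have e1 : f (M t *ᵥ c) b = 0 := by
      have h1 := hM t c b
      rw [hbT t ht] at h1
      rw [h1, hcb]
    have e2 : f (M t *ᵥ c) a = 0 := by
      have h1 := hM t c a
      rw [haT t ht] at h1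
      rw [h1, hca]
    obtain ⟨μ, hμ⟩ : ∃ μ : F, M t *ᵥ c = μ • c := by
      have h1 := hdec (M t *ᵥ c)
      rw [e1, e2, zero_smul, zero_smul, zero_add, add_zero] at h1
      exact ⟨_, h1⟩
    obtain ⟨k, hk⟩ := hTp t ht
    have hpow : ∀ m : ℕ, M (t ^ m) *ᵥ c = μ ^ m • c := by
      intro m
      induction m with
      | zero => rw [pow_zero, map_one, Matrix.one_mulVec, pow_zero, one_smul]
      | succ m ih =>
        rw [pow_succ, map_mul, ← Matrix.mulVec_mulVec, hμ, Matrix.mulVec_smul, ih, smul_smul,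
          pow_succ, mul_comm]
    have h2 := hpow (p ^ k)
    rw [hk, map_one, Matrix.one_mulVec] at h2
    have h3 : μ ^ p ^ k = 1 := by
      have h4 : (μ ^ p ^ k - 1) • c = 0 := by
        rw [sub_smul, one_smul, ← h2, sub_self]
      rcases smul_eq_zero.mp h4 with h5 | h5
      · exact sub_eq_zero.mp h5
      · exact absurd h5 hc0
    have h4 : μ = 1 := by
      have h5 : (μ - 1) ^ p ^ k = 0 := by
        rw [sub_pow_char_pow, h3, one_pow, sub_self]
      exact sub_eq_zero.mp (pow_eq_zero_iff (pow_ne_zero k (Fact.out : p.Prime).ne_zero) |>.mp h5)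
    have hc : M t *ᵥ c = c := by rw [hμ, h4, one_smul]
    have hall : ∀ v, M t *ᵥ v = (1 : Matrix (Fin 3) (Fin 3) F) *ᵥ v := by
      intro v
      rw [Matrix.one_mulVec]
      calc M t *ᵥ v = M t *ᵥ (f v b • a + (f v c / f c c) • c + f v a • b) := by rw [← hdec v]
        _ = f v b • a + (f v c / f c c) • c + f v a • b := by
          rw [Matrix.mulVec_add, Matrix.mulVec_add, Matrix.mulVec_smul, Matrix.mulVec_smul,
            Matrix.mulVec_smul, haT t ht, hc, hbT t ht]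
        _ = v := (hdec v).symm
    exact Matrix.mulVec_injective (funext hall)

/-- elements of the normalizer of a nontrivial `p`-group of isometries fix its isotropic point -/
theorem normalizer_eigen (hf : IsHerm σ f) (hM : ∀ g u v, f (M g *ᵥ u) (M g *ᵥ v) = f u v)
    (hinj : Function.Injective M) {p : ℕ} [Fact p.Prime] [CharP F p]
    (T : Subgroup Γ) (hT1 : T ≠ ⊥) (hTp : ∀ t ∈ T, ∃ k : ℕ, t ^ p ^ k = 1)
    (a : Fin 3 → F) (ha0 : a ≠ 0) (ha : f a a = 0) (haT : ∀ t ∈ T, M t *ᵥ a = a)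
    (g : Γ) (hg : g ∈ Subgroup.normalizer (T : Set Γ)) : ∃ k : F, M g *ᵥ a = k • a := by
  apply fixed_iso_unique M hf hM hinj T hT1 hTp a ha0 ha haT (M g *ᵥ a)
  · rw [hM]
    exact ha
  · intro t ht
    have h1 : g⁻¹ * t * g ∈ T := by
      have h2 := (Subgroup.mem_normalizer_iff.mp
        ((Subgroup.normalizer (T : Set Γ)).inv_mem hg) t).mp ht
      rwa [inv_inv] at h2
    have h2 := haT _ h1
    have e : t * g = g * (g⁻¹ * t * g) := by group
    rw [Matrix.mulVec_mulVec, ← map_mul, e, map_mul, ← Matrix.mulVec_mulVec, h2]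

end group

section comm

variable {F : Type*} [Field F] {σ : F →+* F} {f : (Fin 3 → F) → (Fin 3 → F) → F}
variable {Γ : Type*} [Group Γ] (M : Γ →* Matrix (Fin 3) (Fin 3) F)

/-- commutators of isometries with a common isotropic eigenvector have order dividing `p` -/
theorem comm_pow_eq_one (hf : IsHerm σ f) (hM : ∀ g u v, f (M g *ᵥ u) (M g *ᵥ v) = f u v)
    (hinj : Function.Injective M) {p : ℕ} [Fact p.Prime] [CharP F p] (hp3 : 3 ≤ p)
    (a : Fin 3 → F) (ha0 : a ≠ 0) (ha : f a a = 0)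
    (g h : Γ) (hg : ∃ k : F, M g *ᵥ a = k • a) (hh : ∃ k : F, M h *ᵥ a = k • a) :
    (g * h * g⁻¹ * h⁻¹) ^ p = 1 := by
  obtain ⟨b, hb, hab⟩ := exists_partner hf a ha0 ha
  obtain ⟨c, hca, hcb, hcc, hdec⟩ := exists_frame hf a b ha hb hab
  have hac : f a c = 0 := hf.eq_zero_symm hca
  obtain ⟨k, hk⟩ := hg
  obtain ⟨l, hl⟩ := hh
  obtain ⟨hk0, hk'⟩ := eig_inv M g a ha0 k hk
  obtain ⟨hl0, hl'⟩ := eig_inv M h a ha0 l hl
  -- the eigen-property and its consequences
  have hperp : ∀ x : Γ, (∃ k : F, M x *ᵥ a = k • a) → ∀ w, f w a = 0 → f (M x *ᵥ w) a = 0 := by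
    rintro x ⟨r, hr⟩ w hw
    obtain ⟨-, hr'⟩ := eig_inv M x a ha0 r hr
    have e : a = r⁻¹ • (M x *ᵥ a) := by
      have h1 := mulVec_inv M x a
      rw [hr', Matrix.mulVec_smul] at h1
      exact h1.symm
    calc f (M x *ᵥ w) a = f (M x *ᵥ w) (r⁻¹ • (M x *ᵥ a)) := by rw [← e]
      _ = 0 := by rw [hf.smul_right, hM, hw, mul_zero]
  have hmu : ∀ x : Γ, (∃ k : F, M x *ᵥ a = k • a) → ∀ w, f w a = 0 →
      f (M x *ᵥ w) c = (f (M x *ᵥ c) c / f c c) * f w c := by
    rintro x ⟨r, hr⟩ w hw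
    have h1 := hdec w
    rw [hw, zero_smul, add_zero] at h1
    have h2 : M x *ᵥ w = f w b • (r • a) + (f w c / f c c) • (M x *ᵥ c) := by
      calc M x *ᵥ w = M x *ᵥ (f w b • a + (f w c / f c c) • c) := by rw [← h1]
        _ = f w b • (r • a) + (f w c / f c c) • (M x *ᵥ c) := by
          rw [Matrix.mulVec_add, Matrix.mulVec_smul, Matrix.mulVec_smul, hr]
    rw [h2, hf.add_left, hf.smul_left, hf.smul_left, hf.smul_left, hac, mul_zero, mul_zero,
      zero_add]
    field_simp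
  have hmuinv : ∀ x : Γ, (∃ k : F, M x *ᵥ a = k • a) → (∃ k : F, M x⁻¹ *ᵥ a = k • a) →
      (f (M x *ᵥ c) c / f c c) * (f (M x⁻¹ *ᵥ c) c / f c c) = 1 := by
    intro x hx hx'
    have h1 := hmu x hx (M x⁻¹ *ᵥ c) (hperp x⁻¹ hx' c hca)
    rw [mulVec_inv] at h1
    field_simp
    field_simp at h1
    linear_combination -h1
  have hgP : ∃ k : F, M g *ᵥ a = k • a := ⟨k, hk⟩
  have hhP : ∃ k : F, M h *ᵥ a = k • a := ⟨l, hl⟩
  have hgP' : ∃ k : F, M g⁻¹ *ᵥ a = k • a := ⟨k⁻¹, hk'⟩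
  have hhP' : ∃ k : F, M h⁻¹ *ᵥ a = k • a := ⟨l⁻¹, hl'⟩
  obtain ⟨X, hX⟩ : ∃ X : Matrix (Fin 3) (Fin 3) F, X = M (g * h * g⁻¹ * h⁻¹) := ⟨_, rfl⟩
  have hXv : ∀ v, X *ᵥ v = M g *ᵥ (M h *ᵥ (M g⁻¹ *ᵥ (M h⁻¹ *ᵥ v))) := by
    intro v
    rw [hX, map_mul, map_mul, map_mul, ← Matrix.mulVec_mulVec, ← Matrix.mulVec_mulVec,
      ← Matrix.mulVec_mulVec]
  have hXa : X *ᵥ a = a := by
    rw [hXv]
    simp only [hl', hk', hl, hk, Matrix.mulVec_smul, smul_smul]
    have e : ∀ c : F, c = 1 → c • a = a := fun c hc => by rw [hc, one_smul]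
    apply e
    field_simp
  have hXiso : ∀ u v, f (X *ᵥ u) (X *ᵥ v) = f u v := fun u v => by
    rw [hX]
    exact hM _ u v
  have hX1 : ∀ v, f (X *ᵥ v - v) a = 0 := by
    intro v
    have h1 := hXiso v a
    rw [hXa] at h1
    rw [hf.sub_left, h1, sub_self]
  have hX2 : ∀ w, f w a = 0 → f (X *ᵥ w) c = f w c := by
    intro w hw
    have w1 := hperp h⁻¹ hhP' w hw
    have w2 := hperp g⁻¹ hgP' _ w1
    have w3 := hperp h hhP _ w2
    rw [hXv, hmu g hgP _ w3, hmu h hhP _ w2, hmu g⁻¹ hgP' _ w1, hmu h⁻¹ hhP' _ hw]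
    have e1 := hmuinv g hgP hgP'
    have e2 := hmuinv h hhP hhP'
    calc f (M g *ᵥ c) c / f c c * (f (M h *ᵥ c) c / f c c *
          (f (M g⁻¹ *ᵥ c) c / f c c * (f (M h⁻¹ *ᵥ c) c / f c c * f w c)))
        = (f (M g *ᵥ c) c / f c c * (f (M g⁻¹ *ᵥ c) c / f c c)) *
          (f (M h *ᵥ c) c / f c c * (f (M h⁻¹ *ᵥ c) c / f c c)) * f w c := by ring
      _ = f w c := by rw [e1, e2, one_mul, one_mul]
  have hX3 : ∀ w, f w a = 0 → X *ᵥ w - w = f (X *ᵥ w - w) b • a := by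
    intro w hw
    have h1 := hdec (X *ᵥ w - w)
    have h2 : f (X *ᵥ w - w) c = 0 := by rw [hf.sub_left, hX2 w hw, sub_self]
    rw [h2, hX1 w, zero_div, zero_smul, zero_smul, add_zero, add_zero] at h1
    exact h1
  -- `(X - 1) ^ 3 = 0`
  have hN : ∀ v, (X - 1) *ᵥ v = X *ᵥ v - v := fun v => by
    rw [Matrix.sub_mulVec, Matrix.one_mulVec]
  have hN3 : (X - 1) ^ 3 = 0 := by
    apply Matrix.mulVec_injective
    funext v
    rw [Matrix.zero_mulVec]
    have e : (X - 1) ^ 3 = (X - 1) * ((X - 1) * (X - 1)) := by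
      rw [pow_succ, pow_two, mul_assoc]
    rw [e, ← Matrix.mulVec_mulVec, ← Matrix.mulVec_mulVec, hN v]
    have h1 := hX3 (X *ᵥ v - v) (hX1 v)
    rw [hN (X *ᵥ v - v), h1, Matrix.mulVec_smul, hN a, hXa, sub_self, smul_zero]
  have hXp : X ^ p = 1 := by
    have h1 : (X - 1) ^ p = X ^ p - 1 ^ p := sub_pow_char_of_commute p (Commute.one_right X)
    have h2 : (X - 1) ^ p = 0 := by
      have e : p = 3 + (p - 3) := by omega
      rw [e, pow_add, hN3, zero_mul]
    rw [h2, one_pow] at h1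
    exact (sub_eq_zero.mp h1.symm)
  apply hinj
  rw [map_pow, ← hX, hXp, map_one]

end comm

section fixed

open Cfsg.Agent.Lib.Helper2.HermCount

theorem dvd_ZU3 (p n : ℕ) (hp : p.Prime) (hn : 1 ≤ n) : p ∣ (ZU (p ^ n) 3).1 := by
  have hq : 2 ≤ p ^ n := by
    calc 2 ≤ p := hp.two_le
      _ = p ^ 1 := (pow_one p).symm
      _ ≤ p ^ n := Nat.pow_le_pow_right hp.pos hn
  have h := (ZU_closed (p ^ n) hq 3).1
  have hq0 : ((p ^ n : ℕ) : ℤ) ≠ 0 := by
    have : 0 < p ^ n := by omega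
    exact_mod_cast this.ne'
  have h2 : ((ZU (p ^ n) 3).1 : ℤ) =
      ((p ^ n : ℕ) : ℤ) ^ 2 * (((p ^ n : ℕ) : ℤ) ^ 3 - ((p ^ n : ℕ) : ℤ) + 1) := by
    apply mul_right_cancel₀ hq0
    rw [h]
    ring
  have h3 : (p : ℤ) ∣ ((p ^ n : ℕ) : ℤ) := by
    rw [Int.natCast_dvd_natCast]
    exact dvd_pow_self p (by omega)
  have h4 : (p : ℤ) ∣ ((ZU (p ^ n) 3).1 : ℤ) := by
    rw [h2]
    exact Dvd.dvd.mul_right (Dvd.dvd.pow h3 (by norm_num)) _
  exact Int.natCast_dvd_natCast.mp h4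

/-- a `p`-group of isometries of the three-dimensional unitary space fixes a nonzero isotropic
vector -/
theorem exists_fixed_iso {K : Type*} [Field K] [Fintype K] {p : ℕ} [Fact p.Prime] {n : ℕ}
    (hn : 1 ≤ n) (hK : Fintype.card K = (p ^ n) ^ 2) {Γ : Type*} [Group Γ]
    (M : Γ →* Matrix (Fin 3) (Fin 3) K)
    (hM : ∀ g u v, Cfsg.hermForm 3 K (p ^ n) (M g *ᵥ u) (M g *ᵥ v) = Cfsg.hermForm 3 K (p ^ n) u v)
    (T : Subgroup Γ) (hT : IsPGroup p ↥T) :
    ∃ a : Fin 3 → K, a ≠ 0 ∧ Cfsg.hermForm 3 K (p ^ n) a a = 0 ∧ ∀ t ∈ T, M t *ᵥ a = a := by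
  classical
  have hmem : ∀ (t : Γ) (v : Fin 3 → K), (∑ i, v i * (v i) ^ (p ^ n) = 0) →
      ∑ i, (M t *ᵥ v) i * ((M t *ᵥ v) i) ^ (p ^ n) = 0 := by
    intro t v hv
    have h1 := hM t v v
    exact h1.trans hv
  let act : MulAction ↥T {v : Fin 3 → K // ∑ i, v i * (v i) ^ (p ^ n) = 0} :=
    { smul := fun t v => ⟨M (t : Γ) *ᵥ v.1, hmem t v.1 v.2⟩
      one_smul := fun v => Subtype.ext (by
        show M ((1 : ↥T) : Γ) *ᵥ v.1 = v.1
        rw [Subgroup.coe_one, map_one, Matrix.one_mulVec])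
      mul_smul := fun s t v => Subtype.ext (by
        show M ((s * t : ↥T) : Γ) *ᵥ v.1 = M (s : Γ) *ᵥ (M (t : Γ) *ᵥ v.1)
        rw [Subgroup.coe_mul, map_mul, Matrix.mulVec_mulVec]) }
  have hpn : p ^ n ≠ 0 := pow_ne_zero n (Fact.out : p.Prime).ne_zero
  have hcard : p ∣ Nat.card {v : Fin 3 → K // ∑ i, v i * (v i) ^ (p ^ n) = 0} := by
    rw [card_herm hK 3 0 (zero_pow hpn), if_pos rfl]
    exact dvd_ZU3 p n Fact.out hn
  have h0mem : ∑ i, (0 : Fin 3 → K) i * ((0 : Fin 3 → K) i) ^ (p ^ n) = 0 := by simp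
  have h0 : (⟨0, h0mem⟩ : {v : Fin 3 → K // ∑ i, v i * (v i) ^ (p ^ n) = 0}) ∈
      MulAction.fixedPoints ↥T {v : Fin 3 → K // ∑ i, v i * (v i) ^ (p ^ n) = 0} := by
    intro t
    apply Subtype.ext
    show M (t : Γ) *ᵥ (0 : Fin 3 → K) = 0
    rw [Matrix.mulVec_zero]
  obtain ⟨b, hb, hne⟩ := hT.exists_fixed_point_of_prime_dvd_card_of_fixed_point _ hcard h0
  refine ⟨b.1, fun h => hne (Subtype.ext h.symm), b.2, fun t ht => ?_⟩
  have h1 := hb ⟨t, ht⟩
  exact congrArg Subtype.val h1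

end fixed

/-- Let p be an odd prime, q a power of p and K a finite field with q² elements. Then Qd(p) (the natural semidirect product of an elementary abelian group of order p² by SL₂(p)) is not involved in the projective special unitary group PSU₃(q) realised over K. -/
theorem result {p : ℕ} [Fact p.Prime] (hp : p ≠ 2) {K : Type*} [Field K] [Fintype K] [CharP K p] (n : ℕ) (hn : 1 ≤ n) (hK : Fintype.card K = (p ^ n) ^ 2) : ¬ Cfsg.Involves ↥(Cfsg.qd p) (Cfsg.PSU 3 K (p ^ n)) := by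
  have hpp : p.Prime := Fact.out
  have hp3 : 3 ≤ p := by
    have := hpp.two_le
    omega
  have hf := hermForm_isHerm hK 3
  obtain ⟨M, hMdef⟩ : ∃ M : ↥(Cfsg.SU 3 K (p ^ n)) →* Matrix (Fin 3) (Fin 3) K,
      M = (Cfsg.slToMat 3 K).comp (Cfsg.SU 3 K (p ^ n)).subtype := ⟨_, rfl⟩
  have hM : ∀ g u v, Cfsg.hermForm 3 K (p ^ n) (M g *ᵥ u) (M g *ᵥ v)
      = Cfsg.hermForm 3 K (p ^ n) u v := by
    intro g u v
    rw [hMdef]
    exact g.2 u v
  have hinj : Function.Injective M := by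
    intro x y hxy
    rw [hMdef] at hxy
    apply Subtype.ext
    apply Subtype.ext
    exact hxy
  have hfree : ¬ Cfsg.Involves ↥(Cfsg.qd p) ↥(Cfsg.SU 3 K (p ^ n)) := by
    apply Cfsg.Agent.Lib.Helper9.QdComm.not_involves_of_comm hp
    intro T hT1 hTp g hg h hh
    have hTpg : IsPGroup p ↥T := by
      rintro ⟨t, ht⟩
      obtain ⟨k, hk⟩ := hTp t ht
      exact ⟨k, Subtype.ext hk⟩
    obtain ⟨a, ha0, ha, haT⟩ := exists_fixed_iso hn hK M hM T hTpg
    exact comm_pow_eq_one M hf hM hinj hp3 a ha0 ha g h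
      (normalizer_eigen M hf hM hinj T hT1 hTp a ha0 ha haT g hg)
      (normalizer_eigen M hf hM hinj T hT1 hTp a ha0 ha haT h hh)
  exact Cfsg.Agent.Lib.Helper9.QdStab.qd_free_quotient hfree (QuotientGroup.mk' _)
    (QuotientGroup.mk'_surjective _)

end Cfsg.Agent.S2232
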