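import Cfsg.Statements.S2238
import Mathlib
import Cfsg.Agent.Lib.Helper14.SzPart

set_option autoImplicit false
open Cfsg

namespace Cfsg.Agent.S2238

/-- The partition of the Suzuki group: with q = 2^(2m+1), m ≥ 1, r = 2^m and the Suzuki group realised as the stabiliser in SL₄ of the Suzuki–Tits ovoid, every non-identity element lies in exactly one subgroup that is either a Sylow 2-subgroup or a cyclic subgroup of order q − 1, q + 2r + 1 or q − 2r + 1. -/
theorem result {F : Type*} [Field F] [Fintype F] {m : ℕ} (hm : 1 ≤ m) (hF : Fintype.card F = 2 ^ (2 * m + 1)) (g : ↥(Cfsg.Sz F m)) (hg : g ≠ 1) :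
    ∃! U : Subgroup ↥(Cfsg.Sz F m), ((∃ P : Sylow 2 ↥(Cfsg.Sz F m), U = (P : Subgroup ↥(Cfsg.Sz F m))) ∨
      (IsCyclic ↥U ∧ Nat.card ↥U ∈ ({2 ^ (2 * m + 1) - 1, 2 ^ (2 * m + 1) + 2 ^ (m + 1) + 1, 2 ^ (2 * m + 1) - 2 ^ (m + 1) + 1} : Set ℕ))) ∧ g ∈ U := by
  have hfin : Finite (Matrix.SpecialLinearGroup (Fin 4) F) :=
    Cfsg.Agent.Lib.Helper3.Sz9.finite_SL
  have hq8 := Cfsg.Agent.Lib.Helper14.SzTori.q_ge hm
  have hqR : 2 ^ (2 * m + 1) = 2 * (2 ^ m) ^ 2 := by ring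
  have h2R : 2 ^ (m + 1) = 2 * 2 ^ m := by ring
  have hR2 : 2 ≤ 2 ^ m := by
    calc 2 = 2 ^ 1 := rfl
      _ ≤ 2 ^ m := Nat.pow_le_pow_right (by norm_num) hm
  have h4R : 2 * 2 ^ (m + 1) ≤ 2 ^ (2 * m + 1) := by
    rw [hqR, h2R]
    nlinarith
  have hR4 : 4 ≤ 2 ^ (m + 1) := by
    rw [h2R]
    omega
  have hqe : 2 ∣ 2 ^ (2 * m + 1) := dvd_pow_self 2 (by omega)
  have hRe : 2 ∣ 2 ^ (m + 1) := dvd_pow_self 2 (by omega)
  have hg1' : g.1 ≠ 1 := fun h => hg (Subtype.ext h)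
  have h2 : Fact (Nat.Prime 2) := ⟨Nat.prime_two⟩
  have hsyl : ∀ P : Sylow 2 ↥(Cfsg.Sz F m), g ∈ (P : Subgroup ↥(Cfsg.Sz F m)) →
      ∃ j, g ^ (2 ^ j) = 1 := by
    intro P hP
    obtain ⟨j, hj⟩ := P.isPGroup' ⟨g, hP⟩
    exact ⟨j, congrArg Subtype.val hj⟩
  rcases Cfsg.Agent.Lib.Helper3.Sz7.trichotomy hm hF g.2 hg1' with
    ⟨x, hx, k, hk1, hk⟩ | ⟨x, hx, a, b, hab, hk⟩ | hfpf
  · obtain ⟨hcyc, hcard⟩ :=
      Cfsg.Agent.Lib.Helper14.SzPart.typeD_cent hm hF g ⟨x, hx⟩ k hk1 hk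
    have hgq : g ^ (2 ^ (2 * m + 1) - 1) = 1 := by
      rw [← hcard]
      exact Cfsg.Agent.Lib.Helper14.SzPart.pow_card_of_mem
        (Cfsg.Agent.Lib.Helper14.SzTori.self_mem_cent g)
    refine ⟨Subgroup.centralizer ({g} : Set ↥(Cfsg.Sz F m)),
      ⟨Or.inr ⟨hcyc, Or.inl hcard⟩, Cfsg.Agent.Lib.Helper14.SzTori.self_mem_cent g⟩, ?_⟩
    rintro V ⟨hV, hgV⟩
    rcases hV with ⟨P, rfl⟩ | ⟨hVc, hVk⟩
    · exfalso
      obtain ⟨j, hj⟩ := hsyl P hgV
      apply hg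
      apply Cfsg.Agent.Lib.Helper14.SzPart.eq_one_of_pow_coprime hj hgq
      apply Nat.Coprime.pow_left
      exact (Nat.Prime.coprime_iff_not_dvd Nat.prime_two).mpr (by omega)
    · have hle := Cfsg.Agent.Lib.Helper14.SzPart.cyclic_le_cent hVc hgV
      have hdvd := Subgroup.card_dvd_of_le hle
      rw [hcard] at hdvd
      rcases hVk with h | h | h
      · exact Subgroup.eq_of_le_of_card_ge hle (by rw [hcard, h])
      · exfalso
        rw [h] at hdvd
        have h5 := Nat.le_of_dvd (by omega) hdvd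
        omega
      · exfalso
        rw [Set.mem_singleton_iff] at h
        rw [h] at hdvd
        have h5 := Nat.dvd_sub hdvd (dvd_refl _)
        have h6 := Nat.le_of_dvd (by omega) h5
        omega
  · have hg4 : g ^ 4 = 1 := by
      apply Subtype.ext
      have h5 : (x * g.1 * x⁻¹) ^ 4 = 1 := by
        rw [hk, Cfsg.Agent.Lib.Helper3.Sz9.T_pow4 hm hF]
      rw [conj_pow, conj_eq_one_iff] at h5
      exact h5
    have hpg : IsPGroup 2 ↥(Subgroup.zpowers g) := by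
      have hd : orderOf g ∣ 2 ^ 2 := orderOf_dvd_of_pow_eq_one hg4
      obtain ⟨j, -, hj⟩ := (Nat.dvd_prime_pow Nat.prime_two).mp hd
      apply IsPGroup.of_card (n := j)
      rw [Nat.card_zpowers, hj]
    obtain ⟨P, hP⟩ := hpg.exists_le_sylow
    have hgP : g ∈ (P : Subgroup ↥(Cfsg.Sz F m)) := hP (Subgroup.mem_zpowers g)
    refine ⟨(P : Subgroup ↥(Cfsg.Sz F m)), ⟨Or.inl ⟨P, rfl⟩, hgP⟩, ?_⟩
    rintro V ⟨hV, hgV⟩
    rcases hV with ⟨P', rfl⟩ | ⟨hVc, hVk⟩
    · rw [Cfsg.Agent.Lib.Helper14.SzPart.sylow_unique hm hF g hg P' P hgV hgP]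
    · exfalso
      have hVodd : ¬ 2 ∣ Nat.card ↥V := by
        rcases hVk with h | h | h
        · rw [h]
          omega
        · rw [h]
          omega
        · rw [Set.mem_singleton_iff] at h
          rw [h]
          omega
      apply hg
      apply Cfsg.Agent.Lib.Helper14.SzPart.eq_one_of_pow_coprime hg4
        (Cfsg.Agent.Lib.Helper14.SzPart.pow_card_of_mem hgV)
      show Nat.Coprime (2 ^ 2) _
      exact Nat.Coprime.pow_left 2 ((Nat.Prime.coprime_iff_not_dvd Nat.prime_two).mpr hVodd)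
  · have hgf : Cfsg.Agent.Lib.Helper14.SzTori.Fpf g := hfpf
    obtain ⟨hmain, -, -⟩ := Cfsg.Agent.Lib.Helper14.SzTori.main hm hF
    obtain ⟨hcA, -⟩ := hmain g hgf
    have hcyc := Cfsg.Agent.Lib.Helper14.SzTori.cent_cyclic hm hF hgf
    have hd := Cfsg.Agent.Lib.Helper14.SzTori.cA_dvd hm hF hgf
    have hcA' : Nat.card ↥(Subgroup.centralizer ({g} : Set ↥(Cfsg.Sz F m))) =
        2 ^ (2 * m + 1) + 2 ^ (m + 1) + 1 ∨
        Nat.card ↥(Subgroup.centralizer ({g} : Set ↥(Cfsg.Sz F m))) =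
        2 ^ (2 * m + 1) - 2 ^ (m + 1) + 1 := hcA
    have hd' : Nat.card ↥(Subgroup.centralizer ({g} : Set ↥(Cfsg.Sz F m))) ∣
        (2 ^ (2 * m + 1)) ^ 2 + 1 := hd
    have hgn : g ^ ((2 ^ (2 * m + 1)) ^ 2 + 1) = 1 :=
      Subtype.ext (Cfsg.Agent.Lib.Helper3.Sz9.fpf_order hm hF g.2 hfpf)
    have hq2e : 2 ∣ (2 ^ (2 * m + 1)) ^ 2 := dvd_pow hqe (by norm_num)
    refine ⟨Subgroup.centralizer ({g} : Set ↥(Cfsg.Sz F m)),
      ⟨Or.inr ⟨hcyc, ?_⟩, Cfsg.Agent.Lib.Helper14.SzTori.self_mem_cent g⟩, ?_⟩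
    · rcases hcA' with h | h
      · exact Or.inr (Or.inl h)
      · exact Or.inr (Or.inr h)
    rintro V ⟨hV, hgV⟩
    rcases hV with ⟨P, rfl⟩ | ⟨hVc, hVk⟩
    · exfalso
      obtain ⟨j, hj⟩ := hsyl P hgV
      apply hg
      apply Cfsg.Agent.Lib.Helper14.SzPart.eq_one_of_pow_coprime hj hgn
      apply Nat.Coprime.pow_left
      exact (Nat.Prime.coprime_iff_not_dvd Nat.prime_two).mpr (by omega)
    · have hle := Cfsg.Agent.Lib.Helper14.SzPart.cyclic_le_cent hVc hgV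
      have hdvd := Subgroup.card_dvd_of_le hle
      rcases hVk with h | h | h
      · exfalso
        rw [h] at hdvd
        have h5 := dvd_trans hdvd hd'
        have e : (2 ^ (2 * m + 1)) ^ 2 + 1 =
            (2 ^ (2 * m + 1) - 1) * (2 ^ (2 * m + 1) + 1) + 2 := by
          obtain ⟨k, hk⟩ : ∃ k, 2 ^ (2 * m + 1) = k + 1 := ⟨2 ^ (2 * m + 1) - 1, by omega⟩
          rw [hk]
          simp only [Nat.add_sub_cancel]
          ring
        rw [e] at h5
        have h6 := (Nat.dvd_add_right (dvd_mul_right _ _)).mp h5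
        have h7 := Nat.le_of_dvd (by norm_num) h6
        omega
      · rcases hcA' with h' | h'
        · exact Subgroup.eq_of_le_of_card_ge hle (by rw [h', h])
        · exfalso
          rw [h, h'] at hdvd
          have h5 := Nat.le_of_dvd (by omega) hdvd
          omega
      · rw [Set.mem_singleton_iff] at h
        rcases hcA' with h' | h'
        · exfalso
          rw [h, h'] at hdvd
          have h5 := Nat.dvd_sub hdvd (dvd_refl _)
          have e : 2 ^ (2 * m + 1) + 2 ^ (m + 1) + 1 - (2 ^ (2 * m + 1) - 2 ^ (m + 1) + 1) =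
              2 ^ (m + 2) := by
            have e2 : 2 ^ (m + 2) = 2 * 2 ^ (m + 1) := by ring
            omega
          rw [e] at h5
          have hodd : ¬ 2 ∣ (2 ^ (2 * m + 1) - 2 ^ (m + 1) + 1) := by omega
          have hc := Nat.Coprime.pow_right (m + 2)
            ((Nat.Prime.coprime_iff_not_dvd Nat.prime_two).mpr hodd).symm
          have h6 := Nat.Coprime.eq_one_of_dvd hc h5
          omega
        · exact Subgroup.eq_of_le_of_card_ge hle (by rw [h', h])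

end Cfsg.Agent.S2238
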