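import Cfsg.Statements.S2245
import Mathlib
import Cfsg.Agent.Lib.Helper8.SylMaxC
import Cfsg.Agent.Lib.Helper8.SylMaxF

set_option autoImplicit false
open Cfsg

namespace Cfsg.Agent.S2245

open Cfsg.Agent.Lib.Helper8.SylMax in
/-- For n ≥ 5 with n ≠ 6, a Sylow 2-subgroup of the alternating group A_n lies in exactly one maximal subgroup of A_n if and only if n = 2^k + 1 for some k ≥ 2; the same holds for the symmetric group S_n. -/
theorem result (n : ℕ) (hn : 5 ≤ n) (h6 : n ≠ 6) :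
    ((∀ R : Sylow 2 ↥(alternatingGroup (Fin n)), (∃! M : Subgroup ↥(alternatingGroup (Fin n)), IsCoatom M ∧ (R : Subgroup ↥(alternatingGroup (Fin n))) ≤ M) ↔ ∃ k : ℕ, 2 ≤ k ∧ n = 2 ^ k + 1) ∧
    (∀ R : Sylow 2 (Equiv.Perm (Fin n)), (∃! M : Subgroup (Equiv.Perm (Fin n)), IsCoatom M ∧ (R : Subgroup (Equiv.Perm (Fin n))) ≤ M) ↔ ∃ k : ℕ, 2 ≤ k ∧ n = 2 ^ k + 1)) := by
  classical
  have hp2 : Fact (Nat.Prime 2) := ⟨Nat.prime_two⟩
  constructor
  · intro R
    constructor
    · intro huniq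
      by_contra hnot
      obtain ⟨M, ⟨hMc, hRM⟩, hu⟩ := huniq
      have hR'p : IsPGroup 2 ((R : Subgroup (alternatingGroup (Fin n))).map
          (alternatingGroup (Fin n)).subtype) := R.isPGroup'.map _
      obtain ⟨P, hRP⟩ := hR'p.exists_le_sylow
      obtain ⟨H₁, H₂, h1, h2, n1, n2, htop⟩ := two_overgroups n hn hnot P
      obtain ⟨u, v, huv, hswap⟩ := exists_swap_mem (by omega) P
      have hsw : Equiv.Perm.sign (Equiv.swap u v) = -1 := Equiv.Perm.sign_swap huv
      have hgen := alt_le_of_odd_mem H₁ H₂ (Equiv.swap u v) (h1 hswap) (h2 hswap) hsw htop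
      have hK : ∀ H : Subgroup (Equiv.Perm (Fin n)),
          (P : Subgroup (Equiv.Perm (Fin n))) ≤ H → H ≠ ⊤ →
          (R : Subgroup (alternatingGroup (Fin n))) ≤ H.subgroupOf (alternatingGroup (Fin n)) ∧
            H.subgroupOf (alternatingGroup (Fin n)) ≠ ⊤ := by
        intro H hPH hne
        constructor
        · intro g hg
          rw [Subgroup.mem_subgroupOf]
          exact hPH (hRP (Subgroup.mem_map_of_mem _ hg))
        · intro htop'
          apply hne
          rw [eq_top_iff]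
          intro σ _
          have hA : ∀ τ : Equiv.Perm (Fin n), Equiv.Perm.sign τ = 1 → τ ∈ H := by
            intro τ hτ
            have hmem : (⟨τ, Equiv.Perm.mem_alternatingGroup.mpr hτ⟩ :
                alternatingGroup (Fin n)) ∈ H.subgroupOf (alternatingGroup (Fin n)) :=
              htop' ▸ Subgroup.mem_top _
            rw [Subgroup.mem_subgroupOf] at hmem
            exact hmem
          rcases Int.units_eq_one_or (Equiv.Perm.sign σ) with hs | hs
          · exact hA σ hs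
          · have h3 := hA (σ * Equiv.swap u v) (by rw [map_mul, hs, hsw]; simp)
            have h4 := H.mul_mem h3 (hPH hswap)
            rw [mul_assoc, Equiv.swap_mul_self, mul_one] at h4
            exact h4
      obtain ⟨hRK1, hK1ne⟩ := hK H₁ h1 n1
      obtain ⟨hRK2, hK2ne⟩ := hK H₂ h2 n2
      obtain ⟨M₁, hM₁c, hM₁⟩ := (eq_top_or_exists_le_coatom _).resolve_left hK1ne
      obtain ⟨M₂, hM₂c, hM₂⟩ := (eq_top_or_exists_le_coatom _).resolve_left hK2ne
      have e1 := hu M₁ ⟨hM₁c, hRK1.trans hM₁⟩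
      have e2 := hu M₂ ⟨hM₂c, hRK2.trans hM₂⟩
      apply hMc.1
      rw [eq_top_iff]
      intro g _
      have hg : (g : Equiv.Perm (Fin n)) ∈ (H₁ ⊓ alternatingGroup (Fin n)) ⊔
          (H₂ ⊓ alternatingGroup (Fin n)) := hgen g.2
      rw [← Subgroup.subgroupOf_map_subtype H₁ (alternatingGroup (Fin n)),
        ← Subgroup.subgroupOf_map_subtype H₂ (alternatingGroup (Fin n)),
        ← Subgroup.map_sup, Subgroup.mem_map] at hg
      obtain ⟨g', hg', hgg'⟩ := hg
      have e : g' = g := Subtype.ext hgg'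
      rw [← e]
      have hle : H₁.subgroupOf (alternatingGroup (Fin n)) ⊔
          H₂.subgroupOf (alternatingGroup (Fin n)) ≤ M :=
        sup_le (e1 ▸ hM₁) (e2 ▸ hM₂)
      exact hle hg'
    · rintro ⟨k, hk, rfl⟩
      obtain ⟨x₀, hx₀, hcore⟩ := alt_core (2 ^ k + 1) k hk rfl R
      obtain ⟨S₀, hS₀⟩ : ∃ S₀ : Subgroup (alternatingGroup (Fin (2 ^ k + 1))),
          S₀ = MulAction.stabilizer (alternatingGroup (Fin (2 ^ k + 1))) x₀ := ⟨_, rfl⟩
      have memS₀ : ∀ g : alternatingGroup (Fin (2 ^ k + 1)),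
          g ∈ S₀ ↔ (g : Equiv.Perm (Fin (2 ^ k + 1))) x₀ = x₀ := by
        intro g; rw [hS₀, MulAction.mem_stabilizer_iff]; rfl
      have hS₀ne : S₀ ≠ ⊤ := by
        intro htop
        obtain ⟨w₁, hw₁⟩ := exists_not_mem ({x₀} : Finset (Fin (2 ^ k + 1)))
          (by rw [Finset.card_singleton]; omega)
        obtain ⟨w₂, hw₂⟩ := exists_not_mem ({x₀, w₁} : Finset (Fin (2 ^ k + 1)))
          (lt_of_le_of_lt Finset.card_le_two (by omega))
        rw [Finset.mem_singleton] at hw₁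
        simp only [Finset.mem_insert, Finset.mem_singleton, not_or] at hw₂
        have hsign : Equiv.Perm.sign (Equiv.swap x₀ w₁ * Equiv.swap x₀ w₂) = 1 := by
          rw [map_mul, Equiv.Perm.sign_swap (Ne.symm hw₁),
            Equiv.Perm.sign_swap (Ne.symm hw₂.1)]; simp
        have hmem : (⟨_, Equiv.Perm.mem_alternatingGroup.mpr hsign⟩ :
            alternatingGroup (Fin (2 ^ k + 1))) ∈ S₀ := htop ▸ Subgroup.mem_top _
        rw [memS₀] at hmem
        have h' : (Equiv.swap x₀ w₁ * Equiv.swap x₀ w₂) x₀ = x₀ := hmem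
        rw [Equiv.Perm.mul_apply, Equiv.swap_apply_left,
          Equiv.swap_apply_of_ne_of_ne hw₂.1 hw₂.2] at h'
        exact hw₂.1 h'
      have hRS : (R : Subgroup (alternatingGroup (Fin (2 ^ k + 1)))) ≤ S₀ :=
        fun g hg => (memS₀ g).mpr (hx₀ g hg)
      have hall : ∀ M : Subgroup (alternatingGroup (Fin (2 ^ k + 1))), IsCoatom M →
          (R : Subgroup (alternatingGroup (Fin (2 ^ k + 1)))) ≤ M → M = S₀ := by
        intro M hMc hRM
        rcases hcore (M.map (alternatingGroup (Fin (2 ^ k + 1))).subtype)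
          (fun g hg => Subgroup.mem_map_of_mem _ (hRM hg)) with h | h
        · have hle : M ≤ S₀ := fun g hg => (memS₀ g).mpr (h _ (Subgroup.mem_map_of_mem _ hg))
          rcases hMc.le_iff.mp hle with h' | h'
          · exact absurd h' hS₀ne
          · exact h'.symm
        · exfalso
          apply hMc.1
          rw [eq_top_iff]
          intro g _
          have hg := h g.2
          rw [Subgroup.mem_map] at hg
          obtain ⟨g', hg', hgg'⟩ := hg
          have e : g' = g := Subtype.ext hgg'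
          rw [← e]; exact hg'
      have hRne : (R : Subgroup (alternatingGroup (Fin (2 ^ k + 1)))) ≠ ⊤ :=
        fun h => hS₀ne (top_le_iff.mp (h ▸ hRS))
      obtain ⟨M₀, hM₀c, hM₀⟩ := (eq_top_or_exists_le_coatom _).resolve_left hRne
      exact ⟨M₀, ⟨hM₀c, hM₀⟩,
        fun M' hM' => (hall M' hM'.1 hM'.2).trans (hall M₀ hM₀c hM₀).symm⟩
  · intro P
    constructor
    · intro huniq
      by_contra hnot
      obtain ⟨M, ⟨hMc, hPM⟩, hu⟩ := huniq
      obtain ⟨H₁, H₂, h1, h2, n1, n2, htop⟩ := two_overgroups n hn hnot P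
      obtain ⟨M₁, hM₁c, hM₁⟩ := (eq_top_or_exists_le_coatom _).resolve_left n1
      obtain ⟨M₂, hM₂c, hM₂⟩ := (eq_top_or_exists_le_coatom _).resolve_left n2
      have e1 := hu M₁ ⟨hM₁c, h1.trans hM₁⟩
      have e2 := hu M₂ ⟨hM₂c, h2.trans hM₂⟩
      apply hMc.1
      rw [eq_top_iff, ← htop]
      exact sup_le (e1 ▸ hM₁) (e2 ▸ hM₂)
    · rintro ⟨k, hk, rfl⟩
      obtain ⟨x₀, hx₀, hcore⟩ := sym_core (2 ^ k + 1) k hk rfl P
      obtain ⟨S₀, hS₀⟩ : ∃ S₀ : Subgroup (Equiv.Perm (Fin (2 ^ k + 1))),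
          S₀ = MulAction.stabilizer (Equiv.Perm (Fin (2 ^ k + 1))) x₀ := ⟨_, rfl⟩
      have memS₀ : ∀ g : Equiv.Perm (Fin (2 ^ k + 1)), g ∈ S₀ ↔ g x₀ = x₀ := by
        intro g; rw [hS₀, MulAction.mem_stabilizer_iff]; rfl
      have hS₀ne : S₀ ≠ ⊤ := by
        intro htop
        obtain ⟨w, hw⟩ := exists_not_mem ({x₀} : Finset (Fin (2 ^ k + 1)))
          (by rw [Finset.card_singleton]; omega)
        rw [Finset.mem_singleton] at hw
        have hmem : Equiv.swap x₀ w ∈ S₀ := htop ▸ Subgroup.mem_top _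
        rw [memS₀, Equiv.swap_apply_left] at hmem
        exact hw hmem
      have hPS : (P : Subgroup (Equiv.Perm (Fin (2 ^ k + 1)))) ≤ S₀ :=
        fun g hg => (memS₀ g).mpr (hx₀ g hg)
      have hall : ∀ M : Subgroup (Equiv.Perm (Fin (2 ^ k + 1))), IsCoatom M →
          (P : Subgroup (Equiv.Perm (Fin (2 ^ k + 1)))) ≤ M → M = S₀ := by
        intro M hMc hPM
        rcases hcore M hPM with h | h
        · have hle : M ≤ S₀ := fun g hg => (memS₀ g).mpr (h g hg)
          rcases hMc.le_iff.mp hle with h' | h'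
          · exact absurd h' hS₀ne
          · exact h'.symm
        · exact absurd h hMc.1
      have hPne : (P : Subgroup (Equiv.Perm (Fin (2 ^ k + 1)))) ≠ ⊤ :=
        fun h => hS₀ne (top_le_iff.mp (h ▸ hPS))
      obtain ⟨M₀, hM₀c, hM₀⟩ := (eq_top_or_exists_le_coatom _).resolve_left hPne
      exact ⟨M₀, ⟨hM₀c, hM₀⟩,
        fun M' hM' => (hall M' hM'.1 hM'.2).trans (hall M₀ hM₀c hM₀).symm⟩


end Cfsg.Agent.S2245
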