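import Cfsg.Statements.S2254
import Mathlib
import Cfsg.Agent.Lib.Helper8.NilPerm3

set_option autoImplicit false
open Cfsg

namespace Cfsg.Agent.S2254

/-- Let n ≡ 3 (mod 4). Then every nilpotent subgroup of the symmetric group on n letters has order at most 3 times the order of a Sylow 2-subgroup of the symmetric group on n − 3 letters; the bound is attained by a nilpotent subgroup isomorphic to the direct product of such a Sylow 2-subgroup with a cyclic group of order 3; and any two nilpotent subgroups attaining the bound are conjugate. -/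
theorem result  (n : ℕ) (hn : n % 4 = 3)
    (P : Sylow 2 (Equiv.Perm (Fin (n - 3)))) :
    (∀ N : Subgroup (Equiv.Perm (Fin n)), Group.IsNilpotent N → Nat.card N ≤ 3 * Nat.card P) ∧
    (∃ M : Subgroup (Equiv.Perm (Fin n)), Group.IsNilpotent M ∧ Nat.card M = 3 * Nat.card P ∧
      Nonempty (M ≃* (↥(P : Subgroup (Equiv.Perm (Fin (n - 3)))) × Multiplicative (ZMod 3)))) ∧
    (∀ N₁ N₂ : Subgroup (Equiv.Perm (Fin n)), Group.IsNilpotent N₁ → Group.IsNilpotent N₂ →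
      Nat.card N₁ = 3 * Nat.card P → Nat.card N₂ = 3 * Nat.card P →
      ∃ g : Equiv.Perm (Fin n), N₂ = N₁.map (MulAut.conj g).toMonoidHom) := by
  have hp2 : Fact (Nat.Prime 2) := ⟨Nat.prime_two⟩
  have h3 : 3 ≤ n := by omega
  have hP : Nat.card P = 2 ^ Cfsg.Agent.Lib.Helper8.NilNum.ee (n - 3) := by
    rw [Sylow.card_eq_multiplicity, Nat.card_perm]
    simp [Cfsg.Agent.Lib.Helper8.NilNum.ee]
  have hgg : Cfsg.Agent.Lib.Helper8.NilNum.gg n = 3 * Nat.card P := by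
    unfold Cfsg.Agent.Lib.Helper8.NilNum.gg
    rw [if_pos hn, hP]; rfl
  refine ⟨?_, ?_, ?_⟩
  · intro N hN
    have h := Cfsg.Agent.Lib.Helper8.NilPerm.bound_all n (Fin n) (by simp) N hN
    rwa [hgg] at h
  · exact Cfsg.Agent.Lib.Helper8.NilPerm3.exists_M n h3 P
  · intro N₁ N₂ hN₁ hN₂ c₁ c₂
    rw [hP] at c₁ c₂
    obtain ⟨z₁, hz₁, h31, T₁, hT₁, cT₁, f₁⟩ :=
      Cfsg.Agent.Lib.Helper8.NilPerm3.structure_lemma n hn N₁ hN₁ c₁
    obtain ⟨z₂, hz₂, h32, T₂, hT₂, cT₂, f₂⟩ :=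
      Cfsg.Agent.Lib.Helper8.NilPerm3.structure_lemma n hn N₂ hN₂ c₂
    exact Cfsg.Agent.Lib.Helper8.NilPerm3.conj_of_structure n
      (Cfsg.Agent.Lib.Helper8.NilNum.ee (n - 3)) rfl N₁ N₂ c₁ c₂ z₁ z₂ hz₁ hz₂ h31 h32 T₁ T₂
      hT₁ hT₂ cT₁ cT₂ f₁ f₂


end Cfsg.Agent.S2254
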