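import Cfsg.Statements.S2255
import Mathlib
import Cfsg.Agent.Lib.Helper8.NilAlt
import Cfsg.Agent.Lib.Helper8.NilNum3

set_option autoImplicit false
open Cfsg

namespace Cfsg.Agent.S2255

/-- Let n be a natural number not congruent to 3 modulo 4, with n ∉ {5, 6, 9}. Then every nilpotent subgroup of the alternating group on n letters has order at most the order of a Sylow 2-subgroup of the alternating group (so the nilpotent subgroups of largest order are exactly the Sylow 2-subgroups). -/
theorem result  (n : ℕ) (hn : n % 4 ≠ 3)
    (h5 : n ≠ 5) (h6 : n ≠ 6) (h9 : n ≠ 9)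
    (N : Subgroup (alternatingGroup (Fin n))) (hN : Group.IsNilpotent N)
    (P : Sylow 2 (alternatingGroup (Fin n))) :
    Nat.card N ≤ Nat.card P := by
  have : Fact (Nat.Prime 2) := ⟨Nat.prime_two⟩
  by_cases hp : IsPGroup 2 N
  · obtain ⟨Q, hQ⟩ := hp.exists_le_sylow
    have h1 : Nat.card N ≤ Nat.card (Q : Subgroup (alternatingGroup (Fin n))) :=
      Nat.le_of_dvd Nat.card_pos (Subgroup.card_dvd_of_le hQ)
    have h2 : Nat.card (Q : Subgroup (alternatingGroup (Fin n))) = Nat.card P := by
      rw [Sylow.card_eq_multiplicity, Sylow.card_eq_multiplicity]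
    exact h1.trans h2.le
  · let N' : Subgroup (Equiv.Perm (Fin n)) := N.map (alternatingGroup (Fin n)).subtype
    have hinj : Function.Injective (alternatingGroup (Fin n)).subtype :=
      Subgroup.subtype_injective _
    have hcard : Nat.card N' = Nat.card N := Subgroup.card_map_of_injective hinj
    have hN' : Group.IsNilpotent N' :=
      Group.nilpotent_of_mulEquiv (N.equivMapOfInjective _ hinj)
    have hA : ∀ g ∈ N', Equiv.Perm.sign g = 1 := by
      rintro _ ⟨g, -, rfl⟩
      exact Equiv.Perm.mem_alternatingGroup.mp g.2
    have hp' : ¬ IsPGroup 2 N' := by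
      intro h
      apply hp
      exact h.of_equiv (N.equivMapOfInjective _ hinj).symm
    have hN1 : Nat.card N ≠ 1 := by
      intro h1
      apply hp
      exact IsPGroup.of_card (n := 0) (by rw [h1]; rfl)
    have hn3 : 3 ≤ n := by
      by_contra hlt
      apply hN1
      have h0 : 0 < Nat.card N := Nat.card_pos
      have h1 : Nat.card N ≤ Nat.card (alternatingGroup (Fin n)) := Subgroup.card_le_card_group N
      have h2 : Nat.card (alternatingGroup (Fin n)) ≤ 1 := by
        by_cases hn2 : n = 2
        · subst hn2
          have h3 := two_mul_nat_card_alternatingGroup (α := Fin 2)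
          rw [Nat.card_perm, Nat.card_fin] at h3
          have h4 : Nat.factorial 2 = 2 := rfl
          omega
        · have h3 : Nat.card (alternatingGroup (Fin n)) ≤ Nat.card (Equiv.Perm (Fin n)) :=
            Subgroup.card_le_card_group _
          rw [Nat.card_perm, Nat.card_fin] at h3
          have h4 : n.factorial = 1 := by
            have : n < 2 := by omega
            interval_cases n <;> rfl
          omega
      omega
    have hPcard : 2 * Nat.card P = Cfsg.Agent.Lib.Helper8.NilNum.hh n := by
      have hnt : Nontrivial (Fin n) := Fin.nontrivial_iff_two_le.mpr (by omega)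
      have h1 := two_mul_nat_card_alternatingGroup (α := Fin n)
      rw [Nat.card_perm, Nat.card_fin] at h1
      rw [Sylow.card_eq_multiplicity]
      have hA0 : Nat.card (alternatingGroup (Fin n)) ≠ 0 := Nat.card_pos.ne'
      have h2 : (n.factorial).factorization 2 =
          (Nat.card (alternatingGroup (Fin n))).factorization 2 + 1 := by
        rw [← h1, Nat.factorization_mul (by norm_num) hA0]
        simp [Nat.Prime.factorization_self Nat.prime_two]; ring
      show _ = 2 ^ (n.factorial).factorization 2
      rw [h2, pow_succ]; ring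
    rcases Cfsg.Agent.Lib.Helper8.NilAlt.lemmaX n N' hN' hA with h | h | h
    · exact absurd h hp'
    · have hb := Cfsg.Agent.Lib.Helper8.NilGen.boundG_all Cfsg.Agent.Lib.Helper8.NilNum3.good_QQ
        n (Fin n) (by simp) N' hN' (by
          intro p hp hpd heq
          subst heq
          exact (Nat.not_even_iff_odd.mpr h) (even_iff_two_dvd.mpr hpd))
      have hf := Cfsg.Agent.Lib.Helper8.NilNum3.final1 n hn h5 h6 h9 hn3
      rw [hcard] at hb
      omega
    · have hgg : Cfsg.Agent.Lib.Helper8.NilNum.gg n = Cfsg.Agent.Lib.Helper8.NilNum.hh n :=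
        Cfsg.Agent.Lib.Helper8.NilNum.gg_of_mod n hn
      rw [hgg, hcard] at h
      omega


end Cfsg.Agent.S2255
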