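import Cfsg.Statements.S2256
import Mathlib
import Cfsg.Agent.Lib.Helper8.NilAlt
import Cfsg.Agent.Lib.Helper8.NilNum3
import Cfsg.Agent.Lib.Helper8.NilAlt3

set_option autoImplicit false
open Cfsg

namespace Cfsg.Agent.S2256

/-- Let n ≡ 3 (mod 4) with n ≥ 7. Then every nilpotent subgroup of the alternating group on n letters has order at most 3 times the order of a Sylow 2-subgroup of the alternating group on n − 3 letters; the bound is attained by a nilpotent subgroup isomorphic to the direct product of such a Sylow 2-subgroup with a cyclic group of order 3; and any two nilpotent subgroups of the alternating group attaining the bound are conjugate in it. -/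
theorem result  (n : ℕ) (hn : n % 4 = 3) (h7 : 7 ≤ n)
    (P : Sylow 2 (alternatingGroup (Fin (n - 3)))) :
    (∀ N : Subgroup (alternatingGroup (Fin n)), Group.IsNilpotent N → Nat.card N ≤ 3 * Nat.card P) ∧
    (∃ M : Subgroup (alternatingGroup (Fin n)), Group.IsNilpotent M ∧ Nat.card M = 3 * Nat.card P ∧
      Nonempty (M ≃* (↥(P : Subgroup (alternatingGroup (Fin (n - 3)))) × Multiplicative (ZMod 3)))) ∧
    (∀ N₁ N₂ : Subgroup (alternatingGroup (Fin n)), Group.IsNilpotent N₁ → Group.IsNilpotent N₂ →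
      Nat.card N₁ = 3 * Nat.card P → Nat.card N₂ = 3 * Nat.card P →
      ∃ g : alternatingGroup (Fin n), N₂ = N₁.map (MulAut.conj g).toMonoidHom) := by
  have hp2 : Fact (Nat.Prime 2) := ⟨Nat.prime_two⟩
  have hPc : 2 * Nat.card P = Cfsg.Agent.Lib.Helper8.NilNum.hh (n - 3) :=
    Cfsg.Agent.Lib.Helper8.NilAlt3.alt_sylow_card (n - 3) (by omega) P
  have hh3 : Cfsg.Agent.Lib.Helper8.NilNum.hh n = 2 * Cfsg.Agent.Lib.Helper8.NilNum.hh (n - 3) :=
    Cfsg.Agent.Lib.Helper8.NilNum3.hh_mod3 n hn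
  obtain ⟨E, hEdef⟩ : ∃ E, E = (Nat.card (alternatingGroup (Fin (n - 3)))).factorization 2 :=
    ⟨_, rfl⟩
  have hPE : Nat.card P = 2 ^ E := by rw [hEdef]; exact Sylow.card_eq_multiplicity P
  have hE : ((n - 3).factorial).factorization 2 = E + 1 := by
    rw [hEdef]; exact Cfsg.Agent.Lib.Helper8.NilAlt3.alt_fact (n - 3) (by omega)
  have hinj : Function.Injective (alternatingGroup (Fin n)).subtype :=
    Subgroup.subtype_injective _
  refine ⟨?_, ?_, ?_⟩
  · intro N hN
    by_cases hp : IsPGroup 2 N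
    · obtain ⟨Q, hQ⟩ := hp.exists_le_sylow
      have h1 : Nat.card N ≤ Nat.card (Q : Subgroup (alternatingGroup (Fin n))) :=
        Nat.le_of_dvd Nat.card_pos (Subgroup.card_dvd_of_le hQ)
      have h2 : 2 * Nat.card (Q : Subgroup (alternatingGroup (Fin n))) =
          Cfsg.Agent.Lib.Helper8.NilNum.hh n :=
        Cfsg.Agent.Lib.Helper8.NilAlt3.alt_sylow_card n (by omega) Q
      omega
    · let N' : Subgroup (Equiv.Perm (Fin n)) := N.map (alternatingGroup (Fin n)).subtype
      have hcard : Nat.card N' = Nat.card N := Subgroup.card_map_of_injective hinj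
      have hN' : Group.IsNilpotent N' :=
        Group.nilpotent_of_mulEquiv (N.equivMapOfInjective _ hinj)
      have hA : ∀ g ∈ N', Equiv.Perm.sign g = 1 := by
        rintro _ ⟨g, -, rfl⟩
        exact Equiv.Perm.mem_alternatingGroup.mp g.2
      have hp' : ¬ IsPGroup 2 N' :=
        fun h => hp (h.of_equiv (N.equivMapOfInjective _ hinj).symm)
      rcases Cfsg.Agent.Lib.Helper8.NilAlt.lemmaX n N' hN' hA with h | h | h
      · exact absurd h hp'
      · have hb := Cfsg.Agent.Lib.Helper8.NilGen.boundG_all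
          Cfsg.Agent.Lib.Helper8.NilNum3.good_QQ n (Fin n) (by simp) N' hN' (by
            intro p hp hpd heq
            subst heq
            exact (Nat.not_even_iff_odd.mpr h) (even_iff_two_dvd.mpr hpd))
        have hf := Cfsg.Agent.Lib.Helper8.NilNum3.final2 n hn h7
        rw [hcard] at hb
        omega
      · have hgg : Cfsg.Agent.Lib.Helper8.NilNum.gg n =
            3 * Cfsg.Agent.Lib.Helper8.NilNum.hh (n - 3) := by
          unfold Cfsg.Agent.Lib.Helper8.NilNum.gg; rw [if_pos hn]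
        rw [hgg, hcard] at h
        omega
  · exact Cfsg.Agent.Lib.Helper8.NilAlt3.exists_M_alt n (by omega) P
  · intro N₁ N₂ hN₁ hN₂ c₁ c₂
    rw [hPE] at c₁ c₂
    let N₁' : Subgroup (Equiv.Perm (Fin n)) := N₁.map (alternatingGroup (Fin n)).subtype
    let N₂' : Subgroup (Equiv.Perm (Fin n)) := N₂.map (alternatingGroup (Fin n)).subtype
    have c₁' : Nat.card N₁' = 3 * 2 ^ E := (Subgroup.card_map_of_injective hinj).trans c₁
    have c₂' : Nat.card N₂' = 3 * 2 ^ E := (Subgroup.card_map_of_injective hinj).trans c₂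
    have hN₁' : Group.IsNilpotent N₁' :=
      Group.nilpotent_of_mulEquiv (N₁.equivMapOfInjective _ hinj)
    have hN₂' : Group.IsNilpotent N₂' :=
      Group.nilpotent_of_mulEquiv (N₂.equivMapOfInjective _ hinj)
    have hA₁ : ∀ g ∈ N₁', Equiv.Perm.sign g = 1 := by
      rintro _ ⟨g, -, rfl⟩
      exact Equiv.Perm.mem_alternatingGroup.mp g.2
    have hA₂ : ∀ g ∈ N₂', Equiv.Perm.sign g = 1 := by
      rintro _ ⟨g, -, rfl⟩
      exact Equiv.Perm.mem_alternatingGroup.mp g.2
    have hE' : Cfsg.Agent.Lib.Helper8.NilNum.ee (n - 3) ≤ E + 1 := hE.le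
    obtain ⟨z₁, hz₁, h31, T₁, hT₁, cT₁, f₁⟩ :=
      Cfsg.Agent.Lib.Helper8.NilAlt3.structure_lemma' n hn N₁' hN₁' E hE' c₁'
    obtain ⟨z₂, hz₂, h32, T₂, hT₂, cT₂, f₂⟩ :=
      Cfsg.Agent.Lib.Helper8.NilAlt3.structure_lemma' n hn N₂' hN₂' E hE' c₂'
    obtain ⟨g, hgs, hg⟩ := Cfsg.Agent.Lib.Helper8.NilAlt3.conj_alt n E (by omega) hE N₁' N₂'
      c₁' c₂' z₁ z₂ hz₁ hz₂ h31 h32 T₁ T₂ hT₁ hT₂ cT₁ cT₂ f₁ f₂
      (fun t ht => hA₁ t (hT₁ ht)) (fun t ht => hA₂ t (hT₂ ht))
    refine ⟨⟨g, Equiv.Perm.mem_alternatingGroup.mpr hgs⟩, ?_⟩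
    apply Subgroup.map_injective hinj
    rw [Subgroup.map_map]
    refine hg.trans ?_
    show Subgroup.map (MulAut.conj g).toMonoidHom
      (Subgroup.map (alternatingGroup (Fin n)).subtype N₁) = _
    rw [Subgroup.map_map]
    rfl


end Cfsg.Agent.S2256
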