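import Cfsg.Statements.S2268

set_option autoImplicit false
open Cfsg

namespace Cfsg.Agent.S2268

theorem cent_normal_in_norm {G : Type*} [Group G] (Q : Subgroup G) :
    ((Subgroup.centralizer (Q : Set G)).subgroupOf (Subgroup.normalizer (Q : Set G))).Normal := by
  constructor
  intro n hn g
  rw [Subgroup.mem_subgroupOf] at hn ⊢
  rw [Subgroup.mem_centralizer_iff] at hn ⊢
  intro q hq
  have hq' : (g : G)⁻¹ * q * g ∈ Q := by
    have := (Subgroup.mem_normalizer_iff.mp (inv_mem g.2) q).mp hq
    simpa using this
  have := hn _ hq'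
  simp only [Subgroup.coe_mul, InvMemClass.coe_inv]
  calc q * ((g : G) * n * (g : G)⁻¹) = g * (((g : G)⁻¹ * q * g) * n) * (g : G)⁻¹ := by group
    _ = g * (n * ((g : G)⁻¹ * q * g)) * (g : G)⁻¹ := by rw [this]
    _ = g * n * (g : G)⁻¹ * q := by group

theorem sup_eq {G : Type*} [Group G] [Finite G] {p : ℕ} [Fact p.Prime]
    (P : Sylow p G) (hP : IsMulCommutative (P : Subgroup G)) (Q : Subgroup G) (hQ : Q ≤ (P : Subgroup G)) :
    Subgroup.normalizer (Q : Set G) =
      (Subgroup.normalizer (Q : Set G) ⊓ Subgroup.normalizer ((P : Subgroup G) : Set G)) ⊔ Subgroup.centralizer (Q : Set G) := by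
  classical
  have hPC : (P : Subgroup G) ≤ Subgroup.centralizer (Q : Set G) := by
    intro x hx
    rw [Subgroup.mem_centralizer_iff]
    intro q hq
    have := hP.is_comm.comm (⟨q, hQ hq⟩ : (P : Subgroup G)) ⟨x, hx⟩
    exact congrArg Subtype.val this
  have hCN : Subgroup.centralizer (Q : Set G) ≤ Subgroup.normalizer (Q : Set G) :=
    Subgroup.centralizer_le_normalizer _
  apply le_antisymm
  · intro g hg
    have := cent_normal_in_norm Q
    have hPN : (P : Subgroup G) ≤ Subgroup.normalizer (Q : Set G) := hPC.trans hCN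
    have hle : ((P.subtype hPN : Sylow p (Subgroup.normalizer (Q : Set G))) : Subgroup (Subgroup.normalizer (Q : Set G))) ≤
        (Subgroup.centralizer (Q : Set G)).subgroupOf (Subgroup.normalizer (Q : Set G)) := by
      intro x hx
      rw [Sylow.coe_subtype, Subgroup.mem_subgroupOf] at hx
      rw [Subgroup.mem_subgroupOf]
      exact hPC hx
    have key := Sylow.normalizer_sup_eq_top' (P.subtype hPN) hle
    have hmem : (⟨g, hg⟩ : Subgroup.normalizer (Q : Set G)) ∈ (⊤ : Subgroup (Subgroup.normalizer (Q : Set G))) :=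
      Subgroup.mem_top _
    rw [← key] at hmem
    rw [← SetLike.mem_coe, Subgroup.mul_normal] at hmem
    obtain ⟨a, ha, c, hc, hac⟩ := Set.mem_mul.mp hmem
    rw [SetLike.mem_coe] at ha hc
    have hg' : g = (a : G) * (c : G) := by
      have := congrArg Subtype.val hac
      simpa using this.symm
    rw [hg']
    apply Subgroup.mul_mem_sup
    · refine ⟨a.2, ?_⟩
      show (a : G) ∈ Subgroup.normalizer ((P : Subgroup G) : Set G)
      rw [Subgroup.mem_normalizer_iff]
      intro x
      have ha := Subgroup.mem_normalizer_iff.mp ha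
      constructor
      · intro hx
        have := (ha ⟨x, hPN hx⟩).mp (by rw [Sylow.coe_subtype, Subgroup.mem_subgroupOf]; exact hx)
        rw [Sylow.coe_subtype, Subgroup.mem_subgroupOf] at this
        simpa using this
      · intro hx
        have hxN : x ∈ Subgroup.normalizer (Q : Set G) := by
          have h1 := hPN hx
          have h2 : x = (a : G)⁻¹ * ((a : G) * x * (a : G)⁻¹) * (a : G) := by group
          rw [h2]
          exact mul_mem (mul_mem (inv_mem a.2) h1) a.2
        have := (ha ⟨x, hxN⟩).mpr (by rw [Sylow.coe_subtype, Subgroup.mem_subgroupOf]; simpa using hx)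
        rw [Sylow.coe_subtype, Subgroup.mem_subgroupOf] at this
        exact this
    · rw [Subgroup.mem_subgroupOf] at hc
      exact hc
  · exact sup_le inf_le_left hCN

theorem result {G : Type*} [Group G] [Finite G] {p : ℕ} [Fact p.Prime]
    (P : Sylow p G) (hP : IsMulCommutative (P : Subgroup G)) (Q : Subgroup G) (hQ : Q ≤ (P : Subgroup G)) :
    Subgroup.normalizer (Q : Set G) =
      (Subgroup.normalizer (Q : Set G) ⊓ Subgroup.normalizer ((P : Subgroup G) : Set G)) ⊔ Subgroup.centralizer (Q : Set G) ∧
    ((Subgroup.centralizer (Q : Set G)).subgroupOf (Subgroup.normalizer (Q : Set G))).index ∣ ((Subgroup.centralizer ((P : Subgroup G) : Set G)).subgroupOf (Subgroup.normalizer ((P : Subgroup G) : Set G))).index := by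
  have h1 := sup_eq P hP Q hQ
  refine ⟨h1, ?_⟩
  have := cent_normal_in_norm Q
  have hCPCQ : Subgroup.centralizer ((P : Subgroup G) : Set G) ≤ Subgroup.centralizer (Q : Set G) :=
    Subgroup.centralizer_le hQ
  have hCQN : Subgroup.centralizer (Q : Set G) ≤ Subgroup.normalizer (Q : Set G) :=
    Subgroup.centralizer_le_normalizer _
  have hCPN : Subgroup.centralizer ((P : Subgroup G) : Set G) ≤ Subgroup.normalizer ((P : Subgroup G) : Set G) :=
    Subgroup.centralizer_le_normalizer _
  set N := Subgroup.normalizer (Q : Set G) with hN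
  set C := Subgroup.centralizer (Q : Set G) with hC
  set A := N ⊓ Subgroup.normalizer ((P : Subgroup G) : Set G) with hA
  change C.relIndex N ∣ (Subgroup.centralizer ((P : Subgroup G) : Set G)).relIndex (Subgroup.normalizer ((P : Subgroup G) : Set G))
  have hAN : A ≤ N := inf_le_left
  have e1 : C.relIndex N = C.relIndex A := by
    have h2 : (A.subgroupOf N) ⊔ (C.subgroupOf N) = ⊤ := by
      rw [← Subgroup.subgroupOf_sup hAN hCQN, ← h1, Subgroup.subgroupOf_self]
    have h3 := Subgroup.relIndex_sup_right (A.subgroupOf N) (C.subgroupOf N)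
    rw [h2, Subgroup.relIndex_top_right] at h3
    rw [Subgroup.relIndex_subgroupOf hAN] at h3
    exact h3
  rw [e1]
  have hCPA : Subgroup.centralizer ((P : Subgroup G) : Set G) ≤ A :=
    le_inf (hCPCQ.trans hCQN) hCPN
  have d1 : C.relIndex A ∣ (Subgroup.centralizer ((P : Subgroup G) : Set G)).relIndex A :=
    Subgroup.relIndex_dvd_of_le_left A hCPCQ
  have d2 : (Subgroup.centralizer ((P : Subgroup G) : Set G)).relIndex A ∣
      (Subgroup.centralizer ((P : Subgroup G) : Set G)).relIndex (Subgroup.normalizer ((P : Subgroup G) : Set G)) := by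
    have := Subgroup.relIndex_mul_relIndex (Subgroup.centralizer ((P : Subgroup G) : Set G)) A
      (Subgroup.normalizer ((P : Subgroup G) : Set G)) hCPA inf_le_right
    exact Dvd.intro _ this
  exact d1.trans d2

end Cfsg.Agent.S2268
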