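import Cfsg.Statements.S2269
import Mathlib
import Cfsg.Agent.S0076

set_option autoImplicit false
open Cfsg

namespace Cfsg.Agent.S2269

theorem conj_odd_pow {G : Type*} [Group G] (h x : G) (hx : h * x * h⁻¹ = x⁻¹) (k : ℕ) :
    h ^ (2 * k + 1) * x * (h ^ (2 * k + 1))⁻¹ = x⁻¹ := by
  have h2 : Commute (h ^ 2) x := by
    have h2' : h ^ 2 * x * (h ^ 2)⁻¹ = x := by
      have e : h ^ 2 * x * (h ^ 2)⁻¹ = h * (h * x * h⁻¹) * h⁻¹ := by
        simp [pow_two, mul_assoc]
      rw [e, hx]
      have e2 : h * x⁻¹ * h⁻¹ = (h * x * h⁻¹)⁻¹ := by group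
      rw [e2, hx, inv_inv]
    unfold Commute SemiconjBy
    calc h ^ 2 * x = h ^ 2 * x * (h ^ 2)⁻¹ * h ^ 2 := by group
      _ = x * h ^ 2 := by rw [h2']
  have h3 : Commute (h ^ (2 * k)) x := by
    rw [pow_mul]; exact h2.pow_left k
  have e : h ^ (2 * k + 1) * x * (h ^ (2 * k + 1))⁻¹
      = h ^ (2 * k) * (h * x * h⁻¹) * (h ^ (2 * k))⁻¹ := by
    rw [pow_succ]; group
  rw [e, hx]
  have h4 : Commute (h ^ (2 * k)) x⁻¹ := h3.inv_right
  rw [h4.eq, mul_inv_cancel_right]

theorem even_index_of_real {G : Type*} [Group G] [Finite G] {p : ℕ} [Fact p.Prime] (P : Sylow p G)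
    (hP : IsMulCommutative (P : Subgroup G)) (x : G) (hx : x ∈ (P : Subgroup G)) (hxx : x ≠ x⁻¹)
    (g : G) (hg : g * x * g⁻¹ = x⁻¹) :
    2 ∣ ((Subgroup.centralizer ((P : Subgroup G) : Set G)).subgroupOf
      (Subgroup.normalizer ((P : Subgroup G) : Set G))).index := by
  have hcomm : ∀ a ∈ (P : Subgroup G), ∀ b ∈ (P : Subgroup G), a * b = b * a := by
    intro a ha b hb
    have := hP.is_comm.comm ⟨a, ha⟩ ⟨b, hb⟩
    exact congrArg Subtype.val this
  obtain ⟨h, hhN, hh⟩ := Cfsg.Agent.S0076.result P {x} {x⁻¹} (Set.singleton_subset_iff.mpr hx)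
    (Set.singleton_subset_iff.mpr (inv_mem hx))
    (by
      intro y hy
      simp only [Set.image_singleton]
      rw [hcomm y hy x hx, mul_inv_cancel_right])
    (by
      intro y hy
      simp only [Set.image_singleton]
      rw [hcomm y hy x⁻¹ (inv_mem hx), mul_inv_cancel_right])
    g (by simp only [Set.image_singleton]; rw [hg])
  simp only [Set.image_singleton, Set.singleton_eq_singleton_iff] at hh
  rw [← Subgroup.normalizerMonoidHom_ker, Subgroup.index_ker]
  have hdvd : orderOf ((P : Subgroup G).normalizerMonoidHom ⟨h, hhN⟩)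
      ∣ Nat.card (P : Subgroup G).normalizerMonoidHom.range := by
    have := orderOf_dvd_natCard (⟨(P : Subgroup G).normalizerMonoidHom ⟨h, hhN⟩,
      MonoidHom.mem_range.mpr ⟨_, rfl⟩⟩ : (P : Subgroup G).normalizerMonoidHom.range)
    rwa [Subgroup.orderOf_mk] at this
  refine dvd_trans ?_ hdvd
  rcases Nat.even_or_odd (orderOf ((P : Subgroup G).normalizerMonoidHom ⟨h, hhN⟩)) with he | ho
  · exact he.two_dvd
  · exfalso
    obtain ⟨k, hk⟩ := ho
    have h1 : ((P : Subgroup G).normalizerMonoidHom ⟨h, hhN⟩) ^ (2 * k + 1) = 1 := by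
      rw [← hk]; exact pow_orderOf_eq_one _
    rw [← map_pow] at h1
    have h2 := congrArg (fun α : MulAut (P : Subgroup G) => ((α ⟨x, hx⟩ : (P : Subgroup G)) : G)) h1
    change h ^ (2 * k + 1) * x * (h ^ (2 * k + 1))⁻¹ = x at h2
    rw [conj_odd_pow h x hh k] at h2
    exact hxx h2.symm

theorem two_mul_le_of_sq_dvd_factorial {p n : ℕ} (hp : p.Prime) (h : p ^ 2 ∣ n.factorial) :
    2 * p ≤ n := by
  by_cases hn : n < p ^ 2
  · have hn0 : n ≠ 0 := by
      rintro rfl
      simp at h
      have := hp.two_le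
      nlinarith
    have hlog : Nat.log p n < 2 := Nat.log_lt_of_lt_pow hn0 hn
    rw [hp.pow_dvd_factorial_iff hlog] at h
    simp at h
    have := Nat.div_mul_le_self n p
    nlinarith
  · push Not at hn
    have := hp.two_le
    nlinarith

theorem exists_real_of_odd {n p : ℕ} [Fact p.Prime] (hp2 : p ≠ 2) (hnp : 2 * p ≤ n)
    (σ : Equiv.Perm (Fin n)) (hσ : orderOf σ = p) :
    ∃ g : Equiv.Perm (Fin n), Equiv.Perm.sign g = 1 ∧ g * σ * g⁻¹ = σ⁻¹ := by
  have hp : p.Prime := Fact.out
  have hp3 : 3 ≤ p := by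
    have := hp.two_le; omega
  obtain ⟨m, hm⟩ := Equiv.Perm.cycleType_prime_order (σ := σ) (by rw [hσ]; exact hp)
  rw [hσ] at hm
  have hnot : ¬ (Subgroup.centralizer {σ} ≤ alternatingGroup (Fin n)) := by
    rw [Equiv.Perm.centralizer_le_alternating_iff]
    rintro ⟨-, h2, h3⟩
    rw [hm] at h2 h3
    have h3' := h3 p
    simp at h2 h3'
    subst h3'
    simp at h2
    omega
  obtain ⟨c, hc, hcA⟩ := SetLike.not_le_iff_exists.mp hnot
  have hcs : Equiv.Perm.sign c = -1 := by
    rw [Equiv.Perm.mem_alternatingGroup] at hcA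
    rcases Int.units_eq_one_or (Equiv.Perm.sign c) with h | h
    · exact absurd h hcA
    · exact h
  have hcc : c * σ = σ * c := by
    rw [Subgroup.mem_centralizer_iff] at hc
    exact (hc σ rfl).symm
  have hconj : IsConj σ σ⁻¹ := by
    rw [Equiv.Perm.isConj_iff_cycleType_eq, Equiv.Perm.cycleType_inv]
  obtain ⟨g, hg⟩ := isConj_iff.mp hconj
  rcases Int.units_eq_one_or (Equiv.Perm.sign g) with h | h
  · exact ⟨g, h, hg⟩
  · refine ⟨g * c, by rw [map_mul, h, hcs]; simp, ?_⟩
    have e : g * c * σ * (g * c)⁻¹ = g * (c * σ * c⁻¹) * g⁻¹ := by group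
    rw [e, hcc, mul_inv_cancel_right, hg]

theorem isPGroup_two_sup {G : Type*} [Group G] (x y : G) (hx : x ^ 4 = 1) (hy : y ^ 2 = 1)
    (hyx : y * x * y⁻¹ = x⁻¹) :
    IsPGroup 2 (Subgroup.zpowers y ⊔ Subgroup.zpowers x : Subgroup G) := by
  have hH : IsPGroup 2 (Subgroup.zpowers y) := by
    rintro ⟨g, hg⟩
    obtain ⟨k, rfl⟩ := Subgroup.mem_zpowers_iff.mp hg
    refine ⟨1, Subtype.ext ?_⟩
    simp only [pow_one, Subgroup.coe_pow, Subgroup.coe_one]
    rw [← zpow_natCast, ← zpow_mul, mul_comm, zpow_mul, zpow_natCast, hy, one_zpow]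
  have hK : IsPGroup 2 (Subgroup.zpowers x) := by
    rintro ⟨g, hg⟩
    obtain ⟨k, rfl⟩ := Subgroup.mem_zpowers_iff.mp hg
    refine ⟨2, Subtype.ext ?_⟩
    simp only [Subgroup.coe_pow, Subgroup.coe_one]
    have e : (2 : ℕ) ^ 2 = 4 := by norm_num
    rw [e, ← zpow_natCast, ← zpow_mul, mul_comm, zpow_mul, zpow_natCast, hx, one_zpow]
  have hconj : ∀ g ∈ Subgroup.zpowers x, y * g * y⁻¹ ∈ Subgroup.zpowers x := by
    intro g hg
    obtain ⟨k, rfl⟩ := Subgroup.mem_zpowers_iff.mp hg
    rw [← conj_zpow, hyx]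
    exact Subgroup.zpow_mem _ (Subgroup.inv_mem _ (Subgroup.mem_zpowers x)) k
  apply IsPGroup.to_sup_of_normal_right' hH hK
  rw [Subgroup.zpowers_le, Subgroup.mem_normalizer_iff]
  intro g
  constructor
  · exact hconj g
  · intro hg
    have h1 := hconj _ hg
    have e : y * (y * g * y⁻¹) * y⁻¹ = y ^ 2 * g * (y ^ 2)⁻¹ := by
      simp [pow_two, mul_assoc]
    rw [e, hy] at h1
    simpa using h1

theorem sylow2_not_comm (n : ℕ) (hn : 6 ≤ n) (P : Sylow 2 (alternatingGroup (Fin n)))
    (hP : IsMulCommutative (P : Subgroup (alternatingGroup (Fin n)))) : False := by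
  classical
  let x0 : Equiv.Perm (Fin 6) := Equiv.swap 0 1 * Equiv.swap 1 2 * Equiv.swap 2 3 * Equiv.swap 4 5
  let y0 : Equiv.Perm (Fin 6) := Equiv.swap 0 2 * Equiv.swap 4 5
  have h1 : y0 * x0 * y0⁻¹ = x0⁻¹ := by decide
  have h2 : x0 ≠ x0⁻¹ := by decide
  have h3 : x0 ^ 4 = 1 := by decide
  have h4 : y0 ^ 2 = 1 := by decide
  have h5 : Equiv.Perm.sign x0 = 1 := by decide
  have h6 : Equiv.Perm.sign y0 = 1 := by decide
  let φ := Equiv.Perm.viaEmbeddingHom (Fin.castLEEmb hn)
  have hφ : Function.Injective φ := Equiv.Perm.viaEmbeddingHom_injective _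
  have hsign : ∀ e : Equiv.Perm (Fin 6), Equiv.Perm.sign (φ e) = Equiv.Perm.sign e := by
    intro e
    exact @Equiv.Perm.sign_extendDomain (Fin 6) _ (Fin n) _ _ _ e _ (Classical.decPred _)
      (Equiv.ofInjective _ (Fin.castLEEmb hn).2)
  let X : alternatingGroup (Fin n) :=
    ⟨φ x0, Equiv.Perm.mem_alternatingGroup.mpr (by rw [hsign, h5])⟩
  let Y : alternatingGroup (Fin n) :=
    ⟨φ y0, Equiv.Perm.mem_alternatingGroup.mpr (by rw [hsign, h6])⟩
  have hYX : Y * X * Y⁻¹ = X⁻¹ := by
    apply Subtype.ext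
    show φ y0 * φ x0 * (φ y0)⁻¹ = (φ x0)⁻¹
    rw [← map_inv, ← map_mul, ← map_mul, h1, map_inv]
  have hX4 : X ^ 4 = 1 := by
    apply Subtype.ext
    show (φ x0) ^ 4 = 1
    rw [← map_pow, h3, map_one]
  have hY2 : Y ^ 2 = 1 := by
    apply Subtype.ext
    show (φ y0) ^ 2 = 1
    rw [← map_pow, h4, map_one]
  have hXX : X ≠ X⁻¹ := by
    intro h
    have h' := congrArg Subtype.val h
    change φ x0 = (φ x0)⁻¹ at h'
    rw [← map_inv] at h'
    exact h2 (hφ h')
  have hD := isPGroup_two_sup X Y hX4 hY2 hYX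
  obtain ⟨Q, hQ⟩ := hD.exists_le_sylow
  obtain ⟨g, rfl⟩ := MulAction.exists_smul_eq (alternatingGroup (Fin n)) P Q
  have hXQ : X ∈ ((g • P : Sylow 2 (alternatingGroup (Fin n))) : Subgroup (alternatingGroup (Fin n))) :=
    hQ (Subgroup.mem_sup_right (Subgroup.mem_zpowers X))
  have hYQ : Y ∈ ((g • P : Sylow 2 (alternatingGroup (Fin n))) : Subgroup (alternatingGroup (Fin n))) :=
    hQ (Subgroup.mem_sup_left (Subgroup.mem_zpowers Y))
  rw [Cfsg.Agent.Lib.Helper12.SylowBasic.mem_smul_sylow_iff] at hXQ hYQ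
  have hc := congrArg Subtype.val (hP.is_comm.comm ⟨_, hYQ⟩ ⟨_, hXQ⟩)
  simp only [Subgroup.coe_mul] at hc
  have hc' : Y * X = X * Y := by
    have e1 : Y * X = g * ((g⁻¹ * Y * g) * (g⁻¹ * X * g)) * g⁻¹ := by group
    have e2 : X * Y = g * ((g⁻¹ * X * g) * (g⁻¹ * Y * g)) * g⁻¹ := by group
    rw [e1, e2, hc]
  apply hXX
  rw [← hYX, hc', mul_inv_cancel_right]

set_option maxRecDepth 100000 in
theorem a5_exp : ∀ σ : Equiv.Perm (Fin 5), Equiv.Perm.sign σ = 1 → σ ^ 4 = 1 → σ ^ 2 = 1 := by
  decide

theorem a5_case (P : Sylow 2 (alternatingGroup (Fin 5)))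
    (hP : IsMulCommutative (P : Subgroup (alternatingGroup (Fin 5)))) :
    ((Subgroup.centralizer ((P : Subgroup (alternatingGroup (Fin 5))) : Set (alternatingGroup (Fin 5)))).subgroupOf (Subgroup.normalizer ((P : Subgroup (alternatingGroup (Fin 5))) : Set (alternatingGroup (Fin 5))))).index = 3 ∧ IsKleinFour (P : Subgroup (alternatingGroup (Fin 5))) := by
  classical
  have hcomm : ∀ a ∈ (P : Subgroup (alternatingGroup (Fin 5))),
      ∀ b ∈ (P : Subgroup (alternatingGroup (Fin 5))), a * b = b * a := by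
    intro a ha b hb
    have := hP.is_comm.comm ⟨a, ha⟩ ⟨b, hb⟩
    exact congrArg Subtype.val this
  have hA : Nat.card (alternatingGroup (Fin 5)) = 60 := by
    have h := two_mul_nat_card_alternatingGroup (α := Fin 5)
    rw [Nat.card_perm, Nat.card_fin] at h
    have h120 : Nat.factorial 5 = 120 := by decide
    rw [h120] at h
    omega
  have hcardP : Nat.card (P : Subgroup (alternatingGroup (Fin 5))) = 4 := by
    obtain ⟨k, hk⟩ := P.2.exists_card_eq
    have h1 := (P : Subgroup (alternatingGroup (Fin 5))).card_mul_index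
    rw [hA, hk] at h1
    have h2 := P.not_dvd_index
    have hk3 : k < 6 := by
      by_contra hk6
      push Not at hk6
      have : 2 ^ 6 ∣ 60 := (pow_dvd_pow 2 hk6).trans (Dvd.intro _ h1)
      omega
    rw [hk]
    interval_cases k <;> norm_num at h1 ⊢ <;> omega
  have hsq : ∀ x : (P : Subgroup (alternatingGroup (Fin 5))), x ^ 2 = 1 := by
    intro x
    have h4 : x ^ 4 = 1 := by rw [← hcardP]; exact pow_card_eq_one'
    have h4' : ((x : alternatingGroup (Fin 5)) : Equiv.Perm (Fin 5)) ^ 4 = 1 := by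
      have := congrArg (fun z : (P : Subgroup (alternatingGroup (Fin 5))) =>
        ((z : alternatingGroup (Fin 5)) : Equiv.Perm (Fin 5))) h4
      simpa using this
    have h2' := a5_exp _ (Equiv.Perm.mem_alternatingGroup.mp x.1.2) h4'
    apply Subtype.ext; apply Subtype.ext
    simpa using h2'
  have hK : IsKleinFour (P : Subgroup (alternatingGroup (Fin 5))) := by
    refine ⟨hcardP, ?_⟩
    have hd : Monoid.exponent (P : Subgroup (alternatingGroup (Fin 5))) ∣ 2 :=
      Monoid.exponent_dvd_of_forall_pow_eq_one hsq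
    rcases (Nat.dvd_prime Nat.prime_two).mp hd with h | h
    · exfalso
      rw [Monoid.exp_eq_one_iff] at h
      have := Nat.card_unique (α := (P : Subgroup (alternatingGroup (Fin 5))))
      omega
    · exact h
  refine ⟨?_, hK⟩
  have hidx24 : ((Subgroup.centralizer ((P : Subgroup (alternatingGroup (Fin 5))) : Set (alternatingGroup (Fin 5)))).subgroupOf (Subgroup.normalizer ((P : Subgroup (alternatingGroup (Fin 5))) : Set (alternatingGroup (Fin 5))))).index ∣ 24 := by
    have key := Subgroup.card_dvd_of_injective _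
      (QuotientGroup.kerLift_injective (P : Subgroup (alternatingGroup (Fin 5))).normalizerMonoidHom)
    rw [Subgroup.normalizerMonoidHom_ker, ← Subgroup.index] at key
    have hinj : Function.Injective (MulAut.toPerm (P : Subgroup (alternatingGroup (Fin 5)))) := by
      intro a b hab
      refine MulEquiv.ext fun y => ?_
      exact congrArg (fun e : Equiv.Perm (P : Subgroup (alternatingGroup (Fin 5))) => e y) hab
    have h2 := Subgroup.card_dvd_of_injective _ hinj
    rw [Nat.card_perm, hcardP] at h2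
    exact key.trans h2
  have hidx15 : ((Subgroup.centralizer ((P : Subgroup (alternatingGroup (Fin 5))) : Set (alternatingGroup (Fin 5)))).subgroupOf (Subgroup.normalizer ((P : Subgroup (alternatingGroup (Fin 5))) : Set (alternatingGroup (Fin 5))))).index ∣ 15 := by
    have hPle : (P : Subgroup (alternatingGroup (Fin 5))).subgroupOf (Subgroup.normalizer ((P : Subgroup (alternatingGroup (Fin 5))) : Set (alternatingGroup (Fin 5)))) ≤ (Subgroup.centralizer ((P : Subgroup (alternatingGroup (Fin 5))) : Set (alternatingGroup (Fin 5)))).subgroupOf (Subgroup.normalizer ((P : Subgroup (alternatingGroup (Fin 5))) : Set (alternatingGroup (Fin 5)))) := by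
      intro y hy
      rw [Subgroup.mem_subgroupOf] at hy ⊢
      rw [Subgroup.mem_centralizer_iff]
      intro z hz
      exact hcomm z hz y hy
    have h4 : 4 ∣ Nat.card ((Subgroup.centralizer ((P : Subgroup (alternatingGroup (Fin 5))) : Set (alternatingGroup (Fin 5)))).subgroupOf (Subgroup.normalizer ((P : Subgroup (alternatingGroup (Fin 5))) : Set (alternatingGroup (Fin 5))))) := by
      have := Subgroup.card_dvd_of_le hPle
      rwa [Nat.card_congr (Subgroup.subgroupOfEquivOfLe Subgroup.le_normalizer).toEquiv, hcardP] at this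
    have h5 := ((Subgroup.centralizer ((P : Subgroup (alternatingGroup (Fin 5))) : Set (alternatingGroup (Fin 5)))).subgroupOf (Subgroup.normalizer ((P : Subgroup (alternatingGroup (Fin 5))) : Set (alternatingGroup (Fin 5))))).card_mul_index
    have h6 : Nat.card (Subgroup.normalizer ((P : Subgroup (alternatingGroup (Fin 5))) : Set (alternatingGroup (Fin 5)))) ∣ 60 :=
      hA ▸ Subgroup.card_subgroup_dvd_card _
    obtain ⟨a, ha⟩ := h4
    obtain ⟨b, hb⟩ := h6
    refine ⟨a * b, ?_⟩
    rw [ha] at h5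
    rw [← h5] at hb
    have e : 4 * 15 = 4 * (((Subgroup.centralizer ((P : Subgroup (alternatingGroup (Fin 5))) : Set (alternatingGroup (Fin 5)))).subgroupOf (Subgroup.normalizer ((P : Subgroup (alternatingGroup (Fin 5))) : Set (alternatingGroup (Fin 5))))).index * (a * b)) := by
      rw [show (4 : ℕ) * 15 = 60 by norm_num, hb]; ring
    exact Nat.eq_of_mul_eq_mul_left (by norm_num) e
  have hidx1 : ((Subgroup.centralizer ((P : Subgroup (alternatingGroup (Fin 5))) : Set (alternatingGroup (Fin 5)))).subgroupOf (Subgroup.normalizer ((P : Subgroup (alternatingGroup (Fin 5))) : Set (alternatingGroup (Fin 5))))).index ≠ 1 := by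
    intro h1
    rw [Subgroup.index_eq_one] at h1
    have hNC : Subgroup.normalizer ((P : Subgroup (alternatingGroup (Fin 5))) : Set (alternatingGroup (Fin 5))) ≤ Subgroup.centralizer ((P : Subgroup (alternatingGroup (Fin 5))) : Set (alternatingGroup (Fin 5))) := by
      intro y hy
      have : (⟨y, hy⟩ : Subgroup.normalizer ((P : Subgroup (alternatingGroup (Fin 5))) : Set (alternatingGroup (Fin 5)))) ∈ (Subgroup.centralizer ((P : Subgroup (alternatingGroup (Fin 5))) : Set (alternatingGroup (Fin 5)))).subgroupOf (Subgroup.normalizer ((P : Subgroup (alternatingGroup (Fin 5))) : Set (alternatingGroup (Fin 5)))) := by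
        rw [h1]; trivial
      exact Subgroup.mem_subgroupOf.mp this
    have hcomp := MonoidHom.ker_transferSylow_isComplement' P hNC
    have hKcard := hcomp.card_mul_card
    rw [hA, hcardP] at hKcard
    rcases (inferInstance : (MonoidHom.transferSylow P hNC).ker.Normal).eq_bot_or_eq_top with h | h
    · rw [h, Subgroup.card_bot] at hKcard; omega
    · rw [h, Subgroup.card_top, hA] at hKcard; omega
  have h3 : ((Subgroup.centralizer ((P : Subgroup (alternatingGroup (Fin 5))) : Set (alternatingGroup (Fin 5)))).subgroupOf (Subgroup.normalizer ((P : Subgroup (alternatingGroup (Fin 5))) : Set (alternatingGroup (Fin 5))))).index ∣ 3 := by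
    have := Nat.dvd_gcd hidx24 hidx15
    simpa using this
  rcases (Nat.dvd_prime Nat.prime_three).mp h3 with h | h
  · exact absurd h hidx1
  · exact h

/-- Let n ≥ 5 and let P be an abelian Sylow p-subgroup of the alternating group A_n. Then N(P)/C(P) (taken in A_n) has even order, or P is cyclic, except when n = 5 and p = 2, where P is a four-group and N(P)/C(P) has order 3. -/
theorem result (n : ℕ) (hn : 5 ≤ n) {p : ℕ} [Fact p.Prime]
    (P : Sylow p (alternatingGroup (Fin n))) (hP : IsMulCommutative (P : Subgroup (alternatingGroup (Fin n)))) :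
    (¬ (n = 5 ∧ p = 2) → 2 ∣ ((Subgroup.centralizer ((P : Subgroup (alternatingGroup (Fin n))) : Set (alternatingGroup (Fin n)))).subgroupOf (Subgroup.normalizer ((P : Subgroup (alternatingGroup (Fin n))) : Set (alternatingGroup (Fin n))))).index ∨ IsCyclic (P : Subgroup (alternatingGroup (Fin n)))) ∧
    ((n = 5 ∧ p = 2) → ((Subgroup.centralizer ((P : Subgroup (alternatingGroup (Fin n))) : Set (alternatingGroup (Fin n)))).subgroupOf (Subgroup.normalizer ((P : Subgroup (alternatingGroup (Fin n))) : Set (alternatingGroup (Fin n))))).index = 3 ∧ IsKleinFour (P : Subgroup (alternatingGroup (Fin n)))) := by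
  classical
  have hp : p.Prime := Fact.out
  constructor
  · intro hne
    by_cases hp2 : p = 2
    · exfalso
      subst hp2
      have hn6 : 6 ≤ n := by
        rcases Nat.lt_or_ge n 6 with h | h
        · exact absurd ⟨by omega, rfl⟩ hne
        · exact h
      exact sylow2_not_comm n hn6 P hP
    · by_cases hcyc : IsCyclic (P : Subgroup (alternatingGroup (Fin n)))
      · exact Or.inr hcyc
      · left
        obtain ⟨k, hk⟩ := P.2.exists_card_eq
        have hk2 : 2 ≤ k := by
          by_contra hlt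
          push Not at hlt
          interval_cases k
          · rw [pow_zero] at hk
            have := (Nat.card_eq_one_iff_unique.mp hk).1
            exact hcyc inferInstance
          · rw [pow_one] at hk
            exact hcyc (isCyclic_of_prime_card hk)
        have hdvd : p ^ 2 ∣ n.factorial := by
          have h1 : p ^ k ∣ Nat.card (alternatingGroup (Fin n)) :=
            hk ▸ Subgroup.card_subgroup_dvd_card (P : Subgroup (alternatingGroup (Fin n)))
          have h2 : Nat.card (alternatingGroup (Fin n)) ∣ Nat.card (Equiv.Perm (Fin n)) :=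
            Subgroup.card_subgroup_dvd_card (alternatingGroup (Fin n))
          have h3 : Nat.card (Equiv.Perm (Fin n)) = n.factorial := by
            rw [Nat.card_perm, Nat.card_eq_fintype_card, Fintype.card_fin]
          rw [h3] at h2
          exact (pow_dvd_pow p hk2).trans (h1.trans h2)
        have hnp := two_mul_le_of_sq_dvd_factorial hp hdvd
        have hpc : p ∣ Nat.card (P : Subgroup (alternatingGroup (Fin n))) := by
          rw [hk]; exact dvd_pow_self p (by omega)
        obtain ⟨x, hx⟩ := exists_prime_orderOf_dvd_card' p hpc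
        have hσ : orderOf (((x : alternatingGroup (Fin n))) : Equiv.Perm (Fin n)) = p := by
          rw [Subgroup.orderOf_coe, Subgroup.orderOf_coe]; exact hx
        obtain ⟨g, hgs, hg⟩ := exists_real_of_odd hp2 hnp _ hσ
        refine even_index_of_real P hP (x : alternatingGroup (Fin n)) x.2 ?_
          ⟨g, Equiv.Perm.mem_alternatingGroup.mpr hgs⟩ ?_
        · intro hxx
          have h1 : (x : alternatingGroup (Fin n)) ^ 2 = 1 := by
            rw [pow_two]; nth_rewrite 2 [hxx]; exact mul_inv_cancel _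
          have h2 : orderOf (x : alternatingGroup (Fin n)) ∣ 2 := orderOf_dvd_of_pow_eq_one h1
          rw [Subgroup.orderOf_coe, hx] at h2
          exact hp2 ((Nat.prime_dvd_prime_iff_eq hp Nat.prime_two).mp h2)
        · apply Subtype.ext
          simpa using hg
  · rintro ⟨rfl, rfl⟩
    exact a5_case P hP


end Cfsg.Agent.S2269
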