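import Cfsg.Statements.S2270
import Mathlib

set_option autoImplicit false
open Cfsg

namespace Cfsg.Agent.S2270

theorem cent_normal_in_norm {G : Type*} [Group G] (Q : Subgroup G) :
    ((Subgroup.centralizer (Q : Set G)).subgroupOf (Subgroup.normalizer (Q : Set G))).Normal := by
  constructor
  intro n hn g
  rw [Subgroup.mem_subgroupOf] at hn ⊢
  rw [Subgroup.mem_centralizer_iff] at hn ⊢
  intro q hq
  have hq' : (g : G)⁻¹ * q * g ∈ Q := by
    have := (Subgroup.mem_normalizer_iff.mp (inv_mem g.2) q).mp hq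
    simpa using this
  have := hn _ hq'
  simp only [Subgroup.coe_mul, InvMemClass.coe_inv]
  calc q * ((g : G) * n * (g : G)⁻¹) = g * (((g : G)⁻¹ * q * g) * n) * (g : G)⁻¹ := by group
    _ = g * (n * ((g : G)⁻¹ * q * g)) * (g : G)⁻¹ := by rw [this]
    _ = g * n * (g : G)⁻¹ * q := by group

theorem conj_pow {G : Type*} [Group G] (t c : G) (h : t⁻¹ * c * t = c⁻¹) (j : ℕ) :
    (t ^ j)⁻¹ * c * t ^ j = if Even j then c else c⁻¹ := by
  induction j with
  | zero => simp
  | succ j ih =>
    have e : (t ^ (j + 1))⁻¹ * c * t ^ (j + 1) = t⁻¹ * ((t ^ j)⁻¹ * c * t ^ j) * t := by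
      rw [pow_succ]; group
    rw [e, ih]
    by_cases hj : Even j
    · have : ¬ Even (j + 1) := by
        rw [Nat.even_add_one]; simpa using hj
      simp [hj, this, h]
    · have : Even (j + 1) := by
        rw [Nat.even_add_one]; exact hj
      simp only [hj, this, if_true, if_false]
      have h2 : t⁻¹ * c⁻¹ * t = (t⁻¹ * c * t)⁻¹ := by group
      rw [h2, h, inv_inv]

theorem even_index {G : Type*} [Group G] [Finite G] {p : ℕ} [Fact p.Prime]
    (P : Sylow p G) (hP : IsMulCommutative (P : Subgroup G)) (c : G) (hc : c ∈ (P : Subgroup G))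
    (hne : c ≠ c⁻¹) (hconj : IsConj c c⁻¹) :
    2 ∣ ((Subgroup.centralizer ((P : Subgroup G) : Set G)).subgroupOf
      (Subgroup.normalizer ((P : Subgroup G) : Set G))).index := by
  obtain ⟨g, hg⟩ := isConj_iff.mp hconj
  have hy : (g⁻¹)⁻¹ * c * g⁻¹ ∈ (P : Subgroup G) := by
    rw [inv_inv, hg]; exact inv_mem hc
  have : IsMulCommutative P := hP
  obtain ⟨t, ht, hct⟩ := P.conj_eq_normalizer_conj_of_mem c g⁻¹ hc hy
  rw [inv_inv, hg] at hct
  have hN := cent_normal_in_norm (P : Subgroup G)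
  let q : (Subgroup.normalizer ((P : Subgroup G) : Set G)) ⧸
      ((Subgroup.centralizer ((P : Subgroup G) : Set G)).subgroupOf
        (Subgroup.normalizer ((P : Subgroup G) : Set G))) := QuotientGroup.mk ⟨t, ht⟩
  have h1 : orderOf q ∣ ((Subgroup.centralizer ((P : Subgroup G) : Set G)).subgroupOf
      (Subgroup.normalizer ((P : Subgroup G) : Set G))).index := by
    rw [Subgroup.index]
    exact orderOf_dvd_natCard q
  refine Dvd.dvd.trans ?_ h1
  by_contra hodd
  have hodd' : ¬ Even (orderOf q) := by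
    rwa [even_iff_two_dvd]
  have h2 : q ^ orderOf q = 1 := pow_orderOf_eq_one q
  have h3 : (⟨t, ht⟩ : Subgroup.normalizer ((P : Subgroup G) : Set G)) ^ orderOf q ∈
      (Subgroup.centralizer ((P : Subgroup G) : Set G)).subgroupOf
        (Subgroup.normalizer ((P : Subgroup G) : Set G)) := by
    rw [← QuotientGroup.eq_one_iff]
    exact h2
  rw [Subgroup.mem_subgroupOf] at h3
  simp only [Subgroup.coe_pow] at h3
  have h4 := (Subgroup.mem_centralizer_iff.mp h3) c hc
  have h5 := conj_pow t c hct.symm (orderOf q)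
  simp only [hodd', if_false] at h5
  apply hne
  rw [← h5, mul_assoc, h4]
  group

theorem result (n : ℕ) (hn : 3 ≤ n) {p : ℕ} [Fact p.Prime] (hp : p ≠ 2) (hpn : p ≤ n)
    (P : Sylow p (Equiv.Perm (Fin n))) (hP : IsMulCommutative (P : Subgroup (Equiv.Perm (Fin n)))) :
    2 ∣ ((Subgroup.centralizer ((P : Subgroup (Equiv.Perm (Fin n))) : Set (Equiv.Perm (Fin n)))).subgroupOf (Subgroup.normalizer ((P : Subgroup (Equiv.Perm (Fin n))) : Set (Equiv.Perm (Fin n))))).index := by
  have hpp : p.Prime := Fact.out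
  have hdvd : p ∣ Nat.card (Equiv.Perm (Fin n)) := by
    rw [Nat.card_perm, Nat.card_eq_fintype_card, Fintype.card_fin]
    exact Nat.dvd_factorial hpp.pos hpn
  have hbot := P.ne_bot_of_dvd_card hdvd
  obtain ⟨c, hc1⟩ := (Subgroup.ne_bot_iff_exists_ne_one.mp hbot)
  have hcP : (c : Equiv.Perm (Fin n)) ∈ (P : Subgroup (Equiv.Perm (Fin n))) := c.2
  refine even_index P hP (c : Equiv.Perm (Fin n)) hcP ?_ ?_
  · intro hcc
    have hsq : (c : Equiv.Perm (Fin n)) ^ 2 = 1 := by
      rw [pow_two]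
      nth_rewrite 2 [hcc]
      exact mul_inv_cancel _
    obtain ⟨k, hk⟩ := P.isPGroup' c
    have hk' : (c : Equiv.Perm (Fin n)) ^ (p ^ k) = 1 := by
      have := congrArg Subtype.val hk
      simpa using this
    have hcop : Nat.Coprime 2 (p ^ k) := by
      apply Nat.Coprime.pow_right
      rw [Nat.coprime_primes Nat.prime_two hpp]
      exact fun h => hp h.symm
    have h1 : orderOf (c : Equiv.Perm (Fin n)) ∣ 1 := by
      rw [← Nat.Coprime.gcd_eq_one hcop]
      exact Nat.dvd_gcd (orderOf_dvd_of_pow_eq_one hsq) (orderOf_dvd_of_pow_eq_one hk')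
    have h2 : (c : Equiv.Perm (Fin n)) = 1 := by
      rw [← orderOf_eq_one_iff]; exact Nat.dvd_one.mp h1
    apply hc1
    exact Subtype.ext h2
  · rw [Equiv.Perm.isConj_iff_cycleType_eq, Equiv.Perm.cycleType_inv]

end Cfsg.Agent.S2270
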