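import Cfsg.Statements.S2337
import Mathlib
import Cfsg.Agent.Lib.Helper14.SzLink
import Cfsg.Agent.Lib.Helper14.SzHeis

set_option autoImplicit false
open Cfsg

namespace Cfsg.Agent.S2337

/-- For the Suzuki group Sz(q), q = 2^(2m+1) with m ≥ 1 (realised inside Sp₄ over the field with q elements), every irreducible complex representation of degree at least 2 has degree at least 2^m·(q − 1). -/
theorem result {F : Type*} [Field F] [Fintype F] (m : ℕ) (hm : 1 ≤ m) (hF : Fintype.card F = 2 ^ (2 * m + 1)) :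
    (∀ (k : ℕ) (ρ : Representation ℂ (Cfsg.Lie.Sz F (2 ^ (m + 1))) (Fin k → ℂ)), ρ.IsIrreducible → 2 ≤ k → 2 ^ m * (2 ^ (2 * m + 1) - 1) ≤ k) := by
  intro k ρ hirr hk
  open Cfsg.Agent.Lib.Helper14.SzHeis Cfsg.Agent.Lib.Helper14.SzLink in
  let ρ' : Cfsg.Sz F m →* GL (Fin k) ℂ := (repGL ρ).comp (szEquiv hm hF).toMonoidHom
  have hsimple : IsSimpleGroup (Cfsg.Sz F m) := Cfsg.Agent.S0325.result hm hF
  have hinj : Function.Injective ρ' := by
    rw [← MonoidHom.ker_eq_bot_iff]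
    rcases (MonoidHom.normal_ker ρ').eq_bot_or_eq_top with h | h
    · exact h
    · exfalso
      obtain ⟨g, hg⟩ := Cfsg.Agent.Lib.Helper14.SzHeis.rep_nontrivial ρ hirr hk
      apply hg
      apply Cfsg.Agent.Lib.Helper14.SzHeis.repGL_eq_one
      obtain ⟨x, rfl⟩ := (Cfsg.Agent.Lib.Helper14.SzLink.szEquiv hm hF).surjective g
      have hx : x ∈ ρ'.ker := by rw [h]; trivial
      exact hx
  have hs := Cfsg.Agent.Lib.Helper3.Sz1.hyp_of_card hm hF
  refine Cfsg.Agent.Lib.Helper14.SzHeis.sz_bound hm hF ρ'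
    ⟨Cfsg.Agent.Lib.Helper14.SzHeis.tt hm hF 0 1,
      Cfsg.Agent.Lib.Helper14.SzHeis.tt_mem_Zs hm hF 1, ?_⟩
  intro h1
  have h2 : Cfsg.Agent.Lib.Helper14.SzHeis.tt hm hF 0 1 = 1 := hinj (h1.trans (map_one ρ').symm)
  have h3 := congrArg (fun g : Cfsg.Sz F m =>
    ((g : Matrix.SpecialLinearGroup (Fin 4) F) : Matrix (Fin 4) (Fin 4) F) 1 3) h2
  simp [Cfsg.Agent.Lib.Helper14.SzHeis.tt, Cfsg.Agent.Lib.Helper3.Sz1.T,
    Cfsg.Agent.Lib.Helper3.Sz1.Tm] at h3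

end Cfsg.Agent.S2337
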