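import Cfsg.Statements.S2352
import Cfsg.Agent.Lib.Helper14.FreeSL2

set_option autoImplicit false
open Cfsg

namespace Cfsg.Agent.S2352

theorem exists_embedding (Q : Type) [Group Q] [Fintype Q] (n : ℕ) (hn : 2 * Fintype.card Q ≤ n) :
    ∃ ψ : Q →* alternatingGroup (Fin n), Function.Injective ψ := by
  classical
  have hcard : Fintype.card (Q ⊕ Q) ≤ Fintype.card (Fin n) := by
    rw [Fintype.card_sum, Fintype.card_fin]
    omega
  obtain ⟨ι⟩ := Function.Embedding.nonempty_of_card_le hcard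
  let c : Q →* Equiv.Perm Q := MulAction.toPermHom Q Q
  have hc : Function.Injective c := MulAction.toPerm_injective
  let d : Equiv.Perm Q →* Equiv.Perm (Q ⊕ Q) :=
    (Equiv.Perm.sumCongrHom Q Q).comp (MonoidHom.prod (MonoidHom.id _) (MonoidHom.id _))
  have hd : Function.Injective d := by
    intro a b hab
    have := Equiv.Perm.sumCongrHom_injective hab
    simpa using congrArg Prod.fst this
  let e : Equiv.Perm (Q ⊕ Q) →* Equiv.Perm (Fin n) := Equiv.Perm.viaEmbeddingHom ι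
  have he : Function.Injective e := Equiv.Perm.viaEmbeddingHom_injective ι
  have hmem : ∀ q : Q, (e.comp (d.comp c)) q ∈ alternatingGroup (Fin n) := by
    intro q
    rw [Equiv.Perm.mem_alternatingGroup]
    have h1 : (e.comp (d.comp c)) q = Equiv.Perm.viaEmbedding (d (c q)) ι := rfl
    rw [h1, Equiv.Perm.viaEmbedding, Equiv.Perm.sign_extendDomain]
    have h2 : d (c q) = Equiv.sumCongr (c q) (c q) := rfl
    rw [h2, Equiv.Perm.sign_sumCongr]
    exact Int.units_mul_self _
  refine ⟨(e.comp (d.comp c)).codRestrict (alternatingGroup (Fin n)) hmem, ?_⟩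
  intro a b hab
  have h1 : (e.comp (d.comp c)) a = (e.comp (d.comp c)) b := congrArg Subtype.val hab
  exact hc (hd (he h1))

theorem result (w : FreeGroup ℕ) (hw : w ≠ 1) :
    ∃ N : ℕ, ∀ n : ℕ, N ≤ n → ∃ f : ℕ → alternatingGroup (Fin n), FreeGroup.lift f w ≠ 1 := by
  obtain ⟨D, hD⟩ := Cfsg.Agent.Lib.Helper14.FreeSL2.exists_sq_ne_one.{0} w hw
  obtain ⟨p, hpD, hp⟩ := Nat.exists_infinite_primes (D + 1)
  have : Fact p.Prime := ⟨hp⟩
  obtain ⟨g, hg⟩ := hD (ZMod p) (by rw [ZMod.card]; omega)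
  have hg1 : FreeGroup.lift g w ≠ 1 := by
    intro h
    rw [h, one_pow] at hg
    exact hg rfl
  refine ⟨2 * Fintype.card (Matrix.SpecialLinearGroup (Fin 2) (ZMod p)), fun n hn => ?_⟩
  obtain ⟨ψ, hψ⟩ := exists_embedding (Matrix.SpecialLinearGroup (Fin 2) (ZMod p)) n hn
  refine ⟨fun i => ψ (g i), ?_⟩
  have h1 : FreeGroup.lift (fun i => ψ (g i)) = ψ.comp (FreeGroup.lift g) := by
    ext i
    simp
  rw [h1, MonoidHom.comp_apply]
  intro h
  exact hg1 (hψ (h.trans (map_one ψ).symm))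

end Cfsg.Agent.S2352
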