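import Cfsg.Statements.S2353
import Cfsg.Agent.Lib.Helper14.FreeSL2

set_option autoImplicit false
open Cfsg

namespace Cfsg.Agent.S2353

theorem result (w : FreeGroup ℕ) (hw : w ≠ 1) :
    ∃ N : ℕ, ∀ (F : Type*) [Field F] [Fintype F], N ≤ Fintype.card F →
      ∃ f : ℕ → Matrix.ProjectiveSpecialLinearGroup (Fin 2) F, FreeGroup.lift f w ≠ 1 := by
  obtain ⟨D, hD⟩ := Cfsg.Agent.Lib.Helper14.FreeSL2.exists_sq_ne_one w hw
  refine ⟨D + 1, fun F _ _ hc => ?_⟩
  obtain ⟨g, hg⟩ := hD F (by omega)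
  refine ⟨fun i => QuotientGroup.mk (g i), ?_⟩
  have h1 : FreeGroup.lift (fun i => (QuotientGroup.mk (g i) : Matrix.ProjectiveSpecialLinearGroup (Fin 2) F)) =
      (QuotientGroup.mk' (Subgroup.center (Matrix.SpecialLinearGroup (Fin 2) F))).comp (FreeGroup.lift g) := by
    ext i
    simp
  rw [h1, MonoidHom.comp_apply]
  intro h
  have h2 : FreeGroup.lift g w ∈ Subgroup.center (Matrix.SpecialLinearGroup (Fin 2) F) :=
    (QuotientGroup.eq_one_iff _).mp h
  obtain ⟨r, hr, hs⟩ := Matrix.SpecialLinearGroup.mem_center_iff.mp h2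
  apply hg
  apply Subtype.ext
  rw [Matrix.SpecialLinearGroup.coe_pow, ← hs, ← map_pow]
  rw [Fintype.card_fin] at hr
  rw [hr, map_one]
  rfl

end Cfsg.Agent.S2353
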