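import Cfsg.Statements.S2354
import Mathlib
import Cfsg.Agent.Lib.Helper14.SzFree

set_option autoImplicit false
open Cfsg

namespace Cfsg.Agent.S2354

/-- A non-trivial law holds in only finitely many Suzuki groups: for every non-trivial element w of the free group on countably many generators there is N such that for q = 2^(2m+1) with m ≥ N some substitution of elements of the Suzuki group over the field with q elements into w is not the identity. -/
theorem result (w : FreeGroup ℕ) (hw : w ≠ 1) :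
    ∃ N : ℕ, ∀ (F : Type*) [Field F] [Fintype F] (m : ℕ), 1 ≤ m → N ≤ m →
      Fintype.card F = 2 ^ (2 * m + 1) →
      ∃ f : ℕ → ↥(Cfsg.Lie.Sz F (2 ^ (m + 1))), FreeGroup.lift f w ≠ 1 := by
  refine ⟨Cfsg.Agent.Lib.Helper14.SzFree.degB w.toWord, ?_⟩
  intro F _ _ m hm hN hF
  have h2 : (2 : F) = 0 := by
    have h := Nat.cast_card_eq_zero F
    rw [hF] at h
    push_cast at h
    exact pow_eq_zero_iff (by omega) |>.mp h
  have hchar : CharP F 2 := CharTwo.of_one_ne_zero_of_two_eq_zero one_ne_zero h2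
  have hs : 2 ≤ 2 ^ (m + 1) := by
    calc 2 = 2 ^ 1 := by norm_num
      _ ≤ 2 ^ (m + 1) := Nat.pow_le_pow_right (by norm_num) (by omega)
  have hs2 : ∀ t : F, t ^ (2 ^ (m + 1) * 2 ^ (m + 1)) = t ^ 2 := by
    intro t
    have h1 : 2 ^ (m + 1) * 2 ^ (m + 1) = Fintype.card F * 2 := by
      rw [hF]; ring
    rw [h1, pow_mul, FiniteField.pow_card]
  have hcard : 2 ^ (m + 1) * Cfsg.Agent.Lib.Helper14.SzFree.degB w.toWord < Fintype.card F := by
    rw [hF]
    have h1 : Cfsg.Agent.Lib.Helper14.SzFree.degB w.toWord < 2 ^ m :=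
      lt_of_le_of_lt hN Nat.lt_two_pow_self
    have h3 : 2 ^ (2 * m + 1) = 2 ^ (m + 1) * 2 ^ m := by ring
    rw [h3]
    exact Nat.mul_lt_mul_of_pos_left h1 (by positivity)
  exact Cfsg.Agent.Lib.Helper14.SzFree.exists_ne_one w hw F (2 ^ (m + 1)) hs hs2 hcard

end Cfsg.Agent.S2354
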