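import Cfsg.Statements.S2360
import Cfsg.Agent.Lib.Helper14.Inv3c
import Cfsg.Agent.Lib.Helper14.ClassSize
import Cfsg.Agent.S0278

set_option autoImplicit false
open Cfsg

namespace Cfsg.Agent.S2360


open Cfsg.Agent.Lib.Helper14.Inv3 Cfsg.Agent.Lib.Helper2.Unitary Cfsg.Agent.Lib.Helper2.HermCount
open Matrix

section aux

set_option linter.unusedSectionVars false
set_option linter.style.haveILetI false

variable {F : Type*} [Field F] [Fintype F]

/-- The matrix of an element of `SU₃`. -/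
def mat {q : ℕ} (g : ↥(Cfsg.SU 3 F q)) : Matrix (Fin 3) (Fin 3) F :=
  ((g : Matrix.SpecialLinearGroup (Fin 3) F) : Matrix (Fin 3) (Fin 3) F)

theorem mat_mul {q : ℕ} (g h : ↥(Cfsg.SU 3 F q)) : mat (g * h) = mat g * mat h := rfl

theorem mat_one {q : ℕ} : mat (1 : ↥(Cfsg.SU 3 F q)) = 1 := rfl

theorem mat_inj {q : ℕ} {g h : ↥(Cfsg.SU 3 F q)} (e : mat g = mat h) : g = h :=
  Subtype.ext (Subtype.ext e)

theorem mat_det {q : ℕ} (g : ↥(Cfsg.SU 3 F q)) : (mat g).det = 1 := g.1.2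

theorem mat_isU {q : ℕ} (g : ↥(Cfsg.SU 3 F q)) : IsU 3 q (mat g) :=
  (mem_SU_iff 3 q g.1).mp g.2

/-- An element of `SU₃` from a matrix. -/
def mkSU {q : ℕ} (M : Matrix (Fin 3) (Fin 3) F) (hdet : M.det = 1) (hU : IsU 3 q M) :
    ↥(Cfsg.SU 3 F q) :=
  ⟨⟨M, hdet⟩, (mem_SU_iff 3 q ⟨M, hdet⟩).mpr hU⟩

theorem mat_mkSU {q : ℕ} (M : Matrix (Fin 3) (Fin 3) F) (hdet : M.det = 1) (hU : IsU 3 q M) :
    mat (mkSU M hdet hU) = M := rfl

theorem two_ne_zero_of_odd {q : ℕ} (hq : Odd q) (hF : Fintype.card F = q ^ 2) :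
    (2 : F) ≠ 0 := by
  intro h
  haveI : Fact (Nat.Prime 2) := ⟨Nat.prime_two⟩
  have h1 : addOrderOf (1 : F) = 2 :=
    addOrderOf_eq_prime (by rw [nsmul_eq_mul, mul_one]; exact_mod_cast h) one_ne_zero
  have h3 : 2 ∣ Fintype.card F := by
    rw [← h1]
    exact addOrderOf_dvd_card
  rw [hF] at h3
  have h4 := Nat.Prime.dvd_of_dvd_pow Nat.prime_two h3
  rcases hq with ⟨k, rfl⟩
  omega

theorem mat_ne_one {q : ℕ} {x : ↥(Cfsg.SU 3 F q)} (hx : x ≠ 1) : mat x ≠ 1 := fun h =>
  hx (mat_inj (h.trans mat_one.symm))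

theorem mat_sq {q : ℕ} {x : ↥(Cfsg.SU 3 F q)} (hx : x * x = 1) : mat x * mat x = 1 := by
  rw [← mat_mul, hx, mat_one]

/-- All involutions are conjugate. -/
theorem conj_inv {q : ℕ} (hq : Odd q) (hF : Fintype.card F = q ^ 2)
    (t x : ↥(Cfsg.SU 3 F q)) (ht : t ≠ 1) (ht2 : t * t = 1) (hx : x ≠ 1) (hx2 : x * x = 1) :
    ∃ g : ↥(Cfsg.SU 3 F q), g * t * g⁻¹ = x := by
  have h2 := two_ne_zero_of_odd hq hF
  obtain ⟨ut, hut, hteq⟩ := inv_vec hF h2 (mat t) (mat_isU t) (mat_det t) (mat_sq ht2)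
    (mat_ne_one ht)
  obtain ⟨ux, hux, hxeq⟩ := inv_vec hF h2 (mat x) (mat_isU x) (mat_det x) (mat_sq hx2)
    (mat_ne_one hx)
  obtain ⟨g, hgU, hgdet, hg⟩ := imat_conj hF ut ux hut hux
  refine ⟨mkSU g hgdet hgU, ?_⟩
  rw [mul_inv_eq_iff_eq_mul]
  apply mat_inj
  rw [mat_mul, mat_mul, mat_mkSU, hteq, hxeq]
  exact hg

/-- The number of involutions. -/
theorem card_inv {q : ℕ} (hq : Odd q) (hF : Fintype.card F = q ^ 2) :
    Nat.card {x : ↥(Cfsg.SU 3 F q) // x ≠ 1 ∧ x * x = 1} = q ^ 2 * (q ^ 2 - q + 1) := by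
  classical
  have h2 := two_ne_zero_of_odd hq hF
  have hq2 := two_le_q hF
  let f : {u : Fin 3 → F // Cfsg.hermForm 3 F q u u = 1} →
      {x : ↥(Cfsg.SU 3 F q) // x ≠ 1 ∧ x * x = 1} := fun u =>
    ⟨mkSU (imat q u.1) (imat_det u.1 u.2) (imat_isU hF u.1 u.2),
      fun h => imat_ne_one h2 u.1 u.2 (congrArg mat h),
      mat_inj (imat_sq u.1 u.2)⟩
  haveI : Fintype {x : ↥(Cfsg.SU 3 F q) // x ≠ 1 ∧ x * x = 1} := Fintype.ofFinite _
  have hfib : ∀ x : {x : ↥(Cfsg.SU 3 F q) // x ≠ 1 ∧ x * x = 1},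
      Nat.card {u : {u : Fin 3 → F // Cfsg.hermForm 3 F q u u = 1} // f u = x} = q + 1 := by
    intro x
    obtain ⟨u₀, hu₀, hxeq⟩ := inv_vec hF h2 (mat x.1) (mat_isU x.1) (mat_det x.1) (mat_sq x.2.2)
      (mat_ne_one x.2.1)
    rw [← card_fiber hF h2 u₀ hu₀]
    apply Nat.card_congr
    exact
      { toFun := fun u => ⟨u.1.1, u.1.2, by
          have h := congrArg (fun y : {x : ↥(Cfsg.SU 3 F q) // x ≠ 1 ∧ x * x = 1} => mat y.1) u.2
          exact h.trans hxeq⟩
        invFun := fun w => ⟨⟨w.1, w.2.1⟩, by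
          apply Subtype.ext
          apply mat_inj
          show imat q w.1 = mat x.1
          rw [hxeq]
          exact w.2.2⟩
        left_inv := fun u => rfl
        right_inv := fun w => rfl }
  have h1 : Nat.card {u : Fin 3 → F // Cfsg.hermForm 3 F q u u = 1} =
      Nat.card {x : ↥(Cfsg.SU 3 F q) // x ≠ 1 ∧ x * x = 1} * (q + 1) := by
    rw [Nat.card_congr (Equiv.sigmaFiberEquiv f).symm, Nat.card_sigma]
    rw [Finset.sum_congr rfl (fun x _ => hfib x), Finset.sum_const, Finset.card_univ,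
      smul_eq_mul, Nat.card_eq_fintype_card]
  have h3 : Nat.card {u : Fin 3 → F // Cfsg.hermForm 3 F q u u = 1} = (ZU q 3).2 := by
    have := card_herm hF 3 (1 : F) (one_pow q)
    rw [if_neg one_ne_zero] at this
    exact this
  have h4 := (ZU_closed q hq2 3).2
  rw [← h3, h1] at h4
  have hqq : q ≤ q ^ 2 := by nlinarith
  have h5 : ((Nat.card {x : ↥(Cfsg.SU 3 F q) // x ≠ 1 ∧ x * x = 1} : ℕ) : ℤ) =
      (q : ℤ) ^ 2 * ((q : ℤ) ^ 2 - q + 1) := by
    have h0 : ((q : ℤ) + 1) * q ≠ 0 := by positivity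
    apply mul_right_cancel₀ h0
    push_cast at h4
    linear_combination h4
  zify [hqq]
  exact h5

end aux

/-- Let q be odd, F the field with q² elements and S = SU_3(F) (determinant-one isometries of the standard Hermitian form). Then all involutions of S are conjugate; there are exactly q²(q²−q+1) of them; the centralizer of an involution has order q(q+1)(q²−1), the order of the full unitary group of degree 2; and for two distinct commuting involutions t and x there is exactly one further involution commuting with both. -/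
theorem result {F : Type*} [Field F] [Fintype F] {q : ℕ} (hq : Odd q)
    (hF : Fintype.card F = q ^ 2) (t : ↥(Cfsg.SU 3 F q)) (ht : t ≠ 1) (ht2 : t * t = 1) :
    (∀ x : ↥(Cfsg.SU 3 F q), x ≠ 1 → x * x = 1 → ∃ g : ↥(Cfsg.SU 3 F q), g * t * g⁻¹ = x) ∧
    Nat.card {x : ↥(Cfsg.SU 3 F q) // x ≠ 1 ∧ x * x = 1} = q ^ 2 * (q ^ 2 - q + 1) ∧
    Nat.card ↥(Subgroup.centralizer ({t} : Set ↥(Cfsg.SU 3 F q))) = q * (q + 1) * (q ^ 2 - 1) ∧
    ∀ x : ↥(Cfsg.SU 3 F q), x ≠ 1 → x * x = 1 → x ≠ t → Commute t x →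
      Nat.card {y : ↥(Cfsg.SU 3 F q) // y ≠ 1 ∧ y * y = 1 ∧ y ≠ t ∧ y ≠ x ∧ Commute t y ∧ Commute x y} = 1 := by
  classical
  have h2 := two_ne_zero_of_odd hq hF
  have hq2 := two_le_q hF
  have hconj := fun x hx hx2 => conj_inv hq hF t x ht ht2 hx hx2
  have hcard := card_inv hq hF
  refine ⟨hconj, hcard, ?_, ?_⟩
  · -- the centralizer
    have hidx := Cfsg.Agent.Lib.Helper14.ClassSize.index_centralizer_eq_ncard t
    have hset : {h : ↥(Cfsg.SU 3 F q) | IsConj t h} =
        {x : ↥(Cfsg.SU 3 F q) | x ≠ 1 ∧ x * x = 1} := by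
      ext x
      simp only [Set.mem_ofPred_eq]
      constructor
      · intro h
        obtain ⟨c, hc⟩ := isConj_iff.mp h
        subst hc
        refine ⟨?_, ?_⟩
        · intro h1
          apply ht
          have : t = c⁻¹ * (c * t * c⁻¹) * c := by group
          rw [this, h1]
          group
        · have : c * t * c⁻¹ * (c * t * c⁻¹) = c * (t * t) * c⁻¹ := by group
          rw [this, ht2]
          group
      · rintro ⟨hx, hx2⟩
        exact isConj_iff.mpr (hconj x hx hx2)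
    rw [hset] at hidx
    have hnc : Set.ncard {x : ↥(Cfsg.SU 3 F q) | x ≠ 1 ∧ x * x = 1} = q ^ 2 * (q ^ 2 - q + 1) := by
      rw [← hcard]
      exact (Nat.card_coe_set_eq _).symm
    rw [hnc] at hidx
    have hmul := Subgroup.card_mul_index (Subgroup.centralizer ({t} : Set ↥(Cfsg.SU 3 F q)))
    rw [hidx] at hmul
    have hSU := Cfsg.Agent.S0278.result hF 3 (by norm_num)
    have e0 : Even 0 := by decide
    have e1 : ¬ Even 1 := by decide
    have e2 : Even 2 := by decide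
    rw [Finset.prod_range_succ, Finset.prod_range_succ, Finset.prod_range_one, if_pos e0,
      if_neg e1, if_pos e2, ← hmul] at hSU
    have hqq : q ≤ q ^ 2 := by nlinarith
    have h1q : 1 ≤ q ^ 2 := by nlinarith
    have hSU' := congrArg (Nat.cast : ℕ → ℤ) hSU
    push_cast [Nat.cast_sub hqq, Nat.cast_sub h1q] at hSU'
    have h5 : ((Nat.card ↥(Subgroup.centralizer ({t} : Set ↥(Cfsg.SU 3 F q))) : ℕ) : ℤ) =
        (q : ℤ) * ((q : ℤ) + 1) * ((q : ℤ) ^ 2 - 1) := by
      have h0 : ((q : ℤ) + 1) * ((q : ℤ) ^ 2 * ((q : ℤ) ^ 2 - q + 1)) ≠ 0 := by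
        have : (0 : ℤ) < (q : ℤ) ^ 2 - q + 1 := by nlinarith
        positivity
      apply mul_right_cancel₀ h0
      linear_combination hSU'
    zify [h1q]
    exact h5
  · intro x hx hx2 hxt hcomm
    have hc : t * x = x * t := hcomm.eq
    rw [Nat.card_eq_one_iff_unique]
    constructor
    · constructor
      have key : ∀ y : {y : ↥(Cfsg.SU 3 F q) //
          y ≠ 1 ∧ y * y = 1 ∧ y ≠ t ∧ y ≠ x ∧ Commute t y ∧ Commute x y}, y.1 = t * x := by
        rintro ⟨y, hy1, hy2, hyt, hyx, hty, hxy⟩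
        apply mat_inj
        rw [mat_mul]
        exact inv_triple h2 (mat t) (mat x) (mat y) (mat_det t) (mat_sq ht2) (mat_ne_one ht)
          (mat_det x) (mat_sq hx2) (mat_ne_one hx) (mat_det y) (mat_sq hy2) (mat_ne_one hy1)
          (by rw [← mat_mul, ← mat_mul, hc])
          (by rw [← mat_mul, ← mat_mul, hty.eq])
          (by rw [← mat_mul, ← mat_mul, hxy.eq])
          (fun h => hxt (mat_inj h).symm) (fun h => hyt (mat_inj h).symm)
          (fun h => hyx (mat_inj h).symm)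
      intro a b
      apply Subtype.ext
      rw [key a, key b]
    · refine ⟨⟨t * x, ?_, ?_, ?_, ?_, ?_, ?_⟩⟩
      · intro h
        apply hxt
        have : x = t * (t * x) := by rw [← mul_assoc, ht2, one_mul]
        rw [this, h, mul_one]
      · calc t * x * (t * x) = t * (x * t) * x := by group
          _ = t * (t * x) * x := by rw [hc]
          _ = (t * t) * (x * x) := by group
          _ = 1 := by rw [ht2, hx2, one_mul]
      · intro h
        apply hx
        have : x = t * (t * x) := by rw [← mul_assoc, ht2, one_mul]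
        rw [this, h, ht2]
      · intro h
        apply ht
        have : t = (t * x) * x := by rw [mul_assoc, hx2, mul_one]
        rw [this, h, hx2]
      · show t * (t * x) = t * x * t
        rw [mul_assoc t x t, hc]
      · show x * (t * x) = t * x * x
        rw [← mul_assoc, hc]

end Cfsg.Agent.S2360
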