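import Cfsg.Statements.S2356
import Cfsg.Agent.Lib.Helper14.Inv3e
import Cfsg.Agent.S2360

set_option autoImplicit false
open Cfsg

namespace Cfsg.Agent.S2356


open Cfsg.Agent.Lib.Helper14.Inv3 Cfsg.Agent.Lib.Helper2.Unitary Cfsg.Agent.Lib.Helper2.HermCount
open Cfsg.Agent.S2360
open Matrix

section aux

set_option linter.unusedSectionVars false
set_option linter.style.haveILetI false

variable {F : Type*} [Field F] [Fintype F]

theorem comm_iff {q : ℕ} (a b : ↥(Cfsg.SU 3 F q)) :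
    Commute a b ↔ mat a * mat b = mat b * mat a :=
  ⟨fun h => congrArg mat h.eq, fun h => mat_inj h⟩

theorem ne_iff {q : ℕ} (a b : ↥(Cfsg.SU 3 F q)) : a ≠ b ↔ mat a ≠ mat b :=
  not_congr ⟨fun h => congrArg mat h, fun h => mat_inj h⟩

/-- Counting involutions with a property through unit vectors. -/
theorem card_inv_pred {q : ℕ} (hq : Odd q) (hF : Fintype.card F = q ^ 2)
    (P : Matrix (Fin 3) (Fin 3) F → Prop) :
    Nat.card {w : Fin 3 → F // Cfsg.hermForm 3 F q w w = 1 ∧ P (imat q w)} =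
      Nat.card {x : ↥(Cfsg.SU 3 F q) // x ≠ 1 ∧ x * x = 1 ∧ P (mat x)} * (q + 1) := by
  classical
  have h2 := two_ne_zero_of_odd hq hF
  let f : {w : Fin 3 → F // Cfsg.hermForm 3 F q w w = 1 ∧ P (imat q w)} →
      {x : ↥(Cfsg.SU 3 F q) // x ≠ 1 ∧ x * x = 1 ∧ P (mat x)} := fun u =>
    ⟨mkSU (imat q u.1) (imat_det u.1 u.2.1) (imat_isU hF u.1 u.2.1),
      fun h => imat_ne_one h2 u.1 u.2.1 (congrArg mat h),
      mat_inj (imat_sq u.1 u.2.1), u.2.2⟩
  haveI : Fintype {x : ↥(Cfsg.SU 3 F q) // x ≠ 1 ∧ x * x = 1 ∧ P (mat x)} := Fintype.ofFinite _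
  have hfib : ∀ x : {x : ↥(Cfsg.SU 3 F q) // x ≠ 1 ∧ x * x = 1 ∧ P (mat x)},
      Nat.card {u : {w : Fin 3 → F // Cfsg.hermForm 3 F q w w = 1 ∧ P (imat q w)} // f u = x} =
        q + 1 := by
    intro x
    obtain ⟨u₀, hu₀, hxeq⟩ := inv_vec hF h2 (mat x.1) (mat_isU x.1) (mat_det x.1)
      (mat_sq x.2.2.1) (mat_ne_one x.2.1)
    rw [← card_fiber hF h2 u₀ hu₀]
    apply Nat.card_congr
    exact
      { toFun := fun u => ⟨u.1.1, u.1.2.1, by
          have h := congrArg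
            (fun y : {x : ↥(Cfsg.SU 3 F q) // x ≠ 1 ∧ x * x = 1 ∧ P (mat x)} => mat y.1) u.2
          exact h.trans hxeq⟩
        invFun := fun w => ⟨⟨w.1, w.2.1, by
            rw [w.2.2, ← hxeq]
            exact x.2.2.2⟩, by
          apply Subtype.ext
          apply mat_inj
          show imat q w.1 = mat x.1
          rw [hxeq]
          exact w.2.2⟩
        left_inv := fun u => rfl
        right_inv := fun w => rfl }
  rw [Nat.card_congr (Equiv.sigmaFiberEquiv f).symm, Nat.card_sigma]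
  rw [Finset.sum_congr rfl (fun x _ => hfib x), Finset.sum_const, Finset.card_univ,
    smul_eq_mul, Nat.card_eq_fintype_card]

theorem exists_inv_of_vec {q : ℕ} (hq : Odd q) (hF : Fintype.card F = q ^ 2) (v : Fin 3 → F)
    (hv : Cfsg.hermForm 3 F q v v = 1) :
    ∃ y : ↥(Cfsg.SU 3 F q), y ≠ 1 ∧ y * y = 1 ∧ mat y = imat q v := by
  have h2 := two_ne_zero_of_odd hq hF
  exact ⟨mkSU (imat q v) (imat_det v hv) (imat_isU hF v hv),
    fun h => imat_ne_one h2 v hv (congrArg mat h), mat_inj (imat_sq v hv), rfl⟩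

/-- Count (a): involutions other than `t` commuting with `t`. -/
theorem card_a {q : ℕ} (hq : Odd q) (hF : Fintype.card F = q ^ 2) (t : ↥(Cfsg.SU 3 F q))
    (u : Fin 3 → F) (hu : Cfsg.hermForm 3 F q u u = 1) (hteq : mat t = imat q u) :
    Nat.card {x : ↥(Cfsg.SU 3 F q) // x ≠ 1 ∧ x * x = 1 ∧ x ≠ t ∧ Commute t x} =
      q * (q - 1) := by
  have h2 := two_ne_zero_of_odd hq hF
  have hq2 := two_le_q hF
  have h1 := card_inv_pred hq hF (fun X => X ≠ mat t ∧ mat t * X = X * mat t)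
  have e1 : Nat.card {w : Fin 3 → F // Cfsg.hermForm 3 F q w w = 1 ∧
      (imat q w ≠ mat t ∧ mat t * imat q w = imat q w * mat t)} =
      Nat.card {w : Fin 3 → F // Cfsg.hermForm 3 F q w w = 1 ∧
        Cfsg.hermForm 3 F q w u = 0} := by
    apply Nat.card_congr
    apply Equiv.subtypeEquivRight
    intro w
    apply and_congr_right
    intro hw
    rw [hteq]
    constructor
    · rintro ⟨hne, hc⟩
      exact ((imat_comm_iff hF h2 u w hu hw).mp hc).resolve_left (fun h => hne h.symm)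
    · intro h0
      exact ⟨(imat_ne_of_perp h2 u w hw h0).symm, imat_comm_of_perp hF u w h0⟩
  have e2 : Nat.card {x : ↥(Cfsg.SU 3 F q) // x ≠ 1 ∧ x * x = 1 ∧
      (mat x ≠ mat t ∧ mat t * mat x = mat x * mat t)} =
      Nat.card {x : ↥(Cfsg.SU 3 F q) // x ≠ 1 ∧ x * x = 1 ∧ x ≠ t ∧ Commute t x} := by
    apply Nat.card_congr
    apply Equiv.subtypeEquivRight
    intro x
    rw [ne_iff x t, comm_iff t x]
  rw [e1, e2, card_perp hF u hu] at h1
  have h4 := (ZU_closed q hq2 2).2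
  rw [h1] at h4
  have h1q : 1 ≤ q := by omega
  have h5 : ((Nat.card {x : ↥(Cfsg.SU 3 F q) // x ≠ 1 ∧ x * x = 1 ∧ x ≠ t ∧ Commute t x} : ℕ) : ℤ) =
      (q : ℤ) * ((q : ℤ) - 1) := by
    have h0 : ((q : ℤ) + 1) * q ≠ 0 := by positivity
    apply mul_right_cancel₀ h0
    push_cast at h4
    linear_combination h4
  zify [h1q]
  exact h5

/-- Count (c): involutions at distance three from `t`. -/
theorem card_c {q : ℕ} (hq : Odd q) (hF : Fintype.card F = q ^ 2) (t : ↥(Cfsg.SU 3 F q))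
    (u : Fin 3 → F) (hu : Cfsg.hermForm 3 F q u u = 1) (hteq : mat t = imat q u) :
    Nat.card {x : ↥(Cfsg.SU 3 F q) // x ≠ 1 ∧ x * x = 1 ∧ ¬ Commute t x ∧
        ∀ y : ↥(Cfsg.SU 3 F q), y ≠ 1 → y * y = 1 → ¬ (Commute t y ∧ Commute y x)} =
      (q + 1) * (q ^ 2 - 1) := by
  have h2 := two_ne_zero_of_odd hq hF
  have hq2 := two_le_q hF
  have h1 := card_inv_pred hq hF (fun X => ¬(mat t * X = X * mat t) ∧
      ∀ Y : Matrix (Fin 3) (Fin 3) F, Y.det = 1 → IsU 3 q Y → Y ≠ 1 → Y * Y = 1 →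
        ¬(mat t * Y = Y * mat t ∧ Y * X = X * Y))
  have e1 : Nat.card {w : Fin 3 → F // Cfsg.hermForm 3 F q w w = 1 ∧
      (¬(mat t * imat q w = imat q w * mat t) ∧
      ∀ Y : Matrix (Fin 3) (Fin 3) F, Y.det = 1 → IsU 3 q Y → Y ≠ 1 → Y * Y = 1 →
        ¬(mat t * Y = Y * mat t ∧ Y * imat q w = imat q w * Y))} =
      Nat.card {w : Fin 3 → F // Cfsg.hermForm 3 F q w w = 1 ∧
        Cfsg.hermForm 3 F q w u * (Cfsg.hermForm 3 F q w u) ^ q = 1 ∧
        w ≠ Cfsg.hermForm 3 F q w u • u} := by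
    apply Nat.card_congr
    apply Equiv.subtypeEquivRight
    intro w
    apply and_congr_right
    intro hw
    rw [hteq]
    exact no_common_iff hF h2 u w hu hw
  have e2 : Nat.card {x : ↥(Cfsg.SU 3 F q) // x ≠ 1 ∧ x * x = 1 ∧
      (¬(mat t * mat x = mat x * mat t) ∧
      ∀ Y : Matrix (Fin 3) (Fin 3) F, Y.det = 1 → IsU 3 q Y → Y ≠ 1 → Y * Y = 1 →
        ¬(mat t * Y = Y * mat t ∧ Y * mat x = mat x * Y))} =
      Nat.card {x : ↥(Cfsg.SU 3 F q) // x ≠ 1 ∧ x * x = 1 ∧ ¬ Commute t x ∧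
        ∀ y : ↥(Cfsg.SU 3 F q), y ≠ 1 → y * y = 1 → ¬ (Commute t y ∧ Commute y x)} := by
    apply Nat.card_congr
    apply Equiv.subtypeEquivRight
    intro x
    apply and_congr_right
    intro _
    apply and_congr_right
    intro _
    rw [comm_iff t x]
    apply and_congr_right
    intro _
    constructor
    · intro h y hy hy2 hh
      exact h (mat y) (mat_det y) (mat_isU y) (mat_ne_one hy) (mat_sq hy2)
        ⟨(comm_iff t y).mp hh.1, (comm_iff y x).mp hh.2⟩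
    · intro h Y hYd hYU hY1 hY2 hh
      exact h (mkSU Y hYd hYU) (fun h' => hY1 (congrArg mat h')) (mat_inj hY2)
        ⟨(comm_iff t _).mpr hh.1, (comm_iff _ x).mpr hh.2⟩
  rw [e1, e2, card_degen hF u hu] at h1
  have h4 := (ZU_closed q hq2 2).1
  have hpos : 0 < q + 1 := by omega
  have h6 : (ZU q 2).1 - 1 = Nat.card {x : ↥(Cfsg.SU 3 F q) // x ≠ 1 ∧ x * x = 1 ∧ ¬ Commute t x ∧
        ∀ y : ↥(Cfsg.SU 3 F q), y ≠ 1 → y * y = 1 → ¬ (Commute t y ∧ Commute y x)} := by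
    apply Nat.eq_of_mul_eq_mul_left hpos
    rw [h1, mul_comm]
  rw [← h6]
  have h1q : 1 ≤ q ^ 2 := by nlinarith
  have h7 : ((ZU q 2).1 : ℤ) = (q : ℤ) ^ 3 + (q : ℤ) ^ 2 - q := by
    have h0 : (q : ℤ) ≠ 0 := by positivity
    apply mul_right_cancel₀ h0
    linear_combination h4
  have h8 : 1 ≤ (ZU q 2).1 := by
    have : (0 : ℤ) < (q : ℤ) ^ 3 + (q : ℤ) ^ 2 - q := by nlinarith
    omega
  zify [h8, h1q]
  rw [h7]
  ring

end aux

/-- Let q be odd, F the field with q² elements, S = SU_3(F) (determinant-one isometries of the standard Hermitian form) and t an involution of S. Then: exactly q(q−1) involutions other than t commute with t; exactly q(q−2)(q²−1) involutions do not commute with t but commute with some involution commuting with t; exactly (q+1)(q²−1) involutions x do not commute with t and admit no involution commuting with both t and x; and every involution can be reached from t in at most three steps,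 each step going to an involution that commutes with the previous one (the commuting involution graph is connected of diameter 3). -/
theorem result {F : Type*} [Field F] [Fintype F] {q : ℕ} (hq : Odd q)
    (hF : Fintype.card F = q ^ 2) (t : ↥(Cfsg.SU 3 F q)) (ht : t ≠ 1) (ht2 : t * t = 1) :
    Nat.card {x : ↥(Cfsg.SU 3 F q) // x ≠ 1 ∧ x * x = 1 ∧ x ≠ t ∧ Commute t x} = q * (q - 1) ∧
    Nat.card {x : ↥(Cfsg.SU 3 F q) // x ≠ 1 ∧ x * x = 1 ∧ ¬ Commute t x ∧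
        ∃ y : ↥(Cfsg.SU 3 F q), y ≠ 1 ∧ y * y = 1 ∧ Commute t y ∧ Commute y x} = q * (q - 2) * (q ^ 2 - 1) ∧
    Nat.card {x : ↥(Cfsg.SU 3 F q) // x ≠ 1 ∧ x * x = 1 ∧ ¬ Commute t x ∧
        ∀ y : ↥(Cfsg.SU 3 F q), y ≠ 1 → y * y = 1 → ¬ (Commute t y ∧ Commute y x)} = (q + 1) * (q ^ 2 - 1) ∧
    ∀ x : ↥(Cfsg.SU 3 F q), x ≠ 1 → x * x = 1 →
      ∃ y z : ↥(Cfsg.SU 3 F q), y ≠ 1 ∧ y * y = 1 ∧ z ≠ 1 ∧ z * z = 1 ∧
        Commute t y ∧ Commute y z ∧ Commute z x := by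
  classical
  have h2 := two_ne_zero_of_odd hq hF
  have hq2 := two_le_q hF
  have hq3 : 3 ≤ q := by
    rcases hq with ⟨k, rfl⟩
    omega
  obtain ⟨u, hu, hteq⟩ := inv_vec hF h2 (mat t) (mat_isU t) (mat_det t) (mat_sq ht2)
    (mat_ne_one ht)
  have ha := card_a hq hF t u hu hteq
  have hc := card_c hq hF t u hu hteq
  refine ⟨ha, ?_, hc, ?_⟩
  · -- count (b) by complement
    have hI := card_inv hq hF
    have s1 := card_split (fun x : ↥(Cfsg.SU 3 F q) => x ≠ 1 ∧ x * x = 1) (fun x => Commute t x)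
    have s2 := card_split (fun x : ↥(Cfsg.SU 3 F q) => (x ≠ 1 ∧ x * x = 1) ∧ Commute t x)
      (fun x => x = t)
    have s3 := card_split (fun x : ↥(Cfsg.SU 3 F q) => (x ≠ 1 ∧ x * x = 1) ∧ ¬ Commute t x)
      (fun x => ∃ y : ↥(Cfsg.SU 3 F q), y ≠ 1 ∧ y * y = 1 ∧ Commute t y ∧ Commute y x)
    have c1 : Nat.card {x : ↥(Cfsg.SU 3 F q) // ((x ≠ 1 ∧ x * x = 1) ∧ Commute t x) ∧ x = t} = 1 := by
      rw [Nat.card_eq_one_iff_unique]
      exact ⟨⟨fun a b => Subtype.ext (a.2.2.trans b.2.2.symm)⟩,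
        ⟨⟨t, ⟨⟨ht, ht2⟩, Commute.refl t⟩, rfl⟩⟩⟩
    have c2 : Nat.card {x : ↥(Cfsg.SU 3 F q) // ((x ≠ 1 ∧ x * x = 1) ∧ Commute t x) ∧ ¬ x = t} =
        q * (q - 1) := by
      rw [← ha]
      apply Nat.card_congr
      apply Equiv.subtypeEquivRight
      intro x
      constructor
      · rintro ⟨⟨⟨h1, h2⟩, h3⟩, h4⟩
        exact ⟨h1, h2, h4, h3⟩
      · rintro ⟨h1, h2, h4, h3⟩
        exact ⟨⟨⟨h1, h2⟩, h3⟩, h4⟩
    have c3 : Nat.card {x : ↥(Cfsg.SU 3 F q) // ((x ≠ 1 ∧ x * x = 1) ∧ ¬ Commute t x) ∧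
        ¬ ∃ y : ↥(Cfsg.SU 3 F q), y ≠ 1 ∧ y * y = 1 ∧ Commute t y ∧ Commute y x} =
        (q + 1) * (q ^ 2 - 1) := by
      rw [← hc]
      apply Nat.card_congr
      apply Equiv.subtypeEquivRight
      intro x
      constructor
      · rintro ⟨⟨⟨h1, h2⟩, h3⟩, h4⟩
        exact ⟨h1, h2, h3, fun y hy hy2 hh => h4 ⟨y, hy, hy2, hh.1, hh.2⟩⟩
      · rintro ⟨h1, h2, h3, h4⟩
        exact ⟨⟨⟨h1, h2⟩, h3⟩, fun ⟨y, hy, hy2, h5, h6⟩ => h4 y hy hy2 ⟨h5, h6⟩⟩
    have c4 : Nat.card {x : ↥(Cfsg.SU 3 F q) // ((x ≠ 1 ∧ x * x = 1) ∧ ¬ Commute t x) ∧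
        ∃ y : ↥(Cfsg.SU 3 F q), y ≠ 1 ∧ y * y = 1 ∧ Commute t y ∧ Commute y x} =
        Nat.card {x : ↥(Cfsg.SU 3 F q) // x ≠ 1 ∧ x * x = 1 ∧ ¬ Commute t x ∧
        ∃ y : ↥(Cfsg.SU 3 F q), y ≠ 1 ∧ y * y = 1 ∧ Commute t y ∧ Commute y x} := by
      apply Nat.card_congr
      apply Equiv.subtypeEquivRight
      intro x
      constructor
      · rintro ⟨⟨⟨h1, h2⟩, h3⟩, h4⟩
        exact ⟨h1, h2, h3, h4⟩
      · rintro ⟨h1, h2, h3, h4⟩
        exact ⟨⟨⟨h1, h2⟩, h3⟩, h4⟩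
    rw [c1, c2] at s2
    rw [c3, c4] at s3
    rw [hI, s2, s3] at s1
    have hqq : q ≤ q ^ 2 := by nlinarith
    have h1q : 1 ≤ q ^ 2 := by nlinarith
    have s1' := congrArg (Nat.cast : ℕ → ℤ) s1
    push_cast [Nat.cast_sub hqq, Nat.cast_sub h1q, Nat.cast_sub (by omega : 1 ≤ q)] at s1'
    zify [h1q, (by omega : 2 ≤ q)]
    linear_combination -s1'
  · -- diameter three
    intro x hx hx2
    obtain ⟨w, hw, hxeq⟩ := inv_vec hF h2 (mat x) (mat_isU x) (mat_det x) (mat_sq hx2)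
      (mat_ne_one hx)
    by_cases hN : Cfsg.hermForm 3 F q w u * Cfsg.hermForm 3 F q u w = 1
    · by_cases hne : w = Cfsg.hermForm 3 F q w u • u
      · have hxt : x = t := by
          apply mat_inj
          have hcc : Cfsg.hermForm 3 F q w u * (Cfsg.hermForm 3 F q w u) ^ q = 1 := by
            rw [H_conj hF 3 w u]
            exact hN
          rw [hxeq, hteq, hne, imat_smul _ hcc u]
        refine ⟨t, t, ht, ht2, ht, ht2, Commute.refl t, Commute.refl t, ?_⟩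
        rw [hxt]
      · obtain ⟨v, hv, hvu, hNv⟩ := exists_mid hF h2 u w hu hw hN hne
        obtain ⟨z, hz, hzv, hzw⟩ := exists_perp hF v w hv hw hNv
        obtain ⟨y, hy, hy2, hyeq⟩ := exists_inv_of_vec hq hF v hv
        obtain ⟨z', hz', hz'2, hz'eq⟩ := exists_inv_of_vec hq hF z hz
        refine ⟨y, z', hy, hy2, hz', hz'2, ?_, ?_, ?_⟩
        · rw [comm_iff, hteq, hyeq]
          exact imat_comm_of_perp hF u v hvu
        · rw [comm_iff, hyeq, hz'eq]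
          exact imat_comm_of_perp hF v z hzv
        · rw [comm_iff, hz'eq, hxeq]
          exact imat_comm_of_perp hF z w (H_symm_zero hF w z hzw)
    · obtain ⟨z, hz, hzu, hzw⟩ := exists_perp hF u w hu hw hN
      obtain ⟨z', hz', hz'2, hz'eq⟩ := exists_inv_of_vec hq hF z hz
      refine ⟨t, z', ht, ht2, hz', hz'2, Commute.refl t, ?_, ?_⟩
      · rw [comm_iff, hteq, hz'eq]
        exact imat_comm_of_perp hF u z hzu
      · rw [comm_iff, hz'eq, hxeq]
        exact imat_comm_of_perp hF z w (H_symm_zero hF w z hzw)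

end Cfsg.Agent.S2356
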