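import Cfsg.Statements.S2394
import Mathlib
import Cfsg.Agent.S0245
import Cfsg.Agent.S2904

set_option autoImplicit false
open scoped MatrixGroups
open Cfsg

namespace Cfsg.Agent.S2394

/-- The smallest degree of a faithful representation of the symplectic group `Sp_{2n}(q)` over its own field `F_q` is `2n`: every injective homomorphism from `Sp_{2n}(F)` to `GL_d(F)`, `F` the field with `q` elements, has `d ≥ 2n`. -/
theorem result {F : Type*} [Field F] [Fintype F] (n : ℕ) {d : ℕ}
    (ρ : ↥(Matrix.symplecticGroup (Fin n) F) →* GL (Fin d) F) (hρ : Function.Injective ρ) : 2 * n ≤ d := by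
  by_contra hcon
  push Not at hcon
  have hq2 : 2 ≤ Fintype.card F := Fintype.one_lt_card (α := F)
  have hn1 : 1 ≤ n := by omega
  have hdvd : Nat.card ↥(Matrix.symplecticGroup (Fin n) F) ∣ Nat.card (GL (Fin d) F) :=
    Subgroup.card_dvd_of_injective ρ hρ
  rw [Cfsg.Agent.S0245.result (F := F) rfl n, Matrix.card_GL_field] at hdvd
  have hfac : (Fintype.card F ^ (2 * n) - 1) ∣
      Fintype.card F ^ (n ^ 2) * ∏ i ∈ Finset.range n, (Fintype.card F ^ (2 * (i + 1)) - 1) := by
    apply Dvd.dvd.mul_left
    have : (Fintype.card F ^ (2 * n) - 1) = (Fintype.card F ^ (2 * ((n - 1) + 1)) - 1) := by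
      congr 2
      omega
    rw [this]
    exact Finset.dvd_prod_of_mem _ (Finset.mem_range.mpr (by omega))
  by_cases hz : (Fintype.card F = 2 ∧ 2 * n = 6) ∨ (2 * n = 2 ∧ ∃ m : ℕ, Fintype.card F + 1 = 2 ^ m)
  · rcases hz with ⟨hq, h6⟩ | ⟨h2, -⟩
    · have hn3 : n = 3 := by omega
      subst hn3
      rw [hq] at hdvd
      have hd5 : d ≤ 5 := by omega
      interval_cases d <;> simp [Finset.prod_range_succ, Fin.prod_univ_succ] at hdvd
    · have hn1' : n = 1 := by omega
      subst hn1'
      have hd1 : d ≤ 1 := by omega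
      have hle := Nat.le_of_dvd (by
        apply Finset.prod_pos
        intro i _
        have : Fintype.card F ^ (i : ℕ) < Fintype.card F ^ d :=
          Nat.pow_lt_pow_right hq2 i.2
        omega) hdvd
      have h1 : Fintype.card F ^ (1 ^ 2) * ∏ i ∈ Finset.range 1,
          (Fintype.card F ^ (2 * (i + 1)) - 1) = Fintype.card F * (Fintype.card F ^ 2 - 1) := by
        simp
      rw [h1] at hle
      have h3 : Fintype.card F ≤ Fintype.card F ^ 2 - 1 := by
        have : Fintype.card F * 2 ≤ Fintype.card F ^ 2 := by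
          rw [pow_two]
          exact Nat.mul_le_mul_left _ hq2
        omega
      have h4 : Fintype.card F * Fintype.card F ≤ Fintype.card F * (Fintype.card F ^ 2 - 1) :=
        Nat.mul_le_mul_left _ h3
      have h5 : Fintype.card F ≤ Fintype.card F * Fintype.card F := Nat.le_mul_self _
      interval_cases d
      · simp at hle
        omega
      · simp at hle
        omega
  · push Not at hz
    obtain ⟨r, hr, hr1, hr2⟩ := Cfsg.Agent.S2904.result (Fintype.card F) (2 * n) (by omega) (by omega)
      (fun h => hz.1 h.1 h.2) (fun h => by obtain ⟨h2, m, hm⟩ := h; exact hz.2 h2 m hm)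
    have h1 : r ∣ ∏ i : Fin d, (Fintype.card F ^ d - Fintype.card F ^ (i : ℕ)) :=
      hr1.trans (hfac.trans hdvd)
    rw [Prime.dvd_finsetProd_iff (Nat.prime_iff.mp hr)] at h1
    obtain ⟨i, -, hi⟩ := h1
    have e : Fintype.card F ^ d - Fintype.card F ^ (i : ℕ)
        = Fintype.card F ^ (i : ℕ) * (Fintype.card F ^ (d - (i : ℕ)) - 1) := by
      rw [Nat.mul_sub, mul_one, ← pow_add]
      congr 2
      have := i.2
      omega
    rw [e] at hi
    rcases hr.dvd_mul.mp hi with h | h
    · have h2 := hr.dvd_of_dvd_pow h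
      have h3 : r ∣ Fintype.card F ^ (2 * n) := dvd_pow h2 (by omega)
      have h4 : 1 ≤ Fintype.card F ^ (2 * n) := Nat.one_le_pow _ _ (by omega)
      have h5 := (Nat.dvd_sub h3 hr1)
      rw [show Fintype.card F ^ (2 * n) - (Fintype.card F ^ (2 * n) - 1) = 1 by omega] at h5
      exact hr.one_lt.ne' (Nat.dvd_one.mp h5)
    · exact hr2 (d - (i : ℕ)) (by have := i.2; omega) (by omega) h

end Cfsg.Agent.S2394
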