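import Cfsg.Statements.S2450
import Cfsg.Agent.Lib.Helper14.GL2Conj

set_option autoImplicit false
open Cfsg

namespace Cfsg.Agent.S2450

open Cfsg.Agent.Lib.Helper14.GL2Conj

variable {F : Type*} [Field F]

def nf (l t : F) (hl : l ≠ 0) : Matrix.SpecialLinearGroup (Fin 2) F :=
  ⟨!![0, -l⁻¹; l, t], by rw [Matrix.det_fin_two_of]; simp [hl]⟩

theorem nf_coe (l t : F) (hl : l ≠ 0) :
    ((nf l t hl : Matrix.SpecialLinearGroup (Fin 2) F) : Matrix (Fin 2) (Fin 2) F) = !![0, -l⁻¹; l, t] := rfl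

def ux (x : F) : Matrix.SpecialLinearGroup (Fin 2) F :=
  ⟨!![1, x; 0, 1], by simp [Matrix.det_fin_two_of]⟩

theorem ux_coe (x : F) :
    ((ux x : Matrix.SpecialLinearGroup (Fin 2) F) : Matrix (Fin 2) (Fin 2) F) = !![1, x; 0, 1] := rfl

theorem ux_inv (x : F) : (ux x)⁻¹ = ux (-x) := by
  apply inv_eq_of_mul_eq_one_right
  apply Subtype.ext
  rw [Matrix.SpecialLinearGroup.coe_mul, ux_coe, ux_coe, Matrix.mul_fin_two]
  ext i j
  fin_cases i <;> fin_cases j <;> simp

def tr2 (M : Matrix.SpecialLinearGroup (Fin 2) F) : F :=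
  (M : Matrix (Fin 2) (Fin 2) F) 0 0 + (M : Matrix (Fin 2) (Fin 2) F) 1 1

theorem tr2_eq (M : Matrix.SpecialLinearGroup (Fin 2) F) :
    tr2 M = (M : Matrix (Fin 2) (Fin 2) F).trace := by
  rw [Matrix.trace_fin_two]
  rfl

theorem tr2_conj (P M : Matrix.SpecialLinearGroup (Fin 2) F) : tr2 (P * M * P⁻¹) = tr2 M := by
  rw [tr2_eq, tr2_eq]
  simp only [Matrix.SpecialLinearGroup.coe_mul]
  rw [Matrix.trace_mul_comm, ← Matrix.mul_assoc, ← Matrix.SpecialLinearGroup.coe_mul, inv_mul_cancel]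
  simp

theorem exists_nf (A : Matrix.SpecialLinearGroup (Fin 2) F)
    (hA : ¬ IsScalarMat (A : Matrix (Fin 2) (Fin 2) F)) :
    ∃ (P : Matrix.SpecialLinearGroup (Fin 2) F) (l : F) (hl : l ≠ 0), A = P * nf l (tr2 A) hl * P⁻¹ := by
  obtain ⟨P, hP, hAP⟩ := exists_conj_comp (A : Matrix (Fin 2) (Fin 2) F) hA
  have hdet : (P * !![1, 0; 0, (P.det)⁻¹]).det = 1 := by
    rw [Matrix.det_mul, Matrix.det_fin_two_of]
    simp [hP]
  let P' : Matrix.SpecialLinearGroup (Fin 2) F := ⟨P * !![1, 0; 0, (P.det)⁻¹], hdet⟩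
  have hP' : (P' : Matrix (Fin 2) (Fin 2) F) = P * !![1, 0; 0, (P.det)⁻¹] := rfl
  refine ⟨P', P.det, hP, ?_⟩
  rw [eq_mul_inv_iff_mul_eq]
  apply Subtype.ext
  simp only [Matrix.SpecialLinearGroup.coe_mul]
  rw [hP', nf_coe, ← Matrix.mul_assoc, hAP, Matrix.mul_assoc, Matrix.mul_assoc]
  congr 1
  rw [A.det_coe, tr2_eq]
  unfold comp
  rw [Matrix.mul_fin_two, Matrix.mul_fin_two]
  ext i j
  fin_cases i <;> fin_cases j <;> simp [hP, mul_comm]

theorem key_trace (l a m b x : F) (hl : l ≠ 0) (hm : m ≠ 0) :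
    tr2 (nf l a hl * ux x * nf m b hm * ux (-x)) =
      (-(l * m)) * x ^ 2 + (l * b - a * m) * x + (a * b - m / l - l / m) := by
  unfold tr2
  simp only [Matrix.SpecialLinearGroup.coe_mul, nf_coe, ux_coe, Matrix.mul_fin_two]
  simp only [Matrix.of_apply, Matrix.cons_val_zero, Matrix.cons_val_one, Matrix.cons_val']
  field_simp
  ring

theorem trace_sq_of_conj (G₁ G₂ : Matrix.SpecialLinearGroup (Fin 2) F)
    (h : IsConj (QuotientGroup.mk G₁ : Matrix.ProjectiveSpecialLinearGroup (Fin 2) F) (QuotientGroup.mk G₂)) :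
    tr2 G₁ ^ 2 = tr2 G₂ ^ 2 := by
  obtain ⟨w, hw⟩ := isConj_iff.mp h
  obtain ⟨W, rfl⟩ := QuotientGroup.mk_surjective w
  rw [← QuotientGroup.mk_inv, ← QuotientGroup.mk_mul, ← QuotientGroup.mk_mul] at hw
  have hz := QuotientGroup.eq.mp hw
  rw [Matrix.SpecialLinearGroup.mem_center_iff] at hz
  obtain ⟨r, hr, hscal⟩ := hz
  simp only [Fintype.card_fin] at hr
  have h2 : G₂ = (W * G₁ * W⁻¹) * ((W * G₁ * W⁻¹)⁻¹ * G₂) := by group
  have h3 : tr2 G₂ = r * tr2 (W * G₁ * W⁻¹) := by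
    rw [h2]
    generalize (W * G₁ * W⁻¹)⁻¹ * G₂ = Z at hscal
    generalize W * G₁ * W⁻¹ = C
    unfold tr2
    rw [Matrix.SpecialLinearGroup.coe_mul, ← hscal]
    simp [Matrix.mul_apply, Matrix.scalar_apply, Matrix.diagonal_apply]
    ring
  rw [h3, tr2_conj, mul_pow, hr, one_mul]

theorem quad_not_const_sq [Fintype F] (α β γ : F) (hα : α ≠ 0) (h4 : 4 ≤ Fintype.card F) :
    ∃ x : F, (α * x ^ 2 + β * x + γ) ^ 2 ≠ γ ^ 2 := by
  classical
  by_contra hcon
  rw [not_exists] at hcon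
  have hcon' : ∀ x : F, (α * x ^ 2 + β * x + γ) ^ 2 = γ ^ 2 := fun x => not_not.mp (hcon x)
  by_cases h2 : (2 : F) = 0
  · have h0 : ∀ x : F, α * x ^ 2 + β * x = 0 := by
      intro x
      have h1 : (α * x ^ 2 + β * x) ^ 2 = 0 := by
        linear_combination hcon' x - (γ * (α * x ^ 2 + β * x)) * h2
      exact pow_eq_zero_iff (by norm_num) |>.mp h1
    have hdeg : (Polynomial.C α * Polynomial.X ^ 2 + Polynomial.C β * Polynomial.X + Polynomial.C 0 :
        Polynomial F).natDegree = 2 := Polynomial.natDegree_quadratic hα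
    have hp0 : (Polynomial.C α * Polynomial.X ^ 2 + Polynomial.C β * Polynomial.X + Polynomial.C 0 :
        Polynomial F) = 0 := by
      apply Polynomial.eq_zero_of_natDegree_lt_card_of_eval_eq_zero' _ (Finset.univ : Finset F)
      · intro x _
        simp only [Polynomial.eval_add, Polynomial.eval_mul, Polynomial.eval_C, Polynomial.eval_pow,
          Polynomial.eval_X, add_zero]
        exact h0 x
      · rw [hdeg, Finset.card_univ]
        omega
    rw [hp0] at hdeg
    simp at hdeg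
  · have hodd : Fintype.card F % 2 = 1 := by
      apply FiniteField.odd_card_of_char_ne_two
      intro hch
      apply h2
      have : CharP F 2 := ringChar.of_eq hch
      exact CharTwo.two_eq_zero
    have h5 : 5 ≤ Fintype.card F := by omega
    have hdeg : (Polynomial.C α * Polynomial.X ^ 2 + Polynomial.C β * Polynomial.X + Polynomial.C γ :
        Polynomial F).natDegree = 2 := Polynomial.natDegree_quadratic hα
    have hp0 : ((Polynomial.C α * Polynomial.X ^ 2 + Polynomial.C β * Polynomial.X + Polynomial.C γ) ^ 2 -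
        Polynomial.C (γ ^ 2) : Polynomial F) = 0 := by
      apply Polynomial.eq_zero_of_natDegree_lt_card_of_eval_eq_zero' _ (Finset.univ : Finset F)
      · intro x _
        simp only [Polynomial.eval_add, Polynomial.eval_mul, Polynomial.eval_C, Polynomial.eval_pow,
          Polynomial.eval_X, Polynomial.eval_sub]
        rw [hcon' x, sub_self]
      · rw [Finset.card_univ]
        have h6 : ((Polynomial.C α * Polynomial.X ^ 2 + Polynomial.C β * Polynomial.X + Polynomial.C γ) ^ 2 -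
            Polynomial.C (γ ^ 2) : Polynomial F).natDegree ≤ 4 := by
          compute_degree
        omega
    have h7 : ((Polynomial.C α * Polynomial.X ^ 2 + Polynomial.C β * Polynomial.X + Polynomial.C γ) ^ 2 :
        Polynomial F) = Polynomial.C (γ ^ 2) := sub_eq_zero.mp hp0
    have h8 := congrArg Polynomial.natDegree h7
    rw [Polynomial.natDegree_pow, hdeg, Polynomial.natDegree_C] at h8
    omega

theorem not_scalar_of_mk_ne_one (A : Matrix.SpecialLinearGroup (Fin 2) F)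
    (h : (QuotientGroup.mk A : Matrix.ProjectiveSpecialLinearGroup (Fin 2) F) ≠ 1) :
    ¬ IsScalarMat (A : Matrix (Fin 2) (Fin 2) F) := by
  intro hs
  apply h
  rw [QuotientGroup.eq_one_iff, Matrix.SpecialLinearGroup.mem_center_iff]
  obtain ⟨s, hs⟩ := hs
  refine ⟨s, ?_, ?_⟩
  · have hd := A.det_coe
    rw [hs] at hd
    simp only [Fintype.card_fin]
    simpa [Matrix.det_fin_two, pow_two] using hd
  · rw [hs]
    ext i j
    fin_cases i <;> fin_cases j <;> simp [Matrix.scalar_apply]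

theorem result {F : Type*} [Field F] [Fintype F] (h4 : 4 ≤ Fintype.card F)
    (a b : Matrix.ProjectiveSpecialLinearGroup (Fin 2) F) (ha : a ≠ 1) (hb : b ≠ 1) (c : Matrix.ProjectiveSpecialLinearGroup (Fin 2) F) :
    {g : Matrix.ProjectiveSpecialLinearGroup (Fin 2) F | ∃ u v : Matrix.ProjectiveSpecialLinearGroup (Fin 2) F, g = (u * a * u⁻¹) * (v * b * v⁻¹)} ≠ {g | IsConj c g} := by
  intro hset
  obtain ⟨A, rfl⟩ := QuotientGroup.mk_surjective a
  obtain ⟨B, rfl⟩ := QuotientGroup.mk_surjective b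
  have hAs := not_scalar_of_mk_ne_one A ha
  have hBs := not_scalar_of_mk_ne_one B hb
  obtain ⟨P, l, hl, hA⟩ := exists_nf A hAs
  obtain ⟨Q, m, hm, hB⟩ := exists_nf B hBs
  generalize tr2 A = ta at hA
  generalize tr2 B = tb at hB
  have hG : ∀ x : F, IsConj c (QuotientGroup.mk (A * ((P * ux x * Q⁻¹) * B * (P * ux x * Q⁻¹)⁻¹))) := by
    intro x
    have hmem : (QuotientGroup.mk (A * ((P * ux x * Q⁻¹) * B * (P * ux x * Q⁻¹)⁻¹)) :
        Matrix.ProjectiveSpecialLinearGroup (Fin 2) F) ∈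
        {g : Matrix.ProjectiveSpecialLinearGroup (Fin 2) F | ∃ u v : Matrix.ProjectiveSpecialLinearGroup (Fin 2) F,
          g = (u * (QuotientGroup.mk A) * u⁻¹) * (v * (QuotientGroup.mk B) * v⁻¹)} := by
      refine ⟨1, QuotientGroup.mk (P * ux x * Q⁻¹), ?_⟩
      simp only [QuotientGroup.mk_mul, QuotientGroup.mk_inv, one_mul, inv_one, mul_one]
    rw [hset] at hmem
    exact hmem
  have htr : ∀ x : F, tr2 (A * ((P * ux x * Q⁻¹) * B * (P * ux x * Q⁻¹)⁻¹)) =
      (-(l * m)) * x ^ 2 + (l * tb - ta * m) * x + (ta * tb - m / l - l / m) := by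
    intro x
    rw [← key_trace l ta m tb x hl hm, ← tr2_conj P (nf l ta hl * ux x * nf m tb hm * ux (-x))]
    congr 1
    rw [← ux_inv]
    nth_rewrite 1 [hA]
    nth_rewrite 1 [hB]
    group
  have hlm : -(l * m) ≠ 0 := neg_ne_zero.mpr (mul_ne_zero hl hm)
  obtain ⟨x, hx⟩ := quad_not_const_sq (-(l * m)) (l * tb - ta * m) (ta * tb - m / l - l / m) hlm h4
  apply hx
  have h1 := trace_sq_of_conj _ _ ((hG x).symm.trans (hG 0))
  rw [htr x, htr 0] at h1
  rw [h1]
  ring

end Cfsg.Agent.S2450
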