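import Cfsg.Statements.S2455
import Cfsg.Agent.Lib.Helper14.PSL2

set_option autoImplicit false
open Cfsg

namespace Cfsg.Agent.S2455

open Cfsg.Agent.Lib.Helper14.GL2Conj Cfsg.Agent.Lib.Helper14.SL2Odd Cfsg.Agent.Lib.Helper14.PSL2

variable {F : Type*} [Field F]

theorem exists_disc [Fintype F] (hodd : Fintype.card F % 2 = 1) (t s : F) (ht : t ≠ 0) :
    ∃ σ a w : F, (σ = 1 ∨ σ = -1) ∧
      (σ * t - t * s + a * s) ^ 2 - 4 * (a ^ 2 - t * a + 1) = w ^ 2 := by
  have h2 : (2 : F) ≠ 0 := two_ne_zero_of_odd hodd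
  have h8 : (8 : F) ≠ 0 := by
    have : (8 : F) = 2 * 2 * 2 := by norm_num
    rw [this]
    exact mul_ne_zero (mul_ne_zero h2 h2) h2
  by_cases hs : s ^ 2 = 4
  · have hs' : (s - 2) * (s + 2) = 0 := by linear_combination hs
    rcases mul_eq_zero.mp hs' with h4 | h4
    · have hs2 : s = 2 := sub_eq_zero.mp h4
      refine ⟨-1, ((-t - t * 2) ^ 2 - 4) / (8 * t), 0, Or.inr rfl, ?_⟩
      rw [hs2]
      field_simp
      ring
    · have hs2 : s = -2 := eq_neg_of_add_eq_zero_left h4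
      refine ⟨1, ((t + t * 2) ^ 2 - 4) / (8 * t), 0, Or.inl rfl, ?_⟩
      rw [hs2]
      field_simp
      ring
  · have hs4 : s ^ 2 - 4 ≠ 0 := sub_ne_zero.mpr hs
    have hf : (Polynomial.C (s ^ 2 - 4) * Polynomial.X ^ 2 + Polynomial.C (2 * (t - t * s) * s + 4 * t) * Polynomial.X +
        Polynomial.C ((t - t * s) ^ 2 - 4) : Polynomial F).degree = 2 := Polynomial.degree_quadratic hs4
    have hg : (-(Polynomial.X ^ 2) : Polynomial F).degree = 2 := by
      rw [Polynomial.degree_neg, Polynomial.degree_X_pow]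
      rfl
    obtain ⟨a, w, haw⟩ := FiniteField.exists_root_sum_quadratic hf hg hodd
    simp only [Polynomial.eval_add, Polynomial.eval_mul, Polynomial.eval_C, Polynomial.eval_pow,
      Polynomial.eval_X, Polynomial.eval_neg] at haw
    refine ⟨1, a, w, Or.inl rfl, ?_⟩
    linear_combination haw

theorem exists_mid [Fintype F] (hodd : Fintype.card F % 2 = 1) (t s l : F) (hl : l ≠ 0) (ht : t ≠ 0) :
    ∃ (σ : F) (M : Matrix.SpecialLinearGroup (Fin 2) F), (σ = 1 ∨ σ = -1) ∧ tr2 M = t ∧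
      tr2 (M * nf l s hl) = σ * t := by
  have h2 : (2 : F) ≠ 0 := two_ne_zero_of_odd hodd
  obtain ⟨σ, a, w, hσ, hD⟩ := exists_disc hodd t s ht
  have hdet : (!![a, ((σ * t - t * s + a * s) + w) / 2 / l;
      (-(σ * t - t * s + a * s) + w) / 2 * l, t - a] : Matrix (Fin 2) (Fin 2) F).det = 1 := by
    rw [Matrix.det_fin_two_of]
    field_simp
    linear_combination hD
  let M : Matrix.SpecialLinearGroup (Fin 2) F := ⟨_, hdet⟩
  have hM : (M : Matrix (Fin 2) (Fin 2) F) = !![a, ((σ * t - t * s + a * s) + w) / 2 / l;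
      (-(σ * t - t * s + a * s) + w) / 2 * l, t - a] := rfl
  refine ⟨σ, M, hσ, ?_, ?_⟩
  · unfold tr2
    rw [hM]
    simp
  · unfold tr2
    rw [Matrix.SpecialLinearGroup.coe_mul, hM, nf_coe, Matrix.mul_fin_two]
    simp only [Matrix.of_apply, Matrix.cons_val_zero, Matrix.cons_val_one, Matrix.cons_val']
    field_simp
    ring

theorem result {F : Type*} [Field F] [Fintype F] (p : ℕ) [Fact p.Prime] [CharP F p] (hp : p ≠ 2) (h5 : 5 ≤ Fintype.card F)
    (x : Matrix.ProjectiveSpecialLinearGroup (Fin 2) F) (hx2 : 2 < orderOf x) (hxp : ¬ p ∣ orderOf x) : ∀ g : Matrix.ProjectiveSpecialLinearGroup (Fin 2) F, g ≠ 1 → ∃ u v : Matrix.ProjectiveSpecialLinearGroup (Fin 2) F, g = (u * x * u⁻¹) * (v * x * v⁻¹) := by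
  have _h5 := h5
  intro g hg
  have hpp : p.Prime := Fact.out
  have hodd : Fintype.card F % 2 = 1 := by
    apply FiniteField.odd_card_of_char_ne_two
    rw [ringChar.eq F p]
    exact hp
  obtain ⟨X, rfl⟩ := QuotientGroup.mk_surjective x
  obtain ⟨G, rfl⟩ := QuotientGroup.mk_surjective g
  have hGs : ¬ IsScalarMat (G : Matrix (Fin 2) (Fin 2) F) := fun h => hg ((mk_eq_one_iff G).mpr h)
  have ht0 : tr2 X ≠ 0 := by
    intro h0
    have h1 : (QuotientGroup.mk X : Matrix.ProjectiveSpecialLinearGroup (Fin 2) F) ^ 2 = 1 := by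
      rw [pow_two, ← QuotientGroup.mk_mul, sq_eq_negOne_of_trace_zero X h0]
      exact mk_negOne
    have h3 := Nat.le_of_dvd (by norm_num) (orderOf_dvd_of_pow_eq_one h1)
    omega
  have ht4 : tr2 X ^ 2 ≠ 4 := by
    intro h4
    have h1 : (QuotientGroup.mk X : Matrix.ProjectiveSpecialLinearGroup (Fin 2) F) ^ p = 1 := by
      rw [← QuotientGroup.mk_pow, mk_eq_one_iff]
      exact pow_char_scalar p X h4
    have hdvd := orderOf_dvd_of_pow_eq_one h1
    rcases (Nat.dvd_prime hpp).mp hdvd with h3 | h3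
    · rw [h3] at hx2
      omega
    · apply hxp
      rw [h3]
  have hXs : ¬ IsScalarMat (X : Matrix (Fin 2) (Fin 2) F) := not_scalar_of_trace X ht4
  obtain ⟨P, l, hl, hG⟩ := exists_nf G hGs
  generalize tr2 G = s at hG
  obtain ⟨σ, M', hσ, hM1, hM2⟩ := exists_mid hodd (tr2 X) s l hl ht0
  have htr1 : tr2 (P * M' * P⁻¹)⁻¹ = tr2 X := by rw [tr2_inv, tr2_conj, hM1]
  have hc1 : IsConj X (P * M' * P⁻¹)⁻¹ :=
    conj_of_trace hodd X _ hXs (not_scalar_of_trace _ (by rw [htr1]; exact ht4)) htr1.symm ht4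
  have hprod : (P * M' * P⁻¹) * G = P * (M' * nf l s hl) * P⁻¹ := by
    rw [hG]
    group
  obtain ⟨u, hu⟩ := isConj_iff.mp hc1
  rcases hσ with rfl | rfl
  · have htr : tr2 ((P * M' * P⁻¹) * G) = tr2 X := by
      rw [hprod, tr2_conj, hM2, one_mul]
    have hc2 : IsConj X ((P * M' * P⁻¹) * G) :=
      conj_of_trace hodd X _ hXs (not_scalar_of_trace _ (by rw [htr]; exact ht4)) htr.symm ht4
    obtain ⟨v, hv⟩ := isConj_iff.mp hc2
    refine ⟨QuotientGroup.mk u, QuotientGroup.mk v, ?_⟩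
    rw [← QuotientGroup.mk_inv, ← QuotientGroup.mk_inv, ← QuotientGroup.mk_mul, ← QuotientGroup.mk_mul,
      ← QuotientGroup.mk_mul, ← QuotientGroup.mk_mul, ← QuotientGroup.mk_mul, hu, hv]
    congr 1
    group
  · have htr : tr2 (negOne * ((P * M' * P⁻¹) * G)) = tr2 X := by
      rw [tr2_negOne_mul, hprod, tr2_conj, hM2]
      ring
    have hc2 : IsConj X (negOne * ((P * M' * P⁻¹) * G)) :=
      conj_of_trace hodd X _ hXs (not_scalar_of_trace _ (by rw [htr]; exact ht4)) htr.symm ht4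
    obtain ⟨v, hv⟩ := isConj_iff.mp hc2
    refine ⟨QuotientGroup.mk u, QuotientGroup.mk v, ?_⟩
    rw [← QuotientGroup.mk_inv, ← QuotientGroup.mk_inv, ← QuotientGroup.mk_mul, ← QuotientGroup.mk_mul,
      ← QuotientGroup.mk_mul, ← QuotientGroup.mk_mul, hu, hv, mk_negOne_mul, ← QuotientGroup.mk_mul]
    congr 1
    group

end Cfsg.Agent.S2455
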