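import Cfsg.Statements.S2466
import Mathlib

set_option autoImplicit false
open Cfsg

namespace Cfsg.Agent.S2466

theorem mem_range_iff (n k : ℕ) :
    (k ∈ Set.range (orderOf : alternatingGroup (Fin n) → ℕ)) ↔
      ∃ m : Multiset ℕ, (∀ a ∈ m, 2 ≤ a) ∧ m.sum ≤ n ∧ Even (m.sum + Multiset.card m) ∧ m.lcm = k := by
  constructor
  · rintro ⟨g, rfl⟩
    refine ⟨(g : Equiv.Perm (Fin n)).cycleType, fun a ha => Equiv.Perm.two_le_of_mem_cycleType ha, ?_, ?_, ?_⟩
    · simpa using Equiv.Perm.sum_cycleType_le (g : Equiv.Perm (Fin n))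
    · have h1 : Equiv.Perm.sign (g : Equiv.Perm (Fin n)) = 1 := Equiv.Perm.mem_alternatingGroup.mp g.2
      rw [Equiv.Perm.sign_of_cycleType] at h1
      exact (neg_one_pow_eq_one_iff_even (by decide)).mp h1
    · rw [Equiv.Perm.lcm_cycleType, Subgroup.orderOf_coe]
  · rintro ⟨m, h2, hsum, hev, rfl⟩
    obtain ⟨g, hg⟩ := (Equiv.Perm.exists_with_cycleType_iff (Fin n)).mpr ⟨by simpa using hsum, h2⟩
    have hs : Equiv.Perm.sign g = 1 := by
      rw [Equiv.Perm.sign_of_cycleType, hg]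
      exact (neg_one_pow_eq_one_iff_even (by decide)).mpr hev
    refine ⟨⟨g, Equiv.Perm.mem_alternatingGroup.mpr hs⟩, ?_⟩
    rw [← Subgroup.orderOf_coe, ← Equiv.Perm.lcm_cycleType]
    simp [hg]

theorem prime_dvd_lcm {p : ℕ} (hp : p.Prime) (m : Multiset ℕ) (h : p ∣ m.lcm) : ∃ a ∈ m, p ∣ a := by
  induction m using Multiset.induction_on with
  | empty =>
    simp at h
    exact absurd h hp.one_lt.ne'
  | cons a s ih =>
    rw [Multiset.lcm_cons] at h
    have h' : p ∣ a * s.lcm := dvd_trans h (by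
      simp [lcm_eq_nat_lcm, Nat.lcm_dvd_mul a s.lcm])
    rcases (Nat.Prime.dvd_mul hp).mp h' with h1 | h1
    · exact ⟨a, Multiset.mem_cons_self a s, h1⟩
    · obtain ⟨b, hb, hpb⟩ := ih h1
      exact ⟨b, Multiset.mem_cons_of_mem hb, hpb⟩

theorem add_le_sum {m : Multiset ℕ} {a b : ℕ} (ha : a ∈ m) (hb : b ∈ m) (hab : a ≠ b) : a + b ≤ m.sum := by
  obtain ⟨t, rfl⟩ := Multiset.exists_cons_of_mem ha
  have hb' : b ∈ t := by
    rcases Multiset.mem_cons.mp hb with h | h
    · exact absurd h.symm hab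
    · exact h
  rw [Multiset.sum_cons]
  have := Multiset.le_sum_of_mem hb'
  omega

theorem result (n r s : ℕ) (hr : r.Prime) (hs : s.Prime) (hr2 : r ≠ 2) (hs2 : s ≠ 2) (hrs : r ≠ s) (hrn : r ≤ n) (hsn : s ≤ n) :
    (r * s ∈ Set.range (orderOf : alternatingGroup (Fin n) → ℕ)) ↔ r + s ≤ n := by
  rw [mem_range_iff]
  have hr3 : 2 ≤ r := hr.two_le
  have hs3 : 2 ≤ s := hs.two_le
  constructor
  · rintro ⟨m, h2, hsum, hev, hl⟩
    obtain ⟨a, ha, hra⟩ := prime_dvd_lcm hr m (hl ▸ Dvd.intro s rfl)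
    obtain ⟨b, hb, hsb⟩ := prime_dvd_lcm hs m (hl ▸ Dvd.intro_left r rfl)
    have ha2 := h2 a ha
    have hb2 := h2 b hb
    by_cases hab : a = b
    · subst hab
      have hcop : Nat.Coprime r s := (Nat.coprime_primes hr hs).mpr hrs
      have h1 : r * s ∣ a := Nat.Coprime.mul_dvd_of_dvd_of_dvd hcop hra hsb
      have h3 : r * s ≤ a := Nat.le_of_dvd (by omega) h1
      have h4 : a ≤ m.sum := Multiset.le_sum_of_mem ha
      have h5 : r + s ≤ r * s := by nlinarith
      omega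
    · have h1 := add_le_sum ha hb hab
      have h3 : r ≤ a := Nat.le_of_dvd (by omega) hra
      have h4 : s ≤ b := Nat.le_of_dvd (by omega) hsb
      omega
  · intro h
    refine ⟨{r, s}, ?_, ?_, ?_, ?_⟩
    · intro a ha
      simp at ha
      rcases ha with rfl | rfl <;> assumption
    · simpa using h
    · have hro : Odd r := hr.odd_of_ne_two hr2
      have hso : Odd s := hs.odd_of_ne_two hs2
      have : Even (r + s) := hro.add_odd hso
      simp
      obtain ⟨c, hc⟩ := this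
      exact ⟨c + 1, by omega⟩
    · have hcop : Nat.Coprime r s := (Nat.coprime_primes hr hs).mpr hrs
      have : ({r, s} : Multiset ℕ) = r ::ₘ {s} := rfl
      rw [this, Multiset.lcm_cons, Multiset.lcm_singleton]
      simp [lcm_eq_nat_lcm, hcop.lcm_eq_mul]

end Cfsg.Agent.S2466
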