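import Cfsg.Statements.S2467
import Mathlib

set_option autoImplicit false
open Cfsg

namespace Cfsg.Agent.S2467

theorem mem_range_iff (n k : ℕ) :
    (k ∈ Set.range (orderOf : alternatingGroup (Fin n) → ℕ)) ↔
      ∃ m : Multiset ℕ, (∀ a ∈ m, 2 ≤ a) ∧ m.sum ≤ n ∧ Even (m.sum + Multiset.card m) ∧ m.lcm = k := by
  constructor
  · rintro ⟨g, rfl⟩
    refine ⟨(g : Equiv.Perm (Fin n)).cycleType, fun a ha => Equiv.Perm.two_le_of_mem_cycleType ha, ?_, ?_, ?_⟩
    · simpa using Equiv.Perm.sum_cycleType_le (g : Equiv.Perm (Fin n))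
    · have h1 : Equiv.Perm.sign (g : Equiv.Perm (Fin n)) = 1 := Equiv.Perm.mem_alternatingGroup.mp g.2
      rw [Equiv.Perm.sign_of_cycleType] at h1
      exact (neg_one_pow_eq_one_iff_even (by decide)).mp h1
    · rw [Equiv.Perm.lcm_cycleType, Subgroup.orderOf_coe]
  · rintro ⟨m, h2, hsum, hev, rfl⟩
    obtain ⟨g, hg⟩ := (Equiv.Perm.exists_with_cycleType_iff (Fin n)).mpr ⟨by simpa using hsum, h2⟩
    have hs : Equiv.Perm.sign g = 1 := by
      rw [Equiv.Perm.sign_of_cycleType, hg]
      exact (neg_one_pow_eq_one_iff_even (by decide)).mpr hev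
    refine ⟨⟨g, Equiv.Perm.mem_alternatingGroup.mpr hs⟩, ?_⟩
    rw [← Subgroup.orderOf_coe, ← Equiv.Perm.lcm_cycleType]
    simp [hg]

theorem prime_dvd_lcm {p : ℕ} (hp : p.Prime) (m : Multiset ℕ) (h : p ∣ m.lcm) : ∃ a ∈ m, p ∣ a := by
  induction m using Multiset.induction_on with
  | empty =>
    simp at h
    exact absurd h hp.one_lt.ne'
  | cons a s ih =>
    rw [Multiset.lcm_cons] at h
    have h' : p ∣ a * s.lcm := dvd_trans h (by
      simp [lcm_eq_nat_lcm, Nat.lcm_dvd_mul a s.lcm])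
    rcases (Nat.Prime.dvd_mul hp).mp h' with h1 | h1
    · exact ⟨a, Multiset.mem_cons_self a s, h1⟩
    · obtain ⟨b, hb, hpb⟩ := ih h1
      exact ⟨b, Multiset.mem_cons_of_mem hb, hpb⟩

theorem add_le_sum {m : Multiset ℕ} {a b : ℕ} (ha : a ∈ m) (hb : b ∈ m) (hab : a ≠ b) : a + b ≤ m.sum := by
  obtain ⟨t, rfl⟩ := Multiset.exists_cons_of_mem ha
  have hb' : b ∈ t := by
    rcases Multiset.mem_cons.mp hb with h | h
    · exact absurd h.symm hab
    · exact h
  rw [Multiset.sum_cons]
  have := Multiset.le_sum_of_mem hb'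
  omega

theorem parity_filter (m : Multiset ℕ) :
    Even (m.sum + Multiset.card m) ↔ Even (Multiset.card (m.filter (fun x => Even x))) := by
  induction m using Multiset.induction_on with
  | empty => simp
  | cons a s ih =>
    by_cases ha : Even a
    · rw [Multiset.filter_cons_of_pos _ ha, Multiset.sum_cons, Multiset.card_cons, Multiset.card_cons]
      have h1 : a + s.sum + (Multiset.card s + 1) = (s.sum + Multiset.card s) + (a + 1) := by ring
      rw [h1, Nat.even_add, ih, Nat.even_add_one, Nat.even_add_one]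
      simp [ha]
    · rw [Multiset.filter_cons_of_neg _ ha, Multiset.sum_cons, Multiset.card_cons]
      have h1 : a + s.sum + (Multiset.card s + 1) = (s.sum + Multiset.card s) + (a + 1) := by ring
      rw [h1, Nat.even_add, ih, Nat.even_add_one]
      simp [ha]

theorem result (n r : ℕ) (hn : 4 ≤ n) (hr : r.Prime) (hr2 : r ≠ 2) (hrn : r ≤ n) :
    (2 * r ∈ Set.range (orderOf : alternatingGroup (Fin n) → ℕ)) ↔ r + 4 ≤ n := by
  rw [mem_range_iff]
  have hr3 : 2 ≤ r := hr.two_le
  have hro : Odd r := hr.odd_of_ne_two hr2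
  constructor
  · rintro ⟨m, h2, hsum, hev, hl⟩
    obtain ⟨a, ha, hra⟩ := prime_dvd_lcm hr m (hl ▸ Dvd.intro_left 2 rfl)
    obtain ⟨b, hb, h2b⟩ := prime_dvd_lcm Nat.prime_two m (hl ▸ Dvd.intro r rfl)
    have ha2 := h2 a ha
    rw [parity_filter] at hev
    set me := m.filter (fun x => Even x) with hme
    have hbe : b ∈ me := Multiset.mem_filter.mpr ⟨hb, even_iff_two_dvd.mpr h2b⟩
    have hsplit : me + m.filter (fun x => ¬ Even x) = m := Multiset.filter_add_not _ m
    have hsumsplit : me.sum + (m.filter (fun x => ¬ Even x)).sum = m.sum := by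
      rw [← Multiset.sum_add, hsplit]
    have hcard : 2 ≤ Multiset.card me := by
      have h0 : 0 < Multiset.card me := Multiset.card_pos_iff_exists_mem.mpr ⟨b, hbe⟩
      obtain ⟨c, hc⟩ := hev
      omega
    by_cases hae : Even a
    · have hame : a ∈ me := Multiset.mem_filter.mpr ⟨ha, hae⟩
      obtain ⟨t, ht⟩ := Multiset.exists_cons_of_mem hame
      have htc : 0 < Multiset.card t := by
        rw [ht, Multiset.card_cons] at hcard
        omega
      obtain ⟨c, hc⟩ := Multiset.card_pos_iff_exists_mem.mp htc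
      have hcm : c ∈ m := by
        have : c ∈ me := by rw [ht]; exact Multiset.mem_cons_of_mem hc
        exact (Multiset.mem_filter.mp this).1
      have hc2 := h2 c hcm
      have h1 : a + c ≤ me.sum := by
        rw [ht, Multiset.sum_cons]
        have := Multiset.le_sum_of_mem hc
        omega
      have hcop : Nat.Coprime 2 r := (Nat.coprime_primes Nat.prime_two hr).mpr (Ne.symm hr2)
      have h3 : 2 * r ∣ a := Nat.Coprime.mul_dvd_of_dvd_of_dvd hcop (even_iff_two_dvd.mp hae) hra
      have h4 : 2 * r ≤ a := Nat.le_of_dvd (by omega) h3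
      omega
    · have hamo : a ∈ m.filter (fun x => ¬ Even x) := Multiset.mem_filter.mpr ⟨ha, hae⟩
      have h1 : a ≤ (m.filter (fun x => ¬ Even x)).sum := Multiset.le_sum_of_mem hamo
      have h3 : r ≤ a := Nat.le_of_dvd (by omega) hra
      have h4 : 2 * Multiset.card me ≤ me.sum := by
        have := Multiset.card_nsmul_le_sum (s := me) (a := 2) (fun x hx => h2 x (Multiset.mem_filter.mp hx).1)
        simpa [mul_comm] using this
      omega
  · intro h
    refine ⟨{r, 2, 2}, ?_, ?_, ?_, ?_⟩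
    · intro a ha
      simp at ha
      rcases ha with rfl | rfl <;> omega
    · have : ({r, 2, 2} : Multiset ℕ).sum = r + 4 := by
        have : ({r, 2, 2} : Multiset ℕ) = r ::ₘ 2 ::ₘ {2} := rfl
        rw [this]; simp
      omega
    · have h1 : ({r, 2, 2} : Multiset ℕ) = r ::ₘ 2 ::ₘ {2} := rfl
      rw [h1]
      simp
      obtain ⟨c, hc⟩ := hro
      exact ⟨c + 4, by omega⟩
    · have hcop : Nat.Coprime r 2 := ((Nat.coprime_primes Nat.prime_two hr).mpr (Ne.symm hr2)).symm
      have h1 : ({r, 2, 2} : Multiset ℕ) = r ::ₘ 2 ::ₘ {2} := rfl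
      rw [h1, Multiset.lcm_cons, Multiset.lcm_cons, Multiset.lcm_singleton]
      simp [lcm_eq_nat_lcm, hcop.lcm_eq_mul, mul_comm]

end Cfsg.Agent.S2467
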