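import Cfsg.Statements.S2471
import Cfsg.Agent.Lib.Helper14.PSL2

set_option autoImplicit false
open Cfsg

namespace Cfsg.Agent.S2471

open Cfsg.Agent.Lib.Helper14.GL2Conj Cfsg.Agent.Lib.Helper14.SL2Odd Cfsg.Agent.Lib.Helper14.PSL2

theorem result {F : Type*} [Field F] [Fintype F] (p : ℕ) [Fact p.Prime] [CharP F p] (hp : p ≠ 2) (h5 : 5 ≤ Fintype.card F) (g : Matrix.ProjectiveSpecialLinearGroup (Fin 2) F) :
    orderOf g ≠ 2 * p := by
  have _h5 := h5
  intro ho
  have hpp : p.Prime := Fact.out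
  have hp3 : 3 ≤ p := by
    have := hpp.two_le
    omega
  obtain ⟨A, rfl⟩ := QuotientGroup.mk_surjective g
  have h1 : (QuotientGroup.mk A : Matrix.ProjectiveSpecialLinearGroup (Fin 2) F) ^ (2 * p) = 1 := by
    rw [← ho]
    exact pow_orderOf_eq_one _
  have h2 : (QuotientGroup.mk A : Matrix.ProjectiveSpecialLinearGroup (Fin 2) F) ^ 2 ≠ 1 :=
    pow_ne_one_of_lt_orderOf (by norm_num) (by rw [ho]; omega)
  have h3 : (QuotientGroup.mk A : Matrix.ProjectiveSpecialLinearGroup (Fin 2) F) ^ p ≠ 1 :=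
    pow_ne_one_of_lt_orderOf (by omega) (by rw [ho]; omega)
  have h4 : IsScalarMat (((A * A) ^ p : Matrix.SpecialLinearGroup (Fin 2) F) : Matrix (Fin 2) (Fin 2) F) := by
    rw [← mk_eq_one_iff, ← pow_two, ← pow_mul, QuotientGroup.mk_pow]
    exact h1
  have h5' := trace_sq_of_pow_char_scalar p (A * A) h4
  rw [tr2_mul_self] at h5'
  have h6 : tr2 A ^ 2 * (tr2 A ^ 2 - 4) = 0 := by linear_combination h5'
  rcases mul_eq_zero.mp h6 with h7 | h7
  · have h8 : tr2 A = 0 := pow_eq_zero_iff (by norm_num) |>.mp h7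
    apply h2
    rw [pow_two, ← QuotientGroup.mk_mul, sq_eq_negOne_of_trace_zero A h8]
    exact mk_negOne
  · apply h3
    rw [← QuotientGroup.mk_pow, mk_eq_one_iff]
    exact pow_char_scalar p A (sub_eq_zero.mp h7)

end Cfsg.Agent.S2471
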