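import Cfsg.Statements.S2485
import Mathlib

set_option autoImplicit false
open scoped Pointwise
open Cfsg

namespace Cfsg.Agent.S2485

section helpers

open Matrix

set_option linter.unusedSectionVars false

theorem conj_comm {R : Type*} [Ring R] (g : Rˣ) (M A : R)
    (h : M * (↑g * A * ↑g⁻¹) = ↑g * A * ↑g⁻¹ * M) :
    (↑g⁻¹ * M * ↑g) * A = A * (↑g⁻¹ * M * ↑g) := by
  calc (↑g⁻¹ * M * ↑g) * A = ↑g⁻¹ * (M * (↑g * A * ↑g⁻¹)) * ↑g := by
        simp only [mul_assoc, Units.inv_mul, mul_one]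
    _ = ↑g⁻¹ * (↑g * A * ↑g⁻¹ * M) * ↑g := by rw [h]
    _ = A * (↑g⁻¹ * M * ↑g) := by simp only [mul_assoc, Units.inv_mul_cancel_left]

theorem conj_anti {R : Type*} [Ring R] (g : Rˣ) (M A : R)
    (h : M * (↑g * A * ↑g⁻¹) = -(↑g * A * ↑g⁻¹ * M)) :
    (↑g⁻¹ * M * ↑g) * A = -(A * (↑g⁻¹ * M * ↑g)) := by
  calc (↑g⁻¹ * M * ↑g) * A = ↑g⁻¹ * (M * (↑g * A * ↑g⁻¹)) * ↑g := by
        simp only [mul_assoc, Units.inv_mul, mul_one]
    _ = ↑g⁻¹ * (-(↑g * A * ↑g⁻¹ * M)) * ↑g := by rw [h]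
    _ = -(A * (↑g⁻¹ * M * ↑g)) := by
        simp only [mul_assoc, Units.inv_mul_cancel_left, mul_neg, neg_mul]

variable {q : ℕ} [Fact q.Prime]

/-- the quarter turn -/
def A0 (q : ℕ) : Matrix (Fin 2) (Fin 2) (ZMod q) := !![0, -1; 1, 0]

theorem A0_sq : A0 q * A0 q = -1 := by
  ext i j
  fin_cases i <;> fin_cases j <;> simp [A0, Matrix.mul_apply, Fin.sum_univ_two]

theorem comm_form (M : Matrix (Fin 2) (Fin 2) (ZMod q)) (h : M * A0 q = A0 q * M) :
    M = !![M 0 0, -(M 1 0); M 1 0, M 0 0] := by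
  have h00 := congrFun (congrFun h 0) 0
  have h10 := congrFun (congrFun h 1) 0
  simp [A0, Matrix.mul_apply, Fin.sum_univ_two] at h00 h10
  ext i j
  fin_cases i <;> fin_cases j <;> simp [h00, h10]

theorem anti_form (M : Matrix (Fin 2) (Fin 2) (ZMod q)) (h : M * A0 q = -(A0 q * M)) :
    M = !![M 0 0, M 1 0; M 1 0, -(M 0 0)] := by
  have h00 := congrFun (congrFun h 0) 0
  have h10 := congrFun (congrFun h 1) 0
  rw [Matrix.neg_apply, Matrix.mul_apply, Matrix.mul_apply, Fin.sum_univ_two,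
    Fin.sum_univ_two] at h00 h10
  simp [A0] at h00 h10
  ext i j
  fin_cases i <;> fin_cases j <;> simp [h00, h10]

theorem sum_sq_ne (hq4 : q % 4 = 3) (a b : ZMod q) (h : a ≠ 0 ∨ b ≠ 0) : a ^ 2 + b ^ 2 ≠ 0 := by
  intro h0
  have hns : ¬ IsSquare (-1 : ZMod q) := by
    rw [ZMod.exists_sq_eq_neg_one_iff]
    exact fun h' => h' hq4
  by_cases hb : b = 0
  · subst hb
    have ha : a = 0 := by
      have : a ^ 2 = 0 := by linear_combination h0
      exact pow_eq_zero_iff (two_ne_zero) |>.mp this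
    rcases h with h | h
    · exact h ha
    · exact h rfl
  · apply hns
    refine ⟨a / b, ?_⟩
    field_simp
    linear_combination -h0

theorem A0_pow_q (hq4 : q % 4 = 3) : A0 q ^ q = -A0 q := by
  have h4 : A0 q ^ 4 = 1 := by
    rw [show 4 = 2 + 2 by norm_num, pow_add, pow_two, A0_sq]
    simp
  have h3 : A0 q ^ 3 = -A0 q := by
    rw [pow_succ, pow_two, A0_sq]
    simp
  have hq : 4 * (q / 4) + 3 = q := by omega
  have h5 : A0 q ^ (4 * (q / 4) + 3) = -A0 q := by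
    rw [pow_add, pow_mul, h4, one_pow, one_mul, h3]
  rwa [hq] at h5

theorem torus_pow (hq4 : q % 4 = 3) (a b : ZMod q) :
    (!![a, -b; b, a] : Matrix (Fin 2) (Fin 2) (ZMod q)) ^ (q + 1) = (a ^ 2 + b ^ 2) • 1 := by
  have e : (!![a, -b; b, a] : Matrix (Fin 2) (Fin 2) (ZMod q)) = a • 1 + b • A0 q := by
    ext i j
    fin_cases i <;> fin_cases j <;> simp [A0]
  have hc : Commute (a • (1 : Matrix (Fin 2) (Fin 2) (ZMod q))) (b • A0 q) := by
    apply Commute.smul_left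
    apply Commute.smul_right
    exact Commute.one_left _
  rw [pow_succ, e, add_pow_char_of_commute q hc, smul_pow, smul_pow, one_pow, ZMod.pow_card,
    ZMod.pow_card, A0_pow_q hq4]
  ext i j
  fin_cases i <;> fin_cases j <;> simp [A0, Matrix.mul_apply, Fin.sum_univ_two] <;> ring

theorem refl_sq (a b : ZMod q) :
    (!![a, b; b, -a] : Matrix (Fin 2) (Fin 2) (ZMod q)) ^ 2 = (a ^ 2 + b ^ 2) • 1 := by
  rw [pow_two]
  ext i j
  fin_cases i <;> fin_cases j <;> simp [Matrix.mul_apply, Fin.sum_univ_two] <;> ring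

/-- the normaliser of the torus of the quarter turn -/
def N0 (q : ℕ) [Fact q.Prime] : Subgroup (GL (Fin 2) (ZMod q)) where
  carrier := {g | (g : Matrix (Fin 2) (Fin 2) (ZMod q)) * A0 q = A0 q * g ∨
    (g : Matrix (Fin 2) (Fin 2) (ZMod q)) * A0 q = -(A0 q * g)}
  mul_mem' := by
    intro g h hg hh
    rcases hg with hg | hg <;> rcases hh with hh | hh
    · left
      rw [Units.val_mul, mul_assoc, hh, ← mul_assoc, hg, mul_assoc]
    · right
      rw [Units.val_mul, mul_assoc, hh, mul_neg, ← mul_assoc, hg, mul_assoc]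
    · right
      rw [Units.val_mul, mul_assoc, hh, ← mul_assoc, hg, neg_mul, mul_assoc]
    · left
      rw [Units.val_mul, mul_assoc, hh, mul_neg, ← mul_assoc, hg, neg_mul, neg_neg, mul_assoc]
  one_mem' := Or.inl (by simp)
  inv_mem' := by
    intro g hg
    rcases hg with hg | hg
    · left
      calc ((g⁻¹ : GL (Fin 2) (ZMod q)) : Matrix (Fin 2) (Fin 2) (ZMod q)) * A0 q
          = ((g⁻¹ : GL (Fin 2) (ZMod q)) : Matrix (Fin 2) (Fin 2) (ZMod q))
              * (A0 q * (g : Matrix (Fin 2) (Fin 2) (ZMod q)))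
              * ((g⁻¹ : GL (Fin 2) (ZMod q)) : Matrix (Fin 2) (Fin 2) (ZMod q)) := by
            simp only [mul_assoc, Units.mul_inv, mul_one]
        _ = ((g⁻¹ : GL (Fin 2) (ZMod q)) : Matrix (Fin 2) (Fin 2) (ZMod q))
              * ((g : Matrix (Fin 2) (Fin 2) (ZMod q)) * A0 q)
              * ((g⁻¹ : GL (Fin 2) (ZMod q)) : Matrix (Fin 2) (Fin 2) (ZMod q)) := by rw [hg]
        _ = A0 q * ((g⁻¹ : GL (Fin 2) (ZMod q)) : Matrix (Fin 2) (Fin 2) (ZMod q)) := by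
            simp only [← mul_assoc, Units.inv_mul, one_mul]
    · right
      have hg' : A0 q * (g : Matrix (Fin 2) (Fin 2) (ZMod q))
          = -((g : Matrix (Fin 2) (Fin 2) (ZMod q)) * A0 q) := by
        rw [hg, neg_neg]
      calc ((g⁻¹ : GL (Fin 2) (ZMod q)) : Matrix (Fin 2) (Fin 2) (ZMod q)) * A0 q
          = ((g⁻¹ : GL (Fin 2) (ZMod q)) : Matrix (Fin 2) (Fin 2) (ZMod q))
              * (A0 q * (g : Matrix (Fin 2) (Fin 2) (ZMod q)))
              * ((g⁻¹ : GL (Fin 2) (ZMod q)) : Matrix (Fin 2) (Fin 2) (ZMod q)) := by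
            simp only [mul_assoc, Units.mul_inv, mul_one]
        _ = ((g⁻¹ : GL (Fin 2) (ZMod q)) : Matrix (Fin 2) (Fin 2) (ZMod q))
              * (-((g : Matrix (Fin 2) (Fin 2) (ZMod q)) * A0 q))
              * ((g⁻¹ : GL (Fin 2) (ZMod q)) : Matrix (Fin 2) (Fin 2) (ZMod q)) := by rw [hg']
        _ = -(A0 q * ((g⁻¹ : GL (Fin 2) (ZMod q)) : Matrix (Fin 2) (Fin 2) (ZMod q))) := by
            simp only [mul_neg, neg_mul, ← mul_assoc, Units.inv_mul, one_mul]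

theorem scalar_mem_center (g : GL (Fin 2) (ZMod q)) (c : ZMod q)
    (h : (g : Matrix (Fin 2) (Fin 2) (ZMod q)) = c • 1) :
    g ∈ Subgroup.center (GL (Fin 2) (ZMod q)) := by
  rw [Subgroup.mem_center_iff]
  intro x
  apply Units.ext
  rw [Units.val_mul, Units.val_mul, h]
  simp

theorem isPGroup_H0 {k : ℕ} (hk : q + 1 = 2 ^ k) (hq4 : q % 4 = 3) :
    IsPGroup 2 ↥((N0 q).map (QuotientGroup.mk' (Subgroup.center (GL (Fin 2) (ZMod q))))) := by
  rintro ⟨h, g, hg, rfl⟩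
  rcases hg with hg | hg
  · refine ⟨k, ?_⟩
    apply Subtype.ext
    rw [Subgroup.coe_pow, Subgroup.coe_one]
    show (QuotientGroup.mk' _ g) ^ 2 ^ k = 1
    rw [← map_pow, QuotientGroup.mk'_apply, QuotientGroup.eq_one_iff, ← hk]
    apply scalar_mem_center _ ((g : Matrix (Fin 2) (Fin 2) (ZMod q)) 0 0 ^ 2
      + (g : Matrix (Fin 2) (Fin 2) (ZMod q)) 1 0 ^ 2)
    rw [Units.val_pow_eq_pow_val]
    have := comm_form _ hg
    rw [this]
    exact torus_pow hq4 _ _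
  · refine ⟨1, ?_⟩
    apply Subtype.ext
    rw [Subgroup.coe_pow, Subgroup.coe_one]
    show (QuotientGroup.mk' _ g) ^ 2 ^ 1 = 1
    rw [← map_pow, QuotientGroup.mk'_apply, QuotientGroup.eq_one_iff, pow_one]
    apply scalar_mem_center _ ((g : Matrix (Fin 2) (Fin 2) (ZMod q)) 0 0 ^ 2
      + (g : Matrix (Fin 2) (Fin 2) (ZMod q)) 1 0 ^ 2)
    rw [Units.val_pow_eq_pow_val]
    have := anti_form _ hg
    rw [this]
    exact refl_sq _ _

theorem A0_det : (A0 q).det = 1 := by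
  simp [A0, Matrix.det_fin_two]

/-- the quarter turn as a unit -/
noncomputable def a0 (q : ℕ) [Fact q.Prime] : GL (Fin 2) (ZMod q) :=
  Matrix.GeneralLinearGroup.mkOfDetNeZero (A0 q) (by rw [A0_det]; exact one_ne_zero)

theorem a0_val : ((a0 q : GL (Fin 2) (ZMod q)) : Matrix (Fin 2) (Fin 2) (ZMod q)) = A0 q := rfl

theorem a0_not_center : a0 q ∉ Subgroup.center (GL (Fin 2) (ZMod q)) := by
  intro h
  rw [Subgroup.mem_center_iff] at h
  have h1 := h (Matrix.GeneralLinearGroup.mkOfDetNeZero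
    (!![1, 1; 0, 1] : Matrix (Fin 2) (Fin 2) (ZMod q)) (by simp [Matrix.det_fin_two]))
  have h2 := congrArg (fun u : GL (Fin 2) (ZMod q) =>
    (u : Matrix (Fin 2) (Fin 2) (ZMod q)) 0 0) h1
  simp [a0_val, A0, Matrix.mul_apply, Fin.sum_univ_two] at h2

theorem two_ne (hq4 : q % 4 = 3) : (2 : ZMod q) ≠ 0 := by
  intro h
  have h' : ((2 : ℕ) : ZMod q) = 0 := by exact_mod_cast h
  rw [ZMod.natCast_eq_zero_iff] at h'
  have := Nat.le_of_dvd (by norm_num) h'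
  interval_cases q <;> omega

theorem key (hq4 : q % 4 = 3) (g₁ g₂ : GL (Fin 2) (ZMod q)) :
    ∃ X : GL (Fin 2) (ZMod q), X ∉ Subgroup.center (GL (Fin 2) (ZMod q)) ∧
      g₁⁻¹ * X * g₁ ∈ N0 q ∧ g₂⁻¹ * X * g₂ ∈ N0 q := by
  obtain ⟨A₁, hA₁⟩ : ∃ A₁ : Matrix (Fin 2) (Fin 2) (ZMod q),
      A₁ = (g₁ : Matrix (Fin 2) (Fin 2) (ZMod q)) * A0 q
        * ((g₁⁻¹ : GL (Fin 2) (ZMod q)) : Matrix (Fin 2) (Fin 2) (ZMod q)) := ⟨_, rfl⟩
  obtain ⟨A₂, hA₂⟩ : ∃ A₂ : Matrix (Fin 2) (Fin 2) (ZMod q),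
      A₂ = (g₂ : Matrix (Fin 2) (Fin 2) (ZMod q)) * A0 q
        * ((g₂⁻¹ : GL (Fin 2) (ZMod q)) : Matrix (Fin 2) (Fin 2) (ZMod q)) := ⟨_, rfl⟩
  have hsq : ∀ g : GL (Fin 2) (ZMod q),
      ((g : Matrix (Fin 2) (Fin 2) (ZMod q)) * A0 q
        * ((g⁻¹ : GL (Fin 2) (ZMod q)) : Matrix (Fin 2) (Fin 2) (ZMod q)))
      * ((g : Matrix (Fin 2) (Fin 2) (ZMod q)) * A0 q
        * ((g⁻¹ : GL (Fin 2) (ZMod q)) : Matrix (Fin 2) (Fin 2) (ZMod q))) = -1 := by
    intro g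
    calc _ = (g : Matrix (Fin 2) (Fin 2) (ZMod q)) * (A0 q * A0 q)
          * ((g⁻¹ : GL (Fin 2) (ZMod q)) : Matrix (Fin 2) (Fin 2) (ZMod q)) := by
          simp only [mul_assoc, Units.inv_mul_cancel_left]
      _ = -1 := by
          rw [A0_sq]
          simp
  have h1 : A₁ * A₁ = -1 := by rw [hA₁]; exact hsq g₁
  have h2 : A₂ * A₂ = -1 := by rw [hA₂]; exact hsq g₂
  by_cases hX : A₁ * A₂ = A₂ * A₁
  · refine ⟨g₁ * a0 q * g₁⁻¹, ?_, ?_, ?_⟩
    · intro hc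
      apply a0_not_center (q := q)
      have h := (inferInstance : (Subgroup.center (GL (Fin 2) (ZMod q))).Normal).conj_mem _ hc g₁⁻¹
      have e : g₁⁻¹ * (g₁ * a0 q * g₁⁻¹) * g₁⁻¹⁻¹ = a0 q := by group
      rwa [e] at h
    · have e : g₁⁻¹ * (g₁ * a0 q * g₁⁻¹) * g₁ = a0 q := by group
      rw [e]
      exact Or.inl rfl
    · left
      rw [hA₂] at hX
      have := conj_comm g₂ A₁ (A0 q) hX
      rw [hA₁] at this
      exact this
  · obtain ⟨Xm, hXm⟩ : ∃ Xm : Matrix (Fin 2) (Fin 2) (ZMod q), Xm = A₁ * A₂ - A₂ * A₁ := ⟨_, rfl⟩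
    have hXne : Xm ≠ 0 := fun h => hX (sub_eq_zero.mp (hXm ▸ h))
    have ha1 : Xm * A₁ = -(A₁ * Xm) := by
      rw [hXm, sub_mul, mul_sub, mul_assoc A₂ A₁ A₁, h1, ← mul_assoc A₁ A₁ A₂, h1]
      simp only [mul_neg, mul_one, neg_mul, one_mul, mul_assoc]
      abel
    have ha2 : Xm * A₂ = -(A₂ * Xm) := by
      rw [hXm, sub_mul, mul_sub, mul_assoc A₁ A₂ A₂, h2, ← mul_assoc A₂ A₂ A₁, h2]
      simp only [mul_neg, mul_one, neg_mul, one_mul, mul_assoc]
      abel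
    rw [hA₁] at ha1
    rw [hA₂] at ha2
    have hY1 := conj_anti g₁ Xm (A0 q) ha1
    have hY2 := conj_anti g₂ Xm (A0 q) ha2
    have hdet : Xm.det ≠ 0 := by
      have hf := anti_form _ hY1
      obtain ⟨Y, hY⟩ : ∃ Y : Matrix (Fin 2) (Fin 2) (ZMod q),
          Y = ((g₁⁻¹ : GL (Fin 2) (ZMod q)) : Matrix (Fin 2) (Fin 2) (ZMod q)) * Xm
            * (g₁ : Matrix (Fin 2) (Fin 2) (ZMod q)) := ⟨_, rfl⟩
      rw [← hY] at hf
      have hYne : Y ≠ 0 := by
        intro h0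
        apply hXne
        have : Xm = (g₁ : Matrix (Fin 2) (Fin 2) (ZMod q)) * Y
            * ((g₁⁻¹ : GL (Fin 2) (ZMod q)) : Matrix (Fin 2) (Fin 2) (ZMod q)) := by
          rw [hY]
          simp only [mul_assoc, Units.mul_inv, mul_one, Units.mul_inv_cancel_left]
        rw [this, h0]
        simp
      have hab : Y 0 0 ≠ 0 ∨ Y 1 0 ≠ 0 := by
        by_contra hcon
        push Not at hcon
        apply hYne
        rw [hf, hcon.1, hcon.2]
        ext i j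
        fin_cases i <;> fin_cases j <;> simp
      have hdY : Y.det ≠ 0 := by
        rw [hf, Matrix.det_fin_two_of]
        have := sum_sq_ne hq4 _ _ hab
        intro h0
        apply this
        linear_combination -h0
      intro h0
      apply hdY
      rw [hY, Matrix.det_mul, Matrix.det_mul, h0]
      simp
    refine ⟨Matrix.GeneralLinearGroup.mkOfDetNeZero Xm hdet, ?_, ?_, ?_⟩
    · intro hc
      rw [Subgroup.mem_center_iff] at hc
      have h := hc (g₁ * a0 q * g₁⁻¹)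
      have h' : (g₁ : Matrix (Fin 2) (Fin 2) (ZMod q)) * A0 q
            * ((g₁⁻¹ : GL (Fin 2) (ZMod q)) : Matrix (Fin 2) (Fin 2) (ZMod q)) * Xm
          = Xm * ((g₁ : Matrix (Fin 2) (Fin 2) (ZMod q)) * A0 q
            * ((g₁⁻¹ : GL (Fin 2) (ZMod q)) : Matrix (Fin 2) (Fin 2) (ZMod q))) :=
        congrArg (fun u : GL (Fin 2) (ZMod q) => (u : Matrix (Fin 2) (Fin 2) (ZMod q))) h
      rw [ha1] at h'
      have h3 : (g₁ : Matrix (Fin 2) (Fin 2) (ZMod q)) * A0 q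
            * ((g₁⁻¹ : GL (Fin 2) (ZMod q)) : Matrix (Fin 2) (Fin 2) (ZMod q)) * Xm = 0 := by
        have h4 : (2 : ZMod q) • ((g₁ : Matrix (Fin 2) (Fin 2) (ZMod q)) * A0 q
            * ((g₁⁻¹ : GL (Fin 2) (ZMod q)) : Matrix (Fin 2) (Fin 2) (ZMod q)) * Xm) = 0 := by
          rw [two_smul]
          nth_rewrite 1 [h']
          simp
        exact (smul_eq_zero.mp h4).resolve_left (two_ne hq4)
      apply hXne
      have h5 : Xm = -(A₁ * (A₁ * Xm)) := by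
        rw [← mul_assoc, h1]
        simp
      rw [h5, hA₁, h3]
      simp
    · right
      exact hY1
    · right
      exact hY2

end helpers

/-- Let q = 2^k − 1 ≥ 7 be a prime and let G = PGL(2,q), the general linear group of degree 2 over the field with q elements modulo its centre. Then any two Sylow 2-subgroups of G have a non-trivial intersection: for a Sylow 2-subgroup H and every x ∈ G, H ∩ H^x ≠ 1. -/
theorem result {q k : ℕ} [Fact q.Prime] (hk : q + 1 = 2 ^ k) (hq : 7 ≤ q)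
    (H : Sylow 2 (GL (Fin 2) (ZMod q) ⧸ Subgroup.center (GL (Fin 2) (ZMod q))))
    (x : GL (Fin 2) (ZMod q) ⧸ Subgroup.center (GL (Fin 2) (ZMod q))) :
    (H : Subgroup (GL (Fin 2) (ZMod q) ⧸ Subgroup.center (GL (Fin 2) (ZMod q)))) ⊓ MulAut.conj x • (H : Subgroup _) ≠ ⊥ := by
  have hk3 : 3 ≤ k := by
    by_contra hlt
    push Not at hlt
    have : 2 ^ k ≤ 2 ^ 2 := Nat.pow_le_pow_right (by norm_num) (by omega)
    omega
  have hq4 : q % 4 = 3 := by
    obtain ⟨j, rfl⟩ : ∃ j, k = j + 2 := ⟨k - 2, by omega⟩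
    rw [pow_add] at hk
    omega
  obtain ⟨S, hS⟩ := (isPGroup_H0 hk hq4).exists_le_sylow
  obtain ⟨y, hy⟩ := MulAction.exists_smul_eq
    (GL (Fin 2) (ZMod q) ⧸ Subgroup.center (GL (Fin 2) (ZMod q))) S H
  obtain ⟨g₁, hg₁⟩ := QuotientGroup.mk'_surjective (Subgroup.center (GL (Fin 2) (ZMod q))) y
  obtain ⟨g₂, hg₂⟩ := QuotientGroup.mk'_surjective (Subgroup.center (GL (Fin 2) (ZMod q))) (x * y)
  obtain ⟨X, hXc, hX1, hX2⟩ := key hq4 g₁ g₂
  intro hbot
  have hz : QuotientGroup.mk' (Subgroup.center (GL (Fin 2) (ZMod q))) X ∈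
      (H : Subgroup (GL (Fin 2) (ZMod q) ⧸ Subgroup.center (GL (Fin 2) (ZMod q))))
        ⊓ MulAut.conj x • (H : Subgroup _) := by
    refine Subgroup.mem_inf.mpr ⟨?_, ?_⟩
    · rw [← hy, Sylow.coe_subgroup_smul]
      rw [Subgroup.mem_pointwise_smul_iff_inv_smul_mem]
      apply hS
      refine ⟨g₁⁻¹ * X * g₁, hX1, ?_⟩
      rw [← hg₁, ← map_inv, MulAut.smul_def, ← MulAut.conj_symm_apply]
      simp [MulAut.conj_symm_apply]
    · rw [← hy, Sylow.coe_subgroup_smul, smul_smul, ← map_mul]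
      rw [Subgroup.mem_pointwise_smul_iff_inv_smul_mem]
      apply hS
      refine ⟨g₂⁻¹ * X * g₂, hX2, ?_⟩
      rw [← hg₂, ← map_inv, MulAut.smul_def]
      simp [MulAut.conj_symm_apply]
  rw [hbot, Subgroup.mem_bot, QuotientGroup.mk'_apply, QuotientGroup.eq_one_iff] at hz
  exact hXc hz

end Cfsg.Agent.S2485
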