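import Mathlib
import Cfsg.Statements.S2488

set_option autoImplicit false
open scoped Pointwise
open Cfsg

namespace Cfsg.Agent.S2488

abbrev P6 := Equiv.Perm (Fin 6)

/-- the 45 even involutions of `S_6` -/
def invL : List P6 := [
  Equiv.swap 0 1 * Equiv.swap 2 3,
  Equiv.swap 0 1 * Equiv.swap 2 4,
  Equiv.swap 0 1 * Equiv.swap 2 5,
  Equiv.swap 0 1 * Equiv.swap 3 4,
  Equiv.swap 0 1 * Equiv.swap 3 5,
  Equiv.swap 0 1 * Equiv.swap 4 5,
  Equiv.swap 0 2 * Equiv.swap 1 3,
  Equiv.swap 0 2 * Equiv.swap 1 4,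
  Equiv.swap 0 2 * Equiv.swap 1 5,
  Equiv.swap 0 2 * Equiv.swap 3 4,
  Equiv.swap 0 2 * Equiv.swap 3 5,
  Equiv.swap 0 2 * Equiv.swap 4 5,
  Equiv.swap 0 3 * Equiv.swap 1 2,
  Equiv.swap 0 3 * Equiv.swap 1 4,
  Equiv.swap 0 3 * Equiv.swap 1 5,
  Equiv.swap 0 3 * Equiv.swap 2 4,
  Equiv.swap 0 3 * Equiv.swap 2 5,
  Equiv.swap 0 3 * Equiv.swap 4 5,
  Equiv.swap 0 4 * Equiv.swap 1 2,
  Equiv.swap 0 4 * Equiv.swap 1 3,
  Equiv.swap 0 4 * Equiv.swap 1 5,
  Equiv.swap 0 4 * Equiv.swap 2 3,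
  Equiv.swap 0 4 * Equiv.swap 2 5,
  Equiv.swap 0 4 * Equiv.swap 3 5,
  Equiv.swap 0 5 * Equiv.swap 1 2,
  Equiv.swap 0 5 * Equiv.swap 1 3,
  Equiv.swap 0 5 * Equiv.swap 1 4,
  Equiv.swap 0 5 * Equiv.swap 2 3,
  Equiv.swap 0 5 * Equiv.swap 2 4,
  Equiv.swap 0 5 * Equiv.swap 3 4,
  Equiv.swap 1 2 * Equiv.swap 3 4,
  Equiv.swap 1 2 * Equiv.swap 3 5,
  Equiv.swap 1 2 * Equiv.swap 4 5,
  Equiv.swap 1 3 * Equiv.swap 2 4,
  Equiv.swap 1 3 * Equiv.swap 2 5,
  Equiv.swap 1 3 * Equiv.swap 4 5,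
  Equiv.swap 1 4 * Equiv.swap 2 3,
  Equiv.swap 1 4 * Equiv.swap 2 5,
  Equiv.swap 1 4 * Equiv.swap 3 5,
  Equiv.swap 1 5 * Equiv.swap 2 3,
  Equiv.swap 1 5 * Equiv.swap 2 4,
  Equiv.swap 1 5 * Equiv.swap 3 4,
  Equiv.swap 2 3 * Equiv.swap 4 5,
  Equiv.swap 2 4 * Equiv.swap 3 5,
  Equiv.swap 2 5 * Equiv.swap 3 4]

def s0 : P6 := Equiv.swap 0 1 * Equiv.swap 2 3

/-- the cube of the product is trivial -/
def Cube {M : Type*} [Monoid M] (a b : M) : Prop := a * b * (a * b) * (a * b) = 1

instance instDecCube (a b : P6) : Decidable (Cube a b) := by unfold Cube; infer_instance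

def cubeL : List (P6 × P6) := (invL ×ˢ invL).filter (fun p => decide (Cube p.1 p.2))

def ncubeL : List (P6 × P6) := (invL ×ˢ invL).filter (fun p => decide (¬ Cube p.1 p.2))

theorem mem_cubeL (a b : P6) (ha : a ∈ invL) (hb : b ∈ invL) (h : Cube a b) : (a, b) ∈ cubeL := by
  unfold cubeL
  rw [List.mem_filter]
  exact ⟨List.mem_product.mpr ⟨ha, hb⟩, decide_eq_true h⟩

theorem mem_ncubeL (a b : P6) (ha : a ∈ invL) (hb : b ∈ invL) (h : ¬ Cube a b) : (a, b) ∈ ncubeL := by
  unfold ncubeL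
  rw [List.mem_filter]
  exact ⟨List.mem_product.mpr ⟨ha, hb⟩, decide_eq_true h⟩

set_option maxRecDepth 100000 in
theorem c1 : ∀ σ : P6, (σ * σ = 1 ∧ σ ≠ 1 ∧ Equiv.Perm.sign σ = 1) → σ ∈ invL := by decide +kernel

set_option maxRecDepth 100000 in
theorem c2 : ((Finset.univ : Finset P6).filter
    (fun σ => σ * s0 = s0 * σ ∧ Equiv.Perm.sign σ = 1)).card ≤ 8 := by decide +kernel

set_option maxRecDepth 100000 in
theorem c3a : cubeL.length = 765 := by decide +kernel

set_option maxRecDepth 100000 in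
theorem c3b : ncubeL.length = 1260 := by decide +kernel

theorem c4 : s0 * s0 = 1 ∧ s0 ≠ 1 ∧ Equiv.Perm.sign s0 = 1 := by decide +kernel

theorem cube_map {M M' F : Type*} [Monoid M] [Monoid M'] [FunLike F M M'] [MonoidHomClass F M M']
    (f : F) (hf : Function.Injective f) (a b : M) : Cube (f a) (f b) ↔ Cube a b := by
  unfold Cube
  constructor
  · intro h
    apply hf
    simp only [map_mul, map_one]
    exact h
  · intro h
    have h2 := congrArg f h
    simp only [map_mul, map_one] at h2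
    exact h2

/-- conjugation action of `G` on pairs of elements of a normal subgroup -/
@[instance_reducible]
def pairAct {G : Type*} [Group G] (N : Subgroup G) [N.Normal] : MulAction G (N × N) where
  smul g p := (MulAut.conjNormal g p.1, MulAut.conjNormal g p.2)
  one_smul p := by
    show (MulAut.conjNormal (1 : G) p.1, MulAut.conjNormal (1 : G) p.2) = p
    simp
  mul_smul g h p := by
    show (MulAut.conjNormal (g * h) p.1, MulAut.conjNormal (g * h) p.2) =
      (MulAut.conjNormal g (MulAut.conjNormal h p.1), MulAut.conjNormal g (MulAut.conjNormal h p.2))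
    simp [map_mul]

theorem orbit_bound {G : Type*} [Group G] [Finite G] (N : Subgroup G) [N.Normal] (a b : N)
    (S : Set (N × N))
    (hS : ∀ g : G, ((MulAut.conjNormal g a : N), (MulAut.conjNormal g b : N)) ∈ S)
    (K : Subgroup G)
    (hK : ∀ g : G, MulAut.conjNormal g a = a → MulAut.conjNormal g b = b → g ∈ K) :
    Nat.card G ≤ Nat.card S * Nat.card K := by
  let _ := pairAct N
  have e1 := MulAction.orbitProdStabilizerEquivGroup G ((a, b) : N × N)
  have h1 : Nat.card G = Nat.card (MulAction.orbit G ((a, b) : N × N)) *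
      Nat.card (MulAction.stabilizer G ((a, b) : N × N)) := by
    rw [← Nat.card_prod]; exact (Nat.card_congr e1).symm
  have h2 : Nat.card (MulAction.orbit G ((a, b) : N × N)) ≤ Nat.card S := by
    apply Nat.card_mono (Set.toFinite S)
    rintro _ ⟨g, rfl⟩
    exact hS g
  have h3 : Nat.card (MulAction.stabilizer G ((a, b) : N × N)) ≤ Nat.card K := by
    apply Subgroup.card_le_of_le
    intro g hg
    rw [MulAction.mem_stabilizer_iff] at hg
    have hg' : ((MulAut.conjNormal g a : N), (MulAut.conjNormal g b : N)) = (a, b) := hg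
    rw [Prod.mk.injEq] at hg'
    exact hK g hg'.1 hg'.2
  calc Nat.card G = _ := h1
    _ ≤ Nat.card S * Nat.card K := Nat.mul_le_mul h2 h3

theorem card_le_of_inj_list {α β : Type*} [DecidableEq β] (S : Set α) (l : List β) (f : α → β)
    (hf : ∀ x ∈ S, ∀ y ∈ S, f x = f y → x = y) (hl : ∀ x ∈ S, f x ∈ l) :
    Nat.card S ≤ l.length := by
  have h1 : Nat.card S ≤ Nat.card {b : β // b ∈ l.toFinset} := by
    apply Nat.card_le_card_of_injective
      (fun x : S => (⟨f x.1, List.mem_toFinset.mpr (hl x.1 x.2)⟩ : {b : β // b ∈ l.toFinset}))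
    intro x y h
    exact Subtype.ext (hf x.1 x.2 y.1 y.2 (congrArg Subtype.val h))
  have h2 : Nat.card {b : β // b ∈ l.toFinset} = l.toFinset.card := by
    rw [Nat.card_eq_fintype_card, Fintype.card_coe]
  rw [h2] at h1
  exact h1.trans (List.toFinset_card_le l)

theorem mem_cent_of_conj {G : Type*} [Group G] (N : Subgroup G) [N.Normal] (g : G) (a : N)
    (h : MulAut.conjNormal g a = a) : g ∈ Subgroup.centralizer ({(a : G)} : Set G) := by
  rw [Subgroup.mem_centralizer_iff]
  intro b hb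
  rw [Set.mem_singleton_iff] at hb
  subst hb
  have h' : g * (a : G) * g⁻¹ = a := by
    rw [← MulAut.conjNormal_apply, h]
  rw [mul_inv_eq_iff_eq_mul] at h'
  exact h'.symm

theorem conj_centralizer {G : Type*} [Group G] (g a : G) :
    MulAut.conj g • Subgroup.centralizer ({a} : Set G) =
      Subgroup.centralizer ({g * a * g⁻¹} : Set G) := by
  ext h
  rw [Subgroup.mem_pointwise_smul_iff_inv_smul_mem, Subgroup.mem_centralizer_iff,
    Subgroup.mem_centralizer_iff]
  have key : (MulAut.conj g)⁻¹ • h = g⁻¹ * h * g := by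
    rw [MulAut.smul_def, MulAut.conj_inv_apply]
  rw [key]
  constructor
  · intro hh b hb
    rw [Set.mem_singleton_iff] at hb
    subst hb
    have h2 := hh a (Set.mem_singleton a)
    have h3 := congrArg (fun t => g * t * g⁻¹) h2
    simp only [mul_assoc, mul_inv_cancel_left, mul_inv_cancel, mul_one] at h3
    simp only [mul_assoc]
    exact h3
  · intro hh b hb
    rw [Set.mem_singleton_iff] at hb
    subst hb
    have h2 := hh (g * b * g⁻¹) (Set.mem_singleton _)
    have h3 := congrArg (fun t => g⁻¹ * t * g) h2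
    simp only [mul_assoc, inv_mul_cancel_left, inv_mul_cancel, mul_one] at h3
    simp only [mul_assoc]
    exact h3

theorem cent_bound {G : Type*} [Group G] [Finite G] (N : Subgroup G) [N.Normal]
    (ψ : N →* P6) (hψinj : Function.Injective ψ)
    (hψsign : ∀ n : N, Equiv.Perm.sign (ψ n) = 1)
    (z0 : N) (hz0 : ψ z0 = s0) (hidx : N.index = 4) :
    Nat.card (Subgroup.centralizer ({(z0 : G)} : Set G)) ≤ 32 := by
  set C0 : Subgroup G := Subgroup.centralizer ({(z0 : G)} : Set G) with hC0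
  have h1 := Subgroup.card_mul_index (N.subgroupOf C0)
  have h2 : (N.subgroupOf C0).index ∣ 4 := by
    have h := Subgroup.relIndex_dvd_index_of_normal N C0
    rw [hidx] at h
    exact h
  have h2' : (N.subgroupOf C0).index ≤ 4 := Nat.le_of_dvd (by norm_num) h2
  have h3 : Nat.card (N.subgroupOf C0) ≤ 8 := by
    have hmem : ∀ x : N.subgroupOf C0, ψ ⟨((x : C0) : G), Subgroup.mem_subgroupOf.mp x.2⟩ ∈
        (Finset.univ : Finset P6).filter (fun σ => σ * s0 = s0 * σ ∧ Equiv.Perm.sign σ = 1) := by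
      intro x
      simp only [Finset.mem_filter, Finset.mem_univ, true_and]
      refine ⟨?_, hψsign _⟩
      rw [← hz0, ← map_mul, ← map_mul]
      congr 1
      apply Subtype.ext
      have hx : ((x : C0) : G) ∈ Subgroup.centralizer ({(z0 : G)} : Set G) := (x : C0).2
      rw [Subgroup.mem_centralizer_iff] at hx
      exact (hx _ (Set.mem_singleton _)).symm
    have hle : Nat.card (N.subgroupOf C0) ≤ Nat.card {σ : P6 // σ ∈ (Finset.univ : Finset P6).filter
        (fun σ => σ * s0 = s0 * σ ∧ Equiv.Perm.sign σ = 1)} := by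
      apply Nat.card_le_card_of_injective (fun x : N.subgroupOf C0 =>
        (⟨_, hmem x⟩ : {σ : P6 // σ ∈ (Finset.univ : Finset P6).filter
          (fun σ => σ * s0 = s0 * σ ∧ Equiv.Perm.sign σ = 1)}))
      intro x y h
      have h' := hψinj (congrArg Subtype.val h)
      have h'' : ((x : C0) : G) = ((y : C0) : G) := congrArg (fun n : N => (n : G)) h'
      exact Subtype.ext (Subtype.ext h'')
    have hc : Nat.card {σ : P6 // σ ∈ (Finset.univ : Finset P6).filter
        (fun σ => σ * s0 = s0 * σ ∧ Equiv.Perm.sign σ = 1)} =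
        ((Finset.univ : Finset P6).filter
          (fun σ => σ * s0 = s0 * σ ∧ Equiv.Perm.sign σ = 1)).card := by
      rw [Nat.card_eq_fintype_card, Fintype.card_coe]
    rw [hc] at hle
    exact hle.trans c2
  calc Nat.card C0 = Nat.card (N.subgroupOf C0) * (N.subgroupOf C0).index := h1.symm
    _ ≤ 8 * 4 := Nat.mul_le_mul h3 h2'
    _ = 32 := by norm_num

/-- Let G be a finite group with a normal subgroup N of index 4 isomorphic to the alternating group of degree 6 and with trivial centralizer in G (so G is the full automorphism group of A₆). Then any two Sylow 2-subgroups of G have a non-trivial intersection: for a Sylow 2-subgroup H and every x ∈ G, H ∩ H^x ≠ 1. -/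
theorem result {G : Type*} [Group G] [Finite G] (N : Subgroup G) [N.Normal]
    (e : N ≃* alternatingGroup (Fin 6)) (hidx : N.index = 4)
    (hC : Subgroup.centralizer (N : Set G) = ⊥)
    (H : Sylow 2 G) (x : G) :
    (H : Subgroup G) ⊓ MulAut.conj x • (H : Subgroup G) ≠ ⊥ := by
  have hA : Nat.card (alternatingGroup (Fin 6)) = 360 := by
    have h := two_mul_nat_card_alternatingGroup (α := Fin 6)
    rw [Nat.card_eq_fintype_card (α := Equiv.Perm (Fin 6)), Fintype.card_perm, Fintype.card_fin] at h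
    have h6 : Nat.factorial 6 = 720 := by decide
    omega
  have hN : Nat.card N = 360 := by rw [Nat.card_congr e.toEquiv, hA]
  have hG : Nat.card G = 1440 := by rw [← N.card_mul_index, hN, hidx]
  set ψ : N →* P6 := (alternatingGroup (Fin 6)).subtype.comp e.toMonoidHom with hψ
  have hψinj : Function.Injective ψ := fun a b h => e.injective (Subtype.val_injective h)
  have hψsign : ∀ n : N, Equiv.Perm.sign (ψ n) = 1 :=
    fun n => Equiv.Perm.mem_alternatingGroup.mp (e n).2
  have hψL : ∀ n : N, n ≠ 1 → n * n = 1 → ψ n ∈ invL := by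
    intro n hn1 hn2
    apply c1
    refine ⟨?_, ?_, hψsign n⟩
    · rw [← map_mul, hn2, map_one]
    · intro h
      apply hn1
      apply hψinj
      rw [h, map_one]
  obtain ⟨hs1, hs2, hs3⟩ := c4
  set z0 : N := e.symm ⟨s0, Equiv.Perm.mem_alternatingGroup.mpr hs3⟩ with hz0
  have hψz0 : ψ z0 = s0 := by
    simp [hψ, hz0]
  have hz0ne : z0 ≠ 1 := by
    intro h
    apply hs2
    rw [← hψz0, h, map_one]
  have hz0sq : z0 * z0 = 1 := by
    apply hψinj
    rw [map_mul, map_one, hψz0]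
    exact hs1
  set C0 : Subgroup G := Subgroup.centralizer ({(z0 : G)} : Set G) with hC0
  have hup : Nat.card C0 ≤ 32 := cent_bound N ψ hψinj hψsign z0 hψz0 hidx
  have hlow : 1440 ≤ 45 * Nat.card C0 := by
    rw [← hG]
    refine (orbit_bound N z0 z0 {p : N × N | p.1 ≠ 1 ∧ p.1 * p.1 = 1 ∧ p.2 = p.1} ?_ C0 ?_).trans ?_
    · intro g
      refine ⟨?_, ?_, rfl⟩
      · intro h
        apply hz0ne
        simpa using h
      · rw [← map_mul, hz0sq, map_one]
    · intro g h _
      exact mem_cent_of_conj N g z0 h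
    · apply Nat.mul_le_mul_right
      have h45 : invL.length = 45 := by decide
      rw [← h45]
      apply card_le_of_inj_list _ invL (fun p : N × N => ψ p.1)
      · rintro ⟨p1, p2⟩ ⟨_, _, hp⟩ ⟨q1, q2⟩ ⟨_, _, hq⟩ h
        have h1 : p1 = q1 := hψinj h
        simp only at hp hq
        rw [Prod.mk.injEq]
        exact ⟨h1, by rw [hp, hq, h1]⟩
      · rintro ⟨p1, p2⟩ ⟨hp1, hp2, _⟩
        exact hψL p1 hp1 hp2
  have hC0card : Nat.card C0 = 32 := by omega
  have : Fact (Nat.Prime 2) := ⟨Nat.prime_two⟩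
  have hC0p : IsPGroup 2 C0 := IsPGroup.of_card (n := 5) (by rw [hC0card]; norm_num)
  obtain ⟨P, hP⟩ := hC0p.exists_le_sylow
  have hPcard : Nat.card P ≤ 32 := by
    obtain ⟨n, hn⟩ := IsPGroup.iff_card.mp P.isPGroup'
    have hdvd : Nat.card P ∣ 1440 := hG ▸ Subgroup.card_subgroup_dvd_card (P : Subgroup G)
    rw [hn] at hdvd ⊢
    by_contra hcon
    have h6 : 6 ≤ n := by
      by_contra h
      have h5 : n ≤ 5 := by omega
      have : 2 ^ n ≤ 2 ^ 5 := Nat.pow_le_pow_right (by norm_num) h5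
      norm_num at this
      omega
    have h64 : 2 ^ 6 ∣ 1440 := (pow_dvd_pow 2 h6).trans hdvd
    norm_num at h64
  have hPeq : C0 = (P : Subgroup G) :=
    Subgroup.eq_of_le_of_card_ge hP (by rw [hC0card]; exact hPcard)
  obtain ⟨g, hg⟩ := MulAction.exists_smul_eq G P H
  set z : N := MulAut.conjNormal g z0 with hz
  set z' : N := MulAut.conjNormal x z with hz'
  have hzG : (z : G) = g * (z0 : G) * g⁻¹ := MulAut.conjNormal_apply g z0
  have hz'G : (z' : G) = x * (z : G) * x⁻¹ := MulAut.conjNormal_apply x z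
  have hHz : (H : Subgroup G) = Subgroup.centralizer ({(z : G)} : Set G) := by
    rw [← hg, Sylow.coe_subgroup_smul, ← hPeq, hC0, conj_centralizer, hzG]
  have hHz' : MulAut.conj x • (H : Subgroup G) = Subgroup.centralizer ({(z' : G)} : Set G) := by
    rw [hHz, conj_centralizer, hz'G]
  have hzne : z ≠ 1 := by
    intro h
    apply hz0ne
    simpa [hz] using h
  have hzsq : z * z = 1 := by
    rw [hz, ← map_mul, hz0sq, map_one]
  have hz'ne : z' ≠ 1 := by
    intro h
    apply hzne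
    simpa [hz'] using h
  have hz'sq : z' * z' = 1 := by
    rw [hz', ← map_mul, hzsq, map_one]
  intro hbot
  have hstab : 1440 ≤ 1260 * Nat.card (⊥ : Subgroup G) := by
    rw [← hG]
    refine (orbit_bound N z z' {p : N × N | (p.1 ≠ 1 ∧ p.1 * p.1 = 1) ∧ (p.2 ≠ 1 ∧ p.2 * p.2 = 1) ∧
      (Cube p.1 p.2 ↔ Cube z z')} ?_ ⊥ ?_).trans ?_
    · intro g'
      refine ⟨⟨?_, ?_⟩, ⟨?_, ?_⟩, ?_⟩
      · intro h
        apply hzne
        simpa using h
      · rw [← map_mul, hzsq, map_one]
      · intro h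
        apply hz'ne
        simpa using h
      · rw [← map_mul, hz'sq, map_one]
      · exact cube_map (MulAut.conjNormal g' : MulAut N) (MulAut.conjNormal g' : MulAut N).injective z z'
    · intro g' h1 h2
      rw [← hbot, Subgroup.mem_inf, hHz', hHz]
      exact ⟨mem_cent_of_conj N g' z h1, mem_cent_of_conj N g' z' h2⟩
    · apply Nat.mul_le_mul_right
      by_cases hc : Cube z z'
      · have hle : cubeL.length ≤ 1260 := by rw [c3a]; norm_num
        refine le_trans ?_ hle
        apply card_le_of_inj_list _ cubeL (fun p : N × N => (ψ p.1, ψ p.2))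
        · rintro ⟨p1, p2⟩ _ ⟨q1, q2⟩ _ h
          rw [Prod.mk.injEq] at h ⊢
          exact ⟨hψinj h.1, hψinj h.2⟩
        · rintro ⟨p1, p2⟩ ⟨⟨hp1, hp1'⟩, ⟨hp2, hp2'⟩, hp3⟩
          exact mem_cubeL _ _ (hψL p1 hp1 hp1') (hψL p2 hp2 hp2')
            ((cube_map ψ hψinj p1 p2).mpr (hp3.mpr hc))
      · have hle : ncubeL.length ≤ 1260 := by rw [c3b]
        refine le_trans ?_ hle
        apply card_le_of_inj_list _ ncubeL (fun p : N × N => (ψ p.1, ψ p.2))
        · rintro ⟨p1, p2⟩ _ ⟨q1, q2⟩ _ h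
          rw [Prod.mk.injEq] at h ⊢
          exact ⟨hψinj h.1, hψinj h.2⟩
        · rintro ⟨p1, p2⟩ ⟨⟨hp1, hp1'⟩, ⟨hp2, hp2'⟩, hp3⟩
          exact mem_ncubeL _ _ (hψL p1 hp1 hp1') (hψL p2 hp2 hp2')
            (fun hcu => hc (hp3.mp ((cube_map ψ hψinj p1 p2).mp hcu)))
  rw [Subgroup.card_bot] at hstab
  omega

end Cfsg.Agent.S2488
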