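import Cfsg.Statements.S2504
import Mathlib
import Cfsg.Agent.Lib.Helper14.AbPerm
import Cfsg.Agent.Lib.Helper14.AbAlt

set_option autoImplicit false
open Cfsg

namespace Cfsg.Agent.S2504

/-- The largest order of an abelian subgroup of the alternating group of degree n is 3^k when n = 3k, 4·3^(k−1) when n = 3k + 1, and 16·3^(k−2) when n = 3k + 2, for every k ≥ 2 (so for all degrees n ≥ 6). -/
theorem result (k : ℕ) (hk : 2 ≤ k) :
    IsGreatest {c : ℕ | ∃ A : Subgroup (alternatingGroup (Fin (3 * k))), IsMulCommutative A ∧ Nat.card A = c} (3 ^ k) ∧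
    IsGreatest {c : ℕ | ∃ A : Subgroup (alternatingGroup (Fin (3 * k + 1))), IsMulCommutative A ∧ Nat.card A = c}
      (4 * 3 ^ (k - 1)) ∧
    IsGreatest {c : ℕ | ∃ A : Subgroup (alternatingGroup (Fin (3 * k + 2))), IsMulCommutative A ∧ Nat.card A = c}
      (16 * 3 ^ (k - 2)) := by
  refine ⟨⟨?_, ?_⟩, ⟨?_, ?_⟩, ⟨?_, ?_⟩⟩
  · exact Cfsg.Agent.Lib.Helper14.AbPerm.R'_alt (Cfsg.Agent.Lib.Helper14.AbPerm.R'_pow3 k)
  · rintro c ⟨A, hA, rfl⟩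
    obtain ⟨A', hc, -, hcard⟩ := Cfsg.Agent.Lib.Helper14.AbPerm.alt_to_perm A hA
    rw [← hcard, ← Cfsg.Agent.Lib.Helper14.AbPerm.g_3k k]
    exact Cfsg.Agent.Lib.Helper14.AbPerm.ub (3 * k) Finset.univ (by simp) A' hc
      (fun _ _ x hx => absurd (Finset.mem_univ x) hx)
  · obtain ⟨j, rfl⟩ : ∃ j, k = j + 1 := ⟨k - 1, by omega⟩
    have := Cfsg.Agent.Lib.Helper14.AbPerm.R'_add Cfsg.Agent.Lib.Helper14.AbPerm.R'_four
      (Cfsg.Agent.Lib.Helper14.AbPerm.R'_pow3 j) (3 * (j + 1) + 1) (by ring)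
    rw [Nat.add_sub_cancel]
    exact Cfsg.Agent.Lib.Helper14.AbPerm.R'_alt this
  · rintro c ⟨A, hA, rfl⟩
    obtain ⟨A', hc, -, hcard⟩ := Cfsg.Agent.Lib.Helper14.AbPerm.alt_to_perm A hA
    rw [← hcard, ← Cfsg.Agent.Lib.Helper14.AbPerm.g_3k1 k (by omega)]
    exact Cfsg.Agent.Lib.Helper14.AbPerm.ub (3 * k + 1) Finset.univ (by simp) A' hc
      (fun _ _ x hx => absurd (Finset.mem_univ x) hx)
  · obtain ⟨j, rfl⟩ : ∃ j, k = j + 2 := ⟨k - 2, by omega⟩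
    have := Cfsg.Agent.Lib.Helper14.AbPerm.R'_add
      (Cfsg.Agent.Lib.Helper14.AbPerm.R'_add Cfsg.Agent.Lib.Helper14.AbPerm.R'_four
        Cfsg.Agent.Lib.Helper14.AbPerm.R'_four 8 rfl)
      (Cfsg.Agent.Lib.Helper14.AbPerm.R'_pow3 j) (3 * (j + 2) + 2) (by ring)
    have h16 : (4 * 4 : ℕ) = 16 := rfl
    rw [h16] at this
    rw [Nat.add_sub_cancel]
    exact Cfsg.Agent.Lib.Helper14.AbPerm.R'_alt this
  · rintro c ⟨A, hA, rfl⟩
    obtain ⟨A', hc, he, hcard⟩ := Cfsg.Agent.Lib.Helper14.AbPerm.alt_to_perm A hA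
    rw [← hcard]
    exact Cfsg.Agent.Lib.Helper14.AbPerm.even_ub k hk A' hc he

end Cfsg.Agent.S2504
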