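import Cfsg.Statements.S2505
import Mathlib
import Cfsg.Agent.Lib.Helper14.AbPerm

set_option autoImplicit false
open Cfsg

namespace Cfsg.Agent.S2505

/-- The largest order of an abelian subgroup of the symmetric group of degree n is 3^k when n = 3k, 4·3^(k−1) when n = 3k + 1, and 2·3^k when n = 3k + 2, for every k ≥ 1. -/
theorem result (k : ℕ) (hk : 1 ≤ k) :
    IsGreatest {c : ℕ | ∃ A : Subgroup (Equiv.Perm (Fin (3 * k))), IsMulCommutative A ∧ Nat.card A = c} (3 ^ k) ∧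
    IsGreatest {c : ℕ | ∃ A : Subgroup (Equiv.Perm (Fin (3 * k + 1))), IsMulCommutative A ∧ Nat.card A = c}
      (4 * 3 ^ (k - 1)) ∧
    IsGreatest {c : ℕ | ∃ A : Subgroup (Equiv.Perm (Fin (3 * k + 2))), IsMulCommutative A ∧ Nat.card A = c}
      (2 * 3 ^ k) := by
  refine ⟨⟨?_, ?_⟩, ⟨?_, ?_⟩, ⟨?_, ?_⟩⟩
  · exact Cfsg.Agent.Lib.Helper14.AbPerm.R_pow3 k
  · rintro c ⟨A, hA, rfl⟩
    rw [← Cfsg.Agent.Lib.Helper14.AbPerm.g_3k k]
    exact Cfsg.Agent.Lib.Helper14.AbPerm.ub_fin _ A hA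
  · obtain ⟨j, rfl⟩ : ∃ j, k = j + 1 := ⟨k - 1, by omega⟩
    have := Cfsg.Agent.Lib.Helper14.AbPerm.R_add
      (Cfsg.Agent.Lib.Helper14.AbPerm.R_base 4 (by norm_num))
      (Cfsg.Agent.Lib.Helper14.AbPerm.R_pow3 j) (3 * (j + 1) + 1) (by ring)
    rw [Nat.add_sub_cancel]
    exact this
  · rintro c ⟨A, hA, rfl⟩
    rw [← Cfsg.Agent.Lib.Helper14.AbPerm.g_3k1 k hk]
    exact Cfsg.Agent.Lib.Helper14.AbPerm.ub_fin _ A hA
  · exact Cfsg.Agent.Lib.Helper14.AbPerm.R_add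
      (Cfsg.Agent.Lib.Helper14.AbPerm.R_base 2 (by norm_num))
      (Cfsg.Agent.Lib.Helper14.AbPerm.R_pow3 k) (3 * k + 2) (by ring)
  · rintro c ⟨A, hA, rfl⟩
    rw [← Cfsg.Agent.Lib.Helper14.AbPerm.g_3k2 k]
    exact Cfsg.Agent.Lib.Helper14.AbPerm.ub_fin _ A hA

end Cfsg.Agent.S2505
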