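import Cfsg.Statements.S2514
import Mathlib

set_option autoImplicit false
open Cfsg

namespace Cfsg.Agent.S2514

def mu (X : Type*) [Group X] : Set ℕ :=
  {n : ℕ | n ∈ Set.range (orderOf : X → ℕ) ∧ ∀ m ∈ Set.range (orderOf : X → ℕ), n ∣ m → m = n}

theorem dvd_closed {X : Type*} [Group X] [Finite X] {n d : ℕ}
    (hn : n ∈ Set.range (orderOf : X → ℕ)) (hd : d ∣ n) : d ∈ Set.range (orderOf : X → ℕ) := by
  obtain ⟨g, rfl⟩ := hn
  have hpos : 0 < orderOf g := orderOf_pos g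
  obtain ⟨e, he⟩ := hd
  have he0 : e ≠ 0 := by
    rintro rfl
    rw [mul_zero] at he
    omega
  refine ⟨g ^ e, ?_⟩
  rw [orderOf_pow_of_dvd he0 (Dvd.intro_left d he.symm), he, Nat.mul_div_cancel _ (Nat.pos_of_ne_zero he0)]

theorem exists_mu {X : Type*} [Group X] [Finite X] {n : ℕ}
    (hn : n ∈ Set.range (orderOf : X → ℕ)) : ∃ b ∈ mu X, n ∣ b := by
  have hfin : (Set.range (orderOf : X → ℕ)).Finite := Set.finite_range _
  have hSfin : {b | b ∈ Set.range (orderOf : X → ℕ) ∧ n ∣ b}.Finite := hfin.subset (fun b hb => hb.1)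
  have hne : hSfin.toFinset.Nonempty := ⟨n, by simpa using hn⟩
  obtain ⟨b, hb, hmax⟩ := hSfin.toFinset.exists_max_image id hne
  rw [Set.Finite.mem_toFinset] at hb
  refine ⟨b, ⟨hb.1, ?_⟩, hb.2⟩
  intro m hm hbm
  have hmS : m ∈ hSfin.toFinset := by
    rw [Set.Finite.mem_toFinset]
    exact ⟨hm, dvd_trans hb.2 hbm⟩
  have h1 : m ≤ b := hmax m hmS
  obtain ⟨g, rfl⟩ := hm
  have h2 : b ≤ orderOf g := Nat.le_of_dvd (orderOf_pos g) hbm
  omega

theorem mem_pi {G : Type*} [Group G] [Finite G] {k n : ℕ} :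
    n ∈ Set.range (orderOf : (Fin k → G) → ℕ) ↔
      ∃ b : Fin k → ℕ, (∀ i, b i ∈ mu G) ∧ n ∣ Finset.univ.lcm b := by
  constructor
  · rintro ⟨f, rfl⟩
    choose b hb hdvd using fun i => exists_mu (X := G) (⟨f i, rfl⟩ : orderOf (f i) ∈ Set.range (orderOf : G → ℕ))
    refine ⟨b, hb, ?_⟩
    rw [Pi.orderOf]
    exact Finset.lcm_mono_fun (fun i _ => hdvd i)
  · rintro ⟨b, hb, hn⟩
    choose g hg using fun i => (hb i).1
    refine dvd_closed (X := Fin k → G) ⟨g, ?_⟩ hn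
    rw [Pi.orderOf]
    simp [hg]

theorem mem_prod {G H : Type*} [Group G] [Finite G] [Group H] [Finite H] {k n : ℕ} :
    n ∈ Set.range (orderOf : (Fin k → G) × H → ℕ) ↔
      ∃ (b : Fin k → ℕ) (c : ℕ), (∀ i, b i ∈ mu G) ∧ c ∈ mu H ∧ n ∣ Nat.lcm (Finset.univ.lcm b) c := by
  constructor
  · rintro ⟨⟨f, h⟩, rfl⟩
    choose b hb hdvd using fun i => exists_mu (X := G) (⟨f i, rfl⟩ : orderOf (f i) ∈ Set.range (orderOf : G → ℕ))
    obtain ⟨c, hc, hcd⟩ := exists_mu (X := H) (⟨h, rfl⟩ : orderOf h ∈ Set.range (orderOf : H → ℕ))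
    refine ⟨b, c, hb, hc, ?_⟩
    rw [Prod.orderOf, Pi.orderOf]
    exact Nat.lcm_dvd (dvd_trans (Finset.lcm_mono_fun (fun i _ => hdvd i)) (Nat.dvd_lcm_left _ _))
      (dvd_trans hcd (Nat.dvd_lcm_right _ _))
  · rintro ⟨b, c, hb, hc, hn⟩
    choose g hg using fun i => (hb i).1
    obtain ⟨h, hh⟩ := hc.1
    refine dvd_closed (X := (Fin k → G) × H) ⟨(g, h), ?_⟩ hn
    rw [Prod.orderOf, Pi.orderOf]
    simp [hg, hh]

theorem main {G H : Type*} [Group G] [Finite G] [Group H] [Finite H] (k : ℕ)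
    (hsub : mu H ⊆ mu G) (hfew : (mu G \ mu H).ncard < k + 1) :
    Set.range (orderOf : (Fin (k + 1) → G) → ℕ) = Set.range (orderOf : (Fin k → G) × H → ℕ) := by
  ext n
  rw [mem_pi, mem_prod]
  constructor
  · rintro ⟨b, hb, hn⟩
    have hdrop : ∀ (i : Fin (k + 1)) (c : ℕ), c ∈ mu H → b i ∣ Nat.lcm (Finset.univ.lcm (fun j => b (i.succAbove j))) c →
        ∃ (b' : Fin k → ℕ) (c : ℕ), (∀ i, b' i ∈ mu G) ∧ c ∈ mu H ∧ n ∣ Nat.lcm (Finset.univ.lcm b') c := by
      intro i c hc hi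
      refine ⟨fun j => b (i.succAbove j), c, fun j => hb _, hc, dvd_trans hn ?_⟩
      apply Finset.lcm_dvd
      intro l _
      by_cases hl : l = i
      · rw [hl]; exact hi
      · obtain ⟨l', rfl⟩ := Fin.exists_succAbove_eq hl
        exact dvd_trans (Finset.dvd_lcm (f := fun j => b (i.succAbove j)) (Finset.mem_univ l')) (Nat.dvd_lcm_left _ _)
    by_cases hex : ∃ i, b i ∈ mu H
    · obtain ⟨i, hi⟩ := hex
      exact hdrop i (b i) hi (Nat.dvd_lcm_right _ _)
    · push Not at hex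
      have hninj : ¬ Function.Injective b := by
        intro hinj
        have hfin : (mu G \ mu H).Finite :=
          ((Set.finite_range (orderOf : G → ℕ)).subset (fun x hx => hx.1)).subset Set.sdiff_subset
        have h1 : Set.range b ⊆ mu G \ mu H := by
          rintro _ ⟨i, rfl⟩
          exact ⟨hb i, hex i⟩
        have h2 := Set.ncard_le_ncard h1 hfin
        have h3 : (Set.range b).ncard = k + 1 := by
          rw [← Set.image_univ, Set.ncard_image_of_injective _ hinj, Set.ncard_univ]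
          simp
        omega
      rw [Function.Injective] at hninj
      push Not at hninj
      obtain ⟨i, j, hij, hne⟩ := hninj
      obtain ⟨c, hc, _⟩ := exists_mu (X := H) (⟨1, orderOf_one⟩ : 1 ∈ Set.range (orderOf : H → ℕ))
      apply hdrop i c hc
      obtain ⟨j', rfl⟩ := Fin.exists_succAbove_eq (Ne.symm hne)
      rw [hij]
      exact dvd_trans (Finset.dvd_lcm (f := fun j => b (i.succAbove j)) (Finset.mem_univ j')) (Nat.dvd_lcm_left _ _)
  · rintro ⟨b, c, hb, hc, hn⟩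
    refine ⟨Fin.cons c b, ?_, dvd_trans hn ?_⟩
    · intro i
      refine Fin.cases ?_ ?_ i
      · simpa using hsub hc
      · intro j
        simpa using hb j
    · apply Nat.lcm_dvd
      · apply Finset.lcm_dvd
        intro j _
        have := Finset.dvd_lcm (f := (Fin.cons c b : Fin (k + 1) → ℕ)) (Finset.mem_univ j.succ)
        simpa using this
      · have := Finset.dvd_lcm (f := (Fin.cons c b : Fin (k + 1) → ℕ)) (Finset.mem_univ 0)
        simpa using this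

theorem result {G H : Type*} [Group G] [Finite G] [Group H] [Finite H] (k : ℕ) (hk : 1 ≤ k)
    (hsub : {n : ℕ | n ∈ Set.range (orderOf : H → ℕ) ∧ ∀ m ∈ Set.range (orderOf : H → ℕ), n ∣ m → m = n} ⊆ {n : ℕ | n ∈ Set.range (orderOf : G → ℕ) ∧ ∀ m ∈ Set.range (orderOf : G → ℕ), n ∣ m → m = n})
    (hfew : ({n : ℕ | n ∈ Set.range (orderOf : G → ℕ) ∧ ∀ m ∈ Set.range (orderOf : G → ℕ), n ∣ m → m = n} \ {n : ℕ | n ∈ Set.range (orderOf : H → ℕ) ∧ ∀ m ∈ Set.range (orderOf : H → ℕ), n ∣ m → m = n}).ncard < k) :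
    Set.range (orderOf : (Fin k → G) → ℕ) = Set.range (orderOf : (Fin (k - 1) → G) × H → ℕ) := by
  obtain ⟨k', rfl⟩ : ∃ k', k = k' + 1 := ⟨k - 1, by omega⟩
  exact main k' hsub hfew

end Cfsg.Agent.S2514
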