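import Cfsg.Statements.S2516

set_option autoImplicit false
open Cfsg

namespace Cfsg.Agent.S2516

section helpers

universe u v w
variable {F : Type u} [Field F] {V : Type v} [AddCommGroup V] [Module F V]
  {G : Type w} [Group G] (ρ : Representation F G V)

theorem phi_apply (g : G) (w : Multiplicative V) :
    ((MulAutMultiplicative V).symm.toMonoidHom.comp
        ((DistribMulAction.toAddAut ((V →ₗ[F] V)ˣ) V).comp ρ.asGroupHom)) g w =
      Multiplicative.ofAdd (ρ g (Multiplicative.toAdd w)) := rfl

theorem pow_eq (x : Multiplicative V ⋊[(MulAutMultiplicative V).symm.toMonoidHom.comp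
        ((DistribMulAction.toAddAut ((V →ₗ[F] V)ˣ) V).comp ρ.asGroupHom)] G) (n : ℕ) :
    x ^ n = ⟨Multiplicative.ofAdd (∑ i ∈ Finset.range n,
      (ρ x.right ^ i) (Multiplicative.toAdd x.left)), x.right ^ n⟩ := by
  induction n with
  | zero =>
    rw [pow_zero]
    apply SemidirectProduct.ext
    · simp
    · simp
  | succ n ih =>
    rw [pow_succ, ih]
    apply SemidirectProduct.ext
    · rw [SemidirectProduct.mul_left]
      simp only [phi_apply]
      rw [Finset.sum_range_succ, ofAdd_add, map_pow]
    · rw [SemidirectProduct.mul_right, pow_succ]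

end helpers

theorem result {F : Type*} [Field F] (p : ℕ) [Fact p.Prime] [CharP F p] {V : Type*} [AddCommGroup V] [Module F V] [FiniteDimensional F V] [Nontrivial V]
    {G : Type*} [Group G] [Finite G] (ρ : Representation F G V) (g : G) :
    (∃ x : Multiplicative V ⋊[(MulAutMultiplicative V).symm.toMonoidHom.comp
        ((DistribMulAction.toAddAut ((V →ₗ[F] V)ˣ) V).comp ρ.asGroupHom)] G,
        x.right = g ∧ orderOf x = p * orderOf g) ↔
      ¬ (minpoly F (ρ g) ∣ ∑ i ∈ Finset.range (orderOf g), (Polynomial.X : Polynomial F) ^ i) := by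
  have hp : p.Prime := Fact.out
  have hk : 0 < orderOf g := orderOf_pos g
  rw [minpoly.dvd_iff]
  have haeval : Polynomial.aeval (ρ g) (∑ i ∈ Finset.range (orderOf g), (Polynomial.X : Polynomial F) ^ i) =
      ∑ i ∈ Finset.range (orderOf g), (ρ g) ^ i := by
    simp
  rw [haeval]
  have hpowk : ∀ x : Multiplicative V ⋊[(MulAutMultiplicative V).symm.toMonoidHom.comp
        ((DistribMulAction.toAddAut ((V →ₗ[F] V)ˣ) V).comp ρ.asGroupHom)] G, x.right = g →
      x ^ orderOf g = ⟨Multiplicative.ofAdd ((∑ i ∈ Finset.range (orderOf g), (ρ g) ^ i)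
        (Multiplicative.toAdd x.left)), 1⟩ := by
    intro x hx
    rw [pow_eq, hx, pow_orderOf_eq_one, LinearMap.sum_apply]
  constructor
  · rintro ⟨x, hx, hord⟩ hS
    have h1 := hpowk x hx
    rw [hS] at h1
    have h2 : x ^ orderOf g = 1 := by
      rw [h1]
      apply SemidirectProduct.ext <;> simp
    have h3 := orderOf_dvd_of_pow_eq_one h2
    rw [hord] at h3
    have h4 := Nat.le_of_dvd hk h3
    have h5 := hp.two_le
    nlinarith
  · intro hS
    obtain ⟨v, hv⟩ : ∃ v : V, (∑ i ∈ Finset.range (orderOf g), (ρ g) ^ i) v ≠ 0 := by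
      by_contra hcon
      push Not at hcon
      apply hS
      ext v
      simpa using hcon v
    refine ⟨⟨Multiplicative.ofAdd v, g⟩, rfl, ?_⟩
    set x : Multiplicative V ⋊[(MulAutMultiplicative V).symm.toMonoidHom.comp
        ((DistribMulAction.toAddAut ((V →ₗ[F] V)ˣ) V).comp ρ.asGroupHom)] G :=
      ⟨Multiplicative.ofAdd v, g⟩ with hxdef
    have h1 := hpowk x rfl
    have hne : x ^ orderOf g ≠ 1 := by
      intro h
      rw [h1] at h
      have := congrArg SemidirectProduct.left h
      simp only [SemidirectProduct.one_left] at this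
      apply hv
      exact this
    have hpk : x ^ (orderOf g * p) = 1 := by
      rw [pow_mul, h1, pow_eq]
      apply SemidirectProduct.ext
      · simp only [map_one, one_pow, SemidirectProduct.one_left]
        simp only [Module.End.one_apply, Finset.sum_const, Finset.card_range]
        rw [← Nat.cast_smul_eq_nsmul F, CharP.cast_eq_zero, zero_smul]
        rfl
      · simp
    have hdvd1 : orderOf x ∣ orderOf g * p := orderOf_dvd_of_pow_eq_one hpk
    have hdvd2 : orderOf g ∣ orderOf x := by
      apply orderOf_dvd_of_pow_eq_one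
      have h := pow_orderOf_eq_one x
      rw [pow_eq] at h
      have := congrArg SemidirectProduct.right h
      simpa using this
    obtain ⟨d, hd⟩ := hdvd2
    rw [hd] at hdvd1
    have hd' : d ∣ p := (Nat.mul_dvd_mul_iff_left hk).mp hdvd1
    rcases (Nat.dvd_prime hp).mp hd' with h | h
    · exfalso
      apply hne
      rw [h, mul_one] at hd
      rw [← hd]
      exact pow_orderOf_eq_one x
    · rw [hd, h, mul_comm]

end Cfsg.Agent.S2516
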