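import Cfsg.Statements.S2521

set_option autoImplicit false
open Cfsg

namespace Cfsg.Agent.S2521

theorem result {B : Type*} [Group B] [Finite B] (U T : Subgroup B) [U.Normal] (hU : Group.IsNilpotent ↥U) (hT : IsMulCommutative ↥T)
    (hcompl : Subgroup.IsComplement' U T) (t : B) (ht : t ∈ T) (hreg : Subgroup.centralizer ({t} : Set B) = T) (u : B) (hu : u ∈ U) :
    ∃ b : B, b * t * b⁻¹ = t * u := by
  have hdisj : Disjoint U T := hcompl.disjoint
  let f : U → U := fun v => ⟨t⁻¹ * (v : B) * t * (v : B)⁻¹, by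
    have h1 : t⁻¹ * (v : B) * t ∈ U := by
      have := ‹U.Normal›.conj_mem (v : B) v.2 t⁻¹
      simpa using this
    exact U.mul_mem h1 (U.inv_mem v.2)⟩
  have hinj : Function.Injective f := by
    intro v w hvw
    have h1 : t⁻¹ * (v : B) * t * (v : B)⁻¹ = t⁻¹ * (w : B) * t * (w : B)⁻¹ := congrArg Subtype.val hvw
    have h2 : (w : B)⁻¹ * (v : B) ∈ Subgroup.centralizer ({t} : Set B) := by
      rw [Subgroup.mem_centralizer_iff]
      intro x hx
      rw [Set.mem_singleton_iff] at hx
      subst hx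
      have h3 : (v : B) * x * (v : B)⁻¹ = (w : B) * x * (w : B)⁻¹ := by
        have := congrArg (fun y => x * y) h1
        simpa [mul_assoc] using this
      have h4 : x = (v : B)⁻¹ * ((w : B) * x * (w : B)⁻¹) * (v : B) := by
        rw [← h3]; group
      calc x * ((w : B)⁻¹ * (v : B)) = (w : B)⁻¹ * ((w : B) * x * (w : B)⁻¹) * (v : B) := by group
        _ = (w : B)⁻¹ * ((v : B) * x * (v : B)⁻¹) * (v : B) := by rw [h3]
        _ = (w : B)⁻¹ * (v : B) * x := by group
    rw [hreg] at h2
    have h5 : (w : B)⁻¹ * (v : B) ∈ U := U.mul_mem (U.inv_mem w.2) v.2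
    have h6 : (w : B)⁻¹ * (v : B) = 1 := by
      have := Subgroup.disjoint_def.mp hdisj h5 h2
      exact this
    apply Subtype.ext
    have : (v : B) = (w : B) := by
      have h7 := congrArg (fun y => (w : B) * y) h6
      simpa [mul_assoc] using h7
    exact this
  have hsurj : Function.Surjective f := Finite.surjective_of_injective hinj
  obtain ⟨v, hv⟩ := hsurj ⟨u, hu⟩
  refine ⟨(v : B), ?_⟩
  have h1 : t⁻¹ * (v : B) * t * (v : B)⁻¹ = u := congrArg Subtype.val hv
  rw [← h1]; group

end Cfsg.Agent.S2521
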