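import Cfsg.Statements.S2556
import Cfsg.Agent.Lib.Helper3.SzAut2
import Cfsg.Agent.Lib.Helper14.SzLink

set_option autoImplicit false
open Cfsg

namespace Cfsg.Agent.S2556

/-- Let S be a Sylow 2-subgroup of the Suzuki group Sz(q), q = 2ⁿ with n = 2m + 1 ≥ 3 (realised as 4 × 4 matrices over the field with q elements). Then the largest normal 2-subgroup of the automorphism group of S is elementary abelian of order 2^(n²), and the automorphism group of S has order 2^(n²) · n · (q − 1). -/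
theorem result {S : Type*} [Group S] [Finite S] (m : ℕ) (hm : 1 ≤ m)
    {F : Type*} [Field F] [Fintype F] (hF : Fintype.card F = 2 ^ (2 * m + 1))
    (P : Sylow 2 ↥(Cfsg.Lie.Sz F (2 ^ (m + 1)))) (hS : Nonempty (S ≃* ↥(P : Subgroup ↥(Cfsg.Lie.Sz F (2 ^ (m + 1)))))) :
    Cfsg.IsElementaryAbelian 2 (Cfsg.pCore 2 (MulAut S)) ∧ Nat.card ↥(Cfsg.pCore 2 (MulAut S)) = 2 ^ ((2 * m + 1) ^ 2) ∧
      Nat.card (MulAut S) = 2 ^ ((2 * m + 1) ^ 2) * ((2 * m + 1) * (2 ^ (2 * m + 1) - 1)) := by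
  obtain ⟨e⟩ := hS
  have hs := Cfsg.Agent.Lib.Helper3.Sz1.hyp_of_card hm hF
  have hp2 : Fact (Nat.Prime 2) := ⟨Nat.prime_two⟩
  obtain ⟨φ, hφ⟩ : ∃ φ : Cfsg.Sz F m ≃* Cfsg.Lie.Sz F (2 ^ (m + 1)), φ = φ :=
    ⟨Cfsg.Agent.Lib.Helper14.SzLink.szEquiv hm hF, rfl⟩
  have hrange : (P : Subgroup ↥(Cfsg.Lie.Sz F (2 ^ (m + 1)))) ≤ φ.toMonoidHom.range := by
    intro x _
    exact ⟨φ.symm x, φ.apply_symm_apply x⟩
  obtain ⟨γ, hγ⟩ := Cfsg.Agent.Lib.Helper3.Sz10.sylow_conj hm hF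
    (P.comapOfInjective φ.toMonoidHom φ.injective hrange)
  have hP0 : ∀ x : ↥(Cfsg.Sz F m), φ x ∈ (P : Subgroup ↥(Cfsg.Lie.Sz F (2 ^ (m + 1)))) ↔
      γ⁻¹ * x * γ ∈ Cfsg.Agent.Lib.Helper3.Sz6.U hm hF := fun x => hγ x
  have hmem : ∀ a b : F, φ (γ * Cfsg.Agent.Lib.Helper3.Sz6.u hm hF a b * γ⁻¹) ∈
      (P : Subgroup ↥(Cfsg.Lie.Sz F (2 ^ (m + 1)))) := by
    intro a b
    rw [hP0]
    have h1 : γ⁻¹ * (γ * Cfsg.Agent.Lib.Helper3.Sz6.u hm hF a b * γ⁻¹) * γ =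
        Cfsg.Agent.Lib.Helper3.Sz6.u hm hF a b := by group
    rw [h1]
    exact ⟨a, b, rfl⟩
  have hbij : Function.Bijective (fun p : F × F =>
      e.symm ⟨φ (γ * Cfsg.Agent.Lib.Helper3.Sz6.u hm hF p.1 p.2 * γ⁻¹), hmem p.1 p.2⟩) := by
    constructor
    · rintro ⟨a, b⟩ ⟨a', b'⟩ h
      have h1 := congrArg Subtype.val (e.symm.injective h)
      have h2 := φ.injective h1
      have h3 : Cfsg.Agent.Lib.Helper3.Sz6.u hm hF a b = Cfsg.Agent.Lib.Helper3.Sz6.u hm hF a' b' :=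
        mul_left_cancel (mul_right_cancel h2)
      have h4 := Cfsg.Agent.Lib.Helper3.Sz6.u_inj hm hF h3
      exact Prod.ext h4.1 h4.2
    · intro x
      have h1 : φ (φ.symm (e x).1) ∈ (P : Subgroup ↥(Cfsg.Lie.Sz F (2 ^ (m + 1)))) := by
        rw [φ.apply_symm_apply]
        exact (e x).2
      rw [hP0] at h1
      obtain ⟨a, b, hab⟩ := h1
      refine ⟨(a, b), ?_⟩
      apply e.injective
      rw [e.apply_symm_apply]
      apply Subtype.ext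
      show φ (γ * Cfsg.Agent.Lib.Helper3.Sz6.u hm hF a b * γ⁻¹) = (e x).1
      rw [← hab]
      have h2 : γ * (γ⁻¹ * φ.symm (e x).1 * γ) * γ⁻¹ = φ.symm (e x).1 := by group
      rw [h2, φ.apply_symm_apply]
  have hmul : ∀ a b c d : F,
      e.symm ⟨φ (γ * Cfsg.Agent.Lib.Helper3.Sz6.u hm hF c d * γ⁻¹), hmem c d⟩ *
        e.symm ⟨φ (γ * Cfsg.Agent.Lib.Helper3.Sz6.u hm hF a b * γ⁻¹), hmem a b⟩ =
      e.symm ⟨φ (γ * Cfsg.Agent.Lib.Helper3.Sz6.u hm hF (a + c) (b + d + c ^ 2 ^ (m + 1) * a) * γ⁻¹),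
        hmem _ _⟩ := by
    intro a b c d
    rw [← map_mul]
    congr 1
    apply Subtype.ext
    show φ (γ * Cfsg.Agent.Lib.Helper3.Sz6.u hm hF c d * γ⁻¹) *
        φ (γ * Cfsg.Agent.Lib.Helper3.Sz6.u hm hF a b * γ⁻¹) =
      φ (γ * Cfsg.Agent.Lib.Helper3.Sz6.u hm hF (a + c) (b + d + c ^ 2 ^ (m + 1) * a) * γ⁻¹)
    rw [← map_mul, ← Cfsg.Agent.Lib.Helper3.Sz6.u_mul hm hF a b c d]
    congr 1
    group
  exact Cfsg.Agent.Lib.Helper3.SzAut2.main hm hF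
    { u := fun a b => e.symm ⟨φ (γ * Cfsg.Agent.Lib.Helper3.Sz6.u hm hF a b * γ⁻¹), hmem a b⟩
      hs := hs
      bij := hbij
      mul := hmul }

end Cfsg.Agent.S2556
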