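import Cfsg.Statements.S2597
import Mathlib
import Cfsg.Agent.S2595
import Cfsg.Agent.Lib.Helper15.StdForms
import Cfsg.Agent.Lib.Helper13.OmegaCount

set_option autoImplicit false
open Cfsg

namespace Cfsg.Agent.S2597

open Cfsg.Agent.Lib.Helper15.StdForms (plusQF plus_nondeg)
open Cfsg.Agent.Lib.Helper13.OmegaCount (omega_count)

theorem result {F : Type*} [Field F] [Fintype F] [CharP F 2] {m : ℕ} (hm : 1 ≤ m) (h : Fintype.card F ≠ 2 ∨ m ≠ 2) : Nat.card {C : ConjClasses ↥(Cfsg.Omega F (Cfsg.quadFormPlus m F)) // ∃ g : ↥(Cfsg.Omega F (Cfsg.quadFormPlus m F)), ConjClasses.mk g = C ∧ orderOf g = 2} = 2 * (m / 2) + (if Even m then 1 else 0) := by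
  have hcard : Fintype.card (Fin m ⊕ Fin m) = 2 * m := by
    rw [Fintype.card_sum, Fintype.card_fin]
    omega
  have hc : Fintype.card F ≠ 2 ∨ Fintype.card (Fin m ⊕ Fin m) ≠ 4 := by
    rcases h with h | h
    · exact Or.inl h
    · right
      rw [hcard]
      omega
  have key : Nat.card {C : ConjClasses ↥(Cfsg.Omega F (Cfsg.quadFormPlus m F)) //
      ∃ g : ↥(Cfsg.Omega F (Cfsg.quadFormPlus m F)), ConjClasses.mk g = C ∧ orderOf g = 2} =
      m / 2 + (m - 1) / 2 + (if Even m then 2 else 0) :=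
    omega_count (plusQF m F) (plus_nondeg m) hc m hm hcard
      (fun k hk0 hk => Cfsg.Agent.S2595.ex_B k hk0 hk)
      (fun r hr => Cfsg.Agent.S2595.ex_A r hr)
  rw [key]
  split_ifs with hev
  · obtain ⟨c, rfl⟩ := hev
    omega
  · rw [Nat.not_even_iff_odd] at hev
    obtain ⟨c, rfl⟩ := hev
    omega

end Cfsg.Agent.S2597
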