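import Cfsg.Statements.S2598
import Mathlib
import Cfsg.Agent.S2596
import Cfsg.Agent.Lib.Helper15.StdForms
import Cfsg.Agent.Lib.Helper15.OrthGen
import Cfsg.Agent.Lib.Helper13.OmegaMinus

set_option autoImplicit false
open Cfsg

namespace Cfsg.Agent.S2598

open Matrix
open Cfsg.Agent.Lib.Helper15.StdForms (minusQF minus_nondeg)
open Cfsg.Agent.Lib.Helper13.OrthInv (pf)
open Cfsg.Agent.Lib.Helper13.OmegaMinus (omega_minus_count Gen NoPlane cd_w)

theorem gen_minus {F : Type*} [Field F] [Fintype F] [CharP F 2] {m : ℕ} (a b : F)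
    (hab : ∀ z₁ z₂ : F, z₁ ^ 2 + a * z₁ * z₂ + b * z₂ ^ 2 = 0 → z₁ = 0 ∧ z₂ = 0) :
    Gen (minusQF (m - 1) F a b) := by
  classical
  have hQ := minus_nondeg (F := F) (m - 1) a b hab
  have hnd : ∀ x, (∀ y, QuadraticMap.polar ⇑(minusQF (m - 1) F a b) x y = 0) → x = 0 :=
    fun x hx => hQ.1 x hx
  by_cases hc : Fintype.card F ≠ 2 ∨ Fintype.card ((Fin (m - 1) ⊕ Fin (m - 1)) ⊕ Fin 2) ≠ 4
  · exact fun g => Cfsg.Agent.Lib.Helper15.OrthGen.cd_all _ hnd hc g
  · have h4 : Fintype.card ((Fin (m - 1) ⊕ Fin (m - 1)) ⊕ Fin 2) = 4 := by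
      by_contra h
      exact hc (Or.inr h)
    rw [Fintype.card_sum, Fintype.card_sum, Fintype.card_fin, Fintype.card_fin] at h4
    apply cd_w _ hnd
    intro x y hx hy hxy hx0
    by_contra hno
    have hli : LinearIndependent F ![x, y] := by
      rw [LinearIndependent.pair_iff' hx0]
      intro c hc'
      exact hno ⟨c, hc'.symm⟩
    have hb := Cfsg.Agent.S2596.ts_bound hab ![x, y] hli
      (by
        intro i j
        fin_cases i <;> fin_cases j
        · exact Cfsg.Agent.Lib.Helper15.CD2.polar_self0 _ x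
        · exact hxy
        · show QuadraticMap.polar ⇑(minusQF (m - 1) F a b) y x = 0
          rw [QuadraticMap.polar_comm]
          exact hxy
        · exact Cfsg.Agent.Lib.Helper15.CD2.polar_self0 _ y)
      (by
        intro i
        fin_cases i
        · exact hx
        · exact hy)
    rw [Fintype.card_fin] at hb
    omega

theorem result {F : Type*} [Field F] [Fintype F] [CharP F 2] {m : ℕ} (hm : 1 ≤ m) (a b : F) (hab : ∀ z₁ z₂ : F, z₁ ^ 2 + a * z₁ * z₂ + b * z₂ ^ 2 = 0 → z₁ = 0 ∧ z₂ = 0) : Nat.card {C : ConjClasses ↥(Cfsg.Omega F (Cfsg.quadFormMinus (m - 1) F a b)) // ∃ g : ↥(Cfsg.Omega F (Cfsg.quadFormMinus (m - 1) F a b)), ConjClasses.mk g = C ∧ orderOf g = 2} = m / 2 + (m - 1) / 2 := by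
  have hcard : Fintype.card ((Fin (m - 1) ⊕ Fin (m - 1)) ⊕ Fin 2) = 2 * m := by
    rw [Fintype.card_sum, Fintype.card_sum, Fintype.card_fin, Fintype.card_fin]
    omega
  rw [← Cfsg.Agent.Lib.Helper15.StdForms.coe_minusQF (m - 1) a b]
  exact omega_minus_count (minusQF (m - 1) F a b) (minus_nondeg (F := F) (m - 1) a b hab)
    (gen_minus a b hab) m hm hcard
    (fun k hk0 hk => by
      obtain ⟨M, h⟩ := Cfsg.Agent.S2596.ex_B (F := F) (k := m - 1) hab (k - 1) (by omega)
      have e : k - 1 + 1 = k := by omega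
      rw [e] at h
      exact ⟨M, h⟩)
    (fun r hr => Cfsg.Agent.S2596.ex_A (F := F) (k := m - 1) hab r hr)
    (fun r w hli hti hq => by
      have hb := Cfsg.Agent.S2596.ts_bound hab w hli hti hq
      rw [Fintype.card_sum, Fintype.card_fin] at hb
      exact hb)

end Cfsg.Agent.S2598
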