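import Cfsg.Statements.S2680
import Mathlib
import Cfsg.Agent.S2166
import Cfsg.Agent.Lib.Helper13.CentCount
import Cfsg.Agent.Lib.Helper13.SpCent
import Cfsg.Agent.Lib.Helper13.SpCent2
import Cfsg.Agent.Lib.Helper13.SymOrth

set_option autoImplicit false
open Cfsg

namespace Cfsg.Agent.S2680

open Matrix
open Cfsg.Agent.S5645 (symp_isAlt)
open Cfsg.Agent.Lib.Helper28.Herm (Isom)
open Cfsg.Agent.Lib.Helper13.CentCount
open Cfsg.Agent.Lib.Helper13.SpCent
open Cfsg.Agent.Lib.Helper13.SpCent2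
open Cfsg.Agent.Lib.Helper13.SymOrth (oc card_ps_refl oc_odd_even)

/-- the centraliser order of a non-alternating involution in terms of `oc` -/
theorem cent_B {F : Type*} [Field F] [Fintype F] [CharP F 2] {q : ℕ} (hF : Fintype.card F = q)
    {m s : ℕ} (t : Matrix.symplecticGroup (Fin m) F) (ht : t ^ 2 = 1)
    (hs : ((t : Matrix (Fin m ⊕ Fin m) (Fin m ⊕ Fin m) F) - 1).rank = s)
    (hP : ¬ ∀ v : Fin m ⊕ Fin m → F, Cfsg.sympForm m F v
      ((t : Matrix (Fin m ⊕ Fin m) (Fin m ⊕ Fin m) F) *ᵥ v) = 0) :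
    s ≤ m ∧ 0 < s ∧
    Nat.card ↥(Subgroup.centralizer ({t} : Set ↥(Matrix.symplecticGroup (Fin m) F))) =
      oc F s * (q ^ (2 * m * s - (3 * s ^ 2 - s) / 2 + (m - s) ^ 2) *
        ∏ i ∈ Finset.range (m - s), (q ^ (2 * (i + 1)) - 1)) := by
  classical
  have h2 : (2 : F) = 0 := CharTwo.two_eq_zero
  have hf := symp_isAlt m (F := F)
  have haa : t * t = 1 := by rw [← pow_two]; exact ht
  obtain ⟨k, u, hli, hti, hform, hrk⟩ := Cfsg.Agent.S2166.dataB t haa hP
  have hsk : s = k := by rw [← hs, hrk]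
  subst hsk
  have hfr : IsFrame (Cfsg.sympForm m F) u := ⟨hli, hti⟩
  have ht' : ∀ y, ((sp2gl t : GL (Fin m ⊕ Fin m) F) : Matrix (Fin m ⊕ Fin m) (Fin m ⊕ Fin m) F) *ᵥ y =
      y + nop (Cfsg.sympForm m F) (Equiv.refl (Fin s)) u y := by
    intro y
    have h := hform y
    rw [Cfsg.Agent.S2166.invGL_coe] at h
    rw [sp2gl_coe, h]
    rfl
  have hmain := cent_main hf (Equiv.refl (Fin s)) u hfr (sp2gl t) ht'
  rw [← card_cent t, card_ps_refl, card_isom hF m, frame_card' hf, Fintype.card_sum,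
    Fintype.card_fin, Fintype.card_fin, hF] at hmain
  have hq : 2 ≤ q := by
    rw [← hF]
    exact Fintype.one_lt_card
  have hN : 0 < oc F s := by
    rcases Nat.eq_zero_or_pos (oc F s) with h0 | hpos
    · rw [h0, zero_mul] at hmain
      have hC : 0 < Nat.card ↥(Subgroup.centralizer ({t} : Set ↥(Matrix.symplecticGroup (Fin m) F))) :=
        Nat.card_pos
      have h3 : ∏ i ∈ Finset.range s, (q ^ (m + m - i) - q ^ i) = 0 := by
        rcases Nat.mul_eq_zero.mp hmain with h | h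
        · omega
        · exact h
      -- then the frame type is empty, but `u` is a frame
      have h4 := frame_card' (F := F) hf (κ := Fin s)
      rw [Fintype.card_sum, Fintype.card_fin, Fintype.card_fin, hF, h3] at h4
      have : Nonempty {w : Fin s → (Fin m ⊕ Fin m) → F // IsFrame (Cfsg.sympForm m F) w} :=
        ⟨⟨u, hfr⟩⟩
      have h5 : 0 < Nat.card {w : Fin s → (Fin m ⊕ Fin m) → F // IsFrame (Cfsg.sympForm m F) w} :=
        Nat.card_pos
      omega
    · exact hpos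
  obtain ⟨hsm, hC⟩ := cent_formula q m s _ _ hq hN hmain
  refine ⟨hsm, ?_, hC⟩
  rcases Nat.eq_zero_or_pos s with h0 | hpos
  · exfalso
    subst h0
    apply hP
    intro v
    have h := hform v
    rw [Cfsg.Agent.S2166.invGL_coe] at h
    rw [h, Finset.univ_eq_empty, Finset.sum_empty, add_zero]
    exact hf.self v
  · exact hpos

theorem result {F : Type*} [Field F] [Fintype F] [CharP F 2] {q : ℕ} (hF : Fintype.card F = q) {m s : ℕ} (t : Matrix.symplecticGroup (Fin m) F) (ht : t ^ 2 = 1) (hs : ((t : Matrix (Fin m ⊕ Fin m) (Fin m ⊕ Fin m) F) - 1).rank = s) (hodd : Odd s) : Nat.card ↥(Subgroup.centralizer ({t} : Set ↥(Matrix.symplecticGroup (Fin m) F))) = q ^ (2 * m * s - (3 * s ^ 2 - s) / 2) * ((q : ℕ) ^ (((s - 1) / 2) ^ 2) * ∏ i : Fin ((s - 1) / 2), (q ^ (2 * ((i : ℕ) + 1)) - 1)) * ((q : ℕ) ^ ((m - s) ^ 2) * ∏ i : Fin (m - s), (q ^ (2 * ((i : ℕ) + 1)) - 1)) := by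
  classical
  have haa : t * t = 1 := by rw [← pow_two]; exact ht
  have hP : ¬ ∀ v : Fin m ⊕ Fin m → F, Cfsg.sympForm m F v
      ((t : Matrix (Fin m ⊕ Fin m) (Fin m ⊕ Fin m) F) *ᵥ v) = 0 := by
    intro halt
    obtain ⟨r, u, v, hli, hti, hform, hrk⟩ := Cfsg.Agent.S2166.dataA t haa halt
    rw [hs] at hrk
    rw [hrk] at hodd
    exact (Nat.not_even_iff_odd.mpr hodd) ⟨r, rfl⟩
  obtain ⟨hsm, hpos, hC⟩ := cent_B hF t ht hs hP
  obtain ⟨j, rfl⟩ := hodd
  rw [hC, (oc_odd_even (F := F) j).1, hF, Finset.prod_range, Finset.prod_range]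
  have e : (2 * j + 1 - 1) / 2 = j := by omega
  rw [e, pow_add]
  ring

end Cfsg.Agent.S2680
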