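import Cfsg.Statements.S2681
import Mathlib
import Cfsg.Agent.S2166
import Cfsg.Agent.Lib.Helper13.CentCount
import Cfsg.Agent.Lib.Helper13.SpCent

set_option autoImplicit false
open Cfsg

namespace Cfsg.Agent.S2681

open Matrix
open Cfsg.Agent.S5645 (symp_isAlt)
open Cfsg.Agent.Lib.Helper28.Herm (Isom)
open Cfsg.Agent.Lib.Helper13.CentCount
open Cfsg.Agent.Lib.Helper13.SpCent

theorem expo (m r : ℕ) (hr : r + r ≤ m) :
    2 * m * (r + r) - (3 * (r + r) ^ 2 - (r + r)) / 2 + (m - (r + r)) ^ 2 + tri (r + r) = m ^ 2 := by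
  obtain ⟨d, rfl⟩ := Nat.exists_eq_add_of_le hr
  have hT := tri_two (r + r)
  obtain ⟨T, hTdef⟩ : ∃ T, T = tri (r + r) := ⟨_, rfl⟩
  rw [← hTdef] at hT ⊢
  have h1 : (3 * (r + r) ^ 2 - (r + r)) / 2 = (r + r) ^ 2 + T := by
    apply Nat.div_eq_of_eq_mul_left (by norm_num)
    rcases Nat.eq_zero_or_pos r with h0 | hpos
    · subst h0
      simp at hT
      simp [hT]
    · obtain ⟨n, rfl⟩ : ∃ n, r = n + 1 := ⟨r - 1, by omega⟩
      have e : n + 1 + (n + 1) - 1 = 2 * n + 1 := by omega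
      rw [e] at hT
      have h3 : 3 * (n + 1 + (n + 1)) ^ 2 = ((n + 1 + (n + 1)) ^ 2 + T) * 2 + (n + 1 + (n + 1)) := by
        nlinarith [hT]
      omega
  have h2 : r + r + d - (r + r) = d := by omega
  rw [h1, h2]
  have hTle : T ≤ (r + r) ^ 2 := by
    have : (r + r) * (r + r - 1) ≤ (r + r) * (r + r) := Nat.mul_le_mul_left _ (by omega)
    nlinarith [hT]
  have e1 : 2 * (r + r + d) * (r + r) = (r + r) ^ 2 + (r + r) ^ 2 + 2 * d * (r + r) := by ring
  have e2 : (r + r + d) ^ 2 = (r + r) ^ 2 + 2 * d * (r + r) + d ^ 2 := by ring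
  omega

theorem result {F : Type*} [Field F] [Fintype F] [CharP F 2] {q : ℕ} (hF : Fintype.card F = q) {m s : ℕ} (t : Matrix.symplecticGroup (Fin m) F) (ht : t ^ 2 = 1) (ht1 : t ≠ 1) (hs : ((t : Matrix (Fin m ⊕ Fin m) (Fin m ⊕ Fin m) F) - 1).rank = s) (heven : Even s) (halt : ∀ v : Fin m ⊕ Fin m → F, Cfsg.sympForm m F v ((t : Matrix (Fin m ⊕ Fin m) (Fin m ⊕ Fin m) F).mulVec v) = 0) : Nat.card ↥(Subgroup.centralizer ({t} : Set ↥(Matrix.symplecticGroup (Fin m) F))) = q ^ (2 * m * s - (3 * s ^ 2 - s) / 2) * ((q : ℕ) ^ ((s / 2) ^ 2) * ∏ i : Fin (s / 2), (q ^ (2 * ((i : ℕ) + 1)) - 1)) * ((q : ℕ) ^ ((m - s) ^ 2) * ∏ i : Fin (m - s), (q ^ (2 * ((i : ℕ) + 1)) - 1)) := by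
  classical
  have h2 : (2 : F) = 0 := CharTwo.two_eq_zero
  have hf := symp_isAlt m (F := F)
  have haa : t * t = 1 := by rw [← pow_two]; exact ht
  obtain ⟨r, u, v, hli, hti, hform, hrk⟩ := Cfsg.Agent.S2166.dataA t haa halt
  have hsr : s = r + r := by rw [← hs, hrk]
  subst hsr
  have hfr : IsFrame (Cfsg.sympForm m F) (Sum.elim u v) := ⟨hli, hti⟩
  have ht' : ∀ y, ((sp2gl t : GL (Fin m ⊕ Fin m) F) : Matrix (Fin m ⊕ Fin m) (Fin m ⊕ Fin m) F) *ᵥ y =
      y + nop (Cfsg.sympForm m F) (Equiv.sumComm (Fin r) (Fin r)) (Sum.elim u v) y := by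
    intro y
    have h := hform y
    rw [Cfsg.Agent.S2166.invGL_coe] at h
    rw [sp2gl_coe, h]
    congr 1
    unfold nop
    rw [Fintype.sum_sum_type, Finset.sum_add_distrib, add_comm]
    rfl
  have hmain := cent_main hf (Equiv.sumComm (Fin r) (Fin r)) (Sum.elim u v) hfr (sp2gl t) ht'
  rw [← card_cent t, card_ps h2 hF r, card_isom hF m, frame_card' hf, Fintype.card_sum,
    Fintype.card_fin, Fintype.card_sum, Fintype.card_fin, hF] at hmain
  -- bound on the rank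
  have hrm : r + r ≤ m := by
    have hpos : 0 < Nat.card ↥(Subgroup.centralizer ({t} : Set ↥(Matrix.symplecticGroup (Fin m) F))) :=
      Nat.card_pos
    by_contra hlt
    have hz : ∏ i ∈ Finset.range (r + r), (q ^ (m + m - i) - q ^ i) = 0 := by
      apply Finset.prod_eq_zero (i := m) (Finset.mem_range.mpr (by omega))
      have : m + m - m = m := by omega
      rw [this, Nat.sub_self]
    rw [hz, mul_zero] at hmain
    have hq : 0 < q := by rw [← hF]; exact Fintype.card_pos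
    have h1 : 0 < q ^ (m ^ 2) * ∏ i ∈ Finset.range m, (q ^ (2 * (i + 1)) - 1) := by
      rw [← card_isom hF m]
      have : Nonempty {g : GL (Fin m ⊕ Fin m) F // Isom (Cfsg.sympForm m F) g} :=
        ⟨spIso (1 : ↥(Matrix.symplecticGroup (Fin m) F))⟩
      exact Nat.card_pos
    have h3 : 0 < q ^ (r ^ 2) * ∏ i ∈ Finset.range r, (q ^ (2 * (i + 1)) - 1) := by
      rw [← card_ps h2 hF r]
      have : Nonempty {A : Matrix (Fin r ⊕ Fin r) (Fin r ⊕ Fin r) F //
          PS (Equiv.sumComm (Fin r) (Fin r)) A} :=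
        ⟨⟨1, (ps_symp h2 r 1).mpr (Submonoid.one_mem _)⟩⟩
      exact Nat.card_pos
    have := Nat.mul_pos h3 h1
    omega
  have hA := arith q m (r + r) hrm
    (2 * m * (r + r) - (3 * (r + r) ^ 2 - (r + r)) / 2 + (m - (r + r)) ^ 2) (expo m r hrm)
  rw [← hA, ← mul_assoc] at hmain
  have hX : 0 < ∏ i ∈ Finset.range (r + r), (q ^ (m + m - i) - q ^ i) := by
    apply Nat.pos_of_ne_zero
    intro hz
    rw [hz, zero_mul] at hA
    have hq : 0 < q := by rw [← hF]; exact Fintype.card_pos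
    have h1 : 0 < q ^ (m ^ 2) * ∏ i ∈ Finset.range m, (q ^ (2 * (i + 1)) - 1) := by
      rw [← card_isom hF m]
      have : Nonempty {g : GL (Fin m ⊕ Fin m) F // Isom (Cfsg.sympForm m F) g} :=
        ⟨spIso (1 : ↥(Matrix.symplecticGroup (Fin m) F))⟩
      exact Nat.card_pos
    omega
  have hfin : Nat.card ↥(Subgroup.centralizer ({t} : Set ↥(Matrix.symplecticGroup (Fin m) F))) =
      q ^ (r ^ 2) * (∏ i ∈ Finset.range r, (q ^ (2 * (i + 1)) - 1)) *
        (q ^ (2 * m * (r + r) - (3 * (r + r) ^ 2 - (r + r)) / 2 + (m - (r + r)) ^ 2) *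
          ∏ i ∈ Finset.range (m - (r + r)), (q ^ (2 * (i + 1)) - 1)) := by
    apply Nat.eq_of_mul_eq_mul_right hX
    rw [hmain]
    ring
  rw [hfin, Finset.prod_range, Finset.prod_range]
  have e : (r + r) / 2 = r := by omega
  rw [e, pow_add]
  ring

end Cfsg.Agent.S2681
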