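import Cfsg.Statements.S2682
import Mathlib
import Cfsg.Agent.S2680
import Cfsg.Agent.Lib.Helper13.SpCent2
import Cfsg.Agent.Lib.Helper13.SymOrth

set_option autoImplicit false
open Cfsg

namespace Cfsg.Agent.S2682

open Matrix
open Cfsg.Agent.Lib.Helper13.SpCent2
open Cfsg.Agent.Lib.Helper13.SymOrth (oc oc_odd_even)

theorem result {F : Type*} [Field F] [Fintype F] [CharP F 2] {q : ℕ} (hF : Fintype.card F = q) {m s : ℕ} (t : Matrix.symplecticGroup (Fin m) F) (ht : t ^ 2 = 1) (hs : ((t : Matrix (Fin m ⊕ Fin m) (Fin m ⊕ Fin m) F) - 1).rank = s) (heven : Even s) (hna : ∃ v : Fin m ⊕ Fin m → F, Cfsg.sympForm m F v ((t : Matrix (Fin m ⊕ Fin m) (Fin m ⊕ Fin m) F).mulVec v) ≠ 0) : Nat.card ↥(Subgroup.centralizer ({t} : Set ↥(Matrix.symplecticGroup (Fin m) F))) = q ^ (2 * m * s - (3 * s ^ 2 - 3 * s) / 2 - 1) * ((q : ℕ) ^ (((s - 2) / 2) ^ 2)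 * ∏ i : Fin ((s - 2) / 2), (q ^ (2 * ((i : ℕ) + 1)) - 1)) * ((q : ℕ) ^ ((m - s) ^ 2) * ∏ i : Fin (m - s), (q ^ (2 * ((i : ℕ) + 1)) - 1)) := by
  classical
  have hP : ¬ ∀ v : Fin m ⊕ Fin m → F, Cfsg.sympForm m F v
      ((t : Matrix (Fin m ⊕ Fin m) (Fin m ⊕ Fin m) F) *ᵥ v) = 0 := by
    intro halt
    obtain ⟨v, hv⟩ := hna
    exact hv (halt v)
  obtain ⟨hsm, hpos, hC⟩ := Cfsg.Agent.S2680.cent_B hF t ht hs hP
  obtain ⟨j, hj⟩ : ∃ j, s = 2 * j + 2 := by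
    obtain ⟨c, hc⟩ := heven
    exact ⟨c - 1, by omega⟩
  have hex := expo2 m s hsm (by omega)
  subst hj
  rw [hC, (oc_odd_even (F := F) j).2, hF, Finset.prod_range, Finset.prod_range]
  have e : (2 * j + 2 - 2) / 2 = j := by omega
  have e' : 2 * j + 2 - 1 = 2 * j + 1 := by omega
  rw [e'] at hex
  rw [e]
  have key : q ^ (2 * m * (2 * j + 2) - (3 * (2 * j + 2) ^ 2 - 3 * (2 * j + 2)) / 2 - 1) *
      q ^ ((m - (2 * j + 2)) ^ 2) = q ^ (2 * j + 1) *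
      q ^ (2 * m * (2 * j + 2) - (3 * (2 * j + 2) ^ 2 - (2 * j + 2)) / 2 + (m - (2 * j + 2)) ^ 2) := by
    rw [← pow_add, ← pow_add, hex]
  calc q ^ (2 * j + 1) * (q ^ j ^ 2 * ∏ i : Fin j, (q ^ (2 * ((i : ℕ) + 1)) - 1)) *
        (q ^ (2 * m * (2 * j + 2) - (3 * (2 * j + 2) ^ 2 - (2 * j + 2)) / 2 + (m - (2 * j + 2)) ^ 2) *
          ∏ i : Fin (m - (2 * j + 2)), (q ^ (2 * ((i : ℕ) + 1)) - 1))
      = (q ^ (2 * j + 1) *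
        q ^ (2 * m * (2 * j + 2) - (3 * (2 * j + 2) ^ 2 - (2 * j + 2)) / 2 + (m - (2 * j + 2)) ^ 2)) *
        ((q ^ j ^ 2 * ∏ i : Fin j, (q ^ (2 * ((i : ℕ) + 1)) - 1)) *
          ∏ i : Fin (m - (2 * j + 2)), (q ^ (2 * ((i : ℕ) + 1)) - 1)) := by ring
    _ = (q ^ (2 * m * (2 * j + 2) - (3 * (2 * j + 2) ^ 2 - 3 * (2 * j + 2)) / 2 - 1) *
      q ^ ((m - (2 * j + 2)) ^ 2)) *
        ((q ^ j ^ 2 * ∏ i : Fin j, (q ^ (2 * ((i : ℕ) + 1)) - 1)) *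
          ∏ i : Fin (m - (2 * j + 2)), (q ^ (2 * ((i : ℕ) + 1)) - 1)) := by rw [key]
    _ = _ := by ring

end Cfsg.Agent.S2682
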