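import Cfsg.Statements.S2739
import Mathlib
import Cfsg.Agent.S2550

set_option autoImplicit false
open scoped Pointwise
open Cfsg

namespace Cfsg.Agent.S2739
open Matrix

theorem ch3 {F : Type*} [Field F] (K : Matrix (Fin 3) (Fin 3) F) :
    K * K * K = (K 0 0 + K 1 1 + K 2 2) • (K * K)
      - (K 0 0 * K 1 1 - K 0 1 * K 1 0 + (K 0 0 * K 2 2 - K 0 2 * K 2 0)
          + (K 1 1 * K 2 2 - K 1 2 * K 2 1)) • K
      + K.det • 1 := by
  rw [Matrix.det_fin_three]
  ext i j
  fin_cases i <;> fin_cases j <;> simp [Matrix.mul_apply, Fin.sum_univ_three] <;> ring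

theorem exists_omega {F : Type*} [Field F] [Fintype F] (hF : Fintype.card F = 4) :
    ∃ ω : F, ω * ω + ω + 1 = 0 := by
  have h3 : 2 < Fintype.card F := by rw [hF]; norm_num
  obtain ⟨a, b, c, hab, hac, hbc⟩ := Fintype.two_lt_card_iff.mp h3
  have hcube : ∀ x : F, x ≠ 0 → x ^ 3 = 1 := by
    intro x hx
    have := FiniteField.pow_card_sub_one_eq_one x hx
    rw [hF] at this
    simpa using this
  have key : ∀ x : F, x ≠ 0 → x ≠ 1 → x * x + x + 1 = 0 := by
    intro x h0 h1
    have := hcube x h0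
    have h : (x - 1) * (x * x + x + 1) = 0 := by linear_combination this
    rcases mul_eq_zero.mp h with h | h
    · exact absurd (sub_eq_zero.mp h) h1
    · exact h
  by_cases ha : a ≠ 0 ∧ a ≠ 1
  · exact ⟨a, key a ha.1 ha.2⟩
  by_cases hb : b ≠ 0 ∧ b ≠ 1
  · exact ⟨b, key b hb.1 hb.2⟩
  by_cases hc : c ≠ 0 ∧ c ≠ 1
  · exact ⟨c, key c hc.1 hc.2⟩
  exfalso
  have ha' : a = 0 ∨ a = 1 := by
    by_contra h; push Not at h; exact ha h
  have hb' : b = 0 ∨ b = 1 := by
    by_contra h; push Not at h; exact hb h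
  have hc' : c = 0 ∨ c = 1 := by
    by_contra h; push Not at h; exact hc h
  rcases ha' with rfl | rfl <;> rcases hb' with rfl | rfl <;> rcases hc' with rfl | rfl <;> simp_all

theorem diag_form {F : Type*} [Field F] [Fintype F] (hF : Fintype.card F = 4) (ω : F)
    (hω : ω * ω + ω + 1 = 0) (K : Matrix (Fin 3) (Fin 3) F) (t : F) (ht : t ≠ 0)
    (hK3 : K * K * K = t • 1) (hdet : K.det = 1) (hns : ¬ ∃ c : F, K = c • 1) :
    ∃ P : Matrix (Fin 3) (Fin 3) F, P.det = 1 ∧ K * P = P * Matrix.diagonal ![1, ω, ω * ω] := by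
  classical
  have h2 : (2 : F) = 0 := Cfsg.Agent.S2550.two_eq_zero_of_card 2 (by rw [hF]; norm_num)
  have hxx : ∀ x : F, x + x = 0 := by
    intro x
    have : x + x = 2 * x := by ring
    rw [this, h2, zero_mul]
  have hneg : ∀ x : F, -x = x := fun x => neg_eq_of_add_eq_zero_left (hxx x)
  have hMM : ∀ M : Matrix (Fin 3) (Fin 3) F, M + M = 0 := by
    intro M
    have : M + M = (2 : F) • M := by rw [two_smul]
    rw [this, h2, zero_smul]
  have hMneg : ∀ M : Matrix (Fin 3) (Fin 3) F, -M = M := fun M =>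
    neg_eq_of_add_eq_zero_left (hMM M)
  have hcube : ∀ x : F, x ≠ 0 → x ^ 3 = 1 := by
    intro x hx
    have := FiniteField.pow_card_sub_one_eq_one x hx
    rw [hF] at this
    simpa using this
  set τ := K 0 0 + K 1 1 + K 2 2 with hτ
  set σ := (K 0 0 * K 1 1 - K 0 1 * K 1 0 + (K 0 0 * K 2 2 - K 0 2 * K 2 0)
          + (K 1 1 * K 2 2 - K 1 2 * K 2 1)) with hσ
  have hCH : K * K * K = τ • (K * K) - σ • K + (1 : F) • 1 := by
    rw [← hdet]; exact ch3 K
  have htr2' : (K * K) 0 0 + (K * K) 1 1 + (K * K) 2 2 = τ * τ - 2 * σ := by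
    simp [Matrix.mul_apply, Fin.sum_univ_three, τ, σ]; ring
  clear_value τ σ
  have hrel : τ • (K * K) = σ • K + (t + 1) • (1 : Matrix (Fin 3) (Fin 3) F) := by
    have h1 := hCH
    rw [hK3] at h1
    calc τ • (K * K) = (τ • (K * K) - σ • K + (1 : F) • 1) + σ • K - (1 : F) • 1 := by abel
      _ = t • 1 + σ • K - (1 : F) • 1 := by rw [← h1]
      _ = σ • K + (t + 1) • (1 : Matrix (Fin 3) (Fin 3) F) := by
        rw [sub_eq_add_neg, hMneg, add_smul]; abel
  have hτ0 : τ = 0 := by
    by_contra hτne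
    have hKK : K * K = (τ⁻¹ * σ) • K + (τ⁻¹ * (t + 1)) • (1 : Matrix (Fin 3) (Fin 3) F) := by
      calc K * K = τ⁻¹ • (τ • (K * K)) := by rw [smul_smul, inv_mul_cancel₀ hτne, one_smul]
        _ = _ := by rw [hrel, smul_add, smul_smul, smul_smul]
    generalize τ⁻¹ * σ = α at hKK
    have hβdef : τ⁻¹ * (t + 1) = τ⁻¹ * (t + 1) := rfl
    generalize hβ' : τ⁻¹ * (t + 1) = β at hKK
    have h3 : K * K * K = (α * α + β) • K + (α * β) • (1 : Matrix (Fin 3) (Fin 3) F) := by
      rw [hKK, add_mul, Matrix.smul_mul, Matrix.smul_mul, Matrix.one_mul, hKK]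
      module
    rw [hK3] at h3
    by_cases hc : α * α + β = 0
    · rw [hc, zero_smul, zero_add] at h3
      have h4 : t = α * β := by
        have := congrFun (congrFun h3 0) 0
        simpa using this
      have hβ : β = α * α := by
        have := hxx (α * α)
        linear_combination hc - this
      have hα0 : α ≠ 0 := by
        rintro h
        rw [h, zero_mul] at h4
        exact ht h4
      have ht1 : t = 1 := by
        rw [h4, hβ]
        have := hcube α hα0
        linear_combination this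
      have hβ0 : β = 0 := by
        rw [← hβ', ht1, hxx, mul_zero]
      rw [hβ0] at hβ
      exact hα0 (by simpa using hβ.symm)
    · apply hns
      refine ⟨(α * α + β)⁻¹ * (t - α * β), ?_⟩
      have h5 : (α * α + β) • K = (t - α * β) • (1 : Matrix (Fin 3) (Fin 3) F) := by
        rw [sub_smul, h3]; abel
      calc K = (α * α + β)⁻¹ • ((α * α + β) • K) := by
            rw [smul_smul, inv_mul_cancel₀ hc, one_smul]
        _ = _ := by rw [h5, smul_smul]
  rw [hτ0, zero_smul] at hrel
  have hσ0 : σ = 0 := by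
    by_contra hσne
    apply hns
    refine ⟨σ⁻¹ * (t + 1), ?_⟩
    have h5 : σ • K = (t + 1) • (1 : Matrix (Fin 3) (Fin 3) F) := by
      have := eq_neg_of_add_eq_zero_left hrel.symm
      rw [this, hMneg]
    calc K = σ⁻¹ • (σ • K) := by rw [smul_smul, inv_mul_cancel₀ hσne, one_smul]
      _ = _ := by rw [h5, smul_smul]
  have ht1 : t = 1 := by
    rw [hσ0, zero_smul, zero_add] at hrel
    have := congrFun (congrFun hrel 0) 0
    simp at this
    have h := hxx 1
    linear_combination -this - h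
  rw [ht1, one_smul] at hK3
  have htr2 : (K * K) 0 0 + (K * K) 1 1 + (K * K) 2 2 = 0 := by
    rw [htr2', hτ0, h2]; ring
  have hω3 : ω * ω * ω = 1 := by linear_combination (ω - 1) * hω
  have hex : ∀ c : F, c * c * c = 1 → ∃ v : Fin 3 → F, v ≠ 0 ∧ K *ᵥ v = c • v := by
    intro c hc3
    set Q := K * K + c • K + (c * c) • (1 : Matrix (Fin 3) (Fin 3) F) with hQ
    have hKQ : K * Q = c • Q := by
      rw [hQ, mul_add, mul_add, ← Matrix.mul_assoc, hK3, Matrix.mul_smul, Matrix.mul_smul,
        Matrix.mul_one, smul_add, smul_add, smul_smul, smul_smul]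
      rw [show c * (c * c) = 1 from by rw [← hc3]; ring, one_smul]
      abel
    have hQ0 : Q ≠ 0 := by
      intro h0
      have h1 : Q 0 0 + Q 1 1 + Q 2 2 = c * c := by
        have : Q 0 0 + Q 1 1 + Q 2 2 = ((K * K) 0 0 + (K * K) 1 1 + (K * K) 2 2) + c * τ
            + (c * c + (c * c + c * c)) := by
          rw [hτ]
          simp [hQ]; ring
        rw [this, htr2, hτ0, hxx]; ring
      rw [h0] at h1
      have hc0 : c = 0 := by
        have : c * c = 0 := by simpa using h1.symm
        exact mul_self_eq_zero.mp this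
      rw [hc0] at hc3
      simp at hc3
    obtain ⟨i, j, hij⟩ : ∃ i j, Q i j ≠ 0 := by
      by_contra h
      push Not at h
      exact hQ0 (by ext i j; exact h i j)
    refine ⟨fun i' => Q i' j, ?_, ?_⟩
    · intro h; exact hij (congrFun h i)
    · ext i'
      have := congrFun (congrFun hKQ i') j
      simpa [Matrix.mul_apply, Matrix.mulVec, dotProduct] using this
  obtain ⟨v0, hv0, hKv0⟩ := hex 1 (by ring)
  obtain ⟨v1, hv1, hKv1⟩ := hex ω hω3
  obtain ⟨v2, hv2, hKv2⟩ := hex (ω * ω) (by linear_combination (ω * ω * ω + 1) * hω3)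
  have h1ω : (1 : F) ≠ ω := by
    intro h
    rw [← h] at hω
    have := hxx 1
    have h10 : (1 : F) = 0 := by linear_combination hω - this
    exact one_ne_zero h10
  have hω0 : ω ≠ 0 := by
    intro h
    rw [h] at hω
    simp at hω
  have hωω : ω ≠ ω * ω := by
    intro h
    have : ω * (1 - ω) = 0 := by linear_combination h
    rcases mul_eq_zero.mp this with h' | h'
    · exact hω0 h'
    · exact h1ω (sub_eq_zero.mp h')
  have h1ωω : (1 : F) ≠ ω * ω := by
    intro h
    rw [← h] at hω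
    have := hxx 1
    exact hω0 (by linear_combination hω - this)
  let μ : Fin 3 → F := ![1, ω, ω * ω]
  let v : Fin 3 → (Fin 3 → F) := ![v0, v1, v2]
  have hμ : Function.Injective μ := by
    intro i j hij
    fin_cases i <;> fin_cases j <;> simp [μ] at hij ⊢
    · exact h1ω hij
    · exact h1ωω hij
    · exact h1ω hij.symm
    · exact hωω hij
    · exact h1ωω hij.symm
    · exact hωω hij.symm
  have hli : LinearIndependent F v := by
    apply Module.End.eigenvectors_linearIndependent' (Matrix.toLin' K) μ hμ v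
    intro i
    fin_cases i
    · exact ⟨Module.End.mem_eigenspace_iff.mpr (by simpa [v, μ] using hKv0), hv0⟩
    · exact ⟨Module.End.mem_eigenspace_iff.mpr (by simpa [v, μ] using hKv1), hv1⟩
    · exact ⟨Module.End.mem_eigenspace_iff.mpr (by simpa [v, μ] using hKv2), hv2⟩
  set P : Matrix (Fin 3) (Fin 3) F := Matrix.of (fun i j => v j i) with hP
  have hPdet : P.det ≠ 0 := by
    have h1 : LinearIndependent F P.col := by
      have : P.col = v := by
        funext j; ext i; rfl
      rw [this]; exact hli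
    exact ((Matrix.isUnit_iff_isUnit_det _).mp (Matrix.linearIndependent_cols_iff_isUnit.mp h1)).ne_zero
  have hKP : K * P = P * Matrix.diagonal ![1, ω, ω * ω] := by
    ext i j
    rw [Matrix.mul_diagonal]
    have : (K * P) i j = (K *ᵥ v j) i := by
      simp [Matrix.mul_apply, Matrix.mulVec, dotProduct, hP]
    rw [this]
    fin_cases j
    · simp [v, hKv0, hP]
    · simp [v, hKv1, hP]; ring
    · simp [v, hKv2, hP]; ring
  refine ⟨P * Matrix.diagonal ![(P.det)⁻¹, 1, 1], ?_, ?_⟩
  · rw [Matrix.det_mul, Matrix.det_diagonal, Fin.prod_univ_three]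
    simp [hPdet]
  · rw [← Matrix.mul_assoc, hKP, Matrix.mul_assoc, Matrix.mul_assoc, Matrix.diagonal_mul_diagonal,
      Matrix.diagonal_mul_diagonal]
    congr 2
    funext i
    fin_cases i <;> simp

theorem conj_D {F : Type*} [Field F] [Fintype F] (hF : Fintype.card F = 4) (ω : F)
    (hω : ω * ω + ω + 1 = 0) (D : Matrix.SpecialLinearGroup (Fin 3) F)
    (hD : D.1 = Matrix.diagonal ![1, ω, ω * ω])
    (k : Matrix.ProjectiveSpecialLinearGroup (Fin 3) F) (hk : orderOf k = 3) :
    IsConj (QuotientGroup.mk D : Matrix.ProjectiveSpecialLinearGroup (Fin 3) F) k := by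
  classical
  have hk3 : k ^ 3 = 1 := by
    have := pow_orderOf_eq_one k
    rwa [hk] at this
  have hk1 : k ≠ 1 := by
    intro h; rw [h, orderOf_one] at hk; norm_num at hk
  obtain ⟨K, rfl⟩ := QuotientGroup.mk_surjective k
  rw [← QuotientGroup.mk_pow, QuotientGroup.eq_one_iff, Matrix.SpecialLinearGroup.mem_center_iff] at hk3
  obtain ⟨t, ht3, ht⟩ := hk3
  simp only [Fintype.card_fin] at ht3
  have ht0 : t ≠ 0 := by
    intro h0; rw [h0] at ht3; simp at ht3
  have hK3 : K.1 * K.1 * K.1 = t • (1 : Matrix (Fin 3) (Fin 3) F) := by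
    have : (K ^ 3).1 = K.1 * K.1 * K.1 := by
      rw [Matrix.SpecialLinearGroup.coe_pow]; simp [pow_succ]
    rw [← this, ← ht]
    ext i j
    simp [Matrix.scalar_apply, Matrix.one_apply, Matrix.diagonal_apply]
  have hns : ¬ ∃ c : F, K.1 = c • (1 : Matrix (Fin 3) (Fin 3) F) := by
    rintro ⟨c, hc⟩
    apply hk1
    rw [QuotientGroup.eq_one_iff, Matrix.SpecialLinearGroup.mem_center_iff]
    refine ⟨c, ?_, ?_⟩
    · have := K.2
      rw [hc, Matrix.det_smul, Matrix.det_one] at this
      simpa using this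
    · rw [hc]
      ext i j
      simp [Matrix.scalar_apply, Matrix.one_apply, Matrix.diagonal_apply]
  obtain ⟨P, hPdet, hKP⟩ := diag_form hF ω hω K.1 t ht0 hK3 K.2 hns
  let Ps : Matrix.SpecialLinearGroup (Fin 3) F := ⟨P, hPdet⟩
  have hcomm : K * Ps = Ps * D := Subtype.ext (by
    show K.1 * P = P * D.1
    rw [hD]; exact hKP)
  rw [isConj_iff]
  refine ⟨QuotientGroup.mk Ps, ?_⟩
  rw [← QuotientGroup.mk_mul, ← QuotientGroup.mk_inv, ← QuotientGroup.mk_mul, ← hcomm]
  congr 1
  group

/-- In the projective special linear group PSL(3, 4) all subgroups of order 3 are conjugate. -/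
theorem result (F : Type*) [Field F] [Fintype F] (hF : Fintype.card F = 4) (X Y : Subgroup (Matrix.ProjectiveSpecialLinearGroup (Fin 3) F)) (hX : Nat.card ↥X = 3) (hY : Nat.card ↥Y = 3) : ∃ g : Matrix.ProjectiveSpecialLinearGroup (Fin 3) F, MulAut.conj g • X = Y := by
  classical
  obtain ⟨ω, hω⟩ := exists_omega hF
  have hDdet : (Matrix.diagonal ![1, ω, ω * ω] : Matrix (Fin 3) (Fin 3) F).det = 1 := by
    rw [Matrix.det_diagonal, Fin.prod_univ_three]
    simp
    linear_combination (ω - 1) * hω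
  let D : Matrix.SpecialLinearGroup (Fin 3) F := ⟨_, hDdet⟩
  have gen : ∀ Z : Subgroup (Matrix.ProjectiveSpecialLinearGroup (Fin 3) F), Nat.card Z = 3 →
      ∃ z, orderOf z = 3 ∧ Z = Subgroup.zpowers z := by
    intro Z hZ
    have hne : Nontrivial Z := (Finite.one_lt_card_iff_nontrivial).mp (by rw [hZ]; norm_num)
    obtain ⟨⟨z, hzZ⟩, hz1⟩ := exists_ne (1 : Z)
    have hz1' : z ≠ 1 := fun h => hz1 (Subtype.ext h)
    have hord : orderOf z = 3 := by
      have hdvd : orderOf z ∣ 3 := by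
        have := orderOf_dvd_natCard (⟨z, hzZ⟩ : Z)
        rw [hZ, Subgroup.orderOf_mk] at this
        exact this
      rcases (Nat.dvd_prime (by norm_num)).mp hdvd with h | h
      · exact absurd (orderOf_eq_one_iff.mp h) hz1'
      · exact h
    refine ⟨z, hord, ?_⟩
    symm
    apply Subgroup.eq_of_le_of_card_ge (by rwa [Subgroup.zpowers_le])
    rw [hZ, Nat.card_zpowers, hord]
  obtain ⟨x, hx, rfl⟩ := gen X hX
  obtain ⟨y, hy, rfl⟩ := gen Y hY
  obtain ⟨c₁, hc₁⟩ := isConj_iff.mp (conj_D hF ω hω D rfl x hx)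
  obtain ⟨c₂, hc₂⟩ := isConj_iff.mp (conj_D hF ω hω D rfl y hy)
  refine ⟨c₂ * c₁⁻¹, ?_⟩
  rw [Subgroup.zpowers_eq_closure, Subgroup.zpowers_eq_closure, Subgroup.smul_closure,
    Set.smul_set_singleton, MulAut.smul_def, MulAut.conj_apply, ← hc₁, ← hc₂]
  congr 2
  group

end Cfsg.Agent.S2739
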