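import Cfsg.Statements.S2897
import Cfsg.Agent.Lib.Helper17.CharP5

set_option autoImplicit false
open Cfsg

namespace Cfsg.Agent.S2897

/-- Let p be a prime dividing the order of the finite group G, suppose G has parabolic characteristic p, let S be a Sylow p-subgroup of G and G₁ a normal subgroup of G. If Ω₁(Z(S ∩ G₁)) is nontrivial and contained in Ω₁(Z(S)), then G₁ has parabolic characteristic p. -/
theorem result {G : Type*} [Group G] [Finite G] {p : ℕ} [Fact p.Prime] (hdiv : p ∣ Nat.card G) (hG : Cfsg.IsOfParabolicCharacteristic p G) (S : Sylow p G) (G₁ : Subgroup G) [G₁.Normal] (hne : Cfsg.omegaOne p (((S : Subgroup G) ⊓ G₁) ⊓ Subgroup.centralizer (((S : Subgroup G) ⊓ G₁ : Subgroup G) : Set G)) ≠ ⊥) (hle : Cfsg.omegaOne p (((S : Subgroup G) ⊓ G₁) ⊓ Subgroup.centralizer (((S : Subgroup G) ⊓ G₁ : Subgroup G) : Set G)) ≤ Cfsg.omegaOne p ((S : Subgroup G) ⊓ Subgroup.centralizer ((S : Subgroup G) : Set G))) : Cfsg.IsOfParabolicCharacteristic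 p ↥G₁ := by
  apply Cfsg.Agent.Lib.Helper17.CharP5.parabolic_of_subnormal hG S G₁
    (inferInstance : G₁.Normal).isSubnormal
  intro z hz hzc hzo s hs
  have h1 : z ∈ Cfsg.omegaOne p (((S : Subgroup G) ⊓ G₁) ⊓
      Subgroup.centralizer (((S : Subgroup G) ⊓ G₁ : Subgroup G) : Set G)) :=
    Cfsg.Agent.Lib.Helper17.CharP5.mem_omegaOne
      (Subgroup.mem_inf.2 ⟨hz, Subgroup.mem_centralizer_iff.2 hzc⟩)
      (by rw [← hzo]; exact pow_orderOf_eq_one z)
  have h2 := Cfsg.Agent.Lib.Helper17.CharP5.omegaOne_le _ (hle h1)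
  exact Subgroup.mem_centralizer_iff.1 (Subgroup.mem_inf.1 h2).2 s hs

end Cfsg.Agent.S2897
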