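import Cfsg.Statements.S2898
import Cfsg.Agent.Lib.Helper17.CharP4
import Cfsg.Agent.Lib.Helper9.Frattini

set_option autoImplicit false
open Cfsg

namespace Cfsg.Agent.S2898

section aux
open Cfsg.Agent.Lib.Helper17.CharP4

universe u
variable {G : Type u} [Group G] [Finite G]

/-- an involution acting fixed-point-freely on a finite normal subgroup inverts it -/
theorem inverts_of_fpf {O : Subgroup G} (hO : O.Normal) {t : G} (ht : t * t = 1)
    (hfix : ∀ x ∈ O, t * x = x * t → x = 1) : ∀ x ∈ O, t * x * t⁻¹ = x⁻¹ := by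
  have htinv : t⁻¹ = t := inv_eq_of_mul_eq_one_left ht
  have hinj : Function.Injective (fun x : O =>
      (⟨(x : G)⁻¹ * (t * x * t⁻¹), O.mul_mem (O.inv_mem x.2) (hO.conj_mem _ x.2 t)⟩ : O)) := by
    intro x y hxy
    have h1 : (x : G)⁻¹ * (t * x * t⁻¹) = (y : G)⁻¹ * (t * y * t⁻¹) := congrArg Subtype.val hxy
    have h2 : t * ((y : G) * (x : G)⁻¹) = ((y : G) * (x : G)⁻¹) * t := by
      have h0 : (y : G) * (x : G)⁻¹ = t * ((y : G) * (x : G)⁻¹) * t⁻¹ := by
        calc (y : G) * (x : G)⁻¹ = y * ((x : G)⁻¹ * (t * x * t⁻¹)) * (t * x * t⁻¹)⁻¹ := by group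
          _ = y * ((y : G)⁻¹ * (t * y * t⁻¹)) * (t * x * t⁻¹)⁻¹ := by rw [h1]
          _ = _ := by group
      calc t * ((y : G) * (x : G)⁻¹) = (t * ((y : G) * (x : G)⁻¹) * t⁻¹) * t := by group
        _ = _ := by rw [← h0]
    have h3 := hfix _ (O.mul_mem y.2 (O.inv_mem x.2)) h2
    apply Subtype.ext
    exact (mul_inv_eq_one.1 h3).symm
  have hsurj := Finite.injective_iff_surjective.1 hinj
  intro w hw
  obtain ⟨x, hx⟩ := hsurj ⟨w, hw⟩
  have hw' : w = (x : G)⁻¹ * (t * x * t⁻¹) := (congrArg Subtype.val hx).symm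
  have e1 : t * ((x : G)⁻¹ * (t * x * t⁻¹)) * t⁻¹ = t * (x : G)⁻¹ * t * x * (t * t)⁻¹ := by group
  have e2 : ((x : G)⁻¹ * (t * x * t⁻¹))⁻¹ = t * (x : G)⁻¹ * t⁻¹ * x := by group
  rw [hw', e1, e2, ht, inv_one, mul_one, htinv]

/-- a subgroup of order prime to `p` normalized by a subgroup of characteristic `p` containing it
is trivial -/
theorem eq_bot_of_coprime {p : ℕ} [Fact p.Prime] {N K : Subgroup G}
    (hN : Cfsg.generalizedFittingSubgroup ↥N = Cfsg.pCore p ↥N) (hKN : K ≤ N)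
    (hnorm : N ≤ Subgroup.normalizer (K : Set G)) (hK : (Nat.card K).Coprime p) : K = ⊥ := by
  have h1 : (K.subgroupOf N).Normal := Subgroup.normal_subgroupOf_of_le_normalizer hnorm
  have h2 : (Nat.card (K.subgroupOf N)).Coprime p := by
    rw [Nat.card_congr (Subgroup.subgroupOfEquivOfLe hKN).toEquiv]; exact hK
  have h3 := Cfsg.Agent.Lib.Helper9.le_pPrimeCore h1 h2
  rw [Cfsg.Agent.Lib.Helper9.pPrimeCore_eq_bot_of_gfitting_eq_pCore _ p hN] at h3
  rw [eq_bot_iff]
  intro k hk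
  have h5 : (⟨k, hKN hk⟩ : ↥N) ∈ K.subgroupOf N := Subgroup.mem_subgroupOf.2 hk
  have h4 := h3 h5
  rw [Subgroup.mem_bot] at h4 ⊢
  exact congrArg Subtype.val h4

end aux

/-- Let G be a finite group of even order with parabolic characteristic 2. If the centre of G ⧸ O(G) is trivial, then O(G) = 1. -/
theorem result {G : Type*} [Group G] [Finite G] (h2 : 2 ∣ Nat.card G) (hG : Cfsg.IsOfParabolicCharacteristic 2 G) [hN : (Cfsg.oddCore G).Normal] (hZ : Subgroup.center (G ⧸ Cfsg.oddCore G) = ⊥) : Cfsg.oddCore G = ⊥ := by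
  classical
  have hprime : Fact (Nat.Prime 2) := ⟨Nat.prime_two⟩
  obtain ⟨S⟩ : Nonempty (Sylow 2 G) := inferInstance
  have hSne : (S : Subgroup G) ≠ ⊥ :=
    Cfsg.Agent.Lib.Helper16.StronglyEmbedded.sylow_ne_bot_of_dvd h2 S
  obtain ⟨z, hzS, hzo, hzc⟩ := Cfsg.Agent.Lib.Helper17.SE.exists_orderOf_eq_centralizing
    S.isPGroup' le_rfl Subgroup.le_normalizer hSne
  have hz1 : z ≠ 1 := by
    intro h; rw [h, orderOf_one] at hzo; omega
  have hzz : z * z = 1 := by rw [← pow_two, ← hzo]; exact pow_orderOf_eq_one z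
  have hzinv : z⁻¹ = z := inv_eq_of_mul_eq_one_left hzz
  have hzc' : ∀ s ∈ (S : Subgroup G), s * z = z * s :=
    fun s hs => (Subgroup.mem_centralizer_iff.1 (hzc hs) z rfl).symm
  have hgf := Cfsg.Agent.Lib.Helper17.CharP4.gf_centralizer_of_parabolic hG S hz1 hzS hzc'
  have hOcop : (Nat.card (Cfsg.oddCore G)).Coprime 2 :=
    Cfsg.Agent.Lib.Helper9.pPrimeCore_coprime 2 G
  have hK : Cfsg.oddCore G ⊓ Subgroup.centralizer ({z} : Set G) = ⊥ := by
    apply eq_bot_of_coprime hgf inf_le_right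
    · intro c hc
      apply Cfsg.Agent.Lib.Helper17.Syl.mem_normalizer_of_conj_mem
      intro r hr
      have hr' := Subgroup.mem_inf.1 hr
      exact Subgroup.mem_inf.2 ⟨hN.conj_mem r hr'.1 c,
        Subgroup.mul_mem _ (Subgroup.mul_mem _ hc hr'.2) (Subgroup.inv_mem _ hc)⟩
    · exact Nat.Coprime.coprime_dvd_left (Subgroup.card_dvd_of_le inf_le_left) hOcop
  have hfix : ∀ x ∈ Cfsg.oddCore G, z * x = x * z → x = 1 := by
    intro x hx hxz
    have h1 : x ∈ Cfsg.oddCore G ⊓ Subgroup.centralizer ({z} : Set G) :=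
      Subgroup.mem_inf.2 ⟨hx, by
        rw [Subgroup.mem_centralizer_iff]
        intro y hy
        rw [Set.mem_singleton_iff] at hy
        subst hy
        exact hxz⟩
    rw [hK, Subgroup.mem_bot] at h1
    exact h1
  have hinv : ∀ g : G, ∀ x ∈ Cfsg.oddCore G, (g * z * g⁻¹) * x * (g * z * g⁻¹)⁻¹ = x⁻¹ := by
    intro g
    apply inverts_of_fpf hN
    · calc (g * z * g⁻¹) * (g * z * g⁻¹) = g * (z * z) * g⁻¹ := by group
        _ = 1 := by rw [hzz]; group
    · intro x hx hxc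
      have h1 : g⁻¹ * x * g ∈ Cfsg.oddCore G := by
        have := hN.conj_mem x hx g⁻¹
        simpa using this
      have h2 : z * (g⁻¹ * x * g) = (g⁻¹ * x * g) * z := by
        calc z * (g⁻¹ * x * g) = g⁻¹ * ((g * z * g⁻¹) * x) * g := by group
          _ = g⁻¹ * (x * (g * z * g⁻¹)) * g := by rw [hxc]
          _ = _ := by group
      have h3 := hfix _ h1 h2
      calc x = g * (g⁻¹ * x * g) * g⁻¹ := by group
        _ = 1 := by rw [h3]; group
  have hcent : ∀ g : G, z * (g * z * g⁻¹) ∈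
      Subgroup.centralizer ((Cfsg.oddCore G : Subgroup G) : Set G) := by
    intro g
    rw [Subgroup.mem_centralizer_iff]
    intro x hx
    have h1 := hinv g x hx
    have h2 := hinv 1 x⁻¹ (inv_mem hx)
    simp only [one_mul, inv_one, mul_one, inv_inv] at h2
    calc x * (z * (g * z * g⁻¹)) = (z * x⁻¹ * z⁻¹) * (z * (g * z * g⁻¹)) := by rw [h2]
      _ = z * (x⁻¹ * (g * z * g⁻¹)) := by group
      _ = z * (((g * z * g⁻¹) * x * (g * z * g⁻¹)⁻¹) * (g * z * g⁻¹)) := by rw [h1]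
      _ = _ := by group
  have hCn : (Subgroup.centralizer ((Cfsg.oddCore G : Subgroup G) : Set G)).Normal := inferInstance
  by_cases hSC : (S : Subgroup G) ⊓
      Subgroup.centralizer ((Cfsg.oddCore G : Subgroup G) : Set G) = ⊥
  · exfalso
    have hCcop : (Nat.card (Subgroup.centralizer
        ((Cfsg.oddCore G : Subgroup G) : Set G))).Coprime 2 := by
      have h1 := Cfsg.Agent.Lib.Helper17.Syl.sylow_relIndex_normal S
        (Subgroup.centralizer ((Cfsg.oddCore G : Subgroup G) : Set G))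
      have h3 := Cfsg.Agent.Lib.Helper17.Syl.relIndex_mul_card_inf (S : Subgroup G)
        (Subgroup.centralizer ((Cfsg.oddCore G : Subgroup G) : Set G))
      rw [hSC, Subgroup.card_bot, mul_one] at h3
      rw [h3] at h1
      exact ((Nat.Prime.coprime_iff_not_dvd Nat.prime_two).2 h1).symm
    have hCO : Subgroup.centralizer ((Cfsg.oddCore G : Subgroup G) : Set G) ≤ Cfsg.oddCore G :=
      Cfsg.Agent.Lib.Helper9.le_pPrimeCore hCn hCcop
    have hzcenter : (QuotientGroup.mk' (Cfsg.oddCore G) z) ∈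
        Subgroup.center (G ⧸ Cfsg.oddCore G) := by
      rw [Subgroup.mem_center_iff]
      intro q
      obtain ⟨g, rfl⟩ := QuotientGroup.mk'_surjective _ q
      rw [← map_mul, ← map_mul]
      apply (QuotientGroup.eq).2
      have h5 := hCO (hcent g⁻¹)
      have e : (g * z)⁻¹ * (z * g) = z * (g⁻¹ * z * g⁻¹⁻¹) := by
        calc (g * z)⁻¹ * (z * g) = z⁻¹ * (g⁻¹ * z * g⁻¹⁻¹) := by group
          _ = _ := by rw [hzinv]
      rw [e]; exact h5
    rw [hZ, Subgroup.mem_bot] at hzcenter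
    have hzO : z ∈ Cfsg.oddCore G := (QuotientGroup.eq_one_iff z).1 hzcenter
    have hdvd : 2 ∣ Nat.card (Cfsg.oddCore G) := by
      have h6 := orderOf_dvd_natCard (⟨z, hzO⟩ : Cfsg.oddCore G)
      rwa [Subgroup.orderOf_mk, hzo] at h6
    exact absurd hdvd ((Nat.Prime.coprime_iff_not_dvd Nat.prime_two).1 hOcop.symm)
  · have hR : IsPGroup 2 ((S : Subgroup G) ⊓
        Subgroup.centralizer ((Cfsg.oddCore G : Subgroup G) : Set G) : Subgroup G) :=
      S.isPGroup'.to_le inf_le_left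
    have hSN : (S : Subgroup G) ≤ Subgroup.normalizer (((S : Subgroup G) ⊓
        Subgroup.centralizer ((Cfsg.oddCore G : Subgroup G) : Set G) : Subgroup G) : Set G) := by
      intro s hs
      apply Cfsg.Agent.Lib.Helper17.Syl.mem_normalizer_of_conj_mem
      intro r hr
      have hr' := Subgroup.mem_inf.1 hr
      exact Subgroup.mem_inf.2 ⟨mul_mem (mul_mem hs hr'.1) (inv_mem hs), hCn.conj_mem r hr'.2 s⟩
    have h1 := hG _ hR hSC ⟨S, hSN⟩
    rw [← Cfsg.Agent.Lib.Helper17.CharP4.gf_iff] at h1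
    apply eq_bot_of_coprime h1 ?_ ?_ hOcop
    · intro x hx
      apply Subgroup.centralizer_le_normalizer
      rw [Subgroup.mem_centralizer_iff]
      intro r hr
      exact (Subgroup.mem_centralizer_iff.1 (Subgroup.mem_inf.1 hr).2 x hx).symm
    · intro n _
      rw [Subgroup.normalizer_eq_top]
      exact Subgroup.mem_top n

end Cfsg.Agent.S2898
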