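import Cfsg.Statements.S2907
import Mathlib

set_option autoImplicit false
open Cfsg

namespace Cfsg.Agent.S2907

section aux
variable {X : Type*} [Group X]

/-- the commutator map `y ↦ [x, y]` is a homomorphism when the commutators are central -/
def commHom (x : X) (hc : ∀ y : X, x * y * x⁻¹ * y⁻¹ ∈ Subgroup.center X) : X →* X where
  toFun y := x * y * x⁻¹ * y⁻¹
  map_one' := by simp
  map_mul' y y' := by
    have h := Subgroup.mem_center_iff.1 (hc y') y⁻¹
    calc x * (y * y') * x⁻¹ * (y * y')⁻¹ = x * y * x⁻¹ * ((x * y' * x⁻¹ * y'⁻¹) * y⁻¹) := by group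
      _ = x * y * x⁻¹ * (y⁻¹ * (x * y' * x⁻¹ * y'⁻¹)) := by rw [h]
      _ = _ := by group

end aux

/-- Let X be a finite semi-extraspecial p-group and x an element of X outside the centre. Then the index of C_X(x) in X equals the order of Z(X), and the commutators [x, y], y ∈ X, form exactly the centre Z(X). -/
theorem result {X : Type*} [Group X] [Finite X] {p : ℕ} [Fact p.Prime] (hX : Cfsg.IsSemiExtraspecial p X) (x : X) (hx : x ∉ Subgroup.center X) : (Subgroup.centralizer ({x} : Set X)).index = Nat.card ↥(Subgroup.center X) ∧ {z : X | ∃ y : X, z = x * y * x⁻¹ * y⁻¹} = (Subgroup.center X : Set X) := by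
  obtain ⟨⟨hp, hfr, hcomm⟩, hY⟩ := hX
  have hc : ∀ y : X, x * y * x⁻¹ * y⁻¹ ∈ Subgroup.center X := by
    intro y
    rw [← hcomm, commutator_def]
    have := Subgroup.commutator_mem_commutator (Subgroup.mem_top x) (Subgroup.mem_top y)
    rwa [commutatorElement_def] at this
  have hφy : ∀ y, commHom x hc y = x * y * x⁻¹ * y⁻¹ := fun _ => rfl
  have hker : (commHom x hc).ker = Subgroup.centralizer ({x} : Set X) := by
    ext y
    rw [MonoidHom.mem_ker, Subgroup.mem_centralizer_iff, hφy]
    constructor
    · intro h z hz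
      rw [Set.mem_singleton_iff] at hz; subst hz
      have e : z * y = (z * y * z⁻¹ * y⁻¹) * (y * z) := by group
      rw [e, h, one_mul]
    · intro h
      have := h x rfl
      rw [this]; group
  have hrange : (commHom x hc).range ≤ Subgroup.center X := by
    rintro _ ⟨y, rfl⟩; exact hc y
  have hset : {z : X | ∃ y : X, z = x * y * x⁻¹ * y⁻¹} = ((commHom x hc).range : Set X) := by
    ext z
    simp only [Set.mem_ofPred_eq, SetLike.mem_coe, MonoidHom.mem_range, hφy]
    constructor
    · rintro ⟨y, rfl⟩; exact ⟨y, rfl⟩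
    · rintro ⟨y, rfl⟩; exact ⟨y, rfl⟩
  have hmain : (commHom x hc).range = Subgroup.center X := by
    by_contra hne
    have hne' : ((commHom x hc).range).subgroupOf (Subgroup.center X) ≠ ⊤ := by
      intro h
      rw [Subgroup.subgroupOf_eq_top] at h
      exact hne (le_antisymm hrange h)
    obtain ⟨Y', hY'co, hY'le⟩ := (eq_top_or_exists_le_coatom _).resolve_left hne'
    have hYle : Y'.map (Subgroup.center X).subtype ≤ Subgroup.center X := Subgroup.map_subtype_le _
    have hYsub : (Y'.map (Subgroup.center X).subtype).subgroupOf (Subgroup.center X) = Y' :=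
      Subgroup.comap_map_eq_self_of_injective (Subgroup.subtype_injective _) _
    obtain ⟨hYn, hExt⟩ := hY (Y'.map (Subgroup.center X).subtype) hYle (by rw [hYsub]; exact hY'co)
    have hrY : (commHom x hc).range ≤ Y'.map (Subgroup.center X).subtype := by
      intro z hz
      have : (⟨z, hrange hz⟩ : Subgroup.center X) ∈ Y' :=
        hY'le (by rw [Subgroup.mem_subgroupOf]; exact hz)
      exact ⟨_, this, rfl⟩
    have hxc : (QuotientGroup.mk' (Y'.map (Subgroup.center X).subtype) x) ∈
        Subgroup.center (X ⧸ Y'.map (Subgroup.center X).subtype) := by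
      rw [Subgroup.mem_center_iff]
      intro g
      obtain ⟨y, rfl⟩ := QuotientGroup.mk'_surjective _ g
      have h1 : QuotientGroup.mk' (Y'.map (Subgroup.center X).subtype) x *
          QuotientGroup.mk' (Y'.map (Subgroup.center X).subtype) y *
          (QuotientGroup.mk' (Y'.map (Subgroup.center X).subtype) x)⁻¹ *
          (QuotientGroup.mk' (Y'.map (Subgroup.center X).subtype) y)⁻¹ = 1 := by
        rw [← map_inv, ← map_inv, ← map_mul, ← map_mul, ← map_mul]
        exact (QuotientGroup.eq_one_iff _).2 (hrY ⟨y, rfl⟩)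
      have e : ∀ a b : X ⧸ Y'.map (Subgroup.center X).subtype,
          b * a = (a * b * a⁻¹ * b⁻¹)⁻¹ * (a * b) := by intro a b; group
      rw [e, h1, inv_one, one_mul]
    have hZmap : (Subgroup.center X).map (QuotientGroup.mk' (Y'.map (Subgroup.center X).subtype)) ≤
        Subgroup.center (X ⧸ Y'.map (Subgroup.center X).subtype) := by
      rintro _ ⟨z, hz, rfl⟩
      rw [Subgroup.mem_center_iff]
      intro g
      obtain ⟨y, rfl⟩ := QuotientGroup.mk'_surjective _ g
      rw [← map_mul, ← map_mul, Subgroup.mem_center_iff.1 hz y]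
    have hZne : (Subgroup.center X).map (QuotientGroup.mk' (Y'.map (Subgroup.center X).subtype)) ≠ ⊥ := by
      intro h
      rw [Subgroup.map_eq_bot_iff, QuotientGroup.ker_mk'] at h
      apply hY'co.1
      rw [← hYsub, Subgroup.subgroupOf_eq_top]; exact h
    have hZeq : (Subgroup.center X).map (QuotientGroup.mk' (Y'.map (Subgroup.center X).subtype)) =
        Subgroup.center (X ⧸ Y'.map (Subgroup.center X).subtype) := by
      apply Subgroup.eq_of_le_of_card_ge hZmap
      rw [hExt.2]
      have hdvd : Nat.card ((Subgroup.center X).map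
          (QuotientGroup.mk' (Y'.map (Subgroup.center X).subtype))) ∣ p := by
        rw [← hExt.2]; exact Subgroup.card_dvd_of_le hZmap
      rcases (Nat.dvd_prime (Fact.out)).1 hdvd with h | h
      · exact absurd (Subgroup.card_eq_one.1 h) hZne
      · exact h.ge
    rw [← hZeq] at hxc
    obtain ⟨z, hz, hzx⟩ := hxc
    have h2 : z⁻¹ * x ∈ Y'.map (Subgroup.center X).subtype := QuotientGroup.eq.1 hzx
    apply hx
    have := (Subgroup.center X).mul_mem hz (hYle h2)
    simpa using this
  refine ⟨?_, ?_⟩
  · rw [← hker, Subgroup.index_ker, hmain]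
  · rw [hset, hmain]

end Cfsg.Agent.S2907
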