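import Cfsg.Statements.S2908
import Cfsg.Agent.Lib.Helper16.Basic
import Cfsg.Agent.Lib.Helper9.Signalizer
import Cfsg.Agent.S0026

set_option autoImplicit false
open Cfsg

namespace Cfsg.Agent.S2908

open scoped commutatorElement

section aux
open Cfsg.Agent.Lib.Helper16.Basic

variable {G : Type*} [Group G]

/-- In a nilpotent subgroup `H`, a subgroup `Q ≤ H` with `Q ≤ [Q, H]` is trivial. -/
theorem eq_bot_of_le_commutator {H Q : Subgroup G} (hH : Group.IsNilpotent ↥H) (hQH : Q ≤ H)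
    (hQ : Q ≤ ⁅Q, H⁆) : Q = ⊥ := by
  obtain ⟨n, hn⟩ := (Subgroup.isNilpotent_iff_lowerCentralSeries H).1 hH
  have key : ∀ m : ℕ, Q ≤ H.lowerCentralSeries m := by
    intro m
    induction m with
    | zero => exact hQH
    | succ m ih =>
      rw [Subgroup.lowerCentralSeries_succ]
      exact hQ.trans (Subgroup.commutator_mono ih le_rfl)
  rw [eq_bot_iff, ← hn]
  exact key n

theorem comm_mul_left (q c a : G) : ⁅q * c, a⁆ = ⁅q, ⁅c, a⁆⁆ * ⁅c, a⁆ * ⁅q, a⁆ := by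
  simp only [commutatorElement_def]; group

end aux

/-- Let P be a p-subgroup of a finite group, normalized by a p-subgroup A and by a subgroup B of order prime to p that commutes elementwise with A. If [P, B] ≤ [P, A], then B centralizes P. -/
theorem result {G : Type*} [Group G] [Finite G] {p : ℕ} [Fact p.Prime] (P A B : Subgroup G) (hP : IsPGroup p ↥P) (hA : IsPGroup p ↥A) (hB : ¬ p ∣ Nat.card ↥B) (hnA : A ≤ Subgroup.normalizer (P : Set G)) (hnB : B ≤ Subgroup.normalizer (P : Set G)) (hAB : ⁅A, B⁆ = ⊥) (hcomm : ⁅P, B⁆ ≤ ⁅P, A⁆) : ⁅P, B⁆ = ⊥ := by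
  classical
  have hcopBP : (Nat.card B).Coprime (Nat.card P) := by
    obtain ⟨k, hk⟩ := IsPGroup.iff_card.1 hP
    rw [hk]
    exact Nat.Coprime.pow_right k ((Nat.Prime.coprime_iff_not_dvd Fact.out).2 hB).symm
  have hnilP : Group.IsNilpotent ↥P := hP.isNilpotent
  have hsolP : Group.IsSolvable ↥P := inferInstance
  have hfac := Cfsg.Agent.S0026.result B P hnB hcopBP (Or.inr hsolP)
  have hH : IsPGroup p (P ⊔ A : Subgroup G) := IsPGroup.to_sup_of_normal_left' hP hA hnA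
  have hHnil : Group.IsNilpotent ↥(P ⊔ A) := hH.isNilpotent
  have hAcB : A ≤ Subgroup.centralizer (B : Set G) :=
    (Subgroup.commutator_eq_bot_iff_le_centralizer).1 hAB
  have hBcA : B ≤ Subgroup.centralizer (A : Set G) := by
    rw [← Subgroup.commutator_eq_bot_iff_le_centralizer, Subgroup.commutator_comm]; exact hAB
  have hBnA : B ≤ Subgroup.normalizer (A : Set G) :=
    hBcA.trans (Subgroup.centralizer_le_normalizer _)
  have hBH : B ≤ Subgroup.normalizer ((P ⊔ A : Subgroup G) : Set G) := by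
    intro b hb
    rw [← Cfsg.Agent.Lib.Helper16.Basic.conj_eq_self_iff, Cfsg.Agent.Lib.Helper16.Basic.conj_sup,
      (Cfsg.Agent.Lib.Helper16.Basic.conj_eq_self_iff P b).2 (hnB hb),
      (Cfsg.Agent.Lib.Helper16.Basic.conj_eq_self_iff A b).2 (hBnA hb)]
  have hgoodP : (fun Q : Subgroup G => Q ≤ P ∧ P ⊔ A ≤ Subgroup.normalizer (Q : Set G) ∧
      B ≤ Subgroup.normalizer (Q : Set G) ∧
      P ≤ Q ⊔ (P ⊓ Subgroup.centralizer (B : Set G))) P :=
    ⟨le_rfl, sup_le Subgroup.le_normalizer hnA, hnB, le_sup_left⟩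
  haveI : Nonempty {Q : Subgroup G // Q ≤ P ∧ P ⊔ A ≤ Subgroup.normalizer (Q : Set G) ∧
      B ≤ Subgroup.normalizer (Q : Set G) ∧
      P ≤ Q ⊔ (P ⊓ Subgroup.centralizer (B : Set G))} := ⟨⟨P, hgoodP⟩⟩
  obtain ⟨⟨Q, hQ⟩, hmin⟩ := Finite.exists_min
    (fun Q : {Q : Subgroup G // Q ≤ P ∧ P ⊔ A ≤ Subgroup.normalizer (Q : Set G) ∧
      B ≤ Subgroup.normalizer (Q : Set G) ∧
      P ≤ Q ⊔ (P ⊓ Subgroup.centralizer (B : Set G))} => Nat.card Q.1)
  obtain ⟨hQP, hQH, hQB, hQC⟩ := hQ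
  have h1 : ⁅Q, P ⊔ A⁆ ≤ Q :=
    Cfsg.Agent.Lib.Helper16.Basic.commutator_le_left_of_le_normalizer hQH
  have hCQ : P ⊓ Subgroup.centralizer (B : Set G) ≤ Subgroup.normalizer (Q : Set G) :=
    (inf_le_left.trans le_sup_left).trans hQH
  have hgood' : ⁅Q, P ⊔ A⁆ ≤ P ∧ P ⊔ A ≤ Subgroup.normalizer ((⁅Q, P ⊔ A⁆ : Subgroup G) : Set G) ∧
      B ≤ Subgroup.normalizer ((⁅Q, P ⊔ A⁆ : Subgroup G) : Set G) ∧
      P ≤ ⁅Q, P ⊔ A⁆ ⊔ (P ⊓ Subgroup.centralizer (B : Set G)) := by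
    refine ⟨h1.trans hQP, Cfsg.Agent.Lib.Helper16.Basic.le_normalizer_commutator_right Q (P ⊔ A),
      ?_, ?_⟩
    · intro b hb
      rw [← Cfsg.Agent.Lib.Helper16.Basic.conj_eq_self_iff,
        Cfsg.Agent.Lib.Helper16.Basic.conj_commutator,
        (Cfsg.Agent.Lib.Helper16.Basic.conj_eq_self_iff Q b).2 (hQB hb),
        (Cfsg.Agent.Lib.Helper16.Basic.conj_eq_self_iff _ b).2 (hBH hb)]
    · have h2 : ⁅P, A⁆ ≤ ⁅Q, P ⊔ A⁆ ⊔ (P ⊓ Subgroup.centralizer (B : Set G)) := by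
        rw [Subgroup.commutator_le]
        intro x hx a ha
        obtain ⟨q, hq, c, hc, rfl⟩ :=
          Cfsg.Agent.Lib.Helper9.exists_mul_of_mem_sup_of_le_normalizer hCQ (hQC hx)
        have hc' := Subgroup.mem_inf.1 hc
        have hcaP : ⁅c, a⁆ ∈ P := by
          rw [commutatorElement_def]
          have h3 : a * c⁻¹ * a⁻¹ ∈ P := (Subgroup.mem_normalizer_iff.1 (hnA ha) c⁻¹).1 (inv_mem hc'.1)
          have h4 := mul_mem hc'.1 h3
          have e : c * (a * c⁻¹ * a⁻¹) = c * a * c⁻¹ * a⁻¹ := by group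
          rw [← e]; exact h4
        have hcaC : ⁅c, a⁆ ∈ Subgroup.centralizer (B : Set G) := by
          rw [commutatorElement_def]
          exact mul_mem (mul_mem (mul_mem hc'.2 (hAcB ha)) (inv_mem hc'.2)) (inv_mem (hAcB ha))
        rw [comm_mul_left]
        refine mul_mem (mul_mem (Subgroup.mem_sup_left ?_) (Subgroup.mem_sup_right
          (Subgroup.mem_inf.2 ⟨hcaP, hcaC⟩))) (Subgroup.mem_sup_left ?_)
        · exact Subgroup.commutator_mem_commutator hq (Subgroup.mem_sup_left hcaP)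
        · exact Subgroup.commutator_mem_commutator hq (Subgroup.mem_sup_right ha)
      calc P = ⁅P, B⁆ ⊔ (P ⊓ Subgroup.centralizer (B : Set G)) := hfac.symm
        _ ≤ _ := sup_le (hcomm.trans h2) le_sup_right
  have hle := hmin ⟨⁅Q, P ⊔ A⁆, hgood'⟩
  have heq : ⁅Q, P ⊔ A⁆ = Q := Subgroup.eq_of_le_of_card_ge h1 hle
  have hQbot : Q = ⊥ := eq_bot_of_le_commutator hHnil (hQP.trans le_sup_left) heq.ge
  rw [hQbot, bot_sup_eq] at hQC
  rw [Subgroup.commutator_eq_bot_iff_le_centralizer]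
  exact hQC.trans inf_le_right

end Cfsg.Agent.S2908
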