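import Cfsg.Statements.S2909
import Cfsg.Agent.Lib.Helper16.Generation
import Cfsg.Agent.Lib.Helper17.CharP3
import Cfsg.Agent.Lib.Helper17.Syl2
import Cfsg.Agent.S2908

set_option autoImplicit false
open Cfsg

namespace Cfsg.Agent.S2909

open scoped commutatorElement

section aux
variable {G : Type*} [Group G]

/-- the elements `r` with `[r, U] ⊆ Z`, for a normal subgroup `Z` -/
def commInto (U Z : Subgroup G) (hZ : Z.Normal) : Subgroup G where
  carrier := {r | ∀ u ∈ U, ⁅r, u⁆ ∈ Z}
  one_mem' := fun u _ => by rw [commutatorElement_one_left]; exact one_mem _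
  mul_mem' := by
    intro r s hr hs u hu
    have e : ⁅r * s, u⁆ = r * ⁅s, u⁆ * r⁻¹ * ⁅r, u⁆ := by
      simp only [commutatorElement_def]; group
    rw [e]
    exact mul_mem (hZ.conj_mem _ (hs u hu) r) (hr u hu)
  inv_mem' := by
    intro r hr u hu
    have e : ⁅r⁻¹, u⁆ = r⁻¹ * ⁅r, u⁆⁻¹ * r⁻¹⁻¹ := by
      simp only [commutatorElement_def]; group
    rw [e]
    exact hZ.conj_mem _ (inv_mem (hr u hu)) r⁻¹

end aux

/-- Let p be a prime, E a normal p-subgroup of the finite group G, and U a non-cyclic elementary abelian p-subgroup of G such that either C_E(U) = C_E(u) for every nontrivial u ∈ U, or [E, U] = [E, ⟨u⟩] for every nontrivial u ∈ U. If R is a subgroup of order prime to p normalized by U, then [R, U] centralizes E. -/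
theorem result {G : Type*} [Group G] [Finite G] {p : ℕ} [Fact p.Prime] (E : Subgroup G) [E.Normal] (hE : IsPGroup p ↥E) (U : Subgroup G) (hU : Cfsg.IsElementaryAbelian p U) (hnc : ¬ IsCyclic ↥U) (hcond : (∀ u ∈ U, u ≠ 1 → E ⊓ Subgroup.centralizer (U : Set G) = E ⊓ Subgroup.centralizer ({u} : Set G)) ∨ (∀ u ∈ U, u ≠ 1 → ⁅E, U⁆ = ⁅E, Subgroup.zpowers u⁆)) (R : Subgroup G) (hR : ¬ p ∣ Nat.card ↥R) (hRU : U ≤ Subgroup.normalizer (R : Set G)) : ⁅R, U⁆ ≤ Subgroup.centralizer (E : Set G) := by
  classical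
  have hp : p.Prime := Fact.out
  have hUc := hU.1
  have hEn : E.Normal := inferInstance
  have hcomm : ∀ x ∈ U, ∀ y ∈ U, x * y = y * x := fun x hx y hy => setLike_mul_comm hx hy
  have hZ : (Subgroup.centralizer (E : Set G)).Normal := inferInstance
  have hRcop : (Nat.card R).Coprime p := ((Nat.Prime.coprime_iff_not_dvd hp).2 hR).symm
  have hUp : IsPGroup p U := by
    intro g
    refine ⟨1, ?_⟩
    apply Subtype.ext
    rw [pow_one, Subgroup.coe_pow, Subgroup.coe_one]
    exact hU.2 g g.2
  have hUne : U ≠ ⊥ := by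
    intro h
    apply hnc
    rw [h]
    infer_instance
  obtain ⟨⟨b, hbU⟩, hb1⟩ := (Subgroup.ne_bot_iff_exists_ne_one.1 hUne)
  have hb1' : b ≠ 1 := fun h => hb1 (Subtype.ext h)
  have hbo : orderOf b = p := orderOf_eq_prime (hU.2 b hbU) hb1'
  obtain ⟨a, haU, ha⟩ : ∃ a ∈ U, a ∉ Subgroup.zpowers b := by
    by_contra hcon
    push Not at hcon
    have h1 : U = Subgroup.zpowers b := le_antisymm hcon (Subgroup.zpowers_le.2 hbU)
    apply hnc
    rw [h1]
    infer_instance
  rw [Subgroup.commutator_le]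
  suffices hRL : R ≤ commInto U (Subgroup.centralizer (E : Set G)) hZ from
    fun r hr u hu => hRL hr u hu
  apply Cfsg.Agent.Lib.Helper16.Generation.gen_by_centralizers R hRcop a b (hRU haU) (hRU hbU)
    (hcomm a haU b hbU) (hU.2 a haU) hbo ha
  intro c hc1 ⟨i, j, hcij⟩
  have hcU : c ∈ U := by rw [hcij]; exact mul_mem (pow_mem haU i) (pow_mem hbU j)
  have hUcc : U ≤ Subgroup.centralizer ({c} : Set G) := by
    intro u hu
    rw [Subgroup.mem_centralizer_iff]
    intro y hy
    rw [Set.mem_singleton_iff] at hy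
    subst hy
    exact hcomm y hcU u hu
  have hURc : U ≤ Subgroup.normalizer ((R ⊓ Subgroup.centralizer ({c} : Set G) : Subgroup G) : Set G) := by
    intro u hu
    rw [← Cfsg.Agent.Lib.Helper16.Basic.conj_eq_self_iff, Cfsg.Agent.Lib.Helper16.Basic.conj_inf,
      (Cfsg.Agent.Lib.Helper16.Basic.conj_eq_self_iff R u).2 (hRU hu),
      Cfsg.Agent.Lib.Helper16.Basic.conj_eq_self_of_mem (hUcc hu)]
  have hQR : ⁅R ⊓ Subgroup.centralizer ({c} : Set G), U⁆ ≤ R ⊓ Subgroup.centralizer ({c} : Set G) :=
    Cfsg.Agent.Lib.Helper16.Basic.commutator_le_left_of_le_normalizer hURc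
  have hQcop : (Nat.card ↥⁅R ⊓ Subgroup.centralizer ({c} : Set G), U⁆).Coprime p :=
    Nat.Coprime.coprime_dvd_left (Subgroup.card_dvd_of_le (hQR.trans inf_le_left)) hRcop
  have hBp : IsPGroup p (Subgroup.zpowers c) := hUp.to_le (Subgroup.zpowers_le.2 hcU)
  have hqc : ∀ q ∈ ⁅R ⊓ Subgroup.centralizer ({c} : Set G), U⁆, c * q = q * c := by
    intro q hq
    exact Subgroup.mem_centralizer_iff.1 (Subgroup.mem_inf.1 (hQR hq)).2 c rfl
  have hnE : ∀ g : G, g ∈ Subgroup.normalizer (E : Set G) := by
    intro g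
    rw [Subgroup.normalizer_eq_top]
    exact Subgroup.mem_top g
  have hQ : ⁅R ⊓ Subgroup.centralizer ({c} : Set G), U⁆ ≤ Subgroup.centralizer (E : Set G) := by
    rcases hcond with h1 | h2
    · have hE0 := h1 c hcU hc1
      have hfixQ : ⁅R ⊓ Subgroup.centralizer ({c} : Set G), U⁆ ≤
          Subgroup.centralizer ((E ⊓ Subgroup.centralizer (U : Set G) : Subgroup G) : Set G) := by
        rw [Subgroup.commutator_le]
        intro r hr u hu
        rw [Subgroup.mem_centralizer_iff]
        intro e he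
        have he' := Subgroup.mem_inf.1 he
        have hr' := Subgroup.mem_inf.1 hr
        have hec : e ∈ Subgroup.centralizer ({c} : Set G) := by
          have h0 : e ∈ E ⊓ Subgroup.centralizer ({c} : Set G) := by rw [← hE0]; exact he
          exact (Subgroup.mem_inf.1 h0).2
        have h3 : r⁻¹ * e * r ∈ E ⊓ Subgroup.centralizer (U : Set G) := by
          rw [hE0]
          refine Subgroup.mem_inf.2 ⟨?_, ?_⟩
          · have := hEn.conj_mem e he'.1 r⁻¹
            simpa using this
          · exact mul_mem (mul_mem (inv_mem hr'.2) hec) hr'.2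
        have h4 : u * (r⁻¹ * e * r) = (r⁻¹ * e * r) * u :=
          Subgroup.mem_centralizer_iff.1 (Subgroup.mem_inf.1 h3).2 u hu
        have h5 : u * e = e * u := Subgroup.mem_centralizer_iff.1 he'.2 u hu
        have h6 : e * u⁻¹ = u⁻¹ * e := ((show Commute e u from h5.symm).inv_right).eq
        rw [commutatorElement_def]
        calc e * (r * u * r⁻¹ * u⁻¹) = r * ((r⁻¹ * e * r) * u) * r⁻¹ * u⁻¹ := by group
          _ = r * (u * (r⁻¹ * e * r)) * r⁻¹ * u⁻¹ := by rw [h4]
          _ = r * u * r⁻¹ * (e * u⁻¹) := by group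
          _ = r * u * r⁻¹ * (u⁻¹ * e) := by rw [h6]
          _ = _ := by group
      intro q hq
      rw [Subgroup.mem_centralizer_iff]
      intro x hx
      have hqo : (orderOf q).Coprime p :=
        Nat.Coprime.coprime_dvd_left (Subgroup.orderOf_dvd_natCard _ hq) hQcop
      have h7 := Cfsg.Agent.Lib.Helper9.thompson_AxB hqo (B := Subgroup.zpowers c) (Q := E) hBp hE
        (by
          intro b' hb'
          obtain ⟨k, rfl⟩ := Subgroup.mem_zpowers_iff.1 hb'
          exact ((show Commute q c from (hqc q hq).symm).zpow_right k).eq)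
        (hnE q) (fun g _ => hnE g)
        (by
          intro y hy hyc
          have hy0 : y ∈ E ⊓ Subgroup.centralizer (U : Set G) := by
            rw [hE0]
            refine Subgroup.mem_inf.2 ⟨hy, ?_⟩
            rw [Subgroup.mem_centralizer_iff]
            intro z hz
            rw [Set.mem_singleton_iff] at hz
            subst hz
            exact hyc z (Subgroup.mem_zpowers z)
          exact (Subgroup.mem_centralizer_iff.1 (hfixQ hq) y hy0).symm) x hx
      exact h7.symm
    · have hE1 := h2 c hcU hc1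
      have hstab : ⁅R ⊓ Subgroup.centralizer ({c} : Set G), U⁆ ≤
          Cfsg.Agent.Lib.Helper17.CharP3.stab E ⁅E, U⁆ := by
        rw [Subgroup.commutator_le]
        intro r hr u hu
        have hr' := Subgroup.mem_inf.1 hr
        have hrn : r ∈ Subgroup.normalizer ((⁅E, U⁆ : Subgroup G) : Set G) := by
          rw [hE1, ← Cfsg.Agent.Lib.Helper16.Basic.conj_eq_self_iff,
            Cfsg.Agent.Lib.Helper16.Basic.conj_commutator,
            Cfsg.Agent.Lib.Helper16.Basic.conj_normal E r,
            (Cfsg.Agent.Lib.Helper16.Basic.conj_eq_self_iff (Subgroup.zpowers c) r).2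
              (Cfsg.Agent.Lib.Helper17.Syl2.centralizer_singleton_le_normalizer_zpowers c hr'.2)]
        have huS : u ∈ Cfsg.Agent.Lib.Helper17.CharP3.stab E ⁅E, U⁆ :=
          ⟨Cfsg.Agent.Lib.Helper16.Basic.le_normalizer_commutator_right E U hu,
            fun e he => Subgroup.commutator_mem_commutator he hu⟩
        have h3 := Cfsg.Agent.Lib.Helper17.CharP3.stab_conj hEn huS hrn
        have e : ⁅r, u⁆ = (r * u * r⁻¹) * u⁻¹ := by rw [commutatorElement_def]
        rw [e]
        exact mul_mem h3 (inv_mem huS)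
      have hcomm2 : ⁅E, ⁅R ⊓ Subgroup.centralizer ({c} : Set G), U⁆⁆ ≤ ⁅E, Subgroup.zpowers c⁆ := by
        rw [Subgroup.commutator_le, ← hE1]
        intro e he q hq
        exact (hstab hq).2 e he
      have hAB : ⁅Subgroup.zpowers c, ⁅R ⊓ Subgroup.centralizer ({c} : Set G), U⁆⁆ = ⊥ := by
        rw [Subgroup.commutator_eq_bot_iff_le_centralizer, Subgroup.zpowers_le,
          Subgroup.mem_centralizer_iff]
        intro q hq
        exact (hqc q hq).symm
      have h4 := Cfsg.Agent.S2908.result E (Subgroup.zpowers c)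
        ⁅R ⊓ Subgroup.centralizer ({c} : Set G), U⁆ hE hBp
        ((Nat.Prime.coprime_iff_not_dvd hp).1 hQcop.symm) (fun g _ => hnE g) (fun g _ => hnE g)
        hAB hcomm2
      rw [Subgroup.commutator_comm, Subgroup.commutator_eq_bot_iff_le_centralizer] at h4
      exact h4
  intro r hr u hu
  exact hQ (Subgroup.commutator_mem_commutator hr hu)

end Cfsg.Agent.S2909
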