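import Cfsg.Statements.S2911
import Cfsg.Agent.Lib.Helper17.TT
import Cfsg.Agent.Lib.Helper17.Syl

set_option autoImplicit false
open Cfsg

namespace Cfsg.Agent.S2911

open scoped commutatorElement

section aux
open DihedralGroup

theorem d8_center : ∀ d : DihedralGroup 4, (∀ d' : DihedralGroup 4, d' * d = d * d') →
    d = 1 ∨ d = r 2 := by
  decide

theorem d8_comm : (r 2 : DihedralGroup 4) = ⁅(r 1 : DihedralGroup 4), sr 0⁆ := by
  decide

theorem z_mul_self : ((Multiplicative.ofAdd (1 : ZMod 2), (1 : DihedralGroup 4)) :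
    Multiplicative (ZMod 2) × DihedralGroup 4) * (Multiplicative.ofAdd (1 : ZMod 2), 1) = 1 := by
  decide

theorem z_ne_one : ((Multiplicative.ofAdd (1 : ZMod 2), (1 : DihedralGroup 4)) :
    Multiplicative (ZMod 2) × DihedralGroup 4) ≠ 1 := by
  decide

end aux

/-- A finite group whose Sylow 2-subgroups are isomorphic to the direct product of a group of order 2 and a dihedral group of order 8 has a subgroup of index two. -/
theorem result {G : Type*} [Group G] [Finite G] (S : Sylow 2 G) (hS : Nonempty (↥(S : Subgroup G) ≃* Multiplicative (ZMod 2) × DihedralGroup 4)) : ∃ H : Subgroup G, H.index = 2 := by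
  classical
  obtain ⟨e⟩ := hS
  have hprime : Fact (Nat.Prime 2) := ⟨Nat.prime_two⟩
  have hez : e (e.symm (Multiplicative.ofAdd (1 : ZMod 2), 1)) =
      (Multiplicative.ofAdd (1 : ZMod 2), 1) := e.apply_symm_apply _
  have hf : ∀ x, ((MonoidHom.fst (Multiplicative (ZMod 2)) (DihedralGroup 4)).comp e.toMonoidHom) x =
      (e x).1 := fun x => rfl
  have hfsurj : Function.Surjective
      ((MonoidHom.fst (Multiplicative (ZMod 2)) (DihedralGroup 4)).comp e.toMonoidHom) := by
    intro a
    refine ⟨e.symm (a, 1), ?_⟩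
    rw [hf, e.apply_symm_apply]
  have hidx' : ((MonoidHom.fst (Multiplicative (ZMod 2)) (DihedralGroup 4)).comp
      e.toMonoidHom).ker.index = 2 := by
    rw [Subgroup.index_ker, MonoidHom.range_eq_top.2 hfsurj, Subgroup.card_top]
    simp
  have hQsub : (((MonoidHom.fst (Multiplicative (ZMod 2)) (DihedralGroup 4)).comp
      e.toMonoidHom).ker.map (S : Subgroup G).subtype).subgroupOf (S : Subgroup G) =
      ((MonoidHom.fst (Multiplicative (ZMod 2)) (DihedralGroup 4)).comp e.toMonoidHom).ker :=
    Subgroup.comap_map_eq_self_of_injective (Subgroup.subtype_injective _) _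
  have hQi : (((MonoidHom.fst (Multiplicative (ZMod 2)) (DihedralGroup 4)).comp
      e.toMonoidHom).ker.map (S : Subgroup G).subtype).relIndex (S : Subgroup G) = 2 := by
    show ((((MonoidHom.fst (Multiplicative (ZMod 2)) (DihedralGroup 4)).comp
      e.toMonoidHom).ker.map (S : Subgroup G).subtype).subgroupOf (S : Subgroup G)).index = 2
    rw [hQsub]; exact hidx'
  have hzz : ((e.symm (Multiplicative.ofAdd (1 : ZMod 2), 1) : ↥(S : Subgroup G)) : G) *
      ((e.symm (Multiplicative.ofAdd (1 : ZMod 2), 1) : ↥(S : Subgroup G)) : G) = 1 := by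
    have h1 : e.symm (Multiplicative.ofAdd (1 : ZMod 2), 1) *
        e.symm (Multiplicative.ofAdd (1 : ZMod 2), 1) = 1 := by
      apply e.injective
      rw [map_mul, hez, map_one e]
      exact z_mul_self
    exact congrArg Subtype.val h1
  have hzc : ∀ t ∈ (S : Subgroup G),
      t * ((e.symm (Multiplicative.ofAdd (1 : ZMod 2), 1) : ↥(S : Subgroup G)) : G) =
      ((e.symm (Multiplicative.ofAdd (1 : ZMod 2), 1) : ↥(S : Subgroup G)) : G) * t := by
    intro t ht
    have h1 : (⟨t, ht⟩ : ↥(S : Subgroup G)) * e.symm (Multiplicative.ofAdd (1 : ZMod 2), 1) =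
        e.symm (Multiplicative.ofAdd (1 : ZMod 2), 1) * ⟨t, ht⟩ := by
      apply e.injective
      rw [map_mul, map_mul, hez]
      apply Prod.ext
      · simp [mul_comm]
      · simp
    exact congrArg Subtype.val h1
  rcases Cfsg.Agent.Lib.Helper17.TT.thompson_transfer (S : Subgroup G) _ S.not_dvd_index hQi _ hzz
    (S : Subgroup G) S.isPGroup' hzc with ⟨M, -, hM, -⟩ | ⟨g, hgQ, hgS⟩
  · exact ⟨M, hM⟩
  · exfalso
    have hgi : g⁻¹ ∈ Subgroup.normalizer ((S : Subgroup G) : Set G) := by
      apply Cfsg.Agent.Lib.Helper17.Syl.mem_normalizer_of_conj_mem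
      intro r hr
      rw [inv_inv]
      exact hgS r hr
    have hg : g ∈ Subgroup.normalizer ((S : Subgroup G) : Set G) := by
      have := inv_mem hgi
      rwa [inv_inv] at this
    have hconj : ∀ s ∈ (S : Subgroup G), g * s * g⁻¹ ∈ (S : Subgroup G) :=
      fun s hs => (Subgroup.mem_normalizer_iff.1 hg s).1 hs
    obtain ⟨wS, hwker, hwS⟩ := hgQ
    have hwS' : (wS : G) = g⁻¹ * ((e.symm (Multiplicative.ofAdd (1 : ZMod 2), 1) :
        ↥(S : Subgroup G)) : G) * g := hwS
    -- `wS` is central in `S`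
    have hwc : ∀ s : ↥(S : Subgroup G), s * wS = wS * s := by
      intro s
      apply Subtype.ext
      have h1 := hzc _ (hconj s s.2)
      show (s : G) * (wS : G) = (wS : G) * (s : G)
      rw [hwS']
      calc (s : G) * (g⁻¹ * ((e.symm (Multiplicative.ofAdd (1 : ZMod 2), 1) :
            ↥(S : Subgroup G)) : G) * g)
          = g⁻¹ * ((g * (s : G) * g⁻¹) * ((e.symm (Multiplicative.ofAdd (1 : ZMod 2), 1) :
            ↥(S : Subgroup G)) : G)) * g := by group
        _ = g⁻¹ * (((e.symm (Multiplicative.ofAdd (1 : ZMod 2), 1) :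
            ↥(S : Subgroup G)) : G) * (g * (s : G) * g⁻¹)) * g := by rw [h1]
        _ = _ := by group
    have hw1 : (e wS).1 = 1 := by
      have := MonoidHom.mem_ker.1 hwker
      rwa [hf] at this
    have hdc : ∀ d' : DihedralGroup 4, d' * (e wS).2 = (e wS).2 * d' := by
      intro d'
      have h1 := congrArg e (hwc (e.symm (1, d')))
      rw [map_mul, map_mul, e.apply_symm_apply] at h1
      have h2 := congrArg Prod.snd h1
      simpa using h2
    have hzne : (e.symm (Multiplicative.ofAdd (1 : ZMod 2), 1) : ↥(S : Subgroup G)) ≠ 1 := by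
      intro h
      have h1 := congrArg e h
      rw [hez, map_one e] at h1
      exact absurd h1 z_ne_one
    have hwne : wS ≠ 1 := by
      intro h
      apply hzne
      apply Subtype.ext
      have h1 : (wS : G) = 1 := by rw [h]; rfl
      rw [hwS'] at h1
      show ((e.symm (Multiplicative.ofAdd (1 : ZMod 2), 1) : ↥(S : Subgroup G)) : G) = 1
      calc ((e.symm (Multiplicative.ofAdd (1 : ZMod 2), 1) : ↥(S : Subgroup G)) : G)
          = g * (g⁻¹ * ((e.symm (Multiplicative.ofAdd (1 : ZMod 2), 1) :
            ↥(S : Subgroup G)) : G) * g) * g⁻¹ := by group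
        _ = 1 := by rw [h1]; group
    have hd : (e wS).2 = DihedralGroup.r 2 := by
      rcases d8_center _ hdc with h | h
      · exfalso
        apply hwne
        apply e.injective
        rw [map_one e]
        exact Prod.ext hw1 h
      · exact h
    have hwcomm : wS = ⁅e.symm (1, DihedralGroup.r 1), e.symm (1, DihedralGroup.sr 0)⁆ := by
      apply e.injective
      rw [map_commutatorElement, e.apply_symm_apply, e.apply_symm_apply]
      apply Prod.ext
      · rw [hw1]; simp [commutatorElement_def]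
      · rw [hd, d8_comm]; simp [commutatorElement_def]
    -- conjugate back
    have hzcomm : (e.symm (Multiplicative.ofAdd (1 : ZMod 2), 1) : ↥(S : Subgroup G)) =
        ⁅(⟨g * ((e.symm (1, DihedralGroup.r 1) : ↥(S : Subgroup G)) : G) * g⁻¹,
            hconj _ (e.symm (1, DihedralGroup.r 1)).2⟩ : ↥(S : Subgroup G)),
          (⟨g * ((e.symm (1, DihedralGroup.sr 0) : ↥(S : Subgroup G)) : G) * g⁻¹,
            hconj _ (e.symm (1, DihedralGroup.sr 0)).2⟩ : ↥(S : Subgroup G))⁆ := by
      apply Subtype.ext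
      have h1 : (wS : G) = ⁅((e.symm (1, DihedralGroup.r 1) : ↥(S : Subgroup G)) : G),
          ((e.symm (1, DihedralGroup.sr 0) : ↥(S : Subgroup G)) : G)⁆ := by
        rw [hwcomm]; rfl
      rw [hwS'] at h1
      show ((e.symm (Multiplicative.ofAdd (1 : ZMod 2), 1) : ↥(S : Subgroup G)) : G) =
        ⁅g * ((e.symm (1, DihedralGroup.r 1) : ↥(S : Subgroup G)) : G) * g⁻¹,
          g * ((e.symm (1, DihedralGroup.sr 0) : ↥(S : Subgroup G)) : G) * g⁻¹⁆
      calc ((e.symm (Multiplicative.ofAdd (1 : ZMod 2), 1) : ↥(S : Subgroup G)) : G)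
          = g * (g⁻¹ * ((e.symm (Multiplicative.ofAdd (1 : ZMod 2), 1) :
            ↥(S : Subgroup G)) : G) * g) * g⁻¹ := by group
        _ = g * ⁅((e.symm (1, DihedralGroup.r 1) : ↥(S : Subgroup G)) : G),
          ((e.symm (1, DihedralGroup.sr 0) : ↥(S : Subgroup G)) : G)⁆ * g⁻¹ := by rw [h1]
        _ = _ := by simp only [commutatorElement_def]; group
    have h1 := congrArg ((MonoidHom.fst (Multiplicative (ZMod 2)) (DihedralGroup 4)).comp
      e.toMonoidHom) hzcomm
    have h2 : ((MonoidHom.fst (Multiplicative (ZMod 2)) (DihedralGroup 4)).comp e.toMonoidHom)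
        (e.symm (Multiplicative.ofAdd (1 : ZMod 2), 1)) = Multiplicative.ofAdd (1 : ZMod 2) := by
      rw [hf, hez]
    rw [h2, map_commutatorElement, commutatorElement_eq_one_iff_commute.2 (Commute.all _ _)] at h1
    exact absurd h1 Cfsg.Agent.Lib.Helper17.TT.zmod2_ne_one

end Cfsg.Agent.S2911
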