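import Mathlib
import Cfsg.Statements.S2912

set_option autoImplicit false
open Cfsg

open scoped IsMulCommutative

namespace Cfsg.Agent.S2912

section abs
variable {Q A : Type*} [Group Q] [CommGroup A] (ρ : Q →* MulAut A) (p : ℕ)

theorem nrm_core (g : Q) (hg : g ^ p = 1) (a : A) :
    ∏ k ∈ Finset.range p, ρ (g ^ (k + 1)) a = ∏ k ∈ Finset.range p, ρ (g ^ k) a := by
  have h3 := Finset.prod_range_succ' (fun k => ρ (g ^ k) a) p
  rw [Finset.prod_range_succ] at h3
  simp only [hg, pow_zero] at h3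
  exact (mul_right_cancel h3).symm

theorem nrm_fix (g : Q) (hg : g ^ p = 1) (a : A) :
    ρ g (∏ k ∈ Finset.range p, ρ (g ^ k) a) = ∏ k ∈ Finset.range p, ρ (g ^ k) a := by
  rw [map_prod, ← nrm_core ρ p g hg a]
  refine Finset.prod_congr rfl fun k _ => ?_
  rw [pow_succ', map_mul ρ, MulAut.mul_apply]

theorem nrm_one_of_fix (g : Q) (hg : g ^ p = 1) (hfix : ∀ a : A, ρ g a = a → a = 1) (a : A) :
    ∏ k ∈ Finset.range p, ρ (g ^ k) a = 1 := hfix _ (nrm_fix ρ p g hg a)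

theorem fix_zpow [Fact p.Prime] (z : Q) (hz : z ^ p = 1) (hfix : ∀ a : A, ρ z a = a → a = 1)
    (m : ℤ) (hm : ¬ (p : ℤ) ∣ m) (a : A) (ha : ρ (z ^ m) a = a) : a = 1 := by
  have hp := (Fact.out : p.Prime)
  apply hfix
  have h1 : Nat.Coprime p m.natAbs :=
    (Nat.Prime.coprime_iff_not_dvd hp).mpr (fun h => hm (Int.natCast_dvd.mpr h))
  have hcop : IsCoprime (p : ℤ) m := Int.isCoprime_iff_nat_coprime.mpr (by simpa using h1)
  obtain ⟨u, v, huv⟩ := hcop
  have hS : z ^ m ∈ (MulAction.stabilizer (MulAut A) a).comap ρ := by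
    rw [Subgroup.mem_comap, MulAction.mem_stabilizer_iff]; exact ha
  have h3 : z = (z ^ m) ^ v := by
    have h4 : z ^ (u * (p : ℤ) + v * m) = z := by rw [huv, zpow_one]
    rw [zpow_add, mul_comm u, zpow_mul, zpow_natCast, hz, one_zpow, one_mul, mul_comm v, zpow_mul] at h4
    exact h4.symm
  have h2 : z ∈ (MulAction.stabilizer (MulAut A) a).comap ρ := by
    rw [h3]; exact zpow_mem hS v
  rw [Subgroup.mem_comap, MulAction.mem_stabilizer_iff] at h2
  exact h2

theorem pow_apply_eq (t s : Q) (hts : Commute t s) (c : A) (h : ρ t c = ρ s c) (k : ℕ) :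
    ρ (t ^ k) c = ρ (s ^ k) c := by
  induction k with
  | zero => simp
  | succ k ih =>
    calc ρ (t ^ (k + 1)) c = ρ (t ^ k) (ρ t c) := by rw [pow_succ, map_mul ρ, MulAut.mul_apply]
      _ = ρ (t ^ k) (ρ s c) := by rw [h]
      _ = ρ s (ρ (t ^ k) c) := by
          rw [← MulAut.mul_apply, ← MulAut.mul_apply, ← map_mul ρ, ← map_mul ρ, (hts.pow_left k).eq]
      _ = ρ s (ρ (s ^ k) c) := by rw [ih]
      _ = ρ (s ^ (k + 1)) c := by rw [pow_succ', map_mul ρ, MulAut.mul_apply]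

theorem F1abs [Fact p.Prime] (x z : Q) (hxz : Commute x z) (hx : x ^ p = 1) (hz : z ^ p = 1)
    (hfixz : ∀ a : A, ρ z a = a → a = 1)
    (hfix : ∀ i : ℕ, ∀ a : A, ρ (z ^ i * x) a = a → a = 1) (a : A) : a ^ p = 1 := by
  have hp := (Fact.out : p.Prime)
  have h1 : ∏ i ∈ Finset.range p, ∏ k ∈ Finset.range p, ρ ((z ^ i * x) ^ k) a = 1 := by
    apply Finset.prod_eq_one
    intro i _
    apply hfix i
    apply nrm_fix
    rw [((hxz.symm).pow_left i).mul_pow, hx, mul_one, ← pow_mul, mul_comm, pow_mul, hz, one_pow]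
  rw [Finset.prod_comm] at h1
  have h2 : ∀ k ∈ Finset.range p,
      ∏ i ∈ Finset.range p, ρ ((z ^ i * x) ^ k) a = if k = 0 then a ^ p else 1 := by
    intro k hk
    have h3 : ∀ i : ℕ, ρ ((z ^ i * x) ^ k) a = ρ (x ^ k) (ρ ((z ^ k) ^ i) a) := by
      intro i
      have e1 : (z ^ i) ^ k = (z ^ k) ^ i := by rw [← pow_mul, ← pow_mul, mul_comm]
      have e : (z ^ i * x) ^ k = x ^ k * (z ^ k) ^ i := by
        rw [((hxz.symm).pow_left i).mul_pow, e1]
        exact ((((hxz.symm).pow_left k).pow_left i).pow_right k).eq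
      rw [e, map_mul ρ, MulAut.mul_apply]
    simp only [h3]
    rw [← map_prod (ρ (x ^ k)) (fun i => ρ ((z ^ k) ^ i) a) (Finset.range p)]
    split_ifs with hk0
    · subst hk0
      simp
    · have h4 : ∏ i ∈ Finset.range p, ρ ((z ^ k) ^ i) a = 1 := by
        apply nrm_one_of_fix
        · rw [← pow_mul, mul_comm, pow_mul, hz, one_pow]
        · intro b hb
          refine fix_zpow ρ p z hz hfixz (k : ℤ) ?_ b (by rw [zpow_natCast]; exact hb)
          rw [Int.natCast_dvd_natCast]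
          exact fun h => hk0 (Nat.eq_zero_of_dvd_of_lt h (Finset.mem_range.mp hk))
      rw [h4, map_one]
  rw [Finset.prod_congr rfl h2] at h1
  simpa [hp.pos] using h1

theorem F2abs [Fact p.Prime] (x z : Q) (hxz : Commute x z) (hz : z ^ p = 1)
    (hfixz : ∀ a : A, ρ z a = a → a = 1)
    (c : Fin p → A) (hc : ∀ i : Fin p, ρ (z ^ (i : ℕ) * x) (c i) = c i) (j : Fin p) :
    ∏ k ∈ Finset.range p, ρ ((z ^ (j : ℕ) * x) ^ k) (∏ i : Fin p, c i) = c j ^ p := by
  simp only [map_prod]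
  rw [Finset.prod_comm, Finset.prod_eq_single j]
  · have h0 : ∀ k : ℕ, ρ ((z ^ (j : ℕ) * x) ^ k) (c j) = c j := by
      intro k
      induction k with
      | zero => simp
      | succ k ih => rw [pow_succ, map_mul ρ, MulAut.mul_apply, hc j, ih]
    simp only [h0, Finset.prod_const, Finset.card_range]
  · intro i _ hij
    have h1 : ρ (z ^ (j : ℕ) * x) (c i) = ρ (z ^ (((j : ℕ) : ℤ) - ((i : ℕ) : ℤ))) (c i) := by
      have e : z ^ (j : ℕ) * x = z ^ (((j : ℕ) : ℤ) - ((i : ℕ) : ℤ)) * (z ^ (i : ℕ) * x) := by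
        rw [← mul_assoc, ← zpow_natCast z (i : ℕ), ← zpow_add, sub_add_cancel, zpow_natCast]
      rw [e, map_mul ρ, MulAut.mul_apply, hc i]
    have hcomm : Commute (z ^ (j : ℕ) * x) (z ^ (((j : ℕ) : ℤ) - ((i : ℕ) : ℤ))) :=
      (((Commute.refl z).pow_left (j : ℕ)).mul_left hxz).zpow_right _
    have h2 : ∀ k : ℕ, ρ ((z ^ (j : ℕ) * x) ^ k) (c i)
        = ρ ((z ^ (((j : ℕ) : ℤ) - ((i : ℕ) : ℤ))) ^ k) (c i) :=
      fun k => pow_apply_eq ρ _ _ hcomm (c i) h1 k
    simp only [h2]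
    apply nrm_one_of_fix
    · rw [← zpow_natCast, ← zpow_mul, mul_comm, zpow_mul, zpow_natCast, hz, one_zpow]
    · intro b hb
      refine fix_zpow ρ p z hz hfixz _ ?_ b hb
      intro hdvd
      apply hij
      have h5 : (i : ℕ) ≡ (j : ℕ) [MOD p] :=
        Int.natCast_modEq_iff.mp (Int.modEq_iff_dvd.mpr hdvd)
      exact Fin.ext (Nat.ModEq.eq_of_lt_of_lt h5 i.2 j.2)
  · intro hj
    exact absurd (Finset.mem_univ j) hj

theorem abs_step [Fact p.Prime] [Finite A] (x y z : Q) (hzp : z ^ p = 1) (hxp : x ^ p = 1)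
    (hxy : x * y = z * y * x) (hxz : Commute x z) (hzy : Commute z y)
    (hfixz : ∀ a : A, ρ z a = a → a = 1)
    (hpow1 : ∀ a : A, a ^ p = 1 → a = 1) (hA : ∃ a : A, a ≠ 1) :
    (∃ a : A, a ≠ 1 ∧ ρ x a = a) ∧ Nat.card {a : A // ρ x a = a} ^ p ≤ Nat.card A := by
  have hconj : ∀ i : ℕ, x * y ^ i = y ^ i * (z ^ i * x) := by
    intro i
    induction i with
    | zero => simp
    | succ i ih =>
      have hc : z ^ (i + 1) * y = y * z ^ (i + 1) := (hzy.pow_left (i + 1)).eq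
      calc x * y ^ (i + 1) = x * y ^ i * y := by rw [pow_succ, mul_assoc]
        _ = y ^ i * (z ^ i * x) * y := by rw [ih]
        _ = y ^ i * z ^ i * (x * y) := by simp only [mul_assoc]
        _ = y ^ i * z ^ i * (z * y * x) := by rw [hxy]
        _ = y ^ i * (z ^ (i + 1) * y) * x := by rw [pow_succ z]; simp only [mul_assoc]
        _ = y ^ i * (y * z ^ (i + 1)) * x := by rw [hc]
        _ = y ^ (i + 1) * (z ^ (i + 1) * x) := by rw [pow_succ y]; simp only [mul_assoc]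
  constructor
  · by_contra hcon
    push Not at hcon
    have hfx : ∀ a : A, ρ x a = a → a = 1 := by
      intro a ha
      by_contra ha1
      exact hcon a ha1 ha
    have hfi : ∀ i : ℕ, ∀ a : A, ρ (z ^ i * x) a = a → a = 1 := by
      intro i a ha
      have h1 : ρ x (ρ (y ^ i) a) = ρ (y ^ i) a := by
        rw [← MulAut.mul_apply, ← map_mul ρ, hconj i, map_mul ρ, MulAut.mul_apply, ha]
      exact (MulEquiv.map_eq_one_iff (ρ (y ^ i))).mp (hfx _ h1)
    obtain ⟨a, ha⟩ := hA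
    exact ha (hpow1 a (F1abs ρ p x z hxz hxp hzp hfixz hfi a))
  · have hpinj : ∀ a b : A, a ^ p = b ^ p → a = b := by
      intro a b hab
      have h1 : (a * b⁻¹) ^ p = 1 := by rw [mul_pow, hab, inv_pow, mul_inv_cancel]
      exact mul_inv_eq_one.mp (hpow1 _ h1)
    have hcard : Nat.card (Fin p → {a : A // ρ x a = a}) = Nat.card {a : A // ρ x a = a} ^ p := by
      rw [Nat.card_fun, Nat.card_fin]
    rw [← hcard]
    have hcfix : ∀ (f : Fin p → {a : A // ρ x a = a}) (i : Fin p),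
        ρ (z ^ (i : ℕ) * x) (ρ ((y⁻¹) ^ (i : ℕ)) (f i : A)) = ρ ((y⁻¹) ^ (i : ℕ)) (f i : A) := by
      intro f i
      have h2 : z ^ (i : ℕ) * x * (y⁻¹) ^ (i : ℕ) = (y⁻¹) ^ (i : ℕ) * x := by
        rw [inv_pow, eq_inv_mul_of_mul_eq (hconj i).symm]; simp [mul_assoc]
      rw [← MulAut.mul_apply, ← map_mul ρ, h2, map_mul ρ, MulAut.mul_apply, (f i).2]
    apply Nat.card_le_card_of_injective (fun f : Fin p → {a : A // ρ x a = a} =>
      ∏ i : Fin p, ρ ((y⁻¹) ^ (i : ℕ)) (f i : A))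
    intro f f' hff
    funext j
    have e1 := F2abs ρ p x z hxz hzp hfixz (fun i : Fin p => ρ ((y⁻¹) ^ (i : ℕ)) (f i : A))
      (hcfix f) j
    have e2 := F2abs ρ p x z hxz hzp hfixz (fun i : Fin p => ρ ((y⁻¹) ^ (i : ℕ)) (f' i : A))
      (hcfix f') j
    have hff' : ∏ i : Fin p, ρ ((y⁻¹) ^ (i : ℕ)) (f i : A)
        = ∏ i : Fin p, ρ ((y⁻¹) ^ (i : ℕ)) (f' i : A) := hff
    rw [hff'] at e1
    have e3 := hpinj _ _ (e1.symm.trans e2)
    exact Subtype.ext (MulEquiv.injective (ρ ((y⁻¹) ^ (j : ℕ))) e3)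

theorem exists_fixfree_sub (r : ℕ) (hcop : Nat.Coprime p r) (z : Q) (hz : z ^ p = 1)
    (hcen : ∀ g : Q, g * z = z * g) (hexp : ∀ a : A, a ^ r = 1) (hnt : ∃ a : A, ρ z a ≠ a) :
    ∃ B : Subgroup A, B ≠ ⊥ ∧ (∀ g : Q, ∀ b ∈ B, ρ g b ∈ B) ∧ (∀ b ∈ B, ρ z b = b → b = 1) := by
  obtain ⟨N, hN⟩ : ∃ N : A →* A, ∀ a, N a = ∏ k ∈ Finset.range p, ρ (z ^ k) a :=
    ⟨∏ k ∈ Finset.range p, (ρ (z ^ k)).toMonoidHom, fun a => by
      simp [MonoidHom.finsetProd_apply]⟩
  refine ⟨N.ker, ?_, ?_, ?_⟩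
  · obtain ⟨a, ha⟩ := hnt
    intro hbot
    have hmem : ρ z a * a⁻¹ ∈ N.ker := by
      rw [MonoidHom.mem_ker, map_mul, map_inv, hN, hN]
      have h1 : ∏ k ∈ Finset.range p, ρ (z ^ k) (ρ z a) = ∏ k ∈ Finset.range p, ρ (z ^ k) a := by
        rw [← nrm_core ρ p z hz a]
        refine Finset.prod_congr rfl fun k _ => ?_
        rw [pow_succ, map_mul ρ, MulAut.mul_apply]
      rw [h1, mul_inv_cancel]
    rw [hbot, Subgroup.mem_bot] at hmem
    exact ha (mul_inv_eq_one.mp hmem)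
  · intro g b hb
    rw [MonoidHom.mem_ker, hN] at hb ⊢
    have h1 : ∀ k : ℕ, ρ (z ^ k) (ρ g b) = ρ g (ρ (z ^ k) b) := by
      intro k
      rw [← MulAut.mul_apply, ← MulAut.mul_apply, ← map_mul ρ, ← map_mul ρ,
        ((show Commute g z from hcen g).pow_right k).eq]
    simp only [h1]
    rw [← map_prod (ρ g) (fun k => ρ (z ^ k) b) (Finset.range p), hb, map_one]
  · intro b hb hzb
    rw [MonoidHom.mem_ker, hN] at hb
    have hk : ∀ k : ℕ, ρ (z ^ k) b = b := by
      intro k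
      induction k with
      | zero => simp
      | succ k ih => rw [pow_succ, map_mul ρ, MulAut.mul_apply, hzb, ih]
    simp only [hk, Finset.prod_const, Finset.card_range] at hb
    have h1 : orderOf b ∣ p := orderOf_dvd_of_pow_eq_one hb
    have h2 : orderOf b ∣ r := orderOf_dvd_of_pow_eq_one (hexp b)
    have h3 := Nat.dvd_gcd h1 h2
    rw [Nat.Coprime.gcd_eq_one hcop] at h3
    exact orderOf_eq_one_iff.mp (Nat.dvd_one.mp h3)

end abs

theorem conj_eq_imp_comm {G : Type*} [Group G] (a b x : G) (e : a * x * a⁻¹ = b * x * b⁻¹) :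
    x * (a⁻¹ * b) = a⁻¹ * b * x := by
  have h : a⁻¹ * (a * x * a⁻¹) * b = a⁻¹ * (b * x * b⁻¹) * b := by rw [e]
  simpa [mul_assoc] using h

theorem card_le_of_fiber {G T : Type*} [Group G] [Finite G] [Finite T] (K H : Subgroup G)
    (f : ↥K → T) (hf : ∀ a b : ↥K, f a = f b → (a : G)⁻¹ * (b : G) ∈ H) :
    Nat.card K ≤ Nat.card T * Nat.card H := by
  classical
  obtain ⟨s, hs⟩ : ∃ s : T → ↥K, ∀ a : ↥K, f (s (f a)) = f a := by
    refine ⟨fun t => if h : ∃ a : ↥K, f a = t then Classical.choose h else 1, fun a => ?_⟩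
    have h : ∃ a' : ↥K, f a' = f a := ⟨a, rfl⟩
    simp only [dif_pos h]
    exact Classical.choose_spec h
  rw [← Nat.card_prod]
  apply Nat.card_le_card_of_injective
    (fun a : ↥K => ((f a, ⟨((s (f a) : ↥K) : G)⁻¹ * (a : G), hf _ _ (hs a)⟩) : T × ↥H))
  intro a b hab
  simp only [Prod.mk.injEq, Subtype.mk.injEq] at hab
  obtain ⟨h1, h2⟩ := hab
  rw [h1] at h2
  exact Subtype.ext (mul_left_cancel h2)

theorem exists_conjHom {G : Type*} [Group G] (Q B : Subgroup G)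
    (hnorm : ∀ g ∈ Q, ∀ b ∈ B, g * b * g⁻¹ ∈ B) :
    ∃ ρ : ↥Q →* MulAut ↥B, ∀ (g : ↥Q) (b : ↥B), ((ρ g b : ↥B) : G) = (g : G) * b * (g : G)⁻¹ := by
  refine ⟨MonoidHom.mk' (fun g =>
    { toFun := fun b => ⟨(g : G) * b * (g : G)⁻¹, hnorm g g.2 b b.2⟩
      invFun := fun b => ⟨(g : G)⁻¹ * b * (g : G), by
        simpa using hnorm (g⁻¹ : ↥Q) (g⁻¹).2 b b.2⟩
      left_inv := fun b => Subtype.ext (by simp [mul_assoc])
      right_inv := fun b => Subtype.ext (by simp [mul_assoc])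
      map_mul' := fun a b => Subtype.ext (by simp [mul_assoc]) }) ?_, fun _ _ => rfl⟩
  intro g h
  ext b
  simp [mul_assoc]

theorem exists_commHom {G : Type*} [Group G] (Q : Subgroup G) (z x : G) (hx : x ∈ Q)
    (hcen : ∀ g ∈ Q, g * z = z * g)
    (hcomm : ∀ g ∈ Q, ∀ h ∈ Q, g * h * g⁻¹ * h⁻¹ ∈ Subgroup.zpowers z) :
    ∃ κ : ↥Q →* ↥(Subgroup.zpowers z),
      ∀ g : ↥Q, ((κ g : ↥(Subgroup.zpowers z)) : G) = (g : G) * x * (g : G)⁻¹ * x⁻¹ := by
  have hcenZ : ∀ d ∈ Subgroup.zpowers z, ∀ g ∈ Q, Commute d g := by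
    intro d hd g hg
    obtain ⟨k, rfl⟩ := Subgroup.mem_zpowers_iff.mp hd
    exact ((show Commute g z from hcen g hg).zpow_right k).symm
  refine ⟨MonoidHom.mk' (fun g => ⟨(g : G) * x * (g : G)⁻¹ * x⁻¹, hcomm g g.2 x hx⟩) ?_,
    fun _ => rfl⟩
  intro g h
  apply Subtype.ext
  obtain ⟨d, hd⟩ : ∃ d : G, d = (h : G) * x * (h : G)⁻¹ * x⁻¹ := ⟨_, rfl⟩
  have hdZ : d ∈ Subgroup.zpowers z := by rw [hd]; exact hcomm h h.2 x hx
  have hdg : Commute d (g : G) := hcenZ d hdZ g g.2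
  have hdx : Commute d x := hcenZ d hdZ x hx
  have key : Commute d ((g : G) * x * (g : G)⁻¹ * x⁻¹) :=
    ((hdg.mul_right hdx).mul_right hdg.inv_right).mul_right hdx.inv_right
  show ((g * h : ↥Q) : G) * x * ((g * h : ↥Q) : G)⁻¹ * x⁻¹
    = ((g : G) * x * (g : G)⁻¹ * x⁻¹) * ((h : G) * x * (h : G)⁻¹ * x⁻¹)
  rw [← hd, Subgroup.coe_mul]
  calc (g : G) * (h : G) * x * ((g : G) * (h : G))⁻¹ * x⁻¹
      = (g : G) * (d * x) * (g : G)⁻¹ * x⁻¹ := by rw [hd]; group
    _ = d * ((g : G) * x * (g : G)⁻¹ * x⁻¹) := by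
        rw [← mul_assoc (g : G) d x, ← hdg.eq]; simp only [mul_assoc]
    _ = (g : G) * x * (g : G)⁻¹ * x⁻¹ * d := key.eq

theorem mul_pow_class2 {G : Type*} [Group G] (u v d : G) (hd : v * u = d * u * v)
    (hdu : Commute d u) (hdv : Commute d v) (k : ℕ) :
    (u * v) ^ k = d ^ (k.choose 2) * u ^ k * v ^ k := by
  have h1 : ∀ m : ℕ, v ^ m * u = d ^ m * u * v ^ m := by
    intro m
    induction m with
    | zero => simp
    | succ m ihm =>
      calc v ^ (m + 1) * u = v ^ m * (v * u) := by rw [pow_succ, mul_assoc]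
        _ = v ^ m * d * u * v := by rw [hd]; simp only [mul_assoc]
        _ = d * v ^ m * u * v := by rw [(hdv.pow_right m).eq]
        _ = d * (v ^ m * u) * v := by simp only [mul_assoc]
        _ = d * (d ^ m * u * v ^ m) * v := by rw [ihm]
        _ = d ^ (m + 1) * u * v ^ (m + 1) := by
            rw [pow_succ' d, pow_succ v]; simp only [mul_assoc]
  induction k with
  | zero => simp
  | succ k ih =>
    have hc : u ^ k * d ^ k = d ^ k * u ^ k := ((hdu.pow_left k).pow_right k).eq.symm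
    have hchoose : (k + 1).choose 2 = k.choose 2 + k := by
      have h := Nat.choose_succ_succ' k 1
      simpa [add_comm] using h
    calc (u * v) ^ (k + 1) = d ^ (k.choose 2) * u ^ k * v ^ k * (u * v) := by rw [pow_succ, ih]
      _ = d ^ (k.choose 2) * u ^ k * (v ^ k * u) * v := by simp only [mul_assoc]
      _ = d ^ (k.choose 2) * u ^ k * (d ^ k * u * v ^ k) * v := by rw [h1 k]
      _ = d ^ (k.choose 2) * (u ^ k * d ^ k) * u * v ^ k * v := by simp only [mul_assoc]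
      _ = d ^ (k.choose 2) * (d ^ k * u ^ k) * u * v ^ k * v := by rw [hc]
      _ = d ^ ((k + 1).choose 2) * u ^ (k + 1) * v ^ (k + 1) := by
          rw [hchoose, pow_add d, pow_succ u, pow_succ v]; simp only [mul_assoc]

theorem card_Q1 {G : Type*} [Group G] [Finite G] {p : ℕ} [Fact p.Prime] (Q : Subgroup G) (z : G)
    (hz1 : z ≠ 1) (hzp : z ^ p = 1) (hcen : ∀ g ∈ Q, g * z = z * g)
    (hcomm : ∀ g ∈ Q, ∀ h ∈ Q, g * h * g⁻¹ * h⁻¹ ∈ Subgroup.zpowers z) (x y : G)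
    (hx : x ∈ Q) (hy : y ∈ Q) :
    Nat.card Q ≤ p * p * Nat.card ↥(Q ⊓ Subgroup.centralizer {x, y}) := by
  obtain ⟨κx, hκx⟩ := exists_commHom Q z x hx hcen hcomm
  obtain ⟨κy, hκy⟩ := exists_commHom Q z y hy hcen hcomm
  have hZ : Nat.card ↥(Subgroup.zpowers z) = p := by
    rw [Nat.card_zpowers, orderOf_eq_prime hzp hz1]
  have key : Nat.card Q ≤ Nat.card (↥(Subgroup.zpowers z) × ↥(Subgroup.zpowers z))
      * Nat.card ↥(Q ⊓ Subgroup.centralizer {x, y}) := by
    apply card_le_of_fiber Q (Q ⊓ Subgroup.centralizer {x, y}) (fun g : ↥Q => (κx g, κy g))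
    intro a b hab
    simp only [Prod.mk.injEq] at hab
    obtain ⟨h1, h2⟩ := hab
    have ha := congrArg Subtype.val h1
    have hb := congrArg Subtype.val h2
    rw [hκx, hκx] at ha
    rw [hκy, hκy] at hb
    refine Subgroup.mem_inf.mpr ⟨Q.mul_mem (Q.inv_mem a.2) b.2, ?_⟩
    rw [Subgroup.mem_centralizer_iff]
    intro t ht
    rw [Set.mem_insert_iff, Set.mem_singleton_iff] at ht
    rcases ht with ht | ht
    · rw [ht]; exact conj_eq_imp_comm _ _ _ (mul_right_cancel ha)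
    · rw [ht]; exact conj_eq_imp_comm _ _ _ (mul_right_cancel hb)
  rwa [Nat.card_prod, hZ] at key

theorem pow_central {G : Type*} [Group G] {p : ℕ} (Q : Subgroup G) (z : G) (hzp : z ^ p = 1)
    (hcen : ∀ g ∈ Q, g * z = z * g)
    (hcomm : ∀ g ∈ Q, ∀ h ∈ Q, g * h * g⁻¹ * h⁻¹ ∈ Subgroup.zpowers z) (g h : G)
    (hg : g ∈ Q) (hh : h ∈ Q) : g ^ p * h = h * g ^ p := by
  obtain ⟨κ, hκ⟩ := exists_commHom Q z h hh hcen hcomm
  have h1 : κ ((⟨g, hg⟩ : ↥Q) ^ p) = 1 := by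
    rw [map_pow]
    apply Subtype.ext
    obtain ⟨k, hk⟩ := Subgroup.mem_zpowers_iff.mp (κ ⟨g, hg⟩).2
    rw [Subgroup.coe_pow, Subgroup.coe_one, ← hk, ← zpow_natCast, ← zpow_mul, mul_comm, zpow_mul,
      zpow_natCast, hzp, one_zpow]
  have h2 := congrArg Subtype.val h1
  rw [hκ] at h2
  simp only [Subgroup.coe_pow, Subgroup.coe_one] at h2
  exact mul_inv_eq_iff_eq_mul.mp (mul_inv_eq_one.mp h2)

theorem center_Q1 {G : Type*} [Group G] (Q : Subgroup G) (z : G)
    (hcen : ∀ g ∈ Q, g * z = z * g)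
    (hcomm : ∀ g ∈ Q, ∀ h ∈ Q, g * h * g⁻¹ * h⁻¹ ∈ Subgroup.zpowers z) (x y : G)
    (hx : x ∈ Q) (hy : y ∈ Q) (hxy : x * y = z * y * x) (g : G)
    (hg : g ∈ Q ⊓ Subgroup.centralizer {x, y})
    (hgc : ∀ h ∈ Q ⊓ Subgroup.centralizer {x, y}, g * h = h * g) : ∀ h ∈ Q, g * h = h * g := by
  intro h hh
  obtain ⟨κx, hκx⟩ := exists_commHom Q z x hx hcen hcomm
  obtain ⟨κy, hκy⟩ := exists_commHom Q z y hy hcen hcomm
  obtain ⟨xq, hxq⟩ : ∃ xq : ↥Q, (xq : G) = x := ⟨⟨x, hx⟩, rfl⟩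
  obtain ⟨yq, hyq⟩ : ∃ yq : ↥Q, (yq : G) = y := ⟨⟨y, hy⟩, rfl⟩
  obtain ⟨hq, hhq⟩ : ∃ hq : ↥Q, (hq : G) = h := ⟨⟨h, hh⟩, rfl⟩
  obtain ⟨ζ, hζ⟩ : ∃ ζ : ↥(Subgroup.zpowers z), (ζ : G) = z :=
    ⟨⟨z, Subgroup.mem_zpowers z⟩, rfl⟩
  have hxx : κx xq = 1 := Subtype.ext (by rw [hκx, hxq]; simp)
  have hyy : κy yq = 1 := Subtype.ext (by rw [hκy, hyq]; simp)
  have e1 : x * y * x⁻¹ * y⁻¹ = z := by rw [hxy]; simp [mul_assoc]
  have hyx : κy xq = ζ := Subtype.ext (by rw [hκy, hxq, hζ, e1])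
  have hxy' : κx yq = ζ⁻¹ := Subtype.ext (by
    rw [hκx, hyq, Subgroup.coe_inv, hζ, ← e1]; simp [mul_assoc])
  obtain ⟨a, ha⟩ := Subgroup.mem_zpowers_iff.mp (κx hq).2
  obtain ⟨b, hb⟩ := Subgroup.mem_zpowers_iff.mp (κy hq).2
  have ha' : κx hq = ζ ^ a := Subtype.ext (by rw [Subgroup.coe_zpow, hζ, ha])
  have hb' : κy hq = ζ ^ b := Subtype.ext (by rw [Subgroup.coe_zpow, hζ, hb])
  have hqx : κx (yq ^ a * xq ^ (-b) * hq) = 1 := by
    rw [map_mul, map_mul, map_zpow, map_zpow, hxx, hxy', ha', one_zpow, mul_one, inv_zpow,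
      inv_mul_cancel]
  have hqy : κy (yq ^ a * xq ^ (-b) * hq) = 1 := by
    rw [map_mul, map_mul, map_zpow, map_zpow, hyy, hyx, hb', one_zpow, one_mul, zpow_neg,
      inv_mul_cancel]
  obtain ⟨q, hq_def⟩ : ∃ q : ↥Q, q = yq ^ a * xq ^ (-b) * hq := ⟨_, rfl⟩
  rw [← hq_def] at hqx hqy
  have hqQ1 : (q : G) ∈ Q ⊓ Subgroup.centralizer {x, y} := by
    refine Subgroup.mem_inf.mpr ⟨q.2, ?_⟩
    rw [Subgroup.mem_centralizer_iff]
    intro t ht
    rw [Set.mem_insert_iff, Set.mem_singleton_iff] at ht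
    have e2 := congrArg Subtype.val hqx
    have e3 := congrArg Subtype.val hqy
    rw [hκx, Subgroup.coe_one] at e2
    rw [hκy, Subgroup.coe_one] at e3
    rcases ht with ht | ht
    · rw [ht]; exact (mul_inv_eq_iff_eq_mul.mp (mul_inv_eq_one.mp e2)).symm
    · rw [ht]; exact (mul_inv_eq_iff_eq_mul.mp (mul_inv_eq_one.mp e3)).symm
  have hgq : Commute g (q : G) := hgc q hqQ1
  have hgcen := Subgroup.mem_centralizer_iff.mp (Subgroup.mem_inf.mp hg).2
  have hgx : Commute g x := (hgcen x (by simp)).symm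
  have hgy : Commute g y := (hgcen y (by simp)).symm
  have hh_eq : h = x ^ b * y ^ (-a) * (q : G) := by
    rw [hq_def, ← hhq]
    simp only [Subgroup.coe_mul, Subgroup.coe_zpow, hxq, hyq]
    group
  rw [hh_eq]
  exact (((hgx.zpow_right b).mul_right (hgy.zpow_right (-a))).mul_right hgq).eq

theorem step_a {G : Type*} [Group G] [Finite G] {p r : ℕ} [Fact p.Prime] [Fact r.Prime]
    (hpr : p ≠ r) (Q B : Subgroup G) (x y z : G) (hx : x ∈ Q) (hy : y ∈ Q) (hz : z ∈ Q)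
    (hxp : x ^ p = 1) (hzp : z ^ p = 1)
    (hxy : x * y = z * y * x) (hzx : z * x = x * z) (hzy : z * y = y * z)
    (hnorm : ∀ g ∈ Q, ∀ b ∈ B, g * b * g⁻¹ ∈ B)
    (hfix : ∀ b ∈ B, z * b = b * z → b = 1)
    (hab : ∀ a ∈ B, ∀ b ∈ B, a * b = b * a) (hexp : ∀ b ∈ B, b ^ r = 1) (hB : B ≠ ⊥) :
    (B ⊓ Subgroup.centralizer {x}) ≠ ⊥ ∧
      Nat.card ↥(B ⊓ Subgroup.centralizer {x}) ^ p ≤ Nat.card B := by
  have hp := (Fact.out : p.Prime)
  have hr := (Fact.out : r.Prime)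
  have hcop : Nat.Coprime p r := (Nat.coprime_primes hp hr).mpr hpr
  haveI : IsMulCommutative ↥B := ⟨⟨fun a b => Subtype.ext (hab a a.2 b b.2)⟩⟩
  obtain ⟨ρ, hρ⟩ := exists_conjHom Q B hnorm
  obtain ⟨xq, hxq⟩ : ∃ xq : ↥Q, (xq : G) = x := ⟨⟨x, hx⟩, rfl⟩
  obtain ⟨yq, hyq⟩ : ∃ yq : ↥Q, (yq : G) = y := ⟨⟨y, hy⟩, rfl⟩
  obtain ⟨zq, hzq⟩ : ∃ zq : ↥Q, (zq : G) = z := ⟨⟨z, hz⟩, rfl⟩
  have hxqp : xq ^ p = 1 := Subtype.ext (by rw [Subgroup.coe_pow, hxq, hxp, Subgroup.coe_one])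
  have hzqp : zq ^ p = 1 := Subtype.ext (by rw [Subgroup.coe_pow, hzq, hzp, Subgroup.coe_one])
  have hxzq : Commute xq zq :=
    Subtype.ext (by rw [Subgroup.coe_mul, Subgroup.coe_mul, hxq, hzq, hzx])
  have hzyq : Commute zq yq :=
    Subtype.ext (by rw [Subgroup.coe_mul, Subgroup.coe_mul, hyq, hzq, hzy])
  have hxyq : xq * yq = zq * yq * xq := Subtype.ext (by
    simp only [Subgroup.coe_mul, hxq, hyq, hzq]; exact hxy)
  have hpow1 : ∀ a : ↥B, a ^ p = 1 → a = 1 := by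
    intro a ha
    have h1 : orderOf a ∣ p := orderOf_dvd_of_pow_eq_one ha
    have h2 : orderOf a ∣ r := orderOf_dvd_of_pow_eq_one
      (Subtype.ext (by rw [Subgroup.coe_pow, Subgroup.coe_one]; exact hexp a a.2))
    have h3 := Nat.dvd_gcd h1 h2
    rw [Nat.Coprime.gcd_eq_one hcop] at h3
    exact orderOf_eq_one_iff.mp (Nat.dvd_one.mp h3)
  have hfixz : ∀ a : ↥B, ρ zq a = a → a = 1 := by
    intro a ha
    have h1 : z * (a : G) * z⁻¹ = a := by rw [← hzq, ← hρ, ha]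
    exact Subtype.ext (hfix a a.2 (mul_inv_eq_iff_eq_mul.mp h1))
  have hfixx : ∀ a : ↥B, ρ xq a = a ↔ (a : G) ∈ B ⊓ Subgroup.centralizer {x} := by
    intro a
    constructor
    · intro ha
      have h1 : x * (a : G) * x⁻¹ = a := by rw [← hxq, ← hρ, ha]
      refine Subgroup.mem_inf.mpr ⟨a.2, ?_⟩
      rw [Subgroup.mem_centralizer_iff]
      intro h hh
      rw [Set.mem_singleton_iff] at hh
      rw [hh]
      exact mul_inv_eq_iff_eq_mul.mp h1
    · intro ha
      have h2 := (Subgroup.mem_centralizer_iff.mp (Subgroup.mem_inf.mp ha).2) x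
        (Set.mem_singleton x)
      apply Subtype.ext
      rw [hρ, hxq, h2, mul_inv_cancel_right]
  have hBne : ∃ a : ↥B, a ≠ 1 := by
    by_contra hcon
    push Not at hcon
    apply hB
    rw [Subgroup.eq_bot_iff_forall]
    intro b hb
    exact congrArg Subtype.val (hcon ⟨b, hb⟩)
  obtain ⟨⟨a, ha1, hax⟩, hcard⟩ :=
    abs_step ρ p xq yq zq hzqp hxqp hxyq hxzq hzyq hfixz hpow1 hBne
  constructor
  · intro hbot
    have h1 := (hfixx a).mp hax
    rw [hbot, Subgroup.mem_bot] at h1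
    exact ha1 (Subtype.ext h1)
  · refine le_trans (Nat.pow_le_pow_left ?_ p) hcard
    apply Nat.card_le_card_of_injective (fun u : ↥(B ⊓ Subgroup.centralizer {x}) =>
      (⟨⟨(u : G), (Subgroup.mem_inf.mp u.2).1⟩, (hfixx _).mpr u.2⟩ : {a : ↥B // ρ xq a = a}))
    intro u v huv
    have h1 := congrArg (fun t : {a : ↥B // ρ xq a = a} => ((t : ↥B) : G)) huv
    exact Subtype.ext h1

theorem base_card {G : Type*} [Group G] [Finite G] {p r : ℕ} [Fact p.Prime] [Fact r.Prime]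
    (Q B : Subgroup G) (z : G) (hzQ : z ∈ Q) (hzp : z ^ p = 1) (hB : B ≠ ⊥)
    (hnorm : ∀ g ∈ Q, ∀ b ∈ B, g * b * g⁻¹ ∈ B) (hfix : ∀ b ∈ B, z * b = b * z → b = 1)
    (hexp : ∀ b ∈ B, b ^ r = 1) :
    ∃ m : ℕ, 1 ≤ m ∧ Nat.card B = r ^ m ∧ p ∣ r ^ m - 1 := by
  have hp := (Fact.out : p.Prime)
  have hr := (Fact.out : r.Prime)
  have hPB : IsPGroup r ↥B := fun b => ⟨1, by
    rw [pow_one]
    exact Subtype.ext (by rw [Subgroup.coe_pow, Subgroup.coe_one]; exact hexp b b.2)⟩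
  obtain ⟨m, hm⟩ := IsPGroup.iff_card.mp hPB
  have hm1 : 1 ≤ m := by
    rcases Nat.eq_zero_or_pos m with h0 | h0
    · exfalso
      apply hB
      rw [h0, pow_zero] at hm
      exact Subgroup.card_eq_one.mp hm
    · exact h0
  refine ⟨m, hm1, hm, ?_⟩
  obtain ⟨ρ, hρ⟩ := exists_conjHom Q B hnorm
  obtain ⟨zq, hzq⟩ : ∃ zq : ↥Q, (zq : G) = z := ⟨⟨z, hzQ⟩, rfl⟩
  have hzqp : zq ^ p = 1 := Subtype.ext (by rw [Subgroup.coe_pow, hzq, hzp, Subgroup.coe_one])
  have hPZ : IsPGroup p ↥(Subgroup.zpowers (ρ zq)) := by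
    intro g
    refine ⟨1, ?_⟩
    obtain ⟨k, hk⟩ := Subgroup.mem_zpowers_iff.mp g.2
    apply Subtype.ext
    rw [pow_one, Subgroup.coe_pow, ← hk, Subgroup.coe_one, ← zpow_natCast, ← zpow_mul, mul_comm,
      zpow_mul, zpow_natCast, ← map_pow, hzqp, map_one, one_zpow]
  have hmod := hPZ.card_modEq_card_fixedPoints ↥B
  have hfp : MulAction.fixedPoints ↥(Subgroup.zpowers (ρ zq)) ↥B = {1} := by
    ext b
    rw [MulAction.mem_fixedPoints, Set.mem_singleton_iff]
    constructor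
    · intro h
      have h1 := h ⟨ρ zq, Subgroup.mem_zpowers _⟩
      have h2 : ρ zq b = b := h1
      have h3 : z * (b : G) * z⁻¹ = b := by rw [← hzq, ← hρ, h2]
      exact Subtype.ext (hfix b b.2 (mul_inv_eq_iff_eq_mul.mp h3))
    · intro hb1 g
      rw [hb1]
      show (g : MulAut ↥B) (1 : ↥B) = 1
      exact map_one _
  have hone : Nat.card ↥({1} : Set ↥B) = 1 := by simp
  rw [hfp, hone, hm] at hmod
  exact (Nat.modEq_iff_dvd' (Nat.one_le_pow m r hr.pos)).mp hmod.symm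

theorem main_ind {G : Type*} [Group G] [Finite G] {p r : ℕ} [Fact p.Prime] [Fact r.Prime]
    (hpr : p ≠ r) (n : ℕ) (hmin : ∀ k : ℕ, 1 ≤ k → p ∣ r ^ k - 1 → n ≤ k) (w : ℕ) :
    ∀ (Q B : Subgroup G) (z : G), z ∈ Q → z ≠ 1 → z ^ p = 1 →
      (∀ g ∈ Q, g * z = z * g) →
      (∀ g ∈ Q, (∀ h ∈ Q, g * h = h * g) → g ∈ Subgroup.zpowers z) →
      (∀ g ∈ Q, ∀ h ∈ Q, g * h * g⁻¹ * h⁻¹ ∈ Subgroup.zpowers z) →
      p ^ (2 * w + 1) ≤ Nat.card Q →
      B ≠ ⊥ → (∀ g ∈ Q, ∀ b ∈ B, g * b * g⁻¹ ∈ B) →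
      (∀ b ∈ B, z * b = b * z → b = 1) →
      (∀ a ∈ B, ∀ b ∈ B, a * b = b * a) → (∀ b ∈ B, b ^ r = 1) →
      r ^ (n * p ^ w) ≤ Nat.card B := by
  have hp := (Fact.out : p.Prime)
  have hr := (Fact.out : r.Prime)
  induction w with
  | zero =>
    intro Q B z hzQ hz1 hzp hcen hZ hcomm hcard hB hnorm hfix hab hexp
    obtain ⟨m, hm1, hm, hdvd⟩ := base_card Q B z hzQ hzp hB hnorm hfix hexp
    rw [hm, pow_zero, mul_one]
    exact Nat.pow_le_pow_right hr.pos (hmin m hm1 hdvd)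
  | succ w ih =>
    intro Q B z hzQ hz1 hzp hcen hZ hcomm hcard hB hnorm hfix hab hexp
    have hZcard : Nat.card ↥(Subgroup.zpowers z) = p := by
      rw [Nat.card_zpowers, orderOf_eq_prime hzp hz1]
    have hZQ : Subgroup.zpowers z ≤ Q := Subgroup.zpowers_le.mpr hzQ
    have hZpow : ∀ c ∈ Subgroup.zpowers z, c ^ p = 1 := by
      intro c hc
      obtain ⟨k, hk⟩ := Subgroup.mem_zpowers_iff.mp hc
      rw [← hk, ← zpow_natCast, ← zpow_mul, mul_comm, zpow_mul, zpow_natCast, hzp, one_zpow]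
    have hZcen : ∀ c ∈ Subgroup.zpowers z, ∀ g ∈ Q, g * c = c * g := by
      intro c hc g hg
      obtain ⟨k, hk⟩ := Subgroup.mem_zpowers_iff.mp hc
      rw [← hk]
      exact ((show Commute g z from hcen g hg).zpow_right k).eq
    have hZgen : ∀ c ∈ Subgroup.zpowers z, c ≠ 1 →
        Subgroup.zpowers c = Subgroup.zpowers z := by
      intro c hc hc1
      apply Subgroup.eq_of_le_of_card_ge (Subgroup.zpowers_le.mpr hc)
      rw [hZcard, Nat.card_zpowers, orderOf_eq_prime (hZpow c hc) hc1]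
    have hcard3 : p * p * p ≤ Nat.card Q := by
      refine le_trans ?_ hcard
      calc p * p * p = p ^ 3 := by ring
        _ ≤ p ^ (2 * (w + 1) + 1) := Nat.pow_le_pow_right hp.pos (by omega)
    have h2p : 2 ≤ p := hp.two_le
    have hpp : 0 < p * p := Nat.mul_pos hp.pos hp.pos
    have hppp : 2 * (p * p) ≤ p * (p * p) := Nat.mul_le_mul_right (p * p) h2p
    have hpp2 : 2 * p ≤ p * p := Nat.mul_le_mul_right p h2p
    have hexq : ∃ g ∈ Q, g ∉ Subgroup.zpowers z := by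
      by_contra hcon
      push Not at hcon
      have hle : Q ≤ Subgroup.zpowers z := fun g hg => hcon g hg
      have h1 := Subgroup.card_le_of_le hle
      rw [hZcard] at h1
      nlinarith [h1, hcard3, hppp, hpp, hpp2]
    obtain ⟨x, hxQ, hxZ, hxalt⟩ : ∃ x ∈ Q, x ∉ Subgroup.zpowers z ∧
        (x ^ p = 1 ∨ ∀ t ∈ Q, t ^ p = 1 → t ∈ Subgroup.zpowers z) := by
      by_cases hcase : ∃ x ∈ Q, x ∉ Subgroup.zpowers z ∧ x ^ p = 1
      · obtain ⟨x, h1, h2, h3⟩ := hcase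
        exact ⟨x, h1, h2, Or.inl h3⟩
      · obtain ⟨x, h1, h2⟩ := hexq
        refine ⟨x, h1, h2, Or.inr ?_⟩
        intro t ht htp
        by_contra htZ
        exact hcase ⟨t, ht, htZ, htp⟩
    obtain ⟨y, hyQ, hxy⟩ : ∃ y ∈ Q, x * y ≠ y * x := by
      by_contra hcon
      push Not at hcon
      exact hxZ (hZ x hxQ hcon)
    obtain ⟨c, hc⟩ : ∃ c : G, c = x * y * x⁻¹ * y⁻¹ := ⟨_, rfl⟩
    have hcZ : c ∈ Subgroup.zpowers z := by rw [hc]; exact hcomm x hxQ y hyQ
    have hc1 : c ≠ 1 := by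
      intro h1
      apply hxy
      rw [hc] at h1
      exact mul_inv_eq_iff_eq_mul.mp (mul_inv_eq_one.mp h1)
    have hgen := hZgen c hcZ hc1
    have hcQ : c ∈ Q := hZQ hcZ
    have hcp : c ^ p = 1 := hZpow c hcZ
    have hccen : ∀ g ∈ Q, g * c = c * g := hZcen c hcZ
    have hxyc : x * y = c * y * x := by rw [hc]; group
    have hcommc : ∀ g ∈ Q, ∀ h ∈ Q, g * h * g⁻¹ * h⁻¹ ∈ Subgroup.zpowers c := by
      rw [hgen]; exact hcomm
    have hfixc : ∀ b ∈ B, c * b = b * c → b = 1 := by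
      intro b hb hbc
      apply hfix b hb
      have hzc : z ∈ Subgroup.zpowers c := by rw [hgen]; exact Subgroup.mem_zpowers z
      obtain ⟨k, hk⟩ := Subgroup.mem_zpowers_iff.mp hzc
      rw [← hk]
      exact ((show Commute c b from hbc).zpow_left k).eq
    have hQ1card : Nat.card Q ≤ p * p * Nat.card ↥(Q ⊓ Subgroup.centralizer {x, y}) :=
      card_Q1 Q c hc1 hcp hccen hcommc x y hxQ hyQ
    rcases hxalt with hxp | hb
    · obtain ⟨hB0, hB0card⟩ := step_a hpr Q B x y c hxQ hyQ hcQ hxp hcp hxyc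
        (hccen x hxQ).symm (hccen y hyQ).symm hnorm hfixc hab hexp hB
      have key : r ^ (n * p ^ w) ≤ Nat.card ↥(B ⊓ Subgroup.centralizer {x}) := by
        refine ih (Q ⊓ Subgroup.centralizer {x, y}) (B ⊓ Subgroup.centralizer {x}) c ?_ hc1 hcp
          ?_ ?_ ?_ ?_ hB0 ?_ ?_ ?_ ?_
        · refine Subgroup.mem_inf.mpr ⟨hcQ, ?_⟩
          rw [Subgroup.mem_centralizer_iff]
          intro t ht
          rw [Set.mem_insert_iff, Set.mem_singleton_iff] at ht
          rcases ht with ht | ht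
          · rw [ht]; exact hccen x hxQ
          · rw [ht]; exact hccen y hyQ
        · exact fun g hg => hccen g (Subgroup.mem_inf.mp hg).1
        · intro g hg hgc
          rw [hgen]
          exact hZ g (Subgroup.mem_inf.mp hg).1
            (center_Q1 Q c hccen hcommc x y hxQ hyQ hxyc g hg hgc)
        · intro g hg h hh
          exact hcommc g (Subgroup.mem_inf.mp hg).1 h (Subgroup.mem_inf.mp hh).1
        · have h1 : p * p * p ^ (2 * w + 1)
              ≤ p * p * Nat.card ↥(Q ⊓ Subgroup.centralizer {x, y}) := by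
            refine le_trans ?_ hQ1card
            refine le_trans (le_of_eq ?_) hcard
            ring
          exact Nat.le_of_mul_le_mul_left h1 hpp
        · intro g hg b hb
          have hgQ := (Subgroup.mem_inf.mp hg).1
          have hgx : Commute x g :=
            Subgroup.mem_centralizer_iff.mp (Subgroup.mem_inf.mp hg).2 x (by simp)
          have hbB := (Subgroup.mem_inf.mp hb).1
          have hbx : Commute x b :=
            Subgroup.mem_centralizer_iff.mp (Subgroup.mem_inf.mp hb).2 x (by simp)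
          refine Subgroup.mem_inf.mpr ⟨hnorm g hgQ b hbB, ?_⟩
          rw [Subgroup.mem_centralizer_iff]
          intro t ht
          rw [Set.mem_singleton_iff] at ht
          rw [ht]
          exact ((hgx.mul_right hbx).mul_right hgx.inv_right).eq
        · exact fun b hb hbc => hfixc b (Subgroup.mem_inf.mp hb).1 hbc
        · exact fun a ha b hb => hab a (Subgroup.mem_inf.mp ha).1 b (Subgroup.mem_inf.mp hb).1
        · exact fun b hb => hexp b (Subgroup.mem_inf.mp hb).1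
      calc r ^ (n * p ^ (w + 1)) = (r ^ (n * p ^ w)) ^ p := by ring
        _ ≤ Nat.card ↥(B ⊓ Subgroup.centralizer {x}) ^ p := Nat.pow_le_pow_left key p
        _ ≤ Nat.card B := hB0card
    · by_cases hp2 : p = 2
      · subst hp2
        rcases Nat.eq_zero_or_pos w with hw0 | hwpos
        · subst hw0
          obtain ⟨m, hm1, hm, -⟩ := base_card Q B z hzQ hzp hB hnorm hfix hexp
          have hr2 : r ≠ 2 := fun h => hpr h.symm
          have hodd : r % 2 = 1 := (Nat.Prime.eq_two_or_odd hr).resolve_left hr2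
          have hn1 : n ≤ 1 := by
            apply hmin 1 le_rfl
            rw [pow_one]
            omega
          have hm2 : 2 ≤ m := by
            by_contra hlt
            have hm1' : m = 1 := by omega
            rw [hm1', pow_one] at hm
            obtain ⟨b0, hb0B, hb01⟩ : ∃ b0 ∈ B, b0 ≠ 1 := by
              by_contra hcon
              push Not at hcon
              exact hB ((Subgroup.eq_bot_iff_forall B).mpr hcon)
            have hgenB : Subgroup.zpowers b0 = B := by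
              apply Subgroup.eq_of_le_of_card_ge (Subgroup.zpowers_le.mpr hb0B)
              rw [hm, Nat.card_zpowers, orderOf_eq_prime (hexp b0 hb0B) hb01]
            obtain ⟨i, hi⟩ : ∃ i : ℤ, b0 ^ i = x * b0 * x⁻¹ := by
              have h1 := hnorm x hxQ b0 hb0B
              rw [← hgenB] at h1
              exact Subgroup.mem_zpowers_iff.mp h1
            obtain ⟨j, hj⟩ : ∃ j : ℤ, b0 ^ j = y * b0 * y⁻¹ := by
              have h1 := hnorm y hyQ b0 hb0B
              rw [← hgenB] at h1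
              exact Subgroup.mem_zpowers_iff.mp h1
            have e1 : x * (y * b0 * y⁻¹) * x⁻¹ = b0 ^ (i * j) := by
              rw [← hj, ← conj_zpow, ← hi, ← zpow_mul]
            have e2 : y * (x * b0 * x⁻¹) * y⁻¹ = b0 ^ (i * j) := by
              rw [← hi, ← conj_zpow, ← hj, ← zpow_mul, mul_comm j i]
            have hb' : y * (x * b0 * x⁻¹) * y⁻¹ ∈ B := hnorm y hyQ _ (hnorm x hxQ b0 hb0B)
            have e3 : c * (y * (x * b0 * x⁻¹) * y⁻¹) * c⁻¹ = x * (y * b0 * y⁻¹) * x⁻¹ := by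
              rw [hc]; group
            rw [e1, ← e2] at e3
            have h5 := hfixc _ hb' (mul_inv_eq_iff_eq_mul.mp e3)
            exact hb01 (conj_eq_one_iff.mp (conj_eq_one_iff.mp h5))
          rw [hm]
          apply Nat.pow_le_pow_right hr.pos
          have h6 : (2 : ℕ) ^ (0 + 1) = 2 := by norm_num
          rw [h6]
          omega
        · exfalso
          have h32 : 32 ≤ Nat.card Q := by
            refine le_trans ?_ hcard
            calc 32 = 2 ^ 5 := by norm_num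
              _ ≤ 2 ^ (2 * (w + 1) + 1) := Nat.pow_le_pow_right (by norm_num) (by omega)
          obtain ⟨u, huQ1, huZ⟩ : ∃ u ∈ Q ⊓ Subgroup.centralizer {x, y},
              u ∉ Subgroup.zpowers z := by
            by_contra hcon
            push Not at hcon
            have hle : Q ⊓ Subgroup.centralizer {x, y} ≤ Subgroup.zpowers z :=
              fun g hg => hcon g hg
            have h1 := Subgroup.card_le_of_le hle
            rw [hZcard] at h1
            omega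
          have huQ := (Subgroup.mem_inf.mp huQ1).1
          have hucen := Subgroup.mem_centralizer_iff.mp (Subgroup.mem_inf.mp huQ1).2
          have hux : x * u = u * x := hucen x (by simp)
          have huy : y * u = u * y := hucen y (by simp)
          have hz2 : z ^ (2 : ℤ) = 1 := by rw [zpow_ofNat]; exact hzp
          have hsq : ∀ g ∈ Q, g ∉ Subgroup.zpowers z → g ^ 2 = z := by
            intro g hg hgZ
            have h1 : g ^ 2 ∈ Subgroup.zpowers z :=
              hZ (g ^ 2) (Q.pow_mem hg 2)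
                (fun h hh => pow_central Q z hzp hcen hcomm g h hg hh)
            obtain ⟨k, hk⟩ := Subgroup.mem_zpowers_iff.mp h1
            rw [zpow_eq_zpow_emod k hz2] at hk
            rcases Int.emod_two_eq_zero_or_one k with h0 | h0
            · rw [h0, zpow_zero] at hk
              exact absurd (hb g hg hk.symm) hgZ
            · rw [h0, zpow_one] at hk
              exact hk.symm
          have hx2 := hsq x hxQ hxZ
          have hu2 := hsq u huQ huZ
          have hxu : (x * u) ^ 2 = 1 := by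
            rw [(show Commute x u from hux).mul_pow, hx2, hu2, ← pow_two, hzp]
          have hxuZ := hb (x * u) (Q.mul_mem hxQ huQ) hxu
          have h5 := hZcen (x * u) hxuZ y hyQ
          apply hxy
          have h6 : y * x * u = x * y * u := by
            rw [mul_assoc, h5, mul_assoc, ← huy, ← mul_assoc]
          exact (mul_right_cancel h6).symm
      · exfalso
        have hpowZ : ∀ g ∈ Q, g ^ p ∈ Subgroup.zpowers z := fun g hg =>
          hZ (g ^ p) (Q.pow_mem hg p) (fun h hh => pow_central Q z hzp hcen hcomm g h hg hh)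
        have key : Nat.card Q
            ≤ Nat.card ↥(Subgroup.zpowers z) * Nat.card ↥(Subgroup.zpowers z) := by
          apply card_le_of_fiber Q (Subgroup.zpowers z)
            (fun g : ↥Q => (⟨(g : G) ^ p, hpowZ g g.2⟩ : ↥(Subgroup.zpowers z)))
          intro a b hab'
          have e : (a : G) ^ p = (b : G) ^ p := congrArg Subtype.val hab'
          apply hb _ (Q.mul_mem (Q.inv_mem a.2) b.2)
          obtain ⟨d, hd⟩ : ∃ d : G, d = (b : G) * (a : G)⁻¹ * (b : G)⁻¹ * (a : G) := ⟨_, rfl⟩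
          have hdZ : d ∈ Subgroup.zpowers z := by
            have h1 := hcomm b b.2 (a : G)⁻¹ (Q.inv_mem a.2)
            rw [inv_inv] at h1
            rw [hd]; exact h1
          have hdu : Commute d (a : G)⁻¹ := (hZcen d hdZ _ (Q.inv_mem a.2)).symm
          have hdv : Commute d (b : G) := (hZcen d hdZ _ b.2).symm
          have hrel : (b : G) * (a : G)⁻¹ = d * (a : G)⁻¹ * (b : G) := by rw [hd]; group
          rw [mul_pow_class2 _ _ d hrel hdu hdv p]
          have h2 : 2 < p := lt_of_le_of_ne hp.two_le (Ne.symm hp2)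
          obtain ⟨t, ht⟩ := Nat.Prime.dvd_choose_self hp (by norm_num : (2 : ℕ) ≠ 0) h2
          rw [ht, pow_mul, hZpow d hdZ, one_pow, one_mul, inv_pow, e, inv_mul_cancel]
        rw [hZcard] at key
        nlinarith [key, hcard3, hppp, hpp]

/-- Let p and r be distinct primes, let E be an extraspecial subgroup of order p^(2w+1) of a finite group, and let A be an elementary abelian r-subgroup normalized by E on which E acts faithfully (C_E(A) = 1). If n ≥ 1 is least with p dividing rⁿ − 1 (the smallest dimension of a faithful representation of a group of order p over the field with r elements), then the order of A is at least r^(n·p^w). -/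
theorem result {G : Type*} [Group G] [Finite G] {p r : ℕ} [Fact p.Prime] [hr : Fact r.Prime] (hpr : p ≠ r) (E A : Subgroup G) (w : ℕ) (hE : Cfsg.IsExtraspecial p ↥E) (hEcard : Nat.card ↥E = p ^ (2 * w + 1)) (hA : Cfsg.IsElementaryAbelian r A) (hnorm : E ≤ Subgroup.normalizer (A : Set G)) (hfaith : E ⊓ Subgroup.centralizer (A : Set G) = ⊥) (n : ℕ) (hn : 1 ≤ n) (hdiv : p ∣ r ^ n - 1) (hmin : ∀ k : ℕ, 1 ≤ k → p ∣ r ^ k - 1 → n ≤ k) : r ^ (n * p ^ w) ≤ Nat.card ↥A := by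
  have hp := (Fact.out : p.Prime)
  have hrP := hr.out
  have hcop : Nat.Coprime p r := (Nat.coprime_primes hp hrP).mpr hpr
  obtain ⟨⟨hPG, hfrat, hcommE⟩, hcen_card⟩ := hE
  obtain ⟨hAcomm, hAexp⟩ := hA
  haveI : IsMulCommutative ↥A := hAcomm
  have h1c : 1 < Nat.card ↥(Subgroup.center ↥E) := by rw [hcen_card]; exact hp.one_lt
  obtain ⟨⟨zE, hzEc⟩, hzE1⟩ :=
    (Subgroup.ne_bot_iff_exists_ne_one).mp ((Subgroup.one_lt_card_iff_ne_bot _).mp h1c)
  have hzE1' : zE ≠ 1 := fun h => hzE1 (Subtype.ext h)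
  have hzEp : zE ^ p = 1 := by
    have h2 := pow_card_eq_one' (G := ↥(Subgroup.center ↥E)) (x := ⟨zE, hzEc⟩)
    rw [hcen_card] at h2
    exact congrArg Subtype.val h2
  have hcenZ : Subgroup.zpowers zE = Subgroup.center ↥E := by
    apply Subgroup.eq_of_le_of_card_ge (Subgroup.zpowers_le.mpr hzEc)
    rw [hcen_card, Nat.card_zpowers, orderOf_eq_prime hzEp hzE1']
  have hz1 : (zE : G) ≠ 1 := fun h => hzE1' (Subtype.ext h)
  have hzp : (zE : G) ^ p = 1 := by
    have h2 := congrArg Subtype.val hzEp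
    rwa [Subgroup.coe_pow, Subgroup.coe_one] at h2
  have hcen : ∀ g ∈ E, g * (zE : G) = (zE : G) * g := by
    intro g hg
    exact congrArg Subtype.val (Subgroup.mem_center_iff.mp hzEc ⟨g, hg⟩)
  have hZ : ∀ g ∈ E, (∀ h ∈ E, g * h = h * g) → g ∈ Subgroup.zpowers (zE : G) := by
    intro g hg hgc
    have hgcen : (⟨g, hg⟩ : ↥E) ∈ Subgroup.center ↥E :=
      Subgroup.mem_center_iff.mpr (fun h => Subtype.ext (hgc h h.2).symm)
    rw [← hcenZ] at hgcen
    obtain ⟨k, hk⟩ := Subgroup.mem_zpowers_iff.mp hgcen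
    refine Subgroup.mem_zpowers_iff.mpr ⟨k, ?_⟩
    have h2 := congrArg Subtype.val hk
    rwa [Subgroup.coe_zpow] at h2
  have hcomm : ∀ g ∈ E, ∀ h ∈ E, g * h * g⁻¹ * h⁻¹ ∈ Subgroup.zpowers (zE : G) := by
    intro g hg h hh
    have hmem := Subgroup.commutator_mem_commutator (Subgroup.mem_top (⟨g, hg⟩ : ↥E))
      (Subgroup.mem_top (⟨h, hh⟩ : ↥E))
    rw [← commutator_def, hcommE, ← hcenZ] at hmem
    obtain ⟨k, hk⟩ := Subgroup.mem_zpowers_iff.mp hmem
    refine Subgroup.mem_zpowers_iff.mpr ⟨k, ?_⟩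
    have h2 := congrArg Subtype.val hk
    rw [Subgroup.coe_zpow] at h2
    exact h2
  have hnormE : ∀ g ∈ E, ∀ a ∈ A, g * a * g⁻¹ ∈ A := by
    intro g hg a ha
    exact ((Subgroup.mem_set_normalizer_iff.mp (hnorm hg)) a).mp ha
  obtain ⟨ρ, hρ⟩ := exists_conjHom E A hnormE
  have hnt : ∃ a : ↥A, ρ zE a ≠ a := by
    by_contra hcon
    push Not at hcon
    have hzc : (zE : G) ∈ E ⊓ Subgroup.centralizer (A : Set G) := by
      refine Subgroup.mem_inf.mpr ⟨zE.2, ?_⟩
      rw [Subgroup.mem_centralizer_iff]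
      intro a ha
      have h1 := congrArg Subtype.val (hcon ⟨a, ha⟩)
      rw [hρ] at h1
      exact (mul_inv_eq_iff_eq_mul.mp h1).symm
    rw [hfaith, Subgroup.mem_bot] at hzc
    exact hz1 hzc
  obtain ⟨B, hB1, hB2, hB3⟩ := exists_fixfree_sub ρ p r hcop zE hzEp
    (fun g => Subgroup.mem_center_iff.mp hzEc g)
    (fun a => Subtype.ext (by rw [Subgroup.coe_pow, Subgroup.coe_one]; exact hAexp a a.2)) hnt
  have hle : B.map A.subtype ≤ A := Subgroup.map_subtype_le B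
  have key : r ^ (n * p ^ w) ≤ Nat.card ↥(B.map A.subtype) := by
    refine main_ind hpr n hmin w E (B.map A.subtype) (zE : G) zE.2 hz1 hzp hcen hZ hcomm
      (le_of_eq hEcard.symm) ?_ ?_ ?_ ?_ ?_
    · intro h
      exact hB1 ((Subgroup.map_eq_bot_iff_of_injective B A.subtype_injective).mp h)
    · intro g hg b hb
      obtain ⟨b0, hb0, rfl⟩ := Subgroup.mem_map.mp hb
      exact Subgroup.mem_map.mpr ⟨ρ ⟨g, hg⟩ b0, hB2 ⟨g, hg⟩ b0 hb0, hρ ⟨g, hg⟩ b0⟩
    · intro b hb hbz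
      obtain ⟨b0, hb0, rfl⟩ := Subgroup.mem_map.mp hb
      have h1 : ρ zE b0 = b0 := Subtype.ext (by rw [hρ]; exact mul_inv_eq_of_eq_mul hbz)
      rw [hB3 b0 hb0 h1, map_one]
    · intro a ha b hb
      exact setLike_mul_comm (hle ha) (hle hb)
    · intro b hb
      exact hAexp b (hle hb)
  exact le_trans key (Subgroup.card_le_of_le hle)

end Cfsg.Agent.S2912
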