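import Cfsg.Statements.S2922
import Cfsg.Agent.Lib.Helper17.CharP4

set_option autoImplicit false
open Cfsg

namespace Cfsg.Agent.S2922

/-- Let p be a prime, X a finite group, B a p-subgroup of X and C a normal subgroup of B. If N_X(C) has characteristic p (its generalized Fitting subgroup is O_p(N_X(C))), then N_X(B) and C_X(B) have characteristic p. -/
theorem result {X : Type*} [Group X] [Finite X] {p : ℕ} [Fact p.Prime] (B C : Subgroup X) (hB : IsPGroup p ↥B) (hCB : C ≤ B) (hCn : (C.subgroupOf B).Normal) (hC : Cfsg.generalizedFittingSubgroup ↥(Subgroup.normalizer (C : Set X)) = Cfsg.pCore p ↥(Subgroup.normalizer (C : Set X))) : Cfsg.generalizedFittingSubgroup ↥(Subgroup.normalizer (B : Set X)) = Cfsg.pCore p ↥(Subgroup.normalizer (B : Set X)) ∧ Cfsg.generalizedFittingSubgroup ↥(Subgroup.centralizer (B : Set X)) = Cfsg.pCore p ↥(Subgroup.centralizer (B : Set X)) := by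
  have hBN : B ≤ Subgroup.normalizer (C : Set X) :=
    (Subgroup.normal_subgroupOf_iff_le_normalizer hCB).1 hCn
  have hCC : Subgroup.centralizer (B : Set X) ≤ Subgroup.normalizer (C : Set X) :=
    (Subgroup.centralizer_le hCB).trans (Subgroup.centralizer_le_normalizer _)
  have h1 := Cfsg.Agent.Lib.Helper17.CharP4.gf_normalizer hC hB hBN hCC
  refine ⟨h1, Cfsg.Agent.Lib.Helper17.CharP4.gf_of_normal h1
    (Subgroup.centralizer_le_normalizer _) ?_⟩
  intro n hn
  apply Cfsg.Agent.Lib.Helper17.Syl.mem_normalizer_of_conj_mem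
  intro c hc
  rw [Subgroup.mem_centralizer_iff] at hc ⊢
  intro b hb
  have hb' : n⁻¹ * b * n ∈ B := by
    have := (Subgroup.mem_normalizer_iff.1 (inv_mem hn) b).1 hb
    simpa using this
  have h2 := hc _ hb'
  calc b * (n * c * n⁻¹) = n * ((n⁻¹ * b * n) * c) * n⁻¹ := by group
    _ = n * (c * (n⁻¹ * b * n)) * n⁻¹ := by rw [h2]
    _ = _ := by group

end Cfsg.Agent.S2922
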