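import Cfsg.Statements.S2925
import Cfsg.Agent.Lib.Helper9.Components
import Cfsg.Agent.Lib.Helper16.Basic
import Cfsg.Agent.Lib.Helper12.SylowBasic
import Cfsg.Agent.Lib.Helper17.CL2
import Cfsg.Agent.S0542

set_option autoImplicit false
open Cfsg

namespace Cfsg.Agent.S2925

open scoped commutatorElement

/-- Let K be a component of the finite group X and T a Sylow 2-subgroup of X. If some abelian normal subgroup Y of T does not normalize K, then K ⧸ Z(K) has abelian Sylow 2-subgroups. -/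
theorem result {X : Type*} [Group X] [Finite X] (K : Subgroup X) (hK : Cfsg.IsComponent K) (T : Sylow 2 X) (Y : Subgroup X) (hYT : Y ≤ (T : Subgroup X)) (hYn : (Y.subgroupOf (T : Subgroup X)).Normal) (hYab : IsMulCommutative ↥Y) (hnot : ¬ Y ≤ Subgroup.normalizer (K : Set X)) (P : Sylow 2 (↥K ⧸ Subgroup.center ↥K)) : IsMulCommutative ↥(P : Subgroup (↥K ⧸ Subgroup.center ↥K)) := by
  classical
  have hprime : Fact (Nat.Prime 2) := ⟨Nat.prime_two⟩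
  obtain ⟨y, hyY, hyK⟩ : ∃ y ∈ Y, y ∉ Subgroup.normalizer (K : Set X) := by
    by_contra h
    push Not at h
    exact hnot h
  have hKy : Cfsg.IsComponent (K.map (MulAut.conj y).toMonoidHom) :=
    Cfsg.Agent.Lib.Helper9.isComponent_map_equiv (MulAut.conj y) hK
  have hne : K ≠ K.map (MulAut.conj y).toMonoidHom :=
    fun h => hyK ((Cfsg.Agent.Lib.Helper16.Basic.conj_eq_self_iff K y).1 h.symm)
  have hcomm := Cfsg.Agent.Lib.Helper9.component_commute hK hKy hne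
  have hcomm' : ∀ a ∈ K, ∀ b ∈ K.map (MulAut.conj y).toMonoidHom, a * b = b * a := by
    intro a ha b hb
    have h1 : ⁅a, b⁆ ∈ ⁅K, K.map (MulAut.conj y).toMonoidHom⁆ :=
      Subgroup.commutator_mem_commutator ha hb
    rw [hcomm, Subgroup.mem_bot] at h1
    exact (commutatorElement_eq_one_iff_commute.1 h1).eq
  have hYn' : (T : Subgroup X) ≤ Subgroup.normalizer (Y : Set X) :=
    (Subgroup.normal_subgroupOf_iff_le_normalizer hYT).1 hYn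
  have hmemY : ∀ t ∈ (T : Subgroup X), t * (y * t⁻¹ * y⁻¹) ∈ Y := by
    intro t htT
    have h1 : t * y * t⁻¹ ∈ Y := (Subgroup.mem_normalizer_iff.1 (hYn' htT) y).1 hyY
    have h2 := mul_mem h1 (inv_mem hyY)
    have e : t * y * t⁻¹ * y⁻¹ = t * (y * t⁻¹ * y⁻¹) := by group
    rwa [e] at h2
  have key : ∀ t ∈ (T : Subgroup X), t ∈ K → ∀ t' ∈ (T : Subgroup X), t' ∈ K → ∀ k ∈ K,
      (t⁻¹ * t'⁻¹ * t * t') * k = k * (t⁻¹ * t'⁻¹ * t * t') := by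
    intro t htT htK t' ht'T ht'K k hk
    have hab : (t * (y * t⁻¹ * y⁻¹)) * (t' * (y * t'⁻¹ * y⁻¹)) =
        (t' * (y * t'⁻¹ * y⁻¹)) * (t * (y * t⁻¹ * y⁻¹)) :=
      setLike_mul_comm (hmemY t htT) (hmemY t' ht'T)
    have hs : y * t⁻¹ * y⁻¹ ∈ K.map (MulAut.conj y).toMonoidHom :=
      Cfsg.Agent.Lib.Helper16.Basic.conj_mem_conj K y (inv_mem htK)
    have hs' : y * t'⁻¹ * y⁻¹ ∈ K.map (MulAut.conj y).toMonoidHom :=
      Cfsg.Agent.Lib.Helper16.Basic.conj_mem_conj K y (inv_mem ht'K)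
    have h1 := hcomm' t' ht'K _ hs
    have h2 := hcomm' t htK _ hs'
    have e1 : t * t' * ((y * t⁻¹ * y⁻¹) * (y * t'⁻¹ * y⁻¹)) =
        t' * t * ((y * t'⁻¹ * y⁻¹) * (y * t⁻¹ * y⁻¹)) := by
      calc t * t' * ((y * t⁻¹ * y⁻¹) * (y * t'⁻¹ * y⁻¹))
          = t * (t' * (y * t⁻¹ * y⁻¹)) * (y * t'⁻¹ * y⁻¹) := by group
        _ = t * ((y * t⁻¹ * y⁻¹) * t') * (y * t'⁻¹ * y⁻¹) := by rw [h1]
        _ = (t * (y * t⁻¹ * y⁻¹)) * (t' * (y * t'⁻¹ * y⁻¹)) := by group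
        _ = (t' * (y * t'⁻¹ * y⁻¹)) * (t * (y * t⁻¹ * y⁻¹)) := hab
        _ = t' * ((y * t'⁻¹ * y⁻¹) * t) * (y * t⁻¹ * y⁻¹) := by group
        _ = t' * (t * (y * t'⁻¹ * y⁻¹)) * (y * t⁻¹ * y⁻¹) := by rw [h2]
        _ = _ := by group
    have hw : t⁻¹ * t'⁻¹ * t * t' = (y * t'⁻¹ * y⁻¹) * (y * t⁻¹ * y⁻¹) *
        ((y * t⁻¹ * y⁻¹) * (y * t'⁻¹ * y⁻¹))⁻¹ := by
      calc t⁻¹ * t'⁻¹ * t * t'
          = t⁻¹ * t'⁻¹ * (t * t' * ((y * t⁻¹ * y⁻¹) * (y * t'⁻¹ * y⁻¹))) *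
            ((y * t⁻¹ * y⁻¹) * (y * t'⁻¹ * y⁻¹))⁻¹ := by group
        _ = t⁻¹ * t'⁻¹ * (t' * t * ((y * t'⁻¹ * y⁻¹) * (y * t⁻¹ * y⁻¹))) *
            ((y * t⁻¹ * y⁻¹) * (y * t'⁻¹ * y⁻¹))⁻¹ := by rw [e1]
        _ = _ := by group
    have hwK : t⁻¹ * t'⁻¹ * t * t' ∈ K.map (MulAut.conj y).toMonoidHom := by
      rw [hw]; exact mul_mem (mul_mem hs' hs) (inv_mem (mul_mem hs hs'))
    exact (hcomm' k hk _ hwK).symm
  obtain ⟨Q₀, hQ₀⟩ := Cfsg.Agent.S0542.exists_sylow_eq 2 K hK.1 T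
  obtain ⟨P₀, hP₀⟩ := Sylow.mapSurjective_surjective
    (QuotientGroup.mk'_surjective (Subgroup.center ↥K)) 2 P
  obtain ⟨k, hk⟩ := MulAction.exists_smul_eq ↥K Q₀ P₀
  have hcenter : ∀ q ∈ (Q₀ : Subgroup ↥K), ∀ q' ∈ (Q₀ : Subgroup ↥K),
      ⁅q, q'⁆ ∈ Subgroup.center ↥K := by
    intro q hq q' hq'
    rw [hQ₀, Subgroup.mem_subgroupOf] at hq hq'
    rw [Subgroup.mem_center_iff]
    intro k'
    apply Subtype.ext
    have h := key (q⁻¹ : X) (inv_mem hq) (inv_mem q.2) (q'⁻¹ : X) (inv_mem hq') (inv_mem q'.2)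
      k' k'.2
    simp only [inv_inv] at h
    simp only [Subgroup.coe_mul, commutatorElement_def, Subgroup.coe_inv]
    exact h.symm
  rw [Cfsg.Agent.Lib.Helper17.CL2.isMulComm_iff]
  intro a ha
  rw [Subgroup.mem_centralizer_iff]
  intro b hb
  rw [← hP₀] at ha hb
  obtain ⟨a₀, ha₀, rfl⟩ := ha
  obtain ⟨b₀, hb₀, rfl⟩ := hb
  have ha₁ : k⁻¹ * a₀ * k ∈ (Q₀ : Subgroup ↥K) := by
    rw [← Cfsg.Agent.Lib.Helper12.SylowBasic.mem_smul_sylow_iff, hk]; exact ha₀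
  have hb₁ : k⁻¹ * b₀ * k ∈ (Q₀ : Subgroup ↥K) := by
    rw [← Cfsg.Agent.Lib.Helper12.SylowBasic.mem_smul_sylow_iff, hk]; exact hb₀
  have h1 := hcenter _ hb₁ _ ha₁
  have h2 : ⁅b₀, a₀⁆ ∈ Subgroup.center ↥K := by
    have e : ⁅b₀, a₀⁆ = k * ⁅k⁻¹ * b₀ * k, k⁻¹ * a₀ * k⁆ * k⁻¹ := by
      simp only [commutatorElement_def]; group
    rw [e]
    exact (inferInstance : (Subgroup.center ↥K).Normal).conj_mem _ h1 k
  have h3 : QuotientGroup.mk' (Subgroup.center ↥K) ⁅b₀, a₀⁆ = 1 := (QuotientGroup.eq_one_iff _).2 h2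
  rw [map_commutatorElement] at h3
  exact (commutatorElement_eq_one_iff_commute.1 h3).eq

end Cfsg.Agent.S2925
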