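import Cfsg.Statements.S2940
import Mathlib

set_option autoImplicit false
open Cfsg

namespace Cfsg.Agent.S2940

/-- Let S be a Sylow p-subgroup of the finite group G and G₁, G₂ subgroups containing S with G = G₁G₂. Then for every g ∈ G there is a Sylow p-subgroup U of G with S ∩ S^g ≤ U ≤ G₁ ∩ G₂^g (conjugates taken as X^g = g⁻¹Xg). -/
theorem result {G : Type*} [Group G] [Finite G] {p : ℕ} [Fact p.Prime] (S : Sylow p G) (G₁ G₂ : Subgroup G) (h1 : (S : Subgroup G) ≤ G₁) (h2 : (S : Subgroup G) ≤ G₂) (hfact : ∀ g : G, ∃ g₁ ∈ G₁, ∃ g₂ ∈ G₂, g = g₁ * g₂) (g : G) : ∃ U : Sylow p G, (S : Subgroup G) ⊓ Cfsg.subgroupConjRight g (S : Subgroup G) ≤ (U : Subgroup G) ∧ (U : Subgroup G) ≤ G₁ ⊓ Cfsg.subgroupConjRight g G₂ := by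
  classical
  obtain ⟨a₁, ha₁, a₂, ha₂, hg⟩ := hfact g⁻¹
  have hTD : ((a₁ • S : Sylow p G) : Subgroup G) ≤ G₁ ⊓ Cfsg.subgroupConjRight g G₂ := by
    intro x hx
    rw [Sylow.coe_subgroup_smul, Subgroup.mem_smul_pointwise_iff_exists] at hx
    obtain ⟨s, hs, rfl⟩ := hx
    have e : (MulAut.conj a₁) • s = a₁ * s * a₁⁻¹ := rfl
    rw [e]
    refine ⟨?_, ?_⟩
    · exact G₁.mul_mem (G₁.mul_mem ha₁ (h1 hs)) (G₁.inv_mem ha₁)
    · unfold Cfsg.subgroupConjRight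
      refine Subgroup.mem_map.2 ⟨a₂⁻¹ * s * a₂, G₂.mul_mem (G₂.mul_mem (G₂.inv_mem ha₂) (h2 hs)) ha₂, ?_⟩
      show g⁻¹ * (a₂⁻¹ * s * a₂) * g⁻¹⁻¹ = a₁ * s * a₁⁻¹
      rw [hg]
      group
  have hPD : (S : Subgroup G) ⊓ Cfsg.subgroupConjRight g (S : Subgroup G) ≤
      G₁ ⊓ Cfsg.subgroupConjRight g G₂ := by
    refine le_inf (inf_le_left.trans h1) (inf_le_right.trans ?_)
    unfold Cfsg.subgroupConjRight
    exact Subgroup.map_mono h2
  set D := G₁ ⊓ Cfsg.subgroupConjRight g G₂ with hD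
  set P := (S : Subgroup G) ⊓ Cfsg.subgroupConjRight g (S : Subgroup G) with hP
  have hPp : IsPGroup p ↥(P.subgroupOf D) := by
    have h1 : IsPGroup p ↥P := S.2.to_le inf_le_left
    exact h1.comap_of_injective D.subtype D.subtype_injective
  obtain ⟨Q, hQ⟩ := hPp.exists_le_sylow
  obtain ⟨d, hd⟩ := MulAction.exists_smul_eq ↥D ((a₁ • S : Sylow p G).subtype hTD) Q
  rw [Sylow.smul_subtype] at hd
  refine ⟨d • (a₁ • S : Sylow p G), ?_, Sylow.smul_le hTD d⟩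
  intro x hx
  have hxD : x ∈ D := hPD hx
  have hxQ : (⟨x, hxD⟩ : ↥D) ∈ (Q : Subgroup ↥D) := hQ (Subgroup.mem_subgroupOf.2 hx)
  rw [← hd, Sylow.coe_subtype, Subgroup.mem_subgroupOf] at hxQ
  exact hxQ

end Cfsg.Agent.S2940
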