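import Cfsg.Statements.S2947
import Cfsg.Agent.Lib.Helper12.SylowBasic
import Cfsg.Agent.Lib.Helper16.Basic
import Cfsg.Agent.Lib.Helper4.Thompson2
import Cfsg.Agent.Lib.Lead.Cores

set_option autoImplicit false
open Cfsg

namespace Cfsg.Agent.S2947


section aux

open Cfsg.Agent.Lib.Helper12.SylowBasic

/-- a `p`-subgroup of `M` lies in an `M`-conjugate of a Sylow `p`-subgroup of `G` contained in `M`. -/
theorem exists_smul_ge {G : Type*} [Group G] [Finite G] {p : ℕ} [Fact p.Prime] (S : Sylow p G)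
    {M : Subgroup G} (hSM : (S : Subgroup G) ≤ M) {Q : Subgroup G} (hQ : IsPGroup p ↥Q)
    (hQM : Q ≤ M) : ∃ m ∈ M, Q ≤ ((m • S : Sylow p G) : Subgroup G) := by
  have hQ' : IsPGroup p ↥(Q.subgroupOf M) := hQ.comap_subtype
  obtain ⟨Q', hQ'le⟩ := hQ'.exists_le_sylow
  obtain ⟨m, hm⟩ := MulAction.exists_smul_eq ↥M (S.subtype hSM) Q'
  refine ⟨m.1, m.2, fun x hx => ?_⟩
  have h1 : (⟨x, hQM hx⟩ : ↥M) ∈ (Q' : Subgroup ↥M) :=
    hQ'le (by rw [Subgroup.mem_subgroupOf]; exact hx)
  rw [← hm, mem_smul_sylow_iff] at h1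
  have h2 : m⁻¹ * ⟨x, hQM hx⟩ * m ∈ (S : Subgroup G).subgroupOf M := h1
  rw [Subgroup.mem_subgroupOf] at h2
  rw [mem_smul_sylow_iff]
  exact h2

end aux

open Cfsg.Agent.Lib.Helper12.SylowBasic in

/-- Let G be a finite group of characteristic 2 type in which every 2-local subgroup is solvable and the centralizer of Ω₁(Z(S)) lies in N_G(S) for every Sylow 2-subgroup S; suppose O₂(G) = 1, fix a Sylow 2-subgroup S and a 2-local subgroup M containing N_G(J(S)) (J the Thompson subgroup generated by the elementary abelian 2-subgroups of largest order). Then M is strongly embedded in G (a proper subgroup of even order whose intersection with each conjugate by an element outside M has odd order) if and only if no nontrivial 2-subgroup of M lies in a 2-local subgroup of G not contained in M. -/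
theorem result {G : Type*} [Group G] [Finite G] (hL : Cfsg.IsCharacteristicTwoType G) (hN : ∀ N : Subgroup G, Cfsg.IsTwoLocal N → Group.IsSolvable ↥N)
    (hZ : ∀ S : Sylow 2 G, Subgroup.centralizer (Cfsg.omegaCenterOf (S : Subgroup G) : Set G) ≤ Subgroup.normalizer ((S : Subgroup G) : Set G)) (hO : Cfsg.pCore 2 G = ⊥) (S : Sylow 2 G) (M : Subgroup G) (hM : Cfsg.IsTwoLocal M)
    (hMJ : Subgroup.normalizer (Cfsg.thompsonSubgroupOf 2 (S : Subgroup G) : Set G) ≤ M) :
    Cfsg.IsStronglyEmbedded M ↔ Cfsg.straddlingTwoSubgroups M = ∅ := by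
  classical
  obtain ⟨R, hR, hR1, hMR⟩ := hM
  have hNS : Subgroup.normalizer ((S : Subgroup G) : Set G) ≤ M :=
    le_trans (Cfsg.Agent.Lib.Helper4.Thompson2.normalizer_le_normalizer_thompsonSubgroupOf _) hMJ
  have hSM : (S : Subgroup G) ≤ M := le_trans Subgroup.le_normalizer hNS
  have hRM : R ≤ M := by rw [hMR]; exact Subgroup.le_normalizer
  constructor
  · rintro ⟨hne, heven, hodd⟩
    have F1 : ∀ (U : Subgroup G) (g : G), IsPGroup 2 ↥U → U ≠ ⊥ → U ≤ M →
        (∀ u ∈ U, g⁻¹ * u * g ∈ M) → g ∈ M := by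
      intro U g hU hU1 hUM hUg
      by_contra hg
      have h1 := hodd g hg
      have h2 : U ≤ M ⊓ M.map (MulAut.conj g).toMonoidHom := by
        intro u hu
        refine Subgroup.mem_inf.2 ⟨hUM hu, ?_⟩
        rw [mem_map_conj_iff]; exact hUg u hu
      have h3 : Nat.card ↥U ∣ Nat.card ↥(M ⊓ M.map (MulAut.conj g).toMonoidHom) :=
        Subgroup.card_dvd_of_le h2
      have h4 : 2 ∣ Nat.card ↥U := by
        rcases hU.card_eq_or_dvd with h | h
        · exact absurd (Subgroup.card_eq_one.1 h) hU1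
        · exact h
      exact (Nat.not_even_iff_odd.2 h1) (even_iff_two_dvd.2 (dvd_trans h4 h3))
    have F2 : ∀ (T Q : Subgroup G), IsPGroup 2 ↥Q → T ≠ ⊥ → T ≤ M → T ≤ Q → Q ≤ M := by
      intro T Q hQ hT1 hTM hTQ
      by_contra hQM
      have hlt : Q ⊓ M < Q := lt_of_le_of_ne inf_le_left (fun h => hQM (h ▸ inf_le_right))
      obtain ⟨x, hxQ, hxN, hxn⟩ :=
        Cfsg.Agent.Lib.Helper16.Basic.exists_mem_normalizer_not_mem hQ hlt
      have hU : IsPGroup 2 ↥(Q ⊓ M) := hQ.to_le inf_le_left
      have hU1 : Q ⊓ M ≠ ⊥ := by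
        intro h
        apply hT1
        rw [eq_bot_iff, ← h]
        exact le_inf hTQ hTM
      have hxM : x ∈ M := by
        refine F1 (Q ⊓ M) x hU hU1 inf_le_right (fun u hu => ?_)
        have h1 : x⁻¹ ∈ Subgroup.normalizer ((Q ⊓ M : Subgroup G) : Set G) :=
          Subgroup.inv_mem _ hxN
        have h2 := (Subgroup.mem_normalizer_iff.1 h1 u).1 hu
        rw [inv_inv] at h2
        exact (Subgroup.mem_inf.1 h2).2
      exact hxn (Subgroup.mem_inf.2 ⟨hxQ, hxM⟩)
    rw [Set.eq_empty_iff_forall_notMem]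
    rintro T ⟨hT, hT1, hTM, L, ⟨R', hR', hR'1, hLR'⟩, hTL, hLM⟩
    apply hLM
    have hQ : IsPGroup 2 ↥(T ⊔ R') :=
      IsPGroup.to_sup_of_normal_right' hT hR' (by rw [← hLR']; exact hTL)
    have hR'M : R' ≤ M := le_trans le_sup_right (F2 T (T ⊔ R') hQ hT1 hTM le_sup_left)
    rw [hLR']
    intro g hg
    refine F1 R' g hR' hR'1 hR'M (fun u hu => ?_)
    have h1 : g⁻¹ ∈ Subgroup.normalizer ((R' : Subgroup G) : Set G) := Subgroup.inv_mem _ hg
    have h2 := (Subgroup.mem_normalizer_iff.1 h1 u).1 hu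
    rw [inv_inv] at h2
    exact hR'M h2
  · intro hempty
    have hNU : ∀ U : Subgroup G, IsPGroup 2 ↥U → U ≠ ⊥ → U ≤ M →
        Subgroup.normalizer (U : Set G) ≤ M := by
      intro U hU hU1 hUM
      by_contra h
      have h1 : U ∈ Cfsg.straddlingTwoSubgroups M :=
        ⟨hU, hU1, hUM, _, ⟨U, hU, hU1, rfl⟩, Subgroup.le_normalizer, h⟩
      rw [hempty] at h1
      exact h1
    have key : ∀ n : ℕ, ∀ (U : Subgroup G) (g : G), Nat.card G - Nat.card ↥U = n →
        IsPGroup 2 ↥U → U ≠ ⊥ → U ≤ M → (∀ u ∈ U, g⁻¹ * u * g ∈ M) → g ∈ M := by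
      intro n
      induction n using Nat.strong_induction_on with
      | _ n ih =>
        intro U g hn hU hU1 hUM hUg
        have hU' : IsPGroup 2 ↥(U.map (MulAut.conj g⁻¹).toMonoidHom) := hU.map _
        have hU'M : U.map (MulAut.conj g⁻¹).toMonoidHom ≤ M := by
          rintro _ ⟨u, hu, rfl⟩
          have h1 := hUg u hu
          simpa [MulAut.conj_apply] using h1
        obtain ⟨m', hm', hU'S⟩ := exists_smul_ge S hSM hU' hU'M
        have hUP : U ≤ (((g * m') • S : Sylow 2 G) : Subgroup G) := by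
          intro u hu
          rw [mem_smul_sylow_iff]
          have h1 : g⁻¹ * u * g ∈ ((m' • S : Sylow 2 G) : Subgroup G) :=
            hU'S ⟨u, hu, by simp [MulAut.conj_apply]⟩
          rw [mem_smul_sylow_iff] at h1
          have e : (g * m')⁻¹ * u * (g * m') = m'⁻¹ * (g⁻¹ * u * g) * m' := by group
          rw [e]; exact h1
        have hPM : ∀ v ∈ (((g * m') • S : Sylow 2 G) : Subgroup G), g⁻¹ * v * g ∈ M := by
          intro v hv
          rw [mem_smul_sylow_iff] at hv
          have e : g⁻¹ * v * g = m' * ((g * m')⁻¹ * v * (g * m')) * m'⁻¹ := by group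
          rw [e]
          exact M.mul_mem (M.mul_mem hm' (hSM hv)) (M.inv_mem hm')
        by_cases hUeq : U = (((g * m') • S : Sylow 2 G) : Subgroup G)
        · obtain ⟨m, hm, hUS⟩ := exists_smul_ge S hSM hU hUM
          rw [hUeq] at hUS
          have h1 : ((m • S : Sylow 2 G) : Subgroup G) = (((g * m') • S : Sylow 2 G) : Subgroup G) :=
            ((g * m') • S : Sylow 2 G).is_maximal' (m • S : Sylow 2 G).isPGroup' hUS
          have h2 : (m • S : Sylow 2 G) = (g * m') • S := Sylow.ext h1
          have h3 : (m⁻¹ * (g * m')) • S = S := by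
            rw [mul_smul, ← h2, smul_smul, inv_mul_cancel, one_smul]
          have h4 : m⁻¹ * (g * m') ∈ M := hNS (Sylow.smul_eq_iff_mem_normalizer.1 h3)
          have e : g = m * (m⁻¹ * (g * m')) * m'⁻¹ := by group
          rw [e]
          exact M.mul_mem (M.mul_mem hm h4) (M.inv_mem hm')
        · have hlt : U < (((g * m') • S : Sylow 2 G) : Subgroup G) := lt_of_le_of_ne hUP hUeq
          obtain ⟨x, hxP, hxN, hxn⟩ :=
            Cfsg.Agent.Lib.Helper16.Basic.exists_mem_normalizer_not_mem
              ((g * m') • S : Sylow 2 G).isPGroup' hlt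
          have hxM : x ∈ M := hNU U hU hU1 hUM hxN
          have hVP : U ⊔ Subgroup.zpowers x ≤ (((g * m') • S : Sylow 2 G) : Subgroup G) :=
            sup_le hUP (by rw [Subgroup.zpowers_le]; exact hxP)
          have hV : IsPGroup 2 ↥(U ⊔ Subgroup.zpowers x) :=
            ((g * m') • S : Sylow 2 G).isPGroup'.to_le hVP
          have hV1 : U ⊔ Subgroup.zpowers x ≠ ⊥ := by
            intro h
            apply hU1
            rw [eq_bot_iff, ← h]; exact le_sup_left
          have hVM : U ⊔ Subgroup.zpowers x ≤ M :=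
            sup_le hUM (by rw [Subgroup.zpowers_le]; exact hxM)
          have hUV : U < U ⊔ Subgroup.zpowers x := by
            refine lt_of_le_of_ne le_sup_left (fun h => hxn ?_)
            rw [h]
            exact (le_sup_right : Subgroup.zpowers x ≤ U ⊔ Subgroup.zpowers x)
              (Subgroup.mem_zpowers x)
          have hcard : Nat.card ↥U < Nat.card ↥(U ⊔ Subgroup.zpowers x) := by
            by_contra hge
            exact hUV.ne (Subgroup.eq_of_le_of_card_ge hUV.le (not_lt.1 hge))
          have hle : Nat.card ↥(U ⊔ Subgroup.zpowers x) ≤ Nat.card G :=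
            Subgroup.card_le_card_group _
          exact ih (Nat.card G - Nat.card ↥(U ⊔ Subgroup.zpowers x)) (by omega) _ g rfl hV hV1 hVM
            (fun v hv => hPM v (hVP hv))
    refine ⟨?_, ?_, ?_⟩
    · intro hMtop
      apply hR1
      have hRn : R.Normal := by
        rw [← Subgroup.normalizer_eq_top_iff, ← hMR, hMtop]
      have h1 := Cfsg.Agent.Lib.Lead.Cores.le_pCore hRn hR
      rw [hO] at h1
      exact eq_bot_iff.2 h1
    · have h1 : Nat.card ↥R ∣ Nat.card ↥M := Subgroup.card_dvd_of_le hRM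
      have h2 : 2 ∣ Nat.card ↥R := by
        rcases hR.card_eq_or_dvd with h | h
        · exact absurd (Subgroup.card_eq_one.1 h) hR1
        · exact h
      exact even_iff_two_dvd.2 (dvd_trans h2 h1)
    · intro g hg
      by_contra hodd
      rw [Nat.not_odd_iff_even, even_iff_two_dvd] at hodd
      obtain ⟨t, ht⟩ := exists_prime_orderOf_dvd_card' 2 hodd
      have ht' : orderOf (t : G) = 2 := by rw [Subgroup.orderOf_coe]; exact ht
      have htM := Subgroup.mem_inf.1 t.2
      have hU : IsPGroup 2 ↥(Subgroup.zpowers (t : G)) := by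
        refine IsPGroup.of_card (n := 1) ?_
        rw [Nat.card_zpowers, ht', pow_one]
      have hU1 : Subgroup.zpowers (t : G) ≠ ⊥ := by
        intro h
        rw [Subgroup.zpowers_eq_bot] at h
        rw [h, orderOf_one] at ht'
        omega
      refine hg (key _ (Subgroup.zpowers (t : G)) g rfl hU hU1
        (by rw [Subgroup.zpowers_le]; exact htM.1) (fun u hu => ?_))
      have h1 : u ∈ M.map (MulAut.conj g).toMonoidHom := by
        have h2 : Subgroup.zpowers (t : G) ≤ M.map (MulAut.conj g).toMonoidHom := by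
          rw [Subgroup.zpowers_le]; exact htM.2
        exact h2 hu
      rwa [mem_map_conj_iff] at h1

end Cfsg.Agent.S2947
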