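import Cfsg.Statements.S2958
import Mathlib

set_option autoImplicit false
open Cfsg

namespace Cfsg.Agent.S2958

/-- Let X, A, B be subgroups of a group G such that G is generated by the conjugates of X and every conjugate of X is contained in A or in B. Then A = G or B = G. -/
theorem conj_conj {G : Type*} [Group G] (X : Subgroup G) (x g : G) :
    (X.map (MulAut.conj g).toMonoidHom).map (MulAut.conj x).toMonoidHom =
      X.map (MulAut.conj (x * g)).toMonoidHom := by
  rw [Subgroup.map_map]
  congr 1
  ext y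
  simp [mul_assoc]

theorem conj_le_of_mem {G : Type*} [Group G] {K N : Subgroup G} (hK : K ≤ N) {x : G} (hx : x ∈ N) :
    K.map (MulAut.conj x).toMonoidHom ≤ N := by
  rintro _ ⟨k, hk, rfl⟩
  exact N.mul_mem (N.mul_mem hx (hK hk)) (N.inv_mem hx)

theorem result {G : Type*} [Group G] (X A B : Subgroup G) (hgen : (⨆ g : G, X.map (MulAut.conj g).toMonoidHom) = ⊤) (hcover : ∀ g : G, X.map (MulAut.conj g).toMonoidHom ≤ A ∨ X.map (MulAut.conj g).toMonoidHom ≤ B) : A = ⊤ ∨ B = ⊤ := by
  by_cases hA : ∀ g : G, X.map (MulAut.conj g).toMonoidHom ≤ A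
  · left
    rw [eq_top_iff, ← hgen]
    exact iSup_le hA
  · right
    obtain ⟨g₀, hg₀⟩ := not_forall.1 hA
    set N₁ : Subgroup G := ⨆ g : {g : G // ¬ X.map (MulAut.conj g).toMonoidHom ≤ A},
      X.map (MulAut.conj (g : G)).toMonoidHom with hN₁
    have hgenN : ∀ g : G, ¬ X.map (MulAut.conj g).toMonoidHom ≤ A →
        X.map (MulAut.conj g).toMonoidHom ≤ N₁ := fun g hg =>
      le_iSup (fun g : {g : G // ¬ X.map (MulAut.conj g).toMonoidHom ≤ A} =>
        X.map (MulAut.conj (g : G)).toMonoidHom) ⟨g, hg⟩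
    have hNB : N₁ ≤ B := by
      apply iSup_le
      rintro ⟨g, hg⟩
      exact (hcover g).resolve_left hg
    -- each element of each conjugate maps N₁ into itself
    have hmap : ∀ h : G, ∀ x ∈ X.map (MulAut.conj h).toMonoidHom,
        N₁.map (MulAut.conj x).toMonoidHom ≤ N₁ := by
      intro h x hx
      rw [hN₁, Subgroup.map_iSup]
      apply iSup_le
      rintro ⟨g, hg⟩
      by_cases hh : X.map (MulAut.conj h).toMonoidHom ≤ A
      · rw [conj_conj]
        apply hgenN
        intro hcon
        apply hg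
        have h2 := conj_le_of_mem hcon (A.inv_mem (hh hx))
        rw [conj_conj, inv_mul_cancel_left] at h2
        exact h2
      · exact conj_le_of_mem (hgenN g hg) (hgenN h hh hx)
    have hnorm : ∀ h : G, X.map (MulAut.conj h).toMonoidHom ≤ Subgroup.normalizer (N₁ : Set G) := by
      intro h x hx
      rw [Subgroup.mem_normalizer_iff]
      intro n
      constructor
      · intro hn
        exact hmap h x hx (Subgroup.mem_map.2 ⟨n, hn, rfl⟩)
      · intro hn
        have hx' := (X.map (MulAut.conj h).toMonoidHom).inv_mem hx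
        have := hmap h x⁻¹ hx' (Subgroup.mem_map.2 ⟨x * n * x⁻¹, hn, rfl⟩)
        have e : (MulAut.conj x⁻¹).toMonoidHom (x * n * x⁻¹) = n := by
          show x⁻¹ * (x * n * x⁻¹) * x⁻¹⁻¹ = n
          group
        rw [e] at this
        exact this
    have htop : Subgroup.normalizer (N₁ : Set G) = ⊤ := by
      rw [eq_top_iff, ← hgen]
      exact iSup_le hnorm
    have hN₁top : N₁ = ⊤ := by
      rw [eq_top_iff, ← hgen]
      apply iSup_le
      intro g
      have hmem : g * g₀⁻¹ ∈ Subgroup.normalizer (N₁ : Set G) := by rw [htop]; trivial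
      have h1 : (X.map (MulAut.conj g₀).toMonoidHom).map (MulAut.conj (g * g₀⁻¹)).toMonoidHom ≤ N₁ := by
        rintro _ ⟨n, hn, rfl⟩
        exact (Subgroup.mem_normalizer_iff.1 hmem n).1 (hgenN g₀ hg₀ hn)
      rw [conj_conj, inv_mul_cancel_right] at h1
      exact h1
    rw [eq_top_iff, ← hN₁top]
    exact hNB

end Cfsg.Agent.S2958
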