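import Cfsg.Statements.S2959
import Cfsg.Agent.Lib.Helper17.CharP
open scoped commutatorElement

set_option autoImplicit false
open Cfsg

namespace Cfsg.Agent.S2959

/-- Let G be a finite group of characteristic p, that is C_G(O_p(G)) ≤ O_p(G), with p prime, and let L be a subgroup of G normalized by O_p(G). Then L has characteristic p: C_L(O_p(L)) ≤ O_p(L). -/
theorem result {G : Type*} [Group G] [Finite G] {p : ℕ} [Fact p.Prime] (hG : Subgroup.centralizer (Cfsg.pCore p G : Set G) ≤ Cfsg.pCore p G) (L : Subgroup G) (hL : Cfsg.pCore p G ≤ Subgroup.normalizer (L : Set G)) : Subgroup.centralizer (Cfsg.pCore p ↥L : Set ↥L) ≤ Cfsg.pCore p ↥L := by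
  classical
  apply Cfsg.Agent.Lib.Helper17.CharP.charp_of_coprime_trivial
  intro x hx hxo
  have hPp : IsPGroup p (Cfsg.pCore p G) := Cfsg.Agent.Lib.Helper16.Basic.pCore_isPGroup
  have hPn : (Cfsg.pCore p G).Normal := Cfsg.Agent.Lib.Helper16.Basic.pCore_normal' G
  have hxo' : (orderOf (x : G)).Coprime p := by rw [Subgroup.orderOf_coe]; exact hxo
  have hLn : L ≤ Subgroup.normalizer ((Cfsg.pCore p G : Subgroup G) : Set G) := by
    rw [Subgroup.normalizer_eq_top]; exact le_top
  have h1 : (x : G) = 1 := by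
    apply Cfsg.Agent.Lib.Helper17.CharP.eq_one_of_stab hPp hG hxo'
    · intro u hu
      rw [commutatorElement_def]
      have h2 : (x : G) * u⁻¹ * (x : G)⁻¹ ∈ Cfsg.pCore p G :=
        hPn.conj_mem _ (inv_mem hu) _
      have h3 := mul_mem hu h2
      have h4 : u * ((x : G) * u⁻¹ * (x : G)⁻¹) = u * (x : G) * u⁻¹ * (x : G)⁻¹ := by group
      rw [← h4]; exact h3
    · intro u hu
      apply Cfsg.Agent.Lib.Helper17.CharP.commute_of_mem_centralizer_pCore hPp hLn hx
      · rw [commutatorElement_def]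
        have h2 : u * (x : G) * u⁻¹ ∈ L := (Subgroup.mem_normalizer_iff.1 (hL hu) (x : G)).1 x.2
        exact mul_mem h2 (inv_mem x.2)
      · rw [commutatorElement_def]
        have h2 : (x : G) * u⁻¹ * (x : G)⁻¹ ∈ Cfsg.pCore p G :=
          hPn.conj_mem _ (inv_mem hu) _
        have h3 := mul_mem hu h2
        have h4 : u * ((x : G) * u⁻¹ * (x : G)⁻¹) = u * (x : G) * u⁻¹ * (x : G)⁻¹ := by group
        rw [← h4]; exact h3
  exact Subtype.ext h1

end Cfsg.Agent.S2959
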