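import Cfsg.Statements.S2963
import Mathlib

set_option autoImplicit false
open Cfsg

namespace Cfsg.Agent.S2963

open scoped Pointwise

section aux

theorem choose_odd (a : ℕ) : ∀ r : ℕ, r < 2 ^ a → ¬ 2 ∣ Nat.choose (2 ^ a + r) (2 ^ a) := by
  induction a with
  | zero =>
    intro r hr
    have : r = 0 := by simpa using hr
    subst this
    simp
  | succ a ih =>
    intro r hr
    have : Fact (Nat.Prime 2) := ⟨Nat.prime_two⟩
    have hL := Choose.choose_modEq_choose_mod_mul_choose_div_nat (n := 2 ^ (a+1) + r)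
      (k := 2 ^ (a+1)) (p := 2)
    have h1 : 2 ^ (a + 1) % 2 = 0 := by rw [pow_succ]; simp
    have h2 : 2 ^ (a + 1) / 2 = 2 ^ a := by rw [pow_succ]; simp
    have h3 : (2 ^ (a + 1) + r) / 2 = 2 ^ a + r / 2 := by rw [pow_succ]; omega
    rw [h1, h2, h3, Nat.choose_zero_right, one_mul] at hL
    have h4 := ih (r / 2) (by rw [pow_succ] at hr; omega)
    intro hdvd
    apply h4
    exact (Nat.ModEq.dvd_iff hL (dvd_refl 2)).1 hdvd

theorem swap_mem_stab {n : ℕ} (A : Set (Fin n)) (i j : Fin n) (h : i ∈ A ↔ j ∈ A) :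
    Equiv.swap i j ∈ MulAction.stabilizer (Equiv.Perm (Fin n)) A := by
  rw [MulAction.mem_stabilizer_set]
  intro x
  rw [Equiv.Perm.smul_def, Equiv.swap_apply_def]
  split_ifs with h1 h2
  · subst h1; exact h.symm
  · subst h2; exact h
  · rfl

theorem swap_not_mem_stab {n : ℕ} (i j : Fin n) (h : j ≠ i) :
    Equiv.swap i j ∉ MulAction.stabilizer (Equiv.Perm (Fin n)) ({i} : Set (Fin n)) := by
  rw [MulAction.mem_stabilizer_set]
  intro hx
  have := (hx i).2 rfl
  rw [Equiv.Perm.smul_def, Equiv.swap_apply_left] at this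
  exact h this

end aux

/-- Let n be odd. If the symmetric group of degree n is a minimal parabolic group for the prime 2, that is, a Sylow 2-subgroup is not normal and lies in exactly one maximal subgroup, then n = 2^m + 1 for some natural number m. -/
theorem result (n : ℕ) (hn : Odd n) (h : Cfsg.IsPMinimal 2 (Equiv.Perm (Fin n))) : ∃ m : ℕ, n = 2 ^ m + 1 := by
  classical
  obtain ⟨S⟩ : Nonempty (Sylow 2 (Equiv.Perm (Fin n))) := inferInstance
  obtain ⟨hnn, M, ⟨hMco, hSM⟩, hMuniq⟩ := h S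
  have hn3 : 3 ≤ n := by
    by_contra hlt
    have hn1 : n = 1 := by obtain ⟨k, hk⟩ := hn; omega
    subst hn1
    apply hnn
    have : (S : Subgroup (Equiv.Perm (Fin 1))) = ⊥ := Subsingleton.elim _ _
    rw [this]; infer_instance
  have ha1 : 2 ^ (Nat.log 2 n) ≤ n := Nat.pow_log_le_self 2 (by omega)
  have ha2 : n < 2 ^ (Nat.log 2 n + 1) := Nat.lt_pow_succ_log_self (by norm_num) n
  obtain ⟨b, hb⟩ : ∃ b, Nat.log 2 n = b + 1 := by
    refine ⟨Nat.log 2 n - 1, ?_⟩
    have : Nat.log 2 n ≠ 0 := by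
      intro h0
      rw [h0] at ha2
      simp at ha2
      omega
    omega
  rw [hb] at ha1 ha2
  obtain ⟨r, hr⟩ : ∃ r, n = 2 ^ (b + 1) + r := ⟨n - 2 ^ (b + 1), by omega⟩
  have hr2 : r < 2 ^ (b + 1) := by rw [pow_succ] at ha2; omega
  have hnodd : ¬ 2 ∣ n := by obtain ⟨k, hk⟩ := hn; omega
  have hb1 : 2 ^ (b + 1) = 2 * 2 ^ b := by rw [pow_succ, mul_comm]
  have hbpos : 0 < 2 ^ b := by positivity
  by_cases hr1 : r = 1
  · exact ⟨b + 1, by omega⟩
  exfalso
  have hr3 : 3 ≤ r := by omega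
  have hS2 : IsPGroup 2 S := S.isPGroup'
  have hfix1 : (MulAction.fixedPoints S (Fin n)).Nonempty := by
    apply hS2.nonempty_fixed_point_of_prime_not_dvd_card
    rw [Nat.card_eq_fintype_card, Fintype.card_fin]
    exact hnodd
  obtain ⟨i, hi⟩ := hfix1
  have hfix2 : (MulAction.fixedPoints S (Set.powersetCard (Fin n) (2 ^ (b + 1)))).Nonempty := by
    apply hS2.nonempty_fixed_point_of_prime_not_dvd_card
    rw [Set.powersetCard.card, Nat.card_eq_fintype_card, Fintype.card_fin, hr]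
    exact choose_odd (b + 1) r hr2
  obtain ⟨A, hA⟩ := hfix2
  have hS1 : (S : Subgroup (Equiv.Perm (Fin n))) ≤
      MulAction.stabilizer (Equiv.Perm (Fin n)) ({i} : Set (Fin n)) := by
    intro g hg
    rw [MulAction.mem_stabilizer_iff, Set.smul_set_singleton]
    congr 1
    exact hi ⟨g, hg⟩
  have hS2' : (S : Subgroup (Equiv.Perm (Fin n))) ≤
      MulAction.stabilizer (Equiv.Perm (Fin n)) (A : Set (Fin n)) := by
    intro g hg
    rw [← Set.powersetCard.stabilizer_coe, MulAction.mem_stabilizer_iff]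
    exact hA ⟨g, hg⟩
  have hAcard : (A : Set (Fin n)).ncard = 2 ^ (b + 1) := Set.powersetCard.ncard_eq A
  have hcompl : (A : Set (Fin n))ᶜ.ncard = r := by
    have := Set.ncard_add_ncard_compl (A : Set (Fin n))
    rw [Nat.card_eq_fintype_card, Fintype.card_fin] at this
    omega
  have hco1 : IsCoatom (MulAction.stabilizer (Equiv.Perm (Fin n)) ({i} : Set (Fin n))) := by
    apply Equiv.Perm.isCoatom_stabilizer (Set.singleton_nonempty i)
    · haveI : Nontrivial (Fin n) := Fin.nontrivial_iff_two_le.2 (by omega)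
      obtain ⟨j, hj⟩ := exists_ne i
      exact ⟨j, hj⟩
    · rw [Nat.card_eq_fintype_card, Fintype.card_fin, Set.ncard_singleton]; omega
  have hco2 : IsCoatom (MulAction.stabilizer (Equiv.Perm (Fin n)) (A : Set (Fin n))) := by
    apply Equiv.Perm.isCoatom_stabilizer
    · rw [← Set.ncard_pos, hAcard]; omega
    · rw [← Set.ncard_pos, hcompl]; omega
    · rw [Nat.card_eq_fintype_card, Fintype.card_fin, hAcard]; omega
  have e1 := hMuniq _ ⟨hco1, hS1⟩
  have e2 := hMuniq _ ⟨hco2, hS2'⟩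
  have e3 : MulAction.stabilizer (Equiv.Perm (Fin n)) (A : Set (Fin n)) =
      MulAction.stabilizer (Equiv.Perm (Fin n)) ({i} : Set (Fin n)) := e2.trans e1.symm
  by_cases hiA : i ∈ (A : Set (Fin n))
  · have h2 : 1 < (A : Set (Fin n)).ncard := by rw [hAcard]; omega
    obtain ⟨j, hjA, hji⟩ := Set.exists_ne_of_one_lt_ncard h2 i
    have := swap_mem_stab (A : Set (Fin n)) i j (by tauto)
    rw [e3] at this
    exact swap_not_mem_stab i j hji this
  · have h2 : 1 < (A : Set (Fin n))ᶜ.ncard := by rw [hcompl]; omega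
    obtain ⟨j, hjA, hji⟩ := Set.exists_ne_of_one_lt_ncard h2 i
    have := swap_mem_stab (A : Set (Fin n)) i j (by
      have : j ∉ (A : Set (Fin n)) := hjA
      tauto)
    rw [e3] at this
    exact swap_not_mem_stab i j hji this

end Cfsg.Agent.S2963
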