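import Cfsg.Statements.S2998
import Cfsg.Agent.Lib.Helper17.Syl

set_option autoImplicit false
open Cfsg

namespace Cfsg.Agent.S2998

/-- Let G be a finite group, p a prime, P a Sylow p-subgroup of G and x ∈ P an element such that N_G(R) ≤ C_G(x) for every nontrivial subgroup R of P. Then P ≤ C_G(x); every G-conjugate of x lying in P equals x (so g ∈ C_G(x) whenever g x g⁻¹ ∈ P); and for every normal subgroup N of G, the image of x in G ⧸ N has the same property with respect to the image of P: the normalizer of every nontrivial subgroup of the image of P centralizes the image of x. -/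
theorem result {G : Type*} [Group G] [Finite G] {p : ℕ} [Fact p.Prime] (P : Sylow p G) (x : G) (hxP : x ∈ (P : Subgroup G)) (hlc : ∀ R : Subgroup G, R ≤ (P : Subgroup G) → R ≠ ⊥ → Subgroup.normalizer (R : Set G) ≤ Subgroup.centralizer ({x} : Set G)) : (P : Subgroup G) ≤ Subgroup.centralizer ({x} : Set G) ∧ (∀ g : G, g * x * g⁻¹ ∈ (P : Subgroup G) → g * x * g⁻¹ = x) ∧ ∀ (N : Subgroup G) [N.Normal], ∀ R : Subgroup (G ⧸ N), R ≤ (P : Subgroup G).map (QuotientGroup.mk' N) → R ≠ ⊥ → Subgroup.normalizer (R : Set (G ⧸ N)) ≤ Subgroup.centralizer ({(QuotientGroup.mk x : G ⧸ N)} : Set (G ⧸ N)) := by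
  classical
  -- (1)
  have h1 : (P : Subgroup G) ≤ Subgroup.centralizer ({x} : Set G) := by
    by_cases hP : (P : Subgroup G) = ⊥
    · intro y hy
      rw [hP, Subgroup.mem_bot] at hy
      rw [hy]; exact Subgroup.one_mem _
    · exact Subgroup.le_normalizer.trans (hlc _ le_rfl hP)
  have hcomm : ∀ y ∈ (P : Subgroup G), x * y = y * x := fun y hy =>
    Subgroup.mem_centralizer_iff.1 (h1 hy) x rfl
  refine ⟨h1, ?_, ?_⟩
  · -- (2)
    intro g hg
    by_cases hx1 : x = 1
    · rw [hx1]; group
    have hx₁ne : g * x * g⁻¹ ≠ 1 := by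
      intro h
      apply hx1
      have : x = g⁻¹ * (g * x * g⁻¹) * g := by group
      rw [this, h]; group
    have hR : Subgroup.zpowers (g * x * g⁻¹) ≠ ⊥ := by
      intro h
      apply hx₁ne
      have : g * x * g⁻¹ ∈ Subgroup.zpowers (g * x * g⁻¹) := Subgroup.mem_zpowers _
      rw [h, Subgroup.mem_bot] at this
      exact this
    have hN := hlc _ ((Subgroup.zpowers_le).2 hg) hR
    -- elements commuting with x₁ centralize x
    have hC : ∀ y : G, y * (g * x * g⁻¹) = (g * x * g⁻¹) * y → x * y = y * x := by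
      intro y hy
      have hyN : y ∈ Subgroup.normalizer ((Subgroup.zpowers (g * x * g⁻¹) : Subgroup G) : Set G) := by
        apply Cfsg.Agent.Lib.Helper17.Syl.mem_normalizer_of_conj_mem
        intro r hr
        obtain ⟨k, rfl⟩ := Subgroup.mem_zpowers_iff.1 hr
        rw [← conj_zpow]
        have e : y * (g * x * g⁻¹) * y⁻¹ = g * x * g⁻¹ := by rw [hy]; group
        rw [e]
        exact Subgroup.zpow_mem_zpowers _ k
      exact Subgroup.mem_centralizer_iff.1 (hN hyN) x rfl
    -- g P g⁻¹ ≤ C(x)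
    have hgP : ((g • P : Sylow p G) : Subgroup G) ≤ Subgroup.centralizer ({x} : Set G) := by
      intro y hy
      rw [Sylow.coe_subgroup_smul, Subgroup.mem_smul_pointwise_iff_exists] at hy
      obtain ⟨s, hs, rfl⟩ := hy
      have e : (MulAut.conj g) • s = g * s * g⁻¹ := rfl
      rw [e, Subgroup.mem_centralizer_iff]
      intro h hh
      rw [Set.mem_singleton_iff] at hh
      rw [hh]
      apply hC
      have := hcomm s hs
      calc g * s * g⁻¹ * (g * x * g⁻¹) = g * (s * x) * g⁻¹ := by group
        _ = g * (x * s) * g⁻¹ := by rw [this]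
        _ = _ := by group
    obtain ⟨c, hc, hcP⟩ := Cfsg.Agent.Lib.Helper12.SylowBasic.exists_mem_smul_eq P (g • P)
      (Subgroup.centralizer ({x} : Set G)) h1 hgP
    rw [← mul_smul, Sylow.smul_eq_iff_mem_normalizer] at hcP
    have hPne : (P : Subgroup G) ≠ ⊥ := by
      intro h
      apply hx1
      have := hxP
      rw [h, Subgroup.mem_bot] at this
      exact this
    have hcg := hlc _ le_rfl hPne hcP
    have hgc : g ∈ Subgroup.centralizer ({x} : Set G) := by
      have : g = c⁻¹ * (c * g) := by group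
      rw [this]
      exact Subgroup.mul_mem _ (Subgroup.inv_mem _ hc) hcg
    have := Subgroup.mem_centralizer_iff.1 hgc x rfl
    rw [← this]; group
  · -- (3)
    intro N _ R hRP hR1 q hq
    obtain ⟨n, rfl⟩ := QuotientGroup.mk_surjective q
    set L : Subgroup G := R.comap (QuotientGroup.mk' N) with hL
    have hNL : N ≤ L := by
      intro y hy
      rw [hL, Subgroup.mem_comap]
      have : (QuotientGroup.mk' N) y = 1 := (QuotientGroup.eq_one_iff y).2 hy
      rw [this]; exact R.one_mem
    -- lifting elements of R to P ⊓ L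
    have hlift : ∀ r ∈ R, ∃ y ∈ (P : Subgroup G) ⊓ L, (QuotientGroup.mk' N) y = r := by
      intro r hr
      obtain ⟨y, hy, rfl⟩ := Subgroup.mem_map.1 (hRP hr)
      exact ⟨y, ⟨hy, hr⟩, rfl⟩
    have hRne : (P : Subgroup G) ⊓ L ≠ ⊥ := by
      intro h
      apply hR1
      rw [eq_bot_iff]
      intro r hr
      obtain ⟨y, hy, rfl⟩ := hlift r hr
      rw [h, Subgroup.mem_bot] at hy
      rw [hy, map_one]; exact Subgroup.mem_bot.2 rfl
    have hNorm := hlc _ inf_le_left hRne
    -- index of P ⊓ L in L is prime to p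
    have hLsup : ((P : Subgroup G) ⊓ L) ⊔ N = L := by
      apply le_antisymm (sup_le inf_le_right hNL)
      intro l hl
      obtain ⟨y, hy, hyl⟩ := hlift _ hl
      have hmem : y⁻¹ * l ∈ N := by
        rw [← QuotientGroup.eq_one_iff, QuotientGroup.mk_mul, QuotientGroup.mk_inv]
        have : (QuotientGroup.mk y : G ⧸ N) = QuotientGroup.mk l := hyl
        rw [this]; group
      have : l = y * (y⁻¹ * l) := by group
      rw [this]
      exact Subgroup.mul_mem _ (Subgroup.mem_sup_left hy) (Subgroup.mem_sup_right hmem)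
    have hinf : ((P : Subgroup G) ⊓ L) ⊓ N = (P : Subgroup G) ⊓ N :=
      le_antisymm (le_inf (inf_le_left.trans inf_le_left) inf_le_right)
        (le_inf (le_inf inf_le_left (inf_le_right.trans hNL)) inf_le_right)
    have hidx : ¬ p ∣ ((P : Subgroup G) ⊓ L).relIndex L := by
      have e1 := Cfsg.Agent.Lib.Helper17.CD.card_mulSet_mul_card_inf ((P : Subgroup G) ⊓ L) N
      rw [← Subgroup.mul_normal ((P : Subgroup G) ⊓ L) N] at e1
      have e1' : Nat.card ↥(((P : Subgroup G) ⊓ L) ⊔ N) * Nat.card ↥(((P : Subgroup G) ⊓ L) ⊓ N) =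
          Nat.card ↥((P : Subgroup G) ⊓ L) * Nat.card ↥N := e1
      rw [hLsup, hinf] at e1'
      have e2 := Cfsg.Agent.Lib.Helper17.Syl.relIndex_mul_card_inf (P : Subgroup G) N
      have e3 := Cfsg.Agent.Lib.Helper17.Syl.card_mul_relIndex_le
        (inf_le_right : (P : Subgroup G) ⊓ L ≤ L)
      have e4 : ((P : Subgroup G) ⊓ L).relIndex L = (P : Subgroup G).relIndex N := by
        rw [← e3, ← e2] at e1'
        have hpos1 : 0 < Nat.card ↥((P : Subgroup G) ⊓ L) := Nat.card_pos
        have hpos2 : 0 < Nat.card ↥((P : Subgroup G) ⊓ N) := Nat.card_pos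
        have e : Nat.card ↥((P : Subgroup G) ⊓ L) * (((P : Subgroup G) ⊓ L).relIndex L *
            Nat.card ↥((P : Subgroup G) ⊓ N)) = Nat.card ↥((P : Subgroup G) ⊓ L) *
            ((P : Subgroup G).relIndex N * Nat.card ↥((P : Subgroup G) ⊓ N)) := by
          rw [← mul_assoc]; exact e1'
        exact Nat.eq_of_mul_eq_mul_right hpos2 (Nat.eq_of_mul_eq_mul_left hpos1 e)
      rw [e4]
      exact Cfsg.Agent.Lib.Helper17.Syl.sylow_relIndex_normal P N
    -- n normalizes L
    have hnL : n ∈ Subgroup.normalizer (L : Set G) := by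
      apply Cfsg.Agent.Lib.Helper17.Syl.mem_normalizer_of_conj_mem
      intro l hl
      rw [hL, Subgroup.mem_comap] at hl ⊢
      have := (Subgroup.mem_normalizer_iff.1 hq _).1 hl
      simpa using this
    obtain ⟨c, hc, hcn⟩ := Cfsg.Agent.Lib.Helper17.Syl.frattini_relIndex
      (inf_le_right : (P : Subgroup G) ⊓ L ≤ L) (P.2.to_le inf_le_left) hidx hnL
    have hcnx := hNorm hcn
    -- the image of c centralizes the image of x
    obtain ⟨y, hy, hyc⟩ := hlift _ (show (QuotientGroup.mk' N) c ∈ R from hc)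
    have hyx : x * y = y * x := hcomm y hy.1
    have hcx : (QuotientGroup.mk x : G ⧸ N) * QuotientGroup.mk c = QuotientGroup.mk c * QuotientGroup.mk x := by
      have e : (QuotientGroup.mk c : G ⧸ N) = QuotientGroup.mk y := hyc.symm
      rw [e, ← QuotientGroup.mk_mul, ← QuotientGroup.mk_mul, hyx]
    have hcnx' : (QuotientGroup.mk x : G ⧸ N) * (QuotientGroup.mk c * QuotientGroup.mk n) =
        (QuotientGroup.mk c * QuotientGroup.mk n) * QuotientGroup.mk x := by
      have := Subgroup.mem_centralizer_iff.1 hcnx x rfl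
      rw [← QuotientGroup.mk_mul, ← QuotientGroup.mk_mul, ← QuotientGroup.mk_mul, this]
    rw [Subgroup.mem_centralizer_iff]
    intro h hh
    rw [Set.mem_singleton_iff] at hh
    rw [hh]
    have e : (QuotientGroup.mk n : G ⧸ N) = (QuotientGroup.mk c)⁻¹ * (QuotientGroup.mk c * QuotientGroup.mk n) := by
      group
    rw [e]
    have hcx' : (QuotientGroup.mk x : G ⧸ N) * (QuotientGroup.mk c)⁻¹ = (QuotientGroup.mk c)⁻¹ * QuotientGroup.mk x := by
      have := (Commute.inv_right (show Commute (QuotientGroup.mk x : G ⧸ N) (QuotientGroup.mk c) from hcx)).eq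
      exact this
    calc (QuotientGroup.mk x : G ⧸ N) * ((QuotientGroup.mk c)⁻¹ * (QuotientGroup.mk c * QuotientGroup.mk n))
        = ((QuotientGroup.mk x : G ⧸ N) * (QuotientGroup.mk c)⁻¹) * (QuotientGroup.mk c * QuotientGroup.mk n) := by
          rw [mul_assoc]
      _ = (QuotientGroup.mk c)⁻¹ * ((QuotientGroup.mk x : G ⧸ N) * (QuotientGroup.mk c * QuotientGroup.mk n)) := by
          rw [hcx', mul_assoc]
      _ = (QuotientGroup.mk c)⁻¹ * (QuotientGroup.mk c * QuotientGroup.mk n) * QuotientGroup.mk x := by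
          rw [hcnx']; simp only [mul_assoc]

end Cfsg.Agent.S2998
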