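import Cfsg.Statements.S3009
import Cfsg.Agent.Lib.Helper16.SL2Quad

set_option autoImplicit false
open Cfsg

namespace Cfsg.Agent.S3009

def cj {X : Type*} [Group X] (V : Subgroup X) (y : X)
    (hy : y ∈ Subgroup.normalizer (V : Set X)) : ↥V →* ↥V where
  toFun x := ⟨y * x * y⁻¹, (Subgroup.mem_normalizer_iff.1 hy x).1 x.2⟩
  map_one' := Subtype.ext (by
    show y * ((1 : ↥V) : X) * y⁻¹ = ((1 : ↥V) : X)
    simp)
  map_mul' a b := Subtype.ext (by
    show y * ((a : X) * b) * y⁻¹ = (y * a * y⁻¹) * (y * b * y⁻¹)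
    group)

theorem cj_coe {X : Type*} [Group X] (V : Subgroup X) (y : X)
    (hy : y ∈ Subgroup.normalizer (V : Set X)) (x : ↥V) :
    ((cj V y hy x : ↥V) : X) = y * x * y⁻¹ := rfl

open Cfsg.Agent.S2301 Cfsg.Agent.Lib.Helper13 Cfsg.Agent.Lib.Helper13.SL2Syl Cfsg.Agent.Lib.Helper16.SL2Quad
open scoped commutatorElement

/-- Let p be a prime and let G and V be subgroups of a finite group with V elementary abelian and normalized by G, and G isomorphic to SL₂(F) for a finite field F with pⁿ elements. Suppose G acts irreducibly and nontrivially on V by conjugation (no G-invariant subgroups of V other than 1 and V, and [V, G] ≠ 1), and let S be a Sylow p-subgroup of G and V₀ = C_V(S). If [V, S, S] = 1 or |V| ≤ |V₀|², then G acts on V as SL₂(F) on its natural two-dimensional module; in particular |V| = |F|². -/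
theorem result {X : Type*} [Group X] [Finite X] {p : ℕ} [Fact p.Prime] (G V : Subgroup X) (hV : Cfsg.IsElementaryAbelian p V) (hGV : G ≤ Subgroup.normalizer (V : Set X)) (F : Type) [Field F] [Fintype F] (n : ℕ) (hF : Fintype.card F = p ^ n) (hG : Nonempty (↥G ≃* Matrix.SpecialLinearGroup (Fin 2) F)) (hirr : ∀ U : Subgroup X, U ≤ V → G ≤ Subgroup.normalizer (U : Set X) → U = ⊥ ∨ U = V) (hnt : ⁅V, G⁆ ≠ ⊥) (S : Sylow p ↥G) (hyp : ⁅⁅V, (S : Subgroup ↥G).map G.subtype⁆, (S : Subgroup ↥G).map G.subtype⁆ = ⊥ ∨ Nat.card ↥V ≤ Nat.card ↥(V ⊓ Subgroup.centralizer (((S : Subgroup ↥G).map G.subtype : Subgroup X) : Set X)) ^ 2) : Cfsg.ActsAsSL2OnSection F ⊤ G V ⊥ := by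
  classical
  have hpp : p.Prime := Fact.out
  obtain ⟨e⟩ := hG
  haveI hchar : CharP F p := Cfsg.Agent.Lib.Helper16.NatSL2.charP_of_card n hF
  obtain ⟨P₀, hP₀⟩ := exists_sylow_US (F := F) p
  obtain ⟨g₀, hg₀⟩ := MulAction.exists_smul_eq (Matrix.SpecialLinearGroup (Fin 2) F)
    (S.mapSurjective (f := e.toMonoidHom) e.surjective) P₀
  obtain ⟨ρ, hρ⟩ : ∃ ρ : ↥G →* Matrix.SpecialLinearGroup (Fin 2) F,
      ∀ g, ρ g = g₀ * e g * g₀⁻¹ :=
    ⟨(MulAut.conj g₀).toMonoidHom.comp e.toMonoidHom, fun g => rfl⟩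
  obtain ⟨σ, hσ⟩ : ∃ σ : Matrix.SpecialLinearGroup (Fin 2) F →* ↥G,
      ∀ x, σ x = e.symm (g₀⁻¹ * x * g₀) :=
    ⟨e.symm.toMonoidHom.comp (MulAut.conj g₀⁻¹).toMonoidHom, fun x => by
      show e.symm (g₀⁻¹ * x * g₀⁻¹⁻¹) = _
      rw [inv_inv]⟩
  have hρσ : ∀ x, ρ (σ x) = x := by
    intro x
    rw [hρ, hσ, MulEquiv.apply_symm_apply]
    group
  have hσρ : ∀ g, σ (ρ g) = g := by
    intro g
    rw [hρ, hσ]
    have : g₀⁻¹ * (g₀ * e g * g₀⁻¹) * g₀ = e g := by group
    rw [this, MulEquiv.symm_apply_apply]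
  have hS1 : ∀ t, σ (uMat t) ∈ (S : Subgroup ↥G) := by
    intro t
    have h1 : uMat t ∈ (g₀ • (S.mapSurjective (f := e.toMonoidHom) e.surjective) :
        Sylow p (Matrix.SpecialLinearGroup (Fin 2) F)) := by
      rw [hg₀]
      show uMat t ∈ (P₀ : Subgroup (Matrix.SpecialLinearGroup (Fin 2) F))
      rw [hP₀]
      exact uMat_mem t
    rw [Cfsg.Agent.Lib.Helper21.BaerSuzuki.mem_smul_sylow] at h1
    obtain ⟨s, hs, hse⟩ := h1
    have hse' : e s = g₀⁻¹ * uMat t * g₀ := hse
    rw [hσ, ← hse', MulEquiv.symm_apply_apply]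
    exact hs
  have hS2 : ∀ s ∈ (S : Subgroup ↥G), ∃ t, ρ s = uMat t := by
    intro s hs
    have h1 : ρ s ∈ (g₀ • (S.mapSurjective (f := e.toMonoidHom) e.surjective) :
        Sylow p (Matrix.SpecialLinearGroup (Fin 2) F)) := by
      rw [Cfsg.Agent.Lib.Helper21.BaerSuzuki.mem_smul_sylow, hρ]
      have : g₀⁻¹ * (g₀ * e s * g₀⁻¹) * g₀ = e s := by group
      rw [this]
      exact ⟨s, hs, rfl⟩
    rw [hg₀] at h1
    have h2 : ρ s ∈ US F := by rw [← hP₀]; exact h1
    exact exists_of_mem_US h2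
  letI cV : CommGroup ↥V :=
    { (inferInstance : Group ↥V) with mul_comm := fun a b => hV.1.is_comm.comm a b }
  obtain ⟨act, hact⟩ : ∃ act : Matrix.SpecialLinearGroup (Fin 2) F → Additive ↥V →+ Additive ↥V,
      ∀ x (v : ↥V), act x (Additive.ofMul v) =
        Additive.ofMul (cj V ((σ x : ↥G) : X) (hGV (σ x).2) v) :=
    ⟨fun x => MonoidHom.toAdditive (cj V ((σ x : ↥G) : X) (hGV (σ x).2)), fun x v => rfl⟩
  have hactG : ∀ (g : ↥G) (v : ↥V), act (ρ g) (Additive.ofMul v) =
      Additive.ofMul (cj V (g : X) (hGV g.2) v) := by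
    intro g v
    rw [hact]
    congr 1
    apply Subtype.ext
    rw [cj_coe, cj_coe, hσρ]
  have hIsAct : IsAct act := by
    refine ⟨?_, ?_⟩
    · intro w
      obtain ⟨v, hv⟩ : ∃ v, w = Additive.ofMul v := ⟨Additive.toMul w, rfl⟩
      rw [hv, hact]
      congr 1
      apply Subtype.ext
      rw [cj_coe, map_one]
      show (1 : X) * v * (1 : X)⁻¹ = v
      group
    · intro g g' w
      obtain ⟨v, hv⟩ : ∃ v, w = Additive.ofMul v := ⟨Additive.toMul w, rfl⟩
      rw [hv, hact, hact, hact]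
      congr 1
      apply Subtype.ext
      rw [cj_coe, cj_coe, cj_coe, map_mul]
      show ((σ g : ↥G) : X) * ((σ g' : ↥G) : X) * v * (((σ g : ↥G) : X) * ((σ g' : ↥G) : X))⁻¹ = _
      group
  have hVp : IsPGroup p ↥V := fun g => ⟨1, by rw [pow_one]; exact Subtype.ext (hV.2 g.1 g.2)⟩
  have hW : ∃ k, Nat.card (Additive ↥V) = p ^ k := by
    obtain ⟨k, hk⟩ := hVp.exists_card_eq
    exact ⟨k, by rw [← hk]; exact Nat.card_congr Additive.toMul⟩
  have hirr' : ∀ A : AddSubgroup (Additive ↥V), (∀ g, ∀ w ∈ A, act g w ∈ A) → A = ⊥ ∨ A = ⊤ := by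
    intro A hA
    obtain ⟨U, hU⟩ : ∃ U : Subgroup X, ∀ x, x ∈ U ↔ ∃ h : x ∈ V, Additive.ofMul (⟨x, h⟩ : ↥V) ∈ A :=
      ⟨{ carrier := {x | ∃ h : x ∈ V, Additive.ofMul (⟨x, h⟩ : ↥V) ∈ A}
         one_mem' := ⟨V.one_mem, A.zero_mem⟩
         mul_mem' := by
          rintro a b ⟨ha, ha'⟩ ⟨hb, hb'⟩
          exact ⟨V.mul_mem ha hb, A.add_mem ha' hb'⟩
         inv_mem' := by
          rintro a ⟨ha, ha'⟩
          exact ⟨V.inv_mem ha, A.neg_mem ha'⟩ }, fun x => Iff.rfl⟩
    have hUV : U ≤ V := fun x hx => ((hU x).1 hx).1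
    have hfw : ∀ g ∈ G, ∀ x ∈ U, g * x * g⁻¹ ∈ U := by
      intro g hg x hx
      obtain ⟨hxV, hxA⟩ := (hU x).1 hx
      have h1 := hA (ρ ⟨g, hg⟩) _ hxA
      rw [hactG] at h1
      rw [hU]
      exact ⟨(cj V g (hGV hg) ⟨x, hxV⟩).2, h1⟩
    have hGU : G ≤ Subgroup.normalizer (U : Set X) := by
      intro g hg
      rw [Subgroup.mem_normalizer_iff]
      intro x
      refine ⟨fun hx => hfw g hg x hx, fun hx => ?_⟩
      have := hfw g⁻¹ (G.inv_mem hg) _ hx
      have e1 : g⁻¹ * (g * x * g⁻¹) * g⁻¹⁻¹ = x := by group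
      rwa [e1] at this
    rcases hirr U hUV hGU with h | h
    · left
      rw [eq_bot_iff]
      intro w hw
      obtain ⟨v, hv⟩ : ∃ v, w = Additive.ofMul v := ⟨Additive.toMul w, rfl⟩
      rw [hv] at hw ⊢
      have : (v : X) ∈ U := (hU _).2 ⟨v.2, hw⟩
      rw [h, Subgroup.mem_bot] at this
      have hv1 : v = 1 := Subtype.ext this
      rw [hv1]
      exact AddSubgroup.zero_mem _
    · right
      rw [eq_top_iff]
      intro w _
      obtain ⟨v, hv⟩ : ∃ v, w = Additive.ofMul v := ⟨Additive.toMul w, rfl⟩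
      rw [hv]
      have : (v : X) ∈ U := by rw [h]; exact v.2
      obtain ⟨_, h2⟩ := (hU _).1 this
      exact h2
  have hnt' : ∃ g w, act g w ≠ w := by
    by_contra hcon
    push_neg at hcon
    apply hnt
    rw [Subgroup.commutator_eq_bot_iff_le_centralizer]
    intro v hv
    rw [Subgroup.mem_centralizer_iff]
    intro g hg
    have h1 := hcon (ρ ⟨g, hg⟩) (Additive.ofMul ⟨v, hv⟩)
    rw [hactG] at h1
    have h2 : g * v * g⁻¹ = v := congrArg (fun w : Additive ↥V => ((Additive.toMul w : ↥V) : X)) h1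
    calc g * v = g * v * g⁻¹ * g := by group
      _ = v * g := by rw [h2]
  have hcoe : ∀ (t : F) (v : ↥V), ((Additive.toMul (act (uMat t) (Additive.ofMul v)) : ↥V) : X) =
      ((σ (uMat t) : ↥G) : X) * v * ((σ (uMat t) : ↥G) : X)⁻¹ := by
    intro t v
    rw [hact]
    rfl
  have hSmem : ∀ t, ((σ (uMat t) : ↥G) : X) ∈ (S : Subgroup ↥G).map G.subtype :=
    fun t => ⟨σ (uMat t), hS1 t, rfl⟩
  have hQ : ∀ t w, act (uMat t) w - w ∈ C1 act := by
    rcases hyp with hq | hc
    · intro t w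
      obtain ⟨v, hv⟩ : ∃ v, w = Additive.ofMul v := ⟨Additive.toMul w, rfl⟩
      rw [hv, mem_C1]
      intro t'
      obtain ⟨d, hd⟩ : ∃ d : ↥V, Additive.ofMul d = act (uMat t) (Additive.ofMul v) - Additive.ofMul v :=
        ⟨Additive.toMul (act (uMat t) (Additive.ofMul v) - Additive.ofMul v), rfl⟩
      rw [← hd]
      have hdX : (d : X) = ⁅((σ (uMat t) : ↥G) : X), (v : X)⁆ := by
        have h1 : d = Additive.toMul (act (uMat t) (Additive.ofMul v)) / v :=
          congrArg Additive.toMul hd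
        rw [h1, commutatorElement_def, div_eq_mul_inv]
        show ((Additive.toMul (act (uMat t) (Additive.ofMul v)) : ↥V) : X) * (v : X)⁻¹ = _
        rw [hcoe]
      have hdm : (d : X) ∈ ⁅V, (S : Subgroup ↥G).map G.subtype⁆ := by
        rw [hdX, Subgroup.commutator_comm]
        exact Subgroup.commutator_mem_commutator (hSmem t) v.2
      have h2 : ⁅(d : X), ((σ (uMat t') : ↥G) : X)⁆ = 1 := by
        have := Subgroup.commutator_mem_commutator hdm (hSmem t')
        rw [hq, Subgroup.mem_bot] at this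
        exact this
      rw [hact]
      congr 1
      apply Subtype.ext
      rw [cj_coe]
      rw [commutatorElement_def] at h2
      have h3 : (d : X) * ((σ (uMat t') : ↥G) : X) = ((σ (uMat t') : ↥G) : X) * (d : X) := by
        calc (d : X) * ((σ (uMat t') : ↥G) : X)
            = ((d : X) * ((σ (uMat t') : ↥G) : X) * (d : X)⁻¹ * ((σ (uMat t') : ↥G) : X)⁻¹) *
                (((σ (uMat t') : ↥G) : X) * (d : X)) := by group
          _ = ((σ (uMat t') : ↥G) : X) * (d : X) := by rw [h2, one_mul]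
      rw [← h3]
      group
    · apply quad_of_card hF hW hIsAct hirr' hnt'
      have h1 : Nat.card ↥(V ⊓ Subgroup.centralizer
          (((S : Subgroup ↥G).map G.subtype : Subgroup X) : Set X)) ≤ Nat.card (C1 act) := by
        apply Nat.card_le_card_of_injective
          (fun x : ↥(V ⊓ Subgroup.centralizer
            (((S : Subgroup ↥G).map G.subtype : Subgroup X) : Set X)) =>
            (⟨Additive.ofMul (⟨x.1, (Subgroup.mem_inf.1 x.2).1⟩ : ↥V), by
              rw [mem_C1]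
              intro t
              rw [hact]
              congr 1
              apply Subtype.ext
              rw [cj_coe]
              have h5 := (Subgroup.mem_centralizer_iff.1 (Subgroup.mem_inf.1 x.2).2)
                _ (hSmem t)
              show ((σ (uMat t) : ↥G) : X) * (x : X) * ((σ (uMat t) : ↥G) : X)⁻¹ = (x : X)
              rw [h5]
              group⟩ : C1 act))
        intro x y hxy
        have h6 := congrArg (fun w : C1 act => ((Additive.toMul w.1 : ↥V) : X)) hxy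
        exact Subtype.ext h6
      calc Nat.card (Additive ↥V) = Nat.card ↥V := Nat.card_congr Additive.toMul
        _ ≤ Nat.card ↥(V ⊓ Subgroup.centralizer
          (((S : Subgroup ↥G).map G.subtype : Subgroup X) : Set X)) ^ 2 := hc
        _ ≤ Nat.card (C1 act) ^ 2 := Nat.pow_le_pow_left h1 2
  obtain ⟨θ, hθ⟩ := natural_of_quad hF hW hIsAct hirr' hnt' hQ
  refine ⟨hGV, bot_le, ρ, MonoidHom.toAdditiveLeft.symm θ.symm.toAddMonoidHom, ?_, ?_, ?_, ?_⟩
  · rw [MonoidHom.range_eq_top]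
    intro x
    exact ⟨σ x, hρσ x⟩
  · intro m
    refine ⟨Additive.toMul (θ (Multiplicative.toAdd m)), ?_⟩
    show Multiplicative.ofAdd (θ.symm (θ (Multiplicative.toAdd m))) = m
    rw [AddEquiv.symm_apply_apply]
    rfl
  · intro u
    rw [Subgroup.mem_bot]
    constructor
    · intro h
      have h1 : θ.symm (Additive.ofMul u) = 0 := congrArg Multiplicative.toAdd h
      have h2 : Additive.ofMul u = 0 := by
        have := congrArg θ h1
        rwa [AddEquiv.apply_symm_apply, map_zero] at this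
      have h3 : u = 1 := congrArg Additive.toMul h2
      rw [h3]; rfl
    · intro h
      have h3 : u = 1 := Subtype.ext h
      rw [h3]
      exact map_one _
  · intro g u
    refine ⟨cj V (g : X) (hGV g.2) u, rfl, ?_⟩
    show θ.symm (Additive.ofMul (cj V (g : X) (hGV g.2) u)) =
      ((ρ g : Matrix.SpecialLinearGroup (Fin 2) F) : Matrix (Fin 2) (Fin 2) F).mulVec
        (θ.symm (Additive.ofMul u))
    rw [AddEquiv.symm_apply_eq, hθ, AddEquiv.apply_symm_apply, hactG]

end Cfsg.Agent.S3009
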