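import Cfsg.Statements.S3013
import Mathlib

set_option autoImplicit false
open Cfsg

namespace Cfsg.Agent.S3013

/-- Let G be a finite group and V a nontrivial elementary abelian 2-subgroup of G satisfying the Sidki pair condition. Let v ∈ V and let x be an element of odd order inverted by v, and put C = C_G(v) ∩ C_G(x), the centralizer of the dihedral subgroup generated by v and x. Then C ∩ V is nontrivial and satisfies the Sidki pair condition inside C: every odd-order element of C inverted by an element of C ∩ V commutes with a nontrivial element of C ∩ V. -/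
theorem commute_of_sq {G : Type*} [Group G] {w h : G} (hodd : Odd (orderOf h))
    (hc : Commute w (h ^ 2)) : Commute w h := by
  obtain ⟨k, hk⟩ := hodd
  have h1 : (h ^ 2) ^ (k + 1) = h := by
    rw [← pow_mul]
    have : 2 * (k + 1) = orderOf h + 1 := by omega
    rw [this, pow_succ, pow_orderOf_eq_one, one_mul]
  rw [← h1]
  exact hc.pow_right (k + 1)

theorem result {G : Type*} [Group G] [Finite G] (V : Subgroup G) (hV : Cfsg.IsElementaryAbelian 2 V) (hV1 : V ≠ ⊥) (hS : Cfsg.IsSidkiPair V) (v x : G) (hv : v ∈ V) (hx : Odd (orderOf x)) (hinv : v * x * v⁻¹ = x⁻¹) (C : Subgroup G) (hC : C = Subgroup.centralizer ({v} : Set G) ⊓ Subgroup.centralizer ({x} : Set G)) : C ⊓ V ≠ ⊥ ∧ Cfsg.IsSidkiPair ((C ⊓ V).subgroupOf C) := by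
  subst hC
  have hab : ∀ a ∈ V, ∀ b ∈ V, a * b = b * a := fun a ha b hb =>
    haveI := hV.1
    setLike_mul_comm ha hb
  have hv2 : v ^ 2 = 1 := hV.2 v hv
  refine ⟨?_, ?_⟩
  · obtain ⟨w, hw, hw1, hwc⟩ := hS x v hv hx hinv
    intro hbot
    apply hw1
    have hmem : w ∈ (Subgroup.centralizer ({v} : Set G) ⊓ Subgroup.centralizer ({x} : Set G)) ⊓ V := by
      refine ⟨⟨?_, ?_⟩, hw⟩
      · show w ∈ Subgroup.centralizer ({v} : Set G)
        rw [Subgroup.mem_centralizer_iff]
        intro y hy
        rw [Set.mem_singleton_iff] at hy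
        rw [hy]; exact hab v hv w hw
      · show w ∈ Subgroup.centralizer ({x} : Set G)
        rw [Subgroup.mem_centralizer_iff]
        intro y hy
        rw [Set.mem_singleton_iff] at hy
        rw [hy]; exact hwc.symm
    rw [hbot, Subgroup.mem_bot] at hmem
    exact hmem
  · intro h u hu hodd hinvu
    rw [Subgroup.mem_subgroupOf] at hu
    have huV : (u : G) ∈ V := hu.2
    have hhC := h.2
    have hhv : v * (h : G) = (h : G) * v := Subgroup.mem_centralizer_iff.1 hhC.1 v rfl
    have hhx : x * (h : G) = (h : G) * x := Subgroup.mem_centralizer_iff.1 hhC.2 x rfl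
    have hux : x * (u : G) = (u : G) * x := Subgroup.mem_centralizer_iff.1 hu.1.2 x rfl
    have hoddG : Odd (orderOf (h : G)) := by rw [Subgroup.orderOf_coe]; exact hodd
    have hinvG : (u : G) * (h : G) * (u : G)⁻¹ = (h : G)⁻¹ := by
      have := congrArg Subtype.val hinvu
      simpa using this
    -- x * h has odd order and is inverted by v * u
    have hcomm : Commute x (h : G) := hhx
    have hodd2 : Odd (orderOf (x * (h : G))) := by
      have hdvd : orderOf (x * (h : G)) ∣ orderOf x * orderOf (h : G) := by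
        apply orderOf_dvd_of_pow_eq_one
        rw [hcomm.mul_pow, pow_mul, pow_orderOf_eq_one, one_pow, mul_comm (orderOf x), pow_mul,
          pow_orderOf_eq_one, one_pow, one_mul]
      exact Odd.of_dvd_nat (hx.mul hoddG) hdvd
    have hinv2 : (v * (u : G)) * (x * (h : G)) * (v * (u : G))⁻¹ = (x * (h : G))⁻¹ := by
      have e1 : (v * (u : G)) * (x * (h : G)) * (v * (u : G))⁻¹ =
          v * ((u : G) * x * (u : G)⁻¹) * v⁻¹ * (v * ((u : G) * (h : G) * (u : G)⁻¹) * v⁻¹) := by group
      have e2 : (u : G) * x * (u : G)⁻¹ = x := by rw [← hux]; group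
      have e3 : v * (h : G)⁻¹ * v⁻¹ = (h : G)⁻¹ := by
        have : v * (h : G)⁻¹ = (h : G)⁻¹ * v := (Commute.inv_right (show Commute v (h : G) from hhv)).eq
        rw [this]; group
      rw [e1, e2, hinvG, hinv, e3, mul_inv_rev]
      exact (Commute.inv_inv hcomm).eq.symm ▸ rfl
    obtain ⟨w, hw, hw1, hwc⟩ := hS (x * (h : G)) (v * (u : G)) (V.mul_mem hv huV) hodd2 hinv2
    -- conjugating by v: w commutes with x⁻¹ * h
    have hwv : v * w = w * v := hab v hv w hw
    have hwc2 : w * (x⁻¹ * (h : G)) = (x⁻¹ * (h : G)) * w := by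
      have e1 : x⁻¹ * (h : G) = v * (x * (h : G)) * v⁻¹ := by
        have : v * (x * (h : G)) * v⁻¹ = (v * x * v⁻¹) * (v * (h : G) * v⁻¹) := by group
        rw [this, hinv, hhv]; group
      have e2 : w = v * w * v⁻¹ := by rw [hwv]; group
      calc w * (x⁻¹ * (h : G)) = (v * w * v⁻¹) * (v * (x * (h : G)) * v⁻¹) := by rw [← e2, ← e1]
        _ = v * (w * (x * (h : G))) * v⁻¹ := by group
        _ = v * ((x * (h : G)) * w) * v⁻¹ := by rw [hwc]
        _ = (v * (x * (h : G)) * v⁻¹) * (v * w * v⁻¹) := by group
        _ = (x⁻¹ * (h : G)) * w := by rw [← e2, ← e1]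
    have hwh2 : Commute w ((h : G) ^ 2) := by
      have e : (h : G) ^ 2 = (x * (h : G)) * (x⁻¹ * (h : G)) := by
        rw [pow_two]
        calc (h : G) * (h : G) = (x * x⁻¹) * ((h : G) * (h : G)) := by group
          _ = x * (x⁻¹ * (h : G)) * (h : G) := by group
          _ = x * ((h : G) * x⁻¹) * (h : G) := by rw [(Commute.inv_left hcomm).eq]
          _ = _ := by group
      rw [e]
      exact Commute.mul_right hwc hwc2
    have hwx2 : Commute w (x ^ 2) := by
      have e : x ^ 2 = (x * (h : G)) * (x⁻¹ * (h : G))⁻¹ := by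
        rw [pow_two, mul_inv_rev, inv_inv]; group
      rw [e]
      exact Commute.mul_right hwc (Commute.inv_right hwc2)
    have hwh : Commute w (h : G) := commute_of_sq hoddG hwh2
    have hwx : Commute w x := commute_of_sq hx hwx2
    have hwC : w ∈ Subgroup.centralizer ({v} : Set G) ⊓ Subgroup.centralizer ({x} : Set G) := by
      refine ⟨?_, ?_⟩
      · show w ∈ Subgroup.centralizer ({v} : Set G)
        rw [Subgroup.mem_centralizer_iff]
        intro y hy
        rw [Set.mem_singleton_iff] at hy
        rw [hy]; exact hwv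
      · show w ∈ Subgroup.centralizer ({x} : Set G)
        rw [Subgroup.mem_centralizer_iff]
        intro y hy
        rw [Set.mem_singleton_iff] at hy
        rw [hy]; exact hwx.eq.symm
    refine ⟨⟨w, hwC⟩, ?_, ?_, ?_⟩
    · rw [Subgroup.mem_subgroupOf]
      exact ⟨hwC, hw⟩
    · intro h1
      apply hw1
      have := congrArg Subtype.val h1
      simpa using this
    · apply Subtype.ext
      exact hwh.eq

end Cfsg.Agent.S3013
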