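import Cfsg.Statements.S3011
import Cfsg.Agent.S3013
import Cfsg.Agent.Lib.Helper21.BaerSuzuki
import Cfsg.Agent.Lib.Helper17.Syl
import Cfsg.Agent.Lib.Lead.Cores

set_option autoImplicit false
open Cfsg

namespace Cfsg.Agent.S3011


section aux

variable {G : Type*} [Group G]

/-- an involution outside `O₂(G)` inverts a nontrivial element of odd order (Baer–Suzuki). -/
theorem exists_inverted_odd [Finite G] {v : G} (hv2 : v * v = 1) (hv : v ∉ Cfsg.pCore 2 G) :
    ∃ h : G, h ≠ 1 ∧ Odd (orderOf h) ∧ v * h * v⁻¹ = h⁻¹ := by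
  by_contra hno
  push Not at hno
  apply hv
  have hvinv : v⁻¹ = v := inv_eq_of_mul_eq_one_right hv2
  have hX : IsPGroup 2 ↥(Subgroup.zpowers v) := by
    have h1 : orderOf v ∣ 2 := orderOf_dvd_of_pow_eq_one (by rw [pow_two]; exact hv2)
    rcases (Nat.dvd_prime Nat.prime_two).1 h1 with h | h
    · exact IsPGroup.of_card (n := 0) (by rw [Nat.card_zpowers, h, pow_zero])
    · exact IsPGroup.of_card (n := 1) (by rw [Nat.card_zpowers, h, pow_one])
  have hBS : ∀ g : G, IsPGroup 2
      ↥(Subgroup.zpowers v ⊔ (Subgroup.zpowers v).map (MulAut.conj g).toMonoidHom) := by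
    intro g
    obtain ⟨u, hudef⟩ : ∃ u : G, u = g * v * g⁻¹ := ⟨_, rfl⟩
    have hu2 : u * u = 1 := by
      rw [hudef]
      calc g * v * g⁻¹ * (g * v * g⁻¹) = g * (v * v) * g⁻¹ := by group
        _ = 1 := by rw [hv2]; group
    have huinv : u⁻¹ = u := inv_eq_of_mul_eq_one_right hu2
    have hmap : (Subgroup.zpowers v).map (MulAut.conj g).toMonoidHom = Subgroup.zpowers u := by
      rw [MonoidHom.map_zpowers, hudef]; rfl
    obtain ⟨y, hydef⟩ : ∃ y : G, y = v * u := ⟨_, rfl⟩
    have hyinv : v * y * v⁻¹ = y⁻¹ := by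
      rw [hydef]
      calc v * (v * u) * v⁻¹ = (v * v) * u * v⁻¹ := by group
        _ = u * v⁻¹ := by rw [hv2, one_mul]
        _ = u⁻¹ * v⁻¹ := by rw [huinv]
        _ = (v * u)⁻¹ := by group
    have hyo : orderOf y ≠ 0 := (orderOf_pos y).ne'
    obtain ⟨k, m, hm, hkm⟩ := Nat.exists_eq_two_pow_mul_odd hyo
    have hh : orderOf (y ^ 2 ^ k) = m := by
      rw [orderOf_pow_of_dvd (pow_ne_zero k two_ne_zero) (by rw [hkm]; exact dvd_mul_right _ _),
        hkm, Nat.mul_div_cancel_left _ (pow_pos two_pos k)]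
    have hinvh : v * y ^ 2 ^ k * v⁻¹ = (y ^ 2 ^ k)⁻¹ := by
      rw [← conj_pow, hyinv, inv_pow]
    have h1 : y ^ 2 ^ k = 1 := by
      by_contra hne
      exact hno _ hne (by rw [hh]; exact hm) hinvh
    have hm1 : m = 1 := by rw [← hh, h1, orderOf_one]
    have hyp : IsPGroup 2 ↥(Subgroup.zpowers y) :=
      IsPGroup.of_card (n := k) (by rw [Nat.card_zpowers, hkm, hm1, mul_one])
    have hvN : Subgroup.zpowers v ≤ Subgroup.normalizer ((Subgroup.zpowers y : Subgroup G) : Set G) := by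
      rw [Subgroup.zpowers_le]
      apply Cfsg.Agent.Lib.Helper17.Syl.mem_normalizer_of_conj_mem
      intro r hr
      obtain ⟨i, rfl⟩ := Subgroup.mem_zpowers_iff.1 hr
      rw [← conj_zpow, hyinv]
      exact Subgroup.zpow_mem _ (Subgroup.inv_mem _ (Subgroup.mem_zpowers y)) i
    have hp := IsPGroup.to_sup_of_normal_right' hX hyp hvN
    refine hp.to_le ?_
    rw [hmap]
    refine sup_le le_sup_left ?_
    rw [Subgroup.zpowers_le]
    have e : u = v⁻¹ * y := by rw [hydef]; group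
    rw [e]
    exact Subgroup.mul_mem _ (Subgroup.inv_mem _
      ((le_sup_left : Subgroup.zpowers v ≤ Subgroup.zpowers v ⊔ Subgroup.zpowers y)
        (Subgroup.mem_zpowers v)))
      ((le_sup_right : Subgroup.zpowers y ≤ Subgroup.zpowers v ⊔ Subgroup.zpowers y)
        (Subgroup.mem_zpowers y))
  obtain ⟨N, hN, hNp, hXN⟩ :=
    Cfsg.Agent.Lib.Helper21.BaerSuzuki.baer_suzuki (Subgroup.zpowers v) hX hBS
  exact Cfsg.Agent.Lib.Lead.Cores.le_pCore hN hNp (hXN (Subgroup.mem_zpowers v))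

/-- the elements of a group of order at most 4 containing two distinct commuting involutions -/
theorem klein_elems [Finite G] (V : Subgroup G) (h4 : Nat.card ↥V ≤ 4) {a b : G} (haV : a ∈ V) (hbV : b ∈ V)
    (ha1 : a ≠ 1) (hb1 : b ≠ 1) (hab : a ≠ b) (hb2 : b * b = 1) :
    ∀ w ∈ V, w = 1 ∨ w = a ∨ w = b ∨ w = a * b := by
  intro w hw
  have hab1 : a * b ≠ 1 := fun e => hab (by
    have h1 : a = b⁻¹ := eq_inv_of_mul_eq_one_left e
    rw [h1, inv_eq_of_mul_eq_one_right hb2])
  have hinj : Function.Injective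
      (![1, ⟨a, haV⟩, ⟨b, hbV⟩, ⟨a * b, V.mul_mem haV hbV⟩] : Fin 4 → ↥V) := by
    intro i j hij
    fin_cases i <;> fin_cases j <;>
      simp [Subtype.ext_iff, ha1, hb1, hab, hab1, Ne.symm ha1, Ne.symm hb1, Ne.symm hab,
        Ne.symm hab1] at hij ⊢
  have hbij := hinj.bijective_of_nat_card_le (by simpa using h4)
  obtain ⟨i, hi⟩ := hbij.2 ⟨w, hw⟩
  have hi' := congrArg Subtype.val hi
  fin_cases i
  · left; simpa using hi'.symm
  · right; left; simpa using hi'.symm
  · right; right; left; simpa using hi'.symm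
  · right; right; right; simpa using hi'.symm

end aux

/-- Let G be a finite group and V a nontrivial elementary abelian 2-subgroup of G of order at most 4 such that, whenever an element of V inverts an element h of G of odd order, some nontrivial element of V commutes with h. Then V meets O₂(G) nontrivially. (The case of order at most 4 has a short argument from the Baer–Suzuki theorem.) -/
theorem result {G : Type*} [Group G] [Finite G] (V : Subgroup G) (hV : Cfsg.IsElementaryAbelian 2 V) (hV1 : V ≠ ⊥) (hS : Cfsg.IsSidkiPair V) (h4 : Nat.card V ≤ 4) : V ⊓ Cfsg.pCore 2 G ≠ ⊥ := by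
  classical
  by_contra hbot
  have hcomm : ∀ a ∈ V, ∀ b ∈ V, a * b = b * a := fun a ha b hb => by
    haveI := hV.1
    exact setLike_mul_comm ha hb
  have hsq : ∀ a ∈ V, a * a = 1 := fun a ha => by rw [← pow_two]; exact hV.2 a ha
  have hnot : ∀ v ∈ V, v ≠ 1 → v ∉ Cfsg.pCore 2 G := by
    intro v hv hv1 hvO
    have h0 : v ∈ V ⊓ Cfsg.pCore 2 G := Subgroup.mem_inf.2 ⟨hv, hvO⟩
    rw [hbot, Subgroup.mem_bot] at h0
    exact hv1 h0
  have hinvc : ∀ (v h : G), Odd (orderOf h) → v * h * v⁻¹ = h⁻¹ → v * h = h * v → h = 1 := by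
    intro v h hodd hinv hc
    have h1 : h = h⁻¹ := by
      calc h = v * h * v⁻¹ := by rw [hc]; group
        _ = h⁻¹ := hinv
    have h2 : h ^ 2 = 1 := by
      rw [pow_two]
      calc h * h = h * h⁻¹ := by rw [← h1]
        _ = 1 := mul_inv_cancel h
    have h3 : orderOf h ∣ 2 := orderOf_dvd_of_pow_eq_one h2
    rcases (Nat.dvd_prime Nat.prime_two).1 h3 with h4 | h4
    · exact orderOf_eq_one_iff.1 h4
    · rw [h4] at hodd; exact absurd hodd (by decide)
  obtain ⟨a, haV, ha1⟩ : ∃ a ∈ V, a ≠ 1 := by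
    by_contra hcon
    push Not at hcon
    exact hV1 (eq_bot_iff.2 (fun y hy => Subgroup.mem_bot.2 (hcon y hy)))
  obtain ⟨h, hh1, hhodd, hah⟩ := exists_inverted_odd (hsq a haV) (hnot a haV ha1)
  obtain ⟨b, hbV, hb1, hbh⟩ := hS h a haV hhodd hah
  have hab : a ≠ b := by
    intro e
    exact hh1 (hinvc a h hhodd hah (e ▸ hbh))
  obtain ⟨k, hk1, hkodd, hbk⟩ := exists_inverted_odd (hsq b hbV) (hnot b hbV hb1)
  have ha2 := hsq a haV
  have hb2 := hsq b hbV
  have hVel := klein_elems V h4 haV hbV ha1 hb1 hab hb2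
  have hab_comm : a * b = b * a := hcomm a haV b hbV
  have hainv : a⁻¹ = a := inv_eq_of_mul_eq_one_right ha2
  have hbinv : b⁻¹ = b := inv_eq_of_mul_eq_one_right hb2
  have habh : (a * b) * h * (a * b)⁻¹ = h⁻¹ := by
    calc (a * b) * h * (a * b)⁻¹ = a * (b * h * b⁻¹) * a⁻¹ := by group
      _ = a * h * a⁻¹ := by rw [hbh]; group
      _ = h⁻¹ := hah
  have hstep : ∀ d : G, d * b = b * d →
      Commute k (d * a * d⁻¹) ∨ Commute k (d * (a * b) * d⁻¹) := by
    intro d hdb
    have hko : Odd (orderOf (d⁻¹ * k * d)) := by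
      have h0 := MulEquiv.orderOf_eq (MulAut.conj d⁻¹) k
      rw [MulAut.conj_apply, inv_inv] at h0
      rw [h0]; exact hkodd
    have hinv' : b * (d⁻¹ * k * d) * b⁻¹ = (d⁻¹ * k * d)⁻¹ := by
      have h1 : b * d⁻¹ = d⁻¹ * b := by
        calc b * d⁻¹ = d⁻¹ * (d * b) * d⁻¹ := by group
          _ = d⁻¹ * (b * d) * d⁻¹ := by rw [hdb]
          _ = d⁻¹ * b := by group
      have h2 : d * b⁻¹ = b⁻¹ * d := by
        calc d * b⁻¹ = b⁻¹ * (b * d) * b⁻¹ := by group
          _ = b⁻¹ * (d * b) * b⁻¹ := by rw [hdb]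
          _ = b⁻¹ * d := by group
      calc b * (d⁻¹ * k * d) * b⁻¹ = (b * d⁻¹) * k * (d * b⁻¹) := by group
        _ = (d⁻¹ * b) * k * (b⁻¹ * d) := by rw [h1, h2]
        _ = d⁻¹ * (b * k * b⁻¹) * d := by group
        _ = (d⁻¹ * k * d)⁻¹ := by rw [hbk]; group
    obtain ⟨w, hwV, hw1, hwk⟩ := hS _ b hbV hko hinv'
    have hkne : d⁻¹ * k * d ≠ 1 := by
      intro e
      apply hk1
      calc k = d * (d⁻¹ * k * d) * d⁻¹ := by group
        _ = 1 := by rw [e]; group
    rcases hVel w hwV with e | e | e | e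
    · exact absurd e hw1
    · left
      rw [e] at hwk
      show k * (d * a * d⁻¹) = (d * a * d⁻¹) * k
      calc k * (d * a * d⁻¹) = d * ((d⁻¹ * k * d) * a) * d⁻¹ := by group
        _ = d * (a * (d⁻¹ * k * d)) * d⁻¹ := by rw [hwk]
        _ = (d * a * d⁻¹) * k := by group
    · rw [e] at hwk
      exact absurd (hinvc b _ hko hinv' hwk) hkne
    · right
      rw [e] at hwk
      show k * (d * (a * b) * d⁻¹) = (d * (a * b) * d⁻¹) * k
      calc k * (d * (a * b) * d⁻¹) = d * ((d⁻¹ * k * d) * (a * b)) * d⁻¹ := by group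
        _ = d * ((a * b) * (d⁻¹ * k * d)) * d⁻¹ := by rw [hwk]
        _ = (d * (a * b) * d⁻¹) * k := by group
  have hA := hstep 1 (by rw [one_mul, mul_one])
  have hB := hstep h hbh.symm
  simp only [one_mul, mul_one, inv_one] at hA
  have hconj : h * a * h⁻¹ = h ^ 2 * a := by
    have h2 : a * h = h⁻¹ * a := by
      calc a * h = (a * h * a⁻¹) * a := by group
        _ = h⁻¹ * a := by rw [hah]
    have h1 : a * h⁻¹ = h * a := by
      calc a * h⁻¹ = h * (h⁻¹ * a) * h⁻¹ := by group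
        _ = h * (a * h) * h⁻¹ := by rw [h2]
        _ = h * a := by group
    calc h * a * h⁻¹ = h * (a * h⁻¹) := by group
      _ = h * (h * a) := by rw [h1]
      _ = h ^ 2 * a := by rw [pow_two]; group
  have hconj' : h * (a * b) * h⁻¹ = h ^ 2 * a * b := by
    calc h * (a * b) * h⁻¹ = (h * a * h⁻¹) * (h * b * h⁻¹) := by group
      _ = h ^ 2 * a * (b * h * h⁻¹) := by rw [hconj, hbh]
      _ = h ^ 2 * a * b := by group
  rw [hconj, hconj'] at hB
  have hfin : ∀ u ∈ V, u * h * u⁻¹ = h⁻¹ → Commute k u → Commute k h → False := by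
    intro u huV huh hku hkh
    obtain ⟨-, hSid⟩ := Cfsg.Agent.S3013.result V hV hV1 hS u h huV hhodd huh _ rfl
    have hkC : k ∈ Subgroup.centralizer ({u} : Set G) ⊓ Subgroup.centralizer ({h} : Set G) := by
      refine Subgroup.mem_inf.2 ⟨?_, ?_⟩
      · rw [Subgroup.mem_centralizer_iff]
        intro y hy; rw [Set.mem_singleton_iff.1 hy]; exact hku.eq.symm
      · rw [Subgroup.mem_centralizer_iff]
        intro y hy; rw [Set.mem_singleton_iff.1 hy]; exact hkh.eq.symm
    have hbC : b ∈ Subgroup.centralizer ({u} : Set G) ⊓ Subgroup.centralizer ({h} : Set G) := by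
      refine Subgroup.mem_inf.2 ⟨?_, ?_⟩
      · rw [Subgroup.mem_centralizer_iff]
        intro y hy; rw [Set.mem_singleton_iff.1 hy]; exact hcomm u huV b hbV
      · rw [Subgroup.mem_centralizer_iff]
        intro y hy; rw [Set.mem_singleton_iff.1 hy]; exact hbh.symm
    obtain ⟨w, hw, hw1, hwk⟩ := hSid ⟨k, hkC⟩ ⟨b, hbC⟩
      (by rw [Subgroup.mem_subgroupOf]; exact Subgroup.mem_inf.2 ⟨hbC, hbV⟩)
      (by rw [Subgroup.orderOf_mk]; exact hkodd) (by apply Subtype.ext; exact hbk)
    rw [Subgroup.mem_subgroupOf] at hw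
    have hwV := (Subgroup.mem_inf.1 hw).2
    have hwC := (Subgroup.mem_inf.1 hw).1
    have hwh : (w : G) * h = h * (w : G) := by
      have h0 := (Subgroup.mem_inf.1 hwC).2
      rw [Subgroup.mem_centralizer_iff] at h0
      exact (h0 h rfl).symm
    have hw1' : (w : G) ≠ 1 := fun e => hw1 (Subtype.ext e)
    have hwk' : (w : G) * k = k * (w : G) := congrArg Subtype.val hwk
    rcases hVel (w : G) hwV with e | e | e | e
    · exact hw1' e
    · rw [e] at hwh
      exact hh1 (hinvc a h hhodd hah hwh)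
    · rw [e] at hwk'
      exact hk1 (hinvc b k hkodd hbk hwk')
    · rw [e] at hwh
      exact hh1 (hinvc (a * b) h hhodd habh hwh)
  have hkb : ¬ Commute k b := fun hc => hk1 (hinvc b k hkodd hbk hc.eq.symm)
  have hmixed : Commute k (h ^ 2 * b) → False := by
    intro hc
    apply hkb
    have hcb : Commute (h ^ 2) b := by
      have h0 : Commute h b := hbh.symm
      exact h0.pow_left 2
    have h1 : (h ^ 2 * b) ^ orderOf h = b := by
      rw [hcb.mul_pow, ← pow_mul, mul_comm 2, pow_mul, pow_orderOf_eq_one, one_pow, one_mul]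
      obtain ⟨j, hj⟩ := hhodd
      rw [hj, pow_succ, pow_mul, pow_two, hb2, one_pow, one_mul]
    rw [← h1]
    exact hc.pow_right _
  rcases hA with hA | hA <;> rcases hB with hB | hB
  · have h1 : Commute k (h ^ 2) := by
      have h0 := hB.mul_right hA.inv_right
      simpa using h0
    exact hfin a haV hah hA (Cfsg.Agent.S3013.commute_of_sq hhodd h1)
  · apply hmixed
    have e : h ^ 2 * a * b = h ^ 2 * b * a := by rw [mul_assoc, hab_comm, ← mul_assoc]
    rw [e] at hB
    have h0 := hB.mul_right hA.inv_right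
    simpa using h0
  · apply hmixed
    have h0 := hB.mul_right hA.inv_right
    have e : h ^ 2 * a * (a * b)⁻¹ = h ^ 2 * b := by
      rw [mul_inv_rev, hainv, hbinv, mul_assoc, ← mul_assoc a b a, hab_comm, mul_assoc b a a, ha2,
        mul_one]
    rwa [e] at h0
  · have h1 : Commute k (h ^ 2) := by
      have h0 := hB.mul_right hA.inv_right
      have e : h ^ 2 * a * b * (a * b)⁻¹ = h ^ 2 := by group
      rwa [e] at h0
    exact hfin (a * b) (V.mul_mem haV hbV) habh hA (Cfsg.Agent.S3013.commute_of_sq hhodd h1)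

end Cfsg.Agent.S3011
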