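import Cfsg.Statements.S3012
import Mathlib

set_option autoImplicit false
open Cfsg

namespace Cfsg.Agent.S3012

/-- Let G be a finite group, V a nontrivial elementary abelian 2-subgroup of G satisfying the Sidki pair condition (every odd-order element inverted by an element of V commutes with a nontrivial element of V), and K a normal subgroup of G with V ∩ K = 1. Then the image of V in G/K satisfies the Sidki pair condition in G/K. -/
theorem result {G : Type*} [Group G] [Finite G] (V K : Subgroup G) [K.Normal] (hV : Cfsg.IsElementaryAbelian 2 V) (hV1 : V ≠ ⊥) (hS : Cfsg.IsSidkiPair V) (hVK : V ⊓ K = ⊥) : Cfsg.IsSidkiPair (V.map (QuotientGroup.mk' K)) := by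
  intro hb vb hvb hodd hinvb
  obtain ⟨v, hv, rfl⟩ := Subgroup.mem_map.1 hvb
  obtain ⟨h₀, rfl⟩ := QuotientGroup.mk_surjective hb
  have hv2 : v ^ 2 = 1 := hV.2 v hv
  have hvinv : v⁻¹ = v := by
    rw [inv_eq_iff_mul_eq_one, ← pow_two]; exact hv2
  -- h₁ = [h₀, v] is inverted by v and maps to the square of the image of h₀
  set h₁ : G := h₀ * v * h₀⁻¹ * v⁻¹ with hh₁
  have hinv₁ : v * h₁ * v⁻¹ = h₁⁻¹ := by
    rw [hh₁, hvinv]
    have e1 : v * (h₀ * v * h₀⁻¹ * v) * v = v * h₀ * v * h₀⁻¹ * (v * v) := by group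
    have e2 : (h₀ * v * h₀⁻¹ * v)⁻¹ = v⁻¹ * h₀ * v⁻¹ * h₀⁻¹ := by group
    rw [e1, e2, hvinv, ← pow_two, hv2, mul_one]
  have himg₁ : (QuotientGroup.mk h₁ : G ⧸ K) = (QuotientGroup.mk h₀ : G ⧸ K) ^ 2 := by
    have hinvb' : (QuotientGroup.mk v : G ⧸ K) * QuotientGroup.mk h₀ * (QuotientGroup.mk v)⁻¹ =
        (QuotientGroup.mk h₀)⁻¹ := hinvb
    have e : (QuotientGroup.mk v : G ⧸ K) * (QuotientGroup.mk h₀)⁻¹ * (QuotientGroup.mk v)⁻¹ =
        QuotientGroup.mk h₀ := by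
      rw [← conj_inv, hinvb', inv_inv]
    rw [hh₁]
    simp only [QuotientGroup.mk_mul, QuotientGroup.mk_inv]
    rw [mul_assoc, mul_assoc, ← mul_assoc (QuotientGroup.mk v : G ⧸ K), e, pow_two]
  obtain ⟨a, m, hm, hn⟩ := Nat.exists_eq_two_pow_mul_odd (orderOf_pos h₁).ne'
  set o := orderOf (QuotientGroup.mk h₀ : G ⧸ K) with ho
  set j := 2 ^ a * ((o + 1) / 2) ^ (a + 1) with hj
  have h2j : 2 * j = (o + 1) ^ (a + 1) := by
    have ho2 : 2 * ((o + 1) / 2) = o + 1 := by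
      obtain ⟨k, hk⟩ := hodd
      rw [hk]; omega
    calc 2 * j = 2 ^ (a + 1) * ((o + 1) / 2) ^ (a + 1) := by rw [hj, pow_succ]; ring
      _ = (2 * ((o + 1) / 2)) ^ (a + 1) := by rw [mul_pow]
      _ = (o + 1) ^ (a + 1) := by rw [ho2]
  have hinv' : v * h₁ ^ j * v⁻¹ = (h₁ ^ j)⁻¹ := by
    rw [← conj_pow, hinv₁, inv_pow]
  have hodd' : Odd (orderOf (h₁ ^ j)) := by
    have hdvd : orderOf (h₁ ^ j) ∣ m := by
      apply orderOf_dvd_of_pow_eq_one
      rw [← pow_mul, hj]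
      have : 2 ^ a * ((o + 1) / 2) ^ (a + 1) * m = orderOf h₁ * ((o + 1) / 2) ^ (a + 1) := by
        rw [hn]; ring
      rw [this, pow_mul, pow_orderOf_eq_one, one_pow]
    exact Odd.of_dvd_nat hm hdvd
  have himg : (QuotientGroup.mk (h₁ ^ j) : G ⧸ K) = QuotientGroup.mk h₀ := by
    rw [QuotientGroup.mk_pow, himg₁, ← pow_mul, h2j]
    have hmod : (o + 1) ^ (a + 1) ≡ 1 [MOD o] := by
      have h1 : o + 1 ≡ 1 [MOD o] := by
        have : o + 1 ≡ 0 + 1 [MOD o] := Nat.ModEq.add_right 1 (Nat.modEq_zero_iff_dvd.2 dvd_rfl)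
        simpa using this
      have := h1.pow (a + 1)
      rw [one_pow] at this
      exact this
    have := pow_eq_pow_iff_modEq.2 hmod
    rw [this, pow_one]
  obtain ⟨w, hw, hw1, hwc⟩ := hS (h₁ ^ j) v hv hodd' hinv'
  refine ⟨QuotientGroup.mk w, Subgroup.mem_map.2 ⟨w, hw, rfl⟩, ?_, ?_⟩
  · intro h
    apply hw1
    have hwK : w ∈ K := (QuotientGroup.eq_one_iff w).1 h
    have : w ∈ V ⊓ K := ⟨hw, hwK⟩
    rw [hVK, Subgroup.mem_bot] at this
    exact this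
  · rw [← himg, ← QuotientGroup.mk_mul, ← QuotientGroup.mk_mul, hwc]

end Cfsg.Agent.S3012
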