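import Cfsg.Statements.S3020
import Cfsg.Agent.Lib.Helper17.ExtCl
import Cfsg.Agent.Lib.Lead.Cores

set_option autoImplicit false
open Cfsg

namespace Cfsg.Agent.S3020

/-- Let G be a finite group, p a prime and H an abelian p-subgroup of G that is extremely closed (for every g, the subgroup generated by H and g H g⁻¹ meets N_G(H) exactly in H). Then for every g ∈ G, the subgroup T generated by H and g H g⁻¹ is the product of H with O_{p'}(T), and H meets O_{p'}(T) trivially; that is, O_{p'}(T) is a normal p-complement of H in T. -/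
theorem result {G : Type*} [Group G] [Finite G] {p : ℕ} [Fact p.Prime] (H : Subgroup G) (hHp : IsPGroup p H) (hHab : IsMulCommutative H) (hcl : Cfsg.IsExtremelyClosed H) (g : G) (T : Subgroup G) (hT : T = H ⊔ H.map (MulAut.conj g).toMonoidHom) : H ⊔ (Cfsg.pPrimeCore p ↥T).map T.subtype = T ∧ H ⊓ (Cfsg.pPrimeCore p ↥T).map T.subtype = ⊥ := by
  classical
  subst hT
  set T : Subgroup G := H ⊔ H.map (MulAut.conj g).toMonoidHom with hTdef
  have hHT : H ≤ T := le_sup_left
  have hinf : T ⊓ Subgroup.normalizer (H : Set G) = H := hcl g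
  -- H is a Sylow p-subgroup of T
  have hHp' : IsPGroup p ↥(H.subgroupOf T) := hHp.comap_of_injective T.subtype T.subtype_injective
  have hmax : ∀ {Q : Subgroup ↥T}, IsPGroup p ↥Q → H.subgroupOf T ≤ Q → Q = H.subgroupOf T := by
    intro Q hQ hle
    apply le_antisymm _ hle
    intro t ht
    rw [Subgroup.mem_subgroupOf, ← hinf]
    refine ⟨t.2, ?_⟩
    have hQ' : IsPGroup p ↥(Q.map T.subtype) := hQ.map T.subtype
    have hHQ' : H ≤ Q.map T.subtype := by
      intro h hh
      exact Subgroup.mem_map.2 ⟨⟨h, hHT hh⟩, hle (Subgroup.mem_subgroupOf.2 hh), rfl⟩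
    have := Cfsg.Agent.Lib.Helper17.ExtCl.normalizer_le_of_extremelyClosed hcl hQ' hHQ'
    exact this (Subgroup.le_normalizer (Subgroup.mem_map.2 ⟨t, ht, rfl⟩))
  set P : Sylow p ↥T := ⟨H.subgroupOf T, hHp', hmax⟩ with hPdef
  have hPcoe : (P : Subgroup ↥T) = H.subgroupOf T := rfl
  have hab : ∀ a ∈ H, ∀ b ∈ H, a * b = b * a := fun a ha b hb =>
    haveI := hHab
    setLike_mul_comm ha hb
  have hNC : Subgroup.normalizer ((P : Subgroup ↥T) : Set ↥T) ≤
      Subgroup.centralizer ((P : Subgroup ↥T) : Set ↥T) := by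
    intro t ht
    have htH : (t : G) ∈ H := by
      rw [← hinf]
      refine ⟨t.2, Cfsg.Agent.Lib.Helper17.Syl.mem_normalizer_of_conj_mem fun r hr => ?_⟩
      have := (Subgroup.mem_normalizer_iff.1 ht ⟨r, hHT hr⟩).1 (Subgroup.mem_subgroupOf.2 hr)
      rw [hPcoe, Subgroup.mem_subgroupOf] at this
      simpa using this
    rw [Subgroup.mem_centralizer_iff]
    intro s hs
    apply Subtype.ext
    exact hab _ (Subgroup.mem_subgroupOf.1 hs) _ htH
  have hcompl := MonoidHom.ker_transferSylow_isComplement' P hNC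
  set K : Subgroup ↥T := (MonoidHom.transferSylow P hNC).ker with hK
  have hKcard : (Nat.card ↥K).Coprime p := by
    have h1 := hcompl.card_mul_card
    have h2 := Subgroup.card_mul_index (P : Subgroup ↥T)
    have h3 : Nat.card ↥K = (P : Subgroup ↥T).index := by
      have hpos : 0 < Nat.card ↥(P : Subgroup ↥T) := Nat.card_pos
      have : Nat.card ↥(P : Subgroup ↥T) * Nat.card ↥K = Nat.card ↥(P : Subgroup ↥T) * (P : Subgroup ↥T).index := by
        rw [h2, mul_comm]; exact h1
      exact Nat.eq_of_mul_eq_mul_left hpos this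
    rw [h3]
    exact (Nat.Coprime.symm ((Nat.Prime.coprime_iff_not_dvd Fact.out).2 P.not_dvd_index))
  have hKO : K ≤ Cfsg.pPrimeCore p ↥T :=
    Cfsg.Agent.Lib.Lead.Cores.le_pPrimeCore (MonoidHom.normal_ker _) hKcard
  refine ⟨?_, ?_⟩
  · apply le_antisymm (sup_le hHT (Subgroup.map_subtype_le _))
    intro t ht
    obtain ⟨⟨⟨k, hk⟩, ⟨h, hh⟩⟩, hkh⟩ := hcompl.2 ⟨t, ht⟩
    have e : t = (k : G) * (h : G) := by
      have := congrArg Subtype.val hkh
      simpa using this.symm
    rw [e]
    refine Subgroup.mul_mem _ (Subgroup.mem_sup_right (Subgroup.mem_map.2 ⟨k, hKO hk, rfl⟩))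
      (Subgroup.mem_sup_left ?_)
    have : h ∈ H.subgroupOf T := hh
    exact Subgroup.mem_subgroupOf.1 this
  · rw [eq_bot_iff]
    intro y hy
    rw [Subgroup.mem_bot]
    have hcop : (Nat.card ↥((Cfsg.pPrimeCore p ↥T).map T.subtype)).Coprime p := by
      rw [Subgroup.card_map_of_injective T.subtype_injective]
      exact Cfsg.Agent.Lib.Lead.Cores.pPrimeCore_card_coprime p
    obtain ⟨k, hk⟩ := (hHp.to_le (inf_le_left : H ⊓ (Cfsg.pPrimeCore p ↥T).map T.subtype ≤ H)).exists_card_eq
    have hdvd : Nat.card ↥(H ⊓ (Cfsg.pPrimeCore p ↥T).map T.subtype) ∣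
        Nat.card ↥((Cfsg.pPrimeCore p ↥T).map T.subtype) :=
      Subgroup.card_dvd_of_le inf_le_right
    have hone : Nat.card ↥(H ⊓ (Cfsg.pPrimeCore p ↥T).map T.subtype) = 1 := by
      rw [hk] at hdvd ⊢
      rcases Nat.eq_zero_or_pos k with h0 | h0
      · rw [h0, pow_zero]
      · exfalso
        have hp : p.Prime := Fact.out
        have : p ∣ Nat.card ↥((Cfsg.pPrimeCore p ↥T).map T.subtype) :=
          (dvd_pow_self p h0.ne').trans hdvd
        have h1 := Nat.Coprime.eq_one_of_dvd hcop.symm this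
        exact hp.one_lt.ne' h1
    have := (Subgroup.card_eq_one.1 hone)
    rw [this, Subgroup.mem_bot] at hy
    exact hy

end Cfsg.Agent.S3020
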