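import Cfsg.Statements.S3021
import Cfsg.Agent.Lib.Helper17.ExtCl

set_option autoImplicit false
open Cfsg

namespace Cfsg.Agent.S3021

/-- Let G be a finite group, p a prime and H a p-subgroup of G that is extremely closed (for every g, the subgroup generated by H and g H g⁻¹ meets N_G(H) exactly in H). Then every p-subgroup Q of G containing H has N_G(Q) ≤ N_G(H); in particular every Sylow p-subgroup P of G containing H normalizes H, and H is strongly closed in P with respect to G. -/
theorem result {G : Type*} [Group G] [Finite G] {p : ℕ} [Fact p.Prime] (H : Subgroup G) (hHp : IsPGroup p H) (hcl : Cfsg.IsExtremelyClosed H) : (∀ Q : Subgroup G, IsPGroup p Q → H ≤ Q → Subgroup.normalizer (Q : Set G) ≤ Subgroup.normalizer (H : Set G)) ∧ ∀ P : Sylow p G, H ≤ (P : Subgroup G) → (P : Subgroup G) ≤ Subgroup.normalizer (H : Set G) ∧ Cfsg.IsStronglyClosed H (P : Subgroup G) := by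
  refine ⟨fun Q hQ hHQ => Cfsg.Agent.Lib.Helper17.ExtCl.normalizer_le_of_extremelyClosed hcl hQ hHQ, ?_⟩
  intro P hHP
  have hPN : (P : Subgroup G) ≤ Subgroup.normalizer (H : Set G) :=
    Subgroup.le_normalizer.trans
      (Cfsg.Agent.Lib.Helper17.ExtCl.normalizer_le_of_extremelyClosed hcl P.2 hHP)
  refine ⟨hPN, hHP, ?_⟩
  intro x hx g hg
  have h1 : g * x * g⁻¹ ∈ (H ⊔ H.map (MulAut.conj g).toMonoidHom) ⊓ Subgroup.normalizer (H : Set G) :=
    ⟨Subgroup.mem_sup_right (Subgroup.mem_map.2 ⟨x, hx, rfl⟩), hPN hg⟩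
  rw [hcl g] at h1
  exact h1

end Cfsg.Agent.S3021
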