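import Cfsg.Statements.S3025
import Cfsg.Agent.S0016
import Cfsg.Agent.Lib.Helper9.Hyperplane

set_option autoImplicit false
open Cfsg

namespace Cfsg.Agent.S3025

section aux

variable {F : Type*} [Group F] [Finite F]

/-- a simple commutative subgroup has prime order. -/
theorem prime_card_of_simple_comm (N : Subgroup F) (hs : IsSimpleGroup ↥N)
    (hc : IsMulCommutative ↥N) : (Nat.card N).Prime := by
  have hnt : Nontrivial ↥N := hs.toNontrivial
  have h1 : Nat.card N ≠ 1 := fun h => not_subsingleton ↥N ((Nat.card_eq_one_iff_unique.1 h).1)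
  obtain ⟨q, hq, hqd⟩ := Nat.exists_prime_and_dvd h1
  have : Fact q.Prime := ⟨hq⟩
  obtain ⟨g, hg⟩ := exists_prime_orderOf_dvd_card' q hqd
  have hn : (Subgroup.zpowers g).Normal := inferInstance
  rcases hs.eq_bot_or_eq_top_of_normal _ hn with h | h
  · exfalso
    have h2 : g = 1 := by
      have := Subgroup.mem_zpowers g
      rw [h] at this
      exact Subgroup.mem_bot.1 this
    rw [h2, orderOf_one] at hg
    exact hq.one_lt.ne hg
  · have h3 : Nat.card N = q := by
      rw [← hg, ← Nat.card_zpowers, h, Subgroup.card_top]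
    rw [h3]; exact hq

end aux

/-- Let F be a finite group and H a nontrivial subgroup of F that is contained in every nontrivial subgroup of F which H normalizes. Then F has a nontrivial normal subgroup N contained in every nontrivial normal subgroup of F (a unique minimal normal subgroup), N is simple, and one of the following holds: C_F(N) = 1; or H = N has prime order p, C_F(N) is cyclic of order a power of p, and F/C_F(N) is cyclic of order dividing p − 1; or H = N has order 2, N is central in F, and F is a generalized quaternion group. -/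
theorem result {F : Type*} [Group F] [Finite F] (H : Subgroup F) (hH : H ≠ ⊥)
    (hmin : ∀ R : Subgroup F, R ≠ ⊥ → H ≤ Subgroup.normalizer (R : Set F) → H ≤ R) :
    ∃ N : Subgroup F, N.Normal ∧ N ≠ ⊥ ∧ (∀ M : Subgroup F, M.Normal → M ≠ ⊥ → N ≤ M) ∧ IsSimpleGroup ↥N ∧
      (Subgroup.centralizer (N : Set F) = ⊥ ∨
       (H = N ∧ (Nat.card N).Prime ∧ IsCyclic ↥(Subgroup.centralizer (N : Set F)) ∧
          (∃ k : ℕ, 1 ≤ k ∧ Nat.card ↥(Subgroup.centralizer (N : Set F)) = Nat.card N ^ k) ∧
          (∃ g : F, Subgroup.centralizer (N : Set F) ⊔ Subgroup.zpowers g = ⊤) ∧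
          (Subgroup.centralizer (N : Set F)).index ∣ Nat.card N - 1) ∨
       (H = N ∧ Nat.card N = 2 ∧ Subgroup.centralizer (N : Set F) = ⊤ ∧
          ∃ k : ℕ, 1 ≤ k ∧ Nonempty (F ≃* QuaternionGroup (2 ^ k)))) := by
  classical
  set N := Subgroup.normalClosure (H : Set F) with hNdef
  have hNn : N.Normal := Subgroup.normalClosure_normal
  have hHN : H ≤ N := Subgroup.le_normalClosure
  have hN1 : N ≠ ⊥ := fun h => hH (le_bot_iff.1 (h ▸ hHN))
  have hNmin : ∀ M : Subgroup F, M.Normal → M ≠ ⊥ → N ≤ M := by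
    intro M hM hM1
    have : H ≤ M := hmin M hM1 (by rw [Subgroup.normalizer_eq_top]; exact le_top)
    exact Subgroup.normalClosure_le_normal this
  have hconj : ∀ K : Subgroup F, K ≠ ⊥ → N ≤ Subgroup.normalizer (K : Set F) → N ≤ K := by
    intro K hK1 hNK
    rw [hNdef, Subgroup.normalClosure, Subgroup.closure_le]
    intro a ha
    obtain ⟨h, hh, hcj⟩ := Group.mem_conjugatesOfSet_iff.1 ha
    obtain ⟨g, rfl⟩ := isConj_iff.1 hcj
    set R := K.comap (MulAut.conj g).toMonoidHom with hR
    have hRmem : ∀ r : F, r ∈ R ↔ g * r * g⁻¹ ∈ K := fun r => Iff.rfl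
    have hR1 : R ≠ ⊥ := by
      intro h0
      apply hK1
      rw [eq_bot_iff]
      intro k hk
      have h1 : g⁻¹ * k * g ∈ R := by
        rw [hRmem]
        have e : g * (g⁻¹ * k * g) * g⁻¹ = k := by group
        rw [e]; exact hk
      rw [h0, Subgroup.mem_bot] at h1
      rw [Subgroup.mem_bot]
      calc k = g * (g⁻¹ * k * g) * g⁻¹ := by group
        _ = 1 := by rw [h1]; group
    have hHR : H ≤ Subgroup.normalizer (R : Set F) := by
      intro h' hh'
      rw [Subgroup.mem_normalizer_iff]
      intro r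
      have hn : g * h' * g⁻¹ ∈ Subgroup.normalizer (K : Set F) :=
        hNK (hNn.conj_mem _ (hHN hh') g)
      have h2 := Subgroup.mem_normalizer_iff.1 hn (g * r * g⁻¹)
      have e : g * h' * g⁻¹ * (g * r * g⁻¹) * (g * h' * g⁻¹)⁻¹ = g * (h' * r * h'⁻¹) * g⁻¹ := by
        group
      rw [e] at h2
      rw [hRmem, hRmem]
      exact h2
    exact (hRmem h).1 (hmin R hR1 hHR hh)
  have hNs : IsSimpleGroup ↥N := by
    rw [Subgroup.isSimpleGroup_iff]
    refine ⟨hN1, ?_⟩
    intro K hKN hKn
    by_cases hK1 : K = ⊥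
    · exact Or.inl hK1
    · right
      apply le_antisymm hKN
      apply hconj K hK1
      exact (Subgroup.normal_subgroupOf_iff_le_normalizer hKN).1 hKn
  refine ⟨N, hNn, hN1, hNmin, hNs, ?_⟩
  have hCn : (Subgroup.centralizer (N : Set F)).Normal := Subgroup.normal_centralizer
  by_cases hNc : IsMulCommutative ↥N
  swap
  · left
    by_contra hC1
    have := hNmin _ hCn hC1
    exact hNc (Subgroup.le_centralizer_iff_isMulCommutative.1 this)
  right
  have hNC : N ≤ Subgroup.centralizer (N : Set F) :=
    Subgroup.le_centralizer_iff_isMulCommutative.2 hNc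
  have hp : (Nat.card N).Prime := prime_card_of_simple_comm N hNs hNc
  have hpf : Fact (Nat.card N).Prime := ⟨hp⟩
  have hHeq : H = N := by
    apply Subgroup.eq_of_le_of_card_ge hHN
    have h1 : Nat.card H ∣ Nat.card N := Subgroup.card_dvd_of_le hHN
    rcases (Nat.dvd_prime hp).1 h1 with h | h
    · exfalso; exact hH (Subgroup.card_eq_one.1 h)
    · rw [h]
  set C := Subgroup.centralizer (N : Set F) with hCdef
  have hCsub : ∀ R : Subgroup F, R ≤ C → R ≠ ⊥ → N ≤ R := by
    intro R hRC hR1
    have h1 : H ≤ R := by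
      apply hmin R hR1
      rw [hHeq]
      apply Cfsg.Agent.Lib.Helper9.le_normalizer_of_forall_commute
      intro n hn r hr
      exact Subgroup.mem_centralizer_iff.1 (hRC hr) n hn
    rwa [hHeq] at h1
  have hCcard : ∃ k : ℕ, 1 ≤ k ∧ Nat.card C = Nat.card N ^ k := by
    have hpos : Nat.card C ≠ 0 := Nat.card_pos.ne'
    have huniq : ∀ {d : ℕ}, d.Prime → d ∣ Nat.card C → d = Nat.card N := by
      intro d hd hdvd
      have : Fact d.Prime := ⟨hd⟩
      obtain ⟨c, hc⟩ := exists_prime_orderOf_dvd_card' d hdvd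
      have h1 : Subgroup.zpowers (c : F) ≤ C := by rw [Subgroup.zpowers_le]; exact c.2
      have hco : orderOf (c : F) = d := by rw [Subgroup.orderOf_coe]; exact hc
      have h2 : Subgroup.zpowers (c : F) ≠ ⊥ := by
        intro h0
        have hc1 : (c : F) = 1 := by
          have := Subgroup.mem_zpowers (c : F)
          rw [h0] at this
          exact Subgroup.mem_bot.1 this
        rw [hc1, orderOf_one] at hco
        exact hd.one_lt.ne hco
      have h3 := Subgroup.card_dvd_of_le (hCsub _ h1 h2)
      rw [Nat.card_zpowers, hco] at h3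
      exact ((Nat.prime_dvd_prime_iff_eq hp hd).1 h3).symm
    have hk := Nat.eq_prime_pow_of_unique_prime_dvd hpos huniq
    refine ⟨_, ?_, hk⟩
    by_contra hk0
    have hk0' : (Nat.card C).primeFactorsList.length = 0 := by omega
    rw [hk0', pow_zero] at hk
    have h4 := Subgroup.card_dvd_of_le hNC
    rw [hk] at h4
    exact hp.one_lt.ne' (Nat.dvd_one.1 h4)
  obtain ⟨k, hk1, hCk⟩ := hCcard
  have hCp : IsPGroup (Nat.card N) C := IsPGroup.of_card hCk
  have huniq : ∀ A B : Subgroup ↥C, Nat.card A = Nat.card N → Nat.card B = Nat.card N → A = B := by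
    have key : ∀ A : Subgroup ↥C, Nat.card A = Nat.card N → A.map C.subtype = N := by
      intro A hA
      have hcardA : Nat.card (A.map C.subtype) = Nat.card N := by
        rw [Subgroup.card_map_of_injective C.subtype_injective, hA]
      have hA1 : A.map C.subtype ≠ ⊥ := by
        intro h0
        rw [h0, Subgroup.card_bot] at hcardA
        exact hp.one_lt.ne hcardA
      have hle := hCsub _ (Subgroup.map_subtype_le A) hA1
      exact (Subgroup.eq_of_le_of_card_ge hle (by rw [hcardA])).symm
    intro A B hA hB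
    apply Subgroup.map_injective C.subtype_injective
    rw [key A hA, key B hB]
  have hS := Cfsg.Agent.S0016.result (Nat.card N) hCp huniq
  let φ : F →* MulAut ↥N := MulAut.conjNormal
  have hker : φ.ker = C := by
    ext g
    rw [MonoidHom.mem_ker, Subgroup.mem_centralizer_iff]
    constructor
    · intro h n hn
      have h1 := congrArg (fun f : MulAut ↥N => ((f ⟨n, hn⟩ : ↥N) : F)) h
      simp only [φ, MulAut.conjNormal_apply, MulAut.one_apply] at h1
      calc n * g = (g * n * g⁻¹) * g := by rw [h1]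
        _ = g * n := by group
    · intro h
      ext n
      rw [MulAut.conjNormal_apply, MulAut.one_apply]
      have h1 := h n n.2
      calc g * (n : F) * g⁻¹ = (g * n) * g⁻¹ := by group
        _ = (n * g) * g⁻¹ := by rw [h1]
        _ = n := by group
  have hNcyc : IsCyclic ↥N := isCyclic_of_prime_card rfl
  have hAutCyc : IsCyclic (MulAut ↥N) :=
    (MulEquiv.isCyclic (IsCyclic.mulAutMulEquiv ↥N)).2 inferInstance
  have hAutCard : Nat.card (MulAut ↥N) = Nat.card N - 1 := by
    rw [IsCyclic.card_mulAut, Nat.totient_prime hp]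
  have hidx : C.index ∣ Nat.card N - 1 := by
    rw [← hker, Subgroup.index_ker, ← hAutCard]
    exact Subgroup.card_subgroup_dvd_card _
  have hgen : ∃ g : F, C ⊔ Subgroup.zpowers g = ⊤ := by
    have hrc : IsCyclic φ.range := inferInstance
    obtain ⟨γ, hγ⟩ := hrc.exists_generator
    obtain ⟨g, hg⟩ := γ.2
    refine ⟨g, ?_⟩
    rw [eq_top_iff]
    intro f _
    obtain ⟨m, hm⟩ := Subgroup.mem_zpowers_iff.1 (hγ ⟨φ f, f, rfl⟩)
    have h1 : φ (g ^ m) = φ f := by
      rw [map_zpow, hg]
      have := congrArg Subtype.val hm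
      simpa using this
    have h2 : f * (g ^ m)⁻¹ ∈ C := by
      rw [← hker, MonoidHom.mem_ker, map_mul, map_inv, h1, mul_inv_cancel]
    have e : f = (f * (g ^ m)⁻¹) * g ^ m := by group
    rw [e]
    exact Subgroup.mul_mem_sup h2 (Subgroup.zpow_mem_zpowers g m)
  by_cases hCc : IsCyclic ↥C
  · left
    exact ⟨hHeq, hp, hCc, ⟨k, hk1, hCk⟩, hgen, hidx⟩
  · right
    rcases hS with h | ⟨hp2, n, ⟨e⟩⟩
    · exact absurd h hCc
    · have hn1 : 1 ≤ n := by
        by_contra hn
        have hn0 : n = 0 := by omega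
        subst hn0
        have e' : ↥C ≃* QuaternionGroup 1 := e
        exact hCc ((MulEquiv.isCyclic e').2 QuaternionGroup.quaternionGroup_one_isCyclic)
      have hCtop : C = ⊤ := by
        have h1 : C.index ∣ 1 := by
          rw [hp2] at hidx
          exact hidx
        exact Subgroup.index_eq_one.1 (Nat.dvd_one.1 h1)
      refine ⟨hHeq, hp2, hCtop, n, hn1, ⟨?_⟩⟩
      exact ((Subgroup.topEquiv).symm.trans (MulEquiv.subgroupCongr hCtop.symm)).trans e

end Cfsg.Agent.S3025
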