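import Cfsg.Statements.S3027
import Cfsg.Agent.Lib.Helper16.Residual

set_option autoImplicit false
open Cfsg

namespace Cfsg.Agent.S3027

section aux

variable {G : Type*} [Group G] {Q : Type*} [Group Q]

theorem inf_supp (π : G →* Q) (hperf : ⁅(⊤ : Subgroup Q), (⊤ : Subgroup Q)⁆ = ⊤)
    {A B : Subgroup G} (hAB : A ≤ Subgroup.normalizer (B : Set G))
    (hBA : B ≤ Subgroup.normalizer (A : Set G)) (hA : A.map π = ⊤) (hB : B.map π = ⊤) :
    (A ⊓ B).map π = ⊤ := by
  have h1 : ⁅A, B⁆ ≤ A ⊓ B := by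
    rw [Subgroup.commutator_le]
    intro a ha b hb
    refine Subgroup.mem_inf.2 ⟨?_, ?_⟩
    · rw [commutatorElement_def]
      have h2 : b * a⁻¹ * b⁻¹ ∈ A := (Subgroup.mem_normalizer_iff.1 (hBA hb) a⁻¹).1 (inv_mem ha)
      have e : a * b * a⁻¹ * b⁻¹ = a * (b * a⁻¹ * b⁻¹) := by group
      rw [e]; exact mul_mem ha h2
    · rw [commutatorElement_def]
      have h2 : a * b * a⁻¹ ∈ B := (Subgroup.mem_normalizer_iff.1 (hAB ha) b).1 hb
      exact mul_mem h2 (inv_mem hb)
  rw [eq_top_iff, ← hperf]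
  have h2 : ⁅(⊤ : Subgroup Q), (⊤ : Subgroup Q)⁆ = (⁅A, B⁆).map π := by
    rw [Subgroup.map_commutator, hA, hB]
  rw [h2]
  exact Subgroup.map_mono h1

theorem inf_supp_subnormal (π : G →* Q) (hperf : ⁅(⊤ : Subgroup Q), (⊤ : Subgroup Q)⁆ = ⊤)
    {H : Subgroup G} (hH : H.IsSubnormal) :
    ∀ {K : Subgroup G}, K.IsSubnormal → H.map π = ⊤ → K.map π = ⊤ → (H ⊓ K).map π = ⊤ := by
  induction hH with
  | top =>
    intro K _ _ hK
    rw [top_inf_eq]; exact hK
  | step H H₁ hle hH₁ hN ih =>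
    intro K hK
    induction hK with
    | top =>
      intro hHs _
      rw [inf_top_eq]; exact hHs
    | step K K₁ hle' hK₁ hN' ih' =>
      intro hHs hKs
      have hH₁s : H₁.map π = ⊤ := by
        rw [eq_top_iff, ← hHs]; exact Subgroup.map_mono hle
      have hK₁s : K₁.map π = ⊤ := by
        rw [eq_top_iff, ← hKs]; exact Subgroup.map_mono hle'
      have ha : (H ⊓ K₁).map π = ⊤ := ih' hHs hK₁s
      have hb : (H₁ ⊓ K).map π = ⊤ := ih (Subgroup.IsSubnormal.step K K₁ hle' hK₁ hN') hH₁s hKs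
      have hNH : H₁ ≤ Subgroup.normalizer (H : Set G) :=
        (Subgroup.normal_subgroupOf_iff_le_normalizer hle).1 hN
      have hNK : K₁ ≤ Subgroup.normalizer (K : Set G) :=
        (Subgroup.normal_subgroupOf_iff_le_normalizer hle').1 hN'
      have hab : H ⊓ K₁ ≤ Subgroup.normalizer ((H₁ ⊓ K : Subgroup G) : Set G) :=
        (le_inf (inf_le_left.trans (hle.trans Subgroup.le_normalizer))
          (inf_le_right.trans hNK)).trans Subgroup.inf_normalizer_le_normalizer_inf
      have hba : H₁ ⊓ K ≤ Subgroup.normalizer ((H ⊓ K₁ : Subgroup G) : Set G) :=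
        (le_inf (inf_le_left.trans hNH)
          (inf_le_right.trans (hle'.trans Subgroup.le_normalizer))).trans
          Subgroup.inf_normalizer_le_normalizer_inf
      have key := inf_supp π hperf hab hba ha hb
      have e : H ⊓ K₁ ⊓ (H₁ ⊓ K) = H ⊓ K := by
        apply le_antisymm
        · exact le_inf (inf_le_left.trans inf_le_left) (inf_le_right.trans inf_le_right)
        · exact le_inf (le_inf inf_le_left (inf_le_right.trans hle'))
            (le_inf (inf_le_left.trans hle) inf_le_right)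
      rw [e] at key
      exact key

end aux

/-- Let G be a finite group and D a normal subgroup of G such that G/D is perfect (that is, G = G′D). Then among the subnormal subgroups B of G with BD = G there is a least one, and it is normal in G. -/
theorem result {G : Type*} [Group G] [Finite G] (D : Subgroup G) [D.Normal] (hperf : ⁅(⊤ : Subgroup G), (⊤ : Subgroup G)⁆ ⊔ D = ⊤) :
    ∃ B : Subgroup G, B.Normal ∧ B ⊔ D = ⊤ ∧ ∀ B' : Subgroup G, B'.IsSubnormal → B' ⊔ D = ⊤ → B ≤ B' := by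
  classical
  have hπs : Function.Surjective (QuotientGroup.mk' D) := QuotientGroup.mk'_surjective D
  have hiff : ∀ X : Subgroup G, X.map (QuotientGroup.mk' D) = ⊤ ↔ X ⊔ D = ⊤ := by
    intro X
    constructor
    · intro h
      have h1 := Subgroup.comap_map_eq (QuotientGroup.mk' D) X
      rw [h, Subgroup.comap_top, QuotientGroup.ker_mk'] at h1
      exact h1.symm
    · intro h
      have h1 : (X ⊔ D).map (QuotientGroup.mk' D) = ⊤ := by
        rw [h]; exact Subgroup.map_top_of_surjective _ hπs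
      rw [Subgroup.map_sup, QuotientGroup.map_mk'_self, sup_bot_eq] at h1
      exact h1
  have hperfQ : ⁅(⊤ : Subgroup (G ⧸ D)), (⊤ : Subgroup (G ⧸ D))⁆ = ⊤ := by
    have h1 := (hiff _).2 hperf
    rw [Subgroup.map_commutator, Subgroup.map_top_of_surjective _ hπs] at h1
    exact h1
  haveI : Nonempty {B : Subgroup G // B.IsSubnormal ∧ B.map (QuotientGroup.mk' D) = ⊤} :=
    ⟨⟨⊤, Subgroup.IsSubnormal.top, Subgroup.map_top_of_surjective _ hπs⟩⟩
  obtain ⟨⟨B, hBs, hBm⟩, hmin⟩ := Finite.exists_min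
    (fun B : {B : Subgroup G // B.IsSubnormal ∧ B.map (QuotientGroup.mk' D) = ⊤} =>
      Nat.card (B.1))
  have hle : ∀ B' : Subgroup G, B'.IsSubnormal → B'.map (QuotientGroup.mk' D) = ⊤ → B ≤ B' := by
    intro B' hB's hB'm
    have h1 := inf_supp_subnormal (QuotientGroup.mk' D) hperfQ hBs hB's hBm hB'm
    have h2 := hmin ⟨B ⊓ B', hBs.inf hB's, h1⟩
    have h3 : B ⊓ B' = B := Subgroup.eq_of_le_of_card_ge inf_le_left h2
    rw [← h3]; exact inf_le_right
  refine ⟨B, ⟨fun n hn g => ?_⟩, (hiff B).1 hBm, fun B' hB's hB'D => hle B' hB's ((hiff B').2 hB'D)⟩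
  have h1 : (B.map (MulAut.conj g⁻¹).toMonoidHom).IsSubnormal :=
    hBs.map (MulAut.conj g⁻¹).surjective
  have h2 : (B.map (MulAut.conj g⁻¹).toMonoidHom).map (QuotientGroup.mk' D) = ⊤ := by
    rw [Cfsg.Agent.Lib.Helper16.Residual.map_conj, hBm]
    exact Subgroup.map_top_of_surjective _ (MulAut.conj _).surjective
  have h3 := hle _ h1 h2 hn
  rw [Cfsg.Agent.Lib.Helper16.Basic.mem_conj] at h3
  simpa using h3

end Cfsg.Agent.S3027
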