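import Cfsg.Statements.S3058
import Cfsg.Agent.S3056
import Cfsg.Agent.Lib.Helper17.Syl2
import Cfsg.Agent.Lib.Helper16.Generation

set_option autoImplicit false
open Cfsg

namespace Cfsg.Agent.S3058

/-- Let p be a prime and G a finite group whose Sylow p-subgroups are not chain-connected through nontrivial intersections (so G has a strongly p-embedded subgroup). If N and M are normal subgroups of G whose orders are both divisible by p, then the order of N ∩ M is divisible by p. Consequently, among the normal subgroups of G whose order is divisible by p there is a smallest one (the intersection of all of them). -/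
theorem result {G : Type*} [Group G] [Finite G]
    (p : ℕ) [Fact p.Prime] (hG : ¬ Cfsg.IsSylowChainConnected p G)
    (N M : Subgroup G) [N.Normal] [M.Normal] (hN : p ∣ Nat.card N) (hM : p ∣ Nat.card M) :
    p ∣ Nat.card ↥(N ⊓ M) := by
  classical
  obtain ⟨H, hH, hpH, hse⟩ := (Cfsg.Agent.S3056.result p).1 hG
  have hNP := Cfsg.Agent.Lib.Helper16.StronglyEmbedded.normProp_of_classical hse
  obtain ⟨S0⟩ : Nonempty (Sylow p H) := inferInstance
  obtain ⟨P, hP⟩ := Cfsg.Agent.Lib.Helper16.StronglyEmbedded.sylow_of_normProp hNP hpH S0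
  have hPH : (P : Subgroup G) ≤ H := by rw [hP]; exact Subgroup.map_subtype_le _
  by_contra hnd
  have hp : p.Prime := Fact.out
  have hK : (Nat.card ↥(N ⊓ M)).Coprime p := ((Nat.Prime.coprime_iff_not_dvd hp).2 hnd).symm
  have hAne := Cfsg.Agent.Lib.Helper17.Syl2.sylow_inf_normal_ne_bot P N hN
  have hBne := Cfsg.Agent.Lib.Helper17.Syl2.sylow_inf_normal_ne_bot P M hM
  have hAp : IsPGroup p ↥((P : Subgroup G) ⊓ N) := P.isPGroup'.to_le inf_le_left
  have hBp : IsPGroup p ↥((P : Subgroup G) ⊓ M) := P.isPGroup'.to_le inf_le_left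
  obtain ⟨a, haA, hao⟩ :=
    Cfsg.Agent.Lib.Helper16.StronglyEmbedded.exists_orderOf_eq_of_ne_bot hAp hAne
  obtain ⟨b, hbB, hbo⟩ :=
    Cfsg.Agent.Lib.Helper16.StronglyEmbedded.exists_orderOf_eq_of_ne_bot hBp hBne
  obtain ⟨haP, haN⟩ := Subgroup.mem_inf.1 haA
  obtain ⟨hbP, hbM⟩ := Subgroup.mem_inf.1 hbB
  have hKn : (N ⊓ M).Normal := inferInstance
  have htriv : ∀ x ∈ (P : Subgroup G), x ∈ N → x ∈ M → x = 1 := by
    intro x hxP hxN hxM
    obtain ⟨k, hk⟩ := Cfsg.Agent.Lib.Helper16.Basic.exists_pow_eq_one_of_mem P.isPGroup' hxP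
    have h1 : orderOf x ∣ Nat.card ↥(N ⊓ M) :=
      Subgroup.orderOf_dvd_natCard _ (Subgroup.mem_inf.2 ⟨hxN, hxM⟩)
    exact Cfsg.Agent.Lib.Helper16.Basic.eq_one_of_pow_eq_one_of_coprime
      (orderOf_dvd_iff_pow_eq_one.1 h1) hk (Nat.Coprime.pow_right k hK)
  have hcommNM : ∀ x ∈ N, ∀ y ∈ M, x * y * x⁻¹ * y⁻¹ ∈ N ⊓ M := by
    intro x hx y hy
    refine Subgroup.mem_inf.2 ⟨?_, ?_⟩
    · have h1 : y * x⁻¹ * y⁻¹ ∈ N := Subgroup.Normal.conj_mem inferInstance _ (inv_mem hx) y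
      have e : x * y * x⁻¹ * y⁻¹ = x * (y * x⁻¹ * y⁻¹) := by group
      rw [e]; exact mul_mem hx h1
    · have h1 : x * y * x⁻¹ ∈ M := Subgroup.Normal.conj_mem inferInstance _ hy x
      exact mul_mem h1 (inv_mem hy)
  have hab : a * b = b * a := by
    have h1 : a * b * a⁻¹ * b⁻¹ = 1 := by
      have h2 := Subgroup.mem_inf.1 (hcommNM a haN b hbM)
      exact htriv _ (mul_mem (mul_mem (mul_mem haP hbP) (inv_mem haP)) (inv_mem hbP)) h2.1 h2.2
    have : a * b * a⁻¹ * b⁻¹ * (b * a) = b * a := by rw [h1, one_mul]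
    rw [← this]; group
  have hazb : a ∉ Subgroup.zpowers b := by
    intro h
    have h1 : a ∈ M := (Subgroup.zpowers_le.2 hbM) h
    have h2 := htriv a haP haN h1
    rw [h2, orderOf_one] at hao
    exact hp.one_lt.ne hao
  have hKH : N ⊓ M ≤ H := by
    refine Cfsg.Agent.Lib.Helper16.Generation.gen_by_centralizers (N ⊓ M) hK a b
      (by rw [Subgroup.normalizer_eq_top]; exact Subgroup.mem_top a)
      (by rw [Subgroup.normalizer_eq_top]; exact Subgroup.mem_top b) hab
      (by rw [← hao]; exact pow_orderOf_eq_one a) hbo hazb H ?_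
    rintro c hc1 ⟨i, j, rfl⟩
    have hcP : a ^ i * b ^ j ∈ (P : Subgroup G) := mul_mem (pow_mem haP i) (pow_mem hbP j)
    have hzp : IsPGroup p ↥(Subgroup.zpowers (a ^ i * b ^ j)) :=
      P.isPGroup'.to_le (Subgroup.zpowers_le.2 hcP)
    have hzne : Subgroup.zpowers (a ^ i * b ^ j) ≠ ⊥ := by
      rw [Ne, Subgroup.zpowers_eq_bot]; exact hc1
    have h1 := hNP _ (Subgroup.zpowers_le.2 (hPH hcP)) hzp hzne
    exact inf_le_right.trans
      ((Cfsg.Agent.Lib.Helper17.Syl2.centralizer_singleton_le_normalizer_zpowers _).trans h1)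
  have hNH : N ≤ H := by
    intro n hn
    have hBK : ¬ p ∣ ((P : Subgroup G) ⊓ M).relIndex (((P : Subgroup G) ⊓ M) ⊔ (N ⊓ M)) := by
      rw [Cfsg.Agent.Lib.Helper17.Syl2.relIndex_sup_eq]
      intro h
      exact hnd (h.trans (Subgroup.relIndex_dvd_card _ _))
    have hconj : ((P : Subgroup G) ⊓ M).map (MulAut.conj n).toMonoidHom ≤
        ((P : Subgroup G) ⊓ M) ⊔ (N ⊓ M) := by
      rintro _ ⟨x, hx, rfl⟩
      have hxM : x ∈ M := (Subgroup.mem_inf.1 hx).2
      have h1 := hcommNM n hn x hxM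
      have e : (MulAut.conj n).toMonoidHom x = (n * x * n⁻¹ * x⁻¹) * x := by
        simp [MulAut.conj_apply]
      rw [e]
      exact mul_mem ((le_sup_right : N ⊓ M ≤ _) h1) ((le_sup_left : (P : Subgroup G) ⊓ M ≤ _) hx)
    obtain ⟨c, hc, hcT⟩ := Cfsg.Agent.Lib.Helper12.SylowBasic.exists_conj_le_of_relIndex
      ((P : Subgroup G) ⊓ M) (((P : Subgroup G) ⊓ M) ⊔ (N ⊓ M)) le_sup_left hBp hBK _ hconj
      (hBp.map _)
    have hcn : c * n ∈ Subgroup.normalizer ((((P : Subgroup G) ⊓ M : Subgroup G)) : Set G) := by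
      apply Cfsg.Agent.Lib.Helper17.Syl.mem_normalizer_of_conj_mem
      intro r hr
      have h1 := hcT (n * r * n⁻¹) ⟨r, hr, by simp [MulAut.conj_apply]⟩
      have e : c * n * r * (c * n)⁻¹ = c * (n * r * n⁻¹) * c⁻¹ := by group
      rw [e]; exact h1
    have h1 : c * n ∈ H := hNP _ (inf_le_left.trans hPH) hBp hBne hcn
    have h2 : c ∈ H := (sup_le (inf_le_left.trans hPH) hKH) hc
    have e : n = c⁻¹ * (c * n) := by group
    rw [e]; exact mul_mem (inv_mem h2) h1
  apply hH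
  rw [eq_top_iff]
  intro g _
  have hidxA : ¬ p ∣ ((P : Subgroup G) ⊓ N).relIndex N := by
    rw [Subgroup.inf_relIndex_right]
    exact Cfsg.Agent.Lib.Helper17.Syl.sylow_relIndex_normal P N
  obtain ⟨c, hc, hcg⟩ := Cfsg.Agent.Lib.Helper17.Syl.frattini_relIndex
    (inf_le_right : (P : Subgroup G) ⊓ N ≤ N) hAp hidxA (n := g)
    (by rw [Subgroup.normalizer_eq_top]; exact Subgroup.mem_top g)
  have e : g = c⁻¹ * (c * g) := by group
  rw [e]
  exact mul_mem (inv_mem (hNH hc)) (hNP _ (inf_le_left.trans hPH) hAp hAne hcg)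

end Cfsg.Agent.S3058
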