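import Cfsg.Statements.S3059
import Cfsg.Agent.Lib.Helper17.Syl
import Cfsg.Agent.Lib.Helper16.StronglyEmbedded
import Cfsg.Agent.Lib.Helper16.Residual

set_option autoImplicit false
open Cfsg

namespace Cfsg.Agent.S3059

/-- Let p be a prime and H a strongly p-embedded subgroup of the finite group G in the classical sense: H is proper, p divides the order of H, and H ∩ gHg⁻¹ has order prime to p for every g outside H. Then for every normal subgroup N of G of order divisible by p, G = H · O^p(N), where O^p(N) is the subgroup generated by the elements of N of order prime to p. -/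
theorem result {G : Type*} [Group G] [Finite G]
    (p : ℕ) [Fact p.Prime] (H : Subgroup G) (hH : H ≠ ⊤) (hpH : p ∣ Nat.card H)
    (hse : ∀ g : G, g ∉ H → ¬ p ∣ Nat.card ↥(H ⊓ H.map (MulAut.conj g).toMonoidHom))
    (N : Subgroup G) [N.Normal] (hN : p ∣ Nat.card N) :
    H ⊔ Subgroup.closure {g : G | g ∈ N ∧ (orderOf g).Coprime p} = ⊤ := by
  classical
  have hNP := Cfsg.Agent.Lib.Helper16.StronglyEmbedded.normProp_of_classical hse
  obtain ⟨S⟩ : Nonempty (Sylow p H) := inferInstance
  obtain ⟨P, hP⟩ := Cfsg.Agent.Lib.Helper16.StronglyEmbedded.sylow_of_normProp hNP hpH S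
  have hPH : (P : Subgroup G) ≤ H := by rw [hP]; exact Subgroup.map_subtype_le _
  have hTp : IsPGroup p ↥((P : Subgroup G) ⊓ N) := P.isPGroup'.to_le inf_le_left
  have hidx : ¬ p ∣ ((P : Subgroup G) ⊓ N).relIndex N := by
    rw [Subgroup.inf_relIndex_right]
    exact Cfsg.Agent.Lib.Helper17.Syl.sylow_relIndex_normal P N
  have hTne : (P : Subgroup G) ⊓ N ≠ ⊥ := by
    intro h0
    have h1 := Cfsg.Agent.Lib.Helper17.Syl.relIndex_mul_card_inf ((P : Subgroup G) ⊓ N) N
    rw [h0] at h1 hidx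
    rw [bot_inf_eq, Subgroup.card_bot, mul_one] at h1
    rw [h1] at hidx
    exact hidx hN
  have hNT : Subgroup.normalizer (((P : Subgroup G) ⊓ N : Subgroup G) : Set G) ≤ H :=
    hNP _ (inf_le_left.trans hPH) hTp hTne
  have hO : Subgroup.closure {g : G | g ∈ N ∧ (orderOf g).Coprime p} =
      (Cfsg.pResidual p N).map N.subtype :=
    (Cfsg.Agent.Lib.Helper16.Residual.pResidualOf_eq_closure N).symm
  have hTp' : IsPGroup p ↥(((P : Subgroup G) ⊓ N).subgroupOf N) := hTp.comap_subtype
  have h2 := Cfsg.Agent.Lib.Helper16.Residual.sylow_sup_pResidual_eq_top (hTp'.toSylow hidx)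
  have hNle : N ≤ H ⊔ Subgroup.closure {g : G | g ∈ N ∧ (orderOf g).Coprime p} := by
    rw [hO]
    intro n hn
    have h3 : (⟨n, hn⟩ : N) ∈ ((hTp'.toSylow hidx : Sylow p N) : Subgroup N) ⊔
        Cfsg.pResidual p N := by rw [h2]; exact Subgroup.mem_top _
    have h4 : N.subtype ⟨n, hn⟩ ∈ (((hTp'.toSylow hidx : Sylow p N) : Subgroup N) ⊔
        Cfsg.pResidual p N).map N.subtype := Subgroup.mem_map_of_mem _ h3
    rw [Subgroup.map_sup] at h4
    have h5 : (((hTp'.toSylow hidx : Sylow p N) : Subgroup N)).map N.subtype ≤ H := by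
      rintro _ ⟨x, hx, rfl⟩
      have hx' : (x : G) ∈ (P : Subgroup G) ⊓ N := hx
      exact hPH (Subgroup.mem_inf.1 hx').1
    exact (sup_le_sup_right h5 _) h4
  rw [eq_top_iff]
  intro g _
  obtain ⟨c, hc, hcg⟩ := Cfsg.Agent.Lib.Helper17.Syl.frattini_relIndex
    (inf_le_right : (P : Subgroup G) ⊓ N ≤ N) hTp hidx (n := g)
    (by rw [Subgroup.normalizer_eq_top]; exact Subgroup.mem_top g)
  have e : g = c⁻¹ * (c * g) := by group
  rw [e]
  exact mul_mem (inv_mem (hNle hc)) ((le_sup_left : H ≤ _) (hNT hcg))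

end Cfsg.Agent.S3059
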