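import Cfsg.Statements.S3062
import Cfsg.Agent.Lib.Helper17.DStar2

set_option autoImplicit false
open Cfsg

namespace Cfsg.Agent.S3062

/-- Let S be a finite p-group, J(S) the subgroup generated by the abelian subgroups of S of largest order and Z(J(S)) its centre. Then Z(S) ≤ D*(S) ≤ Z(J(S)), and every maximal normal abelian subgroup of S contains D*(S). -/
theorem result {S : Type*} [Group S] [Finite S] {p : ℕ} [Fact p.Prime]
    (hS : IsPGroup p S) :
    Subgroup.center S ≤ Cfsg.dStar S ∧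
    Cfsg.dStar S ≤ Cfsg.thompsonSubgroupA S ⊓ Subgroup.centralizer (Cfsg.thompsonSubgroupA S : Set S) ∧
    ∀ A : Subgroup S, A.Normal → IsMulCommutative A →
      (∀ B : Subgroup S, B.Normal → IsMulCommutative B → A ≤ B → B = A) → Cfsg.dStar S ≤ A := by
  refine ⟨?_, ?_, ?_⟩
  · apply Cfsg.Agent.Lib.Helper17.DStar.le_dStar
    refine ⟨(Cfsg.Agent.Lib.Helper17.CL2.isMulComm_iff _).2 (Subgroup.center_le_centralizer _), ?_⟩
    intro x _ a ha
    exact (Subgroup.mem_center_iff.1 ha x).symm
  · obtain ⟨A, hA⟩ := Cfsg.Agent.Lib.Helper17.CL2.exists_maxAb (G := S)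
    refine le_inf ((Cfsg.Agent.Lib.Helper17.DStar2.dStar_le_maxAb hS hA).trans (le_sSup hA)) ?_
    rw [Subgroup.le_centralizer_iff]
    apply sSup_le
    intro B hB
    exact ((Cfsg.Agent.Lib.Helper17.CL2.isMulComm_iff B).1 hB.1).trans
      (Subgroup.centralizer_le (SetLike.coe_subset_coe.2
        (Cfsg.Agent.Lib.Helper17.DStar2.dStar_le_maxAb hS hB)))
  · intro A hAn hAab hAmax
    have hDn := Cfsg.Agent.Lib.Helper17.DStar2.dStar_normal S
    have hDab := Cfsg.Agent.Lib.Helper17.DStar.dStar_isMulCommutative hS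
    have hDA : Cfsg.dStar S ≤ Subgroup.normalizer (A : Set S) := fun d _ =>
      Cfsg.Agent.Lib.Helper17.Syl.mem_normalizer_of_conj_mem (fun r hr => hAn.conj_mem r hr d)
    have hc := Cfsg.Agent.Lib.Helper17.DStar2.dStar_commute_of_le_normalizer hS hAab hDA
    have hDC : Cfsg.dStar S ≤ Subgroup.centralizer (A : Set S) := by
      intro d hd
      rw [Subgroup.mem_centralizer_iff]
      intro a ha
      exact (hc a ha d hd).symm
    have hab := Cfsg.Agent.Lib.Helper17.CL2.isMulComm_sup hDab hAab hDC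
    have hn : (Cfsg.dStar S ⊔ A).Normal := Subgroup.sup_normal _ _
    have h := hAmax (Cfsg.dStar S ⊔ A) hn hab le_sup_right
    rw [← h]; exact le_sup_left

end Cfsg.Agent.S3062
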