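import Cfsg.Statements.S3064
import Cfsg.Agent.S0035
import Cfsg.Agent.Lib.Helper12.SylowBasic
import Cfsg.Agent.Lib.Helper17.Syl2
import Cfsg.Agent.Lib.Helper9.Cores
import Cfsg.Agent.Lib.Lead.Cores

set_option autoImplicit false
open Cfsg

namespace Cfsg.Agent.S3064

section aux

open scoped Pointwise

theorem isPGroup_zpowers_of_pow {G : Type*} [Group G] {p : ℕ} [Fact p.Prime] {y : G} {k : ℕ}
    (h : y ^ p ^ k = 1) : IsPGroup p (Subgroup.zpowers y) := by
  obtain ⟨j, -, hj⟩ := (Nat.dvd_prime_pow (Fact.out : p.Prime)).1 (orderOf_dvd_of_pow_eq_one h)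
  exact IsPGroup.of_card (n := j) (by rw [Nat.card_zpowers, hj])

/-- any `p`-subgroup containing `x` and a conjugate of `x`: the conjugate equals `x`. -/
theorem conj_eq_of_mem_pgroup {G : Type*} [Group G] [Finite G] {p : ℕ} [Fact p.Prime]
    (S : Sylow p G) (x : G)
    (hU : ∀ g : G, g⁻¹ * x * g ∈ S → g⁻¹ * x * g = x)
    (A : Subgroup G) (hA : IsPGroup p A) (hxA : x ∈ A) (g : G) (hy : g * x * g⁻¹ ∈ A) :
    g * x * g⁻¹ = x := by
  obtain ⟨t, ht⟩ := Cfsg.Agent.Lib.Helper12.SylowBasic.exists_conj_le_sylow S A hA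
  have h1 : t * x * t⁻¹ ∈ S := ht x hxA
  have h1' : t * x * t⁻¹ = x := by
    have e : t * x * t⁻¹ = t⁻¹⁻¹ * x * t⁻¹ := by group
    rw [e] at h1 ⊢
    exact hU _ h1
  have h2 : t * (g * x * g⁻¹) * t⁻¹ ∈ S := ht _ hy
  have h2' : t * (g * x * g⁻¹) * t⁻¹ = x := by
    have e : t * (g * x * g⁻¹) * t⁻¹ = ((t * g)⁻¹)⁻¹ * x * (t * g)⁻¹ := by group
    rw [e] at h2 ⊢
    exact hU _ h2
  calc g * x * g⁻¹ = t⁻¹ * (t * (g * x * g⁻¹) * t⁻¹) * t := by group
    _ = t⁻¹ * (t * x * t⁻¹) * t := by rw [h2', h1']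
    _ = x := by group

theorem central_aux.{u} {p : ℕ} [Fact p.Prime] :
    ∀ (n : ℕ) (G : Type u) [Group G] [Finite G], Nat.card G = n →
    ∀ (S : Sylow p G) (x : G), x ∈ S → (∀ g : G, g⁻¹ * x * g ∈ S → g⁻¹ * x * g = x) →
    (∀ H : Subgroup G, (Nat.card H).Coprime p → (∀ h ∈ H, x * h * x⁻¹ ∈ H) →
      ∀ h ∈ H, x * h = h * x) →
    ∀ g : G, g * x = x * g := by
  intro n
  induction n using Nat.strong_induction_on with
  | _ n ih =>
  intro G _ _ hn S x hx hU hb
  have hpp : p.Prime := Fact.out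
  obtain ⟨kx, hkx⟩ : ∃ k : ℕ, x ^ p ^ k = 1 := by
    obtain ⟨k, hk⟩ := S.isPGroup' ⟨x, hx⟩
    refine ⟨k, ?_⟩
    have := congrArg Subtype.val hk
    simpa using this
  -- subgroups
  have hsub : ∀ H : Subgroup G, x ∈ H → H ≠ ⊤ → ∀ h ∈ H, h * x = x * h := by
    intro H hxH hHtop h hh
    have hlt : Nat.card H < n :=
      hn ▸ (Cfsg.Agent.Lib.Helper9.card_lt_of_lt_top (lt_top_iff_ne_top.2 hHtop))
    have hxp : IsPGroup p (Subgroup.zpowers (⟨x, hxH⟩ : ↥H)) := by
      apply isPGroup_zpowers_of_pow (k := kx)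
      apply Subtype.ext
      simpa using hkx
    obtain ⟨SH, hSH⟩ := hxp.exists_le_sylow
    have hx' : (⟨x, hxH⟩ : ↥H) ∈ SH := hSH (Subgroup.mem_zpowers _)
    have hSHp : IsPGroup p ((SH : Subgroup ↥H).map H.subtype) := SH.isPGroup'.map _
    have hU' : ∀ k : ↥H, k⁻¹ * ⟨x, hxH⟩ * k ∈ SH → k⁻¹ * ⟨x, hxH⟩ * k = ⟨x, hxH⟩ := by
      intro k hk
      have h1 := conj_eq_of_mem_pgroup S x hU _ hSHp (Subgroup.mem_map_of_mem H.subtype hx')
        (k : G)⁻¹ (by
          have := Subgroup.mem_map_of_mem H.subtype hk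
          simpa using this)
      apply Subtype.ext
      simpa using h1
    have hb' : ∀ H' : Subgroup ↥H, (Nat.card H').Coprime p →
        (∀ h ∈ H', (⟨x, hxH⟩ : ↥H) * h * (⟨x, hxH⟩ : ↥H)⁻¹ ∈ H') →
        ∀ h ∈ H', (⟨x, hxH⟩ : ↥H) * h = h * ⟨x, hxH⟩ := by
      intro H' hcop hinv h hh
      have h1 := hb (H'.map H.subtype)
        (by rw [Subgroup.card_map_of_injective H.subtype_injective]; exact hcop)
        (by
          rintro _ ⟨y, hy, rfl⟩
          exact ⟨_, hinv y hy, by simp⟩)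
        (h : G) (Subgroup.mem_map_of_mem H.subtype hh)
      exact Subtype.ext h1
    have := ih _ hlt ↥H rfl SH ⟨x, hxH⟩ hx' hU' hb' ⟨h, hh⟩
    exact congrArg Subtype.val this
  by_contra hcon
  push Not at hcon
  obtain ⟨M, hM⟩ : ∃ M : Subgroup G, M = Subgroup.centralizer ({x} : Set G) := ⟨_, rfl⟩
  have hMmem : ∀ g : G, g ∈ M ↔ g * x = x * g := by
    intro g
    rw [hM, Subgroup.mem_centralizer_iff]
    constructor
    · intro h; exact (h x rfl).symm
    · intro h y hy
      rw [Set.mem_singleton_iff] at hy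
      rw [hy]; exact h.symm
  have hgen : ∀ g : G, g ∉ M → Subgroup.closure ({x, g * x * g⁻¹} : Set G) = ⊤ := by
    intro g hg
    by_contra hne
    have h1 := hsub _ (Subgroup.subset_closure (by simp)) hne (g * x * g⁻¹)
      (Subgroup.subset_closure (by simp))
    have hp1 : IsPGroup p (Subgroup.zpowers x) := isPGroup_zpowers_of_pow hkx
    have hp2 : IsPGroup p (Subgroup.zpowers (g * x * g⁻¹)) := by
      apply isPGroup_zpowers_of_pow (k := kx)
      rw [conj_pow, hkx]; group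
    have hA : IsPGroup p (Subgroup.zpowers x ⊔ Subgroup.zpowers (g * x * g⁻¹) : Subgroup G) := by
      apply IsPGroup.to_sup_of_normal_right' hp1 hp2
      rw [Subgroup.zpowers_le]
      apply Cfsg.Agent.Lib.Helper17.Syl2.centralizer_singleton_le_normalizer_zpowers
      rw [Subgroup.mem_centralizer_iff]
      intro y hy
      rw [Set.mem_singleton_iff] at hy
      rw [hy]; exact h1
    have h2 := conj_eq_of_mem_pgroup S x hU _ hA
      (Subgroup.mem_sup_left (Subgroup.mem_zpowers x)) g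
      (Subgroup.mem_sup_right (Subgroup.mem_zpowers _))
    apply hg
    rw [hMmem]
    calc g * x = (g * x * g⁻¹) * g := by group
      _ = x * g := by rw [h2]
  have hZ : ∀ g : G, g ∉ M → ∀ m ∈ M, g⁻¹ * m * g ∈ M → m ∈ Subgroup.center G := by
    intro g hg m hm hm'
    have h1 : x ∈ Subgroup.centralizer ({m} : Set G) := by
      rw [Subgroup.mem_centralizer_iff]
      intro y hy
      rw [Set.mem_singleton_iff] at hy
      rw [hy]; exact (hMmem m).1 hm
    have h2 : g * x * g⁻¹ ∈ Subgroup.centralizer ({m} : Set G) := by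
      rw [Subgroup.mem_centralizer_iff]
      intro y hy
      rw [Set.mem_singleton_iff] at hy
      rw [hy]
      have h3 := (hMmem _).1 hm'
      calc m * (g * x * g⁻¹) = g * (g⁻¹ * m * g * x) * g⁻¹ := by group
        _ = g * (x * (g⁻¹ * m * g)) * g⁻¹ := by rw [h3]
        _ = g * x * g⁻¹ * m := by group
    have h3 : Subgroup.closure ({x, g * x * g⁻¹} : Set G) ≤ Subgroup.centralizer ({m} : Set G) := by
      rw [Subgroup.closure_le]
      rintro y (rfl | rfl)
      · exact h1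
      · exact h2
    rw [hgen g hg] at h3
    rw [Subgroup.mem_center_iff]
    intro t
    have := Subgroup.mem_centralizer_iff.1 (h3 (Subgroup.mem_top t)) m rfl
    exact this.symm
  have hZM : Subgroup.center G ≤ M := fun z hz =>
    (hMmem z).2 (Subgroup.mem_center_iff.1 hz x).symm
  have hxZ : x ∉ Subgroup.center G := by
    intro h
    obtain ⟨g, hg⟩ := hcon
    exact hg (Subgroup.mem_center_iff.1 h g)
  have hMtop : M ≠ ⊤ := by
    intro h
    obtain ⟨g, hg⟩ := hcon
    exact hg ((hMmem g).1 (h ▸ Subgroup.mem_top g))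
  have hSM : (S : Subgroup G) ≤ M := by
    intro s hs
    rw [hMmem]
    have h1 := hU s (S.mul_mem (S.mul_mem (S.inv_mem hs) hx) hs)
    calc s * x = s * (s⁻¹ * x * s) := by rw [h1]
      _ = x * s := by group
  obtain ⟨Mb, hMb⟩ : ∃ Mb : Subgroup (G ⧸ Subgroup.center G),
    Mb = M.map (QuotientGroup.mk' (Subgroup.center G)) := ⟨_, rfl⟩
  have hMbmem : ∀ g : G, QuotientGroup.mk' (Subgroup.center G) g ∈ Mb ↔ g ∈ M := by
    intro g
    constructor
    · intro hgm
      rw [hMb] at hgm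
      obtain ⟨m, hm, hmg⟩ := hgm
      have h1 : m⁻¹ * g ∈ Subgroup.center G := QuotientGroup.eq.1 hmg
      have e : g = m * (m⁻¹ * g) := by group
      rw [e]; exact M.mul_mem hm (hZM h1)
    · intro hg; rw [hMb]; exact Subgroup.mem_map_of_mem _ hg
  have hfrob : Cfsg.IsFrobeniusComplement Mb := by
    refine ⟨?_, ?_, ?_⟩
    · intro h
      have h1 : QuotientGroup.mk' (Subgroup.center G) x ∈ Mb := (hMbmem x).2 ((hMmem x).2 rfl)
      rw [h, Subgroup.mem_bot] at h1
      exact hxZ ((QuotientGroup.eq_one_iff x).1 h1)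
    · intro h
      apply hMtop
      rw [eq_top_iff]
      intro g _
      exact (hMbmem g).1 (h ▸ Subgroup.mem_top _)
    · intro gb hgb
      obtain ⟨g, rfl⟩ := QuotientGroup.mk'_surjective _ gb
      have hg : g ∉ M := fun h => hgb ((hMbmem g).2 h)
      rw [eq_bot_iff]
      intro ab hab
      have hab1 := (Subgroup.mem_inf.1 hab).1
      have hab2 := (Subgroup.mem_inf.1 hab).2
      obtain ⟨a, rfl⟩ := QuotientGroup.mk'_surjective _ ab
      have ha : a ∈ M := (hMbmem a).1 hab1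
      rw [Subgroup.mem_pointwise_smul_iff_inv_smul_mem] at hab2
      have e : (MulAut.conj (QuotientGroup.mk' (Subgroup.center G) g))⁻¹ •
          (QuotientGroup.mk' (Subgroup.center G) a) =
          QuotientGroup.mk' (Subgroup.center G) (g⁻¹ * a * g) := by
        simp [MulAut.smul_def]
      rw [e, hMbmem] at hab2
      have h1 := hZ g hg a ha hab2
      rw [Subgroup.mem_bot]
      exact (QuotientGroup.eq_one_iff a).2 h1
  obtain ⟨Kb, -, hKbn, hKbc⟩ := Cfsg.Agent.S0035.result Mb hfrob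
  have hKbcard : (Nat.card Kb).Coprime p := by
    have h1 : Mb.index = Nat.card Kb := hKbc.index_eq_card
    have h2 : Mb.index = M.index := by
      rw [hMb]
      exact Subgroup.index_map_eq (H := M) (f := QuotientGroup.mk' (Subgroup.center G))
        (QuotientGroup.mk'_surjective _) (by rw [QuotientGroup.ker_mk']; exact hZM)
    have h3 : M.index ∣ (S : Subgroup G).index := Subgroup.index_dvd_of_le hSM
    have h4 : ¬ p ∣ Nat.card Kb := by
      rw [← h1, h2]
      exact fun h => S.not_dvd_index (dvd_trans h h3)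
    exact ((Nat.Prime.coprime_iff_not_dvd hpp).2 h4).symm
  obtain ⟨K, hK⟩ : ∃ K : Subgroup G, K = Kb.comap (QuotientGroup.mk' (Subgroup.center G)) :=
    ⟨_, rfl⟩
  have hKmem : ∀ k : G, k ∈ K ↔ QuotientGroup.mk' (Subgroup.center G) k ∈ Kb := by
    intro k; rw [hK, Subgroup.mem_comap]
  have hKn : K.Normal := by rw [hK]; exact hKbn.comap _
  have hKM : K ≤ M := by
    obtain ⟨P⟩ : Nonempty (Sylow p ↥K) := inferInstance
    have hPc : ∀ y : ↥K, y ∈ P → (y : G) ∈ Subgroup.center G := by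
      intro y hy
      have h1 : QuotientGroup.mk' (Subgroup.center G) (y : G) ∈ Kb := (hKmem _).1 y.2
      obtain ⟨j, hj⟩ := P.isPGroup' ⟨y, hy⟩
      have hyj : (y : G) ^ p ^ j = 1 := by
        have := congrArg (fun t : ↥(P : Subgroup ↥K) => ((t : ↥K) : G)) hj
        simpa using this
      have h2 : (QuotientGroup.mk' (Subgroup.center G) (y : G)) ^ (p ^ j) = 1 := by
        rw [← map_pow, hyj, map_one]
      have h3 : orderOf (⟨_, h1⟩ : ↥Kb) ∣ p ^ j :=
        orderOf_dvd_of_pow_eq_one (Subtype.ext (by simpa using h2))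
      have h4 : orderOf (⟨_, h1⟩ : ↥Kb) ∣ Nat.card Kb := orderOf_dvd_natCard _
      have h5 : orderOf (⟨_, h1⟩ : ↥Kb) = 1 :=
        Nat.Coprime.eq_one_of_dvd (Nat.Coprime.pow_right j (hKbcard.coprime_dvd_left h4)) h3
      have h6 := orderOf_eq_one_iff.1 h5
      exact (QuotientGroup.eq_one_iff _).1 (congrArg Subtype.val h6)
    have hPn : Subgroup.normalizer ((P : Subgroup ↥K) : Set ↥K) ≤
        Subgroup.centralizer ((P : Subgroup ↥K) : Set ↥K) := by
      intro c _
      rw [Subgroup.mem_centralizer_iff]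
      intro y hy
      apply Subtype.ext
      exact (Subgroup.mem_center_iff.1 (hPc y hy) (c : G)).symm
    have hcompl := MonoidHom.ker_transferSylow_isComplement' P hPn
    obtain ⟨K0, hK0⟩ : ∃ K0 : Subgroup ↥K, K0 = (MonoidHom.transferSylow P hPn).ker := ⟨_, rfl⟩
    rw [← hK0] at hcompl
    have hK0idx : K0.index = Nat.card (P : Subgroup ↥K) := hcompl.symm.index_eq_card
    have hK0card : Nat.card K0 = (P : Subgroup ↥K).index := hcompl.index_eq_card.symm
    have hK0cop : (Nat.card K0).Coprime p := by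
      rw [hK0card]
      exact ((Nat.Prime.coprime_iff_not_dvd hpp).2 P.not_dvd_index).symm
    have hK0n : K0.Normal := by rw [hK0]; exact MonoidHom.normal_ker _
    have hK0O : K0 ≤ Cfsg.pPrimeCore p ↥K := Cfsg.Agent.Lib.Lead.Cores.le_pPrimeCore hK0n hK0cop
    obtain ⟨n', hn'⟩ := IsPGroup.iff_card.1 P.isPGroup'
    have hOx : ∀ o ∈ Cfsg.pPrimeCore p G, x * o = o * x := by
      apply hb _ (Cfsg.Agent.Lib.Helper9.pPrimeCore_coprime p G)
      intro h hh
      exact (Cfsg.Agent.Lib.Lead.Cores.pPrimeCore_normal p).conj_mem h hh x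
    intro k hk
    have h1 : (⟨k, hk⟩ : ↥K) ^ K0.index ∈ K0 := K0.pow_index_mem _
    rw [hK0idx, hn'] at h1
    have h2 : k ^ p ^ n' ∈ Cfsg.pPrimeCore p G := by
      have := Cfsg.Agent.Lib.Helper9.pPrimeCore_subtype_le p K
        (Subgroup.mem_map_of_mem K.subtype (hK0O h1))
      simpa using this
    have h3 : k ^ p ^ n' ∈ M := (hMmem _).2 (hOx _ h2).symm
    have h4 : k ^ Nat.card Kb ∈ M := by
      apply hZM
      rw [← QuotientGroup.eq_one_iff]
      have h5 : (⟨QuotientGroup.mk' (Subgroup.center G) k, (hKmem k).1 hk⟩ : ↥Kb) ^ Nat.card Kb = 1 :=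
        pow_card_eq_one'
      have h6 := congrArg Subtype.val h5
      simp only [Subgroup.coe_pow, Subgroup.coe_one] at h6
      rw [QuotientGroup.mk_pow]
      exact h6
    have hco : (Nat.card Kb).Coprime (p ^ n') := Nat.Coprime.pow_right n' hKbcard
    have hkz : k = (k ^ Nat.card Kb) ^ (Nat.gcdA (Nat.card Kb) (p ^ n')) *
        (k ^ p ^ n') ^ (Nat.gcdB (Nat.card Kb) (p ^ n')) := by
      have hg := Nat.gcd_eq_gcd_ab (Nat.card Kb) (p ^ n')
      have hg1 : Nat.gcd (Nat.card Kb) (p ^ n') = 1 := hco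
      rw [hg1] at hg
      rw [← zpow_natCast k (Nat.card Kb), ← zpow_natCast k (p ^ n'), ← zpow_mul, ← zpow_mul,
        ← zpow_add, ← hg]
      simp
    rw [hkz]
    exact M.mul_mem (M.zpow_mem h4 _) (M.zpow_mem h3 _)
  obtain ⟨g, hg⟩ := hcon
  apply hg
  obtain ⟨⟨kb, mb⟩, hkm⟩ := hKbc.2 (QuotientGroup.mk' (Subgroup.center G) g)
  obtain ⟨k, hk⟩ := QuotientGroup.mk'_surjective _ (kb : G ⧸ Subgroup.center G)
  obtain ⟨m, hm, hmb⟩ : ∃ m ∈ M, QuotientGroup.mk' (Subgroup.center G) m = (mb : G ⧸ Subgroup.center G) := by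
    obtain ⟨m, hm⟩ := QuotientGroup.mk'_surjective _ (mb : G ⧸ Subgroup.center G)
    refine ⟨m, (hMbmem m).1 ?_, hm⟩
    rw [hm]; exact mb.2
  have hkK : k ∈ K := by
    rw [hKmem, hk]; exact kb.2
  have h1 : QuotientGroup.mk' (Subgroup.center G) (k * m) =
      QuotientGroup.mk' (Subgroup.center G) g := by
    rw [map_mul, hk, hmb]; exact hkm
  have h2 : (k * m)⁻¹ * g ∈ Subgroup.center G := QuotientGroup.eq.1 h1
  have h3 : g ∈ M := by
    have e : g = k * m * ((k * m)⁻¹ * g) := by group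
    rw [e]
    exact M.mul_mem (M.mul_mem (hKM hkK) hm) (hZM h2)
  exact (hMmem g).1 h3

end aux

/-- Let S be a Sylow p-subgroup of the finite group G and x an element of S such that (i) x is the only G-conjugate of x lying in S, and (ii) x centralizes every subgroup of order prime to p that it normalizes. Then x lies in the centre of G. -/
theorem result {G : Type*} [Group G] [Finite G] {p : ℕ} [Fact p.Prime]
    (S : Sylow p G) (x : G) (hx : x ∈ S)
    (hU : ∀ g : G, g⁻¹ * x * g ∈ S → g⁻¹ * x * g = x)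
    (hb : ∀ H : Subgroup G, (Nat.card H).Coprime p → (∀ h ∈ H, x * h * x⁻¹ ∈ H) → ∀ h ∈ H, x * h = h * x) :
    x ∈ Subgroup.center G := by
  rw [Subgroup.mem_center_iff]
  intro g
  exact central_aux _ G rfl S x hx hU hb g

end Cfsg.Agent.S3064
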