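import Cfsg.Statements.S3069
import Cfsg.Agent.S1991

set_option autoImplicit false
open Cfsg

namespace Cfsg.Agent.S3069

/-- Let p ≥ 7 be a prime and S a nontrivial Sylow p-subgroup of the finite group G. If N_G(S)/C_G(S) is a p-group (every element of N_G(S) of order prime to p centralizes S), then O^p(G) < G, i.e. G has a nontrivial p-factor group. -/
theorem result {G : Type*} [Group G] [Finite G] {p : ℕ} [Fact p.Prime]
    (hp : 7 ≤ p) (S : Sylow p G) (hS : (S : Subgroup G) ≠ ⊥)
    (hN : ∀ g ∈ Subgroup.normalizer ((S : Subgroup G) : Set G), (orderOf g).Coprime p →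
      g ∈ Subgroup.centralizer ((S : Subgroup G) : Set G)) :
    Cfsg.pResidual p G ≠ ⊤ := by
  obtain ⟨N, hNn, hNidx⟩ := Cfsg.Agent.S1991.result (by omega : 5 ≤ p) S hS hN
  haveI := hNn
  have hp : p.Prime := Fact.out
  have hle : Cfsg.pResidual p G ≤ N := by
    unfold Cfsg.pResidual
    rw [Subgroup.closure_le]
    intro g hg
    have h1 : g ^ p ∈ N := by
      have h2 := N.pow_index_mem g
      rwa [hNidx] at h2
    obtain ⟨m, hm⟩ := exists_pow_eq_self_of_coprime (x := g) (n := p) (Nat.Coprime.symm hg)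
    rw [SetLike.mem_coe, ← hm]
    exact N.pow_mem h1 m
  intro htop
  rw [htop, top_le_iff] at hle
  rw [hle, Subgroup.index_top] at hNidx
  exact hp.ne_one hNidx.symm

end Cfsg.Agent.S3069
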