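import Cfsg.Statements.S3074
import Mathlib
import Cfsg.Agent.Lib.Helper13.QdSylow
import Cfsg.Agent.Lib.Helper13.ExtraP3

set_option autoImplicit false
open Cfsg

namespace Cfsg.Agent.S3074

open Cfsg.Agent.Lib.Helper13.QdSylow Cfsg.Agent.Lib.Helper13.QdAlt

theorem u_pow_p {p : ℕ} [Fact p.Prime] (hp : p ≠ 2) (a e f : ZMod p) : u a e f ^ p = 1 := by
  apply Subtype.ext
  show (hE a e f) ^ p = 1
  exact hE_pow_p hp a e f

/-- Let p be an odd prime. A Sylow p-subgroup of Qd(p), the split extension of an elementary abelian group of order p² by SL₂(p) acting naturally, is extraspecial of order p³ and exponent p. -/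
theorem result (p : ℕ) [Fact p.Prime] (hp : p ≠ 2) (P : Sylow p ↥(Cfsg.qd p)) :
    Cfsg.IsExtraspecial p ↥P ∧ Nat.card P = p ^ 3 ∧ Monoid.exponent ↥P = p := by
  have hpp : p.Prime := Fact.out
  obtain ⟨c, hS⟩ := sylow_mem_iff P
  let κ := kappa (U p) (P : Subgroup ↥(Cfsg.qd p)) c hS
  have hcard : Nat.card P = p ^ 3 := by
    rw [← Nat.card_congr κ.toEquiv, card_U]
  have hpow : ∀ x : P, x ^ p = 1 := by
    intro x
    obtain ⟨y, rfl⟩ := κ.surjective x
    obtain ⟨a, e, f, rfl⟩ := U_cases y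
    rw [← map_pow]
    have : (⟨u a e f, u_mem a e f⟩ : U p) ^ p = 1 := Subtype.ext (u_pow_p hp a e f)
    rw [this, map_one]
  have hab : ¬ ∀ a b : P, a * b = b * a := by
    intro h
    have h1 := h (κ ⟨u 1 0 0, u_mem _ _ _⟩) (κ ⟨u 0 0 1, u_mem _ _ _⟩)
    rw [← map_mul, ← map_mul, U_mk_mul, U_mk_mul] at h1
    have h2 := κ.injective h1
    obtain ⟨-, h3, -⟩ := u_inj (congrArg Subtype.val h2)
    simp at h3
  refine ⟨?_, hcard, ?_⟩
  · exact Cfsg.Agent.Lib.Helper13.ExtraP3.extraspecial_of_card hcard hab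
      (fun x => by rw [hpow x]; exact Subgroup.one_mem _)
  · have hdvd : Monoid.exponent ↥P ∣ p := Monoid.exponent_dvd_of_forall_pow_eq_one hpow
    rcases (Nat.dvd_prime hpp).mp hdvd with h1 | h1
    · exfalso
      rw [Monoid.exp_eq_one_iff] at h1
      apply hab
      intro a b
      rw [Subsingleton.elim a 1, Subsingleton.elim b 1]
    · exact h1

end Cfsg.Agent.S3074
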