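import Cfsg.Statements.S3075


set_option autoImplicit false
open Cfsg

namespace Cfsg.Agent.S3075

section aux

theorem two_ne_zero_of_card {F : Type*} [Field F] [Fintype F] {p : ℕ} [Fact p.Prime]
    (hp : p ≠ 2) (hF : Fintype.card F = p) : (2 : F) ≠ 0 := by
  have hpp : p.Prime := Fact.out
  intro h2
  have h1 : addOrderOf (1 : F) ∣ 2 := by
    apply addOrderOf_dvd_of_nsmul_eq_zero
    rw [nsmul_eq_mul, mul_one]
    exact_mod_cast h2
  have h3 : addOrderOf (1 : F) ∣ p := hF ▸ addOrderOf_dvd_card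
  have h4 : addOrderOf (1 : F) ≠ 1 := by
    intro h
    exact one_ne_zero (AddMonoid.addOrderOf_eq_one_iff.1 h)
  rcases (Nat.dvd_prime hpp).1 h3 with h | h
  · exact h4 h
  · rw [h] at h1
    exact hp ((Nat.prime_dvd_prime_iff_eq hpp Nat.prime_two).1 h1)

theorem sl2_central {F : Type*} [Field F] [Fintype F] {p : ℕ} [Fact p.Prime]
    (hp : p ≠ 2) (hF : Fintype.card F = p) :
    ∃ c : Matrix.SpecialLinearGroup (Fin 2) F, c ≠ 1 ∧ c * c = 1 ∧ ∀ M, c * M = M * c := by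
  have h2 := two_ne_zero_of_card hp hF
  have hdet : Matrix.det (-1 : Matrix (Fin 2) (Fin 2) F) = 1 := by
    rw [Matrix.det_neg, Matrix.det_one]; simp
  refine ⟨⟨-1, hdet⟩, ?_, ?_, ?_⟩
  · intro h
    have h1 : (-1 : Matrix (Fin 2) (Fin 2) F) 0 0 = (1 : Matrix (Fin 2) (Fin 2) F) 0 0 :=
      congrArg (fun M : Matrix.SpecialLinearGroup (Fin 2) F =>
        (M : Matrix (Fin 2) (Fin 2) F) 0 0) h
    simp at h1
    apply h2
    have e : (2 : F) = 1 + 1 := by norm_num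
    rw [e]
    nth_rewrite 1 [← h1]
    ring
  · apply Subtype.ext
    show (-1 : Matrix (Fin 2) (Fin 2) F) * (-1) = 1
    rw [neg_mul_neg, one_mul]
  · intro M
    apply Subtype.ext
    show (-1 : Matrix (Fin 2) (Fin 2) F) * (M : Matrix (Fin 2) (Fin 2) F) =
      (M : Matrix (Fin 2) (Fin 2) F) * (-1)
    rw [neg_mul, one_mul, mul_neg, mul_one]

theorem sl2_noncomm {F : Type*} [Field F] :
    ∃ u l : Matrix.SpecialLinearGroup (Fin 2) F, u * l ≠ l * u := by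
  refine ⟨⟨!![1, 1; 0, 1], by simp [Matrix.det_fin_two_of]⟩,
    ⟨!![1, 0; 1, 1], by simp [Matrix.det_fin_two_of]⟩, ?_⟩
  intro h
  have h1 : (!![1, 1; 0, 1] * !![1, 0; 1, 1] : Matrix (Fin 2) (Fin 2) F) 0 0 =
      (!![1, 0; 1, 1] * !![1, 1; 0, 1] : Matrix (Fin 2) (Fin 2) F) 0 0 :=
    congrArg (fun M : Matrix.SpecialLinearGroup (Fin 2) F =>
      (M : Matrix (Fin 2) (Fin 2) F) 0 0) h
  simp [Matrix.mul_apply, Fin.sum_univ_two] at h1

/-- commutators centralize a normal cyclic subgroup. -/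
theorem comm_centralizes_cyclic {N : Type*} [Group N] (B : Subgroup N) (g : N)
    (hg : ∀ x ∈ B, x ∈ Subgroup.zpowers g) (hgB : g ∈ B)
    (hBn : ∀ (n a : N), a ∈ B → n * a * n⁻¹ ∈ B) (n m : N) :
    ∀ b ∈ B, (n * m * n⁻¹ * m⁻¹) * b = b * (n * m * n⁻¹ * m⁻¹) := by
  have key : ∀ n m : N, (n * m) * g * (n * m)⁻¹ = (m * n) * g * (m * n)⁻¹ := by
    intro n m
    obtain ⟨i, hi⟩ := Subgroup.mem_zpowers_iff.1 (hg _ (hBn n g hgB))
    obtain ⟨j, hj⟩ := Subgroup.mem_zpowers_iff.1 (hg _ (hBn m g hgB))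
    have h1 : (n * m) * g * (n * m)⁻¹ = n * (m * g * m⁻¹) * n⁻¹ := by group
    have h2 : (m * n) * g * (m * n)⁻¹ = m * (n * g * n⁻¹) * m⁻¹ := by group
    rw [h1, h2, ← hi, ← hj, ← conj_zpow, ← conj_zpow, ← hi, ← hj, ← zpow_mul, ← zpow_mul, mul_comm]
  have h3 := key n⁻¹ m⁻¹
  have h4 : (n * m * n⁻¹ * m⁻¹) * g = g * (n * m * n⁻¹ * m⁻¹) := by
    calc (n * m * n⁻¹ * m⁻¹) * g
        = (m⁻¹ * n⁻¹)⁻¹ * ((n⁻¹ * m⁻¹) * g * (n⁻¹ * m⁻¹)⁻¹) * (n⁻¹ * m⁻¹) := by group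
      _ = (m⁻¹ * n⁻¹)⁻¹ * ((m⁻¹ * n⁻¹) * g * (m⁻¹ * n⁻¹)⁻¹) * (n⁻¹ * m⁻¹) := by rw [h3]
      _ = g * (n * m * n⁻¹ * m⁻¹) := by group
  intro b hb
  obtain ⟨k, rfl⟩ := Subgroup.mem_zpowers_iff.1 (hg b hb)
  exact (Commute.zpow_right (show Commute (n * m * n⁻¹ * m⁻¹) g from h4) k).eq

end aux

/-- Let p be an odd prime and N a finite group with a normal elementary abelian subgroup A of order p² that is its own centralizer in N, such that N/A is isomorphic to SL₂(p) (over any field F with p elements). Then N splits over A: some subgroup U of N satisfies A ∩ U = 1 and AU = N. -/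
theorem result {N : Type*} [Group N] [Finite N] {p : ℕ} [Fact p.Prime] (hp : p ≠ 2)
    (A : Subgroup N) [A.Normal] (hAcomm : IsMulCommutative A) (hAcard : Nat.card A = p ^ 2) (hAexp : Monoid.exponent ↥A = p)
    (hAself : Subgroup.centralizer (A : Set N) = A)
    {F : Type*} [Field F] [Fintype F] (hF : Fintype.card F = p) (e : N ⧸ A ≃* Matrix.SpecialLinearGroup (Fin 2) F) :
    ∃ U : Subgroup N, A ⊓ U = ⊥ ∧ A ⊔ U = ⊤ := by
  classical
  have hpp : p.Prime := Fact.out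
  have hAn : A.Normal := inferInstance
  obtain ⟨c, hc1, hcc, hcz⟩ := sl2_central hp hF
  have hApow : ∀ a ∈ A, a ^ p = 1 := by
    intro a ha
    have h1 := Monoid.pow_exponent_eq_one (⟨a, ha⟩ : ↥A)
    rw [hAexp] at h1
    have h2 := congrArg Subtype.val h1
    simpa using h2
  have hAab : ∀ a ∈ A, ∀ b ∈ A, a * b = b * a := fun a ha b hb => setLike_mul_comm ha hb
  obtain ⟨π, hπdef⟩ : ∃ π : N →* Matrix.SpecialLinearGroup (Fin 2) F,
      π = e.toMonoidHom.comp (QuotientGroup.mk' A) := ⟨_, rfl⟩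
  have hπsurj : Function.Surjective π := by
    rw [hπdef]; exact e.surjective.comp (QuotientGroup.mk'_surjective A)
  have hπker : ∀ n : N, π n = 1 ↔ n ∈ A := by
    intro n
    rw [hπdef]
    show e (QuotientGroup.mk' A n) = 1 ↔ n ∈ A
    rw [MulEquiv.map_eq_one_iff]
    exact QuotientGroup.eq_one_iff n
  obtain ⟨t0, ht0⟩ := hπsurj c
  obtain ⟨k, hk⟩ : ∃ k, p = 2 * k + 1 := by
    rcases hpp.eq_two_or_odd with h | h
    · exact absurd h hp
    · exact ⟨p / 2, by omega⟩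
  have hcp : c ^ p = c := by
    rw [hk, pow_succ, pow_mul, pow_two, hcc, one_pow, one_mul]
  obtain ⟨t, ht⟩ : ∃ t : N, t = t0 ^ p := ⟨_, rfl⟩
  have hπt : π t = c := by rw [ht, map_pow, ht0, hcp]
  have ht0A : t0 ^ 2 ∈ A := by rw [← hπker, map_pow, ht0, pow_two, hcc]
  have htt : t * t = 1 := by
    have h1 : t * t = (t0 ^ 2) ^ p := by
      rw [ht, ← pow_add, ← pow_mul]; congr 1; ring
    rw [h1]; exact hApow _ ht0A
  have htA : t ∉ A := by rw [← hπker, hπt]; exact hc1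
  have hcomm : ∀ n : N, n * t * n⁻¹ * t⁻¹ ∈ A := by
    intro n
    rw [← hπker]
    simp only [map_mul, map_inv, hπt]
    rw [← hcz (π n)]
    group
  have htAmem : ∀ a ∈ A, t * a * t⁻¹ ∈ A := fun a ha => hAn.conj_mem a ha t
  have hkey : ∀ (n a : N), a ∈ A → t * (n * a * n⁻¹) * t⁻¹ = n * (t * a * t⁻¹) * n⁻¹ := by
    intro n a ha
    have h1 : n⁻¹ * t * n * t⁻¹ ∈ A := by
      have := hcomm n⁻¹
      rwa [inv_inv] at this
    have h2 : t * (n * a * n⁻¹) * t⁻¹ =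
        n * ((n⁻¹ * t * n * t⁻¹) * (t * a * t⁻¹) * (n⁻¹ * t * n * t⁻¹)⁻¹) * n⁻¹ := by group
    rw [h2, hAab _ h1 _ (htAmem a ha)]
    group
  have httb : ∀ b : N, t * (t * b * t⁻¹) * t⁻¹ = b := by
    intro b
    have e1 : t * (t * b * t⁻¹) * t⁻¹ = (t * t) * b * (t * t)⁻¹ := by group
    rw [e1, htt]; group
  obtain ⟨A1, hA1⟩ : ∃ A1 : Subgroup N, A1 = A ⊓ Subgroup.centralizer ({t} : Set N) := ⟨_, rfl⟩
  have hA1mem : ∀ a : N, a ∈ A1 ↔ a ∈ A ∧ t * a * t⁻¹ = a := by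
    intro a
    rw [hA1, Subgroup.mem_inf, Subgroup.mem_centralizer_iff]
    constructor
    · rintro ⟨ha, h⟩
      refine ⟨ha, ?_⟩
      have h1 := h t rfl
      rw [h1]; group
    · rintro ⟨ha, h⟩
      refine ⟨ha, ?_⟩
      intro y hy
      rw [Set.mem_singleton_iff] at hy
      rw [hy]
      calc t * a = (t * a * t⁻¹) * t := by group
        _ = a * t := by rw [h]
  obtain ⟨A2, hA2mem⟩ : ∃ A2 : Subgroup N, ∀ a : N, a ∈ A2 ↔ a ∈ A ∧ t * a * t⁻¹ = a⁻¹ := by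
    refine ⟨{ carrier := {a | a ∈ A ∧ t * a * t⁻¹ = a⁻¹}
              mul_mem' := ?_
              one_mem' := ⟨A.one_mem, by simp⟩
              inv_mem' := ?_ }, fun a => Iff.rfl⟩
    · rintro a b ⟨ha, ha'⟩ ⟨hb, hb'⟩
      refine ⟨A.mul_mem ha hb, ?_⟩
      have e1 : t * (a * b) * t⁻¹ = (t * a * t⁻¹) * (t * b * t⁻¹) := by group
      rw [e1, ha', hb', mul_inv_rev, hAab _ (A.inv_mem ha) _ (A.inv_mem hb)]
    · rintro a ⟨ha, ha'⟩
      refine ⟨A.inv_mem ha, ?_⟩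
      have e1 : t * a⁻¹ * t⁻¹ = (t * a * t⁻¹)⁻¹ := by group
      rw [e1, ha']
  have hA1n : ∀ (n a : N), a ∈ A1 → n * a * n⁻¹ ∈ A1 := by
    intro n a ha
    have h := (hA1mem a).1 ha
    exact (hA1mem _).2 ⟨hAn.conj_mem a h.1 n, by rw [hkey n a h.1, h.2]⟩
  have hA2n : ∀ (n a : N), a ∈ A2 → n * a * n⁻¹ ∈ A2 := by
    intro n a ha
    have h := (hA2mem a).1 ha
    exact (hA2mem _).2 ⟨hAn.conj_mem a h.1 n, by rw [hkey n a h.1, h.2]; group⟩
  have hdisj : ∀ a, a ∈ A1 → a ∈ A2 → a = 1 := by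
    intro a h1 h2
    have e1 := ((hA1mem a).1 h1).2
    have e2 := ((hA2mem a).1 h2).2
    have h3 : a = a⁻¹ := by rw [← e1]; nth_rewrite 2 [e1]; exact e2
    have h4 : a ^ 2 = 1 := by
      rw [pow_two]
      nth_rewrite 1 [h3]
      exact inv_mul_cancel a
    have h5 := hApow a ((hA1mem a).1 h1).1
    rw [hk, pow_succ, pow_mul, h4, one_pow, one_mul] at h5
    exact h5
  have hdec : ∀ a ∈ A, ∃ s ∈ A1, ∃ d ∈ A2, a = s * d := by
    intro a ha
    obtain ⟨b, hb⟩ : ∃ b : N, b = a ^ (k + 1) := ⟨_, rfl⟩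
    have hbA : b ∈ A := by rw [hb]; exact A.pow_mem ha _
    have hb2 : b * b = a := by
      rw [hb, ← pow_add]
      have e1 : k + 1 + (k + 1) = p + 1 := by omega
      rw [e1, pow_succ, hApow a ha, one_mul]
    have htb : t * b * t⁻¹ ∈ A := htAmem b hbA
    refine ⟨b * (t * b * t⁻¹), (hA1mem _).2 ⟨A.mul_mem hbA htb, ?_⟩,
      b * (t * b * t⁻¹)⁻¹, (hA2mem _).2 ⟨A.mul_mem hbA (A.inv_mem htb), ?_⟩, ?_⟩
    · have e1 : t * (b * (t * b * t⁻¹)) * t⁻¹ = (t * b * t⁻¹) * (t * (t * b * t⁻¹) * t⁻¹) := by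
        group
      rw [e1, httb, hAab _ htb _ hbA]
    · have e1 : t * (b * (t * b * t⁻¹)⁻¹) * t⁻¹ =
          (t * b * t⁻¹) * (t * (t * b * t⁻¹) * t⁻¹)⁻¹ := by group
      rw [e1, httb, mul_inv_rev, inv_inv]
    · have e1 : b * (t * b * t⁻¹) * (b * (t * b * t⁻¹)⁻¹) =
          b * ((t * b * t⁻¹) * b) * (t * b * t⁻¹)⁻¹ := by group
      rw [e1, hAab _ htb _ hbA, ← hb2]
      group
  by_cases hA1bot : A1 = ⊥
  · have hinv : ∀ a ∈ A, t * a * t⁻¹ = a⁻¹ := by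
      intro a ha
      obtain ⟨s, hs, d, hd, rfl⟩ := hdec a ha
      rw [hA1bot, Subgroup.mem_bot] at hs
      subst hs
      rw [one_mul]; exact ((hA2mem d).1 hd).2
    refine ⟨Subgroup.centralizer ({t} : Set N), ?_, ?_⟩
    · rw [← hA1]; exact hA1bot
    · rw [eq_top_iff]
      intro n _
      obtain ⟨a', ha'⟩ : ∃ a' : N, a' = n * t * n⁻¹ * t⁻¹ := ⟨_, rfl⟩
      have ha'A : a' ∈ A := by rw [ha']; exact hcomm n
      obtain ⟨b, hb⟩ : ∃ b : N, b = a' ^ (k + 1) := ⟨_, rfl⟩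
      have hbA : b ∈ A := by rw [hb]; exact A.pow_mem ha'A _
      have hb2 : b * b = a' := by
        rw [hb, ← pow_add]
        have e1 : k + 1 + (k + 1) = p + 1 := by omega
        rw [e1, pow_succ, hApow a' ha'A, one_mul]
      have hU : b⁻¹ * n ∈ Subgroup.centralizer ({t} : Set N) := by
        rw [Subgroup.mem_centralizer_iff]
        intro y hy
        rw [Set.mem_singleton_iff] at hy
        rw [hy]
        have h1 : t * b⁻¹ * t⁻¹ = b := by rw [hinv _ (A.inv_mem hbA), inv_inv]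
        have h2 : n * t = a' * t * n := by rw [ha']; group
        calc t * (b⁻¹ * n) = (t * b⁻¹ * t⁻¹) * t * n := by group
          _ = b * t * n := by rw [h1]
          _ = b⁻¹ * (b * b) * t * n := by group
          _ = b⁻¹ * a' * t * n := by rw [hb2]
          _ = b⁻¹ * (a' * t * n) := by group
          _ = b⁻¹ * (n * t) := by rw [h2]
          _ = b⁻¹ * n * t := by group
      have e1 : n = b * (b⁻¹ * n) := by group
      rw [e1]
      exact Subgroup.mul_mem_sup hbA hU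
  · exfalso
    have hA1le : A1 ≤ A := by rw [hA1]; exact inf_le_left
    have hA2le : A2 ≤ A := fun a ha => ((hA2mem a).1 ha).1
    have hc1' : Nat.card A1 ∣ p ^ 2 := hAcard ▸ Subgroup.card_dvd_of_le hA1le
    obtain ⟨i, hi, hci⟩ := (Nat.dvd_prime_pow hpp).1 hc1'
    have hi0 : i ≠ 0 := by
      rintro rfl
      rw [pow_zero] at hci
      exact hA1bot (Subgroup.card_eq_one.1 hci)
    have hi2 : i ≠ 2 := by
      rintro rfl
      have hAA : A1 = A := Subgroup.eq_of_le_of_card_ge hA1le (by rw [hci, hAcard])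
      apply htA
      rw [← hAself, Subgroup.mem_centralizer_iff]
      intro a ha
      have h1 := ((hA1mem a).1 (hAA ▸ ha)).2
      calc a * t = (t * a * t⁻¹) * t := by rw [h1]
        _ = t * a := by group
    have hi1 : i = 1 := by omega
    rw [hi1, pow_one] at hci
    have hc2' : Nat.card A2 ∣ p ^ 2 := hAcard ▸ Subgroup.card_dvd_of_le hA2le
    obtain ⟨j, hj, hcj⟩ := (Nat.dvd_prime_pow hpp).1 hc2'
    have hj0 : j ≠ 0 := by
      rintro rfl
      rw [pow_zero] at hcj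
      have hA2bot : A2 = ⊥ := Subgroup.card_eq_one.1 hcj
      have hle : A ≤ A1 := by
        intro a ha
        obtain ⟨s, hs, d, hd, rfl⟩ := hdec a ha
        rw [hA2bot, Subgroup.mem_bot] at hd
        subst hd
        rwa [mul_one]
      have h1 := Subgroup.card_le_of_le hle
      rw [hAcard, hci] at h1
      nlinarith [hpp.one_lt]
    have hj2 : j ≠ 2 := by
      rintro rfl
      have hA2A : A2 = A := Subgroup.eq_of_le_of_card_ge hA2le (by rw [hcj, hAcard])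
      apply hA1bot
      rw [eq_bot_iff]
      intro a ha
      exact Subgroup.mem_bot.2 (hdisj a ha (hA2A ▸ hA1le ha))
    have hj1 : j = 1 := by omega
    rw [hj1, pow_one] at hcj
    have hcyc1 : IsCyclic A1 := isCyclic_of_prime_card hci
    have hcyc2 : IsCyclic A2 := isCyclic_of_prime_card hcj
    obtain ⟨g1, hg1⟩ := hcyc1.exists_generator
    obtain ⟨g2, hg2⟩ := hcyc2.exists_generator
    have hgen : ∀ (B : Subgroup N) (g : ↥B), (∀ x : ↥B, x ∈ Subgroup.zpowers g) →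
        ∀ x ∈ B, x ∈ Subgroup.zpowers (g : N) := by
      intro B g hg x hx
      obtain ⟨m, hm⟩ := Subgroup.mem_zpowers_iff.1 (hg ⟨x, hx⟩)
      refine Subgroup.mem_zpowers_iff.2 ⟨m, ?_⟩
      have := congrArg Subtype.val hm
      simpa using this
    obtain ⟨u, l, hul⟩ := sl2_noncomm (F := F)
    apply hul
    obtain ⟨n, rfl⟩ := hπsurj u
    obtain ⟨m, rfl⟩ := hπsurj l
    have hw : n * m * n⁻¹ * m⁻¹ ∈ A := by
      rw [← hAself, Subgroup.mem_centralizer_iff]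
      intro a ha
      obtain ⟨s, hs, d, hd, rfl⟩ := hdec a ha
      have h1 := comm_centralizes_cyclic A1 (g1 : N) (hgen A1 g1 hg1) g1.2 hA1n n m s hs
      have h2 := comm_centralizes_cyclic A2 (g2 : N) (hgen A2 g2 hg2) g2.2 hA2n n m d hd
      rw [mul_assoc, ← h2, ← mul_assoc, ← h1, mul_assoc]
    have h3 := (hπker _).2 hw
    simp only [map_mul, map_inv] at h3
    calc π n * π m = (π n * π m * (π n)⁻¹ * (π m)⁻¹) * (π m * π n) := by group
      _ = π m * π n := by rw [h3, one_mul]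

end Cfsg.Agent.S3075
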