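import Cfsg.Statements.S3076
import Cfsg.Agent.Lib.Helper17.Syl
import Cfsg.Agent.Lib.Helper9.Cores
import Cfsg.Agent.Lib.Lead.Cores

set_option autoImplicit false
open Cfsg

namespace Cfsg.Agent.S3076

section aux

open Cfsg.Agent.Lib.Lead.Cores

theorem nat_eq_one_of_dvd_pow {p d n m : ℕ} (hp : p.Prime) (h1 : d ∣ p ^ n) (h2 : d ∣ m)
    (h3 : ¬ p ∣ m) : d = 1 := by
  obtain ⟨k, -, rfl⟩ := (Nat.dvd_prime_pow hp).1 h1
  rcases Nat.eq_zero_or_pos k with rfl | hk
  · simp
  · exact absurd (dvd_trans (dvd_pow_self p hk.ne') h2) h3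

set_option linter.unusedSectionVars false

variable {L : Type*} [Group L] [Finite L] {p : ℕ} [Fact p.Prime]

theorem le_comap_pCore {M X : Subgroup L} [M.Normal] (hX : X.Normal)
    (h : ∀ x ∈ X, ∃ k : ℕ, x ^ (p ^ k) ∈ M) :
    X ≤ (Cfsg.pCore p (L ⧸ M)).comap (QuotientGroup.mk' M) := by
  have hn : (X.map (QuotientGroup.mk' M)).Normal :=
    Subgroup.Normal.map hX _ (QuotientGroup.mk'_surjective M)
  have hp : IsPGroup p (X.map (QuotientGroup.mk' M)) := by
    rintro ⟨y, hy⟩
    obtain ⟨x, hx, rfl⟩ := Subgroup.mem_map.1 hy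
    obtain ⟨k, hk⟩ := h x hx
    refine ⟨k, ?_⟩
    apply Subtype.ext
    simp only [Subgroup.coe_pow, Subgroup.coe_one]
    rw [← map_pow]
    exact (QuotientGroup.eq_one_iff _).2 hk
  rw [← Subgroup.map_le_iff_le_comap]
  exact le_pCore hn hp

theorem exists_pow_mem_of_mem_comap_pCore {M : Subgroup L} [M.Normal] {x : L}
    (hx : x ∈ (Cfsg.pCore p (L ⧸ M)).comap (QuotientGroup.mk' M)) :
    ∃ k : ℕ, x ^ (p ^ k) ∈ M := by
  have h1 := pCore_isPGroup (G := L ⧸ M) p
  obtain ⟨k, hk⟩ := h1 ⟨QuotientGroup.mk' M x, hx⟩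
  refine ⟨k, ?_⟩
  have := congrArg Subtype.val hk
  simp only [Subgroup.coe_pow, Subgroup.coe_one] at this
  rw [← map_pow] at this
  exact (QuotientGroup.eq_one_iff _).1 this

theorem pgroup_le_of_normal_relIndex {H K Q : Subgroup L} [H.Normal] (hHK : H ≤ K)
    (hidx : ¬ p ∣ H.relIndex K) (hQK : Q ≤ K) (hQ : IsPGroup p Q) (hH : IsPGroup p H) :
    Q ≤ H := by
  have hsup : IsPGroup p ↥(Q ⊔ H) := IsPGroup.to_sup_of_normal_right hQ hH
  have h1 : H.relIndex (Q ⊔ H) ∣ H.relIndex K :=
    Dvd.intro _ (Subgroup.relIndex_mul_relIndex H (Q ⊔ H) K le_sup_right (sup_le hQK hHK))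
  obtain ⟨n, hn⟩ := IsPGroup.iff_card.1 hsup
  have h2 : H.relIndex (Q ⊔ H) ∣ p ^ n := hn ▸ Subgroup.relIndex_dvd_card H (Q ⊔ H)
  have h3 := nat_eq_one_of_dvd_pow (Fact.out : p.Prime) h2 h1 hidx
  exact le_sup_left.trans (Subgroup.relIndex_eq_one.1 h3)

theorem centric_radical_iff (H C R : Subgroup L) [hHn : H.Normal] [hCn : C.Normal]
    (hH : IsPGroup p H) (hC : C = Subgroup.centralizer (H : Set L))
    (hR : IsPGroup p R) (hRi : ¬ p ∣ R.index) :
    (¬ p ∣ H.relIndex ((Cfsg.pCore p (L ⧸ C)).comap (QuotientGroup.mk' C))) ↔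
      (R ⊓ C ≤ H ∧ Cfsg.pPrimePCore p L = H ⊔ C) := by
  have hpp : p.Prime := Fact.out
  have hOn : (Cfsg.pPrimeCore p L).Normal := Cfsg.Agent.Lib.Lead.Cores.pPrimeCore_normal p
  set O := Cfsg.pPrimeCore p L with hOdef
  set N := (Cfsg.pCore p (L ⧸ C)).comap (QuotientGroup.mk' C) with hNdef
  have hWdef : Cfsg.pPrimePCore p L = (Cfsg.pCore p (L ⧸ O)).comap (QuotientGroup.mk' O) := rfl
  rw [hWdef]
  set W := (Cfsg.pCore p (L ⧸ O)).comap (QuotientGroup.mk' O) with hWd
  have hNn : N.Normal := Subgroup.Normal.comap (Cfsg.Agent.Lib.Lead.Cores.pCore_normal p) _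
  have hWn : W.Normal := Subgroup.Normal.comap (Cfsg.Agent.Lib.Lead.Cores.pCore_normal p) _
  have hCN : C ≤ N := by
    intro c hc
    rw [hNdef, Subgroup.mem_comap]
    have : QuotientGroup.mk' C c = 1 := (QuotientGroup.eq_one_iff c).2 hc
    rw [this]; exact Subgroup.one_mem _
  have hHpow : ∀ (M : Subgroup L), ∀ x ∈ H, ∃ k : ℕ, x ^ (p ^ k) ∈ M := by
    intro M x hx
    obtain ⟨k, hk⟩ := hH ⟨x, hx⟩
    refine ⟨k, ?_⟩
    have := congrArg Subtype.val hk
    simp only [Subgroup.coe_pow, Subgroup.coe_one] at this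
    rw [this]; exact M.one_mem
  have hHN : H ≤ N := le_comap_pCore hHn (hHpow C)
  have hHW : H ≤ W := le_comap_pCore hHn (hHpow O)
  have hOC : O ≤ C := by
    rw [hC]
    intro o ho
    rw [Subgroup.mem_centralizer_iff]
    intro h hh
    have h1 := Cfsg.Agent.Lib.Helper9.pCore_commute_pPrimeCore p L
    rw [Subgroup.commutator_eq_bot_iff_le_centralizer] at h1
    have h2 := h1 (le_pCore hHn hH hh)
    exact (Subgroup.mem_centralizer_iff.1 h2 o ho).symm
  have hWpow : ∀ w ∈ W, ∃ k : ℕ, w ^ (p ^ k) ∈ O := fun w hw =>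
    exists_pow_mem_of_mem_comap_pCore hw
  have hNpow : ∀ n ∈ N, ∃ k : ℕ, n ^ (p ^ k) ∈ C := fun n hn =>
    exists_pow_mem_of_mem_comap_pCore hn
  have hWN : W ≤ N := le_comap_pCore hWn (fun w hw => by
    obtain ⟨k, hk⟩ := hWpow w hw
    exact ⟨k, hOC hk⟩)
  have hRsyl : ¬ p ∣ R.relIndex C := by
    have := Cfsg.Agent.Lib.Helper17.Syl.sylow_relIndex_normal (IsPGroup.toSylow hR hRi) C
    rwa [IsPGroup.toSylow_coe] at this
  constructor
  · intro hidx
    have hRC : R ⊓ C ≤ H :=
      pgroup_le_of_normal_relIndex hHN hidx (inf_le_right.trans hCN) (hR.to_le inf_le_left) hH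
    have hNHC : N = H ⊔ C := by
      apply le_antisymm _ (sup_le hHN hCN)
      have h1 : (H ⊔ C).relIndex N ∣ C.relIndex N :=
        Subgroup.relIndex_dvd_of_le_left N (le_sup_right : C ≤ H ⊔ C)
      have h2 : C.relIndex N = Nat.card (Cfsg.pCore p (L ⧸ C)) := by
        have e1 := Cfsg.Agent.Lib.Helper9.card_comap_mk' C (Cfsg.pCore p (L ⧸ C))
        have e2 := Cfsg.Agent.Lib.Helper17.Syl.card_mul_relIndex_le hCN
        rw [← hNdef] at e1
        rw [e1] at e2
        exact Nat.eq_of_mul_eq_mul_left Nat.card_pos e2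
      obtain ⟨n, hn⟩ := IsPGroup.iff_card.1 (pCore_isPGroup (G := L ⧸ C) p)
      rw [h2, hn] at h1
      have h3 : (H ⊔ C).relIndex N ∣ H.relIndex N :=
        Dvd.intro_left _ (Subgroup.relIndex_mul_relIndex H (H ⊔ C) N le_sup_left (sup_le hHN hCN))
      exact Subgroup.relIndex_eq_one.1 (nat_eq_one_of_dvd_pow hpp h1 h3 hidx)
    refine ⟨hRC, ?_⟩
    -- C ≤ W via Burnside
    have hCW : C ≤ W := by
      have hZp : IsPGroup p (H.subgroupOf C) := hH.comap_subtype
      have hZi : ¬ p ∣ (H.subgroupOf C).index := by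
        have e : (H.subgroupOf C).index = H.relIndex N := by
          show H.relIndex C = H.relIndex N
          rw [hNHC, Subgroup.relIndex_sup_left]
        rwa [e]
      let S' : Sylow p ↥C := IsPGroup.toSylow hZp hZi
      have hS'coe : (S' : Subgroup ↥C) = H.subgroupOf C := IsPGroup.toSylow_coe hZp hZi
      have hS' : Subgroup.normalizer ((S' : Subgroup ↥C) : Set ↥C) ≤
          Subgroup.centralizer ((S' : Subgroup ↥C) : Set ↥C) := by
        intro c _
        rw [Subgroup.mem_centralizer_iff]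
        intro z hz
        rw [SetLike.mem_coe, hS'coe, Subgroup.mem_subgroupOf] at hz
        have hc : (c : L) ∈ Subgroup.centralizer (H : Set L) := hC ▸ c.2
        apply Subtype.ext
        exact Subgroup.mem_centralizer_iff.1 hc _ hz
      have hK := MonoidHom.ker_transferSylow_isComplement' S' hS'
      set K := (MonoidHom.transferSylow S' hS').ker with hKdef
      have hKidx : K.index = Nat.card (S' : Subgroup ↥C) := hK.symm.index_eq_card
      have hKcard : Nat.card K = (S' : Subgroup ↥C).index := hK.index_eq_card.symm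
      have hKcop : (Nat.card K).Coprime p := by
        rw [hKcard, hS'coe]
        exact ((Nat.Prime.coprime_iff_not_dvd hpp).2 hZi).symm
      have hKn : K.Normal := MonoidHom.normal_ker _
      have hKO : K ≤ Cfsg.pPrimeCore p ↥C := le_pPrimeCore hKn hKcop
      obtain ⟨n, hn⟩ := IsPGroup.iff_card.1 S'.isPGroup'
      apply le_comap_pCore hCn
      intro c hc
      refine ⟨n, ?_⟩
      have h1 : (⟨c, hc⟩ : ↥C) ^ K.index ∈ K := K.pow_index_mem _
      rw [hKidx, hn] at h1
      have h2 := Cfsg.Agent.Lib.Helper9.pPrimeCore_subtype_le p C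
        (Subgroup.mem_map_of_mem C.subtype (hKO h1))
      simpa using h2
    apply le_antisymm
    · rw [← hNHC]; exact hWN
    · exact sup_le hHW hCW
  · rintro ⟨hRC, hW⟩
    have hNW : N ≤ W := by
      apply le_comap_pCore hNn
      intro n hn
      obtain ⟨a, ha⟩ := hNpow n hn
      have hcW : n ^ p ^ a ∈ W := by rw [hW]; exact Subgroup.mem_sup_right ha
      obtain ⟨b, hb⟩ := hWpow _ hcW
      refine ⟨a + b, ?_⟩
      rw [pow_add, pow_mul]; exact hb
    have hNHC : N = H ⊔ C := le_antisymm (hW ▸ hNW) (sup_le hHN hCN)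
    rw [hNHC, Subgroup.relIndex_sup_left, ← Subgroup.inf_relIndex_right]
    intro hdvd
    apply hRsyl
    rw [← Subgroup.inf_relIndex_right]
    exact dvd_trans hdvd
      (Subgroup.relIndex_dvd_of_le_left C (le_inf hRC inf_le_right : R ⊓ C ≤ H ⊓ C))

end aux

/-- Let P be a Sylow p-subgroup of the finite group G and H ≤ P a subgroup with N_P(H) a Sylow p-subgroup of N_G(H). Let N be the preimage in N_G(H) of O_p(N_G(H)/C_G(H)). Then H is a Sylow p-subgroup of N if and only if C_P(H) ≤ H and O_{p',p}(N_G(H)) = H·C_G(H). -/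
theorem result {G : Type*} [Group G] [Finite G] {p : ℕ} [Fact p.Prime]
    (P : Sylow p G) (H : Subgroup G) (hHP : H ≤ (P : Subgroup G))
    (hSyl : ¬ p ∣ ((P : Subgroup G) ⊓ Subgroup.normalizer (H : Set G)).relIndex (Subgroup.normalizer (H : Set G)))
    [hC : ((Subgroup.centralizer (H : Set G)).subgroupOf (Subgroup.normalizer (H : Set G))).Normal] :
    (H ≤ ((Cfsg.pCore p (↥(Subgroup.normalizer (H : Set G)) ⧸
              (Subgroup.centralizer (H : Set G)).subgroupOf (Subgroup.normalizer (H : Set G)))).comap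
            (QuotientGroup.mk' _)).map (Subgroup.normalizer (H : Set G)).subtype ∧
      ¬ p ∣ H.relIndex (((Cfsg.pCore p (↥(Subgroup.normalizer (H : Set G)) ⧸
              (Subgroup.centralizer (H : Set G)).subgroupOf (Subgroup.normalizer (H : Set G)))).comap
            (QuotientGroup.mk' _)).map (Subgroup.normalizer (H : Set G)).subtype)) ↔
    ((P : Subgroup G) ⊓ Subgroup.centralizer (H : Set G) ≤ H ∧
      (Cfsg.pPrimePCore p ↥(Subgroup.normalizer (H : Set G))).map (Subgroup.normalizer (H : Set G)).subtype =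
        H ⊔ Subgroup.centralizer (H : Set G)) := by
  set L := Subgroup.normalizer (H : Set G) with hLdef
  have hHL : H ≤ L := Subgroup.le_normalizer
  have hCL : Subgroup.centralizer (H : Set G) ≤ L := Subgroup.centralizer_le_normalizer _
  have hHn : (H.subgroupOf L).Normal := Subgroup.normal_in_normalizer
  have hHp : IsPGroup p (H.subgroupOf L) := (P.isPGroup'.to_le hHP).comap_subtype
  have hCeq : (Subgroup.centralizer (H : Set G)).subgroupOf L =
      Subgroup.centralizer ((H.subgroupOf L : Subgroup ↥L) : Set ↥L) := by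
    ext x
    rw [Subgroup.mem_subgroupOf, Subgroup.mem_centralizer_iff, Subgroup.mem_centralizer_iff]
    constructor
    · intro h y hy
      apply Subtype.ext
      exact h _ (Subgroup.mem_subgroupOf.1 hy)
    · intro h y hy
      have := h ⟨y, hHL hy⟩ (Subgroup.mem_subgroupOf.2 hy)
      exact congrArg Subtype.val this
  have hRp : IsPGroup p (((P : Subgroup G) ⊓ L).subgroupOf L) :=
    (P.isPGroup'.to_le inf_le_left).comap_subtype
  have hRi : ¬ p ∣ (((P : Subgroup G) ⊓ L).subgroupOf L).index := hSyl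
  have key := centric_radical_iff (H.subgroupOf L) ((Subgroup.centralizer (H : Set G)).subgroupOf L)
    (((P : Subgroup G) ⊓ L).subgroupOf L) hHp hCeq hRp hRi
  set N := (Cfsg.pCore p (↥L ⧸ (Subgroup.centralizer (H : Set G)).subgroupOf L)).comap
    (QuotientGroup.mk' _) with hNdef
  have hHN : H.subgroupOf L ≤ N := by
    apply le_comap_pCore hHn
    intro x hx
    obtain ⟨k, hk⟩ := hHp ⟨x, hx⟩
    refine ⟨k, ?_⟩
    have := congrArg Subtype.val hk
    simp only [Subgroup.coe_pow, Subgroup.coe_one] at this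
    rw [this]; exact Subgroup.one_mem _
  have hmapH : (H.subgroupOf L).map L.subtype = H := Subgroup.map_subgroupOf_eq_of_le hHL
  have hmapC : ((Subgroup.centralizer (H : Set G)).subgroupOf L).map L.subtype =
      Subgroup.centralizer (H : Set G) := Subgroup.map_subgroupOf_eq_of_le hCL
  have e1 : H.relIndex (N.map L.subtype) = (H.subgroupOf L).relIndex N := by
    conv_lhs => rw [← hmapH]
    exact Subgroup.relIndex_map_map_of_injective _ _ L.subtype_injective
  have e2 : ((P : Subgroup G) ⊓ Subgroup.centralizer (H : Set G) ≤ H) ↔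
      (((P : Subgroup G) ⊓ L).subgroupOf L ⊓ (Subgroup.centralizer (H : Set G)).subgroupOf L ≤
        H.subgroupOf L) := by
    constructor
    · intro h x hx
      rw [Subgroup.mem_subgroupOf]
      have h1 := Subgroup.mem_subgroupOf.1 hx.1
      have h2 := Subgroup.mem_subgroupOf.1 hx.2
      exact h ⟨h1.1, h2⟩
    · intro h g hg
      have hgL : g ∈ L := hCL hg.2
      have := h (show (⟨g, hgL⟩ : ↥L) ∈ _ from
        ⟨Subgroup.mem_subgroupOf.2 ⟨hg.1, hgL⟩, Subgroup.mem_subgroupOf.2 hg.2⟩)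
      exact Subgroup.mem_subgroupOf.1 this
  have e3 : ((Cfsg.pPrimePCore p ↥L).map L.subtype = H ⊔ Subgroup.centralizer (H : Set G)) ↔
      (Cfsg.pPrimePCore p ↥L = H.subgroupOf L ⊔ (Subgroup.centralizer (H : Set G)).subgroupOf L) := by
    constructor
    · intro h
      apply Subgroup.map_injective L.subtype_injective
      rw [h, Subgroup.map_sup, hmapH, hmapC]
    · intro h
      rw [h, Subgroup.map_sup, hmapH, hmapC]
  rw [e1, e2, e3, ← key]
  constructor
  · exact fun h => h.2
  · intro h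
    refine ⟨?_, h⟩
    conv_lhs => rw [← hmapH]
    exact Subgroup.map_mono hHN

end Cfsg.Agent.S3076
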