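import Cfsg.Statements.S3087
import Mathlib

set_option autoImplicit false
open Cfsg

namespace Cfsg.Agent.S3087

/-- Let p be a prime, G a finite group acting linearly on a finite vector space V over the field with p elements, W a G-invariant subspace, and A a subgroup of G with |A|·|C_V(A)| ≥ |B|·|C_V(B)| for every subgroup B of A. Then |A|·|C_W(A)| ≥ |B|·|C_W(B)| for every subgroup B of A that contains C_A(W); that is, the image of A in the group induced on W satisfies the same maximality condition. -/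
def fixedSub {G V : Type*} [Group G] [AddCommGroup V] (p : ℕ) [Fact p.Prime] [Module (ZMod p) V]
    (ρ : Representation (ZMod p) G V) (D : Subgroup G) : Submodule (ZMod p) V where
  carrier := {v | ∀ d ∈ D, ρ d v = v}
  add_mem' := by
    intro a b ha hb d hd
    rw [map_add, ha d hd, hb d hd]
  zero_mem' := by
    intro d hd
    exact map_zero _
  smul_mem' := by
    intro c x hx d hd
    rw [map_smul, hx d hd]

theorem result {G V : Type*} [Group G] [Finite G] [AddCommGroup V] [Finite V] (p : ℕ) [Fact p.Prime] [Module (ZMod p) V]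
    (ρ : Representation (ZMod p) G V) (W : Submodule (ZMod p) V) (hW : ∀ g : G, ∀ w ∈ W, ρ g w ∈ W)
    (A : Subgroup G)
    (hP : ∀ B : Subgroup G, B ≤ A →
      Nat.card ↥B * Nat.card {v : V // ∀ b ∈ B, ρ b v = v} ≤ Nat.card ↥A * Nat.card {v : V // ∀ a ∈ A, ρ a v = v})
    (B : Subgroup G) (hBA : B ≤ A) (hCB : ∀ a ∈ A, (∀ w ∈ W, ρ a w = w) → a ∈ B) :
    Nat.card ↥B * Nat.card {w : W // ∀ b ∈ B, ρ b w = w} ≤ Nat.card ↥A * Nat.card {w : W // ∀ a ∈ A, ρ a w = w} := by
  classical
  have hp : p.Prime := Fact.out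
  have hcardV : ∀ D : Subgroup G, Nat.card {v : V // ∀ d ∈ D, ρ d v = v} =
      p ^ Module.finrank (ZMod p) ↥(fixedSub p ρ D) := by
    intro D
    have h : Nat.card ↥(fixedSub p ρ D) = Nat.card (ZMod p) ^ Module.finrank (ZMod p) ↥(fixedSub p ρ D) :=
      Module.natCard_eq_pow_finrank
    rw [Nat.card_zmod] at h
    exact h
  have hcardW : ∀ D : Subgroup G, Nat.card {w : W // ∀ d ∈ D, ρ d w = w} =
      p ^ Module.finrank (ZMod p) ↥(W ⊓ fixedSub p ρ D) := by
    intro D
    have e : {w : W // ∀ d ∈ D, ρ d w = w} ≃ ↥(W ⊓ fixedSub p ρ D) :=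
      { toFun := fun w => ⟨w.1.1, w.1.2, w.2⟩
        invFun := fun v => ⟨⟨v.1, v.2.1⟩, v.2.2⟩
        left_inv := fun w => rfl
        right_inv := fun v => rfl }
    rw [Nat.card_congr e, Module.natCard_eq_pow_finrank (K := ZMod p), Nat.card_zmod]
  rw [hcardW B, hcardW A]
  have hP' := hP B hBA
  rw [hcardV B, hcardV A] at hP'
  have hFAB : fixedSub p ρ A ≤ fixedSub p ρ B := fun v hv b hb => hv b (hBA hb)
  have h1 := Submodule.finrank_sup_add_finrank_inf_eq (fixedSub p ρ A) (W ⊓ fixedSub p ρ B)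
  have h2 : Module.finrank (ZMod p) ↥(fixedSub p ρ A ⊔ (W ⊓ fixedSub p ρ B)) ≤
      Module.finrank (ZMod p) ↥(fixedSub p ρ B) :=
    Submodule.finrank_mono (sup_le hFAB inf_le_right)
  have h3 : fixedSub p ρ A ⊓ (W ⊓ fixedSub p ρ B) = W ⊓ fixedSub p ρ A :=
    le_antisymm (le_inf (inf_le_right.trans inf_le_left) inf_le_left)
      (le_inf inf_le_right (le_inf inf_le_left (inf_le_right.trans hFAB)))
  rw [h3] at h1
  set a := Module.finrank (ZMod p) ↥(fixedSub p ρ A)
  set b := Module.finrank (ZMod p) ↥(W ⊓ fixedSub p ρ B)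
  set c := Module.finrank (ZMod p) ↥(W ⊓ fixedSub p ρ A)
  set d := Module.finrank (ZMod p) ↥(fixedSub p ρ B)
  have h4 : a + b ≤ d + c := by omega
  have hpos : 0 < p ^ a := pow_pos hp.pos a
  apply Nat.le_of_mul_le_mul_right _ hpos
  calc Nat.card ↥B * p ^ b * p ^ a = Nat.card ↥B * p ^ (a + b) := by rw [pow_add]; ring
    _ ≤ Nat.card ↥B * p ^ (d + c) := Nat.mul_le_mul_left _ (Nat.pow_le_pow_right hp.pos h4)
    _ = (Nat.card ↥B * p ^ d) * p ^ c := by rw [pow_add]; ring
    _ ≤ (Nat.card ↥A * p ^ a) * p ^ c := Nat.mul_le_mul_right _ hP'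
    _ = Nat.card ↥A * p ^ c * p ^ a := by ring

end Cfsg.Agent.S3087
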