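import Cfsg.Statements.S3155
import Mathlib

set_option autoImplicit false
open Cfsg

namespace Cfsg.Agent.S3155

theorem no_sqrt_neg (L : (ZMod 4 × ZMod 4 × ZMod 4) →ₗ[ZMod 4] (ZMod 4 × ZMod 4 × ZMod 4))
    (hL : ∀ v, L (L v) = -v) : False := by
  let b : Module.Basis (Unit ⊕ (Unit ⊕ Unit)) (ZMod 4) (ZMod 4 × ZMod 4 × ZMod 4) :=
    (Module.Basis.singleton Unit (ZMod 4)).prod
      ((Module.Basis.singleton Unit (ZMod 4)).prod (Module.Basis.singleton Unit (ZMod 4)))
  have h1 : L ∘ₗ L = -LinearMap.id := LinearMap.ext fun v => by simp [hL]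
  have h2 : LinearMap.toMatrix b b (L ∘ₗ L) = LinearMap.toMatrix b b L * LinearMap.toMatrix b b L :=
    LinearMap.toMatrix_comp b b b L L
  have h3 : LinearMap.toMatrix b b (-LinearMap.id) = -1 := by
    rw [map_neg, LinearMap.toMatrix_id]
  have h4 : (LinearMap.toMatrix b b L).det * (LinearMap.toMatrix b b L).det = -1 := by
    rw [← Matrix.det_mul, ← h2, h1, h3, Matrix.det_neg, Matrix.det_one]
    simp
    decide
  have h5 : ∀ x : ZMod 4, x * x ≠ -1 := by decide
  exact h5 _ h4

/-- Let B be the direct product of three cyclic groups of order 4. Then the automorphism of B inverting every element is not the square of any automorphism of B. -/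
theorem result {B : Type*} [CommGroup B] [Finite B] (hB : Nonempty (B ≃* Multiplicative (ZMod 4 × ZMod 4 × ZMod 4)))
    (τ : B ≃* B) : τ.trans τ ≠ MulEquiv.inv B := by
  intro hτ
  obtain ⟨e⟩ := hB
  let σ : (ZMod 4 × ZMod 4 × ZMod 4) →+ (ZMod 4 × ZMod 4 × ZMod 4) :=
    { toFun := fun v => Multiplicative.toAdd (e (τ (e.symm (Multiplicative.ofAdd v))))
      map_zero' := by simp
      map_add' := by
        intro a b
        simp [ofAdd_add] }
  have hσ : ∀ v, σ (σ v) = -v := by
    intro v
    show Multiplicative.toAdd (e (τ (e.symm (Multiplicative.ofAdd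
      (Multiplicative.toAdd (e (τ (e.symm (Multiplicative.ofAdd v))))))))) = -v
    have h1 := congrArg (fun f : B ≃* B => f (e.symm (Multiplicative.ofAdd v))) hτ
    simp only [MulEquiv.trans_apply, MulEquiv.inv_apply] at h1
    rw [ofAdd_toAdd, MulEquiv.symm_apply_apply, h1, map_inv, MulEquiv.apply_symm_apply]
    rfl
  exact no_sqrt_neg (AddMonoidHom.toZModLinearMap 4 σ) hσ

end Cfsg.Agent.S3155
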