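import Cfsg.Statements.S3156
import Cfsg.Agent.Lib.Helper3.SuSyl2
import Cfsg.Agent.Lib.Helper3.SuAut4

set_option autoImplicit false
open Cfsg

namespace Cfsg.Agent.S3156

/-- If a finite group T is isomorphic to a Sylow 2-subgroup of the projective special unitary group of dimension 3 with parameter 4 (realised over the field with 16 elements), then no subgroup of the automorphism group of T is isomorphic to the symmetric group of degree 3. -/
theorem result {T : Type*} [Group T] [Finite T] (hT : (∃ (F : Type) (_ : Field F) (_ : Fintype F), Fintype.card F = 16 ∧ ∃ S : Sylow 2 (Cfsg.PSU 3 F 4), Nonempty (T ≃* ↥(S : Subgroup (Cfsg.PSU 3 F 4))))) (H : Subgroup (MulAut T)) : ¬ Nonempty (↥H ≃* Equiv.Perm (Fin 3)) := by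
  obtain ⟨F, _, _, hF, S, ⟨e⟩⟩ := hT
  rintro ⟨f⟩
  have hF' : Fintype.card F = (2 ^ 2) ^ 2 := by
    rw [hF]
    norm_num
  obtain ⟨C⟩ := Cfsg.Agent.Lib.Helper3.SuSyl.exists_coU_psu 2 hF' S e
  obtain ⟨c, t, hc3, hc1, ht2, htc⟩ : ∃ c t : Equiv.Perm (Fin 3),
      c * c * c = 1 ∧ c ≠ 1 ∧ t * t = 1 ∧ t * c = c * c * t :=
    ⟨Equiv.swap 0 1 * Equiv.swap 1 2, Equiv.swap 0 1, by decide, by decide, by decide, by decide⟩
  refine C.no_S3 rfl ((f.symm c : ↥H) : MulAut T) ((f.symm t : ↥H) : MulAut T) ?_ ?_ ?_ ?_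
  · rw [← Subgroup.coe_mul, ← Subgroup.coe_mul, ← map_mul, ← map_mul, hc3, map_one,
      Subgroup.coe_one]
  · intro h
    apply hc1
    have h1 : f.symm c = 1 := Subtype.ext h
    exact (MulEquiv.map_eq_one_iff f.symm).mp h1
  · rw [← Subgroup.coe_mul, ← map_mul, ht2, map_one, Subgroup.coe_one]
  · rw [← Subgroup.coe_mul, ← Subgroup.coe_mul, ← Subgroup.coe_mul, ← map_mul, ← map_mul,
      ← map_mul, htc]

end Cfsg.Agent.S3156
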