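import Cfsg.Statements.S3180
import Mathlib

set_option autoImplicit false
open Cfsg

namespace Cfsg.Agent.S3180

theorem sylow_conj_mem {J : Type*} [Group J] [Finite J] {p : ℕ} [Fact p.Prime]
    (P Q : Sylow p J) : ∃ k : J, ∀ a ∈ (Q : Subgroup J), k⁻¹ * a * k ∈ (P : Subgroup J) := by
  obtain ⟨k, hk⟩ := MulAction.exists_smul_eq J P Q
  refine ⟨k, fun a ha => ?_⟩
  have h1 : a ∈ ((k • P : Sylow p J) : Subgroup J) := by rw [hk]; exact ha
  rw [Sylow.coe_subgroup_smul, Subgroup.mem_pointwise_smul_iff_inv_smul_mem] at h1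
  simpa [MulAut.smul_def] using h1

theorem mem_normalizer_of_map_eq {J : Type*} [Group J] (P₁ : Subgroup J) (c : J)
    (h : P₁.map (MulAut.conj c).toMonoidHom = P₁) : c ∈ Subgroup.normalizer (P₁ : Set J) := by
  rw [Subgroup.mem_normalizer_iff]
  intro a
  constructor
  · intro ha
    rw [← h]
    exact ⟨a, ha, by simp⟩
  · intro ha
    rw [← h] at ha
    obtain ⟨b, hb, hb2⟩ := ha
    have : b = a := by simpa using hb2
    exact this ▸ hb

/-- Let P be a Sylow p-subgroup of a finite group J and P₁ a subgroup of P that is weakly closed in P with respect to J. If J acts on a set and two points, each fixed by every element of P₁, lie in one J-orbit, then they lie in one orbit of the normalizer of P₁ in J. -/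
theorem result {J : Type*} [Group J] [Finite J]
    {p : ℕ} [Fact p.Prime] (P : Sylow p J) (P₁ : Subgroup J) (hW : Cfsg.IsWeaklyClosed P₁ (P : Subgroup J))
    {Ω : Type*} [MulAction J Ω] (x y : Ω) (hx : ∀ g ∈ P₁, g • x = x) (hy : ∀ g ∈ P₁, g • y = y)
    (hc : ∃ g : J, g • x = y) :
    ∃ g ∈ Subgroup.normalizer (P₁ : Set J), g • x = y := by
  obtain ⟨g, hg⟩ := hc
  have hP₁ : IsPGroup p P₁ := P.isPGroup'.to_le hW.1
  let St : Subgroup J := MulAction.stabilizer J y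
  have h1 : ∀ a ∈ P₁, a ∈ St := fun a ha => hy a ha
  have h2 : ∀ a ∈ P₁, g * a * g⁻¹ ∈ St := by
    intro a ha
    show (g * a * g⁻¹) • y = y
    rw [← hg, mul_smul, mul_smul, inv_smul_smul, hx a ha]
  have hR₁ : IsPGroup p (P₁.subgroupOf St) := hP₁.comap_subtype
  have hR₂ : IsPGroup p ((P₁.map (MulAut.conj g).toMonoidHom).subgroupOf St) :=
    (hP₁.map _).comap_subtype
  obtain ⟨Q, hQ⟩ := hR₁.exists_le_sylow
  obtain ⟨Q₂, hQ₂⟩ := hR₂.exists_le_sylow
  obtain ⟨s, hs⟩ := sylow_conj_mem Q Q₂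
  have hQJ : IsPGroup p ((Q : Subgroup St).map St.subtype) := Q.isPGroup'.map _
  obtain ⟨Q', hQ'⟩ := hQJ.exists_le_sylow
  obtain ⟨k, hk⟩ := sylow_conj_mem P Q'
  have h3 : ∀ a ∈ P₁, k⁻¹ * a * k ∈ (P : Subgroup J) := by
    intro a ha
    apply hk
    apply hQ'
    refine ⟨⟨a, h1 a ha⟩, ?_, rfl⟩
    apply hQ
    rw [Subgroup.mem_subgroupOf]
    exact ha
  have h4 : ∀ a ∈ P₁, k⁻¹ * (s⁻¹ * g * a * g⁻¹ * s) * k ∈ (P : Subgroup J) := by
    intro a ha
    apply hk
    apply hQ'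
    have h5 : (⟨g * a * g⁻¹, h2 a ha⟩ : St) ∈ (Q₂ : Subgroup St) := by
      apply hQ₂
      rw [Subgroup.mem_subgroupOf]
      exact ⟨a, ha, by simp⟩
    refine ⟨s⁻¹ * ⟨g * a * g⁻¹, h2 a ha⟩ * s, hs _ h5, ?_⟩
    simp [mul_assoc]
  have h6 : k⁻¹ ∈ Subgroup.normalizer (P₁ : Set J) := by
    apply mem_normalizer_of_map_eq
    apply hW.2
    rintro _ ⟨a, ha, rfl⟩
    simpa using h3 a ha
  have h7 : k⁻¹ * (s⁻¹ : St) * g ∈ Subgroup.normalizer (P₁ : Set J) := by
    apply mem_normalizer_of_map_eq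
    apply hW.2
    rintro _ ⟨a, ha, rfl⟩
    have := h4 a ha
    simpa [mul_assoc] using this
  refine ⟨(s⁻¹ : St) * g, ?_, ?_⟩
  · have := mul_mem (inv_mem h6) h7
    simpa [mul_assoc] using this
  · rw [mul_smul, hg]
    exact (s⁻¹).2

end Cfsg.Agent.S3180
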