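import Cfsg.Statements.S3183
import Mathlib

set_option autoImplicit false
open Cfsg

namespace Cfsg.Agent.S3183

theorem mem_zm {G : Type*} [Group G] (H : Subgroup G) (x : G) :
    x ∈ (Subgroup.center ↥H).map H.subtype ↔ x ∈ H ∧ ∀ h ∈ H, h * x = x * h := by
  constructor
  · rintro ⟨z, hz, rfl⟩
    refine ⟨z.2, fun h hh => ?_⟩
    have := Subgroup.mem_center_iff.1 hz ⟨h, hh⟩
    exact congrArg Subtype.val this
  · rintro ⟨hx, hc⟩
    refine ⟨⟨x, hx⟩, ?_, rfl⟩
    exact Subgroup.mem_center_iff.2 (fun g => Subtype.ext (hc g g.2))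

theorem mem_cent_singleton {G : Type*} [Group G] (x s : G) :
    s ∈ Subgroup.centralizer ({x} : Set G) ↔ x * s = s * x := by
  rw [Subgroup.mem_centralizer_iff]
  constructor
  · intro h
    exact h x (Set.mem_singleton x)
  · intro h y hy
    rw [Set.mem_singleton_iff] at hy
    rw [hy]
    exact h

theorem card_zm {G : Type*} [Group G] [Finite G] (S U : Sylow 2 G) :
    Nat.card ((Subgroup.center ↥(S : Subgroup G)).map (S : Subgroup G).subtype) =
      Nat.card ((Subgroup.center ↥(U : Subgroup G)).map (U : Subgroup G).subtype) := by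
  rw [Subgroup.card_map_of_injective (Subgroup.subtype_injective _),
    Subgroup.card_map_of_injective (Subgroup.subtype_injective _)]
  exact Nat.card_congr (Subgroup.centerCongr (Sylow.equiv S U)).toEquiv

theorem card_le_sylow {C : Type*} [Group C] [Finite C] (Q : Sylow 2 C) (P : Subgroup C)
    (hP : IsPGroup 2 ↥P) : Nat.card ↥P ≤ Nat.card ↥(Q : Subgroup C) := by
  obtain ⟨Q₂, hQ₂⟩ := hP.exists_le_sylow
  calc Nat.card ↥P ≤ Nat.card ↥(Q₂ : Subgroup C) := Subgroup.card_le_of_le hQ₂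
    _ = Nat.card ↥(Q : Subgroup C) := Nat.card_congr (Sylow.equiv Q₂ Q).toEquiv

theorem part1 {G : Type*} [Group G] [Finite G]
    (hCI : ∀ S T : Sylow 2 G, S ≠ T → ∃ U : Sylow 2 G,
      (S : Subgroup G) ⊓ (T : Subgroup G) ≤ (Subgroup.center ↥(U : Subgroup G)).map (U : Subgroup G).subtype)
    (S : Sylow 2 G) (x : G) (hx : x ∈ (S : Subgroup G)) (P : Subgroup G) (hP : IsPGroup 2 ↥P)
    (hPC : P ≤ Subgroup.centralizer ({x} : Set G)) :
    Nat.card ↥P ≤ Nat.card ↥((S : Subgroup G) ⊓ Subgroup.centralizer ({x} : Set G)) := by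
  set C := Subgroup.centralizer ({x} : Set G) with hC
  have hxC : x ∈ C := (mem_cent_singleton x x).2 rfl
  have hSC2 : IsPGroup 2 ↥(((S : Subgroup G) ⊓ C).subgroupOf C) :=
    (S.isPGroup'.to_le inf_le_left).comap_subtype
  obtain ⟨Q, hQ⟩ := hSC2.exists_le_sylow
  have hQ'2 : IsPGroup 2 ↥((Q : Subgroup C).map C.subtype) := Q.isPGroup'.map _
  obtain ⟨T, hT⟩ := hQ'2.exists_le_sylow
  have hSCQ : (S : Subgroup G) ⊓ C ≤ (Q : Subgroup C).map C.subtype := by
    intro y hy
    exact ⟨⟨y, hy.2⟩, hQ (Subgroup.mem_subgroupOf.2 hy), rfl⟩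
  have hQC : (Q : Subgroup C).map C.subtype ≤ C := Subgroup.map_subtype_le _
  have hPcard : Nat.card ↥P ≤ Nat.card ↥((Q : Subgroup C).map C.subtype) := by
    rw [Subgroup.card_map_of_injective (Subgroup.subtype_injective _)]
    calc Nat.card ↥P = Nat.card ↥(P.subgroupOf C) :=
          (Nat.card_congr (Subgroup.subgroupOfEquivOfLe hPC).toEquiv).symm
      _ ≤ Nat.card ↥(Q : Subgroup C) := card_le_sylow Q _ hP.comap_subtype
  by_cases hTS : T = S
  · have hle : (Q : Subgroup C).map C.subtype ≤ (S : Subgroup G) ⊓ C :=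
      le_inf (hTS ▸ hT) hQC
    exact hPcard.trans (Subgroup.card_le_of_le hle)
  · obtain ⟨U, hU⟩ := hCI S T (Ne.symm hTS)
    have hZS : (Subgroup.center ↥(S : Subgroup G)).map (S : Subgroup G).subtype ≤
        (Subgroup.center ↥(U : Subgroup G)).map (U : Subgroup G).subtype := by
      intro z hz
      apply hU
      rw [mem_zm] at hz
      exact ⟨hz.1, hT (hSCQ ⟨hz.1, (mem_cent_singleton x z).2 (hz.2 x hx)⟩)⟩
    have hZeq := Subgroup.eq_of_le_of_card_ge hZS (le_of_eq (card_zm S U).symm)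
    have hxZ : x ∈ (Subgroup.center ↥(S : Subgroup G)).map (S : Subgroup G).subtype := by
      rw [hZeq]
      exact hU ⟨hx, hT (hSCQ ⟨hx, hxC⟩)⟩
    rw [mem_zm] at hxZ
    have hSle : (S : Subgroup G) ≤ (S : Subgroup G) ⊓ C := by
      intro s hs
      exact ⟨hs, (mem_cent_singleton x s).2 (hxZ.2 s hs).symm⟩
    calc Nat.card ↥P ≤ Nat.card ↥(S : Subgroup G) := card_le_sylow S P hP
      _ ≤ _ := Subgroup.card_le_of_le hSle

theorem part2 {G : Type*} [Group G] [Finite G]
    (hCI : ∀ S T : Sylow 2 G, S ≠ T → ∃ U : Sylow 2 G,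
      (S : Subgroup G) ⊓ (T : Subgroup G) ≤ (Subgroup.center ↥(U : Subgroup G)).map (U : Subgroup G).subtype)
    (S U : Sylow 2 G) (x : G) (hx : x ∈ (S : Subgroup G))
    (hxU : x ∈ (Subgroup.center ↥(U : Subgroup G)).map (U : Subgroup G).subtype) :
    x ∈ (Subgroup.center ↥(S : Subgroup G)).map (S : Subgroup G).subtype := by
  rw [mem_zm] at hxU ⊢
  refine ⟨hx, ?_⟩
  have hUC : (U : Subgroup G) ≤ Subgroup.centralizer ({x} : Set G) := by
    intro u hu
    exact (mem_cent_singleton x u).2 (hxU.2 u hu).symm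
  have h1 := part1 hCI S x hx U U.isPGroup' hUC
  have h2 : Nat.card ↥(S : Subgroup G) ≤ Nat.card ↥(U : Subgroup G) := card_le_sylow U S S.isPGroup'
  have h3 : (S : Subgroup G) ⊓ Subgroup.centralizer ({x} : Set G) = (S : Subgroup G) :=
    Subgroup.eq_of_le_of_card_ge inf_le_left (h2.trans h1)
  intro s hs
  rw [← h3] at hs
  exact ((mem_cent_singleton x s).1 hs.2).symm

/-- Let G be a finite group in which the intersection of any two distinct Sylow 2-subgroups is contained in the centre of some Sylow 2-subgroup, and let S be a Sylow 2-subgroup. Then for every x in S the centralizer of x in S is a Sylow 2-subgroup of the centralizer of x in G (no 2-subgroup centralizing x is larger), and for every other Sylow 2-subgroup T the intersection S ∩ T lies in both the centre of S and the centre of T. -/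
theorem result {G : Type*} [Group G] [Finite G]
    (hCI : ∀ S T : Sylow 2 G, S ≠ T → ∃ U : Sylow 2 G,
      (S : Subgroup G) ⊓ (T : Subgroup G) ≤ (Subgroup.center ↥(U : Subgroup G)).map (U : Subgroup G).subtype)
    (S : Sylow 2 G) :
    (∀ x ∈ (S : Subgroup G), ∀ P : Subgroup G, IsPGroup 2 ↥P → P ≤ Subgroup.centralizer ({x} : Set G) →
        Nat.card ↥P ≤ Nat.card ↥((S : Subgroup G) ⊓ Subgroup.centralizer ({x} : Set G))) ∧
    (∀ T : Sylow 2 G, T ≠ S →
        (S : Subgroup G) ⊓ (T : Subgroup G) ≤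
          (Subgroup.center ↥(S : Subgroup G)).map (S : Subgroup G).subtype ⊓
            (Subgroup.center ↥(T : Subgroup G)).map (T : Subgroup G).subtype) := by
  refine ⟨fun x hx P hP hPC => part1 hCI S x hx P hP hPC, ?_⟩
  intro T hTS x hx
  obtain ⟨U, hU⟩ := hCI S T (Ne.symm hTS)
  have hxU := hU hx
  exact ⟨part2 hCI S U x hx.1 hxU, part2 hCI T U x hx.2 hxU⟩

end Cfsg.Agent.S3183
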