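import Cfsg.Statements.S3195
import Mathlib
import Cfsg.Agent.Lib.Helper21.BaerSuzuki
import Cfsg.Agent.Lib.Lead.Cores

set_option autoImplicit false
open Cfsg

namespace Cfsg.Agent.S3195

section aux
variable {G : Type*} [Group G]

theorem odd_sq_one (z : G) (ho : Odd (orderOf z)) (h : z * z = 1) : z = 1 := by
  have h1 : orderOf z ∣ 2 := orderOf_dvd_of_pow_eq_one (by rw [pow_two]; exact h)
  have h2 : orderOf z = 1 := by
    rcases (Nat.dvd_prime Nat.prime_two).1 h1 with h' | h'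
    · exact h'
    · exfalso
      rw [h'] at ho
      exact (by decide : ¬ Odd 2) ho
  exact orderOf_eq_one_iff.1 h2

theorem odd_inv_self (z : G) (ho : Odd (orderOf z)) (h : z = z⁻¹) : z = 1 := by
  apply odd_sq_one z ho
  calc z * z = z * z⁻¹ := by rw [← h]
    _ = 1 := mul_inv_cancel z

theorem inv_conj (a x : G) (hinv : a * x * a⁻¹ = x⁻¹) : a * x⁻¹ * a⁻¹ = x := by
  have h : a * x⁻¹ * a⁻¹ = (a * x * a⁻¹)⁻¹ := by group
  rw [h, hinv, inv_inv]

/-- if `a` inverts `x` of order `2k+1`, then `x^k a x^{-k} = x⁻¹ a`. -/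
theorem conj_eq (a x : G) (hinv : a * x * a⁻¹ = x⁻¹) (k : ℕ) (hk : orderOf x = 2 * k + 1) :
    x ^ k * a * (x ^ k)⁻¹ = x⁻¹ * a := by
  have h1 : a * (x ^ k)⁻¹ * a⁻¹ = x ^ k := by
    rw [← inv_pow, ← conj_pow, inv_conj a x hinv]
  have h2 : a * (x ^ k)⁻¹ = x ^ k * a := by
    calc a * (x ^ k)⁻¹ = (a * (x ^ k)⁻¹ * a⁻¹) * a := by group
      _ = x ^ k * a := by rw [h1]
  have h3 : x ^ k * x ^ k = x⁻¹ := by
    rw [← pow_add, ← two_mul]
    have : x ^ (2 * k) * x = 1 := by rw [← pow_succ, ← hk, pow_orderOf_eq_one]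
    exact eq_inv_of_mul_eq_one_left this
  rw [mul_assoc, h2, ← mul_assoc, h3]

variable [Finite G]

/-- An involution outside every normal 2-subgroup inverts a nontrivial element of odd order. -/
theorem exists_inverted (a : G) (ha : a * a = 1)
    (hnot : ∀ N : Subgroup G, N.Normal → IsPGroup 2 N → a ∉ N) :
    ∃ x : G, x ≠ 1 ∧ Odd (orderOf x) ∧ a * x * a⁻¹ = x⁻¹ := by
  by_contra hcon
  push Not at hcon
  have hainv : a⁻¹ = a := inv_eq_of_mul_eq_one_left ha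
  have hX : IsPGroup 2 (Subgroup.zpowers a) := by
    by_cases h1 : a = 1
    · apply IsPGroup.of_card (n := 0)
      rw [Nat.card_zpowers, h1, orderOf_one, pow_zero]
    · apply IsPGroup.of_card (n := 1)
      rw [Nat.card_zpowers, pow_one]
      exact orderOf_eq_prime (by rw [pow_two]; exact ha) h1
  suffices hpair : ∀ g : G, IsPGroup 2
      ↥(Subgroup.zpowers a ⊔ (Subgroup.zpowers a).map (MulAut.conj g).toMonoidHom) by
    obtain ⟨N, hN, hN2, hle⟩ := Cfsg.Agent.Lib.Helper21.BaerSuzuki.baer_suzuki (p := 2)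
      (Subgroup.zpowers a) hX hpair
    exact hnot N hN hN2 (hle (Subgroup.mem_zpowers a))
  intro g
  obtain ⟨d, hd⟩ : ∃ d : G, d = g * a * g⁻¹ := ⟨_, rfl⟩
  have hdd : d * d = 1 := by
    rw [hd]
    calc g * a * g⁻¹ * (g * a * g⁻¹) = g * (a * a) * g⁻¹ := by group
      _ = 1 := by rw [ha]; group
  have hdinv : d⁻¹ = d := inv_eq_of_mul_eq_one_left hdd
  obtain ⟨z, hz⟩ : ∃ z : G, z = a * d := ⟨_, rfl⟩
  have hzinv : a * z * a⁻¹ = z⁻¹ := by
    rw [hz, mul_inv_rev, hdinv, hainv]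
    calc a * (a * d) * a = (a * a) * d * a := by group
      _ = d * a := by rw [ha, one_mul]
  obtain ⟨e, m, hm, hem⟩ := Nat.exists_eq_two_pow_mul_odd (orderOf_pos z).ne'
  have hm1 : m = 1 := by
    by_contra hm1
    have hord : orderOf (z ^ 2 ^ e) = m := by
      rw [orderOf_pow_of_dvd (pow_ne_zero e (by norm_num)) (hem ▸ Dvd.intro _ rfl), hem,
        Nat.mul_div_cancel_left _ (pow_pos (by norm_num) e)]
    refine hcon (z ^ 2 ^ e) ?_ (hord ▸ hm) ?_
    · intro h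
      rw [h, orderOf_one] at hord
      exact hm1 hord.symm
    · rw [← conj_pow, hzinv, inv_pow]
  rw [hm1, mul_one] at hem
  have hZ : IsPGroup 2 (Subgroup.zpowers z) := by
    apply IsPGroup.of_card (n := e)
    rw [Nat.card_zpowers, hem]
  have hnorm : Subgroup.zpowers a ≤ Subgroup.normalizer (Subgroup.zpowers z : Set G) := by
    rw [Subgroup.zpowers_le]
    have hfwd : ∀ h ∈ Subgroup.zpowers z, a * h * a⁻¹ ∈ Subgroup.zpowers z := by
      intro h hh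
      obtain ⟨k, rfl⟩ := Subgroup.mem_zpowers_iff.1 hh
      rw [← conj_zpow, hzinv]
      exact Subgroup.zpow_mem _ (Subgroup.inv_mem _ (Subgroup.mem_zpowers z)) k
    rw [Subgroup.mem_normalizer_iff]
    intro h
    constructor
    · exact hfwd h
    · intro hh
      have := hfwd _ hh
      have e1 : a * (a * h * a⁻¹) * a⁻¹ = h := by
        rw [hainv]
        calc a * (a * h * a) * a = (a * a) * h * (a * a) := by group
          _ = h := by rw [ha, one_mul, mul_one]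
      rw [e1] at this
      exact this
  have hsup : IsPGroup 2 (Subgroup.zpowers a ⊔ Subgroup.zpowers z : Subgroup G) :=
    IsPGroup.to_sup_of_normal_right' hX hZ hnorm
  refine hsup.to_le (sup_le le_sup_left ?_)
  rw [MonoidHom.map_zpowers, Subgroup.zpowers_le]
  have e2 : (MulAut.conj g).toMonoidHom a = a⁻¹ * z := by
    rw [hz, hd]
    simp [MulAut.conj_apply]
  rw [e2]
  exact Subgroup.mul_mem _ (Subgroup.inv_mem _ (Subgroup.mem_sup_left (Subgroup.mem_zpowers a)))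
    (Subgroup.mem_sup_right (Subgroup.mem_zpowers z))

/-- an odd-order element inverted by an involution of `A` is centralized by another one. -/
theorem star (A : Subgroup G) (hAc : ∀ u ∈ A, ∀ v ∈ A, u * v = v * u)
    (h : ∀ a ∈ A, a ≠ 1 → ∀ g : G, ∃ c ∈ A, c ≠ 1 ∧ c * (g * a * g⁻¹) = (g * a * g⁻¹) * c)
    (a : G) (haA : a ∈ A) (ha1 : a ≠ 1) (x : G) (hx1 : x ≠ 1)
    (hxo : Odd (orderOf x)) (hinv : a * x * a⁻¹ = x⁻¹) :
    ∃ c ∈ A, c ≠ 1 ∧ c ≠ a ∧ c * x = x * c := by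
  obtain ⟨k, hk⟩ := hxo
  obtain ⟨c, hcA, hc1, hc⟩ := h a haA ha1 (x ^ k)
  rw [conj_eq a x hinv k hk] at hc
  have hca : c * a = a * c := hAc c hcA a haA
  have hcx : c * x⁻¹ = x⁻¹ * c := by
    have e1 : c * x⁻¹ = c * (x⁻¹ * a) * a⁻¹ := by group
    rw [e1, hc]
    calc x⁻¹ * a * c * a⁻¹ = x⁻¹ * (a * c) * a⁻¹ := by group
      _ = x⁻¹ * (c * a) * a⁻¹ := by rw [hca]
      _ = x⁻¹ * c := by group
  refine ⟨c, hcA, hc1, ?_, ?_⟩
  · intro hcae
    rw [hcae] at hcx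
    apply hx1
    apply odd_inv_self x ⟨k, hk⟩
    calc x = a * x⁻¹ * a⁻¹ := (inv_conj a x hinv).symm
      _ = x⁻¹ * a * a⁻¹ := by rw [hcx]
      _ = x⁻¹ := by group
  · have e3 : x * c = x * (c * x⁻¹) * x := by group
    rw [e3, hcx]; group

theorem key (A : Subgroup G) (hAc : ∀ u ∈ A, ∀ v ∈ A, u * v = v * u)
    (h : ∀ a ∈ A, a ≠ 1 → ∀ g : G, ∃ c ∈ A, c ≠ 1 ∧ c * (g * a * g⁻¹) = (g * a * g⁻¹) * c)
    (s t : G) (hs : s ∈ A) (ht : t ∈ A) (hs1 : s ≠ 1) (ht1 : t ≠ 1) (hst : s ≠ t)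
    (hss : s * s = 1) (htt : t * t = 1)
    (hAel : ∀ c ∈ A, c = 1 ∨ c = s ∨ c = t ∨ c = s * t)
    (x y : G) (hx1 : x ≠ 1) (hxo : Odd (orderOf x)) (hxt : t * x = x * t)
    (hxs : s * x * s⁻¹ = x⁻¹)
    (hy1 : y ≠ 1) (hyo : Odd (orderOf y)) (hys : s * y = y * s) (hyt : t * y * t⁻¹ = y⁻¹) :
    False := by
  have hsinv : s⁻¹ = s := inv_eq_of_mul_eq_one_left hss
  have htinv : t⁻¹ = t := inv_eq_of_mul_eq_one_left htt
  have hstc : s * t = t * s := hAc s hs t ht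
  have hxt' : t * x⁻¹ = x⁻¹ * t := (Commute.inv_right (show Commute t x from hxt)).eq
  -- `x` and `y` commute
  have hxy : x * y = y * x := by
    obtain ⟨kx, hkx⟩ := hxo
    obtain ⟨ky, hky⟩ := hyo
    obtain ⟨u, hu⟩ : ∃ u : G, u = y ^ (ky + 1) := ⟨_, rfl⟩
    have hu2 : u * u = y := by
      rw [hu, ← pow_add]
      have : ky + 1 + (ky + 1) = (2 * ky + 1) + 1 := by ring
      rw [this, pow_succ, ← hky, pow_orderOf_eq_one, one_mul]
    have hus : s * u = u * s := by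
      rw [hu]
      exact (Commute.pow_right (show Commute s y from hys) _).eq
    have hut : t * u * t⁻¹ = u⁻¹ := by
      rw [hu, ← conj_pow, hyt, inv_pow]
    have hut' : t * u⁻¹ = u * t := by
      have e1 : t * u⁻¹ = (t * u * t⁻¹)⁻¹ * t := by group
      rw [e1, hut, inv_inv]
    have hut'' : t * u = u⁻¹ * t := by
      have e1 : t * u = (t * u * t⁻¹) * t := by group
      rw [e1, hut]
    obtain ⟨c, hcA, hc1, hc⟩ := h s hs hs1 (u⁻¹ * x ^ kx)
    have e0 : u⁻¹ * x ^ kx * s * (u⁻¹ * x ^ kx)⁻¹ = u⁻¹ * x⁻¹ * u * s := by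
      have e1 : u⁻¹ * x ^ kx * s * (u⁻¹ * x ^ kx)⁻¹ = u⁻¹ * (x ^ kx * s * (x ^ kx)⁻¹) * u := by
        group
      rw [e1, conj_eq s x hxs kx hkx]
      calc u⁻¹ * (x⁻¹ * s) * u = u⁻¹ * x⁻¹ * (s * u) := by group
        _ = u⁻¹ * x⁻¹ * (u * s) := by rw [hus]
        _ = u⁻¹ * x⁻¹ * u * s := by group
    rw [e0] at hc
    have hcs : c * s = s * c := hAc c hcA s hs
    -- `c` commutes with `x' = u⁻¹ x⁻¹ u`
    have hcx' : c * (u⁻¹ * x⁻¹ * u) = (u⁻¹ * x⁻¹ * u) * c := by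
      have e1 : c * (u⁻¹ * x⁻¹ * u) = c * (u⁻¹ * x⁻¹ * u * s) * s⁻¹ := by group
      rw [e1, hc]
      calc u⁻¹ * x⁻¹ * u * s * c * s⁻¹ = u⁻¹ * x⁻¹ * u * (s * c) * s⁻¹ := by group
        _ = u⁻¹ * x⁻¹ * u * (c * s) * s⁻¹ := by rw [hcs]
        _ = u⁻¹ * x⁻¹ * u * c := by group
    have hsx' : s * (u⁻¹ * x⁻¹ * u) * s⁻¹ = (u⁻¹ * x⁻¹ * u)⁻¹ := by
      have hus' : s * u⁻¹ = u⁻¹ * s := by
        have e1 : s * u⁻¹ = u⁻¹ * (u * s) * u⁻¹ := by group
        rw [e1, ← hus]; group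
      calc s * (u⁻¹ * x⁻¹ * u) * s⁻¹ = (s * u⁻¹) * x⁻¹ * u * s⁻¹ := by group
        _ = (u⁻¹ * s) * x⁻¹ * u * s⁻¹ := by rw [hus']
        _ = u⁻¹ * (s * x * s⁻¹)⁻¹ * (s * u) * s⁻¹ := by group
        _ = u⁻¹ * (x⁻¹)⁻¹ * (u * s) * s⁻¹ := by rw [hxs, hus]
        _ = (u⁻¹ * x⁻¹ * u)⁻¹ := by group
    rcases hAel c hcA with hc' | hc' | hc' | hc'
    · exact absurd hc' hc1
    · -- c = s
      exfalso
      rw [hc'] at hcx'
      have e1 : (u⁻¹ * x⁻¹ * u) = (u⁻¹ * x⁻¹ * u)⁻¹ := by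
        rw [← hsx', hcx']; group
      have hxx : x⁻¹ * x⁻¹ = 1 := by
        have e2 : (u⁻¹ * x⁻¹ * u) * (u⁻¹ * x⁻¹ * u) = 1 := by
          nth_rewrite 2 [e1]
          exact mul_inv_cancel _
        have e3 : x⁻¹ * x⁻¹ = u * ((u⁻¹ * x⁻¹ * u) * (u⁻¹ * x⁻¹ * u)) * u⁻¹ := by group
        rw [e3, e2]; group
      apply hx1
      apply odd_sq_one x ⟨kx, hkx⟩
      have : x * x = (x⁻¹ * x⁻¹)⁻¹ := by rw [mul_inv_rev, inv_inv]
      rw [this, hxx, inv_one]
    · -- c = t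
      rw [hc'] at hcx'
      have e1 : t * (u⁻¹ * x⁻¹ * u) = u * x⁻¹ * u⁻¹ * t := by
        calc t * (u⁻¹ * x⁻¹ * u) = (t * u⁻¹) * x⁻¹ * u := by group
          _ = (u * t) * x⁻¹ * u := by rw [hut']
          _ = u * (t * x⁻¹) * u := by group
          _ = u * (x⁻¹ * t) * u := by rw [hxt']
          _ = u * x⁻¹ * (t * u) := by group
          _ = u * x⁻¹ * (u⁻¹ * t) := by rw [hut'']
          _ = u * x⁻¹ * u⁻¹ * t := by group
      rw [e1] at hcx'
      have e2 : u * x⁻¹ * u⁻¹ = u⁻¹ * x⁻¹ * u := mul_right_cancel hcx'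
      have e3 : (u * u) * x⁻¹ = x⁻¹ * (u * u) := by
        calc (u * u) * x⁻¹ = u * (u * x⁻¹ * u⁻¹) * u := by group
          _ = u * (u⁻¹ * x⁻¹ * u) * u := by rw [e2]
          _ = x⁻¹ * (u * u) := by group
      rw [hu2] at e3
      calc x * y = x * (y * x⁻¹) * x := by group
        _ = x * (x⁻¹ * y) * x := by rw [e3]
        _ = y * x := by group
    · -- c = s * t
      exfalso
      rw [hc'] at hcx'
      have hstx : s * t * x⁻¹ = x * (s * t) := by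
        calc s * t * x⁻¹ = s * (t * x⁻¹) := by group
          _ = s * (x⁻¹ * t) := by rw [hxt']
          _ = (s * x⁻¹ * s⁻¹) * s * t := by group
          _ = x * s * t := by rw [inv_conj s x hxs]
          _ = x * (s * t) := by rw [mul_assoc]
      have e1 : s * t * (u⁻¹ * x⁻¹ * u) = u * x * u⁻¹ * (s * t) := by
        have hsu' : s * u⁻¹ = u⁻¹ * s := by
          have e1 : s * u⁻¹ = u⁻¹ * (u * s) * u⁻¹ := by group
          rw [e1, ← hus]; group
        calc s * t * (u⁻¹ * x⁻¹ * u) = s * (t * u⁻¹) * x⁻¹ * u := by group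
          _ = s * (u * t) * x⁻¹ * u := by rw [hut']
          _ = (s * u) * (t * x⁻¹) * u := by group
          _ = (u * s) * (t * x⁻¹) * u := by rw [hus]
          _ = u * (s * t * x⁻¹) * u := by group
          _ = u * (x * (s * t)) * u := by rw [hstx]
          _ = u * x * s * (t * u) := by group
          _ = u * x * s * (u⁻¹ * t) := by rw [hut'']
          _ = u * x * (s * u⁻¹) * t := by group
          _ = u * x * (u⁻¹ * s) * t := by rw [hsu']
          _ = u * x * u⁻¹ * (s * t) := by group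
      rw [e1] at hcx'
      have e2 : u * x * u⁻¹ = u⁻¹ * x⁻¹ * u := mul_right_cancel hcx'
      have e3 : y * x * y⁻¹ = x⁻¹ := by
        rw [← hu2]
        calc u * u * x * (u * u)⁻¹ = u * (u * x * u⁻¹) * u⁻¹ := by group
          _ = u * (u⁻¹ * x⁻¹ * u) * u⁻¹ := by rw [e2]
          _ = x⁻¹ := by group
      have e4 : (y * y) * x = x * (y * y) := by
        calc (y * y) * x = y * (y * x * y⁻¹) * y := by group
          _ = y * x⁻¹ * y := by rw [e3]
          _ = (y * x * y⁻¹)⁻¹ * (y * y) := by group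
          _ = x * (y * y) := by rw [e3, inv_inv]
      have e5 : y * x = x * y := by
        have hy' : y = (y * y) ^ (ky + 1) := by
          rw [← pow_two, ← pow_mul]
          have : 2 * (ky + 1) = (2 * ky + 1) + 1 := by ring
          rw [this, pow_succ, ← hky, pow_orderOf_eq_one, one_mul]
        have hcomm : Commute ((y * y) ^ (ky + 1)) x := Commute.pow_left e4 _
        rw [← hy'] at hcomm
        exact hcomm.eq
      apply hx1
      apply odd_inv_self x ⟨kx, hkx⟩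
      rw [← e3, e5]; group
  -- the product `x * y` is inverted by `s * t`
  have hv1 : x * y ≠ 1 := by
    intro hv
    have hyx : y = x⁻¹ := eq_inv_of_mul_eq_one_right hv
    apply hy1
    apply odd_inv_self y hyo
    have e1 : s * y * s⁻¹ = y := by rw [hys]; group
    have e2 : s * y * s⁻¹ = y⁻¹ := by
      rw [hyx, inv_inv]
      calc s * x⁻¹ * s⁻¹ = (s * x * s⁻¹)⁻¹ := by group
        _ = x := by rw [hxs, inv_inv]
    rw [← e1]
    nth_rewrite 2 [e1]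
    exact e2
  have hvo : Odd (orderOf (x * y)) := by
    have hd : orderOf (x * y) ∣ orderOf x * orderOf y := by
      apply orderOf_dvd_of_pow_eq_one
      rw [(show Commute x y from hxy).mul_pow, pow_mul, pow_orderOf_eq_one, one_pow, mul_comm,
        pow_mul, pow_orderOf_eq_one, one_pow, one_mul]
    exact Odd.of_dvd_nat (hxo.mul hyo) hd
  have hstx : s * t * x * (s * t)⁻¹ = x⁻¹ := by
    calc s * t * x * (s * t)⁻¹ = s * (t * x) * t⁻¹ * s⁻¹ := by group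
      _ = s * (x * t) * t⁻¹ * s⁻¹ := by rw [hxt]
      _ = s * x * s⁻¹ := by group
      _ = x⁻¹ := hxs
  have hsty : s * t * y * (s * t)⁻¹ = y⁻¹ := by
    calc s * t * y * (s * t)⁻¹ = s * (t * y * t⁻¹) * s⁻¹ := by group
      _ = s * y⁻¹ * s⁻¹ := by rw [hyt]
      _ = (s * y * s⁻¹)⁻¹ := by group
      _ = (y * s * s⁻¹)⁻¹ := by rw [hys]
      _ = y⁻¹ := by group
  have hvinv : s * t * (x * y) * (s * t)⁻¹ = (x * y)⁻¹ := by
    calc s * t * (x * y) * (s * t)⁻¹ = (s * t * x * (s * t)⁻¹) * (s * t * y * (s * t)⁻¹) := by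
          group
      _ = x⁻¹ * y⁻¹ := by rw [hstx, hsty]
      _ = (y * x)⁻¹ := by group
      _ = (x * y)⁻¹ := by rw [hxy]
  have hst1 : s * t ≠ 1 := by
    intro h1
    apply hst
    have : s = t⁻¹ := eq_inv_of_mul_eq_one_left h1
    rw [this, htinv]
  obtain ⟨c, hcA, hc1, hcst, hcv⟩ := star A hAc h (s * t) (A.mul_mem hs ht) hst1 (x * y) hv1 hvo
    hvinv
  rcases hAel c hcA with hc' | hc' | hc' | hc'
  · exact hc1 hc'
  · -- c = s
    rw [hc'] at hcv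
    apply hx1
    apply odd_inv_self x hxo
    have e1 : s * x = x * s := by
      have e2 : s * x = s * (x * y) * y⁻¹ := by group
      rw [e2, hcv]
      calc x * y * s * y⁻¹ = x * (y * s) * y⁻¹ := by group
        _ = x * (s * y) * y⁻¹ := by rw [hys]
        _ = x * s := by group
    rw [← hxs, e1]; group
  · -- c = t
    rw [hc'] at hcv
    apply hy1
    apply odd_inv_self y hyo
    have e1 : t * y = y * t := by
      have e2 : t * y = x⁻¹ * (t * x) * y := by rw [hxt]; group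
      have e3 : x⁻¹ * (t * x) * y = x⁻¹ * (t * (x * y)) := by group
      rw [e2, e3, hcv]; group
    rw [← hyt, e1]; group
  · exact hcst hc'

end aux

/-- Let A be a Klein four-subgroup of a finite group G. If every G-conjugate of every involution of A commutes with some involution of A (its centralizer meets A nontrivially), then A meets the largest normal 2-subgroup O₂(G) nontrivially. -/
theorem result {G : Type*} [Group G] [Finite G]
    (A : Subgroup G) (hA : IsKleinFour ↥A)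
    (h : ∀ a ∈ A, a ≠ 1 → ∀ g : G, A ⊓ Subgroup.centralizer ({g * a * g⁻¹} : Set G) ≠ ⊥) :
    A ⊓ Cfsg.pCore 2 G ≠ ⊥ := by
  haveI := hA
  have hmulself : ∀ c ∈ A, c * c = 1 := fun c hc =>
    congrArg Subtype.val (IsKleinFour.mul_self (⟨c, hc⟩ : A))
  have hAc : ∀ u ∈ A, ∀ v ∈ A, u * v = v * u := fun u hu v hv =>
    congrArg Subtype.val ((IsKleinFour.isMulCommutative (G := A)).is_comm.comm ⟨u, hu⟩ ⟨v, hv⟩)
  have hel : ∀ s ∈ A, ∀ t ∈ A, s ≠ 1 → t ≠ 1 → s ≠ t →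
      ∀ c ∈ A, c = 1 ∨ c = s ∨ c = t ∨ c = s * t := by
    intro s hs t ht hs1 ht1 hst c hc
    by_cases h1 : c = 1
    · left; exact h1
    by_cases h2 : c = s
    · right; left; exact h2
    by_cases h3 : c = t
    · right; right; left; exact h3
    right; right; right
    have := IsKleinFour.eq_mul_of_ne_all (G := A) (x := ⟨s, hs⟩) (y := ⟨t, ht⟩) (z := ⟨c, hc⟩)
      (fun h => hs1 (congrArg Subtype.val h)) (fun h => ht1 (congrArg Subtype.val h))
      (fun h => hst (congrArg Subtype.val h)) (fun h => h1 (congrArg Subtype.val h))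
      (fun h => h2 (congrArg Subtype.val h)) (fun h => h3 (congrArg Subtype.val h))
    exact congrArg Subtype.val this
  have hcard : Nat.card A = 4 := IsKleinFour.card_four
  have h' : ∀ a ∈ A, a ≠ 1 → ∀ g : G, ∃ c ∈ A, c ≠ 1 ∧ c * (g * a * g⁻¹) = (g * a * g⁻¹) * c := by
    intro a ha ha1 g
    obtain ⟨⟨c, hc⟩, hc1⟩ := (Subgroup.ne_bot_iff_exists_ne_one).1 (h a ha ha1 g)
    rw [Subgroup.mem_inf, Subgroup.mem_centralizer_iff] at hc
    refine ⟨c, hc.1, fun h => hc1 (Subtype.ext h), ?_⟩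
    exact (hc.2 _ rfl).symm
  obtain ⟨s, hs, hs1⟩ : ∃ s ∈ A, s ≠ 1 := by
    have hne : A ≠ ⊥ := by
      intro hb
      rw [hb, Subgroup.card_bot] at hcard
      omega
    obtain ⟨⟨s, hs⟩, hs1⟩ := (Subgroup.ne_bot_iff_exists_ne_one).1 hne
    exact ⟨s, hs, fun h => hs1 (Subtype.ext h)⟩
  obtain ⟨t, ht, ht1, hts⟩ : ∃ t ∈ A, t ≠ 1 ∧ t ≠ s := by
    by_contra hcon
    push Not at hcon
    have hsub : (A : Set G) ⊆ {1, s} := by
      intro c hc
      by_cases h1 : c = 1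
      · left; exact h1
      · right; exact hcon c hc h1
    have h1 : Nat.card A = (A : Set G).ncard := Nat.card_coe_set_eq _
    have h2 := Set.ncard_le_ncard hsub (Set.toFinite _)
    have h3 : ({1, s} : Set G).ncard ≤ 2 :=
      (Set.ncard_insert_le _ _).trans (by rw [Set.ncard_singleton])
    omega
  have hst : s ≠ t := fun h => hts h.symm
  have hAel := hel s hs t ht hs1 ht1 hst
  have hst1 : s * t ≠ 1 := by
    intro h1
    apply hst
    have e1 : s = t⁻¹ := eq_inv_of_mul_eq_one_left h1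
    rw [e1]
    exact inv_eq_of_mul_eq_one_left (hmulself t ht)
  have hstA : s * t ∈ A := A.mul_mem hs ht
  by_contra hbot
  have hnot : ∀ a ∈ A, a ≠ 1 → ∀ N : Subgroup G, N.Normal → IsPGroup 2 N → a ∉ N := by
    intro a ha ha1 N hN hN2 haN
    have hmem : a ∈ A ⊓ Cfsg.pCore 2 G :=
      ⟨ha, Cfsg.Agent.Lib.Lead.Cores.le_pCore hN hN2 haN⟩
    rw [hbot, Subgroup.mem_bot] at hmem
    exact ha1 hmem
  -- a "type" for every involution
  have htype : ∀ a ∈ A, a ≠ 1 → ∃ κ ∈ A, κ ≠ 1 ∧ κ ≠ a ∧ ∃ x : G, x ≠ 1 ∧ Odd (orderOf x) ∧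
      κ * x = x * κ ∧ ∀ c ∈ A, c ≠ 1 → c ≠ κ → c * x * c⁻¹ = x⁻¹ := by
    intro a ha ha1
    obtain ⟨x, hx1, hxo, hxa⟩ := exists_inverted a (hmulself a ha) (hnot a ha ha1)
    obtain ⟨κ, hκA, hκ1, hκa, hκx⟩ := star A hAc h' a ha ha1 x hx1 hxo hxa
    refine ⟨κ, hκA, hκ1, hκa, x, hx1, hxo, hκx, ?_⟩
    intro c hc hc1 hcκ
    rcases hel a ha κ hκA ha1 hκ1 (fun h => hκa h.symm) c hc with h1 | h1 | h1 | h1
    · exact absurd h1 hc1
    · rw [h1]; exact hxa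
    · exact absurd h1 hcκ
    · rw [h1]
      calc a * κ * x * (a * κ)⁻¹ = a * (κ * x) * κ⁻¹ * a⁻¹ := by group
        _ = a * (x * κ) * κ⁻¹ * a⁻¹ := by rw [hκx]
        _ = a * x * a⁻¹ := by group
        _ = x⁻¹ := hxa
  have hkey : ∀ κ ∈ A, ∀ κ' ∈ A, κ ≠ 1 → κ' ≠ 1 → κ ≠ κ' →
      (∃ x : G, x ≠ 1 ∧ Odd (orderOf x) ∧ κ * x = x * κ ∧
        ∀ c ∈ A, c ≠ 1 → c ≠ κ → c * x * c⁻¹ = x⁻¹) →
      (∃ x : G, x ≠ 1 ∧ Odd (orderOf x) ∧ κ' * x = x * κ' ∧
        ∀ c ∈ A, c ≠ 1 → c ≠ κ' → c * x * c⁻¹ = x⁻¹) → False := by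
    rintro κ hκ κ' hκ' hκ1 hκ'1 hne ⟨x, hx1, hxo, hxc, hxi⟩ ⟨y, hy1, hyo, hyc, hyi⟩
    exact key A hAc h' κ' κ hκ' hκ hκ'1 hκ1 (fun h => hne h.symm) (hmulself κ' hκ')
      (hmulself κ hκ) (hel κ' hκ' κ hκ hκ'1 hκ1 (fun h => hne h.symm)) x y hx1 hxo hxc
      (hxi κ' hκ' hκ'1 (fun h => hne h.symm)) hy1 hyo hyc (hyi κ hκ hκ1 hne)
  obtain ⟨κ₁, hκ₁A, hκ₁1, hκ₁s, hx₁⟩ := htype s hs hs1
  obtain ⟨κ₂, hκ₂A, hκ₂1, hκ₂t, hx₂⟩ := htype t ht ht1
  obtain ⟨κ₃, hκ₃A, hκ₃1, hκ₃st, hx₃⟩ := htype (s * t) hstA hst1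
  by_cases h12 : κ₁ = κ₂
  · by_cases h13 : κ₁ = κ₃
    · rcases hAel κ₁ hκ₁A with h1 | h1 | h1 | h1
      · exact hκ₁1 h1
      · exact hκ₁s h1
      · exact hκ₂t (h12 ▸ h1)
      · exact hκ₃st (h13 ▸ h1)
    · exact hkey κ₁ hκ₁A κ₃ hκ₃A hκ₁1 hκ₃1 h13 hx₁ hx₃
  · exact hkey κ₁ hκ₁A κ₂ hκ₂A hκ₁1 hκ₂1 h12 hx₁ hx₂

end Cfsg.Agent.S3195
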