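import Cfsg.Statements.S3196
import Mathlib
import Cfsg.Agent.Lib.Helper21.BaerSuzuki
import Cfsg.Agent.Lib.Helper19.RelIndex
import Cfsg.Agent.Lib.Lead.Cores

set_option autoImplicit false
open Cfsg

namespace Cfsg.Agent.S3196

variable {G : Type*} [Group G]

/-- elementwise commuting -/
def Cm (X Y : Subgroup G) : Prop := ∀ x ∈ X, ∀ y ∈ Y, x * y = y * x

theorem Cm.symm {X Y : Subgroup G} (h : Cm X Y) : Cm Y X := fun y hy x hx => (h x hx y hy).symm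

theorem Cm_iff_le {X Y : Subgroup G} : Cm X Y ↔ X ≤ Subgroup.centralizer (Y : Set G) := by
  constructor
  · intro h x hx
    rw [Subgroup.mem_centralizer_iff]
    intro y hy
    exact (h x hx y hy).symm
  · intro h x hx y hy
    have := Subgroup.mem_centralizer_iff.1 (h hx) y hy
    exact this.symm

theorem Cm.sup_left {A B C : Subgroup G} (h1 : Cm A C) (h2 : Cm B C) : Cm (A ⊔ B) C :=
  Cm_iff_le.2 (sup_le (Cm_iff_le.1 h1) (Cm_iff_le.1 h2))

theorem Cm.sup_right {A B C : Subgroup G} (h1 : Cm C A) (h2 : Cm C B) : Cm C (A ⊔ B) :=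
  (Cm.sup_left h1.symm h2.symm).symm

theorem Cm.mono {A B A' B' : Subgroup G} (h : Cm A B) (hA : A' ≤ A) (hB : B' ≤ B) : Cm A' B' :=
  fun x hx y hy => h x (hA hx) y (hB hy)

theorem Cm_zpowers {x y : G} (h : x * y = y * x) :
    Cm (Subgroup.zpowers x) (Subgroup.zpowers y) := by
  rintro _ ⟨i, rfl⟩ _ ⟨j, rfl⟩
  exact ((Commute.zpow_zpow (show Commute x y from h)) i j).eq

theorem pow_p_eq_one {p : ℕ} {X : Subgroup G} (hX : Nat.card X = p) {x : G} (hx : x ∈ X) :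
    x ^ p = 1 := by
  have : (⟨x, hx⟩ : X) ^ Nat.card X = 1 := pow_card_eq_one'
  rw [hX] at this
  exact congrArg Subtype.val this

theorem card_zpowers_eq {p : ℕ} (hp : p.Prime) {g : G} (hg : g ^ p = 1) (hg1 : g ≠ 1) :
    Nat.card (Subgroup.zpowers g) = p := by
  haveI := Fact.mk hp
  rw [Nat.card_zpowers, orderOf_eq_prime hg hg1]

theorem eq_zpowers [Finite G] {p : ℕ} (hp : p.Prime) {X : Subgroup G} (hX : Nat.card X = p)
    {x : G} (hx : x ∈ X) (hx1 : x ≠ 1) : X = Subgroup.zpowers x := by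
  have hle : Subgroup.zpowers x ≤ X := by rw [Subgroup.zpowers_le]; exact hx
  refine (Subgroup.eq_of_le_of_card_ge hle ?_).symm
  rw [card_zpowers_eq hp (pow_p_eq_one hX hx) hx1, hX]

theorem exists_ne_one {p : ℕ} (hp : p.Prime) {X : Subgroup G} (hX : Nat.card X = p) :
    ∃ x ∈ X, x ≠ 1 := by
  by_contra h
  push Not at h
  have : X = ⊥ := (Subgroup.eq_bot_iff_forall X).2 h
  rw [this, Subgroup.card_bot] at hX
  exact hp.one_lt.ne hX

theorem Cm_self [Finite G] {p : ℕ} (hp : p.Prime) {X : Subgroup G} (hX : Nat.card X = p) :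
    Cm X X := by
  obtain ⟨x, hx, hx1⟩ := exists_ne_one hp hX
  have h := eq_zpowers hp hX hx hx1
  rw [h]
  exact Cm_zpowers rfl

theorem sup_decomp {X Y : Subgroup G} (hc : Cm X Y) {g : G} (hg : g ∈ X ⊔ Y) :
    ∃ a ∈ X, ∃ b ∈ Y, g = a * b :=
  Cfsg.Agent.Lib.Helper19.exists_mul_of_mem_sup X Y
    ((Cm_iff_le.1 hc.symm).trans (Subgroup.centralizer_le_normalizer _)) g hg

/-- the hypotheses of the statement -/
structure Hyp (p : ℕ) (K : Set (Subgroup G)) : Prop where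
  hp : p.Prime
  hK : ∀ X ∈ K, Nat.card ↥X = p
  hKc : ∀ X ∈ K, ∀ g : G, X.map (MulAut.conj g).toMonoidHom ∈ K
  hex : ∃ X ∈ K, ∃ Y ∈ K, X ≠ Y ∧ ∀ x ∈ X, ∀ y ∈ Y, x * y = y * x
  ha : ∀ X ∈ K, ∀ Y ∈ K, X ≠ Y → (∀ x ∈ X, ∀ y ∈ Y, x * y = y * x) →
      ∀ Z : Subgroup G, Z ≤ X ⊔ Y → Nat.card ↥Z = p → Z ∈ K
  hb : ∀ X ∈ K, ∀ Y ∈ K, X ≠ Y → (∀ x ∈ X, ∀ y ∈ Y, x * y = y * x) →
      ∀ W ∈ K, (X ⊔ Y) ⊓ Subgroup.centralizer (W : Set G) ≠ ⊥

variable {p : ℕ} {K : Set (Subgroup G)}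

theorem line_point [Finite G] (H : Hyp p K) {X Y W : Subgroup G} (hX : X ∈ K) (hY : Y ∈ K)
    (hXY : X ≠ Y) (hc : Cm X Y) (hW : W ∈ K) :
    ∃ a ∈ X, ∃ b ∈ Y, a * b ≠ 1 ∧ Subgroup.zpowers (a * b) ∈ K ∧
      Cm (Subgroup.zpowers (a * b)) W := by
  have h := H.hb X hX Y hY hXY hc W hW
  obtain ⟨g, hg, hg1⟩ : ∃ g ∈ (X ⊔ Y) ⊓ Subgroup.centralizer (W : Set G), g ≠ 1 := by
    by_contra hcon
    push Not at hcon
    exact h ((Subgroup.eq_bot_iff_forall _).2 hcon)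
  obtain ⟨hgs, hgc⟩ := Subgroup.mem_inf.1 hg
  obtain ⟨a, ha, b, hb, rfl⟩ := sup_decomp hc hgs
  refine ⟨a, ha, b, hb, hg1, ?_, ?_⟩
  · apply H.ha X hX Y hY hXY hc
    · rw [Subgroup.zpowers_le]; exact hgs
    · apply card_zpowers_eq H.hp _ hg1
      rw [(show Commute a b from hc a ha b hb).mul_pow, pow_p_eq_one (H.hK _ hX) ha,
        pow_p_eq_one (H.hK _ hY) hb, one_mul]
  · exact Cm_iff_le.2 (by rw [Subgroup.zpowers_le]; exact hgc)

theorem exists_nbr [Finite G] (H : Hyp p K) {X : Subgroup G} (hX : X ∈ K) :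
    ∃ Y ∈ K, Y ≠ X ∧ Cm Y X := by
  obtain ⟨X₀, hX₀, Y₀, hY₀, hne, hc⟩ := H.hex
  obtain ⟨a, ha, b, hb, hab1, hZ, hZc⟩ := line_point H hX₀ hY₀ hne hc hX
  by_cases hZX : Subgroup.zpowers (a * b) = X
  · have hXle : X ≤ X₀ ⊔ Y₀ := by
      rw [← hZX, Subgroup.zpowers_le]
      exact mul_mem (Subgroup.mem_sup_left ha) (Subgroup.mem_sup_right hb)
    have hX₀X₀ : Cm X₀ X₀ := Cm_self H.hp (H.hK _ hX₀)
    have hY₀Y₀ : Cm Y₀ Y₀ := Cm_self H.hp (H.hK _ hY₀)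
    have h1 : Cm X₀ X := (Cm.sup_right hX₀X₀ hc).mono le_rfl hXle
    have h2 : Cm Y₀ X := (Cm.sup_right (Cm.symm hc) hY₀Y₀).mono le_rfl hXle
    by_cases hX₀X : X₀ = X
    · exact ⟨Y₀, hY₀, fun h => hne (hX₀X.trans h.symm), h2⟩
    · exact ⟨X₀, hX₀, hX₀X, h1⟩
  · exact ⟨_, hZ, hZX, hZc⟩

theorem common_nbr [Finite G] (H : Hyp p K) {X W Y : Subgroup G} (hX : X ∈ K) (hW : W ∈ K)
    (hXW : ¬ Cm X W) (hY : Y ∈ K) (hYX : Cm Y X) :
    ∃ Y₁ ∈ K, Cm Y₁ X ∧ Cm Y₁ W ∧ Y ≤ X ⊔ Y₁ := by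
  have hXX : Cm X X := Cm_self H.hp (H.hK _ hX)
  by_cases hYeq : Y = X
  · obtain ⟨Y₂, hY₂, hne, hc⟩ := exists_nbr H hX
    obtain ⟨a, ha, b, hb, hab1, hZ, hZc⟩ := line_point H hX hY₂ (Ne.symm hne) hc.symm hW
    refine ⟨_, hZ, ?_, hZc, by rw [hYeq]; exact le_sup_left⟩
    exact (Cm.sup_left hXX hc).mono (by
      rw [Subgroup.zpowers_le]
      exact mul_mem (Subgroup.mem_sup_left ha) (Subgroup.mem_sup_right hb)) le_rfl
  · obtain ⟨a, ha, b, hb, hab1, hZ, hZc⟩ := line_point H hX hY (Ne.symm hYeq) hYX.symm hW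
    refine ⟨_, hZ, ?_, hZc, ?_⟩
    · exact (Cm.sup_left hXX hYX).mono (by
        rw [Subgroup.zpowers_le]
        exact mul_mem (Subgroup.mem_sup_left ha) (Subgroup.mem_sup_right hb)) le_rfl
    · have hb1 : b ≠ 1 := by
        rintro rfl
        rw [mul_one] at hab1 hZc
        rw [← eq_zpowers H.hp (H.hK _ hX) ha hab1] at hZc
        exact hXW hZc
      rw [eq_zpowers H.hp (H.hK _ hY) hb hb1, Subgroup.zpowers_le]
      have hmem : a⁻¹ * (a * b) ∈ X ⊔ Subgroup.zpowers (a * b) :=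
        mul_mem (Subgroup.mem_sup_left (inv_mem ha))
          (Subgroup.mem_sup_right (Subgroup.mem_zpowers _))
      rwa [inv_mul_cancel_left] at hmem

/-- the members commuting with `Z` pairwise commute -/
def Cl (K : Set (Subgroup G)) (Z : Subgroup G) : Prop :=
  ∀ Y ∈ K, ∀ Y' ∈ K, Cm Y Z → Cm Y' Z → Cm Y Y'

theorem cl_of [Finite G] (H : Hyp p K) {X W : Subgroup G} (hX : X ∈ K) (hW : W ∈ K)
    (hXW : ¬ Cm X W)
    (hcl : ∀ Y ∈ K, ∀ Y' ∈ K, Cm Y X → Cm Y W → Cm Y' X → Cm Y' W → Cm Y Y') : Cl K X := by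
  intro Y hY Y' hY' hYX hY'X
  obtain ⟨Y₁, hY₁, h1X, h1W, hle⟩ := common_nbr H hX hW hXW hY hYX
  obtain ⟨Y₁', hY₁', h1X', h1W', hle'⟩ := common_nbr H hX hW hXW hY' hY'X
  have hXX : Cm X X := Cm_self H.hp (H.hK _ hX)
  have h11 : Cm Y₁ Y₁' := hcl Y₁ hY₁ Y₁' hY₁' h1X h1W h1X' h1W'
  have : Cm (X ⊔ Y₁) (X ⊔ Y₁') :=
    Cm.sup_left (Cm.sup_right hXX h1X'.symm) (Cm.sup_right h1X h11)
  exact this.mono hle hle'

theorem universal_of_typeII [Finite G] (H : Hyp p K) {X W : Subgroup G} (hX : X ∈ K)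
    (hW : W ∈ K) (hXW : ¬ Cm X W)
    (hcl : ∀ Y ∈ K, ∀ Y' ∈ K, Cm Y X → Cm Y W → Cm Y' X → Cm Y' W → Cm Y Y') :
    ∃ V ∈ K, ∀ W' ∈ K, Cm V W' := by
  by_contra hno
  push Not at hno
  have hClX : Cl K X := cl_of H hX hW hXW hcl
  have step2 : ∀ W' ∈ K, ¬ Cm X W' → Cl K W' := by
    intro W' hW' hXW'
    exact cl_of H hW' hX (fun h => hXW' h.symm)
      (fun Y hY Y' hY' _ hYX _ hY'X => hClX Y hY Y' hY' hYX hY'X)
  have step3 : ∀ Y ∈ K, Cm Y X → Cl K Y := by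
    intro Y hY hYX
    obtain ⟨W'', hW'', hYW''⟩ := hno Y hY
    by_cases hXW'' : Cm X W''
    · exact absurd (hClX Y hY W'' hW'' hYX hXW''.symm) hYW''
    · have hClW := step2 W'' hW'' hXW''
      exact cl_of H hY hW'' hYW'' (fun Y₁ hY₁ Y₂ hY₂ _ h1 _ h2 => hClW Y₁ hY₁ Y₂ hY₂ h1 h2)
  obtain ⟨Y₀, hY₀, h0X, h0W, -⟩ := common_nbr H hX hW hXW hX (Cm_self H.hp (H.hK _ hX))
  exact hXW (step3 Y₀ hY₀ h0X X hX W hW h0X.symm h0W.symm)

theorem key_id (x y x' w : G) (h1 : x * x' = x' * x) (h2 : y * w = w * y)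
    (h5 : x * y * (x' * w) = x' * w * (x * y)) :
    x⁻¹ * (w * x * w⁻¹) = x'⁻¹ * y * x' * y⁻¹ := by
  have e1 : w * x * y = x'⁻¹ * (x * y * (x' * w)) := by rw [h5]; group
  have e0 : w⁻¹ * y = y * w⁻¹ := by
    have : y = w * y * w⁻¹ := by rw [← h2]; group
    calc w⁻¹ * y = w⁻¹ * (w * y * w⁻¹) := by rw [← this]
      _ = y * w⁻¹ := by group
  have e2 : w * x * w⁻¹ * y = w * x * y * w⁻¹ := by
    rw [mul_assoc (w * x), e0]; group
  have e3 : x'⁻¹ * x = x * x'⁻¹ := by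
    have : x = x' * x * x'⁻¹ := by rw [← h1]; group
    calc x'⁻¹ * x = x'⁻¹ * (x' * x * x'⁻¹) := by rw [← this]
      _ = x * x'⁻¹ := by group
  calc x⁻¹ * (w * x * w⁻¹) = x⁻¹ * (w * x * w⁻¹ * y) * y⁻¹ := by group
    _ = x⁻¹ * (w * x * y * w⁻¹) * y⁻¹ := by rw [e2]
    _ = x⁻¹ * (x'⁻¹ * (x * y * (x' * w)) * w⁻¹) * y⁻¹ := by rw [e1]
    _ = x⁻¹ * (x'⁻¹ * x) * y * x' * y⁻¹ := by group
    _ = x⁻¹ * (x * x'⁻¹) * y * x' * y⁻¹ := by rw [e3]
    _ = x'⁻¹ * y * x' * y⁻¹ := by group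

theorem key_comm (x y x' w : G) (h1 : x * x' = x' * x) (h2 : y * w = w * y)
    (h3 : x * y = y * x) (h5 : x * y * (x' * w) = x' * w * (x * y)) :
    (w * x * w⁻¹) * x = x * (w * x * w⁻¹) := by
  have hk := key_id x y x' w h1 h2 h5
  have c1 : Commute x x' := h1
  have c2 : Commute x y := h3
  have c : Commute x (x'⁻¹ * y * x' * y⁻¹) :=
    (((c1.inv_right).mul_right c2).mul_right c1).mul_right c2.inv_right
  rw [← hk] at c
  have e : w * x * w⁻¹ = x * (x⁻¹ * (w * x * w⁻¹)) := by group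
  rw [e]
  exact ((Commute.refl x).mul_left c.symm).eq

theorem u_facts {x w : G} (hc1 : (w * x * w⁻¹) * x = x * (w * x * w⁻¹))
    (hc2 : (x * w * x⁻¹) * w = w * (x * w * x⁻¹)) :
    (w * x * w⁻¹ * x⁻¹) * x = x * (w * x * w⁻¹ * x⁻¹) ∧
      (w * x * w⁻¹ * x⁻¹) * w = w * (w * x * w⁻¹ * x⁻¹) := by
  constructor
  · have c : Commute (w * x * w⁻¹) x := hc1
    exact (c.mul_left (Commute.refl x).inv_left).eq
  · have c : Commute (x * w * x⁻¹) w := hc2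
    have c' : Commute (x * w⁻¹ * x⁻¹) w := by
      have := c.inv_left
      rwa [show (x * w * x⁻¹)⁻¹ = x * w⁻¹ * x⁻¹ by group] at this
    have e : w * x * w⁻¹ * x⁻¹ = w * (x * w⁻¹ * x⁻¹) := by group
    rw [e]
    exact ((Commute.refl w).mul_left c').eq

theorem u_pow {p : ℕ} {x w : G} (hxp : x ^ p = 1)
    (hc1 : (w * x * w⁻¹) * x = x * (w * x * w⁻¹)) : (w * x * w⁻¹ * x⁻¹) ^ p = 1 := by
  have c : Commute (w * x * w⁻¹) x⁻¹ := (show Commute (w * x * w⁻¹) x from hc1).inv_right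
  rw [c.mul_pow, conj_pow, inv_pow, hxp]; group

theorem typeI [Finite G] (H : Hyp p K) {X W Y X' : Subgroup G} (hX : X ∈ K) (hW : W ∈ K)
    (hY : Y ∈ K) (hX' : X' ∈ K) (hXW : ¬ Cm X W)
    (hYX : Cm Y X) (hYW : Cm Y W) (hX'X : Cm X' X) (hX'W : Cm X' W) (hYX' : ¬ Cm Y X') :
    ∃ x ∈ X, ∃ w ∈ W, x ≠ 1 ∧ w ≠ 1 ∧ (w * x * w⁻¹) * x = x * (w * x * w⁻¹) ∧
      (x * w * x⁻¹) * w = w * (x * w * x⁻¹) := by
  obtain ⟨x', hx', hx'1⟩ := exists_ne_one H.hp (H.hK _ hX')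
  obtain ⟨w, hw, hw1⟩ := exists_ne_one H.hp (H.hK _ hW)
  have hX'eq := eq_zpowers H.hp (H.hK _ hX') hx' hx'1
  have hWeq := eq_zpowers H.hp (H.hK _ hW) hw hw1
  have hX'W_ne : X' ≠ W := by rintro rfl; exact hYX' hYW
  have hYX_ne : Y ≠ X := by rintro rfl; exact hXW hYW
  have hxw : x' * w = w * x' := hX'W x' hx' w hw
  have hZ'1 : x' * w ≠ 1 := by
    intro h
    have hmem : x' ∈ W := by rw [eq_inv_of_mul_eq_one_left h]; exact inv_mem hw
    apply hX'W_ne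
    rw [hX'eq]; exact (eq_zpowers H.hp (H.hK _ hW) hmem hx'1).symm
  have hZ' : Subgroup.zpowers (x' * w) ∈ K := by
    apply H.ha X' hX' W hW hX'W_ne hX'W
    · rw [Subgroup.zpowers_le]
      exact mul_mem (Subgroup.mem_sup_left hx') (Subgroup.mem_sup_right hw)
    · apply card_zpowers_eq H.hp _ hZ'1
      rw [(show Commute x' w from hxw).mul_pow, pow_p_eq_one (H.hK _ hX') hx',
        pow_p_eq_one (H.hK _ hW) hw, one_mul]
  obtain ⟨a, ha, b, hb, hab1, -, hZc⟩ := line_point H hX hY (Ne.symm hYX_ne) hYX.symm hZ'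
  have h5 : a * b * (x' * w) = x' * w * (a * b) :=
    hZc _ (Subgroup.mem_zpowers _) _ (Subgroup.mem_zpowers _)
  have h1 : a * x' = x' * a := (hX'X x' hx' a ha).symm
  have h2 : b * w = w * b := hYW b hb w hw
  have h3 : a * b = b * a := (hYX b hb a ha).symm
  have ha1 : a ≠ 1 := by
    rintro rfl
    rw [one_mul] at h5 hab1
    have hbx : b * x' = x' * b := by
      have e : b * x' = b * (x' * w) * w⁻¹ := by group
      rw [e, h5, mul_assoc x' w b, ← h2]; group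
    apply hYX'
    rw [eq_zpowers H.hp (H.hK _ hY) hb hab1, hX'eq]
    exact Cm_zpowers hbx
  have hb1 : b ≠ 1 := by
    rintro rfl
    rw [mul_one] at h5 hab1
    have haw : a * w = w * a := by
      have e : x' * (a * w) = x' * (w * a) := by
        rw [← mul_assoc, ← h1, ← mul_assoc, mul_assoc a x' w]; exact h5
      exact mul_left_cancel e
    apply hXW
    rw [eq_zpowers H.hp (H.hK _ hX) ha hab1, hWeq]
    exact Cm_zpowers haw
  refine ⟨a, ha, w, hw, ha1, hw1, ?_, ?_⟩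
  · exact key_comm a b x' w h1 h2 h3 h5
  · have h5' : w * x' * (b * a) = b * a * (w * x') := by
      rw [← hxw, ← h3]; exact h5.symm
    exact key_comm w x' b a h2.symm h1.symm hxw.symm h5'

theorem comm_member [Finite G] (H : Hyp p K) {X W : Subgroup G} (hX : X ∈ K) (hW : W ∈ K)
    (hXW : ¬ Cm X W) {x w : G} (hx : x ∈ X) (hw : w ∈ W) (hx1 : x ≠ 1) (hw1 : w ≠ 1)
    (hc1 : (w * x * w⁻¹) * x = x * (w * x * w⁻¹))
    (hc2 : (x * w * x⁻¹) * w = w * (x * w * x⁻¹)) :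
    w * x * w⁻¹ * x⁻¹ ≠ 1 ∧ Subgroup.zpowers (w * x * w⁻¹ * x⁻¹) ∈ K := by
  obtain ⟨hux, huw⟩ := u_facts hc1 hc2
  have hup := u_pow (pow_p_eq_one (H.hK _ hX) hx) hc1
  have hXeq := eq_zpowers H.hp (H.hK _ hX) hx hx1
  have hWeq := eq_zpowers H.hp (H.hK _ hW) hw hw1
  have hu1 : w * x * w⁻¹ * x⁻¹ ≠ 1 := by
    intro h
    apply hXW
    rw [hXeq, hWeq]
    apply Cm_zpowers
    have h' : w * x * w⁻¹ = x := by
      have := mul_eq_one_iff_eq_inv.1 h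
      rwa [inv_inv] at this
    calc x * w = (w * x * w⁻¹) * w := by rw [h']
      _ = w * x := by group
  refine ⟨hu1, ?_⟩
  have hXwK : X.map (MulAut.conj w).toMonoidHom ∈ K := H.hKc X hX w
  have hcm : w * x * w⁻¹ ∈ X.map (MulAut.conj w).toMonoidHom := ⟨x, hx, by simp [MulAut.conj_apply]⟩
  have hc1' : w * x * w⁻¹ ≠ 1 := by
    intro h; apply hx1
    have : x = w⁻¹ * (w * x * w⁻¹) * w := by group
    rw [this, h]; group
  have hXweq := eq_zpowers H.hp (H.hK _ hXwK) hcm hc1'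
  have hcomm : Cm (X.map (MulAut.conj w).toMonoidHom) X := by
    have h := Cm_zpowers hc1
    rw [← hXweq, ← hXeq] at h
    exact h
  have hne : X.map (MulAut.conj w).toMonoidHom ≠ X := by
    intro h
    have hmem : w * x * w⁻¹ * x⁻¹ ∈ X := mul_mem (h ▸ hcm) (inv_mem hx)
    apply hXW
    have h' := Cm_zpowers huw
    rw [← eq_zpowers H.hp (H.hK _ hX) hmem hu1, ← hWeq] at h'
    exact h'
  apply H.ha _ hXwK X hX hne hcomm
  · rw [Subgroup.zpowers_le]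
    exact mul_mem (Subgroup.mem_sup_left hcm) (Subgroup.mem_sup_right (inv_mem hx))
  · exact card_zpowers_eq H.hp hup hu1

theorem pgroup_of [Finite G] (H : Hyp p K) {X W : Subgroup G} (hX : X ∈ K) (hW : W ∈ K)
    {x w : G} (hx : x ∈ X) (hw : w ∈ W) (hx1 : x ≠ 1) (hw1 : w ≠ 1)
    (hc1 : (w * x * w⁻¹) * x = x * (w * x * w⁻¹))
    (hc2 : (x * w * x⁻¹) * w = w * (x * w * x⁻¹)) : IsPGroup p ↥(X ⊔ W) := by
  haveI : Fact p.Prime := ⟨H.hp⟩
  obtain ⟨hux, huw⟩ := u_facts hc1 hc2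
  have hup := u_pow (pow_p_eq_one (H.hK _ hX) hx) hc1
  have hXeq := eq_zpowers H.hp (H.hK _ hX) hx hx1
  have hWeq := eq_zpowers H.hp (H.hK _ hW) hw hw1
  have hXp : IsPGroup p X := IsPGroup.of_card (n := 1) (by rw [H.hK X hX, pow_one])
  have hWp : IsPGroup p W := IsPGroup.of_card (n := 1) (by rw [H.hK W hW, pow_one])
  have hUp : IsPGroup p (Subgroup.zpowers (w * x * w⁻¹ * x⁻¹)) := by
    rintro ⟨g, hg⟩
    obtain ⟨i, rfl⟩ := Subgroup.mem_zpowers_iff.1 hg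
    refine ⟨1, Subtype.ext ?_⟩
    show ((w * x * w⁻¹ * x⁻¹) ^ i) ^ p ^ 1 = 1
    rw [pow_one, ← zpow_natCast, ← zpow_mul, mul_comm, zpow_mul, zpow_natCast, hup, one_zpow]
  have hUX : Cm (Subgroup.zpowers (w * x * w⁻¹ * x⁻¹)) X := by
    have h := Cm_zpowers hux
    rwa [← hXeq] at h
  have hD : IsPGroup p ↥(X ⊔ Subgroup.zpowers (w * x * w⁻¹ * x⁻¹)) :=
    IsPGroup.to_sup_of_normal_left' hXp hUp
      ((Cm_iff_le.1 hUX).trans (Subgroup.centralizer_le_normalizer _))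
  have hcomap : X ⊔ Subgroup.zpowers (w * x * w⁻¹ * x⁻¹) ≤
      (X ⊔ Subgroup.zpowers (w * x * w⁻¹ * x⁻¹)).comap (MulAut.conj w).toMonoidHom := by
    refine sup_le ?_ ?_
    · rw [hXeq, Subgroup.zpowers_le, Subgroup.mem_comap]
      show MulAut.conj w x ∈ _
      rw [MulAut.conj_apply, ← hXeq]
      have hmem : (w * x * w⁻¹ * x⁻¹) * x ∈ X ⊔ Subgroup.zpowers (w * x * w⁻¹ * x⁻¹) :=
        mul_mem (Subgroup.mem_sup_right (Subgroup.mem_zpowers _)) (Subgroup.mem_sup_left hx)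
      rwa [inv_mul_cancel_right] at hmem
    · rw [Subgroup.zpowers_le, Subgroup.mem_comap]
      show MulAut.conj w (w * x * w⁻¹ * x⁻¹) ∈ _
      rw [MulAut.conj_apply, ← huw, mul_inv_cancel_right]
      exact Subgroup.mem_sup_right (Subgroup.mem_zpowers _)
  have hwn : w ∈ Subgroup.normalizer
      ((X ⊔ Subgroup.zpowers (w * x * w⁻¹ * x⁻¹) : Subgroup G) : Set G) :=
    Subgroup.mem_normalizer_fintype (fun n hn => by
      have := hcomap hn
      rw [Subgroup.mem_comap] at this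
      exact this)
  have hWn : W ≤ Subgroup.normalizer
      ((X ⊔ Subgroup.zpowers (w * x * w⁻¹ * x⁻¹) : Subgroup G) : Set G) := by
    rw [hWeq, Subgroup.zpowers_le]; exact hwn
  exact (IsPGroup.to_sup_of_normal_left' hD hWp hWn).to_le (sup_le_sup_right le_sup_left W)

theorem descent [Finite G] (H : Hyp p K)
    (hI : ∀ X ∈ K, ∀ W ∈ K, ¬ Cm X W → ∃ x ∈ X, ∃ w ∈ W,
      (w * x * w⁻¹ * x⁻¹) ≠ 1 ∧ Subgroup.zpowers (w * x * w⁻¹ * x⁻¹) ∈ K)
    (P₀ : Subgroup G) (hP₀ : ∀ X ∈ K, X ≤ P₀) (n : ℕ) (hn : P₀.lowerCentralSeries n = ⊥) :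
    ∀ d i, i + d = n → ∀ X ∈ K, X ≤ P₀.lowerCentralSeries i → ∃ V ∈ K, ∀ W ∈ K, Cm V W := by
  intro d
  induction d with
  | zero =>
    intro i hi X hX hle
    exfalso
    have : i = n := by omega
    subst this
    rw [hn] at hle
    have hXb : X = ⊥ := le_bot_iff.1 hle
    have hc := H.hK X hX
    rw [hXb, Subgroup.card_bot] at hc
    exact H.hp.one_lt.ne hc
  | succ d ih =>
    intro i hi X hX hle
    by_cases hu : ∀ W ∈ K, Cm X W
    · exact ⟨X, hX, hu⟩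
    · push Not at hu
      obtain ⟨W, hW, hXW⟩ := hu
      obtain ⟨x, hx, w, hw, hu1, hUK⟩ := hI X hX W hW hXW
      apply ih (i+1) (by omega) _ hUK
      rw [Subgroup.zpowers_le, Subgroup.lowerCentralSeries_succ, Subgroup.commutator_comm]
      exact Subgroup.commutator_mem_commutator (hP₀ W hW hw) (hle hx)

theorem universal [Finite G] (H : Hyp p K) : ∃ V ∈ K, ∀ W ∈ K, Cm V W := by
  haveI : Fact p.Prime := ⟨H.hp⟩
  by_cases hII : ∃ X ∈ K, ∃ W ∈ K, ¬ Cm X W ∧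
      (∀ Y ∈ K, ∀ Y' ∈ K, Cm Y X → Cm Y W → Cm Y' X → Cm Y' W → Cm Y Y')
  · obtain ⟨X, hX, W, hW, hXW, hcl⟩ := hII
    exact universal_of_typeII H hX hW hXW hcl
  · have hT : ∀ X ∈ K, ∀ W ∈ K, ¬ Cm X W → ∃ x ∈ X, ∃ w ∈ W, x ≠ 1 ∧ w ≠ 1 ∧
        (w * x * w⁻¹) * x = x * (w * x * w⁻¹) ∧ (x * w * x⁻¹) * w = w * (x * w * x⁻¹) := by
      intro X hX W hW hXW
      by_contra hcon
      apply hII
      refine ⟨X, hX, W, hW, hXW, ?_⟩
      intro Y hY Y' hY' hYX hYW hY'X hY'W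
      by_contra hYY'
      exact hcon (typeI H hX hW hY hY' hXW hYX hYW hY'X hY'W hYY')
    have hI : ∀ X ∈ K, ∀ W ∈ K, ¬ Cm X W → ∃ x ∈ X, ∃ w ∈ W,
        (w * x * w⁻¹ * x⁻¹) ≠ 1 ∧ Subgroup.zpowers (w * x * w⁻¹ * x⁻¹) ∈ K := by
      intro X hX W hW hXW
      obtain ⟨x, hx, w, hw, hx1, hw1, hc1, hc2⟩ := hT X hX W hW hXW
      exact ⟨x, hx, w, hw, comm_member H hX hW hXW hx hw hx1 hw1 hc1 hc2⟩
    have hPG : ∀ X ∈ K, ∀ W ∈ K, IsPGroup p ↥(X ⊔ W) := by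
      intro X hX W hW
      by_cases hXW : Cm X W
      · exact IsPGroup.to_sup_of_normal_left'
          (IsPGroup.of_card (n := 1) (by rw [H.hK X hX, pow_one]))
          (IsPGroup.of_card (n := 1) (by rw [H.hK W hW, pow_one]))
          ((Cm_iff_le.1 hXW.symm).trans (Subgroup.centralizer_le_normalizer _))
      · obtain ⟨x, hx, w, hw, hx1, hw1, hc1, hc2⟩ := hT X hX W hW hXW
        exact pgroup_of H hX hW hx hw hx1 hw1 hc1 hc2
    have hle : ∀ X ∈ K, X ≤ Cfsg.pCore p G := by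
      intro X hX
      obtain ⟨N, hN, hNp, hXN⟩ := Cfsg.Agent.Lib.Helper21.BaerSuzuki.baer_suzuki X
        (IsPGroup.of_card (n := 1) (by rw [H.hK X hX, pow_one]))
        (fun g => hPG X hX _ (H.hKc X hX g))
      exact hXN.trans (Cfsg.Agent.Lib.Lead.Cores.le_pCore hN hNp)
    have hnil : Group.IsNilpotent ↥(Cfsg.pCore p G) :=
      (Cfsg.Agent.Lib.Lead.Cores.pCore_isPGroup p).isNilpotent
    obtain ⟨n, hn⟩ := (Subgroup.isNilpotent_iff_lowerCentralSeries _).1 hnil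
    obtain ⟨X, hX, -⟩ := H.hex
    exact descent H hI _ hle n hn n 0 (by omega) X hX
      (by rw [Subgroup.lowerCentralSeries_zero]; exact hle X hX)

/-- Let p be a prime and K a set of subgroups of order p of a finite group G, closed under conjugation, such that at least two distinct members of K commute elementwise, and whenever two distinct members X, Y of K commute: every subgroup of order p of the group XY they generate belongs to K, and every member W of K has centralizer meeting XY nontrivially. Then some member V of K commutes elementwise with every member of K and lies in O_p(G); in particular G is not simple. -/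
theorem result {G : Type*} [Group G] [Finite G]
    {p : ℕ} (hp : p.Prime) (K : Set (Subgroup G)) (hK : ∀ X ∈ K, Nat.card ↥X = p)
    (hKc : ∀ X ∈ K, ∀ g : G, X.map (MulAut.conj g).toMonoidHom ∈ K)
    (hex : ∃ X ∈ K, ∃ Y ∈ K, X ≠ Y ∧ ∀ x ∈ X, ∀ y ∈ Y, x * y = y * x)
    (ha : ∀ X ∈ K, ∀ Y ∈ K, X ≠ Y → (∀ x ∈ X, ∀ y ∈ Y, x * y = y * x) →
      ∀ Z : Subgroup G, Z ≤ X ⊔ Y → Nat.card ↥Z = p → Z ∈ K)
    (hb : ∀ X ∈ K, ∀ Y ∈ K, X ≠ Y → (∀ x ∈ X, ∀ y ∈ Y, x * y = y * x) →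
      ∀ W ∈ K, (X ⊔ Y) ⊓ Subgroup.centralizer (W : Set G) ≠ ⊥) :
    (∃ V ∈ K, (∀ W ∈ K, ∀ v ∈ V, ∀ w ∈ W, v * w = w * v) ∧ V ≤ Cfsg.pCore p G) ∧ ¬ IsSimpleGroup G := by
  have H : Hyp p K := ⟨hp, hK, hKc, hex, ha, hb⟩
  haveI : Fact p.Prime := ⟨hp⟩
  obtain ⟨V, hV, hVu⟩ := universal H
  have hVp : IsPGroup p V := IsPGroup.of_card (n := 1) (by rw [hK V hV, pow_one])
  obtain ⟨N, hN, hNp, hVN⟩ := Cfsg.Agent.Lib.Helper21.BaerSuzuki.baer_suzuki V hVp (fun g => by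
    have hVg := hKc V hV g
    have hc : Cm V (V.map (MulAut.conj g).toMonoidHom) := hVu _ hVg
    exact IsPGroup.to_sup_of_normal_left' hVp
      (IsPGroup.of_card (n := 1) (by rw [hK _ hVg, pow_one]))
      ((Cm_iff_le.1 hc.symm).trans (Subgroup.centralizer_le_normalizer _)))
  refine ⟨⟨V, hV, fun W hW v hv w hw => hVu W hW v hv w hw,
    hVN.trans (Cfsg.Agent.Lib.Lead.Cores.le_pCore hN hNp)⟩, ?_⟩
  intro hsimp
  haveI := hsimp
  have hNtop : N = ⊤ := by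
    rcases hN.eq_bot_or_eq_top with h | h
    · exfalso
      have hVb : V = ⊥ := le_bot_iff.1 (h ▸ hVN)
      have hc := hK V hV
      rw [hVb, Subgroup.card_bot] at hc
      exact hp.one_lt.ne hc
    · exact h
  have hGp : IsPGroup p G := by
    intro g
    obtain ⟨k, hk⟩ := hNp ⟨g, hNtop ▸ Subgroup.mem_top g⟩
    exact ⟨k, congrArg Subtype.val hk⟩
  have hZ : Subgroup.center G = ⊤ := by
    rcases (inferInstance : (Subgroup.center G).Normal).eq_bot_or_eq_top with h | h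
    · exfalso
      have hnt := hGp.center_nontrivial
      exact (Subgroup.nontrivial_iff_ne_bot _).1 hnt h
    · exact h
  obtain ⟨X, hX, Y, hY, hne, -⟩ := hex
  have key : ∀ Z ∈ K, Z = ⊤ := by
    intro Z hZK
    have hZn : Z.Normal := ⟨fun n hn g => by
      have hg : g ∈ Subgroup.center G := hZ ▸ Subgroup.mem_top g
      have hcomm : g * n = n * g := (Subgroup.mem_center_iff.1 hg n).symm
      rw [hcomm, mul_inv_cancel_right]; exact hn⟩
    rcases hZn.eq_bot_or_eq_top with h | h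
    · exfalso
      have hc := hK Z hZK
      rw [h, Subgroup.card_bot] at hc
      exact hp.one_lt.ne hc
    · exact h
  exact hne ((key X hX).trans (key Y hY).symm)

end Cfsg.Agent.S3196
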