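import Cfsg.Statements.S3200
import Mathlib
import Cfsg.Agent.Lib.Helper1.CharGalois
import Cfsg.Agent.Lib.Lead.Hall
import Cfsg.Agent.Lib.Helper19.RelIndex

set_option autoImplicit false
open Cfsg

namespace Cfsg.Agent.S3200

universe u

/-- a finite group with an abelian subgroup of 2-power index is solvable (Burnside). -/
theorem sol_aux : ∀ (n : ℕ) (H : Type u) [Group H] [Finite H], Nat.card H = n →
    ∀ C : Subgroup H, (∀ a ∈ C, ∀ b ∈ C, a * b = b * a) → (∃ k : ℕ, C.index = 2 ^ k) →
    Group.IsSolvable H := by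
  intro n
  induction n using Nat.strong_induction_on with
  | _ n ih =>
    intro H _ _ hn C hcomm hidx
    obtain ⟨k, hk⟩ := hidx
    by_cases hC : C = ⊥
    · subst hC
      rw [Subgroup.index_bot] at hk
      have hP : IsPGroup 2 H := IsPGroup.of_card hk
      haveI := hP.isNilpotent
      infer_instance
    obtain ⟨⟨x, hxC⟩, hx1⟩ := (Subgroup.ne_bot_iff_exists_ne_one).1 hC
    have hx : x ≠ 1 := fun h => hx1 (Subtype.ext h)
    have hle : C ≤ Subgroup.centralizer ({x} : Set H) := by
      intro c hc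
      rw [Subgroup.mem_centralizer_iff]
      intro h hh
      rw [Set.mem_singleton_iff] at hh
      rw [hh]
      exact hcomm x hxC c hc
    obtain ⟨j, -, hj⟩ := (Nat.dvd_prime_pow Nat.prime_two).1 (hk ▸ Subgroup.index_dvd_of_le hle)
    by_cases hs : IsSimpleGroup H
    · have hp := Cfsg.Agent.Lib.Helper1.prime_card_of_prime_power_class 2 j Nat.prime_two x hx hj
      haveI : Fact (Nat.card H).Prime := ⟨hp⟩
      haveI := isCyclic_of_prime_card (α := H) rfl
      exact Group.isSolvable_of_comm (fun a b => IsCyclic.isMulCommutative.is_comm.comm a b)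
    · obtain ⟨N, hNn, hNb, hNt⟩ : ∃ N : Subgroup H, N.Normal ∧ N ≠ ⊥ ∧ N ≠ ⊤ := by
        by_contra hcon
        push Not at hcon
        apply hs
        haveI : Nontrivial H := ⟨⟨x, 1, hx⟩⟩
        refine ⟨fun N hN => ?_⟩
        by_cases hb : N = ⊥
        · left; exact hb
        · right; exact hcon N hN hb
      have hNlt : Nat.card N < n := by
        rw [← hn]
        refine lt_of_le_of_ne (Subgroup.card_le_card_group N) ?_
        intro h
        exact hNt ((Subgroup.card_eq_iff_eq_top N).1 h)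
      have hQlt : Nat.card (H ⧸ N) < n := by
        rw [← hn, Subgroup.card_eq_card_quotient_mul_card_subgroup N]
        have h1 : 1 < Nat.card N := (Subgroup.one_lt_card_iff_ne_bot N).2 hNb
        have h2 : 0 < Nat.card (H ⧸ N) := Nat.card_pos
        nlinarith
      haveI hN' : Group.IsSolvable N := by
        refine ih _ hNlt N rfl (C.subgroupOf N) ?_ ?_
        · intro a ha b hb
          apply Subtype.ext
          exact hcomm a ha b hb
        · have h1 : C.relIndex N ∣ C.relIndex ⊤ :=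
            Cfsg.Agent.Lib.Helper19.relIndex_dvd_relIndex_of_le_normalizer C N ⊤ le_top
              (by rw [Subgroup.normalizer_eq_top]; )
          rw [Subgroup.relIndex_top_right, hk] at h1
          obtain ⟨i, -, hi⟩ := (Nat.dvd_prime_pow Nat.prime_two).1 h1
          exact ⟨i, hi⟩
      haveI hQ' : Group.IsSolvable (H ⧸ N) := by
        refine ih _ hQlt (H ⧸ N) rfl (C.map (QuotientGroup.mk' N)) ?_ ?_
        · rintro _ ⟨a, ha, rfl⟩ _ ⟨b, hb, rfl⟩
          rw [← map_mul, ← map_mul, hcomm a ha b hb]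
        · have h1 := Subgroup.index_map_dvd C (QuotientGroup.mk'_surjective N)
          rw [hk] at h1
          obtain ⟨i, -, hi⟩ := (Nat.dvd_prime_pow Nat.prime_two).1 h1
          exact ⟨i, hi⟩
      exact Group.isSolvable_of_ker_le_range N.subtype (QuotientGroup.mk' N) (by simp)

theorem compl_of_index {K : Type*} [Group K] [Finite K] (D : Subgroup K)
    (hD : ¬ 2 ∣ Nat.card D) (i : ℕ) (hidx : D.index = 2 ^ i) (P : Sylow 2 K) :
    Subgroup.IsComplement' (P : Subgroup K) D := by
  have hK : Nat.card D * 2 ^ i = Nat.card K := by rw [← hidx]; exact Subgroup.card_mul_index D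
  obtain ⟨b, hb⟩ := IsPGroup.iff_card.1 P.2
  have hcop : Nat.Coprime (2 ^ b) (Nat.card D) :=
    Nat.Coprime.pow_left _ ((Nat.Prime.coprime_iff_not_dvd Nat.prime_two).2 hD)
  have h1 : 2 ^ i ∣ Nat.card P := P.pow_dvd_card_of_pow_dvd_card (Dvd.intro_left _ hK)
  have h2 : Nat.card P ∣ 2 ^ i := by
    have h : Nat.card P ∣ Nat.card D * 2 ^ i := hK ▸ Subgroup.card_subgroup_dvd_card (P : Subgroup K)
    rw [hb] at h ⊢
    exact hcop.dvd_of_dvd_mul_left h
  have h3 : Nat.card P = 2 ^ i := Nat.dvd_antisymm h2 h1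
  apply Subgroup.isComplement'_of_coprime
  · rw [h3, mul_comm]; exact hK
  · rw [hb]; exact hcop

/-- Let H be a finite group in which a Sylow 2-subgroup has an abelian complement (an abelian subgroup meeting it trivially whose product with it is all of H). Then H is solvable, and every subgroup and every quotient group of H again has a Sylow 2-subgroup with an abelian complement. -/
theorem result {H : Type*} [Group H] [Finite H]
    (S : Sylow 2 H) (C : Subgroup H) (hC : IsMulCommutative ↥C) (hSC : Subgroup.IsComplement' (S : Subgroup H) C) :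
    Group.IsSolvable H ∧
    (∀ L : Subgroup H, ∃ (P : Sylow 2 ↥L) (D : Subgroup ↥L), IsMulCommutative ↥D ∧ Subgroup.IsComplement' (P : Subgroup ↥L) D) ∧
    (∀ (N : Subgroup H) [N.Normal], ∃ (P : Sylow 2 (H ⧸ N)) (D : Subgroup (H ⧸ N)),
      IsMulCommutative ↥D ∧ Subgroup.IsComplement' (P : Subgroup (H ⧸ N)) D) := by
  have hcomm : ∀ a ∈ C, ∀ b ∈ C, a * b = b * a := by
    intro a ha b hb
    exact congrArg Subtype.val (hC.is_comm.comm ⟨a, ha⟩ ⟨b, hb⟩)
  obtain ⟨a, ha⟩ := IsPGroup.iff_card.1 S.2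
  have hidx : C.index = 2 ^ a := by rw [hSC.index_eq_card]; exact ha
  have hsol : Group.IsSolvable H := sol_aux _ H rfl C hcomm ⟨a, hidx⟩
  have hCodd : ¬ 2 ∣ Nat.card C := by
    rw [← hSC.symm.index_eq_card]
    exact S.not_dvd_index
  have hHcard : Nat.card H = Nat.card C * 2 ^ a := by
    rw [← hidx]; exact (Subgroup.card_mul_index C).symm
  have hcopC : Nat.Coprime (Nat.card C) (2 ^ a) :=
    (Nat.Coprime.pow_left _ ((Nat.Prime.coprime_iff_not_dvd Nat.prime_two).2 hCodd)).symm
  refine ⟨hsol, ?_, ?_⟩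
  · intro L
    obtain ⟨b, m', hm'odd, hLcard⟩ := Nat.exists_eq_two_pow_mul_odd (Nat.card_pos (α := L)).ne'
    have hm'2 : ¬ 2 ∣ m' := by
      intro h
      exact (Nat.not_even_iff_odd.2 hm'odd) (even_iff_two_dvd.2 h)
    have hcop' : Nat.Coprime m' (2 ^ b) :=
      (Nat.Coprime.pow_left _ ((Nat.Prime.coprime_iff_not_dvd Nat.prime_two).2 hm'2)).symm
    obtain ⟨D, hD⟩ := Cfsg.Agent.Lib.Lead.Hall.hall_exists (G := L) m' (2 ^ b)
      (by rw [hLcard, mul_comm]) hcop'
    obtain ⟨P⟩ := (inferInstance : Nonempty (Sylow 2 L))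
    have hDidx : D.index = 2 ^ b := by
      have h1 := Subgroup.card_mul_index D
      rw [hD, hLcard, mul_comm] at h1
      exact Nat.eq_of_mul_eq_mul_right hm'odd.pos h1
    have hD'card : Nat.card (D.map L.subtype) = m' := by
      rw [Subgroup.card_map_of_injective L.subtype_injective, hD]
    obtain ⟨C', hC'card, hD'C'⟩ := Cfsg.Agent.Lib.Lead.Hall.hall_le (G := H) (Nat.card C) (2 ^ a)
      hHcard hcopC (D.map L.subtype)
      (by rw [hD'card]; exact Nat.Coprime.pow_right _
            ((Nat.Prime.coprime_iff_not_dvd Nat.prime_two).2 hm'2).symm)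
    obtain ⟨g, hg⟩ := Cfsg.Agent.Lib.Lead.Hall.hall_conj (G := H) (Nat.card C) (2 ^ a)
      hHcard hcopC C C' rfl hC'card
    have hC'comm : ∀ x ∈ C', ∀ y ∈ C', x * y = y * x := by
      intro x hx y hy
      rw [← hg, Subgroup.mem_pointwise_smul_iff_inv_smul_mem] at hx hy
      have h1 := hcomm _ hx _ hy
      simp only [MulAut.smul_def, MulAut.conj_inv_apply] at h1
      have h2 : x * y = g * ((g⁻¹ * x * g) * (g⁻¹ * y * g)) * g⁻¹ := by group
      rw [h2, h1]; group
    refine ⟨P, D, ⟨⟨fun x y => ?_⟩⟩, compl_of_index D (by rw [hD]; exact hm'2) b hDidx P⟩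
    apply Subtype.ext
    apply Subtype.ext
    have hx : ((x : L) : H) ∈ C' := hD'C' (Subgroup.mem_map_of_mem L.subtype x.2)
    have hy : ((y : L) : H) ∈ C' := hD'C' (Subgroup.mem_map_of_mem L.subtype y.2)
    exact hC'comm _ hx _ hy
  · intro N _
    obtain ⟨P⟩ := (inferInstance : Nonempty (Sylow 2 (H ⧸ N)))
    have hDodd : ¬ 2 ∣ Nat.card (C.map (QuotientGroup.mk' N)) :=
      fun h => hCodd (h.trans (Subgroup.card_map_dvd C (QuotientGroup.mk' N)))
    have h1 := Subgroup.index_map_dvd C (QuotientGroup.mk'_surjective N)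
    rw [hidx] at h1
    obtain ⟨i, -, hi⟩ := (Nat.dvd_prime_pow Nat.prime_two).1 h1
    refine ⟨P, C.map (QuotientGroup.mk' N), ⟨⟨fun x y => ?_⟩⟩, compl_of_index _ hDodd i hi P⟩
    apply Subtype.ext
    obtain ⟨x, a', ha', rfl⟩ := x
    obtain ⟨y, b', hb', rfl⟩ := y
    show (QuotientGroup.mk' N) a' * (QuotientGroup.mk' N) b' =
      (QuotientGroup.mk' N) b' * (QuotientGroup.mk' N) a'
    rw [← map_mul, ← map_mul, hcomm a' ha' b' hb']

end Cfsg.Agent.S3200
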