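import Cfsg.Statements.S3201
import Mathlib
import Cfsg.Agent.Lib.Helper18.UniqueInvolution
import Cfsg.Agent.Lib.Helper18.QuatHom

set_option autoImplicit false
open Cfsg

namespace Cfsg.Agent.S3201

open Cfsg.Agent.Lib.Helper18.UniqueInvolution Cfsg.Agent.Lib.Helper18.QuatHom in
theorem main {S : Type*} [Group S] [Finite S] (hS : IsPGroup 2 S) (ι : Type) (i₀ : ι)
    (D : ι → Subgroup S) (hDZ : ∀ i, D i ≤ Subgroup.center S)
    (hF0 : ∀ i, ∀ z ∈ Subgroup.center S, z ^ 2 ∈ D i)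
    (hne : ∀ i, ∃ z ∈ Subgroup.center S, z ∉ D i)
    (hI : ∀ s : S, (∀ i, s ∈ D i) → s = 1)
    (hq : ∀ i, ∃ (_ : (D i).Normal), ¬ IsMulCommutative (S ⧸ D i) ∧
      ∃! x : S ⧸ D i, orderOf x = 2) :
    ∃ E Q : Subgroup S, Cfsg.IsInternalDirectProduct E Q ⊤ ∧ Cfsg.IsElementaryAbelian 2 E ∧
      ¬ IsMulCommutative ↥Q ∧ ∃! x : ↥Q, orderOf x = 2 := by
  classical
  have hcen : ∀ z ∈ Subgroup.center S, ∀ g : S, g * z = z * g :=
    fun z hz g => Subgroup.mem_center_iff.1 hz g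
  have hF2 : ∀ z ∈ Subgroup.center S, z ^ 2 = 1 := fun z hz => hI _ (fun i => hF0 i z hz)
  have hL : ∀ i, (∀ s : S, s ^ 2 ∈ D i → s ∈ Subgroup.center S) ∧
      (∀ a ∈ Subgroup.center S, ∀ b ∈ Subgroup.center S, a ∉ D i → b ∉ D i → a * b ∈ D i) := by
    intro i
    obtain ⟨hN, hnc, zi, hzi, hzu⟩ := hq i
    have hq' : ∀ q : S ⧸ D i, q ^ 2 = 1 → q ≠ 1 → q = zi :=
      fun q h2 h1 => hzu q (orderOf_eq_prime h2 h1)
    obtain ⟨z₀, hz₀Z, hz₀C⟩ := hne i
    have hmk : ∀ a ∈ Subgroup.center S, a ∉ D i → (QuotientGroup.mk a : S ⧸ D i) = zi := by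
      intro a ha haC
      apply hq'
      · rw [← QuotientGroup.mk_pow, QuotientGroup.eq_one_iff]
        exact hF0 i a ha
      · rw [Ne, QuotientGroup.eq_one_iff]
        exact haC
    constructor
    · intro s hs
      by_cases hsC : s ∈ D i
      · exact hDZ i hsC
      · have h1 : (QuotientGroup.mk s : S ⧸ D i) = zi := by
          apply hq'
          · rw [← QuotientGroup.mk_pow, QuotientGroup.eq_one_iff]
            exact hs
          · rw [Ne, QuotientGroup.eq_one_iff]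
            exact hsC
        have h2 := hmk z₀ hz₀Z hz₀C
        have h3 : z₀⁻¹ * s ∈ D i := QuotientGroup.eq.1 (h2.trans h1.symm)
        have h4 : s = z₀ * (z₀⁻¹ * s) := by group
        rw [h4]
        exact Subgroup.mul_mem _ hz₀Z (hDZ i h3)
    · intro a ha b hb haC hbC
      rw [← QuotientGroup.eq_one_iff, QuotientGroup.mk_mul, hmk a ha haC, hmk b hb hbC, ← pow_two,
        ← hzi]
      exact pow_orderOf_eq_one zi
  obtain ⟨hN₀, hnc₀, z₀, hz₀, hzu₀⟩ := hq i₀
  have hE : Set.ncard {g : S ⧸ D i₀ | g ^ 2 = 1} ≤ 2 := by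
    have hsub : {g : S ⧸ D i₀ | g ^ 2 = 1} ⊆ {1, z₀} := by
      intro g hg
      by_cases hg1 : g = 1
      · left
        exact hg1
      · right
        exact hzu₀ g (orderOf_eq_prime hg hg1)
    calc Set.ncard {g : S ⧸ D i₀ | g ^ 2 = 1} ≤ Set.ncard ({1, z₀} : Set (S ⧸ D i₀)) :=
          Set.ncard_le_ncard hsub (Set.toFinite _)
      _ ≤ 2 := (Set.ncard_insert_le _ _).trans (by rw [Set.ncard_singleton])
  rcases cyclic_or_quaternion (hS.to_quotient (D i₀)) hE with hcyc | ⟨k, ⟨e⟩⟩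
  · exact absurd (IsCyclic.isMulCommutative) hnc₀
  have hk : k ≠ 0 := by
    rintro rfl
    apply hnc₀
    have hcyc : IsCyclic (QuaternionGroup (2 ^ 0)) := QuaternionGroup.quaternionGroup_one_isCyclic
    constructor
    constructor
    intro a b
    apply e.injective
    rw [map_mul, map_mul]
    exact (IsCyclic.isMulCommutative (α := QuaternionGroup (2 ^ 0))).is_comm.comm _ _
  obtain ⟨k', rfl⟩ := Nat.exists_eq_succ_of_ne_zero hk
  have hm0 : (2 : ℕ) ^ (k' + 1) ≠ 0 := by positivity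
  have hne1 : NeZero ((2 : ℕ) ^ (k' + 1)) := ⟨hm0⟩
  obtain ⟨x, hxe⟩ := QuotientGroup.mk_surjective (e.symm (QuaternionGroup.a 1))
  obtain ⟨y, hye⟩ := QuotientGroup.mk_surjective (e.symm (QuaternionGroup.xa 0))
  have hxo : orderOf (QuotientGroup.mk x : S ⧸ D i₀) = 2 * 2 ^ (k' + 1) := by
    rw [hxe, MulEquiv.orderOf_eq, QuaternionGroup.orderOf_a_one]
  have hrel1 : (QuotientGroup.mk y : S ⧸ D i₀) ^ 2 = (QuotientGroup.mk x) ^ (2 ^ (k' + 1)) := by
    rw [hxe, hye, ← map_pow, ← map_pow]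
    congr 1
    rw [QuaternionGroup.xa_sq, QuaternionGroup.a_one_pow]
  have hrel2 : (QuotientGroup.mk y : S ⧸ D i₀) * QuotientGroup.mk x * (QuotientGroup.mk y)⁻¹ =
      (QuotientGroup.mk x)⁻¹ := by
    rw [hxe, hye, ← map_inv, ← map_inv, ← map_mul, ← map_mul]
    congr 1
    have h1 : (QuaternionGroup.a 1 : QuaternionGroup (2 ^ (k' + 1)))⁻¹ = QuaternionGroup.a (-1) := by
      apply inv_eq_of_mul_eq_one_right
      rw [QuaternionGroup.a_mul_a, add_neg_cancel, QuaternionGroup.a_zero]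
    rw [h1, mul_inv_eq_iff_eq_mul, QuaternionGroup.xa_mul_a, QuaternionGroup.a_mul_xa,
      sub_neg_eq_add]
  -- basic consequences
  have hx2 : (QuotientGroup.mk x : S ⧸ D i₀) ^ 2 ≠ 1 := by
    intro h
    have h1 := orderOf_dvd_of_pow_eq_one h
    rw [hxo] at h1
    have h2 := Nat.le_of_dvd (by norm_num) h1
    have h3 : 2 ≤ 2 ^ (k' + 1) := by
      calc 2 = 2 ^ 1 := by norm_num
        _ ≤ 2 ^ (k' + 1) := Nat.pow_le_pow_right (by norm_num) (by omega)
    omega
  have hxm : (QuotientGroup.mk x : S ⧸ D i₀) ^ (2 ^ (k' + 1)) ≠ 1 := by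
    intro h
    have h1 := orderOf_dvd_of_pow_eq_one h
    rw [hxo] at h1
    have h2 := Nat.le_of_dvd (by positivity) h1
    have h3 : 0 < 2 ^ (k' + 1) := by positivity
    omega
  have hncomm : ∀ g : S, g * x = x * g → g * x * g⁻¹ * x ∉ D i₀ := by
    intro g hg h
    apply hx2
    rw [hg, mul_inv_cancel_right, ← pow_two] at h
    rw [← QuotientGroup.mk_pow, QuotientGroup.eq_one_iff]
    exact h
  have hw₀ : y * x * y⁻¹ * x ∈ D i₀ := by
    rw [← QuotientGroup.eq_one_iff]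
    simp only [QuotientGroup.mk_mul, QuotientGroup.mk_inv]
    rw [hrel2, inv_mul_cancel]
  have hyZ : y ∉ Subgroup.center S := fun h => hncomm y (hcen y h x).symm hw₀
  have hyxZ : y * x ∉ Subgroup.center S := by
    intro h
    have h1 := hcen (y * x) h x
    have h2 : y * x = x * y := by
      have h3 : x * (y * x) = (x * y) * x := by group
      have h4 : y * x * x = (y * x) * x := by group
      rw [h3] at h1
      exact (mul_right_cancel h1).symm
    exact hncomm y h2 hw₀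
  have hxmZ : x ^ (2 ^ (k' + 1)) ∈ Subgroup.center S := by
    apply (hL i₀).1
    rw [← QuotientGroup.eq_one_iff, QuotientGroup.mk_pow, QuotientGroup.mk_pow, ← pow_mul,
      mul_comm, ← hxo, pow_orderOf_eq_one]
  have hx2m : x ^ (2 * 2 ^ (k' + 1)) = 1 := by
    rw [mul_comm, pow_mul]
    exact hF2 _ hxmZ
  have hy2Z : y ^ 2 ∈ Subgroup.center S := by
    apply (hL i₀).1
    rw [← QuotientGroup.eq_one_iff, QuotientGroup.mk_pow, QuotientGroup.mk_pow, hrel1, ← pow_mul,
      mul_comm, ← hxo, pow_orderOf_eq_one]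
  have hy2D : ∀ i, y ^ 2 ∉ D i := fun i h => hyZ ((hL i).1 y h)
  have hxmD : ∀ i, x ^ (2 ^ (k' + 1)) ∉ D i := by
    intro i h
    have h1 : (x ^ (2 ^ k')) ^ 2 ∈ D i := by
      rw [← pow_mul, ← pow_succ]
      exact h
    have h2 := (hL i).1 _ h1
    have h3 := hF2 _ h2
    rw [← pow_mul, ← pow_succ] at h3
    apply hxm
    rw [← QuotientGroup.mk_pow, h3, QuotientGroup.mk_one]
  have hw : y * x * y⁻¹ * x = 1 := by
    apply hI
    intro i
    by_contra hwi
    have hwZ : y * x * y⁻¹ * x ∈ Subgroup.center S := hDZ i₀ hw₀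
    have h1 : (y * x) ^ 2 = (y * x * y⁻¹ * x) * y ^ 2 := by
      have h2 : x⁻¹ * y ^ 2 * x = y ^ 2 := by
        rw [mul_assoc, ← hcen _ hy2Z x, ← mul_assoc, inv_mul_cancel, one_mul]
      calc (y * x) ^ 2 = (y * x * y⁻¹ * x) * (x⁻¹ * y ^ 2 * x) := by
            rw [pow_two, pow_two]
            group
        _ = (y * x * y⁻¹ * x) * y ^ 2 := by rw [h2]
    have h3 := (hL i).2 _ hwZ _ hy2Z hwi (hy2D i)
    rw [← h1] at h3
    exact hyxZ ((hL i).1 _ h3)
  have hyx : y * x * y⁻¹ = x⁻¹ := eq_inv_of_mul_eq_one_left hw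
  have hu : y ^ 2 * (x ^ (2 ^ (k' + 1)))⁻¹ = 1 := by
    apply hI
    intro i
    apply (hL i).2 _ hy2Z _ (Subgroup.inv_mem _ hxmZ) (hy2D i)
    intro h
    exact hxmD i ((Subgroup.inv_mem_iff _).1 h)
  have hy2 : y ^ 2 = x ^ (2 ^ (k' + 1)) := mul_inv_eq_one.1 hu
  obtain ⟨f, hf1, hf2, -, -⟩ := exists_quat_hom (2 ^ (k' + 1)) hm0 x y hx2m hy2 hyx
  have hπf : (QuotientGroup.mk' (D i₀)).comp f = e.symm.toMonoidHom := by
    apply quat_hom_ext hm0
    · simp only [MonoidHom.comp_apply, QuotientGroup.mk'_apply, hf1, hxe]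
      rfl
    · simp only [MonoidHom.comp_apply, QuotientGroup.mk'_apply, hf2, hye]
      rfl
  have hπf' : ∀ t, (QuotientGroup.mk (f t) : S ⧸ D i₀) = e.symm t := by
    intro t
    have h1 := congrArg (fun h : QuaternionGroup (2 ^ (k' + 1)) →* S ⧸ D i₀ => h t) hπf
    exact h1
  have hinf : D i₀ ⊓ f.range = ⊥ := by
    rw [eq_bot_iff]
    rintro s ⟨hsD, t, rfl⟩
    rw [Subgroup.mem_bot]
    have h1 : (QuotientGroup.mk (f t) : S ⧸ D i₀) = 1 := (QuotientGroup.eq_one_iff _).2 hsD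
    rw [hπf'] at h1
    have h2 : t = 1 := by
      have h3 := congrArg e h1
      rw [MulEquiv.apply_symm_apply, map_one] at h3
      exact h3
    rw [h2, map_one]
  have hsup : D i₀ ⊔ f.range = ⊤ := by
    rw [eq_top_iff]
    intro s _
    have h1 : (QuotientGroup.mk (f (e (QuotientGroup.mk s))) : S ⧸ D i₀) = QuotientGroup.mk s := by
      rw [hπf', MulEquiv.symm_apply_apply]
    have h2 : (f (e (QuotientGroup.mk s)))⁻¹ * s ∈ D i₀ := QuotientGroup.eq.1 h1
    have h3 : s = ((f (e (QuotientGroup.mk s))) * ((f (e (QuotientGroup.mk s)))⁻¹ * s) *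
        (f (e (QuotientGroup.mk s)))⁻¹) * f (e (QuotientGroup.mk s)) := by group
    rw [h3]
    exact Subgroup.mul_mem _ (Subgroup.mem_sup_left (hN₀.conj_mem _ h2 _))
      (Subgroup.mem_sup_right ⟨_, rfl⟩)
  have hxQ : x ∈ f.range := ⟨_, hf1⟩
  have hyQ : y ∈ f.range := ⟨_, hf2⟩
  have hxmS : x ^ (2 ^ (k' + 1)) ≠ 1 := fun h => hxmD i₀ (h ▸ Subgroup.one_mem _)
  refine ⟨D i₀, f.range, ⟨le_top, le_top, ?_, hinf, hsup⟩, ⟨⟨⟨fun a b => ?_⟩⟩, ?_⟩, ?_, ?_⟩
  · intro a ha b _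
    exact (hcen a (hDZ i₀ ha) b).symm
  · apply Subtype.ext
    show (a : S) * b = b * a
    exact hcen b (hDZ i₀ b.2) a
  · intro a ha
    exact hF2 a (hDZ i₀ ha)
  · intro hc
    have h1 := hc.is_comm.comm (⟨y, hyQ⟩ : f.range) ⟨x, hxQ⟩
    have h2 : y * x = x * y := congrArg Subtype.val h1
    exact hncomm y h2 hw₀
  · refine ⟨⟨x ^ (2 ^ (k' + 1)), Subgroup.pow_mem _ hxQ _⟩, ?_, ?_⟩
    · show orderOf (⟨x ^ (2 ^ (k' + 1)), Subgroup.pow_mem _ hxQ _⟩ : f.range) = 2
      rw [Subgroup.orderOf_mk]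
      exact orderOf_eq_prime (hF2 _ hxmZ) hxmS
    · intro q hq
      have hqo : orderOf (q : S) = 2 := by rw [Subgroup.orderOf_coe]; exact hq
      have hq2 : (q : S) ^ 2 = 1 := by
        have h0 := pow_orderOf_eq_one (q : S)
        rwa [hqo] at h0
      have hq1 : (q : S) ≠ 1 := by
        intro h
        rw [h, orderOf_one] at hqo
        omega
      have hqD : (q : S) ∉ D i₀ := by
        intro h
        have h1 : (q : S) ∈ D i₀ ⊓ f.range := ⟨h, q.2⟩
        rw [hinf, Subgroup.mem_bot] at h1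
        exact hq1 h1
      have h3 : (QuotientGroup.mk (q : S) : S ⧸ D i₀) = z₀ := by
        apply hzu₀
        apply orderOf_eq_prime
        · rw [← QuotientGroup.mk_pow, hq2, QuotientGroup.mk_one]
        · rw [Ne, QuotientGroup.eq_one_iff]
          exact hqD
      have h4 : (QuotientGroup.mk (x ^ (2 ^ (k' + 1))) : S ⧸ D i₀) = z₀ := by
        apply hzu₀
        apply orderOf_eq_prime
        · rw [← QuotientGroup.mk_pow, hF2 _ hxmZ, QuotientGroup.mk_one]
        · rw [Ne, QuotientGroup.eq_one_iff]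
          exact hxmD i₀
      have h5 : (x ^ (2 ^ (k' + 1)))⁻¹ * (q : S) ∈ D i₀ := QuotientGroup.eq.1 (h4.trans h3.symm)
      have h6 : (x ^ (2 ^ (k' + 1)))⁻¹ * (q : S) ∈ D i₀ ⊓ f.range :=
        ⟨h5, Subgroup.mul_mem _ (Subgroup.inv_mem _ (Subgroup.pow_mem _ hxQ _)) q.2⟩
      rw [hinf, Subgroup.mem_bot] at h6
      apply Subtype.ext
      show (q : S) = x ^ (2 ^ (k' + 1))
      exact (inv_mul_eq_one.1 h6).symm

theorem mem_of_odd_pow_mem {G : Type*} [Group G] [Finite G] (ζ : G) (j : ℕ)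
    (hj : ζ ^ (2 ^ j) = 1) (H : Subgroup G) (N : ℕ) (hN : Odd N) (h : ζ ^ N ∈ H) : ζ ∈ H := by
  have h1 : orderOf (ζ ^ N) = orderOf ζ := by
    apply Nat.Coprime.orderOf_pow
    have h2 := orderOf_dvd_of_pow_eq_one hj
    obtain ⟨s, _, hs⟩ := (Nat.dvd_prime_pow Nat.prime_two).1 h2
    rw [hs]
    exact Nat.Coprime.pow_left _ (Nat.coprime_two_left.2 hN)
  have h2 : Subgroup.zpowers (ζ ^ N) ≤ Subgroup.zpowers ζ :=
    Subgroup.zpowers_le.2 (Subgroup.pow_mem _ (Subgroup.mem_zpowers ζ) _)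
  have h3 := Subgroup.eq_of_le_of_card_ge h2 (by rw [Nat.card_zpowers, Nat.card_zpowers, h1])
  have h4 : ζ ∈ Subgroup.zpowers (ζ ^ N) := by
    rw [h3]
    exact Subgroup.mem_zpowers ζ
  exact (Subgroup.zpowers_le.2 h) h4

/-- Let S be a finite 2-group whose centre Z(S) has n ≥ 2 distinct maximal subgroups C₁, …, Cₙ with trivial intersection such that each quotient S/Cᵢ is a non-abelian group with exactly one involution (a generalized quaternion group). Then S is the internal direct product of an elementary abelian subgroup and a non-abelian subgroup with exactly one involution. -/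
theorem result {S : Type*} [Group S] [Finite S]
    (hS : IsPGroup 2 S) (n : ℕ) (hn : 2 ≤ n) (C : Fin n → Subgroup ↥(Subgroup.center S))
    (hCmax : ∀ i, IsCoatom (C i)) (hCinj : Function.Injective C) (hCint : ⨅ i, C i = ⊥)
    (hCq : ∀ i, ∃ (_ : ((C i).map (Subgroup.center S).subtype).Normal),
      ¬ IsMulCommutative (S ⧸ (C i).map (Subgroup.center S).subtype) ∧
      ∃! x : S ⧸ (C i).map (Subgroup.center S).subtype, orderOf x = 2) :
    ∃ E Q : Subgroup S, Cfsg.IsInternalDirectProduct E Q ⊤ ∧ Cfsg.IsElementaryAbelian 2 E ∧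
      ¬ IsMulCommutative ↥Q ∧ ∃! x : ↥Q, orderOf x = 2 := by
  classical
  have hn0 : 0 < n := by omega
  have hI : ∀ s : S, (∀ i, s ∈ (C i).map (Subgroup.center S).subtype) → s = 1 := by
    intro s hs
    obtain ⟨z, hz, rfl⟩ := hs ⟨0, hn0⟩
    have h1 : z ∈ ⨅ i, C i := by
      rw [Subgroup.mem_iInf]
      intro i
      obtain ⟨z', hz', hzz'⟩ := hs i
      have h2 : z' = z := Subtype.ext hzz'
      rw [← h2]
      exact hz'
    rw [hCint, Subgroup.mem_bot] at h1
    rw [h1]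
    rfl
  have hDZ : ∀ i, (C i).map (Subgroup.center S).subtype ≤ Subgroup.center S := by
    intro i s hs
    obtain ⟨z, _, rfl⟩ := hs
    exact z.2
  have hF0 : ∀ i, ∀ z ∈ Subgroup.center S, z ^ 2 ∈ (C i).map (Subgroup.center S).subtype := by
    intro i z hz
    obtain ⟨ζ, hζdef⟩ : ∃ ζ : Subgroup.center S, (ζ : S) = z := ⟨⟨z, hz⟩, rfl⟩
    suffices h : ζ ^ 2 ∈ C i by
      refine ⟨ζ ^ 2, h, ?_⟩
      rw [← hζdef]
      rfl
    by_contra hcon
    have hNn : (Subgroup.zpowers (ζ ^ 2)).Normal := by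
      constructor
      intro a ha g
      have h1 : g * a * g⁻¹ = a := by
        apply Subtype.ext
        show (g : S) * a * (g : S)⁻¹ = a
        rw [Subgroup.mem_center_iff.1 a.2 g, mul_inv_cancel_right]
      rw [h1]
      exact ha
    have hsup : C i ⊔ Subgroup.zpowers (ζ ^ 2) = ⊤ := by
      apply (hCmax i).2
      refine lt_of_le_of_ne le_sup_left (fun h => hcon ?_)
      rw [h]
      exact Subgroup.mem_sup_right (Subgroup.mem_zpowers _)
    have hζ : ζ ∈ ((C i ⊔ Subgroup.zpowers (ζ ^ 2) : Subgroup (Subgroup.center S)) :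
        Set (Subgroup.center S)) := by
      rw [hsup]
      exact Set.mem_univ _
    rw [Subgroup.mul_normal] at hζ
    obtain ⟨c, hc, d, hd, hcd⟩ := Set.mem_mul.1 hζ
    obtain ⟨k, hk⟩ := (mem_powers_iff_mem_zpowers).2 hd
    have hk' : (ζ ^ 2) ^ k = d := hk
    obtain ⟨j, hj⟩ := (hS.to_subgroup (Subgroup.center S)) ζ
    rcases Nat.eq_zero_or_pos k with h0 | h0
    · rw [h0, pow_zero] at hk'
      rw [← hk', mul_one] at hcd
      apply hcon
      rw [← hcd]
      exact Subgroup.pow_mem _ hc 2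
    · have h1 : ζ ^ (2 * (k - 1) + 1) ∈ C i := by
        have h2 : ζ ^ (2 * (k - 1) + 1) = c⁻¹ := by
          apply eq_inv_of_mul_eq_one_right
          have h3 : ζ ^ (2 * (k - 1) + 1) * ζ = d := by
            rw [← pow_succ, ← hk', ← pow_mul]
            congr 1
            omega
          have h4 : c * ζ ^ (2 * (k - 1) + 1) * ζ = ζ := by
            rw [mul_assoc, h3]
            exact hcd
          exact mul_eq_right.1 h4
        rw [h2]
        exact Subgroup.inv_mem _ hc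
      have h6 := mem_of_odd_pow_mem ζ j hj (C i) _ ⟨k - 1, rfl⟩ h1
      exact hcon (Subgroup.pow_mem _ h6 2)
  have hne : ∀ i, ∃ z ∈ Subgroup.center S, z ∉ (C i).map (Subgroup.center S).subtype := by
    intro i
    have hnt := (hCmax i).1
    obtain ⟨ζ, hζ⟩ : ∃ ζ : Subgroup.center S, ζ ∉ C i := by
      by_contra h
      push Not at h
      exact hnt ((Subgroup.eq_top_iff' _).2 h)
    refine ⟨ζ, ζ.2, ?_⟩
    rintro ⟨ζ', hζ', h⟩
    have h2 : ζ' = ζ := Subtype.ext h
    exact hζ (h2 ▸ hζ')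
  exact main hS (Fin n) ⟨0, hn0⟩ (fun i => (C i).map (Subgroup.center S).subtype) hDZ hF0 hne hI hCq

end Cfsg.Agent.S3201
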