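import Cfsg.Statements.S3202
import Mathlib
import Cfsg.Agent.Lib.Helper18.UniqueInvolution

set_option autoImplicit false
open Cfsg

namespace Cfsg.Agent.S3202

open scoped commutatorElement in
open Cfsg.Agent.Lib.Helper18.UniqueInvolution in
theorem main {S : Type*} [Group S] [Finite S] (hS : IsPGroup 2 S) (D : Subgroup S)
    (hDZ : D ≤ Subgroup.center S) (hN : D.Normal) (hnc : ¬ IsMulCommutative (S ⧸ D))
    (hex : ∃! x : S ⧸ D, orderOf x = 2) :
    ∃ C : Subgroup S, C ≠ ⊥ ∧ IsCyclic ↥C ∧ C.Characteristic := by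
  classical
  have hcen : ∀ z ∈ D, ∀ g : S, g * z = z * g :=
    fun z hz g => Subgroup.mem_center_iff.1 (hDZ hz) g
  obtain ⟨z₀, hz₀, hzu₀⟩ := hex
  have hE : Set.ncard {g : S ⧸ D | g ^ 2 = 1} ≤ 2 := by
    have hsub : {g : S ⧸ D | g ^ 2 = 1} ⊆ {1, z₀} := by
      intro g hg
      by_cases hg1 : g = 1
      · left
        exact hg1
      · right
        exact hzu₀ g (orderOf_eq_prime hg hg1)
    calc Set.ncard {g : S ⧸ D | g ^ 2 = 1} ≤ Set.ncard ({1, z₀} : Set (S ⧸ D)) :=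
          Set.ncard_le_ncard hsub (Set.toFinite _)
      _ ≤ 2 := (Set.ncard_insert_le _ _).trans (by rw [Set.ncard_singleton])
  rcases cyclic_or_quaternion (hS.to_quotient D) hE with hcyc | ⟨k, ⟨e⟩⟩
  · exact absurd (IsCyclic.isMulCommutative) hnc
  have hm0 : (2 : ℕ) ^ k ≠ 0 := by positivity
  have hne1 : NeZero ((2 : ℕ) ^ k) := ⟨hm0⟩
  have hne2 : NeZero (2 * (2 : ℕ) ^ k) := ⟨by positivity⟩
  obtain ⟨x, hxe⟩ := QuotientGroup.mk_surjective (e.symm (QuaternionGroup.a 1))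
  obtain ⟨y, hye⟩ := QuotientGroup.mk_surjective (e.symm (QuaternionGroup.xa 0))
  have hrel2 : (QuotientGroup.mk y : S ⧸ D) * QuotientGroup.mk x * (QuotientGroup.mk y)⁻¹ =
      (QuotientGroup.mk x)⁻¹ := by
    rw [hxe, hye, ← map_inv, ← map_inv, ← map_mul, ← map_mul]
    congr 1
    have h1 : (QuaternionGroup.a 1 : QuaternionGroup (2 ^ k))⁻¹ = QuaternionGroup.a (-1) := by
      apply inv_eq_of_mul_eq_one_right
      rw [QuaternionGroup.a_mul_a, add_neg_cancel, QuaternionGroup.a_zero]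
    rw [h1, mul_inv_eq_iff_eq_mul, QuaternionGroup.xa_mul_a, QuaternionGroup.a_mul_xa,
      sub_neg_eq_add]
  -- normal form
  have nf : ∀ s : S, ∃ (i : ℕ) (d : S), d ∈ D ∧ (s = x ^ i * d ∨ s = y * x ^ i * d) := by
    intro s
    have ha : ∀ i : ZMod (2 * 2 ^ k), e.symm (QuaternionGroup.a i) =
        (QuotientGroup.mk (x ^ i.val) : S ⧸ D) := by
      intro i
      have h1 : QuaternionGroup.a i = (QuaternionGroup.a 1 : QuaternionGroup (2 ^ k)) ^ i.val := by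
        rw [QuaternionGroup.a_one_pow, ZMod.natCast_zmod_val]
      rw [h1, map_pow, ← hxe, QuotientGroup.mk_pow]
    have hs : (QuotientGroup.mk s : S ⧸ D) = e.symm (e (QuotientGroup.mk s)) :=
      (MulEquiv.symm_apply_apply e _).symm
    rcases h : e (QuotientGroup.mk s) with i | i
    · rw [h, ha] at hs
      have h2 : (x ^ i.val)⁻¹ * s ∈ D := QuotientGroup.eq.1 hs.symm
      exact ⟨i.val, _, h2, Or.inl (by group)⟩
    · have h4 : QuaternionGroup.xa i =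
          (QuaternionGroup.xa 0 : QuaternionGroup (2 ^ k)) * QuaternionGroup.a i := by
        rw [QuaternionGroup.xa_mul_a, zero_add]
      rw [h, h4, map_mul, ha, ← hye, ← QuotientGroup.mk_mul] at hs
      have h2 : (y * x ^ i.val)⁻¹ * s ∈ D := QuotientGroup.eq.1 hs.symm
      exact ⟨i.val, _, h2, Or.inr (by group)⟩
  -- the relation lifted to S
  obtain ⟨d₀, hd₀def⟩ : ∃ d₀, d₀ = y * x * y⁻¹ * x := ⟨_, rfl⟩
  have hd₀ : d₀ ∈ D := by
    rw [hd₀def, ← QuotientGroup.eq_one_iff]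
    simp only [QuotientGroup.mk_mul, QuotientGroup.mk_inv]
    rw [hrel2, inv_mul_cancel]
  have hyx : y * x * y⁻¹ = d₀ * x⁻¹ := by
    rw [hd₀def]
    group
  obtain ⟨c, hcdef⟩ : ∃ c, c = x * y * x⁻¹ * y⁻¹ := ⟨_, rfl⟩
  have hc : c = x ^ 2 * d₀⁻¹ := by
    have h1 : c = x * (y * x * y⁻¹)⁻¹ := by
      rw [hcdef]
      group
    rw [h1, hyx, mul_inv_rev, inv_inv, ← mul_assoc, ← pow_two]
  have hd₀c : ∀ g : S, g * d₀⁻¹ = d₀⁻¹ * g := fun g => hcen _ (D.inv_mem hd₀) g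
  have hxc : x * c * x⁻¹ = c := by
    rw [hc]
    have h1 : x * (x ^ 2 * d₀⁻¹) = (x ^ 2 * d₀⁻¹) * x := by
      rw [mul_assoc (x ^ 2), ← hd₀c x, ← mul_assoc, ← mul_assoc, ← pow_succ', ← pow_succ]
    rw [h1, mul_inv_cancel_right]
  have hyc : y * c * y⁻¹ = c⁻¹ := by
    have h1 : y * c * y⁻¹ = (y * x * y⁻¹) ^ 2 * d₀⁻¹ := by
      rw [hc, conj_pow]
      have h2 : y * (x ^ 2 * d₀⁻¹) * y⁻¹ = y * x ^ 2 * (d₀⁻¹ * y⁻¹) := by group
      rw [h2, ← hd₀c y⁻¹]
      group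
    rw [h1, hyx, hc]
    have h3 : (d₀ * x⁻¹) ^ 2 = d₀ ^ 2 * (x⁻¹) ^ 2 :=
      (show Commute d₀ x⁻¹ from (hcen d₀ hd₀ x⁻¹).symm).mul_pow 2
    rw [h3, mul_inv_rev, inv_inv]
    have h4 : d₀ ^ 2 * x⁻¹ ^ 2 * d₀⁻¹ = d₀ * x⁻¹ ^ 2 := by
      have h5 : d₀ ^ 2 * x⁻¹ ^ 2 * d₀⁻¹ = d₀ ^ 2 * (x⁻¹ ^ 2 * d₀⁻¹) := by group
      rw [h5, hd₀c, pow_two]
      group
    rw [h4, inv_pow]
  have hnorm : ∀ (s : S), ∀ n ∈ Subgroup.zpowers c, s * n * s⁻¹ ∈ Subgroup.zpowers c := by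
    intro s n hn
    have hx' : ∀ i : ℕ, x ^ i * n * (x ^ i)⁻¹ = n := by
      intro i
      obtain ⟨j, rfl⟩ := Subgroup.mem_zpowers_iff.1 hn
      have h1 : Commute x c := by
        have h2 : x * c = (x * c * x⁻¹) * x := by group
        rw [hxc] at h2
        exact h2
      rw [((h1.pow_left i).zpow_right j).eq, mul_inv_cancel_right]
    have hy' : y * n * y⁻¹ = n⁻¹ := by
      obtain ⟨j, rfl⟩ := Subgroup.mem_zpowers_iff.1 hn
      rw [← conj_zpow, hyc, inv_zpow]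
    obtain ⟨i, d, hd, h | h⟩ := nf s
    · have h1 : s * n * s⁻¹ = x ^ i * n * (x ^ i)⁻¹ := by
        rw [h]
        have h2 : x ^ i * d * n * (x ^ i * d)⁻¹ = x ^ i * (d * n) * d⁻¹ * (x ^ i)⁻¹ := by group
        rw [h2, ← hcen d hd n]
        group
      rw [h1, hx']
      exact hn
    · have h1 : s * n * s⁻¹ = y * (x ^ i * n * (x ^ i)⁻¹) * y⁻¹ := by
        rw [h]
        have h2 : y * x ^ i * d * n * (y * x ^ i * d)⁻¹ =
            y * x ^ i * (d * n) * d⁻¹ * (x ^ i)⁻¹ * y⁻¹ := by group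
        rw [h2, ← hcen d hd n]
        group
      rw [h1, hx', hy']
      exact Subgroup.inv_mem _ hn
  have hNn : (Subgroup.zpowers c).Normal := ⟨fun n hn g => hnorm g n hn⟩
  have hxy : (QuotientGroup.mk x : S ⧸ Subgroup.zpowers c) * QuotientGroup.mk y =
      QuotientGroup.mk y * QuotientGroup.mk x := by
    rw [← QuotientGroup.mk_mul, ← QuotientGroup.mk_mul]
    apply QuotientGroup.eq.2
    have h1 : (x * y)⁻¹ * (y * x) = (x⁻¹ * y⁻¹) * (x * y * x⁻¹ * y⁻¹)⁻¹ * (x⁻¹ * y⁻¹)⁻¹ := by group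
    rw [h1, ← hcdef]
    exact hnorm _ _ (Subgroup.inv_mem _ (Subgroup.mem_zpowers c))
  have hdq : ∀ d ∈ D, ∀ q : S ⧸ Subgroup.zpowers c, QuotientGroup.mk d * q = q * QuotientGroup.mk d := by
    intro d hd q
    obtain ⟨g, rfl⟩ := QuotientGroup.mk_surjective q
    rw [← QuotientGroup.mk_mul, ← QuotientGroup.mk_mul, hcen d hd g]
  have hXY : Commute (QuotientGroup.mk x : S ⧸ Subgroup.zpowers c) (QuotientGroup.mk y) := hxy
  have hDq : ∀ d ∈ D, ∀ q : S ⧸ Subgroup.zpowers c, Commute (QuotientGroup.mk d) q := hdq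
  have hnfq : ∀ g : S, ∃ (i : ℕ) (d : S), d ∈ D ∧
      ((QuotientGroup.mk g : S ⧸ Subgroup.zpowers c) = (QuotientGroup.mk x) ^ i * QuotientGroup.mk d ∨
       (QuotientGroup.mk g : S ⧸ Subgroup.zpowers c) =
        QuotientGroup.mk y * (QuotientGroup.mk x) ^ i * QuotientGroup.mk d) := by
    intro g
    obtain ⟨i, d, hd, h | h⟩ := nf g
    · exact ⟨i, d, hd, Or.inl (by rw [h, QuotientGroup.mk_mul, QuotientGroup.mk_pow])⟩
    · exact ⟨i, d, hd, Or.inr (by
        rw [h, QuotientGroup.mk_mul, QuotientGroup.mk_mul, QuotientGroup.mk_pow])⟩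
  have hxcen : ∀ g : S, Commute (QuotientGroup.mk g : S ⧸ Subgroup.zpowers c) (QuotientGroup.mk x) := by
    intro g
    obtain ⟨i, d, hd, h | h⟩ := hnfq g
    · rw [h]
      exact ((Commute.refl _).pow_left i).mul_left (hDq d hd _)
    · rw [h]
      exact ((hXY.symm).mul_left ((Commute.refl _).pow_left i)).mul_left (hDq d hd _)
  have hycen : ∀ g : S, Commute (QuotientGroup.mk g : S ⧸ Subgroup.zpowers c) (QuotientGroup.mk y) := by
    intro g
    obtain ⟨i, d, hd, h | h⟩ := hnfq g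
    · rw [h]
      exact (hXY.pow_left i).mul_left (hDq d hd _)
    · rw [h]
      exact ((Commute.refl _).mul_left (hXY.pow_left i)).mul_left (hDq d hd _)
  have hcomm : ∀ q₁ q₂ : S ⧸ Subgroup.zpowers c, q₁ * q₂ = q₂ * q₁ := by
    intro q₁ q₂
    obtain ⟨g₁, rfl⟩ := QuotientGroup.mk_surjective q₁
    obtain ⟨g₂, rfl⟩ := QuotientGroup.mk_surjective q₂
    obtain ⟨i, d, hd, h | h⟩ := hnfq g₂
    · rw [h]
      exact (((hxcen g₁).pow_right i).mul_right (hDq d hd _).symm).eq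
    · rw [h]
      exact (((hycen g₁).mul_right ((hxcen g₁).pow_right i)).mul_right (hDq d hd _).symm).eq
  have hle : commutator S ≤ Subgroup.zpowers c := by
    rw [commutator_eq_closure, Subgroup.closure_le]
    rintro _ ⟨g₁, g₂, rfl⟩
    rw [SetLike.mem_coe, ← QuotientGroup.eq_one_iff, commutatorElement_def]
    simp only [QuotientGroup.mk_mul, QuotientGroup.mk_inv]
    rw [hcomm (QuotientGroup.mk g₁) (QuotientGroup.mk g₂)]
    group
  refine ⟨commutator S, ?_, Subgroup.isCyclic_of_le hle, inferInstance⟩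
  intro hbot
  apply hnc
  constructor
  constructor
  intro q₁ q₂
  obtain ⟨g₁, rfl⟩ := QuotientGroup.mk_surjective q₁
  obtain ⟨g₂, rfl⟩ := QuotientGroup.mk_surjective q₂
  have h1 : ⁅g₁, g₂⁆ ∈ commutator S := by
    rw [commutator_eq_closure]
    exact Subgroup.subset_closure ⟨g₁, g₂, rfl⟩
  rw [hbot, Subgroup.mem_bot, commutatorElement_def] at h1
  have h2 : g₁ * g₂ = g₂ * g₁ := by
    have h3 : g₁ * g₂ = (g₁ * g₂ * g₁⁻¹ * g₂⁻¹) * (g₂ * g₁) := by group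
    rw [h3, h1, one_mul]
  show (QuotientGroup.mk g₁ : S ⧸ D) * QuotientGroup.mk g₂ = QuotientGroup.mk g₂ * QuotientGroup.mk g₁
  rw [← QuotientGroup.mk_mul, ← QuotientGroup.mk_mul, h2]

/-- Let S be a finite 2-group of 2-rank exactly 2 and D a maximal subgroup of the centre of S such that S/D is a non-abelian group with exactly one involution (a generalized quaternion group). Then S has a nontrivial cyclic characteristic subgroup. -/
theorem result {S : Type*} [Group S]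
    [Finite S] (hS : IsPGroup 2 S) (hr2 : Cfsg.PRankLE 2 2 S) (hr1 : ¬ Cfsg.PRankLE 2 1 S)
    (D : Subgroup ↥(Subgroup.center S)) (hD : IsCoatom D)
    (hq : ∃ (_ : (D.map (Subgroup.center S).subtype).Normal),
      ¬ IsMulCommutative (S ⧸ D.map (Subgroup.center S).subtype) ∧
      ∃! x : S ⧸ D.map (Subgroup.center S).subtype, orderOf x = 2) :
    ∃ C : Subgroup S, C ≠ ⊥ ∧ IsCyclic ↥C ∧ C.Characteristic := by
  obtain ⟨hN, hnc, hex⟩ := hq
  refine main hS (D.map (Subgroup.center S).subtype) ?_ hN hnc hex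
  intro s hs
  obtain ⟨z, _, rfl⟩ := hs
  exact z.2

end Cfsg.Agent.S3202
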