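import Cfsg.Statements.S3208
import Mathlib

set_option autoImplicit false
open Cfsg

namespace Cfsg.Agent.S3208

/-- Let j be an involution of a finite group G, H a subgroup of G, and T a Sylow 2-subgroup of H ∩ C_G(j) containing j such that ⟨j⟩ is a characteristic subgroup of T. Then T is a Sylow 2-subgroup of H. -/
theorem result {G : Type*} [Group G] [Finite G]
    (j : G) (hj : orderOf j = 2) (H T : Subgroup G) (hT : T ≤ H ⊓ Subgroup.centralizer ({j} : Set G)) (h2 : IsPGroup 2 ↥T)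
    (hSyl : ¬ 2 ∣ T.relIndex (H ⊓ Subgroup.centralizer ({j} : Set G))) (hjT : j ∈ T)
    (hchar : ((Subgroup.zpowers j).subgroupOf T).Characteristic) :
    ¬ 2 ∣ T.relIndex H := by
  set K := H ⊓ Subgroup.centralizer ({j} : Set G) with hKdef
  have hTH : T ≤ H := hT.trans inf_le_left
  have h2' : IsPGroup 2 (T.subgroupOf H) := h2.comap_subtype
  obtain ⟨S, hS⟩ := h2'.exists_le_sylow
  set T₁ : Subgroup G := (S : Subgroup H).map H.subtype with hT₁
  have hT₁H : T₁ ≤ H := by rw [hT₁]; exact Subgroup.map_subtype_le _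
  have hTT₁ : T ≤ T₁ := by
    intro t ht
    exact ⟨⟨t, hTH ht⟩, hS (Subgroup.mem_subgroupOf.2 ht), rfl⟩
  have hT₁2 : IsPGroup 2 T₁ := S.isPGroup'.map _
  have hclaim : T₁ ≤ T := by
    by_contra hne
    have hlt : T.subgroupOf T₁ < ⊤ :=
      lt_top_iff_ne_top.2 (fun h => hne (Subgroup.subgroupOf_eq_top.1 h))
    haveI : Group.IsNilpotent T₁ := hT₁2.isNilpotent
    have hnc := Group.normalizerCondition_of_isNilpotent (G := T₁) _ hlt
    obtain ⟨x, hxN, hxT⟩ := SetLike.exists_of_lt hnc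
    rw [Subgroup.mem_subgroupOf] at hxT
    have hconj : ∀ y : T₁, y ∈ Subgroup.normalizer ((T.subgroupOf T₁ : Subgroup T₁) : Set T₁) →
        ∀ t ∈ T, (y:G) * t * (y:G)⁻¹ ∈ T := by
      intro y hy t ht
      have := (Subgroup.mem_normalizer_iff.1 hy ⟨t, hTT₁ ht⟩).1 (Subgroup.mem_subgroupOf.2 ht)
      rw [Subgroup.mem_subgroupOf] at this
      simpa using this
    have hc1 := hconj x hxN
    have hc2 := hconj x⁻¹ (inv_mem hxN)
    let φ : T ≃* T :=
      { toFun := fun t => ⟨(x:G) * t * (x:G)⁻¹, hc1 t t.2⟩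
        invFun := fun t => ⟨(x:G)⁻¹ * t * (x:G), by simpa using hc2 t t.2⟩
        left_inv := fun t => Subtype.ext (by simp [mul_assoc])
        right_inv := fun t => Subtype.ext (by simp [mul_assoc])
        map_mul' := fun s t => Subtype.ext (by simp [mul_assoc]) }
    have hjm : (⟨j, hjT⟩ : T) ∈ (Subgroup.zpowers j).subgroupOf T := by
      rw [Subgroup.mem_subgroupOf]; exact Subgroup.mem_zpowers j
    rw [← hchar.fixed φ] at hjm
    have hjm2 : (x:G) * j * (x:G)⁻¹ ∈ Subgroup.zpowers j := by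
      have := Subgroup.mem_comap.1 hjm
      rw [Subgroup.mem_subgroupOf] at this
      exact this
    obtain ⟨k, hk⟩ := Subgroup.mem_zpowers_iff.1 hjm2
    have hj1 : j ≠ 1 := by
      intro h; rw [h, orderOf_one] at hj; omega
    have hxj : (x:G) * j * (x:G)⁻¹ = j := by
      rw [← zpow_mod_orderOf, hj] at hk
      rcases Int.emod_two_eq_zero_or_one k with h | h
      · exfalso
        rw [Nat.cast_ofNat, h, zpow_zero] at hk
        apply hj1
        have : j = (x:G)⁻¹ * ((x:G) * j * (x:G)⁻¹) * (x:G) := by group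
        rw [this, ← hk]; simp
      · rw [Nat.cast_ofNat, h, zpow_one] at hk
        exact hk.symm
    have hxC : (x:G) ∈ Subgroup.centralizer ({j} : Set G) := by
      rw [Subgroup.mem_centralizer_iff]
      intro h hh
      rw [Set.mem_singleton_iff] at hh
      rw [hh]
      have := congrArg (· * (x:G)) hxj
      simpa using this.symm
    have hxW : (x:G) ∈ T₁ ⊓ K := ⟨x.2, hT₁H x.2, hxC⟩
    have hTW : T ≤ T₁ ⊓ K := le_inf hTT₁ hT
    have hWK : T₁ ⊓ K ≤ K := inf_le_right
    have hW2 : IsPGroup 2 (T₁ ⊓ K : Subgroup G) := hT₁2.to_le inf_le_left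
    have hmul := Subgroup.relIndex_mul_relIndex T (T₁ ⊓ K) K hTW hWK
    have hodd : ¬ 2 ∣ T.relIndex (T₁ ⊓ K) := fun h => hSyl (hmul ▸ Dvd.dvd.mul_right h _)
    obtain ⟨n, hn⟩ := hW2.exists_card_eq
    have hdvd := Subgroup.relIndex_dvd_card T (T₁ ⊓ K)
    rw [hn] at hdvd
    obtain ⟨m, _, hm⟩ := (Nat.dvd_prime_pow Nat.prime_two).1 hdvd
    have hm0 : m = 0 := by
      by_contra hm0
      exact hodd (hm ▸ dvd_pow_self 2 hm0)
    rw [hm0, pow_zero] at hm
    exact hxT (Subgroup.relIndex_eq_one.1 hm hxW)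
  have hTeq : T = T₁ := le_antisymm hTT₁ hclaim
  rw [hTeq, hT₁]
  have hrel : ((S : Subgroup H).map H.subtype).relIndex H = (S : Subgroup H).index := by
    rw [Subgroup.relIndex, Subgroup.subgroupOf,
      Subgroup.comap_map_eq_self_of_injective H.subtype_injective]
  rw [hrel]
  exact S.not_dvd_index

end Cfsg.Agent.S3208
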