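import Cfsg.Statements.S3209
import Mathlib
import Cfsg.Agent.Lib.Helper14.Torus
import Cfsg.Agent.Lib.Helper19.RelIndex

set_option autoImplicit false
open Cfsg

namespace Cfsg.Agent.S3209

open Cfsg.Agent.Lib.Helper14.GL2Conj Cfsg.Agent.Lib.Helper14.SL2Odd Cfsg.Agent.Lib.Helper14.PSL2
  Cfsg.Agent.Lib.Helper14.Torus

section sl2
variable {F : Type*} [Field F]

/-- an element of order 4 of `SL₂` -/
def s0 : Matrix.SpecialLinearGroup (Fin 2) F :=
  ⟨!![0, -1; 1, 0], by simp [Matrix.det_fin_two_of]⟩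

theorem s0_sq : (s0 : Matrix.SpecialLinearGroup (Fin 2) F) * s0 = negOne := by
  apply Subtype.ext
  rw [Matrix.SpecialLinearGroup.coe_mul, negOne_coe]
  show !![0, -1; 1, 0] * !![0, -1; 1, 0] = (!![-1, 0; 0, -1] : Matrix (Fin 2) (Fin 2) F)
  rw [Matrix.mul_fin_two]
  simp

theorem tr_zero_of_sq (h2 : (2 : F) ≠ 0) (c : Matrix.SpecialLinearGroup (Fin 2) F)
    (hc : c * c = negOne) :
    tr2 c = 0 ∧ ¬ IsScalarMat (c : Matrix (Fin 2) (Fin 2) F) := by
  constructor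
  · have h1 := cayley c
    rw [← Matrix.SpecialLinearGroup.coe_mul, hc, negOne_coe] at h1
    by_contra ht
    have e00 := congrFun (congrFun h1 0) 0
    have e01 := congrFun (congrFun h1 0) 1
    have e11 := congrFun (congrFun h1 1) 1
    simp at e00 e01 e11
    have f00 : tr2 c * (c : Matrix (Fin 2) (Fin 2) F) 0 0 = 0 := by linear_combination (-1 : F) * e00
    have f11 : tr2 c * (c : Matrix (Fin 2) (Fin 2) F) 1 1 = 0 := by linear_combination (-1 : F) * e11
    have g00 := (mul_eq_zero.1 f00).resolve_left ht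
    have g11 := (mul_eq_zero.1 f11).resolve_left ht
    have g01 := e01.resolve_left ht
    have hd := c.det_coe
    rw [Matrix.det_fin_two, g00, g11, g01] at hd
    simp at hd
  · intro hs
    rcases scalar_cases c hs with h | h
    · rw [h, mul_one] at hc
      exact negOne_ne_one h2 hc.symm
    · rw [h, negOne_mul_self] at hc
      exact negOne_ne_one h2 hc.symm

theorem sl2_facts {G : Type*} [Group G] [Fintype F] (hF : Odd (Fintype.card F))
    (L : Subgroup G) (e : ↥L ≃* Matrix.SpecialLinearGroup (Fin 2) F) (j : G) (hjL : j ∈ L)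
    (hjj : j * j = 1) (hj1 : j ≠ 1) :
    (∀ a ∈ L, a * a = 1 → a = 1 ∨ a = j) ∧ (∃ a ∈ L, a * a = j) ∧
      (∀ a ∈ L, ∀ a' ∈ L, a * a = j → a' * a' = j → ∃ g ∈ L, g * a * g⁻¹ = a') := by
  have hodd : Fintype.card F % 2 = 1 := Nat.odd_iff.1 hF
  have h2 : (2 : F) ≠ 0 := two_ne_zero_of_odd hodd
  have hsq : ∀ a : L, a * a = 1 → a = 1 ∨ a = e.symm negOne := by
    intro a haa
    have h1 : e a * e a = 1 := by rw [← map_mul, haa, map_one]
    rcases (sq_iff h2 _).1 h1 with h | h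
    · left; exact e.injective (h.trans (map_one e).symm)
    · right; rw [← h, e.symm_apply_apply]
  have hjz : (⟨j, hjL⟩ : L) = e.symm negOne := by
    rcases hsq ⟨j, hjL⟩ (Subtype.ext hjj) with h | h
    · exact absurd (congrArg Subtype.val h) hj1
    · exact h
  have hej : e ⟨j, hjL⟩ = negOne := by rw [hjz, e.apply_symm_apply]
  refine ⟨?_, ?_, ?_⟩
  · intro a ha haa
    rcases hsq ⟨a, ha⟩ (Subtype.ext haa) with h | h
    · left; exact congrArg Subtype.val h
    · right; exact congrArg Subtype.val (h.trans hjz.symm)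
  · refine ⟨(e.symm s0 : L), (e.symm s0).2, ?_⟩
    have h1 : e.symm s0 * e.symm s0 = (⟨j, hjL⟩ : L) := by
      rw [← map_mul, s0_sq, hjz]
    exact congrArg Subtype.val h1
  · intro a ha a' ha' haa haa'
    have h1 : e ⟨a, ha⟩ * e ⟨a, ha⟩ = negOne := by
      rw [← map_mul, ← hej]
      exact congrArg e (Subtype.ext haa)
    have h1' : e ⟨a', ha'⟩ * e ⟨a', ha'⟩ = negOne := by
      rw [← map_mul, ← hej]
      exact congrArg e (Subtype.ext haa')
    obtain ⟨ht, hns⟩ := tr_zero_of_sq h2 _ h1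
    obtain ⟨ht', hns'⟩ := tr_zero_of_sq h2 _ h1'
    have h4 : (4 : F) ≠ 0 := by
      have : (4 : F) = 2 * 2 := by norm_num
      rw [this]
      exact mul_ne_zero h2 h2
    have hconj : IsConj (e ⟨a, ha⟩) (e ⟨a', ha'⟩) :=
      conj_of_trace hodd _ _ hns hns' (by rw [ht, ht']) (by
        rw [ht]
        intro h
        apply h4
        rw [← h]; ring)
    obtain ⟨c, hc⟩ := isConj_iff.1 hconj
    refine ⟨(e.symm c : L), (e.symm c).2, ?_⟩
    have h5 : e.symm c * ⟨a, ha⟩ * (e.symm c)⁻¹ = (⟨a', ha'⟩ : L) := by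
      apply e.injective
      rw [map_mul, map_mul, map_inv, e.apply_symm_apply, hc]
    exact congrArg Subtype.val h5

end sl2

/-- Let L₁ ≅ SL₂(q₁) and L₂ ≅ SL₂(q₂), q₁ and q₂ odd, be elementwise-commuting subgroups of a finite group meeting in ⟨j⟩ for an involution j. Then L₁L₂ has exactly two conjugacy classes of involutions: the central involution j, and one further class (there is an involution x ≠ j in L₁L₂, and every involution of L₁L₂ other than j is conjugate to x by an element of L₁L₂). -/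
theorem result {G : Type*} [Group G] [Finite G]
    {F₁ : Type*} [Field F₁] [Fintype F₁] {F₂ : Type*} [Field F₂] [Fintype F₂]
    (hF₁ : Odd (Fintype.card F₁)) (hF₂ : Odd (Fintype.card F₂)) (L₁ L₂ : Subgroup G)
    (e₁ : ↥L₁ ≃* Matrix.SpecialLinearGroup (Fin 2) F₁) (e₂ : ↥L₂ ≃* Matrix.SpecialLinearGroup (Fin 2) F₂)
    (hc : ∀ x ∈ L₁, ∀ y ∈ L₂, x * y = y * x) (j : G) (hj : orderOf j = 2) (hm : L₁ ⊓ L₂ = Subgroup.zpowers j) :
    ∃ x ∈ L₁ ⊔ L₂, orderOf x = 2 ∧ x ≠ j ∧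
      ∀ y ∈ L₁ ⊔ L₂, orderOf y = 2 → y = j ∨ ∃ g ∈ L₁ ⊔ L₂, g * x * g⁻¹ = y := by
  have hjmem : j ∈ L₁ ⊓ L₂ := by rw [hm]; exact Subgroup.mem_zpowers j
  have hj1 : j ≠ 1 := by
    intro h
    rw [h, orderOf_one] at hj
    omega
  have hjj : j * j = 1 := by rw [← pow_two, ← hj, pow_orderOf_eq_one]
  have hjinv : j⁻¹ = j := inv_eq_of_mul_eq_one_left hjj
  obtain ⟨hinv1, ⟨a0, ha0, ha0j⟩, hconj1⟩ := sl2_facts hF₁ L₁ e₁ j hjmem.1 hjj hj1
  obtain ⟨hinv2, ⟨b0, hb0, hb0j⟩, hconj2⟩ := sl2_facts hF₂ L₂ e₂ j hjmem.2 hjj hj1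
  have hmeet : ∀ g, g ∈ L₁ → g ∈ L₂ → g = 1 ∨ g = j := by
    intro g h1 h2
    have hg : g ∈ Subgroup.zpowers j := by rw [← hm]; exact ⟨h1, h2⟩
    obtain ⟨k, rfl⟩ := Subgroup.mem_zpowers_iff.1 hg
    rcases Int.even_or_odd k with ⟨m, rfl⟩ | ⟨m, rfl⟩
    · left
      rw [← two_mul, zpow_mul, zpow_two, hjj, one_zpow]
    · right
      rw [zpow_add, zpow_mul, zpow_two, hjj, one_zpow, one_mul, zpow_one]
  have hdecomp : ∀ y ∈ L₁ ⊔ L₂, ∃ a ∈ L₁, ∃ b ∈ L₂, y = a * b :=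
    Cfsg.Agent.Lib.Helper19.exists_mul_of_mem_sup L₁ L₂ (by
      intro b hb
      rw [Subgroup.mem_normalizer_iff]
      intro a
      constructor
      · intro ha
        have e1 : b * a * b⁻¹ = a := by rw [← hc a ha b hb]; group
        rw [e1]; exact ha
      · intro ha
        have e1 : b * a * b⁻¹ * b = b * (b * a * b⁻¹) := hc _ ha b hb
        have e2 : a = b * a * b⁻¹ := by
          have e3 : b * a = b * (b * a * b⁻¹) := by
            rw [← e1]; group
          exact mul_left_cancel e3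
        rw [e2]; exact ha)
  have hx2 : a0 * b0 * (a0 * b0) = 1 := by
    calc a0 * b0 * (a0 * b0) = a0 * (b0 * a0) * b0 := by group
      _ = a0 * (a0 * b0) * b0 := by rw [hc a0 ha0 b0 hb0]
      _ = (a0 * a0) * (b0 * b0) := by group
      _ = 1 := by rw [ha0j, hb0j, hjj]
  have ha0not : ¬ (a0 ∈ L₂) := by
    intro h
    rcases hmeet a0 ha0 h with h' | h'
    · rw [h', mul_one] at ha0j
      exact hj1 ha0j.symm
    · rw [h', hjj] at ha0j
      exact hj1 ha0j.symm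
  have hx1 : a0 * b0 ≠ 1 := by
    intro h
    apply ha0not
    have : a0 = b0⁻¹ := eq_inv_of_mul_eq_one_left h
    rw [this]
    exact L₂.inv_mem hb0
  have hxj : a0 * b0 ≠ j := by
    intro h
    apply ha0not
    have : a0 = j * b0⁻¹ := by rw [← h]; group
    rw [this]
    exact L₂.mul_mem hjmem.2 (L₂.inv_mem hb0)
  refine ⟨a0 * b0, Subgroup.mul_mem _ (Subgroup.mem_sup_left ha0) (Subgroup.mem_sup_right hb0),
    orderOf_eq_prime (by rw [pow_two]; exact hx2) hx1, hxj, ?_⟩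
  intro y hy hyo
  obtain ⟨a, ha, b, hb, rfl⟩ := hdecomp y hy
  have hy1 : a * b ≠ 1 := by
    intro h
    rw [h, orderOf_one] at hyo
    omega
  have hyy : a * b * (a * b) = 1 := by rw [← pow_two, ← hyo, pow_orderOf_eq_one]
  have hab : (a * a) * (b * b) = 1 := by
    calc (a * a) * (b * b) = a * (a * b) * b := by group
      _ = a * (b * a) * b := by rw [hc a ha b hb]
      _ = a * b * (a * b) := by group
      _ = 1 := hyy
  have haaL2 : a * a ∈ L₂ := by
    have : a * a = (b * b)⁻¹ := eq_inv_of_mul_eq_one_left hab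
    rw [this]
    exact L₂.inv_mem (L₂.mul_mem hb hb)
  rcases hmeet (a * a) (L₁.mul_mem ha ha) haaL2 with haa | haa
  · left
    have hbb : b * b = 1 := by rw [haa, one_mul] at hab; exact hab
    rcases hinv1 a ha haa with h1 | h1 <;> rcases hinv2 b hb hbb with h2 | h2
    · exfalso; apply hy1; rw [h1, h2, mul_one]
    · rw [h1, h2, one_mul]
    · rw [h1, h2, mul_one]
    · exfalso; apply hy1; rw [h1, h2, hjj]
  · right
    have hbb : b * b = j := by
      rw [haa] at hab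
      have : b * b = j⁻¹ := eq_inv_of_mul_eq_one_right hab
      rw [this, hjinv]
    obtain ⟨g1, hg1, hg1a⟩ := hconj1 a0 ha0 a ha ha0j haa
    obtain ⟨g2, hg2, hg2b⟩ := hconj2 b0 hb0 b hb hb0j hbb
    refine ⟨g1 * g2, Subgroup.mul_mem _ (Subgroup.mem_sup_left hg1) (Subgroup.mem_sup_right hg2), ?_⟩
    have e1 : a0 * g2 = g2 * a0 := hc a0 ha0 g2 hg2
    have e2 : g1⁻¹ * (g2 * b0 * g2⁻¹) = (g2 * b0 * g2⁻¹) * g1⁻¹ :=
      hc g1⁻¹ (L₁.inv_mem hg1) _ (L₂.mul_mem (L₂.mul_mem hg2 hb0) (L₂.inv_mem hg2))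
    calc g1 * g2 * (a0 * b0) * (g1 * g2)⁻¹ = g1 * (g2 * a0) * b0 * g2⁻¹ * g1⁻¹ := by group
      _ = g1 * (a0 * g2) * b0 * g2⁻¹ * g1⁻¹ := by rw [e1]
      _ = g1 * a0 * ((g2 * b0 * g2⁻¹) * g1⁻¹) := by group
      _ = g1 * a0 * (g1⁻¹ * (g2 * b0 * g2⁻¹)) := by rw [e2]
      _ = (g1 * a0 * g1⁻¹) * (g2 * b0 * g2⁻¹) := by group
      _ = a * b := by rw [hg1a, hg2b]

end Cfsg.Agent.S3209
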