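import Cfsg.Statements.S3210
import Mathlib
import Cfsg.Agent.S3209
import Cfsg.Agent.S2301
import Cfsg.Agent.Lib.Helper19.RelIndex

set_option autoImplicit false
open Cfsg

namespace Cfsg.Agent.S3210


open Cfsg.Agent.Lib.Helper14.GL2Conj Cfsg.Agent.Lib.Helper14.SL2Odd Cfsg.Agent.Lib.Helper14.PSL2
  Cfsg.Agent.Lib.Helper14.Torus

section sl2
variable {F : Type*} [Field F]

/-- a second element of order 4 of `SL₂` -/
def s1 : Matrix.SpecialLinearGroup (Fin 2) F :=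
  ⟨!![1, 1; -2, -1], by rw [Matrix.det_fin_two_of]; ring⟩

theorem s1_sq : (s1 : Matrix.SpecialLinearGroup (Fin 2) F) * s1 = negOne := by
  apply Subtype.ext
  rw [Matrix.SpecialLinearGroup.coe_mul, negOne_coe]
  show !![1, 1; -2, -1] * !![1, 1; -2, -1] = (!![-1, 0; 0, -1] : Matrix (Fin 2) (Fin 2) F)
  rw [Matrix.mul_fin_two]
  norm_num

theorem s0_coe : ((Cfsg.Agent.S3209.s0 : Matrix.SpecialLinearGroup (Fin 2) F) :
    Matrix (Fin 2) (Fin 2) F) = !![0, -1; 1, 0] := rfl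

theorem s1_coe : ((s1 : Matrix.SpecialLinearGroup (Fin 2) F) :
    Matrix (Fin 2) (Fin 2) F) = !![1, 1; -2, -1] := rfl

theorem s0_s1_ne (h2 : (2 : F) ≠ 0) :
    (Cfsg.Agent.S3209.s0 : Matrix.SpecialLinearGroup (Fin 2) F) * s1 ≠ s1 * Cfsg.Agent.S3209.s0 := by
  intro h
  have h' := congrArg (fun m : Matrix.SpecialLinearGroup (Fin 2) F =>
    (m : Matrix (Fin 2) (Fin 2) F)) h
  simp only [Matrix.SpecialLinearGroup.coe_mul, s0_coe, s1_coe, Matrix.mul_fin_two] at h'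
  have h1 := congrFun (congrFun h' 0) 1
  simp at h1
  apply h2
  linear_combination h1

theorem comm_s0_s1 (c : Matrix.SpecialLinearGroup (Fin 2) F)
    (h0 : c * Cfsg.Agent.S3209.s0 = Cfsg.Agent.S3209.s0 * c) (h1 : c * s1 = s1 * c) :
    c = 1 ∨ c = negOne := by
  apply scalar_cases
  rw [isScalarMat_iff]
  have h0' := congrArg (fun m : Matrix.SpecialLinearGroup (Fin 2) F =>
    (m : Matrix (Fin 2) (Fin 2) F)) h0
  have h1' := congrArg (fun m : Matrix.SpecialLinearGroup (Fin 2) F =>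
    (m : Matrix (Fin 2) (Fin 2) F)) h1
  simp only [Matrix.SpecialLinearGroup.coe_mul, s0_coe, s1_coe] at h0' h1'
  have e00 := congrFun (congrFun h0' 0) 0
  have e01 := congrFun (congrFun h0' 0) 1
  have f00 := congrFun (congrFun h1' 0) 0
  simp [Matrix.mul_apply, Fin.sum_univ_two] at e00 e01 f00
  have hc01 : (c : Matrix (Fin 2) (Fin 2) F) 0 1 = 0 := by linear_combination (-1 : F) * f00 - e00
  have hc10 : (c : Matrix (Fin 2) (Fin 2) F) 1 0 = 0 := by linear_combination e00 - hc01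
  exact ⟨hc01, hc10, e01⟩

theorem sl2_facts2 {G : Type*} [Group G] [Fintype F] (hF : Odd (Fintype.card F))
    (L : Subgroup G) (e : ↥L ≃* Matrix.SpecialLinearGroup (Fin 2) F) (j : G) (hjL : j ∈ L)
    (hjj : j * j = 1) (hj1 : j ≠ 1) :
    ∃ y0 ∈ L, ∃ y1 ∈ L, y0 * y0 = j ∧ y1 * y1 = j ∧ y0 * y1 ≠ y1 * y0 ∧
      ∀ b ∈ L, b * y0 = y0 * b → b * y1 = y1 * b → b = 1 ∨ b = j := by
  have hodd : Fintype.card F % 2 = 1 := Nat.odd_iff.1 hF
  have h2 : (2 : F) ≠ 0 := two_ne_zero_of_odd hodd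
  have hsq : ∀ a : L, a * a = 1 → a = 1 ∨ a = e.symm negOne := by
    intro a haa
    have h1 : e a * e a = 1 := by rw [← map_mul, haa, map_one]
    rcases (sq_iff h2 _).1 h1 with h | h
    · left; exact e.injective (h.trans (map_one e).symm)
    · right; rw [← h, e.symm_apply_apply]
  have hjz : (⟨j, hjL⟩ : L) = e.symm negOne := by
    rcases hsq ⟨j, hjL⟩ (Subtype.ext hjj) with h | h
    · exact absurd (congrArg Subtype.val h) hj1
    · exact h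
  refine ⟨(e.symm Cfsg.Agent.S3209.s0 : L), (e.symm Cfsg.Agent.S3209.s0).2, (e.symm s1 : L),
    (e.symm s1).2, ?_, ?_, ?_, ?_⟩
  · have h1 : e.symm Cfsg.Agent.S3209.s0 * e.symm Cfsg.Agent.S3209.s0 = (⟨j, hjL⟩ : L) := by
      rw [← map_mul, Cfsg.Agent.S3209.s0_sq, hjz]
    exact congrArg Subtype.val h1
  · have h1 : e.symm s1 * e.symm s1 = (⟨j, hjL⟩ : L) := by
      rw [← map_mul, s1_sq, hjz]
    exact congrArg Subtype.val h1
  · intro h
    have h1 : e.symm Cfsg.Agent.S3209.s0 * e.symm s1 = e.symm s1 * e.symm Cfsg.Agent.S3209.s0 :=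
      Subtype.ext h
    rw [← map_mul, ← map_mul] at h1
    exact s0_s1_ne h2 (e.symm.injective h1)
  · intro b hb hb0 hb1
    have k0 : e ⟨b, hb⟩ * Cfsg.Agent.S3209.s0 = Cfsg.Agent.S3209.s0 * e ⟨b, hb⟩ := by
      have : (⟨b, hb⟩ : L) * e.symm Cfsg.Agent.S3209.s0 = e.symm Cfsg.Agent.S3209.s0 * ⟨b, hb⟩ :=
        Subtype.ext hb0
      have := congrArg e this
      rw [map_mul, map_mul, e.apply_symm_apply] at this
      exact this
    have k1 : e ⟨b, hb⟩ * s1 = s1 * e ⟨b, hb⟩ := by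
      have : (⟨b, hb⟩ : L) * e.symm s1 = e.symm s1 * ⟨b, hb⟩ := Subtype.ext hb1
      have := congrArg e this
      rw [map_mul, map_mul, e.apply_symm_apply] at this
      exact this
    rcases comm_s0_s1 _ k0 k1 with h | h
    · left
      exact congrArg Subtype.val (e.injective (h.trans (map_one e).symm))
    · right
      have : (⟨b, hb⟩ : L) = e.symm negOne := by rw [← h, e.symm_apply_apply]
      exact congrArg Subtype.val (this.trans hjz.symm)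

end sl2

section grp
variable {G : Type*} [Group G]

theorem conj_comm (ν a b : G)
    (h : ν * a * ν⁻¹ * (ν * b * ν⁻¹) = ν * b * ν⁻¹ * (ν * a * ν⁻¹)) : a * b = b * a := by
  have h1 : a * b = ν⁻¹ * (ν * a * ν⁻¹ * (ν * b * ν⁻¹)) * ν := by group
  rw [h1, h]; group

/-- if conjugation by `ν` sends the order-4 elements of `A` into `P ∪ Q` (elementwise commuting),
and one specific element into `P`, then all of them go into `P`. -/
theorem move_aux (A : Subgroup G) (j : G) (hj1 : j ≠ 1)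
    (y0 y1 : G) (hy1 : y1 ∈ A) (hy1j : y1 * y1 = j)
    (hne : y0 * y1 ≠ y1 * y0)
    (hcent : ∀ b ∈ A, b * y0 = y0 * b → b * y1 = y1 * b → b = 1 ∨ b = j) (hjj : j * j = 1)
    (ν : G) (P Q : Subgroup G) (hPQ : ∀ x ∈ P, ∀ y ∈ Q, x * y = y * x)
    (hν : ∀ g ∈ A, g * g = j → (ν * g * ν⁻¹ ∈ P ∨ ν * g * ν⁻¹ ∈ Q))
    (h0 : ν * y0 * ν⁻¹ ∈ P) : ∀ x ∈ A, x * x = j → ν * x * ν⁻¹ ∈ P := by
  have h1 : ν * y1 * ν⁻¹ ∈ P := by
    rcases hν y1 hy1 hy1j with h | h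
    · exact h
    · exfalso
      exact hne (conj_comm ν y0 y1 (hPQ _ h0 _ h))
  intro x hx hxj
  rcases hν x hx hxj with h | h
  · exact h
  · exfalso
    have c0 : x * y0 = y0 * x := conj_comm ν x y0 (hPQ _ h0 _ h).symm
    have c1 : x * y1 = y1 * x := conj_comm ν x y1 (hPQ _ h1 _ h).symm
    rcases hcent x hx c0 c1 with h' | h'
    · rw [h', mul_one] at hxj
      exact hj1 hxj.symm
    · rw [h', hjj] at hxj
      exact hj1 hxj.symm

end grp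

theorem map_conj_eq {G : Type*} [Group G] (A B : Subgroup G) (ν : G)
    (h : ∀ g ∈ A, ν * g * ν⁻¹ ∈ B) (h' : ∀ g ∈ B, ν⁻¹ * g * ν ∈ A) :
    A.map (MulAut.conj ν).toMonoidHom = B := by
  ext x
  constructor
  · rintro ⟨g, hg, rfl⟩
    exact h g hg
  · intro hx
    refine ⟨ν⁻¹ * x * ν, h' x hx, ?_⟩
    show ν * (ν⁻¹ * x * ν) * ν⁻¹ = x
    group

theorem card_inj (a b : ℕ) (ha : 1 ≤ a) (hb : 1 ≤ b) (h : (a ^ 2 - 1) * a = (b ^ 2 - 1) * b) :
    a = b := by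
  have key : ∀ a b : ℕ, 1 ≤ a → a < b → (a ^ 2 - 1) * a < (b ^ 2 - 1) * b := by
    intro a b ha hab
    have h2 : a ^ 2 - 1 ≤ b ^ 2 - 1 := Nat.sub_le_sub_right (Nat.pow_le_pow_left hab.le 2) 1
    have h3 : 0 < b ^ 2 - 1 := by
      have h4 : 2 ≤ b := by omega
      have h5 : 4 ≤ b ^ 2 := by nlinarith
      omega
    calc (a ^ 2 - 1) * a ≤ (b ^ 2 - 1) * a := Nat.mul_le_mul_right a h2
      _ < (b ^ 2 - 1) * b := Nat.mul_lt_mul_of_pos_left hab h3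
  rcases lt_trichotomy a b with h1 | h1 | h1
  · exact absurd h (key a b ha h1).ne
  · exact h1
  · exact absurd h.symm (key b a hb h1).ne

/-- Let G be a finite group with subgroups L₁ ≅ SL₂(q₁) and L₂ ≅ SL₂(q₂), q₁ and q₂ odd prime powers, which commute elementwise and meet in ⟨j⟩ for an involution j, and suppose L₁L₂ has index 2 in C_G(j). Then every element n of C_G(j) outside L₁L₂ either normalizes both L₁ and L₂, or conjugates L₁ onto L₂; in the second case q₁ = q₂ and there is an element n′ of C_G(j) outside L₁L₂ conjugating L₁ onto L₂ with n′² ∈ ⟨j⟩. -/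
theorem result {G : Type*} [Group G] [Finite G]
    {F₁ : Type*} [Field F₁] [Fintype F₁] {F₂ : Type*} [Field F₂] [Fintype F₂]
    (hF₁ : Odd (Fintype.card F₁)) (hF₂ : Odd (Fintype.card F₂)) (L₁ L₂ : Subgroup G)
    (e₁ : ↥L₁ ≃* Matrix.SpecialLinearGroup (Fin 2) F₁) (e₂ : ↥L₂ ≃* Matrix.SpecialLinearGroup (Fin 2) F₂)
    (hc : ∀ x ∈ L₁, ∀ y ∈ L₂, x * y = y * x) (j : G) (hj : orderOf j = 2) (hm : L₁ ⊓ L₂ = Subgroup.zpowers j)
    (hle : L₁ ⊔ L₂ ≤ Subgroup.centralizer ({j} : Set G)) (hi : (L₁ ⊔ L₂).relIndex (Subgroup.centralizer ({j} : Set G)) = 2) (n : G) (hn : n ∈ Subgroup.centralizer ({j} : Set G)) (hn' : n ∉ L₁ ⊔ L₂) :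
    (L₁.map (MulAut.conj n).toMonoidHom = L₁ ∧ L₂.map (MulAut.conj n).toMonoidHom = L₂) ∨
      (L₁.map (MulAut.conj n).toMonoidHom = L₂ ∧ Fintype.card F₁ = Fintype.card F₂ ∧
        ∃ n' ∈ Subgroup.centralizer ({j} : Set G), n' ∉ L₁ ⊔ L₂ ∧ L₁.map (MulAut.conj n').toMonoidHom = L₂ ∧ n' ^ 2 ∈ Subgroup.zpowers j) := by
  have hjmem : j ∈ L₁ ⊓ L₂ := by rw [hm]; exact Subgroup.mem_zpowers j
  have hj1 : j ≠ 1 := by
    intro h
    rw [h, orderOf_one] at hj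
    omega
  have hjj : j * j = 1 := by rw [← pow_two, ← hj, pow_orderOf_eq_one]
  have hjinv : j⁻¹ = j := inv_eq_of_mul_eq_one_left hjj
  obtain ⟨hinv1, -, -⟩ := Cfsg.Agent.S3209.sl2_facts hF₁ L₁ e₁ j hjmem.1 hjj hj1
  obtain ⟨hinv2, -, -⟩ := Cfsg.Agent.S3209.sl2_facts hF₂ L₂ e₂ j hjmem.2 hjj hj1
  obtain ⟨y0, hy0, y1, hy1, hy0j, hy1j, hyne, hycent⟩ := sl2_facts2 hF₁ L₁ e₁ j hjmem.1 hjj hj1
  obtain ⟨z0, hz0, z1, hz1, hz0j, hz1j, hzne, hzcent⟩ := sl2_facts2 hF₂ L₂ e₂ j hjmem.2 hjj hj1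
  have hmeet : ∀ g, g ∈ L₁ → g ∈ L₂ → g = 1 ∨ g = j := by
    intro g h1 h2
    have hg : g ∈ Subgroup.zpowers j := by rw [← hm]; exact ⟨h1, h2⟩
    obtain ⟨k, rfl⟩ := Subgroup.mem_zpowers_iff.1 hg
    rcases Int.even_or_odd k with ⟨m, rfl⟩ | ⟨m, rfl⟩
    · left
      rw [← two_mul, zpow_mul, zpow_two, hjj, one_zpow]
    · right
      rw [zpow_add, zpow_mul, zpow_two, hjj, one_zpow, one_mul, zpow_one]
  have hdecomp : ∀ y ∈ L₁ ⊔ L₂, ∃ a ∈ L₁, ∃ b ∈ L₂, y = a * b :=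
    Cfsg.Agent.Lib.Helper19.exists_mul_of_mem_sup L₁ L₂ (by
      intro b hb
      rw [Subgroup.mem_normalizer_iff]
      intro a
      constructor
      · intro ha
        have e1 : b * a * b⁻¹ = a := by rw [← hc a ha b hb]; group
        rw [e1]; exact ha
      · intro ha
        have e1 : b * a * b⁻¹ * b = b * (b * a * b⁻¹) := hc _ ha b hb
        have e2 : a = b * a * b⁻¹ := by
          have e3 : b * a = b * (b * a * b⁻¹) := by
            rw [← e1]; group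
          exact mul_left_cancel e3
        rw [e2]; exact ha)
  have hnb : ∀ g, g ∈ L₁ → g ∈ L₂ → g * g = j → False := by
    intro g h1 h2 hg
    rcases hmeet g h1 h2 with h | h
    · rw [h, mul_one] at hg; exact hj1 hg.symm
    · rw [h, hjj] at hg; exact hj1 hg.symm
  have hL1M : L₁ ≤ L₁ ⊔ L₂ := le_sup_left
  have hL2M : L₂ ≤ L₁ ⊔ L₂ := le_sup_right
  have hcs : ∀ x ∈ L₂, ∀ y ∈ L₁, x * y = y * x := fun x hx y hy => (hc y hy x hx).symm
  have hN : ((L₁ ⊔ L₂).subgroupOf (Subgroup.centralizer ({j} : Set G))).Normal :=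
    Subgroup.normal_of_index_eq_two hi
  have hnorm : ∀ c ∈ Subgroup.centralizer ({j} : Set G), ∀ m ∈ L₁ ⊔ L₂,
      c * m * c⁻¹ ∈ L₁ ⊔ L₂ := by
    intro c hc' m hm'
    have h := hN.conj_mem ⟨m, hle hm'⟩ (Subgroup.mem_subgroupOf.2 hm') ⟨c, hc'⟩
    exact Subgroup.mem_subgroupOf.1 h
  have hsq : ∀ c ∈ Subgroup.centralizer ({j} : Set G), c * c ∈ L₁ ⊔ L₂ := by
    intro c hc'
    have h := Subgroup.mul_self_mem_of_index_two hi
      (⟨c, hc'⟩ : Subgroup.centralizer ({j} : Set G))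
    exact Subgroup.mem_subgroupOf.1 h
  have hjc : ∀ c ∈ Subgroup.centralizer ({j} : Set G), c * j * c⁻¹ = j := by
    intro c hc'
    have h := Subgroup.mem_centralizer_iff.1 hc' j (Set.mem_singleton j)
    rw [← h]; group
  have hsqj : ∀ c ∈ Subgroup.centralizer ({j} : Set G), ∀ x, x * x = j →
      (c * x * c⁻¹) * (c * x * c⁻¹) = j := by
    intro c hc' x hx
    calc (c * x * c⁻¹) * (c * x * c⁻¹) = c * (x * x) * c⁻¹ := by group
      _ = j := by rw [hx, hjc c hc']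
  have hM1 : ∀ m ∈ L₁ ⊔ L₂, ∀ g ∈ L₁, m * g * m⁻¹ ∈ L₁ := by
    intro m hm' g hg
    obtain ⟨a, ha, b, hb, rfl⟩ := hdecomp m hm'
    have e1 : b * g = g * b := (hc g hg b hb).symm
    have e2 : a * b * g * (a * b)⁻¹ = a * g * a⁻¹ := by
      calc a * b * g * (a * b)⁻¹ = a * (b * g) * b⁻¹ * a⁻¹ := by group
        _ = a * (g * b) * b⁻¹ * a⁻¹ := by rw [e1]
        _ = a * g * a⁻¹ := by group
    rw [e2]
    exact L₁.mul_mem (L₁.mul_mem ha hg) (L₁.inv_mem ha)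
  have hM2 : ∀ m ∈ L₁ ⊔ L₂, ∀ g ∈ L₂, m * g * m⁻¹ ∈ L₂ := by
    intro m hm' g hg
    obtain ⟨a, ha, b, hb, rfl⟩ := hdecomp m hm'
    have e1 : a * (b * g * b⁻¹) = (b * g * b⁻¹) * a :=
      hc a ha _ (L₂.mul_mem (L₂.mul_mem hb hg) (L₂.inv_mem hb))
    have e2 : a * b * g * (a * b)⁻¹ = b * g * b⁻¹ := by
      calc a * b * g * (a * b)⁻¹ = a * (b * g * b⁻¹) * a⁻¹ := by group
        _ = (b * g * b⁻¹) * a * a⁻¹ := by rw [e1]
        _ = b * g * b⁻¹ := by group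
    rw [e2]
    exact L₂.mul_mem (L₂.mul_mem hb hg) (L₂.inv_mem hb)
  have hF1 : ∀ g ∈ L₁ ⊔ L₂, g * g = j → g ∈ L₁ ∨ g ∈ L₂ := by
    intro g hg hgj
    obtain ⟨a, ha, b, hb, rfl⟩ := hdecomp g hg
    have hab : (a * a) * (b * b) = j := by
      calc (a * a) * (b * b) = a * (a * b) * b := by group
        _ = a * (b * a) * b := by rw [hc a ha b hb]
        _ = a * b * (a * b) := by group
        _ = j := hgj
    have haaL2 : a * a ∈ L₂ := by
      have : a * a = j * (b * b)⁻¹ := by rw [← hab]; group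
      rw [this]
      exact L₂.mul_mem hjmem.2 (L₂.inv_mem (L₂.mul_mem hb hb))
    rcases hmeet (a * a) (L₁.mul_mem ha ha) haaL2 with haa | haa
    · right
      rcases hinv1 a ha haa with h1 | h1
      · rw [h1, one_mul]; exact hb
      · rw [h1]; exact L₂.mul_mem hjmem.2 hb
    · left
      have hbb : b * b = 1 := by
        rw [haa] at hab
        exact mul_left_cancel (hab.trans (mul_one j).symm)
      rcases hinv2 b hb hbb with h2 | h2
      · rw [h2, mul_one]; exact ha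
      · rw [h2]; exact L₁.mul_mem ha hjmem.1
  have hF3 : ∀ g ∈ L₁ ⊔ L₂, g * z0 = z0 * g → g * z1 = z1 * g → g ∈ L₁ := by
    intro g hg h0 h1
    obtain ⟨a, ha, b, hb, rfl⟩ := hdecomp g hg
    have aux : ∀ z ∈ L₂, a * b * z = z * (a * b) → b * z = z * b := by
      intro z hz hz'
      have e1 : a * z = z * a := hc a ha z hz
      have : a * (b * z) = a * (z * b) := by
        calc a * (b * z) = a * b * z := by group
          _ = z * (a * b) := hz'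
          _ = (z * a) * b := by group
          _ = (a * z) * b := by rw [e1]
          _ = a * (z * b) := by group
      exact mul_left_cancel this
    rcases hzcent b hb (aux z0 hz0 h0) (aux z1 hz1 h1) with h | h
    · rw [h, mul_one]; exact ha
    · rw [h]; exact L₁.mul_mem ha hjmem.1
  have hF3' : ∀ g ∈ L₁ ⊔ L₂, g * y0 = y0 * g → g * y1 = y1 * g → g ∈ L₂ := by
    intro g hg h0 h1
    obtain ⟨a, ha, b, hb, rfl⟩ := hdecomp g hg
    have aux : ∀ y ∈ L₁, a * b * y = y * (a * b) → a * y = y * a := by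
      intro y hy hy'
      have e1 : y * b = b * y := hc y hy b hb
      have : (a * y) * b = (y * a) * b := by
        calc (a * y) * b = a * (y * b) := by group
          _ = a * (b * y) := by rw [e1]
          _ = a * b * y := by group
          _ = y * (a * b) := hy'
          _ = (y * a) * b := by group
      exact mul_right_cancel this
    rcases hycent a ha (aux y0 hy0 h0) (aux y1 hy1 h1) with h | h
    · rw [h, one_mul]; exact hb
    · rw [h]; exact L₂.mul_mem hjmem.2 hb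
  have hD : ∀ ν ∈ Subgroup.centralizer ({j} : Set G),
      ((∀ x ∈ L₁, x * x = j → ν * x * ν⁻¹ ∈ L₁) ∧ (∀ x ∈ L₂, x * x = j → ν * x * ν⁻¹ ∈ L₂)) ∨
      ((∀ x ∈ L₁, x * x = j → ν * x * ν⁻¹ ∈ L₂) ∧
        (∀ x ∈ L₂, x * x = j → ν * x * ν⁻¹ ∈ L₁)) := by
    intro ν hν
    have hν1 : ∀ g ∈ L₁, g * g = j → (ν * g * ν⁻¹ ∈ L₁ ∨ ν * g * ν⁻¹ ∈ L₂) := fun g hg hgj =>
      hF1 _ (hnorm ν hν g (hL1M hg)) (hsqj ν hν g hgj)
    have hν2 : ∀ g ∈ L₂, g * g = j → (ν * g * ν⁻¹ ∈ L₁ ∨ ν * g * ν⁻¹ ∈ L₂) := fun g hg hgj =>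
      hF1 _ (hnorm ν hν g (hL2M hg)) (hsqj ν hν g hgj)
    have hν1' : ∀ g ∈ L₁, g * g = j → (ν * g * ν⁻¹ ∈ L₂ ∨ ν * g * ν⁻¹ ∈ L₁) :=
      fun g hg hgj => (hν1 g hg hgj).symm
    have hν2' : ∀ g ∈ L₂, g * g = j → (ν * g * ν⁻¹ ∈ L₂ ∨ ν * g * ν⁻¹ ∈ L₁) :=
      fun g hg hgj => (hν2 g hg hgj).symm
    have hνν : ∀ g, ν * (ν * g * ν⁻¹) * ν⁻¹ = (ν * ν) * g * (ν * ν)⁻¹ := by intro g; group
    rcases hν1 y0 hy0 hy0j with h | h
    · have p11 := move_aux L₁ j hj1 y0 y1 hy1 hy1j hyne hycent hjj ν L₁ L₂ hc hν1 h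
      rcases hν2 z0 hz0 hz0j with h' | h'
      · exfalso
        have q1 : ν * (ν * z0 * ν⁻¹) * ν⁻¹ ∈ L₁ := p11 _ h' (hsqj ν hν z0 hz0j)
        have q2 : ν * (ν * z0 * ν⁻¹) * ν⁻¹ ∈ L₂ := by
          rw [hνν]; exact hM2 _ (hsq ν hν) z0 hz0
        exact hnb _ q1 q2 (hsqj ν hν _ (hsqj ν hν z0 hz0j))
      · left
        exact ⟨p11, move_aux L₂ j hj1 z0 z1 hz1 hz1j hzne hzcent hjj ν L₂ L₁ hcs hν2' h'⟩
    · have p12 := move_aux L₁ j hj1 y0 y1 hy1 hy1j hyne hycent hjj ν L₂ L₁ hcs hν1' h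
      rcases hν2 z0 hz0 hz0j with h' | h'
      · right
        exact ⟨p12, move_aux L₂ j hj1 z0 z1 hz1 hz1j hzne hzcent hjj ν L₁ L₂ hc hν2 h'⟩
      · exfalso
        have p22 := move_aux L₂ j hj1 z0 z1 hz1 hz1j hzne hzcent hjj ν L₂ L₁ hcs hν2' h'
        have q2 : ν * (ν * y0 * ν⁻¹) * ν⁻¹ ∈ L₂ := p22 _ h (hsqj ν hν y0 hy0j)
        have q1 : ν * (ν * y0 * ν⁻¹) * ν⁻¹ ∈ L₁ := by
          rw [hνν]; exact hM1 _ (hsq ν hν) y0 hy0
        exact hnb _ q1 q2 (hsqj ν hν _ (hsqj ν hν y0 hy0j))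
  have key : ∀ (A A' B : Subgroup G) (w0 w1 : G), A ≤ L₁ ⊔ L₂ →
      (∀ x ∈ A, ∀ y ∈ A', x * y = y * x) →
      (∀ g ∈ L₁ ⊔ L₂, g * w0 = w0 * g → g * w1 = w1 * g → g ∈ B) →
      ∀ ν ∈ Subgroup.centralizer ({j} : Set G), ν⁻¹ * w0 * ν ∈ A' → ν⁻¹ * w1 * ν ∈ A' →
      ∀ g ∈ A, ν * g * ν⁻¹ ∈ B := by
    intro A A' B w0 w1 hAM hAA hB ν hν hw0 hw1 g hg
    have aux : ∀ w, ν⁻¹ * w * ν ∈ A' → ν * g * ν⁻¹ * w = w * (ν * g * ν⁻¹) := by
      intro w hw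
      have e := hAA g hg _ hw
      calc ν * g * ν⁻¹ * w = ν * (g * (ν⁻¹ * w * ν)) * ν⁻¹ := by group
        _ = ν * ((ν⁻¹ * w * ν) * g) * ν⁻¹ := by rw [e]
        _ = w * (ν * g * ν⁻¹) := by group
    exact hB _ (hnorm ν hν g (hAM hg)) (aux w0 hw0) (aux w1 hw1)
  have hninv : n⁻¹ ∈ Subgroup.centralizer ({j} : Set G) := Subgroup.inv_mem _ hn
  have hii : n⁻¹⁻¹ = n := inv_inv n
  rcases hD n hn with ⟨p11, p22⟩ | ⟨p12, p21⟩
  · left
    have hDi : (∀ x ∈ L₁, x * x = j → n⁻¹ * x * n ∈ L₁) ∧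
        (∀ x ∈ L₂, x * x = j → n⁻¹ * x * n ∈ L₂) := by
      rcases hD n⁻¹ hninv with h | ⟨q12, q21⟩
      · rw [hii] at h; exact h
      · exfalso
        have h1 : n⁻¹ * y0 * n⁻¹⁻¹ ∈ L₂ := q12 y0 hy0 hy0j
        have h2 := p22 _ h1 (hsqj n⁻¹ hninv y0 hy0j)
        have h3 : n * (n⁻¹ * y0 * n⁻¹⁻¹) * n⁻¹ = y0 := by group
        rw [h3] at h2
        exact hnb y0 hy0 h2 hy0j
    obtain ⟨i11, i22⟩ := hDi
    have a11 : ∀ g ∈ L₁, n * g * n⁻¹ ∈ L₁ :=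
      key L₁ L₂ L₁ z0 z1 hL1M hc hF3 n hn (i22 z0 hz0 hz0j) (i22 z1 hz1 hz1j)
    have a22 : ∀ g ∈ L₂, n * g * n⁻¹ ∈ L₂ :=
      key L₂ L₁ L₂ y0 y1 hL2M hcs hF3' n hn (i11 y0 hy0 hy0j) (i11 y1 hy1 hy1j)
    have b11 : ∀ g ∈ L₁, n⁻¹ * g * n ∈ L₁ := by
      have h := key L₁ L₂ L₁ z0 z1 hL1M hc hF3 n⁻¹ hninv
        (by rw [hii]; exact p22 z0 hz0 hz0j) (by rw [hii]; exact p22 z1 hz1 hz1j)
      rw [hii] at h; exact h
    have b22 : ∀ g ∈ L₂, n⁻¹ * g * n ∈ L₂ := by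
      have h := key L₂ L₁ L₂ y0 y1 hL2M hcs hF3' n⁻¹ hninv
        (by rw [hii]; exact p11 y0 hy0 hy0j) (by rw [hii]; exact p11 y1 hy1 hy1j)
      rw [hii] at h; exact h
    exact ⟨map_conj_eq L₁ L₁ n a11 b11, map_conj_eq L₂ L₂ n a22 b22⟩
  · right
    have hDi : (∀ x ∈ L₁, x * x = j → n⁻¹ * x * n ∈ L₂) ∧
        (∀ x ∈ L₂, x * x = j → n⁻¹ * x * n ∈ L₁) := by
      rcases hD n⁻¹ hninv with ⟨q11, q22⟩ | h
      · exfalso
        have h1 : n⁻¹ * y0 * n⁻¹⁻¹ ∈ L₁ := q11 y0 hy0 hy0j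
        have h2 := p12 _ h1 (hsqj n⁻¹ hninv y0 hy0j)
        have h3 : n * (n⁻¹ * y0 * n⁻¹⁻¹) * n⁻¹ = y0 := by group
        rw [h3] at h2
        exact hnb y0 hy0 h2 hy0j
      · rw [hii] at h; exact h
    obtain ⟨i12, i21⟩ := hDi
    have a12 : ∀ g ∈ L₁, n * g * n⁻¹ ∈ L₂ :=
      key L₁ L₂ L₂ y0 y1 hL1M hc hF3' n hn (i12 y0 hy0 hy0j) (i12 y1 hy1 hy1j)
    have a21 : ∀ g ∈ L₂, n * g * n⁻¹ ∈ L₁ :=
      key L₂ L₁ L₁ z0 z1 hL2M hcs hF3 n hn (i21 z0 hz0 hz0j) (i21 z1 hz1 hz1j)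
    have b21 : ∀ g ∈ L₂, n⁻¹ * g * n ∈ L₁ := by
      have h := key L₂ L₁ L₁ z0 z1 hL2M hcs hF3 n⁻¹ hninv
        (by rw [hii]; exact p21 z0 hz0 hz0j) (by rw [hii]; exact p21 z1 hz1 hz1j)
      rw [hii] at h; exact h
    have hmap : L₁.map (MulAut.conj n).toMonoidHom = L₂ := map_conj_eq L₁ L₂ n a12 b21
    refine ⟨hmap, ?_, ?_⟩
    · have c1 : Nat.card L₁ = Nat.card L₂ := by
        rw [← hmap]
        exact (Subgroup.card_map_of_injective (MulAut.conj n).injective).symm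
      have c2 : Nat.card L₁ = (Fintype.card F₁ ^ 2 - 1) * Fintype.card F₁ := by
        rw [Nat.card_congr e₁.toEquiv, Cfsg.Agent.S2301.card_SL2]
      have c3 : Nat.card L₂ = (Fintype.card F₂ ^ 2 - 1) * Fintype.card F₂ := by
        rw [Nat.card_congr e₂.toEquiv, Cfsg.Agent.S2301.card_SL2]
      exact card_inj _ _ Fintype.card_pos Fintype.card_pos (by rw [← c2, ← c3, c1])
    · obtain ⟨a, ha, b, hb, hab⟩ := hdecomp (n * n) (hsq n hn)
      have t12 : ∀ g ∈ L₁, n * a⁻¹ * g * (n * a⁻¹)⁻¹ ∈ L₂ := by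
        intro g hg
        have : n * a⁻¹ * g * (n * a⁻¹)⁻¹ = n * (a⁻¹ * g * a) * n⁻¹ := by group
        rw [this]
        exact a12 _ (L₁.mul_mem (L₁.mul_mem (L₁.inv_mem ha) hg) ha)
      refine ⟨n * a⁻¹, ?_, ?_, ?_, ?_⟩
      · exact Subgroup.mul_mem _ hn (hle (hL1M (L₁.inv_mem ha)))
      · intro h
        apply hn'
        have : n = n * a⁻¹ * a := by group
        rw [this]
        exact Subgroup.mul_mem _ h (hL1M ha)
      · apply map_conj_eq _ _ _ t12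
        intro g hg
        have : (n * a⁻¹)⁻¹ * g * (n * a⁻¹) = a * (n⁻¹ * g * n) * a⁻¹ := by group
        rw [this]
        exact L₁.mul_mem (L₁.mul_mem ha (b21 g hg)) (L₁.inv_mem ha)
      · rw [← hm, pow_two]
        have e0 : a * b = b * a := hc a ha b hb
        have e1 : n * a⁻¹ * (n * a⁻¹) = (n * a⁻¹ * n⁻¹) * b := by
          calc n * a⁻¹ * (n * a⁻¹) = n * a⁻¹ * n⁻¹ * (n * n) * a⁻¹ := by group
            _ = n * a⁻¹ * n⁻¹ * (a * b) * a⁻¹ := by rw [hab]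
            _ = n * a⁻¹ * n⁻¹ * (b * a) * a⁻¹ := by rw [e0]
            _ = (n * a⁻¹ * n⁻¹) * b := by group
        obtain ⟨X, hX⟩ : ∃ X, X = n * a⁻¹ * (n * a⁻¹) := ⟨_, rfl⟩
        rw [← hX]
        have m2 : X ∈ L₂ := by
          rw [hX, e1]
          exact L₂.mul_mem (a12 _ (L₁.inv_mem ha)) hb
        have m1 : X ∈ L₁ := by
          have e3 : a⁻¹ * X = X * a⁻¹ := hc a⁻¹ (L₁.inv_mem ha) X m2
          have e2 : X = n * X * n⁻¹ := by
            calc X = n * a⁻¹ * X * (n * a⁻¹)⁻¹ := by rw [hX]; group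
              _ = n * (a⁻¹ * X) * a * n⁻¹ := by group
              _ = n * (X * a⁻¹) * a * n⁻¹ := by rw [e3]
              _ = n * X * n⁻¹ := by group
          rw [e2]
          exact a21 X m2
        exact ⟨m1, m2⟩

end Cfsg.Agent.S3210
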