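import Cfsg.Statements.S3213
import Mathlib

set_option autoImplicit false
open Cfsg

namespace Cfsg.Agent.S3213

section helpers

open Matrix



/-- In a field with five elements: `5 = 0`. -/
theorem five_eq_zero (K : Type*) [Field K] [Fintype K] (hK : Fintype.card K = 5) : (5 : K) = 0 := by
  have : Fact (Nat.Prime 5) := ⟨by norm_num⟩
  have := charP_of_card_eq_prime hK
  exact_mod_cast CharP.cast_eq_zero K 5

theorem two_ne_zero5 (K : Type*) [Field K] [Fintype K] (hK : Fintype.card K = 5) : (2 : K) ≠ 0 := by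
  intro h
  have h5 := five_eq_zero K hK
  have : (1 : K) = 0 := by linear_combination h5 - 2 * h
  exact one_ne_zero this

theorem three_ne_zero5 (K : Type*) [Field K] [Fintype K] (hK : Fintype.card K = 5) : (3 : K) ≠ 0 := by
  intro h
  have h5 := five_eq_zero K hK
  have : (1 : K) = 0 := by linear_combination 2 * h - h5
  exact one_ne_zero this

theorem pow_four5 (K : Type*) [Field K] [Fintype K] (hK : Fintype.card K = 5) (y : K) (hy : y ≠ 0) :
    y ^ 4 = 1 := by
  have := FiniteField.pow_card_sub_one_eq_one y hy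
  rwa [hK] at this

/-- Cayley-Hamilton for two by two matrices. -/
theorem ch2 (K : Type*) [Field K] (c : Matrix (Fin 2) (Fin 2) K) :
    c * c = (c 0 0 + c 1 1) • c - c.det • (1 : Matrix (Fin 2) (Fin 2) K) := by
  ext i j
  fin_cases i <;> fin_cases j <;>
    simp [Matrix.mul_apply, Fin.sum_univ_two, Matrix.det_fin_two] <;> ring

/-- An element of order three has nonzero lower left entry and nonzero trace. -/
theorem ord3 (K : Type*) [Field K] [Fintype K] (hK : Fintype.card K = 5)
    (x : Matrix (Fin 2) (Fin 2) K) (hdet : x.det = 1) (h3 : x * x * x = 1) (h1 : x ≠ 1) :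
    x 1 0 ≠ 0 ∧ x 0 0 + x 1 1 ≠ 0 := by
  have hch := ch2 K x
  rw [hdet, one_smul] at hch
  constructor
  · intro hr
    have hd : x 0 0 * x 1 1 = 1 := by
      have := hdet
      rw [Matrix.det_fin_two, hr, mul_zero, sub_zero] at this
      exact this
    have e00 : (x * x * x) 0 0 = x 0 0 ^ 3 := by
      simp [Matrix.mul_apply, Fin.sum_univ_two, hr]; ring
    have e01 : (x * x * x) 0 1 = x 0 1 * (x 0 0 ^ 2 + x 0 0 * x 1 1 + x 1 1 ^ 2) := by
      simp [Matrix.mul_apply, Fin.sum_univ_two, hr]; ring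
    rw [h3] at e00 e01
    simp at e00 e01
    have hp0 : x 0 0 ≠ 0 := by
      intro h; rw [h] at hd; simp at hd
    have hp4 := pow_four5 K hK _ hp0
    have hp1 : x 0 0 = 1 := by
      have : x 0 0 ^ 4 = x 0 0 ^ 3 * x 0 0 := by ring
      rw [hp4, ← e00, one_mul] at this
      exact this.symm
    have hs1 : x 1 1 = 1 := by rw [hp1, one_mul] at hd; exact hd
    rw [hp1, hs1] at e01
    have hq : x 0 1 = 0 := by
      have h3' := three_ne_zero5 K hK
      rcases e01 with h | h
      · exact h
      · exfalso; apply h3'; linear_combination h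
    apply h1
    ext i j
    fin_cases i <;> fin_cases j <;> simp [hp1, hs1, hq, hr]
  · intro ht
    rw [ht, zero_smul, zero_sub] at hch
    apply h1
    have : x * x * x = -x := by rw [hch, neg_one_mul]
    rw [h3] at this
    have hx : x = -1 := by rw [← neg_eq_iff_eq_neg]; exact this.symm
    have h2 : x * x = 1 := by
      rw [hx]; simp
    rw [hch] at h2
    have h20 := two_ne_zero5 K hK
    have : (2 : K) = 0 := by
      have h00 := congrFun (congrFun h2 0) 0
      simp at h00
      linear_combination -h00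
    exact absurd this h20



theorem cmat (K : Type*) [Field K] (p q r s u : K) (h1 : p * s - q * r = 1) (hu : u * r = 1) :
    (!![s, -q; -r, p] * !![1, u; 0, 1] * !![p, q; r, s] * !![1, -u; 0, 1] : Matrix (Fin 2) (Fin 2) K) 1 0 = -r ∧
    (!![s, -q; -r, p] * !![1, u; 0, 1] * !![p, q; r, s] * !![1, -u; 0, 1] : Matrix (Fin 2) (Fin 2) K) 0 0 +
      (!![s, -q; -r, p] * !![1, u; 0, 1] * !![p, q; r, s] * !![1, -u; 0, 1] : Matrix (Fin 2) (Fin 2) K) 1 1 = 3 ∧
    (!![s, -q; -r, p] * !![1, u; 0, 1] * !![p, q; r, s] * !![1, -u; 0, 1] : Matrix (Fin 2) (Fin 2) K).det = 1 := by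
  refine ⟨?_, ?_, ?_⟩
  · simp [Matrix.mul_apply, Fin.sum_univ_two]
    linear_combination (-r) * hu
  · simp [Matrix.mul_apply, Fin.sum_univ_two]
    linear_combination 2 * h1 + (u * r + 1) * hu
  · rw [Matrix.det_mul, Matrix.det_mul, Matrix.det_mul]
    simp [Matrix.det_fin_two_of]
    linear_combination (p * s - q * r + 1) * h1

/-- The matrix part: `c` of trace `3`, determinant one, and nonzero lower left entry, in characteristic five. -/
theorem cpow (K : Type*) [Field K] [Fintype K] (hK : Fintype.card K = 5)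
    (c : Matrix (Fin 2) (Fin 2) K) (h10 : c 1 0 ≠ 0) (htr : c 0 0 + c 1 1 = 3) (hdet : c.det = 1) :
    (c * c) ^ 5 = 1 ∧ c * c ≠ 1 := by
  have h5 := five_eq_zero K hK
  have hch := ch2 K c
  rw [htr, hdet, one_smul] at hch
  have : Fact (Nat.Prime 5) := ⟨by norm_num⟩
  have hcp : CharP K 5 := charP_of_card_eq_prime hK
  constructor
  · -- (c+1)^2 = 0
    have hm : (c + 1) * (c + 1) = 0 := by
      have : (c + 1) * (c + 1) = c * c + (2 : K) • c + 1 := by
        rw [add_mul, mul_add, mul_add, two_smul]; simp; abel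
      rw [this, hch]
      have : (3 : K) • c - 1 + (2 : K) • c + 1 = (5 : K) • c := by
        rw [show (5 : K) = 3 + 2 by norm_num, add_smul]; abel
      rw [this, h5, zero_smul]
    have h5' : (-c - 1) ^ 5 = (-c) ^ 5 - 1 ^ 5 := sub_pow_char_of_commute 5 (Commute.one_right _)
    have hz : (-c - 1) ^ 5 = 0 := by
      have : (-c - 1) = -(c + 1) := by abel
      rw [this, Odd.neg_pow (by decide), show (5 : ℕ) = 2 + 3 by norm_num, pow_add, pow_two, hm]
      simp
    rw [hz, one_pow, Odd.neg_pow (by decide)] at h5'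
    have hc5 : c ^ 5 = -1 := by
      have := h5'
      rw [eq_comm, sub_eq_zero] at this
      rw [← this]; simp
    calc (c * c) ^ 5 = (c ^ 5) * (c ^ 5) := by rw [← pow_two, ← pow_mul, ← pow_add]
      _ = 1 := by rw [hc5]; simp
  · intro h
    rw [hch] at h
    have h00 := congrFun (congrFun h 1) 0
    simp at h00
    rcases h00 with h00 | h00
    · have : (1 : K) = 0 := by linear_combination 2 * h00 - h5
      exact one_ne_zero this
    · exact h10 h00

theorem sl_key (K : Type*) [Field K] [Fintype K] (hK : Fintype.card K = 5)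
    (x : Matrix.SpecialLinearGroup (Fin 2) K) (hr : (x : Matrix (Fin 2) (Fin 2) K) 1 0 ≠ 0) :
    ∃ a : Matrix.SpecialLinearGroup (Fin 2) K,
      orderOf ((x⁻¹ * a * x * a⁻¹) * (x⁻¹ * a * x * a⁻¹)) = 5 := by
  set X : Matrix (Fin 2) (Fin 2) K := (x : Matrix (Fin 2) (Fin 2) K) with hX
  have hXdet : X.det = 1 := x.det_coe
  have hXeta : X = !![X 0 0, X 0 1; X 1 0, X 1 1] := Matrix.eta_fin_two X
  have hdet' : X 0 0 * X 1 1 - X 0 1 * X 1 0 = 1 := by
    rw [← hXdet, Matrix.det_fin_two]
  set u := (X 1 0)⁻¹ with hu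
  have hur : u * X 1 0 = 1 := inv_mul_cancel₀ hr
  let a : Matrix.SpecialLinearGroup (Fin 2) K := ⟨!![1, u; 0, 1], by simp [Matrix.det_fin_two_of]⟩
  refine ⟨a, ?_⟩
  have hc : ((x⁻¹ * a * x * a⁻¹ : Matrix.SpecialLinearGroup (Fin 2) K) : Matrix (Fin 2) (Fin 2) K)
      = !![X 1 1, -X 0 1; -X 1 0, X 0 0] * !![1, u; 0, 1] * !![X 0 0, X 0 1; X 1 0, X 1 1] * !![1, -u; 0, 1] := by
    simp only [Matrix.SpecialLinearGroup.coe_mul, Matrix.SpecialLinearGroup.coe_inv]
    rw [← hX]
    have h1 : adjugate X = !![X 1 1, -X 0 1; -X 1 0, X 0 0] := Matrix.adjugate_fin_two X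
    have h2 : adjugate (a : Matrix (Fin 2) (Fin 2) K) = !![1, -u; 0, 1] := by
      show adjugate !![1, u; 0, 1] = _
      rw [Matrix.adjugate_fin_two_of]
      simp
    rw [h1, h2]
    show _ * !![1, u; 0, 1] * X * _ = _
    conv_lhs => rw [hXeta]
    simp
  obtain ⟨c10, ctr, cdet⟩ := cmat K (X 0 0) (X 0 1) (X 1 0) (X 1 1) u hdet' hur
  rw [← hc] at c10 ctr cdet
  have hc10 : ((x⁻¹ * a * x * a⁻¹ : Matrix.SpecialLinearGroup (Fin 2) K) : Matrix (Fin 2) (Fin 2) K) 1 0 ≠ 0 := by
    rw [c10]; exact neg_ne_zero.2 hr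
  obtain ⟨hp5, hne⟩ := cpow K hK _ hc10 ctr cdet
  have : Fact (Nat.Prime 5) := ⟨by norm_num⟩
  apply orderOf_eq_prime
  · apply Subtype.ext
    rw [Matrix.SpecialLinearGroup.coe_pow, Matrix.SpecialLinearGroup.coe_mul]
    exact hp5
  · intro h
    apply hne
    have := congrArg (fun g : Matrix.SpecialLinearGroup (Fin 2) K => (g : Matrix (Fin 2) (Fin 2) K)) h
    simpa using this



theorem rank_ineq (F V : Type*) [Field F] [AddCommGroup V] [Module F V] [FiniteDimensional F V]
    (f g : V →ₗ[F] V) :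
    Module.finrank F (LinearMap.range g) ≤
      Module.finrank F (LinearMap.range (f ∘ₗ g)) + Module.finrank F (LinearMap.ker f) := by
  have h := LinearMap.finrank_range_add_finrank_ker (f.domRestrict (LinearMap.range g))
  have h1 : LinearMap.range (f.domRestrict (LinearMap.range g)) = LinearMap.range (f ∘ₗ g) := by
    ext y
    constructor
    · rintro ⟨⟨z, w, rfl⟩, rfl⟩
      exact ⟨w, rfl⟩
    · rintro ⟨w, rfl⟩
      exact ⟨⟨g w, w, rfl⟩, rfl⟩
  have h2 : Module.finrank F (LinearMap.ker (f.domRestrict (LinearMap.range g))) ≤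
      Module.finrank F (LinearMap.ker f) := by
    rw [← Submodule.finrank_map_subtype_eq (LinearMap.range g)
      (LinearMap.ker (f.domRestrict (LinearMap.range g)))]
    apply Submodule.finrank_mono
    rintro _ ⟨y, hy, rfl⟩
    exact hy
  rw [h1] at h
  omega

theorem ker_ge_two (F V : Type*) [Field F] [AddCommGroup V] [Module F V] [FiniteDimensional F V]
    (hV : Module.finrank F V = 4) (N : V →ₗ[F] V) (hN : ∀ v, N (N (N v)) = 0) :
    2 ≤ Module.finrank F (LinearMap.ker N) := by
  have r1 := LinearMap.finrank_range_add_finrank_ker N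
  have r2 := rank_ineq F V N N
  have r3 := rank_ineq F V N (N ∘ₗ N)
  have h0 : LinearMap.range (N ∘ₗ (N ∘ₗ N)) = ⊥ := by
    rw [eq_bot_iff]
    rintro _ ⟨v, rfl⟩
    simp [hN v]
  rw [h0, finrank_bot] at r3
  omega

theorem fpf5 (F V : Type*) [Field F] [Fintype F] (hF : Fintype.card F = 3) [AddCommGroup V] [Module F V]
    [FiniteDimensional F V] (hV : Module.finrank F V = 4) (T : Module.End F V) (h5 : T ^ 5 = 1)
    (h1 : T ≠ 1) (v : V) (hv : T v = v) : v = 0 := by
  classical
  have : Fact (Nat.Prime 5) := ⟨by norm_num⟩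
  have hfin : Finite V := Module.finite_of_finite F
  let σ : Equiv.Perm V := ⟨fun y => T y, fun y => (T ^ 4) y, fun y => by
      show (T ^ 4) (T y) = y
      rw [← Module.End.mul_apply, ← pow_succ, h5]; rfl,
    fun y => by
      show T ((T ^ 4) y) = y
      rw [← Module.End.mul_apply, ← pow_succ', h5]; rfl⟩
  have hσ : ∀ y, σ y = T y := fun y => rfl
  have hσn : ∀ (n : ℕ) (y : V), (σ ^ n) y = (T ^ n) y := by
    intro n
    induction n with
    | zero => intro y; simp
    | succ n ih =>
      intro y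
      rw [pow_succ, pow_succ, Equiv.Perm.mul_apply, Module.End.mul_apply, ih, hσ]
  have hσ5 : σ ^ 5 = 1 := by
    ext y
    rw [hσn, h5]; rfl
  have hP : IsPGroup 5 (Subgroup.zpowers σ) := by
    rintro ⟨g, hg⟩
    refine ⟨1, ?_⟩
    obtain ⟨i, rfl⟩ := Subgroup.mem_zpowers_iff.1 hg
    apply Subtype.ext
    show (σ ^ i) ^ (5 ^ 1) = 1
    rw [pow_one, ← zpow_natCast, ← _root_.zpow_mul, mul_comm, _root_.zpow_mul, zpow_natCast, hσ5, _root_.one_zpow]
  have hcount := hP.card_modEq_card_fixedPoints V
  let U : Submodule F V := LinearMap.ker (T - 1)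
  have hU : ∀ y, y ∈ U ↔ T y = y := by
    intro y
    simp only [U, LinearMap.mem_ker, LinearMap.sub_apply, Module.End.one_apply, sub_eq_zero]
  have hfix : (MulAction.fixedPoints (Subgroup.zpowers σ) V) = (U : Set V) := by
    ext y
    rw [MulAction.mem_fixedPoints, SetLike.mem_coe, hU]
    constructor
    · intro h; exact h ⟨σ, Subgroup.mem_zpowers σ⟩
    · rintro h ⟨g, hg⟩
      obtain ⟨i, rfl⟩ := Subgroup.mem_zpowers_iff.1 hg
      exact Equiv.Perm.zpow_apply_eq_self_of_apply_eq_self h i
  rw [hfix] at hcount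
  have cV : Nat.card V = 3 ^ 4 := by
    rw [Module.natCard_eq_pow_finrank (K := F) (V := V), hV, Nat.card_eq_fintype_card, hF]
  have cU : Nat.card (U : Set V) = 3 ^ Module.finrank F U := by
    show Nat.card U = _
    rw [Module.natCard_eq_pow_finrank (K := F) (V := U), Nat.card_eq_fintype_card, hF]
  rw [cV, cU] at hcount
  have hle : Module.finrank F U ≤ 4 := hV ▸ Submodule.finrank_le U
  have hk : Module.finrank F U = 0 ∨ Module.finrank F U = 4 := by
    generalize Module.finrank F U = k at hcount hle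
    interval_cases k <;> simp_all [Nat.ModEq]
  rcases hk with hk | hk
  · have hbot : U = ⊥ := Submodule.finrank_eq_zero.1 hk
    have : v ∈ U := (hU v).2 hv
    rw [hbot] at this
    exact (Submodule.mem_bot F).1 this
  · exfalso
    have htop : U = ⊤ := Submodule.eq_top_of_finrank_eq (hk.trans hV.symm)
    apply h1
    ext y
    have : y ∈ U := htop ▸ Submodule.mem_top
    exact (hU y).1 this

theorem abstract_main (F V : Type*) [Field F] [Fintype F] (hF : Fintype.card F = 3) [AddCommGroup V]
    [Module F V] [FiniteDimensional F V] (hV : Module.finrank F V = 4)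
    (T A A' T' : Module.End F V)
    (hT3 : ∀ v, T (T (T v)) = v) (hT1 : T ≠ 1)
    (hTT' : ∀ v, T' (T v) = v) (hAA' : ∀ v, A' (A v) = v)
    (D : Module.End F V) (hD : D = (T' * A * T * A') * (T' * A * T * A')) (hD5 : D ^ 5 = 1) (hD1 : D ≠ 1)
    (B : LinearMap.BilinForm F V) (halt : ∀ v, B v v = 0) (hinv : ∀ v w, B (T v) (T w) = B v w) :
    Module.finrank F (LinearMap.ker (T - 1)) = 2 ∧ ∀ v w, T v = v → T w = w → B v w = 0 := by
  classical
  have : Fact (Nat.Prime 3) := ⟨by norm_num⟩
  have hcp : CharP F 3 := charP_of_card_eq_prime hF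
  have h3 : (3 : F) = 0 := by exact_mod_cast CharP.cast_eq_zero F 3
  have h3V : ∀ u : V, u + u + u = 0 := by
    intro u
    have : u + u + u = (3 : F) • u := by
      rw [show (3 : F) = 1 + 1 + 1 by norm_num, add_smul, add_smul, one_smul]
    rw [this, h3, zero_smul]
  set N : Module.End F V := T - 1 with hNdef
  have hNv : ∀ v, N v = T v - v := fun v => by
    simp [hNdef]
  have hN3 : ∀ v, N (N (N v)) = 0 := by
    intro v
    simp only [hNv, map_sub, hT3]
    have : v - T (T v) - (T (T v) - T v) - (T (T v) - T v - (T v - v))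
        = (T v + T v + T v) - (T (T v) + T (T v) + T (T v)) := by abel
    rw [this, h3V, h3V, sub_zero]
  have hW : ∀ y, y ∈ LinearMap.ker N ↔ T y = y := by
    intro y
    rw [LinearMap.mem_ker, hNv, sub_eq_zero]
  have hge := ker_ge_two F V hV N hN3
  -- the intersection
  have hAinj : Function.Injective A := by
    intro y z h
    have := congrArg A' h
    rwa [hAA', hAA'] at this
  have hint : LinearMap.ker N ⊓ (LinearMap.ker N).map A = ⊥ := by
    rw [eq_bot_iff]
    rintro y ⟨hy1, w, hw, rfl⟩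
    have hy1' := (hW _).1 hy1
    have hw' := (hW _).1 hw
    have hc : (T' * A * T * A') (A w) = A w := by
      simp only [Module.End.mul_apply]
      rw [hAA', hw', ← hy1', hTT', hy1']
    have hDy : D (A w) = A w := by
      rw [hD, Module.End.mul_apply, hc, hc]
    have := fpf5 F V hF hV D hD5 hD1 (A w) hDy
    rw [this]; exact Submodule.zero_mem _
  have hmap : Module.finrank F ((LinearMap.ker N).map A) = Module.finrank F (LinearMap.ker N) :=
    (Submodule.equivMapOfInjective A hAinj (LinearMap.ker N)).finrank_eq.symm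
  have hsum := Submodule.finrank_sup_add_finrank_inf_eq (LinearMap.ker N) ((LinearMap.ker N).map A)
  rw [hint, finrank_bot, hmap] at hsum
  have hle : Module.finrank F ↥(LinearMap.ker N ⊔ (LinearMap.ker N).map A) ≤ 4 :=
    hV ▸ Submodule.finrank_le _
  have hk2 : Module.finrank F (LinearMap.ker N) = 2 := by omega
  refine ⟨hk2, ?_⟩
  intro v w hv hw
  by_contra hne
  have hskew : ∀ a b : V, B a b = - B b a := by
    intro a b
    have := halt (a + b)
    simp only [map_add, LinearMap.add_apply, halt, zero_add, add_zero] at this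
    linear_combination this
  have hne' : B w v ≠ 0 := by
    rw [hskew]; exact neg_ne_zero.2 hne
  -- elements of range N are orthogonal to the kernel
  have horth : ∀ y w', T w' = w' → B (N y) w' = 0 := by
    intro y w' hw'
    rw [hNv, map_sub, LinearMap.sub_apply]
    have := hinv y w'
    rw [hw'] at this
    rw [this, sub_self]
  -- the kernel meets the range trivially
  have hzero : ∀ u, T u = u → (∃ y, u = N y) → u = 0 := by
    rintro u hu ⟨y, rfl⟩
    let v' : LinearMap.ker N := ⟨v, (hW v).2 hv⟩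
    let w' : LinearMap.ker N := ⟨w, (hW w).2 hw⟩
    have hli : LinearIndependent F ![v', w'] := by
      rw [LinearIndependent.pair_iff]
      intro s t hst
      have hst' : s • v + t • w = 0 := by
        have := congrArg (fun z : LinearMap.ker N => (z : V)) hst
        simpa [v', w'] using this
      constructor
      · have := congrArg (fun z => B z w) hst'
        simp only [map_add, map_smul, LinearMap.add_apply, LinearMap.smul_apply, halt, mul_zero,
          add_zero, map_zero, LinearMap.zero_apply, smul_eq_mul] at this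
        rcases mul_eq_zero.1 this with h | h
        · exact h
        · exact absurd h hne
      · have := congrArg (fun z => B z v) hst'
        simp only [map_add, map_smul, LinearMap.add_apply, LinearMap.smul_apply, halt, mul_zero,
          zero_add, map_zero, LinearMap.zero_apply, smul_eq_mul] at this
        rcases mul_eq_zero.1 this with h | h
        · exact h
        · exact absurd h hne'
    have hspan := hli.span_eq_top_of_card_eq_finrank' (by rw [hk2]; simp)
    have hmem : (⟨N y, (hW _).2 hu⟩ : LinearMap.ker N) ∈ Submodule.span F (Set.range ![v', w']) := by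
      rw [hspan]; exact Submodule.mem_top
    obtain ⟨c, hc⟩ := (Submodule.mem_span_range_iff_exists_fun F).1 hmem
    rw [Fin.sum_univ_two] at hc
    have hc' : c 0 • v + c 1 • w = N y := by
      have := congrArg (fun z : LinearMap.ker N => (z : V)) hc
      simpa [v', w'] using this
    have e1 := horth y w hw
    have e2 := horth y v hv
    rw [← hc'] at e1 e2
    simp only [map_add, map_smul, LinearMap.add_apply, LinearMap.smul_apply, halt, mul_zero,
      add_zero, zero_add, smul_eq_mul] at e1 e2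
    have c0 : c 0 = 0 := by
      rcases mul_eq_zero.1 e1 with h | h
      · exact h
      · exact absurd h hne
    have c1 : c 1 = 0 := by
      rcases mul_eq_zero.1 e2 with h | h
      · exact h
      · exact absurd h hne'
    rw [← hc', c0, c1]; simp
  apply hT1
  have hN2 : ∀ y, N (N y) = 0 := by
    intro y
    apply hzero _ _ ⟨N y, rfl⟩
    have := hN3 y
    rw [hNv (N (N y)), sub_eq_zero] at this
    exact this
  have hN1 : ∀ y, N y = 0 := by
    intro y
    apply hzero _ _ ⟨y, rfl⟩
    have := hN2 y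
    rw [hNv (N y), sub_eq_zero] at this
    exact this
  ext y
  have := hN1 y
  rw [hNv, sub_eq_zero] at this
  simpa using this


end helpers

/-- Let F be the field with 3 elements and K the field with 5 elements. For every injective homomorphism φ from SL₂(K) into the symplectic group Sp₄(F) (4 × 4 matrices g with g J gᵀ = J for the standard alternating matrix J) and every element x of order 3 of SL₂(K), the vectors of F⁴ fixed by φ(x) form a 2-dimensional subspace that is totally isotropic for the alternating form defined by J. -/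
theorem result {F : Type*} [Field F] [Fintype F] (hF : Fintype.card F = 3)
    {K : Type*} [Field K] [Fintype K] (hK : Fintype.card K = 5)
    (φ : Matrix.SpecialLinearGroup (Fin 2) K →* ↥(Matrix.symplecticGroup (Fin 2) F)) (hφ : Function.Injective φ)
    (x : Matrix.SpecialLinearGroup (Fin 2) K) (hx : orderOf x = 3) :
    Module.finrank F ↥(LinearMap.ker (Matrix.toLin' ((φ x : Matrix (Fin 2 ⊕ Fin 2) (Fin 2 ⊕ Fin 2) F)) - LinearMap.id)) = 2 ∧
      ∀ v w : Fin 2 ⊕ Fin 2 → F, (φ x : Matrix (Fin 2 ⊕ Fin 2) (Fin 2 ⊕ Fin 2) F).mulVec v = v →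
        (φ x : Matrix (Fin 2 ⊕ Fin 2) (Fin 2 ⊕ Fin 2) F).mulVec w = w →
          dotProduct v ((Matrix.J (Fin 2) F).mulVec w) = 0 := by
  classical
  let ρ : Matrix.SpecialLinearGroup (Fin 2) K →* Module.End F (Fin 2 ⊕ Fin 2 → F) :=
    ((Matrix.toLinAlgEquiv' : Matrix (Fin 2 ⊕ Fin 2) (Fin 2 ⊕ Fin 2) F ≃ₐ[F] _).toAlgHom :
      Matrix (Fin 2 ⊕ Fin 2) (Fin 2 ⊕ Fin 2) F →* Module.End F (Fin 2 ⊕ Fin 2 → F)).comp
      ((Matrix.symplecticGroup (Fin 2) F).subtype.comp φ)
  have hρ : ∀ g v, ρ g v = (φ g : Matrix (Fin 2 ⊕ Fin 2) (Fin 2 ⊕ Fin 2) F).mulVec v := fun g v => rfl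
  have hρinj : Function.Injective ρ := by
    intro g h hgh
    apply hφ
    apply Subtype.ext
    exact (Matrix.toLinAlgEquiv' : Matrix (Fin 2 ⊕ Fin 2) (Fin 2 ⊕ Fin 2) F ≃ₐ[F] _).injective hgh
  have hx3 : x ^ 3 = 1 := hx ▸ pow_orderOf_eq_one x
  have hx1 : x ≠ 1 := by
    rintro rfl
    simp at hx
  have hxxx : x * x * x = 1 := by rw [← hx3]; simp [pow_succ]
  have hX3 : (x : Matrix (Fin 2) (Fin 2) K) * (x : Matrix (Fin 2) (Fin 2) K) * (x : Matrix (Fin 2) (Fin 2) K) = 1 := by
    have := congrArg (fun g : Matrix.SpecialLinearGroup (Fin 2) K => (g : Matrix (Fin 2) (Fin 2) K)) hxxx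
    simpa using this
  have hX1 : (x : Matrix (Fin 2) (Fin 2) K) ≠ 1 := fun h => hx1 (Subtype.ext h)
  obtain ⟨hr, -⟩ := ord3 K hK _ x.det_coe hX3 hX1
  obtain ⟨a, ha⟩ := sl_key K hK x hr
  have hd5 : ((x⁻¹ * a * x * a⁻¹) * (x⁻¹ * a * x * a⁻¹)) ^ 5 = 1 := ha ▸ pow_orderOf_eq_one _
  have hd1 : (x⁻¹ * a * x * a⁻¹) * (x⁻¹ * a * x * a⁻¹) ≠ 1 := by
    intro h
    rw [h] at ha
    simp at ha
  have hV : Module.finrank F (Fin 2 ⊕ Fin 2 → F) = 4 := by simp
  have key := abstract_main F (Fin 2 ⊕ Fin 2 → F) hF hV (ρ x) (ρ a) (ρ a⁻¹) (ρ x⁻¹)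
    (by
      intro v
      rw [← Module.End.mul_apply, ← Module.End.mul_apply, ← map_mul, ← map_mul, hxxx, map_one]
      rfl)
    (by
      intro h
      exact hx1 (hρinj (h.trans (map_one ρ).symm)))
    (by
      intro v
      rw [← Module.End.mul_apply, ← map_mul, inv_mul_cancel, map_one]
      rfl)
    (by
      intro v
      rw [← Module.End.mul_apply, ← map_mul, inv_mul_cancel, map_one]
      rfl)
    (ρ ((x⁻¹ * a * x * a⁻¹) * (x⁻¹ * a * x * a⁻¹)))
    (by simp only [map_mul])
    (by rw [← map_pow, hd5, map_one])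
    (by
      intro h
      exact hd1 (hρinj (h.trans (map_one ρ).symm)))
    (Matrix.toBilin' (Matrix.J (Fin 2) F))
    (by
      intro v
      rw [Matrix.toBilin'_apply']
      simp [dotProduct, Matrix.mulVec, Matrix.J, Fintype.sum_sum_type, Fin.sum_univ_two, Matrix.fromBlocks]
      ring)
    (by
      intro v w
      rw [Matrix.toBilin'_apply', Matrix.toBilin'_apply', hρ, hρ]
      have hmem : (φ x : Matrix (Fin 2 ⊕ Fin 2) (Fin 2 ⊕ Fin 2) F) ∈ Matrix.symplecticGroup (Fin 2) F := (φ x).2
      have hJ := SymplecticGroup.mem_iff'.1 hmem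
      rw [Matrix.mulVec_mulVec, Matrix.dotProduct_mulVec, ← Matrix.vecMul_transpose, Matrix.vecMul_vecMul,
        ← Matrix.mul_assoc, hJ, ← Matrix.dotProduct_mulVec])
  refine ⟨key.1, ?_⟩
  intro v w hv hw
  have := key.2 v w hv hw
  rwa [Matrix.toBilin'_apply'] at this

end Cfsg.Agent.S3213
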