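import Cfsg.Statements.S3276
import Mathlib

set_option autoImplicit false
open Cfsg

namespace Cfsg.Agent.S3276

theorem dihedral_invol {G : Type*} [Group G] [Finite G] (x y' : G) (hx : x * x = 1)
    (hy : y' * y' = 1) (hnc : ∀ g : G, g * x * g⁻¹ ≠ y') :
    ∃ u : G, orderOf u = 2 ∧ Commute u x ∧ Commute y' u := by
  have hxinv : x⁻¹ = x := inv_eq_of_mul_eq_one_left hx
  have hyinv : y'⁻¹ = y' := inv_eq_of_mul_eq_one_left hy
  have hdinv : (x * y')⁻¹ = y' * x := by rw [mul_inv_rev, hxinv, hyinv]
  have hxd1 : x * (x * y') = (x * y')⁻¹ * x := by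
    rw [hdinv, ← mul_assoc, hx, one_mul, mul_assoc, hx, mul_one]
  have hyd1 : y' * (x * y') = (x * y')⁻¹ * y' := by
    rw [hdinv, mul_assoc]
  have hxd : ∀ j : ℕ, x * (x * y') ^ j = ((x * y')⁻¹) ^ j * x := by
    intro j
    induction j with
    | zero => simp
    | succ j ih =>
      rw [pow_succ, ← mul_assoc, ih, pow_succ, mul_assoc, mul_assoc, hxd1]
  have hyd : ∀ j : ℕ, y' * (x * y') ^ j = ((x * y')⁻¹) ^ j * y' := by
    intro j
    induction j with
    | zero => simp
    | succ j ih =>
      rw [pow_succ, ← mul_assoc, ih, pow_succ, mul_assoc, mul_assoc, hyd1]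
  have hn : 0 < orderOf (x * y') := orderOf_pos _
  rcases Nat.even_or_odd (orderOf (x * y')) with he | ho
  · obtain ⟨k, hk⟩ := he
    have hk0 : 0 < k := by omega
    have hpk : (x * y') ^ k = ((x * y')⁻¹) ^ k := by
      rw [inv_pow, eq_inv_iff_mul_eq_one, ← pow_add, ← hk, pow_orderOf_eq_one]
    refine ⟨(x * y') ^ k, ?_, ?_, ?_⟩
    · apply orderOf_eq_prime
      · rw [← pow_mul, mul_comm, two_mul, ← hk, pow_orderOf_eq_one]
      · intro h1
        have h2 := orderOf_dvd_of_pow_eq_one h1
        have h3 := Nat.le_of_dvd hk0 h2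
        omega
    · show (x * y') ^ k * x = x * (x * y') ^ k
      rw [hxd k, ← hpk]
    · show y' * (x * y') ^ k = (x * y') ^ k * y'
      rw [hyd k, ← hpk]
  · exfalso
    obtain ⟨k, hk⟩ := ho
    apply hnc ((x * y') ^ k)
    have h0 := hxd k
    have h1 : x * ((x * y') ^ k)⁻¹ = (x * y') ^ k * x := by
      calc x * ((x * y') ^ k)⁻¹
          = (x * y') ^ k * (((x * y')⁻¹) ^ k * x) * ((x * y') ^ k)⁻¹ := by
            rw [inv_pow]; group
        _ = (x * y') ^ k * (x * (x * y') ^ k) * ((x * y') ^ k)⁻¹ := by rw [h0]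
        _ = (x * y') ^ k * x := by group
    have h2 : (x * y') ^ (2 * k) = (x * y')⁻¹ := by
      rw [eq_inv_iff_mul_eq_one, ← pow_succ, ← hk, pow_orderOf_eq_one]
    calc (x * y') ^ k * x * ((x * y') ^ k)⁻¹ = (x * y') ^ k * (x * ((x * y') ^ k)⁻¹) := by group
      _ = (x * y') ^ k * ((x * y') ^ k * x) := by rw [h1]
      _ = (x * y') ^ (2 * k) * x := by rw [← mul_assoc, ← pow_add, two_mul]
      _ = (x * y')⁻¹ * x := by rw [h2]
      _ = y' := by rw [hdinv, mul_assoc, hx, mul_one]

/-- Let x and y be commuting, non-conjugate involutions of a finite group G, and suppose that for every involution u commuting with x, each conjugate of y that commutes with u also commutes with y. Then the normal closure of y is a proper, normal, elementary abelian 2-subgroup of G; and if y is the only involution of that normal closure commuting with x, it has order at most 4. -/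
theorem result {G : Type*} [Group G] [Finite G] (x y : G) (hx : orderOf x = 2) (hy : orderOf y = 2)
    (hxy : Commute x y) (hnc : ¬ IsConj x y)
    (hstar : ∀ u : G, orderOf u = 2 → Commute u x → ∀ g : G, Commute (g * y * g⁻¹) u → Commute (g * y * g⁻¹) y) :
    Subgroup.normalClosure ({y} : Set G) ≠ ⊤ ∧ Cfsg.IsElementaryAbelian 2 (Subgroup.normalClosure ({y} : Set G)) ∧
      ((∀ u ∈ Subgroup.normalClosure ({y} : Set G), orderOf u = 2 → Commute u x → u = y) →
        Nat.card ↥(Subgroup.normalClosure ({y} : Set G)) ≤ 4) := by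
  have hx2 : x * x = 1 := by rw [← pow_two, ← hx, pow_orderOf_eq_one]
  have hy2 : y * y = 1 := by rw [← pow_two, ← hy, pow_orderOf_eq_one]
  have hx1 : x ≠ 1 := by
    intro h
    rw [h, orderOf_one] at hx
    omega
  have hy1 : y ≠ 1 := by
    intro h
    rw [h, orderOf_one] at hy
    omega
  have hcy : ∀ g : G, Commute (g * y * g⁻¹) y := by
    intro g
    have hy'2 : (g * y * g⁻¹) * (g * y * g⁻¹) = 1 := by
      calc (g * y * g⁻¹) * (g * y * g⁻¹) = g * (y * y) * g⁻¹ := by group
        _ = 1 := by rw [hy2]; group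
    obtain ⟨u, hu, hux, hyu⟩ := dihedral_invol x (g * y * g⁻¹) hx2 hy'2 (by
      intro c hc
      apply hnc
      rw [isConj_iff]
      refine ⟨g⁻¹ * c, ?_⟩
      calc g⁻¹ * c * x * (g⁻¹ * c)⁻¹ = g⁻¹ * (c * x * c⁻¹) * g := by group
        _ = g⁻¹ * (g * y * g⁻¹) * g := by rw [hc]
        _ = y := by group)
    exact hstar u hu hux g hyu
  have hcc : ∀ g h : G, (g * y * g⁻¹) * (h * y * h⁻¹) = (h * y * h⁻¹) * (g * y * g⁻¹) := by
    intro g h
    have h2 : (h⁻¹ * g) * y * (h⁻¹ * g)⁻¹ * y = y * ((h⁻¹ * g) * y * (h⁻¹ * g)⁻¹) := hcy (h⁻¹ * g)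
    calc g * y * g⁻¹ * (h * y * h⁻¹) = h * ((h⁻¹ * g) * y * (h⁻¹ * g)⁻¹ * y) * h⁻¹ := by group
      _ = h * (y * ((h⁻¹ * g) * y * (h⁻¹ * g)⁻¹)) * h⁻¹ := by rw [h2]
      _ = h * y * h⁻¹ * (g * y * g⁻¹) := by group
  have hKmem : ∀ a ∈ Group.conjugatesOfSet ({y} : Set G), ∃ g : G, a = g * y * g⁻¹ := by
    intro a ha
    rw [Group.mem_conjugatesOfSet_iff] at ha
    obtain ⟨b, hb, hba⟩ := ha
    rw [Set.mem_singleton_iff] at hb
    rw [hb] at hba
    obtain ⟨c, hc⟩ := isConj_iff.1 hba
    exact ⟨c, hc.symm⟩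
  have hYdef : Subgroup.normalClosure ({y} : Set G) =
      Subgroup.closure (Group.conjugatesOfSet ({y} : Set G)) := rfl
  rw [hYdef]
  have h1 : Subgroup.closure (Group.conjugatesOfSet ({y} : Set G)) ≤
      Subgroup.centralizer (Group.conjugatesOfSet ({y} : Set G)) := by
    rw [Subgroup.closure_le]
    intro a ha
    rw [SetLike.mem_coe, Subgroup.mem_centralizer_iff]
    intro b hb
    obtain ⟨g, rfl⟩ := hKmem a ha
    obtain ⟨h, rfl⟩ := hKmem b hb
    exact hcc h g
  have h2 : Subgroup.closure (Group.conjugatesOfSet ({y} : Set G)) ≤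
      Subgroup.centralizer (Subgroup.closure (Group.conjugatesOfSet ({y} : Set G)) : Set G) := by
    rw [Subgroup.closure_le]
    intro a ha
    rw [SetLike.mem_coe, Subgroup.mem_centralizer_iff]
    intro b hb
    exact (Subgroup.mem_centralizer_iff.1 (h1 hb) a ha).symm
  have hcomm : ∀ a ∈ Subgroup.closure (Group.conjugatesOfSet ({y} : Set G)),
      ∀ b ∈ Subgroup.closure (Group.conjugatesOfSet ({y} : Set G)), a * b = b * a := by
    intro a ha b hb
    exact (Subgroup.mem_centralizer_iff.1 (h2 ha) b hb).symm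
  have hexp : ∀ a ∈ Subgroup.closure (Group.conjugatesOfSet ({y} : Set G)), a ^ 2 = 1 := by
    intro a ha
    induction ha using Subgroup.closure_induction with
    | mem a ha =>
      obtain ⟨g, rfl⟩ := hKmem a ha
      rw [conj_pow, pow_two, hy2]
      group
    | one => simp
    | mul a b ha hb iha ihb =>
      rw [(show Commute a b from hcomm a ha b hb).mul_pow, iha, ihb, one_mul]
    | inv a ha iha => rw [inv_pow, iha, inv_one]
  have hyY : y ∈ Subgroup.closure (Group.conjugatesOfSet ({y} : Set G)) :=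
    Subgroup.subset_closure (Group.subset_conjugatesOfSet (Set.mem_singleton y))
  have hYn : (Subgroup.closure (Group.conjugatesOfSet ({y} : Set G))).Normal :=
    Subgroup.normalClosure_normal (s := ({y} : Set G))
  refine ⟨?_, ⟨⟨⟨fun a b => Subtype.ext (hcomm a a.2 b b.2)⟩⟩, hexp⟩, ?_⟩
  · intro htop
    have hab : ∀ a b : G, a * b = b * a := fun a b =>
      hcomm a (htop ▸ Subgroup.mem_top a) b (htop ▸ Subgroup.mem_top b)
    have hzn : (Subgroup.zpowers y).Normal :=
      ⟨fun n hn g => by rw [hab g n, mul_inv_cancel_right]; exact hn⟩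
    have hle : Subgroup.normalClosure ({y} : Set G) ≤ Subgroup.zpowers y :=
      Subgroup.normalClosure_le_normal (Set.singleton_subset_iff.2 (Subgroup.mem_zpowers y))
    have hxz : x ∈ Subgroup.zpowers y := hle (by rw [hYdef, htop]; exact Subgroup.mem_top x)
    obtain ⟨k, hk⟩ := Subgroup.mem_zpowers_iff.1 hxz
    rw [← zpow_mod_orderOf, hy] at hk
    rcases Int.emod_two_eq_zero_or_one k with h | h
    · rw [Nat.cast_ofNat, h, zpow_zero] at hk
      exact hx1 hk.symm
    · rw [Nat.cast_ofNat, h, zpow_one] at hk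
      exact hnc (hk ▸ IsConj.refl y)
  · intro huniq
    let f : ↥(Subgroup.closure (Group.conjugatesOfSet ({y} : Set G))) →*
        ↥(Subgroup.closure (Group.conjugatesOfSet ({y} : Set G))) :=
      { toFun := fun v => ⟨v * (x * v * x⁻¹), mul_mem v.2 (hYn.conj_mem v v.2 x)⟩
        map_one' := Subtype.ext (by simp)
        map_mul' := fun v w => Subtype.ext (by
          show ((v : G) * w) * (x * ((v : G) * w) * x⁻¹) =
            (v : G) * (x * v * x⁻¹) * ((w : G) * (x * w * x⁻¹))
          have h3 := hcomm w w.2 (x * v * x⁻¹) (hYn.conj_mem v v.2 x)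
          calc ((v : G) * w) * (x * ((v : G) * w) * x⁻¹)
              = v * ((w : G) * (x * v * x⁻¹)) * (x * w * x⁻¹) := by group
            _ = v * ((x * v * x⁻¹) * (w : G)) * (x * w * x⁻¹) := by rw [h3]
            _ = (v : G) * (x * v * x⁻¹) * ((w : G) * (x * w * x⁻¹)) := by group) }
    have hf : ∀ v, ((f v : ↥(Subgroup.closure (Group.conjugatesOfSet ({y} : Set G)))) : G) =
        v * (x * v * x⁻¹) := fun v => rfl
    have key : ∀ w : ↥(Subgroup.closure (Group.conjugatesOfSet ({y} : Set G))),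
        x * w * x⁻¹ = w → w = 1 ∨ w = ⟨y, hyY⟩ := by
      intro w hw
      by_cases hw1 : w = 1
      · left
        exact hw1
      · right
        apply Subtype.ext
        apply huniq w w.2
        · exact orderOf_eq_prime (hexp w w.2) (fun h => hw1 (Subtype.ext h))
        · show (w : G) * x = x * w
          calc (w : G) * x = (x * w * x⁻¹) * x := by rw [hw]
            _ = x * w := by group
    have hker : f.ker ≤ Subgroup.zpowers ⟨y, hyY⟩ := by
      intro v hv
      rw [MonoidHom.mem_ker] at hv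
      have hv' : (v : G) * (x * v * x⁻¹) = 1 := by
        rw [← hf, hv]
        rfl
      have hvinv : (v : G)⁻¹ = v := by
        have h3 := hexp v v.2
        rw [pow_two] at h3
        exact inv_eq_of_mul_eq_one_left h3
      have h4 : x * v * x⁻¹ = v := by
        have h5 : x * v * x⁻¹ = (v : G)⁻¹ := (inv_eq_of_mul_eq_one_right hv').symm
        rw [h5, hvinv]
      rcases key v h4 with h | h
      · rw [h]
        exact one_mem _
      · rw [h]
        exact Subgroup.mem_zpowers _
    have hrange : f.range ≤ Subgroup.zpowers ⟨y, hyY⟩ := by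
      rintro w ⟨v, rfl⟩
      have h3 : x * (f v : G) * x⁻¹ = f v := by
        rw [hf]
        have hxinv : x⁻¹ = x := inv_eq_of_mul_eq_one_left hx2
        have hc := hcomm v v.2 (x * v * x⁻¹) (hYn.conj_mem v v.2 x)
        calc x * ((v : G) * (x * v * x⁻¹)) * x⁻¹
            = (x * v * x⁻¹) * ((x * x) * v * (x⁻¹ * x⁻¹)) := by group
          _ = (x * v * x⁻¹) * v := by rw [hxinv, hx2, one_mul, mul_one]
          _ = v * (x * v * x⁻¹) := hc.symm
      rcases key (f v) h3 with h | h
      · rw [h]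
        exact one_mem _
      · rw [h]
        exact Subgroup.mem_zpowers _
    have hcz : Nat.card (Subgroup.zpowers
        (⟨y, hyY⟩ : ↥(Subgroup.closure (Group.conjugatesOfSet ({y} : Set G))))) = 2 := by
      rw [Nat.card_zpowers]
      exact orderOf_eq_prime (Subtype.ext (by simpa using hexp y hyY))
        (fun h => hy1 (congrArg Subtype.val h))
    have h3 := Subgroup.card_mul_index f.ker
    rw [Subgroup.index_ker] at h3
    have h4 := Subgroup.card_le_of_le hker
    have h5 := Subgroup.card_le_of_le hrange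
    rw [hcz] at h4 h5
    calc Nat.card ↥(Subgroup.closure (Group.conjugatesOfSet ({y} : Set G)))
        = Nat.card f.ker * Nat.card f.range := h3.symm
      _ ≤ 2 * 2 := Nat.mul_le_mul h4 h5
      _ = 4 := rfl

end Cfsg.Agent.S3276
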