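import Cfsg.Statements.S3279
import Mathlib
import Cfsg.Agent.S1182
import Cfsg.Agent.S1183
import Cfsg.Agent.Lib.Helper8.Dih
import Cfsg.Agent.Lib.Helper16.Residual

set_option autoImplicit false
open Cfsg

namespace Cfsg.Agent.S3279

universe u

theorem sq_one {G : Type u} [Group G] {z : G} (h : orderOf z = 2) : z * z = 1 :=
  Cfsg.Agent.Lib.Helper8.IsoInv.mul_self_of_orderOf_two h

theorem ne_one {G : Type u} [Group G] {z : G} (h : orderOf z = 2) : z ≠ 1 :=
  Cfsg.Agent.Lib.Helper8.IsoInv.ne_one_of_orderOf_two h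

theorem conj_ord {G : Type u} [Group G] {z : G} (g : G) (h : orderOf z = 2) :
    orderOf (g * z * g⁻¹) = 2 := by
  rw [Cfsg.Agent.Lib.Helper16.Residual.orderOf_conj', h]

/-- reflections `p * (p*q)^n` of the dihedral group are conjugate to `p` or to `q` -/
theorem pow_class {G : Type u} [Group G] {p q : G} (hp : p * p = 1) (hq : q * q = 1) (n : ℕ) :
    IsConj p (p * (p * q) ^ n) ∨ IsConj q (p * (p * q) ^ n) := by
  induction n using Nat.twoStepInduction with
  | zero => left; rw [pow_zero, mul_one]
  | one => right; rw [pow_one, ← mul_assoc, hp, one_mul]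
  | more n ih _ =>
    have h1 : p * (p * q) = q := by rw [← mul_assoc, hp, one_mul]
    have h2 : (p * q)⁻¹ * p = q := by
      rw [mul_inv_rev, inv_eq_of_mul_eq_one_left hp, inv_eq_of_mul_eq_one_left hq, mul_assoc, hp,
        mul_one]
    have e : p * (p * q) ^ (n + 2) = (p * q)⁻¹ * (p * (p * q) ^ n) * (p * q)⁻¹⁻¹ := by
      rw [inv_inv]
      calc p * (p * q) ^ (n + 2) = p * ((p * q) * (p * q) ^ n * (p * q)) := by
            rw [pow_succ, pow_succ']
        _ = (p * (p * q)) * (p * q) ^ n * (p * q) := by simp only [mul_assoc]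
        _ = ((p * q)⁻¹ * p) * (p * q) ^ n * (p * q) := by rw [h1, h2]
        _ = (p * q)⁻¹ * (p * (p * q) ^ n) * (p * q) := by simp only [mul_assoc]
    have hc : IsConj (p * (p * q) ^ n) (p * (p * q) ^ (n + 2)) :=
      isConj_iff.2 ⟨(p * q)⁻¹, e.symm⟩
    rcases ih with h | h
    · left; exact h.trans hc
    · right; exact h.trans hc

/-- the dihedral lemma for two involutions -/
theorem dihedral {G : Type u} [Group G] [Finite G] {u y : G} (hu : orderOf u = 2)
    (hy : orderOf y = 2) :
    IsConj u y ∨ ∃ v : G, orderOf v = 2 ∧ Commute v u ∧ Commute v y ∧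
      (IsConj u (y * v) ∨ IsConj y (y * v)) := by
  have hu1 := sq_one hu
  have hy1 := sq_one hy
  rcases Nat.even_or_odd (orderOf (u * y)) with he | ho
  · right
    obtain ⟨k, hk⟩ := he
    obtain ⟨h1, h2, h3, h4⟩ := Cfsg.Agent.Lib.Helper8.Dih.central_invol_of_even hu1 hy1 hk
    refine ⟨(u * y) ^ k, Cfsg.Agent.Lib.Helper8.IsoInv.orderOf_two_of h2 h1, h3.symm, h4.symm, ?_⟩
    have e : y * (u * y) ^ k = u * (u * y) ^ (k + 1) := by
      rw [pow_succ', ← mul_assoc u, ← mul_assoc u, hu1, one_mul]
    rw [e]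
    exact pow_class hu1 hy1 (k + 1)
  · left
    obtain ⟨g, hg⟩ := Cfsg.Agent.Lib.Helper8.Dih.conj_of_odd hu1 hy1 ho
    exact isConj_iff.2 ⟨g, hg⟩

/-- at most three involutions commute with `x` -/
def I3 {G : Type u} [Group G] (x : G) : Prop :=
  ∀ p q r s : G, orderOf p = 2 → orderOf q = 2 → orderOf r = 2 → orderOf s = 2 →
    Commute p x → Commute q x → Commute r x → Commute s x → p ≠ q → p ≠ r → q ≠ r →
    s = p ∨ s = q ∨ s = r

theorem I3_of_card {G : Type u} [Group G] [Finite G] (x : G)
    (h3 : Nat.card {u : ↥(Subgroup.centralizer ({x} : Set G)) // orderOf u = 2} ≤ 3) : I3 x := by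
  classical
  intro p q r s hp hq hr hs hpx hqx hrx hsx hpq hpr hqr
  by_contra hcon
  push Not at hcon
  obtain ⟨hsp, hsq, hsr⟩ := hcon
  have mem : ∀ t : G, Commute t x → t ∈ Subgroup.centralizer ({x} : Set G) := by
    intro t ht
    rw [Subgroup.mem_centralizer_iff]
    intro y hy
    rw [Set.mem_singleton_iff] at hy
    rw [hy]; exact ht.eq.symm
  let T := {u : ↥(Subgroup.centralizer ({x} : Set G)) // orderOf u = 2}
  have mk : ∀ t : G, ∀ ht : Commute t x, orderOf t = 2 →
      orderOf (⟨t, mem t ht⟩ : ↥(Subgroup.centralizer ({x} : Set G))) = 2 := by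
    intro t ht ho
    rw [← ho, ← Subgroup.orderOf_coe]
  let ep : T := ⟨⟨p, mem p hpx⟩, mk p hpx hp⟩
  let eq : T := ⟨⟨q, mem q hqx⟩, mk q hqx hq⟩
  let er : T := ⟨⟨r, mem r hrx⟩, mk r hrx hr⟩
  let es : T := ⟨⟨s, mem s hsx⟩, mk s hsx hs⟩
  have inj : ∀ (t t' : G) (ht : Commute t x) (ht' : Commute t' x) (ho : orderOf t = 2)
      (ho' : orderOf t' = 2),
      (⟨⟨t, mem t ht⟩, mk t ht ho⟩ : T) = ⟨⟨t', mem t' ht'⟩, mk t' ht' ho'⟩ → t = t' := by
    intro t t' ht ht' ho ho' h
    have := congrArg (fun e : T => ((e : ↥(Subgroup.centralizer ({x} : Set G))) : G)) h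
    exact this
  haveI : Fintype T := Fintype.ofFinite T
  have hcard4 : ({ep, eq, er, es} : Finset T).card = 4 := by
    rw [Finset.card_insert_of_notMem, Finset.card_insert_of_notMem,
      Finset.card_insert_of_notMem, Finset.card_singleton]
    · simp only [Finset.mem_singleton]
      exact fun h => hsr (inj r s hrx hsx hr hs h).symm
    · simp only [Finset.mem_insert, Finset.mem_singleton, not_or]
      exact ⟨fun h => hqr (inj q r hqx hrx hq hr h), fun h => hsq (inj q s hqx hsx hq hs h).symm⟩
    · simp only [Finset.mem_insert, Finset.mem_singleton, not_or]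
      exact ⟨fun h => hpq (inj p q hpx hqx hp hq h), fun h => hpr (inj p r hpx hrx hp hr h),
        fun h => hsp (inj p s hpx hsx hp hs h).symm⟩
  have h4 : ({ep, eq, er, es} : Finset T).card ≤ Fintype.card T := Finset.card_le_univ _
  rw [hcard4, ← Nat.card_eq_fintype_card] at h4
  have : Nat.card T ≤ 3 := h3
  omega

theorem I3_conj {G : Type u} [Group G] {x : G} (h : I3 x) (g : G) : I3 (g * x * g⁻¹) := by
  intro p q r s hp hq hr hs hpx hqx hrx hsx hpq hpr hqr
  have cm : ∀ t : G, Commute t (g * x * g⁻¹) → Commute (g⁻¹ * t * g⁻¹⁻¹) x := by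
    intro t ht
    have h1 : t * (g * x * g⁻¹) = (g * x * g⁻¹) * t := ht.eq
    show (g⁻¹ * t * g⁻¹⁻¹) * x = x * (g⁻¹ * t * g⁻¹⁻¹)
    rw [inv_inv]
    calc g⁻¹ * t * g * x = g⁻¹ * (t * (g * x * g⁻¹)) * g := by group
      _ = g⁻¹ * ((g * x * g⁻¹) * t) * g := by rw [h1]
      _ = x * (g⁻¹ * t * g) := by group
  have inj : ∀ t t' : G, g⁻¹ * t * g⁻¹⁻¹ = g⁻¹ * t' * g⁻¹⁻¹ → t = t' := by
    intro t t' h
    exact mul_left_cancel (mul_right_cancel h)
  have key := h (g⁻¹ * p * g⁻¹⁻¹) (g⁻¹ * q * g⁻¹⁻¹) (g⁻¹ * r * g⁻¹⁻¹) (g⁻¹ * s * g⁻¹⁻¹)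
    (conj_ord _ hp) (conj_ord _ hq) (conj_ord _ hr) (conj_ord _ hs)
    (cm p hpx) (cm q hqx) (cm r hrx) (cm s hsx)
    (fun h => hpq (inj _ _ h)) (fun h => hpr (inj _ _ h)) (fun h => hqr (inj _ _ h))
  rcases key with h | h | h
  · exact Or.inl (inj _ _ h)
  · exact Or.inr (Or.inl (inj _ _ h))
  · exact Or.inr (Or.inr (inj _ _ h))

/-- a simple group with two distinct involutions has no central involution -/
theorem central_absurd {G : Type u} [Group G] [IsSimpleGroup G] {z w : G} (hz : orderOf z = 2)
    (hw : orderOf w = 2) (hzw : z ≠ w) (hc : ∀ g : G, Commute z g) : False := by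
  have hn : (Subgroup.zpowers z).Normal := by
    constructor
    intro n hn g
    obtain ⟨k, rfl⟩ := Subgroup.mem_zpowers_iff.1 hn
    have h1 : Commute (z ^ k) g := (hc g).zpow_left k
    have : g * z ^ k * g⁻¹ = z ^ k := by rw [← h1.eq, mul_inv_cancel_right]
    rw [this]; exact Subgroup.zpow_mem_zpowers z k
  rcases IsSimpleGroup.eq_bot_or_eq_top_of_normal _ hn with h | h
  · have : z ∈ Subgroup.zpowers z := Subgroup.mem_zpowers z
    rw [h, Subgroup.mem_bot] at this
    exact ne_one hz this
  · have hmem : w ∈ Subgroup.zpowers z := by rw [h]; exact Subgroup.mem_top w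
    obtain ⟨k, hk⟩ := Subgroup.mem_zpowers_iff.1 hmem
    have hzz := sq_one hz
    rcases Int.even_or_odd k with ⟨m, hm⟩ | ⟨m, hm⟩
    · have : z ^ k = 1 := by
        rw [hm, zpow_add, ← (Commute.refl z).mul_zpow, hzz, one_zpow]
      rw [this] at hk
      exact ne_one hw hk.symm
    · have : z ^ k = z := by
        rw [hm, zpow_add_one, two_mul, zpow_add, ← (Commute.refl z).mul_zpow, hzz, one_zpow,
          one_mul]
      rw [this] at hk
      exact hzw hk

/-- if all conjugates of `a` commute with `b` in a simple group, `b` is central -/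
theorem central_of_conj {G : Type u} [Group G] [IsSimpleGroup G] {a b : G} (ha : a ≠ 1)
    (h : ∀ g : G, Commute (g * a * g⁻¹) b) : ∀ g : G, Commute b g := by
  have hle : Subgroup.normalClosure ({a} : Set G) ≤ Subgroup.centralizer ({b} : Set G) := by
    unfold Subgroup.normalClosure
    rw [Subgroup.closure_le]
    intro t ht
    rw [Group.mem_conjugatesOfSet_iff] at ht
    obtain ⟨a', ha', hconj⟩ := ht
    rw [Set.mem_singleton_iff] at ha'
    subst ha'
    obtain ⟨c, hc⟩ := isConj_iff.1 hconj
    rw [← hc]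
    show c * a' * c⁻¹ ∈ Subgroup.centralizer ({b} : Set G)
    rw [Subgroup.mem_centralizer_iff]
    intro y hy
    rw [Set.mem_singleton_iff] at hy
    rw [hy]; exact (h c).eq.symm
  have htop : Subgroup.normalClosure ({a} : Set G) = ⊤ := by
    rcases IsSimpleGroup.eq_bot_or_eq_top_of_normal _
      (Subgroup.normalClosure_normal (s := ({a} : Set G))) with h1 | h1
    · exfalso
      have : a ∈ Subgroup.normalClosure ({a} : Set G) :=
        Subgroup.subset_normalClosure (Set.mem_singleton a)
      rw [h1, Subgroup.mem_bot] at this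
      exact ha this
    · exact h1
  intro g
  have hg : g ∈ Subgroup.centralizer ({b} : Set G) := hle (by rw [htop]; exact Subgroup.mem_top g)
  rw [Subgroup.mem_centralizer_iff] at hg
  exact hg b (Set.mem_singleton b)

/-- case `x ~ a`, `x ≁ b` -/
theorem K1 {G : Type u} [Group G] [Finite G] [IsSimpleGroup G] {x a b : G} (hx : orderOf x = 2)
    (ha : orderOf a = 2) (hb : orderOf b = 2) (hax : Commute a x) (hbx : Commute b x)
    (hba : Commute b a) (hxa' : x ≠ a) (hab : a ≠ b) (hI : I3 x) (hxa : IsConj x a)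
    (hxb : ¬ IsConj x b) : False := by
  have hxb' : x ≠ b := fun h => hxb (h ▸ IsConj.refl x)
  have claim : ∀ u : G, orderOf u = 2 → ¬ IsConj x u → Commute u b := by
    intro u hu hnc
    rcases dihedral hu hx with h | ⟨v, hv, hvu, hvx, -⟩
    · exact absurd h.symm hnc
    · have hv3 := hI x a b v hx ha hb hv (Commute.refl x) hax hbx hvx hxa' hxb' hab
      rcases hv3 with h | h | h
      · rw [h] at hvu
        have hu3 := hI x a b u hx ha hb hu (Commute.refl x) hax hbx hvu.symm hxa' hxb' hab
        rcases hu3 with h' | h' | h'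
        · exact absurd (h' ▸ IsConj.refl x) hnc
        · exact absurd (h' ▸ hxa) hnc
        · rw [h']
      · rw [h] at hvu
        obtain ⟨g, hg⟩ := isConj_iff.1 hxa
        have hIa : I3 a := hg ▸ I3_conj hI g
        have hu3 := hIa a x b u ha hx hb hu (Commute.refl a) hax.symm hba hvu.symm
          (Ne.symm hxa') hab hxb'
        rcases hu3 with h' | h' | h'
        · exact absurd (h' ▸ hxa) hnc
        · exact absurd (h' ▸ IsConj.refl x) hnc
        · rw [h']
      · rw [h] at hvu
        exact hvu.symm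
  have hcb : ∀ g : G, Commute (g * b * g⁻¹) b := by
    intro g
    refine claim _ (conj_ord g hb) ?_
    intro hc
    exact hxb (hc.trans (isConj_iff.2 ⟨g⁻¹, by group⟩))
  exact central_absurd hb hx (Ne.symm hxb') (central_of_conj (ne_one hb) hcb)

/-- case `x, a, b` pairwise non-conjugate -/
theorem K3 {G : Type u} [Group G] [Finite G] [IsSimpleGroup G] {x a b : G} (hx : orderOf x = 2)
    (ha : orderOf a = 2) (hb : orderOf b = 2) (hax : Commute a x) (hbx : Commute b x)
    (hxab : x * a = b) (hxa' : x ≠ a) (hab : a ≠ b) (hI : I3 x) (hxa : ¬ IsConj x a)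
    (hxb : ¬ IsConj x b) (hnab : ¬ IsConj a b) : False := by
  have hxb' : x ≠ b := fun h => hxb (h ▸ IsConj.refl x)
  have hca : ∀ g : G, Commute (g * a * g⁻¹) b := by
    intro g
    have hu : orderOf (g * a * g⁻¹) = 2 := conj_ord g ha
    have hua : IsConj a (g * a * g⁻¹) := isConj_iff.2 ⟨g, rfl⟩
    rcases dihedral hu hx with h | ⟨v, hv, hvu, hvx, hcl⟩
    · exact absurd (hua.trans h).symm hxa
    · have hv3 := hI x a b v hx ha hb hv (Commute.refl x) hax hbx hvx hxa' hxb' hab
      rcases hv3 with h | h | h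
      · exfalso
        rw [h, sq_one hx] at hcl
        rcases hcl with h' | h'
        · rw [isConj_one_left] at h'
          rw [h', orderOf_one] at hu; omega
        · rw [isConj_one_left] at h'
          exact ne_one hx h'
      · exfalso
        rw [h, hxab] at hcl
        rcases hcl with h' | h'
        · exact hnab (hua.trans h')
        · exact hxb h'
      · rw [h] at hvu
        exact hvu.symm
  exact central_absurd hb hx (Ne.symm hxb') (central_of_conj (ne_one ha) hca)

/-- case `a ~ b`, `x ≁ a`, `x ≁ b` -/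
theorem K2 {G : Type u} [Group G] [Finite G] [IsSimpleGroup G] {x a b : G} (hx : orderOf x = 2)
    (ha : orderOf a = 2) (hb : orderOf b = 2) (hax : Commute a x) (hbx : Commute b x)
    (hxab : x * a = b) (hxa' : x ≠ a) (hab : a ≠ b) (hI : I3 x) (hxa : ¬ IsConj x a)
    (hxb : ¬ IsConj x b) (hcab : IsConj a b) : False := by
  haveI : Fact (Nat.Prime 2) := ⟨Nat.prime_two⟩
  have hxb' : x ≠ b := fun h => hxb (h ▸ IsConj.refl x)
  have hiso : Cfsg.IsIsolatedInvolution x := by
    refine ⟨hx, fun g hc => ?_⟩
    have hcj : IsConj x (g * x * g⁻¹) := isConj_iff.2 ⟨g, rfl⟩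
    have h3 := hI x a b (g * x * g⁻¹) hx ha hb (conj_ord g hx) (Commute.refl x) hax hbx hc.symm
      hxa' hxb' hab
    rcases h3 with h | h | h
    · exact h
    · rw [h] at hcj; exact absurd hcj hxa
    · rw [h] at hcj; exact absurd hcj hxb
  obtain ⟨h0, hh0⟩ := isConj_iff.1 hcab
  obtain ⟨c, -, hcx, hcab'⟩ := Cfsg.Agent.S1182.result x hiso ⊤
    (by rw [Subgroup.mem_normalizer_iff]; intro h; simp) a b
    (Subgroup.mem_top a) (Subgroup.mem_top b) hax hbx h0 (Subgroup.mem_top h0) hh0
  have hxx := sq_one hx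
  -- odd-order elements of the centralizer of `x` centralize `a`
  have hodd : ∀ g : G, Commute g x → Nat.Coprime (orderOf g) 2 → Commute g a := by
    intro g hgx hco
    have hga : orderOf (g * a * g⁻¹) = 2 := conj_ord g ha
    have hgax : Commute (g * a * g⁻¹) x := (hgx.mul_left hax).mul_left hgx.inv_left
    have h3 := hI x a b (g * a * g⁻¹) hx ha hb hga (Commute.refl x) hax hbx hgax hxa' hxb' hab
    rcases h3 with h | h | h
    · exfalso
      have h1 : g * a = x * g := mul_inv_eq_iff_eq_mul.1 h
      rw [← hgx.eq] at h1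
      exact hxa' (mul_left_cancel h1).symm
    · exact mul_inv_eq_iff_eq_mul.1 h
    · exfalso
      have h1 : g * a = b * g := mul_inv_eq_iff_eq_mul.1 h
      have h2 : g * b = a * g := by
        calc g * b = g * (x * a) := by rw [hxab]
          _ = (g * x) * a := by rw [mul_assoc]
          _ = (x * g) * a := by rw [hgx.eq]
          _ = x * (g * a) := by rw [mul_assoc]
          _ = x * (b * g) := by rw [h1]
          _ = x * (x * a * g) := by rw [hxab]
          _ = (x * x) * a * g := by simp only [mul_assoc]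
          _ = a * g := by rw [hxx, one_mul]
      have h4 : Commute (g ^ 2) a := by
        show g ^ 2 * a = a * g ^ 2
        calc g ^ 2 * a = g * (g * a) := by rw [pow_two, mul_assoc]
          _ = g * (b * g) := by rw [h1]
          _ = (g * b) * g := by rw [mul_assoc]
          _ = a * g * g := by rw [h2]
          _ = a * g ^ 2 := by rw [pow_two, mul_assoc]
      obtain ⟨m, hm⟩ := exists_pow_eq_self_of_coprime (x := g) (n := 2) hco.symm
      have h5 : Commute g a := by
        have := h4.pow_left m
        rw [hm] at this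
        exact this
      have h6 : a * g = b * g := by rw [← h5.eq, h1]
      exact hab (mul_right_cancel h6)
  have hres : Cfsg.pResidual 2 ↥(Subgroup.centralizer ({x} : Set G)) ≠ ⊤ := by
    intro htop
    have hle : Cfsg.pResidual 2 ↥(Subgroup.centralizer ({x} : Set G)) ≤
        (Subgroup.centralizer ({a} : Set G)).subgroupOf (Subgroup.centralizer ({x} : Set G)) := by
      unfold Cfsg.pResidual
      rw [Subgroup.closure_le]
      intro g hg
      have hg' : Nat.Coprime (orderOf g) 2 := hg
      rw [SetLike.mem_coe, Subgroup.mem_subgroupOf, Subgroup.mem_centralizer_iff]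
      intro y hy
      rw [Set.mem_singleton_iff] at hy
      rw [hy]
      have hgx : Commute (g : G) x := by
        have := g.2
        rw [Subgroup.mem_centralizer_iff] at this
        exact (this x (Set.mem_singleton x)).symm
      have hco : Nat.Coprime (orderOf (g : G)) 2 := by rw [Subgroup.orderOf_coe]; exact hg'
      exact (hodd (g : G) hgx hco).eq.symm
    have hcmem : c ∈ Subgroup.centralizer ({x} : Set G) := by
      rw [Subgroup.mem_centralizer_iff]
      intro y hy
      rw [Set.mem_singleton_iff] at hy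
      rw [hy]; exact hcx.eq.symm
    have hc0 : (⟨c, hcmem⟩ : ↥(Subgroup.centralizer ({x} : Set G))) ∈
        (Subgroup.centralizer ({a} : Set G)).subgroupOf (Subgroup.centralizer ({x} : Set G)) :=
      hle (by rw [htop]; exact Subgroup.mem_top _)
    rw [Subgroup.mem_subgroupOf, Subgroup.mem_centralizer_iff] at hc0
    have h5 : a * c = c * a := hc0 a (Set.mem_singleton a)
    have h6 : c * a = b * c := mul_inv_eq_iff_eq_mul.1 hcab'
    rw [← h5] at h6
    exact hab (mul_right_cancel h6)
  have hresG : Cfsg.pResidual 2 G ≠ ⊤ :=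
    fun h => hres ((Cfsg.Agent.S1183.result x hiso).1 h)
  have hN : (Cfsg.pResidual 2 G).Normal := Cfsg.Agent.Lib.Helper16.Residual.pResidual_normal G 2
  have hbot : Cfsg.pResidual 2 G = ⊥ := by
    rcases IsSimpleGroup.eq_bot_or_eq_top_of_normal _ hN with h | h
    · exact h
    · exact absurd h hresG
  have hq : IsPGroup 2 (G ⧸ Cfsg.pResidual 2 G) :=
    Cfsg.Agent.Lib.Helper16.Residual.quotient_pResidual_isPGroup hN
  have hinj : Function.Injective (QuotientGroup.mk' (Cfsg.pResidual 2 G)) := by
    rw [← MonoidHom.ker_eq_bot_iff, QuotientGroup.ker_mk', hbot]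
  have hP : IsPGroup 2 G := hq.of_injective _ hinj
  haveI : Nontrivial (Subgroup.center G) := hP.center_nontrivial
  have hcen : Subgroup.center G = ⊤ := by
    rcases IsSimpleGroup.eq_bot_or_eq_top_of_normal (Subgroup.center G) inferInstance with h | h
    · exact absurd h ((Subgroup.nontrivial_iff_ne_bot _).1 inferInstance)
    · exact h
  have hac : a ∈ Subgroup.center G := by rw [hcen]; exact Subgroup.mem_top a
  have h5 : c * a = a * c := Subgroup.mem_center_iff.1 hac c
  have h6 : c * a = b * c := mul_inv_eq_iff_eq_mul.1 hcab'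
  rw [h5] at h6
  exact hab (mul_right_cancel h6)

/-- Let G be a finite simple group and x an involution of G whose centralizer contains at most three involutions. Then C_G(x) contains a Sylow 2-subgroup of G, and all involutions of G are conjugate. -/
theorem result {G : Type*} [Group G] [Finite G] [IsSimpleGroup G] (x : G) (hx : orderOf x = 2)
    (h3 : Nat.card {u : ↥(Subgroup.centralizer ({x} : Set G)) // orderOf u = 2} ≤ 3) :
    (∃ S : Sylow 2 G, (S : Subgroup G) ≤ Subgroup.centralizer ({x} : Set G)) ∧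
      ∀ u v : G, orderOf u = 2 → orderOf v = 2 → IsConj u v := by
  have hI := I3_of_card x h3
  haveI : Fact (Nat.Prime 2) := ⟨Nat.prime_two⟩
  by_cases hall : ∀ u : G, orderOf u = 2 → Commute u x → IsConj x u
  · constructor
    · have hPx : IsPGroup 2 (Subgroup.zpowers x) :=
        IsPGroup.of_card (n := 1) (by rw [Nat.card_zpowers, hx, pow_one])
      obtain ⟨S, hS⟩ := hPx.exists_le_sylow
      have hxS : x ∈ (S : Subgroup G) := hS (Subgroup.mem_zpowers x)
      obtain ⟨z, hzS, hz2, hzc⟩ : ∃ z ∈ (S : Subgroup G), orderOf z = 2 ∧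
          ∀ s ∈ (S : Subgroup G), Commute z s := by
        haveI : Nontrivial ↥(S : Subgroup G) :=
          ⟨⟨⟨x, hxS⟩, 1, fun h => ne_one hx (congrArg Subtype.val h)⟩⟩
        haveI hcn : Nontrivial (Subgroup.center ↥(S : Subgroup G)) :=
          IsPGroup.center_nontrivial S.isPGroup'
        have hPc : IsPGroup 2 (Subgroup.center ↥(S : Subgroup G)) :=
          S.isPGroup'.to_subgroup _
        have hdvd : 2 ∣ Nat.card (Subgroup.center ↥(S : Subgroup G)) := by
          rcases hPc.card_eq_or_dvd with h | h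
          · exfalso
            have := Finite.one_lt_card (α := Subgroup.center ↥(S : Subgroup G))
            omega
          · exact h
        obtain ⟨z, hz⟩ := exists_prime_orderOf_dvd_card' 2 hdvd
        refine ⟨((z : ↥(S : Subgroup G)) : G), (z : ↥(S : Subgroup G)).2, ?_, ?_⟩
        · rw [Subgroup.orderOf_coe, Subgroup.orderOf_coe]; exact hz
        · intro s hs
          have := Subgroup.mem_center_iff.1 z.2 ⟨s, hs⟩
          exact (congrArg Subtype.val this).symm
      obtain ⟨g, hg⟩ := isConj_iff.1 (hall z hz2 (hzc x hxS))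
      refine ⟨g⁻¹ • S, ?_⟩
      intro s' hs'
      rw [Sylow.smul_def, Sylow.pointwise_smul_def, Subgroup.mem_smul_pointwise_iff_exists] at hs'
      obtain ⟨s, hs, rfl⟩ := hs'
      rw [Subgroup.mem_centralizer_iff]
      intro y hy
      rw [Set.mem_singleton_iff] at hy
      rw [hy, MulAut.smul_def, MulAut.conj_apply, inv_inv]
      have h1 : z * s = s * z := (hzc s hs).eq
      rw [← hg] at h1
      calc x * (g⁻¹ * s * g) = g⁻¹ * ((g * x * g⁻¹) * s) * g := by group
        _ = g⁻¹ * (s * (g * x * g⁻¹)) * g := by rw [h1]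
        _ = g⁻¹ * s * g * x := by group
    · intro u v hu hv
      have key : ∀ w : G, orderOf w = 2 → IsConj x w := by
        intro w hw
        rcases dihedral hw hx with h | ⟨t, ht, htw, htx, -⟩
        · exact h.symm
        · obtain ⟨g, hg⟩ := isConj_iff.1 (hall t ht htx)
          have h1 : Commute (g⁻¹ * w * g⁻¹⁻¹) x := by
            have h0 : t * w = w * t := htw.eq
            rw [← hg] at h0
            show (g⁻¹ * w * g⁻¹⁻¹) * x = x * (g⁻¹ * w * g⁻¹⁻¹)
            rw [inv_inv]
            calc g⁻¹ * w * g * x = g⁻¹ * (w * (g * x * g⁻¹)) * g := by group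
              _ = g⁻¹ * ((g * x * g⁻¹) * w) * g := by rw [h0]
              _ = x * (g⁻¹ * w * g) := by group
          have h2 := hall _ (conj_ord g⁻¹ hw) h1
          exact h2.trans (isConj_iff.2 ⟨g, by group⟩)
      exact (key u hu).symm.trans (key v hv)
  · exfalso
    push Not at hall
    obtain ⟨a, ha, hax, hxa⟩ := hall
    have hxa' : x ≠ a := fun h => hxa (h ▸ IsConj.refl x)
    have hxx := sq_one hx
    have haa := sq_one ha
    have hb1 : x * a ≠ 1 := by
      intro h
      have h1 : x = a⁻¹ := eq_inv_of_mul_eq_one_left h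
      rw [inv_eq_of_mul_eq_one_left haa] at h1
      exact hxa' h1
    have hb2 : (x * a) * (x * a) = 1 := by
      calc (x * a) * (x * a) = x * (a * x) * a := by simp only [mul_assoc]
        _ = x * (x * a) * a := by rw [hax.eq]
        _ = (x * x) * (a * a) := by simp only [mul_assoc]
        _ = 1 := by rw [hxx, haa, one_mul]
    have hb : orderOf (x * a) = 2 := Cfsg.Agent.Lib.Helper8.IsoInv.orderOf_two_of hb2 hb1
    have hbx : Commute (x * a) x := (Commute.refl x).mul_left hax
    have hba : Commute (x * a) a := hax.symm.mul_left (Commute.refl a)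
    have hab : a ≠ x * a := by
      intro h
      have h1 : 1 * a = x * a := by rw [one_mul]; exact h
      exact ne_one hx (mul_right_cancel h1).symm
    have hxb' : x ≠ x * a := by
      intro h
      have h1 : x * 1 = x * a := by rw [mul_one]; exact h
      exact ne_one ha (mul_left_cancel h1).symm
    by_cases hxb : IsConj x (x * a)
    · exact K1 hx hb ha hbx hax hba.symm hxb' (Ne.symm hab) hI hxb hxa
    · by_cases hcab : IsConj a (x * a)
      · exact K2 hx ha hb hax hbx rfl hxa' hab hI hxa hxb hcab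
      · exact K3 hx ha hb hax hbx rfl hxa' hab hI hxa hxb hcab

end Cfsg.Agent.S3279
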