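import Cfsg.Statements.S3305
import Mathlib

set_option autoImplicit false
open Cfsg

namespace Cfsg.Agent.S3305

open scoped Pointwise

theorem mem_smul_sylow {G : Type*} [Group G] (T : Sylow 2 G) (k x : G) :
    x ∈ ((k • T : Sylow 2 G) : Subgroup G) ↔ k⁻¹ * x * k ∈ (T : Subgroup G) := by
  rw [Sylow.coe_subgroup_smul, Subgroup.mem_pointwise_smul_iff_inv_smul_mem]
  simp [MulAut.smul_def]

/-- If any two distinct Sylow 2-subgroups of the finite group G intersect in a cyclic group, then the same holds in every quotient group G/H, H a normal subgroup of G. -/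
theorem result {G : Type*} [Group G] [Finite G]
    (hC : ∀ S T : Sylow 2 G, S ≠ T → IsCyclic ↥((S : Subgroup G) ⊓ (T : Subgroup G))) (H : Subgroup G) [H.Normal] :
    ∀ S T : Sylow 2 (G ⧸ H), S ≠ T → IsCyclic ↥((S : Subgroup (G ⧸ H)) ⊓ (T : Subgroup (G ⧸ H))) := by
  intro Sb Tb hne
  have hπ : Function.Surjective (QuotientGroup.mk' H) := QuotientGroup.mk'_surjective H
  obtain ⟨S, hS⟩ := Sylow.mapSurjective_surjective hπ 2 Sb
  obtain ⟨T, hT⟩ := Sylow.mapSurjective_surjective hπ 2 Tb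
  have hS' : (S : Subgroup G).map (QuotientGroup.mk' H) = Sb := by
    rw [← hS, Sylow.coe_mapSurjective]
  have hT' : (T : Subgroup G).map (QuotientGroup.mk' H) = Tb := by
    rw [← hT, Sylow.coe_mapSurjective]
  have hle : (Sb : Subgroup (G ⧸ H)) ⊓ Tb ≤
      ((S : Subgroup G) ⊓ ((T : Subgroup G) ⊔ H)).map (QuotientGroup.mk' H) := by
    rintro x ⟨hxS, hxT⟩
    rw [SetLike.mem_coe, ← hS'] at hxS
    rw [SetLike.mem_coe, ← hT'] at hxT
    obtain ⟨s, hs, rfl⟩ := hxS
    obtain ⟨t, ht, hst⟩ := hxT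
    refine ⟨s, ⟨hs, ?_⟩, rfl⟩
    have hker : t⁻¹ * s ∈ H := (QuotientGroup.eq (s := H)).1 hst
    have hst2 : s = t * (t⁻¹ * s) := by group
    rw [SetLike.mem_coe, hst2]
    exact mul_mem (Subgroup.mem_sup_left ht) (Subgroup.mem_sup_right hker)
  have hDc : IsCyclic ↥((S : Subgroup G) ⊓ ((T : Subgroup G) ⊔ H)) := by
    have hTK : (T : Subgroup G) ≤ (T : Subgroup G) ⊔ H := le_sup_left
    have hD2 : IsPGroup 2 ↥(((S : Subgroup G) ⊓ ((T : Subgroup G) ⊔ H)).subgroupOf
        ((T : Subgroup G) ⊔ H)) := (S.isPGroup'.to_le inf_le_left).comap_subtype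
    obtain ⟨Q₂, hQ₂⟩ := hD2.exists_le_sylow
    obtain ⟨k, hk⟩ := MulAction.exists_smul_eq ↥((T : Subgroup G) ⊔ H) (T.subtype hTK) Q₂
    have hDT' : (S : Subgroup G) ⊓ ((T : Subgroup G) ⊔ H) ≤ (((k : G) • T : Sylow 2 G) : Subgroup G) := by
      intro d hd
      have h1 : (⟨d, hd.2⟩ : ↥((T : Subgroup G) ⊔ H)) ∈ (Q₂ : Subgroup ↥((T : Subgroup G) ⊔ H)) :=
        hQ₂ (Subgroup.mem_subgroupOf.2 hd)
      rw [← hk, mem_smul_sylow, Sylow.coe_subtype, Subgroup.mem_subgroupOf] at h1
      rw [mem_smul_sylow]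
      simpa using h1
    have hT'ne : ((k : G) • T : Sylow 2 G) ≠ S := by
      intro heq
      apply hne
      have hST : (Sb : Subgroup (G ⧸ H)) ≤ Tb := by
        rw [← hS', ← heq]
        rintro _ ⟨x, hx, rfl⟩
        rw [SetLike.mem_coe, mem_smul_sylow] at hx
        have hkT : (QuotientGroup.mk' H) (k : G) ∈ (Tb : Subgroup (G ⧸ H)) := by
          have hmap : ((T : Subgroup G) ⊔ H).map (QuotientGroup.mk' H) =
              (T : Subgroup G).map (QuotientGroup.mk' H) := by
            rw [Subgroup.map_sup]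
            have hbot : H.map (QuotientGroup.mk' H) = ⊥ :=
              (Subgroup.map_eq_bot_iff H).2 (le_of_eq (QuotientGroup.ker_mk' H).symm)
            rw [hbot, sup_bot_eq]
          rw [← hT', ← hmap]
          exact Subgroup.mem_map_of_mem _ k.2
        have hx3 : (QuotientGroup.mk' H) ((k:G)⁻¹ * x * k) ∈ (Tb : Subgroup (G ⧸ H)) := by
          rw [← hT']
          exact Subgroup.mem_map_of_mem _ hx
        have hxe : (QuotientGroup.mk' H) x = (QuotientGroup.mk' H) k *
            (QuotientGroup.mk' H) ((k:G)⁻¹ * x * k) * ((QuotientGroup.mk' H) k)⁻¹ := by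
          simp only [map_mul, map_inv]
          group
        rw [hxe]
        exact mul_mem (mul_mem hkT hx3) (inv_mem hkT)
      have hTS := Sb.is_maximal' Tb.isPGroup' hST
      exact Sylow.ext hTS.symm
    have hcyc := hC S ((k : G) • T : Sylow 2 G) (Ne.symm hT'ne)
    exact Subgroup.isCyclic_of_le (le_inf inf_le_left hDT')
  have hDmap : IsCyclic ↥(((S : Subgroup G) ⊓ ((T : Subgroup G) ⊔ H)).map (QuotientGroup.mk' H)) :=
    isCyclic_of_surjective ((QuotientGroup.mk' H).subgroupMap _)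
      (MonoidHom.subgroupMap_surjective _ _)
  exact Subgroup.isCyclic_of_le hle

end Cfsg.Agent.S3305
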