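import Cfsg.Statements.S3309
import Mathlib
import Cfsg.Agent.Lib.Helper17.TT

set_option autoImplicit false
open Cfsg

namespace Cfsg.Agent.S3309

theorem factA1 : ∀ a b : Multiplicative (ZMod 2) × DihedralGroup 4,
    a * b * a⁻¹ * b⁻¹ = 1 ∨ a * b * a⁻¹ * b⁻¹ = (1, DihedralGroup.r 2) := by decide

theorem factA2 : ∀ a : Multiplicative (ZMod 2) × DihedralGroup 4, a.1 = 1 →
    (∀ b : Multiplicative (ZMod 2) × DihedralGroup 4, a * b = b * a) →
    a = 1 ∨ a = (1, DihedralGroup.r 2) := by decide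

theorem factA3 : ∀ b : Multiplicative (ZMod 2) × DihedralGroup 4,
    b * (Multiplicative.ofAdd (1 : ZMod 2), (1 : DihedralGroup 4)) =
      (Multiplicative.ofAdd (1 : ZMod 2), (1 : DihedralGroup 4)) * b := by decide

theorem factA4 : ((Multiplicative.ofAdd (1 : ZMod 2), (1 : DihedralGroup 4)) :
      Multiplicative (ZMod 2) × DihedralGroup 4) ≠ 1 ∧
    ((Multiplicative.ofAdd (1 : ZMod 2), (1 : DihedralGroup 4)) :
      Multiplicative (ZMod 2) × DihedralGroup 4) ≠ (1, DihedralGroup.r 2) ∧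
    ((Multiplicative.ofAdd (1 : ZMod 2), (1 : DihedralGroup 4)) :
      Multiplicative (ZMod 2) × DihedralGroup 4) *
      (Multiplicative.ofAdd (1 : ZMod 2), (1 : DihedralGroup 4)) = 1 := by decide

theorem factA5 : ((1, DihedralGroup.r 2) : Multiplicative (ZMod 2) × DihedralGroup 4) =
    (1, DihedralGroup.r 1) * (1, DihedralGroup.sr 0) * (1, DihedralGroup.r 1)⁻¹ *
      (1, DihedralGroup.sr 0)⁻¹ := by decide

/-- A finite group whose Sylow 2-subgroups are isomorphic to the direct product of a group of order 2 and the dihedral group of order 8 is not a non-abelian simple group. -/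
theorem result {G : Type*} [Group G] [Finite G] (S : Sylow 2 G) (hS : Nonempty (↥(S : Subgroup G) ≃* Multiplicative (ZMod 2) × DihedralGroup 4))
    [IsSimpleGroup G] (hG : ¬ IsMulCommutative G) : False := by
  classical
  obtain ⟨e⟩ := hS
  obtain ⟨P, hP⟩ : ∃ P : Subgroup G, P = (S : Subgroup G) := ⟨_, rfl⟩
  subst hP
  let ψ : ↥(S : Subgroup G) →* Multiplicative (ZMod 2) :=
    (MonoidHom.fst (Multiplicative (ZMod 2)) (DihedralGroup 4)).comp e.toMonoidHom
  have hψ : ∀ k, ψ k = (e k).1 := fun k => rfl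
  have hψs : Function.Surjective ψ := by
    intro c
    refine ⟨e.symm (c, 1), ?_⟩
    rw [hψ, e.apply_symm_apply]
  have hKi : ψ.ker.index = 2 := by
    rw [Subgroup.index_ker, MonoidHom.range_eq_top.2 hψs, Subgroup.card_top]
    simp [Nat.card_eq_fintype_card]
  have hQi : (ψ.ker.map (S : Subgroup G).subtype).relIndex (S : Subgroup G) = 2 := by
    show ((ψ.ker.map (S : Subgroup G).subtype).subgroupOf (S : Subgroup G)).index = 2
    have h1 : (ψ.ker.map (S : Subgroup G).subtype).subgroupOf (S : Subgroup G) = ψ.ker :=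
      Subgroup.comap_map_eq_self_of_injective (Subgroup.subtype_injective _) _
    rw [h1]; exact hKi
  have hodd : ¬ 2 ∣ (S : Subgroup G).index := S.not_dvd_index
  obtain ⟨cA, hcA⟩ : ∃ cA : Multiplicative (ZMod 2) × DihedralGroup 4,
      cA = (Multiplicative.ofAdd (1 : ZMod 2), (1 : DihedralGroup 4)) := ⟨_, rfl⟩
  have hc1 : cA ≠ 1 := hcA ▸ factA4.1
  have hc2 : cA ≠ (1, DihedralGroup.r 2) := hcA ▸ factA4.2.1
  have hc3 : cA * cA = 1 := hcA ▸ factA4.2.2
  have hc4 : ∀ b, b * cA = cA * b := hcA ▸ factA3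
  obtain ⟨u, hu0⟩ : ∃ u : G, u = ((e.symm cA : ↥(S : Subgroup G)) : G) := ⟨_, rfl⟩
  have hu : u * u = 1 := by
    have h1 : e.symm cA * e.symm cA = 1 := by rw [← map_mul, hc3, map_one]
    rw [hu0]
    exact congrArg Subtype.val h1
  have hTu : ∀ t ∈ (S : Subgroup G), t * u = u * t := by
    intro t ht
    have h1 : (⟨t, ht⟩ : ↥(S : Subgroup G)) * e.symm cA = e.symm cA * ⟨t, ht⟩ := by
      apply e.injective
      rw [map_mul, map_mul, e.apply_symm_apply]
      exact hc4 _
    rw [hu0]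
    exact congrArg Subtype.val h1
  rcases Cfsg.Agent.Lib.Helper17.TT.thompson_transfer (S : Subgroup G)
      (ψ.ker.map (S : Subgroup G).subtype) hodd hQi u hu (S : Subgroup G) S.isPGroup' hTu with
    ⟨M, hMn, hMi, huM⟩ | ⟨g, hgQ, hgP⟩
  · rcases hMn.eq_bot_or_eq_top with h | h
    · rw [h, Subgroup.index_bot] at hMi
      have h16 : Nat.card (S : Subgroup G) = 16 := by
        rw [Nat.card_congr e.toEquiv, Nat.card_prod, DihedralGroup.nat_card]
        simp [Nat.card_eq_fintype_card]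
      have h2 := Subgroup.card_subgroup_dvd_card (S : Subgroup G)
      rw [h16, hMi] at h2
      omega
    · rw [h, Subgroup.index_top] at hMi
      omega
  · let φ : ↥(S : Subgroup G) → ↥(S : Subgroup G) := fun t => ⟨g⁻¹ * t * g, hgP t t.2⟩
    have hφi : Function.Injective φ := by
      intro a b hab
      have h1 : g⁻¹ * (a : G) * g = g⁻¹ * (b : G) * g := congrArg Subtype.val hab
      apply Subtype.ext
      exact mul_left_cancel (mul_right_cancel h1)
    have hφs : Function.Surjective φ := Finite.injective_iff_surjective.1 hφi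
    have hgP' : ∀ t ∈ (S : Subgroup G), g * t * g⁻¹ ∈ (S : Subgroup G) := by
      intro t ht
      obtain ⟨t', ht'⟩ := hφs ⟨t, ht⟩
      have h1 : g⁻¹ * (t' : G) * g = t := congrArg Subtype.val ht'
      have h2 : g * t * g⁻¹ = t' := by rw [← h1]; group
      rw [h2]; exact t'.2
    obtain ⟨k, hkK, hk⟩ := hgQ
    have hk' : (k : G) = g⁻¹ * u * g := hk
    have hk1 : (e k).1 = 1 := hkK
    have hkc : ∀ b : Multiplicative (ZMod 2) × DihedralGroup 4, e k * b = b * e k := by
      intro b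
      have h1 := hTu _ (hgP' _ (e.symm b).2)
      have h2 : (k : G) * (e.symm b : ↥(S : Subgroup G)) = (e.symm b : ↥(S : Subgroup G)) * (k : G) := by
        rw [hk']
        calc g⁻¹ * u * g * ↑(e.symm b) = g⁻¹ * (u * (g * ↑(e.symm b) * g⁻¹)) * g := by group
          _ = g⁻¹ * ((g * ↑(e.symm b) * g⁻¹) * u) * g := by rw [h1]
          _ = ↑(e.symm b) * (g⁻¹ * u * g) := by group
      have h3 : k * e.symm b = e.symm b * k := Subtype.ext h2
      have h4 := congrArg e h3
      rw [map_mul, map_mul, e.apply_symm_apply] at h4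
      exact h4
    rcases factA2 (e k) hk1 hkc with h | h
    · have h1 : k = 1 := e.injective (h.trans (map_one e).symm)
      have h2 : g⁻¹ * u * g = 1 := by rw [← hk', h1]; rfl
      have h3 : u = 1 := by
        have : u = g * (g⁻¹ * u * g) * g⁻¹ := by group
        rw [this, h2]; group
      have h4 : e.symm cA = 1 := Subtype.ext (hu0 ▸ h3)
      have h5 : cA = 1 := by
        have := congrArg e h4
        rw [e.apply_symm_apply, map_one] at this
        exact this
      exact hc1 h5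
    · obtain ⟨x₁, hx₁⟩ : ∃ x₁ : ↥(S : Subgroup G), x₁ = e.symm (1, DihedralGroup.r 1) := ⟨_, rfl⟩
      obtain ⟨x₂, hx₂⟩ : ∃ x₂ : ↥(S : Subgroup G), x₂ = e.symm (1, DihedralGroup.sr 0) := ⟨_, rfl⟩
      have h1 : k = x₁ * x₂ * x₁⁻¹ * x₂⁻¹ := by
        apply e.injective
        rw [h, map_mul, map_mul, map_mul, map_inv, map_inv, hx₁, hx₂, e.apply_symm_apply,
          e.apply_symm_apply]
        exact factA5
      obtain ⟨y₁, hy₁⟩ : ∃ y₁ : ↥(S : Subgroup G), (y₁ : G) = g * x₁ * g⁻¹ :=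
        ⟨⟨_, hgP' _ x₁.2⟩, rfl⟩
      obtain ⟨y₂, hy₂⟩ : ∃ y₂ : ↥(S : Subgroup G), (y₂ : G) = g * x₂ * g⁻¹ :=
        ⟨⟨_, hgP' _ x₂.2⟩, rfl⟩
      have h2 : e.symm cA = y₁ * y₂ * y₁⁻¹ * y₂⁻¹ := by
        apply Subtype.ext
        have h3 : (k : G) = (x₁ : G) * x₂ * (x₁ : G)⁻¹ * (x₂ : G)⁻¹ := by rw [h1]; rfl
        show ((e.symm cA : ↥(S : Subgroup G)) : G) = (y₁ : G) * y₂ * (y₁ : G)⁻¹ * (y₂ : G)⁻¹
        rw [← hu0, hy₁, hy₂]
        have h4 : u = g * (k : G) * g⁻¹ := by rw [hk']; group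
        rw [h4, h3]; group
      have h5 : cA = e y₁ * e y₂ * (e y₁)⁻¹ * (e y₂)⁻¹ := by
        have := congrArg e h2
        rw [e.apply_symm_apply, map_mul, map_mul, map_mul, map_inv, map_inv] at this
        exact this
      rcases factA1 (e y₁) (e y₂) with h6 | h6
      · exact hc1 (h5.trans h6)
      · exact hc2 (h5.trans h6)

end Cfsg.Agent.S3309
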