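import Cfsg.Statements.S3315
import Cfsg.Agent.Lib.Helper3.SuSyl

set_option autoImplicit false
open Cfsg

namespace Cfsg.Agent.S3315

/-- Let S be a Sylow 2-subgroup of SU₃(2ⁿ), n ≥ 2 (realised over the field with 4ⁿ elements). If a finite 2-group R contains a subgroup S' of index 2 isomorphic to S, then the centre of S' is contained in the centre of R. -/
theorem result {R : Type*} [Group R] [Finite R]
    (hR : IsPGroup 2 R) (n : ℕ) (hn : 2 ≤ n) {F : Type*} [Field F] [Fintype F] (hF : Fintype.card F = 4 ^ n)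
    (P : Sylow 2 ↥(Cfsg.SU 3 F (2 ^ n))) (S' : Subgroup R) (hS : Nonempty (↥S' ≃* ↥(P : Subgroup ↥(Cfsg.SU 3 F (2 ^ n)))))
    (hidx : S'.index = 2) :
    (Subgroup.center ↥S').map S'.subtype ≤ Subgroup.center R := by
  obtain ⟨e⟩ := hS
  have hF' : Fintype.card F = (2 ^ n) ^ 2 := by
    rw [hF, ← pow_mul, mul_comm, pow_mul]
    norm_num
  obtain ⟨C⟩ := Cfsg.Agent.Lib.Helper3.SuSyl.exists_coU n hF' P e
  have hnorm : S'.Normal := Subgroup.normal_of_index_eq_two hidx
  rintro _ ⟨x, hx, rfl⟩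
  rw [Subgroup.mem_center_iff]
  intro r
  have hr2 : r * r ∈ S' := Subgroup.mul_self_mem_of_index_two hidx r
  have hφ : (MulAut.conjNormal r : MulAut ↥S') * MulAut.conjNormal r =
      (MulAut.conj (⟨r * r, hr2⟩ : ↥S') : MulAut ↥S') := by
    ext y
    rw [MulAut.mul_apply, MulAut.conjNormal_apply, MulAut.conjNormal_apply, MulAut.conj_apply]
    show r * (r * (y : R) * r⁻¹) * r⁻¹ = (r * r) * (y : R) * (r * r)⁻¹
    group
  have h := C.fix_center n rfl (MulAut.conjNormal r) ⟨r * r, hr2⟩ hφ x hx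
  have h' : r * (x : R) * r⁻¹ = x := by
    have h1 := congrArg Subtype.val h
    rw [MulAut.conjNormal_apply] at h1
    exact h1
  show r * (x : R) = x * r
  calc r * (x : R) = (r * x * r⁻¹) * r := by group
    _ = x * r := by rw [h']

end Cfsg.Agent.S3315
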