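import Cfsg.Statements.S3335
import Mathlib

set_option autoImplicit false
open Cfsg

namespace Cfsg.Agent.S3335

section coset
variable {G : Type*} [Group G]

/-- ascending word `z 0 * z 1 * ⋯ * z (k-1)`, with the index capped at `m`. -/
def w (z : ℕ → G) (m : ℕ) : ℕ → G
  | 0 => 1
  | k+1 => w z m k * z (min k m)

theorem inv_of_sq {a : G} (h : a ^ 2 = 1) : a⁻¹ = a := by
  rw [inv_eq_iff_mul_eq_one, ← sq, h]

theorem comm_of_sq {a b : G} (ha : a ^ 2 = 1) (hb : b ^ 2 = 1) (hab : (a * b) ^ 2 = 1) :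
    a * b = b * a := by
  have h1 := inv_of_sq hab
  rw [mul_inv_rev, inv_of_sq ha, inv_of_sq hb] at h1
  exact h1.symm

theorem braid_of {a b : G} (ha : a ^ 2 = 1) (hb : b ^ 2 = 1) (hab : (a * b) ^ 3 = 1) :
    b * a * b = a * b * a := by
  have h1 : (a * b * a) * (b * a * b) = 1 := by
    rw [← hab]; simp only [pow_succ, pow_zero, one_mul, mul_assoc]
  have h2 : b * a * b = (a * b * a)⁻¹ := (inv_eq_of_mul_eq_one_right h1).symm
  rw [h2, mul_inv_rev, mul_inv_rev, inv_of_sq ha, inv_of_sq hb, mul_assoc]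

theorem braid0_of {a b : G} (hb : b ^ 2 = 1) (hba : (b * a) ^ 3 = 1) :
    b * a * b = a⁻¹ * b * a⁻¹ := by
  have h1 : (b * a * b) * (a * b * a) = 1 := by
    rw [← hba]; simp only [pow_succ, pow_zero, one_mul, mul_assoc]
  rw [eq_inv_of_mul_eq_one_left h1, mul_inv_rev, mul_inv_rev, inv_of_sq hb, mul_assoc]

theorem inv_conj_of {a b : G} (hb : b ^ 2 = 1) (hba : (b * a) ^ 2 = 1) :
    b * a = a⁻¹ * b := by
  have h1 := inv_of_sq hba
  rw [mul_inv_rev, inv_of_sq hb] at h1
  exact h1.symm

theorem inv_conj_of' {a b : G} (hb : b ^ 2 = 1) (hba : (b * a) ^ 2 = 1) :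
    a * b = b * a⁻¹ := by
  have h := inv_conj_of hb hba
  calc a * b = a * (b * a) * a⁻¹ := by group
    _ = a * (a⁻¹ * b) * a⁻¹ := by rw [h]
    _ = b * a⁻¹ := by group

theorem inv_of_cube {a : G} (h : a ^ 3 = 1) : a⁻¹ = a * a := by
  rw [inv_eq_iff_mul_eq_one, ← h]; simp only [pow_succ, pow_zero, one_mul, mul_assoc]

theorem swap_pow {a b : G} {n : ℕ} (h : (a * b) ^ n = 1) : (b * a) ^ n = 1 := by
  have : b * a = a⁻¹ * (a * b) * a⁻¹⁻¹ := by group
  rw [this, conj_pow, h]; group

/-- conjugation by `g` preserves `zpowers a` -/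
def Nz (a g : G) : Prop := ∀ x ∈ Subgroup.zpowers a, g * x * g⁻¹ ∈ Subgroup.zpowers a

theorem Nz_one (a : G) : Nz a 1 := by
  intro x hx; simpa using hx

theorem Nz_mul {a g g' : G} (h : Nz a g) (h' : Nz a g') : Nz a (g * g') := by
  intro x hx
  have := h _ (h' x hx)
  have e : g * g' * x * (g * g')⁻¹ = g * (g' * x * g'⁻¹) * g⁻¹ := by group
  rw [e]; exact this

theorem Nz_of {a b : G} (hb : b ^ 2 = 1) (hba : (b * a) ^ 2 = 1) : Nz a b := by
  intro x hx
  obtain ⟨e, rfl⟩ := Subgroup.mem_zpowers_iff.1 hx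
  have h1 : b * a * b⁻¹ = a⁻¹ := by
    rw [inv_conj_of hb hba, inv_of_sq hb, mul_assoc, ← sq, hb, mul_one]
  have h2 : b * a ^ e * b⁻¹ = (a⁻¹) ^ e := by
    rw [← h1, conj_zpow]
  rw [h2]
  exact Subgroup.zpow_mem _ (Subgroup.inv_mem _ (Subgroup.mem_zpowers a)) e

variable (z : ℕ → G) (m : ℕ)

theorem w_succ (k : ℕ) (hk : k ≤ m) : w z m (k+1) = w z m k * z k := by
  show w z m k * z (min k m) = _
  rw [min_eq_left hk]

theorem w_top : w z m (m+2) = w z m (m+1) * z m := by
  show w z m (m+1) * z (min (m+1) m) = _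
  rw [min_eq_right (Nat.le_succ m)]

variable (h3 : z m ^ 3 = 1)
  (h2 : ∀ i, i < m → z i ^ 2 = 1)
  (hb : ∀ i, i < m → (z i * z (i+1)) ^ 3 = 1)
  (hc : ∀ i j, i + 1 < j → j ≤ m → (z i * z j) ^ 2 = 1)

include h2 hc in
theorem w_Nz (k : ℕ) (hk : k < m) : Nz (z m) (w z m k) := by
  induction k with
  | zero => exact Nz_one _
  | succ k ih =>
    rw [w_succ z m k (by omega)]
    exact Nz_mul (ih (by omega)) (Nz_of (h2 k (by omega)) (hc k m (by omega) le_rfl))

include h2 hc in
theorem L1 (i : ℕ) (hi : i < m) (k : ℕ) (hk : k < i) : w z m k * z i = z i * w z m k := by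
  induction k with
  | zero => simp [w]
  | succ k ih =>
    rw [w_succ z m k (by omega), mul_assoc,
      comm_of_sq (h2 k (by omega)) (h2 i hi) (hc k i (by omega) (by omega)),
      ← mul_assoc, ih (by omega), mul_assoc]

include h2 hb hc in
theorem L2 (i : ℕ) (k : ℕ) (hik : i + 2 ≤ k) (hk : k ≤ m) :
    w z m k * z i = z (i+1) * w z m k := by
  induction k, hik using Nat.le_induction with
  | base =>
    rw [w_succ z m (i+1) (by omega), w_succ z m i (by omega)]
    have hbr := braid_of (h2 i (by omega)) (h2 (i+1) (by omega)) (hb i (by omega))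
    calc w z m i * z i * z (i+1) * z i = w z m i * (z i * z (i+1) * z i) := by
          simp only [mul_assoc]
      _ = w z m i * (z (i+1) * z i * z (i+1)) := by rw [hbr]
      _ = (w z m i * z (i+1)) * z i * z (i+1) := by simp only [mul_assoc]
      _ = z (i+1) * w z m i * z i * z (i+1) := by
          rw [L1 z m h2 hc (i+1) (by omega) i (by omega)]
      _ = z (i+1) * (w z m i * z i * z (i+1)) := by simp only [mul_assoc]
  | succ k hik ih =>
    rw [w_succ z m k (by omega), mul_assoc,
      ← comm_of_sq (h2 i (by omega)) (h2 k (by omega)) (hc i k (by omega) (by omega)),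
      ← mul_assoc, ih (by omega), mul_assoc]

variable (H : Subgroup G) (hH : ∀ i, 1 ≤ i → i ≤ m → z i ∈ H)

include h3 h2 hb hc hH in
theorem step_top (i : ℕ) (hi : i < m) :
    ∃ h ∈ H, w z m (m+1) * z i = h * w z m (m+2) := by
  have hzm : z m ∈ H := hH m (by omega) le_rfl
  have hzp : Subgroup.zpowers (z m) ≤ H := by
    rw [Subgroup.zpowers_le]; exact hzm
  rw [w_top, w_succ z m m le_rfl]
  by_cases hi1 : i + 1 < m
  · refine ⟨z (i+1), hH _ (by omega) (by omega), ?_⟩
    have e1 : z m * z i = z i * (z m)⁻¹ := inv_conj_of' (h2 i hi) (hc i m hi1 le_rfl)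
    calc w z m m * z m * z i = w z m m * (z m * z i) := by simp only [mul_assoc]
      _ = (w z m m * z i) * (z m)⁻¹ := by rw [e1]; simp only [mul_assoc]
      _ = z (i+1) * w z m m * (z m * z m) := by
          rw [L2 z m h2 hb hc i m (by omega) le_rfl, inv_of_cube h3]
      _ = z (i+1) * (w z m m * z m * z m) := by simp only [mul_assoc]
  · have him : i + 1 = m := by omega
    have hN := w_Nz z m h2 hc i hi (z m)⁻¹ (Subgroup.inv_mem _ (Subgroup.mem_zpowers _))
    refine ⟨_, hzp hN, ?_⟩
    have hwm : w z m m = w z m i * z i := by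
      rw [← him]; exact w_succ z (i+1) i (by omega)
    have hbr : z i * z m * z i = (z m)⁻¹ * z i * (z m)⁻¹ := by
      have := hb i hi
      rw [him] at this
      exact braid0_of (h2 i hi) this
    calc w z m m * z m * z i = w z m i * (z i * z m * z i) := by
          rw [hwm]; simp only [mul_assoc]
      _ = w z m i * ((z m)⁻¹ * z i * (z m)⁻¹) := by rw [hbr]
      _ = w z m i * (z m)⁻¹ * (w z m i)⁻¹ * (w z m i * z i * (z m * z m)) := by
          rw [inv_of_cube h3]; group
      _ = w z m i * (z m)⁻¹ * (w z m i)⁻¹ * (w z m m * z m * z m) := by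
          rw [hwm]; simp only [mul_assoc]

include h3 h2 hb hc hH in
theorem coset_step (k : ℕ) (hk : k ≤ m + 2) (i : ℕ) (hi : i ≤ m) :
    ∃ k', k' ≤ m + 2 ∧ ∃ h ∈ H, w z m k * z i = h * w z m k' := by
  rcases Nat.lt_or_ge i m with hi' | hi'
  · -- involution generator
    rcases Nat.lt_or_ge k i with h1 | h1
    · exact ⟨k, hk, z i, hH i (by omega) hi, L1 z m h2 hc i hi' k h1⟩
    rcases Nat.lt_or_ge k (i+1) with h1' | h1'
    · have : k = i := by omega
      subst this
      exact ⟨k+1, by omega, 1, one_mem _, by rw [w_succ z m k hi, one_mul]⟩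
    rcases Nat.lt_or_ge k (i+2) with h1'' | h1''
    · have : k = i + 1 := by omega
      subst this
      refine ⟨i, by omega, 1, one_mem _, ?_⟩
      rw [w_succ z m i hi, mul_assoc, ← sq, h2 i hi', mul_one, one_mul]
    rcases Nat.lt_or_ge k (m+1) with h4 | h4
    · exact ⟨k, hk, z (i+1), hH _ (by omega) (by omega), L2 z m h2 hb hc i k h1'' (by omega)⟩
    rcases Nat.lt_or_ge k (m+2) with h5 | h5
    · have : k = m + 1 := by omega
      subst this
      obtain ⟨h, hh, e⟩ := step_top z m h3 h2 hb hc H hH i hi'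
      exact ⟨m+2, le_rfl, h, hh, e⟩
    · have : k = m + 2 := by omega
      subst this
      obtain ⟨h, hh, e⟩ := step_top z m h3 h2 hb hc H hH i hi'
      refine ⟨m+1, by omega, h⁻¹, inv_mem hh, ?_⟩
      have e2 : w z m (m+2) = h⁻¹ * (w z m (m+1) * z i) := by rw [e]; group
      rw [e2, mul_assoc, mul_assoc, ← sq, h2 i hi', mul_one]
  · have : i = m := by omega
    subst this
    rcases Nat.lt_or_ge k i with h1 | h1
    · have hzm : z i ∈ H := hH i (by omega) le_rfl
      have hzp : Subgroup.zpowers (z i) ≤ H := by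
        rw [Subgroup.zpowers_le]; exact hzm
      have hN := w_Nz z i h2 hc k h1 (z i) (Subgroup.mem_zpowers _)
      exact ⟨k, hk, _, hzp hN, by group⟩
    rcases Nat.lt_or_ge k (i+1) with h1' | h1'
    · have : k = i := by omega
      subst this
      exact ⟨k+1, by omega, 1, one_mem _, by rw [w_succ z k k le_rfl, one_mul]⟩
    rcases Nat.lt_or_ge k (i+2) with h1'' | h1''
    · have : k = i + 1 := by omega
      subst this
      exact ⟨i+2, le_rfl, 1, one_mem _, by rw [w_top, one_mul]⟩
    · have : k = i + 2 := by omega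
      subst this
      refine ⟨i, by omega, 1, one_mem _, ?_⟩
      rw [w_top, w_succ z i i le_rfl, one_mul]
      have : z i * z i * z i = 1 := by
        rw [← h3]; simp only [pow_succ, pow_zero, one_mul]
      calc w z i i * z i * z i * z i = w z i i * (z i * z i * z i) := by simp only [mul_assoc]
        _ = w z i i := by rw [this, mul_one]

include h3 h2 hb hc hH in
theorem cover (hgen : ∀ g : G, g ∈ Subgroup.closure {g | ∃ i, i ≤ m ∧ g = z i}) (g : G) :
    ∃ k, k ≤ m + 2 ∧ ∃ h ∈ H, g = h * w z m k := by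
  have key : ∀ i, i ≤ m → ∀ u : G, (∃ k, k ≤ m + 2 ∧ ∃ h ∈ H, u = h * w z m k) →
      ∃ k, k ≤ m + 2 ∧ ∃ h ∈ H, u * z i = h * w z m k := by
    rintro i hi u ⟨k, hk, h, hh, rfl⟩
    obtain ⟨k', hk', h', hh', e⟩ := coset_step z m h3 h2 hb hc H hH k hk i hi
    exact ⟨k', hk', h * h', mul_mem hh hh', by rw [mul_assoc, e, mul_assoc]⟩
  have key' : ∀ i, i ≤ m → ∀ u : G, (∃ k, k ≤ m + 2 ∧ ∃ h ∈ H, u = h * w z m k) →
      ∃ k, k ≤ m + 2 ∧ ∃ h ∈ H, u * (z i)⁻¹ = h * w z m k := by
    intro i hi u hu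
    rcases Nat.lt_or_ge i m with hi' | hi'
    · rw [inv_of_sq (h2 i hi')]; exact key i hi u hu
    · have : i = m := by omega
      subst this
      rw [inv_of_cube h3, ← mul_assoc]
      exact key i hi _ (key i hi u hu)
  have main : ∀ g : G, ∀ u : G, (∃ k, k ≤ m + 2 ∧ ∃ h ∈ H, u = h * w z m k) →
      (∃ k, k ≤ m + 2 ∧ ∃ h ∈ H, u * g = h * w z m k) ∧
      (∃ k, k ≤ m + 2 ∧ ∃ h ∈ H, u * g⁻¹ = h * w z m k) := by
    intro g
    induction hgen g using Subgroup.closure_induction with
    | mem x hx =>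
      obtain ⟨i, hi, rfl⟩ := hx
      exact fun u hu => ⟨key i hi u hu, key' i hi u hu⟩
    | one => intro u hu; simpa using hu
    | mul x y _ _ hx hy =>
      intro u hu
      refine ⟨?_, ?_⟩
      · rw [← mul_assoc]; exact (hy _ (hx u hu).1).1
      · rw [mul_inv_rev, ← mul_assoc]; exact (hx _ (hy u hu).2).2
    | inv x _ hx =>
      intro u hu
      refine ⟨(hx u hu).2, ?_⟩
      rw [inv_inv]; exact (hx u hu).1
  have := (main g 1 ⟨0, by omega, 1, one_mem _, by simp [w]⟩).1
  rwa [one_mul] at this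

include h3 h2 hb hc hH in
theorem card_bound [Finite H]
    (hgen : ∀ g : G, g ∈ Subgroup.closure {g | ∃ i, i ≤ m ∧ g = z i}) :
    Finite G ∧ Nat.card G ≤ (m + 3) * Nat.card H := by
  have hc' := cover z m h3 h2 hb hc H hH hgen
  choose kf hkf hf hhf hgf using hc'
  let F : G → Fin (m+3) × H := fun g => (⟨kf g, by have := hkf g; omega⟩, ⟨hf g, hhf g⟩)
  have hF : Function.Injective F := by
    intro g g' hgg
    have h1 : kf g = kf g' := by
      have := congrArg (fun p => (p.1 : ℕ)) hgg
      exact this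
    have h2' : hf g = hf g' := by
      have := congrArg (fun p => (p.2 : G)) hgg
      exact this
    rw [hgf g, hgf g', h1, h2']
  have hfin : Finite G := Finite.of_injective F hF
  refine ⟨hfin, ?_⟩
  have := Nat.card_le_card_of_injective F hF
  rwa [Nat.card_prod, Nat.card_fin] at this

end coset

section pres

/-- the relation set, in the shape of the statement -/
def rels (m : ℕ) : Set (FreeGroup (Fin m)) :=
  {g : FreeGroup (Fin m) | ∃ i : Fin m, i.val = 0 ∧ g = FreeGroup.of i ^ 3} ∪
       {g | ∃ i : Fin m, 1 ≤ i.val ∧ g = FreeGroup.of i ^ 2} ∪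
       {g | ∃ i j : Fin m, j.val = i.val + 1 ∧ g = (FreeGroup.of i * FreeGroup.of j) ^ 3} ∪
       {g | ∃ i j : Fin m, i.val + 1 < j.val ∧ g = (FreeGroup.of i * FreeGroup.of j) ^ 2}

theorem rel3 {m : ℕ} (i : Fin m) (hi : i.val = 0) :
    (PresentedGroup.of i : PresentedGroup (rels m)) ^ 3 = 1 := by
  have : FreeGroup.of i ^ 3 ∈ rels m := Or.inl (Or.inl (Or.inl ⟨i, hi, rfl⟩))
  have h := PresentedGroup.one_of_mem this
  rwa [map_pow] at h

theorem rel2 {m : ℕ} (i : Fin m) (hi : 1 ≤ i.val) :
    (PresentedGroup.of i : PresentedGroup (rels m)) ^ 2 = 1 := by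
  have : FreeGroup.of i ^ 2 ∈ rels m := Or.inl (Or.inl (Or.inr ⟨i, hi, rfl⟩))
  have h := PresentedGroup.one_of_mem this
  rwa [map_pow] at h

theorem relb {m : ℕ} (i j : Fin m) (hij : j.val = i.val + 1) :
    ((PresentedGroup.of i : PresentedGroup (rels m)) * PresentedGroup.of j) ^ 3 = 1 := by
  have : (FreeGroup.of i * FreeGroup.of j) ^ 3 ∈ rels m := Or.inl (Or.inr ⟨i, j, hij, rfl⟩)
  have h := PresentedGroup.one_of_mem this
  rwa [map_pow, map_mul] at h

theorem relc {m : ℕ} (i j : Fin m) (hij : i.val + 1 < j.val) :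
    ((PresentedGroup.of i : PresentedGroup (rels m)) * PresentedGroup.of j) ^ 2 = 1 := by
  have : (FreeGroup.of i * FreeGroup.of j) ^ 2 ∈ rels m := Or.inr ⟨i, j, hij, rfl⟩
  have h := PresentedGroup.one_of_mem this
  rwa [map_pow, map_mul] at h

theorem lift_rels {K : Type*} [Group K] {m : ℕ} (f : Fin m → K)
    (f3 : ∀ i : Fin m, i.val = 0 → f i ^ 3 = 1)
    (f2 : ∀ i : Fin m, 1 ≤ i.val → f i ^ 2 = 1)
    (fb : ∀ i j : Fin m, j.val = i.val + 1 → (f i * f j) ^ 3 = 1)
    (fc : ∀ i j : Fin m, i.val + 1 < j.val → (f i * f j) ^ 2 = 1) :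
    ∀ r ∈ rels m, FreeGroup.lift f r = 1 := by
  rintro r (((⟨i, hi, rfl⟩ | ⟨i, hi, rfl⟩) | ⟨i, j, hij, rfl⟩) | ⟨i, j, hij, rfl⟩)
  · rw [map_pow, FreeGroup.lift_apply_of]; exact f3 i hi
  · rw [map_pow, FreeGroup.lift_apply_of]; exact f2 i hi
  · rw [map_pow, map_mul, FreeGroup.lift_apply_of, FreeGroup.lift_apply_of]; exact fb i j hij
  · rw [map_pow, map_mul, FreeGroup.lift_apply_of, FreeGroup.lift_apply_of]; exact fc i j hij

/-- the natural map from the group on `m` generators to the group on `m+1` generators -/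
def phi (m : ℕ) : PresentedGroup (rels m) →* PresentedGroup (rels (m+1)) :=
  PresentedGroup.toGroup (f := fun i : Fin m => PresentedGroup.of (Fin.castSucc i))
    (lift_rels _ (fun i hi => rel3 _ (by simpa using hi)) (fun i hi => rel2 _ (by simpa using hi))
      (fun i j hij => relb _ _ (by simpa using hij)) (fun i j hij => relc _ _ (by simpa using hij)))

/-- reversed generators -/
def zz (m : ℕ) (i : ℕ) : PresentedGroup (rels (m+1)) :=
  PresentedGroup.of ⟨m - i, Nat.lt_succ_of_le (Nat.sub_le m i)⟩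

theorem upper (m : ℕ) : Finite (PresentedGroup (rels m)) ∧
    Nat.card (PresentedGroup (rels m)) * 2 ≤ (m+2).factorial := by
  induction m with
  | zero =>
    have h1 : ∀ x : PresentedGroup (rels 0), x = 1 := fun x => by
      have := PresentedGroup.generated_by (rels 0) ⊥ (fun j => j.elim0) x
      simpa using this
    have hss : Subsingleton (PresentedGroup (rels 0)) := ⟨fun a b => by rw [h1 a, h1 b]⟩
    refine ⟨inferInstance, ?_⟩
    rw [Nat.card_of_subsingleton 1]
    decide
  | succ m ih =>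
    obtain ⟨hfin, hcard⟩ := ih
    have h3 : zz m m ^ 3 = 1 := rel3 _ (by simp)
    have h2 : ∀ i, i < m → zz m i ^ 2 = 1 := fun i hi => rel2 _ (by show 1 ≤ m - i; omega)
    have hb : ∀ i, i < m → (zz m i * zz m (i+1)) ^ 3 = 1 := fun i hi =>
      swap_pow (relb ⟨m-(i+1), by omega⟩ ⟨m-i, by omega⟩ (by show m - i = m - (i+1) + 1; omega))
    have hc : ∀ i j, i + 1 < j → j ≤ m → (zz m i * zz m j) ^ 2 = 1 := fun i j hij hj =>
      swap_pow (relc ⟨m-j, by omega⟩ ⟨m-i, by omega⟩ (by show m - j + 1 < m - i; omega))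
    have hH : ∀ i, 1 ≤ i → i ≤ m → zz m i ∈ (phi m).range := fun i hi1 hi =>
      ⟨PresentedGroup.of ⟨m - i, by omega⟩, by rw [phi, PresentedGroup.toGroup.of]; rfl⟩
    have hgen : ∀ g : PresentedGroup (rels (m+1)),
        g ∈ Subgroup.closure {g | ∃ i, i ≤ m ∧ g = zz m i} := fun g =>
      PresentedGroup.generated_by _ _ (fun j => Subgroup.subset_closure
        (show ∃ i, i ≤ m ∧ PresentedGroup.of j = zz m i from
        ⟨m - j.val, by omega, congrArg PresentedGroup.of (Fin.ext (by
          have := j.isLt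
          show j.val = m - (m - j.val)
          omega))⟩)) g
    have hfinR : Finite (phi m).range :=
      Finite.of_surjective (phi m).rangeRestrict (phi m).rangeRestrict_surjective
    obtain ⟨hfin', hcard'⟩ := card_bound (zz m) m h3 h2 hb hc (phi m).range hH hgen
    refine ⟨hfin', ?_⟩
    have h1 : Nat.card (phi m).range ≤ Nat.card (PresentedGroup (rels m)) :=
      Nat.le_of_dvd Nat.card_pos (Subgroup.card_range_dvd _)
    calc Nat.card (PresentedGroup (rels (m+1))) * 2
        ≤ (m+3) * Nat.card (phi m).range * 2 := Nat.mul_le_mul_right _ hcard'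
      _ = (m+3) * (Nat.card (phi m).range * 2) := by ring
      _ ≤ (m+3) * (Nat.card (PresentedGroup (rels m)) * 2) :=
          Nat.mul_le_mul_left _ (Nat.mul_le_mul_right _ h1)
      _ ≤ (m+3) * (m+2).factorial := Nat.mul_le_mul_left _ hcard
      _ = (m+1+2).factorial := (Nat.factorial_succ (m+2)).symm

end pres

section perm
open Equiv

theorem P1 {α : Type*} [DecidableEq α] [Fintype α] {a b c : α} (ab : a ≠ b) (ac : a ≠ c) (bc : b ≠ c) :
    (swap a b * swap b c) ^ 3 = 1 := by
  have h : Equiv.Perm.IsThreeCycle (swap b a * swap b c) :=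
    Equiv.Perm.isThreeCycle_swap_mul_swap_same ab.symm bc ac
  rw [swap_comm a b, ← h.orderOf]; exact pow_orderOf_eq_one _

theorem P2 {α : Type*} [DecidableEq α] {a b c d : α} (h : [a, b, c, d].Nodup) :
    swap a b * swap c d = swap c d * swap a b :=
  (Equiv.Perm.disjoint_swap_swap h).commute.eq

theorem P2sq {α : Type*} [DecidableEq α] {a b c d : α} (h : [a, b, c, d].Nodup) :
    (swap a b * swap c d) ^ 2 = 1 := by
  calc (swap a b * swap c d) ^ 2 = swap a b * (swap c d * swap a b) * swap c d := by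
        rw [sq]; simp only [mul_assoc]
    _ = swap a b * (swap a b * swap c d) * swap c d := by rw [P2 h]
    _ = (swap a b * swap a b) * (swap c d * swap c d) := by simp only [mul_assoc]
    _ = 1 := by rw [swap_mul_self, swap_mul_self, one_mul]

theorem P4 {α : Type*} [DecidableEq α] {a b c : α} (ac : a ≠ c) (bc : b ≠ c) :
    swap a b * swap b c * swap a b = swap a c := by
  have := Equiv.swap_mul_swap_mul_swap (x := c) (y := b) (z := a) bc.symm ac.symm
  rwa [swap_comm b a, swap_comm c b] at this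

/-- the points of `Fin (m+2)` indexed by naturals -/
def pt (m : ℕ) (i : ℕ) : Fin (m + 2) := if h : i < m + 2 then ⟨i, h⟩ else ⟨0, by omega⟩

theorem pt_val {m i : ℕ} (hi : i < m + 2) : (pt m i).val = i := by simp [pt, hi]

theorem pt_ne {m i j : ℕ} (hi : i < m+2) (hj : j < m+2) (hij : i ≠ j) : pt m i ≠ pt m j := by
  intro h; apply hij; have := congrArg Fin.val h; rwa [pt_val hi, pt_val hj] at this

theorem nodup4 {m a b c d : ℕ} (ha : a < m+2) (hb : b < m+2) (hc : c < m+2) (hd : d < m+2)
    (hab : a ≠ b) (hac : a ≠ c) (had : a ≠ d) (hbc : b ≠ c) (hbd : b ≠ d) (hcd : c ≠ d) :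
    [pt m a, pt m b, pt m c, pt m d].Nodup := by
  simp [pt_ne ha hb hab, pt_ne ha hc hac, pt_ne ha hd had, pt_ne hb hc hbc, pt_ne hb hd hbd,
    pt_ne hc hd hcd]

/-- the images of the generators -/
def gen (m : ℕ) (i : ℕ) : Equiv.Perm (Fin (m+2)) :=
  if i = 0 then swap (pt m 0) (pt m 1) * swap (pt m 1) (pt m 2)
  else swap (pt m 0) (pt m 1) * swap (pt m (i+1)) (pt m (i+2))

theorem gen_zero (m : ℕ) : gen m 0 = swap (pt m 0) (pt m 1) * swap (pt m 1) (pt m 2) := by
  rw [gen, if_pos rfl]

theorem gen_pos (m : ℕ) {i : ℕ} (hi : 1 ≤ i) :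
    gen m i = swap (pt m 0) (pt m 1) * swap (pt m (i+1)) (pt m (i+2)) := by
  rw [gen, if_neg (by omega)]

theorem gen3 {m : ℕ} (hm : 1 ≤ m) : gen m 0 ^ 3 = 1 := by
  rw [gen_zero]
  exact P1 (pt_ne (by omega) (by omega) (by omega)) (pt_ne (by omega) (by omega) (by omega))
    (pt_ne (by omega) (by omega) (by omega))

theorem gen2 {m i : ℕ} (hi : 1 ≤ i) (him : i < m) : gen m i ^ 2 = 1 := by
  rw [gen_pos m hi]
  exact P2sq (nodup4 (by omega) (by omega) (by omega) (by omega) (by omega) (by omega) (by omega)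
    (by omega) (by omega) (by omega))

theorem gen_mul_zero {m j : ℕ} (hj : 1 ≤ j) (hjm : j < m) :
    gen m 0 * gen m j = swap (pt m 0) (pt m 2) * swap (pt m (j+1)) (pt m (j+2)) := by
  rw [gen_zero, gen_pos m hj, ← mul_assoc,
    P4 (pt_ne (by omega) (by omega) (by omega)) (pt_ne (by omega) (by omega) (by omega))]

theorem gen_mul_pos {m i j : ℕ} (hi : 1 ≤ i) (hij : i < j) (hjm : j < m) :
    gen m i * gen m j =
      swap (pt m (i+1)) (pt m (i+2)) * swap (pt m (j+1)) (pt m (j+2)) := by
  rw [gen_pos m hi, gen_pos m (by omega)]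
  have hcomm := P2 (nodup4 (m := m) (a := i+1) (b := i+2) (c := 0) (d := 1) (by omega) (by omega)
    (by omega) (by omega) (by omega) (by omega) (by omega) (by omega) (by omega) (by omega))
  calc swap (pt m 0) (pt m 1) * swap (pt m (i+1)) (pt m (i+2)) *
        (swap (pt m 0) (pt m 1) * swap (pt m (j+1)) (pt m (j+2)))
      = swap (pt m 0) (pt m 1) * (swap (pt m (i+1)) (pt m (i+2)) * swap (pt m 0) (pt m 1)) *
          swap (pt m (j+1)) (pt m (j+2)) := by simp only [mul_assoc]
    _ = swap (pt m 0) (pt m 1) * (swap (pt m 0) (pt m 1) * swap (pt m (i+1)) (pt m (i+2))) *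
          swap (pt m (j+1)) (pt m (j+2)) := by rw [hcomm]
    _ = (swap (pt m 0) (pt m 1) * swap (pt m 0) (pt m 1)) * swap (pt m (i+1)) (pt m (i+2)) *
          swap (pt m (j+1)) (pt m (j+2)) := by simp only [mul_assoc]
    _ = _ := by rw [swap_mul_self, one_mul]

theorem genb {m i : ℕ} (him : i + 1 < m) : (gen m i * gen m (i+1)) ^ 3 = 1 := by
  rcases Nat.eq_zero_or_pos i with rfl | hi
  · rw [gen_mul_zero (by omega) (by omega)]
    exact P1 (pt_ne (by omega) (by omega) (by omega)) (pt_ne (by omega) (by omega) (by omega))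
      (pt_ne (by omega) (by omega) (by omega))
  · rw [gen_mul_pos hi (by omega) (by omega)]
    exact P1 (pt_ne (by omega) (by omega) (by omega)) (pt_ne (by omega) (by omega) (by omega))
      (pt_ne (by omega) (by omega) (by omega))

theorem genc {m i j : ℕ} (hij : i + 1 < j) (hjm : j < m) : (gen m i * gen m j) ^ 2 = 1 := by
  rcases Nat.eq_zero_or_pos i with rfl | hi
  · rw [gen_mul_zero (by omega) (by omega)]
    exact P2sq (nodup4 (by omega) (by omega) (by omega) (by omega) (by omega) (by omega)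
      (by omega) (by omega) (by omega) (by omega))
  · rw [gen_mul_pos hi (by omega) (by omega)]
    exact P2sq (nodup4 (by omega) (by omega) (by omega) (by omega) (by omega) (by omega)
      (by omega) (by omega) (by omega) (by omega))

theorem sign_gen {m i : ℕ} (him : i < m) : Equiv.Perm.sign (gen m i) = 1 := by
  rcases Nat.eq_zero_or_pos i with rfl | hi
  · rw [gen_zero, map_mul, Equiv.Perm.sign_swap (pt_ne (by omega) (by omega) (by omega)),
      Equiv.Perm.sign_swap (pt_ne (by omega) (by omega) (by omega))]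
    rfl
  · rw [gen_pos m hi, map_mul, Equiv.Perm.sign_swap (pt_ne (by omega) (by omega) (by omega)),
      Equiv.Perm.sign_swap (pt_ne (by omega) (by omega) (by omega))]
    rfl

/-- the map to the symmetric group -/
def psi (m : ℕ) (hm : 1 ≤ m) : PresentedGroup (rels m) →* Equiv.Perm (Fin (m+2)) :=
  PresentedGroup.toGroup (f := fun i : Fin m => gen m i.val)
    (lift_rels _ (fun i hi => by rw [hi]; exact gen3 hm) (fun i hi => gen2 hi i.isLt)
      (fun i j hij => by
        have := j.isLt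
        rw [hij]; exact genb (by omega))
      (fun i j hij => genc hij j.isLt))

theorem gen_zero_apply0 {m : ℕ} (hm : 1 ≤ m) : gen m 0 (pt m 0) = pt m 1 := by
  rw [gen_zero, Equiv.Perm.mul_apply,
    swap_apply_of_ne_of_ne (pt_ne (by omega) (by omega) (by omega))
      (pt_ne (by omega) (by omega) (by omega)), swap_apply_left]

theorem gen_zero_apply1 {m : ℕ} (hm : 1 ≤ m) : gen m 0 (pt m 1) = pt m 2 := by
  rw [gen_zero, Equiv.Perm.mul_apply, swap_apply_left,
    swap_apply_of_ne_of_ne (pt_ne (by omega) (by omega) (by omega))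
      (pt_ne (by omega) (by omega) (by omega))]

theorem gen_apply_top {m i : ℕ} (hi : 1 ≤ i) (him : i < m) :
    gen m i (pt m (i+2)) = pt m (i+1) := by
  rw [gen_pos m hi, Equiv.Perm.mul_apply, swap_apply_right,
    swap_apply_of_ne_of_ne (pt_ne (by omega) (by omega) (by omega))
      (pt_ne (by omega) (by omega) (by omega))]

theorem gen_apply_top' {m i : ℕ} (hi : 1 ≤ i) (him : i < m) :
    gen m i (pt m (i+1)) = pt m (i+2) := by
  rw [gen_pos m hi, Equiv.Perm.mul_apply, swap_apply_left,
    swap_apply_of_ne_of_ne (pt_ne (by omega) (by omega) (by omega))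
      (pt_ne (by omega) (by omega) (by omega))]

theorem gen_fix {m i j : ℕ} (hij : i < j) (hjm : j < m) :
    gen m i (pt m (j+2)) = pt m (j+2) := by
  have h2 : swap (pt m 0) (pt m 1) (pt m (j+2)) = pt m (j+2) :=
    swap_apply_of_ne_of_ne (pt_ne (by omega) (by omega) (by omega))
      (pt_ne (by omega) (by omega) (by omega))
  rcases Nat.eq_zero_or_pos i with rfl | hi
  · have h1 : swap (pt m 1) (pt m 2) (pt m (j+2)) = pt m (j+2) :=
      swap_apply_of_ne_of_ne (pt_ne (by omega) (by omega) (by omega))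
        (pt_ne (by omega) (by omega) (by omega))
    rw [gen_zero, Equiv.Perm.mul_apply, h1, h2]
  · have h1 : swap (pt m (i+1)) (pt m (i+2)) (pt m (j+2)) = pt m (j+2) :=
      swap_apply_of_ne_of_ne (pt_ne (by omega) (by omega) (by omega))
        (pt_ne (by omega) (by omega) (by omega))
    rw [gen_pos m hi, Equiv.Perm.mul_apply, h1, h2]

theorem count {α : Type*} [DecidableEq α] (K K' : Subgroup (Equiv.Perm α)) [Finite K']
    (hKK' : K ≤ K') (q : α)
    (hq : ∀ g ∈ K, g q = q) (r : ℕ) (f : Fin r → α) (hf : Function.Injective f)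
    (hS : ∀ x : Fin r, ∃ a ∈ K', a q = f x) : r * Nat.card K ≤ Nat.card K' := by
  choose a ha haq using hS
  let F : Fin r × K → K' := fun p => ⟨a p.1 * p.2.1, mul_mem (ha p.1) (hKK' p.2.2)⟩
  have hF : Function.Injective F := by
    rintro ⟨x, h⟩ ⟨x', h'⟩ e
    have e1 : a x * h.1 = a x' * h'.1 := congrArg Subtype.val e
    have e2 : f x = f x' := by
      have := congrArg (fun σ : Equiv.Perm α => σ q) e1
      simp only [Equiv.Perm.mul_apply, hq _ h.2, hq _ h'.2, haq] at this
      exact this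
    have e3 := hf e2
    subst e3
    have e4 : h.1 = h'.1 := mul_left_cancel e1
    exact Prod.ext rfl (Subtype.ext e4)
  have := Nat.card_le_card_of_injective F hF
  rwa [Nat.card_prod, Nat.card_fin] at this

/-- the chain of subgroups -/
def KK (m j : ℕ) : Subgroup (Equiv.Perm (Fin (m+2))) :=
  Subgroup.closure {g | ∃ i, i < j ∧ g = gen m i}

theorem KK_mono (m : ℕ) {j j' : ℕ} (h : j ≤ j') : KK m j ≤ KK m j' :=
  Subgroup.closure_mono (fun g ⟨i, hi, e⟩ => ⟨i, by omega, e⟩)

theorem gen_mem_KK (m : ℕ) {i j : ℕ} (h : i < j) : gen m i ∈ KK m j :=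
  Subgroup.subset_closure ⟨i, h, rfl⟩

theorem KK_fix (m : ℕ) {j : ℕ} (hjm : j < m) : ∀ g ∈ KK m j, g (pt m (j+2)) = pt m (j+2) := by
  have : KK m j ≤ MulAction.stabilizer (Equiv.Perm (Fin (m+2))) (pt m (j+2)) := by
    rw [KK, Subgroup.closure_le]
    rintro g ⟨i, hi, rfl⟩
    exact gen_fix hi hjm
  intro g hg
  exact this hg

theorem chain (m : ℕ) (j : ℕ) (hj : 1 ≤ j) (hjm : j ≤ m) :
    (∀ x, x ≤ j + 1 → ∃ g ∈ KK m j, g (pt m 0) = pt m x) ∧
    (j+2).factorial ≤ 2 * Nat.card (KK m j) := by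
  induction j, hj using Nat.le_induction with
  | base =>
    have ha : ∀ x, x ≤ 1 + 1 → ∃ g ∈ KK m 1, g (pt m 0) = pt m x := by
      intro x hx
      have h0 : gen m 0 ∈ KK m 1 := gen_mem_KK m (by omega)
      rcases Nat.lt_or_ge x 1 with h | h
      · have : x = 0 := by omega
        subst this
        exact ⟨1, one_mem _, rfl⟩
      rcases Nat.lt_or_ge x 2 with h' | h'
      · have : x = 1 := by omega
        subst this
        exact ⟨gen m 0, h0, gen_zero_apply0 hjm⟩
      · have : x = 2 := by omega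
        subst this
        exact ⟨gen m 0 * gen m 0, mul_mem h0 h0, by
          rw [Equiv.Perm.mul_apply, gen_zero_apply0 hjm, gen_zero_apply1 hjm]⟩
    refine ⟨ha, ?_⟩
    have := count (⊥ : Subgroup (Equiv.Perm (Fin (m+2)))) (KK m 1) bot_le (pt m 0)
      (fun g hg => by rw [Subgroup.mem_bot.1 hg]; rfl) 3 (fun x => pt m x.val)
      (fun x x' e => by
        by_contra hne
        exact pt_ne (by omega) (by omega) (fun h => hne (Fin.ext h)) e)
      (fun x => ha x.val (by omega))
    rw [Subgroup.card_bot] at this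
    have h6 : (1 + 2).factorial = 6 := by decide
    rw [h6]; omega
  | succ j hj ih =>
    obtain ⟨iha, ihb⟩ := ih (by omega)
    have hle : KK m j ≤ KK m (j+1) := KK_mono m (by omega)
    have hgj : gen m j ∈ KK m (j+1) := gen_mem_KK m (by omega)
    obtain ⟨g0, hg0, hg0e⟩ := iha (j+1) le_rfl
    have ha : ∀ x, x ≤ j + 1 + 1 → ∃ g ∈ KK m (j+1), g (pt m 0) = pt m x := by
      intro x hx
      rcases Nat.lt_or_ge x (j+2) with h | h
      · obtain ⟨g, hg, e⟩ := iha x (by omega)
        exact ⟨g, hle hg, e⟩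
      · have : x = j + 2 := by omega
        subst this
        exact ⟨gen m j * g0, mul_mem hgj (hle hg0), by
          rw [Equiv.Perm.mul_apply, hg0e, gen_apply_top' hj (by omega)]⟩
    refine ⟨ha, ?_⟩
    have hS : ∀ x : Fin (j+3), ∃ a ∈ KK m (j+1), a (pt m (j+2)) = pt m x.val := by
      intro x
      rcases Nat.lt_or_ge x.val (j+2) with h | h
      · obtain ⟨g, hg, e⟩ := iha x.val (by omega)
        refine ⟨g * g0⁻¹ * gen m j, mul_mem (mul_mem (hle hg) (inv_mem (hle hg0))) hgj, ?_⟩
        rw [Equiv.Perm.mul_apply, Equiv.Perm.mul_apply, gen_apply_top hj (by omega),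
          ← hg0e, Equiv.Perm.inv_def, Equiv.symm_apply_apply, e]
      · have : x.val = j + 2 := by omega
        exact ⟨1, one_mem _, by rw [this]; rfl⟩
    have := count (KK m j) (KK m (j+1)) hle (pt m (j+2)) (KK_fix m (by omega)) (j+3)
      (fun x => pt m x.val)
      (fun x x' e => by
        by_contra hne
        exact pt_ne (by omega) (by omega) (fun h => hne (Fin.ext h)) e)
      hS
    calc (j+1+2).factorial = (j+3) * (j+2).factorial := Nat.factorial_succ (j+2)
      _ ≤ (j+3) * (2 * Nat.card (KK m j)) := Nat.mul_le_mul_left _ ihb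
      _ = 2 * ((j+3) * Nat.card (KK m j)) := by ring
      _ ≤ 2 * Nat.card (KK m (j+1)) := Nat.mul_le_mul_left _ this

theorem main (m : ℕ) (hm : 1 ≤ m) :
    Nonempty (PresentedGroup (rels m) ≃* alternatingGroup (Fin (m+2))) := by
  obtain ⟨hfin, hcard⟩ := upper m
  obtain ⟨-, hK⟩ := chain m m hm le_rfl
  have hKle : KK m m ≤ (psi m hm).range := by
    rw [KK, Subgroup.closure_le]
    rintro g ⟨i, hi, rfl⟩
    exact ⟨PresentedGroup.of ⟨i, hi⟩, by rw [psi, PresentedGroup.toGroup.of]⟩
  have hRle : (psi m hm).range ≤ alternatingGroup (Fin (m+2)) := by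
    rintro _ ⟨x, rfl⟩
    rw [Equiv.Perm.mem_alternatingGroup]
    have : x ∈ (Equiv.Perm.sign.comp (psi m hm)).ker :=
      PresentedGroup.generated_by _ _ (fun j => by
        rw [MonoidHom.mem_ker, MonoidHom.comp_apply, psi, PresentedGroup.toGroup.of]
        exact sign_gen j.isLt) x
    exact this
  have hA : Nat.card (alternatingGroup (Fin (m+2))) * 2 = (m+2).factorial := by
    have := two_mul_card_alternatingGroup (α := Fin (m+2))
    rw [Fintype.card_perm, Fintype.card_fin] at this
    rw [Nat.card_eq_fintype_card, mul_comm]; exact this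
  have h1 : Nat.card (KK m m) ≤ Nat.card (psi m hm).range := Subgroup.card_le_of_le hKle
  have h2 : Nat.card (psi m hm).range ≤ Nat.card (PresentedGroup (rels m)) :=
    Nat.le_of_dvd Nat.card_pos (Subgroup.card_range_dvd _)
  have h3 : Nat.card (psi m hm).range = Nat.card (PresentedGroup (rels m)) := by omega
  have h4 : Nat.card (alternatingGroup (Fin (m+2))) ≤ Nat.card (psi m hm).range := by omega
  have hRe : (psi m hm).range = alternatingGroup (Fin (m+2)) :=
    Subgroup.eq_of_le_of_card_ge hRle h4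
  have hinj : Function.Injective (psi m hm) := by
    have hb : Function.Bijective (psi m hm).rangeRestrict :=
      (Nat.bijective_iff_surjective_and_card _).2
        ⟨(psi m hm).rangeRestrict_surjective, h3.symm⟩
    intro a b hab
    exact hb.1 (Subtype.ext hab)
  exact ⟨(MonoidHom.ofInjective hinj).trans (MulEquiv.subgroupCongr hRe)⟩

end perm

/-- A presentation of the alternating group of degree n ≥ 3 on generators x_1, …, x_{n−2} (indexed here by 0, …, n−3): the first generator cubes to 1, every other generator squares to 1, the product of two consecutive generators has order dividing 3, and the product of two generators at distance at least 2 has order dividing 2. The group so presented is isomorphic to the alternating group of degree n. -/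
theorem result (n : ℕ) (hn : 3 ≤ n) :
    Nonempty (PresentedGroup
      ({g : FreeGroup (Fin (n - 2)) | ∃ i : Fin (n - 2), i.val = 0 ∧ g = FreeGroup.of i ^ 3} ∪
       {g | ∃ i : Fin (n - 2), 1 ≤ i.val ∧ g = FreeGroup.of i ^ 2} ∪
       {g | ∃ i j : Fin (n - 2), j.val = i.val + 1 ∧ g = (FreeGroup.of i * FreeGroup.of j) ^ 3} ∪
       {g | ∃ i j : Fin (n - 2), i.val + 1 < j.val ∧ g = (FreeGroup.of i * FreeGroup.of j) ^ 2})
      ≃* alternatingGroup (Fin n)) := by
  obtain ⟨m, rfl⟩ : ∃ m, n = m + 3 := ⟨n - 3, by omega⟩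
  exact main (m+1) (by omega)

end Cfsg.Agent.S3335
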