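import Cfsg.Statements.S3349
import Mathlib

set_option autoImplicit false
open Cfsg

namespace Cfsg.Agent.S3349

theorem centralizer_le_of_max {Q : Type*} [Group Q] (A : Subgroup Q) (hA : IsMulCommutative A)
    (hmax : ∀ B : Subgroup Q, A ≤ B → IsMulCommutative B → B = A) (x : Q)
    (hx : ∀ a ∈ A, a * x = x * a) : x ∈ A := by
  let S : Set Q := insert x (A : Set Q)
  have hS : ∀ u ∈ S, ∀ v ∈ S, u * v = v * u := by
    intro u hu v hv
    rcases hu with rfl | hu <;> rcases hv with rfl | hv
    · rfl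
    · exact (hx v hv).symm
    · exact hx u hu
    · exact setLike_mul_comm hu hv
  let B : Subgroup Q := Subgroup.centralizer (Subgroup.centralizer S : Set Q)
  have hSB : S ⊆ B := by
    intro u hu
    rw [SetLike.mem_coe, Subgroup.mem_centralizer_iff]
    intro g hg
    rw [SetLike.mem_coe, Subgroup.mem_centralizer_iff] at hg
    exact (hg u hu).symm
  have hBC : ∀ u ∈ B, u ∈ Subgroup.centralizer S := by
    intro u hu
    rw [Subgroup.mem_centralizer_iff]
    intro s hs
    have hs' : s ∈ Subgroup.centralizer S := by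
      rw [Subgroup.mem_centralizer_iff]
      intro t ht
      exact hS t ht s hs
    rw [Subgroup.mem_centralizer_iff] at hu
    exact hu s hs'
  have hB : IsMulCommutative B := ⟨⟨fun u v => Subtype.ext (by
    have h1 := u.2
    rw [Subgroup.mem_centralizer_iff] at h1
    exact (h1 v (hBC v v.2)).symm)⟩⟩
  have h := hmax B (fun a ha => hSB (Set.mem_insert_of_mem _ ha)) hB
  rw [← h]
  exact hSB (Set.mem_insert _ _)

/-- Let Q be a finite extraspecial p-group and α an automorphism of Q fixing every element of some maximal abelian subgroup of Q. Then the order of α is a power of p. -/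
theorem result {Q : Type*} [Group Q] [Finite Q]
    (p : ℕ) [Fact p.Prime] (hQ : Cfsg.IsExtraspecial p Q) (α : MulAut Q)
    (A : Subgroup Q) (hA : IsMulCommutative A) (hmax : ∀ B : Subgroup Q, A ≤ B → IsMulCommutative B → B = A)
    (hfix : ∀ a ∈ A, α a = a) :
    ∃ k : ℕ, orderOf α = p ^ k := by
  obtain ⟨⟨hp, hfrat, hcomm⟩, hcard⟩ := hQ
  have hCA : ∀ x : Q, (∀ a ∈ A, a * x = x * a) → x ∈ A := centralizer_le_of_max A hA hmax
  have hZA : Subgroup.center Q ≤ A := fun z hz =>
    hCA z (fun a _ => (Subgroup.mem_center_iff.1 hz a))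
  have hnorm : ∀ x : Q, ∀ a ∈ A, x * a * x⁻¹ ∈ A := by
    intro x a ha
    have h1 : x * a * x⁻¹ * a⁻¹ ∈ commutator Q :=
      Subgroup.commutator_mem_commutator (Subgroup.mem_top x) (Subgroup.mem_top a)
    rw [hcomm] at h1
    have h2 := A.mul_mem (hZA h1) ha
    simpa using h2
  have hc : ∀ x : Q, x⁻¹ * α x ∈ A := by
    intro x
    apply hCA
    intro a ha
    have h1 := hfix _ (hnorm x a ha)
    rw [map_mul, map_mul, map_inv, hfix a ha] at h1
    calc a * (x⁻¹ * α x) = x⁻¹ * (x * a * x⁻¹) * α x := by group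
      _ = x⁻¹ * (α x * a * (α x)⁻¹) * α x := by rw [h1]
      _ = x⁻¹ * α x * a := by group
  have hpow : ∀ n : ℕ, ∀ x : Q, (α ^ n) x = x * (x⁻¹ * α x) ^ n := by
    intro n
    induction n with
    | zero => intro x; simp
    | succ n ih =>
      intro x
      rw [pow_succ', MulAut.mul_apply, ih, map_mul, map_pow, hfix _ (hc x), pow_succ',
        ← mul_assoc x, mul_inv_cancel_left]
  have hone : α ^ Nat.card Q = 1 := by
    ext x
    rw [hpow, pow_card_eq_one']
    simp
  obtain ⟨n, hn⟩ := hp.exists_card_eq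
  have hdvd := orderOf_dvd_of_pow_eq_one hone
  rw [hn] at hdvd
  obtain ⟨k, _, hk⟩ := (Nat.dvd_prime_pow (Fact.out)).1 hdvd
  exact ⟨k, hk⟩

end Cfsg.Agent.S3349
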