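import Cfsg.Statements.S3370
import Mathlib
import Cfsg.Agent.S3224
import Cfsg.Agent.Lib.Helper18.UniqueInvolution

set_option autoImplicit false
open Cfsg

namespace Cfsg.Agent.S3370


theorem two_pow_zero_of_le (a k : ℕ) (h : a + 1 ≤ k) : (2 : ZMod (2 ^ (a + 1))) ^ k = 0 := by
  obtain ⟨d, rfl⟩ := Nat.exists_eq_add_of_le h
  have h0 : ((2 ^ (a + 1) : ℕ) : ZMod (2 ^ (a + 1))) = 0 := ZMod.natCast_self _
  push_cast at h0
  rw [pow_add (2 : ZMod (2 ^ (a + 1))) (a + 1) d, h0, zero_mul]

theorem two_pow_ne_zero' (a : ℕ) : (2 : ZMod (2 ^ (a + 1))) ^ a ≠ 0 := by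
  intro h
  have h0 : ((2 ^ a : ℕ) : ZMod (2 ^ (a + 1))) = 0 := by push_cast; exact h
  rw [ZMod.natCast_eq_zero_iff] at h0
  have := (Nat.pow_dvd_pow_iff_le_right (by norm_num : 1 < 2)).1 h0
  omega

/-- if `2 ^ n = p ^ k + 1` with `p` odd and `k ≥ 1`, then `k = 1`. -/
theorem nt_mersenne (p n k : ℕ) (hp : Odd p) (hp1 : 1 < p) (hk : 1 ≤ k)
    (h : 2 ^ n = p ^ k + 1) : k = 1 := by
  rcases Nat.even_or_odd k with hke | hko
  · exfalso
    obtain ⟨j, rfl⟩ := hke
    have h4 : (p ^ (j + j)) % 4 = 1 := by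
      have : p ^ (j + j) = (p ^ j) ^ 2 := by rw [← pow_mul, mul_two]
      rw [this]
      obtain ⟨c, hc⟩ := hp.pow (n := j)
      rw [hc]
      have h' : (2 * c + 1) ^ 2 = 4 * (c * c + c) + 1 := by ring
      rw [h', Nat.mul_add_mod]
    have h4' : (2 ^ n) % 4 = 2 := by rw [h]; omega
    have hn : n < 2 := by
      by_contra hn
      push Not at hn
      have : (4 : ℕ) ∣ 2 ^ n := by
        have := pow_dvd_pow 2 hn
        simpa using this
      omega
    have h2 : 2 ^ n ≤ 2 ^ 1 := Nat.pow_le_pow_right (by norm_num) (by omega)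
    have hpk : p ≤ p ^ (j + j) := by
      calc p = p ^ 1 := (pow_one p).symm
        _ ≤ p ^ (j + j) := Nat.pow_le_pow_right (by omega) hk
    omega
  · obtain ⟨j, rfl⟩ := hko
    have hd : p + 1 ∣ 2 ^ n := by
      have := Odd.nat_add_dvd_pow_add_pow p 1 (⟨j, rfl⟩ : Odd (2 * j + 1))
      rw [one_pow, ← h] at this
      exact this
    obtain ⟨a, han, ha⟩ := (Nat.dvd_prime_pow Nat.prime_two).1 hd
    have ha1 : 1 ≤ a := by
      by_contra hcon
      have : a = 0 := by omega
      rw [this] at ha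
      simp at ha
      omega
    obtain ⟨b, rfl⟩ := Nat.exists_eq_add_of_le ha1
    have hN : (2 : ZMod (2 ^ (1 + b + 1))) ^ (1 + b + 1) = 0 := two_pow_zero_of_le _ _ le_rfl
    have hp' : (p : ZMod (2 ^ (1 + b + 1))) = 2 ^ (1 + b) - 1 := by
      have := congrArg (Nat.cast : ℕ → ZMod (2 ^ (1 + b + 1))) ha
      push_cast at this
      rw [← this]; ring
    have hp2 : (p : ZMod (2 ^ (1 + b + 1))) ^ 2 = 1 := by
      rw [hp']
      calc ((2 : ZMod (2 ^ (1 + b + 1))) ^ (1 + b) - 1) ^ 2
          = 2 ^ (1 + b + 1) * 2 ^ b - 2 ^ (1 + b + 1) + 1 := by ring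
        _ = 1 := by rw [hN]; ring
    have hpk : (p : ZMod (2 ^ (1 + b + 1))) ^ (2 * j + 1) = p := by
      rw [pow_succ (p : ZMod (2 ^ (1 + b + 1))) (2 * j), pow_mul (p : ZMod (2 ^ (1 + b + 1))) 2 j,
        hp2, one_pow, one_mul]
    have h' : (2 : ZMod (2 ^ (1 + b + 1))) ^ n = 2 ^ (1 + b) := by
      have := congrArg (Nat.cast : ℕ → ZMod (2 ^ (1 + b + 1))) h
      push_cast at this
      rw [this, hpk, hp']; ring
    have hna : n ≤ 1 + b := by
      by_contra hcon
      push Not at hcon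
      have h0 := two_pow_zero_of_le (1 + b) n hcon
      rw [h'] at h0
      exact two_pow_ne_zero' (1 + b) h0
    have hna' : n = 1 + b := le_antisymm hna han
    rw [hna', ← ha] at h
    have h1 : p ^ (2 * j + 1) = p ^ 1 := by rw [pow_one]; omega
    exact Nat.pow_right_injective hp1 h1

/-- if `q ^ n = 2 ^ k + 1` with `q` odd and `n ≥ 2`, then `q = 3`, `n = 2`, `k = 3`. -/
theorem nt_catalan (q n k : ℕ) (hq : Odd q) (hq1 : 1 < q) (hn : 2 ≤ n)
    (h : q ^ n = 2 ^ k + 1) : q = 3 ∧ n = 2 ∧ k = 3 := by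
  have hq3 : 3 ≤ q := by
    obtain ⟨c, rfl⟩ := hq
    omega
  rcases Nat.even_or_odd n with hne | hno
  · obtain ⟨j, rfl⟩ := hne
    have hj : 1 ≤ j := by omega
    have hA : 3 ≤ q ^ j := by
      calc 3 ≤ q := hq3
        _ = q ^ 1 := (pow_one q).symm
        _ ≤ q ^ j := Nat.pow_le_pow_right (by omega) hj
    obtain ⟨B, hB⟩ : ∃ B, q ^ j = B + 1 := ⟨q ^ j - 1, by omega⟩
    have hBB : B * (B + 2) = 2 ^ k := by
      have : q ^ (j + j) = (B + 1) * (B + 1) := by rw [pow_add, hB]
      rw [this] at h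
      have : (B + 1) * (B + 1) = B * (B + 2) + 1 := by ring
      omega
    obtain ⟨a, hak, ha⟩ := (Nat.dvd_prime_pow Nat.prime_two).1 (Dvd.intro _ hBB)
    obtain ⟨b, hbk, hb⟩ := (Nat.dvd_prime_pow Nat.prime_two).1 (Dvd.intro_left _ hBB)
    have ha2 : a < 2 := by
      by_contra hcon
      push Not at hcon
      have h4a : (4 : ℕ) ∣ 2 ^ a := by
        have := pow_dvd_pow 2 hcon
        simpa using this
      have hab : a < b := by
        by_contra hc
        push Not at hc
        have := Nat.pow_le_pow_right (by norm_num : 0 < 2) hc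
        omega
      have h4b : (4 : ℕ) ∣ 2 ^ b := by
        have := pow_dvd_pow 2 (show 2 ≤ b by omega)
        simpa using this
      omega
    have hB2 : B = 2 := by
      interval_cases a
      · simp at ha; omega
      · simpa using ha
    subst hB2
    have hj1 : j = 1 := by
      by_contra hcon
      have hj2 : 2 ≤ j := by omega
      have : q ^ 2 ≤ q ^ j := Nat.pow_le_pow_right (by omega) hj2
      nlinarith
    subst hj1
    rw [pow_one] at hB
    refine ⟨by omega, rfl, ?_⟩
    have h8 : 2 ^ k = 2 ^ 3 := by rw [← hBB]; norm_num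
    exact Nat.pow_right_injective (le_refl 2) h8
  · exfalso
    obtain ⟨j, rfl⟩ := hno
    have hd : q - 1 ∣ 2 ^ k := by
      have := Nat.sub_one_dvd_pow_sub_one (x := q) (n := 2 * j + 1)
      rw [h] at this
      simpa using this
    obtain ⟨a, hak, ha⟩ := (Nat.dvd_prime_pow Nat.prime_two).1 hd
    have ha1 : 1 ≤ a := by
      by_contra hcon
      have : a = 0 := by omega
      rw [this] at ha
      simp at ha
      omega
    obtain ⟨b, rfl⟩ := Nat.exists_eq_add_of_le ha1
    have hqa : q = 2 ^ (1 + b) + 1 := by omega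
    have hN : (2 : ZMod (2 ^ (1 + b + 1))) ^ (1 + b + 1) = 0 := two_pow_zero_of_le _ _ le_rfl
    have hq' : (q : ZMod (2 ^ (1 + b + 1))) = 2 ^ (1 + b) + 1 := by
      have := congrArg (Nat.cast : ℕ → ZMod (2 ^ (1 + b + 1))) hqa
      push_cast at this
      exact this
    have hq2 : (q : ZMod (2 ^ (1 + b + 1))) ^ 2 = 1 := by
      rw [hq']
      calc ((2 : ZMod (2 ^ (1 + b + 1))) ^ (1 + b) + 1) ^ 2
          = 2 ^ (1 + b + 1) * 2 ^ b + 2 ^ (1 + b + 1) + 1 := by ring
        _ = 1 := by rw [hN]; ring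
    have hqk : (q : ZMod (2 ^ (1 + b + 1))) ^ (2 * j + 1) = q := by
      rw [pow_succ (q : ZMod (2 ^ (1 + b + 1))) (2 * j), pow_mul (q : ZMod (2 ^ (1 + b + 1))) 2 j,
        hq2, one_pow, one_mul]
    have h' : (2 : ZMod (2 ^ (1 + b + 1))) ^ k = 2 ^ (1 + b) := by
      have := congrArg (Nat.cast : ℕ → ZMod (2 ^ (1 + b + 1))) h
      push_cast at this
      rw [hqk, hq'] at this
      have h2 := this.symm
      linear_combination h2
    have hka : k ≤ 1 + b := by
      by_contra hcon
      push Not at hcon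
      have h0 := two_pow_zero_of_le (1 + b) k hcon
      rw [h'] at h0
      exact two_pow_ne_zero' (1 + b) h0
    have hka' : k = 1 + b := le_antisymm hka hak
    rw [hka', ← hqa] at h
    have h1 : q ^ (2 * j + 1) = q ^ 1 := by rw [pow_one]; exact h
    have := Nat.pow_right_injective hq1 h1
    omega

theorem nt_main (q p n k : ℕ) (hq : q.Prime) (hp : p.Prime) (hn : 1 ≤ n)
    (h : q ^ n = p ^ k + 1) :
    (k = 0 ∧ q = 2 ∧ n = 1) ∨ (q = 2 ∧ k = 1) ∨ (p = 2 ∧ n = 1) ∨
      (p = 2 ∧ q = 3 ∧ n = 2 ∧ k = 3) := by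
  by_cases hk : k = 0
  · subst hk
    left
    rw [pow_zero] at h
    have hq2 : q = 2 := by
      have : q ∣ 2 := by
        have h1 : q ∣ q ^ n := dvd_pow_self q (by omega)
        rw [h] at h1
        exact h1
      exact (Nat.prime_dvd_prime_iff_eq hq Nat.prime_two).1 this
    subst hq2
    refine ⟨rfl, rfl, ?_⟩
    have : 2 ^ n = 2 ^ 1 := by rw [h]; norm_num
    exact Nat.pow_right_injective (le_refl 2) this
  have hk1 : 1 ≤ k := by omega
  by_cases hq2 : q = 2
  · subst hq2
    right; left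
    refine ⟨rfl, ?_⟩
    rcases hp.eq_two_or_odd' with hp2 | hpo
    · exfalso
      subst hp2
      have h1 : (2 : ℕ) ∣ 2 ^ n := dvd_pow_self 2 (by omega)
      have h2 : (2 : ℕ) ∣ 2 ^ k := dvd_pow_self 2 (by omega)
      omega
    · exact nt_mersenne p n k hpo hp.one_lt hk1 h
  right; right
  have hqo : Odd q := hq.eq_two_or_odd'.resolve_left hq2
  have hp2 : p = 2 := by
    rcases hp.eq_two_or_odd' with hp2 | hpo
    · exact hp2
    · exfalso
      have h1 : Odd (q ^ n) := hqo.pow
      have h2 : Odd (p ^ k) := hpo.pow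
      rw [h] at h1
      have := h2.add_odd odd_one
      exact (Nat.not_even_iff_odd.2 h1) this
  subst hp2
  by_cases hn1 : n = 1
  · left; exact ⟨rfl, hn1⟩
  · right
    have := nt_catalan q n k hqo hq.one_lt (by omega) h
    exact ⟨rfl, this⟩


section act
variable {q : ℕ} [Fact q.Prime] {V : Type*} [AddCommGroup V] [Module (ZMod q) V] [Finite V]
  {G : Type*} [Group G] [Finite G] (ρ : G →* (V ≃ₗ[ZMod q] V))

theorem rho_mul (g h : G) (v : V) : ρ (g * h) v = ρ g (ρ h v) := by rw [map_mul]; rfl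

theorem rho_one (v : V) : ρ 1 v = v := by rw [map_one]; rfl

theorem rho_ne_zero (g : G) (v : V) (hv : v ≠ 0) : ρ g v ≠ 0 := by
  intro h
  apply hv
  exact (ρ g).injective (h.trans (map_zero (ρ g)).symm)

theorem rho_ext (hρ : Function.Injective ρ) (g h : G) (H : ∀ v, ρ g v = ρ h v) : g = h :=
  hρ (LinearEquiv.ext H)

/-- orbit-stabilizer for the transitive action on nonzero vectors -/
theorem orbit_stab (v : V) (hv : v ≠ 0) (htrans : ∀ w : V, w ≠ 0 → ∃ g : G, ρ g v = w) :
    ∃ S : Subgroup G, (∀ g, g ∈ S ↔ ρ g v = v) ∧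
      (Nat.card V - 1) * Nat.card S = Nat.card G := by
  letI : MulAction G V := MulAction.compHom V ρ
  refine ⟨MulAction.stabilizer G v, fun g => MulAction.mem_stabilizer_iff, ?_⟩
  have h1 := MulAction.index_stabilizer (G := G) (x := v)
  have h2 : MulAction.orbit G v = {0}ᶜ := by
    ext w
    constructor
    · rintro ⟨g, rfl⟩
      exact rho_ne_zero ρ g v hv
    · intro hw
      obtain ⟨g, hg⟩ := htrans w hw
      exact ⟨g, hg⟩
  rw [h2, Set.ncard_compl, Set.ncard_singleton] at h1
  rw [← h1]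
  exact Subgroup.index_mul_card _

theorem case_card_two [Nontrivial G] (hρ : Function.Injective ρ) (hV : Nat.card V = 2) :
    False := by
  obtain ⟨g, hg⟩ := exists_ne (1 : G)
  apply hg
  apply rho_ext ρ hρ
  intro v
  rw [rho_one]
  by_cases hv : v = 0
  · rw [hv, map_zero]
  · obtain ⟨y, _, hy⟩ := (Nat.card_eq_two_iff' (0 : V)).1 hV
    exact (hy _ (rho_ne_zero ρ g v hv)).trans (hy v hv).symm

theorem case_two [Nontrivial G] (hρ : Function.Injective ρ) (p : ℕ) [hp : Fact p.Prime]
    (hG : IsPGroup p G) (hV : Nat.card V = p + 1) : Nat.card G = p := by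
  letI : MulAction G V := MulAction.compHom V ρ
  have hinj : Function.Injective (MulAction.toPermHom G V) := by
    intro g h hgh
    apply hρ
    apply LinearEquiv.ext
    intro v
    exact congrArg (fun σ : Equiv.Perm V => σ v) hgh
  have hdvd := Subgroup.card_dvd_of_injective _ hinj
  rw [Nat.card_perm, hV] at hdvd
  obtain ⟨j, hj⟩ := IsPGroup.iff_card.1 hG
  have hj1 : j ≠ 0 := by
    rintro rfl
    rw [pow_zero] at hj
    exact (Finite.one_lt_card (α := G)).ne' hj
  have hj2 : j < 2 := by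
    by_contra hcon
    push Not at hcon
    have h2 : p ^ 2 ∣ (p + 1).factorial := (pow_dvd_pow p hcon).trans (hj ▸ hdvd)
    obtain ⟨p', rfl⟩ : ∃ p', p = p' + 1 := ⟨p - 1, by have := hp.out.pos; omega⟩
    rw [Nat.factorial_succ, Nat.factorial_succ, pow_two] at h2
    have h3 : (p' + 1) ∣ (p' + 1 + 1) * p'.factorial := by
      have : (p' + 1 + 1) * ((p' + 1) * p'.factorial) =
          (p' + 1) * ((p' + 1 + 1) * p'.factorial) := by ring
      rw [this] at h2
      exact Nat.dvd_of_mul_dvd_mul_left (by omega) h2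
    rcases (Nat.Prime.dvd_mul hp.out).1 h3 with h | h
    · have h1 : p' + 1 ∣ 1 := (Nat.dvd_add_right (dvd_refl _)).1 h
      have := Nat.le_of_dvd one_pos h1
      have := hp.out.two_le
      omega
    · have := (Nat.Prime.dvd_factorial hp.out).1 h
      omega
  have : j = 1 := by omega
  rw [hj, this, pow_one]

theorem case_dim_one (hρ : Function.Injective ρ) (hV : Nat.card V = q) (v0 : V) (hv0 : v0 ≠ 0)
    (S : Subgroup G) (hS : ∀ g, g ∈ S ↔ ρ g v0 = v0) : IsCyclic G ∧ Nat.card S = 1 := by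
  have hinj : Function.Injective (fun c : ZMod q => c • v0) := by
    intro a b hab
    have h1 : (a - b) • v0 = 0 := by rw [sub_smul]; exact sub_eq_zero.2 hab
    rcases smul_eq_zero.1 h1 with h | h
    · exact sub_eq_zero.1 h
    · exact absurd h hv0
  have hbij : Function.Bijective (fun c : ZMod q => c • v0) := by
    apply Function.Injective.bijective_of_nat_card_le hinj
    rw [hV, Nat.card_zmod]
  have hsurj : ∀ v : V, ∃ c : ZMod q, c • v0 = v := hbij.2
  choose f hf using fun g : G => hsurj (ρ g v0)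
  have hfix : ∀ g h : G, ρ g v0 = ρ h v0 → g = h := by
    intro g h hgh
    apply rho_ext ρ hρ
    intro v
    obtain ⟨c, rfl⟩ := hsurj v
    rw [map_smul, map_smul, hgh]
  have hf1 : f 1 = 1 := by
    apply hinj
    show f 1 • v0 = (1 : ZMod q) • v0
    rw [hf, rho_one, one_smul]
  have hfm : ∀ g h : G, f (g * h) = f g * f h := by
    intro g h
    apply hinj
    show f (g * h) • v0 = (f g * f h) • v0
    rw [hf, rho_mul, ← hf h, map_smul, ← hf g, smul_smul, mul_comm]
  let F : G →* ZMod q := { toFun := f, map_one' := hf1, map_mul' := hfm }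
  have hFinj : Function.Injective F := by
    intro g h hgh
    apply hfix
    rw [← hf g, ← hf h]
    have : f g = f h := hgh
    rw [this]
  refine ⟨isCyclic_of_injective_ringHom F hFinj, ?_⟩
  have hSbot : S = ⊥ := by
    rw [Subgroup.eq_bot_iff_forall]
    intro g hg
    apply hfix
    rw [(hS g).1 hg, rho_one]
  rw [hSbot, Subgroup.card_bot]

end act



section nine
variable {V : Type*} [AddCommGroup V] [Module (ZMod 3) V] [Finite V]
  {G : Type*} [Group G] [Finite G] (ρ : G →* (V ≃ₗ[ZMod 3] V))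

theorem mat_fact : ∀ X Y : Matrix (Fin 2) (Fin 2) (ZMod 3),
    X * X = 1 → Y * Y = 1 → (X * Y) ^ 8 = 1 → (X * Y) ^ 4 = 1 := by
  decide +kernel

theorem exists_mat (hρ : Function.Injective ρ) (hV : Nat.card V = 9) :
    ∃ M : G →* Matrix (Fin 2) (Fin 2) (ZMod 3), Function.Injective M := by
  have hfin : Module.finrank (ZMod 3) V = 2 := by
    have h := Module.natCard_eq_pow_finrank (K := ZMod 3) (V := V)
    rw [Nat.card_zmod, hV] at h
    have h' : (3 : ℕ) ^ 2 = 3 ^ Module.finrank (ZMod 3) V := by rw [← h]; norm_num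
    exact (Nat.pow_right_injective (by norm_num : 2 ≤ 3) h').symm
  let b := Module.finBasisOfFinrankEq (ZMod 3) V hfin
  let A := LinearMap.toMatrixAlgEquiv b
  refine ⟨{ toFun := fun g => A (ρ g : V →ₗ[ZMod 3] V), map_one' := ?_, map_mul' := ?_ }, ?_⟩
  · rw [map_one]; exact map_one A
  · intro g h; rw [map_mul]; exact map_mul A _ _
  · intro g h hgh
    have h1 : (ρ g : V →ₗ[ZMod 3] V) = ρ h := A.injective hgh
    apply hρ
    exact LinearEquiv.toLinearMap_injective h1

theorem card_dvd (hρ : Function.Injective ρ) (hV : Nat.card V = 9) : Nat.card G ∣ 48 := by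
  obtain ⟨M, hM⟩ := exists_mat ρ hρ hV
  have hinj : Function.Injective M.toHomUnits := by
    intro g h hgh
    apply hM
    exact congrArg Units.val hgh
  have hdvd := Subgroup.card_dvd_of_injective _ hinj
  have hc : Nat.card (Matrix (Fin 2) (Fin 2) (ZMod 3))ˣ = 48 := by
    have := Matrix.card_GL_field (𝔽 := ZMod 3) 2
    simpa [Fin.prod_univ_two] using this
  rwa [hc] at hdvd

theorem no_dihedral (hρ : Function.Injective ρ) (hV : Nat.card V = 9) (x y : G)
    (hx : x * x = 1) (hy : y * y = 1) (hxy : (x * y) ^ 8 = 1) : (x * y) ^ 4 = 1 := by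
  obtain ⟨M, hM⟩ := exists_mat ρ hρ hV
  apply hM
  rw [map_pow, map_mul, map_one]
  apply mat_fact
  · rw [← map_mul, hx, map_one]
  · rw [← map_mul, hy, map_one]
  · rw [← map_mul, ← map_pow, hxy, map_one]

/-- an involution without nonzero fixed vectors is `-1` -/
theorem neg_of_fpf (z : G) (hz : z * z = 1) (hfpf : ∀ v, ρ z v = v → v = 0) (v : V) :
    ρ z v = -v := by
  have h1 : ρ z (ρ z v + v) = ρ z v + v := by
    rw [map_add, ← rho_mul, hz, rho_one, add_comm]
  exact eq_neg_of_add_eq_zero_left (hfpf _ h1)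

theorem central_fix (hρ : Function.Injective ρ)
    (htrans : ∀ v w : V, v ≠ 0 → w ≠ 0 → ∃ g : G, ρ g v = w) (z : G)
    (hz : ∀ g, g * z = z * g) (w : V) (hw : w ≠ 0) (hzw : ρ z w = w) : z = 1 := by
  apply rho_ext ρ hρ
  intro v
  rw [rho_one]
  by_cases hv : v = 0
  · rw [hv, map_zero]
  · obtain ⟨g, rfl⟩ := htrans w v hw hv
    rw [← rho_mul, ← hz, rho_mul, hzw]

/-- the fixed space of a nontrivial element fixing `v0` is `{0, v0, -v0}`. -/
theorem fix_small (hρ : Function.Injective ρ) (hV : Nat.card V = 9) (t : G) (ht : t ≠ 1)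
    (v0 : V) (hv0 : v0 ≠ 0) (htv : ρ t v0 = v0) (w : V) (hw : ρ t w = w) :
    w = 0 ∨ w = v0 ∨ w = -v0 := by
  by_contra hcon
  push Not at hcon
  obtain ⟨hw0, hw1, hw2⟩ := hcon
  have h3 : ∀ c : ZMod 3, c = 0 ∨ c = 1 ∨ c = -1 := by decide
  have hindep : ∀ c : ZMod 3, w ≠ c • v0 := by
    intro c
    rcases h3 c with rfl | rfl | rfl
    · rw [zero_smul]; exact hw0
    · rw [one_smul]; exact hw1
    · rw [neg_smul, one_smul]; exact hw2
  have hinj : Function.Injective (fun ab : ZMod 3 × ZMod 3 => ab.1 • v0 + ab.2 • w) := by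
    rintro ⟨a, b⟩ ⟨a', b'⟩ hab
    have hab' : a • v0 + b • w = a' • v0 + b' • w := hab
    have h1 : (b - b') • w = (a' - a) • v0 := by
      rw [sub_smul, sub_smul, sub_eq_sub_iff_add_eq_add]
      rw [add_comm, hab', add_comm]
    have hb : b = b' := by
      by_contra hne
      have hne' : b - b' ≠ 0 := sub_ne_zero.2 hne
      apply hindep ((b - b')⁻¹ * (a' - a))
      rw [mul_smul, ← h1, smul_smul, inv_mul_cancel₀ hne', one_smul]
    subst hb
    have ha : a = a' := by
      rw [sub_self, zero_smul] at h1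
      rcases smul_eq_zero.1 h1.symm with h | h
      · exact (sub_eq_zero.1 h).symm
      · exact absurd h hv0
    rw [ha]
  have hbij : Function.Bijective (fun ab : ZMod 3 × ZMod 3 => ab.1 • v0 + ab.2 • w) := by
    apply Function.Injective.bijective_of_nat_card_le hinj
    rw [hV, Nat.card_prod, Nat.card_zmod]
  apply ht
  apply rho_ext ρ hρ
  intro v
  obtain ⟨⟨a, b⟩, rfl⟩ := hbij.2 v
  rw [rho_one]
  show ρ t (a • v0 + b • w) = a • v0 + b • w
  rw [map_add, map_smul, map_smul, htv, hw]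

theorem case_eight (hρ : Function.Injective ρ) (hG : IsPGroup 2 G)
    (htrans : ∀ v w : V, v ≠ 0 → w ≠ 0 → ∃ g : G, ρ g v = w)
    (v0 : V) (hv0 : v0 ≠ 0) (S : Subgroup G) (hS : ∀ g, g ∈ S ↔ ρ g v0 = v0)
    (hS1 : Nat.card S = 1) (hG8 : Nat.card G = 8) :
    IsCyclic G ∨ Nonempty (G ≃* QuaternionGroup 2) := by
  have hSbot : S = ⊥ := Subgroup.eq_bot_of_card_eq S hS1
  have hsemi : ∀ g : G, ∀ v : V, v ≠ 0 → ρ g v = v → g = 1 := by
    intro g v hv hgv
    obtain ⟨h, rfl⟩ := htrans v0 v hv0 hv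
    have hmem : h⁻¹ * g * h ∈ S := by
      rw [hS, rho_mul, rho_mul, hgv, ← rho_mul, inv_mul_cancel, rho_one]
    rw [hSbot, Subgroup.mem_bot] at hmem
    have h1 : g = h * (h⁻¹ * g * h) * h⁻¹ := by group
    rw [h1, hmem]; group
  have hneg : ∀ g : G, g ^ 2 = 1 → g ≠ 1 → ∀ v, ρ g v = -v := by
    intro g hg2 hg1 v
    apply neg_of_fpf ρ g (by rw [← pow_two]; exact hg2)
    intro w hw
    by_contra hw0
    exact hg1 (hsemi g w hw0 hw)
  have hE : Set.ncard {g : G | g ^ 2 = 1} ≤ 2 := by
    by_cases h : ∃ z : G, z ^ 2 = 1 ∧ z ≠ 1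
    · obtain ⟨z, hz2, hz1⟩ := h
      have hsub : {g : G | g ^ 2 = 1} ⊆ {1, z} := by
        intro g hg
        by_cases hg1 : g = 1
        · left; exact hg1
        · right
          apply rho_ext ρ hρ
          intro v
          rw [hneg g hg hg1, hneg z hz2 hz1]
      calc Set.ncard {g : G | g ^ 2 = 1} ≤ Set.ncard ({1, z} : Set G) :=
            Set.ncard_le_ncard hsub (Set.toFinite _)
        _ ≤ Set.ncard ({z} : Set G) + 1 := Set.ncard_insert_le _ _
        _ = 2 := by rw [Set.ncard_singleton]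
    · push Not at h
      have hsub : {g : G | g ^ 2 = 1} ⊆ {1} := fun g hg => h g hg
      calc Set.ncard {g : G | g ^ 2 = 1} ≤ Set.ncard ({1} : Set G) :=
            Set.ncard_le_ncard hsub (Set.toFinite _)
        _ = 1 := Set.ncard_singleton _
        _ ≤ 2 := by norm_num
  rcases Cfsg.Agent.Lib.Helper18.UniqueInvolution.cyclic_or_quaternion hG hE with h | ⟨n, ⟨e⟩⟩
  · left; exact h
  · right
    have hc : Nat.card G = 4 * 2 ^ n := by
      rw [Nat.card_congr e.toEquiv, Nat.card_eq_fintype_card, QuaternionGroup.card]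
    rw [hG8] at hc
    have hn : 2 ^ n = 2 := by omega
    rw [hn] at e
    exact ⟨e⟩

theorem case_sixteen [Nontrivial G] (hρ : Function.Injective ρ) (hV : Nat.card V = 9)
    (hG : IsPGroup 2 G)
    (htrans : ∀ v w : V, v ≠ 0 → w ≠ 0 → ∃ g : G, ρ g v = w)
    (v0 : V) (hv0 : v0 ≠ 0) (S : Subgroup G) (hS : ∀ g, g ∈ S ↔ ρ g v0 = v0)
    (hS2 : Nat.card S = 2) (hG16 : Nat.card G = 16) :
    Cfsg.IsQuasiDihedral G := by
  obtain ⟨t', ht'1, ht'u⟩ := (Nat.card_eq_two_iff' (1 : S)).1 hS2
  obtain ⟨t, ht⟩ : ∃ t : G, t = (t' : G) := ⟨_, rfl⟩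
  have ht1 : t ≠ 1 := by
    rw [ht]; intro h; apply ht'1; exact Subtype.ext h
  have htS' : t ∈ S := by rw [ht]; exact t'.2
  have hSel : ∀ g ∈ S, g = 1 ∨ g = t := by
    intro g hg
    by_cases hg1 : g = 1
    · left; exact hg1
    · right
      have := ht'u ⟨g, hg⟩ (fun h => hg1 (congrArg Subtype.val h))
      rw [ht, ← this]
  have htt : t * t = 1 := by
    rcases hSel (t * t) (S.mul_mem htS' htS') with h | h
    · exact h
    · exfalso; apply ht1
      exact mul_left_cancel (h.trans (mul_one t).symm)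
  have htv : ρ t v0 = v0 := (hS t).1 htS'
  haveI := hG.center_nontrivial
  have hZ2 : IsPGroup 2 (Subgroup.center G) := hG.to_subgroup _
  obtain ⟨c, hc⟩ := IsPGroup.iff_card.1 hZ2
  have hc0 : c ≠ 0 := by
    rintro rfl
    rw [pow_zero] at hc
    exact (Finite.one_lt_card (α := Subgroup.center G)).ne' hc
  have h2dvd : 2 ∣ Nat.card (Subgroup.center G) := by rw [hc]; exact dvd_pow_self 2 hc0
  obtain ⟨z', hz'⟩ := exists_prime_orderOf_dvd_card' 2 h2dvd
  obtain ⟨z, hz⟩ : ∃ z : G, z = (z' : G) := ⟨_, rfl⟩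
  have hzo : orderOf z = 2 := by rw [hz, Subgroup.orderOf_coe]; exact hz'
  have hzc : ∀ g, g * z = z * g := by
    intro g; rw [hz]; exact Subgroup.mem_center_iff.1 z'.2 g
  have hz1 : z ≠ 1 := by
    intro h; rw [h, orderOf_one] at hzo; omega
  have hzz : z * z = 1 := by rw [← pow_two, ← hzo, pow_orderOf_eq_one]
  have hzneg : ∀ v, ρ z v = -v := by
    intro v
    apply neg_of_fpf ρ z hzz
    intro w hw
    by_contra hw0
    exact hz1 (central_fix ρ hρ htrans z hzc w hw0 hw)
  have hv0neg : -v0 ≠ v0 := by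
    intro h
    have h2 : (2 : ZMod 3) • v0 = 0 := by
      rw [two_smul]; nth_rewrite 1 [← h]; exact neg_add_cancel v0
    rcases smul_eq_zero.1 h2 with h' | h'
    · exact absurd h' (by decide)
    · exact hv0 h'
  have htz : t ≠ z := by
    intro h
    have := hzneg v0
    rw [← h, htv] at this
    exact hv0neg this.symm
  have hcent : ∀ c : G, c * t = t * c → c = 1 ∨ c = t ∨ c = z ∨ c = z * t := by
    intro c hct
    have hfix : ρ t (ρ c v0) = ρ c v0 := by
      rw [← rho_mul, ← hct, rho_mul, htv]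
    rcases fix_small ρ hρ hV t ht1 v0 hv0 htv _ hfix with h | h | h
    · exact absurd h (rho_ne_zero ρ c v0 hv0)
    · rcases hSel c ((hS c).2 h) with h' | h'
      · left; exact h'
      · right; left; exact h'
    · have hmem : z * c ∈ S := by
        rw [hS, rho_mul, h, hzneg, neg_neg]
      have hcz : c = z * (z * c) := by rw [← mul_assoc, hzz, one_mul]
      rcases hSel _ hmem with h' | h'
      · right; right; left
        rw [hcz, h', mul_one]
      · right; right; right
        rw [hcz, h']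
  have hC : Nat.card (Subgroup.centralizer ({t} : Set G)) = 4 := by
    classical
    have hset : ((Subgroup.centralizer ({t} : Set G) : Subgroup G) : Set G) =
        ↑({1, t, z, z * t} : Finset G) := by
      ext c
      simp only [SetLike.mem_coe, Subgroup.mem_centralizer_iff, Set.mem_singleton_iff, forall_eq,
        Finset.coe_insert, Finset.coe_singleton, Set.mem_insert_iff]
      constructor
      · intro h; exact hcent c h.symm
      · rintro (rfl | rfl | rfl | rfl)
        · rw [mul_one, one_mul]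
        · rfl
        · exact hzc t
        · rw [← mul_assoc, hzc t, mul_assoc]
    have h1 : Nat.card (Subgroup.centralizer ({t} : Set G)) =
        ((Subgroup.centralizer ({t} : Set G) : Subgroup G) : Set G).ncard :=
      Nat.card_coe_set_eq _
    rw [h1, hset, Set.ncard_coe_finset]
    have hzt1 : z * t ≠ 1 := by
      intro h
      apply htz
      have : t = z * (z * t) := by rw [← mul_assoc, hzz, one_mul]
      rw [this, h, mul_one]
    have hzt2 : z * t ≠ t := by
      intro h
      exact hz1 (mul_right_cancel (h.trans (one_mul t).symm))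
    have hzt3 : z * t ≠ z := by
      intro h
      exact ht1 (mul_left_cancel (h.trans (mul_one z).symm))
    rw [Finset.card_insert_of_notMem, Finset.card_insert_of_notMem,
      Finset.card_insert_of_notMem, Finset.card_singleton]
    · simp only [Finset.mem_singleton]; exact fun h => hzt3 h.symm
    · simp only [Finset.mem_insert, Finset.mem_singleton, not_or]
      exact ⟨htz, fun h => hzt2 h.symm⟩
    · simp only [Finset.mem_insert, Finset.mem_singleton, not_or]
      exact ⟨fun h => ht1 h.symm, fun h => hz1 h.symm, fun h => hzt1 h.symm⟩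
  have hto : orderOf t = 2 := orderOf_eq_prime (by rw [pow_two]; exact htt) ht1
  rcases Cfsg.Agent.S3224.result hG t hto hC with ⟨n, ⟨e⟩⟩ | h | h
  · exfalso
    have hn : n = 8 := by
      have := Nat.card_congr e.toEquiv
      rw [hG16, DihedralGroup.nat_card] at this
      omega
    subst hn
    have hx : e.symm (DihedralGroup.sr 0) * e.symm (DihedralGroup.sr 0) = 1 := by
      rw [← map_mul]
      have : (DihedralGroup.sr (0 : ZMod 8)) * DihedralGroup.sr 0 = 1 := by decide
      rw [this, map_one]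
    have hy : e.symm (DihedralGroup.sr 1) * e.symm (DihedralGroup.sr 1) = 1 := by
      rw [← map_mul]
      have : (DihedralGroup.sr (1 : ZMod 8)) * DihedralGroup.sr 1 = 1 := by decide
      rw [this, map_one]
    have hxy8 : (e.symm (DihedralGroup.sr 0) * e.symm (DihedralGroup.sr 1)) ^ 8 = 1 := by
      rw [← map_mul, ← map_pow]
      have : (DihedralGroup.sr (0 : ZMod 8) * DihedralGroup.sr 1) ^ 8 = 1 := by decide
      rw [this, map_one]
    have h4 := no_dihedral ρ hρ hV _ _ hx hy hxy8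
    rw [← map_mul, ← map_pow] at h4
    have hne : (DihedralGroup.sr (0 : ZMod 8) * DihedralGroup.sr 1) ^ 4 ≠ 1 := by decide
    exact hne (e.symm.injective (h4.trans (map_one _).symm))
  · exact h
  · omega

end nine

/-- Let q be a prime, V a non-trivial finite vector space over the field with q elements, and G a non-trivial finite p-group (p prime) acting faithfully and linearly on V and transitively on the non-zero vectors. Then either q = 2 and G has prime order p = |V| − 1; or p = 2, V has q elements with q = 2^m + 1 and G is cyclic of order 2^m; or p = 2, q = 3, V has 9 elements and G is cyclic of order 8, quaternion of order 8, or semidihedral of order 16. -/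
theorem result (q : ℕ) [Fact q.Prime] {V : Type*} [AddCommGroup V] [Module (ZMod q) V] [Finite V] [Nontrivial V]
    {G : Type*} [Group G] [Finite G] [Nontrivial G] (p : ℕ) [Fact p.Prime] (hG : IsPGroup p G)
    (ρ : G →* (V ≃ₗ[ZMod q] V)) (hρ : Function.Injective ρ)
    (htrans : ∀ v w : V, v ≠ 0 → w ≠ 0 → ∃ g : G, ρ g v = w) :
    (q = 2 ∧ p = Nat.card V - 1 ∧ Nat.card G = p) ∨
    (p = 2 ∧ Nat.card V = q ∧ (∃ m : ℕ, q = 2 ^ m + 1 ∧ Nat.card G = 2 ^ m) ∧ IsCyclic G) ∨
    (p = 2 ∧ q = 3 ∧ Nat.card V = 9 ∧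
      ((IsCyclic G ∧ Nat.card G = 8) ∨ Nonempty (G ≃* QuaternionGroup 2) ∨ (Cfsg.IsQuasiDihedral G ∧ Nat.card G = 16))) := by
  have hqp : q.Prime := Fact.out
  have hpp : p.Prime := Fact.out
  obtain ⟨v0, hv0⟩ := exists_ne (0 : V)
  obtain ⟨S, hS, hcard⟩ := orbit_stab ρ v0 hv0 (fun w hw => htrans v0 w hv0 hw)
  have hVc : Nat.card V = q ^ Module.finrank (ZMod q) V := by
    have := Module.natCard_eq_pow_finrank (K := ZMod q) (V := V)
    rwa [Nat.card_zmod] at this
  obtain ⟨n, hn⟩ : ∃ n, Nat.card V = q ^ n := ⟨_, hVc⟩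
  have hV1 : 1 < Nat.card V := Finite.one_lt_card
  have hn1 : 1 ≤ n := by
    by_contra hcon
    have : n = 0 := by omega
    rw [this, pow_zero] at hn
    omega
  obtain ⟨j, hj⟩ := IsPGroup.iff_card.1 hG
  have hdvd : Nat.card V - 1 ∣ p ^ j := ⟨_, hj ▸ hcard.symm⟩
  obtain ⟨k, hkj, hk⟩ := (Nat.dvd_prime_pow hpp).1 hdvd
  have hVk : q ^ n = p ^ k + 1 := by omega
  rcases nt_main q p n k hqp hpp hn1 hVk with
    ⟨hk0, hq2, hn1'⟩ | ⟨hq2, hk1⟩ | ⟨hp2, hn1'⟩ | ⟨hp2, hq3, hn2, hk3⟩
  · exfalso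
    apply case_card_two ρ hρ
    rw [hn, hq2, hn1', pow_one]
  · left
    have hVp : Nat.card V = p + 1 := by rw [hn, hVk, hk1, pow_one]
    exact ⟨hq2, by rw [hVp, Nat.add_sub_cancel], case_two ρ hρ p hG hVp⟩
  · right; left
    have hVq : Nat.card V = q := by rw [hn, hn1', pow_one]
    obtain ⟨hcyc, hS1⟩ := case_dim_one ρ hρ hVq v0 hv0 S hS
    refine ⟨hp2, hVq, ⟨k, ?_, ?_⟩, hcyc⟩
    · rw [hn1', pow_one, hp2] at hVk
      exact hVk
    · rw [← hcard, hS1, mul_one, hk, hp2]
  · right; right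
    subst hp2
    subst hq3
    subst hn2
    subst hk3
    have hV9 : Nat.card V = 9 := by rw [hn]; norm_num
    refine ⟨rfl, rfl, hV9, ?_⟩
    have h48 := card_dvd ρ hρ hV9
    rw [hV9] at hcard
    have hSd : Nat.card S ∣ 2 ^ j := hj ▸ Subgroup.card_subgroup_dvd_card S
    obtain ⟨i, hij, hi⟩ := (Nat.dvd_prime_pow Nat.prime_two).1 hSd
    have h6 : 2 ^ i ∣ 6 := by
      rw [← hcard, hi] at h48
      exact Nat.dvd_of_mul_dvd_mul_left (by norm_num : 0 < 9 - 1) h48
    have hi2 : i < 2 := by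
      by_contra hcon
      push Not at hcon
      have h4 : 2 ^ 2 ∣ 6 := (pow_dvd_pow 2 hcon).trans h6
      omega
    interval_cases i
    · have hS1 : Nat.card S = 1 := by rw [hi, pow_zero]
      have hG8 : Nat.card G = 8 := by rw [← hcard, hS1]
      rcases case_eight ρ hρ hG htrans v0 hv0 S hS hS1 hG8 with h | h
      · left; exact ⟨h, hG8⟩
      · right; left; exact h
    · have hS2 : Nat.card S = 2 := by rw [hi, pow_one]
      have hG16 : Nat.card G = 16 := by rw [← hcard, hS2]
      right; right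
      exact ⟨case_sixteen ρ hρ hV9 hG htrans v0 hv0 S hS hS2 hG16, hG16⟩

end Cfsg.Agent.S3370
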