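import Cfsg.Statements.S3376
import Mathlib
import Cfsg.Agent.Lib.Helper18.UniqueInvolution
import Cfsg.Agent.Lib.Helper19.RelIndex
import Cfsg.Agent.Lib.Lead.Cores
import Cfsg.Agent.Lib.Helper12.SylowBasic

set_option autoImplicit false
open Cfsg

namespace Cfsg.Agent.S3376

theorem zpow_cases {A : Type*} [Group A] (x : A) (hx : x ^ 3 = 1) (k : ℤ) :
    x ^ k = 1 ∨ x ^ k = x ∨ x ^ k = x⁻¹ := by
  have h0 : x ^ k = x ^ (k % 3) := by
    conv_lhs => rw [← Int.mul_ediv_add_emod k 3]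
    rw [zpow_add, zpow_mul, zpow_ofNat, hx, one_zpow, one_mul]
  have h1 := Int.emod_nonneg k (by norm_num : (3:ℤ) ≠ 0)
  have h2 := Int.emod_lt_of_pos k (by norm_num : (0:ℤ) < 3)
  obtain ⟨r, hr⟩ : ∃ r, r = k % 3 := ⟨_, rfl⟩
  rw [← hr] at h0 h1 h2
  rw [h0]
  have hinv : x ^ (2 : ℤ) = x⁻¹ := by
    rw [zpow_ofNat]
    apply eq_inv_of_mul_eq_one_left
    rw [← pow_succ]; exact hx
  interval_cases r
  · left; simp
  · right; left; simp
  · right; right; exact hinv

theorem maschke3 {A : Type*} [CommGroup A] [Finite A] (hexp : ∀ a : A, a ^ 3 = 1)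
    (θ : A →* A) (hθ : ∀ a, θ (θ a) = a) (z : A) (hz1 : z ≠ 1) :
    ∃ A₀ : Subgroup A, (∀ a ∈ A₀, θ a ∈ A₀) ∧ z ∉ A₀ ∧ Nat.card A₀ * 3 = Nat.card A := by
  obtain ⟨A₀, -, hmax⟩ := Finite.exists_le_maximal
    (p := fun X : Subgroup A => (∀ a ∈ X, θ a ∈ X) ∧ z ∉ X) (a := ⊥)
    ⟨fun a ha => by rw [Subgroup.mem_bot] at ha ⊢; rw [ha, map_one],
      fun h => hz1 (Subgroup.mem_bot.1 h)⟩
  have hzA : z ∉ A₀ := hmax.prop.2
  have hall : ∀ j : A, j ∈ A₀ ⊔ Subgroup.zpowers z := by
    by_contra hcon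
    push_neg at hcon
    obtain ⟨j, hjM⟩ := hcon
    have hx : ∃ x : A, x ∉ A₀ ⊔ Subgroup.zpowers z ∧ (θ x = x ∨ θ x = x⁻¹) := by
      by_cases h1 : j * θ j ∈ A₀ ⊔ Subgroup.zpowers z
      · refine ⟨j * (θ j)⁻¹, fun h2 => hjM ?_, Or.inr ?_⟩
        · have hj3 : j⁻¹ = (j * θ j) * (j * (θ j)⁻¹) := by
            have h3 := hexp j
            have : (j * θ j) * (j * (θ j)⁻¹) = j ^ 2 := by
              rw [mul_mul_mul_comm, mul_inv_cancel, mul_one, pow_two]
            rw [this]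
            apply inv_eq_of_mul_eq_one_right
            rw [← pow_succ']; exact h3
          have h3 := Subgroup.mul_mem _ h1 h2
          rw [← hj3] at h3
          exact (Subgroup.inv_mem_iff _).1 h3
        · rw [map_mul, map_inv, hθ, mul_inv, inv_inv, mul_comm]
      · exact ⟨j * θ j, h1, Or.inl (by rw [map_mul, hθ, mul_comm])⟩
    obtain ⟨x, hxM, hθx⟩ := hx
    have hX : (∀ a ∈ A₀ ⊔ Subgroup.zpowers x, θ a ∈ A₀ ⊔ Subgroup.zpowers x) ∧
        z ∉ A₀ ⊔ Subgroup.zpowers x := by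
      constructor
      · intro a ha
        obtain ⟨b, hb, c, hc, rfl⟩ := Subgroup.mem_sup.1 ha
        rw [map_mul]
        refine Subgroup.mul_mem _ (Subgroup.mem_sup_left (hmax.prop.1 b hb))
          (Subgroup.mem_sup_right ?_)
        obtain ⟨k, rfl⟩ := Subgroup.mem_zpowers_iff.1 hc
        rw [map_zpow]
        rcases hθx with h | h
        · rw [h]; exact Subgroup.zpow_mem _ (Subgroup.mem_zpowers x) k
        · rw [h]; exact Subgroup.zpow_mem _ (Subgroup.inv_mem _ (Subgroup.mem_zpowers x)) k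
      · intro hzX
        obtain ⟨b, hb, c, hc, hbc⟩ := Subgroup.mem_sup.1 hzX
        obtain ⟨k, rfl⟩ := Subgroup.mem_zpowers_iff.1 hc
        rcases zpow_cases x (hexp x) k with h | h | h
        · rw [h, mul_one] at hbc
          rw [hbc] at hb
          exact hzA hb
        · rw [h] at hbc
          apply hxM
          have : x = b⁻¹ * z := by rw [← hbc]; group
          rw [this]
          exact Subgroup.mul_mem _ (Subgroup.mem_sup_left (Subgroup.inv_mem _ hb))
            (Subgroup.mem_sup_right (Subgroup.mem_zpowers z))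
        · rw [h] at hbc
          apply hxM
          have : x = (b⁻¹ * z)⁻¹ := by rw [← hbc]; group
          rw [this]
          exact Subgroup.inv_mem _ (Subgroup.mul_mem _ (Subgroup.mem_sup_left (Subgroup.inv_mem _ hb))
            (Subgroup.mem_sup_right (Subgroup.mem_zpowers z)))
    have hle : A₀ ≤ A₀ ⊔ Subgroup.zpowers x := le_sup_left
    have := hmax.le_of_ge hX hle
    exact hxM (Subgroup.mem_sup_left (this (Subgroup.mem_sup_right (Subgroup.mem_zpowers x))))
  refine ⟨A₀, hmax.prop.1, hzA, ?_⟩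
  have hcomp : Subgroup.IsComplement' A₀ (Subgroup.zpowers z) := by
    apply Subgroup.isComplement'_of_disjoint_and_mul_eq_univ
    · rw [disjoint_iff, Subgroup.eq_bot_iff_forall]
      intro c hc
      obtain ⟨hc1, hc2⟩ := Subgroup.mem_inf.1 hc
      obtain ⟨k, rfl⟩ := Subgroup.mem_zpowers_iff.1 hc2
      rcases zpow_cases z (hexp z) k with h | h | h
      · exact h
      · rw [h] at hc1; exact absurd hc1 hzA
      · rw [h] at hc1; exact absurd ((Subgroup.inv_mem_iff _).1 hc1) hzA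
    · rw [Set.eq_univ_iff_forall]
      intro j
      obtain ⟨b, hb, c, hc, hbc⟩ := Subgroup.mem_sup.1 (hall j)
      exact ⟨b, hb, c, hc, hbc⟩
  have h3 := hcomp.card_mul_card
  rw [Nat.card_zpowers, orderOf_eq_prime (hexp z) hz1] at h3
  exact h3

theorem cycleType_of {ρ : Equiv.Perm (Fin 9)} (h3 : ρ ^ 3 = 1) (hf : ∀ x, ρ x ≠ x) :
    ρ.cycleType = Multiset.replicate 3 3 := by
  have h1 : ρ ≠ 1 := by
    rintro rfl
    exact hf 0 rfl
  haveI : Fact (Nat.Prime 3) := ⟨by norm_num⟩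
  have ho : orderOf ρ = 3 := orderOf_eq_prime h3 h1
  obtain ⟨n, hn⟩ := Equiv.Perm.cycleType_prime_order (σ := ρ) (by rw [ho]; norm_num)
  have hs := Equiv.Perm.sum_cycleType ρ
  have hsupp : ρ.support = Finset.univ := by
    ext x; simp [hf x]
  rw [hsupp, hn, ho] at hs
  simp at hs
  have : n = 2 := by omega
  rw [hn, ho, this]

theorem key {G : Type*} [Group G] [Finite G] (hG : Nat.card G = 162) (H : Subgroup G)
    (hH : H.index = 9) (hcore : H.normalCore = ⊥) (z : G) (hzc : ∀ g, g * z = z * g) (hz3 : z ^ 3 = 1)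
    (hzH : z ∉ H) :
    Nonempty (G ≃* Subgroup.centralizer ({Equiv.swap (0 : Fin 9) 1 * Equiv.swap 1 2 * Equiv.swap 3 4 * Equiv.swap 4 5 * Equiv.swap 6 7 * Equiv.swap 7 8} : Set (Equiv.Perm (Fin 9)))) := by
  classical
  obtain ⟨σ, hσ⟩ : ∃ σ : Equiv.Perm (Fin 9), σ = Equiv.swap (0 : Fin 9) 1 * Equiv.swap 1 2 * Equiv.swap 3 4 * Equiv.swap 4 5 * Equiv.swap 6 7 * Equiv.swap 7 8 := ⟨_, rfl⟩
  rw [← hσ]
  have hσ3 : σ ^ 3 = 1 := by rw [hσ]; decide
  have hσf : ∀ x, σ x ≠ x := by rw [hσ]; decide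
  have hσc := cycleType_of hσ3 hσf
  have hcardq : Nat.card (G ⧸ H) = 9 := hH
  obtain ⟨e⟩ : Nonempty ((G ⧸ H) ≃ Fin 9) := ⟨Finite.equivFinOfCardEq hcardq⟩
  let φ : G →* Equiv.Perm (G ⧸ H) := MulAction.toPermHom G (G ⧸ H)
  have hφ : Function.Injective φ := by
    rw [← MonoidHom.ker_eq_bot_iff, ← Subgroup.normalCore_eq_ker, hcore]
  let ψ : G →* Equiv.Perm (Fin 9) := (e.permCongrHom.toMonoidHom).comp φ
  have hψ : Function.Injective ψ := e.permCongrHom.injective.comp hφ
  have hρ3 : (ψ z) ^ 3 = 1 := by rw [← map_pow, hz3, map_one]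
  have hρf : ∀ x, ψ z x ≠ x := by
    intro x hx
    have h1 : φ z (e.symm x) = e.symm x := by
      have : ψ z x = e (φ z (e.symm x)) := rfl
      rw [this] at hx
      apply e.injective
      rw [hx, Equiv.apply_symm_apply]
    obtain ⟨g, hg⟩ := QuotientGroup.mk_surjective (e.symm x)
    rw [← hg] at h1
    have h2 : ((z * g : G) : G ⧸ H) = (g : G ⧸ H) := h1
    rw [QuotientGroup.eq] at h2
    apply hzH
    have : (z * g)⁻¹ * g = z⁻¹ := by rw [← hzc g]; group
    rw [this] at h2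
    exact (Subgroup.inv_mem_iff _).1 h2
  have hρc := cycleType_of hρ3 hρf
  obtain ⟨c, hc⟩ := isConj_iff.1 (Equiv.Perm.isConj_iff_cycleType_eq.2 (hρc.trans hσc.symm))
  let Ψ : G →* Equiv.Perm (Fin 9) := ((MulAut.conj c).toMonoidHom).comp ψ
  have hΨ : Function.Injective Ψ := (MulAut.conj c).injective.comp hψ
  have hΨz : Ψ z = σ := hc
  have hmem : ∀ g, Ψ g ∈ Subgroup.centralizer ({σ} : Set (Equiv.Perm (Fin 9))) := by
    intro g
    rw [Subgroup.mem_centralizer_iff]
    intro h hh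
    rw [Set.mem_singleton_iff] at hh
    rw [hh, ← hΨz, ← map_mul, ← map_mul, hzc]
  let F : G →* Subgroup.centralizer ({σ} : Set (Equiv.Perm (Fin 9))) := Ψ.codRestrict _ hmem
  have hF : Function.Injective F := by
    intro a b hab
    apply hΨ
    exact congrArg Subtype.val hab
  have hcard : Nat.card (Subgroup.centralizer ({σ} : Set (Equiv.Perm (Fin 9)))) = 162 := by
    rw [Equiv.Perm.nat_card_centralizer, hσc]
    decide
  have hbij : Function.Bijective F :=
    (Nat.bijective_iff_injective_and_card F).2 ⟨hF, by rw [hG, hcard]⟩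
  exact ⟨MulEquiv.ofBijective F hbij⟩

theorem card_sylow3 {G : Type*} [Group G] [Finite G] (hG : Nat.card G = 162) (S : Sylow 3 G) :
    Nat.card (S : Subgroup G) = 81 := by
  haveI : Fact (Nat.Prime 3) := ⟨by norm_num⟩
  obtain ⟨n, hn⟩ := IsPGroup.iff_card.1 S.isPGroup'
  have h1 := (S : Subgroup G).card_mul_index
  have h2 := S.not_dvd_index
  rw [hG, hn] at h1
  have hn5 : n < 5 := by
    by_contra h
    have h3 : 3 ^ 5 ≤ 3 ^ n := Nat.pow_le_pow_right (by norm_num) (by omega)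
    have h4 : 3 ^ n ≤ 162 := Nat.le_of_dvd (by norm_num) ⟨_, h1.symm⟩
    omega
  rw [hn]
  interval_cases n <;> norm_num at h1 ⊢ <;> omega

theorem card_sylow2 {G : Type*} [Group G] [Finite G] (hG : Nat.card G = 162) (T : Sylow 2 G) :
    Nat.card (T : Subgroup G) = 2 := by
  haveI : Fact (Nat.Prime 2) := ⟨by norm_num⟩
  obtain ⟨n, hn⟩ := IsPGroup.iff_card.1 T.isPGroup'
  have h1 := (T : Subgroup G).card_mul_index
  have h2 := T.not_dvd_index
  rw [hG, hn] at h1
  have hn5 : n < 8 := by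
    by_contra h
    have h3 : 2 ^ 8 ≤ 2 ^ n := Nat.pow_le_pow_right (by norm_num) (by omega)
    have h4 : 2 ^ n ≤ 162 := Nat.le_of_dvd (by norm_num) ⟨_, h1.symm⟩
    omega
  rw [hn]
  interval_cases n <;> norm_num at h1 ⊢ <;> omega

theorem mem_zpowers_of_card3 {G : Type*} [Group G] [Finite G] (Z : Subgroup G)
    (hZ : Nat.card Z = 3) {w z : G} (hw : w ∈ Z) (hw1 : w ≠ 1) (hz : z ∈ Z) :
    z ∈ Subgroup.zpowers w := by
  have h1 : Subgroup.zpowers w ≤ Z := (Subgroup.zpowers_le).2 hw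
  have h2 : orderOf w = 3 := by
    have := Subgroup.orderOf_dvd_natCard Z hw
    rw [hZ] at this
    rcases (Nat.dvd_prime (by norm_num : Nat.Prime 3)).1 this with h | h
    · exact absurd (orderOf_eq_one_iff.1 h) hw1
    · exact h
  have h3 : Subgroup.zpowers w = Z :=
    Subgroup.eq_of_le_of_card_ge h1 (by rw [Nat.card_zpowers, h2, hZ])
  rw [h3]; exact hz

theorem conj_conj_of_sq {G : Type*} [Group G] (τ : G) (hτ2 : τ * τ = 1) (a : G) :
    τ * (τ * a * τ⁻¹) * τ⁻¹ = a := by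
  have : τ * (τ * a * τ⁻¹) * τ⁻¹ = (τ * τ) * a * (τ * τ)⁻¹ := by group
  rw [this, hτ2]; group

theorem main {G : Type*} [Group G] [Finite G] (hG : Nat.card G = 162)
    (S : Sylow 3 G) (T : Sylow 2 G) (J : Subgroup G) [hJn : J.Normal] (hJcomm : IsMulCommutative J)
    (hJexp : ∀ a ∈ J, a ^ 3 = 1) (hJcard : Nat.card J = 27)
    (Z : Subgroup G) (hZ : Z = (S : Subgroup G) ⊓ Subgroup.centralizer ((S : Subgroup G) : Set G)) (hZcard : Nat.card Z = 3)
    (hZT : Z ≤ Subgroup.centralizer ((T : Subgroup G) : Set G))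
    (hST : (S : Subgroup G) ⊓ Subgroup.centralizer ((T : Subgroup G) : Set G) ≠ S) :
    ∃ (H : Subgroup G) (z : G), H.index = 9 ∧ H.normalCore = ⊥ ∧ (∀ g, g * z = z * g) ∧ z ^ 3 = 1 ∧
      z ∉ H := by
  classical
  haveI : Fact (Nat.Prime 3) := ⟨by norm_num⟩
  haveI : Fact (Nat.Prime 2) := ⟨by norm_num⟩
  have hScard := card_sylow3 hG S
  have hTcard := card_sylow2 hG T
  obtain ⟨z, hzZ, hz1⟩ : ∃ z ∈ Z, z ≠ 1 := by
    by_contra hcon
    push_neg at hcon
    have : Z = ⊥ := (Subgroup.eq_bot_iff_forall _).2 hcon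
    rw [this, Subgroup.card_bot] at hZcard
    omega
  have hz3 : z ^ 3 = 1 := by
    have := Subgroup.orderOf_dvd_natCard Z hzZ
    rw [hZcard] at this
    exact orderOf_dvd_iff_pow_eq_one.1 this
  have hzCS : z ∈ Subgroup.centralizer ((S : Subgroup G) : Set G) := by
    rw [hZ] at hzZ; exact hzZ.2
  have hJp : IsPGroup 3 J := by
    apply IsPGroup.of_card (n := 3)
    rw [hJcard]; norm_num
  have hJS : J ≤ (S : Subgroup G) :=
    Cfsg.Agent.Lib.Helper12.SylowBasic.normal_pgroup_le_sylow S J hJp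
  -- central elements of S in normal subgroups
  have hcent : ∀ N : Subgroup G, N.Normal → (∃ x ∈ N, x ∈ (S : Subgroup G) ∧ x ≠ 1) → z ∈ N := by
    intro N hN ⟨x, hxN, hxS, hx1⟩
    have hW : N.subgroupOf (S : Subgroup G) ≠ ⊥ := by
      intro h
      have h1 : (⟨x, hxS⟩ : (S : Subgroup G)) ∈ N.subgroupOf (S : Subgroup G) :=
        Subgroup.mem_subgroupOf.2 hxN
      rw [h, Subgroup.mem_bot] at h1
      exact hx1 (congrArg Subtype.val h1)
    haveI : (N.subgroupOf (S : Subgroup G)).Normal := hN.subgroupOf _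
    obtain ⟨w, hwW, hw1, hwc⟩ :=
      Cfsg.Agent.Lib.Helper18.UniqueInvolution.exists_central_mem_of_normal S.isPGroup'
        (N.subgroupOf (S : Subgroup G)) inferInstance hW
    have hwZ : (w : G) ∈ Z := by
      rw [hZ, Subgroup.mem_inf]
      refine ⟨w.2, Subgroup.mem_centralizer_iff.2 ?_⟩
      intro h hh
      have := hwc ⟨h, hh⟩
      exact congrArg Subtype.val this
    have hw1' : (w : G) ≠ 1 := fun h => hw1 (Subtype.ext h)
    have := mem_zpowers_of_card3 Z hZcard hwZ hw1' hzZ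
    have hwN : (w : G) ∈ N := Subgroup.mem_subgroupOf.1 hwW
    exact (Subgroup.zpowers_le.2 hwN) this
  have hzJ : z ∈ J := by
    apply hcent J hJn
    by_contra hcon
    push_neg at hcon
    have : J = ⊥ := (Subgroup.eq_bot_iff_forall _).2 (fun x hx => hcon x hx (hJS hx))
    rw [this, Subgroup.card_bot] at hJcard
    omega
  have hST' : (S : Subgroup G) ⊔ (T : Subgroup G) = ⊤ := by
    apply Subgroup.eq_top_of_card_eq
    rw [hG]
    have h1 : 81 ∣ Nat.card ((S : Subgroup G) ⊔ T : Subgroup G) := by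
      rw [← hScard]; exact Subgroup.card_dvd_of_le le_sup_left
    have h2 : 2 ∣ Nat.card ((S : Subgroup G) ⊔ T : Subgroup G) := by
      have h := Subgroup.card_dvd_of_le (le_sup_right : (T : Subgroup G) ≤ (S : Subgroup G) ⊔ T)
      rwa [hTcard] at h
    have h3 : Nat.card ((S : Subgroup G) ⊔ T : Subgroup G) ∣ 162 := by
      rw [← hG]; exact Subgroup.card_subgroup_dvd_card _
    have h4 := Nat.le_of_dvd (by norm_num) h3
    have h5 : 0 < Nat.card ((S : Subgroup G) ⊔ T : Subgroup G) := Nat.card_pos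
    omega
  have hzc : ∀ g : G, g * z = z * g := by
    have hle : (S : Subgroup G) ⊔ T ≤ Subgroup.centralizer ({z} : Set G) := by
      apply sup_le
      · intro s hs
        rw [Subgroup.mem_centralizer_iff]
        intro h hh
        rw [Set.mem_singleton_iff] at hh
        rw [hh]
        exact ((Subgroup.mem_centralizer_iff.1 hzCS) s hs).symm
      · intro t ht
        rw [Subgroup.mem_centralizer_iff]
        intro h hh
        rw [Set.mem_singleton_iff] at hh
        rw [hh]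
        exact ((Subgroup.mem_centralizer_iff.1 (hZT hzZ)) t ht).symm
    intro g
    have hg : g ∈ Subgroup.centralizer ({z} : Set G) := hle (by rw [hST']; trivial)
    exact ((Subgroup.mem_centralizer_iff.1 hg) z rfl).symm
  obtain ⟨τ, hτT, hτ1⟩ : ∃ τ ∈ (T : Subgroup G), τ ≠ 1 := by
    by_contra hcon
    push_neg at hcon
    have : (T : Subgroup G) = ⊥ := (Subgroup.eq_bot_iff_forall _).2 hcon
    rw [this, Subgroup.card_bot] at hTcard
    omega
  have hτ2 : τ * τ = 1 := by
    have := Subgroup.orderOf_dvd_natCard (T : Subgroup G) hτT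
    rw [hTcard] at this
    rw [← pow_two]
    exact orderOf_dvd_iff_pow_eq_one.1 this
  have hτinv : τ⁻¹ = τ := inv_eq_of_mul_eq_one_right hτ2
  have hTmem : ∀ t ∈ (T : Subgroup G), t = 1 ∨ t = τ := by
    intro t ht
    have h1 : Subgroup.zpowers τ = (T : Subgroup G) := by
      apply Subgroup.eq_of_le_of_card_ge (Subgroup.zpowers_le.2 hτT)
      rw [Nat.card_zpowers, hTcard]
      have : orderOf τ = 2 := orderOf_eq_prime (by rw [pow_two]; exact hτ2) hτ1
      rw [this]
    rw [← h1] at ht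
    obtain ⟨k, rfl⟩ := Subgroup.mem_zpowers_iff.1 ht
    rcases Int.even_or_odd k with ⟨m, hm⟩ | ⟨m, hm⟩
    · left; rw [hm, ← two_mul, zpow_mul, zpow_two, hτ2, one_zpow]
    · right; rw [hm, zpow_add, zpow_mul, zpow_two, hτ2, one_zpow, one_mul, zpow_one]
  letI : CommGroup J :=
    { (inferInstance : Group J) with mul_comm := fun a b => hJcomm.is_comm.comm a b }
  obtain ⟨A₀, hθA, hzA, hAcard⟩ := maschke3 (A := J) (fun a => Subtype.ext (hJexp a a.2))
    ((MulAut.conjNormal τ : MulAut J).toMonoidHom)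
    (fun a => Subtype.ext (by
      show τ * (τ * (a : G) * τ⁻¹) * τ⁻¹ = a
      exact conj_conj_of_sq τ hτ2 a))
    ⟨z, hzJ⟩ (fun h => hz1 (congrArg Subtype.val h))
  rw [hJcard] at hAcard
  have hAcard' : Nat.card A₀ = 9 := by omega
  obtain ⟨J₀, hJ₀⟩ : ∃ J₀ : Subgroup G, J₀ = A₀.map J.subtype := ⟨_, rfl⟩
  have hJ₀J : J₀ ≤ J := by rw [hJ₀]; exact Subgroup.map_subtype_le A₀
  have hJ₀card : Nat.card J₀ = 9 := by
    rw [hJ₀, Subgroup.card_map_of_injective (Subgroup.subtype_injective J)]; exact hAcard'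
  have hτJ₀ : ∀ a ∈ J₀, τ * a * τ⁻¹ ∈ J₀ := by
    intro a ha
    rw [hJ₀] at ha ⊢
    obtain ⟨b, hb, rfl⟩ := Subgroup.mem_map.1 ha
    exact Subgroup.mem_map.2 ⟨_, hθA b hb, rfl⟩
  have hzJ₀ : z ∉ J₀ := by
    intro h
    rw [hJ₀] at h
    obtain ⟨b, hb, hbz⟩ := Subgroup.mem_map.1 h
    have : b = ⟨z, hzJ⟩ := Subtype.ext hbz
    rw [this] at hb
    exact hzA hb
  have hTN : (T : Subgroup G) ≤ Subgroup.normalizer (J₀ : Set G) := by
    intro t ht
    rcases hTmem t ht with h | h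
    · rw [h]; exact Subgroup.one_mem _
    · rw [h, Subgroup.mem_normalizer_iff]
      intro h
      constructor
      · exact hτJ₀ h
      · intro hh
        have := hτJ₀ _ hh
        have e : τ * (τ * h * τ⁻¹) * τ⁻¹ = h := conj_conj_of_sq τ hτ2 h
        rw [e] at this
        exact this
  have hTJ : ∀ x ∈ (T : Subgroup G), x ∈ J → x = 1 := by
    intro x hxT hxJ
    have h1 : (T : Subgroup G) ⊓ J = ⊥ := by
      apply disjoint_iff.1
      apply Subgroup.disjoint_of_coprime_natCard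
      rw [hTcard, hJcard]; norm_num
    have : x ∈ (T : Subgroup G) ⊓ J := ⟨hxT, hxJ⟩
    rw [h1] at this
    exact Subgroup.mem_bot.1 this
  have hH₀card : Nat.card (J₀ ⊔ (T : Subgroup G) : Subgroup G) = 18 := by
    have h1 := Cfsg.Agent.Lib.Lead.Cores.card_mul_relIndex_of_le
      (le_sup_right : (T : Subgroup G) ≤ J₀ ⊔ (T : Subgroup G))
    rw [Cfsg.Agent.Lib.Helper19.relIndex_sup_of_le_normalizer J₀ (T : Subgroup G) hTN] at h1
    have h2 : (T : Subgroup G).relIndex J₀ = 9 := by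
      rw [← Subgroup.inf_relIndex_right]
      have : (T : Subgroup G) ⊓ J₀ = ⊥ := by
        rw [Subgroup.eq_bot_iff_forall]
        intro x hx
        exact hTJ x hx.1 (hJ₀J hx.2)
      rw [this, Subgroup.relIndex_bot_left, hJ₀card]
    rw [h2, hTcard] at h1
    omega
  have hdec := Cfsg.Agent.Lib.Helper19.exists_mul_of_mem_sup J₀ (T : Subgroup G) hTN
  have hzH : z ∉ J₀ ⊔ (T : Subgroup G) := by
    intro h
    obtain ⟨a, ha, t, ht, hat⟩ := hdec z h
    rcases hTmem t ht with h | h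
    · rw [h, mul_one] at hat
      rw [hat] at hzJ₀
      exact hzJ₀ ha
    · rw [h] at hat
      apply hτ1
      apply hTJ τ hτT
      have : τ = a⁻¹ * z := by rw [hat]; group
      rw [this]
      exact J.mul_mem (J.inv_mem (hJ₀J ha)) hzJ
  refine ⟨J₀ ⊔ (T : Subgroup G), z, ?_, ?_, hzc, hz3, hzH⟩
  · have := (J₀ ⊔ (T : Subgroup G)).card_mul_index
    rw [hH₀card, hG] at this
    omega
  · obtain ⟨N, hNdef⟩ : ∃ N : Subgroup G, N = (J₀ ⊔ (T : Subgroup G)).normalCore := ⟨_, rfl⟩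
    rw [← hNdef]
    have hNn : N.Normal := by rw [hNdef]; exact Subgroup.normalCore_normal _
    have hNH : N ≤ J₀ ⊔ (T : Subgroup G) := by rw [hNdef]; exact Subgroup.normalCore_le _
    have hNS : ∀ x ∈ N, x ∈ (S : Subgroup G) → x = 1 := by
      intro x hxN hxS
      by_contra hx1
      exact hzH (hNH (hcent N hNn ⟨x, hxN, hxS, hx1⟩))
    by_contra hNbot
    obtain ⟨n, hnN, hn1⟩ : ∃ n ∈ N, n ≠ 1 := by
      by_contra hcon
      push_neg at hcon
      exact hNbot ((Subgroup.eq_bot_iff_forall _).2 hcon)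
    -- structure of nontrivial elements of N
    have hform : ∀ m ∈ N, m ≠ 1 → ∃ a ∈ J₀, m = a * τ := by
      intro m hm hm1
      obtain ⟨a, ha, t, ht, hat⟩ := hdec m (hNH hm)
      rcases hTmem t ht with h | h
      · exfalso
        rw [h, mul_one] at hat
        apply hm1
        apply hNS m hm
        rw [hat]; exact hJS (hJ₀J ha)
      · rw [h] at hat
        exact ⟨a, ha, hat⟩
    obtain ⟨a, ha, hna⟩ := hform n hnN hn1
    have hncent : ∀ g : G, g * n * g⁻¹ = n := by
      intro g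
      have h1 : g * n * g⁻¹ ∈ N := hNn.conj_mem n hnN g
      have h2 : g * n * g⁻¹ ≠ 1 := by
        intro h
        apply hn1
        have : n = g⁻¹ * (g * n * g⁻¹) * g := by group
        rw [this, h]; group
      obtain ⟨a', ha', hna'⟩ := hform _ h1 h2
      have h3 : g * n * g⁻¹ * n⁻¹ = a' * a⁻¹ := by rw [hna', hna]; group
      have h4 : g * n * g⁻¹ * n⁻¹ = 1 := by
        apply hNS _ (N.mul_mem h1 (N.inv_mem hnN))
        rw [h3]
        exact hJS (hJ₀J (J₀.mul_mem ha' (J₀.inv_mem ha)))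
      exact mul_inv_eq_one.1 h4
    -- n² = 1
    have hn2 : n * n = 1 := by
      apply hNS _ (N.mul_mem hnN hnN)
      have : n * n = a * (τ * a * τ⁻¹) := by
        rw [hna, hτinv]
        simp only [mul_assoc]
      rw [this]
      exact hJS (hJ₀J (J₀.mul_mem ha (hτJ₀ a ha)))
    -- a commutes with τ
    have haτ : τ * a * τ⁻¹ = a := by
      have h1 := hncent τ
      rw [hna] at h1
      have : τ * (a * τ) * τ⁻¹ = (τ * a * τ⁻¹) * τ := by group
      rw [this] at h1
      exact mul_right_cancel h1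
    have ha2 : a * a = 1 := by
      have : n * n = a * (τ * a * τ⁻¹) := by
        rw [hna, hτinv]
        simp only [mul_assoc]
      rw [haτ] at this
      rw [← this]; exact hn2
    have ha1 : a = 1 := by
      have h3 := hJexp a (hJ₀J ha)
      rw [pow_succ, pow_two, ha2, one_mul] at h3
      exact h3
    rw [ha1, one_mul] at hna
    rw [hna] at hncent
    apply hST
    apply inf_eq_left.2
    intro s hs
    rw [Subgroup.mem_centralizer_iff]
    intro t ht
    rcases hTmem t ht with h | h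
    · rw [h, one_mul, mul_one]
    · have h5 := hncent s
      rw [h]
      have h6 : τ * s = (s * τ * s⁻¹) * s := by rw [h5]
      rw [h6]; group

/-- Let G be a group of order 162 = 3⁴·2 with Sylow 3-subgroup S and Sylow 2-subgroup T, having an elementary abelian normal subgroup J of order 27, such that Z = Z(S) has order 3, Z centralizes T, and C_S(T) ≠ S. Then G is isomorphic to the centralizer in Sym(9) of a product of three disjoint 3-cycles. -/
theorem result {G : Type*} [Group G] [Finite G] (hG : Nat.card G = 162)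
    (S : Sylow 3 G) (T : Sylow 2 G) (J : Subgroup G) [hJn : J.Normal] (hJcomm : IsMulCommutative J)
    (hJexp : ∀ a ∈ J, a ^ 3 = 1) (hJcard : Nat.card J = 27)
    (Z : Subgroup G) (hZ : Z = (S : Subgroup G) ⊓ Subgroup.centralizer ((S : Subgroup G) : Set G)) (hZcard : Nat.card Z = 3)
    (hZT : Z ≤ Subgroup.centralizer ((T : Subgroup G) : Set G))
    (hST : (S : Subgroup G) ⊓ Subgroup.centralizer ((T : Subgroup G) : Set G) ≠ S) :
    Nonempty (G ≃* Subgroup.centralizer ({Equiv.swap (0 : Fin 9) 1 * Equiv.swap 1 2 * Equiv.swap 3 4 * Equiv.swap 4 5 * Equiv.swap 6 7 * Equiv.swap 7 8} : Set (Equiv.Perm (Fin 9)))) := by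
  obtain ⟨H, z, hH, hcore, hzc, hz3, hzH⟩ :=
    main hG S T J hJcomm hJexp hJcard Z hZ hZcard hZT hST
  exact key hG H hH hcore z hzc hz3 hzH

end Cfsg.Agent.S3376
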