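import Cfsg.Statements.S3377
import Mathlib
import Cfsg.Agent.Lib.Helper18.A5Pres

set_option autoImplicit false
open Cfsg

namespace Cfsg.Agent.S3377

def sig : alternatingGroup (Fin 5) := ⟨Equiv.swap 0 4 * Equiv.swap 4 2, by
  rw [Equiv.Perm.mem_alternatingGroup, Equiv.Perm.sign_mul, Equiv.Perm.sign_swap (by decide),
    Equiv.Perm.sign_swap (by decide)]; rfl⟩

def tau : alternatingGroup (Fin 5) :=
  ⟨Equiv.swap 0 1 * Equiv.swap 1 2 * Equiv.swap 2 3 * Equiv.swap 3 4, by
  rw [Equiv.Perm.mem_alternatingGroup, Equiv.Perm.sign_mul, Equiv.Perm.sign_mul,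
    Equiv.Perm.sign_mul, Equiv.Perm.sign_swap (by decide),
    Equiv.Perm.sign_swap (by decide), Equiv.Perm.sign_swap (by decide),
    Equiv.Perm.sign_swap (by decide)]; rfl⟩

theorem sig3 : sig ^ 3 = 1 := by
  apply Subtype.ext
  decide

theorem tau5 : tau ^ 5 = 1 := by
  apply Subtype.ext
  decide

theorem sigtau2 : (sig * tau) ^ 2 = 1 := by
  apply Subtype.ext
  decide

theorem sig_ne : sig ≠ 1 := by
  intro h
  have := congrArg (fun x : alternatingGroup (Fin 5) => (x : Equiv.Perm (Fin 5)) 0) h
  revert this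
  decide

theorem tau_ne : tau ≠ 1 := by
  intro h
  have := congrArg (fun x : alternatingGroup (Fin 5) => (x : Equiv.Perm (Fin 5)) 0) h
  revert this
  decide

theorem sigtau_ne : sig * tau ≠ 1 := by
  intro h
  have := congrArg (fun x : alternatingGroup (Fin 5) => (x : Equiv.Perm (Fin 5)) 0) h
  revert this
  decide

theorem card_A5 : Nat.card (alternatingGroup (Fin 5)) = 60 := by
  rw [Nat.card_eq_fintype_card]
  have h := two_mul_card_alternatingGroup (α := Fin 5)
  rw [Fintype.card_perm, Fintype.card_fin] at h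
  have h5 : Nat.factorial 5 = 120 := by decide
  omega

/-- A subgroup of `Alt(5)` containing `sig` and `tau` is everything. -/
theorem eq_top_of_mem (R : Subgroup (alternatingGroup (Fin 5))) (h1 : sig ∈ R) (h2 : tau ∈ R) :
    R = ⊤ := by
  have : Fact (Nat.Prime 2) := ⟨Nat.prime_two⟩
  have : Fact (Nat.Prime 3) := ⟨Nat.prime_three⟩
  have : Fact (Nat.Prime 5) := ⟨Nat.prime_five⟩
  have o3 : orderOf sig = 3 := orderOf_eq_prime sig3 sig_ne
  have o5 : orderOf tau = 5 := orderOf_eq_prime tau5 tau_ne
  have o2 : orderOf (sig * tau) = 2 := orderOf_eq_prime sigtau2 sigtau_ne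
  have d3 : 3 ∣ Nat.card R := by
    have h := Subgroup.orderOf_dvd_natCard R h1
    rw [o3] at h; exact h
  have d5 : 5 ∣ Nat.card R := by
    have h := Subgroup.orderOf_dvd_natCard R h2
    rw [o5] at h; exact h
  have d2 : 2 ∣ Nat.card R := by
    have h := Subgroup.orderOf_dvd_natCard R (R.mul_mem h1 h2)
    rw [o2] at h; exact h
  have d30 : 30 ∣ Nat.card R := by
    have h6 : 6 ∣ Nat.card R := Nat.Coprime.mul_dvd_of_dvd_of_dvd (by norm_num) d2 d3
    exact Nat.Coprime.mul_dvd_of_dvd_of_dvd (by norm_num) h6 d5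
  have hci := Subgroup.card_mul_index R
  rw [card_A5] at hci
  obtain ⟨c, hc⟩ := d30
  rw [hc] at hci
  have hidx : R.index = 1 ∨ R.index = 2 := by
    have hc0 : c ≠ 0 := by
      rintro rfl
      omega
    have hc2 : c ≤ 2 := by
      by_contra hlt
      have h3 : 3 ≤ c := by omega
      have hi0 : R.index ≠ 0 := by
        intro h0
        rw [h0] at hci
        omega
      have : 30 * 3 * 1 ≤ 30 * c * R.index :=
        Nat.mul_le_mul (Nat.mul_le_mul_left 30 h3) (by omega)
      omega
    have hc12 : c = 1 ∨ c = 2 := by omega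
    rcases hc12 with rfl | rfl
    · right; omega
    · left; omega
  rcases hidx with h | h
  · exact Subgroup.index_eq_one.1 h
  · exfalso
    have hn : R.Normal := Subgroup.normal_of_index_eq_two h
    have hs : IsSimpleGroup (alternatingGroup (Fin 5)) :=
      alternatingGroup.isSimpleGroup (by rw [Nat.card_fin])
    rcases hn.eq_bot_or_eq_top with hb | ht
    · rw [hb, Subgroup.card_bot] at hc
      omega
    · rw [ht, Subgroup.index_top] at h
      omega

/-- The alternating group of degree 5 has the presentation ⟨x, y | x³ = 1, y⁵ = 1, (xy)² = 1⟩: the group so presented is isomorphic to Alt(5). -/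
theorem result :
    Nonempty (PresentedGroup ({FreeGroup.of (0 : Fin 2) ^ 3, FreeGroup.of (1 : Fin 2) ^ 5,
        (FreeGroup.of (0 : Fin 2) * FreeGroup.of 1) ^ 2} : Set (FreeGroup (Fin 2))) ≃* alternatingGroup (Fin 5)) := by
  obtain ⟨rels, hrels⟩ : ∃ rels : Set (FreeGroup (Fin 2)), rels =
      {FreeGroup.of (0 : Fin 2) ^ 3, FreeGroup.of (1 : Fin 2) ^ 5,
        (FreeGroup.of (0 : Fin 2) * FreeGroup.of 1) ^ 2} := ⟨_, rfl⟩
  rw [← hrels]
  have ha : (PresentedGroup.of (0 : Fin 2) : PresentedGroup rels) ^ 3 = 1 := by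
    have h := PresentedGroup.one_of_mem (rels := rels) (x := FreeGroup.of (0 : Fin 2) ^ 3)
      (by rw [hrels]; simp)
    rw [map_pow] at h; exact h
  have hb : (PresentedGroup.of (1 : Fin 2) : PresentedGroup rels) ^ 5 = 1 := by
    have h := PresentedGroup.one_of_mem (rels := rels) (x := FreeGroup.of (1 : Fin 2) ^ 5)
      (by rw [hrels]; simp)
    rw [map_pow] at h; exact h
  have hab : ((PresentedGroup.of (0 : Fin 2) : PresentedGroup rels) *
      PresentedGroup.of 1) ^ 2 = 1 := by
    have h := PresentedGroup.one_of_mem (rels := rels)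
      (x := (FreeGroup.of (0 : Fin 2) * FreeGroup.of 1) ^ 2) (by rw [hrels]; simp)
    rw [map_pow, map_mul] at h; exact h
  have hgen : Subgroup.closure ({PresentedGroup.of (0 : Fin 2), PresentedGroup.of 1} :
      Set (PresentedGroup rels)) = ⊤ := by
    have h := PresentedGroup.closure_range_of rels
    have hr : Set.range (PresentedGroup.of : Fin 2 → PresentedGroup rels) =
        {PresentedGroup.of 0, PresentedGroup.of 1} := by
      ext w
      constructor
      · rintro ⟨i, rfl⟩
        fin_cases i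
        · left; rfl
        · right; rfl
      · rintro (rfl | rfl)
        · exact ⟨0, rfl⟩
        · exact ⟨1, rfl⟩
    rw [hr] at h; exact h
  obtain ⟨hfin, hcard⟩ := Cfsg.Agent.Lib.Helper18.A5Pres.card_le_sixty _ _ ha hb hab hgen
  have hlift : ∀ r ∈ rels, FreeGroup.lift ![sig, tau] r = 1 := by
    intro r hr
    rw [hrels] at hr
    rcases hr with rfl | rfl | rfl
    · rw [map_pow, FreeGroup.lift_apply_of]; exact sig3
    · rw [map_pow, FreeGroup.lift_apply_of]; exact tau5
    · rw [map_pow, map_mul, FreeGroup.lift_apply_of, FreeGroup.lift_apply_of]; exact sigtau2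
  have hsurj : Function.Surjective (PresentedGroup.toGroup hlift) := by
    rw [← MonoidHom.range_eq_top]
    apply eq_top_of_mem
    · exact ⟨PresentedGroup.of 0, PresentedGroup.toGroup.of hlift⟩
    · exact ⟨PresentedGroup.of 1, PresentedGroup.toGroup.of hlift⟩
  have hbij : Function.Bijective (PresentedGroup.toGroup hlift) :=
    hsurj.bijective_of_nat_card_le (by rw [card_A5]; exact hcard)
  exact ⟨MulEquiv.ofBijective _ hbij⟩

end Cfsg.Agent.S3377
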