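import Cfsg.Statements.S3389
import Cfsg.Agent.Lib.Helper19.Derange

set_option autoImplicit false
open Cfsg

namespace Cfsg.Agent.S3389

open Cfsg.Agent.Lib.Helper19

/-- Sylow subgroups contained in a subgroup are conjugate inside it. -/
theorem sylow_conj_in_subgroup {G : Type*} [Group G] [Finite G] {p : ℕ} [Fact p.Prime]
    (N : Subgroup G) (P Q : Sylow p G) (hP : (P : Subgroup G) ≤ N) (hQ : (Q : Subgroup G) ≤ N) :
    ∃ c ∈ N, c • Q = P := by
  obtain ⟨c, hc⟩ := MulAction.exists_smul_eq N (Q.subtype hQ) (P.subtype hP)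
  rw [Sylow.smul_subtype hQ c] at hc
  exact ⟨c, c.2, Sylow.subtype_injective hc⟩

theorem eq_of_swap_odd {G Ω : Type*} [Group G] [MulAction G Ω] (y : G) (m : ℕ) (hm : Odd m)
    (hy : y ^ m = 1) (a b : Ω) (hab : y • a = b) (hba : y • b = a) : a = b := by
  have h2 : y ^ 2 • a = a := by rw [pow_two, mul_smul, hab, hba]
  have h3 : ∀ j : ℕ, (y ^ 2) ^ j • a = a := by
    intro j
    induction j with
    | zero => simp
    | succ j ih => rw [pow_succ, mul_smul, h2, ih]
  obtain ⟨j, rfl⟩ := hm
  have h4 : y ^ (2 * j + 1) • a = b := by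
    rw [pow_succ', pow_mul, mul_smul, h3 j, hab]
  rw [hy, one_smul] at h4
  exact h4

theorem fix_pair_of_odd {G Ω : Type*} [Group G] [MulAction G Ω] (y : G) (m : ℕ) (hm : Odd m)
    (hy : y ^ m = 1) (a b : Ω) (hab : a ≠ b) (ha : y • a = a ∨ y • a = b)
    (hb : y • b = a ∨ y • b = b) : y • a = a ∧ y • b = b := by
  rcases ha with ha | ha
  · refine ⟨ha, ?_⟩
    rcases hb with hb | hb
    · exact absurd (MulAction.injective y (ha.trans hb.symm)) hab
    · exact hb
  · rcases hb with hb | hb
    · exact absurd (eq_of_swap_odd y m hm hy a b ha hb) hab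
    · exact absurd (MulAction.injective y (ha.trans hb.symm)) hab

/-- Let G be a finite group acting faithfully and transitively on a finite set Ω with fixity k ≥ 1: every non-identity element fixes at most k points and some non-identity element fixes exactly k points. Then |Z(G)| divides k; if k = 2 then |G| is even; and for every prime p > k dividing |G| and every point α, either p does not divide |G_α| or G_α contains a Sylow p-subgroup of G. -/
theorem result {G : Type*} [Group G] [Finite G] {Ω : Type*} [Fintype Ω] [MulAction G Ω] [FaithfulSMul G Ω]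
    (htr : MulAction.IsPretransitive G Ω) (k : ℕ) (hk : 1 ≤ k)
    (hfix : ∀ g : G, g ≠ 1 → Nat.card (MulAction.fixedBy Ω g) ≤ k) (hex : ∃ g : G, g ≠ 1 ∧ Nat.card (MulAction.fixedBy Ω g) = k) :
    Nat.card (Subgroup.center G) ∣ k ∧ (k = 2 → 2 ∣ Nat.card G) ∧
      ∀ (p : ℕ), p.Prime → k < p → p ∣ Nat.card G → ∀ α : Ω,
        ¬ p ∣ Nat.card (MulAction.stabilizer G α) ∨ ¬ p ∣ (MulAction.stabilizer G α).index := by
  classical
  refine ⟨?_, ?_, ?_⟩
  · -- the centre acts semiregularly and preserves the fixed points of `g`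
    obtain ⟨g, hg1, hg2⟩ := hex
    rw [← hg2, Nat.card_coe_set_eq]
    apply dvd_ncard_of_orbits (A := Subgroup.center G) (Nat.card (Subgroup.center G))
      (MulAction.fixedBy Ω g).ncard (MulAction.fixedBy Ω g) le_rfl
    · intro x _
      have hstab : MulAction.stabilizer (Subgroup.center G) x = ⊥ := by
        rw [Subgroup.eq_bot_iff_forall]
        intro z hz
        rw [MulAction.mem_stabilizer_iff] at hz
        apply Subtype.ext
        apply FaithfulSMul.eq_of_smul_eq_smul (α := Ω)
        intro y
        obtain ⟨h, rfl⟩ := MulAction.exists_smul_eq G x y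
        have hc : h * (z : G) = (z : G) * h := Subgroup.mem_center_iff.mp z.2 h
        show (z : G) • h • x = (1 : G) • h • x
        rw [← mul_smul, ← hc, mul_smul, one_smul]
        congr 1
      rw [← MulAction.index_stabilizer, hstab, Subgroup.index_bot]
    · intro z x hx
      rw [MulAction.mem_fixedBy] at hx ⊢
      have hc : g * (z : G) = (z : G) * g := Subgroup.mem_center_iff.mp z.2 g
      show g • (z : G) • x = (z : G) • x
      rw [← mul_smul, hc, mul_smul, hx]
  · intro hk2
    subst hk2
    obtain ⟨g, hg1, hg2⟩ := hex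
    have hord : orderOf g ≠ 1 := fun h => hg1 (orderOf_eq_one_iff.mp h)
    obtain ⟨p, hp, hpd⟩ := Nat.exists_prime_and_dvd hord
    by_cases hp2 : p = 2
    · rw [← hp2]
      exact dvd_trans hpd (orderOf_dvd_natCard g)
    have hpodd : Odd p := hp.odd_of_ne_two hp2
    have hpfact : Fact p.Prime := ⟨hp⟩
    have hg'ord : orderOf (g ^ (orderOf g / p)) = p :=
      orderOf_pow_orderOf_div (orderOf_pos g).ne' hpd
    have hg'1 : g ^ (orderOf g / p) ≠ 1 := by
      intro h
      rw [h, orderOf_one] at hg'ord
      exact hp.ne_one hg'ord.symm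
    have hsub : MulAction.fixedBy Ω g ⊆ MulAction.fixedBy Ω (g ^ (orderOf g / p)) := by
      intro ω hω
      exact (MulAction.stabilizer G ω).pow_mem hω _
    have hF2 : (MulAction.fixedBy Ω (g ^ (orderOf g / p))).ncard = 2 := by
      have h1 : (MulAction.fixedBy Ω (g ^ (orderOf g / p))).ncard ≤ 2 := by
        rw [← Nat.card_coe_set_eq]
        exact hfix _ hg'1
      have h2 : (MulAction.fixedBy Ω g).ncard = 2 := by
        rw [← Nat.card_coe_set_eq]
        exact hg2
      have h3 := Set.ncard_le_ncard hsub (Set.toFinite _)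
      omega
    obtain ⟨a, b, hab, hF⟩ := Set.ncard_eq_two.mp hF2
    have hpg : IsPGroup p (Subgroup.zpowers (g ^ (orderOf g / p))) :=
      IsPGroup.of_card (n := 1) (by rw [Nat.card_zpowers, hg'ord, pow_one])
    obtain ⟨P, hP⟩ := hpg.exists_le_sylow
    have hg'P : g ^ (orderOf g / p) ∈ (P : Subgroup G) := hP (Subgroup.mem_zpowers _)
    have hPodd : ∀ x ∈ (P : Subgroup G), ∃ m, Odd m ∧ x ^ m = 1 := by
      intro x hx
      obtain ⟨n, hn⟩ := P.isPGroup' ⟨x, hx⟩
      exact ⟨p ^ n, hpodd.pow, by simpa using congrArg Subtype.val hn⟩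
    have hPnt : Nontrivial (P : Subgroup G) :=
      ⟨⟨⟨g ^ (orderOf g / p), hg'P⟩, 1, fun h => hg'1 (congrArg Subtype.val h)⟩⟩
    have hcn : Nontrivial (Subgroup.center (P : Subgroup G)) := P.isPGroup'.center_nontrivial
    obtain ⟨⟨z, hz⟩, hz1⟩ := exists_ne (1 : Subgroup.center (P : Subgroup G))
    have hz1' : (z : G) ≠ 1 := by
      intro h
      apply hz1
      apply Subtype.ext
      apply Subtype.ext
      exact h
    have hzcomm : ∀ x ∈ (P : Subgroup G), x * (z : G) = (z : G) * x := by
      intro x hx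
      have h1 := Subgroup.mem_center_iff.mp hz ⟨x, hx⟩
      exact congrArg Subtype.val h1
    have hinv : ∀ x y : G, x * y = y * x → ∀ ω ∈ MulAction.fixedBy Ω y,
        x • ω ∈ MulAction.fixedBy Ω y := by
      intro x y hxy ω hω
      rw [MulAction.mem_fixedBy] at hω ⊢
      rw [← mul_smul, ← hxy, mul_smul, hω]
    have hmemF : ∀ ω, ω ∈ MulAction.fixedBy Ω (g ^ (orderOf g / p)) ↔ ω = a ∨ ω = b := by
      intro ω
      rw [hF]
      simp
    have hzab : (z : G) • a = a ∧ (z : G) • b = b := by
      obtain ⟨m, hm, hzm⟩ := hPodd z z.2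
      apply fix_pair_of_odd (z : G) m hm hzm a b hab
      · exact (hmemF _).mp (hinv z _ (hzcomm _ hg'P).symm a ((hmemF a).mpr (Or.inl rfl)))
      · exact (hmemF _).mp (hinv z _ (hzcomm _ hg'P).symm b ((hmemF b).mpr (Or.inr rfl)))
    have hFz : MulAction.fixedBy Ω (z : G) = {a, b} := by
      symm
      apply Set.eq_of_subset_of_ncard_le
      · intro ω hω
        rcases hω with rfl | rfl
        · exact hzab.1
        · exact hzab.2
      · rw [Set.ncard_pair hab, ← Nat.card_coe_set_eq]
        exact hfix z hz1'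
      · exact Set.toFinite _
    have hmemz : ∀ ω, ω ∈ MulAction.fixedBy Ω (z : G) ↔ ω = a ∨ ω = b := by
      intro ω
      rw [hFz]
      simp
    have hPab : ∀ x ∈ (P : Subgroup G), x • a = a ∧ x • b = b := by
      intro x hx
      obtain ⟨m, hm, hxm⟩ := hPodd x hx
      apply fix_pair_of_odd x m hm hxm a b hab
      · exact (hmemz _).mp (hinv x z (hzcomm x hx) a ((hmemz a).mpr (Or.inl rfl)))
      · exact (hmemz _).mp (hinv x z (hzcomm x hx) b ((hmemz b).mpr (Or.inr rfl)))
    obtain ⟨h, hh⟩ := MulAction.exists_smul_eq G a b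
    have hPb : (P : Subgroup G) ≤ MulAction.stabilizer G b := fun x hx => (hPab x hx).2
    have hQb : ((h • P : Sylow p G) : Subgroup G) ≤ MulAction.stabilizer G b := by
      intro x hx
      rw [Sylow.coe_subgroup_smul, Subgroup.mem_smul_pointwise_iff_exists] at hx
      obtain ⟨s, hs, rfl⟩ := hx
      have h1 : h⁻¹ • b = a := by rw [← hh, inv_smul_smul]
      rw [MulAction.mem_stabilizer_iff, MulAut.smul_def, MulAut.conj_apply, mul_smul, mul_smul,
        h1, (hPab s hs).1, hh]
    obtain ⟨c, hc, hcP⟩ := sylow_conj_in_subgroup (MulAction.stabilizer G b) P (h • P) hPb hQb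
    have hmP : (c * h) • P = P := by
      rw [mul_smul]
      exact hcP
    have hmN : c * h ∈ Subgroup.normalizer ((P : Subgroup G) : Set G) :=
      Sylow.smul_eq_iff_mem_normalizer.mp hmP
    have hma : (c * h) • a = b := by
      rw [mul_smul, hh]
      exact hc
    have hmb : (c * h) • b = a := by
      have hzfix : (z : G) • ((c * h) • b) = (c * h) • b := by
        have h1 : (c * h)⁻¹ * (z : G) * (c * h) ∈ (P : Subgroup G) :=
          (Subgroup.mem_normalizer_iff''.mp hmN (z : G)).mp z.2
        have h2 := (hPab _ h1).2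
        calc (z : G) • ((c * h) • b) = (c * h) • (((c * h)⁻¹ * (z : G) * (c * h)) • b) := by
              simp [mul_smul]
          _ = (c * h) • b := by rw [h2]
      rcases (hmemz _).mp hzfix with h1 | h1
      · exact h1
      · exfalso
        apply hab
        have h3 : (c * h) • b = (c * h) • a := by rw [h1, hma]
        exact (MulAction.injective (c * h) h3).symm
    by_contra hodd
    have hoddm : Odd (orderOf (c * h)) :=
      Nat.not_even_iff_odd.mp
        (fun he => hodd (dvd_trans (even_iff_two_dvd.mp he) (orderOf_dvd_natCard _)))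
    exact hab (eq_of_swap_odd (c * h) _ hoddm (pow_orderOf_eq_one _) a b hma hmb)
  · intro p hp hkp hpG α
    by_cases hd : p ∣ Nat.card (MulAction.stabilizer G α)
    · right
      have hpfact : Fact p.Prime := ⟨hp⟩
      obtain ⟨x, hx⟩ := exists_prime_orderOf_dvd_card' p hd
      have hxG : orderOf (x : G) = p := by rw [Subgroup.orderOf_coe, hx]
      have hx1 : (x : G) ≠ 1 := by
        intro h
        rw [h, orderOf_one] at hxG
        exact hp.ne_one hxG.symm
      have hpg : IsPGroup p (Subgroup.zpowers (x : G)) :=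
        IsPGroup.of_card (n := 1) (by rw [Nat.card_zpowers, hxG, pow_one])
      have hmod := hpg.card_modEq_card_fixedPoints (α := Ω)
      have hle : Nat.card (MulAction.fixedPoints (Subgroup.zpowers (x : G)) Ω) ≤ k := by
        refine le_trans ?_ (hfix (x : G) hx1)
        rw [Nat.card_coe_set_eq, Nat.card_coe_set_eq]
        apply Set.ncard_le_ncard _ (Set.toFinite _)
        intro ω hω
        exact hω ⟨(x : G), Subgroup.mem_zpowers _⟩
      have hpos : 0 < Nat.card (MulAction.fixedPoints (Subgroup.zpowers (x : G)) Ω) := by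
        have hne : Nonempty (MulAction.fixedPoints (Subgroup.zpowers (x : G)) Ω) := by
          refine ⟨⟨α, ?_⟩⟩
          rintro ⟨y, hy⟩
          obtain ⟨n, rfl⟩ := Subgroup.mem_zpowers_iff.mp hy
          exact (MulAction.stabilizer G α).zpow_mem x.2 n
        exact Nat.card_pos
      rw [MulAction.index_stabilizer_of_transitive]
      intro hdvd
      have h0 : Nat.card Ω ≡ 0 [MOD p] := (Nat.modEq_zero_iff_dvd).mpr hdvd
      have h1 := hmod.symm.trans h0
      have h2 := (Nat.modEq_zero_iff_dvd).mp h1
      have h3 := Nat.le_of_dvd hpos h2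
      omega
    · left
      exact hd

end Cfsg.Agent.S3389
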