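import Cfsg.Statements.S3498
import Cfsg.Agent.Lib.Helper19.PComp

set_option autoImplicit false
open Cfsg

namespace Cfsg.Agent.S3498

open Cfsg.Agent.Lib.Helper19

/-- A maximal subgroup of a finite almost simple group does not have prime order. Here G is almost simple in the sense that it has a non-abelian simple normal subgroup T with trivial centralizer. -/
theorem result {G : Type*} [Group G] [Finite G] (T : Subgroup G) [T.Normal] (hT : IsSimpleGroup T) (hTc : ¬ IsMulCommutative T)
    (hC : Subgroup.centralizer (T : Set G) = ⊥) (H : Subgroup G) (hmax : IsCoatom H) : ¬ (Nat.card H).Prime := by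
  intro hprime
  have hfact : Fact (Nat.card H).Prime := ⟨hprime⟩
  obtain ⟨p, hpdef⟩ : ∃ p, Nat.card H = p := ⟨_, rfl⟩
  have hpprime : p.Prime := hpdef ▸ hprime
  have hfactp : Fact p.Prime := ⟨hpprime⟩
  have hcyc : IsCyclic H := isCyclic_of_prime_card (p := p) hpdef
  have hHcomm : ∀ x ∈ H, ∀ y ∈ H, x * y = y * x := by
    intro x hx y hy
    obtain ⟨g, hg⟩ := IsCyclic.exists_generator (α := H)
    obtain ⟨m, hm⟩ := hg ⟨x, hx⟩
    obtain ⟨n, hn⟩ := hg ⟨y, hy⟩
    have h1 : (⟨x, hx⟩ : H) * ⟨y, hy⟩ = ⟨y, hy⟩ * ⟨x, hx⟩ := by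
      rw [← hm, ← hn]
      exact (Commute.zpow_zpow_self g m n).eq
    exact congrArg Subtype.val h1
  have hHne : H ≠ ⊥ := by
    intro h
    rw [h] at hprime
    simp at hprime
    exact Nat.not_prime_one hprime
  have hT_not_le_comm : ∀ (S : Subgroup G), (∀ x ∈ S, ∀ y ∈ S, x * y = y * x) → ¬ T ≤ S := by
    intro S hS hTS
    exact hTc ⟨⟨fun a b => Subtype.ext (hS a (hTS a.2) b (hTS b.2))⟩⟩
  -- `H` is not normal
  have hnotnormal : ¬ H.Normal := by
    intro hHn
    rcases (T.subgroupOf H).eq_bot_or_eq_top_of_prime_card with h | h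
    · rw [Subgroup.subgroupOf_eq_bot] at h
      have hcent : H ≤ Subgroup.centralizer (T : Set G) := by
        intro x hx
        rw [Subgroup.mem_centralizer_iff]
        intro t ht
        exact (Subgroup.commute_of_normal_of_disjoint T H inferInstance hHn h t x ht hx).eq
      rw [hC] at hcent
      exact hHne (le_bot_iff.mp hcent)
    · rw [Subgroup.subgroupOf_eq_top] at h
      have hn' : (H.subgroupOf T).Normal := hHn.subgroupOf T
      rcases hn'.eq_bot_or_eq_top with h2 | h2
      · rw [Subgroup.subgroupOf_eq_bot, disjoint_iff, inf_eq_left.mpr h] at h2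
        exact hHne h2
      · rw [Subgroup.subgroupOf_eq_top] at h2
        exact hT_not_le_comm H hHcomm h2
  have hNH : Subgroup.normalizer (H : Set G) = H := by
    rcases hmax.le_iff.mp Subgroup.le_normalizer with h | h
    · exact absurd (Subgroup.normalizer_eq_top_iff.mp h) hnotnormal
    · exact h
  have hpg : IsPGroup p H := IsPGroup.of_card (n := 1) (by rw [pow_one, hpdef])
  obtain ⟨P, hP⟩ := sylow_of_normalizer_eq p H hpg hNH
  have hPN : Subgroup.normalizer ((P : Subgroup G) : Set G) ≤ Subgroup.centralizer (P : Set G) := by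
    rw [hP, hNH]
    intro x hx
    rw [Subgroup.mem_centralizer_iff]
    intro y hy
    have hy' : y ∈ H := by rw [← hP]; exact hy
    exact hHcomm y hy' x hx
  have hcompl0 := MonoidHom.ker_transferSylow_isComplement' P hPN
  obtain ⟨K, hKn, hcompl⟩ : ∃ K : Subgroup G, K.Normal ∧ K.IsComplement' H :=
    ⟨(MonoidHom.transferSylow P hPN).ker, MonoidHom.normal_ker _, by rw [← hP]; exact hcompl0⟩
  -- `T ≤ K`
  have hTK : T ≤ K := by
    have hn' : (K.subgroupOf T).Normal := hKn.subgroupOf T
    rcases hn'.eq_bot_or_eq_top with h2 | h2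
    · exfalso
      rw [Subgroup.subgroupOf_eq_bot] at h2
      have hcent : K ≤ Subgroup.centralizer (T : Set G) := by
        intro x hx
        rw [Subgroup.mem_centralizer_iff]
        intro t ht
        exact (Subgroup.commute_of_normal_of_disjoint T K inferInstance hKn h2.symm t x ht hx).eq
      rw [hC] at hcent
      have hK0 : K = ⊥ := le_bot_iff.mp hcent
      rw [hK0] at hcompl
      exact hmax.1 (Subgroup.isComplement'_bot_left.mp hcompl)
    · exact Subgroup.subgroupOf_eq_top.mp h2
  have hcard : Nat.card K * Nat.card H = Nat.card G := hcompl.card_mul_card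
  have hpK : ¬ p ∣ Nat.card K := by
    have h1 := P.not_dvd_index
    have h2 : (P : Subgroup G).index = Nat.card K := by
      rw [hP]
      have h3 := Subgroup.card_mul_index H
      have h4 : Nat.card H * H.index = Nat.card H * Nat.card K := by rw [h3, ← hcard, mul_comm]
      exact Nat.eq_of_mul_eq_mul_left hprime.pos h4
    rwa [h2] at h1
  have hKnt : Nat.card K ≠ 1 := by
    intro h1
    have hK0 : K = ⊥ := Subgroup.card_eq_one.mp h1
    rw [hK0] at hTK
    exact hT_not_le_comm ⊥ (by
      intro x hx y hy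
      rw [Subgroup.mem_bot] at hx hy
      rw [hx, hy]) hTK
  obtain ⟨q, hq, hqK⟩ := Nat.exists_prime_and_dvd hKnt
  have hqfact : Fact q.Prime := ⟨hq⟩
  obtain ⟨Q, hQ⟩ := exists_invariant_sylow p q K H hpg hpK
  have hXK : (Q : Subgroup K).map K.subtype ≤ K := Subgroup.map_subtype_le _
  have hXcard : Nat.card ((Q : Subgroup K).map K.subtype) = Nat.card Q :=
    Nat.card_congr (Subgroup.equivMapOfInjective _ _ K.subtype_injective).symm.toEquiv
  have hqX : q ∣ Nat.card ((Q : Subgroup K).map K.subtype) := by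
    rw [hXcard]
    exact Q.dvd_card_of_dvd_card hqK
  have hXne : (Q : Subgroup K).map K.subtype ≠ ⊥ := by
    intro h
    rw [h] at hqX
    simp at hqX
    exact hq.ne_one hqX
  have hXK' : (Q : Subgroup K).map K.subtype ≠ K := by
    intro h
    have hXq : IsPGroup q ((Q : Subgroup K).map K.subtype) := (Q.isPGroup').map _
    rw [h] at hXq
    have hTq : IsPGroup q T := hXq.to_le hTK
    have hcn : Nontrivial (Subgroup.center T) := hTq.center_nontrivial
    have hcn' : (Subgroup.center T) ≠ ⊥ := (Subgroup.nontrivial_iff_ne_bot _).mp hcn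
    rcases (inferInstance : (Subgroup.center T).Normal).eq_bot_or_eq_top with h' | h'
    · exact hcn' h'
    · exact hTc ⟨⟨fun a b => by
        have ha : a ∈ Subgroup.center T := by rw [h']; trivial
        exact (Subgroup.mem_center_iff.mp ha b).symm⟩⟩
  have hlt : H < (Q : Subgroup K).map K.subtype ⊔ H := by
    refine lt_of_le_of_ne le_sup_right ?_
    intro h
    have hXH : (Q : Subgroup K).map K.subtype ≤ H := by
      rw [h]
      exact le_sup_left
    have hdis : Disjoint K H := hcompl.disjoint
    have h5 : (Q : Subgroup K).map K.subtype ≤ K ⊓ H := le_inf hXK hXH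
    rw [disjoint_iff.mp hdis] at h5
    exact hXne (le_bot_iff.mp h5)
  have htop : (Q : Subgroup K).map K.subtype ⊔ H = ⊤ := hmax.2 _ hlt
  have hle : Nat.card ((Q : Subgroup K).map K.subtype ⊔ H : Subgroup G) ≤
      Nat.card ((Q : Subgroup K).map K.subtype) * Nat.card H := by
    have hdec := exists_mul_of_mem_sup ((Q : Subgroup K).map K.subtype) H hQ
    let φ : ((Q : Subgroup K).map K.subtype) × H → ((Q : Subgroup K).map K.subtype ⊔ H : Subgroup G) :=
      fun z => ⟨z.1.1 * z.2.1, Subgroup.mul_mem _
        ((le_sup_left : (Q : Subgroup K).map K.subtype ≤ (Q : Subgroup K).map K.subtype ⊔ H) z.1.2)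
        ((le_sup_right : H ≤ (Q : Subgroup K).map K.subtype ⊔ H) z.2.2)⟩
    have hsurj : Function.Surjective φ := by
      rintro ⟨x, hx⟩
      obtain ⟨a, ha, b, hb, rfl⟩ := hdec x hx
      exact ⟨(⟨a, ha⟩, ⟨b, hb⟩), rfl⟩
    have h6 := Nat.card_le_card_of_surjective φ hsurj
    rwa [Nat.card_prod] at h6
  have hXlt : Nat.card ((Q : Subgroup K).map K.subtype) < Nat.card K := by
    have h1 : Nat.card ((Q : Subgroup K).map K.subtype) ≤ Nat.card K := Subgroup.card_le_of_le hXK
    rcases h1.lt_or_eq with h2 | h2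
    · exact h2
    · exact absurd (Subgroup.eq_of_le_of_card_ge hXK h2.ge) hXK'
  rw [htop, Subgroup.card_top] at hle
  have h7 : Nat.card ((Q : Subgroup K).map K.subtype) * Nat.card H < Nat.card K * Nat.card H :=
    Nat.mul_lt_mul_of_pos_right hXlt hprime.pos
  omega

end Cfsg.Agent.S3498
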