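import Cfsg.Statements.S3504
-- import your own Cfsg.Agent.* helpers here

set_option autoImplicit false
open Cfsg

namespace Cfsg.Agent.S3504

theorem lcm_replicate_succ (k p : ℕ) : (Multiset.replicate (k + 1) p).lcm = p := by
  induction k with
  | zero => simp
  | succ k ih =>
    rw [Multiset.replicate_succ, Multiset.lcm_cons, ih]
    simp

/-- A fixed-point-free permutation of prime order `q` of `Fin n` has cycle type `q ^ (n / q)`. -/
theorem cycleType_of_fpf (n : ℕ) (g : Equiv.Perm (Fin n)) (hg : (orderOf g).Prime)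
    (hfpf : ∀ i, g i ≠ i) :
    orderOf g ∣ n ∧ g.cycleType = Multiset.replicate (n / orderOf g) (orderOf g) := by
  obtain ⟨k, hk⟩ := Equiv.Perm.cycleType_prime_order hg
  have hsupp : g.support = Finset.univ := by
    ext i
    simp [hfpf i]
  have hsum : g.cycleType.sum = n := by
    rw [Equiv.Perm.sum_cycleType, hsupp]
    simp
  rw [hk, Multiset.sum_replicate, smul_eq_mul] at hsum
  have hdiv : n / orderOf g = k + 1 := Nat.div_eq_of_eq_mul_left hg.pos hsum.symm
  exact ⟨Dvd.intro_left (k + 1) hsum, by rw [hk, hdiv]⟩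

/-- For a prime divisor of `n` there is a fixed-point-free permutation of that order. -/
theorem exists_fpf (n p : ℕ) (hn : 0 < n) (hp : p.Prime) (hpn : p ∣ n) :
    ∃ g : Equiv.Perm (Fin n), orderOf g = p ∧ (∀ i, g i ≠ i) ∧
      g.cycleType = Multiset.replicate (n / p) p := by
  obtain ⟨g, hg⟩ := (Equiv.Perm.exists_with_cycleType_iff (Fin n)
    (m := Multiset.replicate (n / p) p)).mpr
    ⟨by rw [Multiset.sum_replicate, smul_eq_mul, Fintype.card_fin]; exact Nat.div_mul_le_self n p,
     fun a ha => by rw [Multiset.eq_of_mem_replicate ha]; exact hp.two_le⟩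
  refine ⟨g, ?_, ?_, hg⟩
  · rw [← Equiv.Perm.lcm_cycleType, hg]
    have h1 : 1 ≤ n / p := Nat.div_pos (Nat.le_of_dvd hn hpn) hp.pos
    obtain ⟨k, hk⟩ : ∃ k, n / p = k + 1 := ⟨n / p - 1, by omega⟩
    rw [hk, lcm_replicate_succ]
  · have hsum : g.support.card = n := by
      rw [← Equiv.Perm.sum_cycleType, hg, Multiset.sum_replicate, smul_eq_mul]
      exact Nat.div_mul_cancel hpn
    have hsupp : g.support = Finset.univ := Finset.eq_univ_of_card _ (by simp [hsum])
    intro i
    have hi : i ∈ g.support := by rw [hsupp]; exact Finset.mem_univ i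
    exact Equiv.Perm.mem_support.mp hi

/-- For n ≥ 5, the fixed-point-free permutations of prime order in the symmetric group of degree n form a single conjugacy class if and only if n is a prime power. -/
theorem result (n : ℕ) (hn : 5 ≤ n) :
    Nat.card {c : ConjClasses (Equiv.Perm (Fin n)) // ∃ g : Equiv.Perm (Fin n), ConjClasses.mk g = c ∧ (orderOf g).Prime ∧ ∀ i : Fin n, g i ≠ i} = 1 ↔ IsPrimePow n := by
  classical
  rw [isPrimePow_iff_card_primeFactors_eq_one]
  have key : Nat.card {c : ConjClasses (Equiv.Perm (Fin n)) // ∃ g : Equiv.Perm (Fin n),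
      ConjClasses.mk g = c ∧ (orderOf g).Prime ∧ ∀ i : Fin n, g i ≠ i} = n.primeFactors.card := by
    rw [← Fintype.card_coe, ← Nat.card_eq_fintype_card]
    apply Nat.card_congr
    symm
    have hex : ∀ p : n.primeFactors, ∃ g : Equiv.Perm (Fin n), orderOf g = (p : ℕ) ∧
        (∀ i, g i ≠ i) ∧ g.cycleType = Multiset.replicate (n / (p : ℕ)) (p : ℕ) := fun p =>
      exists_fpf n p (by omega) (Nat.prime_of_mem_primeFactors p.2)
        (Nat.dvd_of_mem_primeFactors p.2)
    choose G hG1 hG2 hG3 using hex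
    refine Equiv.ofBijective (fun p => ⟨ConjClasses.mk (G p), G p, rfl,
      by rw [hG1]; exact Nat.prime_of_mem_primeFactors p.2, hG2 p⟩) ⟨?_, ?_⟩
    · intro p q hpq
      have h1 : ConjClasses.mk (G p) = ConjClasses.mk (G q) := congrArg Subtype.val hpq
      rw [ConjClasses.mk_eq_mk_iff_isConj, Equiv.Perm.isConj_iff_cycleType_eq] at h1
      have h2 : orderOf (G p) = orderOf (G q) := by
        rw [← Equiv.Perm.lcm_cycleType, ← Equiv.Perm.lcm_cycleType, h1]
      apply Subtype.ext
      rw [← hG1 p, ← hG1 q, h2]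
    · rintro ⟨c, g, rfl, hg, hfpf⟩
      obtain ⟨hdvd, hct⟩ := cycleType_of_fpf n g hg hfpf
      have hmem : orderOf g ∈ n.primeFactors := Nat.mem_primeFactors.mpr ⟨hg, hdvd, by omega⟩
      refine ⟨⟨orderOf g, hmem⟩, ?_⟩
      apply Subtype.ext
      show ConjClasses.mk (G ⟨orderOf g, hmem⟩) = ConjClasses.mk g
      rw [ConjClasses.mk_eq_mk_iff_isConj, Equiv.Perm.isConj_iff_cycleType_eq, hG3, hct]
  rw [key]

end Cfsg.Agent.S3504
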