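import Cfsg.Statements.S3508
import Mathlib

set_option autoImplicit false
open Cfsg

namespace Cfsg.Agent.S3508

theorem lin (p : ℕ) [hp : Fact p.Prime] {M : Type*} [AddCommGroup M] [Module (ZMod p) M] [Finite M]
    (m r k : ℕ) (hcard : Nat.card M = p ^ m) (A : Module.End (ZMod p) M) (hA : A ^ (p ^ r) = 1)
    (hk : m < p ^ k) :
    A ^ (p ^ k) = 1 ∧ ∑ i ∈ Finset.range (p ^ k), A ^ i = 0 := by
  classical
  haveI : Module.Finite (ZMod p) M := Module.Finite.of_finite
  have hfr : Module.finrank (ZMod p) M = m := by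
    have h1 := Module.natCard_eq_pow_finrank (K := ZMod p) (V := M)
    rw [hcard, Nat.card_zmod] at h1
    exact (Nat.pow_right_injective hp.out.two_le h1).symm
  have hP1 : ∀ n : ℕ, ((Polynomial.X : Polynomial (ZMod p)) - 1) ^ (p ^ n)
      = Polynomial.X ^ (p ^ n) - 1 := by
    intro n
    rw [sub_pow_char_pow, one_pow]
  have hX1 : ((Polynomial.X : Polynomial (ZMod p)) - 1) ≠ 0 := by
    have := Polynomial.X_sub_C_ne_zero (1 : ZMod p)
    simpa using this
  have hP2 : ∀ n : ℕ, ∑ i ∈ Finset.range (p ^ n), (Polynomial.X : Polynomial (ZMod p)) ^ i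
      = (Polynomial.X - 1) ^ (p ^ n - 1) := by
    intro n
    have h1 : (∑ i ∈ Finset.range (p ^ n), (Polynomial.X : Polynomial (ZMod p)) ^ i)
        * (Polynomial.X - 1) = (Polynomial.X - 1) ^ (p ^ n - 1) * (Polynomial.X - 1) := by
      rw [geom_sum_mul, ← pow_succ, Nat.sub_add_cancel (Nat.one_le_pow _ _ hp.out.pos), hP1]
    exact mul_right_cancel₀ hX1 h1
  have hae : ∀ n : ℕ, Polynomial.aeval A (((Polynomial.X : Polynomial (ZMod p)) - 1) ^ n)
      = (A - 1) ^ n := by
    intro n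
    simp
  have hD1 : (A - 1) ^ (p ^ r) = 0 := by
    rw [← hae, hP1]
    simp [hA]
  have hDm : (A - 1) ^ m = 0 := by
    have h1 := Module.End.ker_pow_le_ker_pow_finrank (A - 1) (p ^ r)
    rw [hD1, hfr] at h1
    have h2 : LinearMap.ker ((A - 1) ^ m) = ⊤ := top_le_iff.mp (by simpa using h1)
    exact LinearMap.ker_eq_top.mp h2
  have hDn : ∀ n, m ≤ n → (A - 1) ^ n = 0 := by
    intro n hn
    rw [← Nat.sub_add_cancel hn, pow_add, hDm, mul_zero]
  constructor
  · have h1 := hae (p ^ k)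
    rw [hP1, hDn _ hk.le] at h1
    simpa [sub_eq_zero] using h1
  · have h1 := hae (p ^ k - 1)
    rw [← hP2, hDn _ (by omega)] at h1
    simpa using h1

theorem arith2 : ∀ k : ℕ, k + 3 < 2 ^ (k + 2) := by
  intro k
  induction k with
  | zero => norm_num
  | succ k ih => rw [pow_succ]; omega

theorem arith3 : ∀ k : ℕ, k + 2 < 3 ^ (k + 1) := by
  intro k
  induction k with
  | zero => norm_num
  | succ k ih => rw [pow_succ]; omega

theorem step {G : Type*} [Group G] (g u h P : G) (n : ℕ) (hgu : g = u * h)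
    (ih : g ^ n = P * h ^ n)
    (hc : g ^ n * u * (g ^ n)⁻¹ * P = P * (g ^ n * u * (g ^ n)⁻¹)) :
    g ^ (n + 1) = P * (g ^ n * u * (g ^ n)⁻¹) * h ^ (n + 1) := by
  calc g ^ (n + 1) = g ^ n * g := pow_succ g n
    _ = g ^ n * (u * h) := congrArg (g ^ n * ·) hgu
    _ = (g ^ n * u * (g ^ n)⁻¹) * g ^ n * h := by group
    _ = (g ^ n * u * (g ^ n)⁻¹) * (P * h ^ n) * h := by rw [← ih]
    _ = (g ^ n * u * (g ^ n)⁻¹ * P) * h ^ n * h := by simp only [mul_assoc]
    _ = (P * (g ^ n * u * (g ^ n)⁻¹)) * h ^ n * h := by rw [hc]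
    _ = P * (g ^ n * u * (g ^ n)⁻¹) * h ^ (n + 1) := by simp only [pow_succ, mul_assoc]

theorem core {G : Type*} [Group G] [Finite G] {Ω : Type*} [Fintype Ω] [MulAction G Ω]
    [FaithfulSMul G Ω] (p m : ℕ) (hp : p.Prime) (hcard : Fintype.card Ω = p ^ m)
    (N : Subgroup G) [hNn : N.Normal] (hNc : ∀ a ∈ N, ∀ b ∈ N, a * b = b * a)
    (hNp : ∀ n ∈ N, n ^ p = 1)
    (hNtr : MulAction.IsPretransitive N Ω) (hNreg : ∀ ω : Ω, MulAction.stabilizer N ω = ⊥)
    (g : G) (r k : ℕ) (hg : g ^ (p ^ r) = 1) (hk : m < p ^ k) : g ^ (p ^ k) = 1 := by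
  classical
  haveI : Fact p.Prime := ⟨hp⟩
  have hne : Nonempty Ω := by
    rw [← Fintype.card_pos_iff, hcard]
    exact Nat.pow_pos hp.pos
  obtain ⟨ω⟩ := hne
  -- |N| = p ^ m
  have hNcard : Nat.card N = p ^ m := by
    rw [← hcard, ← Nat.card_eq_fintype_card]
    apply Nat.card_congr
    refine Equiv.ofBijective (fun n : N => n • ω) ⟨?_, ?_⟩
    · intro a b hab
      have h1 : b⁻¹ * a ∈ MulAction.stabilizer N ω := by
        rw [MulAction.mem_stabilizer_iff, mul_smul]
        show b⁻¹ • (a • ω) = ω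
        rw [show a • ω = b • ω from hab, inv_smul_smul]
      rw [hNreg ω, Subgroup.mem_bot] at h1
      exact (inv_mul_eq_one.mp h1).symm
    · intro ω'
      exact MulAction.exists_smul_eq N ω ω'
  -- centralizing elements fixing ω are trivial
  have hself : ∀ c : G, (∀ a ∈ N, c * a = a * c) → c • ω = ω → c = 1 := by
    intro c hc hcω
    apply FaithfulSMul.eq_of_smul_eq_smul (α := Ω)
    intro ω'
    obtain ⟨a, ha⟩ := MulAction.exists_smul_eq N ω ω'
    have ha' : (a : G) • ω = ω' := ha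
    rw [← ha', one_smul, ← mul_smul, hc a a.2, mul_smul, hcω]
  obtain ⟨u, hu⟩ := MulAction.exists_smul_eq N ω (g • ω)
  have hu' : (u : G) • ω = g • ω := hu
  obtain ⟨h, hh⟩ : ∃ h : G, h = (u : G)⁻¹ * g := ⟨_, rfl⟩
  have hhω : h • ω = ω := by
    rw [hh, mul_smul, ← hu', inv_smul_smul]
  have hgu : g = (u : G) * h := by rw [hh, mul_inv_cancel_left]
  letI : CommGroup N := { (inferInstance : Group N) with
    mul_comm := fun a b => Subtype.ext (hNc a a.2 b b.2) }
  have hexp' : ∀ x : Additive N, p • x = 0 := by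
    intro x
    have h1 : (Additive.toMul x) ^ p = 1 :=
      Subtype.ext (by rw [Subgroup.coe_pow]; exact hNp _ (Additive.toMul x).2)
    exact congrArg Additive.ofMul h1
  letI : Module (ZMod p) (Additive N) := @AddCommGroup.zmodModule p (Additive N) _ hexp'
  haveI : Finite (Additive N) := inferInstanceAs (Finite N)
  let A : Module.End (ZMod p) (Additive N) :=
    (MonoidHom.toAdditive ((MulAut.conjNormal g : MulAut N).toMonoidHom)).toZModLinearMap p
  have hA : ∀ a : N, A (Additive.ofMul a) = Additive.ofMul (MulAut.conjNormal g a) := fun a => rfl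
  have hpow : ∀ (n : ℕ) (a : N),
      (A ^ n) (Additive.ofMul a) = Additive.ofMul (MulAut.conjNormal (g ^ n) a) := by
    intro n
    induction n with
    | zero =>
      intro a
      rw [pow_zero, pow_zero, map_one]
      rfl
    | succ n ih =>
      intro a
      rw [pow_succ, Module.End.mul_apply, hA, ih, pow_succ, map_mul]
      rfl
  have hAr : A ^ (p ^ r) = 1 := by
    apply LinearMap.ext
    intro x
    show (A ^ (p ^ r)) (Additive.ofMul (Additive.toMul x)) = _
    rw [hpow, hg, map_one]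
    rfl
  have hNcard' : Nat.card (Additive N) = p ^ m := hNcard
  obtain ⟨hAk, hsum⟩ := lin (M := Additive N) p m r k hNcard' A hAr hk
  -- the product formula
  have hform : ∀ n : ℕ, g ^ n =
      ((Additive.toMul (∑ i ∈ Finset.range n, (A ^ i) (Additive.ofMul u)) : N) : G) * h ^ n := by
    intro n
    induction n with
    | zero => simp
    | succ n ih =>
      rw [Finset.sum_range_succ, toMul_add, hpow]
      have h1 : ((MulAut.conjNormal (g ^ n) u : N) : G) = g ^ n * u * (g ^ n)⁻¹ := by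
        rw [MulAut.conjNormal_apply]
      rw [Subgroup.coe_mul]
      have h2 : ((Additive.toMul (Additive.ofMul (MulAut.conjNormal (g ^ n) u)) : N) : G)
          = g ^ n * u * (g ^ n)⁻¹ := h1
      rw [h2]
      have h4 := hNc (g ^ n * u * (g ^ n)⁻¹) (hNn.conj_mem _ u.2 _)
        ((Additive.toMul (∑ i ∈ Finset.range n, (A ^ i) (Additive.ofMul u)) : N) : G)
        (Subtype.mem _)
      exact step g u h _ n hgu ih h4
  have hS : (∑ i ∈ Finset.range (p ^ k), (A ^ i) (Additive.ofMul u)) = 0 := by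
    have := congrArg (fun f : Module.End (ZMod p) (Additive N) => f (Additive.ofMul u)) hsum
    simpa [LinearMap.sum_apply] using this
  have hgQ : g ^ (p ^ k) = h ^ (p ^ k) := by
    rw [hform (p ^ k), hS]
    simp
  have hhQω : h ^ (p ^ k) • ω = ω := by
    have h1 : h ∈ MulAction.stabilizer G ω := hhω
    exact (MulAction.stabilizer G ω).pow_mem h1 _
  have hcomm : ∀ a ∈ N, h ^ (p ^ k) * a = a * h ^ (p ^ k) := by
    intro a ha
    have h1 := hpow (p ^ k) ⟨a, ha⟩
    rw [hAk] at h1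
    have h2 : (⟨a, ha⟩ : N) = MulAut.conjNormal (g ^ (p ^ k)) ⟨a, ha⟩ := h1
    have h3 := congrArg Subtype.val h2
    rw [MulAut.conjNormal_apply] at h3
    rw [← hgQ]
    exact (eq_mul_inv_iff_mul_eq.mp h3).symm
  rw [hgQ]
  exact hself _ hcomm hhQω

/-- Let a finite group G act faithfully on a set Ω with p ^ m points (p prime) and have an elementary abelian normal p-subgroup N acting regularly on Ω (so G is a group of affine transformations of an m-dimensional space over the field with p elements). If G contains an element of order p ^ r with r ≥ 1, then p ^ (r − 1) ≤ m. In particular an element of order p ^ m forces m ≤ 2, and m ≤ 1 when p is odd. -/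
theorem result {G : Type*} [Group G] [Finite G] {Ω : Type*} [Fintype Ω] [MulAction G Ω] [FaithfulSMul G Ω] (p m : ℕ) (hp : p.Prime) (hcard : Fintype.card Ω = p ^ m)
    (N : Subgroup G) [N.Normal] (hNc : IsMulCommutative N) (hNp : ∀ n ∈ N, n ^ p = 1)
    (hNtr : MulAction.IsPretransitive N Ω) (hNreg : ∀ ω : Ω, MulAction.stabilizer N ω = ⊥)
    (g : G) (r : ℕ) (hr : 1 ≤ r) (hg : orderOf g = p ^ r) :
    p ^ (r - 1) ≤ m ∧ (r = m → m ≤ 2 ∧ (2 < p → m ≤ 1)) := by
  classical
  have hc : ∀ a ∈ N, ∀ b ∈ N, a * b = b * a := by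
    intro a ha b hb
    have h1 := hNc.is_comm.comm (⟨a, ha⟩ : N) ⟨b, hb⟩
    exact congrArg Subtype.val h1
  have key : p ^ (r - 1) ≤ m := by
    by_contra hlt
    push Not at hlt
    have h1 : g ^ (p ^ (r - 1)) = 1 :=
      core p m hp hcard N hc hNp hNtr hNreg g r (r - 1) (by rw [← hg]; exact pow_orderOf_eq_one g) hlt
    have h2 := orderOf_dvd_of_pow_eq_one h1
    rw [hg] at h2
    have h3 := Nat.le_of_dvd (Nat.pow_pos hp.pos) h2
    have h4 : p ^ (r - 1) < p ^ r := Nat.pow_lt_pow_right hp.one_lt (by omega)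
    omega
  refine ⟨key, ?_⟩
  intro hrm
  subst hrm
  constructor
  · by_contra h3
    push Not at h3
    obtain ⟨k, rfl⟩ : ∃ k, r = k + 3 := ⟨r - 3, by omega⟩
    have h4 := arith2 k
    have h5 : 2 ^ (k + 2) ≤ p ^ (k + 2) := Nat.pow_le_pow_left hp.two_le _
    have h6 : k + 3 - 1 = k + 2 := by omega
    rw [h6] at key
    omega
  · intro hp2
    by_contra h3
    push Not at h3
    obtain ⟨k, rfl⟩ : ∃ k, r = k + 2 := ⟨r - 2, by omega⟩
    have h4 := arith3 k
    have h5 : 3 ^ (k + 1) ≤ p ^ (k + 1) := Nat.pow_le_pow_left (by omega) _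
    have h6 : k + 2 - 1 = k + 1 := by omega
    rw [h6] at key
    omega

end Cfsg.Agent.S3508
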