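import Cfsg.Statements.S3511
import Mathlib

set_option autoImplicit false
open Cfsg

namespace Cfsg.Agent.S3511

lemma exists_rad (n : ℕ) (hn : 0 < n) :
    ∃ r : ℕ, Squarefree r ∧ r ∣ n ∧ ∀ p : ℕ, p.Prime → p ∣ n → p ∣ r := by
  refine ⟨UniqueFactorizationMonoid.radical n, UniqueFactorizationMonoid.squarefree_radical,
    UniqueFactorizationMonoid.radical_dvd_self, ?_⟩
  intro p hp hpn
  exact (UniqueFactorizationMonoid.dvd_radical_iff hp.prime.isRadical hn.ne').mpr hpn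

/-- Regular cycles for square-free order elements give regular cycles for all elements. -/
theorem result {G : Type*} [Group G] [Finite G] {Ω : Type*} [MulAction G Ω] [FaithfulSMul G Ω]
    (h : ∀ g : G, Squarefree (orderOf g) → ∃ ω : Ω, MulAction.stabilizer (Subgroup.zpowers g) ω = ⊥) (g : G) :
    ∃ ω : Ω, MulAction.stabilizer (Subgroup.zpowers g) ω = ⊥ := by
  classical
  obtain ⟨r, hrsq, hrn, hrp⟩ := exists_rad (orderOf g) (orderOf_pos g)
  have hnpos : 0 < orderOf g := orderOf_pos g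
  have hrpos : 0 < r := Nat.pos_of_dvd_of_pos hrn hnpos
  obtain ⟨a, ha⟩ := hrn
  have hapos : 0 < a := by
    rcases Nat.eq_zero_or_pos a with h0 | h0
    · rw [h0, mul_zero] at ha; omega
    · exact h0
  have hord : orderOf (g ^ a) = r := by
    rw [orderOf_pow_of_dvd hapos.ne' (Dvd.intro_left r ha.symm), ha]
    exact Nat.mul_div_cancel r hapos
  obtain ⟨ω, hω⟩ := h (g ^ a) (hord ▸ hrsq)
  refine ⟨ω, ?_⟩
  rw [Subgroup.eq_bot_iff_forall]
  rintro ⟨x, hx⟩ hxω
  rw [MulAction.mem_stabilizer_iff] at hxω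
  have hxω' : x • ω = ω := hxω
  by_contra hx1
  have hx1' : x ≠ 1 := fun h => hx1 (Subtype.ext h)
  have hm : orderOf x ≠ 1 := by rwa [Ne, orderOf_eq_one_iff]
  obtain ⟨p, hp, hpm⟩ := Nat.exists_prime_and_dvd hm
  have hxpos : 0 < orderOf x := orderOf_pos x
  obtain ⟨c, hc⟩ := hpm
  have hcpos : 0 < c := by
    rcases Nat.eq_zero_or_pos c with h0 | h0
    · rw [h0, mul_zero] at hc; omega
    · exact h0
  have hyord : orderOf (x ^ c) = p := by
    rw [orderOf_pow_of_dvd hcpos.ne' (Dvd.intro_left p hc.symm), hc]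
    exact Nat.mul_div_cancel p hcpos
  have hyω : (x ^ c) • ω = ω := by
    have : x ^ c ∈ MulAction.stabilizer G ω :=
      Subgroup.pow_mem _ (MulAction.mem_stabilizer_iff.mpr hxω') c
    exact MulAction.mem_stabilizer_iff.mp this
  have hyg : x ^ c ∈ Subgroup.zpowers g := Subgroup.pow_mem _ hx _
  obtain ⟨k, hk⟩ := Subgroup.mem_zpowers_iff.mp hyg
  have hkp : g ^ (k * (p : ℤ)) = 1 := by
    rw [zpow_mul, hk, zpow_natCast, ← hyord, pow_orderOf_eq_one]
  have hdvd : ((orderOf g : ℕ) : ℤ) ∣ k * p := orderOf_dvd_iff_zpow_eq_one.mpr hkp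
  have hpn : p ∣ orderOf g := by
    rw [← hyord, ← hk]
    apply orderOf_dvd_of_pow_eq_one
    rw [← zpow_natCast, ← zpow_mul, mul_comm, zpow_mul, zpow_natCast, pow_orderOf_eq_one,
      one_zpow]
  obtain ⟨b, hb⟩ := hrp p hp hpn
  have hn' : orderOf g = (a * b) * p := by rw [ha, hb]; ring
  rw [hn'] at hdvd
  have hdvd' : ((a * b : ℕ) : ℤ) ∣ k := by
    have h1 : ((a * b : ℕ) : ℤ) * (p : ℤ) ∣ k * (p : ℤ) := by
      have : (((a * b) * p : ℕ) : ℤ) = ((a * b : ℕ) : ℤ) * (p : ℤ) := by push_cast; ring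
      rw [← this]; exact hdvd
    exact (mul_dvd_mul_iff_right (by exact_mod_cast hp.ne_zero)).mp h1
  obtain ⟨j, hj⟩ := hdvd'
  have hyh : x ^ c ∈ Subgroup.zpowers (g ^ a) := by
    rw [Subgroup.mem_zpowers_iff]
    refine ⟨(b : ℤ) * j, ?_⟩
    rw [← hk, hj, ← zpow_natCast g a, ← zpow_mul]
    congr 1
    push_cast
    ring
  have hmem : (⟨x ^ c, hyh⟩ : Subgroup.zpowers (g ^ a)) ∈
      MulAction.stabilizer (Subgroup.zpowers (g ^ a)) ω := by
    rw [MulAction.mem_stabilizer_iff]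
    exact hyω
  rw [hω, Subgroup.mem_bot] at hmem
  have hy1 : x ^ c = 1 := congrArg Subtype.val hmem
  rw [hy1, orderOf_one] at hyord
  exact hp.one_lt.ne hyord

end Cfsg.Agent.S3511
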