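import Cfsg.Statements.S3514
import Cfsg.Agent.Lib.Helper19.RelIndex

set_option autoImplicit false
open Cfsg

namespace Cfsg.Agent.S3514

open Cfsg.Agent.Lib.Helper19

/-- Orbit sizes as relative indices of the point stabiliser. -/
theorem card_orbit_eq_relIndex (p : ℕ) {V : Type*} [AddCommGroup V] [Module (ZMod p) V]
    (X : Subgroup (V ≃ₗ[ZMod p] V)) (v : V) :
    Nat.card {u : V | ∃ x ∈ X, x v = u} =
      (MulAction.stabilizer (V ≃ₗ[ZMod p] V) v).relIndex X := by
  have h1 : {u : V | ∃ x ∈ X, x v = u} = MulAction.orbit X v := by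
    ext u
    constructor
    · rintro ⟨x, hx, rfl⟩
      exact ⟨⟨x, hx⟩, rfl⟩
    · rintro ⟨⟨x, hx⟩, rfl⟩
      exact ⟨x, hx, rfl⟩
  rw [h1, Nat.card_coe_set_eq, ← MulAction.index_stabilizer]
  have h2 : MulAction.stabilizer X v =
      (MulAction.stabilizer (V ≃ₗ[ZMod p] V) v).subgroupOf X := by
    ext x
    simp only [MulAction.mem_stabilizer_iff, Subgroup.mem_subgroupOf]
    rfl
  rw [h2]
  rfl

/-- Let p be a prime, V a finite vector space over the field with p elements, and H a group of linear transformations of V all of whose orbits on V have size coprime to p. (i) Every normal subgroup K of H has all its orbits on V of size coprime to p. (ii) If N is a group of linear transformations of V of order coprime to p that is normalized by H, then the group generated by N and H has all its orbits on V of size coprime to p. -/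
theorem result (p : ℕ) [Fact p.Prime] {V : Type*} [AddCommGroup V] [Module (ZMod p) V] [Finite V]
    (H : Subgroup (V ≃ₗ[ZMod p] V)) (hH : ∀ v : V, ¬ p ∣ Nat.card {u : V | ∃ h ∈ H, h v = u}) :
    (∀ K : Subgroup (V ≃ₗ[ZMod p] V), K ≤ H → H ≤ Subgroup.normalizer (K : Set (V ≃ₗ[ZMod p] V)) →
        ∀ v : V, ¬ p ∣ Nat.card {u : V | ∃ k ∈ K, k v = u}) ∧
    (∀ N : Subgroup (V ≃ₗ[ZMod p] V), ¬ p ∣ Nat.card N → H ≤ Subgroup.normalizer (N : Set (V ≃ₗ[ZMod p] V)) →
        ∀ v : V, ¬ p ∣ Nat.card {u : V | ∃ x ∈ N ⊔ H, x v = u}) := by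
  have hp : p.Prime := Fact.out
  constructor
  · intro K hKH hnorm v hdvd
    apply hH v
    rw [card_orbit_eq_relIndex] at hdvd ⊢
    exact dvd_trans hdvd (relIndex_dvd_relIndex_of_le_normalizer _ K H hKH hnorm)
  · intro N hN hnorm v hdvd
    rw [card_orbit_eq_relIndex] at hdvd
    have h1 := dvd_trans hdvd (relIndex_sup_dvd_of_le_normalizer
      (MulAction.stabilizer (V ≃ₗ[ZMod p] V) v) N H hnorm)
    rcases (Nat.Prime.dvd_mul hp).mp h1 with h2 | h2
    · exact hN h2
    · apply hH v
      rw [card_orbit_eq_relIndex]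
      exact h2

end Cfsg.Agent.S3514
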