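import Cfsg.Statements.S3515
import Cfsg.Agent.Lib.Helper19.Affine3

set_option autoImplicit false
open Cfsg

namespace Cfsg.Agent.S3515

open Cfsg.Agent.Lib.Helper19

theorem four_points : ∀ x : Fin 2 → ZMod 2, x = 0 ∨ x = ![1, 0] ∨ x = ![0, 1] ∨ x = ![1, 1] := by
  decide

theorem four_points_ne : (0 : Fin 2 → ZMod 2) ≠ ![1, 1] ∧ (![1, 0] : Fin 2 → ZMod 2) ≠ ![1, 1] ∧
    (![0, 1] : Fin 2 → ZMod 2) ≠ ![1, 1] := by
  decide

/-- Two permutations of the plane over the field with two elements agreeing at three points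
are equal. -/
theorem eq_of_agree_two (σ g : Equiv.Perm (Fin 2 → ZMod 2)) (h0 : σ 0 = g 0)
    (h1 : σ ![1, 0] = g ![1, 0]) (h2 : σ ![0, 1] = g ![0, 1]) : σ = g := by
  obtain ⟨n0, n1, n2⟩ := four_points_ne
  have h3 : σ ![1, 1] = g ![1, 1] := by
    have hy : g (g.symm (σ ![1, 1])) = σ ![1, 1] := g.apply_symm_apply _
    rcases four_points (g.symm (σ ![1, 1])) with h | h | h | h
    · rw [h, ← h0] at hy
      exact absurd (σ.injective hy) n0
    · rw [h, ← h1] at hy
      exact absurd (σ.injective hy) n1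
    · rw [h, ← h2] at hy
      exact absurd (σ.injective hy) n2
    · rw [h] at hy
      exact hy.symm
  apply Equiv.ext
  intro x
  rcases four_points x with rfl | rfl | rfl | rfl
  · exact h0
  · exact h1
  · exact h2
  · exact h3

/-- Every primitive affine permutation group of degree p² is 3-closed. Let p be a prime and G a group of permutations of the plane V = F_p² consisting of affine maps x ↦ Ax + b, containing all translations, and acting primitively on V. Then any permutation σ of V that agrees on every triple of points with some element of G (σ preserves every G-orbit on ordered triples) already lies in G. -/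
theorem result (p : ℕ) [Fact p.Prime] (G : Subgroup (Equiv.Perm (Fin 2 → ZMod p)))
    (haff : (G : Set (Equiv.Perm (Fin 2 → ZMod p))) ⊆ {τ : Equiv.Perm (Fin 2 → ZMod p) | ∃ (A : (Fin 2 → ZMod p) ≃ₗ[ZMod p] (Fin 2 → ZMod p)) (b : Fin 2 → ZMod p), ∀ x, τ x = A x + b})
    (htrans : ∀ b : Fin 2 → ZMod p, ∃ g ∈ G, ∀ x, g x = x + b) (hprim : MulAction.IsPreprimitive G (Fin 2 → ZMod p))
    (σ : Equiv.Perm (Fin 2 → ZMod p)) (hσ : (∀ t : Fin 3 → (Fin 2 → ZMod p), ∃ g ∈ G, ∀ i, σ (t i) = g (t i))) : σ ∈ G := by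
  obtain ⟨g, hg, hgt⟩ := hσ ![0, ![1, 0], ![0, 1]]
  have h0 : σ 0 = g 0 := hgt 0
  have h1 : σ ![1, 0] = g ![1, 0] := hgt 1
  have h2 : σ ![0, 1] = g ![0, 1] := hgt 2
  suffices hsuff : σ = g by rw [hsuff]; exact hg
  by_cases hp : p = 2
  · subst hp
    exact eq_of_agree_two σ g h0 h1 h2
  · obtain ⟨A, b, hA⟩ := affine_of_agree_on_triples p hp
      (G : Set (Equiv.Perm (Fin 2 → ZMod p))) (fun τ hτ => haff hτ) σ hσ
    obtain ⟨B, c, hB⟩ := haff hg
    have hbc : b = c := by
      have := h0
      rw [hA, hB, map_zero, map_zero, zero_add, zero_add] at this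
      exact this
    have e1 : A ![1, 0] = B ![1, 0] := by
      have := h1
      rw [hA, hB, hbc] at this
      exact add_right_cancel this
    have e2 : A ![0, 1] = B ![0, 1] := by
      have := h2
      rw [hA, hB, hbc] at this
      exact add_right_cancel this
    apply Equiv.ext
    intro x
    have hx : x = x 0 • (![1, 0] : Fin 2 → ZMod p) + x 1 • (![0, 1] : Fin 2 → ZMod p) := by
      ext i
      fin_cases i <;> simp
    rw [hA, hB, hbc, hx, map_add, map_add, map_smul, map_smul, map_smul, map_smul, e1, e2]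

end Cfsg.Agent.S3515
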