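import Cfsg.Statements.S3516
import Cfsg.Agent.Lib.Helper19.Affine3

set_option autoImplicit false
open Cfsg

namespace Cfsg.Agent.S3516

open Cfsg.Agent.Lib.Helper19

/-- Let p be an odd prime, d ≥ 3, and G a group of affine permutations x ↦ Ax + b of V = F_p^d containing all translations and all maps x ↦ Ax with A of determinant 1. Then the 3-closure of G is the full affine group: a permutation σ of V agrees on every triple of points with some element of G if and only if σ is an affine map. -/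
theorem result (p : ℕ) [Fact p.Prime] (hp : p ≠ 2) (d : ℕ) (hd : 3 ≤ d) (G : Subgroup (Equiv.Perm (Fin d → ZMod p)))
    (haff : (G : Set (Equiv.Perm (Fin d → ZMod p))) ⊆ {τ : Equiv.Perm (Fin d → ZMod p) | ∃ (A : (Fin d → ZMod p) ≃ₗ[ZMod p] (Fin d → ZMod p)) (b : Fin d → ZMod p), ∀ x, τ x = A x + b})
    (htrans : ∀ b : Fin d → ZMod p, ∃ g ∈ G, ∀ x, g x = x + b)
    (hsl : ∀ A : (Fin d → ZMod p) ≃ₗ[ZMod p] (Fin d → ZMod p), LinearMap.det (A : (Fin d → ZMod p) →ₗ[ZMod p] (Fin d → ZMod p)) = 1 → ∃ g ∈ G, ∀ x, g x = A x)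
    (σ : Equiv.Perm (Fin d → ZMod p)) :
    (∀ t : Fin 3 → (Fin d → ZMod p), ∃ g ∈ G, ∀ i, σ (t i) = g (t i)) ↔ σ ∈ {τ : Equiv.Perm (Fin d → ZMod p) | ∃ (A : (Fin d → ZMod p) ≃ₗ[ZMod p] (Fin d → ZMod p)) (b : Fin d → ZMod p), ∀ x, τ x = A x + b} := by
  constructor
  · intro h
    exact affine_of_agree_on_triples p hp (G : Set (Equiv.Perm (Fin d → ZMod p)))
      (fun τ hτ => haff hτ) σ h
  · rintro ⟨A, b, hA⟩ t
    classical
    let W : Submodule (ZMod p) (Fin d → ZMod p) :=
      Submodule.span (ZMod p) (({t 1 - t 0, t 2 - t 0} : Finset (Fin d → ZMod p)) : Set _)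
    have hW : W < ⊤ := by
      rw [lt_top_iff_ne_top]
      intro h
      have h1 : Module.finrank (ZMod p) W ≤ 2 :=
        le_trans (finrank_span_finset_le_card (R := ZMod p)
          ({t 1 - t 0, t 2 - t 0} : Finset (Fin d → ZMod p))) Finset.card_le_two
      have h2 : Module.finrank (ZMod p) W = d := by
        rw [h, finrank_top]
        simp
      omega
    obtain ⟨φ, hφ0, hφW⟩ := Submodule.exists_le_ker_of_lt_top W hW
    obtain ⟨e, he⟩ : ∃ e, φ e ≠ 0 := by
      by_contra hcon
      simp only [not_exists, not_not] at hcon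
      exact hφ0 (LinearMap.ext hcon)
    have hdetA : LinearMap.det (A : (Fin d → ZMod p) →ₗ[ZMod p] (Fin d → ZMod p)) ≠ 0 :=
      (LinearEquiv.isUnit_det' A).ne_zero
    obtain ⟨δ, hδ⟩ : ∃ δ : ZMod p,
        LinearMap.det (A : (Fin d → ZMod p) →ₗ[ZMod p] (Fin d → ZMod p)) * δ = 1 :=
      ⟨_, mul_inv_cancel₀ hdetA⟩
    have hδ0 : δ ≠ 0 := by
      intro h0
      rw [h0, mul_zero] at hδ
      exact zero_ne_one hδ
    have hφv : φ (((δ - 1) / φ e) • e) = δ - 1 := by
      rw [map_smul, smul_eq_mul]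
      field_simp
    have hunit : IsUnit (1 + φ (((δ - 1) / φ e) • e)) := by
      rw [hφv]
      have : 1 + (δ - 1) = δ := by ring
      rw [this]
      exact isUnit_iff_ne_zero.mpr hδ0
    let E : (Fin d → ZMod p) ≃ₗ[ZMod p] (Fin d → ZMod p) := LinearEquiv.dilatransvection hunit
    have hE : ∀ x, E x = x + φ x • (((δ - 1) / φ e) • e) :=
      fun x => LinearEquiv.dilatransvection.apply
    have hdetE : LinearMap.det (E : (Fin d → ZMod p) →ₗ[ZMod p] (Fin d → ZMod p)) = δ := by
      show LinearMap.det (LinearEquiv.dilatransvection hunit).toLinearMap = δ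
      rw [LinearEquiv.dilatransvection.coe_toLinearMap, LinearMap.transvection.det, hφv]
      ring
    have hdetA' : LinearMap.det ((E.trans A : (Fin d → ZMod p) ≃ₗ[ZMod p] (Fin d → ZMod p)) :
        (Fin d → ZMod p) →ₗ[ZMod p] (Fin d → ZMod p)) = 1 := by
      rw [LinearEquiv.coe_trans, LinearMap.det_comp, hdetE]
      exact hδ
    obtain ⟨g1, hg1, hg1x⟩ := hsl (E.trans A) hdetA'
    obtain ⟨g2, hg2, hg2x⟩ := htrans (σ (t 0) - (E.trans A) (t 0))
    refine ⟨g2 * g1, G.mul_mem hg2 hg1, ?_⟩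
    have hfix : ∀ u ∈ W, (E.trans A) u = A u := by
      intro u hu
      have h0 : φ u = 0 := hφW hu
      show A (E u) = A u
      rw [hE, h0, zero_smul, add_zero]
    have key : ∀ x, x - t 0 ∈ W → σ x = (g2 * g1) x := by
      intro x hx
      rw [Equiv.Perm.mul_apply, hg2x, hg1x, hA, hA]
      have h1 : (E.trans A) x = (E.trans A) (x - t 0) + (E.trans A) (t 0) := by
        rw [← map_add]; simp
      have h2 : A x = A (x - t 0) + A (t 0) := by rw [← map_add]; simp
      rw [h1, h2, hfix _ hx]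
      abel
    intro i
    fin_cases i
    · exact key _ (by simp)
    · exact key _ (Submodule.subset_span (by simp))
    · exact key _ (Submodule.subset_span (by simp))

end Cfsg.Agent.S3516
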