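import Cfsg.Statements.S3517
import Cfsg.Agent.Lib.Helper19.LinExt

set_option autoImplicit false
open Cfsg

namespace Cfsg.Agent.S3517

open Cfsg.Agent.Lib.Helper19

/-- Over the field with two elements, the linear group is transitive on pairs of vectors with a
given dependency pattern. -/
theorem exists_linearEquiv_two {V : Type*} [AddCommGroup V] [Module (ZMod 2) V]
    [FiniteDimensional (ZMod 2) V] (u₁ u₂ w₁ w₂ : V) (h1 : u₁ = 0 ↔ w₁ = 0)
    (h2 : u₂ = 0 ↔ w₂ = 0) (h12 : u₁ = u₂ ↔ w₁ = w₂) :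
    ∃ A : V ≃ₗ[ZMod 2] V, A u₁ = w₁ ∧ A u₂ = w₂ := by
  by_cases hu1 : u₁ = 0
  · obtain ⟨A, hA⟩ := exists_linearEquiv_apply_eq (K := ZMod 2) u₂ w₂ h2
    refine ⟨A, ?_, hA⟩
    rw [hu1, h1.mp hu1]
    simp
  by_cases hu2 : u₂ = 0
  · obtain ⟨A, hA⟩ := exists_linearEquiv_apply_eq (K := ZMod 2) u₁ w₁ h1
    refine ⟨A, hA, ?_⟩
    rw [hu2, h2.mp hu2]
    simp
  by_cases hu12 : u₁ = u₂
  · obtain ⟨A, hA⟩ := exists_linearEquiv_apply_eq (K := ZMod 2) u₁ w₁ h1
    refine ⟨A, hA, ?_⟩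
    rw [← hu12, hA]
    exact h12.mp hu12
  · exact exists_linearEquiv_pair u₁ u₂ w₁ w₂
      (linearIndependent_pair_zmod_two u₁ u₂ hu1 hu2 hu12)
      (linearIndependent_pair_zmod_two w₁ w₂ (fun h => hu1 (h1.mpr h)) (fun h => hu2 (h2.mpr h))
        (fun h => hu12 (h12.mpr h)))

/-- For d ≥ 3, the 3-closure of the affine group AGL_d(2) acting on F_2^d is the full symmetric group: every permutation of F_2^d agrees on every ordered triple of points with some affine map (AGL_d(2) is 3-transitive). -/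
theorem result (d : ℕ) (hd : 3 ≤ d) (σ : Equiv.Perm (Fin d → ZMod 2)) (t : Fin 3 → (Fin d → ZMod 2)) :
    ∃ (A : (Fin d → ZMod 2) ≃ₗ[ZMod 2] (Fin d → ZMod 2)) (b : Fin d → ZMod 2), ∀ i, σ (t i) = A (t i) + b := by
  have hinj := σ.injective
  obtain ⟨A, hA1, hA2⟩ := exists_linearEquiv_two (t 1 - t 0) (t 2 - t 0)
    (σ (t 1) - σ (t 0)) (σ (t 2) - σ (t 0))
    (by rw [sub_eq_zero, sub_eq_zero]; exact ⟨fun h => by rw [h], fun h => hinj h⟩)
    (by rw [sub_eq_zero, sub_eq_zero]; exact ⟨fun h => by rw [h], fun h => hinj h⟩)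
    (by
      rw [sub_left_inj, sub_left_inj]
      exact ⟨fun h => by rw [h], fun h => hinj h⟩)
  refine ⟨A, σ (t 0) - A (t 0), ?_⟩
  intro i
  fin_cases i
  · simp
  · have h : A (t 1) = A (t 1 - t 0) + A (t 0) := by rw [← map_add]; simp
    show σ (t 1) = A (t 1) + (σ (t 0) - A (t 0))
    rw [h, hA1]
    abel
  · have h : A (t 2) = A (t 2 - t 0) + A (t 0) := by rw [← map_add]; simp
    show σ (t 2) = A (t 2) + (σ (t 0) - A (t 0))
    rw [h, hA2]
    abel

end Cfsg.Agent.S3517
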