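import Cfsg.Statements.S3518
import Cfsg.Agent.Lib.Helper19.Redei

set_option autoImplicit false
open Cfsg

namespace Cfsg.Agent.S3518

open Cfsg.Agent.Lib.Helper19

/-- The affine permutation `x ↦ a * x + b`. -/
def affPerm {p : ℕ} (a : (ZMod p)ˣ) (b : ZMod p) : Equiv.Perm (ZMod p) where
  toFun x := (a : ZMod p) * x + b
  invFun y := ((a⁻¹ : (ZMod p)ˣ) : ZMod p) * (y - b)
  left_inv x := by
    show ((a⁻¹ : (ZMod p)ˣ) : ZMod p) * ((a : ZMod p) * x + b - b) = x
    rw [add_sub_cancel_right, ← mul_assoc, Units.inv_mul, one_mul]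
  right_inv y := by
    show (a : ZMod p) * (((a⁻¹ : (ZMod p)ˣ) : ZMod p) * (y - b)) + b = y
    rw [← mul_assoc, Units.mul_inv, one_mul, sub_add_cancel]

theorem affPerm_apply {p : ℕ} (a : (ZMod p)ˣ) (b x : ZMod p) :
    affPerm a b x = (a : ZMod p) * x + b := rfl

theorem affPerm_mem {p : ℕ} (a : (ZMod p)ˣ) (b : ZMod p) :
    affPerm a b ∈ Cfsg.affineGroup (ZMod p) := ⟨a, b, fun _ => rfl⟩

/-- The multipliers of the linear maps in `G`. -/
def mult {p : ℕ} (G : Subgroup (Equiv.Perm (ZMod p))) : Subgroup (ZMod p)ˣ where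
  carrier := {a | affPerm a 0 ∈ G}
  one_mem' := by
    have h : affPerm (1 : (ZMod p)ˣ) 0 = 1 := by
      apply Equiv.ext
      intro x
      simp [affPerm_apply]
    show affPerm (1 : (ZMod p)ˣ) 0 ∈ G
    rw [h]
    exact G.one_mem
  mul_mem' := by
    intro a b ha hb
    have h : affPerm (a * b) 0 = affPerm a 0 * affPerm b 0 := by
      apply Equiv.ext
      intro x
      simp [affPerm_apply, mul_assoc]
    show affPerm (a * b) 0 ∈ G
    rw [h]
    exact G.mul_mem ha hb
  inv_mem' := by
    intro a ha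
    have h : affPerm a⁻¹ 0 = (affPerm a 0)⁻¹ := by
      apply eq_inv_of_mul_eq_one_left
      apply Equiv.ext
      intro x
      simp [affPerm_apply]
    show affPerm a⁻¹ 0 ∈ G
    rw [h]
    exact G.inv_mem ha

theorem mem_mult {p : ℕ} (G : Subgroup (Equiv.Perm (ZMod p))) (a : (ZMod p)ˣ) :
    a ∈ mult G ↔ affPerm a 0 ∈ G := Iff.rfl

theorem mem_mult_of_mem {p : ℕ} (G : Subgroup (Equiv.Perm (ZMod p)))
    (htrans : ∀ b : ZMod p, ∃ g ∈ G, ∀ x, g x = x + b) (g : Equiv.Perm (ZMod p)) (hg : g ∈ G)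
    (a : (ZMod p)ˣ) (b : ZMod p) (hgx : ∀ x, g x = (a : ZMod p) * x + b) : a ∈ mult G := by
  obtain ⟨τ, hτ, hτx⟩ := htrans (-b)
  have h : affPerm a 0 = τ * g := by
    apply Equiv.ext
    intro x
    rw [Equiv.Perm.mul_apply, hτx, hgx, affPerm_apply]
    ring
  rw [mem_mult, h]
  exact G.mul_mem hτ hg

theorem mult_ne_top {p : ℕ} (G : Subgroup (Equiv.Perm (ZMod p)))
    (hG : G ≤ Cfsg.affineGroup (ZMod p))
    (htrans : ∀ b : ZMod p, ∃ g ∈ G, ∀ x, g x = x + b) (hne : G ≠ Cfsg.affineGroup (ZMod p)) :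
    mult G ≠ ⊤ := by
  intro htop
  apply hne
  apply le_antisymm hG
  rintro h ⟨a, b, hh⟩
  have ha : a ∈ mult G := by rw [htop]; exact Subgroup.mem_top a
  obtain ⟨τ, hτ, hτx⟩ := htrans b
  have h' : h = τ * affPerm a 0 := by
    apply Equiv.ext
    intro x
    rw [Equiv.Perm.mul_apply, hτx, hh, affPerm_apply]
    ring
  rw [h']
  exact G.mul_mem hτ ha

/-- Closures of subgroups of the one-dimensional affine group. Let p be a prime and G a group of permutations of F_p lying in the affine group AGL₁(p) = {x ↦ ax + b, a ≠ 0} and containing all translations. (1) If G is a proper subgroup of AGL₁(p), then G is 2-closed: a permutation of F_p agreeing on every ordered pair of points with some element of G lies in G. (2) Every permutation of F_p agrees on every ordered pair with some element of AGL₁(p) (the 2-closure of AGL₁(p) is the symmetric group). (3) AGL₁(p) is 3-closed: a permutation agreeing on every ordered triple with some affine map is affine. -/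
theorem result (p : ℕ) [Fact p.Prime] (G : Subgroup (Equiv.Perm (ZMod p))) (hG : G ≤ Cfsg.affineGroup (ZMod p))
    (htrans : ∀ b : ZMod p, ∃ g ∈ G, ∀ x, g x = x + b) :
    (G ≠ Cfsg.affineGroup (ZMod p) → ∀ σ : Equiv.Perm (ZMod p), (∀ t : Fin 2 → ZMod p, ∃ g ∈ G, ∀ i, σ (t i) = g (t i)) → σ ∈ G) ∧
    (∀ σ : Equiv.Perm (ZMod p), (∀ t : Fin 2 → ZMod p, ∃ g ∈ Cfsg.affineGroup (ZMod p), ∀ i, σ (t i) = g (t i))) ∧
    (∀ σ : Equiv.Perm (ZMod p), (∀ t : Fin 3 → ZMod p, ∃ g ∈ Cfsg.affineGroup (ZMod p), ∀ i, σ (t i) = g (t i)) → σ ∈ Cfsg.affineGroup (ZMod p)) := by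
  classical
  have hpp : p.Prime := Fact.out
  refine ⟨?_, ?_, ?_⟩
  · intro hne σ hσ
    -- size of the multiplier group
    have hidx1 : (mult G).index ≠ 1 := fun h => mult_ne_top G hG htrans hne (Subgroup.index_eq_one.mp h)
    have hidx0 : (mult G).index ≠ 0 := Subgroup.index_ne_zero_of_finite
    have hcard : Nat.card (mult G) * (mult G).index = p - 1 := by
      rw [Subgroup.card_mul_index, Nat.card_eq_fintype_card, ZMod.card_units]
    have hMpos : 0 < Nat.card (mult G) := Nat.card_pos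
    have hM2 : 2 * Nat.card (mult G) ≤ p - 1 := by
      have h2 : 2 ≤ (mult G).index := by omega
      calc 2 * Nat.card (mult G) = Nat.card (mult G) * 2 := by ring
        _ ≤ Nat.card (mult G) * (mult G).index := Nat.mul_le_mul_left _ h2
        _ = p - 1 := hcard
    have hp3 : 3 ≤ p := by omega
    -- the good slopes
    let S : Finset (ZMod p) := Finset.univ.filter (fun c : ZMod p => ∀ a ∈ mult G, (a : ZMod p) ≠ c)
    let Mf : Finset (ZMod p)ˣ := Finset.univ.filter (fun a => a ∈ mult G)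
    have hMf : Mf.card = Nat.card (mult G) := by
      rw [Nat.card_eq_fintype_card, Fintype.card_subtype]
    have hcompl : (Finset.univ.filter (fun c : ZMod p => ¬ ∀ a ∈ mult G, (a : ZMod p) ≠ c)).card
        ≤ Mf.card := by
      have hsub : (Finset.univ.filter (fun c : ZMod p => ¬ ∀ a ∈ mult G, (a : ZMod p) ≠ c)) ⊆
          Mf.image (fun a : (ZMod p)ˣ => (a : ZMod p)) := by
        intro c hc
        simp only [Finset.mem_filter, Finset.mem_univ, true_and, not_forall, not_not] at hc
        obtain ⟨a, ha, hac⟩ := hc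
        exact Finset.mem_image.mpr ⟨a, by simp [Mf, ha], hac⟩
      exact le_trans (Finset.card_le_card hsub) Finset.card_image_le
    have hsum : S.card + (Finset.univ.filter
        (fun c : ZMod p => ¬ ∀ a ∈ mult G, (a : ZMod p) ≠ c)).card = p := by
      have h1 := Finset.card_filter_add_card_filter_not (s := (Finset.univ : Finset (ZMod p)))
        (fun c : ZMod p => ∀ a ∈ mult G, (a : ZMod p) ≠ c)
      rw [Finset.card_univ, ZMod.card] at h1
      exact h1
    have hS : p < 2 * S.card := by omega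
    have hinj : ∀ c ∈ S, Function.Injective (fun x => σ x - c * x) := by
      intro c hc x y hxy
      by_contra hne'
      obtain ⟨g, hg, hgt⟩ := hσ ![x, y]
      have hx : σ x = g x := hgt 0
      have hy : σ y = g y := hgt 1
      obtain ⟨a, b, hab⟩ := hG hg
      have ha : a ∈ mult G := mem_mult_of_mem G htrans g hg a b hab
      have hc' := (Finset.mem_filter.mp hc).2 a ha
      apply hc'
      have h1 : ((a : ZMod p) - c) * (x - y) = 0 := by
        have h2 : σ x - c * x = σ y - c * y := hxy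
        rw [hx, hy, hab, hab] at h2
        linear_combination h2
      rcases mul_eq_zero.mp h1 with h3 | h3
      · exact sub_eq_zero.mp h3
      · exact absurd (sub_eq_zero.mp h3) hne'
    have hlin := redei_light p hp3 (fun x => σ x) S hS hinj
    obtain ⟨g, hg, hgt⟩ := hσ ![0, 1]
    have h0 : σ 0 = g 0 := hgt 0
    have h1 : σ 1 = g 1 := hgt 1
    obtain ⟨a, b, hab⟩ := hG hg
    have hσg : σ = g := by
      apply Equiv.ext
      intro x
      rw [hlin x, h0, h1, hab, hab, hab]
      ring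
    rw [hσg]
    exact hg
  · intro σ t
    by_cases h01 : t 0 = t 1
    · refine ⟨affPerm 1 (σ (t 0) - t 0), affPerm_mem _ _, ?_⟩
      intro i
      fin_cases i
      · simp [affPerm_apply]
      · show σ (t 1) = affPerm 1 (σ (t 0) - t 0) (t 1)
        rw [← h01]
        simp [affPerm_apply]
    · have hx : t 1 - t 0 ≠ 0 := sub_ne_zero.mpr (Ne.symm h01)
      have hy : σ (t 1) - σ (t 0) ≠ 0 := sub_ne_zero.mpr (fun h => h01 (σ.injective h).symm)
      have ha : (σ (t 1) - σ (t 0)) / (t 1 - t 0) ≠ 0 := div_ne_zero hy hx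
      refine ⟨affPerm (Units.mk0 _ ha) (σ (t 0) - (σ (t 1) - σ (t 0)) / (t 1 - t 0) * t 0),
        affPerm_mem _ _, ?_⟩
      intro i
      fin_cases i
      · show σ (t 0) = affPerm (Units.mk0 _ ha) _ (t 0)
        rw [affPerm_apply, Units.val_mk0]
        ring
      · show σ (t 1) = affPerm (Units.mk0 _ ha) _ (t 1)
        rw [affPerm_apply, Units.val_mk0]
        field_simp
        ring
  · intro σ hσ
    have h10 : (1 : ZMod p) ≠ 0 := one_ne_zero
    have ha : σ 1 - σ 0 ≠ 0 := sub_ne_zero.mpr (fun h => h10 (σ.injective h))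
    refine ⟨Units.mk0 _ ha, σ 0, ?_⟩
    intro x
    obtain ⟨g, hg, hgt⟩ := hσ ![0, 1, x]
    have h0 : σ 0 = g 0 := hgt 0
    have h1 : σ 1 = g 1 := hgt 1
    have h2 : σ x = g x := hgt 2
    obtain ⟨a, b, hab⟩ := hg
    rw [Units.val_mk0, h2, h0, h1, hab, hab, hab]
    ring

end Cfsg.Agent.S3518
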