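import Cfsg.Statements.S3524
import Mathlib

set_option autoImplicit false
open Cfsg

namespace Cfsg.Agent.S3524

/-- A permutation group with a base is closed at one level above the base size. -/
theorem result {Ω : Type*} (G : Subgroup (Equiv.Perm Ω)) (k : ℕ) (α : Fin k → Ω)
    (hbase : ∀ g ∈ G, (∀ i, g (α i) = α i) → g = 1) (σ : Equiv.Perm Ω)
    (hσ : ∀ t : Fin (k + 1) → Ω, ∃ g ∈ G, ∀ i, σ (t i) = g (t i)) : σ ∈ G := by
  classical
  have key : ∀ x : Ω, ∃ g ∈ G, (∀ i, σ (α i) = g (α i)) ∧ σ x = g x := by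
    intro x
    obtain ⟨g, hg, h⟩ := hσ (Fin.snoc α x)
    refine ⟨g, hg, ?_, ?_⟩
    · intro i
      have := h (Fin.castSucc i)
      simpa using this
    · have := h (Fin.last k)
      simpa using this
  by_cases hΩ : IsEmpty Ω
  · have : σ = 1 := Subsingleton.elim _ _
    rw [this]; exact G.one_mem
  · rw [not_isEmpty_iff] at hΩ
    obtain ⟨x₀⟩ := hΩ
    obtain ⟨g₀, hg₀, h₀, -⟩ := key x₀
    have : σ = g₀ := by
      ext x
      obtain ⟨g, hg, h, hx⟩ := key x
      have h1 : g₀⁻¹ * g = 1 := hbase _ (G.mul_mem (G.inv_mem hg₀) hg) (by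
        intro i
        rw [Equiv.Perm.mul_apply, ← h i, h₀ i]
        simp)
      have h2 : g = g₀ := by
        rw [inv_mul_eq_one] at h1; exact h1.symm
      rw [hx, h2]
    rw [this]; exact hg₀

end Cfsg.Agent.S3524
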