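import Cfsg.Statements.S3546
import Cfsg.Agent.Lib.Helper19.Derange

set_option autoImplicit false
open Cfsg

namespace Cfsg.Agent.S3546

open Cfsg.Agent.Lib.Helper19 in
/-- The subgroup generated by the derangements is transitive and contains every element whose number of fixed points is not 1. -/
theorem result {G Ω : Type*} [Group G] [Finite G] [MulAction G Ω] [FaithfulSMul G Ω] [Finite Ω]
    (htrans : MulAction.IsPretransitive G Ω) :
    MulAction.IsPretransitive ↥(Subgroup.closure {g : G | ∀ ω : Ω, g • ω ≠ ω}) Ω ∧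
    ∀ g : G, Nat.card (MulAction.fixedBy Ω g) ≠ 1 → g ∈ Subgroup.closure {g : G | ∀ ω : Ω, g • ω ≠ ω} := by
  by_cases hΩ : Nonempty Ω
  · have key := derSubgroup_key (G := G) (Ω := Ω)
    exact ⟨key.1, fun g hg => by
      by_contra h
      exact hg (key.2 g h)⟩
  · rw [not_nonempty_iff] at hΩ
    exact ⟨⟨fun x => isEmptyElim x⟩, fun g _ => Subgroup.subset_closure (fun ω => isEmptyElim ω)⟩

end Cfsg.Agent.S3546
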