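import Cfsg.Statements.S3547
import Cfsg.Agent.Lib.Helper19.Derange

set_option autoImplicit false
open Cfsg

namespace Cfsg.Agent.S3547

open Cfsg.Agent.Lib.Helper19 in
/-- The rank formula for the subgroup generated by the derangements. -/
theorem result {G Ω : Type*} [Group G] [Finite G] [MulAction G Ω] [FaithfulSMul G Ω] [Finite Ω]
    (htrans : MulAction.IsPretransitive G Ω) :
    Nat.card (MulAction.orbitRel.Quotient ↥(Subgroup.closure {g : G | ∀ ω : Ω, g • ω ≠ ω}) (Ω × Ω)) - 1 =
      (Nat.card (MulAction.orbitRel.Quotient G (Ω × Ω)) - 1) * (Subgroup.closure {g : G | ∀ ω : Ω, g • ω ≠ ω}).index := by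
  by_cases hΩ : Nonempty Ω
  · have key := derSubgroup_rank (G := G) (Ω := Ω)
    change Nat.card (MulAction.orbitRel.Quotient ↥(derSubgroup G Ω) (Ω × Ω)) - 1 =
      (Nat.card (MulAction.orbitRel.Quotient G (Ω × Ω)) - 1) * (derSubgroup G Ω).index
    rw [Nat.sub_mul, one_mul]
    omega
  · rw [not_nonempty_iff] at hΩ
    have h1 : IsEmpty (MulAction.orbitRel.Quotient ↥(Subgroup.closure {g : G | ∀ ω : Ω, g • ω ≠ ω}) (Ω × Ω)) := by
      constructor
      intro q
      induction q using Quotient.inductionOn with
      | _ p => exact isEmptyElim p.1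
    have h2 : IsEmpty (MulAction.orbitRel.Quotient G (Ω × Ω)) := by
      constructor
      intro q
      induction q using Quotient.inductionOn with
      | _ p => exact isEmptyElim p.1
    rw [Nat.card_of_isEmpty, Nat.card_of_isEmpty]
    simp

end Cfsg.Agent.S3547
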