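import Cfsg.Statements.S3549
import Cfsg.Agent.Lib.Helper19.Derange2

set_option autoImplicit false
open Cfsg

namespace Cfsg.Agent.S3549

open Cfsg.Agent.Lib.Helper19 in
/-- For a transitive imprimitive action, the index of the derangement subgroup is at most √n − 1. -/
theorem result {G Ω : Type*} [Group G] [Finite G] [MulAction G Ω] [FaithfulSMul G Ω] [Finite Ω]
    (htrans : MulAction.IsPretransitive G Ω) (himp : ¬ MulAction.IsPreprimitive G Ω) :
    ((Subgroup.closure {g : G | ∀ ω : Ω, g • ω ≠ ω}).index : ℝ) ≤ Real.sqrt (Nat.card Ω) - 1 := by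
  have h := index_add_one_sq_le_of_imprimitive (G := G) (Ω := Ω) himp
  change ((derSubgroup G Ω).index : ℝ) ≤ Real.sqrt (Nat.card Ω) - 1
  have h2 : (((derSubgroup G Ω).index : ℝ) + 1) ^ 2 ≤ (Nat.card Ω : ℝ) := by
    exact_mod_cast h
  have h3 : ((derSubgroup G Ω).index : ℝ) + 1 ≤ Real.sqrt (Nat.card Ω) :=
    Real.le_sqrt_of_sq_le h2
  linarith

end Cfsg.Agent.S3549
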