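import Cfsg.Statements.S3560

set_option autoImplicit false
open Cfsg

namespace Cfsg.Agent.S3560

open MulAction
open scoped Pointwise

section ham

variable {ι : Type*} {m : ℕ}

/-- Hamming adjacency on tuples: differing in exactly one coordinate -/
def adj (x y : ι → Fin m) : Prop := ∃ i, x i ≠ y i ∧ ∀ j, j ≠ i → x j = y j

theorem adj_symm {x y : ι → Fin m} (h : adj x y) : adj y x := by
  obtain ⟨i, hi, hj⟩ := h
  exact ⟨i, fun h' => hi h'.symm, fun j hj' => (hj j hj').symm⟩

theorem adj_ne {x y : ι → Fin m} (h : adj x y) : x ≠ y := by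
  obtain ⟨i, hi, -⟩ := h
  intro hxy
  exact hi (by rw [hxy])

/-- coordinate-wise injective maps preserve adjacency -/
theorem adj_map (f : ι → Fin m → Fin m) (hf : ∀ i, Function.Injective (f i)) (x y : ι → Fin m) :
    adj (fun i => f i (x i)) (fun i => f i (y i)) ↔ adj x y := by
  constructor
  · rintro ⟨i, hi, hj⟩
    exact ⟨i, fun h => hi (by show f i (x i) = f i (y i); rw [h]), fun j hj' => hf j (hj j hj')⟩
  · rintro ⟨i, hi, hj⟩
    exact ⟨i, fun h => hi (hf i h), fun j hj' => by show f j (x j) = f j (y j); rw [hj j hj']⟩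

/-- permuting coordinates preserves adjacency -/
theorem adj_comp (π : Equiv.Perm ι) (x y : ι → Fin m) :
    adj (x ∘ π) (y ∘ π) ↔ adj x y := by
  constructor
  · rintro ⟨i, hi, hj⟩
    refine ⟨π i, hi, fun j hj' => ?_⟩
    have h := hj (π.symm j) (fun h => hj' (by rw [← h]; simp))
    simpa using h
  · rintro ⟨i, hi, hj⟩
    refine ⟨π.symm i, by simpa using hi, fun j hj' => ?_⟩
    exact hj (π j) (fun h => hj' (by rw [← h]; simp))

/-- precomposition with a permutation of the coordinates -/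
def compPerm (π : Equiv.Perm ι) : Equiv.Perm (ι → Fin m) where
  toFun y := y ∘ π
  invFun y := y ∘ π.symm
  left_inv y := by funext l; simp
  right_inv y := by funext l; simp

/-- the map `y ↦ (l ↦ τ l (y (π l)))` -/
def twist (τ : ι → Equiv.Perm (Fin m)) (π : Equiv.Perm ι) : Equiv.Perm (ι → Fin m) :=
  (compPerm π).trans (Equiv.piCongrRight τ)

theorem twist_apply (τ : ι → Equiv.Perm (Fin m)) (π : Equiv.Perm ι) (y : ι → Fin m) (l : ι) :
    twist τ π y l = τ l (y (π l)) := rfl

theorem adj_twist (τ : ι → Equiv.Perm (Fin m)) (π : Equiv.Perm ι) (x y : ι → Fin m) :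
    adj (twist τ π x) (twist τ π y) ↔ adj x y := by
  have h1 : twist τ π x = fun i => (τ i) ((x ∘ π) i) := rfl
  have h2 : twist τ π y = fun i => (τ i) ((y ∘ π) i) := rfl
  rw [h1, h2, adj_map (fun i => (τ i : Fin m → Fin m)) (fun i => (τ i).injective), adj_comp]

variable {Ω : Type*}

/-- the group of permutations of `Ω` preserving Hamming adjacency read through `c` -/
def hamG (c : Ω ≃ (ι → Fin m)) : Subgroup (Equiv.Perm Ω) where
  carrier := {σ | ∀ a b, adj (c (σ a)) (c (σ b)) ↔ adj (c a) (c b)}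
  one_mem' := fun a b => Iff.rfl
  mul_mem' := fun {σ τ} hσ hτ a b => by
    show adj (c (σ (τ a))) (c (σ (τ b))) ↔ _
    rw [hσ, hτ]
  inv_mem' := fun {σ} hσ a b => by
    have h := hσ (σ⁻¹ a) (σ⁻¹ b)
    rw [show σ (σ⁻¹ a) = a from σ.apply_symm_apply a,
      show σ (σ⁻¹ b) = b from σ.apply_symm_apply b] at h
    exact h.symm

/-- lift a permutation of tuples to a permutation of `Ω` -/
def lift (c : Ω ≃ (ι → Fin m)) (τ : Equiv.Perm (ι → Fin m)) : Equiv.Perm Ω :=
  c.trans (τ.trans c.symm)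

theorem lift_apply (c : Ω ≃ (ι → Fin m)) (τ : Equiv.Perm (ι → Fin m)) (a : Ω) :
    c (lift c τ a) = τ (c a) := by simp [lift]

theorem lift_mem (c : Ω ≃ (ι → Fin m)) (τ : Equiv.Perm (ι → Fin m))
    (hτ : ∀ x y, adj (τ x) (τ y) ↔ adj x y) : lift c τ ∈ hamG c := by
  intro a b
  rw [lift_apply, lift_apply, hτ]

theorem twist_lift_mem (c : Ω ≃ (ι → Fin m)) (τ : ι → Equiv.Perm (Fin m)) (π : Equiv.Perm ι) :
    lift c (twist τ π) ∈ hamG c := lift_mem c _ (adj_twist τ π)

/-- a block containing a fixed point of a group element is stabilized by it -/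
theorem mem_of_fix (c : Ω ≃ (ι → Fin m)) {B : Set Ω} (hB : IsBlock (hamG c) B)
    (σ : Equiv.Perm Ω) (hσ : σ ∈ hamG c) {u v : Ω} (hu : u ∈ B) (hv : v ∈ B) (hfix : σ u = u) :
    σ v ∈ B := by
  have h1 : (⟨σ, hσ⟩ : hamG c) • B = B :=
    hB.smul_eq_of_mem (g := ⟨σ, hσ⟩) (a := u) hu (by show σ u ∈ B; rw [hfix]; exact hu)
  have h2 : (⟨σ, hσ⟩ : hamG c) • v ∈ (⟨σ, hσ⟩ : hamG c) • B := Set.smul_mem_smul_set hv
  rw [h1] at h2
  exact h2

end ham

section prim

variable {ι : Type*} [Fintype ι] [DecidableEq ι] {m : ℕ} {Ω : Type*}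

/-- a permutation moving `a ↦ a'`, `b ↦ b'` -/
theorem exists_perm_two (a b a' b' : Fin m) (hab : a ≠ b) (hab' : a' ≠ b') :
    ∃ σ : Equiv.Perm (Fin m), σ a = a' ∧ σ b = b' := by
  refine ⟨Equiv.swap (Equiv.swap a a' b) b' * Equiv.swap a a', ?_, ?_⟩
  · rw [Equiv.Perm.mul_apply, Equiv.swap_apply_left]
    apply Equiv.swap_apply_of_ne_of_ne
    · intro h
      have h' := congrArg (Equiv.swap a a') h
      rw [Equiv.swap_apply_right, Equiv.swap_apply_self] at h'
      exact hab h'
    · exact hab'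
  · rw [Equiv.Perm.mul_apply, Equiv.swap_apply_left]

theorem neighbors_mem (c : Ω ≃ (ι → Fin m)) {B : Set Ω} (hB : IsBlock (hamG c) B)
    {u v : Ω} (hu : u ∈ B) (hv : v ∈ B) (huv : adj (c u) (c v)) (w : Ω)
    (huw : adj (c u) (c w)) : w ∈ B := by
  obtain ⟨i₀, hi₀, hrest⟩ := huv
  obtain ⟨j, hj, hrest'⟩ := huw
  obtain ⟨σ, hσ1, hσ2⟩ := exists_perm_two (c u i₀) (c v i₀) (c u j) (c w j) hi₀ hj
  obtain ⟨τ, hτ⟩ : ∃ τ : ι → Equiv.Perm (Fin m), τ = Function.update
      (Function.update (fun _ => Equiv.refl (Fin m)) i₀ (Equiv.swap (c u j) (c u i₀))) j σ :=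
    ⟨_, rfl⟩
  have hτj : τ j = σ := by rw [hτ, Function.update_self]
  have hτi : j ≠ i₀ → τ i₀ = Equiv.swap (c u j) (c u i₀) := fun h => by
    rw [hτ, Function.update_of_ne (Ne.symm h), Function.update_self]
  have hτl : ∀ l, l ≠ j → l ≠ i₀ → τ l = Equiv.refl _ := fun l h1 h2 => by
    rw [hτ, Function.update_of_ne h1, Function.update_of_ne h2]
  have hfixu : twist τ (Equiv.swap i₀ j) (c u) = c u := by
    funext l
    rw [twist_apply]
    by_cases hl : l = j
    · rw [hl, hτj, Equiv.swap_apply_right, hσ1]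
    · by_cases hl' : l = i₀
      · rw [hl'] at hl ⊢
        rw [hτi (Ne.symm hl), Equiv.swap_apply_left, Equiv.swap_apply_left]
      · rw [hτl l hl hl', Equiv.swap_apply_of_ne_of_ne hl' hl]
        rfl
  have hmapv : twist τ (Equiv.swap i₀ j) (c v) = c w := by
    funext l
    rw [twist_apply]
    by_cases hl : l = j
    · rw [hl, hτj, Equiv.swap_apply_right, hσ2]
    · by_cases hl' : l = i₀
      · rw [hl'] at hl ⊢
        rw [hτi (Ne.symm hl), Equiv.swap_apply_left, ← hrest j (Ne.symm hl),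
          Equiv.swap_apply_left]
        exact hrest' i₀ hl
      · rw [hτl l hl hl', Equiv.swap_apply_of_ne_of_ne hl' hl]
        show c v l = c w l
        rw [← hrest l hl', hrest' l hl]
  have hg := twist_lift_mem c τ (Equiv.swap i₀ j)
  have hgu : lift c (twist τ (Equiv.swap i₀ j)) u = u := by
    apply c.injective
    rw [lift_apply, hfixu]
  have hgv : lift c (twist τ (Equiv.swap i₀ j)) v = w := by
    apply c.injective
    rw [lift_apply, hmapv]
  rw [← hgv]
  exact mem_of_fix c hB _ hg hu hv hgu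

theorem ham_pretransitive (c : Ω ≃ (ι → Fin m)) : IsPretransitive (hamG c) Ω := by
  constructor
  intro a b
  refine ⟨⟨lift c (twist (fun i => Equiv.swap (c a i) (c b i)) 1), twist_lift_mem c _ 1⟩, ?_⟩
  show lift c (twist (fun i => Equiv.swap (c a i) (c b i)) 1) a = b
  apply c.injective
  rw [lift_apply]
  funext l
  rw [twist_apply, Equiv.Perm.one_apply, Equiv.swap_apply_left]

theorem ham_preprimitive (c : Ω ≃ (ι → Fin m)) (hm : 3 ≤ m) : IsPreprimitive (hamG c) Ω := by
  refine { toIsPretransitive := ham_pretransitive c, isTrivialBlock_of_isBlock := ?_ }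
  intro B hB
  by_cases hsub : B.Subsingleton
  · exact Or.inl hsub
  right
  rw [Set.not_subsingleton_iff] at hsub
  obtain ⟨a, ha, b, hb, hab⟩ := hsub
  have hxy : c a ≠ c b := fun h => hab (c.injective h)
  obtain ⟨i₀, hi₀⟩ := Function.ne_iff.mp hxy
  obtain ⟨q, hq1, hq2⟩ : ∃ q : Fin m, q ≠ c a i₀ ∧ q ≠ c b i₀ := by
    by_contra hno
    push Not at hno
    have hsub : (Finset.univ : Finset (Fin m)) ⊆ {c a i₀, c b i₀} := by
      intro q _
      by_cases h : q = c a i₀
      · simp [h]
      · simp [hno q h]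
    have h1 := Finset.card_le_card hsub
    have h2 : ({c a i₀, c b i₀} : Finset (Fin m)).card ≤ 2 := Finset.card_le_two
    rw [Finset.card_univ, Fintype.card_fin] at h1
    omega
  obtain ⟨τ₁, hτ₁⟩ : ∃ τ₁ : ι → Equiv.Perm (Fin m), τ₁ =
      Function.update (fun _ => Equiv.refl (Fin m)) i₀ (Equiv.swap (c b i₀) q) := ⟨_, rfl⟩
  have hτ₁i : τ₁ i₀ = Equiv.swap (c b i₀) q := by rw [hτ₁, Function.update_self]
  have hτ₁l : ∀ l, l ≠ i₀ → τ₁ l = Equiv.refl _ := fun l hl => by
    rw [hτ₁, Function.update_of_ne hl]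
  have hfa : lift c (twist τ₁ 1) a = a := by
    apply c.injective
    rw [lift_apply]
    funext l
    rw [twist_apply, Equiv.Perm.one_apply]
    by_cases hl : l = i₀
    · rw [hl, hτ₁i]
      exact Equiv.swap_apply_of_ne_of_ne hi₀ (Ne.symm hq1)
    · rw [hτ₁l l hl]
      rfl
  have hb' : lift c (twist τ₁ 1) b ∈ B :=
    mem_of_fix c hB _ (twist_lift_mem c τ₁ 1) ha hb hfa
  have hadj : adj (c b) (c (lift c (twist τ₁ 1) b)) := by
    rw [lift_apply]
    refine ⟨i₀, ?_, ?_⟩
    · rw [twist_apply, Equiv.Perm.one_apply, hτ₁i, Equiv.swap_apply_left]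
      exact Ne.symm hq2
    · intro l hl
      rw [twist_apply, Equiv.Perm.one_apply, hτ₁l l hl]
      rfl
  have hQ : ∀ s : Finset ι, ∀ w : Ω, (∀ l, l ∉ s → c w l = c b l) →
      w ∈ B ∧ ∃ z ∈ B, adj (c w) (c z) := by
    intro s
    induction s using Finset.induction_on with
    | empty =>
      intro w hw
      have hwb : w = b := c.injective (funext fun l => hw l (Finset.notMem_empty l))
      rw [hwb]
      exact ⟨hb, _, hb', hadj⟩
    | insert a₀ s ha₀ ih =>
      intro w hw
      obtain ⟨w₀, hw₀def⟩ : ∃ w₀ : Ω, w₀ = c.symm (Function.update (c w) a₀ (c b a₀)) :=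
        ⟨_, rfl⟩
      have hcw₀ : c w₀ = Function.update (c w) a₀ (c b a₀) := by
        rw [hw₀def, c.apply_symm_apply]
      have hw₀ := ih w₀ (fun l hl => by
        rw [hcw₀]
        by_cases h : l = a₀
        · rw [h, Function.update_self]
        · rw [Function.update_of_ne h]
          exact hw l (by simp [h, hl]))
      by_cases heq : c w a₀ = c b a₀
      · have hww : w = w₀ := by
          apply c.injective
          rw [hcw₀, ← heq, Function.update_eq_self]
        rw [hww]
        exact hw₀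
      · have hadj' : adj (c w₀) (c w) := by
          refine ⟨a₀, ?_, ?_⟩
          · rw [hcw₀, Function.update_self]
            exact Ne.symm heq
          · intro l hl
            rw [hcw₀, Function.update_of_ne hl]
        obtain ⟨hw₀B, z, hzB, hz⟩ := hw₀
        have hwB : w ∈ B := neighbors_mem c hB hw₀B hzB hz w hadj'
        exact ⟨hwB, w₀, hw₀B, adj_symm hadj'⟩
  apply Set.eq_univ_of_forall
  intro w
  exact (hQ Finset.univ w (fun l hl => absurd (Finset.mem_univ l) hl)).1

end prim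

/-- Let K be a finite group isomorphic to a direct product of r ≥ 2 groups all of the same order m ≥ 3. Then K is not a B-group: there is a primitive but not doubly transitive permutation group (on some finite set) containing a regular subgroup isomorphic to K. -/
theorem result {K : Type*} [Group K] [Finite K] {ι : Type*} [Fintype ι] (F : ι → Type*) [∀ i, Group (F i)]
    (hr : 2 ≤ Fintype.card ι) (m : ℕ) (hm : 3 ≤ m) (hcard : ∀ i, Nat.card (F i) = m) (e : K ≃* (∀ i, F i)) :
    ∃ (n : ℕ) (G R : Subgroup (Equiv.Perm (Fin n))), R ≤ G ∧ Nonempty (↥R ≃* K) ∧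
      MulAction.IsPretransitive ↥R (Fin n) ∧ (∀ a : Fin n, MulAction.stabilizer ↥R a = ⊥) ∧
      MulAction.IsPreprimitive ↥G (Fin n) ∧ ¬ MulAction.IsMultiplyPretransitive ↥G (Fin n) 2 := by
  classical
  have hfin : ∀ i, Finite (F i) := fun i =>
    Nat.finite_of_card_ne_zero (by rw [hcard i]; omega)
  have hθ : ∀ i, Nonempty (F i ≃ Fin m) := fun i => by
    haveI := hfin i
    exact ⟨(Finite.equivFin (F i)).trans (finCongr (hcard i))⟩
  obtain ⟨θ⟩ : Nonempty (∀ i, F i ≃ Fin m) := ⟨fun i => Classical.choice (hθ i)⟩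
  obtain ⟨n, hn⟩ : ∃ n, n = Nat.card (ι → Fin m) := ⟨_, rfl⟩
  obtain ⟨c⟩ : Nonempty (Fin n ≃ (ι → Fin m)) :=
    ⟨(finCongr hn).trans (Finite.equivFin (ι → Fin m)).symm⟩
  -- decoding into the product of the `F i`
  obtain ⟨D, hD⟩ : ∃ D : Fin n ≃ (∀ i, F i), ∀ a i, D a i = (θ i).symm (c a i) :=
    ⟨c.trans (Equiv.piCongrRight θ).symm, fun a i => rfl⟩
  have hcD : ∀ a i, c a i = θ i (D a i) := fun a i => by rw [hD, Equiv.apply_symm_apply]
  let ρ : K →* Equiv.Perm (Fin n) :=
    { toFun := fun k => D.trans ((Equiv.mulLeft (e k)).trans D.symm)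
      map_one' := by ext a; simp
      map_mul' := fun k k' => by ext a; simp [mul_assoc] }
  have hρ : ∀ k a, D (ρ k a) = e k * D a := fun k a => by
    show D (D.symm (e k * D a)) = e k * D a
    rw [Equiv.apply_symm_apply]
  have hinj : Function.Injective ρ := by
    intro k k' hkk
    have h1 := hρ k (D.symm 1)
    rw [hkk, hρ k' (D.symm 1), Equiv.apply_symm_apply, mul_one, mul_one] at h1
    exact e.injective h1.symm
  refine ⟨n, hamG c, ρ.range, ?_, ⟨(MonoidHom.ofInjective hinj).symm⟩, ?_, ?_,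
    ham_preprimitive c hm, ?_⟩
  · -- the regular subgroup preserves adjacency
    rintro _ ⟨k, rfl⟩
    intro a b
    have key : ∀ a, c (ρ k a) = fun i => θ i (e k i * (θ i).symm (c a i)) := by
      intro a
      funext i
      rw [hcD, hρ, Pi.mul_apply, hD]
    rw [key a, key b]
    exact adj_map (fun i t => θ i (e k i * (θ i).symm t))
      (fun i t t' h => (θ i).symm.injective (mul_left_cancel ((θ i).injective h))) (c a) (c b)
  · -- transitivity
    constructor
    intro a b
    refine ⟨⟨ρ (e.symm (D b * (D a)⁻¹)), ⟨_, rfl⟩⟩, ?_⟩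
    show ρ (e.symm (D b * (D a)⁻¹)) a = b
    apply D.injective
    rw [hρ, e.apply_symm_apply, inv_mul_cancel_right]
  · -- trivial stabilizers
    intro a
    rw [Subgroup.eq_bot_iff_forall]
    rintro ⟨_, ⟨k, rfl⟩⟩ hk
    have hk' : ρ k a = a := hk
    have h1 := hρ k a
    rw [hk'] at h1
    have h2 : e k = 1 := by
      have h3 : e k * D a = 1 * D a := by rw [one_mul]; exact h1.symm
      exact mul_right_cancel h3
    have h4 : k = 1 := e.injective (by rw [h2, map_one])
    apply Subtype.ext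
    show ρ k = 1
    rw [h4, map_one]
  · -- not doubly transitive
    rw [MulAction.is_two_pretransitive_iff]
    intro h
    obtain ⟨i₁, i₂, hi⟩ := Fintype.exists_pair_of_one_lt_card (show 1 < Fintype.card ι by omega)
    obtain ⟨z0, z1, hz⟩ : ∃ z0 z1 : Fin m, z0 ≠ z1 :=
      ⟨⟨0, by omega⟩, ⟨1, by omega⟩, by simp [Fin.ext_iff]⟩
    obtain ⟨x, hx⟩ : ∃ x : ι → Fin m, x = fun _ => z0 := ⟨_, rfl⟩
    obtain ⟨y, hy⟩ : ∃ y : ι → Fin m, y = Function.update x i₁ z1 := ⟨_, rfl⟩
    obtain ⟨z, hzdef⟩ : ∃ z : ι → Fin m, z = Function.update y i₂ z1 := ⟨_, rfl⟩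
    have hxy : adj x y := by
      refine ⟨i₁, ?_, ?_⟩
      · rw [hy, Function.update_self, hx]
        exact hz
      · intro j hj
        rw [hy, Function.update_of_ne hj]
    have hz1 : z i₁ = z1 := by
      rw [hzdef, Function.update_of_ne hi, hy, Function.update_self]
    have hz2 : z i₂ = z1 := by
      rw [hzdef, Function.update_self]
    have hxz : ¬ adj x z := by
      rintro ⟨i, -, hrest⟩
      have h1 : i₁ = i := by
        by_contra hne
        have h' := hrest i₁ hne
        rw [hz1, hx] at h'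
        exact hz h'
      have h2 : i₂ = i := by
        by_contra hne
        have h' := hrest i₂ hne
        rw [hz2, hx] at h'
        exact hz h'
      exact hi (h1.trans h2.symm)
    have hxney : c.symm x ≠ c.symm y := fun h' => adj_ne hxy (c.symm.injective h')
    have hxnez : c.symm x ≠ c.symm z := by
      intro h'
      have h'' := c.symm.injective h'
      have h3 := congrFun h'' i₁
      rw [hz1, hx] at h3
      exact hz h3
    obtain ⟨g, hg1, hg2⟩ := h hxney hxnez
    have hg := g.2 (c.symm x) (c.symm y)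
    have e1 : (g : Equiv.Perm (Fin n)) (c.symm x) = c.symm x := hg1
    have e2 : (g : Equiv.Perm (Fin n)) (c.symm y) = c.symm z := hg2
    rw [e1, e2] at hg
    simp only [Equiv.apply_symm_apply] at hg
    exact hxz (hg.mpr hxy)

end Cfsg.Agent.S3560
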