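import Cfsg.Statements.S3573
import Cfsg.Agent.Lib.Helper19.Derange

set_option autoImplicit false
open Cfsg

namespace Cfsg.Agent.S3573

open Cfsg.Agent.Lib.Helper19

theorem image_eq_of_forall_mem {n : ℕ} (σ : Equiv.Perm (Fin n)) (t : Finset (Fin n))
    (h : ∀ y ∈ t, σ y ∈ t) : t.image σ = t := by
  apply Finset.eq_of_subset_of_card_le
  · intro y hy
    obtain ⟨x, hx, rfl⟩ := Finset.mem_image.mp hy
    exact h x hx
  · rw [Finset.card_image_of_injective _ σ.injective]

theorem forall_mem_of_image_eq {n : ℕ} (σ : Equiv.Perm (Fin n)) (t : Finset (Fin n))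
    (h : t.image σ = t) : ∀ y ∈ t, σ y ∈ t := by
  intro y hy
  rw [← h]
  exact Finset.mem_image_of_mem σ hy

theorem pow_mem_of_forall_mem {n : ℕ} (σ : Equiv.Perm (Fin n)) (t : Finset (Fin n))
    (h : ∀ y ∈ t, σ y ∈ t) (j : ℕ) : ∀ y ∈ t, (σ ^ j) y ∈ t := by
  induction j with
  | zero =>
    intro y hy
    simpa using hy
  | succ j ih =>
    intro y hy
    rw [pow_succ', Equiv.Perm.mul_apply]
    exact h _ (ih y hy)

theorem zpowers_smul_mem {n : ℕ} (σ : Equiv.Perm (Fin n)) (t : Finset (Fin n))
    (h : ∀ y ∈ t, σ y ∈ t) (a : Subgroup.zpowers σ) : ∀ y ∈ t, a • y ∈ t := by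
  classical
  intro y hy
  obtain ⟨j, _, hja⟩ := Finset.mem_image.mp ((mem_zpowers_iff_mem_range_orderOf).mp a.2)
  have h1 : a • y = (σ ^ j) y := by
    rw [Subgroup.smul_def, ← hja]
    rfl
  rw [h1]
  exact pow_mem_of_forall_mem σ t h j y hy

/-- Orbits of moved points under a permutation of prime order `r` have `r` elements. -/
theorem orbit_ncard {n : ℕ} (σ : Equiv.Perm (Fin n)) (r : ℕ) (hr : r.Prime) (hσ : orderOf σ = r)
    (x : Fin n) (hx : σ x ≠ x) : (MulAction.orbit (Subgroup.zpowers σ) x).ncard = r := by
  have hfact : Fact (Nat.card (Subgroup.zpowers σ)).Prime := ⟨by rw [Nat.card_zpowers, hσ]; exact hr⟩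
  rw [← MulAction.index_stabilizer]
  rcases (MulAction.stabilizer (Subgroup.zpowers σ) x).eq_bot_or_eq_top_of_prime_card with h | h
  · rw [h, Subgroup.index_bot, Nat.card_zpowers, hσ]
  · exfalso
    apply hx
    have h1 : (⟨σ, Subgroup.mem_zpowers σ⟩ : Subgroup.zpowers σ) ∈
        MulAction.stabilizer (Subgroup.zpowers σ) x := by
      rw [h]
      trivial
    exact h1

/-- The number of moved points of a permutation of prime order `r` is a multiple of `r`. -/
theorem card_fixed_mod {n : ℕ} (σ : Equiv.Perm (Fin n)) (r : ℕ) (hr : r.Prime)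
    (hσ : orderOf σ = r) :
    (Finset.univ.filter (fun x => σ x = x)).card % r = n % r ∧
      (Finset.univ.filter (fun x => σ x = x)).card ≤ n := by
  have hsupp : σ.support = Finset.univ.filter (fun x => ¬ σ x = x) := by
    ext x
    simp
  have hsum : (Finset.univ.filter (fun x => σ x = x)).card +
      (Finset.univ.filter (fun x => ¬ σ x = x)).card = n := by
    have h1 := Finset.card_filter_add_card_filter_not (s := (Finset.univ : Finset (Fin n)))
      (fun x => σ x = x)
    rw [Finset.card_univ, Fintype.card_fin] at h1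
    exact h1
  obtain ⟨j, hj⟩ := Equiv.Perm.cycleType_prime_order (hσ ▸ hr)
  have h2 : σ.support.card = (j + 1) * r := by
    rw [← Equiv.Perm.sum_cycleType, hj, Multiset.sum_replicate, smul_eq_mul, hσ]
  rw [hsupp] at h2
  constructor
  · have h3 : n % r = ((Finset.univ.filter (fun x => σ x = x)).card + (j + 1) * r) % r := by
      rw [← h2, hsum]
    rw [h3, Nat.add_mul_mod_self_right]
  · omega

/-- If a permutation of prime order `r` fixes a set of size `k`, then `k` is congruent modulo
`r` to a number not exceeding the number of fixed points. -/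
theorem mod_of_invariant {n : ℕ} (σ : Equiv.Perm (Fin n)) (r : ℕ) (hr : r.Prime)
    (hσ : orderOf σ = r) (s : Finset (Fin n)) (hs : s.image σ = s) :
    ∃ f, f ≤ (Finset.univ.filter (fun x => σ x = x)).card ∧ s.card % r = f % r := by
  classical
  refine ⟨(s.filter (fun x => σ x = x)).card, ?_, ?_⟩
  · apply Finset.card_le_card
    intro x hx
    simp only [Finset.mem_filter, Finset.mem_univ, true_and] at hx ⊢
    exact hx.2
  · have hclosed : ∀ y ∈ s.filter (fun x => ¬ σ x = x), σ y ∈ s.filter (fun x => ¬ σ x = x) := by
      intro y hy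
      rw [Finset.mem_filter] at hy ⊢
      exact ⟨forall_mem_of_image_eq σ s hs y hy.1, fun h => hy.2 (σ.injective h)⟩
    have hdvd : r ∣ (s.filter (fun x => ¬ σ x = x)).card := by
      have h1 := dvd_ncard_of_orbits (A := Subgroup.zpowers σ) (X := Fin n) r _
        ((s.filter (fun x => ¬ σ x = x) : Finset (Fin n)) : Set (Fin n)) le_rfl
        (fun x hx => by
          rw [orbit_ncard σ r hr hσ x (Finset.mem_filter.mp (Finset.mem_coe.mp hx)).2])
        (fun a x hx => Finset.mem_coe.mpr (zpowers_smul_mem σ _ hclosed a x (Finset.mem_coe.mp hx)))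
      rwa [Set.ncard_coe_finset] at h1
    have hsplit := Finset.card_filter_add_card_filter_not (s := s) (fun x => σ x = x)
    obtain ⟨c, hc⟩ := hdvd
    rw [← hsplit, hc]
    simp

/-- Existence of invariant sets of a given size for a permutation of prime order. -/
theorem exists_invariant {n : ℕ} (σ : Equiv.Perm (Fin n)) (r : ℕ) (hr : r.Prime)
    (hσ : orderOf σ = r) (k : ℕ) (hkn : k ≤ n) (hmod : k % r ≤ n % r) :
    ∃ s : Finset (Fin n), s.card = k ∧ s.image σ = s := by
  classical
  have hrpos : 0 < r := hr.pos
  have key : ∀ i : ℕ, k % r + i * r ≤ k →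
      ∃ s : Finset (Fin n), s.card = k % r + i * r ∧ ∀ y ∈ s, σ y ∈ s := by
    intro i
    induction i with
    | zero =>
      intro _
      obtain ⟨hF1, hF2⟩ := card_fixed_mod σ r hr hσ
      have hFge : k % r ≤ (Finset.univ.filter (fun x => σ x = x)).card := by
        have h1 : n % r ≤ (Finset.univ.filter (fun x => σ x = x)).card := by
          rw [← hF1]
          exact Nat.mod_le _ _
        omega
      obtain ⟨s, hsF, hsc⟩ := Finset.exists_subset_card_eq hFge
      refine ⟨s, by rw [hsc]; simp, ?_⟩
      intro y hy
      have h1 := hsF hy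
      simp only [Finset.mem_filter, Finset.mem_univ, true_and] at h1
      rw [h1]
      exact hy
    | succ i ih =>
      intro hle
      have hle' : k % r + i * r ≤ k := by
        have : k % r + i * r ≤ k % r + (i + 1) * r := by
          apply Nat.add_le_add_left
          exact Nat.mul_le_mul_right r (Nat.le_succ i)
        omega
      obtain ⟨s, hsc, hsclosed⟩ := ih hle'
      have hstep : k % r + (i + 1) * r = k % r + i * r + r := by ring
      by_cases hex : ∃ x, x ∉ s ∧ σ x ≠ x
      · obtain ⟨x, hxs, hxσ⟩ := hex
        have hfin : (MulAction.orbit (Subgroup.zpowers σ) x).Finite := Set.toFinite _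
        have hOcard : hfin.toFinset.card = r := by
          rw [← Set.ncard_eq_toFinset_card _ hfin]
          exact orbit_ncard σ r hr hσ x hxσ
        have hOclosed : ∀ y ∈ hfin.toFinset, σ y ∈ hfin.toFinset := by
          intro y hy
          rw [Set.Finite.mem_toFinset] at hy ⊢
          obtain ⟨a, rfl⟩ := hy
          refine ⟨⟨σ, Subgroup.mem_zpowers σ⟩ * a, ?_⟩
          show ((⟨σ, Subgroup.mem_zpowers σ⟩ : Subgroup.zpowers σ) * a) • x = σ (a • x)
          rw [mul_smul]
          rfl
        have hdisj : Disjoint s hfin.toFinset := by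
          rw [Finset.disjoint_left]
          intro y hys hyO
          rw [Set.Finite.mem_toFinset] at hyO
          obtain ⟨a, rfl⟩ := hyO
          apply hxs
          have h1 := zpowers_smul_mem σ s hsclosed a⁻¹ _ hys
          rwa [inv_smul_smul] at h1
        refine ⟨s ∪ hfin.toFinset, ?_, ?_⟩
        · rw [Finset.card_union_of_disjoint hdisj, hsc, hOcard, hstep]
        · intro y hy
          rcases Finset.mem_union.mp hy with h1 | h1
          · exact Finset.mem_union_left _ (hsclosed y h1)
          · exact Finset.mem_union_right _ (hOclosed y h1)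
      · simp only [not_exists, not_and, not_not] at hex
        have hcompl : r ≤ (Finset.univ \ s).card := by
          rw [Finset.card_sdiff_of_subset (Finset.subset_univ s), Finset.card_univ, Fintype.card_fin,
            hsc]
          omega
        obtain ⟨O, hOs, hOc⟩ := Finset.exists_subset_card_eq hcompl
        have hdisj : Disjoint s O := by
          rw [Finset.disjoint_left]
          intro y hys hyO
          have h1 := hOs hyO
          rw [Finset.mem_sdiff] at h1
          exact h1.2 hys
        refine ⟨s ∪ O, ?_, ?_⟩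
        · rw [Finset.card_union_of_disjoint hdisj, hsc, hOc, hstep]
        · intro y hy
          rcases Finset.mem_union.mp hy with h1 | h1
          · exact Finset.mem_union_left _ (hsclosed y h1)
          · have h2 := hOs h1
            rw [Finset.mem_sdiff] at h2
            rw [hex y h2.2]
            exact Finset.mem_union_right _ h1
  obtain ⟨s, hsc, hsclosed⟩ := key (k / r) (by rw [Nat.mod_add_div'])
  refine ⟨s, ?_, image_eq_of_forall_mem σ s hsclosed⟩
  rw [hsc, Nat.mod_add_div']

/-- The main equivalence: every permutation of prime order `r ≤ n` fixes some `k`-set iff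
`k % r ≤ n % r`. -/
theorem main_iff (n k r : ℕ) (hkn : k ≤ n) (hr : r.Prime) (hrn : r ≤ n) :
    (∀ σ : Equiv.Perm (Fin n), orderOf σ = r →
      ∃ s : Finset (Fin n), s.card = k ∧ s.image σ = s) ↔ k % r ≤ n % r := by
  constructor
  · intro h
    obtain ⟨σ, hσ⟩ := (Equiv.Perm.exists_with_cycleType_iff (Fin n)
      (m := Multiset.replicate (n / r) r)).mpr
      ⟨by rw [Multiset.sum_replicate, smul_eq_mul, Fintype.card_fin]; exact Nat.div_mul_le_self n r,
       fun a ha => by rw [Multiset.eq_of_mem_replicate ha]; exact hr.two_le⟩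
    have hord : orderOf σ = r := by
      rw [← Equiv.Perm.lcm_cycleType, hσ]
      have h1 : 1 ≤ n / r := Nat.div_pos hrn hr.pos
      obtain ⟨j, hj⟩ : ∃ j, n / r = j + 1 := ⟨n / r - 1, by omega⟩
      rw [hj]
      clear hj
      induction j with
      | zero => simp
      | succ j ih =>
        rw [Multiset.replicate_succ, Multiset.lcm_cons, ih]
        simp
    have hsupp : σ.support.card = n / r * r := by
      rw [← Equiv.Perm.sum_cycleType, hσ, Multiset.sum_replicate, smul_eq_mul]
    have hsupp' : σ.support = Finset.univ.filter (fun x => ¬ σ x = x) := by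
      ext x
      simp
    have hsum := Finset.card_filter_add_card_filter_not (s := (Finset.univ : Finset (Fin n)))
      (fun x => σ x = x)
    rw [Finset.card_univ, Fintype.card_fin, ← hsupp', hsupp] at hsum
    have hfix : (Finset.univ.filter (fun x => σ x = x)).card = n % r := by
      have h2 := Nat.div_add_mod' n r
      omega
    obtain ⟨s, hsc, hs⟩ := h σ hord
    obtain ⟨f, hf1, hf2⟩ := mod_of_invariant σ r hr hord s hs
    rw [hfix] at hf1
    rw [hsc] at hf2
    have hlt : n % r < r := Nat.mod_lt _ hr.pos
    rw [hf2, Nat.mod_eq_of_lt (lt_of_le_of_lt hf1 hlt)]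
    exact hf1
  · intro h σ hσ
    exact exists_invariant σ r hr hσ k hkn h

/-- Let 1 ≤ k with 2k < n and consider the symmetric group of degree n acting on the k-subsets of an n-set. Let r be a prime dividing the number C(n,k) of k-subsets. If r is odd, then every permutation of order r fixes some k-subset if and only if r ≤ k and the remainder of k modulo r is at most the remainder of n modulo r. If r = 2, then every involution fixes some k-subset if and only if k is even or n is odd. -/
theorem result (n k : ℕ) (hk : 1 ≤ k) (hkn : 2 * k < n) (r : ℕ) (hr : r.Prime) (hrd : r ∣ Nat.choose n k) :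
    (r ≠ 2 → ((∀ σ : Equiv.Perm (Fin n), orderOf σ = r → ∃ s : Finset (Fin n), s.card = k ∧ s.image σ = s) ↔
      (r ≤ k ∧ k % r ≤ n % r))) ∧
    (r = 2 → ((∀ σ : Equiv.Perm (Fin n), orderOf σ = 2 → ∃ s : Finset (Fin n), s.card = k ∧ s.image σ = s) ↔
      (Even k ∨ Odd n))) := by
  have hkn' : k ≤ n := by omega
  have hrn : r ≤ n := by
    have h1 : Nat.choose n k ∣ n.factorial :=
      ⟨k.factorial * (n - k).factorial, by
        rw [← mul_assoc]; exact (Nat.choose_mul_factorial_mul_factorial hkn').symm⟩
    exact (Nat.Prime.dvd_factorial hr).mp (dvd_trans hrd h1)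
  have hmain := main_iff n k r hkn' hr hrn
  have hfact : Fact r.Prime := ⟨hr⟩
  constructor
  · intro _
    rw [hmain]
    constructor
    · intro h
      refine ⟨?_, h⟩
      by_contra hlt
      have hkr : k < r := by omega
      have hlucas := Choose.choose_modEq_choose_mod_mul_choose_div_nat (n := n) (k := k) (p := r)
      rw [Nat.mod_eq_of_lt hkr, Nat.div_eq_of_lt hkr, Nat.choose_zero_right, mul_one] at hlucas
      have h1 : r ∣ Nat.choose (n % r) k :=
        (Nat.modEq_zero_iff_dvd).mp (hlucas.symm.trans ((Nat.modEq_zero_iff_dvd).mpr hrd))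
      rw [Nat.mod_eq_of_lt hkr] at h
      have h2 : Nat.choose (n % r) k ∣ (n % r).factorial :=
        ⟨k.factorial * (n % r - k).factorial, by
          rw [← mul_assoc]; exact (Nat.choose_mul_factorial_mul_factorial h).symm⟩
      have h3 := (Nat.Prime.dvd_factorial hr).mp (dvd_trans h1 h2)
      have h4 : n % r < r := Nat.mod_lt _ hr.pos
      omega
    · intro h
      exact h.2
  · intro h2
    subst h2
    rw [hmain, Nat.even_iff, Nat.odd_iff]
    omega

end Cfsg.Agent.S3573
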