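import Cfsg.Statements.S3575
import Mathlib

set_option autoImplicit false
open Cfsg

namespace Cfsg.Agent.S3575

/-- The cycle-count criterion. -/
def Q (a b r j : ℕ) : Prop :=
  ∃ c, c * r ≤ b ∧ a * c ≤ j ∧ j ≤ a * c + (b - c * r) * (a / r)

theorem arith_core (r a₁ a₀ b₁ b₀ : ℕ) (hr : 2 ≤ r) (ha₀ : a₀ < r) (hb₀ : b₀ < r)
    (ha : 2 ≤ r * a₁ + a₀) (hb : 2 ≤ r * b₁ + b₀)
    (hrab : r ≤ (r * a₁ + a₀) * (r * b₁ + b₀)) :
    (∀ j, 1 ≤ j → j * r ≤ (r * a₁ + a₀) * (r * b₁ + b₀) →
        ∃ c, c * r ≤ r * b₁ + b₀ ∧ (r * a₁ + a₀) * c ≤ j ∧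
          j ≤ (r * a₁ + a₀) * c + (r * b₁ + b₀ - c * r) * a₁) ↔
      (1 ≤ a₁ ∧ (a₀ = 0 ∨ (b₀ = 0 ∧ a₀ = 1) ∨
        (a₀ ≠ 0 ∧ b₀ ≠ 0 ∧ b₀ * a₀ < r ∧
          (b₁ = 0 ∨ (b₀ + r) * a₀ ≤ b₀ * (r * a₁ + a₀) + r)))) := by
  have key : ∀ c, c * r ≤ r * b₁ + b₀ →
      ∃ d, b₁ = c + d ∧ r * b₁ + b₀ - c * r = d * r + b₀ := by
    intro c hc
    have hcb : c ≤ b₁ := by
      by_contra hlt
      push Not at hlt
      have h1 : (b₁ + 1) * r ≤ c * r := Nat.mul_le_mul_right r hlt
      nlinarith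
    obtain ⟨d, rfl⟩ := Nat.exists_eq_add_of_le hcb
    refine ⟨d, rfl, ?_⟩
    have h1 : r * (c + d) + b₀ = c * r + (d * r + b₀) := by ring
    rw [h1, Nat.add_sub_cancel_left]
  constructor
  · intro H
    have h1 : 1 ≤ a₁ := by
      obtain ⟨c, hc1, hc2, hc3⟩ := H 1 le_rfl (by simpa using hrab)
      have hc0 : c = 0 := by
        by_contra hne
        have h1 : 1 ≤ c := Nat.one_le_iff_ne_zero.mpr hne
        nlinarith
      subst hc0
      by_contra hlt
      have h0 : a₁ = 0 := by omega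
      subst h0
      simp at hc3
    have h2 : a₀ * b₀ < r := by
      by_contra hge
      push Not at hge
      obtain ⟨c, hc1, hc2, hc3⟩ :=
        H (a₁ * (r * b₁ + b₀) + a₀ * b₁ + 1) (by omega) (by nlinarith)
      obtain ⟨d, hd, hsub⟩ := key c hc1
      rw [hsub] at hc3
      subst hd
      nlinarith [Nat.zero_le (a₀ * d)]
    have h3 : b₁ = 0 ∨ a₀ ≤ b₀ * a₁ + 1 := by
      rcases Nat.eq_zero_or_pos b₁ with h0 | hpos
      · exact Or.inl h0
      right
      have hab : 2 ≤ (r * a₁ + a₀) * b₁ := by nlinarith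
      obtain ⟨j, hj⟩ : ∃ j, j + 1 = (r * a₁ + a₀) * b₁ :=
        ⟨(r * a₁ + a₀) * b₁ - 1, by omega⟩
      obtain ⟨c, hc1, hc2, hc3⟩ := H j (by omega) (by nlinarith)
      obtain ⟨d, hd, hsub⟩ := key c hc1
      rw [hsub] at hc3
      subst hd
      have hd1 : 1 ≤ d := by
        by_contra h0
        have hd0 : d = 0 := by omega
        subst hd0
        simp at hj
        omega
      have e1 : (r * a₁ + a₀) * (c + d) = (r * a₁ + a₀) * c + d * r * a₁ + a₀ * d := by ring
      have e2 : (d * r + b₀) * a₁ = d * r * a₁ + b₀ * a₁ := by ring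
      have e3 : a₀ ≤ a₀ * d := Nat.le_mul_of_pos_right a₀ hd1
      rw [e1] at hj
      rw [e2] at hc3
      omega
    refine ⟨h1, ?_⟩
    rcases Nat.eq_zero_or_pos a₀ with ha0 | ha0
    · exact Or.inl ha0
    rcases Nat.eq_zero_or_pos b₀ with hb0 | hb0
    · right; left
      refine ⟨hb0, ?_⟩
      subst hb0
      rcases h3 with h3 | h3
      · subst h3; omega
      · simp at h3; omega
    · right; right
      refine ⟨by omega, by omega, by rw [Nat.mul_comm]; exact h2, ?_⟩
      rcases h3 with h3 | h3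
      · exact Or.inl h3
      · right
        nlinarith [Nat.mul_le_mul_left r h3]
  · rintro ⟨h1, hdisj⟩
    have h2 : a₀ * b₀ < r := by
      rcases hdisj with h | ⟨h, -⟩ | ⟨-, -, h, -⟩
      · subst h; simp; omega
      · subst h; simp; omega
      · rw [Nat.mul_comm]; exact h
    have h3 : b₁ = 0 ∨ a₀ ≤ b₀ * a₁ + 1 := by
      rcases hdisj with h | ⟨-, h⟩ | ⟨-, -, -, h | h⟩
      · right; omega
      · right; omega
      · exact Or.inl h
      · right
        have h4 : r * a₀ ≤ r * (b₀ * a₁ + 1) := by nlinarith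
        exact Nat.le_of_mul_le_mul_left h4 (by omega)
    intro j hj1 hjr
    by_cases hcase : (r * a₁ + a₀) * b₁ ≤ j
    · refine ⟨b₁, by nlinarith, hcase, ?_⟩
      have hsub : r * b₁ + b₀ - b₁ * r = b₀ := by
        rw [Nat.mul_comm b₁ r]; omega
      rw [hsub]
      have h4 : j * r < (a₁ * (r * b₁ + b₀) + a₀ * b₁ + 1) * r := by nlinarith
      have h5 : j < a₁ * (r * b₁ + b₀) + a₀ * b₁ + 1 := Nat.lt_of_mul_lt_mul_right h4
      nlinarith
    · push Not at hcase
      have hb1 : 1 ≤ b₁ := by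
        by_contra h0
        have hb0 : b₁ = 0 := by omega
        subst hb0
        simp at hcase
      have h3' : a₀ ≤ b₀ * a₁ + 1 := by
        rcases h3 with h | h
        · omega
        · exact h
      have hapos : 0 < r * a₁ + a₀ := by omega
      have hc : j / (r * a₁ + a₀) < b₁ := Nat.div_lt_of_lt_mul hcase
      obtain ⟨c, hcdef⟩ : ∃ c, c = j / (r * a₁ + a₀) := ⟨_, rfl⟩
      rw [← hcdef] at hc
      have hc2 : (r * a₁ + a₀) * c ≤ j := by rw [hcdef]; exact Nat.mul_div_le j _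
      have hc3 : j < (r * a₁ + a₀) * (c + 1) := by
        rw [hcdef]; exact Nat.lt_mul_div_succ j hapos
      obtain ⟨d, rfl⟩ : ∃ d, b₁ = c + d + 1 := ⟨b₁ - c - 1, by omega⟩
      have hsub : r * (c + d + 1) + b₀ - c * r = (d + 1) * r + b₀ := by
        have h4 : r * (c + d + 1) + b₀ = c * r + ((d + 1) * r + b₀) := by ring
        rw [h4, Nat.add_sub_cancel_left]
      refine ⟨c, by nlinarith, hc2, ?_⟩
      rw [hsub]
      nlinarith [Nat.zero_le (d * r * a₁)]

theorem arith (a b r : ℕ) (ha : 2 ≤ a) (hb : 2 ≤ b) (hr : 2 ≤ r) (hrab : r ≤ a * b) :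
    (∀ j, 1 ≤ j → j * r ≤ a * b → Q a b r j) ↔
      (r ≤ a ∧ (a % r = 0 ∨ (b % r = 0 ∧ a % r = 1) ∨
        (a % r ≠ 0 ∧ b % r ≠ 0 ∧ (b % r) * (a % r) < r ∧
          (b < r ∨ (b % r + r) * (a % r) ≤ (b % r) * a + r)))) := by
  have hrpos : 0 < r := by omega
  have ea : r * (a / r) + a % r = a := Nat.div_add_mod a r
  have eb : r * (b / r) + b % r = b := Nat.div_add_mod b r
  have ha0 : a % r < r := Nat.mod_lt _ hrpos
  have hb0 : b % r < r := Nat.mod_lt _ hrpos
  have core := arith_core r (a / r) (a % r) (b / r) (b % r) hr ha0 hb0 (by omega) (by omega)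
    (by rw [ea, eb]; exact hrab)
  rw [ea, eb] at core
  have e1 : r ≤ a ↔ 1 ≤ a / r := by
    rw [Nat.le_div_iff_mul_le hrpos]; simp
  have e2 : b < r ↔ b / r = 0 := by
    rw [Nat.div_eq_zero_iff]; omega
  rw [e1, e2]
  exact core

theorem r_le (a b r : ℕ) (ha : 2 ≤ a) (hr : r.Prime)
    (hrd : r ∣ (a * b).factorial / (a.factorial ^ b * b.factorial)) : r ≤ a * b := by
  have ha0 : a ≠ 0 := by omega
  have h1 := Nat.uniformBell_mul_eq b ha0
  have h2 := Nat.uniformBell_eq_div b ha0
  rw [Nat.mul_comm a b] at hrd ⊢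
  rw [← h2] at hrd
  have h3 : r ∣ (b * a).factorial := by
    rw [← h1]
    exact Dvd.dvd.mul_right (Dvd.dvd.mul_right hrd _) _
  exact (Nat.Prime.dvd_factorial hr).mp h3

section gadget

variable {X : Type} [Fintype X] [DecidableEq X] (Y : Type) [Fintype Y] [DecidableEq Y]

set_option linter.unusedSectionVars false

/-- The gadget permutation: rotate the `Fin r` coordinate over the points satisfying `p`. -/
def gad (r : ℕ) (p : X → Prop) [DecidablePred p] : Equiv.Perm ((X × Fin r) ⊕ Y) :=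
  Equiv.sumCongr
    (Equiv.prodShear (Equiv.refl X) (fun x => if p x then finRotate r else 1))
    (Equiv.refl Y)

theorem gad_inl (r : ℕ) (p : X → Prop) [DecidablePred p] (x : X) (i : Fin r) :
    gad Y r p (Sum.inl (x, i)) = Sum.inl (x, if p x then finRotate r i else i) := by
  unfold gad
  by_cases h : p x <;> simp [h]

theorem gad_inr (r : ℕ) (p : X → Prop) [DecidablePred p] (y : Y) :
    gad Y r p (Sum.inr y) = Sum.inr y := by
  simp [gad]

theorem gad_pow_inl (r : ℕ) (p : X → Prop) [DecidablePred p] (k : ℕ) (x : X) (i : Fin r) :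
    ((gad Y r p) ^ k) (Sum.inl (x, i)) =
      Sum.inl (x, if p x then ((finRotate r) ^ k) i else i) := by
  induction k generalizing i with
  | zero => simp
  | succ k ih =>
    rw [pow_succ, Equiv.Perm.mul_apply, gad_inl, ih]
    by_cases h : p x
    · simp [h, pow_succ]
    · simp [h]

theorem gad_pow_inr (r : ℕ) (p : X → Prop) [DecidablePred p] (k : ℕ) (y : Y) :
    ((gad Y r p) ^ k) (Sum.inr y) = Sum.inr y := by
  induction k with
  | zero => simp
  | succ k ih => rw [pow_succ, Equiv.Perm.mul_apply, gad_inr, ih]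

theorem finRotate_pow_self (r : ℕ) (hr : 2 ≤ r) : (finRotate r) ^ r = 1 := by
  have h : orderOf (finRotate r) = r := by
    rw [← Equiv.Perm.lcm_cycleType, cycleType_finRotate_of_le hr]
    simp
  have h1 := pow_orderOf_eq_one (finRotate r)
  rwa [h] at h1

theorem gad_pow_self (r : ℕ) (hr : 2 ≤ r) (p : X → Prop) [DecidablePred p] :
    (gad Y r p) ^ r = 1 := by
  apply Equiv.Perm.ext
  intro z
  rcases z with ⟨x, i⟩ | y
  · rw [gad_pow_inl, finRotate_pow_self r hr]; simp
  · rw [gad_pow_inr]; simp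

theorem gad_support (r : ℕ) (hr : 2 ≤ r) (p : X → Prop) [DecidablePred p] :
    (gad Y r p).support =
      ((Finset.univ.filter p) ×ˢ (Finset.univ : Finset (Fin r))).map Function.Embedding.inl := by
  have hrot : ∀ i : Fin r, finRotate r i ≠ i := by
    intro i
    have h1 : i ∈ (finRotate r).support := by
      rw [support_finRotate_of_le hr]; exact Finset.mem_univ i
    exact Equiv.Perm.mem_support.mp h1
  ext z
  rcases z with ⟨x, i⟩ | y
  · rw [Equiv.Perm.mem_support, gad_inl]
    have hmem : (Sum.inl (x, i) : (X × Fin r) ⊕ Y) ∈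
        ((Finset.univ.filter p) ×ˢ (Finset.univ : Finset (Fin r))).map
          Function.Embedding.inl ↔ p x := by
      simp
    rw [hmem]
    by_cases h : p x
    · rw [if_pos h]
      constructor
      · intro _; exact h
      · intro _ hcontra
        exact hrot i (Prod.mk.inj (Sum.inl.inj hcontra)).2
    · rw [if_neg h]
      constructor
      · intro hcontra; exact absurd rfl hcontra
      · intro h'; exact absurd h' h
  · rw [Equiv.Perm.mem_support, gad_inr]
    simp

theorem gad_card_support (r : ℕ) (hr : 2 ≤ r) (p : X → Prop) [DecidablePred p] :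
    (gad Y r p).support.card = Nat.card {x // p x} * r := by
  rw [gad_support Y r hr, Finset.card_map, Finset.card_product, Finset.card_univ,
    Fintype.card_fin, Nat.card_eq_fintype_card, Fintype.card_subtype]

end gadget

theorem transport {α β : Type} [Fintype α] [DecidableEq α] [Fintype β] [DecidableEq β]
    (e : α ≃ β) (σ : Equiv.Perm α) :
    orderOf (e.permCongr σ) = orderOf σ ∧ (e.permCongr σ).support.card = σ.support.card := by
  constructor
  · exact MulEquiv.orderOf_eq e.permCongrHom σ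
  · have h : (e.permCongr σ).support = σ.support.map e.toEmbedding := by
      ext x
      simp only [Equiv.Perm.mem_support, Equiv.permCongr_apply, Finset.mem_map,
        Equiv.coe_toEmbedding]
      constructor
      · intro h
        exact ⟨e.symm x, fun h' => h (by rw [h']; simp), by simp⟩
      · rintro ⟨y, hy, rfl⟩
        simpa using hy
    rw [h, Finset.card_map]

theorem cyc_type {α : Type} [Fintype α] [DecidableEq α] (r : ℕ) (hr : r.Prime)
    (σ : Equiv.Perm α) (hσ : orderOf σ = r) (j : ℕ) (hj : σ.support.card = j * r) :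
    σ.cycleType = Multiset.replicate j r := by
  obtain ⟨n, hn⟩ := Equiv.Perm.cycleType_prime_order (σ := σ) (by rw [hσ]; exact hr)
  rw [hσ] at hn
  have hs := Equiv.Perm.sum_cycleType σ
  rw [hn, Multiset.sum_replicate, smul_eq_mul, hj] at hs
  have h1 : n + 1 = j := Nat.eq_of_mul_eq_mul_right hr.pos hs
  rw [hn, h1]

theorem exists_j {α : Type} [Fintype α] [DecidableEq α] (r : ℕ) (hr : r.Prime)
    (σ : Equiv.Perm α) (hσ : orderOf σ = r) : ∃ j, 1 ≤ j ∧ σ.support.card = j * r := by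
  obtain ⟨n, hn⟩ := Equiv.Perm.cycleType_prime_order (σ := σ) (by rw [hσ]; exact hr)
  refine ⟨n + 1, by omega, ?_⟩
  rw [← Equiv.Perm.sum_cycleType, hn, Multiset.sum_replicate, smul_eq_mul, hσ]

theorem conj_transfer {N b a r : ℕ} (hr : r.Prime) (σ σ₁ : Equiv.Perm (Fin N))
    (hσ : orderOf σ = r) (hσ₁ : orderOf σ₁ = r)
    (j : ℕ) (hj : σ.support.card = j * r) (hj₁ : σ₁.support.card = j * r)
    (h₁ : ∃ f : Fin N → Fin b, (∀ β : Fin b, Nat.card {x : Fin N // f x = β} = a) ∧
      ∃ π : Equiv.Perm (Fin b), ∀ x, f (σ₁ x) = π (f x)) :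
    ∃ f : Fin N → Fin b, (∀ β : Fin b, Nat.card {x : Fin N // f x = β} = a) ∧
      ∃ π : Equiv.Perm (Fin b), ∀ x, f (σ x) = π (f x) := by
  obtain ⟨f, hf, π, hπ⟩ := h₁
  have hc : IsConj σ₁ σ := by
    rw [Equiv.Perm.isConj_iff_cycleType_eq, cyc_type r hr σ hσ j hj,
      cyc_type r hr σ₁ hσ₁ j hj₁]
  obtain ⟨τ, hτ⟩ := isConj_iff.mp hc
  refine ⟨fun x => f (τ⁻¹ x), ?_, π, ?_⟩
  · intro β
    rw [← hf β]
    exact Nat.card_congr (Equiv.subtypeEquiv τ⁻¹ (fun x => Iff.rfl))
  · intro x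
    rw [← hτ]
    simp only [Equiv.Perm.mul_apply]
    have h1 : τ⁻¹ (τ (σ₁ (τ⁻¹ x))) = σ₁ (τ⁻¹ x) := by simp
    rw [h1]
    exact hπ _

theorem exists_perm (N r j : ℕ) (hr : r.Prime) (hj1 : 1 ≤ j) (hjN : j * r ≤ N) :
    ∃ σ : Equiv.Perm (Fin N), orderOf σ = r ∧ σ.support.card = j * r := by
  have : Fact r.Prime := ⟨hr⟩
  have h2 : 2 ≤ r := hr.two_le
  have hcard : Fintype.card ((Fin j × Fin r) ⊕ Fin (N - j * r)) = N := by
    simp only [Fintype.card_sum, Fintype.card_prod, Fintype.card_fin]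
    omega
  have hpow : (gad (X := Fin j) (Fin (N - j * r)) r (fun _ => True)) ^ r = 1 :=
    gad_pow_self _ r h2 _
  have hsupp : (gad (X := Fin j) (Fin (N - j * r)) r (fun _ => True)).support.card = j * r := by
    rw [gad_card_support _ r h2]
    simp
  have hne : gad (X := Fin j) (Fin (N - j * r)) r (fun _ => True) ≠ 1 := by
    intro h
    rw [h, Equiv.Perm.support_one, Finset.card_empty] at hsupp
    have h3 : 0 < j * r := Nat.mul_pos (by omega) hr.pos
    omega
  have hord := orderOf_eq_prime hpow hne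
  obtain ⟨t1, t2⟩ := transport (Fintype.equivFinOfCardEq hcard)
    (gad (X := Fin j) (Fin (N - j * r)) r (fun _ => True))
  exact ⟨_, by rw [t1, hord], by rw [t2, hsupp]⟩

/-! ### The partition-preserving model -/

abbrev AA (a r : ℕ) : Type := (Fin (a / r) × Fin r) ⊕ Fin (a % r)
abbrev XX (a r c d : ℕ) : Type := (Fin c × AA a r) ⊕ (Fin d × Fin (a / r))
abbrev YY (a r d : ℕ) : Type := Fin d × Fin (a % r)
abbrev OO (a r c d : ℕ) : Type := (XX a r c d × Fin r) ⊕ YY a r d
abbrev BB (r c d : ℕ) : Type := (Fin c × Fin r) ⊕ Fin d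

theorem card_AA (a r : ℕ) : Fintype.card (AA a r) = a := by
  simp only [AA, Fintype.card_sum, Fintype.card_prod, Fintype.card_fin]
  rw [Nat.mul_comm]; exact Nat.div_add_mod a r

def Theta (a r c d : ℕ) : OO a r c d ≃ BB r c d × AA a r where
  toFun
    | Sum.inl (Sum.inl (g, k), i) => (Sum.inl (g, i), k)
    | Sum.inl (Sum.inr (β, u), i) => (Sum.inr β, Sum.inl (u, i))
    | Sum.inr (β, w) => (Sum.inr β, Sum.inr w)
  invFun
    | (Sum.inl (g, i), k) => Sum.inl (Sum.inl (g, k), i)
    | (Sum.inr β, Sum.inl (u, i)) => Sum.inl (Sum.inr (β, u), i)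
    | (Sum.inr β, Sum.inr w) => Sum.inr (β, w)
  left_inv := by
    rintro (⟨(⟨g, k⟩ | ⟨β, u⟩), i⟩ | ⟨β, w⟩) <;> rfl
  right_inv := by
    rintro ⟨(⟨g, i⟩ | β), k⟩
    · rfl
    · rcases k with ⟨u, i⟩ | w <;> rfl

def pp (a r c d t : ℕ) : XX a r c d → Prop :=
  Sum.elim (fun _ => True) (fun y => ((finProdFinEquiv y : Fin (d * (a / r))) : ℕ) < t)

noncomputable instance ppDec (a r c d t : ℕ) : DecidablePred (pp a r c d t) :=
  Classical.decPred _

noncomputable def sig0 (a r c d t : ℕ) : Equiv.Perm (OO a r c d) :=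
  gad (YY a r d) r (pp a r c d t)

def pi0 (r c d : ℕ) : Equiv.Perm (BB r c d) :=
  Equiv.sumCongr (Equiv.prodCongr (Equiv.refl (Fin c)) (finRotate r)) (Equiv.refl (Fin d))

theorem compat0 (a r c d t : ℕ) (x : OO a r c d) :
    (Theta a r c d (sig0 a r c d t x)).1 = pi0 r c d (Theta a r c d x).1 := by
  rcases x with (⟨(⟨g, k⟩ | ⟨β, u⟩), i⟩ | ⟨β, w⟩)
  · rw [sig0, gad_inl]
    have h : pp a r c d t (Sum.inl (g, k)) := trivial
    simp only [h, if_true]
    rfl
  · rw [sig0, gad_inl]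
    rfl
  · rw [sig0, gad_inr]
    rfl

theorem card_pp (a r c d t : ℕ) (ht : t ≤ d * (a / r)) :
    Nat.card {x // pp a r c d t x} = c * a + t := by
  have e1 : Nat.card {x₁ : Fin c × AA a r // pp a r c d t (Sum.inl x₁)} = c * a := by
    rw [Nat.card_congr (Equiv.subtypeUnivEquiv
      (p := fun x₁ : Fin c × AA a r => pp a r c d t (Sum.inl x₁)) (fun x => trivial)),
      Nat.card_eq_fintype_card, Fintype.card_prod, Fintype.card_fin, card_AA]
  have e2 : Nat.card {y : Fin d × Fin (a / r) // pp a r c d t (Sum.inr y)} = t := by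
    rw [Nat.card_congr ((Equiv.subtypeEquiv
      (p := fun y : Fin d × Fin (a / r) => pp a r c d t (Sum.inr y))
      (q := fun n : Fin (d * (a / r)) => (n : ℕ) < t) finProdFinEquiv
      (fun _ => Iff.rfl)).trans (Fin.castLEOrderIso ht).toEquiv.symm)]
    simp
  rw [Nat.card_congr (Equiv.subtypeSum (p := pp a r c d t)), Nat.card_sum, e1, e2]

theorem card_fiber0 (a r c d : ℕ) (β : BB r c d) :
    Nat.card {x : OO a r c d // (Theta a r c d x).1 = β} = a := by
  have e1 : {x : OO a r c d // (Theta a r c d x).1 = β} ≃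
      {y : BB r c d × AA a r // y.1 = β} :=
    Equiv.subtypeEquiv (Theta a r c d) (fun _ => Iff.rfl)
  have e2 : {y : BB r c d × AA a r // y.1 = β} ≃ AA a r :=
    { toFun := fun y => y.1.2
      invFun := fun k => ⟨(β, k), rfl⟩
      left_inv := by
        rintro ⟨⟨b', k⟩, h⟩
        simp only at h
        subst h
        rfl
      right_inv := fun k => rfl }
  rw [Nat.card_congr (e1.trans e2), Nat.card_eq_fintype_card, card_AA]

theorem model_exists (a b r c t : ℕ) (hr : r.Prime) (hc : c * r ≤ b)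
    (ht : t ≤ (b - c * r) * (a / r)) (hpos : 1 ≤ a * c + t) :
    ∃ σ₁ : Equiv.Perm (Fin (a * b)), orderOf σ₁ = r ∧ σ₁.support.card = (a * c + t) * r ∧
      ∃ f : Fin (a * b) → Fin b, (∀ β : Fin b, Nat.card {x : Fin (a * b) // f x = β} = a) ∧
        ∃ π : Equiv.Perm (Fin b), ∀ x, f (σ₁ x) = π (f x) := by
  have : Fact r.Prime := ⟨hr⟩
  have h2 : 2 ≤ r := hr.two_le
  obtain ⟨d, hd⟩ : ∃ d, d = b - c * r := ⟨_, rfl⟩
  rw [← hd] at ht
  have hbd : c * r + d = b := by omega
  have hBB : Fintype.card (BB r c d) = b := by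
    simp only [BB, Fintype.card_sum, Fintype.card_prod, Fintype.card_fin]
    exact hbd
  have hOO : Fintype.card (OO a r c d) = a * b := by
    rw [Fintype.card_congr (Theta a r c d), Fintype.card_prod, card_AA, hBB, Nat.mul_comm]
  have hpow : (sig0 a r c d t) ^ r = 1 := gad_pow_self _ r h2 _
  have hsupp : (sig0 a r c d t).support.card = (a * c + t) * r := by
    rw [sig0, gad_card_support _ r h2, card_pp a r c d t ht, Nat.mul_comm c a]
  have hne : sig0 a r c d t ≠ 1 := by
    intro h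
    rw [h, Equiv.Perm.support_one, Finset.card_empty] at hsupp
    have h3 : 0 < (a * c + t) * r := Nat.mul_pos (by omega) hr.pos
    omega
  have hord : orderOf (sig0 a r c d t) = r := orderOf_eq_prime hpow hne
  obtain ⟨e, -⟩ : ∃ e : OO a r c d ≃ Fin (a * b), True := ⟨Fintype.equivFinOfCardEq hOO, trivial⟩
  obtain ⟨eb, -⟩ : ∃ eb : BB r c d ≃ Fin b, True := ⟨Fintype.equivFinOfCardEq hBB, trivial⟩
  obtain ⟨t1, t2⟩ := transport e (sig0 a r c d t)
  refine ⟨e.permCongr (sig0 a r c d t), by rw [t1, hord], by rw [t2, hsupp],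
    fun x => eb (Theta a r c d (e.symm x)).1, ?_, eb.permCongr (pi0 r c d), ?_⟩
  · intro β
    refine Eq.trans ?_ (card_fiber0 a r c d (eb.symm β))
    exact Nat.card_congr (Equiv.subtypeEquiv e.symm (fun x => eb.eq_symm_apply.symm))
  · intro x
    simp only [Equiv.permCongr_apply, Equiv.symm_apply_apply]
    rw [compat0]

/-! ### Necessity -/

theorem dvd_support {α : Type} [Fintype α] [DecidableEq α] (r : ℕ) (hr : r.Prime)
    (τ : Equiv.Perm α) (h : τ ^ r = 1) : r ∣ τ.support.card := by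
  have : Fact r.Prime := ⟨hr⟩
  have h1 := Equiv.Perm.card_compl_support_modEq (p := r) (n := 1) (σ := τ) (by rwa [pow_one])
  rw [Finset.card_compl] at h1
  have hle := Finset.card_le_univ τ.support
  have h2 := (Nat.modEq_iff_dvd' (Nat.sub_le _ _)).mp h1
  rwa [Nat.sub_sub_self hle] at h2

theorem necessity (a b r : ℕ) (ha : 2 ≤ a) (hr : r.Prime) (σ : Equiv.Perm (Fin (a * b)))
    (hσ : orderOf σ = r) (j : ℕ) (hj : σ.support.card = j * r)
    (f : Fin (a * b) → Fin b) (hf : ∀ β : Fin b, Nat.card {x : Fin (a * b) // f x = β} = a)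
    (π : Equiv.Perm (Fin b)) (hπ : ∀ x, f (σ x) = π (f x)) : Q a b r j := by
  have hrpos : 0 < r := hr.pos
  have hσr : σ ^ r = 1 := by rw [← hσ]; exact pow_orderOf_eq_one σ
  have hsurj : ∀ β : Fin b, ∃ x, f x = β := by
    intro β
    have hne : Nat.card {x : Fin (a * b) // f x = β} ≠ 0 := by rw [hf β]; omega
    obtain ⟨⟨x, hx⟩⟩ := (Nat.card_ne_zero.mp hne).1
    exact ⟨x, hx⟩
  have hpow : ∀ k x, f ((σ ^ k) x) = (π ^ k) (f x) := by
    intro k
    induction k with
    | zero => intro x; simp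
    | succ k ih =>
      intro x
      rw [pow_succ, Equiv.Perm.mul_apply, ih, hπ, pow_succ, Equiv.Perm.mul_apply]
  have hπr : π ^ r = 1 := by
    apply Equiv.Perm.ext
    intro β
    obtain ⟨x, rfl⟩ := hsurj β
    rw [← hpow, hσr]; simp
  obtain ⟨c, hc⟩ := dvd_support r hr π hπr
  have hcb : c * r ≤ b := by
    have h1 := Finset.card_le_univ π.support
    rw [Fintype.card_fin, hc] at h1
    rw [Nat.mul_comm]; exact h1
  obtain ⟨s, hs⟩ : ∃ s : Fin b → ℕ, s = fun β => (σ.support.filter (fun x => f x = β)).card :=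
    ⟨_, rfl⟩
  have hsβ : ∀ β, s β = (σ.support.filter (fun x => f x = β)).card := fun β => by rw [hs]
  have hsum : σ.support.card = ∑ β, s β := by
    rw [hs]
    exact Finset.card_eq_sum_card_fiberwise (fun x _ => Finset.mem_univ (f x))
  have hfib : ∀ β : Fin b, (Finset.univ.filter (fun x => f x = β)).card = a := by
    intro β
    have h1 := hf β
    rw [Nat.card_eq_fintype_card, Fintype.card_subtype] at h1
    exact h1
  have hs_le : ∀ β, s β ≤ a := by
    intro β
    refine le_trans ?_ (le_of_eq (hfib β))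
    rw [hsβ β]
    exact Finset.card_le_card (Finset.filter_subset_filter _ (Finset.subset_univ _))
  have hs_moved : ∀ β ∈ π.support, s β = a := by
    intro β hβ
    refine Eq.trans ?_ (hfib β)
    rw [hsβ β]
    apply congrArg Finset.card
    ext x
    simp only [Finset.mem_filter, Finset.mem_univ, true_and, Equiv.Perm.mem_support]
    constructor
    · exact fun h => h.2
    · intro hx
      refine ⟨?_, hx⟩
      intro hfix
      have h1 := hπ x
      rw [hfix, hx] at h1
      exact (Equiv.Perm.mem_support.mp hβ) h1.symm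
  have hs_fixed : ∀ β ∈ π.supportᶜ, r ∣ s β := by
    intro β hβ
    have hβ' : π β = β := by
      simpa [Equiv.Perm.mem_support] using hβ
    have hinv : ∀ x, f (σ x) = β ↔ f x = β := by
      intro x
      rw [hπ]
      constructor
      · intro h
        have h1 : π (f x) = π β := by rw [h, hβ']
        exact π.injective h1
      · intro h; rw [h, hβ']
    have hτ : (Equiv.Perm.subtypePerm (p := fun x => f x = β) σ hinv) ^ r = 1 := by
      rw [Equiv.Perm.subtypePerm_pow]
      apply Equiv.Perm.ext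
      rintro ⟨x, hx⟩
      simp [hσr]
    have h1 := dvd_support r hr (Equiv.Perm.subtypePerm (p := fun x => f x = β) σ hinv) hτ
    have h2 : (Equiv.Perm.subtypePerm (p := fun x => f x = β) σ hinv).support =
        σ.support.subtype (fun x => f x = β) := by
      ext ⟨x, hx⟩
      simp [Equiv.Perm.mem_support, Subtype.ext_iff]
    rw [h2, Finset.card_subtype] at h1
    rw [hsβ β]
    exact h1
  have hsplit : ∑ β ∈ π.support, s β + ∑ β ∈ π.supportᶜ, s β = ∑ β, s β :=
    Finset.sum_add_sum_compl _ _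
  have hA : ∑ β ∈ π.support, s β = r * c * a := by
    rw [Finset.sum_congr rfl hs_moved, Finset.sum_const, smul_eq_mul, hc]
  have hB : ∑ β ∈ π.supportᶜ, s β = r * ∑ β ∈ π.supportᶜ, s β / r := by
    rw [Finset.mul_sum]
    apply Finset.sum_congr rfl
    intro β hβ
    exact (Nat.mul_div_cancel' (hs_fixed β hβ)).symm
  have hT : ∑ β ∈ π.supportᶜ, s β / r ≤ (b - c * r) * (a / r) := by
    have h1 : ∑ β ∈ π.supportᶜ, s β / r ≤ π.supportᶜ.card • (a / r) :=
      Finset.sum_le_card_nsmul _ _ _ (fun β _ => Nat.div_le_div_right (hs_le β))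
    rw [smul_eq_mul, Finset.card_compl, Fintype.card_fin, hc, Nat.mul_comm r c] at h1
    exact h1
  obtain ⟨T, hTdef⟩ : ∃ T, T = ∑ β ∈ π.supportᶜ, s β / r := ⟨_, rfl⟩
  rw [← hTdef] at hB hT
  have hfinal : j * r = r * c * a + r * T := by
    rw [← hj, hsum, ← hsplit, hA, hB]
  have hjeq : j = a * c + T := by
    have h1 : r * j = r * (a * c + T) := by rw [Nat.mul_comm r j, hfinal]; ring
    exact Nat.eq_of_mul_eq_mul_left hrpos h1
  exact ⟨c, hcb, by rw [hjeq]; exact Nat.le_add_right _ _,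
    by rw [hjeq]; exact Nat.add_le_add_left hT _⟩

/-- Let a, b ≥ 2 and consider the symmetric group of degree a·b acting on the partitions of an (a·b)-set into b parts of size a (encoded as maps onto a b-element set all of whose fibres have a elements; a permutation fixes such a partition when it permutes the fibres). Let r be a prime dividing the number (ab)!/((a!)^b·b!) of such partitions, and let ℓ and k be the remainders of a and b modulo r. Then every permutation of order r fixes some such partition if and only if r ≤ a and one of the following holds: ℓ = 0; or k = 0 and ℓ = 1; or ℓ and k are non-zero, k·ℓ < r, and either b < r or (k + r)·ℓ ≤ k·a + r. -/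
theorem result (a b : ℕ) (ha : 2 ≤ a) (hb : 2 ≤ b) (r : ℕ) (hr : r.Prime)
    (hrd : r ∣ (a * b).factorial / (a.factorial ^ b * b.factorial)) :
    (∀ σ : Equiv.Perm (Fin (a * b)), orderOf σ = r →
        ∃ f : Fin (a * b) → Fin b, (∀ j : Fin b, Nat.card {x : Fin (a * b) // f x = j} = a) ∧
          ∃ π : Equiv.Perm (Fin b), ∀ x : Fin (a * b), f (σ x) = π (f x)) ↔
      (r ≤ a ∧ (a % r = 0 ∨ (b % r = 0 ∧ a % r = 1) ∨
        (a % r ≠ 0 ∧ b % r ≠ 0 ∧ (b % r) * (a % r) < r ∧ (b < r ∨ (b % r + r) * (a % r) ≤ (b % r) * a + r)))) := by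
  have hrab : r ≤ a * b := r_le a b r ha hr hrd
  have h2 : 2 ≤ r := hr.two_le
  refine Iff.trans ?_ (arith a b r ha hb h2 hrab)
  constructor
  · intro H j hj1 hjr
    obtain ⟨σ, hσ, hsupp⟩ := exists_perm (a * b) r j hr hj1 hjr
    obtain ⟨f, hf, π, hπ⟩ := H σ hσ
    exact necessity a b r ha hr σ hσ j hsupp f hf π hπ
  · intro H σ hσ
    obtain ⟨j, hj1, hj⟩ := exists_j r hr σ hσ
    have hjr : j * r ≤ a * b := by
      rw [← hj]
      have h3 := Finset.card_le_univ σ.support
      simpa using h3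
    obtain ⟨c, hc1, hc2, hc3⟩ := H j hj1 hjr
    obtain ⟨t, rfl⟩ := Nat.exists_eq_add_of_le hc2
    have ht : t ≤ (b - c * r) * (a / r) := by omega
    obtain ⟨σ₁, hσ₁, hsupp₁, h₁⟩ := model_exists a b r c t hr hc1 ht hj1
    exact conj_transfer hr σ σ₁ hσ hσ₁ (a * c + t) hj hsupp₁ h₁

end Cfsg.Agent.S3575
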