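import Cfsg.Statements.S3599
import Mathlib

set_option autoImplicit false
open Cfsg

namespace Cfsg.Agent.S3599

theorem bz {G : Type*} [Group G] (S : Subgroup G) (g : G) (a b : ℕ) (hab : Nat.Coprime a b)
    (ha : g ^ a ∈ S) (hb : g ^ b ∈ S) : g ∈ S := by
  have h1 : g ^ ((Nat.gcd a b : ℕ) : ℤ) ∈ S := by
    rw [Nat.gcd_eq_gcd_ab, zpow_add, zpow_mul, zpow_mul, zpow_natCast, zpow_natCast]
    exact S.mul_mem (S.zpow_mem ha _) (S.zpow_mem hb _)
  rw [Nat.Coprime.gcd_eq_one hab] at h1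
  simpa using h1

/-- Fixed-point-free data: an elementary abelian `p`-group with an automorphism of order
dividing `q` without nontrivial fixed points. -/
def Dat (p q : ℕ) (N : Type) [CommGroup N] (α : MulAut N) : Prop :=
  (∀ n : N, n ^ p = 1) ∧ Nontrivial N ∧ α ^ q = 1 ∧ (∀ n, α n = n → n = 1)

/-- Irreducibility of the action. -/
def Irr (N : Type) [CommGroup N] (α : MulAut N) : Prop :=
  ∀ W : Subgroup N, (∀ w ∈ W, α w ∈ W) → W = ⊥ ∨ W = ⊤

theorem exists_dat (p q : ℕ) (hp : p.Prime) (hq : q.Prime) (hpq : p ≠ q) :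
    ∃ (N : Type) (_ : CommGroup N) (_ : Finite N) (α : MulAut N), Dat p q N α := by
  have : Fact p.Prime := ⟨hp⟩
  have : Fact q.Prime := ⟨hq⟩
  have hq1 : q - 1 ≠ 0 := by have := hq.two_le; omega
  have hcard : Nat.card (GaloisField p (q - 1)) = p ^ (q - 1) := GaloisField.card p (q - 1) hq1
  have hdvd : q ∣ Nat.card (GaloisField p (q - 1))ˣ := by
    rw [Nat.card_units, hcard]
    have hcop : Nat.Coprime p q := (Nat.coprime_primes hp hq).mpr hpq
    have h1 := Nat.ModEq.pow_totient hcop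
    rw [Nat.totient_prime hq] at h1
    exact (Nat.modEq_iff_dvd' (Nat.one_le_pow _ _ hp.pos)).mp h1.symm
  obtain ⟨ζ, hζ⟩ := exists_prime_orderOf_dvd_card' q hdvd
  have hζq : ζ ^ q = 1 := by
    have h := pow_orderOf_eq_one ζ
    rwa [hζ] at h
  have hζ1 : ζ ≠ 1 := by
    intro h
    rw [h, orderOf_one] at hζ
    exact hq.one_lt.ne hζ
  obtain ⟨α, hα⟩ : ∃ α : MulAut (Multiplicative (GaloisField p (q - 1))),
      ∀ n, α n = Multiplicative.ofAdd ((ζ : GaloisField p (q - 1)) * Multiplicative.toAdd n) :=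
    ⟨{ toFun := fun n =>
          Multiplicative.ofAdd ((ζ : GaloisField p (q - 1)) * Multiplicative.toAdd n)
       invFun := fun n => Multiplicative.ofAdd
          (((ζ⁻¹ : (GaloisField p (q - 1))ˣ) : GaloisField p (q - 1)) * Multiplicative.toAdd n)
       left_inv := by intro n; simp
       right_inv := by intro n; simp
       map_mul' := by intro a b; simp [mul_add] }, fun n => rfl⟩
  have hαk : ∀ (k : ℕ) (n : Multiplicative (GaloisField p (q - 1))),
      (α ^ k) n = Multiplicative.ofAdd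
        (((ζ ^ k : (GaloisField p (q - 1))ˣ) : GaloisField p (q - 1)) * Multiplicative.toAdd n) := by
    intro k
    induction k with
    | zero => intro n; simp
    | succ k ih =>
      intro n
      rw [pow_succ, MulAut.mul_apply, ih, hα, pow_succ]
      simp [mul_assoc]
  refine ⟨Multiplicative (GaloisField p (q - 1)), inferInstance, inferInstance, α,
    ?_, inferInstance, ?_, ?_⟩
  · intro n
    apply Multiplicative.toAdd.injective
    rw [toAdd_pow, toAdd_one, nsmul_eq_mul, CharP.cast_eq_zero, zero_mul]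
  · apply MulEquiv.ext
    intro n
    rw [hαk q n, hζq]
    simp
  · intro n hn
    rw [hα] at hn
    have h1 : (ζ : GaloisField p (q - 1)) * Multiplicative.toAdd n = Multiplicative.toAdd n :=
      congrArg Multiplicative.toAdd hn
    have h2 : ((ζ : GaloisField p (q - 1)) - 1) * Multiplicative.toAdd n = 0 := by
      rw [sub_mul, one_mul, h1, sub_self]
    rcases mul_eq_zero.mp h2 with h3 | h3
    · exfalso
      apply hζ1
      apply Units.ext
      rw [Units.val_one]
      exact sub_eq_zero.mp h3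
    · apply Multiplicative.toAdd.injective
      rw [h3]; rfl

section restrict

variable {N : Type} [CommGroup N] (α : MulAut N) (W : Subgroup N)

theorem pow_mem_of_inv (hW : ∀ w ∈ W, α w ∈ W) (k : ℕ) : ∀ w ∈ W, (α ^ k) w ∈ W := by
  induction k with
  | zero => intro w hw; simpa using hw
  | succ k ih =>
    intro w hw
    rw [pow_succ, MulAut.mul_apply]
    exact ih _ (hW w hw)

/-- Restriction of an automorphism of finite order to an invariant subgroup. -/
def res (q : ℕ) (hq : 0 < q) (hα : α ^ q = 1) (hW : ∀ w ∈ W, α w ∈ W) : MulAut ↥W where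
  toFun := fun w => ⟨α w, hW w w.2⟩
  invFun := fun w => ⟨(α ^ (q - 1)) w, pow_mem_of_inv α W hW (q - 1) w w.2⟩
  left_inv := by
    intro w
    apply Subtype.ext
    show (α ^ (q - 1)) (α w) = w
    rw [← MulAut.mul_apply, ← pow_succ, Nat.sub_add_cancel hq, hα]
    rfl
  right_inv := by
    intro w
    apply Subtype.ext
    show α ((α ^ (q - 1)) w) = w
    rw [← MulAut.mul_apply, ← pow_succ', Nat.sub_add_cancel hq, hα]
    rfl
  map_mul' := by
    intro a b
    apply Subtype.ext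
    show α ((a : N) * (b : N)) = α a * α b
    exact map_mul α _ _

theorem res_pow (q : ℕ) (hq : 0 < q) (hα : α ^ q = 1) (hW : ∀ w ∈ W, α w ∈ W) (k : ℕ)
    (w : ↥W) : (((res α W q hq hα hW) ^ k) w : N) = (α ^ k) (w : N) := by
  induction k generalizing w with
  | zero => simp
  | succ k ih =>
    rw [pow_succ, MulAut.mul_apply, ih, pow_succ, MulAut.mul_apply]
    rfl

theorem dat_res (p q : ℕ) (hq : 0 < q) (hD : Dat p q N α) (hW : ∀ w ∈ W, α w ∈ W)
    (hbot : W ≠ ⊥) : Dat p q ↥W (res α W q hq hD.2.2.1 hW) := by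
  obtain ⟨h1, h2, h3, h4⟩ := hD
  refine ⟨?_, (Subgroup.nontrivial_iff_ne_bot W).mpr hbot, ?_, ?_⟩
  · intro w
    apply Subtype.ext
    rw [Subgroup.coe_pow, h1]; rfl
  · apply MulEquiv.ext
    intro w
    apply Subtype.ext
    rw [res_pow, h3]; rfl
  · intro w hw
    apply Subtype.ext
    have h5 : α (w : N) = (w : N) := congrArg Subtype.val hw
    exact h4 _ h5

end restrict

theorem exists_irr_aux (p q : ℕ) (hq : 0 < q) : ∀ n : ℕ, ∀ (N : Type) [CommGroup N] [Finite N]
    (α : MulAut N), Nat.card N = n → Dat p q N α →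
    ∃ (N' : Type) (_ : CommGroup N') (_ : Finite N') (α' : MulAut N'),
      Dat p q N' α' ∧ Irr N' α' := by
  intro n
  induction n using Nat.strong_induction_on with
  | _ n ih =>
    intro N _ _ α hn hD
    by_cases hI : Irr N α
    · exact ⟨N, inferInstance, inferInstance, α, hD, hI⟩
    · unfold Irr at hI
      push Not at hI
      obtain ⟨W, hW, hbot, htop⟩ := hI
      have hlt : Nat.card ↥W < n := by
        rw [← hn]
        have h1 : Nat.card ↥W ≤ Nat.card N := Subgroup.card_le_card_group W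
        have h2 : Nat.card ↥W ≠ Nat.card N := fun h => htop (Subgroup.eq_top_of_card_eq W h)
        omega
      exact ih (Nat.card ↥W) hlt ↥W (res α W q hq hD.2.2.1 hW) rfl
        (dat_res α W p q hq hD hW hbot)

/-- The properties of the Frobenius building block. -/
def Props (P Q : ℕ) (F : Type) [Group F] : Prop :=
  (∀ ℓ : ℕ, ℓ.Prime → ℓ ∣ Nat.card F → ℓ = P ∨ ℓ = Q) ∧
  Set.range (orderOf : F → ℕ) = {1, P, Q} ∧
  (∀ (H K : Subgroup F), K ≤ H → (∀ h ∈ H, ∀ k ∈ K, h * k * h⁻¹ ∈ K) →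
    (∃ x ∈ H, x ∉ K ∧ x ^ P ∈ K) → (∃ y ∈ H, y ∉ K ∧ y ^ Q ∈ K) → H = ⊤ ∧ K = ⊥) ∧
  (∀ x y : F, x ^ P = 1 → y ^ P = 1 → (x * y) ^ P = 1) ∧
  (∃ x y : F, x ^ Q = 1 ∧ y ^ Q = 1 ∧ (x * y) ^ Q ≠ 1)

section frob

variable {N : Type} [CommGroup N] [Finite N] (α : MulAut N)

set_option linter.unusedSectionVars false

/-- The Frobenius group `N ⋊ ⟨α⟩`. -/
abbrev Fr : Type :=
  SemidirectProduct N ↥(Subgroup.zpowers α) (Subgroup.zpowers α).subtype

instance instFiniteFr : Finite (Fr α) := Finite.of_equiv _ SemidirectProduct.equivProd.symm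

theorem ne_one_of_dat {p q : ℕ} (hD : Dat p q N α) : α ≠ 1 := by
  obtain ⟨h1, h2, h3, h4⟩ := hD
  intro h
  obtain ⟨a, b, hab⟩ := @exists_pair_ne N h2
  apply hab
  rw [h4 a (by rw [h]; rfl), h4 b (by rw [h]; rfl)]

theorem card_C {p q : ℕ} (hq : q.Prime) (hD : Dat p q N α) :
    Nat.card ↥(Subgroup.zpowers α) = q := by
  have : Fact q.Prime := ⟨hq⟩
  rw [Nat.card_zpowers]
  exact orderOf_eq_prime hD.2.2.1 (ne_one_of_dat α hD)

theorem exists_pow_eq {p q : ℕ} (hq : q.Prime) (hD : Dat p q N α)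
    (c d : ↥(Subgroup.zpowers α)) (hc : c ≠ 1) : ∃ k : ℕ, c ^ k = d := by
  have : Fact q.Prime := ⟨hq⟩
  have h1 : d ∈ Submonoid.powers c := mem_powers_of_prime_card (card_C α hq hD) hc
  exact (Submonoid.mem_powers_iff _ _).mp h1

theorem fpf {p q : ℕ} (hq : q.Prime) (hD : Dat p q N α) (c : ↥(Subgroup.zpowers α))
    (hc : c ≠ 1) (n : N) (hn : (c : MulAut N) n = n) : n = 1 := by
  obtain ⟨k, hk⟩ := exists_pow_eq α hq hD c ⟨α, Subgroup.mem_zpowers α⟩ hc
  have h1 : ((c : MulAut N) ^ k) n = n := by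
    clear hk
    induction k with
    | zero => simp
    | succ k ih => rw [pow_succ, MulAut.mul_apply, hn, ih]
  have h2 : (c : MulAut N) ^ k = α := by
    have h3 := congrArg Subtype.val hk
    simpa using h3
  rw [h2] at h1
  exact hD.2.2.2 n h1

theorem conj_inl (g : Fr α) (m : N) :
    g * SemidirectProduct.inl m * g⁻¹ = SemidirectProduct.inl ((g.right : MulAut N) m) := by
  have h1 := SemidirectProduct.inl_aut (φ := (Subgroup.zpowers α).subtype) g.right m
  have hg := SemidirectProduct.inl_left_mul_inr_right g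
  have h2 : g * SemidirectProduct.inl m * g⁻¹ =
      SemidirectProduct.inl g.left * (SemidirectProduct.inr g.right * SemidirectProduct.inl m *
        SemidirectProduct.inr g.right⁻¹) * (SemidirectProduct.inl g.left)⁻¹ := by
    nth_rewrite 1 [← hg]
    nth_rewrite 3 [← hg]
    simp only [map_inv]
    group
  rw [h2, ← h1, ← map_inv, ← map_mul, ← map_mul]
  congr 1
  rw [mul_comm g.left, mul_assoc, mul_inv_cancel, mul_one]
  rfl

theorem pow_p_eq_one {p q : ℕ} (hD : Dat p q N α) (x : Fr α) (hx : x.right = 1) :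
    x ^ p = 1 := by
  have h1 : x = SemidirectProduct.inl x.left := by
    have h2 := SemidirectProduct.inl_left_mul_inr_right x
    rw [hx, map_one, mul_one] at h2
    exact h2.symm
  rw [h1, ← map_pow, hD.1, map_one]

theorem pow_q_C {p q : ℕ} (hq : q.Prime) (hD : Dat p q N α) (c : ↥(Subgroup.zpowers α)) :
    c ^ q = 1 := by
  have h := pow_card_eq_one' (x := c)
  rwa [card_C α hq hD] at h

theorem pow_q_eq_one {p q : ℕ} (hq : q.Prime) (hD : Dat p q N α) (x : Fr α)
    (hx : x.right ≠ 1) : x ^ q = 1 := by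
  have hinj : Function.Injective (fun m : N => m * ((x.right : MulAut N) m)⁻¹) := by
    intro m m' h
    have h' : m * ((x.right : MulAut N) m)⁻¹ = m' * ((x.right : MulAut N) m')⁻¹ := h
    have h1 : (x.right : MulAut N) (m'⁻¹ * m) = m'⁻¹ * m := by
      rw [map_mul, map_inv]
      calc ((x.right : MulAut N) m')⁻¹ * (x.right : MulAut N) m
          = m'⁻¹ * (m' * ((x.right : MulAut N) m')⁻¹) * (x.right : MulAut N) m := by group
        _ = m'⁻¹ * (m * ((x.right : MulAut N) m)⁻¹) * (x.right : MulAut N) m := by rw [h']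
        _ = m'⁻¹ * m := by group
    have h3 := fpf α hq hD x.right hx _ h1
    exact (inv_mul_eq_one.mp h3).symm
  obtain ⟨m, hm⟩ := (Finite.surjective_of_injective hinj) x.left
  have hm' : m * ((x.right : MulAut N) m)⁻¹ = x.left := hm
  have hx' : x = SemidirectProduct.inl m * SemidirectProduct.inr x.right *
      (SemidirectProduct.inl m)⁻¹ := by
    have h1 := SemidirectProduct.inl_aut (φ := (Subgroup.zpowers α).subtype) x.right m⁻¹
    have h2 : (SemidirectProduct.inl m * SemidirectProduct.inr x.right *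
        (SemidirectProduct.inl m)⁻¹ : Fr α) =
        SemidirectProduct.inl m * (SemidirectProduct.inr x.right * SemidirectProduct.inl m⁻¹ *
          SemidirectProduct.inr x.right⁻¹) * SemidirectProduct.inr x.right := by
      simp only [map_inv]
      group
    rw [h2, ← h1, ← map_mul]
    have h3 : m * ((Subgroup.zpowers α).subtype x.right) m⁻¹ = x.left := by
      rw [map_inv]; exact hm'
    rw [h3]
    exact (SemidirectProduct.inl_left_mul_inr_right x).symm
  rw [hx', conj_pow, ← map_pow, pow_q_C α hq hD, map_one, mul_one, mul_inv_cancel]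

theorem right_eq_one_of_pow {p q : ℕ} (hp : p.Prime) (hq : q.Prime) (hpq : p ≠ q)
    (hD : Dat p q N α) (x : Fr α) (hx : x ^ p = 1) : x.right = 1 := by
  have hcop : Nat.Coprime p q := (Nat.coprime_primes hp hq).mpr hpq
  have h1 : (SemidirectProduct.rightHom x) ^ p = 1 := by rw [← map_pow, hx, map_one]
  have h2 : x.right ^ p = 1 := h1
  have h3 := bz (⊥ : Subgroup ↥(Subgroup.zpowers α)) x.right p q hcop
    (by rw [h2]; exact Subgroup.one_mem _) (by rw [pow_q_C α hq hD]; exact Subgroup.one_mem _)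
  exact Subgroup.mem_bot.mp h3

theorem frob_card {p q : ℕ} (hp : p.Prime) (hq : q.Prime) (hD : Dat p q N α) (ℓ : ℕ)
    (hℓ : ℓ.Prime) (hdvd : ℓ ∣ Nat.card (Fr α)) : ℓ = p ∨ ℓ = q := by
  have : Fact p.Prime := ⟨hp⟩
  rw [SemidirectProduct.card, card_C α hq hD] at hdvd
  have hN : IsPGroup p N := by
    intro n
    exact ⟨1, by rw [pow_one]; exact hD.1 n⟩
  obtain ⟨k, hk⟩ := IsPGroup.iff_card.mp hN
  rw [hk] at hdvd
  rcases (Nat.Prime.dvd_mul hℓ).mp hdvd with h | h
  · left
    exact (Nat.prime_dvd_prime_iff_eq hℓ hp).mp (hℓ.dvd_of_dvd_pow h)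
  · right
    exact (Nat.prime_dvd_prime_iff_eq hℓ hq).mp h

theorem frob_range {p q : ℕ} (hp : p.Prime) (hq : q.Prime) (hD : Dat p q N α) :
    Set.range (orderOf : Fr α → ℕ) = {1, p, q} := by
  have : Fact p.Prime := ⟨hp⟩
  have : Fact q.Prime := ⟨hq⟩
  ext m
  simp only [Set.mem_range, Set.mem_insert_iff, Set.mem_singleton_iff]
  constructor
  · rintro ⟨x, rfl⟩
    by_cases hx : x.right = 1
    · have h1 : x ^ p = 1 := pow_p_eq_one α hD x hx
      have h2 : orderOf x ∣ p := orderOf_dvd_of_pow_eq_one h1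
      rcases (Nat.dvd_prime hp).mp h2 with h | h
      · exact Or.inl h
      · exact Or.inr (Or.inl h)
    · have h1 : x ^ q = 1 := pow_q_eq_one α hq hD x hx
      have h2 : orderOf x ∣ q := orderOf_dvd_of_pow_eq_one h1
      rcases (Nat.dvd_prime hq).mp h2 with h | h
      · exact Or.inl h
      · exact Or.inr (Or.inr h)
  · rintro (rfl | rfl | rfl)
    · exact ⟨1, orderOf_one⟩
    · have := hD.2.1
      obtain ⟨n, hn⟩ := exists_ne (1 : N)
      refine ⟨SemidirectProduct.inl n, orderOf_eq_prime ?_ ?_⟩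
      · rw [← map_pow, hD.1 n, map_one]
      · intro h
        exact hn (SemidirectProduct.inl_injective (h.trans (map_one _).symm))
    · refine ⟨SemidirectProduct.inr ⟨α, Subgroup.mem_zpowers α⟩, orderOf_eq_prime ?_ ?_⟩
      · rw [← map_pow, pow_q_C α hq hD, map_one]
      · intro h
        have h2 := SemidirectProduct.inr_injective (h.trans (map_one _).symm)
        exact ne_one_of_dat α hD (congrArg Subtype.val h2)

theorem frob_F3 {p q : ℕ} (hp : p.Prime) (hq : q.Prime) (hpq : p ≠ q) (hD : Dat p q N α)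
    (x y : Fr α) (hx : x ^ p = 1) (hy : y ^ p = 1) : (x * y) ^ p = 1 := by
  apply pow_p_eq_one α hD
  rw [SemidirectProduct.mul_right, right_eq_one_of_pow α hp hq hpq hD x hx,
    right_eq_one_of_pow α hp hq hpq hD y hy, mul_one]

theorem frob_F4 {p q : ℕ} (hp : p.Prime) (hq : q.Prime) (hpq : p ≠ q) (hD : Dat p q N α) :
    ∃ x y : Fr α, x ^ q = 1 ∧ y ^ q = 1 ∧ (x * y) ^ q ≠ 1 := by
  have hcop : Nat.Coprime p q := (Nat.coprime_primes hp hq).mpr hpq
  have := hD.2.1
  obtain ⟨n, hn⟩ := exists_ne (1 : N)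
  obtain ⟨a, ha⟩ : ∃ a : ↥(Subgroup.zpowers α), a ≠ 1 :=
    ⟨⟨α, Subgroup.mem_zpowers α⟩, fun h => ne_one_of_dat α hD (congrArg Subtype.val h)⟩
  refine ⟨SemidirectProduct.inl n * SemidirectProduct.inr a, SemidirectProduct.inr a⁻¹,
    ?_, ?_, ?_⟩
  · apply pow_q_eq_one α hq hD
    rw [SemidirectProduct.mul_right, SemidirectProduct.right_inl, SemidirectProduct.right_inr,
      one_mul]
    exact ha
  · apply pow_q_eq_one α hq hD
    rw [SemidirectProduct.right_inr]
    exact inv_ne_one.mpr ha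
  · have h1 : SemidirectProduct.inl n * SemidirectProduct.inr a * SemidirectProduct.inr a⁻¹ =
        (SemidirectProduct.inl n : Fr α) := by
      rw [mul_assoc, ← map_mul, mul_inv_cancel, map_one, mul_one]
    rw [h1, ← map_pow]
    intro h
    have h2 : n ^ q = 1 := SemidirectProduct.inl_injective (h.trans (map_one _).symm)
    have h3 := bz (⊥ : Subgroup N) n p q hcop (by rw [hD.1]; exact Subgroup.one_mem _)
      (by rw [h2]; exact Subgroup.one_mem _)
    exact hn (Subgroup.mem_bot.mp h3)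

theorem frob_sec {p q : ℕ} (hp : p.Prime) (hq : q.Prime) (hpq : p ≠ q) (hD : Dat p q N α)
    (hI : Irr N α) (H K : Subgroup (Fr α)) (hKH : K ≤ H)
    (hnorm : ∀ h ∈ H, ∀ k ∈ K, h * k * h⁻¹ ∈ K)
    (hx : ∃ x ∈ H, x ∉ K ∧ x ^ p ∈ K) (hy : ∃ y ∈ H, y ∉ K ∧ y ^ q ∈ K) :
    H = ⊤ ∧ K = ⊥ := by
  obtain ⟨x, hxH, hxK, hxp⟩ := hx
  obtain ⟨y, hyH, hyK, hyq⟩ := hy
  have hcop : Nat.Coprime p q := (Nat.coprime_primes hp hq).mpr hpq
  have hq_inl : ∀ g : Fr α, g ^ q = SemidirectProduct.inl (g ^ q).left := by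
    intro g
    have h1 : (g ^ q).right = 1 := by
      have h2 : SemidirectProduct.rightHom (g ^ q) = (SemidirectProduct.rightHom g) ^ q :=
        map_pow _ _ _
      rw [pow_q_C α hq hD] at h2
      exact h2
    have h3 := SemidirectProduct.inl_left_mul_inr_right (g ^ q)
    rw [h1, map_one, mul_one] at h3
    exact h3.symm
  have hyr : y.right ≠ 1 := by
    intro h
    have h1 : y ^ p = 1 := pow_p_eq_one α hD y h
    exact hyK (bz K y p q hcop (by rw [h1]; exact K.one_mem) hyq)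
  have hW0 : (H.comap (SemidirectProduct.inl : N →* Fr α)) ≠ ⊥ := by
    intro hbot
    have h1 : (x ^ q).left ∈ H.comap (SemidirectProduct.inl : N →* Fr α) := by
      rw [Subgroup.mem_comap, ← hq_inl x]
      exact H.pow_mem hxH q
    rw [hbot, Subgroup.mem_bot] at h1
    have h2 : x ^ q = 1 := by rw [hq_inl x, h1, map_one]
    exact hxK (bz K x p q hcop hxp (by rw [h2]; exact K.one_mem))
  have hWinv : ∀ w ∈ H.comap (SemidirectProduct.inl : N →* Fr α),
      α w ∈ H.comap (SemidirectProduct.inl : N →* Fr α) := by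
    obtain ⟨k, hk⟩ := exists_pow_eq α hq hD y.right ⟨α, Subgroup.mem_zpowers α⟩ hyr
    have hk' : (y.right : MulAut N) ^ k = α := by
      have h3 := congrArg Subtype.val hk
      simpa using h3
    have hstep : ∀ w ∈ H.comap (SemidirectProduct.inl : N →* Fr α),
        (y.right : MulAut N) w ∈ H.comap (SemidirectProduct.inl : N →* Fr α) := by
      intro w hw
      rw [Subgroup.mem_comap] at hw ⊢
      rw [← conj_inl]
      exact H.mul_mem (H.mul_mem hyH hw) (H.inv_mem hyH)
    intro w hw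
    have h5 := pow_mem_of_inv _ _ hstep k w hw
    rw [hk'] at h5
    exact h5
  have hWtop : H.comap (SemidirectProduct.inl : N →* Fr α) = ⊤ :=
    (hI _ hWinv).resolve_left hW0
  have hinlH : ∀ m : N, SemidirectProduct.inl m ∈ H := by
    intro m
    have h1 : m ∈ H.comap (SemidirectProduct.inl : N →* Fr α) := by
      rw [hWtop]; exact Subgroup.mem_top m
    exact h1
  have hH : H = ⊤ := by
    rw [eq_top_iff]
    intro g _
    obtain ⟨i, hi⟩ := exists_pow_eq α hq hD y.right g.right hyr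
    have h1 : (g * (y ^ i)⁻¹).right = 1 := by
      rw [SemidirectProduct.mul_right, SemidirectProduct.inv_right]
      have h2 : (y ^ i).right = y.right ^ i := map_pow SemidirectProduct.rightHom y i
      rw [h2, hi, mul_inv_cancel]
    have h3 := SemidirectProduct.inl_left_mul_inr_right (g * (y ^ i)⁻¹)
    rw [h1, map_one, mul_one] at h3
    have h4 : g = SemidirectProduct.inl (g * (y ^ i)⁻¹).left * y ^ i := by
      rw [h3]; group
    rw [h4]
    exact H.mul_mem (hinlH _) (H.pow_mem hyH i)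
  subst hH
  refine ⟨rfl, ?_⟩
  have hW'inv : ∀ w ∈ K.comap (SemidirectProduct.inl : N →* Fr α),
      α w ∈ K.comap (SemidirectProduct.inl : N →* Fr α) := by
    intro w hw
    rw [Subgroup.mem_comap] at hw ⊢
    have h1 := conj_inl α (SemidirectProduct.inr ⟨α, Subgroup.mem_zpowers α⟩) w
    rw [SemidirectProduct.right_inr] at h1
    have h2 : (SemidirectProduct.inl (α w) : Fr α) =
        SemidirectProduct.inr ⟨α, Subgroup.mem_zpowers α⟩ * SemidirectProduct.inl w *
          (SemidirectProduct.inr ⟨α, Subgroup.mem_zpowers α⟩)⁻¹ := h1.symm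
    rw [h2]
    exact hnorm _ (Subgroup.mem_top _) _ hw
  rcases hI _ hW'inv with hbot | htop
  · rw [eq_bot_iff]
    intro g hg
    rw [Subgroup.mem_bot]
    have hfix : ∀ m : N, (g.right : MulAut N) m = m := by
      intro m
      have h1 : g * SemidirectProduct.inl m * g⁻¹ * (SemidirectProduct.inl m)⁻¹ ∈ K := by
        have h2 : g * SemidirectProduct.inl m * g⁻¹ * (SemidirectProduct.inl m)⁻¹ =
            g * (SemidirectProduct.inl m * g⁻¹ * (SemidirectProduct.inl m)⁻¹) := by group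
        rw [h2]
        exact K.mul_mem hg (hnorm _ (Subgroup.mem_top _) _ (K.inv_mem hg))
      rw [conj_inl, ← map_inv (SemidirectProduct.inl : N →* Fr α),
        ← map_mul (SemidirectProduct.inl : N →* Fr α)] at h1
      have h3 : (g.right : MulAut N) m * m⁻¹ ∈ K.comap (SemidirectProduct.inl : N →* Fr α) := h1
      rw [hbot, Subgroup.mem_bot] at h3
      exact mul_inv_eq_one.mp h3
    have hgr : g.right = 1 := by
      by_contra hne
      have := hD.2.1
      obtain ⟨n, hn⟩ := exists_ne (1 : N)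
      exact hn (fpf α hq hD g.right hne n (hfix n))
    have h4 := SemidirectProduct.inl_left_mul_inr_right g
    rw [hgr, map_one, mul_one] at h4
    have h5 : g.left ∈ K.comap (SemidirectProduct.inl : N →* Fr α) := by
      rw [Subgroup.mem_comap, h4]; exact hg
    rw [hbot, Subgroup.mem_bot] at h5
    rw [← h4, h5, map_one]
  · exfalso
    have h1 : x ^ q ∈ K := by
      rw [hq_inl x]
      have h2 : (x ^ q).left ∈ K.comap (SemidirectProduct.inl : N →* Fr α) := by
        rw [htop]; exact Subgroup.mem_top _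
      exact h2
    exact hxK (bz K x p q hcop hxp h1)

theorem frob_props {p q : ℕ} (hp : p.Prime) (hq : q.Prime) (hpq : p ≠ q) (hD : Dat p q N α)
    (hI : Irr N α) : Props p q (Fr α) :=
  ⟨frob_card α hp hq hD, frob_range α hp hq hD, frob_sec α hp hq hpq hD hI,
    frob_F3 α hp hq hpq hD, frob_F4 α hp hq hpq hD⟩

end frob

theorem exists_frob (p q : ℕ) (hp : p.Prime) (hq : q.Prime) (hpq : p ≠ q) :
    ∃ (F : Type) (_ : Group F) (_ : Finite F), Props p q F := by
  obtain ⟨N, _, _, α, hD⟩ := exists_dat p q hp hq hpq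
  obtain ⟨N', _, _, α', hD', hI'⟩ := exists_irr_aux p q hq.pos (Nat.card N) N α rfl hD
  exact ⟨Fr α', inferInstance, inferInstance, frob_props α' hp hq hpq hD' hI'⟩

section prod

variable {ι : Type} [Fintype ι] [DecidableEq ι] (F : ι → Type) [∀ i, Group (F i)]
  [∀ i, Finite (F i)]

set_option linter.unusedSectionVars false

theorem exists_exp (hcop : ∀ i j, i ≠ j → Nat.Coprime (Nat.card (F i)) (Nat.card (F j)))
    (g : ∀ i, F i) (j : ι) :
    ∃ e : ℕ, g ^ e = Pi.mulSingle j (g j) ∧ e ≡ 1 [MOD Nat.card (F j)] := by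
  have hco : Nat.Coprime (Nat.card (F j)) (∏ i ∈ Finset.univ.erase j, Nat.card (F i)) :=
    Nat.Coprime.prod_right (fun i hi => hcop j i (Finset.ne_of_mem_erase hi).symm)
  obtain ⟨e, he1, he0⟩ := Nat.chineseRemainder hco 1 0
  refine ⟨e, ?_, he1⟩
  funext i
  rw [Pi.pow_apply]
  by_cases hij : i = j
  · subst hij
    rw [Pi.mulSingle_eq_same]
    have h1 : e ≡ 1 [MOD orderOf (g i)] := Nat.ModEq.of_dvd (orderOf_dvd_natCard (g i)) he1
    have h2 := pow_eq_pow_iff_modEq.mpr h1
    rw [pow_one] at h2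
    exact h2
  · rw [Pi.mulSingle_eq_of_ne hij]
    have h1 : Nat.card (F i) ∣ e := by
      have h2 : (∏ i ∈ Finset.univ.erase j, Nat.card (F i)) ∣ e :=
        (Nat.modEq_zero_iff_dvd).mp he0
      exact dvd_trans (Finset.dvd_prod_of_mem (fun i => Nat.card (F i))
        (Finset.mem_erase.mpr ⟨hij, Finset.mem_univ i⟩)) h2
    exact orderOf_dvd_iff_pow_eq_one.mp (dvd_trans (orderOf_dvd_natCard (g i)) h1)

theorem prod_dvd_of_cop {κ : Type} (s : Finset κ) (f : κ → ℕ) (z : ℕ)
    (hco : ∀ i ∈ s, ∀ j ∈ s, i ≠ j → Nat.Coprime (f i) (f j)) (hdvd : ∀ i ∈ s, f i ∣ z) :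
    ∏ i ∈ s, f i ∣ z := by
  classical
  induction s using Finset.induction_on with
  | empty => simp
  | insert a s ha ih =>
    rw [Finset.prod_insert ha]
    apply Nat.Coprime.mul_dvd_of_dvd_of_dvd
    · exact Nat.Coprime.prod_right (fun i hi => hco a (Finset.mem_insert_self a s) i
        (Finset.mem_insert_of_mem hi) (fun h => ha (h ▸ hi)))
    · exact hdvd a (Finset.mem_insert_self a s)
    · exact ih (fun i hi j hj hij => hco i (Finset.mem_insert_of_mem hi) j
        (Finset.mem_insert_of_mem hj) hij) (fun i hi => hdvd i (Finset.mem_insert_of_mem hi))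

theorem orderOf_pi (hcop : ∀ i j, i ≠ j → Nat.Coprime (Nat.card (F i)) (Nat.card (F j)))
    (g : ∀ i, F i) : orderOf g = ∏ i, orderOf (g i) := by
  apply Nat.dvd_antisymm
  · apply orderOf_dvd_of_pow_eq_one
    funext i
    rw [Pi.pow_apply, Pi.one_apply]
    exact orderOf_dvd_iff_pow_eq_one.mp
      (Finset.dvd_prod_of_mem (fun i => orderOf (g i)) (Finset.mem_univ i))
  · apply prod_dvd_of_cop
    · intro i _ j _ hij
      exact Nat.Coprime.coprime_dvd_left (orderOf_dvd_natCard (g i))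
        (Nat.Coprime.coprime_dvd_right (orderOf_dvd_natCard (g j)) (hcop i j hij))
    · intro i _
      apply orderOf_dvd_of_pow_eq_one
      have h1 : (g ^ orderOf g) i = 1 := by rw [pow_orderOf_eq_one]; rfl
      rw [Pi.pow_apply] at h1
      exact h1

theorem elem_aux (hcop : ∀ i j, i ≠ j → Nat.Coprime (Nat.card (F i)) (Nat.card (F j)))
    (H K : Subgroup (∀ i, F i)) (j : ι) (x : ∀ i, F i) (P : ℕ) (hP : P ∣ Nat.card (F j))
    (hxH : x ∈ H) (hxK : x ∉ K) (hxP : x ^ P ∈ K) :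
    ∃ u ∈ H.comap (MonoidHom.mulSingle F j), u ∉ K.comap (MonoidHom.mulSingle F j) ∧
      u ^ P ∈ K.comap (MonoidHom.mulSingle F j) := by
  obtain ⟨e, he, he1⟩ := exists_exp F hcop x j
  have hms : MonoidHom.mulSingle F j (x j) = x ^ e := he.symm
  refine ⟨x j, ?_, ?_, ?_⟩
  · rw [Subgroup.mem_comap, hms]; exact H.pow_mem hxH e
  · rw [Subgroup.mem_comap, hms]
    intro h
    have hco : Nat.Coprime e P := by
      have h1 : e ≡ 1 [MOD P] := Nat.ModEq.of_dvd hP he1
      have h2 := Nat.ModEq.gcd_eq h1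
      rw [Nat.gcd_one_left] at h2
      exact h2
    exact hxK (bz K x e P hco h hxP)
  · rw [Subgroup.mem_comap, map_pow, hms, ← pow_mul, mul_comm, pow_mul]
    exact K.pow_mem hxP e

theorem prod_main (P Q : ι → ℕ) (hF : ∀ i, Props (P i) (Q i) (F i))
    (hPQ : ∀ i j, i ≠ j → P i ≠ P j ∧ P i ≠ Q j ∧ Q i ≠ P j ∧ Q i ≠ Q j) :
    Set.range (orderOf : (∀ i, F i) → ℕ) =
      {m : ℕ | ∃ c : ι → ℕ, (∀ j, c j = 1 ∨ c j = P j ∨ c j = Q j) ∧ m = ∏ j, c j} ∧
    (∀ (H : Subgroup (∀ i, F i)) (K : Subgroup (∀ i, F i)), K ≤ H →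
      (∀ h ∈ H, ∀ k ∈ K, h * k * h⁻¹ ∈ K) →
      (∀ j, (∃ x ∈ H, x ∉ K ∧ x ^ P j ∈ K) ∧ (∃ y ∈ H, y ∉ K ∧ y ^ Q j ∈ K)) →
      H = ⊤ ∧ K = ⊥) ∧
    (∀ j, ∀ x y : (∀ i, F i), x ^ P j = 1 → y ^ P j = 1 → (x * y) ^ P j = 1) ∧
    (∀ j, ∃ x y : (∀ i, F i), x ^ Q j = 1 ∧ y ^ Q j = 1 ∧ (x * y) ^ Q j ≠ 1) := by
  have hcop : ∀ i j, i ≠ j → Nat.Coprime (Nat.card (F i)) (Nat.card (F j)) := by
    intro i j hij
    apply Nat.coprime_of_dvd
    intro ℓ hℓ h1 h2
    rcases (hF i).1 ℓ hℓ h1 with h3 | h3 <;> rcases (hF j).1 ℓ hℓ h2 with h4 | h4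
    · exact (hPQ i j hij).1 (h3.symm.trans h4)
    · exact (hPQ i j hij).2.1 (h3.symm.trans h4)
    · exact (hPQ i j hij).2.2.1 (h3.symm.trans h4)
    · exact (hPQ i j hij).2.2.2 (h3.symm.trans h4)
  have Pdvd : ∀ i, P i ∣ Nat.card (F i) := by
    intro i
    have h1 : P i ∈ Set.range (orderOf : F i → ℕ) := by rw [(hF i).2.1]; simp
    obtain ⟨x, hx⟩ := h1
    rw [← hx]; exact orderOf_dvd_natCard x
  have Qdvd : ∀ i, Q i ∣ Nat.card (F i) := by
    intro i
    have h1 : Q i ∈ Set.range (orderOf : F i → ℕ) := by rw [(hF i).2.1]; simp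
    obtain ⟨x, hx⟩ := h1
    rw [← hx]; exact orderOf_dvd_natCard x
  refine ⟨?_, ?_, ?_, ?_⟩
  · ext m
    simp only [Set.mem_range, Set.mem_ofPred_eq]
    constructor
    · rintro ⟨g, rfl⟩
      refine ⟨fun j => orderOf (g j), ?_, orderOf_pi F hcop g⟩
      intro j
      have h1 : orderOf (g j) ∈ Set.range (orderOf : F j → ℕ) := Set.mem_range_self _
      rw [(hF j).2.1] at h1
      simpa using h1
    · rintro ⟨c, hc, rfl⟩
      have h1 : ∀ j, ∃ x : F j, orderOf x = c j := by
        intro j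
        have h2 : c j ∈ Set.range (orderOf : F j → ℕ) := by
          rw [(hF j).2.1]; simpa using hc j
        exact h2
      choose g hg using h1
      refine ⟨g, ?_⟩
      rw [orderOf_pi F hcop g]
      exact Finset.prod_congr rfl (fun j _ => hg j)
  · intro H K hKH hnorm hxy
    have key : ∀ j, H.comap (MonoidHom.mulSingle F j) = ⊤ ∧
        K.comap (MonoidHom.mulSingle F j) = ⊥ := by
      intro j
      obtain ⟨⟨x, hxH, hxK, hxP⟩, ⟨y, hyH, hyK, hyQ⟩⟩ := hxy j
      apply (hF j).2.2.1 (H.comap (MonoidHom.mulSingle F j)) (K.comap (MonoidHom.mulSingle F j))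
        (Subgroup.comap_mono hKH)
      · intro h hh k hk
        rw [Subgroup.mem_comap] at hh hk ⊢
        rw [map_mul, map_mul, map_inv]
        exact hnorm _ hh _ hk
      · exact elem_aux F hcop H K j x (P j) (Pdvd j) hxH hxK hxP
      · exact elem_aux F hcop H K j y (Q j) (Qdvd j) hyH hyK hyQ
    constructor
    · rw [eq_top_iff]
      intro g _
      apply Subgroup.pi_mem_of_mulSingle_mem
      intro i
      have h1 : g i ∈ H.comap (MonoidHom.mulSingle F i) := by
        rw [(key i).1]; exact Subgroup.mem_top _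
      exact h1
    · rw [eq_bot_iff]
      intro k hk
      rw [Subgroup.mem_bot]
      funext j
      obtain ⟨e, he, -⟩ := exists_exp F hcop k j
      have h1 : k j ∈ K.comap (MonoidHom.mulSingle F j) := by
        rw [Subgroup.mem_comap]
        have h2 : MonoidHom.mulSingle F j (k j) = k ^ e := he.symm
        rw [h2]; exact K.pow_mem hk e
      rw [(key j).2, Subgroup.mem_bot] at h1
      exact h1
  · intro j x y hx hy
    have hxi : ∀ i, (x i) ^ P j = 1 := fun i => by
      have h1 := congrFun hx i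
      rwa [Pi.pow_apply] at h1
    have hyi : ∀ i, (y i) ^ P j = 1 := fun i => by
      have h1 := congrFun hy i
      rwa [Pi.pow_apply] at h1
    funext i
    rw [Pi.pow_apply, Pi.mul_apply, Pi.one_apply]
    by_cases hij : i = j
    · subst hij
      exact (hF i).2.2.2.1 (x i) (y i) (hxi i) (hyi i)
    · have hco : Nat.Coprime (P j) (Nat.card (F i)) :=
        Nat.Coprime.coprime_dvd_left (Pdvd j) (hcop j i (Ne.symm hij))
      have hx1 : x i = 1 := by
        have h1 := bz (⊥ : Subgroup (F i)) (x i) (P j) (Nat.card (F i)) hco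
          (by rw [hxi i]; exact Subgroup.one_mem _)
          (by rw [pow_card_eq_one']; exact Subgroup.one_mem _)
        exact Subgroup.mem_bot.mp h1
      have hy1 : y i = 1 := by
        have h1 := bz (⊥ : Subgroup (F i)) (y i) (P j) (Nat.card (F i)) hco
          (by rw [hyi i]; exact Subgroup.one_mem _)
          (by rw [pow_card_eq_one']; exact Subgroup.one_mem _)
        exact Subgroup.mem_bot.mp h1
      rw [hx1, hy1, one_mul, one_pow]
  · intro j
    obtain ⟨x, y, hx, hy, hxy⟩ := (hF j).2.2.2.2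
    refine ⟨MonoidHom.mulSingle F j x, MonoidHom.mulSingle F j y, ?_, ?_, ?_⟩
    · rw [← map_pow, hx, map_one]
    · rw [← map_pow, hy, map_one]
    · intro h
      apply hxy
      rw [← map_mul, ← map_pow] at h
      have h1 := congrFun h j
      rw [MonoidHom.mulSingle_apply, Pi.mulSingle_eq_same] at h1
      exact h1

end prod

theorem quot_elem {G : Type*} [Group G] (H : Subgroup G) (N : Subgroup ↥H) [N.Normal] (r : ℕ)
    (hr : r.Prime) (hu : ∃ u : ↥H ⧸ N, orderOf u = r) :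
    ∃ x ∈ H, x ∉ N.map H.subtype ∧ x ^ r ∈ N.map H.subtype := by
  obtain ⟨u, hu⟩ := hu
  obtain ⟨h, rfl⟩ := QuotientGroup.mk_surjective u
  have h1 : ((h : ↥H ⧸ N)) ^ r = 1 := by
    have h3 := pow_orderOf_eq_one (h : ↥H ⧸ N)
    rwa [hu] at h3
  have h2 : (h : ↥H ⧸ N) ≠ 1 := by
    intro h0
    rw [h0, orderOf_one] at hu
    exact hr.one_lt.ne hu
  refine ⟨h.1, h.2, ?_, ?_⟩
  · rintro ⟨n, hn, hnh⟩
    apply h2
    have h3 : n = h := Subtype.ext hnh
    rw [← h3]
    exact (QuotientGroup.eq_one_iff n).mpr hn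
  · refine ⟨h ^ r, ?_, by simp⟩
    rw [← QuotientGroup.mk_pow] at h1
    exact (QuotientGroup.eq_one_iff _).mp h1

theorem or_swap2 (x : Fin 2 → ℕ) (c : ℕ) (ε : Fin 2) :
    (c = 1 ∨ c = x ε ∨ c = x (Fin.rev ε)) ↔ (c = 1 ∨ c = x 0 ∨ c = x 1) := by
  have h0 : Fin.rev (0 : Fin 2) = 1 := by decide
  have h1 : Fin.rev (1 : Fin 2) = 0 := by decide
  rcases Fin.exists_fin_two.mp ⟨ε, rfl⟩ with rfl | rfl
  · rw [h0]
  · rw [h1]; tauto

theorem main_abs (s : ℕ) (p : Fin s → Fin 2 → ℕ) (hp : ∀ j i, (p j i).Prime)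
    (hinj : ∀ j i j' i', p j i = p j' i' → j = j' ∧ i = i')
    (Fam : Fin s → Fin 2 → Type) [∀ j ε, Group (Fam j ε)] [∀ j ε, Finite (Fam j ε)]
    (hFam : ∀ j ε, Props (p j ε) (p j (Fin.rev ε)) (Fam j ε)) :
    ∃ (G : Fin (2 ^ s) → Type) (_ : ∀ a, Group (G a)) (_ : ∀ a, Fintype (G a)),
      (∀ a b, a ≠ b → ¬ Nonempty (G a ≃* G b)) ∧
      ∀ a, Set.range (orderOf : (G a) → ℕ) = {m : ℕ | ∃ c : Fin s → ℕ, (∀ j, c j = 1 ∨ c j = p j 0 ∨ c j = p j 1) ∧ m = ∏ j, c j} ∧
      ∀ (H : Subgroup (G a)) (N : Subgroup ↥H) [N.Normal], (H ≠ ⊤ ∨ N ≠ ⊥) → Set.range (orderOf : (↥H ⧸ N) → ℕ) ≠ {m : ℕ | ∃ c : Fin s → ℕ, (∀ j, c j = 1 ∨ c j = p j 0 ∨ c j = p j 1) ∧ m = ∏ j, c j} := by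
  classical
  obtain ⟨E, hE⟩ : ∃ E : Fin (2 ^ s) → Fin s → Fin 2, Function.Injective E :=
    ⟨fun a => finFunctionFinEquiv.symm a, finFunctionFinEquiv.symm.injective⟩
  have hmain := fun a : Fin (2 ^ s) =>
    prod_main (fun j => Fam j (E a j)) (fun j => p j (E a j)) (fun j => p j (Fin.rev (E a j)))
      (fun j => hFam j (E a j))
      (fun i j hij => ⟨fun h => hij (hinj _ _ _ _ h).1, fun h => hij (hinj _ _ _ _ h).1,
        fun h => hij (hinj _ _ _ _ h).1, fun h => hij (hinj _ _ _ _ h).1⟩)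
  have hω : ∀ a : Fin (2 ^ s),
      {m : ℕ | ∃ c : Fin s → ℕ, (∀ j, c j = 1 ∨ c j = p j (E a j) ∨ c j = p j (Fin.rev (E a j))) ∧
        m = ∏ j, c j} =
      {m : ℕ | ∃ c : Fin s → ℕ, (∀ j, c j = 1 ∨ c j = p j 0 ∨ c j = p j 1) ∧ m = ∏ j, c j} := by
    intro a
    ext m
    simp only [Set.mem_ofPred_eq]
    constructor
    · rintro ⟨c, hc, rfl⟩
      exact ⟨c, fun j => (or_swap2 (p j) (c j) (E a j)).mp (hc j), rfl⟩
    · rintro ⟨c, hc, rfl⟩
      exact ⟨c, fun j => (or_swap2 (p j) (c j) (E a j)).mpr (hc j), rfl⟩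
  have hmemω : ∀ (j : Fin s) (ε : Fin 2), p j ε ∈
      {m : ℕ | ∃ c : Fin s → ℕ, (∀ j, c j = 1 ∨ c j = p j 0 ∨ c j = p j 1) ∧ m = ∏ j, c j} := by
    intro j ε
    refine ⟨fun i => if i = j then p j ε else 1, ?_, ?_⟩
    · intro i
      dsimp only
      by_cases hij : i = j
      · subst hij
        rw [if_pos rfl]
        rcases Fin.exists_fin_two.mp ⟨ε, rfl⟩ with rfl | rfl
        · exact Or.inr (Or.inl rfl)
        · exact Or.inr (Or.inr rfl)
      · rw [if_neg hij]; exact Or.inl rfl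
    · simp
  refine ⟨fun a => ∀ j, Fam j (E a j), fun a => Pi.group, fun a => Fintype.ofFinite _, ?_, ?_⟩
  · intro a b hab hne
    obtain ⟨e⟩ := hne
    have hEab : E a ≠ E b := fun h => hab (hE h)
    obtain ⟨j, hj⟩ := Function.ne_iff.mp hEab
    have hrev : ∀ u v : Fin 2, u ≠ v → u = Fin.rev v := by decide
    have h1 : E a j = Fin.rev (E b j) := hrev _ _ hj
    obtain ⟨-, -, h3a, -⟩ := hmain a
    obtain ⟨-, -, -, h4b⟩ := hmain b
    obtain ⟨x, y, hx, hy, hxy⟩ := h4b j
    have hx' : (e.symm x) ^ p j (E a j) = 1 := by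
      rw [← map_pow, h1, hx, map_one]
    have hy' : (e.symm y) ^ p j (E a j) = 1 := by
      rw [← map_pow, h1, hy, map_one]
    have h5 := h3a j (e.symm x) (e.symm y) hx' hy'
    rw [← map_mul, ← map_pow, h1] at h5
    apply hxy
    have h6 := congrArg e h5
    rw [MulEquiv.apply_symm_apply, map_one] at h6
    exact h6
  · intro a
    obtain ⟨h1, h2, -, -⟩ := hmain a
    refine ⟨h1.trans (hω a), ?_⟩
    intro H N hN hne heq
    have hK := h2 H (N.map H.subtype) (Subgroup.map_subtype_le N)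
      (by
        rintro h hh _ ⟨n, hn, rfl⟩
        exact ⟨⟨h, hh⟩ * n * ⟨h, hh⟩⁻¹, hN.conj_mem n hn ⟨h, hh⟩, rfl⟩)
      (by
        intro j
        constructor
        · apply quot_elem H N _ (hp j _)
          have h3 := hmemω j (E a j)
          rw [← heq] at h3
          exact h3
        · apply quot_elem H N _ (hp j _)
          have h3 := hmemω j (Fin.rev (E a j))
          rw [← heq] at h3
          exact h3)
    rcases hne with hne | hne
    · exact hne hK.1
    · exact hne ((Subgroup.map_eq_bot_iff_of_injective N (Subgroup.subtype_injective H)).mp hK.2)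

/-- A finite group is critical with respect to a set Ω of natural numbers when its set of element orders is Ω while no proper section H/N (H a subgroup, N normal in H, (H, N) ≠ (whole group, 1)) has Ω as its set of element orders. Let s ≥ 1 and let p(j,0), p(j,1) (j < s) be 2s pairwise distinct primes, and let Ω be the set of all products c(0)·…·c(s−1) with each c(j) ∈ {1, p(j,0), p(j,1)}. Then there are 2^s pairwise non-isomorphic finite groups critical with respect to Ω. -/
theorem result (s : ℕ) (hs : 1 ≤ s) (p : Fin s → Fin 2 → ℕ)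
    (hp : ∀ j i, (p j i).Prime) (hinj : ∀ j i j' i', p j i = p j' i' → j = j' ∧ i = i') :
    ∃ (G : Fin (2 ^ s) → Type) (_ : ∀ a, Group (G a)) (_ : ∀ a, Fintype (G a)),
      (∀ a b, a ≠ b → ¬ Nonempty (G a ≃* G b)) ∧
      ∀ a, Set.range (orderOf : (G a) → ℕ) = {m : ℕ | ∃ c : Fin s → ℕ, (∀ j, c j = 1 ∨ c j = p j 0 ∨ c j = p j 1) ∧ m = ∏ j, c j} ∧
      ∀ (H : Subgroup (G a)) (N : Subgroup ↥H) [N.Normal], (H ≠ ⊤ ∨ N ≠ ⊥) → Set.range (orderOf : (↥H ⧸ N) → ℕ) ≠ {m : ℕ | ∃ c : Fin s → ℕ, (∀ j, c j = 1 ∨ c j = p j 0 ∨ c j = p j 1) ∧ m = ∏ j, c j} := by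
  have hex : ∀ (j : Fin s) (ε : Fin 2), ∃ (Fm : Type) (_ : Group Fm) (_ : Finite Fm),
      Props (p j ε) (p j (Fin.rev ε)) Fm := by
    intro j ε
    apply exists_frob _ _ (hp j ε) (hp j _)
    intro h
    have h1 := (hinj j ε j (Fin.rev ε) h).2
    have h2 : ∀ u : Fin 2, u ≠ Fin.rev u := by decide
    exact h2 ε h1
  choose Fam instG instF hFam using hex
  exact @main_abs s p hp hinj Fam instG instF hFam

end Cfsg.Agent.S3599
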