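import Cfsg.Statements.S3619
import Mathlib

set_option autoImplicit false
open Cfsg

namespace Cfsg.Agent.S3619

open MulAction
open scoped Pointwise

/-- A quasiprimitive group with a primitive Jordan set is primitive. -/
theorem isPreprimitive_of_jordan {G Ω : Type*} [Group G] [Finite G] [MulAction G Ω] [FaithfulSMul G Ω] [Finite Ω]
    (hqp : ∀ N : Subgroup G, N.Normal → N ≠ ⊥ → MulAction.IsPretransitive ↥N Ω)
    (Γ : Set Ω) (hΓ1 : 1 < Γ.ncard)
    (hJ : MulAction.IsPretransitive ↥(fixingSubgroup G Γᶜ) ↥(SubMulAction.ofFixingSubgroup G Γᶜ))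
    (hJp : MulAction.IsPreprimitive ↥(fixingSubgroup G Γᶜ) ↥(SubMulAction.ofFixingSubgroup G Γᶜ)) :
    MulAction.IsPreprimitive G Ω := by
  classical
  obtain ⟨γ₁, γ₂, hγ₁, hγ₂, hne⟩ := (Set.one_lt_ncard_iff (Set.toFinite Γ)).mp hΓ1
  have hmemΓ : ∀ x : Ω, x ∈ Γ → x ∈ SubMulAction.ofFixingSubgroup G Γᶜ := by
    intro x hx
    rw [SubMulAction.mem_ofFixingSubgroup_iff]
    simpa using hx
  have hHtr : ∀ x ∈ Γ, ∀ y ∈ Γ, ∃ h ∈ fixingSubgroup G Γᶜ, h • x = y := by
    intro x hx y hy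
    obtain ⟨h, hh⟩ := MulAction.exists_smul_eq (fixingSubgroup G Γᶜ)
      (⟨x, hmemΓ x hx⟩ : SubMulAction.ofFixingSubgroup G Γᶜ) ⟨y, hmemΓ y hy⟩
    exact ⟨h, h.2, congrArg Subtype.val hh⟩
  have hHΓ : ∀ h ∈ fixingSubgroup G Γᶜ, ∀ x ∈ Γ, h • x ∈ Γ := by
    intro h hh x hx
    by_contra hcon
    have h1 : h • (h • x) = h • x := (mem_fixingSubgroup_iff G).mp hh _ hcon
    have h2 : h • x = x := smul_left_cancel h h1
    rw [h2] at hcon
    exact hcon hx
  obtain ⟨h₀, hh₀, hmove⟩ := hHtr γ₁ hγ₁ γ₂ hγ₂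
  have hh₀1 : h₀ ≠ 1 := by
    rintro rfl
    rw [one_smul] at hmove
    exact hne hmove
  have hGtr : IsPretransitive G Ω := by
    have h1 : (⊤ : Subgroup G) ≠ ⊥ := by
      intro h
      have h2 : h₀ ∈ (⊥ : Subgroup G) := h ▸ Subgroup.mem_top h₀
      rw [Subgroup.mem_bot] at h2
      exact hh₀1 h2
    have h2 := hqp ⊤ inferInstance h1
    constructor
    intro x y
    obtain ⟨g, hg⟩ := MulAction.exists_smul_eq (⊤ : Subgroup G) x y
    exact ⟨g, hg⟩
  refine ⟨fun {B} hB => ?_⟩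
  by_cases hsub : B.Subsingleton
  · left; exact hsub
  rw [Set.not_subsingleton_iff] at hsub
  obtain ⟨x, hx, y, hy, hxy⟩ := hsub
  obtain ⟨g, hg⟩ := MulAction.exists_smul_eq G x γ₁
  rw [← IsTrivialBlock.smul_iff g]
  right
  have hB' : IsBlock G (g • B) := hB.translate g
  have hγ₁B : γ₁ ∈ g • B := by
    rw [← hg]; exact Set.smul_mem_smul_set hx
  have hy'B : g • y ∈ g • B := Set.smul_mem_smul_set hy
  have hy'ne : g • y ≠ γ₁ := by
    rw [← hg]
    intro h
    exact hxy (smul_left_cancel g h).symm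
  generalize g • B = B' at hB' hγ₁B hy'B
  generalize g • y = y' at hy'B hy'ne
  have hC : IsBlock (fixingSubgroup G Γᶜ)
      (Subtype.val ⁻¹' B' : Set (SubMulAction.ofFixingSubgroup G Γᶜ)) :=
    (hB'.subgroup (H := fixingSubgroup G Γᶜ)).subtype_val_preimage
  rcases hJp.isTrivialBlock_of_isBlock hC with hCs | hCu
  · exfalso
    have hy'Γ : y' ∉ Γ := by
      intro hmem
      have hm1 : (⟨y', hmemΓ y' hmem⟩ : SubMulAction.ofFixingSubgroup G Γᶜ) ∈
          (Subtype.val ⁻¹' B' : Set (SubMulAction.ofFixingSubgroup G Γᶜ)) := hy'B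
      have hm2 : (⟨γ₁, hmemΓ γ₁ hγ₁⟩ : SubMulAction.ofFixingSubgroup G Γᶜ) ∈
          (Subtype.val ⁻¹' B' : Set (SubMulAction.ofFixingSubgroup G Γᶜ)) := hγ₁B
      have h1 := hCs hm1 hm2
      exact hy'ne (congrArg Subtype.val h1)
    have h1 : h₀ • y' = y' := (mem_fixingSubgroup_iff G).mp hh₀ y' hy'Γ
    have h2 : h₀ • B' = B' := hB'.smul_eq_of_mem hy'B (by rw [h1]; exact hy'B)
    have h3 : γ₂ ∈ B' := by
      rw [← h2, ← hmove]
      exact Set.smul_mem_smul_set hγ₁B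
    have hm1 : (⟨γ₂, hmemΓ γ₂ hγ₂⟩ : SubMulAction.ofFixingSubgroup G Γᶜ) ∈
        (Subtype.val ⁻¹' B' : Set (SubMulAction.ofFixingSubgroup G Γᶜ)) := h3
    have hm2 : (⟨γ₁, hmemΓ γ₁ hγ₁⟩ : SubMulAction.ofFixingSubgroup G Γᶜ) ∈
        (Subtype.val ⁻¹' B' : Set (SubMulAction.ofFixingSubgroup G Γᶜ)) := hγ₁B
    have h4 := hCs hm1 hm2
    exact hne (congrArg Subtype.val h4).symm
  · have hΓB : Γ ⊆ B' := by
      intro z hz
      have h1 : (⟨z, hmemΓ z hz⟩ : SubMulAction.ofFixingSubgroup G Γᶜ) ∈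
          (Subtype.val ⁻¹' B' : Set (SubMulAction.ofFixingSubgroup G Γᶜ)) := by
        rw [hCu]; exact Set.mem_univ _
      exact h1
    let N : Subgroup G :=
      { carrier := {n | ∀ g' : G, n • (g' • B') = g' • B'}
        one_mem' := fun g' => one_smul _ _
        mul_mem' := by
          intro a b ha hb g'
          rw [mul_smul, hb g', ha g']
        inv_mem' := by
          intro a ha g'
          rw [inv_smul_eq_iff, ha g'] }
    have hNn : N.Normal := by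
      constructor
      intro n hn a g'
      have h1 := hn (a⁻¹ * g')
      rw [mul_smul, mul_smul, ← mul_smul a⁻¹ g', h1, mul_smul, smul_inv_smul]
    have hHN : fixingSubgroup G Γᶜ ≤ N := by
      intro h hh g'
      have hB'' : IsBlock G (g' • B') := hB'.translate g'
      have hne'' : (g' • B').Nonempty := ⟨g' • γ₁, Set.smul_mem_smul_set hγ₁B⟩
      obtain ⟨z, hz⟩ := hne''
      by_cases hzΓ : z ∈ Γ
      · have hzB : z ∈ B' := hΓB hzΓ
        have heq : g' • B' = B' := hB'.smul_eq_of_mem (a := g'⁻¹ • z) (by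
          rw [Set.mem_smul_set_iff_inv_smul_mem] at hz; exact hz) (by
          rw [smul_inv_smul]; exact hzB)
        rw [heq]
        exact hB'.smul_eq_of_mem hzB (hΓB (hHΓ h hh z hzΓ))
      · have h1 : h • z = z := (mem_fixingSubgroup_iff G).mp hh z hzΓ
        exact hB''.smul_eq_of_mem hz (by rw [h1]; exact hz)
    have hNne : N ≠ ⊥ := by
      intro h
      have h2 : h₀ ∈ N := hHN hh₀
      rw [h, Subgroup.mem_bot] at h2
      exact hh₀1 h2
    have hNtr := hqp N hNn hNne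
    rw [Set.eq_univ_iff_forall]
    intro z
    obtain ⟨n, hn⟩ := MulAction.exists_smul_eq N γ₁ z
    have h1 := n.2 1
    rw [one_smul] at h1
    rw [← hn, ← h1]
    exact Set.smul_mem_smul_set hγ₁B

/-- Quasiprimitive groups with a primitive Jordan set are highly transitive. -/
theorem result {G Ω : Type*} [Group G] [Finite G] [MulAction G Ω] [FaithfulSMul G Ω] [Finite Ω]
    (hqp : ∀ N : Subgroup G, N.Normal → N ≠ ⊥ → MulAction.IsPretransitive ↥N Ω)
    (Γ : Set Ω) (hΓ1 : 1 < Γ.ncard) (hΓ2 : Γ.ncard < Nat.card Ω)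
    (hJ : MulAction.IsPretransitive ↥(fixingSubgroup G Γᶜ) ↥(SubMulAction.ofFixingSubgroup G Γᶜ))
    (hJp : MulAction.IsPreprimitive ↥(fixingSubgroup G Γᶜ) ↥(SubMulAction.ofFixingSubgroup G Γᶜ)) :
    MulAction.IsMultiplyPretransitive G Ω (Nat.card Ω - Γ.ncard + 1) := by
  have hprim := isPreprimitive_of_jordan hqp Γ hΓ1 hJ hJp
  have hsn : (Γᶜ).ncard = (Nat.card Ω - Γ.ncard - 1) + 1 := by
    rw [Set.ncard_compl]
    omega
  have hsn' : (Nat.card Ω - Γ.ncard - 1) + 2 < Nat.card Ω := by omega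
  have h1 := hprim.isMultiplyPreprimitive hsn hsn' hJp
  have e : Nat.card Ω - Γ.ncard + 1 = (Nat.card Ω - Γ.ncard - 1) + 2 := by omega
  rw [e]
  exact IsMultiplyPreprimitive.isMultiplyPretransitive G Ω _

end Cfsg.Agent.S3619
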