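import Cfsg.Statements.S3622
import Mathlib

set_option autoImplicit false
open Cfsg

namespace Cfsg.Agent.S3622

/-- A closed point stabilizer gives a closed group. -/
theorem result {Ω : Type*} [Finite Ω] (G : Subgroup (Equiv.Perm Ω)) (m : ℕ) (hm : 2 ≤ m) (α : Ω)
    (hclosed : ∀ σ : Equiv.Perm Ω,
      (∀ t : Fin (m - 1) → Ω, ∃ g ∈ MulAction.stabilizer ↥G α, ∀ i, (g : Equiv.Perm Ω) (t i) = σ (t i)) →
      σ ∈ G ∧ σ α = α) :
    ∀ σ : Equiv.Perm Ω, (∀ t : Fin m → Ω, ∃ g ∈ G, ∀ i, g (t i) = σ (t i)) → σ ∈ G := by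
  intro σ hσ
  obtain ⟨g₀, hg₀, h₀⟩ := hσ (fun _ => α)
  have h₀α : g₀ α = σ α := h₀ ⟨0, by omega⟩
  have key : g₀⁻¹ * σ ∈ G ∧ (g₀⁻¹ * σ) α = α := by
    apply hclosed
    intro t
    obtain ⟨g, hg, h⟩ := hσ (fun i => if h : i.val < m - 1 then t ⟨i.val, h⟩ else α)
    have hgα : g α = σ α := by
      have := h ⟨m - 1, by omega⟩
      simpa using this
    refine ⟨⟨g₀⁻¹ * g, G.mul_mem (G.inv_mem hg₀) hg⟩, ?_, ?_⟩
    · rw [MulAction.mem_stabilizer_iff]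
      change (g₀⁻¹ * g) α = α
      rw [Equiv.Perm.mul_apply, hgα, ← h₀α]
      simp
    · intro i
      have := h ⟨i.val, by omega⟩
      have hi : i.val < m - 1 := i.isLt
      simp only [hi, dif_pos] at this
      change (g₀⁻¹ * g) (t i) = (g₀⁻¹ * σ) (t i)
      rw [Equiv.Perm.mul_apply, Equiv.Perm.mul_apply, this]
  have h2 := G.mul_mem hg₀ key.1
  simpa using h2

end Cfsg.Agent.S3622
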