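import Cfsg.Statements.S3660
import Cfsg.Agent.Lib.Helper19.AffSL

set_option autoImplicit false
open Cfsg

namespace Cfsg.Agent.S3660

open Cfsg.Agent.Lib.Helper19

theorem dvd_prime_mul_cases (p q d : ℕ) (hp : p.Prime) (hq : q.Prime) (h : d ∣ p * q) :
    d = p * q ∨ d ∣ p ∨ d ∣ q := by
  obtain ⟨d1, d2, h1, h2, rfl⟩ := (Nat.dvd_mul.mp h)
  rcases (Nat.dvd_prime hp).mp h1 with rfl | rfl
  · right; right; simpa using h2
  · rcases (Nat.dvd_prime hq).mp h2 with rfl | rfl
    · right; left; simp
    · left; rfl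

section

variable {F : Type*} [Field F] [CharP F 2]

/-- The affine group and its linear part have the same element orders of prime size. -/
theorem exists_prime_order_iff (p : ℕ) (hp : p.Prime) :
    (∃ g : Matrix.SpecialLinearGroup (Fin 2) F, orderOf g = p) ↔
      (∃ g : affSL F, orderOf g = p) := by
  constructor
  · rintro ⟨g, hg⟩
    exact ⟨affEmb F g, by rw [orderOf_affEmb, hg]⟩
  · rintro ⟨M, hM⟩
    by_cases h1 : affBlk F M = 1
    · have h2 : M ^ 2 = 1 := aff_ker_sq M (MonoidHom.mem_ker.mpr h1)
      have h3 : p ∣ 2 := by rw [← hM]; exact orderOf_dvd_of_pow_eq_one h2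
      have h4 : p = 2 := (Nat.prime_dvd_prime_iff_eq hp Nat.prime_two).mp h3
      exact ⟨sl2inv F, by rw [orderOf_sl2inv, h4]⟩
    · refine ⟨affBlk F M, ?_⟩
      have hfact : Fact p.Prime := ⟨hp⟩
      apply orderOf_eq_prime _ h1
      rw [← map_pow, ← hM, pow_orderOf_eq_one, map_one]

/-- The affine group and its linear part have the same element orders that are products of two
distinct primes. -/
theorem exists_pq_order_iff (p q : ℕ) (hp : p.Prime) (hq : q.Prime) (hpq : p ≠ q) :
    (∃ g : Matrix.SpecialLinearGroup (Fin 2) F, orderOf g = p * q) ↔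
      (∃ g : affSL F, orderOf g = p * q) := by
  constructor
  · rintro ⟨g, hg⟩
    exact ⟨affEmb F g, by rw [orderOf_affEmb, hg]⟩
  · rintro ⟨M, hM⟩
    have h1 : (affBlk F M) ^ (p * q) = 1 := by
      rw [← map_pow, ← hM, pow_orderOf_eq_one, map_one]
    have aux : ∀ r s : ℕ, r.Prime → s.Prime → r ≠ s → orderOf M = r * s →
        ¬ (orderOf (affBlk F M) ∣ r) := by
      intro r s hr hs hrs hM' hd
      have h2 : (affBlk F M) ^ r = 1 := orderOf_dvd_iff_pow_eq_one.mp hd
      rcases aff_key M r h2 with h3 | h3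
      · have h4 : r * s ∣ r := by rw [← hM']; exact orderOf_dvd_of_pow_eq_one h3
        have h5 : r * s ≤ r := Nat.le_of_dvd hr.pos h4
        have h6 := hs.two_le
        nlinarith [hr.pos]
      · have h4 : r * s ∣ 4 := by rw [← hM']; exact orderOf_dvd_of_pow_eq_one h3
        have h5 : r ∣ 2 ^ 2 := dvd_trans (dvd_mul_right r s) h4
        have h6 : s ∣ 2 ^ 2 := dvd_trans (dvd_mul_left s r) h4
        have h7 : r = 2 :=
          (Nat.prime_dvd_prime_iff_eq hr Nat.prime_two).mp (hr.dvd_of_dvd_pow h5)
        have h8 : s = 2 :=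
          (Nat.prime_dvd_prime_iff_eq hs Nat.prime_two).mp (hs.dvd_of_dvd_pow h6)
        exact hrs (h7.trans h8.symm)
    rcases dvd_prime_mul_cases p q _ hp hq (orderOf_dvd_of_pow_eq_one h1) with h | h | h
    · exact ⟨_, h⟩
    · exact absurd h (aux p q hp hq hpq hM)
    · exact absurd h (aux q p hq hp (Ne.symm hpq) (by rw [hM, mul_comm]))

end

/-- The prime graph of a finite group has the prime divisors of its order as vertices, two distinct primes p, q being joined when the group has an element of order pq; two groups have the same prime graph when they have the same prime divisors and the same joined pairs. Let F be a finite field of characteristic 2 with at least 4 elements. Then there are finite groups of arbitrarily large order with the same prime graph as PSL(2,F); in particular PSL(2,F) is not determined by its prime graph. -/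
theorem result {F : Type*} [Field F] [Fintype F] [CharP F 2] (hF : 4 ≤ Fintype.card F) (N : ℕ) :
    ∃ (H : Type) (_ : Group H) (_ : Finite H), N < Nat.card H ∧
      ((∀ p : ℕ, p.Prime → (p ∣ Nat.card (Matrix.ProjectiveSpecialLinearGroup (Fin 2) F) ↔ p ∣ Nat.card H)) ∧
      (∀ p q : ℕ, p.Prime → q.Prime → p ≠ q → ((∃ g : (Matrix.ProjectiveSpecialLinearGroup (Fin 2) F), orderOf g = p * q) ↔ (∃ g : H, orderOf g = p * q)))) := by
  classical
  obtain ⟨H, i1, i2, h1, h2⟩ := exists_large_isospectral (affBlk F).ker affBlk_ker_ne_bot 2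
    Nat.prime_two (fun x hx => aff_ker_sq x hx) N
  refine ⟨H, i1, Finite.of_fintype H, by rw [Nat.card_eq_fintype_card]; exact h1, ?_, ?_⟩
  · intro p hp
    have hfact : Fact p.Prime := ⟨hp⟩
    rw [← prime_dvd_card_iff_of_spec h2 p hp, Nat.card_congr (pslEquivSL2 F).toEquiv]
    constructor
    · intro hd
      obtain ⟨g, hg⟩ := exists_prime_orderOf_dvd_card' p hd
      obtain ⟨M, hM⟩ := (exists_prime_order_iff p hp).mp ⟨g, hg⟩
      rw [← hM]
      exact orderOf_dvd_natCard M
    · intro hd
      obtain ⟨M, hM⟩ := exists_prime_orderOf_dvd_card' p hd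
      obtain ⟨g, hg⟩ := (exists_prime_order_iff p hp).mpr ⟨M, hM⟩
      rw [← hg]
      exact orderOf_dvd_natCard g
  · intro p q hp hq hpq
    rw [← exists_orderOf_iff_of_spec h2 (p * q), ← exists_pq_order_iff p q hp hq hpq]
    constructor
    · rintro ⟨g, hg⟩
      exact ⟨pslEquivSL2 F g, by rw [MulEquiv.orderOf_eq, hg]⟩
    · rintro ⟨g, hg⟩
      exact ⟨(pslEquivSL2 F).symm g, by rw [MulEquiv.orderOf_eq, hg]⟩

end Cfsg.Agent.S3660
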