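import Cfsg.Statements.S3678
import Cfsg.Agent.Lib.Helper19.AffSL

set_option autoImplicit false
open Cfsg

namespace Cfsg.Agent.S3678

open Cfsg.Agent.Lib.Helper19

/-- A group all of whose elements have order a power of 2, 3 or 7, and which has elements of
orders 2, 3 and 7, has the edgeless prime graph on `{2, 3, 7}`. -/
theorem graph_of_prime_power_orders {G : Type*} [Group G] [Finite G]
    (hG : ∀ g : G, ∃ r k : ℕ, (r = 2 ∨ r = 3 ∨ r = 7) ∧ g ^ (r ^ k) = 1)
    (h2 : ∃ g : G, orderOf g = 2) (h3 : ∃ g : G, orderOf g = 3) (h7 : ∃ g : G, orderOf g = 7) :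
    (∀ p : ℕ, p.Prime → (p ∣ Nat.card G ↔ (p = 2 ∨ p = 3 ∨ p = 7))) ∧
    (∀ p q : ℕ, p.Prime → q.Prime → p ≠ q → ¬ ∃ g : G, orderOf g = p * q) := by
  have hprime : ∀ r : ℕ, (r = 2 ∨ r = 3 ∨ r = 7) → r.Prime := by
    rintro r (rfl | rfl | rfl) <;> norm_num
  constructor
  · intro p hp
    have hfact : Fact p.Prime := ⟨hp⟩
    constructor
    · intro hd
      obtain ⟨g, hg⟩ := exists_prime_orderOf_dvd_card' p hd
      obtain ⟨r, k, hr, hgk⟩ := hG g
      have h1 : p ∣ r ^ k := by rw [← hg]; exact orderOf_dvd_of_pow_eq_one hgk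
      have h4 : p = r := (Nat.prime_dvd_prime_iff_eq hp (hprime r hr)).mp (hp.dvd_of_dvd_pow h1)
      rw [h4]; exact hr
    · rintro (rfl | rfl | rfl)
      · obtain ⟨g, hg⟩ := h2
        rw [← hg]; exact orderOf_dvd_natCard g
      · obtain ⟨g, hg⟩ := h3
        rw [← hg]; exact orderOf_dvd_natCard g
      · obtain ⟨g, hg⟩ := h7
        rw [← hg]; exact orderOf_dvd_natCard g
  · rintro p q hp hq hpq ⟨g, hg⟩
    obtain ⟨r, k, hr, hgk⟩ := hG g
    have h1 : p * q ∣ r ^ k := by rw [← hg]; exact orderOf_dvd_of_pow_eq_one hgk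
    have h4 : p = r := (Nat.prime_dvd_prime_iff_eq hp (hprime r hr)).mp
      (hp.dvd_of_dvd_pow (dvd_trans (dvd_mul_right p q) h1))
    have h5 : q = r := (Nat.prime_dvd_prime_iff_eq hq (hprime r hr)).mp
      (hq.dvd_of_dvd_pow (dvd_trans (dvd_mul_left q p) h1))
    exact hpq (h4.trans h5.symm)

section Seven

variable {F : Type*} [Field F]

/-- A power of an element of `SL(2,F)` that is `± 1` is central. -/
theorem sl2_pow_center (A : Matrix.SpecialLinearGroup (Fin 2) F) (k : ℕ) (e : F)
    (he : e ^ 2 = 1)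
    (h1 : (linCoeff ((A : Matrix (Fin 2) (Fin 2) F) 0 0 + (A : Matrix (Fin 2) (Fin 2) F) 1 1) k).1
      = 0)
    (h2 : (linCoeff ((A : Matrix (Fin 2) (Fin 2) F) 0 0 + (A : Matrix (Fin 2) (Fin 2) F) 1 1) k).2
      = e) : A ^ k ∈ Subgroup.center (Matrix.SpecialLinearGroup (Fin 2) F) := by
  rw [Matrix.SpecialLinearGroup.mem_center_iff]
  refine ⟨e, by simpa using he, ?_⟩
  rw [sl2_pow_coe, h1, h2]
  simp [Matrix.smul_one_eq_diagonal]

theorem mk_pow_eq_one (A : Matrix.SpecialLinearGroup (Fin 2) F) (k : ℕ)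
    (h : A ^ k ∈ Subgroup.center (Matrix.SpecialLinearGroup (Fin 2) F)) :
    (QuotientGroup.mk A : Matrix.ProjectiveSpecialLinearGroup (Fin 2) F) ^ k = 1 := by
  rw [← QuotientGroup.mk_pow]
  exact (QuotientGroup.eq_one_iff _).mpr h

theorem not_mem_center (A : Matrix.SpecialLinearGroup (Fin 2) F)
    (h : (A : Matrix (Fin 2) (Fin 2) F) 0 1 ≠ 0) :
    (QuotientGroup.mk A : Matrix.ProjectiveSpecialLinearGroup (Fin 2) F) ≠ 1 := by
  intro hA
  have h1 := (QuotientGroup.eq_one_iff _).mp hA
  obtain ⟨r, -, hr⟩ := Matrix.SpecialLinearGroup.mem_center_iff.mp h1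
  apply h
  rw [← hr]
  simp

theorem trace_cases (hF7 : (7 : F) = 0) (t : F) (ht : t ^ 7 = t) :
    t = 0 ∨ t = 1 ∨ t = -1 ∨ t = 2 ∨ t = -2 ∨ t = 3 ∨ t = -3 := by
  have h : t * ((t - 1) * ((t + 1) * ((t - 2) * ((t + 2) * ((t - 3) * (t + 3)))))) = 0 := by
    linear_combination ht + (-2 * t ^ 5 + 7 * t ^ 3 - 5 * t) * hF7
  rcases mul_eq_zero.mp h with h | h
  · left; exact h
  rcases mul_eq_zero.mp h with h | h
  · right; left; linear_combination h
  rcases mul_eq_zero.mp h with h | h
  · right; right; left; linear_combination h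
  rcases mul_eq_zero.mp h with h | h
  · right; right; right; left; linear_combination h
  rcases mul_eq_zero.mp h with h | h
  · right; right; right; right; left; linear_combination h
  rcases mul_eq_zero.mp h with h | h
  · right; right; right; right; right; left; linear_combination h
  · right; right; right; right; right; right; linear_combination h

/-- Every element of `PSL(2,7)` has order dividing 2, 3, 4 or 7. -/
theorem psl_pow (hF7 : (7 : F) = 0) (ht7 : ∀ t : F, t ^ 7 = t)
    (g : Matrix.ProjectiveSpecialLinearGroup (Fin 2) F) :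
    ∃ r k : ℕ, (r = 2 ∨ r = 3 ∨ r = 7) ∧ g ^ (r ^ k) = 1 := by
  obtain ⟨A, rfl⟩ := QuotientGroup.mk_surjective g
  rcases trace_cases hF7 _ (ht7 ((A : Matrix (Fin 2) (Fin 2) F) 0 0 +
    (A : Matrix (Fin 2) (Fin 2) F) 1 1)) with h | h | h | h | h | h | h
  · refine ⟨2, 1, Or.inl rfl, mk_pow_eq_one A _ (sl2_pow_center A _ (-1) (by ring) ?_ ?_)⟩
    · rw [h]; simp [linCoeff_two]
    · rw [h]; simp [linCoeff_two]
  · refine ⟨3, 1, Or.inr (Or.inl rfl), mk_pow_eq_one A _ (sl2_pow_center A _ (-1) (by ring) ?_ ?_)⟩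
    · rw [h]; simp [linCoeff_three]
    · rw [h]; simp [linCoeff_three]
  · refine ⟨3, 1, Or.inr (Or.inl rfl), mk_pow_eq_one A _ (sl2_pow_center A _ 1 (by ring) ?_ ?_)⟩
    · rw [h]; simp [linCoeff_three]
    · rw [h]; simp [linCoeff_three]
  · refine ⟨7, 1, Or.inr (Or.inr rfl), mk_pow_eq_one A _ (sl2_pow_center A _ 1 (by ring) ?_ ?_)⟩
    · rw [h]; simp only [pow_one, linCoeff_seven]; linear_combination hF7
    · rw [h]; simp only [pow_one, linCoeff_seven]; linear_combination (-1 : F) * hF7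
  · refine ⟨7, 1, Or.inr (Or.inr rfl), mk_pow_eq_one A _ (sl2_pow_center A _ (-1) (by ring) ?_ ?_)⟩
    · rw [h]; simp only [pow_one, linCoeff_seven]; linear_combination hF7
    · rw [h]; simp only [pow_one, linCoeff_seven]; linear_combination hF7
  · refine ⟨2, 2, Or.inl rfl, mk_pow_eq_one A _ (sl2_pow_center A _ (-1) (by ring) ?_ ?_)⟩
    · rw [h]; show (linCoeff (3 : F) 4).1 = 0; rw [linCoeff_four]; linear_combination 3 * hF7
    · rw [h]; show (linCoeff (3 : F) 4).2 = -1; rw [linCoeff_four]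
      linear_combination (-1 : F) * hF7
  · refine ⟨2, 2, Or.inl rfl, mk_pow_eq_one A _ (sl2_pow_center A _ (-1) (by ring) ?_ ?_)⟩
    · rw [h]; show (linCoeff (-3 : F) 4).1 = 0; rw [linCoeff_four]; linear_combination (-3 : F) * hF7
    · rw [h]; show (linCoeff (-3 : F) 4).2 = -1; rw [linCoeff_four]
      linear_combination (-1 : F) * hF7

theorem psl_two (hF7 : (7 : F) = 0) :
    ∃ g : Matrix.ProjectiveSpecialLinearGroup (Fin 2) F, orderOf g = 2 := by
  refine ⟨QuotientGroup.mk (sl2mk 0 1 (-1) 0 (by ring)), ?_⟩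
  apply orderOf_eq_prime
  · apply mk_pow_eq_one
    apply sl2_pow_center _ _ (-1) (by ring)
    · simp [linCoeff_two]
    · simp [linCoeff_two]
  · apply not_mem_center
    simp

theorem psl_three (hF7 : (7 : F) = 0) :
    ∃ g : Matrix.ProjectiveSpecialLinearGroup (Fin 2) F, orderOf g = 3 := by
  refine ⟨QuotientGroup.mk (sl2mk 0 1 (-1) 1 (by ring)), ?_⟩
  apply orderOf_eq_prime
  · apply mk_pow_eq_one
    apply sl2_pow_center _ _ (-1) (by ring)
    · simp [linCoeff_three]
    · simp [linCoeff_three]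
  · apply not_mem_center
    simp

theorem psl_seven (hF7 : (7 : F) = 0) :
    ∃ g : Matrix.ProjectiveSpecialLinearGroup (Fin 2) F, orderOf g = 7 := by
  have h7 : Fact (Nat.Prime 7) := ⟨by norm_num⟩
  refine ⟨QuotientGroup.mk (sl2mk 1 1 0 1 (by ring)), ?_⟩
  apply orderOf_eq_prime
  · apply mk_pow_eq_one
    apply sl2_pow_center _ _ 1 (by ring)
    · simp only [coe_sl2mk, linCoeff_seven]
      simp
      linear_combination hF7
    · simp only [coe_sl2mk, linCoeff_seven]
      simp
      linear_combination (-1 : F) * hF7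
  · apply not_mem_center
    simp

end Seven

section Eight

variable {F : Type*} [Field F] [CharP F 2]

/-- Every element of the affine group over the field with 8 elements has order dividing 4, 7
or 9. -/
theorem aff_pow (ht8 : ∀ t : F, t ^ 8 = t) (M : affSL F) :
    ∃ r k : ℕ, (r = 2 ∨ r = 3 ∨ r = 7) ∧ M ^ (r ^ k) = 1 := by
  have key : M ^ 4 = 1 ∨ M ^ 7 = 1 ∨ M ^ 9 = 1 := by
    by_cases h : (M.1 : Matrix (Fin 3) (Fin 3) F) 0 0 + (M.1 : Matrix (Fin 3) (Fin 3) F) 1 1 = 0
    · have h2 : (affBlk F M) ^ 2 = 1 := sl2_sq_of_trace_zero _ (by simpa using h)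
      rcases aff_key M 2 h2 with h3 | h3
      · left
        have : M ^ 4 = (M ^ 2) ^ 2 := by rw [← pow_mul]
        rw [this, h3, one_pow]
      · left; exact h3
    · have h8 := ht8 ((M.1 : Matrix (Fin 3) (Fin 3) F) 0 0 +
        (M.1 : Matrix (Fin 3) (Fin 3) F) 1 1)
      have htr : (affBlk F M : Matrix (Fin 2) (Fin 2) F) 0 0 +
          (affBlk F M : Matrix (Fin 2) (Fin 2) F) 1 1 =
          (M.1 : Matrix (Fin 3) (Fin 3) F) 0 0 + (M.1 : Matrix (Fin 3) (Fin 3) F) 1 1 := by simp
      generalize (M.1 : Matrix (Fin 3) (Fin 3) F) 0 0 +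
        (M.1 : Matrix (Fin 3) (Fin 3) F) 1 1 = t at h h8 htr
      have h7 : t ^ 7 = 1 := by
        have h9 : t * (t ^ 7 - 1) = 0 := by linear_combination h8
        rcases mul_eq_zero.mp h9 with h10 | h10
        · exact absurd h10 h
        · linear_combination h10
      have hc : (t ^ 6 + t ^ 4 + 1) * (t ^ 6 + t ^ 4 + 1 + t) = 0 := by grind
      rcases mul_eq_zero.mp hc with h10 | h10
      · have h11 : (affBlk F M) ^ 7 = 1 := sl2_pow_seven _ t htr h7 h10
        rcases aff_key M 7 h11 with h3 | h3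
        · right; left; exact h3
        · left; exact h3
      · have h12 : t ^ 6 + t ^ 4 + 1 = t := by
          have h13 : (2 : F) = 0 := CharTwo.two_eq_zero
          linear_combination h10 - t * h13
        have h11 : (affBlk F M) ^ 9 = 1 := sl2_pow_nine _ t htr h7 h12
        rcases aff_key M 9 h11 with h3 | h3
        · right; right; exact h3
        · left; exact h3
  rcases key with h | h | h
  · exact ⟨2, 2, Or.inl rfl, h⟩
  · exact ⟨7, 1, Or.inr (Or.inr rfl), h⟩
  · exact ⟨3, 2, Or.inr (Or.inl rfl), h⟩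

/-- The diagonal torus. -/
def diagHom (F : Type*) [Field F] : Fˣ →* Matrix.SpecialLinearGroup (Fin 2) F where
  toFun u := sl2mk (u : F) 0 0 ((u⁻¹ : Fˣ) : F) (by simp)
  map_one' := by
    apply Subtype.ext
    ext i j
    fin_cases i <;> fin_cases j <;> simp
  map_mul' := by
    intro u v
    apply Subtype.ext
    ext i j
    fin_cases i <;> fin_cases j <;>
      simp [Matrix.SpecialLinearGroup.coe_mul, Matrix.mul_apply, Fin.sum_univ_two, mul_comm]

theorem diagHom_injective (F : Type*) [Field F] : Function.Injective (diagHom F) := by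
  intro u v h
  have h1 := congrArg (fun A : Matrix.SpecialLinearGroup (Fin 2) F =>
    (A : Matrix (Fin 2) (Fin 2) F) 0 0) h
  simp [diagHom] at h1
  exact Units.ext h1

theorem aff_seven [Fintype F] (hF : Fintype.card F = 8) : ∃ g : affSL F, orderOf g = 7 := by
  classical
  have h7 : Fact (Nat.Prime 7) := ⟨by norm_num⟩
  have hcard : Fintype.card Fˣ = 7 := by rw [Fintype.card_units, hF]
  have hnt : Nontrivial Fˣ := by
    rw [← Fintype.one_lt_card_iff_nontrivial, hcard]; norm_num
  obtain ⟨u, hu⟩ := exists_ne (1 : Fˣ)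
  have hu7 : orderOf u = 7 := by
    apply orderOf_eq_prime _ hu
    rw [← hcard]; exact pow_card_eq_one
  exact ⟨affEmb F (diagHom F u), by
    rw [orderOf_affEmb, orderOf_injective (diagHom F) (diagHom_injective F), hu7]⟩

theorem aff_graph [Fintype F] (hF : Fintype.card F = 8) :
    (∀ p : ℕ, p.Prime → (p ∣ Nat.card (affSL F) ↔ (p = 2 ∨ p = 3 ∨ p = 7))) ∧
    (∀ p q : ℕ, p.Prime → q.Prime → p ≠ q → ¬ ∃ g : affSL F, orderOf g = p * q) := by
  classical
  have ht8 : ∀ t : F, t ^ 8 = t := by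
    intro t
    have h := FiniteField.pow_card t
    rw [hF] at h
    exact h
  exact graph_of_prime_power_orders (aff_pow ht8) ⟨affTr 1 0, orderOf_affTr⟩
    ⟨affEmb F (sl2three F), by rw [orderOf_affEmb, orderOf_sl2three]⟩ (aff_seven hF)

end Eight

/-- The prime graph of a finite group has the prime divisors of its order as vertices, two distinct primes p, q being joined when the group has an element of order pq; two groups have the same prime graph when they have the same prime divisors and the same joined pairs. Let F be the field with 7 elements. There are finite groups of arbitrarily large order with the same prime graph as PSL(2,F) (the graph on {2, 3, 7} with no edges, which is also the prime graph of PSL(2,8)). -/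
theorem result {F : Type*} [Field F] [Fintype F] (hF : Fintype.card F = 7) (N : ℕ) :
    ∃ (H : Type) (_ : Group H) (_ : Finite H), N < Nat.card H ∧
      ((∀ p : ℕ, p.Prime → (p ∣ Nat.card (Matrix.ProjectiveSpecialLinearGroup (Fin 2) F) ↔ p ∣ Nat.card H)) ∧
      (∀ p q : ℕ, p.Prime → q.Prime → p ≠ q → ((∃ g : (Matrix.ProjectiveSpecialLinearGroup (Fin 2) F), orderOf g = p * q) ↔ (∃ g : H, orderOf g = p * q)))) := by
  classical
  have hfact : Fact (Nat.Prime 2) := ⟨Nat.prime_two⟩
  letI : Fintype (GaloisField 2 3) := Fintype.ofFinite _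
  have hF8 : Fintype.card (GaloisField 2 3) = 8 := by
    rw [← Nat.card_eq_fintype_card, GaloisField.card 2 3 (by norm_num)]
    norm_num
  have hF7 : (7 : F) = 0 := by
    have h := Nat.cast_card_eq_zero F
    rw [hF] at h
    exact_mod_cast h
  have ht7 : ∀ t : F, t ^ 7 = t := by
    intro t
    have h := FiniteField.pow_card t
    rw [hF] at h
    exact h
  obtain ⟨hA1, hA2⟩ := graph_of_prime_power_orders (psl_pow hF7 ht7) (psl_two hF7)
    (psl_three hF7) (psl_seven hF7)
  obtain ⟨hB1, hB2⟩ := aff_graph hF8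
  obtain ⟨H, i1, i2, h1, h2⟩ := exists_large_isospectral (affBlk (GaloisField 2 3)).ker
    affBlk_ker_ne_bot 2 Nat.prime_two (fun x hx => aff_ker_sq x hx) N
  refine ⟨H, i1, Finite.of_fintype H, by rw [Nat.card_eq_fintype_card]; exact h1, ?_, ?_⟩
  · intro p hp
    rw [← prime_dvd_card_iff_of_spec h2 p hp, hA1 p hp, hB1 p hp]
  · intro p q hp hq hpq
    rw [← exists_orderOf_iff_of_spec h2 (p * q)]
    constructor
    · intro h
      exact absurd h (hA2 p q hp hq hpq)
    · intro h
      exact absurd h (hB2 p q hp hq hpq)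

end Cfsg.Agent.S3678
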