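import Cfsg.Statements.S3681
import Mathlib

set_option autoImplicit false
open Cfsg

namespace Cfsg.Agent.S3681

open MulAction

lemma commutator_eq_swap_mul_swap {Ω : Type*} [DecidableEq Ω] (σ τ : Equiv.Perm Ω) (δ : Ω)
    (hσ : σ δ ≠ δ) (hτ : τ δ ≠ δ) (h : ∀ x, σ x ≠ x → τ x ≠ x → x = δ) :
    σ * τ * σ⁻¹ * τ⁻¹ = Equiv.swap δ (τ δ) * Equiv.swap δ (σ δ) := by
  have f1 : ∀ x, x ≠ δ → σ x ≠ x → τ x = x := fun x hx hs => by
    by_contra ht
    exact hx (h x hs ht)
  have f2 : ∀ x, x ≠ δ → τ x ≠ x → σ x = x := fun x hx ht => by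
    by_contra hs
    exact hx (h x hs ht)
  have hσσ : σ (σ δ) ≠ σ δ := fun h' => hσ (σ.injective h')
  have hττ : τ (τ δ) ≠ τ δ := fun h' => hτ (τ.injective h')
  have hστ : σ δ ≠ τ δ := by
    intro heq
    have h2 : τ (σ δ) ≠ σ δ := by rw [heq]; exact hττ
    exact hσ (h _ hσσ h2)
  have inv_fix : ∀ (π : Equiv.Perm Ω) (x : Ω), π x = x → π⁻¹ x = x := fun π x hx => by
    rw [Equiv.Perm.inv_eq_iff_eq]; exact hx.symm
  have ais : ∀ (π : Equiv.Perm Ω) (x : Ω), π (π⁻¹ x) = x := fun π x => by simp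
  have ias : ∀ (π : Equiv.Perm Ω) (x : Ω), π⁻¹ (π x) = x := fun π x => by simp
  ext x
  simp only [Equiv.Perm.mul_apply]
  by_cases hxδ : x = δ
  · rw [hxδ]
    have hy1 : τ (τ⁻¹ δ) = δ := ais τ δ
    have hy2 : τ⁻¹ δ ≠ δ := by
      intro h'
      rw [h'] at hy1
      exact hτ hy1
    have hy3 : τ (τ⁻¹ δ) ≠ τ⁻¹ δ := by rw [hy1]; exact hy2.symm
    have hy4 : σ (τ⁻¹ δ) = τ⁻¹ δ := f2 _ hy2 hy3
    rw [inv_fix σ _ hy4, hy1, Equiv.swap_apply_left, Equiv.swap_apply_of_ne_of_ne hσ hστ]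
  by_cases hxσ : x = σ δ
  · rw [hxσ]
    have h1 : τ (σ δ) = σ δ := f1 _ hσ hσσ
    have h2 : σ (τ δ) = τ δ := f2 _ hτ hττ
    rw [inv_fix τ _ h1, ias σ δ, h2, Equiv.swap_apply_right,
      Equiv.swap_apply_left]
  by_cases hxτ : x = τ δ
  · rw [hxτ]
    have hw1 : σ (σ⁻¹ δ) = δ := ais σ δ
    have hw2 : σ⁻¹ δ ≠ δ := by
      intro h'
      rw [h'] at hw1
      exact hσ hw1
    have hw3 : σ (σ⁻¹ δ) ≠ σ⁻¹ δ := by rw [hw1]; exact hw2.symm
    have hw4 : τ (σ⁻¹ δ) = σ⁻¹ δ := f1 _ hw2 hw3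
    rw [ias τ δ, hw4, hw1,
      Equiv.swap_apply_of_ne_of_ne hτ (Ne.symm hστ), Equiv.swap_apply_right]
  rw [Equiv.swap_apply_of_ne_of_ne hxδ hxσ, Equiv.swap_apply_of_ne_of_ne hxδ hxτ]
  by_cases ht : τ x = x
  · rw [inv_fix τ x ht]
    by_cases hs : σ x = x
    · rw [inv_fix σ x hs, ht, hs]
    · have hv1 : σ (σ⁻¹ x) = x := ais σ x
      have hv2 : σ⁻¹ x ≠ δ := by
        intro h'
        rw [h'] at hv1
        exact hxσ hv1.symm
      have hv3 : σ (σ⁻¹ x) ≠ σ⁻¹ x := by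
        rw [hv1]
        intro h'
        rw [← h'] at hv1
        exact hs hv1
      rw [f1 _ hv2 hv3, hv1]
  · have hs : σ x = x := f2 x hxδ ht
    have hu1 : τ (τ⁻¹ x) = x := ais τ x
    have hu2 : τ⁻¹ x ≠ δ := by
      intro h'
      rw [h'] at hu1
      exact hxτ hu1.symm
    have hu3 : τ (τ⁻¹ x) ≠ τ⁻¹ x := by
      rw [hu1]
      intro h'
      rw [← h'] at hu1
      exact ht hu1
    have hu4 : σ (τ⁻¹ x) = τ⁻¹ x := f2 _ hu2 hu3
    rw [inv_fix σ _ hu4, hu1, hs]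

/-- Bochert's bound for primitive groups. -/
theorem result {G Ω : Type*} [Group G] [Finite G] [MulAction G Ω] [FaithfulSMul G Ω] [Fintype Ω] [DecidableEq Ω]
    (hprim : MulAction.IsPreprimitive G Ω) (hA : ¬ alternatingGroup Ω ≤ (MulAction.toPermHom G Ω).range) :
    Nat.card G * Nat.factorial ((Fintype.card Ω + 1) / 2) ≤ Nat.factorial (Fintype.card Ω) := by
  classical
  have hfaith : ∀ g : G, (∀ x : Ω, g • x = x) → g = 1 := by
    intro g hg
    apply FaithfulSMul.eq_of_smul_eq_smul (α := Ω)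
    intro x
    rw [one_smul]
    exact hg x
  have hbase : ∃ Δ : Finset Ω, fixingSubgroup G (Δ : Set Ω) = ⊥ := ⟨Finset.univ, by
    rw [eq_bot_iff]
    intro g hg
    rw [Subgroup.mem_bot]
    apply hfaith
    intro x
    exact (mem_fixingSubgroup_iff G).mp hg x (by simp)⟩
  obtain ⟨Δ, hΔ, hmin⟩ : ∃ Δ : Finset Ω, fixingSubgroup G (Δ : Set Ω) = ⊥ ∧
      ∀ Δ' : Finset Ω, fixingSubgroup G (Δ' : Set Ω) = ⊥ → Δ.card ≤ Δ'.card := by
    obtain ⟨Δ, hΔmem, hΔmin⟩ := Finset.exists_min_image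
      (Finset.univ.filter (fun Δ : Finset Ω => fixingSubgroup G (Δ : Set Ω) = ⊥)) Finset.card
      (by obtain ⟨Δ, h⟩ := hbase; exact ⟨Δ, by simp [h]⟩)
    exact ⟨Δ, (Finset.mem_filter.mp hΔmem).2, fun Δ' h' => hΔmin Δ' (by simp [h'])⟩
  have hx : ∀ δ ∈ Δ, ∃ x : G, (∀ z ∈ Δ, z ≠ δ → x • z = z) ∧ x • δ ≠ δ := by
    intro δ hδ
    have h1 : fixingSubgroup G ((Δ.erase δ : Finset Ω) : Set Ω) ≠ ⊥ := by
      intro h
      have h2 := hmin _ h
      rw [Finset.card_erase_of_mem hδ] at h2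
      have h3 := Finset.card_pos.mpr ⟨δ, hδ⟩
      omega
    obtain ⟨x, hx1⟩ := (Subgroup.ne_bot_iff_exists_ne_one).mp h1
    have hxfix : ∀ z ∈ Δ, z ≠ δ → (x : G) • z = z := by
      intro z hz hzδ
      exact (mem_fixingSubgroup_iff G).mp x.2 z (by simp [hz, hzδ])
    refine ⟨x, hxfix, ?_⟩
    intro hxδ
    have h2 : (x : G) ∈ fixingSubgroup G (Δ : Set Ω) := by
      rw [mem_fixingSubgroup_iff]
      intro z hz
      by_cases hzδ : z = δ
      · rw [hzδ]; exact hxδ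
      · exact hxfix z hz hzδ
    rw [hΔ, Subgroup.mem_bot] at h2
    exact hx1 (Subtype.ext h2)
  have hΔc : fixingSubgroup G ((Δ : Set Ω)ᶜ) = ⊥ := by
    rw [eq_bot_iff]
    intro y hy
    rw [Subgroup.mem_bot]
    by_contra hy1
    have hmove : ∃ δ : Ω, y • δ ≠ δ := by
      by_contra hcon
      simp only [not_exists, not_not] at hcon
      exact hy1 (hfaith y hcon)
    obtain ⟨δ, hδ⟩ := hmove
    have hyfix : ∀ z : Ω, z ∉ Δ → y • z = z := by
      intro z hz
      exact (mem_fixingSubgroup_iff G).mp hy z (by simpa using hz)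
    have hδΔ : δ ∈ Δ := by
      by_contra hcon
      exact hδ (hyfix δ hcon)
    obtain ⟨x, hxfix, hxδ⟩ := hx δ hδΔ
    have hcomm := commutator_eq_swap_mul_swap (MulAction.toPerm x : Equiv.Perm Ω)
      (MulAction.toPerm y) δ hxδ hδ (by
        intro z hz1 hz2
        by_contra hzδ
        have hzΔ : z ∈ Δ := by
          by_contra hcon
          exact hz2 (hyfix z hcon)
        exact hz1 (hxfix z hzΔ hzδ))
    have hσσ : x • (x • δ) ≠ x • δ := fun h' => hxδ (smul_left_cancel x h')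
    have hττ : y • (y • δ) ≠ y • δ := fun h' => hδ (smul_left_cancel y h')
    have hστ : x • δ ≠ y • δ := by
      intro heq
      have hz2 : y • (x • δ) ≠ x • δ := by rw [heq]; exact hττ
      have hzΔ : x • δ ∈ Δ := by
        by_contra hcon
        exact hz2 (hyfix _ hcon)
      exact hσσ (hxfix _ hzΔ hxδ)
    have h3 : Equiv.Perm.IsThreeCycle
        (Equiv.swap δ ((MulAction.toPerm y : Equiv.Perm Ω) δ) *
          Equiv.swap δ ((MulAction.toPerm x : Equiv.Perm Ω) δ)) :=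
      Equiv.Perm.isThreeCycle_swap_mul_swap_same (Ne.symm hδ) (Ne.symm hxδ) (Ne.symm hστ)
    rw [← hcomm] at h3
    have hmem : (MulAction.toPerm x : Equiv.Perm Ω) * MulAction.toPerm y *
        (MulAction.toPerm x)⁻¹ * (MulAction.toPerm y)⁻¹ ∈ (MulAction.toPermHom G Ω).range := by
      refine ⟨x * y * x⁻¹ * y⁻¹, ?_⟩
      simp [map_mul, map_inv]
    have hprim' : IsPreprimitive (MulAction.toPermHom G Ω).range Ω := by
      haveI := hprim
      let f : Ω →ₑ[(MulAction.toPermHom G Ω).rangeRestrict] Ω :=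
        { toFun := id
          map_smul' := fun g x => rfl }
      exact IsPreprimitive.of_surjective (f := f) Function.surjective_id
    exact hA (Equiv.Perm.alternatingGroup_le_of_isPreprimitive_of_isThreeCycle_mem hprim' h3 hmem)
  have hcount : ∀ S : Finset Ω, fixingSubgroup G (S : Set Ω) = ⊥ →
      Nat.card G * Nat.factorial (Fintype.card Ω - S.card) ≤ Nat.factorial (Fintype.card Ω) := by
    intro S hS
    have hinj : Function.Injective (fun p : G × Equiv.Perm {x : Ω // x ∉ S} =>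
        (MulAction.toPerm p.1 : Equiv.Perm Ω) * Equiv.Perm.ofSubtype p.2) := by
      intro p q hpq
      simp only at hpq
      have h2 : q.1⁻¹ * p.1 ∈ fixingSubgroup G (S : Set Ω) := by
        rw [mem_fixingSubgroup_iff]
        intro z hz
        have h3 := congrArg (fun π : Equiv.Perm Ω => π z) hpq
        simp only [Equiv.Perm.mul_apply, MulAction.toPerm_apply] at h3
        rw [Equiv.Perm.ofSubtype_apply_of_not_mem _ (by simpa using hz),
          Equiv.Perm.ofSubtype_apply_of_not_mem _ (by simpa using hz)] at h3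
        rw [mul_smul, h3, inv_smul_smul]
      rw [hS, Subgroup.mem_bot, inv_mul_eq_one] at h2
      have h4 : Equiv.Perm.ofSubtype p.2 = Equiv.Perm.ofSubtype q.2 := by
        rw [h2] at hpq
        exact mul_left_cancel hpq
      exact Prod.ext h2.symm (Equiv.Perm.ofSubtype_injective h4)
    have h1 := Nat.card_le_card_of_injective _ hinj
    rw [Nat.card_prod, Nat.card_eq_fintype_card (α := Equiv.Perm Ω), Fintype.card_perm,
      Nat.card_eq_fintype_card (α := Equiv.Perm {x : Ω // x ∉ S}), Fintype.card_perm] at h1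
    have h2 : Fintype.card {x : Ω // x ∉ S} = Fintype.card Ω - S.card := by
      rw [Fintype.card_subtype_compl, Fintype.card_coe]
    rw [h2] at h1
    exact h1
  by_cases hcase : Δ.card ≤ Fintype.card Ω / 2
  · have h1 := hcount Δ hΔ
    have h2 : (Fintype.card Ω + 1) / 2 ≤ Fintype.card Ω - Δ.card := by omega
    calc Nat.card G * Nat.factorial ((Fintype.card Ω + 1) / 2)
        ≤ Nat.card G * Nat.factorial (Fintype.card Ω - Δ.card) :=
          Nat.mul_le_mul_left _ (Nat.factorial_le h2)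
      _ ≤ _ := h1
  · have h0 : fixingSubgroup G ((Δᶜ : Finset Ω) : Set Ω) = ⊥ := by
      rw [Finset.coe_compl]; exact hΔc
    have h1 := hcount Δᶜ h0
    rw [Finset.card_compl] at h1
    have hle : Δ.card ≤ Fintype.card Ω := Finset.card_le_univ Δ
    have h2 : (Fintype.card Ω + 1) / 2 ≤ Fintype.card Ω - (Fintype.card Ω - Δ.card) := by omega
    calc Nat.card G * Nat.factorial ((Fintype.card Ω + 1) / 2)
        ≤ Nat.card G * Nat.factorial (Fintype.card Ω - (Fintype.card Ω - Δ.card)) :=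
          Nat.mul_le_mul_left _ (Nat.factorial_le h2)
      _ ≤ _ := h1

end Cfsg.Agent.S3681
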