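import Cfsg.Statements.S3683
import Mathlib

set_option autoImplicit false
open Cfsg

namespace Cfsg.Agent.S3683

open MulAction

/-- A primitive group with a suborbit of length 1 other than the base point is cyclic of prime order. -/
theorem result {G Ω : Type*} [Group G] [Finite G] [MulAction G Ω] [FaithfulSMul G Ω] [Finite Ω]
    (hprim : MulAction.IsPreprimitive G Ω) (a b : Ω) (hab : a ≠ b) (hfix : ∀ g : G, g • a = a → g • b = b) :
    MulAction.stabilizer G a = ⊥ ∧ IsCyclic G ∧ (Nat.card G).Prime := by
  classical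
  have hnt : Nontrivial Ω := ⟨⟨a, b, hab⟩⟩
  have htr : IsPretransitive G Ω := hprim.toIsPretransitive
  have hca : IsCoatom (stabilizer G a) := (isCoatom_stabilizer_iff_preprimitive G a).mpr hprim
  have hcb : IsCoatom (stabilizer G b) := (isCoatom_stabilizer_iff_preprimitive G b).mpr hprim
  have hle : stabilizer G a ≤ stabilizer G b :=
    fun g hg => mem_stabilizer_iff.mpr (hfix g (mem_stabilizer_iff.mp hg))
  have heq : stabilizer G a = stabilizer G b := by
    by_contra hne
    exact hcb.1 (hca.2 _ (lt_of_le_of_ne hle hne))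
  obtain ⟨x, hx⟩ := MulAction.exists_smul_eq G a b
  have hxN : x ∈ Subgroup.normalizer (stabilizer G a : Set G) := by
    rw [Subgroup.mem_normalizer_iff]
    intro h
    rw [mem_stabilizer_iff]
    have h1 : x * h * x⁻¹ ∈ stabilizer G a ↔ (x * h * x⁻¹) • b = b := by
      rw [heq, mem_stabilizer_iff]
    rw [h1, ← hx, mul_smul, mul_smul, inv_smul_smul]
    constructor
    · intro h2; rw [h2]
    · intro h2; exact smul_left_cancel x h2
  have hxa : x ∉ stabilizer G a := by
    intro h
    rw [mem_stabilizer_iff, hx] at h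
    exact hab h.symm
  have hNtop : Subgroup.normalizer (stabilizer G a : Set G) = ⊤ := by
    apply hca.2
    exact lt_of_le_of_ne Subgroup.le_normalizer (fun h => hxa (h ▸ hxN))
  have hall : ∀ h ∈ stabilizer G a, ∀ ω : Ω, h • ω = ω := by
    intro h hh ω
    obtain ⟨g, hg⟩ := MulAction.exists_smul_eq G a ω
    have hgN : g⁻¹ ∈ Subgroup.normalizer (stabilizer G a : Set G) := by
      rw [hNtop]; exact Subgroup.mem_top _
    have h2 := (Subgroup.mem_normalizer_iff.mp hgN h).mp hh
    rw [inv_inv, mem_stabilizer_iff, mul_smul, mul_smul, hg] at h2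
    have h3 := inv_smul_eq_iff.mp h2
    rw [hg] at h3
    exact h3
  have hbot : stabilizer G a = ⊥ := by
    rw [eq_bot_iff]
    intro h hh
    rw [Subgroup.mem_bot]
    apply FaithfulSMul.eq_of_smul_eq_smul (α := Ω)
    intro ω
    rw [one_smul]
    exact hall h hh ω
  rw [hbot] at hca
  have hGnt : Nontrivial G := by
    by_contra h
    rw [not_nontrivial_iff_subsingleton] at h
    apply hca.1
    ext y
    simp [Subsingleton.elim y 1]
  have h1 : 1 < Nat.card G := Finite.one_lt_card
  obtain ⟨p, hp, hpd⟩ := Nat.exists_prime_and_dvd (ne_of_gt h1)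
  have hfact : Fact p.Prime := ⟨hp⟩
  obtain ⟨y, hy⟩ := exists_prime_orderOf_dvd_card' p hpd
  have hz : Subgroup.zpowers y = ⊤ := by
    apply hca.2
    rw [bot_lt_iff_ne_bot]
    intro h0
    rw [Subgroup.zpowers_eq_bot] at h0
    rw [h0, orderOf_one] at hy
    exact hp.one_lt.ne hy
  have hcard : Nat.card G = p := by
    rw [← hy, ← Nat.card_zpowers, hz, Subgroup.card_top]
  exact ⟨hbot, isCyclic_of_prime_card hcard, by rw [hcard]; exact hp⟩

end Cfsg.Agent.S3683
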