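import Cfsg.Statements.S3684
import Mathlib
import Cfsg.Agent.Lib.Helper18.DihedralEquiv
import Cfsg.Agent.Lib.Helper20.CW2

set_option autoImplicit false
open Cfsg

namespace Cfsg.Agent.S3684

section aux

variable {G : Type*} [Group G]

theorem two_gen (t s : G) (ht : t ^ 2 = 1) (hts : t * s * t⁻¹ = s⁻¹) :
    ∀ b ∈ Subgroup.closure ({s, t} : Set G),
      b ∈ Subgroup.zpowers s ∨ b * t ∈ Subgroup.zpowers s := by
  have h2 : t * t = 1 := by rw [← pow_two, ht]
  have htinv : t⁻¹ = t := by rw [inv_eq_iff_mul_eq_one, h2]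
  have hconj : ∀ x ∈ Subgroup.zpowers s, t * x * t⁻¹ ∈ Subgroup.zpowers s := by
    intro x hx
    obtain ⟨i, rfl⟩ := Subgroup.mem_zpowers_iff.mp hx
    rw [← conj_zpow, hts]
    exact Subgroup.zpow_mem _ (Subgroup.inv_mem _ (Subgroup.mem_zpowers s)) i
  intro b hb
  induction hb using Subgroup.closure_induction with
  | mem x hx =>
    rcases hx with rfl | hx
    · exact Or.inl (Subgroup.mem_zpowers _)
    · rw [Set.mem_singleton_iff] at hx
      subst hx
      right
      rw [h2]
      exact Subgroup.one_mem _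
  | one => exact Or.inl (Subgroup.one_mem _)
  | mul x y _ _ hx hy =>
    rcases hx with hx | hx <;> rcases hy with hy | hy
    · exact Or.inl (Subgroup.mul_mem _ hx hy)
    · right
      rw [mul_assoc]
      exact Subgroup.mul_mem _ hx hy
    · right
      have e : x * y * t = (x * t) * (t * y * t⁻¹) := by
        calc x * y * t = x * (t * t) * y * t := by rw [h2, mul_one]
          _ = (x * t) * (t * y * t⁻¹) := by
              rw [htinv]
              group
      rw [e]
      exact Subgroup.mul_mem _ hx (hconj _ hy)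
    · left
      have e : x * y = (x * t) * (t * (y * t) * t⁻¹) := by
        calc x * y = x * (t * t) * y := by rw [h2, mul_one]
          _ = (x * t) * (t * (y * t) * t⁻¹) := by group
      rw [e]
      exact Subgroup.mul_mem _ hx (hconj _ hy)
  | inv x _ hx =>
    rcases hx with hx | hx
    · exact Or.inl (Subgroup.inv_mem _ hx)
    · right
      have e : x⁻¹ * t = t * (x * t)⁻¹ * t⁻¹ := by
        calc x⁻¹ * t = x⁻¹ * t⁻¹ := by rw [htinv]
          _ = t * (x * t)⁻¹ * t⁻¹ := by group
      rw [e]
      exact hconj _ (Subgroup.inv_mem _ hx)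

end aux

theorem result {G Ω : Type*} [Group G] [Finite G] [MulAction G Ω] [FaithfulSMul G Ω] [Finite Ω]
    (hprim : MulAction.IsPreprimitive G Ω) (a b : Ω) (h2 : Nat.card (MulAction.orbit (MulAction.stabilizer G a) b) = 2) :
    Nat.card (MulAction.stabilizer G a) = 2 ∧ ∃ p : ℕ, p.Prime ∧ Nonempty (G ≃* DihedralGroup p) := by
  haveI := hprim
  haveI : MulAction.IsPretransitive G Ω := hprim.toIsPretransitive
  have hΩ2 : 2 ≤ Nat.card Ω := by
    rw [← h2]
    exact Nat.card_le_card_of_injective _ Subtype.val_injective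
  haveI : Nontrivial Ω := (Finite.one_lt_card_iff_nontrivial).mp (by omega)
  have hca := MulAction.index_stabilizer_of_transitive G a
  have hcb := MulAction.index_stabilizer_of_transitive G b
  have hHcard : Nat.card (MulAction.stabilizer G a) = Nat.card (MulAction.stabilizer G b) := by
    have e1 := Subgroup.card_mul_index (MulAction.stabilizer G a)
    have e2 := Subgroup.card_mul_index (MulAction.stabilizer G b)
    rw [hca] at e1
    rw [hcb] at e2
    exact Nat.eq_of_mul_eq_mul_right (by omega : 0 < Nat.card Ω) (e1.trans e2.symm)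
  have hT_H : (MulAction.stabilizer G a ⊓ MulAction.stabilizer G b).relIndex
      (MulAction.stabilizer G a) = 2 := by
    rw [Subgroup.inf_relIndex_left]
    have e : (MulAction.stabilizer G b).subgroupOf (MulAction.stabilizer G a) =
        MulAction.stabilizer (MulAction.stabilizer G a) b := by
      ext x
      rw [Subgroup.mem_subgroupOf, MulAction.mem_stabilizer_iff, MulAction.mem_stabilizer_iff]
      rfl
    unfold Subgroup.relIndex
    rw [e, MulAction.index_stabilizer, ← h2]
    exact (Nat.card_coe_set_eq _).symm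
  have c1 := Cfsg.Agent.Lib.Helper20.CW2.card_mul_relIndex_le
    (inf_le_left : MulAction.stabilizer G a ⊓ MulAction.stabilizer G b ≤ MulAction.stabilizer G a)
  have c2 := Cfsg.Agent.Lib.Helper20.CW2.card_mul_relIndex_le
    (inf_le_right : MulAction.stabilizer G a ⊓ MulAction.stabilizer G b ≤ MulAction.stabilizer G b)
  rw [hT_H] at c1
  have hTpos : 0 < Nat.card ↥(MulAction.stabilizer G a ⊓ MulAction.stabilizer G b) := Nat.card_pos
  have hT_Hb : (MulAction.stabilizer G a ⊓ MulAction.stabilizer G b).relIndex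
      (MulAction.stabilizer G b) = 2 := by
    rw [← hHcard, ← c1] at c2
    exact Nat.eq_of_mul_eq_mul_left hTpos c2
  have hnH : MulAction.stabilizer G a ≤
      Subgroup.normalizer ((MulAction.stabilizer G a ⊓ MulAction.stabilizer G b : Subgroup G) : Set G) := by
    rw [← Subgroup.normal_subgroupOf_iff_le_normalizer inf_le_left]
    exact Subgroup.normal_of_index_eq_two hT_H
  have hnHb : MulAction.stabilizer G b ≤
      Subgroup.normalizer ((MulAction.stabilizer G a ⊓ MulAction.stabilizer G b : Subgroup G) : Set G) := by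
    rw [← Subgroup.normal_subgroupOf_iff_le_normalizer inf_le_right]
    exact Subgroup.normal_of_index_eq_two hT_Hb
  have hcoatom : IsCoatom (MulAction.stabilizer G a) :=
    MulAction.IsPreprimitive.isCoatom_stabilizer_of_isPreprimitive G a
  have hHb_not : ¬ MulAction.stabilizer G b ≤ MulAction.stabilizer G a := by
    intro hle
    have heq : MulAction.stabilizer G b = MulAction.stabilizer G a :=
      Subgroup.eq_of_le_of_card_ge hle (le_of_eq hHcard)
    rw [heq, inf_idem, Subgroup.relIndex_self] at hT_H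
    omega
  have hNtop : Subgroup.normalizer ((MulAction.stabilizer G a ⊓ MulAction.stabilizer G b : Subgroup G) : Set G) = ⊤ := by
    apply hcoatom.2
    exact lt_of_le_of_ne hnH (fun heq => hHb_not (heq ▸ hnHb))
  have hTn : (MulAction.stabilizer G a ⊓ MulAction.stabilizer G b).Normal :=
    Subgroup.normalizer_eq_top_iff.mp hNtop
  have hnormal_triv : ∀ K : Subgroup G, K.Normal → K ≤ MulAction.stabilizer G a → K = ⊥ := by
    intro K hKn hK
    rw [Subgroup.eq_bot_iff_forall]
    intro x hx
    apply FaithfulSMul.eq_of_smul_eq_smul (α := Ω)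
    intro y
    obtain ⟨g, rfl⟩ := MulAction.exists_smul_eq G a y
    have h1 := hKn.conj_mem x hx g⁻¹
    rw [inv_inv] at h1
    have h3 := MulAction.mem_stabilizer_iff.mp (hK h1)
    rw [one_smul, ← mul_smul]
    have h4 : x * g = g * (g⁻¹ * x * g) := by group
    rw [h4, mul_smul, h3]
  have hTbot := hnormal_triv _ hTn inf_le_left
  rw [hTbot, Subgroup.card_bot, one_mul] at c1
  refine ⟨c1.symm, ?_⟩
  obtain ⟨t, htH, ht1⟩ := Cfsg.Agent.Lib.Helper20.CW2.exists_ne_one_of_card
    (U := MulAction.stabilizer G a) (by omega)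
  have hto : orderOf t = 2 := by
    have h1 := Subgroup.orderOf_dvd_natCard (MulAction.stabilizer G a) htH
    rw [← c1] at h1
    rcases (Nat.dvd_prime Nat.prime_two).mp h1 with h | h
    · exact absurd (orderOf_eq_one_iff.mp h) ht1
    · exact h
  have ht2 : t ^ 2 = 1 := by
    rw [← hto]
    exact pow_orderOf_eq_one t
  have h2' : t * t = 1 := by rw [← pow_two, ht2]
  have htinv : t⁻¹ = t := by rw [inv_eq_iff_mul_eq_one, h2']
  have hHz : Subgroup.zpowers t = MulAction.stabilizer G a := by
    apply Subgroup.eq_of_le_of_card_ge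
    · rw [Subgroup.zpowers_le]
      exact htH
    · rw [Nat.card_zpowers, hto, ← c1]
  have hnotn : ∃ g : G, g * t * g⁻¹ ∉ MulAction.stabilizer G a := by
    by_contra hcon
    push Not at hcon
    have hn : (MulAction.stabilizer G a).Normal := by
      constructor
      intro x hx g
      rw [← hHz] at hx
      obtain ⟨i, rfl⟩ := Subgroup.mem_zpowers_iff.mp hx
      rw [← conj_zpow]
      exact Subgroup.zpow_mem _ (hcon g) i
    have hb := hnormal_triv _ hn le_rfl
    rw [hb, Subgroup.card_bot] at c1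
    omega
  obtain ⟨g, hg⟩ := hnotn
  have ht'2 : (g * t * g⁻¹) * (g * t * g⁻¹) = 1 := by
    rw [← pow_two, conj_pow, ht2, mul_one, mul_inv_cancel]
  have ht'inv : (g * t * g⁻¹)⁻¹ = g * t * g⁻¹ := by
    rw [inv_eq_iff_mul_eq_one, ht'2]
  have hts : t * (t * (g * t * g⁻¹)) * t⁻¹ = (t * (g * t * g⁻¹))⁻¹ := by
    rw [mul_inv_rev, ht'inv, ← mul_assoc, h2', one_mul]
  have hclosure : ∀ s : G, s ∈ Subgroup.closure ({s, t} : Set G) ∧
      t ∈ Subgroup.closure ({s, t} : Set G) := fun s =>
    ⟨Subgroup.subset_closure (Set.mem_insert _ _),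
      Subgroup.subset_closure (Set.mem_insert_of_mem _ rfl)⟩
  have htop_of : ∀ s : G, s ∉ MulAction.stabilizer G a →
      Subgroup.closure ({s, t} : Set G) = ⊤ := by
    intro s hs
    apply hcoatom.2
    refine lt_of_le_of_ne ?_ (fun heq => hs (heq ▸ (hclosure s).1))
    rw [← hHz, Subgroup.zpowers_le]
    exact (hclosure s).2
  have hr_notH : t * (g * t * g⁻¹) ∉ MulAction.stabilizer G a := by
    intro h
    apply hg
    have h5 := (MulAction.stabilizer G a).mul_mem ((MulAction.stabilizer G a).inv_mem htH) h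
    rwa [inv_mul_cancel_left] at h5
  have hall := two_gen t (t * (g * t * g⁻¹)) ht2 hts
  rw [htop_of _ hr_notH] at hall
  have ht_notK : t ∉ Subgroup.zpowers (t * (g * t * g⁻¹)) := by
    intro htK
    have hallK : ∀ x : G, x ∈ Subgroup.zpowers (t * (g * t * g⁻¹)) := by
      intro x
      rcases hall x (Subgroup.mem_top x) with h | h
      · exact h
      · have h6 := Subgroup.mul_mem _ h (Subgroup.inv_mem _ htK)
        rwa [mul_inv_cancel_right] at h6
    apply hg
    obtain ⟨i, hi⟩ := Subgroup.mem_zpowers_iff.mp (hallK g)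
    obtain ⟨j, hj⟩ := Subgroup.mem_zpowers_iff.mp (hallK t)
    have hcomm : g * t = t * g := by
      have h12 := ((Commute.refl (t * (g * t * g⁻¹))).zpow_zpow i j).eq
      rw [hi, hj] at h12
      exact h12
    rw [hcomm, mul_inv_cancel_right]
    exact htH
  have hidx : (Subgroup.zpowers (t * (g * t * g⁻¹))).index = 2 := by
    rw [Subgroup.index_eq_two_iff]
    refine ⟨t, fun x => ?_⟩
    by_cases hx : x ∈ Subgroup.zpowers (t * (g * t * g⁻¹))
    · right
      refine ⟨hx, fun hxt => ht_notK ?_⟩
      have h6 := Subgroup.mul_mem _ (Subgroup.inv_mem _ hx) hxt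
      rwa [inv_mul_cancel_left] at h6
    · left
      refine ⟨?_, hx⟩
      rcases hall x (Subgroup.mem_top x) with h | h
      · exact absurd h hx
      · exact h
  have hcardG : Nat.card G = 2 * orderOf (t * (g * t * g⁻¹)) := by
    have h7 := Subgroup.card_mul_index (Subgroup.zpowers (t * (g * t * g⁻¹)))
    rw [hidx, Nat.card_zpowers] at h7
    omega
  have hr1 : t * (g * t * g⁻¹) ≠ 1 := by
    intro h
    apply hr_notH
    rw [h]
    exact Subgroup.one_mem _
  have hm1 : orderOf (t * (g * t * g⁻¹)) ≠ 1 := fun h => hr1 (orderOf_eq_one_iff.mp h)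
  have hmpos : 0 < orderOf (t * (g * t * g⁻¹)) := orderOf_pos _
  have hprime : (orderOf (t * (g * t * g⁻¹))).Prime := by
    have hq := Nat.minFac_prime hm1
    have hqd := Nat.minFac_dvd (orderOf (t * (g * t * g⁻¹)))
    by_contra hnp
    have hne : (orderOf (t * (g * t * g⁻¹))).minFac ≠ orderOf (t * (g * t * g⁻¹)) := by
      intro h
      rw [h] at hq
      exact hnp hq
    have hlt : (orderOf (t * (g * t * g⁻¹))).minFac < orderOf (t * (g * t * g⁻¹)) :=
      lt_of_le_of_ne (Nat.le_of_dvd hmpos hqd) hne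
    obtain ⟨m', hm'⟩ := hqd
    have hs1 : (t * (g * t * g⁻¹)) ^ (orderOf (t * (g * t * g⁻¹))).minFac ≠ 1 :=
      pow_ne_one_of_lt_orderOf hq.pos.ne' hlt
    have hsK : (t * (g * t * g⁻¹)) ^ (orderOf (t * (g * t * g⁻¹))).minFac ∈
        Subgroup.zpowers (t * (g * t * g⁻¹)) :=
      Subgroup.pow_mem _ (Subgroup.mem_zpowers _) _
    have hs_notH : (t * (g * t * g⁻¹)) ^ (orderOf (t * (g * t * g⁻¹))).minFac ∉
        MulAction.stabilizer G a := by
      intro h
      rw [← hHz] at h
      obtain ⟨i, hi⟩ := Subgroup.mem_zpowers_iff.mp h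
      rcases Int.even_or_odd' i with ⟨j, rfl | rfl⟩
      · rw [zpow_mul, zpow_ofNat, ht2, one_zpow] at hi
        exact hs1 hi.symm
      · rw [zpow_add, zpow_mul, zpow_ofNat, ht2, one_zpow, one_mul, zpow_one] at hi
        have hmem : ∀ x : G, x = (t * (g * t * g⁻¹)) ^ (orderOf (t * (g * t * g⁻¹))).minFac →
            x ∈ Subgroup.zpowers (t * (g * t * g⁻¹)) := by
          rintro x rfl
          exact hsK
        exact ht_notK (hmem t hi)
    have hts' : t * (t * (g * t * g⁻¹)) ^ (orderOf (t * (g * t * g⁻¹))).minFac * t⁻¹ =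
        ((t * (g * t * g⁻¹)) ^ (orderOf (t * (g * t * g⁻¹))).minFac)⁻¹ := by
      rw [← conj_pow, hts, inv_pow]
    have hall' := two_gen t ((t * (g * t * g⁻¹)) ^ (orderOf (t * (g * t * g⁻¹))).minFac) ht2 hts'
    rw [htop_of _ hs_notH] at hall'
    have hle : Subgroup.zpowers ((t * (g * t * g⁻¹)) ^ (orderOf (t * (g * t * g⁻¹))).minFac) ≤
        Subgroup.zpowers (t * (g * t * g⁻¹)) := by
      rw [Subgroup.zpowers_le]
      exact hsK
    rcases hall' (t * (g * t * g⁻¹)) (Subgroup.mem_top _) with h | h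
    · obtain ⟨i, hi⟩ := Subgroup.mem_zpowers_iff.mp h
      have h8 : (t * (g * t * g⁻¹)) ^ m' = 1 := by
        rw [← hi, ← zpow_natCast, ← zpow_mul, mul_comm, zpow_mul, zpow_natCast, ← pow_mul,
          ← hm', pow_orderOf_eq_one, one_zpow]
      have h9 := orderOf_dvd_of_pow_eq_one h8
      have hm'pos : 0 < m' := by
        rcases Nat.eq_zero_or_pos m' with h0 | h0
        · rw [h0, mul_zero] at hm'
          omega
        · exact h0
      have h10 := Nat.le_of_dvd hm'pos h9
      have h11 : 2 ≤ (orderOf (t * (g * t * g⁻¹))).minFac := hq.two_le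
      nlinarith
    · apply ht_notK
      have h6 := Subgroup.mul_mem _ (Subgroup.inv_mem _ (Subgroup.mem_zpowers (t * (g * t * g⁻¹))))
        (hle h)
      rwa [inv_mul_cancel_left] at h6
  exact ⟨orderOf (t * (g * t * g⁻¹)), hprime,
    Cfsg.Agent.Lib.Helper18.DihedralEquiv.dihedral_equiv _ hmpos.ne' (t * (g * t * g⁻¹)) t rfl
      ht2 hts ht_notK hcardG⟩

end Cfsg.Agent.S3684
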