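import Cfsg.Statements.S3696
import Mathlib


set_option autoImplicit false
open Cfsg

namespace Cfsg.Agent.S3696

theorem amgm_real (d m : ℕ) (hd : 0 < d) (hm : 0 < m) (x y : ℝ) (hx : 0 ≤ x) (hy : 0 ≤ y) :
    x ^ d * y ^ m ≤ ((d * x + m * y) / (d + m)) ^ (d + m) := by
  have hd' : (0:ℝ) < d := by exact_mod_cast hd
  have hm' : (0:ℝ) < m := by exact_mod_cast hm
  have hk : (0:ℝ) < (d:ℝ) + m := by positivity
  have h := Real.geom_mean_le_arith_mean2_weighted (w₁ := (d:ℝ) / (d + m)) (w₂ := (m:ℝ) / (d + m))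
    (p₁ := x) (p₂ := y) (by positivity) (by positivity) hx hy (by field_simp)
  have h2 := pow_le_pow_left₀ (by positivity) h (d + m)
  have e1 : (x ^ ((d:ℝ) / (d + m))) ^ (d + m) = x ^ d := by
    rw [← Real.rpow_natCast, ← Real.rpow_mul hx]
    have : (d:ℝ) / (d + m) * ((d + m : ℕ) : ℝ) = (d : ℝ) := by push_cast; field_simp
    rw [this, Real.rpow_natCast]
  have e2 : (y ^ ((m:ℝ) / (d + m))) ^ (d + m) = y ^ m := by
    rw [← Real.rpow_natCast, ← Real.rpow_mul hy]
    have : (m:ℝ) / (d + m) * ((d + m : ℕ) : ℝ) = (m : ℝ) := by push_cast; field_simp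
    rw [this, Real.rpow_natCast]
  rw [mul_pow, e1, e2] at h2
  have e3 : (d:ℝ) / (d + m) * x + (m:ℝ) / (d + m) * y = (d * x + m * y) / (d + m) := by
    field_simp
  rw [e3] at h2
  exact h2

theorem amgm_nat (d m a b : ℕ) :
    (d + m) ^ (d + m) * (a ^ d * b ^ m) ≤ (a + b) ^ (d + m) * (d ^ d * m ^ m) := by
  rcases Nat.eq_zero_or_pos d with rfl | hd
  · simp only [zero_add, pow_zero, one_mul]
    rw [mul_comm]
    exact Nat.mul_le_mul_right _ (Nat.pow_le_pow_left (by omega) _)
  rcases Nat.eq_zero_or_pos m with rfl | hm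
  · simp only [add_zero, pow_zero, mul_one]
    rw [mul_comm]
    exact Nat.mul_le_mul_right _ (Nat.pow_le_pow_left (by omega) _)
  have hd' : (0:ℝ) < d := by exact_mod_cast hd
  have hm' : (0:ℝ) < m := by exact_mod_cast hm
  have h := amgm_real d m hd hm ((a:ℝ) / d) ((b:ℝ) / m) (by positivity) (by positivity)
  have e : (d:ℝ) * ((a:ℝ) / d) + m * ((b:ℝ) / m) = a + b := by field_simp
  rw [e, div_pow, div_pow, div_pow, div_mul_div_comm, div_le_div_iff₀ (by positivity) (by positivity)] at h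
  have h' : ((d:ℝ) + m) ^ (d + m) * ((a:ℝ) ^ d * (b:ℝ) ^ m) ≤ ((a:ℝ) + b) ^ (d + m) * ((d:ℝ) ^ d * (m:ℝ) ^ m) := by
    linarith
  exact_mod_cast h'

theorem num (p d m e cB b : ℕ) (hp : 2 ≤ p) (hd : 1 ≤ d) (he : d ≤ e) (hB : cB * m ^ m ≤ b ^ m) :
    p ^ e * cB * (d + m) ^ (d + m) ≤ (p ^ e + b) ^ (d + m) := by
  have h1 := amgm_nat d m (p ^ e) b
  have h2 : d ^ d * p ^ e ≤ (p ^ e) ^ d := by
    have hd2 : d ≤ p ^ (d - 1) := by
      have h3 : d - 1 < 2 ^ (d - 1) := Nat.lt_two_pow_self
      have h4 : 2 ^ (d - 1) ≤ p ^ (d - 1) := Nat.pow_le_pow_left hp _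
      omega
    have h5 : d ^ d ≤ p ^ ((d - 1) * e) := by
      calc d ^ d ≤ (p ^ (d - 1)) ^ d := Nat.pow_le_pow_left hd2 _
        _ = p ^ ((d - 1) * d) := by rw [← pow_mul]
        _ ≤ p ^ ((d - 1) * e) := Nat.pow_le_pow_right (by omega) (Nat.mul_le_mul_left _ he)
    calc d ^ d * p ^ e ≤ p ^ ((d - 1) * e) * p ^ e := Nat.mul_le_mul_right _ h5
      _ = (p ^ e) ^ d := by
        rw [← pow_add, ← pow_mul]
        congr 1
        obtain ⟨d', rfl⟩ : ∃ d', d = d' + 1 := ⟨d - 1, by omega⟩
        simp only [Nat.add_sub_cancel]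
        ring
  have hpos : 0 < d ^ d * m ^ m := by
    apply Nat.mul_pos
    · exact Nat.pos_of_ne_zero (by positivity)
    · rcases Nat.eq_zero_or_pos m with rfl | hm
      · simp
      · positivity
  apply Nat.le_of_mul_le_mul_right _ hpos
  calc p ^ e * cB * (d + m) ^ (d + m) * (d ^ d * m ^ m)
      = (d + m) ^ (d + m) * ((d ^ d * p ^ e) * (cB * m ^ m)) := by ring
    _ ≤ (d + m) ^ (d + m) * ((p ^ e) ^ d * b ^ m) :=
        Nat.mul_le_mul_left _ (Nat.mul_le_mul h2 hB)
    _ ≤ (p ^ e + b) ^ (d + m) * (d ^ d * m ^ m) := h1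

/-- elements of order dividing p, in a group where all elements commute -/
def Om {G : Type*} [Group G] (hc : ∀ a b : G, a * b = b * a) (p : ℕ) : Subgroup G where
  carrier := {x | x ^ p = 1}
  mul_mem' := by
    intro a b ha hb
    simp only [Set.mem_ofPred_eq] at *
    rw [Commute.mul_pow (hc a b) p, ha, hb, one_mul]
  one_mem' := by simp
  inv_mem' := by
    intro a ha
    simp only [Set.mem_ofPred_eq] at *
    rw [inv_pow, ha, inv_one]

theorem mem_Om {G : Type*} [Group G] (hc : ∀ a b : G, a * b = b * a) (p : ℕ) (x : G) :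
    x ∈ Om hc p ↔ x ^ p = 1 := Iff.rfl

theorem card_inf {G : Type*} [Group G] [Finite G] (B A : Subgroup G) :
    Nat.card ↥(B ⊓ A) * B.relIndex A = Nat.card A := by
  have h := Subgroup.relIndex_mul_relIndex (H := ⊥) (K := B ⊓ A) (L := A) bot_le inf_le_right
  rw [Subgroup.relIndex_bot_left, Subgroup.relIndex_bot_left, Subgroup.inf_relIndex_right] at h
  exact h

theorem key {G : Type*} [Group G] [Finite G] (hc : ∀ a b : G, a * b = b * a) (p : ℕ) (hp : p.Prime)
    (hG : IsPGroup p G) {ι : Type*} [DecidableEq ι] :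
    ∀ (N : ℕ) (A : Subgroup G), Nat.card A ≤ N → ∀ (k : ℕ), Nat.card ↥(A ⊓ Om hc p) = p ^ k →
      ∀ (s : Finset ι) (B : ι → Subgroup G), (⨅ i ∈ s, B i) ⊓ A = ⊥ →
        Nat.card A * k ^ k ≤ (∑ i ∈ s, (B i).relIndex A) ^ k := by
  have _ : Fact p.Prime := ⟨hp⟩
  intro N
  induction N with
  | zero =>
    intro A hA
    have : 0 < Nat.card A := Nat.card_pos
    omega
  | succ N ih =>
    intro A hA k hk s B hB
    rcases Nat.eq_zero_or_pos k with rfl | hkpos
    · have hA1 : Nat.card A = 1 := by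
        by_contra hne
        obtain ⟨n, hn⟩ := IsPGroup.iff_card.mp (hG.to_subgroup A)
        have hn0 : n ≠ 0 := by
          rintro rfl
          rw [pow_zero] at hn
          exact hne hn
        have hdvd : p ∣ Nat.card A := by rw [hn]; exact dvd_pow_self p hn0
        obtain ⟨x, hx⟩ := exists_prime_orderOf_dvd_card' p hdvd
        have hxmem : (x : G) ∈ A ⊓ Om hc p := by
          refine ⟨x.2, ?_⟩
          show (x : G) ^ p = 1
          have := pow_orderOf_eq_one x
          rw [hx] at this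
          exact_mod_cast congrArg Subtype.val this
        have hcard1 : Nat.card ↥(A ⊓ Om hc p) = 1 := by simpa using hk
        have hbot : A ⊓ Om hc p = ⊥ := Subgroup.card_eq_one.mp hcard1
        rw [hbot, Subgroup.mem_bot] at hxmem
        have hx1 : x = 1 := Subtype.ext hxmem
        rw [hx1, orderOf_one] at hx
        exact hp.one_lt.ne hx
      simp [hA1]
    · have hOmne : A ⊓ Om hc p ≠ ⊥ := by
        intro h
        rw [h, Subgroup.card_bot] at hk
        have : 1 < p ^ k := Nat.one_lt_pow hkpos.ne' hp.one_lt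
        omega
      have hex : ∃ i0 ∈ s, ¬ (A ⊓ Om hc p ≤ B i0) := by
        by_contra hcon
        push Not at hcon
        apply hOmne
        rw [eq_bot_iff, ← hB]
        exact le_inf (le_iInf₂ hcon) inf_le_left
      obtain ⟨i0, hi0, hnot⟩ := hex
      have hA'le : B i0 ⊓ A ≤ A := inf_le_right
      have hcardlt : Nat.card ↥(B i0 ⊓ A) < Nat.card A := by
        refine lt_of_not_ge (fun h => hnot ?_)
        have := Subgroup.eq_of_le_of_card_ge hA'le h
        calc A ⊓ Om hc p ≤ A := inf_le_left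
          _ = B i0 ⊓ A := this.symm
          _ ≤ B i0 := inf_le_left
      obtain ⟨m, hm⟩ := IsPGroup.iff_card.mp (hG.to_subgroup ((B i0 ⊓ A) ⊓ Om hc p))
      have hle2 : (B i0 ⊓ A) ⊓ Om hc p ≤ A ⊓ Om hc p := inf_le_inf_right _ hA'le
      have hlt2 : Nat.card ↥((B i0 ⊓ A) ⊓ Om hc p) < Nat.card ↥(A ⊓ Om hc p) := by
        refine lt_of_not_ge (fun h => hnot ?_)
        have := Subgroup.eq_of_le_of_card_ge hle2 h
        rw [← this]
        exact inf_le_left.trans inf_le_left
      rw [hm, hk] at hlt2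
      have hmk : m < k := (Nat.pow_lt_pow_iff_right hp.one_lt).mp hlt2
      -- index of B i0 ⊓ A in A
      have hidx := card_inf (B i0) A
      obtain ⟨n, hn⟩ := IsPGroup.iff_card.mp (hG.to_subgroup A)
      obtain ⟨n', hn'⟩ := IsPGroup.iff_card.mp (hG.to_subgroup (B i0 ⊓ A))
      have hn'n : n' ≤ n := by
        rw [hn, hn'] at hcardlt
        exact ((Nat.pow_lt_pow_iff_right hp.one_lt).mp hcardlt).le
      have hrel : (B i0).relIndex A = p ^ (n - n') := by
        rw [hn, hn'] at hidx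
        have h3 : p ^ n = p ^ n' * p ^ (n - n') := by
          rw [← pow_add]; congr 1; omega
        rw [h3] at hidx
        exact Nat.eq_of_mul_eq_mul_left (pow_pos hp.pos _) hidx
      -- index of Om part
      have hidx2 := card_inf (B i0) (A ⊓ Om hc p)
      have heq : B i0 ⊓ (A ⊓ Om hc p) = (B i0 ⊓ A) ⊓ Om hc p := by rw [inf_assoc]
      rw [heq, hm, hk] at hidx2
      have hrel2 : (B i0).relIndex (A ⊓ Om hc p) = p ^ (k - m) := by
        have h3 : p ^ k = p ^ m * p ^ (k - m) := by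
          rw [← pow_add]; congr 1; omega
        rw [h3] at hidx2
        exact Nat.eq_of_mul_eq_mul_left (pow_pos hp.pos _) hidx2
      have hrelle : (B i0).relIndex (A ⊓ Om hc p) ≤ (B i0).relIndex A := by
        apply Subgroup.relIndex_le_of_le_right inf_le_left
        rw [hrel]; exact (pow_pos hp.pos _).ne'
      rw [hrel, hrel2] at hrelle
      have hde : k - m ≤ n - n' := (Nat.pow_le_pow_iff_right hp.one_lt).mp hrelle
      -- apply induction hypothesis
      have hB' : (⨅ i ∈ s.erase i0, B i) ⊓ (B i0 ⊓ A) = ⊥ := by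
        rw [eq_bot_iff, ← hB]
        refine le_inf (le_iInf₂ ?_) (inf_le_right.trans inf_le_right)
        intro i hi
        by_cases hii : i = i0
        · subst hii
          exact inf_le_right.trans inf_le_left
        · exact inf_le_left.trans (iInf₂_le i (Finset.mem_erase.mpr ⟨hii, hi⟩))
      have hIH := ih (B i0 ⊓ A) (by omega) m hm (s.erase i0) B hB'
      have hsumle : ∑ i ∈ s.erase i0, (B i).relIndex (B i0 ⊓ A) ≤ ∑ i ∈ s.erase i0, (B i).relIndex A := by
        apply Finset.sum_le_sum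
        intro i _
        apply Subgroup.relIndex_le_of_le_right inf_le_right
        have := card_inf (B i) A
        intro h0
        rw [h0, mul_zero] at this
        have : 0 < Nat.card A := Nat.card_pos
        omega
      have hIH' : Nat.card ↥(B i0 ⊓ A) * m ^ m ≤ (∑ i ∈ s.erase i0, (B i).relIndex A) ^ m :=
        hIH.trans (Nat.pow_le_pow_left hsumle _)
      have hfin := num p (k - m) m (n - n') (Nat.card ↥(B i0 ⊓ A)) _ hp.two_le (by omega) hde hIH'
      have hkm : k - m + m = k := by omega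
      rw [hkm] at hfin
      rw [← Finset.add_sum_erase s _ hi0, hrel, ← hidx, hrel]
      calc Nat.card ↥(B i0 ⊓ A) * p ^ (n - n') * k ^ k
          = p ^ (n - n') * Nat.card ↥(B i0 ⊓ A) * k ^ k := by ring
        _ ≤ _ := hfin
/-- Let p be a prime, Ω a finite set with n ≥ p elements, and A an abelian p-subgroup of the symmetric group on Ω whose elements of order dividing p number p^k (so k is the rank of A). Then |A| · k^k ≤ n^k, that is, |A| ≤ (n/k)^k. -/
theorem result {Ω : Type*} [Fintype Ω] [DecidableEq Ω]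
    (p : ℕ) (hp : p.Prime) (hn : p ≤ Fintype.card Ω) (A : Subgroup (Equiv.Perm Ω)) (hA : IsPGroup p A) (hab : IsMulCommutative A)
    (k : ℕ) (hk : Nat.card {x : A // x ^ p = 1} = p ^ k) :
    Nat.card A * k ^ k ≤ Fintype.card Ω ^ k := by
  classical
  have hc : ∀ a b : A, a * b = b * a := fun a b => hab.is_comm.comm a b
  let Q := MulAction.orbitRel.Quotient A Ω
  have _ : Fintype Q := Fintype.ofFinite Q
  let Bf : Q → Subgroup A := fun q => MulAction.stabilizer A (Quotient.out q)
  have hinf : (⨅ q ∈ (Finset.univ : Finset Q), Bf q) ⊓ (⊤ : Subgroup A) = ⊥ := by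
    rw [eq_bot_iff]
    intro g hg
    rw [Subgroup.mem_bot]
    have hg1 : ∀ q : Q, g ∈ Bf q := by
      intro q
      have h1 : g ∈ ⨅ q ∈ (Finset.univ : Finset Q), Bf q := (Subgroup.mem_inf.mp hg).1
      exact Subgroup.mem_iInf.mp (Subgroup.mem_iInf.mp h1 q) (Finset.mem_univ q)
    apply Subtype.ext
    apply Equiv.ext
    intro ω
    have hω : ω ∈ MulAction.orbit A (Quotient.out (Quotient.mk'' ω : Q)) := by
      rw [← MulAction.orbitRel_apply]
      exact Quotient.exact (Quotient.out_eq _).symm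
    obtain ⟨h, hh⟩ := hω
    have hfix : g • (Quotient.out (Quotient.mk'' ω : Q)) = Quotient.out (Quotient.mk'' ω : Q) :=
      hg1 _
    have hgω : g • ω = ω := by
      rw [← hh, smul_smul, hc g h, ← smul_smul, hfix]
    exact hgω
  have hk' : Nat.card ↥((⊤ : Subgroup A) ⊓ Om hc p) = p ^ k := by
    rw [← hk]
    apply Nat.card_congr
    exact Equiv.subtypeEquivRight (fun x => by simp [mem_Om])
  have h := key hc p hp hA (Nat.card (⊤ : Subgroup A)) ⊤ le_rfl k hk' Finset.univ Bf hinf
  rw [Subgroup.card_top] at h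
  refine h.trans (Nat.pow_le_pow_left ?_ k)
  simp only [Subgroup.relIndex_top_right]
  have e := MulAction.selfEquivSigmaOrbits A Ω
  rw [← Nat.card_eq_fintype_card, Nat.card_congr e, Nat.card_sigma]
  apply le_of_eq
  apply Finset.sum_congr rfl
  intro q _
  rw [MulAction.index_stabilizer, ← Nat.card_coe_set_eq]


end Cfsg.Agent.S3696
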