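-- Statement S4058: square roots of the identity in a 2-group with many generators.
import Mathlib
import Cfsg.Statements.S4058
import Cfsg.Agent.Lib.Helper22.Regular
import Cfsg.Agent.Lib.Helper1.CharClifford2
import Cfsg.Agent.Lib.Helper10.FS2

set_option autoImplicit false
open Cfsg

namespace Cfsg.Agent.S4058

open Cfsg.Agent.Lib.Helper1 Cfsg.Agent.Lib.Helper10.FS
open scoped ComplexConjugate

universe u v

/-- the real linear characters -/
def Lam (G : Type u) [Group G] : Subgroup (G →* ℂˣ) where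
  carrier := {μ | ∀ g, μ g * μ g = 1}
  mul_mem' := by
    intro a b ha hb g
    rw [MonoidHom.mul_apply, mul_mul_mul_comm, ha g, hb g, mul_one]
  one_mem' := by
    intro g
    simp
  inv_mem' := by
    intro a ha g
    rw [MonoidHom.inv_apply, ← mul_inv, ha g, inv_one]

theorem lam_pm {G : Type u} [Group G] (μ : Lam G) (g : G) :
    μ.1 g = 1 ∨ μ.1 g = -1 := by
  have h := μ.2 g
  have h2 : ((μ.1 g : ℂˣ) : ℂ) * ((μ.1 g : ℂˣ) : ℂ) = 1 := by
    rw [← Units.val_mul, h, Units.val_one]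
  rcases mul_self_eq_one_iff.mp h2 with h3 | h3
  · left; exact Units.ext h3
  · right; exact Units.ext (by rw [h3]; simp)

instance lamFinite {G : Type u} [Group G] [Finite G] : Finite (Lam G) := by
  classical
  apply Finite.of_injective (fun μ : Lam G => fun g : G => decide (μ.1 g = 1))
  intro μ ν h
  apply Subtype.ext
  apply MonoidHom.ext
  intro g
  have h1 := congrFun h g
  simp only [decide_eq_decide] at h1
  rcases lam_pm μ g with h2 | h2
  · rw [h2, h1.mp h2]
  · rcases lam_pm ν g with h3 | h3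
    · rw [h1.mpr h3, h3]
    · rw [h2, h3]

theorem lam_isPGroup (G : Type u) [Group G] : IsPGroup 2 (Lam G) := by
  intro μ
  refine ⟨1, ?_⟩
  apply Subtype.ext
  apply MonoidHom.ext
  intro g
  rw [pow_one, pow_two]
  exact μ.2 g

noncomputable instance lamAction {G : Type u} [Group G] [Fintype G] :
    MulAction (Lam G) (Cfsg.IrrCharacter G) where
  smul μ χ := ⟨fun g => ((μ.1 g : ℂˣ) : ℂ) * χ.1 g, IsIrrCharacter.mul_linear χ.2 μ.1⟩
  one_smul χ := by
    apply Subtype.ext
    funext g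
    show (((1 : Lam G).1 g : ℂˣ) : ℂ) * χ.1 g = χ.1 g
    simp
  mul_smul μ ν χ := by
    apply Subtype.ext
    funext g
    show (((μ * ν).1 g : ℂˣ) : ℂ) * χ.1 g = ((μ.1 g : ℂˣ) : ℂ) * (((ν.1 g : ℂˣ) : ℂ) * χ.1 g)
    simp [mul_assoc]

theorem smul_apply {G : Type u} [Group G] [Fintype G] (μ : Lam G) (χ : Cfsg.IrrCharacter G)
    (g : G) : (μ • χ).1 g = ((μ.1 g : ℂˣ) : ℂ) * χ.1 g := rfl

theorem irr_data {G : Type u} [Group G] [Fintype G] {χ : G → ℂ} (hχ : Cfsg.IsIrrCharacter G χ) :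
    ∃ n : ℕ, χ 1 = (n : ℂ) ∧ n ∣ Nat.card G ∧ 0 < n ∧ ∀ g, ‖χ g‖ ≤ (n : ℝ) := by
  obtain ⟨m, ρ, hρ, rfl⟩ := hχ
  haveI := hρ
  have hV := nontrivial_of_isIrreducible ρ
  exact ⟨_, Representation.char_one ρ, degree_dvd_card ρ, Module.finrank_pos,
    fun g => norm_char_le ρ g⟩

theorem stab_bound {G : Type u} [Group G] [Fintype G] {χ : G → ℂ}
    (hχ : Cfsg.IsIrrCharacter G χ) (n : ℕ) (hnb : ∀ g, ‖χ g‖ ≤ (n : ℝ))
    {T : Type v} [Group T] [Fintype T] (ι : T →* (G →* ℂˣ)) (hι : Function.Injective ι)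
    (hfix : ∀ t g, ((ι t g : ℂˣ) : ℂ) * χ g = χ g) :
    Fintype.card T ≤ n ^ 2 := by
  classical
  set N := Finset.univ.filter (fun g : G => ∀ t : T, ι t g = 1) with hN
  have h1N : (1 : G) ∈ N := by simp [hN]
  have hNpos : 0 < N.card := Finset.card_pos.mpr ⟨1, h1N⟩
  have ha : ∀ g : G, ∑ t : T, ((ι t g : ℂˣ) : ℂ) =
      if g ∈ N then (Fintype.card T : ℂ) else 0 := by
    intro g
    by_cases hg : g ∈ N
    · rw [if_pos hg]
      have h1 : ∀ t : T, ((ι t g : ℂˣ) : ℂ) = 1 := fun t => by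
        rw [(Finset.mem_filter.mp hg).2 t]; rfl
      simp [h1]
    · rw [if_neg hg]
      let ev : T →* ℂ :=
        { toFun := fun t => ((ι t g : ℂˣ) : ℂ)
          map_one' := by simp
          map_mul' := fun s t => by simp }
      have hev : ev ≠ 1 := by
        intro h
        apply hg
        rw [hN, Finset.mem_filter]
        refine ⟨Finset.mem_univ _, fun t => ?_⟩
        have h2 := DFunLike.congr_fun h t
        exact Units.ext h2
      exact sum_hom_units_eq_zero ev hev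
  have hb : ∀ t : T, ∑ g : G, ((ι t g : ℂˣ) : ℂ) =
      if t = 1 then (Fintype.card G : ℂ) else 0 := by
    intro t
    by_cases ht : t = 1
    · rw [if_pos ht, ht]; simp
    · rw [if_neg ht]
      have hne : (Units.coeHom ℂ).comp (ι t) ≠ 1 := by
        intro h
        apply ht
        apply hι
        rw [map_one]
        apply MonoidHom.ext
        intro g
        have h2 := DFunLike.congr_fun h g
        exact Units.ext h2
      exact sum_hom_units_eq_zero ((Units.coeHom ℂ).comp (ι t)) hne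
  have hab : (Fintype.card T : ℂ) * (N.card : ℂ) = (Fintype.card G : ℂ) := by
    have h1 : ∑ g : G, ∑ t : T, ((ι t g : ℂˣ) : ℂ) = (N.card : ℂ) * (Fintype.card T : ℂ) := by
      rw [Finset.sum_congr rfl (fun g _ => ha g), ← Finset.sum_filter, Finset.filter_univ_mem,
        Finset.sum_const, nsmul_eq_mul]
    have h2 : ∑ g : G, ∑ t : T, ((ι t g : ℂˣ) : ℂ) = (Fintype.card G : ℂ) := by
      rw [Finset.sum_comm, Finset.sum_congr rfl (fun t _ => hb t)]
      simp
    rw [mul_comm, ← h1, h2]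
  have habN : Fintype.card T * N.card = Fintype.card G := by exact_mod_cast hab
  have hc : ∑ g : G, Complex.normSq (χ g) = (Fintype.card G : ℝ) := by
    have h := classInner_irr_self hχ
    unfold Cfsg.classInner at h
    have hne : (Nat.card G : ℂ) ≠ 0 := by
      have := Nat.card_pos (α := G)
      exact_mod_cast this.ne'
    rw [inv_mul_eq_iff_eq_mul₀ hne, mul_one] at h
    have h' : ((∑ g : G, Complex.normSq (χ g) : ℝ) : ℂ) = ((Fintype.card G : ℝ) : ℂ) := by
      rw [Complex.ofReal_sum]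
      rw [Finset.sum_congr rfl (fun g _ => (Complex.mul_conj (χ g)).symm), h,
        Nat.card_eq_fintype_card]
      simp
    exact_mod_cast h'
  have hd0 : ∀ g, g ∉ N → χ g = 0 := by
    intro g hg
    rw [hN, Finset.mem_filter] at hg
    have hg' : ¬ ∀ t : T, ι t g = 1 := fun h => hg ⟨Finset.mem_univ g, h⟩
    obtain ⟨t, ht⟩ := not_forall.mp hg'
    have h := hfix t g
    have hne : ((ι t g : ℂˣ) : ℂ) ≠ 1 := fun h1 => ht (Units.ext h1)
    have h3 : (((ι t g : ℂˣ) : ℂ) - 1) * χ g = 0 := by rw [sub_mul, h, one_mul, sub_self]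
    rcases mul_eq_zero.mp h3 with h0 | h0
    · exact absurd (sub_eq_zero.mp h0) hne
    · exact h0
  have hle : (Fintype.card G : ℝ) ≤ (N.card : ℝ) * (n : ℝ) ^ 2 := by
    rw [← hc]
    calc ∑ g : G, Complex.normSq (χ g) = ∑ g ∈ N, Complex.normSq (χ g) := by
          symm
          apply Finset.sum_subset (Finset.subset_univ _)
          intro g _ hg
          rw [hd0 g hg, map_zero]
      _ ≤ ∑ g ∈ N, (n : ℝ) ^ 2 := by
          apply Finset.sum_le_sum
          intro g _
          rw [Complex.normSq_eq_norm_sq]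
          exact pow_le_pow_left₀ (norm_nonneg _) (hnb g) 2
      _ = (N.card : ℝ) * (n : ℝ) ^ 2 := by rw [Finset.sum_const, nsmul_eq_mul]
  have hle' : Fintype.card G ≤ N.card * n ^ 2 := by exact_mod_cast hle
  rw [← habN, mul_comm] at hle'
  exact Nat.le_of_mul_le_mul_left hle' hNpos

theorem sum_dvd_aux {ι : Type*} (s : Finset ι) (f : ι → ℂ) (c : ℂ)
    (h : ∀ i ∈ s, ∃ m : ℤ, f i = c * m) : ∃ m : ℤ, ∑ i ∈ s, f i = c * m := by
  classical
  induction s using Finset.induction_on with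
  | empty => exact ⟨0, by simp⟩
  | insert a s ha ih =>
    obtain ⟨m1, h1⟩ := h a (Finset.mem_insert_self a s)
    obtain ⟨m2, h2⟩ := ih (fun i hi => h i (Finset.mem_insert_of_mem hi))
    exact ⟨m1 + m2, by rw [Finset.sum_insert ha, h1, h2]; push_cast; ring⟩

theorem ind_smul {G : Type u} [Group G] [Fintype G] (μ : Lam G) (χ : Cfsg.IrrCharacter G) :
    ind ((μ • χ : Cfsg.IrrCharacter G) : G → ℂ) = ind (χ : G → ℂ) := by
  unfold ind
  congr 1
  refine Finset.sum_congr rfl (fun s _ => ?_)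
  rw [smul_apply, map_mul, μ.2 s, Units.val_one, one_mul]

theorem card_lam_ge {G : Type u} [Group G] [Finite G] (hG : IsPGroup 2 G) :
    (frattini G).index ≤ Nat.card (Lam G) := by
  classical
  haveI : Fact (Nat.Prime 2) := ⟨Nat.prime_two⟩
  have hco : ∀ M : Subgroup G, IsCoatom M →
      (∀ x : G, x ^ 2 ∈ M) ∧ ∀ x y : G, x * y * x⁻¹ * y⁻¹ ∈ M :=
    fun M hM => Cfsg.Agent.Lib.Helper22.Regular.pgroup_coatom hG M hM
  have hab : ∀ a b : G, a * b * a⁻¹ * b⁻¹ ∈ frattini G := by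
    intro a b
    unfold frattini Order.radical
    simp only [Subgroup.mem_iInf]
    exact fun M hM => (hco M hM).2 a b
  have hsq : ∀ a : G, a * a ∈ frattini G := by
    intro a
    unfold frattini Order.radical
    simp only [Subgroup.mem_iInf]
    intro M hM
    have := (hco M hM).1 a
    rwa [pow_two] at this
  obtain ⟨Λ, hΛc, hΛ⟩ := exists_linear_chars (frattini G) hab
  rw [← hΛc]
  have hsub : (Λ : Set (G →* ℂˣ)) ⊆ ((Lam G : Subgroup (G →* ℂˣ)) : Set (G →* ℂˣ)) := by
    intro μ hμ g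
    rw [← map_mul]
    exact hΛ μ hμ _ (hsq g)
  have h1 : Λ.card = (Λ : Set (G →* ℂˣ)).ncard := (Set.ncard_coe_finset Λ).symm
  rw [h1]
  have h2 : Nat.card (Lam G) = ((Lam G : Subgroup (G →* ℂˣ)) : Set (G →* ℂˣ)).ncard := rfl
  rw [h2]
  exact Set.ncard_le_ncard hsub (Set.toFinite _)

theorem orbit_dvd {G : Type u} [Group G] [Fintype G] (hG : IsPGroup 2 G) (k a : ℕ)
    (ha : Nat.card (Lam G) = 2 ^ a) (hak : 2 * k + 1 ≤ a) (χ : Cfsg.IrrCharacter G) (n : ℕ)
    (hnd : n ∣ Nat.card G) (hnb : ∀ g, ‖(χ : G → ℂ) g‖ ≤ (n : ℝ)) :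
    2 ^ (k + 1) ∣ Nat.card (MulAction.orbit (Lam G) χ) * n := by
  classical
  haveI : Fact (Nat.Prime 2) := ⟨Nat.prime_two⟩
  have hfinL : Fintype (Lam G) := Fintype.ofFinite _
  have hirrfin : Fintype (Cfsg.IrrCharacter G) := irrFintype
  have hfinO : Fintype (MulAction.orbit (Lam G) χ) := Fintype.ofFinite _
  have hfinS0 : Fintype (MulAction.stabilizer (Lam G) χ) := Fintype.ofFinite _
  have hos : Nat.card (MulAction.orbit (Lam G) χ) *
      Nat.card (MulAction.stabilizer (Lam G) χ) = 2 ^ a := by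
    rw [← ha]
    have h := MulAction.card_orbit_mul_card_stabilizer_eq_card_group (Lam G) χ
    simp only [Nat.card_eq_fintype_card]
    exact h
  obtain ⟨b, hb, hOb⟩ := (Nat.dvd_prime_pow Nat.prime_two).mp (Dvd.intro _ hos)
  obtain ⟨s, hs, hSs⟩ := (Nat.dvd_prime_pow Nat.prime_two).mp (Dvd.intro_left _ hos)
  have hbs : b + s = a := by
    rw [hOb, hSs, ← pow_add] at hos
    exact Nat.pow_right_injective (le_refl 2) hos
  obtain ⟨e, he⟩ := IsPGroup.iff_card.mp hG
  rw [he] at hnd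
  obtain ⟨c, hc, hnc⟩ := (Nat.dvd_prime_pow Nat.prime_two).mp hnd
  have hsb : Nat.card (MulAction.stabilizer (Lam G) χ) ≤ n ^ 2 := by
    have hfinS : Fintype (MulAction.stabilizer (Lam G) χ) := Fintype.ofFinite _
    rw [Nat.card_eq_fintype_card]
    refine stab_bound χ.2 n hnb
      ((Lam G).subtype.comp (MulAction.stabilizer (Lam G) χ).subtype) ?_ ?_
    · exact (Subtype.val_injective).comp Subtype.val_injective
    · intro t g
      have h1 : t.1 • χ = χ := t.2
      have h2 := congrArg (fun ψ : Cfsg.IrrCharacter G => ψ.1 g) h1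
      exact h2
  rw [hSs, hnc, ← pow_mul] at hsb
  have hs2c : s ≤ c * 2 := (Nat.pow_le_pow_iff_right (by norm_num)).mp hsb
  rw [hOb, hnc, ← pow_add]
  apply pow_dvd_pow
  omega

/-- Let G be a finite 2-group with #(G/Φ(G)) ≥ 2^(2k+1). Then the number of elements x of G with x² = 1 is divisible by 2^(k+1). -/
theorem result {G : Type*} [Group G] [Finite G] (hG : IsPGroup 2 G) (k : ℕ)
    (hgen : 2 ^ (2 * k + 1) ≤ Nat.card (G ⧸ frattini G)) :
    2 ^ (k + 1) ∣ Nat.card {x : G // x ^ 2 = 1} := by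
  classical
  have hfin : Fintype G := Fintype.ofFinite G
  have hirrfin : Fintype (Cfsg.IrrCharacter G) := irrFintype
  have hqfin : Fintype (Quotient (MulAction.orbitRel (Lam G) (Cfsg.IrrCharacter G))) :=
    Fintype.ofFinite _
  haveI : Fact (Nat.Prime 2) := ⟨Nat.prime_two⟩
  obtain ⟨a, ha⟩ := IsPGroup.iff_card.mp (lam_isPGroup G)
  have hak : 2 * k + 1 ≤ a := by
    have h1 : 2 ^ (2 * k + 1) ≤ 2 ^ a := by
      rw [← ha]
      exact hgen.trans (card_lam_ge hG)
    exact (Nat.pow_le_pow_iff_right (by norm_num)).mp h1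
  have hsum := sum_degree_mul_ind (G := G)
  have key : ∃ m : ℤ, (Nat.card {s : G // s * s = 1} : ℂ) = ((2 : ℂ) ^ (k + 1)) * (m : ℂ) := by
    rw [← hsum]
    rw [← Finset.sum_fiberwise (s := Finset.univ)
      (g := fun χ : Cfsg.IrrCharacter G =>
        (Quotient.mk (MulAction.orbitRel (Lam G) (Cfsg.IrrCharacter G)) χ))
      (f := fun χ : Cfsg.IrrCharacter G => (χ : G → ℂ) 1 * ind (χ : G → ℂ))]
    apply sum_dvd_aux
    intro q _
    induction q using Quotient.inductionOn with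
    | _ χ₀ =>
      obtain ⟨n, hn1, hnd, hnpos, hnb⟩ := irr_data χ₀.2
      have hconst : ∀ χ ∈ Finset.univ.filter (fun χ : Cfsg.IrrCharacter G =>
          (Quotient.mk (MulAction.orbitRel (Lam G) (Cfsg.IrrCharacter G)) χ) =
            Quotient.mk _ χ₀),
          (χ : G → ℂ) 1 * ind (χ : G → ℂ) = (χ₀ : G → ℂ) 1 * ind (χ₀ : G → ℂ) := by
        intro χ hχ
        have h1 := (Finset.mem_filter.mp hχ).2
        have h2 : χ ∈ MulAction.orbit (Lam G) χ₀ := by
          rw [← MulAction.orbitRel_apply]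
          exact Quotient.exact h1
        obtain ⟨μ, rfl⟩ := h2
        rw [ind_smul]
        congr 1
        show (μ • χ₀).1 1 = _
        rw [smul_apply, map_one, Units.val_one, one_mul]
      rw [Finset.sum_congr rfl hconst, Finset.sum_const, nsmul_eq_mul]
      have hcard : (Finset.univ.filter (fun χ : Cfsg.IrrCharacter G =>
          (Quotient.mk (MulAction.orbitRel (Lam G) (Cfsg.IrrCharacter G)) χ) =
            Quotient.mk _ χ₀)).card = Nat.card (MulAction.orbit (Lam G) χ₀) := by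
        rw [← Fintype.card_subtype, ← Nat.card_eq_fintype_card]
        apply Nat.card_congr
        refine Equiv.subtypeEquivRight (fun χ => ?_)
        rw [Quotient.eq]
        exact MulAction.orbitRel_apply
      rw [hcard, hn1]
      obtain ⟨w, hw⟩ := orbit_dvd hG k a ha hak χ₀ n hnd hnb
      obtain ⟨ε, hε⟩ : ∃ ε : ℤ, ind (χ₀ : G → ℂ) = (ε : ℂ) := by
        rcases ind_irr χ₀.2 with ⟨h0, -⟩ | ⟨h1 | h1, -⟩
        · exact ⟨0, by rw [h0]; simp⟩
        · exact ⟨1, by rw [h1]; simp⟩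
        · exact ⟨-1, by rw [h1]; simp⟩
      refine ⟨(w : ℤ) * ε, ?_⟩
      rw [hε]
      have h3 : ((Nat.card (MulAction.orbit (Lam G) χ₀) : ℂ)) * (n : ℂ) =
          (2 : ℂ) ^ (k + 1) * (w : ℂ) := by
        exact_mod_cast congrArg (Nat.cast : ℕ → ℂ) hw
      push_cast
      linear_combination (ε : ℂ) * h3
  obtain ⟨m, hm⟩ := key
  have h3 : ((Nat.card {s : G // s * s = 1} : ℤ) : ℂ) = (((2 : ℤ) ^ (k + 1) * m : ℤ) : ℂ) := by
    push_cast
    exact hm
  have h4 : (Nat.card {s : G // s * s = 1} : ℤ) = (2 : ℤ) ^ (k + 1) * m := Int.cast_injective h3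
  have h5 : ((2 ^ (k + 1) : ℕ) : ℤ) ∣ (Nat.card {s : G // s * s = 1} : ℤ) :=
    ⟨m, by rw [h4]; push_cast; ring⟩
  have h6 : 2 ^ (k + 1) ∣ Nat.card {s : G // s * s = 1} := Int.natCast_dvd_natCast.mp h5
  have h7 : Nat.card {x : G // x ^ 2 = 1} = Nat.card {s : G // s * s = 1} :=
    Nat.card_congr (Equiv.subtypeEquivRight (fun x => by rw [pow_two]))
  rw [h7]
  exact h6

end Cfsg.Agent.S4058
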