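import Cfsg.Statements.S3738
import Mathlib
import Cfsg.Agent.S3103
import Cfsg.Agent.S4058
import Cfsg.Agent.S0256
import Cfsg.Agent.Lib.Helper2.Ext2

set_option autoImplicit false
open Cfsg

namespace Cfsg.Agent.S3738

/-- 3-elements of S_8 have cube 1. -/
theorem perm8_cube (σ : Equiv.Perm (Fin 8)) (n : ℕ) (h : σ ^ 3 ^ n = 1) : σ ^ 3 = 1 := by
  rw [← orderOf_dvd_iff_pow_eq_one, ← Equiv.Perm.lcm_cycleType, Multiset.lcm_dvd]
  intro c hc
  have h1 : c ∣ orderOf σ := Equiv.Perm.dvd_of_mem_cycleType hc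
  have h2 : orderOf σ ∣ 3 ^ n := orderOf_dvd_of_pow_eq_one h
  obtain ⟨j, hj, rfl⟩ := (Nat.dvd_prime_pow Nat.prime_three).mp (h1.trans h2)
  have h3 : 3 ^ j ≤ 8 := by
    have := Equiv.Perm.le_card_support_of_mem_cycleType hc
    have h4 : σ.support.card ≤ 8 := by
      simpa using Finset.card_le_univ σ.support
    omega
  have hj1 : j ≤ 1 := by
    by_contra hlt
    push Not at hlt
    have : 3 ^ 2 ≤ 3 ^ j := Nat.pow_le_pow_right (by norm_num) hlt
    omega
  interval_cases j <;> simp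

/-- The action of automorphisms on the Frattini quotient. -/
noncomputable def quotAut (Q : Type*) [Group Q] : MulAut Q →* MulAut (Q ⧸ frattini Q) where
  toFun φ := QuotientGroup.congr (frattini Q) (frattini Q) φ
    (Subgroup.characteristic_iff_map_eq.mp inferInstance φ)
  map_one' := by
    apply MulEquiv.ext
    intro x
    induction x using QuotientGroup.induction_on with
    | H x => rfl
  map_mul' := fun φ ψ => by
    apply MulEquiv.ext
    intro x
    induction x using QuotientGroup.induction_on with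
    | H x => rfl

theorem quotAut_mk (Q : Type*) [Group Q] (φ : MulAut Q) (x : Q) :
    quotAut Q φ (QuotientGroup.mk x) = QuotientGroup.mk (φ x) := rfl

/-- An automorphism of odd prime order of a finite 2-group acting trivially on the Frattini
quotient does not exist. -/
theorem coprime_trivial {Q : Type*} [Group Q] [Finite Q] (hQ : IsPGroup 2 Q) (ψ : MulAut Q)
    (hψ : quotAut Q ψ = 1) (r : ℕ) (hr : r.Prime) (hr2 : r ≠ 2) (hord : orderOf ψ = r) : False := by
  classical
  haveI : Fact r.Prime := ⟨hr⟩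
  set Φ := frattini Q with hΦ
  have hker : ∀ g ∈ Subgroup.zpowers ψ, ∀ x : Q, x⁻¹ * g x ∈ Φ := by
    intro g hg x
    have hg1 : quotAut Q g = 1 := by
      have : Subgroup.zpowers ψ ≤ (quotAut Q).ker := by
        rw [Subgroup.zpowers_le]; exact hψ
      exact this hg
    have h1 := quotAut_mk Q g x
    rw [hg1] at h1
    have h2 : (QuotientGroup.mk x : Q ⧸ frattini Q) = QuotientGroup.mk (g x) := h1
    exact QuotientGroup.eq.mp h2
  have hchar : ∀ (g : MulAut Q) (f : Q), f ∈ Φ → g f ∈ Φ := by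
    intro g f hf
    have := Subgroup.characteristic_iff_map_eq.mp (inferInstance : (frattini Q).Characteristic) g
    rw [hΦ, ← this]
    exact Subgroup.mem_map_of_mem _ hf
  have hrΦ : ¬ r ∣ Nat.card ↥Φ := by
    obtain ⟨k, hk⟩ := IsPGroup.iff_card.mp (hQ.to_subgroup Φ)
    rw [hk]
    intro hdvd
    exact hr2 ((Nat.prime_dvd_prime_iff_eq hr Nat.prime_two).mp (hr.dvd_of_dvd_pow hdvd))
  have hzp : IsPGroup r ↥(Subgroup.zpowers ψ) := by
    apply IsPGroup.of_card (n := 1)
    rw [Nat.card_zpowers, hord, pow_one]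
  let C : Subgroup Q :=
    { carrier := {y | ψ y = y}
      mul_mem' := by
        intro a b ha hb
        show ψ (a * b) = a * b
        rw [map_mul, ha, hb]
      one_mem' := map_one ψ
      inv_mem' := by
        intro a ha
        show ψ a⁻¹ = a⁻¹
        rw [map_inv, ha] }
  have hcov : ∀ x : Q, x ∈ C ⊔ Φ := by
    intro x
    letI act : MulAction ↥(Subgroup.zpowers ψ) ↥Φ :=
      { smul := fun g φ => ⟨x⁻¹ * (g : MulAut Q) (x * φ), by
            rw [map_mul, ← mul_assoc]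
            exact Φ.mul_mem (hker g g.2 x) (hchar g φ φ.2)⟩
        one_smul := fun φ => by
          apply Subtype.ext
          show x⁻¹ * ((1 : ↥(Subgroup.zpowers ψ)) : MulAut Q) (x * φ) = φ
          simp
        mul_smul := fun g₁ g₂ φ => by
          apply Subtype.ext
          show x⁻¹ * ((g₁ * g₂ : ↥(Subgroup.zpowers ψ)) : MulAut Q) (x * φ)
              = x⁻¹ * (g₁ : MulAut Q) (x * (x⁻¹ * (g₂ : MulAut Q) (x * φ)))
          simp [MulAut.mul_apply] }
    obtain ⟨φ₀, hφ₀⟩ := IsPGroup.nonempty_fixed_point_of_prime_not_dvd_card hzp ↥Φ hrΦ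
    have h1 := hφ₀ ⟨ψ, Subgroup.mem_zpowers ψ⟩
    have h2 : x⁻¹ * ψ (x * φ₀) = φ₀ := congrArg Subtype.val h1
    have h3 : ψ (x * φ₀) = x * φ₀ := by
      have : ψ (x * φ₀) = x * (x⁻¹ * ψ (x * φ₀)) := by group
      rw [this, h2]
    have h4 : x = (x * φ₀) * (φ₀ : Q)⁻¹ := by group
    rw [h4]
    exact Subgroup.mul_mem_sup h3 (Φ.inv_mem φ₀.2)
  have htop : C = ⊤ := by
    apply frattini_nongenerating
    rw [eq_top_iff]; intro x _; exact hcov x
  have hψ1 : ψ = 1 := by
    apply MulEquiv.ext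
    intro x
    have : x ∈ C := by rw [htop]; trivial
    exact this
  rw [hψ1, orderOf_one] at hord
  exact hr.one_lt.ne hord

theorem abstract_main {Q : Type*} [Group Q] [Finite Q] [Nontrivial Q] (hQ : IsPGroup 2 Q)
    (θ : MulAut Q) (n : ℕ) (hθ : θ ^ 3 ^ n = 1) (hfpf : ∀ x : Q, θ x = x → x = 1)
    (hrank : ∀ V : Subgroup Q, (∀ a ∈ V, ∀ b ∈ V, a * b = b * a) → (∀ a ∈ V, a ^ 2 = 1) →
      Nat.card V ≤ 4) :
    θ ^ 3 = 1 := by
  classical
  haveI : Fact (Nat.Prime 2) := ⟨Nat.prime_two⟩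
  let Z₁ : Subgroup Q :=
    { carrier := {x | x ∈ Subgroup.center Q ∧ x ^ 2 = 1}
      mul_mem' := by
        rintro a b ⟨ha, ha2⟩ ⟨hb, hb2⟩
        refine ⟨Subgroup.mul_mem _ ha hb, ?_⟩
        have hc : b * a = a * b := Subgroup.mem_center_iff.mp ha b
        rw [sq]
        calc a * b * (a * b) = a * (b * a) * b := by group
          _ = a * (a * b) * b := by rw [hc]
          _ = a ^ 2 * b ^ 2 := by simp only [sq, mul_assoc]
          _ = 1 := by rw [ha2, hb2, one_mul]
      one_mem' := ⟨Subgroup.one_mem _, one_pow 2⟩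
      inv_mem' := by
        rintro a ⟨ha, ha2⟩
        exact ⟨Subgroup.inv_mem _ ha, by rw [inv_pow, ha2, inv_one]⟩ }
  have hZ₁mem : ∀ x, x ∈ Z₁ ↔ (x ∈ Subgroup.center Q ∧ x ^ 2 = 1) := fun x => Iff.rfl
  have hZcomm : ∀ a ∈ Z₁, ∀ b : Q, a * b = b * a := fun a ha b =>
    (Subgroup.mem_center_iff.mp ((hZ₁mem a).mp ha).1 b).symm
  have hZcard4 : Nat.card Z₁ ≤ 4 :=
    hrank Z₁ (fun a ha b _ => hZcomm a ha b) (fun a ha => ((hZ₁mem a).mp ha).2)
  -- a nontrivial element
  obtain ⟨c, hcZ, hc1⟩ : ∃ c, c ∈ Z₁ ∧ c ≠ 1 := by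
    haveI := hQ.center_nontrivial
    obtain ⟨k, hk⟩ := IsPGroup.iff_card.mp (hQ.to_subgroup (Subgroup.center Q))
    have hk0 : k ≠ 0 := by
      rintro rfl
      rw [pow_zero] at hk
      have := Finite.one_lt_card (α := ↥(Subgroup.center Q))
      omega
    have hdvd : 2 ∣ Nat.card ↥(Subgroup.center Q) := by rw [hk]; exact dvd_pow_self 2 hk0
    obtain ⟨x, hx⟩ := exists_prime_orderOf_dvd_card' 2 hdvd
    refine ⟨(x : Q), ⟨x.2, ?_⟩, ?_⟩
    · have : x ^ 2 = 1 := by rw [← hx]; exact pow_orderOf_eq_one x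
      exact congrArg Subtype.val this
    · intro h1
      have : x = 1 := Subtype.ext h1
      rw [this, orderOf_one] at hx
      omega
  have hθZ : ∀ x ∈ Z₁, θ x ∈ Z₁ := by
    intro x hx
    obtain ⟨hxc, hx2⟩ := (hZ₁mem x).mp hx
    refine (hZ₁mem _).mpr ⟨?_, by rw [← map_pow, hx2, map_one]⟩
    rw [Subgroup.mem_center_iff]
    intro g
    have h1 : θ.symm g * x = x * θ.symm g := Subgroup.mem_center_iff.mp hxc _
    have h2 := congrArg θ h1
    rw [map_mul, map_mul, MulEquiv.apply_symm_apply] at h2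
    exact h2
  have hZne2 : Nat.card Z₁ ≠ 2 := by
    intro h2
    obtain ⟨y, _, hy⟩ := (Nat.card_eq_two_iff' (1 : ↥Z₁)).mp h2
    have e1 : (⟨c, hcZ⟩ : ↥Z₁) = y := hy _ (fun h => hc1 (congrArg Subtype.val h))
    have e2 : (⟨θ c, hθZ c hcZ⟩ : ↥Z₁) = y := hy _ (fun h => by
      have h3 : θ c = 1 := congrArg Subtype.val h
      have h4 : θ c = θ 1 := by rw [h3, map_one]
      exact hc1 (θ.injective h4))
    have e3 : θ c = c := congrArg Subtype.val (e2.trans e1.symm)
    exact hc1 (hfpf c e3)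
  have hZcard : Nat.card Z₁ = 4 := by
    obtain ⟨k, hk⟩ := IsPGroup.iff_card.mp (hQ.to_subgroup Z₁)
    have hne1 : Nat.card Z₁ ≠ 1 := by
      intro h1
      have : Z₁ = ⊥ := Subgroup.card_eq_one.mp h1
      rw [this, Subgroup.mem_bot] at hcZ
      exact hc1 hcZ
    rw [hk] at hne1 hZne2 hZcard4 ⊢
    have hk2 : k ≤ 2 := by
      by_contra hlt
      push Not at hlt
      have : 2 ^ 3 ≤ 2 ^ k := Nat.pow_le_pow_right (by norm_num) hlt
      omega
    interval_cases k <;> simp_all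
  -- all involutions lie in Z₁
  have hinv : ∀ t : Q, t ^ 2 = 1 → t ∈ Z₁ := by
    intro t ht
    have hgen : ∀ a ∈ insert t (Z₁ : Set Q), ∀ b ∈ insert t (Z₁ : Set Q), a * b = b * a := by
      intro a ha b hb
      rcases ha with rfl | ha
      · rcases hb with rfl | hb
        · rfl
        · exact (hZcomm b hb a).symm
      · exact hZcomm a ha b
    have hgen2 : ∀ a ∈ insert t (Z₁ : Set Q), a ^ 2 = 1 := by
      intro a ha
      rcases ha with rfl | ha
      · exact ht
      · exact ((hZ₁mem a).mp ha).2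
    set V := Subgroup.closure (insert t (Z₁ : Set Q)) with hV
    haveI hVc : IsMulCommutative ↥V := Subgroup.isMulCommutative_closure hgen
    have hVcomm : ∀ a ∈ V, ∀ b ∈ V, a * b = b * a := by
      intro a ha b hb
      exact congrArg Subtype.val (hVc.is_comm.comm ⟨a, ha⟩ ⟨b, hb⟩)
    have hVexp : ∀ a ∈ V, a ^ 2 = 1 := by
      intro a ha
      induction ha using Subgroup.closure_induction with
      | mem x hx => exact hgen2 x hx
      | one => exact one_pow 2
      | mul x y hx hy ihx ihy =>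
        have hc : y * x = x * y := hVcomm y hy x hx
        rw [sq]
        calc x * y * (x * y) = x * (y * x) * y := by group
          _ = x * (x * y) * y := by rw [hc]
          _ = x ^ 2 * y ^ 2 := by simp only [sq, mul_assoc]
          _ = 1 := by rw [ihx, ihy, one_mul]
      | inv x hx ih => rw [inv_pow, ih, inv_one]
    have hVcard := hrank V hVcomm hVexp
    have hZV : Z₁ ≤ V := fun z hz => Subgroup.subset_closure (Set.mem_insert_of_mem _ hz)
    have hEq : Z₁ = V := Subgroup.eq_of_le_of_card_ge hZV (by rw [hZcard]; exact hVcard)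
    rw [hEq]
    exact Subgroup.subset_closure (Set.mem_insert _ _)
  -- count of solutions of x^2 = 1
  have hcount : Nat.card {x : Q // x ^ 2 = 1} ≤ 4 := by
    rw [← hZcard]
    exact Nat.card_le_card_of_injective (fun x : {x : Q // x ^ 2 = 1} => (⟨x.1, hinv x.1 x.2⟩ : ↥Z₁))
      (fun x y hxy => Subtype.ext (by have h := congrArg Subtype.val hxy; exact h))
  have hcount0 : 0 < Nat.card {x : Q // x ^ 2 = 1} := by
    haveI : Nonempty {x : Q // x ^ 2 = 1} := ⟨⟨1, one_pow 2⟩⟩
    exact Nat.card_pos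
  -- Frattini quotient is small
  have hBcard : Nat.card (Q ⧸ frattini Q) ≤ 16 := by
    have h1 : ¬ 2 ^ (2 * 2 + 1) ≤ Nat.card (Q ⧸ frattini Q) := by
      intro h
      have h2 := Cfsg.Agent.S4058.result hQ 2 h
      have h3 := Nat.le_of_dvd hcount0 h2
      omega
    obtain ⟨j, hj⟩ := IsPGroup.iff_card.mp (hQ.to_quotient (frattini Q))
    rw [hj] at h1 ⊢
    have hj4 : j ≤ 4 := by
      by_contra hlt
      push Not at hlt
      exact h1 (Nat.pow_le_pow_right (by norm_num) hlt)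
    calc 2 ^ j ≤ 2 ^ 4 := Nat.pow_le_pow_right (by norm_num) hj4
      _ = 16 := by norm_num
  have hBexp : ∀ b : Q ⧸ frattini Q, b ^ 2 = 1 := by
    intro b
    induction b using QuotientGroup.induction_on with
    | H x =>
      rw [← QuotientGroup.mk_pow, QuotientGroup.eq_one_iff]
      unfold frattini Order.radical
      simp only [Subgroup.mem_iInf]
      intro M hM
      exact Cfsg.Agent.S3103.sq_mem_coatom hQ M hM x
  obtain ⟨f, hf⟩ := Cfsg.Agent.S3103.autEmb hBexp hBcard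
  obtain ⟨ι⟩ := Cfsg.Agent.S0256.result (F := ZMod 2) (ZMod.card 2)
  let q : Matrix.SpecialLinearGroup (Fin 4) (ZMod 2) →*
      Matrix.ProjectiveSpecialLinearGroup (Fin 4) (ZMod 2) := QuotientGroup.mk' _
  have hq : Function.Injective q := by
    rw [← MonoidHom.ker_eq_bot_iff, QuotientGroup.ker_mk']
    exact Cfsg.Agent.Lib.Helper2.Ext2.center_eq_bot (ZMod.card 2)
  let F : MulAut (Q ⧸ frattini Q) →* Equiv.Perm (Fin 8) :=
    (alternatingGroup (Fin 8)).subtype.comp (ι.toMonoidHom.comp (q.comp f))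
  have hF : Function.Injective F :=
    (Subgroup.subtype_injective _).comp (ι.injective.comp (hq.comp hf))
  have hσ : (F (quotAut Q θ)) ^ 3 ^ n = 1 := by
    rw [← map_pow, ← map_pow, hθ, map_one, map_one]
  have hσ3 := perm8_cube _ n hσ
  have hq3 : quotAut Q (θ ^ 3) = 1 := by
    apply hF
    rw [map_pow, map_pow, hσ3, map_one]
  by_contra hne
  have hdvd : orderOf (θ ^ 3) ∣ 3 ^ n := by
    apply orderOf_dvd_of_pow_eq_one
    rw [← pow_mul, mul_comm, pow_mul, hθ, one_pow]
  obtain ⟨j, hj, hoj⟩ := (Nat.dvd_prime_pow Nat.prime_three).mp hdvd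
  have hj0 : j ≠ 0 := by
    rintro rfl
    rw [pow_zero, orderOf_eq_one_iff] at hoj
    exact hne hoj
  have h3dvd : 3 ∣ orderOf (θ ^ 3) := by rw [hoj]; exact dvd_pow_self 3 hj0
  have hpos : orderOf (θ ^ 3) ≠ 0 := by rw [hoj]; positivity
  have hord := orderOf_pow_orderOf_div hpos h3dvd
  refine coprime_trivial hQ ((θ ^ 3) ^ (orderOf (θ ^ 3) / 3)) ?_ 3 Nat.prime_three (by norm_num) hord
  rw [map_pow, hq3, one_pow]

/-- Let d be a non-identity 3-element of a finite group and P a 2-subgroup normalized by d on which ⟨d⟩ acts faithfully (no non-identity power of d centralizes P) and without non-identity fixed points (C_P(d) = 1). If every abelian subgroup of P has 2-rank at most 2, then d has order 3. -/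
theorem result {X : Type*} [Group X] [Finite X] (d : X) (n : ℕ) (hn : 1 ≤ n) (hd : orderOf d = 3 ^ n) (P : Subgroup X) (hP : IsPGroup 2 P) (hdP : d ∈ Subgroup.normalizer (P : Set X)) (hfaith : Subgroup.zpowers d ⊓ Subgroup.centralizer (P : Set X) = ⊥) (hfpf : P ⊓ Subgroup.centralizer {d} = ⊥) (hrank : ∀ V : Subgroup X, V ≤ P → IsMulCommutative V → Cfsg.PRankLE 2 2 V) : orderOf d = 3 := by
  classical
  haveI : Nontrivial ↥P := by
    by_contra hnt
    rw [not_nontrivial_iff_subsingleton] at hnt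
    have hPbot : P = ⊥ := Subgroup.eq_bot_of_subsingleton P
    have hmem : d ∈ Subgroup.zpowers d ⊓ Subgroup.centralizer (P : Set X) := by
      refine Subgroup.mem_inf.mpr ⟨Subgroup.mem_zpowers d, ?_⟩
      rw [hPbot, Subgroup.mem_centralizer_iff]
      intro g hg
      have hg1 : g = 1 := hg
      rw [hg1, one_mul, mul_one]
    rw [hfaith, Subgroup.mem_bot] at hmem
    rw [hmem, orderOf_one] at hd
    have : 3 ∣ 3 ^ n := dvd_pow_self 3 (by omega)
    omega
  let d' : ↥(Subgroup.normalizer (P : Set X)) := ⟨d, hdP⟩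
  let θ : MulAut ↥P := Subgroup.normalizerMonoidHom P d'
  have hθx : ∀ x : ↥P, ((θ x : ↥P) : X) = d * x * d⁻¹ := fun x => rfl
  have hθpow : θ ^ 3 ^ n = 1 := by
    have h1 : d' ^ 3 ^ n = 1 := by
      apply Subtype.ext
      show d ^ 3 ^ n = 1
      rw [← hd]; exact pow_orderOf_eq_one d
    show (Subgroup.normalizerMonoidHom P d') ^ 3 ^ n = 1
    rw [← map_pow, h1, map_one]
  have hfpf' : ∀ x : ↥P, θ x = x → x = 1 := by
    intro x hx
    have h1 : d * x * d⁻¹ = (x : X) := by rw [← hθx, hx]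
    have h2 : (x : X) ∈ P ⊓ Subgroup.centralizer {d} := by
      refine Subgroup.mem_inf.mpr ⟨x.2, ?_⟩
      rw [Subgroup.mem_centralizer_singleton_iff]
      have : d * x = d * x * d⁻¹ * d := by group
      rw [this, h1]
    rw [hfpf, Subgroup.mem_bot] at h2
    exact Subtype.ext h2
  have hrank' : ∀ V : Subgroup ↥P, (∀ a ∈ V, ∀ b ∈ V, a * b = b * a) → (∀ a ∈ V, a ^ 2 = 1) →
      Nat.card V ≤ 4 := by
    intro V hc he
    have hle : V.map P.subtype ≤ P := by rintro _ ⟨v, _, rfl⟩; exact v.2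
    haveI hcm : IsMulCommutative ↥(V.map P.subtype) := ⟨⟨by
      rintro ⟨_, ⟨a, ha, rfl⟩⟩ ⟨_, ⟨b, hb, rfl⟩⟩
      apply Subtype.ext
      show (a : X) * b = b * a
      exact congrArg Subtype.val (hc a ha b hb)⟩⟩
    have h1 := hrank (V.map P.subtype) hle hcm ⊤ ⟨⟨fun a b => Subtype.ext (hcm.is_comm.comm a.1 b.1)⟩⟩ (by
      rintro ⟨_, ⟨a, ha, rfl⟩⟩ _
      apply Subtype.ext
      show (a : X) ^ 2 = 1
      exact congrArg Subtype.val (he a ha))
    rw [Subgroup.card_top, Subgroup.card_map_of_injective P.subtype_injective] at h1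
    norm_num at h1
    exact h1
  have h3 := abstract_main hP θ n hθpow hfpf' hrank'
  have hd3 : d ^ 3 ∈ Subgroup.zpowers d ⊓ Subgroup.centralizer (P : Set X) := by
    refine Subgroup.mem_inf.mpr ⟨Subgroup.pow_mem _ (Subgroup.mem_zpowers d) 3, ?_⟩
    rw [Subgroup.mem_centralizer_iff]
    intro x hx
    have h4 : (θ ^ 3) ⟨x, hx⟩ = ⟨x, hx⟩ := by rw [h3]; rfl
    have h5 : (((θ ^ 3) ⟨x, hx⟩ : ↥P) : X) = d ^ 3 * x * (d ^ 3)⁻¹ := by
      have h6 : θ ^ 3 = Subgroup.normalizerMonoidHom P (d' ^ 3) := (map_pow _ _ _).symm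
      rw [h6]; rfl
    rw [h4] at h5
    have h7 : x = d ^ 3 * x * (d ^ 3)⁻¹ := h5
    have : d ^ 3 * x = d ^ 3 * x * (d ^ 3)⁻¹ * d ^ 3 := by group
    rw [this, ← h7]
  rw [hfaith, Subgroup.mem_bot] at hd3
  have h6 : orderOf d ∣ 3 := orderOf_dvd_of_pow_eq_one hd3
  rw [hd] at h6 ⊢
  have hn1 : n ≤ 1 := by
    by_contra hlt
    push Not at hlt
    have h7 : 3 ^ 2 ∣ 3 ^ n := pow_dvd_pow 3 hlt
    have := Nat.le_of_dvd (by norm_num) (h7.trans h6)
    omega
  have : n = 1 := by omega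
  subst this
  norm_num

end Cfsg.Agent.S3738
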