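import Cfsg.Statements.S3741
import Mathlib
import Cfsg.Agent.Lib.Helper4.Card
import Cfsg.Agent.Lib.Helper16.Basic
import Cfsg.Agent.S3190

set_option autoImplicit false
open Cfsg

namespace Cfsg.Agent.S3741

open Classical in
theorem fiber_card {G : Type*} [Group G] [Finite G] {p : ℕ} [Fact p.Prime] (A B Z : Subgroup G)
    (hZp : IsPGroup p Z) (hZcard : Nat.card Z ≤ p)
    (hcomm : ∀ a ∈ A, ∀ b ∈ B, a * b * a⁻¹ * b⁻¹ ∈ Z)
    (hcent : ∀ b ∈ B, ∀ z ∈ Z, b * z = z * b) (a : G) (ha : a ∈ A) :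
    p * Nat.card {b : B // a * (b : G) = b * a} =
      Nat.card B + (p - 1) *
        (Nat.card B * (if a ∈ Subgroup.centralizer (B : Set G) then 1 else 0)) := by
  have hp : p.Prime := Fact.out
  let ψ : ↥B →* ↥Z := MonoidHom.mk'
    (fun b => ⟨a * b * a⁻¹ * (b : G)⁻¹, hcomm a ha b b.2⟩) (by
    intro b₁ b₂
    apply Subtype.ext
    show a * ((b₁ : G) * b₂) * a⁻¹ * ((b₁ : G) * b₂)⁻¹ =
      (a * b₁ * a⁻¹ * (b₁ : G)⁻¹) * (a * b₂ * a⁻¹ * (b₂ : G)⁻¹)
    have h1 := hcent b₁ b₁.2 _ (hcomm a ha b₂ b₂.2)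
    calc a * ((b₁ : G) * b₂) * a⁻¹ * ((b₁ : G) * b₂)⁻¹
        = (a * b₁ * a⁻¹ * (b₁ : G)⁻¹) * ((b₁ : G) * (a * b₂ * a⁻¹ * (b₂ : G)⁻¹)) *
            (b₁ : G)⁻¹ := by group
      _ = (a * b₁ * a⁻¹ * (b₁ : G)⁻¹) * ((a * b₂ * a⁻¹ * (b₂ : G)⁻¹) * (b₁ : G)) *
            (b₁ : G)⁻¹ := by rw [h1]
      _ = (a * b₁ * a⁻¹ * (b₁ : G)⁻¹) * (a * b₂ * a⁻¹ * (b₂ : G)⁻¹) := by group)
  have hψ : ∀ b : B, ((ψ b : Z) : G) = a * b * a⁻¹ * (b : G)⁻¹ := fun b => rfl
  have hker : ∀ b : B, b ∈ ψ.ker ↔ a * (b : G) = b * a := by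
    intro b
    rw [MonoidHom.mem_ker]
    constructor
    · intro h
      have h4 : a * (b : G) * a⁻¹ * (b : G)⁻¹ = 1 := by rw [← hψ, h]; rfl
      calc a * (b : G) = (a * b * a⁻¹ * (b : G)⁻¹) * b * a := by group
        _ = b * a := by rw [h4, one_mul]
    · intro h
      apply Subtype.ext
      rw [hψ, h]
      show (b : G) * a * a⁻¹ * (b : G)⁻¹ = 1
      group
  have hfc : Nat.card {b : B // a * (b : G) = b * a} = Nat.card ψ.ker :=
    Nat.card_congr (Equiv.subtypeEquivRight (fun b => (hker b).symm))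
  rw [hfc]
  have e := Subgroup.card_mul_index ψ.ker
  rw [Subgroup.index_ker] at e
  by_cases hc : a ∈ Subgroup.centralizer (B : Set G)
  · rw [if_pos hc]
    have hktop : ψ.ker = ⊤ := by
      rw [eq_top_iff]
      intro b _
      rw [hker]
      exact (Subgroup.mem_centralizer_iff.mp hc b b.2).symm
    rw [hktop, Subgroup.card_top, mul_one]
    obtain ⟨q, rfl⟩ : ∃ q, p = q + 1 := ⟨p - 1, by have := hp.pos; omega⟩
    rw [Nat.add_sub_cancel]
    ring
  · rw [if_neg hc, mul_zero, mul_zero, add_zero]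
    have hr : Nat.card ψ.range = p := by
      have hne : ψ.range ≠ ⊥ := by
        intro h
        apply hc
        rw [Subgroup.mem_centralizer_iff]
        intro b hb
        have h3 : ψ ⟨b, hb⟩ ∈ ψ.range := ⟨_, rfl⟩
        rw [h, Subgroup.mem_bot] at h3
        exact ((hker ⟨b, hb⟩).mp (MonoidHom.mem_ker.mpr h3)).symm
      have h1 : 1 < Nat.card ψ.range := (Subgroup.one_lt_card_iff_ne_bot _).mpr hne
      have h2 : Nat.card ψ.range ∣ Nat.card Z := Subgroup.card_subgroup_dvd_card _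
      obtain ⟨j, hj⟩ := IsPGroup.iff_card.mp hZp
      rw [hj] at h2 hZcard
      have hj1 : j ≤ 1 := by
        by_contra hlt
        push Not at hlt
        have h5 : p ^ 2 ≤ p ^ j := Nat.pow_le_pow_right hp.pos hlt
        have h6 : p ^ 1 < p ^ 2 := Nat.pow_lt_pow_right hp.one_lt (by norm_num)
        rw [pow_one] at h6
        omega
      interval_cases j
      · rw [pow_zero, Nat.dvd_one] at h2
        omega
      · rw [pow_one] at h2
        rcases (Nat.dvd_prime hp).mp h2 with h | h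
        · omega
        · exact h
    rw [hr] at e
    rw [mul_comm]
    exact e

open Classical in
theorem count_aux {G : Type*} [Group G] [Finite G] {p : ℕ} [Fact p.Prime] (A B Z : Subgroup G)
    (hZp : IsPGroup p Z) (hZcard : Nat.card Z ≤ p)
    (hcomm : ∀ a ∈ A, ∀ b ∈ B, a * b * a⁻¹ * b⁻¹ ∈ Z)
    (hcent : ∀ b ∈ B, ∀ z ∈ Z, b * z = z * b) :
    p * Nat.card {x : A × B // (x.1 : G) * x.2 = x.2 * x.1} =
      Nat.card A * Nat.card B +
        (p - 1) * (Nat.card B * Nat.card ↥(A ⊓ Subgroup.centralizer (B : Set G))) := by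
  have := Fintype.ofFinite ↥A
  rw [Nat.card_congr (Equiv.subtypeProdEquivSigmaSubtype
    (fun (a : A) (b : B) => (a : G) * b = b * a)), Nat.card_sigma, Finset.mul_sum]
  have hsum : ∀ a : A, p * Nat.card {b : B // (a : G) * (b : G) = b * a} =
      Nat.card B + (p - 1) *
        (Nat.card B * (if (a : G) ∈ Subgroup.centralizer (B : Set G) then 1 else 0)) :=
    fun a => fiber_card A B Z hZp hZcard hcomm hcent a a.2
  rw [Finset.sum_congr rfl (fun a _ => hsum a)]
  rw [Finset.sum_add_distrib, Finset.sum_const, Finset.card_univ, ← Finset.mul_sum,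
    ← Finset.mul_sum, Finset.sum_boole, smul_eq_mul, ← Nat.card_eq_fintype_card]
  congr 3
  rw [inf_comm, ← Cfsg.Agent.Lib.Helper4.Card.card_subgroupOf_eq, Nat.card_eq_fintype_card,
    Fintype.card_subtype]
  simp only [Nat.cast_id]
  rfl

theorem result {G : Type*} [Group G] [Finite G] {p : ℕ} [Fact p.Prime] (hG : IsPGroup p G) (A B : Subgroup G) (hAB : ⁅A, B⁆ ≤ A ⊓ B) (hcard : Nat.card ↥⁅A, B⁆ ≤ p) : (A ⊓ Subgroup.centralizer (B : Set G)).relIndex A = (B ⊓ Subgroup.centralizer (A : Set G)).relIndex B := by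
  have hp : p.Prime := Fact.out
  have hZp : IsPGroup p ↥⁅A, B⁆ := hG.to_subgroup _
  have hcent : ∀ g ∈ A ⊔ B, ∀ z ∈ ⁅A, B⁆, g * z = z * g := by
    by_cases hb : ⁅A, B⁆ = ⊥
    · intro g _ z hz
      rw [hb, Subgroup.mem_bot] at hz
      rw [hz, mul_one, one_mul]
    · have hnorm : A ⊔ B ≤ Subgroup.normalizer ((⁅A, B⁆ : Subgroup G) : Set G) :=
        sup_le (Cfsg.Agent.Lib.Helper16.Basic.le_normalizer_commutator_left A B)
          (Cfsg.Agent.Lib.Helper16.Basic.le_normalizer_commutator_right A B)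
      obtain ⟨w, hwZ, hw1, hwc⟩ := Cfsg.Agent.S3190.normal_pgroup_fixed (A ⊔ B) ⁅A, B⁆
        (hG.to_subgroup _) (hAB.trans (inf_le_left.trans le_sup_left))
        (fun g hg w hw => (Subgroup.mem_normalizer_iff.mp (hnorm hg) w).mp hw) hb
      have hz : Subgroup.zpowers w = ⁅A, B⁆ := by
        apply Subgroup.eq_of_le_of_card_ge (Subgroup.zpowers_le.mpr hwZ)
        rw [Nat.card_zpowers]
        refine hcard.trans ?_
        obtain ⟨k, hk⟩ := (hG.to_subgroup (Subgroup.zpowers w)).exists_card_eq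
        rw [Nat.card_zpowers] at hk
        rw [hk]
        have hk0 : k ≠ 0 := by
          rintro rfl
          rw [pow_zero] at hk
          exact hw1 (orderOf_eq_one_iff.mp hk)
        calc p = p ^ 1 := (pow_one p).symm
          _ ≤ p ^ k := Nat.pow_le_pow_right hp.pos (Nat.one_le_iff_ne_zero.mpr hk0)
      intro g hg z hz'
      rw [← hz] at hz'
      obtain ⟨k, rfl⟩ := Subgroup.mem_zpowers_iff.mp hz'
      have hcomm : Commute g w := hwc g hg
      exact (hcomm.zpow_right k).eq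
  have hcomm1 : ∀ a ∈ A, ∀ b ∈ B, a * b * a⁻¹ * b⁻¹ ∈ ⁅A, B⁆ :=
    fun a ha b hb => Subgroup.commutator_mem_commutator ha hb
  have hcomm2 : ∀ b ∈ B, ∀ a ∈ A, b * a * b⁻¹ * a⁻¹ ∈ ⁅A, B⁆ := by
    intro b hb a ha
    have h1 := Subgroup.inv_mem _ (hcomm1 a ha b hb)
    have h2 : (a * b * a⁻¹ * b⁻¹)⁻¹ = b * a * b⁻¹ * a⁻¹ := by group
    rw [h2] at h1
    exact h1
  have c1 := count_aux A B ⁅A, B⁆ hZp hcard hcomm1
    (fun b hb z hz => hcent b (Subgroup.mem_sup_right hb) z hz)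
  have c2 := count_aux B A ⁅A, B⁆ hZp hcard hcomm2
    (fun a ha z hz => hcent a (Subgroup.mem_sup_left ha) z hz)
  have hsw : Nat.card {x : A × B // (x.1 : G) * x.2 = x.2 * x.1} =
      Nat.card {x : B × A // (x.1 : G) * x.2 = x.2 * x.1} :=
    Nat.card_congr
      { toFun := fun x => ⟨(x.1.2, x.1.1), x.2.symm⟩
        invFun := fun x => ⟨(x.1.2, x.1.1), x.2.symm⟩
        left_inv := fun x => rfl
        right_inv := fun x => rfl }
  rw [hsw, c2] at c1
  have hp1 : 0 < p - 1 := by have := hp.two_le; omega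
  have hkey : Nat.card A * Nat.card ↥(B ⊓ Subgroup.centralizer (A : Set G)) =
      Nat.card B * Nat.card ↥(A ⊓ Subgroup.centralizer (B : Set G)) := by
    apply Nat.eq_of_mul_eq_mul_left hp1
    have h3 : Nat.card B * Nat.card A = Nat.card A * Nat.card B := mul_comm _ _
    omega
  have r1 := Cfsg.Agent.Lib.Helper4.Card.card_eq_relIndex_mul_card_inf
    (A ⊓ Subgroup.centralizer (B : Set G)) A
  have r2 := Cfsg.Agent.Lib.Helper4.Card.card_eq_relIndex_mul_card_inf
    (B ⊓ Subgroup.centralizer (A : Set G)) B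
  rw [inf_of_le_left inf_le_left] at r1 r2
  have hpos1 : 0 < Nat.card ↥(A ⊓ Subgroup.centralizer (B : Set G)) := Nat.card_pos
  have hpos2 : 0 < Nat.card ↥(B ⊓ Subgroup.centralizer (A : Set G)) := Nat.card_pos
  apply Nat.eq_of_mul_eq_mul_right (Nat.mul_pos hpos1 hpos2)
  calc (A ⊓ Subgroup.centralizer (B : Set G)).relIndex A *
        (Nat.card ↥(A ⊓ Subgroup.centralizer (B : Set G)) *
          Nat.card ↥(B ⊓ Subgroup.centralizer (A : Set G)))
      = Nat.card A * Nat.card ↥(B ⊓ Subgroup.centralizer (A : Set G)) := by rw [r1]; ring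
    _ = Nat.card B * Nat.card ↥(A ⊓ Subgroup.centralizer (B : Set G)) := hkey
    _ = (B ⊓ Subgroup.centralizer (A : Set G)).relIndex B *
        (Nat.card ↥(A ⊓ Subgroup.centralizer (B : Set G)) *
          Nat.card ↥(B ⊓ Subgroup.centralizer (A : Set G))) := by rw [r2]; ring

end Cfsg.Agent.S3741
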