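import Cfsg.Statements.S3764
import Mathlib
import Cfsg.Agent.Lib.Helper20.HSSub
import Cfsg.Agent.Lib.Helper20.ESpecial

set_option autoImplicit false
open Cfsg

namespace Cfsg.Agent.S3764

theorem result {G : Type*} [Group G] [Finite G] {p q r : ℕ} (hp : p.Prime) (hq : q.Prime) (hr : r.Prime) (hpq : p ≠ q) (hpr : p ≠ r) (hqr : q ≠ r) (X Q V : Subgroup G) (hX : Nat.card X = r) (hQ : Cfsg.IsExtraspecial q ↥Q) (hXQ : X ≤ Subgroup.normalizer (Q : Set G)) (hCQ : Q ⊓ Subgroup.centralizer (X : Set G) = (Subgroup.center ↥Q).map Q.subtype) (hV : Cfsg.IsElementaryAbelian p V) (hXV : X ≤ Subgroup.normalizer (V : Set G)) (hQV : Q ≤ Subgroup.normalizer (V : Set G)) (hfaith : (X ⊔ Q) ⊓ Subgroup.centralizer (V : Set G) = ⊥) (hCV : V ⊓ Subgroup.centralizer (X : Set G) = ⊥) : q = 2 ∧ ∃ n : ℕ, r = 2 ^ n + 1 ∧ Nat.card Q = 2 ^ (2 * n + 1) := by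
  classical
  haveI : Fact q.Prime := ⟨hq⟩
  haveI : Fact r.Prime := ⟨hr⟩
  obtain ⟨k, hk1, hcardQ⟩ := Cfsg.Agent.Lib.Helper20.ESpecial.card_of_isExtraspecial hQ
  have hcomm := hQ.1.2.2
  have hZq := hQ.2
  have hXne : X ≠ ⊥ := by
    intro h
    rw [h, Subgroup.card_bot] at hX
    exact hr.one_lt.ne hX
  obtain ⟨x', hx1⟩ := Subgroup.ne_bot_iff_exists_ne_one.mp hXne
  have hzp : Subgroup.zpowers x' = ⊤ := zpowers_eq_top_of_prime_card hX hx1
  obtain ⟨x, hxX⟩ := x'
  have hxr : x ^ r = 1 := by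
    have h1 : (⟨x, hxX⟩ : ↥X) ^ r = 1 := by
      rw [← hX]
      exact pow_card_eq_one'
    simpa using congrArg Subtype.val h1
  have hXgen : ∀ y ∈ X, ∃ n : ℤ, x ^ n = y := by
    intro y hy
    have h1 : (⟨y, hy⟩ : ↥X) ∈ Subgroup.zpowers (⟨x, hxX⟩ : ↥X) := by
      rw [hzp]
      trivial
    obtain ⟨n, hn⟩ := Subgroup.mem_zpowers_iff.mp h1
    exact ⟨n, by simpa using congrArg Subtype.val hn⟩
  have hcentX : ∀ g : G, x * g = g * x → g ∈ Subgroup.centralizer (X : Set G) := by
    intro g hg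
    rw [Subgroup.mem_centralizer_iff]
    intro y hy
    obtain ⟨n, rfl⟩ := hXgen y hy
    exact (Commute.zpow_left (show Commute x g from hg) n).eq
  set Z : Subgroup G := (Subgroup.center ↥Q).map Q.subtype with hZdef
  have hZQ : Z ≤ Q := Subgroup.map_subtype_le _
  have hmemZ : ∀ g : ↥Q, (g : G) ∈ Z ↔ g ∈ Subgroup.center ↥Q := by
    intro g
    rw [hZdef]
    constructor
    · rintro ⟨y, hy, hyg⟩
      have : y = g := Subtype.ext hyg
      rwa [← this]
    · intro hg
      exact ⟨g, hg, rfl⟩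
  have hZcard : Nat.card Z = q := by
    rw [hZdef, Subgroup.card_map_of_injective (Subgroup.subtype_injective _)]
    exact hZq
  have hrel : Z.relIndex Q = q ^ (2 * k) := by
    have h1 := Subgroup.relIndex_mul_relIndex (⊥ : Subgroup G) Z Q bot_le hZQ
    rw [Subgroup.relIndex_bot_left, Subgroup.relIndex_bot_left, hZcard, hcardQ] at h1
    have h2 : q ^ (1 + 2 * k) = q * q ^ (2 * k) := by ring
    rw [h2] at h1
    exact Nat.eq_of_mul_eq_mul_left hq.pos h1
  have hZne : Z ≠ ⊥ := by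
    intro h
    rw [h, Subgroup.card_bot] at hZcard
    exact hq.one_lt.ne hZcard
  have hZpow : ∀ z ∈ Z, z ^ q = 1 := by
    intro z hz
    have h1 : (⟨z, hz⟩ : ↥Z) ^ q = 1 := by
      rw [← hZcard]
      exact pow_card_eq_one'
    simpa using congrArg Subtype.val h1
  have hxZ : ∀ z ∈ Z, x * z = z * x := by
    intro z hz
    have h1 : z ∈ Q ⊓ Subgroup.centralizer (X : Set G) := by
      rw [hCQ]
      exact hz
    exact Subgroup.mem_centralizer_iff.mp h1.2 x hxX
  have key := Cfsg.Agent.Lib.Helper20.HS.hs_sub hp hr hpr x hxr Q V (hXQ hxX) (hXV hxX) hQV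
    (fun a ha b hb => congrArg Subtype.val (hV.1.is_comm.comm ⟨a, ha⟩ ⟨b, hb⟩)) hV.2
    (by
      rw [hcardQ]
      intro h
      exact hpq ((Nat.prime_dvd_prime_iff_eq hp hq).mp (hp.dvd_of_dvd_pow h)))
    Z hZQ
    (by
      rintro z ⟨z', hz', rfl⟩ g hg
      exact (congrArg Subtype.val (Subgroup.mem_center_iff.mp hz' ⟨g, hg⟩)).symm)
    (by
      intro g hg h hh
      exact (hmemZ _).mpr
        (Cfsg.Agent.Lib.Helper20.ESpecial.comm_mem_center hcomm ⟨g, hg⟩ ⟨h, hh⟩))
    (by
      intro Z₀ hle hne g hg hall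
      have hdvd : Nat.card Z₀ ∣ q := by
        rw [← hZcard]
        exact Subgroup.card_dvd_of_le hle
      have hbot : Z₀ = ⊥ := by
        rcases (Nat.dvd_prime hq).mp hdvd with h | h
        · exact Subgroup.eq_bot_of_card_eq _ h
        · exfalso
          apply hne
          exact Subgroup.eq_of_le_of_card_ge hle (by rw [h, hZcard])
      rw [hbot] at hall
      apply (hmemZ ⟨g, hg⟩).mpr
      rw [Subgroup.mem_center_iff]
      intro h
      apply Subtype.ext
      have h1 := Subgroup.mem_bot.mp (hall h h.2)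
      have h2 := mul_inv_eq_one.mp h1
      exact mul_inv_eq_iff_eq_mul.mp h2)
    (by
      obtain ⟨z, hz1⟩ := Subgroup.ne_bot_iff_exists_ne_one.mp hZne
      by_contra hcon
      push Not at hcon
      apply hz1
      have h1 : (z : G) ∈ (X ⊔ Q) ⊓ Subgroup.centralizer (V : Set G) := by
        refine ⟨(le_sup_right : Q ≤ X ⊔ Q) (hZQ z.2), ?_⟩
        show (z : G) ∈ Subgroup.centralizer (V : Set G)
        rw [Subgroup.mem_centralizer_iff]
        intro v hv
        exact (hcon z z.2 v hv).symm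
      rw [hfaith] at h1
      exact Subtype.ext (Subgroup.mem_bot.mp h1))
    hxZ
    (by
      intro g hg hz
      set z := x * g * x⁻¹ * g⁻¹ with hzdef
      have hxg : x * g * x⁻¹ = z * g := by
        rw [hzdef]
        group
      have hpow : ∀ n : ℕ, x ^ n * g * (x ^ n)⁻¹ = z ^ n * g := by
        intro n
        induction n with
        | zero => simp
        | succ n ih =>
          have hc : x * z ^ n = z ^ n * x := (Commute.pow_right (show Commute x z from hxZ z hz) n).eq
          calc x ^ (n + 1) * g * (x ^ (n + 1))⁻¹ = x * (x ^ n * g * (x ^ n)⁻¹) * x⁻¹ := by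
                rw [pow_succ']
                group
            _ = x * (z ^ n * g) * x⁻¹ := by rw [ih]
            _ = (x * z ^ n) * x⁻¹ * (x * g * x⁻¹) := by group
            _ = z ^ n * x * x⁻¹ * (z * g) := by rw [hc, hxg]
            _ = z ^ (n + 1) * g := by
                rw [pow_succ]
                group
      have hzr : z ^ r = 1 := by
        have h1 := hpow r
        rw [hxr] at h1
        simp only [one_mul, inv_one, mul_one] at h1
        exact (mul_eq_right.mp h1.symm)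
      have hz1 : z = 1 := by
        have h1 : orderOf z ∣ r := orderOf_dvd_of_pow_eq_one hzr
        have h2 : orderOf z ∣ q := orderOf_dvd_of_pow_eq_one (hZpow z hz)
        have h3 : orderOf z ∣ Nat.gcd r q := Nat.dvd_gcd h1 h2
        have h4 : Nat.gcd r q = 1 := (Nat.coprime_primes hr hq).mpr hqr.symm
        rw [h4] at h3
        exact orderOf_eq_one_iff.mp (Nat.dvd_one.mp h3)
      have hxg' : x * g = g * x := by
        have h1 := mul_inv_eq_one.mp hz1
        exact mul_inv_eq_iff_eq_mul.mp h1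
      have h5 : g ∈ Q ⊓ Subgroup.centralizer (X : Set G) := ⟨hg, hcentX g hxg'⟩
      rw [hCQ] at h5
      exact h5)
    (by
      intro v hv hxv
      have h1 : v ∈ V ⊓ Subgroup.centralizer (X : Set G) := ⟨hv, hcentX v hxv⟩
      rw [hCV] at h1
      exact Subgroup.mem_bot.mp h1)
  obtain ⟨h1, h2, m, hm⟩ := key
  rw [hrel] at h1 h2 hm
  have hM1 : 1 < q ^ (2 * k) := Nat.one_lt_pow (by omega) hq.one_lt
  obtain ⟨hq2, n, hrn, hMn⟩ :=
    Cfsg.Agent.Lib.Helper20.HS.arith q r (q ^ (2 * k)) m (2 * k) hq hr rfl hm hM1 h2 h1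
  refine ⟨hq2, n, hrn, ?_⟩
  rw [hcardQ, add_comm 1 (2 * k), pow_succ, hMn, hq2, pow_succ]

end Cfsg.Agent.S3764
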