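import Cfsg.Statements.S3765
import Mathlib
import Cfsg.Agent.Lib.Helper20.HSAut

set_option autoImplicit false
open Cfsg

namespace Cfsg.Agent.S3765

theorem result {G : Type*} [Group G] [Finite G] {p q r : ℕ} (hp : p.Prime) (hq : q.Prime) (hr : r.Prime) (hpq : p ≠ q) (hpr : p ≠ r) (hqr : q ≠ r) (X Q V : Subgroup G) (hX : Nat.card X = r) (hQ : IsPGroup q Q) (hXQ : X ≤ Subgroup.normalizer (Q : Set G)) (hXfaith : X ⊓ Subgroup.centralizer (Q : Set G) = ⊥) (hV : Cfsg.IsElementaryAbelian p V) (hV1 : V ≠ ⊥) (hXV : X ≤ Subgroup.normalizer (V : Set G)) (hQV : Q ≤ Subgroup.normalizer (V : Set G)) (hfaith : (X ⊔ Q) ⊓ Subgroup.centralizer (V : Set G) = ⊥) (hexc : q = 2 → (∃ n : ℕ, r = 2 ^ n + 1) → IsMulCommutative Q) : V ⊓ Subgroup.centralizer (X : Set G) ≠ ⊥ := by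
  classical
  intro hCV
  haveI : Fact q.Prime := ⟨hq⟩
  haveI : Fact r.Prime := ⟨hr⟩
  have hXne : X ≠ ⊥ := by
    intro h
    rw [h, Subgroup.card_bot] at hX
    exact hr.one_lt.ne hX
  obtain ⟨x', hx1⟩ := Subgroup.ne_bot_iff_exists_ne_one.mp hXne
  have hzp : Subgroup.zpowers x' = ⊤ := zpowers_eq_top_of_prime_card hX hx1
  obtain ⟨x, hxX⟩ := x'
  have hx1' : x ≠ 1 := fun h => hx1 (Subtype.ext h)
  have hxr : x ^ r = 1 := by
    have h1 : (⟨x, hxX⟩ : ↥X) ^ r = 1 := by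
      rw [← hX]
      exact pow_card_eq_one'
    simpa using congrArg Subtype.val h1
  have hXgen : ∀ y ∈ X, ∃ n : ℤ, x ^ n = y := by
    intro y hy
    have h1 : (⟨y, hy⟩ : ↥X) ∈ Subgroup.zpowers (⟨x, hxX⟩ : ↥X) := by
      rw [hzp]
      trivial
    obtain ⟨n, hn⟩ := Subgroup.mem_zpowers_iff.mp h1
    exact ⟨n, by simpa using congrArg Subtype.val hn⟩
  have hcentX : ∀ g : G, x * g = g * x → g ∈ Subgroup.centralizer (X : Set G) := by
    intro g hg
    rw [Subgroup.mem_centralizer_iff]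
    intro y hy
    obtain ⟨n, rfl⟩ := hXgen y hy
    exact (Commute.zpow_left (show Commute x g from hg) n).eq
  let xV : Subgroup.normalizer (V : Set G) := ⟨x, hXV hxX⟩
  let ψ : ↥Q →* MulAut ↥V := V.normalizerMonoidHom.comp (Subgroup.inclusion hQV)
  let τ : MulAut ↥V := V.normalizerMonoidHom xV
  have hψ : ∀ (g : ↥Q) (v : ↥V), ((ψ g v : ↥V) : G) = (g : G) * v * (g : G)⁻¹ := fun g v => rfl
  have hτ : ∀ (v : ↥V), ((τ v : ↥V) : G) = x * v * x⁻¹ := fun v => rfl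
  obtain ⟨hxQ1, hxQ2⟩ := Cfsg.Agent.Lib.Helper20.HS.conj_mem_of_normalizer Q x (hXQ hxX)
  have hconj1 : ∀ g : ↥Q, τ * ψ g * τ⁻¹ = ψ ⟨x * g * x⁻¹, hxQ1 g g.2⟩ := by
    intro g
    show V.normalizerMonoidHom xV * V.normalizerMonoidHom (Subgroup.inclusion hQV g) *
      (V.normalizerMonoidHom xV)⁻¹ = V.normalizerMonoidHom
        (Subgroup.inclusion hQV ⟨x * g * x⁻¹, hxQ1 g g.2⟩)
    rw [← map_inv, ← map_mul, ← map_mul]
    rfl
  have hconj2 : ∀ g : ↥Q, τ⁻¹ * ψ g * τ = ψ ⟨x⁻¹ * g * x, hxQ2 g g.2⟩ := by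
    intro g
    show (V.normalizerMonoidHom xV)⁻¹ * V.normalizerMonoidHom (Subgroup.inclusion hQV g) *
      (V.normalizerMonoidHom xV) = V.normalizerMonoidHom
        (Subgroup.inclusion hQV ⟨x⁻¹ * g * x, hxQ2 g g.2⟩)
    rw [← map_inv, ← map_mul, ← map_mul]
    rfl
  have hmain := Cfsg.Agent.Lib.Helper20.HS.main_aut hp hq hr hpq hpr hqr (A := ↥V)
    (fun a b => Subtype.ext (congrArg Subtype.val (hV.1.is_comm.comm a b)))
    (fun a => Subtype.ext (by simpa using hV.2 a a.2))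
    τ
    (by
      have h1 : τ ^ r = V.normalizerMonoidHom (xV ^ r) := (map_pow _ _ _).symm
      rw [h1]
      have h2 : xV ^ r = 1 := Subtype.ext (by simpa [xV] using hxr)
      rw [h2, map_one])
    ψ.range
    (IsPGroup.of_surjective hQ ψ.rangeRestrict ψ.rangeRestrict_surjective)
    (by
      apply Cfsg.Agent.Lib.Helper20.HS.mem_normalizer_of_conj
      · rintro _ ⟨g, rfl⟩
        rw [hconj1]
        exact ⟨_, rfl⟩
      · rintro _ ⟨g, rfl⟩
        rw [hconj2]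
        exact ⟨_, rfl⟩)
    (by
      intro a ha
      apply Subtype.ext
      have h1 : (a : G) ∈ V ⊓ Subgroup.centralizer (X : Set G) := by
        refine Subgroup.mem_inf.mpr ⟨a.2, hcentX _ ?_⟩
        have h2 := hτ a
        rw [ha] at h2
        calc x * a = x * a * x⁻¹ * x := by group
          _ = a * x := by rw [← h2]
      rw [hCV] at h1
      exact Subgroup.mem_bot.mp h1)
    (by
      intro hq2 hrn
      have hab := hexc hq2 hrn
      rintro _ ⟨a, rfl⟩ _ ⟨b, rfl⟩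
      rw [← map_mul, ← map_mul, hab.is_comm.comm a b])
  have hxc : ∀ a ∈ Q, x * a = a * x := by
    intro a ha
    have h1 := hmain (ψ ⟨a, ha⟩) ⟨_, rfl⟩
    have h2 : x⁻¹ * a⁻¹ * x * a ∈ (X ⊔ Q) ⊓ Subgroup.centralizer (V : Set G) := by
      have hxs : x ∈ X ⊔ Q := (le_sup_left : X ≤ X ⊔ Q) hxX
      have has : a ∈ X ⊔ Q := (le_sup_right : Q ≤ X ⊔ Q) ha
      refine Subgroup.mem_inf.mpr
        ⟨mul_mem (mul_mem (mul_mem (inv_mem hxs) (inv_mem has)) hxs) has, ?_⟩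
      rw [Subgroup.mem_centralizer_iff]
      intro v hv
      have h3 := congrArg (fun f : MulAut ↥V => ((f ⟨v, hv⟩ : ↥V) : G)) h1
      simp only [MulAut.mul_apply] at h3
      rw [hτ, hψ, hψ, hτ] at h3
      simp only at h3
      calc v * (x⁻¹ * a⁻¹ * x * a) = (a * x)⁻¹ * ((a * (x * v * x⁻¹) * a⁻¹) * (x * a)) := by group
        _ = (a * x)⁻¹ * ((x * (a * v * a⁻¹) * x⁻¹) * (x * a)) := by rw [h3]
        _ = x⁻¹ * a⁻¹ * x * a * v := by group
    rw [hfaith, Subgroup.mem_bot] at h2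
    calc x * a = a * x * (x⁻¹ * a⁻¹ * x * a) := by group
      _ = a * x := by rw [h2, mul_one]
  have hx : x ∈ X ⊓ Subgroup.centralizer (Q : Set G) := by
    refine Subgroup.mem_inf.mpr ⟨hxX, ?_⟩
    rw [Subgroup.mem_centralizer_iff]
    intro a ha
    exact (hxc a ha).symm
  rw [hXfaith, Subgroup.mem_bot] at hx
  exact hx1' hx

end Cfsg.Agent.S3765
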