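import Cfsg.Statements.S3767
import Mathlib
import Cfsg.Agent.Lib.Helper20.HSCyc
import Cfsg.Agent.Lib.Helper20.ESpecial

set_option autoImplicit false
open Cfsg

namespace Cfsg.Agent.S3767

theorem result {G : Type*} [Group G] [Finite G] {p : ℕ} [Fact p.Prime] (P H : Subgroup G) (hP : Cfsg.IsExtraspecial p ↥P) (n : ℕ) (hn : Nat.card P = p ^ (2 * n + 1)) (hH : IsCyclic H) (hcop : (Nat.card H).Coprime p) (hHP : H ≤ Subgroup.normalizer (P : Set G)) (hfix : ∀ x ∈ H, x ≠ 1 → P ⊓ Subgroup.centralizer {x} = (Subgroup.center ↥P).map P.subtype) : Nat.card H ∣ p ^ n + 1 ∨ Nat.card H ∣ p ^ n - 1 := by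
  classical
  have hp : p.Prime := Fact.out
  have hcommP := hP.1.2.2
  have hZp := hP.2
  obtain ⟨y', hy'⟩ := hH.exists_generator
  have hordy' : orderOf y' = Nat.card H := orderOf_eq_card_of_forall_mem_zpowers hy'
  obtain ⟨h, hhdef⟩ : ∃ h, Nat.card H = h := ⟨_, rfl⟩
  rw [hhdef] at hordy' hcop ⊢
  have hh0 : 0 < h := by
    rw [← hhdef]
    exact Nat.card_pos
  obtain ⟨y, hyH⟩ := y'
  have hordy : orderOf y = h := by
    rw [← hordy']
    exact (Subgroup.orderOf_mk y hyH).symm
  have hyh : y ^ h = 1 := by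
    rw [← hordy]
    exact pow_orderOf_eq_one y
  set Z : Subgroup G := (Subgroup.center ↥P).map P.subtype with hZdef
  have hZP : Z ≤ P := Subgroup.map_subtype_le _
  have hmemZ : ∀ g : ↥P, (g : G) ∈ Z ↔ g ∈ Subgroup.center ↥P := by
    intro g
    rw [hZdef]
    constructor
    · rintro ⟨y, hy, hyg⟩
      have : y = g := Subtype.ext hyg
      rwa [← this]
    · intro hg
      exact ⟨g, hg, rfl⟩
  have hZcard : Nat.card Z = p := by
    rw [hZdef, Subgroup.card_map_of_injective (Subgroup.subtype_injective _)]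
    exact hZp
  have hZpow : ∀ z ∈ Z, z ^ p = 1 := by
    intro z hz
    have h1 : (⟨z, hz⟩ : ↥Z) ^ p = 1 := by
      rw [← hZcard]
      exact pow_card_eq_one'
    simpa using congrArg Subtype.val h1
  have hxZ : ∀ x ∈ H, x ≠ 1 → ∀ z ∈ Z, x * z = z * x := by
    intro x hx hx1 z hz
    have h1 : z ∈ P ⊓ Subgroup.centralizer ({x} : Set G) := by
      rw [hfix x hx hx1]
      exact hz
    exact Subgroup.mem_centralizer_iff.mp (Subgroup.mem_inf.mp h1).2 x (Set.mem_singleton x)
  let yN : Subgroup.normalizer (P : Set G) := ⟨y, hHP hyH⟩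
  let σ : MulAut ↥P := P.normalizerMonoidHom yN
  have hσpow : ∀ (i : ℕ) (g : ↥P), (((σ ^ i) g : ↥P) : G) = y ^ i * g * (y ^ i)⁻¹ := by
    intro i g
    have h1 : σ ^ i = P.normalizerMonoidHom (yN ^ i) := (map_pow _ _ _).symm
    rw [h1]
    rfl
  have key := Cfsg.Agent.Lib.Helper20.HS.cyc_group (Q := ↥P) (Subgroup.center ↥P)
    (fun z hz g => (Subgroup.mem_center_iff.mp hz g).symm)
    (fun g h => Cfsg.Agent.Lib.Helper20.ESpecial.comm_mem_center hcommP g h)
    (by
      intro Z₀ hle hne g hall
      have hdvd : Nat.card Z₀ ∣ p := by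
        rw [← hZp]
        exact Subgroup.card_dvd_of_le hle
      have hbot : Z₀ = ⊥ := by
        rcases (Nat.dvd_prime hp).mp hdvd with h | h
        · exact Subgroup.eq_bot_of_card_eq _ h
        · exfalso
          apply hne
          exact Subgroup.eq_of_le_of_card_ge hle (by rw [h, hZp])
      rw [hbot] at hall
      rw [Subgroup.mem_center_iff]
      intro h
      have h1 := Subgroup.mem_bot.mp (hall h)
      have h2 := mul_inv_eq_one.mp h1
      exact mul_inv_eq_iff_eq_mul.mp h2)
    (by
      intro hbot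
      rw [hbot, Subgroup.card_bot] at hZp
      exact hp.one_lt.ne hZp)
    σ
    (by
      intro z hz
      apply Subtype.ext
      have h1 := hσpow 1 z
      rw [pow_one, pow_one] at h1
      rw [h1]
      by_cases hy1 : y = 1
      · rw [hy1]
        simp
      · rw [hxZ y hyH hy1 z ((hmemZ z).mpr hz)]
        group)
    h hh0
    (by
      intro i hi hih g hmem
      obtain ⟨x, hxdef⟩ : ∃ x, x = y ^ i := ⟨_, rfl⟩
      have hxH : x ∈ H := by
        rw [hxdef]
        exact pow_mem hyH i
      have hx1 : x ≠ 1 := by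
        rw [hxdef]
        exact pow_ne_one_of_lt_orderOf hi.ne' (by rw [hordy]; exact hih)
      have hz : x * g * x⁻¹ * (g : G)⁻¹ ∈ Z := by
        have h1 := (hmemZ _).mpr hmem
        have h2 : (((σ ^ i) g * g⁻¹ : ↥P) : G) = x * g * x⁻¹ * (g : G)⁻¹ := by
          rw [Subgroup.coe_mul, hσpow, hxdef]
          rfl
        rw [h2] at h1
        exact h1
      obtain ⟨z, hzdef⟩ : ∃ z, z = x * g * x⁻¹ * (g : G)⁻¹ := ⟨_, rfl⟩
      rw [← hzdef] at hz
      have hxg : x * g * x⁻¹ = z * g := by
        rw [hzdef]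
        group
      have hpow : ∀ n : ℕ, x ^ n * g * (x ^ n)⁻¹ = z ^ n * g := by
        intro n
        induction n with
        | zero => simp
        | succ n ih =>
          have hc : x * z ^ n = z ^ n * x :=
            (Commute.pow_right (show Commute x z from hxZ x hxH hx1 z hz) n).eq
          calc x ^ (n + 1) * g * (x ^ (n + 1))⁻¹ = x * (x ^ n * g * (x ^ n)⁻¹) * x⁻¹ := by
                rw [pow_succ']
                group
            _ = x * (z ^ n * g) * x⁻¹ := by rw [ih]
            _ = (x * z ^ n) * x⁻¹ * (x * g * x⁻¹) := by group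
            _ = z ^ n * x * x⁻¹ * (z * g) := by rw [hc, hxg]
            _ = z ^ (n + 1) * g := by
                rw [pow_succ]
                group
      have hzk : z ^ orderOf x = 1 := by
        have h1 := hpow (orderOf x)
        rw [pow_orderOf_eq_one] at h1
        simp only [one_mul, inv_one, mul_one] at h1
        exact (mul_eq_right.mp h1.symm)
      have hz1 : z = 1 := by
        have h1 : orderOf z ∣ orderOf x := orderOf_dvd_of_pow_eq_one hzk
        have h2 : orderOf z ∣ p := orderOf_dvd_of_pow_eq_one (hZpow z hz)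
        have h3 : orderOf x ∣ h := by
          rw [← hordy, hxdef]
          exact orderOf_pow_dvd i
        have h4 : orderOf z ∣ Nat.gcd h p := Nat.dvd_gcd (h1.trans h3) h2
        rw [Nat.Coprime.gcd_eq_one hcop] at h4
        exact orderOf_eq_one_iff.mp (Nat.dvd_one.mp h4)
      have hxg' : x * g = g * x := by
        rw [hzdef] at hz1
        have h1 := mul_inv_eq_one.mp hz1
        exact mul_inv_eq_iff_eq_mul.mp h1
      have h5 : (g : G) ∈ P ⊓ Subgroup.centralizer ({x} : Set G) := by
        refine Subgroup.mem_inf.mpr ⟨g.2, ?_⟩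
        rw [Subgroup.mem_centralizer_iff]
        intro w hw
        rw [Set.mem_singleton_iff] at hw
        rw [hw]
        exact hxg'
      rw [hfix x hxH hx1] at h5
      exact (hmemZ g).mp h5)
    (by
      have h1 : σ ^ h = P.normalizerMonoidHom (yN ^ h) := (map_pow _ _ _).symm
      rw [h1]
      have h2 : yN ^ h = 1 := Subtype.ext (by simpa [yN] using hyh)
      rw [h2, map_one])
  obtain ⟨d, hd, hidx, hdvd⟩ := key
  have hidx2 : (Subgroup.center ↥P).index = p ^ n * p ^ n := by
    have h1 := Subgroup.card_mul_index (Subgroup.center ↥P)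
    rw [hZp, hn] at h1
    have h2 : p ^ (2 * n + 1) = p * (p ^ n * p ^ n) := by ring
    rw [h2] at h1
    exact Nat.eq_of_mul_eq_mul_left hp.pos h1
  have hdpn : d = p ^ n := by
    rw [hidx2] at hidx
    exact (Nat.mul_self_inj.mp hidx).symm
  rw [hdpn] at hdvd
  exact hdvd.symm

end Cfsg.Agent.S3767
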