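import Cfsg.Statements.S3769
import Mathlib
import Cfsg.Agent.Lib.Helper20.HSAut
import Cfsg.Agent.Lib.Helper19.RelIndex
import Cfsg.Agent.S0023

set_option autoImplicit false
open Cfsg

namespace Cfsg.Agent.S3769

theorem result {X : Type*} [Group X] [Finite X] (G : Subgroup X) (hsolv : Group.IsSolvable G) (hodd : Odd (Nat.card G)) (V : Subgroup X) {ℓ : ℕ} (hℓ : ℓ.Prime) (hV : Cfsg.IsElementaryAbelian ℓ V) (hℓG : ¬ ℓ ∣ Nat.card G) (hGV : G ≤ Subgroup.normalizer (V : Set X)) (K R : Subgroup X) (hKG : K ≤ G) (hKn : G ≤ Subgroup.normalizer (K : Set X)) (hHall : (Nat.card K).Coprime (K.relIndex G)) (hRG : R ≤ G) (hR : (Nat.card R).Prime) (hKR : K ⊓ R = ⊥) (hKRG : K ⊔ R = G) (hCV : V ⊓ Subgroup.centralizer (R : Set X) = ⊥) : ⁅R, K⁆ ≤ Subgroup.centralizer (V : Set X) := by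
  classical
  haveI : Fact ℓ.Prime := ⟨hℓ⟩
  obtain ⟨r, hrdef⟩ : ∃ r, Nat.card R = r := ⟨_, rfl⟩
  have hr : r.Prime := hrdef ▸ hR
  haveI : Fact r.Prime := ⟨hr⟩
  have hRne : R ≠ ⊥ := by
    intro h
    rw [h, Subgroup.card_bot] at hrdef
    exact hr.one_lt.ne hrdef
  obtain ⟨x', hx1⟩ := Subgroup.ne_bot_iff_exists_ne_one.mp hRne
  have hzp : Subgroup.zpowers x' = ⊤ := zpowers_eq_top_of_prime_card hrdef hx1
  obtain ⟨x, hxR⟩ := x'
  have hxr : x ^ r = 1 := by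
    have h1 : (⟨x, hxR⟩ : ↥R) ^ r = 1 := by
      rw [← hrdef]
      exact pow_card_eq_one'
    simpa using congrArg Subtype.val h1
  have hRgen : ∀ y ∈ R, ∃ n : ℤ, x ^ n = y := by
    intro y hy
    have h1 : (⟨y, hy⟩ : ↥R) ∈ Subgroup.zpowers (⟨x, hxR⟩ : ↥R) := by
      rw [hzp]
      trivial
    obtain ⟨n, hn⟩ := Subgroup.mem_zpowers_iff.mp h1
    exact ⟨n, by simpa using congrArg Subtype.val hn⟩
  have hcentR : ∀ g : X, x * g = g * x → g ∈ Subgroup.centralizer (R : Set X) := by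
    intro g hg
    rw [Subgroup.mem_centralizer_iff]
    intro y hy
    obtain ⟨n, rfl⟩ := hRgen y hy
    exact (Commute.zpow_left (show Commute x g from hg) n).eq
  have hRK : R ≤ Subgroup.normalizer (K : Set X) := hRG.trans hKn
  have hcardG : Nat.card G = r * Nat.card K := by
    have h1 := Cfsg.Agent.Lib.Helper19.relIndex_sup_of_le_normalizer K R hRK
    rw [hKRG] at h1
    have h2 : R.relIndex K = Nat.card K := by
      rw [← Subgroup.inf_relIndex_right, inf_comm, hKR, Subgroup.relIndex_bot_left]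
    have h3 := Subgroup.relIndex_mul_relIndex ⊥ R G bot_le hRG
    rw [Subgroup.relIndex_bot_left, Subgroup.relIndex_bot_left, h1, h2, hrdef] at h3
    exact h3.symm
  have hrelK : K.relIndex G = r := by
    have h3 := Subgroup.relIndex_mul_relIndex ⊥ K G bot_le hKG
    rw [Subgroup.relIndex_bot_left, Subgroup.relIndex_bot_left, hcardG] at h3
    have hK0 : 0 < Nat.card K := Nat.card_pos
    exact Nat.eq_of_mul_eq_mul_left hK0 (by rw [h3, mul_comm])
  have hcopK : (Nat.card K).Coprime r := by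
    rw [← hrelK]
    exact hHall
  let xG : ↥G := ⟨x, hRG hxR⟩
  let Ψ : ↥G →* MulAut ↥V := V.normalizerMonoidHom.comp (Subgroup.inclusion hGV)
  have hΨ : ∀ (g : ↥G) (v : ↥V), ((Ψ g v : ↥V) : X) = (g : X) * v * (g : X)⁻¹ := fun g v => rfl
  obtain ⟨τ, hτdef⟩ : ∃ τ : MulAut ↥V, τ = Ψ xG := ⟨_, rfl⟩
  obtain ⟨Kb, hKbdef⟩ : ∃ Kb : Subgroup (MulAut ↥V), Kb = (K.subgroupOf G).map Ψ := ⟨_, rfl⟩
  have hKbmem : ∀ k (hk : k ∈ K), Ψ ⟨k, hKG hk⟩ ∈ Kb := by
    intro k hk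
    rw [hKbdef]
    exact ⟨⟨k, hKG hk⟩, Subgroup.mem_subgroupOf.mpr hk, rfl⟩
  obtain ⟨hxK1, hxK2⟩ := Cfsg.Agent.Lib.Helper20.HS.conj_mem_of_normalizer K x (hKn (hRG hxR))
  have hτKb : τ ∈ Subgroup.normalizer (Kb : Set (MulAut ↥V)) := by
    apply Cfsg.Agent.Lib.Helper20.HS.mem_normalizer_of_conj
    · rw [hKbdef, hτdef]
      rintro _ ⟨k, hk, rfl⟩
      refine ⟨xG * k * xG⁻¹, ?_, ?_⟩
      · rw [SetLike.mem_coe, Subgroup.mem_subgroupOf] at hk ⊢
        exact hxK1 k hk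
      · rw [map_mul, map_mul, map_inv]
    · rw [hKbdef, hτdef]
      rintro _ ⟨k, hk, rfl⟩
      refine ⟨xG⁻¹ * k * xG, ?_, ?_⟩
      · rw [SetLike.mem_coe, Subgroup.mem_subgroupOf] at hk ⊢
        exact hxK2 k hk
      · rw [map_mul, map_mul, map_inv]
  have hτr : τ ^ r = 1 := by
    rw [hτdef, ← map_pow]
    have h1 : xG ^ r = 1 := Subtype.ext (by simpa [xG] using hxr)
    rw [h1, map_one]
  have hfix : ∀ a : ↥V, τ a = a → a = 1 := by
    intro a ha
    apply Subtype.ext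
    have h1 : (a : X) ∈ V ⊓ Subgroup.centralizer (R : Set X) := by
      refine Subgroup.mem_inf.mpr ⟨a.2, hcentR _ ?_⟩
      have h2 := hΨ xG a
      rw [← hτdef, ha] at h2
      calc x * a = x * a * x⁻¹ * x := by group
        _ = a * x := by rw [← h2]
    rw [hCV] at h1
    exact Subgroup.mem_bot.mp h1
  have hcardKb : Nat.card Kb ∣ Nat.card K := by
    have h1 : Nat.card Kb ∣ Nat.card (K.subgroupOf G) := by
      rw [hKbdef]
      exact Subgroup.card_map_dvd _ _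
    have h2 : Nat.card (K.subgroupOf G) = Nat.card K :=
      Nat.card_congr (Subgroup.subgroupOfEquivOfLe hKG).toEquiv
    rwa [h2] at h1
  have hcardτ : Nat.card (Subgroup.zpowers τ) ∣ r := by
    rw [Nat.card_zpowers]
    exact orderOf_dvd_of_pow_eq_one hτr
  have hcop : (Nat.card (Subgroup.zpowers τ)).Coprime (Nat.card Kb) :=
    Nat.Coprime.coprime_dvd_left hcardτ (Nat.Coprime.coprime_dvd_right hcardKb hcopK.symm)
  have hoddK : Odd (Nat.card Kb) :=
    Odd.of_dvd_nat hodd (hcardKb.trans (Subgroup.card_dvd_of_le hKG))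
  have hAc : ∀ a b : ↥V, a * b = b * a := fun a b => hV.1.is_comm.comm a b
  have hA : ∀ a : ↥V, a ^ ℓ = 1 := fun a => Subtype.ext (by simpa using hV.2 a a.2)
  have hmainq : ∀ q : ℕ, q.Prime → q ∣ Nat.card Kb → ∀ (Q : Subgroup (MulAut ↥V)), IsPGroup q Q →
      τ ∈ Subgroup.normalizer (Q : Set (MulAut ↥V)) → ∀ g ∈ Q, τ * g = g * τ := by
    intro q hq hqK Q hQ hτQ
    have hq2 : q ≠ 2 := by
      rintro rfl
      exact (Nat.not_even_iff_odd.mpr hoddK) (even_iff_two_dvd.mpr hqK)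
    have hqG : q ∣ Nat.card G := hqK.trans (hcardKb.trans (Subgroup.card_dvd_of_le hKG))
    have hℓq : ℓ ≠ q := by
      rintro rfl
      exact hℓG hqG
    have hℓr : ℓ ≠ r := by
      rintro rfl
      apply hℓG
      rw [hcardG]
      exact dvd_mul_right _ _
    have hqr : q ≠ r := by
      rintro rfl
      have h1 := hqK.trans hcardKb
      have h2 := Nat.Coprime.eq_one_of_dvd hcopK.symm h1
      exact hq.one_lt.ne' h2
    exact Cfsg.Agent.Lib.Helper20.HS.main_aut hℓ hq hr hℓq hℓr hqr hAc hA τ hτr Q hQ hτQ hfix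
      (fun h => absurd h hq2)
  obtain ⟨C, hCdef⟩ : ∃ C : Subgroup (MulAut ↥V),
      C = Kb ⊓ Subgroup.centralizer (Subgroup.zpowers τ : Set (MulAut ↥V)) := ⟨_, rfl⟩
  have hCK : C ≤ Kb := by
    rw [hCdef]
    exact inf_le_left
  have hdvd : Nat.card Kb ∣ Nat.card C := by
    have hK0 : Nat.card Kb ≠ 0 := Nat.card_pos.ne'
    have hC0 : Nat.card C ≠ 0 := Nat.card_pos.ne'
    rw [← Nat.factorization_prime_le_iff_dvd hK0 hC0]
    intro q hq
    haveI : Fact q.Prime := ⟨hq⟩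
    by_cases hqK : q ∣ Nat.card Kb
    · obtain ⟨P, hP⟩ := Cfsg.Agent.S0023.result (Subgroup.zpowers τ) Kb
        (Subgroup.zpowers_le.mpr hτKb) hcop (Or.inl inferInstance) q
      obtain ⟨Qq, hQq⟩ : ∃ Qq : Subgroup (MulAut ↥V), Qq = (P : Subgroup Kb).map Kb.subtype :=
        ⟨_, rfl⟩
      rw [← hQq] at hP
      have hQqP : IsPGroup q Qq := by
        rw [hQq]
        exact P.isPGroup'.map _
      have hQqK : Qq ≤ Kb := by
        rw [hQq]
        exact Subgroup.map_subtype_le _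
      have hcomm := hmainq q hq hqK Qq hQqP (hP (Subgroup.mem_zpowers τ))
      have hQqC : Qq ≤ C := by
        intro g hg
        rw [hCdef]
        refine Subgroup.mem_inf.mpr ⟨hQqK hg, ?_⟩
        rw [Subgroup.mem_centralizer_iff]
        intro a ha
        obtain ⟨n, rfl⟩ := Subgroup.mem_zpowers_iff.mp ha
        exact ((Commute.zpow_left (show Commute τ g from hcomm g hg) n).eq)
      have hcardQq : Nat.card Qq = q ^ (Nat.card Kb).factorization q := by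
        rw [hQq, Subgroup.card_map_of_injective (Subgroup.subtype_injective _)]
        exact P.card_eq_multiplicity
      have h5 := Subgroup.card_dvd_of_le hQqC
      rw [hcardQq] at h5
      exact (hq.pow_dvd_iff_le_factorization hC0).mp h5
    · rw [Nat.factorization_eq_zero_of_not_dvd hqK]
      exact Nat.zero_le _
  have hCeq : C = Kb := Subgroup.eq_of_le_of_card_ge hCK (Nat.le_of_dvd Nat.card_pos hdvd)
  have hKbc : ∀ g ∈ Kb, ∀ n : ℤ, τ ^ n * g = g * τ ^ n := by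
    intro g hg n
    have h1 : g ∈ C := hCeq ▸ hg
    rw [hCdef] at h1
    exact (Subgroup.mem_centralizer_iff.mp (Subgroup.mem_inf.mp h1).2 _
      (Subgroup.zpow_mem_zpowers τ n))
  rw [Subgroup.commutator_le]
  intro a ha k hk
  rw [Subgroup.mem_centralizer_iff]
  intro v hv
  obtain ⟨n, rfl⟩ := hRgen a ha
  have h1 := hKbc (Ψ ⟨k, hKG hk⟩) (hKbmem k hk) n
  have h2 : τ ^ n = Ψ (xG ^ n) := by
    rw [hτdef]
    exact (map_zpow Ψ xG n).symm
  rw [h2] at h1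
  have h5 : Ψ (xG ^ n * ⟨k, hKG hk⟩ * (xG ^ n)⁻¹ * (⟨k, hKG hk⟩ : ↥G)⁻¹) = 1 := by
    simp only [map_mul, map_inv]
    rw [h1]
    group
  have h6 := hΨ (xG ^ n * ⟨k, hKG hk⟩ * (xG ^ n)⁻¹ * (⟨k, hKG hk⟩ : ↥G)⁻¹) ⟨v, hv⟩
  rw [h5] at h6
  have h7 : ((xG ^ n * ⟨k, hKG hk⟩ * (xG ^ n)⁻¹ * (⟨k, hKG hk⟩ : ↥G)⁻¹ : ↥G) : X)
      = x ^ n * k * (x ^ n)⁻¹ * k⁻¹ := by
    simp [xG]
  rw [h7] at h6
  simp only [MulAut.one_apply] at h6
  rw [commutatorElement_def]
  generalize x ^ n * k * (x ^ n)⁻¹ * k⁻¹ = c at h6 ⊢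
  calc v * c = (c * v * c⁻¹) * c := by rw [← h6]
    _ = c * v := by group

end Cfsg.Agent.S3769
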