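import Cfsg.Statements.S3775
import Mathlib

set_option autoImplicit false
open Cfsg

namespace Cfsg.Agent.S3775

variable {A : Type*} [CommGroup A] [Finite A] {p : ℕ} [Fact p.Prime]

theorem inv_iff (X : Subgroup (MulAut A)) (B : Subgroup A) :
    (∀ x ∈ X, B.map x.toMonoidHom = B) ↔ (∀ x ∈ X, ∀ b ∈ B, x b ∈ B) := by
  constructor
  · intro h x hx b hb
    have : x.toMonoidHom b ∈ B.map x.toMonoidHom := Subgroup.mem_map_of_mem _ hb
    rw [h x hx] at this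
    exact this
  · intro h x hx
    apply le_antisymm
    · rintro _ ⟨b, hb, rfl⟩
      exact h x hx b hb
    · intro b hb
      exact ⟨x⁻¹ b, h x⁻¹ (inv_mem hx) b hb, by simp⟩

theorem exists_compl (hA : IsPGroup p A)
    (L H G : Subgroup A) (hLH : L ≤ H) (hHG : H ≤ G)
    (hU : ∀ C : Subgroup A, L ≤ C → C ≤ G → C ⊓ H ≤ L → ∀ g ∈ G, g ^ p ∈ C ⊔ H →
      ∃ h₁ ∈ H, (g * h₁⁻¹) ^ p ∈ C) :
    ∃ C : Subgroup A, L ≤ C ∧ C ≤ G ∧ C ⊓ H ≤ L ∧ G ≤ C ⊔ H := by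
  classical
  obtain ⟨C, -, hC⟩ := Finite.exists_le_maximal (p := fun C : Subgroup A => L ≤ C ∧ C ≤ G ∧ C ⊓ H ≤ L)
    (a := L) ⟨le_rfl, hLH.trans hHG, inf_le_left⟩
  refine ⟨C, hC.prop.1, hC.prop.2.1, hC.prop.2.2, ?_⟩
  by_contra hcon
  obtain ⟨g, hgG, hg⟩ := SetLike.not_le_iff_exists.1 hcon
  obtain ⟨n, hn⟩ := hA g
  have hex : ∃ k, g ^ p ^ k ∈ C ⊔ H := ⟨n, by rw [hn]; exact one_mem _⟩
  have hk : g ^ p ^ (Nat.find hex) ∈ C ⊔ H := Nat.find_spec hex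
  have hk0 : Nat.find hex ≠ 0 := by
    intro h0
    rw [h0, pow_zero, pow_one] at hk
    exact hg hk
  obtain ⟨k', hk'⟩ := Nat.exists_eq_succ_of_ne_zero hk0
  have hk1 : g ^ p ^ k' ∉ C ⊔ H := Nat.find_min hex (by omega)
  have hg'p : (g ^ p ^ k') ^ p ∈ C ⊔ H := by
    rw [← pow_mul, ← pow_succ, ← Nat.succ_eq_add_one, ← hk']
    exact hk
  obtain ⟨h₁, hh₁, hb⟩ := hU C hC.prop.1 hC.prop.2.1 hC.prop.2.2 _ (pow_mem hgG _) hg'p
  have hbG : g ^ p ^ k' * h₁⁻¹ ∈ G := mul_mem (pow_mem hgG _) (inv_mem (hHG hh₁))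
  have hb' : g ^ p ^ k' * h₁⁻¹ ∉ C ⊔ H := by
    intro hmem
    apply hk1
    have : g ^ p ^ k' = g ^ p ^ k' * h₁⁻¹ * h₁ := by group
    rw [this]
    exact mul_mem hmem (Subgroup.mem_sup_right hh₁)
  generalize g ^ p ^ k' * h₁⁻¹ = b at hb hbG hb'
  have h1 : (C ⊔ Subgroup.zpowers b) ⊓ H ≤ L := by
    rintro x ⟨hx1, hx2⟩
    obtain ⟨c, hc, z, hz, rfl⟩ := Subgroup.mem_sup.1 hx1
    obtain ⟨j, rfl⟩ := mem_powers_iff_mem_zpowers.2 hz
    by_cases hj : p ∣ j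
    · obtain ⟨m, rfl⟩ := hj
      have : b ^ (p * m) ∈ C := by rw [pow_mul]; exact pow_mem hb m
      exact hC.prop.2.2 ⟨mul_mem hc this, hx2⟩
    · exfalso
      have hcop : Nat.Coprime j (orderOf b) := by
        obtain ⟨t, ht⟩ := (IsPGroup.iff_orderOf.1 hA) b
        rw [ht]
        exact Nat.Coprime.pow_right _ (Nat.coprime_comm.1 ((Nat.Prime.coprime_iff_not_dvd Fact.out).2 hj))
      obtain ⟨m, hm⟩ := exists_pow_eq_self_of_coprime hcop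
      apply hb'
      rw [← hm]
      apply pow_mem
      have : b ^ j = c⁻¹ * (c * b ^ j) := by group
      rw [this]
      exact mul_mem (Subgroup.mem_sup_left (inv_mem hc)) (Subgroup.mem_sup_right hx2)
  have h2 : C ⊔ Subgroup.zpowers b ≤ C :=
    hC.le_of_ge ⟨hC.prop.1.trans le_sup_left, sup_le hC.prop.2.1 ((Subgroup.zpowers_le).2 hbG), h1⟩ le_sup_left
  exact hb' (Subgroup.mem_sup_left (h2 (Subgroup.mem_sup_right (Subgroup.mem_zpowers b))))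

theorem avg (hA : IsPGroup p A) (X : Subgroup (MulAut A)) (hX : (Nat.card X).Coprime p)
    (L H V C : Subgroup A)
    (hL : ∀ x ∈ X, ∀ b ∈ L, x b ∈ L) (hH : ∀ x ∈ X, ∀ b ∈ H, x b ∈ H)
    (hV : ∀ x ∈ X, ∀ b ∈ V, x b ∈ V)
    (hLH : L ≤ H) (hHV : H ≤ V) (hCH : C ⊓ H ≤ L) (hsup : V ≤ C ⊔ H) :
    ∃ C' : Subgroup A, (∀ x ∈ X, ∀ b ∈ C', x b ∈ C') ∧ L ≤ C' ∧ C' ≤ V ∧ C' ⊓ H ≤ L ∧
      V ≤ C' ⊔ H := by
  classical
  haveI : Fintype X := Fintype.ofFinite X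
  have keyL : ∀ a b : A, (QuotientGroup.mk' L a = QuotientGroup.mk' L b) ↔ a⁻¹ * b ∈ L :=
    fun a b => QuotientGroup.eq
  have keyC : ∀ a b : A, (QuotientGroup.mk' C a = QuotientGroup.mk' C b) ↔ a⁻¹ * b ∈ C :=
    fun a b => QuotientGroup.eq
  have oneL : ∀ a : A, QuotientGroup.mk' L a = 1 ↔ a ∈ L := fun a => QuotientGroup.eq_one_iff a
  have oneC : ∀ a : A, QuotientGroup.mk' C a = 1 ↔ a ∈ C := fun a => QuotientGroup.eq_one_iff a
  have hex : ∀ v : A, ∃ h : A, v ∈ V → (h ∈ H ∧ QuotientGroup.mk' C h = QuotientGroup.mk' C v) := by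
    intro v
    by_cases hv : v ∈ V
    · obtain ⟨c, hc, h, hh, rfl⟩ := Subgroup.mem_sup.1 (hsup hv)
      refine ⟨h, fun _ => ⟨hh, ?_⟩⟩
      rw [map_mul, (oneC c).2 hc, one_mul]
    · exact ⟨1, fun h => absurd h hv⟩
  choose η hη using hex
  have hcong : ∀ x ∈ X, ∀ a b : A, QuotientGroup.mk' L a = QuotientGroup.mk' L b →
      QuotientGroup.mk' L (x a) = QuotientGroup.mk' L (x b) := by
    intro x hx a b hab
    rw [keyL] at hab ⊢
    have := hL x hx _ hab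
    rwa [map_mul, map_inv] at this
  have hη2 : ∀ v ∈ V, ∀ w ∈ V, QuotientGroup.mk' L (η (v * w)) = QuotientGroup.mk' L (η v * η w) := by
    intro v hv w hw
    rw [keyL]
    refine hCH (Subgroup.mem_inf.2 ⟨?_, mul_mem (inv_mem (hη _ (mul_mem hv hw)).1) (mul_mem (hη v hv).1 (hη w hw).1)⟩)
    rw [← keyC, (hη _ (mul_mem hv hw)).2, map_mul, map_mul, (hη v hv).2, (hη w hw).2]
  have hη3 : ∀ h ∈ H, QuotientGroup.mk' L (η h) = QuotientGroup.mk' L h := by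
    intro h hh
    rw [keyL]
    exact hCH (Subgroup.mem_inf.2 ⟨(keyC _ _).1 (hη h (hHV hh)).2, mul_mem (inv_mem (hη h (hHV hh)).1) hh⟩)
  let τ : A → A := fun v => ∏ x : X, (x : MulAut A) (η ((x : MulAut A)⁻¹ v))
  have hτH : ∀ v ∈ V, τ v ∈ H := fun v hv =>
    Subgroup.prod_mem H (fun x _ => hH x x.2 _ (hη _ (hV _ (inv_mem x.2) v hv)).1)
  have hqτ : ∀ v, QuotientGroup.mk' L (τ v) =
      ∏ x : X, QuotientGroup.mk' L ((x : MulAut A) (η ((x : MulAut A)⁻¹ v))) :=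
    fun v => map_prod (QuotientGroup.mk' L) _ _
  have hτmul : ∀ v ∈ V, ∀ w ∈ V, QuotientGroup.mk' L (τ (v * w)) =
      QuotientGroup.mk' L (τ v) * QuotientGroup.mk' L (τ w) := by
    intro v hv w hw
    rw [hqτ, hqτ, hqτ, ← Finset.prod_mul_distrib]
    apply Finset.prod_congr rfl
    intro x _
    have e1 : (x : MulAut A)⁻¹ (v * w) = (x : MulAut A)⁻¹ v * (x : MulAut A)⁻¹ w := map_mul _ _ _
    have e2 := hcong x x.2 _ _ (hη2 _ (hV _ (inv_mem x.2) v hv) _ (hV _ (inv_mem x.2) w hw))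
    rw [e1, e2, map_mul, map_mul]
  have hτpow : ∀ h ∈ H, QuotientGroup.mk' L (τ h) = QuotientGroup.mk' L h ^ Fintype.card X := by
    intro h hh
    rw [hqτ]
    have : ∀ x : X, QuotientGroup.mk' L ((x : MulAut A) (η ((x : MulAut A)⁻¹ h))) =
        QuotientGroup.mk' L h := by
      intro x
      have := hcong x x.2 _ _ (hη3 _ (hH _ (inv_mem x.2) h hh))
      rw [this, MulAut.apply_inv_self]
    rw [Fintype.prod_congr _ _ this, Finset.prod_const, Finset.card_univ]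
  have hτeq : ∀ y ∈ X, ∀ v, τ (y v) = y (τ v) := by
    intro y hy v
    show ∏ x : X, (x : MulAut A) (η ((x : MulAut A)⁻¹ (y v))) =
      y (∏ x : X, (x : MulAut A) (η ((x : MulAut A)⁻¹ v)))
    rw [map_prod]
    refine ((Equiv.prod_comp (Equiv.mulLeft (⟨y, hy⟩ : X)) _).symm.trans ?_)
    apply Finset.prod_congr rfl
    intro x _
    simp [mul_inv_rev]
  have hτ1 : QuotientGroup.mk' L (τ 1) = 1 := by
    rw [hτpow 1 (one_mem H), map_one, one_pow]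
  have hcop : p.Coprime (Fintype.card X) := by
    rw [← Nat.card_eq_fintype_card]
    exact hX.symm
  let C' : Subgroup A :=
    { carrier := {v | v ∈ V ∧ QuotientGroup.mk' L (τ v) = 1}
      mul_mem' := by
        rintro v w ⟨hv, hv'⟩ ⟨hw, hw'⟩
        exact ⟨mul_mem hv hw, by rw [hτmul v hv w hw, hv', hw', one_mul]⟩
      one_mem' := ⟨one_mem V, hτ1⟩
      inv_mem' := by
        rintro v ⟨hv, hv'⟩
        refine ⟨inv_mem hv, ?_⟩
        have := hτmul v hv v⁻¹ (inv_mem hv)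
        rw [mul_inv_cancel, hτ1, hv', one_mul] at this
        exact this.symm }
  have hC'mem : ∀ v, v ∈ C' ↔ v ∈ V ∧ QuotientGroup.mk' L (τ v) = 1 := fun v => Iff.rfl
  refine ⟨C', ?_, ?_, ?_, ?_, ?_⟩
  · intro y hy v hv
    rw [hC'mem] at hv ⊢
    refine ⟨hV y hy v hv.1, ?_⟩
    rw [hτeq y hy]
    have := hcong y hy (τ v) 1 (by rw [hv.2, map_one])
    rw [this, map_one, map_one]
  · intro l hl
    rw [hC'mem]
    refine ⟨hHV (hLH hl), ?_⟩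
    rw [hτpow l (hLH hl), (oneL l).2 hl, one_pow]
  · intro v hv
    exact hv.1
  · rintro v ⟨hv1, hv2⟩
    have h1 := ((hC'mem v).1 hv1).2
    rw [hτpow v hv2] at h1
    have hq : IsPGroup p (A ⧸ L) := hA.to_quotient L
    have h2 := (hq.powEquiv hcop).injective (a₁ := QuotientGroup.mk' L v) (a₂ := 1) (by
      show QuotientGroup.mk' L v ^ Fintype.card X = 1 ^ Fintype.card X
      rw [h1, one_pow])
    exact (oneL v).1 h2
  · intro v hv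
    have hH' : IsPGroup p H := hA.to_subgroup H
    obtain ⟨h, hh⟩ := (hH'.powEquiv hcop).surjective ⟨τ v, hτH v hv⟩
    have hh' : (h : A) ^ Fintype.card X = τ v := congrArg Subtype.val hh
    have e1 : v = v * (h : A)⁻¹ * h := by group
    rw [e1]
    refine mul_mem (Subgroup.mem_sup_left ?_) (Subgroup.mem_sup_right h.2)
    rw [hC'mem]
    have hm : v * (h : A)⁻¹ ∈ V := mul_mem hv (inv_mem (hHV h.2))
    refine ⟨hm, ?_⟩
    have e2 := hτmul _ hm h (hHV h.2)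
    rw [← e1, hτpow h h.2, ← map_pow, hh'] at e2
    exact (mul_eq_right.1 e2.symm)


theorem key (hA : IsPGroup p A) (X : Subgroup (MulAut A)) (hX : (Nat.card X).Coprime p)
    (hP1 : ∀ B C : Subgroup A, (∀ x ∈ X, ∀ b ∈ B, x b ∈ B) → (∀ x ∈ X, ∀ b ∈ C, x b ∈ C) →
      B ⊓ C ≤ ⊥ → ⊤ ≤ B ⊔ C → B = ⊥ ∨ C = ⊥)
    (e : ℕ) (he : ∀ a : A, a ^ p ^ (e + 1) = 1)
    (B₀ : Subgroup A) (hB₀ : ∀ x ∈ X, ∀ b ∈ B₀, x b ∈ B₀) (hne : B₀ ≠ ⊥)
    (hsub : ∀ b ∈ B₀, ∃ a : A, a ^ p ^ e = b) :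
    (∀ a : A, a ^ p ^ e ∈ B₀) ∧ (∀ a : A, a ^ p ^ e = 1 → ∃ a₁ : A, a = a₁ ^ p) := by
  classical
  have hπ : ∀ a : A, powMonoidHom (p ^ e) a = a ^ p ^ e := fun a => rfl
  have h0 : (∀ x ∈ X, ∀ b ∈ B₀.comap (powMonoidHom (p ^ e)), x b ∈ B₀.comap (powMonoidHom (p ^ e))) ∧
      (B₀.comap (powMonoidHom (p ^ e))).map (powMonoidHom (p ^ e)) = B₀ := by
    constructor
    · intro x hx b hb
      rw [Subgroup.mem_comap, hπ] at hb ⊢
      rw [← map_pow]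
      exact hB₀ x hx _ hb
    · apply Subgroup.map_comap_eq_self
      intro b hb
      obtain ⟨a, rfl⟩ := hsub b hb
      exact ⟨a, rfl⟩
  obtain ⟨V, -, hV⟩ := Finite.exists_le_minimal (p := fun V : Subgroup A =>
    (∀ x ∈ X, ∀ b ∈ V, x b ∈ V) ∧ V.map (powMonoidHom (p ^ e)) = B₀) h0
  have hVinv := hV.prop.1
  have hVmap := hV.prop.2
  have hKinv : ∀ x ∈ X, ∀ b ∈ V ⊓ (powMonoidHom (p ^ e) : A →* A).ker,
      x b ∈ V ⊓ (powMonoidHom (p ^ e) : A →* A).ker := by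
    intro x hx b hb
    rw [Subgroup.mem_inf, MonoidHom.mem_ker, hπ] at hb ⊢
    exact ⟨hVinv x hx b hb.1, by rw [← map_pow, hb.2, map_one]⟩
  have hLinv : ∀ x ∈ X, ∀ b ∈ V.map (powMonoidHom p), x b ∈ V.map (powMonoidHom p) := by
    intro x hx b hb
    obtain ⟨v, hv, rfl⟩ := Subgroup.mem_map.1 hb
    exact Subgroup.mem_map.2 ⟨x v, hVinv x hx v hv, (map_pow x v p).symm⟩
  have hLK : V.map (powMonoidHom p) ≤ V ⊓ (powMonoidHom (p ^ e) : A →* A).ker := by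
    intro b hb
    obtain ⟨v, hv, rfl⟩ := Subgroup.mem_map.1 hb
    rw [Subgroup.mem_inf, MonoidHom.mem_ker, hπ]
    refine ⟨pow_mem hv p, ?_⟩
    show (v ^ p) ^ p ^ e = 1
    rw [← pow_mul, ← pow_succ', he]
  obtain ⟨C, hLC, hCV, hCK, hVCK⟩ := exists_compl hA (V.map (powMonoidHom p))
    (V ⊓ (powMonoidHom (p ^ e) : A →* A).ker) V hLK inf_le_left
    (by
      intro C hLC _ _ g hg _
      refine ⟨1, one_mem _, ?_⟩
      rw [inv_one, mul_one]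
      exact hLC (Subgroup.mem_map.2 ⟨g, hg, rfl⟩))
  obtain ⟨C', hC'inv, hLC', hC'V, hC'K, hVC'K⟩ :=
    avg hA X hX _ _ V C hLinv hKinv hVinv hLK inf_le_left hCK hVCK
  have hC'map : C'.map (powMonoidHom (p ^ e)) = B₀ := by
    apply le_antisymm
    · rw [← hVmap]
      exact Subgroup.map_mono hC'V
    · intro b hb
      rw [← hVmap] at hb
      obtain ⟨v, hv, rfl⟩ := Subgroup.mem_map.1 hb
      obtain ⟨c, hc, k, hk, rfl⟩ := Subgroup.mem_sup.1 (hVC'K hv)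
      rw [map_mul, (MonoidHom.mem_ker.1 (Subgroup.mem_inf.1 hk).2), mul_one]
      exact Subgroup.mem_map_of_mem _ hc
  have hVC' : V ≤ C' := hV.le_of_le ⟨hC'inv, hC'map⟩ hC'V
  have hHP : ∀ v ∈ V, v ^ p ^ e = 1 → ∃ v₁ ∈ V, v = v₁ ^ p := by
    intro v hv hv1
    have : v ∈ V.map (powMonoidHom p) :=
      hC'K (Subgroup.mem_inf.2 ⟨hVC' hv, Subgroup.mem_inf.2 ⟨hv, MonoidHom.mem_ker.2 hv1⟩⟩)
    obtain ⟨v₁, hv₁, rfl⟩ := Subgroup.mem_map.1 this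
    exact ⟨v₁, hv₁, rfl⟩
  obtain ⟨C₂, -, -, hC₂V, hC₂top⟩ := exists_compl hA ⊥ V ⊤ bot_le le_top
    (by
      intro C _ _ hCV g _ hg
      obtain ⟨c, hc, v, hv, hcv⟩ := Subgroup.mem_sup.1 hg
      have h1 : v ^ p ^ e = (c ^ p ^ e)⁻¹ := by
        rw [eq_inv_iff_mul_eq_one, mul_comm, ← mul_pow, hcv, ← pow_mul, ← pow_succ', he]
      have h2 : v ^ p ^ e = 1 := by
        have h3 : v ^ p ^ e ∈ C := by
          rw [h1]
          exact inv_mem (pow_mem hc _)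
        exact Subgroup.mem_bot.1 (hCV (Subgroup.mem_inf.2 ⟨h3, pow_mem hv _⟩))
      obtain ⟨v₁, hv₁, rfl⟩ := hHP v hv h2
      refine ⟨v₁, hv₁, ?_⟩
      rw [mul_pow, inv_pow, ← hcv, mul_inv_cancel_right]
      exact hc)
  obtain ⟨C₃, hC₃inv, -, -, hC₃V, hC₃top⟩ := avg hA X hX ⊥ V ⊤ C₂
    (by
      intro x _ b hb
      rw [Subgroup.mem_bot] at hb ⊢
      rw [hb, map_one])
    hVinv (fun _ _ _ _ => Subgroup.mem_top _) bot_le le_top hC₂V hC₂top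
  have hVtop : V = ⊤ := by
    rcases hP1 C₃ V hC₃inv hVinv hC₃V hC₃top with h | h
    · rw [h, bot_sup_eq] at hC₃top
      exact top_le_iff.1 hC₃top
    · exfalso
      apply hne
      rw [← hVmap, h, Subgroup.map_bot]
  constructor
  · intro a
    rw [← hVmap, hVtop]
    exact Subgroup.mem_map_of_mem _ (Subgroup.mem_top a)
  · intro a ha
    obtain ⟨a₁, -, h⟩ := hHP a (by rw [hVtop]; exact Subgroup.mem_top a) ha
    exact ⟨a₁, h⟩

theorem p23 (X : Subgroup (MulAut A)) :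
    (∀ B : Subgroup A, (∀ x ∈ X, ∀ b ∈ B, x b ∈ B) → ∃ i : ℕ, ∀ a : A, a ∈ B ↔ a ^ p ^ i = 1) →
    (∀ B : Subgroup A, (∀ x ∈ X, ∀ b ∈ B, x b ∈ B) → (∀ b ∈ B, b ^ p = 1) →
      B = ⊥ ∨ ∀ a : A, a ∈ B ↔ a ^ p = 1) := by
  intro h B hB hexp
  obtain ⟨i, hi⟩ := h B hB
  rcases Nat.eq_zero_or_pos i with rfl | hpos
  · left
    rw [Subgroup.eq_bot_iff_forall]
    intro a ha
    simpa using (hi a).1 ha
  · right
    intro a
    refine ⟨hexp a, fun ha => (hi a).2 ?_⟩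
    obtain ⟨j, rfl⟩ := Nat.exists_eq_succ_of_ne_zero hpos.ne'
    rw [pow_succ', pow_mul, ha, one_pow]

theorem p21 (X : Subgroup (MulAut A)) :
    (∀ B : Subgroup A, (∀ x ∈ X, ∀ b ∈ B, x b ∈ B) → ∃ i : ℕ, ∀ a : A, a ∈ B ↔ a ^ p ^ i = 1) →
    (¬ ∃ B C : Subgroup A, B ≠ ⊥ ∧ C ≠ ⊥ ∧ (∀ x ∈ X, ∀ b ∈ B, x b ∈ B) ∧
      (∀ x ∈ X, ∀ b ∈ C, x b ∈ C) ∧ B ⊓ C = ⊥ ∧ B ⊔ C = ⊤) := by
  rintro h ⟨B, C, hB, hC, hBi, hCi, hBC, -⟩
  obtain ⟨i, hi⟩ := h B hBi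
  obtain ⟨j, hj⟩ := h C hCi
  rcases le_total i j with hij | hij
  · apply hB
    rw [Subgroup.eq_bot_iff_forall]
    intro a ha
    have h1 : a ∈ C := (hj a).2 (by
      obtain ⟨d, rfl⟩ := Nat.exists_eq_add_of_le hij
      rw [pow_add, pow_mul, (hi a).1 ha, one_pow])
    have h2 : a ∈ B ⊓ C := Subgroup.mem_inf.2 ⟨ha, h1⟩
    rw [hBC] at h2
    exact Subgroup.mem_bot.1 h2
  · apply hC
    rw [Subgroup.eq_bot_iff_forall]
    intro a ha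
    have h1 : a ∈ B := (hi a).2 (by
      obtain ⟨d, rfl⟩ := Nat.exists_eq_add_of_le hij
      rw [pow_add, pow_mul, (hj a).1 ha, one_pow])
    have h2 : a ∈ B ⊓ C := Subgroup.mem_inf.2 ⟨h1, ha⟩
    rw [hBC] at h2
    exact Subgroup.mem_bot.1 h2

theorem p32 (hA : IsPGroup p A) (X : Subgroup (MulAut A)) :
    (∀ B : Subgroup A, (∀ x ∈ X, ∀ b ∈ B, x b ∈ B) → (∀ b ∈ B, b ^ p = 1) →
      B = ⊥ ∨ ∀ a : A, a ∈ B ↔ a ^ p = 1) →
    (∀ B : Subgroup A, (∀ x ∈ X, ∀ b ∈ B, x b ∈ B) → ∃ i : ℕ, ∀ a : A, a ∈ B ↔ a ^ p ^ i = 1) := by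
  classical
  intro h3
  have L0 : ∀ B : Subgroup A, (∀ x ∈ X, ∀ b ∈ B, x b ∈ B) → B ≠ ⊥ → ∀ a : A, a ^ p = 1 → a ∈ B := by
    intro B hB hne a ha
    obtain ⟨b, hbB, hb1⟩ : ∃ b ∈ B, b ≠ 1 := by
      by_contra hcon
      push Not at hcon
      exact hne ((Subgroup.eq_bot_iff_forall B).2 hcon)
    have hex : ∃ k, b ^ p ^ k = 1 := hA b
    have hk0 : Nat.find hex ≠ 0 := by
      intro h0
      have := Nat.find_spec hex
      rw [h0, pow_zero, pow_one] at this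
      exact hb1 this
    obtain ⟨k', hk'⟩ := Nat.exists_eq_succ_of_ne_zero hk0
    have hc1 : b ^ p ^ k' ≠ 1 := Nat.find_min hex (by omega)
    have hcp : (b ^ p ^ k') ^ p = 1 := by
      rw [← pow_mul, ← pow_succ, ← Nat.succ_eq_add_one, ← hk']
      exact Nat.find_spec hex
    have hB' : ∀ x ∈ X, ∀ b ∈ B ⊓ (powMonoidHom p : A →* A).ker,
        x b ∈ B ⊓ (powMonoidHom p : A →* A).ker := by
      intro x hx b hb
      rw [Subgroup.mem_inf, MonoidHom.mem_ker, powMonoidHom_apply] at hb ⊢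
      exact ⟨hB x hx b hb.1, by rw [← map_pow, hb.2, map_one]⟩
    rcases h3 _ hB' (fun b hb => (Subgroup.mem_inf.1 hb).2) with h | h
    · exfalso
      apply hc1
      have : b ^ p ^ k' ∈ B ⊓ (powMonoidHom p : A →* A).ker :=
        Subgroup.mem_inf.2 ⟨pow_mem hbB _, hcp⟩
      rw [h] at this
      exact Subgroup.mem_bot.1 this
    · exact (Subgroup.mem_inf.1 ((h a).2 ha)).1
  have L1 : ∀ i : ℕ, ∀ B : Subgroup A, (∀ x ∈ X, ∀ b ∈ B, x b ∈ B) → (∃ b ∈ B, b ^ p ^ i ≠ 1) →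
      ∀ a : A, a ^ p ^ (i + 1) = 1 → a ∈ B := by
    intro i
    induction i with
    | zero =>
      rintro B hB ⟨b, hb, hb1⟩ a ha
      refine L0 B hB ?_ a (by simpa using ha)
      intro hbot
      rw [hbot, Subgroup.mem_bot] at hb
      rw [hb, one_pow] at hb1
      exact hb1 rfl
    | succ i ih =>
      rintro B hB ⟨b, hb, hb1⟩ a ha
      have h1 : ∀ c : A, c ^ p ^ (i + 1) = 1 → c ∈ B :=
        ih B hB ⟨b ^ p, pow_mem hb p, by rwa [← pow_mul, ← pow_succ']⟩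
      have hB₁ : ∀ x ∈ X, ∀ b ∈ B.map (powMonoidHom (p ^ (i + 1))),
          x b ∈ B.map (powMonoidHom (p ^ (i + 1))) := by
        intro x hx b hb
        obtain ⟨v, hv, rfl⟩ := Subgroup.mem_map.1 hb
        exact Subgroup.mem_map.2 ⟨x v, hB x hx v hv, (map_pow x v _).symm⟩
      have hne : B.map (powMonoidHom (p ^ (i + 1))) ≠ ⊥ := by
        intro hbot
        have : b ^ p ^ (i + 1) ∈ B.map (powMonoidHom (p ^ (i + 1))) :=
          Subgroup.mem_map.2 ⟨b, hb, rfl⟩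
        rw [hbot] at this
        exact hb1 (Subgroup.mem_bot.1 this)
      have h2 : a ^ p ^ (i + 1) ∈ B.map (powMonoidHom (p ^ (i + 1))) :=
        L0 _ hB₁ hne _ (by rw [← pow_mul, ← pow_succ]; exact ha)
      obtain ⟨b', hb', hb'a⟩ := Subgroup.mem_map.1 h2
      have hb'a' : b' ^ p ^ (i + 1) = a ^ p ^ (i + 1) := hb'a
      have h3 : a * b'⁻¹ ∈ B := h1 _ (by rw [mul_pow, inv_pow, hb'a', mul_inv_cancel])
      have h4 : a = a * b'⁻¹ * b' := by group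
      rw [h4]
      exact mul_mem h3 hb'
  intro B hB
  obtain ⟨n, hn⟩ := IsPGroup.iff_card.1 hA
  have hex : ∃ i, ∀ b ∈ B, b ^ p ^ i = 1 := ⟨n, fun b _ => by rw [← hn]; exact pow_card_eq_one'⟩
  refine ⟨Nat.find hex, fun a => ⟨Nat.find_spec hex a, fun ha => ?_⟩⟩
  rcases Nat.eq_zero_or_pos (Nat.find hex) with h0 | hpos
  · rw [h0, pow_zero, pow_one] at ha
    rw [ha]
    exact one_mem B
  · obtain ⟨j, hj⟩ := Nat.exists_eq_succ_of_ne_zero hpos.ne'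
    have hmin := Nat.find_min hex (m := j) (by omega)
    push Not at hmin
    obtain ⟨b, hb, hb1⟩ := hmin
    exact L1 j B hB ⟨b, hb, hb1⟩ a (by rw [← Nat.succ_eq_add_one, ← hj]; exact ha)

theorem p13 (hA : IsPGroup p A) (X : Subgroup (MulAut A)) (hX : (Nat.card X).Coprime p) :
    (¬ ∃ B C : Subgroup A, B ≠ ⊥ ∧ C ≠ ⊥ ∧ (∀ x ∈ X, ∀ b ∈ B, x b ∈ B) ∧
      (∀ x ∈ X, ∀ b ∈ C, x b ∈ C) ∧ B ⊓ C = ⊥ ∧ B ⊔ C = ⊤) →
    (∀ B : Subgroup A, (∀ x ∈ X, ∀ b ∈ B, x b ∈ B) → (∀ b ∈ B, b ^ p = 1) →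
      B = ⊥ ∨ ∀ a : A, a ∈ B ↔ a ^ p = 1) := by
  classical
  intro h1 B hB hexp
  have hP1 : ∀ B C : Subgroup A, (∀ x ∈ X, ∀ b ∈ B, x b ∈ B) → (∀ x ∈ X, ∀ b ∈ C, x b ∈ C) →
      B ⊓ C ≤ ⊥ → ⊤ ≤ B ⊔ C → B = ⊥ ∨ C = ⊥ := by
    intro B C hB hC h h'
    by_contra hcon
    push Not at hcon
    exact h1 ⟨B, C, hcon.1, hcon.2, hB, hC, le_bot_iff.1 h, top_le_iff.1 h'⟩
  by_cases hBb : B = ⊥
  · left
    exact hBb
  right
  intro a
  refine ⟨hexp a, fun ha => ?_⟩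
  obtain ⟨n, hn⟩ := IsPGroup.iff_card.1 hA
  have hex : ∃ e, ∀ a : A, a ^ p ^ e = 1 := ⟨n, fun a => by rw [← hn]; exact pow_card_eq_one'⟩
  have he0 : Nat.find hex ≠ 0 := by
    intro h0
    have hs := Nat.find_spec hex
    rw [h0] at hs
    apply hBb
    rw [Subgroup.eq_bot_iff_forall]
    intro b _
    simpa using hs b
  obtain ⟨e', he'⟩ := Nat.exists_eq_succ_of_ne_zero he0
  have he : ∀ a : A, a ^ p ^ (e' + 1) = 1 := by
    have hs := Nat.find_spec hex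
    rw [he'] at hs
    exact hs
  have hmin := Nat.find_min hex (m := e') (by omega)
  push Not at hmin
  obtain ⟨a₀, ha₀⟩ := hmin
  have k1 := key hA X hX hP1 e' he (powMonoidHom (p ^ e') : A →* A).range
    (by
      intro x _ b hb
      obtain ⟨c, rfl⟩ := MonoidHom.mem_range.1 hb
      exact MonoidHom.mem_range.2 ⟨x c, (map_pow x c _).symm⟩)
    (by
      intro hbot
      have : a₀ ^ p ^ e' ∈ (powMonoidHom (p ^ e') : A →* A).range := MonoidHom.mem_range.2 ⟨a₀, rfl⟩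
      rw [hbot] at this
      exact ha₀ (Subgroup.mem_bot.1 this))
    (by
      intro b hb
      obtain ⟨c, rfl⟩ := MonoidHom.mem_range.1 hb
      exact ⟨c, rfl⟩)
  have hdiv : ∀ a : A, a ^ p = 1 → ∀ k, k ≤ e' → ∃ c : A, a = c ^ p ^ k := by
    intro a ha k
    induction k with
    | zero =>
      intro _
      exact ⟨a, by rw [pow_zero, pow_one]⟩
    | succ k ih =>
      intro hk
      obtain ⟨c, hc⟩ := ih (by omega)
      have hc1 : c ^ p ^ e' = 1 := by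
        obtain ⟨d, hd⟩ := Nat.exists_eq_add_of_le hk
        rw [hd, pow_add, pow_mul, pow_succ, pow_mul, ← hc, ha, one_pow]
      obtain ⟨c₁, rfl⟩ := k1.2 c hc1
      exact ⟨c₁, by rw [hc, ← pow_mul, ← pow_succ']⟩
  have k2 := key hA X hX hP1 e' he B hB hBb (fun b hb => by
    obtain ⟨c, hc⟩ := hdiv b (hexp b hb) e' le_rfl
    exact ⟨c, hc.symm⟩)
  obtain ⟨c, hc⟩ := hdiv a ha e' le_rfl
  rw [hc]
  exact k2.1 c

theorem result {A : Type*} [CommGroup A] [Finite A] {p : ℕ} [Fact p.Prime] (hA : IsPGroup p A) (X : Subgroup (MulAut A)) (hX : (Nat.card X).Coprime p) : ((¬ ∃ B C : Subgroup A, B ≠ ⊥ ∧ C ≠ ⊥ ∧ (∀ x ∈ X, B.map x.toMonoidHom = B) ∧ (∀ x ∈ X, C.map x.toMonoidHom = C) ∧ B ⊓ C = ⊥ ∧ B ⊔ C = ⊤) ↔ (∀ B : Subgroup A, (∀ x ∈ X, B.map x.toMonoidHom = B) → ∃ i : ℕ, ∀ a : A, a ∈ B ↔ a ^ p ^ i = 1)) ∧ ((∀ B : Subgroup A, (∀ x ∈ X, B.map x.toMonoidHom = B) → ∃ i : ℕ, ∀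 a : A, a ∈ B ↔ a ^ p ^ i = 1) ↔ (∀ B : Subgroup A, (∀ x ∈ X, B.map x.toMonoidHom = B) → (∀ b ∈ B, b ^ p = 1) → B = ⊥ ∨ ∀ a : A, a ∈ B ↔ a ^ p = 1)) := by
  simp only [inv_iff X]
  exact ⟨⟨fun h => p32 hA X (p13 hA X hX h), p21 X⟩, ⟨p23 X, p32 hA X⟩⟩

end Cfsg.Agent.S3775
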