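import Cfsg.Statements.S3803
import Mathlib
import Cfsg.Agent.Lib.Helper20.Omega

set_option autoImplicit false
open Cfsg
open Pointwise

namespace Cfsg.Agent.S3803

open Cfsg.Agent.Lib.Helper20.Omega

theorem mem_coatom_two {H : Type*} [Group H] [Finite H] (hH : IsPGroup 2 H) (M : Subgroup H)
    (hM : IsCoatom M) (u v : H) (hu : u ∉ M) (hv : v ∉ M) : u⁻¹ * v ∈ M := by
  haveI : Fact (Nat.Prime 2) := ⟨Nat.prime_two⟩
  have hnil : Group.IsNilpotent H := hH.isNilpotent
  have hn : M.Normal :=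
    Subgroup.NormalizerCondition.normal_of_coatom M Group.normalizerCondition_of_isNilpotent hM
  have hsq : ∀ x : H, x ^ 2 ∈ M := (Cfsg.Agent.S3772.pgroup_coatom hH M hM).1
  have hlt : M < M ⊔ Subgroup.zpowers u := by
    refine lt_of_le_of_ne le_sup_left ?_
    intro h
    apply hu
    rw [h]
    exact (le_sup_right : Subgroup.zpowers u ≤ M ⊔ Subgroup.zpowers u) (Subgroup.mem_zpowers u)
  have hsup : M ⊔ Subgroup.zpowers u = ⊤ := hM.2 _ hlt
  have hv' : v ∈ ((M ⊔ Subgroup.zpowers u : Subgroup H) : Set H) := by rw [hsup]; trivial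
  rw [Subgroup.normal_mul] at hv'
  obtain ⟨m, hm, z, hz, hmz⟩ := Set.mem_mul.1 hv'
  obtain ⟨i, rfl⟩ := Subgroup.mem_zpowers_iff.1 hz
  have e : u ^ (2 : ℤ) ∈ M := by
    rw [zpow_ofNat]; exact hsq u
  rcases Int.even_or_odd' i with ⟨j, hj | hj⟩
  · exfalso
    apply hv
    rw [← hmz, hj, zpow_mul]
    exact M.mul_mem hm (M.zpow_mem e j)
  · have hv2 : v = m * (u ^ (2 : ℤ)) ^ j * u := by
      rw [← hmz, hj, zpow_add, zpow_mul, zpow_one, mul_assoc]
    have h3 := hn.conj_mem (m * (u ^ (2 : ℤ)) ^ j) (M.mul_mem hm (M.zpow_mem e j)) u⁻¹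
    rw [inv_inv] at h3
    rw [hv2]
    have h4 : u⁻¹ * (m * (u ^ (2 : ℤ)) ^ j * u) = u⁻¹ * (m * (u ^ (2 : ℤ)) ^ j) * u := by
      simp only [mul_assoc]
    rw [h4]; exact h3

theorem coatom_index_two {H : Type*} [Group H] [Finite H] (hH : IsPGroup 2 H) (M : Subgroup H)
    (hM : IsCoatom M) : M.index = 2 := by
  rw [Subgroup.index_eq_two_iff]
  obtain ⟨u, hu⟩ : ∃ u, u ∉ M := by
    by_contra h
    push_neg at h
    exact hM.1 (eq_top_iff.2 (fun x _ => h x))
  refine ⟨u, fun b => ?_⟩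
  by_cases hb : b ∈ M
  · right
    refine ⟨hb, fun h => hu ?_⟩
    have h1 := M.mul_mem (M.inv_mem hb) h
    rwa [inv_mul_cancel_left] at h1
  · left
    refine ⟨?_, hb⟩
    have hb' : b⁻¹ ∉ M := fun h => hb (by simpa using M.inv_mem h)
    have h1 := mem_coatom_two hH M hM b⁻¹ u hb' hu
    rwa [inv_inv] at h1

theorem centralizes_of_index_two {X : Type*} [Group X] [Finite X] (a : X) (ha : Odd (orderOf a))
    (U : Subgroup X) (hU : IsPGroup 2 U) (haU : a ∈ Subgroup.normalizer (U : Set X))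
    (hM : ∀ M : Subgroup X, M ≤ U → Nat.card M * 2 = Nat.card U →
      a ∈ Subgroup.normalizer (M : Set X)) :
    ∀ u ∈ U, a * u = u * a := by
  haveI : Fact (Nat.Prime 2) := ⟨Nat.prime_two⟩
  have hconj : ∀ x ∈ U, a * x * a⁻¹ ∈ U := fun x hx => (Subgroup.mem_normalizer_iff.1 haU x).1 hx
  have hA : ∀ u ∈ U, u⁻¹ * (a * u * a⁻¹) ∈ frat U := by
    intro u hu
    rw [mem_frat_iff]
    refine ⟨U.mul_mem (U.inv_mem hu) (hconj u hu), ?_⟩
    apply Cfsg.Agent.S3772.mem_frattini_of_forall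
    intro M' hM'
    have hidx := coatom_index_two hU M' hM'
    have hcard : Nat.card (M'.map U.subtype) * 2 = Nat.card U := by
      rw [Subgroup.card_subtype, ← hidx]
      exact M'.card_mul_index
    have haM := hM (M'.map U.subtype) (Subgroup.map_subtype_le _) hcard
    have hmem : ∀ z : U, z ∈ M' ↔ (z : X) ∈ M'.map U.subtype := by
      intro z
      constructor
      · intro h
        exact Subgroup.mem_map.2 ⟨z, h, rfl⟩
      · intro h
        obtain ⟨y, hy, hyz⟩ := Subgroup.mem_map.1 h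
        have hyz' : y = z := Subtype.ext hyz
        rw [← hyz']; exact hy
    have hiff : (⟨u, hu⟩ : U) ∈ M' ↔ (⟨a * u * a⁻¹, hconj u hu⟩ : U) ∈ M' := by
      rw [hmem, hmem]
      exact Subgroup.mem_normalizer_iff.1 haM u
    have hgoal : (⟨u⁻¹ * (a * u * a⁻¹), U.mul_mem (U.inv_mem hu) (hconj u hu)⟩ : U) =
        (⟨u, hu⟩ : U)⁻¹ * ⟨a * u * a⁻¹, hconj u hu⟩ := rfl
    rw [hgoal]
    by_cases hin : (⟨u, hu⟩ : U) ∈ M'
    · exact M'.mul_mem (M'.inv_mem hin) (hiff.1 hin)
    · exact mem_coatom_two hU M' hM' _ _ hin (fun h => hin (hiff.2 h))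
  have haT : a ∈ Subgroup.normalizer ((frat U : Subgroup X) : Set X) := by
    apply Cfsg.Agent.Lib.Helper10.Coprime.mem_normalizer_of_conj_mem
    intro t ht
    exact conj_mem_frat haU ht
  have hAT : Subgroup.zpowers a ≤ Subgroup.normalizer ((frat U : Subgroup X) : Set X) :=
    Subgroup.zpowers_le.2 haT
  have hAU : Subgroup.zpowers a ≤ Subgroup.normalizer (U : Set X) := Subgroup.zpowers_le.2 haU
  have hTp : IsPGroup 2 (frat U) := hU.to_le (frat_le U)
  have hcopT : (Nat.card (frat U)).Coprime (Nat.card (Subgroup.zpowers a)) := by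
    obtain ⟨j, hj⟩ := IsPGroup.iff_card.1 hTp
    rw [hj, Nat.card_zpowers]
    exact Nat.Coprime.pow_left j (Nat.coprime_two_left.2 ha)
  have hcopU : (Nat.card (Subgroup.zpowers a)).Coprime (Nat.card U) := by
    obtain ⟨j, hj⟩ := IsPGroup.iff_card.1 hU
    rw [hj, Nat.card_zpowers]
    exact Nat.Coprime.pow_right j (Nat.coprime_two_right.2 ha)
  have hdisj : Subgroup.zpowers a ⊓ U = ⊥ := Subgroup.inf_eq_bot_of_coprime hcopU
  have hsolv : Group.IsSolvable (frat U) ∨ Group.IsSolvable (Subgroup.zpowers a) := by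
    left
    haveI : Group.IsNilpotent (frat U) := hTp.isNilpotent
    infer_instance
  have hpow : ∀ u ∈ U, ∀ n : ℕ, u⁻¹ * a ^ n * u * (a ^ n)⁻¹ ∈ frat U := by
    intro u hu n
    induction n with
    | zero => simp
    | succ n ih =>
      have h1 : u⁻¹ * a ^ (n + 1) * u * (a ^ (n + 1))⁻¹ =
          (u⁻¹ * (a * u * a⁻¹)) * (a * (u⁻¹ * a ^ n * u * (a ^ n)⁻¹) * a⁻¹) := by
        rw [pow_succ']; group
      rw [h1]
      exact (frat U).mul_mem (hA u hu) (conj_mem_frat haU ih)
  have hcoset : ∀ u ∈ U, ∃ d ∈ frat U, a * (u * d) = (u * d) * a := by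
    intro u hu
    have hx : ∀ a' ∈ Subgroup.zpowers a, u⁻¹ * a' * u * a'⁻¹ ∈ frat U := by
      intro a' ha'
      rw [← mem_powers_iff_mem_zpowers] at ha'
      obtain ⟨n, rfl⟩ := (Submonoid.mem_powers_iff _ _).1 ha'
      exact hpow u hu n
    obtain ⟨d, hd, hc⟩ := Cfsg.Agent.Lib.Helper10.Coprime.key_lemma (frat U) (Subgroup.zpowers a)
      hAT hcopT hsolv u hx
    refine ⟨d, hd, ?_⟩
    have hcen := Cfsg.Agent.Lib.Helper10.Coprime.mem_centralizer_of_normalizes (Subgroup.zpowers a) U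
      hAU hdisj (u * d) (U.mul_mem hu (frat_le U hd)) hc
    exact (Subgroup.mem_centralizer_iff.1 hcen) a (Subgroup.mem_zpowers a)
  obtain ⟨C, hCdef⟩ : ∃ C : Subgroup X, C = Subgroup.centralizer ({a} : Set X) := ⟨_, rfl⟩
  have htop : C.subgroupOf U ⊔ frattini ↥U = ⊤ := by
    rw [eq_top_iff]
    intro z _
    obtain ⟨d, hd, hcomm⟩ := hcoset z z.2
    have hd' := (mem_frat_iff U d).1 hd
    obtain ⟨hdU, hdF⟩ := hd'
    have h1 : (⟨(z : X) * d, U.mul_mem z.2 hdU⟩ : U) ∈ C.subgroupOf U := by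
      rw [Subgroup.mem_subgroupOf, hCdef, Subgroup.mem_centralizer_singleton_iff]
      exact hcomm.symm
    have h2 : z = (⟨(z : X) * d, U.mul_mem z.2 hdU⟩ : U) * (⟨d, hdU⟩ : U)⁻¹ := by
      apply Subtype.ext
      simp
    rw [h2]
    exact Subgroup.mul_mem_sup h1 ((frattini ↥U).inv_mem hdF)
  have hCtop : C.subgroupOf U = ⊤ := frattini_nongenerating htop
  intro u hu
  have h1 : (⟨u, hu⟩ : U) ∈ C.subgroupOf U := by rw [hCtop]; trivial
  rw [Subgroup.mem_subgroupOf, hCdef, Subgroup.mem_centralizer_singleton_iff] at h1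
  exact h1.symm

theorem centralizes_cyclic {X : Type*} [Group X] [Finite X] (a : X) (ha : Odd (orderOf a))
    (n : ℕ) (v : X) (hv : orderOf v = 2 ^ n)
    (hav : a ∈ Subgroup.normalizer ((Subgroup.zpowers v : Subgroup X) : Set X)) :
    ∀ x ∈ Subgroup.zpowers v, a * x = x * a := by
  haveI : Fact (Nat.Prime 2) := ⟨Nat.prime_two⟩
  have hE : IsPGroup 2 (Subgroup.zpowers v) := by
    apply IsPGroup.of_card (n := n)
    rw [Nat.card_zpowers, hv]
  apply centralizes_of_index_two a ha _ hE hav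
  intro M hMle hMcard
  rw [Nat.card_zpowers, hv] at hMcard
  have hn : n ≠ 0 := by
    rintro rfl
    rw [pow_zero] at hMcard
    omega
  have hidx : (M.subgroupOf (Subgroup.zpowers v)).index = 2 := by
    have h1 := (M.subgroupOf (Subgroup.zpowers v)).card_mul_index
    rw [Cfsg.Agent.Lib.Helper10.Coprime.card_subgroupOf_of_le hMle, Nat.card_zpowers, hv,
      ← hMcard] at h1
    have hpos : 0 < Nat.card M := Nat.card_pos
    exact Nat.eq_of_mul_eq_mul_left hpos h1
  have hv2 : v ^ 2 ∈ M := by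
    have h1 := Subgroup.sq_mem_of_index_two hidx ⟨v, Subgroup.mem_zpowers v⟩
    exact h1
  have hle : Subgroup.zpowers (v ^ 2) ≤ M := Subgroup.zpowers_le.2 hv2
  have hcard2 : Nat.card (Subgroup.zpowers (v ^ 2)) = 2 ^ (n - 1) := by
    rw [Nat.card_zpowers, orderOf_pow' v (by norm_num : (2 : ℕ) ≠ 0), hv]
    obtain ⟨m, rfl⟩ := Nat.exists_eq_succ_of_ne_zero hn
    have h1 : Nat.gcd (2 ^ (m + 1)) 2 = 2 := by
      apply Nat.gcd_eq_right
      exact dvd_pow_self 2 (Nat.succ_ne_zero m)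
    rw [h1, pow_succ, Nat.mul_div_cancel _ (by norm_num : 0 < 2)]
    simp
  have hMeq : Subgroup.zpowers (v ^ 2) = M := by
    apply Subgroup.eq_of_le_of_card_ge hle
    rw [hcard2]
    obtain ⟨m, rfl⟩ := Nat.exists_eq_succ_of_ne_zero hn
    rw [pow_succ] at hMcard
    have h1 : Nat.card M = 2 ^ m := Nat.eq_of_mul_eq_mul_right (by norm_num : 0 < 2) hMcard
    rw [h1]; simp
  rw [← hMeq]
  apply Cfsg.Agent.Lib.Helper10.Coprime.mem_normalizer_of_conj_mem
  intro s hs
  obtain ⟨i, rfl⟩ := Subgroup.mem_zpowers_iff.1 hs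
  have h1 : a * v * a⁻¹ ∈ Subgroup.zpowers v :=
    (Subgroup.mem_normalizer_iff.1 hav v).1 (Subgroup.mem_zpowers v)
  obtain ⟨j, hj⟩ := Subgroup.mem_zpowers_iff.1 h1
  have h2 : a * (v ^ 2) ^ i * a⁻¹ = ((v ^ 2) ^ j) ^ i := by
    have h3 : a * (v ^ 2) ^ i * a⁻¹ = ((a * v * a⁻¹) ^ 2) ^ i := by
      rw [conj_pow, conj_zpow]
    have h4 : (v ^ j) ^ 2 = (v ^ 2) ^ j := by
      rw [← zpow_natCast (v ^ j) 2, ← zpow_mul, ← zpow_natCast v 2, ← zpow_mul, mul_comm]
    rw [h3, ← hj, h4]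
  rw [h2]
  exact Subgroup.zpow_mem _ (Subgroup.zpow_mem _ (Subgroup.mem_zpowers _) j) i

theorem exists_between {X : Type*} [Group X] [Finite X] (P H : Subgroup X) (hHP : H ≤ P)
    (n i m : ℕ) (hP : Nat.card P = 2 ^ n) (hH : Nat.card H = 2 ^ i) (him : i ≤ m) (hmn : m ≤ n) :
    ∃ K : Subgroup X, K ≤ P ∧ Nat.card K = 2 ^ m ∧ H ≤ K := by
  haveI : Fact (Nat.Prime 2) := ⟨Nat.prime_two⟩
  have hdvd : 2 ^ m ∣ Nat.card P := by
    rw [hP]; exact pow_dvd_pow 2 hmn
  have hH' : Nat.card (H.subgroupOf P) = 2 ^ i := by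
    rw [Cfsg.Agent.Lib.Helper10.Coprime.card_subgroupOf_of_le hHP, hH]
  obtain ⟨K', hK', hHK'⟩ := Sylow.exists_subgroup_card_pow_prime_le 2 hdvd (H.subgroupOf P) hH' him
  refine ⟨K'.map P.subtype, Subgroup.map_subtype_le _, ?_, ?_⟩
  · rw [Subgroup.card_subtype, hK']
  · have h1 := Subgroup.map_mono (f := P.subtype) hHK'
    rwa [Cfsg.Agent.Lib.Helper10.Coprime.map_subgroupOf_of_le hHP] at h1

theorem result {X : Type*} [Group X] [Finite X] (P A D : Subgroup X) (hP : IsPGroup 2 P) (hA : Odd (Nat.card A))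
    (hAP : A ≤ Subgroup.normalizer (P : Set X)) (hDP : D ≤ P) (hD1 : 1 < Nat.card D) (hD2 : Nat.card D < Nat.card P)
    (hinv : ∀ E : Subgroup X, E ≤ P → (Nat.card E = Nat.card D ∨ (Nat.card D = 2 ∧ Nat.card E = 4)) → A ≤ Subgroup.normalizer (E : Set X)) :
    A ≤ Subgroup.centralizer (P : Set X) := by
  haveI : Fact (Nat.Prime 2) := ⟨Nat.prime_two⟩
  intro a haA
  rw [Subgroup.mem_centralizer_iff]
  have ha : Odd (orderOf a) := hA.of_dvd_nat (Subgroup.orderOf_dvd_natCard A haA)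
  have hcop : (orderOf a).Coprime 2 := Nat.coprime_two_right.2 ha
  obtain ⟨n, hn⟩ := IsPGroup.iff_card.1 hP
  obtain ⟨d, hd⟩ := IsPGroup.iff_card.1 (hP.to_le hDP)
  have hd1 : 1 ≤ d := by
    rcases Nat.eq_zero_or_pos d with h | h
    · rw [h, pow_zero] at hd; omega
    · exact h
  have hdn : d < n := by
    rw [hd, hn] at hD2
    exact (Nat.pow_lt_pow_iff_right (by norm_num : 1 < 2)).1 hD2
  have hcase : (∃ e : ℕ, 2 ≤ e ∧ e < n ∧ ∀ E : Subgroup X, E ≤ P → Nat.card E = 2 ^ e →
      a ∈ Subgroup.normalizer (E : Set X)) ∨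
      (n = 2 ∧ ∀ E : Subgroup X, E ≤ P → Nat.card E = 2 → a ∈ Subgroup.normalizer (E : Set X)) := by
    by_cases hd2 : 2 ≤ d
    · left
      exact ⟨d, hd2, hdn, fun E hE hcard => hinv E hE (Or.inl (by rw [hcard, hd])) haA⟩
    · have hd' : d = 1 := by omega
      rw [hd', pow_one] at hd
      by_cases hn2 : n = 2
      · right
        exact ⟨hn2, fun E hE hcard => hinv E hE (Or.inl (by rw [hcard, hd])) haA⟩
      · left
        refine ⟨2, le_refl 2, by omega, fun E hE hcard => hinv E hE (Or.inr ⟨hd, ?_⟩) haA⟩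
        rw [hcard]; norm_num
  have key : ∀ x ∈ P, a * x = x * a := by
    rcases hcase with ⟨e, he2, hen, hE⟩ | ⟨hn2, hE⟩
    · apply centralizes_of_omega a hcop _ P rfl hP (hAP haA)
      intro x hx hx4
      have hexpo : expo 2 = 4 := by unfold expo; simp
      rw [hexpo] at hx4
      have hord : orderOf x ∣ 2 ^ 2 := orderOf_dvd_of_pow_eq_one (by norm_num; exact hx4)
      obtain ⟨i, hi2, hi⟩ := (Nat.dvd_prime_pow Nat.prime_two).1 hord
      have hZ : Nat.card (Subgroup.zpowers x) = 2 ^ i := by rw [Nat.card_zpowers, hi]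
      have hZP : Subgroup.zpowers x ≤ P := Subgroup.zpowers_le.2 hx
      obtain ⟨E, hEP, hEcard, hxE⟩ := exists_between P (Subgroup.zpowers x) hZP n i e hn hZ
        (by omega) (by omega)
      obtain ⟨U, hUP, hUcard, hEU⟩ := exists_between P E hEP n e (e + 1) hn hEcard
        (by omega) (by omega)
      have hUp : IsPGroup 2 U := hP.to_le hUP
      have hxE' : x ∈ E := hxE (Subgroup.mem_zpowers x)
      have hMU : ∀ M : Subgroup X, M ≤ U → Nat.card M * 2 = Nat.card U →
          a ∈ Subgroup.normalizer (M : Set X) := by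
        intro M hMU hMcard
        apply hE M (hMU.trans hUP)
        rw [hUcard, pow_succ] at hMcard
        exact Nat.eq_of_mul_eq_mul_right (by norm_num : 0 < 2) hMcard
      by_cases huniq : ∀ E' : Subgroup X, E' ≤ U → Nat.card E' = 2 ^ e → E' = E
      · obtain ⟨u, huU, huE⟩ : ∃ u, u ∈ U ∧ u ∉ E := by
          by_contra hcon
          push_neg at hcon
          have h1 : U ≤ E := fun u hu => hcon u hu
          have h2 := Subgroup.card_le_of_le h1
          rw [hUcard, hEcard] at h2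
          have h3 : 2 ^ e < 2 ^ (e + 1) := Nat.pow_lt_pow_right (by norm_num) (by omega)
          omega
        have huord : orderOf u ∣ 2 ^ (e + 1) := by
          rw [← hUcard]; exact Subgroup.orderOf_dvd_natCard U huU
        obtain ⟨j, hj1, hj⟩ := (Nat.dvd_prime_pow Nat.prime_two).1 huord
        have hj2 : j = e + 1 := by
          by_contra hne
          have hje : j ≤ e := by omega
          have hZu : Nat.card (Subgroup.zpowers u) = 2 ^ j := by rw [Nat.card_zpowers, hj]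
          obtain ⟨K, hKU, hKcard, huK⟩ := exists_between U (Subgroup.zpowers u)
            (Subgroup.zpowers_le.2 huU) (e + 1) j e hUcard hZu hje (by omega)
          have hKE := huniq K hKU hKcard
          rw [hKE] at huK
          exact huE (huK (Subgroup.mem_zpowers u))
        rw [hj2] at hj
        have hv : orderOf (u ^ 2) = 2 ^ e := by
          rw [orderOf_pow' u (by norm_num : (2 : ℕ) ≠ 0), hj]
          have h1 : Nat.gcd (2 ^ (e + 1)) 2 = 2 := by
            apply Nat.gcd_eq_right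
            exact dvd_pow_self 2 (Nat.succ_ne_zero e)
          rw [h1, pow_succ, Nat.mul_div_cancel _ (by norm_num : 0 < 2)]
        have hZv : Subgroup.zpowers (u ^ 2) = E := by
          apply huniq _ (Subgroup.zpowers_le.2 (U.pow_mem huU 2))
          rw [Nat.card_zpowers, hv]
        have hav : a ∈ Subgroup.normalizer ((Subgroup.zpowers (u ^ 2) : Subgroup X) : Set X) := by
          rw [hZv]; exact hE E hEP hEcard
        apply centralizes_cyclic a ha e (u ^ 2) hv hav
        rw [hZv]; exact hxE'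
      · push_neg at huniq
        obtain ⟨E', hE'U, hE'card, hE'ne⟩ := huniq
        have hsup : E ⊔ E' = U := by
          apply Subgroup.eq_of_le_of_card_ge (sup_le hEU hE'U)
          have hlt : Nat.card E < Nat.card (E ⊔ E' : Subgroup X) := by
            apply Cfsg.Agent.Lib.Helper9.card_lt_of_le_of_ne le_sup_left
            intro h
            have h1 : E' ≤ E := by rw [h]; exact le_sup_right
            exact hE'ne (Subgroup.eq_of_le_of_card_ge h1 (by rw [hE'card, hEcard]))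
          have hdvd : Nat.card (E ⊔ E' : Subgroup X) ∣ 2 ^ (e + 1) := by
            rw [← hUcard]; exact Subgroup.card_dvd_of_le (sup_le hEU hE'U)
          obtain ⟨j, hj1, hj⟩ := (Nat.dvd_prime_pow Nat.prime_two).1 hdvd
          rw [hj, hEcard] at hlt
          have hej : e < j := (Nat.pow_lt_pow_iff_right (by norm_num : 1 < 2)).1 hlt
          have hj2 : j = e + 1 := by omega
          rw [hUcard, hj, hj2]
        have haU : a ∈ Subgroup.normalizer (U : Set X) := by
          rw [← hsup, Cfsg.Agent.Lib.Helper10.Coprime.mem_normalizer_iff_conj_smul, Subgroup.smul_sup,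
            Cfsg.Agent.Lib.Helper10.Coprime.mem_normalizer_iff_conj_smul.1 (hE E hEP hEcard),
            Cfsg.Agent.Lib.Helper10.Coprime.mem_normalizer_iff_conj_smul.1
              (hE E' (hE'U.trans hUP) hE'card)]
        exact centralizes_of_index_two a ha U hUp haU hMU x (hEU hxE')
    · apply centralizes_of_index_two a ha P hP (hAP haA)
      intro M hMP hMcard
      apply hE M hMP
      rw [hn, hn2] at hMcard
      omega
  intro x hx
  exact (key x hx).symm

end Cfsg.Agent.S3803
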