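import Cfsg.Statements.S3815
import Mathlib

set_option autoImplicit false
open Cfsg

namespace Cfsg.Agent.S3815

theorem orderOf_conj' {G : Type*} [Group G] (c x : G) : orderOf (c * x * c⁻¹) = orderOf x :=
  (SemiconjBy.orderOf_eq c (SemiconjBy.conj_mk c x)).symm

def goodSubmonoid (G : Type*) [Group G] (p : ℕ) : Submonoid G where
  carrier := {d | (orderOf d).Coprime p ∧ ∀ g : G, (orderOf g).Coprime p → (orderOf (d * g)).Coprime p}
  one_mem' := by
    refine ⟨by simp, ?_⟩
    intro g hg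
    simpa using hg
  mul_mem' := by
    rintro a b ⟨ha, ha'⟩ ⟨hb, hb'⟩
    refine ⟨ha' b hb, ?_⟩
    intro g hg
    rw [mul_assoc]
    exact ha' _ (hb' g hg)

def goodSubgroup (G : Type*) [Group G] [Finite G] (p : ℕ) : Subgroup G :=
  { goodSubmonoid G p with
    inv_mem' := by
      intro a ha
      have h1 : a⁻¹ = a ^ (orderOf a - 1) := by
        have hpos : 0 < orderOf a := orderOf_pos a
        rw [inv_eq_iff_mul_eq_one, ← pow_succ']
        rw [Nat.sub_add_cancel hpos]
        exact pow_orderOf_eq_one a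
      show a⁻¹ ∈ goodSubmonoid G p
      rw [h1]
      exact pow_mem ha _ }

theorem goodSubgroup_normal (G : Type*) [Group G] [Finite G] (p : ℕ) : (goodSubgroup G p).Normal := by
  constructor
  rintro n ⟨hn, hn'⟩ c
  refine ⟨?_, ?_⟩
  · rw [orderOf_conj']
    exact hn
  · intro g hg
    have h1 : c * n * c⁻¹ * g = c * (n * (c⁻¹ * g * c)) * c⁻¹ := by group
    rw [h1, orderOf_conj']
    apply hn'
    have h2 : c⁻¹ * g * c = c⁻¹ * g * c⁻¹⁻¹ := by simp
    rw [h2, orderOf_conj']
    exact hg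

theorem goodSubgroup_card (G : Type*) [Group G] [Finite G] (p : ℕ) [hp : Fact p.Prime] :
    (Nat.card (goodSubgroup G p)).Coprime p := by
  rw [Nat.coprime_comm, Nat.Prime.coprime_iff_not_dvd hp.out]
  intro hdvd
  obtain ⟨x, hx⟩ := exists_prime_orderOf_dvd_card' p hdvd
  have h1 : (orderOf (x : G)).Coprime p := x.2.1
  rw [Subgroup.orderOf_coe, hx] at h1
  exact hp.out.ne_one ((Nat.coprime_self p).mp h1)

theorem result {G : Type*} [Group G] [Finite G] {p : ℕ} [Fact p.Prime]
    (d : G) (hd : (orderOf d).Coprime p)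
    (h : ∀ g : G, (orderOf g).Coprime p → (orderOf (d * g)).Coprime p) :
    d ∈ Cfsg.pPrimeCore p G := by
  have h1 : goodSubgroup G p ≤ Cfsg.pPrimeCore p G :=
    le_sSup ⟨goodSubgroup_normal G p, goodSubgroup_card G p⟩
  exact h1 ⟨hd, h⟩

end Cfsg.Agent.S3815
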