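import Cfsg.Statements.S3821
import Mathlib

set_option autoImplicit false
open Cfsg

namespace Cfsg.Agent.S3821

theorem map_conj_mul {G : Type*} [Group G] (K : Subgroup G) (a b : G) :
    K.map (MulAut.conj (a * b)).toMonoidHom = (K.map (MulAut.conj b).toMonoidHom).map (MulAut.conj a).toMonoidHom := by
  rw [Subgroup.map_map]
  congr 1
  ext y
  simp [mul_assoc]

theorem map_conj_one {G : Type*} [Group G] (K : Subgroup G) :
    K.map (MulAut.conj (1 : G)).toMonoidHom = K := by
  ext y
  simp

theorem map_conj_le {G : Type*} [Group G] (A K : Subgroup G) [A.Normal] (hK : K ≤ A) (g : G) :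
    K.map (MulAut.conj g).toMonoidHom ≤ A := by
  rintro _ ⟨k, hk, rfl⟩
  simp only [MulEquiv.toMonoidHom_eq_coe, MonoidHom.coe_coe, MulAut.conj_apply]
  exact Subgroup.Normal.conj_mem inferInstance k (hK hk) g

theorem sub_conj {G : Type*} [Group G] (A H : Subgroup G) (a : A) :
    (H.subgroupOf A).map (MulAut.conj a).toMonoidHom =
      (H.map (MulAut.conj (a : G)).toMonoidHom).subgroupOf A := by
  ext y
  simp only [Subgroup.mem_map, Subgroup.mem_subgroupOf, MulEquiv.toMonoidHom_eq_coe, MonoidHom.coe_coe,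
    MulAut.conj_apply]
  constructor
  · rintro ⟨k, hk, rfl⟩
    exact ⟨k, hk, by simp⟩
  · rintro ⟨k, hk, hky⟩
    have hkA : k ∈ A := by
      have : k = (a : G)⁻¹ * y * a := by rw [← hky]; group
      rw [this]
      exact mul_mem (mul_mem (inv_mem a.2) y.2) a.2
    refine ⟨⟨k, hkA⟩, hk, ?_⟩
    ext
    simpa using hky

theorem result {G : Type*} [Group G] [Finite G] (A H : Subgroup G) [A.Normal] (hHA : H ≤ A) :
    Cfsg.IsPronormal H ↔ (Cfsg.IsPronormal (H.subgroupOf A) ∧ A ⊔ Subgroup.normalizer (H : Set G) = ⊤) := by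
  constructor
  · intro h
    refine ⟨?_, ?_⟩
    · intro a
      obtain ⟨x, hx, hxe⟩ := h (a : G)
      have hle : H ⊔ H.map (MulAut.conj (a : G)).toMonoidHom ≤ A := sup_le hHA (map_conj_le A H hHA _)
      refine ⟨⟨x, hle hx⟩, ?_, ?_⟩
      · rw [sub_conj, ← Subgroup.subgroupOf_sup hHA (map_conj_le A H hHA _)]
        exact hx
      · rw [sub_conj, sub_conj, hxe]
    · rw [eq_top_iff]
      intro g _
      obtain ⟨x, hx, hxe⟩ := h g
      have hle : H ⊔ H.map (MulAut.conj g).toMonoidHom ≤ A := sup_le hHA (map_conj_le A H hHA _)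
      have hn : x⁻¹ * g ∈ Subgroup.normalizer (H : Set G) := by
        rw [Subgroup.mem_normalizer_iff_map_conj_eq]
        have h1 := map_conj_mul H x⁻¹ g
        have h2 := map_conj_mul H x⁻¹ x
        rw [hxe, ← h2, inv_mul_cancel, map_conj_one] at h1
        exact h1
      have : g = x * (x⁻¹ * g) := by group
      rw [this]
      exact mul_mem (Subgroup.mem_sup_left (hle hx)) (Subgroup.mem_sup_right hn)
  · rintro ⟨h, htop⟩ g
    have hg : g ∈ A ⊔ Subgroup.normalizer (H : Set G) := by rw [htop]; trivial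
    rw [← SetLike.mem_coe, Subgroup.normal_mul] at hg
    obtain ⟨a, ha, n, hn, rfl⟩ := hg
    have hn' : H.map (MulAut.conj n).toMonoidHom = H := Subgroup.mem_normalizer_iff_map_conj_eq.mp hn
    have e1 : H.map (MulAut.conj (a * n)).toMonoidHom = H.map (MulAut.conj a).toMonoidHom := by
      rw [map_conj_mul, hn']
    obtain ⟨x, hx, hxe⟩ := h ⟨a, ha⟩
    rw [sub_conj, ← Subgroup.subgroupOf_sup hHA (map_conj_le A H hHA _)] at hx
    rw [sub_conj, sub_conj] at hxe
    refine ⟨(x : G), ?_, ?_⟩
    · rw [e1]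
      exact hx
    · rw [e1]
      have := congrArg (Subgroup.map A.subtype) hxe
      rw [Subgroup.map_subgroupOf_eq_of_le (map_conj_le A H hHA _),
        Subgroup.map_subgroupOf_eq_of_le (map_conj_le A H hHA _)] at this
      exact this

end Cfsg.Agent.S3821
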