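import Cfsg.Statements.S3825
import Mathlib

set_option autoImplicit false
open Cfsg

namespace Cfsg.Agent.S3825

theorem result {H : Type*} [Group H] [Finite H] (U : Subgroup H) (w : H) (hw : orderOf w = 2)
    (hwU : w ∈ Subgroup.normalizer (U : Set H)) (y : H) (hy : y ≠ 1) (hyU : y ∈ U)
    (hfix : ∀ u ∈ U, w * u * w⁻¹ = u ↔ (u = 1 ∨ u = y))
    (V : Subgroup H) (hVU : V ≤ U) (hVn : (V.subgroupOf U).Normal) (hVw : ∀ v ∈ V, w * v * w⁻¹ ∈ V)
    (hVe : Cfsg.IsElementaryAbelian 2 V) (hVc : ¬ IsCyclic ↥V) (hyV : y ∈ V) :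
    ¬ 2 ∣ V.relIndex U ∧ Nat.card ↥V = 4 ∧ ⁅U, U⁆ ≤ V := by
  have hw2 : w * w = 1 := by rw [← pow_two, ← hw, pow_orderOf_eq_one]
  have hV2 : ∀ v ∈ V, v * v = 1 := fun v hv => by rw [← pow_two]; exact hVe.2 v hv
  have hVinv : ∀ v ∈ V, v⁻¹ = v := fun v hv => inv_eq_of_mul_eq_one_left (hV2 v hv)
  have hVcomm : ∀ a ∈ V, ∀ b ∈ V, a * b = b * a :=
    fun a ha b hb => congrArg Subtype.val (hVe.1.is_comm.comm ⟨a, ha⟩ ⟨b, hb⟩)
  let τ : ↥V →* ↥V := MonoidHom.mk'
    (fun v => ⟨(v : H) * (w * v * w⁻¹), V.mul_mem v.2 (hVw v v.2)⟩) (by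
    intro a b
    apply Subtype.ext
    show ((a : H) * b) * (w * ((a : H) * b) * w⁻¹) =
      ((a : H) * (w * a * w⁻¹)) * ((b : H) * (w * b * w⁻¹))
    have h1 := hVcomm b b.2 (w * a * w⁻¹) (hVw a a.2)
    calc ((a : H) * b) * (w * ((a : H) * b) * w⁻¹)
        = (a : H) * ((b : H) * (w * a * w⁻¹)) * (w * b * w⁻¹) := by group
      _ = (a : H) * ((w * a * w⁻¹) * (b : H)) * (w * b * w⁻¹) := by rw [h1]
      _ = ((a : H) * (w * a * w⁻¹)) * ((b : H) * (w * b * w⁻¹)) := by group)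
  have hτ : ∀ v : V, ((τ v : V) : H) = (v : H) * (w * v * w⁻¹) := fun v => rfl
  have hfixV : ∀ v ∈ V, w * v * w⁻¹ = v ↔ (v = 1 ∨ v = y) := fun v hv => hfix v (hVU hv)
  have hker : ∀ v : V, v ∈ τ.ker ↔ ((v : H) = 1 ∨ (v : H) = y) := by
    intro v
    rw [MonoidHom.mem_ker, ← hfixV v v.2]
    constructor
    · intro h
      have h1 : (v : H) * (w * v * w⁻¹) = 1 := by rw [← hτ, h]; rfl
      calc w * v * w⁻¹ = (v : H)⁻¹ * ((v : H) * (w * v * w⁻¹)) := by group
        _ = (v : H)⁻¹ := by rw [h1, mul_one]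
        _ = v := hVinv v v.2
    · intro h
      apply Subtype.ext
      rw [hτ, h]
      exact hV2 v v.2
  have hrange : τ.range ≤ τ.ker := by
    rintro _ ⟨v, rfl⟩
    rw [hker, ← hfixV _ (τ v).2, hτ]
    have h1 := hVcomm v v.2 (w * v * w⁻¹) (hVw v v.2)
    calc w * ((v : H) * (w * v * w⁻¹)) * w⁻¹
        = (w * v * w⁻¹) * ((w * w) * v * (w * w)⁻¹) := by group
      _ = (w * v * w⁻¹) * v := by rw [hw2]; group
      _ = (v : H) * (w * v * w⁻¹) := h1.symm
  have hkcard : Nat.card τ.ker = 2 := by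
    rw [Nat.card_eq_two_iff]
    refine ⟨⟨1, τ.ker.one_mem⟩, ⟨⟨y, hyV⟩, (hker _).mpr (Or.inr rfl)⟩, ?_, ?_⟩
    · intro h
      apply hy
      have := congrArg (fun t : τ.ker => ((t : V) : H)) h
      exact this.symm
    · ext ⟨v, hv⟩
      simp only [Set.mem_insert_iff, Set.mem_singleton_iff, Set.mem_univ, iff_true]
      rcases (hker v).mp hv with h | h
      · left
        apply Subtype.ext
        apply Subtype.ext
        exact h
      · right
        apply Subtype.ext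
        apply Subtype.ext
        exact h
  have e := Subgroup.card_mul_index τ.ker
  rw [Subgroup.index_ker, hkcard] at e
  have hrdvd : Nat.card τ.range ∣ 2 := hkcard ▸ Subgroup.card_dvd_of_le hrange
  have hrcard : Nat.card τ.range = 2 := by
    rcases (Nat.dvd_prime Nat.prime_two).mp hrdvd with h | h
    · exfalso
      rw [h, mul_one] at e
      apply hVc
      have : Fact (Nat.Prime 2) := ⟨Nat.prime_two⟩
      exact isCyclic_of_prime_card e.symm
    · exact h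
  have hVcard : Nat.card V = 4 := by rw [← e, hrcard]
  have hreq : τ.range = τ.ker := Subgroup.eq_of_le_of_card_ge hrange (by rw [hkcard, hrcard])
  obtain ⟨v₀, hv₀⟩ : ∃ v₀ : V, (v₀ : H) * (w * v₀ * w⁻¹) = y := by
    have h1 : (⟨y, hyV⟩ : V) ∈ τ.range := by
      rw [hreq, hker]
      exact Or.inr rfl
    obtain ⟨v₀, hv₀⟩ := h1
    exact ⟨v₀, by rw [← hτ, hv₀]⟩
  have claimA : ∀ u ∈ U, u⁻¹ * (w * u * w⁻¹) ∈ V → u ∈ V := by
    intro u hu hc
    have hσc : w * (u⁻¹ * (w * u * w⁻¹)) * w⁻¹ = u⁻¹ * (w * u * w⁻¹) := by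
      calc w * (u⁻¹ * (w * u * w⁻¹)) * w⁻¹
          = (w * u⁻¹ * w⁻¹) * ((w * w) * u * (w * w)⁻¹) := by group
        _ = (w * u⁻¹ * w⁻¹) * u := by rw [hw2]; group
        _ = (u⁻¹ * (w * u * w⁻¹))⁻¹ := by group
        _ = u⁻¹ * (w * u * w⁻¹) := hVinv _ hc
    rcases (hfixV _ hc).mp hσc with h | h
    · have h1 : w * u * w⁻¹ = u := by
        calc w * u * w⁻¹ = u * (u⁻¹ * (w * u * w⁻¹)) := by group
          _ = u := by rw [h, mul_one]
      rcases (hfix u hu).mp h1 with h2 | h2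
      · rw [h2]
        exact V.one_mem
      · rw [h2]
        exact hyV
    · have h1 : w * u * w⁻¹ = u * y := by
        calc w * u * w⁻¹ = u * (u⁻¹ * (w * u * w⁻¹)) := by group
          _ = u * y := by rw [h]
      have hu' : u * v₀ ∈ U := U.mul_mem hu (hVU v₀.2)
      have h2 : w * (u * v₀) * w⁻¹ = u * v₀ := by
        have h3 := hV2 _ (hVw v₀ v₀.2)
        calc w * (u * v₀) * w⁻¹ = (w * u * w⁻¹) * (w * v₀ * w⁻¹) := by group
          _ = u * y * (w * v₀ * w⁻¹) := by rw [h1]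
          _ = u * ((v₀ : H) * (w * v₀ * w⁻¹)) * (w * v₀ * w⁻¹) := by rw [hv₀]
          _ = u * v₀ * ((w * v₀ * w⁻¹) * (w * v₀ * w⁻¹)) := by group
          _ = u * v₀ := by rw [h3, mul_one]
      have h4 : u * v₀ ∈ V := by
        rcases (hfix _ hu').mp h2 with h5 | h5
        · rw [h5]
          exact V.one_mem
        · rw [h5]
          exact hyV
      have h6 : u = (u * v₀) * (v₀ : H)⁻¹ := by group
      rw [h6]
      exact V.mul_mem h4 (V.inv_mem v₀.2)
  let β : ↥U ≃* ↥U := Subgroup.normalizerMonoidHom U ⟨w, hwU⟩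
  have hβ : ∀ u : U, ((β u : U) : H) = w * u * w⁻¹ := fun u => rfl
  have hle : V.subgroupOf U ≤ (V.subgroupOf U).comap (β : ↥U →* ↥U) := by
    intro u hu
    rw [Subgroup.mem_comap, Subgroup.mem_subgroupOf]
    exact hVw u (Subgroup.mem_subgroupOf.mp hu)
  let α : (↥U ⧸ V.subgroupOf U) →* (↥U ⧸ V.subgroupOf U) :=
    QuotientGroup.map _ _ (β : ↥U →* ↥U) hle
  have hα : ∀ u : U, α (QuotientGroup.mk u) = QuotientGroup.mk (β u) := fun u => rfl
  have hfpf : MonoidHom.FixedPointFree α := by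
    intro t ht
    obtain ⟨u, rfl⟩ := QuotientGroup.mk_surjective t
    rw [hα, QuotientGroup.eq] at ht
    rw [QuotientGroup.eq_one_iff, Subgroup.mem_subgroupOf]
    apply claimA u u.2
    have h1 := V.inv_mem (Subgroup.mem_subgroupOf.mp ht)
    simp only [Subgroup.coe_mul, Subgroup.coe_inv, hβ] at h1
    have h2 : ((w * u * w⁻¹)⁻¹ * (u : H))⁻¹ = (u : H)⁻¹ * (w * u * w⁻¹) := by group
    rw [h2] at h1
    exact h1
  have hinv : Function.Involutive α := by
    intro t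
    obtain ⟨u, rfl⟩ := QuotientGroup.mk_surjective t
    rw [hα, hα]
    congr 1
    apply Subtype.ext
    rw [hβ, hβ]
    calc w * (w * u * w⁻¹) * w⁻¹ = (w * w) * u * (w * w)⁻¹ := by group
      _ = u := by rw [hw2]; group
  refine ⟨?_, hVcard, ?_⟩
  · have hodd := hfpf.odd_card_of_involutive hinv
    rw [← Subgroup.index_eq_card] at hodd
    intro h2
    exact (Nat.not_even_iff_odd.mpr hodd) (even_iff_two_dvd.mpr h2)
  · rw [Subgroup.commutator_le]
    intro a ha b hb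
    have hc := hfpf.commute_all_of_involutive hinv (QuotientGroup.mk ⟨a, ha⟩)
      (QuotientGroup.mk ⟨b, hb⟩)
    have h1 : (QuotientGroup.mk ((⟨a, ha⟩ : U) * ⟨b, hb⟩ * (⟨a, ha⟩ : U)⁻¹ * (⟨b, hb⟩ : U)⁻¹) :
        ↥U ⧸ V.subgroupOf U) = 1 := by
      simp only [QuotientGroup.mk_mul, QuotientGroup.mk_inv]
      rw [hc.eq]
      group
    rw [QuotientGroup.eq_one_iff, Subgroup.mem_subgroupOf] at h1
    exact h1

end Cfsg.Agent.S3825
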