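import Cfsg.Statements.S3835
import Mathlib
import Cfsg.Agent.Lib.Helper13.QdAlt

set_option autoImplicit false
open Cfsg

namespace Cfsg.Agent.S3835

open Cfsg.Agent.Lib.Helper13.QdAlt

theorem not_involves {p : ℕ} [Fact p.Prime] (hp : p ≠ 2) (n : ℕ) (hn : n < p ^ 2) :
    ¬ Cfsg.Involves ↥(Cfsg.qd p) ↥(alternatingGroup (Fin n)) := by
  classical
  rintro ⟨K, R, hN, ⟨φ⟩⟩
  have := hN
  -- p-subgroups of K are commutative
  have hK : ∀ P : Subgroup K, IsPGroup p P → ∀ a ∈ P, ∀ b ∈ P, a * b = b * a := by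
    intro P hP a ha b hb
    have hP' : IsPGroup p ((P.map K.subtype).map (alternatingGroup (Fin n)).subtype) :=
      (hP.map _).map _
    have := pgroup_perm_comm hn _ hP' a.1.1 ⟨a.1, ⟨a, ha, rfl⟩, rfl⟩ b.1.1 ⟨b.1, ⟨b, hb, rfl⟩, rfl⟩
    apply Subtype.ext
    apply Subtype.ext
    exact this
  -- the p-subgroup of the quotient
  set x : Cfsg.qd p := ⟨hE 1 0 0, hE_mem _ _ _⟩ with hx
  set y : Cfsg.qd p := ⟨hE 0 0 1, hE_mem _ _ _⟩ with hy
  set W₀ : Subgroup (Matrix.SpecialLinearGroup (Fin 3) (ZMod p)) :=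
    Subgroup.closure ({hE (1 : ZMod p) 0 0, hE 0 0 1} : Set _) with hW₀
  set W : Subgroup (↥K ⧸ R.subgroupOf K) := (W₀.subgroupOf (Cfsg.qd p)).comap φ.toMonoidHom with hW
  have hWp : IsPGroup p W := by
    intro g
    refine ⟨1, ?_⟩
    have hg : (φ g.1).1 ∈ W₀ := g.2
    obtain ⟨a, e, f, hg'⟩ := mem_closure_hE _ hg
    have h1 : (φ g.1) ^ p = 1 := by
      apply Subtype.ext
      rw [Subgroup.coe_pow, hg', hE_pow_p hp]
      rfl
    apply Subtype.ext
    rw [pow_one, Subgroup.coe_pow, Subgroup.coe_one]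
    apply φ.injective
    rw [map_pow, h1, map_one]
  have hcomm := pgroup_comm_quotient hK (R.subgroupOf K) W hWp (φ.symm x) ?_ (φ.symm y) ?_
  · have h2 := congrArg φ hcomm
    rw [map_mul, map_mul, φ.apply_symm_apply, φ.apply_symm_apply] at h2
    have h3 := congrArg Subtype.val h2
    simp only [hx, hy, Subgroup.coe_mul, hE_mul] at h3
    have h4 := congrArg (fun M : Matrix.SpecialLinearGroup (Fin 3) (ZMod p) => M.1 0 2) h3
    simp [hE] at h4
  · show (φ (φ.symm x)).1 ∈ W₀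
    rw [φ.apply_symm_apply]
    exact Subgroup.subset_closure (Or.inl rfl)
  · show (φ (φ.symm y)).1 ∈ W₀
    rw [φ.apply_symm_apply]
    exact Subgroup.subset_closure (Or.inr rfl)

theorem result {p : ℕ} [Fact p.Prime] (hp : p ≠ 2) (n : ℕ) : ((∃ H : Subgroup (alternatingGroup (Fin n)), Nonempty (↥H ≃* ↥(Cfsg.qd p))) ↔ p ^ 2 ≤ n) ∧ (n < p ^ 2 → ¬ Cfsg.Involves ↥(Cfsg.qd p) ↥(alternatingGroup (Fin n))) := by
  classical
  refine ⟨⟨?_, ?_⟩, not_involves hp n⟩
  · rintro ⟨H, ⟨e⟩⟩
    by_contra hcon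
    apply not_involves hp n (by omega)
    have hbot : ((⊥ : Subgroup (alternatingGroup (Fin n))).subgroupOf H) = e.toMonoidHom.ker := by
      rw [Subgroup.bot_subgroupOf]
      symm
      rw [MonoidHom.ker_eq_bot_iff]
      exact e.injective
    have hnorm : ((⊥ : Subgroup (alternatingGroup (Fin n))).subgroupOf H).Normal := by
      rw [hbot]; infer_instance
    refine ⟨H, ⊥, hnorm, ⟨?_⟩⟩
    exact (QuotientGroup.quotientMulEquivOfEq hbot).trans
      (QuotientGroup.quotientKerEquivOfSurjective e.toMonoidHom e.surjective)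
  · intro hn
    have hcard : Fintype.card (Y p) ≤ Fintype.card (Fin n) := by
      rw [card_Y, Fintype.card_fin]; exact hn
    obtain ⟨ι⟩ := Function.Embedding.nonempty_of_card_le hcard
    let fY : Y p ≃ {i : Fin n // i ∈ Set.range ι} := Equiv.ofInjective ι ι.injective
    let ψ : Cfsg.qd p →* Equiv.Perm (Fin n) := (Equiv.Perm.extendDomainHom fY).comp (rho p)
    have hψinj : Function.Injective ψ :=
      (Equiv.Perm.extendDomainHom_injective fY).comp (rho_injective p)
    have hmem : ∀ M, ψ M ∈ alternatingGroup (Fin n) := by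
      intro M
      rw [Equiv.Perm.mem_alternatingGroup]
      show Equiv.Perm.sign ((rho p M).extendDomain fY) = 1
      rw [Equiv.Perm.sign_extendDomain]
      exact sign_rho hp M
    let ψ' : Cfsg.qd p →* alternatingGroup (Fin n) := ψ.codRestrict _ hmem
    have hψ'inj : Function.Injective ψ' := by
      intro a b h
      apply hψinj
      exact congrArg Subtype.val h
    exact ⟨ψ'.range, ⟨(MonoidHom.ofInjective hψ'inj).symm⟩⟩

end Cfsg.Agent.S3835
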