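import Cfsg.Statements.S3838
import Mathlib
import Cfsg.Agent.Lib.Helper1.TransTate

set_option autoImplicit false
open Cfsg

namespace Cfsg.Agent.S3838

open Cfsg.Agent.Lib.Helper1.Tr Cfsg.Agent.Lib.Helper16.Basic
open scoped commutatorElement

theorem key {G : Type*} [Group G] [Finite G] {p : ℕ} [Fact p.Prime] (P : Sylow p G)
    (Q : Subgroup G) [hQn : Q.Normal] (h1 : ⁅(P : Subgroup G), (P : Subgroup G)⁆ ≤ Q)
    (h2 : ∀ X : Subgroup G, X ≤ (P : Subgroup G) → ⁅(P : Subgroup G), (P : Subgroup G)⁆ ≤ X →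
      (∀ u ∈ (P : Subgroup G), u ^ p ∈ X) → Q ≤ X)
    (hN : HasNormalPComplement p ↥(Subgroup.normalizer ((P : Subgroup G) : Set G))) :
    HasNormalPComplement p G := by
  classical
  obtain ⟨H, hH⟩ : ∃ H : Subgroup G, H = Subgroup.normalizer ((P : Subgroup G) : Set G) :=
    ⟨_, rfl⟩
  have hPH : (P : Subgroup G) ≤ H := hH ▸ Subgroup.le_normalizer
  have hyp : (P : Subgroup G) ⊓ pResidual p G ≤ (⁅H, H⁆ ⊓ (P : Subgroup G)) ⊔ Q := by
    have e1 : (P : Subgroup G) ⊓ pResidual p G ≤ (P : Subgroup G).focalSubgroup := by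
      rw [← sylow_commutator_inf]
      exact le_inf (sylow_inf_pResidual_le_commutator P) inf_le_left
    refine e1.trans (focal_le ?_)
    intro x hx u hu
    obtain ⟨C, hC⟩ : ∃ C : Subgroup G, C = (Subgroup.centralizer
      {(QuotientGroup.mk (u * x * u⁻¹) : G ⧸ Q)}).comap (QuotientGroup.mk' Q) := ⟨_, rfl⟩
    have hmemC : ∀ g : G, g ∈ C ↔ (g * (u * x * u⁻¹))⁻¹ * ((u * x * u⁻¹) * g) ∈ Q := by
      intro g
      rw [hC, Subgroup.mem_comap, Subgroup.mem_centralizer_singleton_iff,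
        QuotientGroup.mk'_apply, ← QuotientGroup.mk_mul, ← QuotientGroup.mk_mul,
        QuotientGroup.eq]
    have hPC : (P : Subgroup G) ≤ C := by
      intro g hg
      rw [hmemC]
      apply h1
      have e : (g * (u * x * u⁻¹))⁻¹ * ((u * x * u⁻¹) * g) = ⁅(u * x * u⁻¹)⁻¹, g⁻¹⁆ := by
        rw [commutatorElement_def]; group
      rw [e]
      exact Subgroup.commutator_mem_commutator (Subgroup.inv_mem _ hu) (Subgroup.inv_mem _ hg)
    have hAC : (P : Subgroup G).map (MulAut.conj u).toMonoidHom ≤ C := by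
      intro g hg
      rw [mem_conj] at hg
      rw [hmemC]
      have e : (g * (u * x * u⁻¹))⁻¹ * ((u * x * u⁻¹) * g) =
          u * ⁅x⁻¹, (u⁻¹ * g * u)⁻¹⁆ * u⁻¹ := by
        rw [commutatorElement_def]; group
      rw [e]
      exact hQn.conj_mem _ (h1 (Subgroup.commutator_mem_commutator (Subgroup.inv_mem _ hx)
        (Subgroup.inv_mem _ hg))) u
    obtain ⟨k, hkC, hk⟩ := exists_conj_le_of_sylow_le P hPC hAC (isPGroup_conj P.isPGroup' u)
    rw [conj_conj] at hk
    have hn : k * u ∈ H := by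
      rw [hH]
      exact mem_normalizer_of_conj_le hk
    have hn' : k * u ∈ Subgroup.normalizer ((P : Subgroup G) : Set G) := hH ▸ hn
    have e : x⁻¹ * (u * x * u⁻¹) = ⁅x⁻¹, k * u⁆ * (k * ((k * (u * x * u⁻¹))⁻¹ *
        ((u * x * u⁻¹) * k)) * k⁻¹) := by
      rw [commutatorElement_def]; group
    rw [e]
    refine Subgroup.mul_mem _ (Subgroup.mem_sup_left ⟨?_, ?_⟩) (Subgroup.mem_sup_right ?_)
    · exact Subgroup.commutator_mem_commutator (Subgroup.inv_mem _ (hPH hx)) hn
    · have h3 : (k * u) * x⁻¹⁻¹ * (k * u)⁻¹ ∈ (P : Subgroup G) := by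
        rw [inv_inv]
        exact (Subgroup.mem_normalizer_iff.1 hn' x).1 hx
      have e2 : ⁅x⁻¹, k * u⁆ = x⁻¹ * ((k * u) * x⁻¹⁻¹ * (k * u)⁻¹) := by
        rw [commutatorElement_def]; group
      rw [e2]
      exact Subgroup.mul_mem _ (Subgroup.inv_mem _ hx) h3
    · exact hQn.conj_mem _ ((hmemC k).1 hkC) k
  have h3 := tate_general P H hPH Q h2 hyp
  rw [npc_iff_inf_residual P]
  have h4 : (Nat.card (pResidual p ↥H)).Coprime p := by
    subst hH
    exact npc_iff_residual.1 hN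
  have h5 : (P : Subgroup G) ⊓ (pResidual p ↥H).map H.subtype = ⊥ := by
    apply Subgroup.inf_eq_bot_of_coprime
    rw [Subgroup.card_map_of_injective H.subtype_injective]
    obtain ⟨n, hn⟩ := IsPGroup.iff_card.mp P.isPGroup'
    rw [hn]
    exact Nat.Coprime.pow_left n h4.symm
  rw [eq_bot_iff, ← h5]
  exact le_inf inf_le_left h3

theorem npc_of_injective {A B : Type*} [Group A] [Group B] [Finite A] [Finite B] {p : ℕ}
    [Fact p.Prime] (f : A →* B) (hf : Function.Injective f) (h : HasNormalPComplement p B) :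
    HasNormalPComplement p A := by
  have h1 : HasNormalPComplement p ↥f.range := npc_subgroup _ h
  exact npc_mulEquiv (MonoidHom.ofInjective hf).symm h1

theorem aux {G : Type*} [Group G] [Finite G] {p : ℕ} [Fact p.Prime] (P : Sylow p G)
    (hN : Cfsg.HasNormalPComplement p ↥(Subgroup.normalizer ((P : Subgroup G) : Set G)))
    (Q : Subgroup G)
    (h1 : (commutator ↥(P : Subgroup G)).map (P : Subgroup G).subtype ≤ Q)
    (h2 : Q ≤ (frattini ↥(P : Subgroup G)).map (P : Subgroup G).subtype)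
    (T : Subgroup G) (hT : T = Subgroup.normalizer (Q : Set G)) :
    Cfsg.HasNormalPComplement p ↥T := by
  classical
  have hQP : Q ≤ (P : Subgroup G) := h2.trans (Subgroup.map_subtype_le _)
  have hcomm : ∀ a ∈ (P : Subgroup G), ∀ b ∈ (P : Subgroup G), ⁅a, b⁆ ∈ Q := by
    intro a ha b hb
    apply h1
    refine ⟨⁅(⟨a, ha⟩ : ↥(P : Subgroup G)), ⟨b, hb⟩⁆, ?_, rfl⟩
    rw [commutator_def]
    exact Subgroup.commutator_mem_commutator (Subgroup.mem_top _) (Subgroup.mem_top _)
  have hPT : (P : Subgroup G) ≤ T := by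
    intro g hg
    rw [hT]
    apply mem_normalizer_of_conj_le
    rintro _ ⟨q, hq, rfl⟩
    have e : (MulAut.conj g).toMonoidHom q = ⁅g, q⁆ * q := by
      simp [commutatorElement_def]
    rw [e]
    exact Subgroup.mul_mem _ (hcomm g hg q (hQP hq)) hq
  haveI hQn : (Q.subgroupOf T).Normal := by
    subst hT
    exact Subgroup.normal_in_normalizer
  refine key (P.subtype hPT) (Q.subgroupOf T) ?_ ?_ ?_
  · rw [Sylow.coe_subtype, Subgroup.commutator_le]
    intro a ha b hb
    rw [Subgroup.mem_subgroupOf] at ha hb ⊢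
    have e : ((⁅a, b⁆ : ↥T) : G) = ⁅(a : G), (b : G)⁆ := by
      simp [commutatorElement_def]
    rw [e]
    exact hcomm _ ha _ hb
  · intro X hXP hc hpow
    rw [Sylow.coe_subtype] at hXP hc hpow
    have hh : (frattini ↥(P : Subgroup G)).map (P : Subgroup G).subtype ≤ X.map T.subtype := by
      apply frattini_map_le_of (p := p)
      · rintro _ ⟨y, hy, rfl⟩
        exact Subgroup.mem_subgroupOf.1 (hXP hy)
      · rw [Subgroup.commutator_le]
        intro a ha b hb
        exact ⟨⁅(⟨a, hPT ha⟩ : ↥T), ⟨b, hPT hb⟩⁆,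
          hc (Subgroup.commutator_mem_commutator (Subgroup.mem_subgroupOf.2 ha)
            (Subgroup.mem_subgroupOf.2 hb)), rfl⟩
      · intro u hu
        exact ⟨(⟨u, hPT hu⟩ : ↥T) ^ p, hpow _ (Subgroup.mem_subgroupOf.2 hu), rfl⟩
    intro x hx
    rw [Subgroup.mem_subgroupOf] at hx
    obtain ⟨y, hy, hyx⟩ := hh (h2 hx)
    have : y = x := Subtype.ext hyx
    rw [← this]; exact hy
  · have hmem : ∀ x : ↥(Subgroup.normalizer (((P.subtype hPT : Sylow p ↥T) : Subgroup ↥T) :
        Set ↥T)), (T.subtype.comp (Subgroup.subtype _)) x ∈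
        Subgroup.normalizer ((P : Subgroup G) : Set G) := by
      intro x
      apply mem_normalizer_of_conj_le
      rintro _ ⟨g, hg, rfl⟩
      have h3 := (Subgroup.mem_normalizer_iff.1 x.2 ⟨g, hPT hg⟩).1
        (by rw [Sylow.coe_subtype, Subgroup.mem_subgroupOf]; exact hg)
      have h4 : ((x : ↥T) * ⟨g, hPT hg⟩ * (x : ↥T)⁻¹ : ↥T) ∈ (P : Subgroup G).subgroupOf T := h3
      rw [Subgroup.mem_subgroupOf] at h4
      have h5 : (MulAut.conj ((T.subtype.comp (Subgroup.subtype _)) x)).toMonoidHom g =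
          (((x : ↥T) * ⟨g, hPT hg⟩ * (x : ↥T)⁻¹ : ↥T) : G) := by
        simp
        rfl
      rw [h5]
      exact h4
    refine npc_of_injective ((T.subtype.comp (Subgroup.subtype _)).codRestrict _ hmem) ?_ hN
    intro x y hxy
    have h3 := congrArg Subtype.val hxy
    exact Subtype.ext (Subtype.ext h3)

theorem result {G : Type*} [Group G] [Finite G] {p : ℕ} [Fact p.Prime] (P : Sylow p G) (hN : Cfsg.HasNormalPComplement p ↥(Subgroup.normalizer ((P : Subgroup G) : Set G))) (Q : Subgroup G) (h1 : (commutator ↥(P : Subgroup G)).map (P : Subgroup G).subtype ≤ Q) (h2 : Q ≤ (frattini ↥(P : Subgroup G)).map (P : Subgroup G).subtype) : Cfsg.HasNormalPComplement p ↥(Subgroup.normalizer (Q : Set G)) := by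
  exact aux P hN Q h1 h2 _ rfl

end Cfsg.Agent.S3838
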