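import Cfsg.Statements.S3857
import Mathlib
import Cfsg.Agent.Lib.Helper20.AbGen
import Cfsg.Agent.Lib.Helper20.FPF4
import Cfsg.Agent.Lib.Helper20.UpperSeries

set_option autoImplicit false
set_option linter.style.haveILetI false
open Cfsg
open scoped Pointwise

namespace Cfsg.Agent.S3857

universe u

def NoMix (S : Set ℕ) (X : Type*) [Group X] : Prop :=
  ∀ a ∈ S, ∀ b ∉ S, a.Prime → b.Prime → ¬ ∃ g : X, orderOf g = a * b

def SGrp (S : Set ℕ) {X : Type*} [Group X] (K : Subgroup X) : Prop :=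
  ∀ p : ℕ, p.Prime → p ∣ Nat.card K → p ∈ S

theorem nomix_commute {X : Type*} [Group X] [Finite X] {S : Set ℕ} (h : NoMix S X) {x y : X}
    (hxy : x * y = y * x) (hx1 : x ≠ 1) (hy1 : y ≠ 1)
    (hx : ∀ p : ℕ, p.Prime → p ∣ orderOf x → p ∈ S)
    (hy : ∀ p : ℕ, p.Prime → p ∣ orderOf y → p ∉ S) : False := by
  have hox : orderOf x ≠ 1 := fun h => hx1 (orderOf_eq_one_iff.1 h)
  have hoy : orderOf y ≠ 1 := fun h => hy1 (orderOf_eq_one_iff.1 h)
  obtain ⟨a, ha, hax⟩ := Nat.exists_prime_and_dvd hox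
  obtain ⟨b, hb, hby⟩ := Nat.exists_prime_and_dvd hoy
  have hx0 : orderOf x ≠ 0 := (orderOf_pos x).ne'
  have hy0 : orderOf y ≠ 0 := (orderOf_pos y).ne'
  have h1 := orderOf_pow_orderOf_div hx0 hax
  have h2 := orderOf_pow_orderOf_div hy0 hby
  have hc0 : Commute x y := hxy
  have hc : Commute (x ^ (orderOf x / a)) (y ^ (orderOf y / b)) := hc0.pow_pow _ _
  have hab : a ≠ b := fun e => hy b hb hby (e ▸ hx a ha hax)
  have hcop : (orderOf (x ^ (orderOf x / a))).Coprime (orderOf (y ^ (orderOf y / b))) := by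
    rw [h1, h2]; exact (Nat.coprime_primes ha hb).2 hab
  have h3 := hc.orderOf_mul_eq_mul_orderOf_of_coprime hcop
  rw [h1, h2] at h3
  exact h a (hx a ha hax) b (hy b hb hby) ha hb ⟨_, h3⟩

theorem nomix_quot {G : Type*} [Group G] [Finite G] {S : Set ℕ} (h : NoMix S G)
    (N : Subgroup G) [N.Normal] : NoMix S (G ⧸ N) := by
  rintro a ha b hb hap hbp ⟨gb, hg⟩
  obtain ⟨g, rfl⟩ := QuotientGroup.mk'_surjective N gb
  have hdvd : a * b ∣ orderOf g := by
    rw [← hg]; exact orderOf_map_dvd (QuotientGroup.mk' N) g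
  exact h a ha b hb hap hbp ⟨_, orderOf_pow_orderOf_div (orderOf_pos g).ne' hdvd⟩

theorem frob_of_compl {X : Type*} [Group X] [Finite X] (N H : Subgroup X) [hN : N.Normal]
    (hc : N.IsComplement' H) (hN1 : N ≠ ⊥) (hH1 : H ≠ ⊥)
    (hfpf : ∀ h ∈ H, h ≠ 1 → ∀ n ∈ N, n ≠ 1 → h * n ≠ n * h) :
    IsFrobeniusComplement H ∧ frobeniusKernel H = (N : Set X) := by
  have hdisj : ∀ x, x ∈ N → x ∈ H → x = 1 := fun x hxN hxH =>
    Subgroup.disjoint_def.1 hc.disjoint hxN hxH
  have hdec : ∀ g : X, ∃ n ∈ N, ∃ h ∈ H, g = n * h := by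
    intro g
    obtain ⟨⟨n, h⟩, hnh⟩ := hc.2 g
    exact ⟨n, n.2, h, h.2, hnh.symm⟩
  have hmem : ∀ g x : X, x ∈ MulAut.conj g • H ↔ g⁻¹ * x * g ∈ H := by
    intro g x
    rw [Subgroup.mem_pointwise_smul_iff_inv_smul_mem]
    simp [MulAut.smul_def]
  refine ⟨⟨hH1, ?_, ?_⟩, ?_⟩
  · intro hT
    apply hN1
    rw [eq_bot_iff]
    intro x hx
    rw [Subgroup.mem_bot]
    exact hdisj x hx (hT ▸ Subgroup.mem_top x)
  · intro g hg
    rw [eq_bot_iff]
    rintro x ⟨hxH, hxg⟩
    rw [Subgroup.mem_bot]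
    have hxg' : g⁻¹ * x * g ∈ H := (hmem g x).1 hxg
    obtain ⟨n, hn, h, hh, rfl⟩ := hdec g
    have h1 : n⁻¹ * x * n ∈ H := by
      have := H.mul_mem (H.mul_mem hh hxg') (H.inv_mem hh)
      have e : h * ((n * h)⁻¹ * x * (n * h)) * h⁻¹ = n⁻¹ * x * n := by group
      rwa [e] at this
    have hn1 : n ≠ 1 := by
      rintro rfl
      apply hg; simpa using hh
    have h2 : x⁻¹ * n⁻¹ * x * n ∈ H := by
      have := H.mul_mem (H.inv_mem hxH) h1
      have e : x⁻¹ * (n⁻¹ * x * n) = x⁻¹ * n⁻¹ * x * n := by group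
      rwa [e] at this
    have h3 : x⁻¹ * n⁻¹ * x * n ∈ N := by
      have := N.mul_mem (hN.conj_mem n⁻¹ (N.inv_mem hn) x⁻¹) hn
      simpa [mul_assoc] using this
    have h4 := hdisj _ h3 h2
    by_contra hx1
    apply hfpf x hxH hx1 n hn hn1
    have h5 : n⁻¹ * x * n = x := by
      have e : n⁻¹ * x * n = x * (x⁻¹ * n⁻¹ * x * n) := by group
      rw [e, h4, mul_one]
    calc x * n = n * (n⁻¹ * x * n) := by group
      _ = n * x := by rw [h5]
  · ext x
    constructor
    · rintro (rfl | hx)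
      · exact N.one_mem
      · obtain ⟨n, hn, h, hh, rfl⟩ := hdec x
        by_cases hh1 : h = 1
        · subst hh1; simpa using hn
        · exfalso
          have hmemN : ∀ m : N, (m : X) * h * (m : X)⁻¹ * h⁻¹ ∈ N := by
            intro m
            have := N.mul_mem m.2 (hN.conj_mem _ (N.inv_mem m.2) h)
            simpa [mul_assoc] using this
          have hinj : Function.Injective
              (fun m : N => (⟨(m : X) * h * (m : X)⁻¹ * h⁻¹, hmemN m⟩ : N)) := by
            intro m m' hmm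
            have e0 : (m : X) * h * (m : X)⁻¹ * h⁻¹ = (m' : X) * h * (m' : X)⁻¹ * h⁻¹ :=
              congrArg Subtype.val hmm
            have e1 : (m : X) * h * (m : X)⁻¹ = (m' : X) * h * (m' : X)⁻¹ :=
              mul_right_cancel e0
            by_contra hne
            have hne' : (m' : X)⁻¹ * (m : X) ≠ 1 := by
              intro e
              apply hne
              apply Subtype.ext
              have : (m : X) = (m' : X) * ((m' : X)⁻¹ * (m : X)) := by group
              rw [this, e, mul_one]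
            apply hfpf h hh hh1 ((m' : X)⁻¹ * (m : X)) (N.mul_mem (N.inv_mem m'.2) m.2) hne'
            calc h * ((m' : X)⁻¹ * (m : X))
                = (m' : X)⁻¹ * ((m' : X) * h * (m' : X)⁻¹) * (m : X) := by group
              _ = (m' : X)⁻¹ * ((m : X) * h * (m : X)⁻¹) * (m : X) := by rw [e1]
              _ = (m' : X)⁻¹ * (m : X) * h := by group
          obtain ⟨m, hm⟩ := (Finite.surjective_of_injective hinj) ⟨n, hn⟩
          have hm' : (m : X) * h * (m : X)⁻¹ * h⁻¹ = n := congrArg Subtype.val hm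
          apply hx (m : X)
          rw [hmem, ← hm']
          have e : (m : X)⁻¹ * ((m : X) * h * (m : X)⁻¹ * h⁻¹ * h) * (m : X) = h := by group
          rw [e]; exact hh
    · intro hxN
      by_cases hx1 : x = 1
      · exact Or.inl hx1
      · right
        intro g hg
        rw [hmem] at hg
        have h1 : g⁻¹ * x * g ∈ N := by simpa using hN.conj_mem x hxN g⁻¹
        have h2 := hdisj _ h1 hg
        apply hx1
        have e : x = g * (g⁻¹ * x * g) * g⁻¹ := by group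
        rw [e, h2]; simp

theorem card_comap_mk {G : Type*} [Group G] [Finite G] (N : Subgroup G) [N.Normal]
    (V : Subgroup (G ⧸ N)) :
    Nat.card (V.comap (QuotientGroup.mk' N)) = Nat.card V * Nat.card N := by
  have hle : N ≤ V.comap (QuotientGroup.mk' N) := by
    intro n hn
    rw [Subgroup.mem_comap]
    have : (QuotientGroup.mk' N) n = 1 := (QuotientGroup.eq_one_iff n).2 hn
    rw [this]; exact V.one_mem
  have h1 := Subgroup.index_mul_card (N.subgroupOf (V.comap (QuotientGroup.mk' N)))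
  have h2 : Nat.card (N.subgroupOf (V.comap (QuotientGroup.mk' N))) = Nat.card N :=
    Nat.card_congr (Subgroup.subgroupOfEquivOfLe hle).toEquiv
  have h3 : (N.subgroupOf (V.comap (QuotientGroup.mk' N))).index = Nat.card V :=
    Cfsg.Agent.Lib.Helper20.UpperSeries.relIndex_comap_mk N V
  rw [h2, h3] at h1
  exact h1.symm

theorem cyclic_of_fpf {G : Type u} [Group G] [Finite G] (N V : Subgroup G) [hN : N.Normal]
    (hVab : ∀ a ∈ V, ∀ b ∈ V, a * b = b * a) (hN1 : N ≠ ⊥)
    (hcop : (Nat.card V).Coprime (Nat.card N))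
    (hfpf : ∀ v ∈ V, v ≠ 1 → ∀ n ∈ N, n ≠ 1 → v * n ≠ n * v) :
    ∃ v ∈ V, ∀ w ∈ V, w ∈ Subgroup.zpowers v := by
  by_contra hcon
  push Not at hcon
  haveI : IsMulCommutative ↥V := ⟨⟨fun a b => Subtype.ext (hVab a a.2 b b.2)⟩⟩
  let φ : ↥V →* MulAut ↥N := (MulAut.conjNormal (H := N)).comp V.subtype
  have hgen := Cfsg.Agent.Lib.Helper20.AbGen.gen_abs _ ↥N ↥V φ rfl hcop
  apply hN1
  have hbot : (⊤ : Subgroup ↥N) ≤ ⊥ := by
    rw [← hgen]
    apply iSup₂_le
    rintro B ⟨a, ha⟩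
    have hB1 : ∃ b ∈ B, b ≠ 1 := by
      by_contra hno
      push Not at hno
      have hBbot : B = ⊥ := by
        rw [eq_bot_iff]
        intro b hb
        rw [Subgroup.mem_bot]; exact hno b hb
      rw [hBbot, bot_sup_eq] at ha
      obtain ⟨w, hw, hwn⟩ := hcon (a : G) a.2
      apply hwn
      have hw' : (⟨w, hw⟩ : ↥V) ∈ Subgroup.zpowers a := by rw [ha]; trivial
      obtain ⟨k, hk⟩ := Subgroup.mem_zpowers_iff.1 hw'
      rw [Subgroup.mem_zpowers_iff]
      refine ⟨k, ?_⟩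
      have := congrArg Subtype.val hk
      simpa using this
    obtain ⟨b, hbB, hb1⟩ := hB1
    intro x hx
    rw [Subgroup.mem_bot]
    have h1 : φ b x = x := hx b hbB
    have h2 : (b : G) * (x : G) * (b : G)⁻¹ = (x : G) := congrArg Subtype.val h1
    by_contra hx1
    apply hfpf (b : G) b.2 (fun e => hb1 (Subtype.ext e)) (x : G) x.2 (fun e => hx1 (Subtype.ext e))
    calc (b : G) * (x : G) = ((b : G) * (x : G) * (b : G)⁻¹) * (b : G) := by group
      _ = (x : G) * (b : G) := by rw [h2]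
  rw [eq_bot_iff]
  intro n hn
  have h1 : (⟨n, hn⟩ : ↥N) ∈ (⊥ : Subgroup ↥N) := hbot (Subgroup.mem_top _)
  rw [Subgroup.mem_bot] at h1 ⊢
  exact congrArg Subtype.val h1


theorem main_side {G : Type u} [Group G] [Finite G] (hsol : Group.IsSolvable G) (S : Set ℕ)
    (hmix : NoMix S G) (N₀ : Subgroup G) (hN₀n : N₀.Normal) (hN₀1 : N₀ ≠ ⊥) (hN₀S : SGrp S N₀)
    (b : ℕ) (hb : b.Prime) (hbS : b ∉ S) (hbG : b ∣ Nat.card G) :
    (∃ C : Subgroup G, Cfsg.IsFrobeniusComplement C) ∨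
    (∃ (H K : Subgroup G) (_ : H.Normal), K.Normal ∧ H < K ∧
      (∃ C : Subgroup ↥K, Cfsg.IsFrobeniusComplement C ∧
        Cfsg.frobeniusKernel C = (H.subgroupOf K : Set ↥K)) ∧
      (∃ C : Subgroup (G ⧸ H), Cfsg.IsFrobeniusComplement C ∧
        Cfsg.frobeniusKernel C = (K.map (QuotientGroup.mk' H) : Set (G ⧸ H)))) := by
  classical
  obtain ⟨N, hN₀N, hNmax⟩ := Finite.exists_le_maximal
    (p := fun K : Subgroup G => K.Normal ∧ SGrp S K) ⟨hN₀n, hN₀S⟩
  have hNn : N.Normal := hNmax.1.1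
  have hNS : SGrp S N := hNmax.1.2
  have hN1 : N ≠ ⊥ := fun h => hN₀1 (le_bot_iff.1 (h ▸ hN₀N))
  haveI := hNn
  have hNel : ∀ n ∈ N, ∀ p : ℕ, p.Prime → p ∣ orderOf n → p ∈ S := fun n hn p hp hpd =>
    hNS p hp (dvd_trans hpd (Subgroup.orderOf_dvd_natCard N hn))
  have hmixQ : NoMix S (G ⧸ N) := nomix_quot hmix N
  by_cases hcase : ∃ a, a.Prime ∧ a ∈ S ∧ a ∣ N.index
  swap
  · left
    have hidxS : ∀ p : ℕ, p.Prime → p ∣ N.index → p ∉ S :=
      fun p hp hpd hpS => hcase ⟨p, hp, hpS, hpd⟩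
    have hcop : (Nat.card N).Coprime N.index := by
      by_contra hnc
      obtain ⟨p, hp, hp1, hp2⟩ := Nat.Prime.not_coprime_iff_dvd.1 hnc
      exact hidxS p hp hp2 (hNS p hp hp1)
    obtain ⟨H, hH⟩ := Subgroup.exists_right_complement'_of_coprime hcop
    have hHcard : Nat.card H = N.index := hH.symm.index_eq_card.symm
    have hH1 : H ≠ ⊥ := by
      intro h
      rw [h, Subgroup.card_bot] at hHcard
      have hNtop : N = ⊤ := Subgroup.index_eq_one.1 hHcard.symm
      apply hbS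
      apply hNS b hb
      rw [hNtop, Subgroup.card_top]; exact hbG
    refine ⟨H, (frob_of_compl N H hH hN1 hH1 ?_).1⟩
    intro h hh hh1 n hn hn1 hcomm
    exact nomix_commute hmix hcomm.symm hn1 hh1 (hNel n hn)
      (fun p hp hpd => hidxS p hp
        (hHcard ▸ dvd_trans hpd (Subgroup.orderOf_dvd_natCard H hh)))
  · right
    obtain ⟨a, ha, haS, haidx⟩ := hcase
    have hcardQ : Nat.card (G ⧸ N) = N.index := (Subgroup.index_eq_card N).symm
    haveI : Nontrivial (G ⧸ N) := by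
      rw [← Finite.one_lt_card_iff_nontrivial, hcardQ]
      exact lt_of_lt_of_le ha.one_lt
        (Nat.le_of_dvd (Nat.pos_of_ne_zero Subgroup.index_ne_zero_of_finite) haidx)
    haveI := hsol
    have hsolQ : Group.IsSolvable (G ⧸ N) := inferInstance
    obtain ⟨t, ht, V, hV1, hVchar, hVab, hVexp⟩ :=
      Cfsg.Agent.Lib.Helper20.FPF4.exists_char_abelian (G ⧸ N) hsolQ
    haveI : Fact t.Prime := ⟨ht⟩
    have hVn : V.Normal := ⟨fun v hv g => by simpa using hVchar (MulAut.conj g) v hv⟩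
    haveI := hVn
    have hVp : IsPGroup t V := fun v => ⟨1, by
      rw [pow_one]; exact Subtype.ext (hVexp v v.2)⟩
    have hVprime : ∀ p : ℕ, p.Prime → p ∣ Nat.card V → p = t := by
      intro p hp hpd
      obtain ⟨k, hk⟩ := IsPGroup.iff_card.1 hVp
      rw [hk] at hpd
      exact (Nat.prime_dvd_prime_iff_eq hp ht).1 (hp.dvd_of_dvd_pow hpd)
    have hNcomap : ∀ W : Subgroup (G ⧸ N), N ≤ W.comap (QuotientGroup.mk' N) := by
      intro W n hn
      rw [Subgroup.mem_comap]
      have : (QuotientGroup.mk' N) n = 1 := (QuotientGroup.eq_one_iff n).2 hn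
      rw [this]; exact W.one_mem
    have htS : t ∉ S := by
      intro htS
      have hK := hNmax.2 (y := V.comap (QuotientGroup.mk' N)) ⟨inferInstance, ?_⟩ (hNcomap V)
      · apply hV1
        rw [eq_bot_iff]
        intro v hv
        obtain ⟨g, rfl⟩ := QuotientGroup.mk'_surjective N v
        have : g ∈ N := hK hv
        rw [Subgroup.mem_bot]; exact (QuotientGroup.eq_one_iff g).2 this
      · intro p hp hpd
        rw [card_comap_mk] at hpd
        rcases (Nat.Prime.dvd_mul hp).1 hpd with h | h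
        · rw [hVprime p hp h]; exact htS
        · exact hNS p hp h
    obtain ⟨vb, hvbV, hvb⟩ : ∃ vb ∈ V, ∀ w ∈ V, w ∈ Subgroup.zpowers vb := by
      obtain ⟨L, hLdef⟩ : ∃ L : Subgroup G, L = V.comap (QuotientGroup.mk' N) := ⟨_, rfl⟩
      have hNL : N ≤ L := hLdef ▸ hNcomap V
      have hLcard : Nat.card L = Nat.card V * Nat.card N := by rw [hLdef]; exact card_comap_mk N V
      have hN'card : Nat.card (N.subgroupOf L) = Nat.card N :=
        Nat.card_congr (Subgroup.subgroupOfEquivOfLe hNL).toEquiv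
      have hN'idx : (N.subgroupOf L).index = Nat.card V := by
        have h1 := Subgroup.index_mul_card (N.subgroupOf L)
        rw [hN'card, hLcard] at h1
        exact Nat.eq_of_mul_eq_mul_right Nat.card_pos h1
      have hVN : (Nat.card V).Coprime (Nat.card N) := by
        by_contra hnc
        obtain ⟨p, hp, hp1, hp2⟩ := Nat.Prime.not_coprime_iff_dvd.1 hnc
        exact htS (hVprime p hp hp1 ▸ hNS p hp hp2)
      have hcop₀ : (Nat.card (N.subgroupOf L)).Coprime (N.subgroupOf L).index := by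
        rw [hN'card, hN'idx]; exact hVN.symm
      obtain ⟨V₁', hV₁'⟩ := Subgroup.exists_right_complement'_of_coprime hcop₀
      have hV₁'card : Nat.card V₁' = Nat.card V := by
        rw [← hN'idx]; exact hV₁'.symm.index_eq_card.symm
      have hV₁card : Nat.card (V₁'.map L.subtype) = Nat.card V := by
        rw [Subgroup.card_map_of_injective L.subtype_injective]; exact hV₁'card
      have hdisj₀ : ∀ x ∈ V₁'.map L.subtype, x ∈ N → x = 1 := by
        rintro _ ⟨x, hx, rfl⟩ hxN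
        have h1 : x ∈ N.subgroupOf L := Subgroup.mem_subgroupOf.2 hxN
        have h2 := Subgroup.disjoint_def.1 hV₁'.disjoint h1 hx
        rw [h2]; rfl
      have hV₁L : V₁'.map L.subtype ≤ L := Subgroup.map_subtype_le V₁'
      have hmapV : ∀ x ∈ V₁'.map L.subtype, (QuotientGroup.mk' N) x ∈ V := by
        intro x hx
        have := hV₁L hx
        rw [hLdef] at this
        exact this
      have hab₁ : ∀ x ∈ V₁'.map L.subtype, ∀ y ∈ V₁'.map L.subtype, x * y = y * x := by
        intro x hx y hy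
        have h1 : (x * y) * (y * x)⁻¹ ∈ N := by
          rw [← QuotientGroup.eq_one_iff]
          have h2 := hVab _ (hmapV x hx) _ (hmapV y hy)
          rw [← map_mul, ← map_mul] at h2
          have h3 : (QuotientGroup.mk' N) ((x * y) * (y * x)⁻¹) = 1 := by
            rw [map_mul, map_inv, h2, mul_inv_cancel]
          exact h3
        have h2 : (x * y) * (y * x)⁻¹ ∈ V₁'.map L.subtype :=
          Subgroup.mul_mem _ (Subgroup.mul_mem _ hx hy)
            (Subgroup.inv_mem _ (Subgroup.mul_mem _ hy hx))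
        have h3 := hdisj₀ _ h2 h1
        exact mul_inv_eq_one.1 h3
      have hfpf₁ : ∀ v ∈ V₁'.map L.subtype, v ≠ 1 → ∀ n ∈ N, n ≠ 1 → v * n ≠ n * v := by
        intro v hv hv1 n hn hn1 hc
        refine nomix_commute hmix hc.symm hn1 hv1 (hNel n hn) ?_
        intro p hp hpd
        have h1 : p ∣ Nat.card V := by
          rw [← hV₁card]
          exact dvd_trans hpd (Subgroup.orderOf_dvd_natCard _ hv)
        rw [hVprime p hp h1]; exact htS
      obtain ⟨v₀, hv₀, hv₀gen⟩ := cyclic_of_fpf N (V₁'.map L.subtype) hab₁ hN1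
        (by rw [hV₁card]; exact hVN) hfpf₁
      refine ⟨(QuotientGroup.mk' N) v₀, hmapV v₀ hv₀, ?_⟩
      intro w hw
      obtain ⟨g, rfl⟩ := QuotientGroup.mk'_surjective N w
      have hgL : g ∈ L := by rw [hLdef]; exact hw
      obtain ⟨⟨n, v⟩, hnv⟩ := hV₁'.2 (⟨g, hgL⟩ : ↥L)
      have hnv' : ((n : ↥L) : G) * ((v : ↥L) : G) = g := congrArg Subtype.val hnv
      have hnN : ((n : ↥L) : G) ∈ N := Subgroup.mem_subgroupOf.1 n.2
      have hvV₁ : ((v : ↥L) : G) ∈ V₁'.map L.subtype := ⟨v, v.2, rfl⟩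
      obtain ⟨k, hk⟩ := Subgroup.mem_zpowers_iff.1 (hv₀gen _ hvV₁)
      rw [Subgroup.mem_zpowers_iff]
      refine ⟨k, ?_⟩
      rw [← map_zpow, hk, ← hnv', map_mul]
      have : (QuotientGroup.mk' N) ((n : ↥L) : G) = 1 := (QuotientGroup.eq_one_iff _).2 hnN
      rw [this, one_mul]
    have hvb1 : vb ≠ 1 := by
      rintro rfl
      apply hV1
      rw [eq_bot_iff]
      intro w hw
      have := hvb w hw
      rw [Subgroup.zpowers_one_eq_bot] at this
      exact this
    have hvbt : orderOf vb = t := by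
      haveI : Fact t.Prime := ⟨ht⟩
      exact orderOf_eq_prime (hVexp vb hvbV) hvb1
    obtain ⟨C₁, hC₁def⟩ : ∃ C₁ : Subgroup (G ⧸ N), C₁ = Subgroup.centralizer (V : Set (G ⧸ N)) :=
      ⟨_, rfl⟩
    haveI hC₁n : C₁.Normal := by rw [hC₁def]; infer_instance
    have hC₁S : ∀ p : ℕ, p.Prime → p ∣ Nat.card C₁ → p ∉ S := by
      intro p hp hpd hpS
      haveI : Fact p.Prime := ⟨hp⟩
      obtain ⟨c, hc⟩ := exists_prime_orderOf_dvd_card' p hpd
      have hcC : (c : G ⧸ N) ∈ Subgroup.centralizer (V : Set (G ⧸ N)) := hC₁def ▸ c.2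
      have hcomm : (c : G ⧸ N) * vb = vb * (c : G ⧸ N) :=
        (Subgroup.mem_centralizer_iff.1 hcC vb hvbV).symm
      have hco : orderOf (c : G ⧸ N) = p := by rw [Subgroup.orderOf_coe]; exact hc
      have hpt : p ≠ t := fun e => htS (e ▸ hpS)
      have hcm : Commute (c : G ⧸ N) vb := hcomm
      have h3 := hcm.orderOf_mul_eq_mul_orderOf_of_coprime
        (by rw [hco, hvbt]; exact (Nat.coprime_primes hp ht).2 hpt)
      rw [hco, hvbt] at h3
      exact hmixQ p hpS t htS hp ht ⟨_, h3⟩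
    have hpow : ∀ z : G ⧸ N, ∃ i : ℤ, ∀ w ∈ V, z * w * z⁻¹ = w ^ i := by
      intro z
      obtain ⟨i, hi⟩ := Subgroup.mem_zpowers_iff.1 (hvb _ (hVn.conj_mem vb hvbV z))
      refine ⟨i, fun w hw => ?_⟩
      obtain ⟨m, rfl⟩ := Subgroup.mem_zpowers_iff.1 (hvb w hw)
      rw [← conj_zpow, ← hi, ← zpow_mul, ← zpow_mul, mul_comm]
    have hcomm : ∀ x y : G ⧸ N, x * y * x⁻¹ * y⁻¹ ∈ C₁ := by
      intro x y
      obtain ⟨i, hi⟩ := hpow x
      obtain ⟨j, hj⟩ := hpow y
      rw [hC₁def, Subgroup.mem_centralizer_iff]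
      intro w hw
      have hw₁ : (y * x)⁻¹ * w * (y * x) ∈ V := by
        have := hVn.conj_mem w hw (y * x)⁻¹
        simpa using this
      have e1 : (x * y) * ((y * x)⁻¹ * w * (y * x)) * (x * y)⁻¹
          = (((y * x)⁻¹ * w * (y * x)) ^ j) ^ i := by
        rw [← hj _ hw₁, ← hi _ (by rw [hj _ hw₁]; exact V.zpow_mem hw₁ j)]
        group
      have e2 : (y * x) * ((y * x)⁻¹ * w * (y * x)) * (y * x)⁻¹
          = (((y * x)⁻¹ * w * (y * x)) ^ i) ^ j := by
        rw [← hi _ hw₁, ← hj _ (by rw [hi _ hw₁]; exact V.zpow_mem hw₁ i)]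
        group
      have e3 : (y * x) * ((y * x)⁻¹ * w * (y * x)) * (y * x)⁻¹ = w := by group
      have key : (x * y) * ((y * x)⁻¹ * w * (y * x)) * (x * y)⁻¹ = w := by
        rw [e1, ← zpow_mul, mul_comm, zpow_mul, ← e2, e3]
      calc w * (x * y * x⁻¹ * y⁻¹)
          = ((x * y) * ((y * x)⁻¹ * w * (y * x)) * (x * y)⁻¹) * (x * y * x⁻¹ * y⁻¹) := by
            rw [key]
        _ = (x * y * x⁻¹ * y⁻¹) * w := by group
    have hcardC₁ : Nat.card C₁ * C₁.index = N.index := by
      rw [Subgroup.card_mul_index, hcardQ]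
    have haC₁ : a ∣ C₁.index := by
      have h1 : a ∣ Nat.card C₁ * C₁.index := by rw [hcardC₁]; exact haidx
      rcases (Nat.Prime.dvd_mul ha).1 h1 with h | h
      · exact absurd haS (hC₁S a ha h)
      · exact h
    have hC₁idx : ∀ p : ℕ, p.Prime → p ∣ C₁.index → p ∈ S := by
      intro p hp hpd
      by_contra hpS
      haveI : Fact a.Prime := ⟨ha⟩
      haveI : Fact p.Prime := ⟨hp⟩
      obtain ⟨xh, hxh⟩ := exists_prime_orderOf_dvd_card' (G := (G ⧸ N) ⧸ C₁) a
        (by rw [← Subgroup.index_eq_card]; exact haC₁)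
      obtain ⟨yh, hyh⟩ := exists_prime_orderOf_dvd_card' (G := (G ⧸ N) ⧸ C₁) p
        (by rw [← Subgroup.index_eq_card]; exact hpd)
      have hcm : Commute xh yh := by
        induction xh using QuotientGroup.induction_on with
        | H x =>
          induction yh using QuotientGroup.induction_on with
          | H y =>
            show (QuotientGroup.mk x : (G ⧸ N) ⧸ C₁) * QuotientGroup.mk y
              = QuotientGroup.mk y * QuotientGroup.mk x
            rw [← QuotientGroup.mk_mul, ← QuotientGroup.mk_mul, QuotientGroup.eq]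
            have := hcomm y⁻¹ x⁻¹
            have e : (x * y)⁻¹ * (y * x) = y⁻¹ * x⁻¹ * y⁻¹⁻¹ * x⁻¹⁻¹ := by group
            rw [e]; exact this
      have hap : a ≠ p := fun e => hpS (e ▸ haS)
      have ho := hcm.orderOf_mul_eq_mul_orderOf_of_coprime
        (by rw [hxh, hyh]; exact (Nat.coprime_primes ha hp).2 hap)
      rw [hxh, hyh] at ho
      exact nomix_quot hmixQ C₁ a haS p hpS ha hp ⟨_, ho⟩
    have hcop₁ : (Nat.card C₁).Coprime C₁.index := by
      by_contra hnc
      obtain ⟨p, hp, hp1, hp2⟩ := Nat.Prime.not_coprime_iff_dvd.1 hnc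
      exact hC₁S p hp hp1 (hC₁idx p hp hp2)
    obtain ⟨Cb, hCb⟩ := Subgroup.exists_right_complement'_of_coprime hcop₁
    have hCbcard : Nat.card Cb = C₁.index := hCb.symm.index_eq_card.symm
    have hVC₁ : V ≤ C₁ := by
      intro v hv
      rw [hC₁def, Subgroup.mem_centralizer_iff]
      exact fun w hw => hVab w hw v hv
    have hC₁1 : C₁ ≠ ⊥ := fun h => hV1 (le_bot_iff.1 (h ▸ hVC₁))
    have hCb1 : Cb ≠ ⊥ := by
      intro h
      rw [h, Subgroup.card_bot] at hCbcard
      rw [← hCbcard] at haC₁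
      exact ha.one_lt.ne' (Nat.dvd_one.1 haC₁)
    have hfrobQ := frob_of_compl C₁ Cb hCb hC₁1 hCb1 (by
      intro h hh hh1 n hn hn1 hc
      exact nomix_commute hmixQ hc hh1 hn1
        (fun p hp hpd => hC₁idx p hp
          (hCbcard ▸ dvd_trans hpd (Subgroup.orderOf_dvd_natCard Cb hh)))
        (fun p hp hpd => hC₁S p hp (dvd_trans hpd (Subgroup.orderOf_dvd_natCard C₁ hn))))
    obtain ⟨K, hKdef⟩ : ∃ K : Subgroup G, K = C₁.comap (QuotientGroup.mk' N) := ⟨_, rfl⟩
    haveI hKn : K.Normal := by rw [hKdef]; infer_instance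
    have hNK : N ≤ K := hKdef ▸ hNcomap C₁
    have hKmap : K.map (QuotientGroup.mk' N) = C₁ := by
      rw [hKdef]
      exact Subgroup.map_comap_eq_self_of_surjective (QuotientGroup.mk'_surjective N) C₁
    have hKcard : Nat.card K = Nat.card C₁ * Nat.card N := by
      rw [hKdef]; exact card_comap_mk N C₁
    have hNltK : N < K := by
      refine lt_of_le_of_ne hNK (fun e => ?_)
      have h1 : Nat.card C₁ = 1 := by
        have h2 : Nat.card K = 1 * Nat.card N := by rw [← e, one_mul]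
        rw [hKcard] at h2
        exact Nat.eq_of_mul_eq_mul_right Nat.card_pos h2
      exact hC₁1 (Subgroup.card_eq_one.1 h1)
    have hN'card : Nat.card (N.subgroupOf K) = Nat.card N :=
      Nat.card_congr (Subgroup.subgroupOfEquivOfLe hNK).toEquiv
    have hN'idx : (N.subgroupOf K).index = Nat.card C₁ := by
      have h1 := Subgroup.index_mul_card (N.subgroupOf K)
      rw [hN'card, hKcard] at h1
      exact Nat.eq_of_mul_eq_mul_right Nat.card_pos h1
    have hcop₂ : (Nat.card (N.subgroupOf K)).Coprime (N.subgroupOf K).index := by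
      rw [hN'card, hN'idx]
      by_contra hnc
      obtain ⟨p, hp, hp1, hp2⟩ := Nat.Prime.not_coprime_iff_dvd.1 hnc
      exact hC₁S p hp hp2 (hNS p hp hp1)
    obtain ⟨H₁, hH₁⟩ := Subgroup.exists_right_complement'_of_coprime hcop₂
    have hH₁card : Nat.card H₁ = Nat.card C₁ := by
      rw [← hN'idx]; exact hH₁.symm.index_eq_card.symm
    have hN'1 : N.subgroupOf K ≠ ⊥ := by
      intro h
      apply hN1
      rw [← Subgroup.card_eq_one] at h ⊢
      rw [← hN'card]; exact h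
    have hH₁1 : H₁ ≠ ⊥ := by
      intro h
      apply hC₁1
      rw [← Subgroup.card_eq_one] at h ⊢
      rw [← hH₁card]; exact h
    have hfrobK := frob_of_compl (N.subgroupOf K) H₁ hH₁ hN'1 hH₁1 (by
      intro h hh hh1 n hn hn1 hc
      have hc' : (n : G) * (h : G) = (h : G) * (n : G) := (congrArg Subtype.val hc).symm
      refine nomix_commute hmix hc' (fun e => hn1 (Subtype.ext e)) (fun e => hh1 (Subtype.ext e))
        ?_ ?_
      · intro p hp hpd
        exact hNel (n : G) (Subgroup.mem_subgroupOf.1 hn) p hp hpd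
      · intro p hp hpd
        apply hC₁S p hp
        rw [← hH₁card]
        rw [Subgroup.orderOf_coe] at hpd
        exact dvd_trans hpd (Subgroup.orderOf_dvd_natCard H₁ hh))
    exact ⟨N, K, hNn, hKn, hNltK, ⟨H₁, hfrobK⟩, ⟨Cb, hfrobQ.1, by rw [hfrobQ.2, hKmap]⟩⟩

theorem result {G : Type*} [Group G] [Finite G] (hsol : Group.IsSolvable G)
    (hdisc : (∃ A : Set ℕ, (∃ a ∈ A, a.Prime ∧ a ∣ Nat.card G) ∧ (∃ b ∉ A, b.Prime ∧ b ∣ Nat.card G) ∧
      ∀ a ∈ A, ∀ b ∉ A, a.Prime → b.Prime → a ∣ Nat.card G → b ∣ Nat.card G → ¬ ∃ g : G, orderOf g = a * b)) :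
    (∃ C : Subgroup G, Cfsg.IsFrobeniusComplement C) ∨
    (∃ (H K : Subgroup G) (_ : H.Normal), K.Normal ∧ H < K ∧
      (∃ C : Subgroup ↥K, Cfsg.IsFrobeniusComplement C ∧ Cfsg.frobeniusKernel C = (H.subgroupOf K : Set ↥K)) ∧
      (∃ C : Subgroup (G ⧸ H), Cfsg.IsFrobeniusComplement C ∧ Cfsg.frobeniusKernel C = (K.map (QuotientGroup.mk' H) : Set (G ⧸ H)))) := by
  obtain ⟨A, ⟨a, haA, hap, haG⟩, ⟨b, hbA, hbp, hbG⟩, hmix⟩ := hdisc
  have hmixA : NoMix A G := by
    rintro a' ha' b' hb' hap' hbp' ⟨g, hg⟩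
    have hdvd : a' * b' ∣ Nat.card G := hg ▸ orderOf_dvd_natCard g
    exact hmix a' ha' b' hb' hap' hbp' (dvd_trans (dvd_mul_right a' b') hdvd)
      (dvd_trans (dvd_mul_left b' a') hdvd) ⟨g, hg⟩
  have hmixAc : NoMix Aᶜ G := by
    rintro a' ha' b' hb' hap' hbp' ⟨g, hg⟩
    have hb'A : b' ∈ A := by
      by_contra h
      exact hb' h
    exact hmixA b' hb'A a' ha' hbp' hap' ⟨g, by rw [hg, mul_comm]⟩
  haveI : Nontrivial G := (Finite.one_lt_card_iff_nontrivial).1
    (lt_of_lt_of_le hap.one_lt (Nat.le_of_dvd Nat.card_pos haG))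
  obtain ⟨t, ht, V, hV1, hVchar, hVab, hVexp⟩ :=
    Cfsg.Agent.Lib.Helper20.FPF4.exists_char_abelian G hsol
  haveI : Fact t.Prime := ⟨ht⟩
  have hVn : V.Normal := ⟨fun v hv g => by simpa using hVchar (MulAut.conj g) v hv⟩
  have hVp : IsPGroup t V := fun v => ⟨1, by
    rw [pow_one]; exact Subtype.ext (hVexp v v.2)⟩
  have hVprime : ∀ p : ℕ, p.Prime → p ∣ Nat.card V → p = t := by
    intro p hp hpd
    obtain ⟨k, hk⟩ := IsPGroup.iff_card.1 hVp
    rw [hk] at hpd
    exact (Nat.prime_dvd_prime_iff_eq hp ht).1 (hp.dvd_of_dvd_pow hpd)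
  by_cases htA : t ∈ A
  · exact main_side hsol A hmixA V hVn hV1 (fun p hp hpd => (hVprime p hp hpd) ▸ htA)
      b hbp hbA hbG
  · exact main_side hsol Aᶜ hmixAc V hVn hV1 (fun p hp hpd => (hVprime p hp hpd) ▸ htA)
      a hap (fun h => h haA) haG

end Cfsg.Agent.S3857
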