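import Cfsg.Statements.S3859
import Mathlib

set_option autoImplicit false
open Cfsg

namespace Cfsg.Agent.S3859

theorem relIndex_inf_normal {G : Type*} [Group G] [Finite G] (R T : Subgroup G) [T.Normal] :
    (R ⊓ T).relIndex T ∣ R.index := by
  have h1 : Nat.card ↥(R ⊓ T) * (R ⊓ T).relIndex R = Nat.card R := by
    rw [← Subgroup.relIndex_bot_left, ← Subgroup.relIndex_bot_left]
    exact Subgroup.relIndex_mul_relIndex _ _ _ bot_le inf_le_left
  have h2 : Nat.card ↥(R ⊓ T) * (R ⊓ T).relIndex T = Nat.card T := by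
    rw [← Subgroup.relIndex_bot_left, ← Subgroup.relIndex_bot_left]
    exact Subgroup.relIndex_mul_relIndex _ _ _ bot_le inf_le_right
  have h3 : Nat.card T * T.relIndex (R ⊔ T) = Nat.card ↥(R ⊔ T) := by
    rw [← Subgroup.relIndex_bot_left, ← Subgroup.relIndex_bot_left]
    exact Subgroup.relIndex_mul_relIndex _ _ _ bot_le le_sup_right
  have h4 : Nat.card R * R.relIndex (R ⊔ T) = Nat.card ↥(R ⊔ T) := by
    rw [← Subgroup.relIndex_bot_left, ← Subgroup.relIndex_bot_left]
    exact Subgroup.relIndex_mul_relIndex _ _ _ bot_le le_sup_left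
  rw [Subgroup.inf_relIndex_left] at h1
  rw [Subgroup.relIndex_sup_right] at h3
  have hpos : 0 < Nat.card ↥(R ⊓ T) * T.relIndex R := by
    rw [h1]; exact Nat.card_pos
  have heq : (R ⊓ T).relIndex T = R.relIndex (R ⊔ T) := by
    apply Nat.eq_of_mul_eq_mul_left hpos
    calc Nat.card ↥(R ⊓ T) * T.relIndex R * (R ⊓ T).relIndex T
        = (Nat.card ↥(R ⊓ T) * (R ⊓ T).relIndex T) * T.relIndex R := by ring
      _ = Nat.card ↥(R ⊔ T) := by rw [h2, h3]
      _ = Nat.card ↥(R ⊓ T) * T.relIndex R * R.relIndex (R ⊔ T) := by rw [h1, h4]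
  rw [heq]
  exact Subgroup.relIndex_dvd_index_of_le le_sup_left

theorem exists_sylow_inf {G : Type*} [Group G] [Finite G] {r : ℕ} [Fact r.Prime] (R : Sylow r G)
    (T : Subgroup G) [T.Normal] :
    ∃ P : Sylow r T, (P : Subgroup T).map T.subtype = (R : Subgroup G) ⊓ T := by
  have hP1 : IsPGroup r ↥(((R : Subgroup G) ⊓ T).subgroupOf T) :=
    (R.isPGroup'.to_le inf_le_left).comap_of_injective T.subtype T.subtype_injective
  have hP2 : ¬ r ∣ (((R : Subgroup G) ⊓ T).subgroupOf T).index := by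
    intro h
    exact R.not_dvd_index (h.trans (relIndex_inf_normal (R : Subgroup G) T))
  refine ⟨hP1.toSylow hP2, ?_⟩
  show (((R : Subgroup G) ⊓ T).subgroupOf T).map T.subtype = (R : Subgroup G) ⊓ T
  rw [Subgroup.map_subgroupOf_eq_of_le inf_le_right]

theorem lemmaA {G : Type*} [Group G] [Finite G] (T : Subgroup G) (hT : IsSimpleGroup T)
    (hna : ¬ IsMulCommutative T) {r : ℕ} [Fact r.Prime] (Q : Subgroup G) (hQ : IsPGroup r Q)
    (hQT : Q ⊓ T ≠ ⊥) (hn : (Q ⊓ T).Normal) : False := by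
  have := hT
  have h1 : ((Q ⊓ T).subgroupOf T).Normal := Subgroup.normal_subgroupOf
  rcases h1.eq_bot_or_eq_top with h | h
  · rw [Subgroup.subgroupOf_eq_bot] at h
    apply hQT
    have := h.eq_bot
    rwa [inf_assoc, inf_idem] at this
  · rw [Subgroup.subgroupOf_eq_top] at h
    have hTp : IsPGroup r T := hQ.to_le (h.trans inf_le_left)
    have hcn : Nontrivial ↥(Subgroup.center T) := hTp.center_nontrivial
    have hc : Subgroup.center T = ⊤ := by
      rcases (inferInstance : (Subgroup.center T).Normal).eq_bot_or_eq_top with h' | h'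
      · exfalso
        rw [h'] at hcn
        exact not_nontrivial _ hcn
      · exact h'
    apply hna
    let _ := Group.commGroupOfCenterEqTop hc
    exact ⟨⟨mul_comm⟩⟩

theorem result {G : Type*} [Group G] [Finite G] (T : Subgroup G) [T.Normal] (hT : IsSimpleGroup T) (hna : ¬ IsMulCommutative T)
    (hC : Subgroup.centralizer (T : Set G) = ⊥) {r : ℕ} [Fact r.Prime] (R : Sylow r G) (hR0 : (R : Subgroup G) ⊓ T ≠ ⊥)
    (huniq : ∃! M : Subgroup G, IsCoatom M ∧ (R : Subgroup G) ≤ M) : IsPGroup r (G ⧸ T) := by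
  obtain ⟨M, ⟨hM, hRM⟩, hMu⟩ := huniq
  by_cases hRT : (R : Subgroup G) ⊔ T = ⊤
  · apply IsPGroup.of_surjective R.isPGroup' ((QuotientGroup.mk' T).comp (R : Subgroup G).subtype)
    intro q
    obtain ⟨g, rfl⟩ := QuotientGroup.mk_surjective q
    have hg : g ∈ (R : Subgroup G) ⊔ T := by rw [hRT]; trivial
    rw [← SetLike.mem_coe, Subgroup.mul_normal] at hg
    obtain ⟨x, hx, t, ht, rfl⟩ := hg
    refine ⟨⟨x, hx⟩, ?_⟩
    simp only [MonoidHom.coe_comp, Function.comp_apply, Subgroup.coe_subtype, QuotientGroup.mk'_apply]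
    rw [QuotientGroup.eq]
    simpa using ht
  · exfalso
    obtain ⟨M₁, hM₁, hle₁⟩ := (eq_top_or_exists_le_coatom ((R : Subgroup G) ⊔ T)).resolve_left hRT
    have hM₁M : M₁ = M := hMu M₁ ⟨hM₁, le_sup_left.trans hle₁⟩
    have hTM : T ≤ M := hM₁M ▸ (le_sup_right.trans hle₁)
    obtain ⟨P, hP⟩ := exists_sylow_inf R T
    have hfr := Sylow.normalizer_sup_eq_top P
    rw [hP] at hfr
    have hRN : (R : Subgroup G) ≤ Subgroup.normalizer (((R : Subgroup G) ⊓ T : Subgroup G) : Set G) := by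
      intro x (hx : x ∈ (R : Subgroup G))
      rw [Subgroup.mem_normalizer_iff]
      intro h
      constructor
      · rintro ⟨h1, h2⟩
        exact ⟨(R : Subgroup G).mul_mem ((R : Subgroup G).mul_mem hx h1) ((R : Subgroup G).inv_mem hx), Subgroup.Normal.conj_mem inferInstance h h2 x⟩
      · rintro ⟨h1, h2⟩
        refine ⟨?_, ?_⟩
        · have : h = x⁻¹ * (x * h * x⁻¹) * x := by group
          rw [this]
          exact (R : Subgroup G).mul_mem ((R : Subgroup G).mul_mem ((R : Subgroup G).inv_mem hx) h1) hx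
        · have : h = x⁻¹ * (x * h * x⁻¹) * x⁻¹⁻¹ := by group
          rw [this]
          exact Subgroup.Normal.conj_mem inferInstance _ h2 _
    have hNtop : Subgroup.normalizer (((R : Subgroup G) ⊓ T : Subgroup G) : Set G) ≠ ⊤ := by
      intro h
      rw [Subgroup.normalizer_eq_top_iff] at h
      exact lemmaA T hT hna (R : Subgroup G) R.isPGroup' hR0 h
    obtain ⟨M₂, hM₂, hle₂⟩ := (eq_top_or_exists_le_coatom _).resolve_left hNtop
    have hM₂M : M₂ = M := hMu M₂ ⟨hM₂, hRN.trans hle₂⟩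
    have : (⊤ : Subgroup G) ≤ M := by
      rw [← hfr]
      exact sup_le (hM₂M ▸ hle₂) hTM
    exact hM.1 (top_le_iff.mp this)

end Cfsg.Agent.S3859
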