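import Cfsg.Statements.S3858
import Mathlib
import Cfsg.Agent.S3859

set_option autoImplicit false
open Cfsg

namespace Cfsg.Agent.S3858

theorem exists_conj_le {G : Type*} [Group G] [Finite G] {r : ℕ} [Fact r.Prime] (R : Sylow r G)
    (H : Subgroup G) (hH : ¬ r ∣ H.index) :
    ∃ g : G, (R : Subgroup G) ≤ H.map (MulAut.conj g).toMonoidHom := by
  have hfix := IsPGroup.nonempty_fixed_point_of_prime_not_dvd_card (G := (R : Subgroup G))
    R.isPGroup' (G ⧸ H) hH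
  obtain ⟨q, hq⟩ := hfix
  obtain ⟨g, rfl⟩ := QuotientGroup.mk_surjective q
  refine ⟨g, ?_⟩
  intro x hx
  have h1 := hq ⟨x, hx⟩
  have h2 : ((x * g : G) : G ⧸ H) = (g : G ⧸ H) := h1
  rw [QuotientGroup.eq] at h2
  rw [Subgroup.mem_map]
  refine ⟨g⁻¹ * x * g, ?_, ?_⟩
  · have h3 := H.inv_mem h2
    have : g⁻¹ * x * g = ((x * g)⁻¹ * g)⁻¹ := by group
    rw [this]
    exact h3
  · simp only [MulEquiv.coe_toMonoidHom, MulAut.conj_apply]
    group

theorem conj_isCoatom {G : Type*} [Group G] {M : Subgroup G} (hM : IsCoatom M) (g : G) :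
    IsCoatom (M.map (MulAut.conj g).toMonoidHom) :=
  ((MulAut.conj g).mapSubgroup.isCoatom_iff M).mpr hM

theorem map_conj_map_conj {G : Type*} [Group G] (M : Subgroup G) (a b : G) :
    (M.map (MulAut.conj b).toMonoidHom).map (MulAut.conj a).toMonoidHom
      = M.map (MulAut.conj (a * b)).toMonoidHom := by
  rw [Subgroup.map_map]
  congr 1
  ext x
  simp [MulAut.conj_apply, mul_assoc]

theorem map_conj_of_mem {G : Type*} [Group G] (M : Subgroup G) {g : G} (hg : g ∈ M) :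
    M.map (MulAut.conj g).toMonoidHom = M := by
  ext x
  rw [Subgroup.mem_map]
  constructor
  · rintro ⟨y, hy, rfl⟩
    simp only [MulEquiv.coe_toMonoidHom, MulAut.conj_apply]
    exact M.mul_mem (M.mul_mem hg hy) (M.inv_mem hg)
  · intro hx
    refine ⟨g⁻¹ * x * g, M.mul_mem (M.mul_mem (M.inv_mem hg) hx) hg, ?_⟩
    simp only [MulEquiv.coe_toMonoidHom, MulAut.conj_apply]
    group

theorem normalizer_le_normalizer_inf {G : Type*} [Group G] (H T : Subgroup G) [hT : T.Normal] :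
    Subgroup.normalizer (H : Set G) ≤ Subgroup.normalizer ((H ⊓ T : Subgroup G) : Set G) := by
  intro g hg
  rw [Subgroup.mem_normalizer_iff] at hg ⊢
  intro h
  rw [Subgroup.mem_inf, Subgroup.mem_inf, ← hg h]
  have : g * h * g⁻¹ ∈ T ↔ h ∈ T := by
    rw [hT.mem_comm_iff, inv_mul_cancel_left]
  rw [this]

theorem result {G : Type*} [Group G] [Finite G] (T : Subgroup G) [T.Normal] (hT : IsSimpleGroup T) (hna : ¬ IsMulCommutative T)
    (hC : Subgroup.centralizer (T : Set G) = ⊥) {r : ℕ} [Fact r.Prime] (R : Sylow r G) (hR0 : (R : Subgroup G) ⊓ T ≠ ⊥) :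
    (∃! M : Subgroup G, IsCoatom M ∧ (R : Subgroup G) ≤ M) ↔
      ((∃ M : Subgroup G, IsCoatom M ∧ ¬ r ∣ M.index) ∧
        ∀ M₁ M₂ : Subgroup G, IsCoatom M₁ → ¬ r ∣ M₁.index → IsCoatom M₂ → ¬ r ∣ M₂.index → ∃ g : G, M₂ = M₁.map (MulAut.conj g).toMonoidHom) := by
  constructor
  · rintro ⟨M, ⟨hM, hRM⟩, hMu⟩
    have key : ∀ M' : Subgroup G, IsCoatom M' → ¬ r ∣ M'.index →
        ∃ g : G, M' = M.map (MulAut.conj g).toMonoidHom := by
      intro M' hM' hidx
      obtain ⟨g, hg⟩ := exists_conj_le R M' hidx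
      have hco : IsCoatom (M'.map (MulAut.conj g).toMonoidHom) := conj_isCoatom hM' g
      have h3 := hMu _ ⟨hco, hg⟩
      refine ⟨g⁻¹, ?_⟩
      rw [← h3, map_conj_map_conj, inv_mul_cancel, map_conj_of_mem M' (one_mem _)]
    refine ⟨⟨M, hM, fun h => R.not_dvd_index (h.trans (Subgroup.index_dvd_of_le hRM))⟩, ?_⟩
    intro M₁ M₂ h1 h1' h2 h2'
    obtain ⟨g₁, rfl⟩ := key M₁ h1 h1'
    obtain ⟨g₂, rfl⟩ := key M₂ h2 h2'
    refine ⟨g₂ * g₁⁻¹, ?_⟩
    rw [map_conj_map_conj, inv_mul_cancel_right]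
  · rintro ⟨⟨M₀, hM₀, hidx₀⟩, hconj⟩
    have hNtop : Subgroup.normalizer (((R : Subgroup G) ⊓ T : Subgroup G) : Set G) ≠ ⊤ := by
      intro h
      rw [Subgroup.normalizer_eq_top_iff] at h
      exact Cfsg.Agent.S3859.lemmaA T hT hna (R : Subgroup G) R.isPGroup' hR0 h
    obtain ⟨M₁, hM₁, hle₁⟩ := (eq_top_or_exists_le_coatom _).resolve_left hNtop
    have hNN := normalizer_le_normalizer_inf (R : Subgroup G) T
    have hRM₁ : (R : Subgroup G) ≤ M₁ := Subgroup.le_normalizer.trans (hNN.trans hle₁)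
    refine ⟨M₁, ⟨hM₁, hRM₁⟩, ?_⟩
    rintro M' ⟨hM', hRM'⟩
    have i1 : ¬ r ∣ M₁.index := fun h => R.not_dvd_index (h.trans (Subgroup.index_dvd_of_le hRM₁))
    have i2 : ¬ r ∣ M'.index := fun h => R.not_dvd_index (h.trans (Subgroup.index_dvd_of_le hRM'))
    obtain ⟨g, rfl⟩ := hconj M₁ M' hM₁ i1 hM' i2
    have h2 : ((g⁻¹ • R : Sylow r G) : Subgroup G) ≤ M₁ := by
      intro x hx
      rw [Sylow.coe_subgroup_smul] at hx
      obtain ⟨y, hy, rfl⟩ := hx
      obtain ⟨z, hz, rfl⟩ := hRM' hy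
      have : (MulAut.conj g⁻¹ • ((MulAut.conj g).toMonoidHom z) : G) = z := by
        simp [MulAut.smul_def, MulAut.conj_apply, mul_assoc]
      simp only [MulDistribMulAction.toMonoidEnd_apply, MulDistribMulAction.toMonoidHom_apply]
      rw [this]
      exact hz
    obtain ⟨h, hh⟩ := MulAction.exists_smul_eq M₁ ((g⁻¹ • R).subtype h2) (R.subtype hRM₁)
    simp_rw [Sylow.smul_subtype, Subgroup.smul_def, smul_smul] at hh
    have hn : (h : G) * g⁻¹ ∈ Subgroup.normalizer ((R : Subgroup G) : Set G) :=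
      Sylow.smul_eq_iff_mem_normalizer.mp (Sylow.subtype_injective hh)
    have hgM : g⁻¹ ∈ M₁ := by
      have h5 := hle₁ (hNN hn)
      have h6 := M₁.mul_mem (M₁.inv_mem h.2) h5
      simpa using h6
    have hgM' : g ∈ M₁ := by simpa using M₁.inv_mem hgM
    exact map_conj_of_mem M₁ hgM'

end Cfsg.Agent.S3858
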