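import Cfsg.Statements.S3861
import Mathlib
import Cfsg.Agent.Lib.Helper16.Basic
import Cfsg.Agent.Lib.Helper12.SylowBasic
import Cfsg.Agent.Lib.Helper10.Coprime

set_option autoImplicit false
open Cfsg

namespace Cfsg.Agent.S3861

open Cfsg.Agent.Lib.Helper16.Basic
open scoped Pointwise

universe u

def NRO (G : Type*) [Group G] : Prop :=
  ∀ x : G, x ≠ 1 → Odd (orderOf x) → ¬ IsConj x x⁻¹

theorem nro_subgroup {G : Type*} [Group G] (h : NRO G) (K : Subgroup G) : NRO K := by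
  intro x hx hodd hc
  apply h (x : G)
  · intro h1
    exact hx (Subtype.ext h1)
  · rwa [Subgroup.orderOf_coe]
  · have := K.subtype.map_isConj hc
    simpa using this

theorem eq_one_of_odd_of_pow {G : Type*} [Group G] {x : G} (hodd : Odd (orderOf x)) {b : ℕ}
    (hx : x ^ (2 ^ b) = 1) : x = 1 := by
  have h2 := orderOf_dvd_of_pow_eq_one hx
  have hcop : Nat.Coprime (orderOf x) (2 ^ b) :=
    Nat.Coprime.pow_right b (Nat.coprime_two_right.mpr hodd)
  exact orderOf_eq_one_iff.mp (Nat.Coprime.eq_one_of_dvd hcop h2)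

theorem nro_quotient {G : Type u} [Group G] [Finite G] (h : NRO G) (D : Subgroup G) [D.Normal]
    (hD : IsPGroup 2 D) : NRO (G ⧸ D) := by
  intro xb hxb hodd hc
  obtain ⟨gb, hgb⟩ := isConj_iff.mp hc
  obtain ⟨x0, rfl⟩ := QuotientGroup.mk_surjective xb
  obtain ⟨g, rfl⟩ := QuotientGroup.mk_surjective gb
  obtain ⟨b, m, hm, hbm⟩ := Nat.exists_eq_two_pow_mul_odd (orderOf_pos x0).ne'
  obtain ⟨y, hy⟩ : ∃ y : G, y = x0 ^ (2 ^ b) := ⟨_, rfl⟩
  have hym : y ^ m = 1 := by rw [hy, ← pow_mul, ← hbm, pow_orderOf_eq_one]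
  have hyodd : Odd (orderOf y) := Odd.of_dvd_nat hm (orderOf_dvd_of_pow_eq_one hym)
  have hyb : (QuotientGroup.mk y : G ⧸ D) ≠ 1 := by
    intro h1
    apply hxb
    rw [hy, QuotientGroup.mk_pow] at h1
    exact eq_one_of_odd_of_pow hodd h1
  have hy1 : y ≠ 1 := by
    intro h1
    apply hyb
    rw [h1]
    rfl
  have hconj : (QuotientGroup.mk (g * y * g⁻¹) : G ⧸ D) = (QuotientGroup.mk y)⁻¹ := by
    rw [hy]
    simp only [QuotientGroup.mk_mul, QuotientGroup.mk_inv, QuotientGroup.mk_pow]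
    rw [← conj_pow, hgb, inv_pow]
  have hcardY' : Nat.card (Subgroup.zpowers (g * y * g⁻¹)) = Nat.card (Subgroup.zpowers y) := by
    rw [Nat.card_zpowers, Nat.card_zpowers]
    exact (MulAut.conj g).orderOf_eq y
  have hcop : (Nat.card D).Coprime (Nat.card (Subgroup.zpowers y)) := by
    obtain ⟨k, hk⟩ := IsPGroup.iff_card.mp hD
    rw [hk, Nat.card_zpowers]
    exact Nat.Coprime.pow_left k (Nat.coprime_two_left.mpr hyodd)
  have hY'le : Subgroup.zpowers (g * y * g⁻¹) ≤ D ⊔ Subgroup.zpowers y := by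
    rw [Subgroup.zpowers_le]
    have h1 : (g * y * g⁻¹)⁻¹ * y⁻¹ ∈ D := by
      apply QuotientGroup.eq.mp
      rw [hconj]
      rfl
    have h2 : g * y * g⁻¹ = y⁻¹ * ((g * y * g⁻¹)⁻¹ * y⁻¹)⁻¹ := by group
    rw [h2]
    exact Subgroup.mul_mem _
      (Subgroup.mem_sup_right (Subgroup.inv_mem _ (Subgroup.mem_zpowers y)))
      (Subgroup.mem_sup_left (Subgroup.inv_mem _ h1))
  obtain ⟨n, hn, hnY⟩ := Cfsg.Agent.Lib.Helper10.Coprime.rel_conj D (Subgroup.zpowers y)
    (Subgroup.zpowers (g * y * g⁻¹))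
    (by rw [Subgroup.normalizer_eq_top]; exact le_top) hY'le hcardY' hcop (Or.inr inferInstance)
  have hmem : n * y * n⁻¹ ∈ Subgroup.zpowers (g * y * g⁻¹) := by
    rw [← hnY, Cfsg.Agent.Lib.Helper10.Coprime.mem_conj_smul_iff]
    have : n⁻¹ * (n * y * n⁻¹) * n = y := by group
    rw [this]
    exact Subgroup.mem_zpowers y
  obtain ⟨k, hk⟩ := Subgroup.mem_zpowers_iff.mp hmem
  have hc1 : (g⁻¹ * n) * y * (g⁻¹ * n)⁻¹ = y ^ k := by
    rw [conj_zpow] at hk
    calc (g⁻¹ * n) * y * (g⁻¹ * n)⁻¹ = g⁻¹ * (n * y * n⁻¹) * g := by group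
      _ = g⁻¹ * (g * y ^ k * g⁻¹) * g := by rw [hk]
      _ = y ^ k := by group
  have hk1 : y ^ (k + 1) ∈ D := by
    have hn1 : (QuotientGroup.mk n : G ⧸ D) = 1 := (QuotientGroup.eq_one_iff n).mpr hn
    have hconj' : (QuotientGroup.mk g : G ⧸ D) * QuotientGroup.mk y * (QuotientGroup.mk g)⁻¹
        = (QuotientGroup.mk y)⁻¹ := by
      rw [← hconj]
      simp only [QuotientGroup.mk_mul, QuotientGroup.mk_inv]
    have h3 : (QuotientGroup.mk (y ^ k) : G ⧸ D) = (QuotientGroup.mk y)⁻¹ := by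
      rw [← hc1]
      simp only [QuotientGroup.mk_mul, QuotientGroup.mk_inv, hn1, mul_one, mul_inv_rev,
        inv_inv, inv_one, one_mul]
      calc (QuotientGroup.mk g : G ⧸ D)⁻¹ * QuotientGroup.mk y * QuotientGroup.mk g
          = (QuotientGroup.mk g : G ⧸ D)⁻¹ * ((QuotientGroup.mk y)⁻¹)⁻¹ * QuotientGroup.mk g := by
            rw [inv_inv]
        _ = (QuotientGroup.mk g : G ⧸ D)⁻¹ * ((QuotientGroup.mk g : G ⧸ D) * QuotientGroup.mk y *
              (QuotientGroup.mk g)⁻¹)⁻¹ * QuotientGroup.mk g := by rw [hconj']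
        _ = (QuotientGroup.mk y)⁻¹ := by group
    have h4 : (QuotientGroup.mk (y ^ (k + 1)) : G ⧸ D) = 1 := by
      rw [zpow_add_one, QuotientGroup.mk_mul, h3, inv_mul_cancel]
    exact (QuotientGroup.eq_one_iff _).mp h4
  have hk2 : y ^ (k + 1) = 1 := by
    have hdisj : Disjoint D (Subgroup.zpowers y) := Subgroup.disjoint_of_coprime_natCard hcop
    exact Subgroup.disjoint_def.mp hdisj hk1 (Subgroup.zpow_mem _ (Subgroup.mem_zpowers y) _)
  have hk3 : y ^ k = y⁻¹ := by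
    rw [zpow_add_one] at hk2
    exact eq_inv_of_mul_eq_one_left hk2
  exact h y hy1 hyodd (isConj_iff.mpr ⟨g⁻¹ * n, by rw [hc1, hk3]⟩)

theorem exists_invol {G : Type*} [Group G] [Finite G] (P : Sylow 2 G)
    (hP : (P : Subgroup G) ≠ ⊥) : ∃ s ∈ (P : Subgroup G), orderOf s = 2 := by
  have h1 : 1 < Nat.card (P : Subgroup G) := (Subgroup.one_lt_card_iff_ne_bot _).mpr hP
  obtain ⟨k, hk⟩ := IsPGroup.iff_card.mp P.isPGroup'
  have hk0 : k ≠ 0 := by
    rintro rfl
    rw [hk] at h1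
    simp at h1
  have h2 : 2 ∣ Nat.card (P : Subgroup G) := by
    rw [hk]
    exact dvd_pow_self 2 hk0
  obtain ⟨s, hs⟩ := exists_prime_orderOf_dvd_card' 2 h2
  exact ⟨s.1, s.2, by rw [Subgroup.orderOf_coe]; exact hs⟩

theorem closed_of_ti {G : Type u} [Group G] [Finite G] (h : NRO G)
    (hTI : ∀ P Q : Sylow 2 G, P ≠ Q → (P : Subgroup G) ⊓ Q = ⊥) (P₁ P₂ : Sylow 2 G) :
    P₁ = P₂ := by
  by_contra hne
  have hP₁ : (P₁ : Subgroup G) ≠ ⊥ := by
    intro hb
    apply hne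
    exact Sylow.ext (P₁.is_maximal' P₂.isPGroup' (hb ▸ bot_le)).symm
  have hP₂ : (P₂ : Subgroup G) ≠ ⊥ := by
    intro hb
    apply hne
    exact Sylow.ext (P₂.is_maximal' P₁.isPGroup' (hb ▸ bot_le))
  obtain ⟨s, hsP, hs2⟩ := exists_invol P₁ hP₁
  obtain ⟨t, htP, ht2⟩ := exists_invol P₂ hP₂
  have hs1 : s ≠ 1 := by
    rintro rfl
    rw [orderOf_one] at hs2
    omega
  have ht1 : t ≠ 1 := by
    rintro rfl
    rw [orderOf_one] at ht2
    omega
  have hss : s * s = 1 := by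
    rw [← pow_two, ← hs2, pow_orderOf_eq_one]
  have htt : t * t = 1 := by
    rw [← pow_two, ← ht2, pow_orderOf_eq_one]
  have hsinv : s⁻¹ = s := inv_eq_of_mul_eq_one_left hss
  have htinv : t⁻¹ = t := inv_eq_of_mul_eq_one_left htt
  have hinv : s * (s * t) * s⁻¹ = (s * t)⁻¹ := by
    rw [mul_inv_rev, hsinv, htinv, ← mul_assoc, hss, one_mul]
  obtain ⟨a, m, hm, ham⟩ := Nat.exists_eq_two_pow_mul_odd (orderOf_pos (s * t)).ne'
  obtain ⟨y, hy⟩ : ∃ y : G, y = (s * t) ^ (2 ^ a) := ⟨_, rfl⟩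
  have hym : y ^ m = 1 := by rw [hy, ← pow_mul, ← ham, pow_orderOf_eq_one]
  have hyodd : Odd (orderOf y) := Odd.of_dvd_nat hm (orderOf_dvd_of_pow_eq_one hym)
  have hyinv : s * y * s⁻¹ = y⁻¹ := by
    rw [hy, ← conj_pow, hinv, inv_pow]
  by_cases hy1 : y = 1
  · have hx2 : (s * t) ^ (2 ^ a) = 1 := by rw [← hy, hy1]
    have hpx : IsPGroup 2 (Subgroup.zpowers (s * t)) := by
      obtain ⟨j, -, hj⟩ := (Nat.dvd_prime_pow Nat.prime_two).mp (orderOf_dvd_of_pow_eq_one hx2)
      exact IsPGroup.of_card (n := j) (by rw [Nat.card_zpowers, hj])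
    have hps : IsPGroup 2 (Subgroup.zpowers s) :=
      IsPGroup.of_card (n := 1) (by rw [Nat.card_zpowers, hs2, pow_one])
    have hnorm : Subgroup.zpowers s ≤ Subgroup.normalizer (Subgroup.zpowers (s * t) : Set G) := by
      rw [Subgroup.zpowers_le]
      apply Cfsg.Agent.Lib.Helper10.Coprime.mem_normalizer_of_conj_mem
      intro z hz
      obtain ⟨k, rfl⟩ := Subgroup.mem_zpowers_iff.mp hz
      rw [← conj_zpow, hinv]
      exact Subgroup.zpow_mem _ (Subgroup.inv_mem _ (Subgroup.mem_zpowers _)) _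
    have hK := IsPGroup.to_sup_of_normal_right' hps hpx hnorm
    obtain ⟨T, hT⟩ := hK.exists_le_sylow
    have hsT : s ∈ (T : Subgroup G) := hT (Subgroup.mem_sup_left (Subgroup.mem_zpowers s))
    have htT : t ∈ (T : Subgroup G) := by
      have h1 : s * t ∈ (T : Subgroup G) := hT (Subgroup.mem_sup_right (Subgroup.mem_zpowers _))
      have h2 : t = s⁻¹ * (s * t) := by group
      rw [h2]
      exact Subgroup.mul_mem _ (Subgroup.inv_mem _ hsT) h1
    have h1T : P₁ = T := by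
      by_contra hne1
      have h3 := hTI P₁ T hne1
      have h4 : s ∈ (P₁ : Subgroup G) ⊓ T := ⟨hsP, hsT⟩
      rw [h3, Subgroup.mem_bot] at h4
      exact hs1 h4
    have h2T : P₂ = T := by
      by_contra hne1
      have h3 := hTI P₂ T hne1
      have h4 : t ∈ (P₂ : Subgroup G) ⊓ T := ⟨htP, htT⟩
      rw [h3, Subgroup.mem_bot] at h4
      exact ht1 h4
    exact hne (h1T.trans h2T.symm)
  · exact h y hy1 hyodd (isConj_iff.mpr ⟨s, hyinv⟩)

theorem closed_aux : ∀ (n : ℕ) (G : Type u) [Group G] [Finite G], Nat.card G = n → NRO G →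
    ∀ P Q : Sylow 2 G, P = Q := by
  intro n
  induction n using Nat.strong_induction_on with
  | _ n ih =>
    intro G _ _ hn h P Q
    by_contra hPQ
    have hsub : ∀ K : Subgroup G, K ≠ ⊤ → ∀ S T : Sylow 2 K, S = T := by
      intro K hK
      have hlt : Nat.card K < n := by
        rw [← hn]
        exact lt_of_le_of_ne (Subgroup.card_le_card_group K)
          (fun h => hK ((Subgroup.card_eq_iff_eq_top _).mp h))
      exact ih _ hlt K rfl (nro_subgroup h K)
    have : Nonempty {pq : Sylow 2 G × Sylow 2 G // pq.1 ≠ pq.2} := ⟨⟨(P, Q), hPQ⟩⟩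
    obtain ⟨⟨⟨P₁, P₂⟩, hne⟩, hmax⟩ := Finite.exists_max
      (fun pq : {pq : Sylow 2 G × Sylow 2 G // pq.1 ≠ pq.2} =>
        Nat.card ((pq.1.1 : Subgroup G) ⊓ pq.1.2 : Subgroup G))
    have hmax' : ∀ S T : Sylow 2 G, S ≠ T → Nat.card ((S : Subgroup G) ⊓ T : Subgroup G) ≤
        Nat.card ((P₁ : Subgroup G) ⊓ P₂ : Subgroup G) := fun S T hST => hmax ⟨(S, T), hST⟩
    have hne : P₁ ≠ P₂ := hne
    obtain ⟨D, hD⟩ : ∃ D : Subgroup G, D = (P₁ : Subgroup G) ⊓ P₂ := ⟨_, rfl⟩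
    rw [← hD] at hmax'
    have hDP : D ≤ P₁ := hD ▸ inf_le_left
    have hDQ : D ≤ P₂ := hD ▸ inf_le_right
    have hDpg : IsPGroup 2 D := P₁.isPGroup'.to_le hDP
    have hDltP : D < (P₁ : Subgroup G) := by
      refine lt_of_le_of_ne hDP ?_
      intro h
      apply hne
      have hle : (P₁ : Subgroup G) ≤ P₂ := h ▸ hDQ
      exact Sylow.ext (P₁.is_maximal' P₂.isPGroup' hle).symm
    have hDltQ : D < (P₂ : Subgroup G) := by
      refine lt_of_le_of_ne hDQ ?_
      intro h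
      apply hne
      have hle : (P₂ : Subgroup G) ≤ P₁ := h ▸ hDP
      exact Sylow.ext (P₂.is_maximal' P₁.isPGroup' hle)
    have hDn : D.Normal := by
      by_contra hDn
      have hNtop : Subgroup.normalizer (D : Set G) ≠ ⊤ := by
        intro h
        rw [Subgroup.normalizer_eq_top_iff] at h
        exact hDn h
      have hcl := hsub _ hNtop
      obtain ⟨S⟩ : Nonempty (Sylow 2 (Subgroup.normalizer (D : Set G))) := inferInstance
      obtain ⟨T, hT⟩ := (S.isPGroup'.map (Subgroup.subtype _)).exists_le_sylow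
      have key : ∀ A : Subgroup G, IsPGroup 2 A → A ≤ Subgroup.normalizer (D : Set G) →
          A ≤ T := by
        intro A hA hAN
        have hA' : IsPGroup 2 (A.subgroupOf (Subgroup.normalizer (D : Set G))) :=
          hA.comap_subtype
        obtain ⟨S', hS'⟩ := hA'.exists_le_sylow
        rw [hcl S' S] at hS'
        intro a ha
        apply hT
        exact ⟨⟨a, hAN ha⟩, hS' (Subgroup.mem_subgroupOf.mpr ha), rfl⟩
      obtain ⟨x, hxP, hxN, hxD⟩ := exists_mem_normalizer_not_mem P₁.isPGroup' hDltP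
      obtain ⟨y, hyQ, hyN, hyD⟩ := exists_mem_normalizer_not_mem P₂.isPGroup' hDltQ
      have hPN : (P₁ : Subgroup G) ⊓ Subgroup.normalizer (D : Set G) ≤ T :=
        key _ (P₁.isPGroup'.to_le inf_le_left) inf_le_right
      have hQN : (P₂ : Subgroup G) ⊓ Subgroup.normalizer (D : Set G) ≤ T :=
        key _ (P₂.isPGroup'.to_le inf_le_left) inf_le_right
      have hPT : P₁ = T := by
        by_contra hne1
        have hle : D ≤ (P₁ : Subgroup G) ⊓ T :=
          le_inf hDP ((le_inf hDP Subgroup.le_normalizer).trans hPN)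
        have heq := Subgroup.eq_of_le_of_card_ge hle (hmax' P₁ T hne1)
        apply hxD
        rw [heq]
        exact ⟨hxP, hPN ⟨hxP, hxN⟩⟩
      have hQT : P₂ = T := by
        by_contra hne1
        have hle : D ≤ (P₂ : Subgroup G) ⊓ T :=
          le_inf hDQ ((le_inf hDQ Subgroup.le_normalizer).trans hQN)
        have heq := Subgroup.eq_of_le_of_card_ge hle (hmax' P₂ T hne1)
        apply hyD
        rw [heq]
        exact ⟨hyQ, hQN ⟨hyQ, hyN⟩⟩
      exact hne (hPT.trans hQT.symm)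
    by_cases hDb : D = ⊥
    · apply hne
      apply closed_of_ti h
      intro S T hST
      have h1 := hmax' S T hST
      rw [hDb, Subgroup.card_bot] at h1
      exact Subgroup.eq_bot_of_card_le _ h1
    · have hlt : Nat.card (G ⧸ D) < n := by
        rw [← hn, Subgroup.card_eq_card_quotient_mul_card_subgroup D]
        have h1 : 1 < Nat.card D := (Subgroup.one_lt_card_iff_ne_bot _).mpr hDb
        have h2 : 0 < Nat.card (G ⧸ D) := Nat.card_pos
        nlinarith
      have hq := ih _ hlt (G ⧸ D) rfl (nro_quotient h D hDpg)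
      obtain ⟨Sb⟩ : Nonempty (Sylow 2 (G ⧸ D)) := inferInstance
      have hSpg : IsPGroup 2 ((Sb : Subgroup (G ⧸ D)).comap (QuotientGroup.mk' D)) := by
        apply Sb.isPGroup'.comap_of_ker_isPGroup
        rw [QuotientGroup.ker_mk']
        exact hDpg
      have key : ∀ R : Sylow 2 G,
          (R : Subgroup G) = (Sb : Subgroup (G ⧸ D)).comap (QuotientGroup.mk' D) := by
        intro R
        have h1 : (R : Subgroup G) ≤ (Sb : Subgroup (G ⧸ D)).comap (QuotientGroup.mk' D) := by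
          obtain ⟨S', hS'⟩ := (R.isPGroup'.map (QuotientGroup.mk' D)).exists_le_sylow
          rw [hq S' Sb] at hS'
          exact (Subgroup.le_comap_map _ _).trans (Subgroup.comap_mono hS')
        exact (R.is_maximal' hSpg h1).symm
      exact hne (Sylow.ext ((key P₁).trans (key P₂).symm))

theorem result {G : Type*} [Group G] [Finite G] (P : Sylow 2 G) : (∀ x : G, x ≠ 1 → Odd (orderOf x) → ¬ IsConj x x⁻¹) ↔ (P : Subgroup G).Normal := by
  constructor
  · intro h
    have hall : ∀ Q : Sylow 2 G, Q = P := fun Q => closed_aux _ G rfl h Q P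
    constructor
    intro n hn g
    have h1 := hall (g • P)
    have h2 : g * n * g⁻¹ ∈ ((g • P : Sylow 2 G) : Subgroup G) := by
      rw [Cfsg.Agent.Lib.Helper12.SylowBasic.mem_smul_sylow_iff]
      have : g⁻¹ * (g * n * g⁻¹) * g = n := by group
      rw [this]
      exact hn
    rw [h1] at h2
    exact h2
  · intro hP x hx hodd hc
    obtain ⟨g, hg⟩ := isConj_iff.mp hc
    obtain ⟨a, m, hm, ham⟩ := Nat.exists_eq_two_pow_mul_odd (orderOf_pos g).ne'
    obtain ⟨j, hj⟩ := hm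
    have hcomm : Commute (g ^ 2) x := by
      have h1 : g ^ 2 * x * (g ^ 2)⁻¹ = x := by
        calc g ^ 2 * x * (g ^ 2)⁻¹ = g * (g * x * g⁻¹) * g⁻¹ := by rw [pow_two]; group
          _ = g * x⁻¹ * g⁻¹ := by rw [hg]
          _ = (g * x * g⁻¹)⁻¹ := by group
          _ = x := by rw [hg, inv_inv]
      show g ^ 2 * x = x * g ^ 2
      calc g ^ 2 * x = g ^ 2 * x * (g ^ 2)⁻¹ * g ^ 2 := by group
        _ = x * g ^ 2 := by rw [h1]
    have hcomm' : Commute ((g ^ 2) ^ j) x⁻¹ := (hcomm.pow_left j).inv_right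
    obtain ⟨hh, hhd⟩ : ∃ hh : G, hh = g ^ m := ⟨_, rfl⟩
    have hh1 : hh = (g ^ 2) ^ j * g := by
      rw [hhd, hj, pow_succ, pow_mul]
    have hinv : hh * x * hh⁻¹ = x⁻¹ := by
      calc hh * x * hh⁻¹ = (g ^ 2) ^ j * (g * x * g⁻¹) * ((g ^ 2) ^ j)⁻¹ := by rw [hh1]; group
        _ = (g ^ 2) ^ j * x⁻¹ * ((g ^ 2) ^ j)⁻¹ := by rw [hg]
        _ = x⁻¹ * (g ^ 2) ^ j * ((g ^ 2) ^ j)⁻¹ := by rw [hcomm'.eq]
        _ = x⁻¹ := by group
    have hh2 : hh ^ (2 ^ a) = 1 := by
      rw [hhd, ← pow_mul, mul_comm, ← ham, pow_orderOf_eq_one]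
    have hhP : hh ∈ (P : Subgroup G) := by
      have hpx : IsPGroup 2 (Subgroup.zpowers hh) := by
        obtain ⟨i, -, hi⟩ := (Nat.dvd_prime_pow Nat.prime_two).mp (orderOf_dvd_of_pow_eq_one hh2)
        exact IsPGroup.of_card (n := i) (by rw [Nat.card_zpowers, hi])
      obtain ⟨T, hT⟩ := hpx.exists_le_sylow
      have hu := Sylow.unique_of_normal P hP
      have hTP : T = P := Subsingleton.elim _ _
      rw [hTP] at hT
      exact hT (Subgroup.mem_zpowers hh)
    have hx2 : x * x ∈ (P : Subgroup G) := by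
      have h1 : x * hh * x⁻¹ ∈ (P : Subgroup G) := hP.conj_mem hh hhP x
      have h2 := Subgroup.mul_mem _ h1 (Subgroup.inv_mem _ hhP)
      have h3 : x * hh * x⁻¹ * hh⁻¹ = x * (hh * x * hh⁻¹)⁻¹ := by group
      rw [h3, hinv, inv_inv] at h2
      exact h2
    obtain ⟨k, hk⟩ := P.isPGroup' ⟨x * x, hx2⟩
    have hk' : x ^ (2 ^ (k + 1)) = 1 := by
      have := congrArg Subtype.val hk
      simp only [Subgroup.coe_pow, Subgroup.coe_one] at this
      rw [pow_succ, mul_comm, pow_mul, pow_two]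
      exact this
    exact hx (eq_one_of_odd_of_pow hodd hk')

end Cfsg.Agent.S3861
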