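import Cfsg.Statements.S3863
import Mathlib

set_option autoImplicit false
open Cfsg

namespace Cfsg.Agent.S3863

theorem conj_pow {G : Type*} [Group G] (g x : G) (hg : g * x * g⁻¹ = x⁻¹) :
    ∀ n : ℕ, g ^ n * x * (g ^ n)⁻¹ = if Even n then x else x⁻¹
  | 0 => by simp
  | n + 1 => by
    have h1 : g ^ (n + 1) * x * (g ^ (n + 1))⁻¹ = g * (g ^ n * x * (g ^ n)⁻¹) * g⁻¹ := by
      rw [pow_succ']; group
    rw [h1, conj_pow g x hg n]
    by_cases hn : Even n
    · rw [if_pos hn, if_neg (by rw [Nat.even_add_one]; simpa using hn), hg]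
    · rw [if_neg hn, if_pos (by rw [Nat.even_add_one]; exact hn)]
      have : g * x⁻¹ * g⁻¹ = (g * x * g⁻¹)⁻¹ := by group
      rw [this, hg, inv_inv]

theorem exists_two_elt {G : Type*} [Group G] [Finite G] (x : G) (hx : IsConj x x⁻¹) :
    ∃ t : G, (∃ j : ℕ, orderOf t = 2 ^ j) ∧ t * x * t⁻¹ = x⁻¹ := by
  obtain ⟨g, hg⟩ := isConj_iff.mp hx
  obtain ⟨k, m, hm, hkm⟩ := Nat.exists_eq_two_pow_mul_odd (orderOf_pos g).ne'
  have hm0 : m ≠ 0 := by rintro rfl; simp at hm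
  refine ⟨g ^ m, ⟨k, ?_⟩, ?_⟩
  · rw [orderOf_pow_of_dvd hm0 (by rw [hkm]; exact Dvd.intro_left _ rfl), hkm]
    exact Nat.mul_div_cancel _ (Nat.pos_of_ne_zero hm0)
  · rw [conj_pow g x hg m, if_neg (Nat.not_even_iff_odd.mpr hm)]

theorem sq_eq_one_of_odd_index {G : Type*} [Group G] [Finite G] (x t : G) (ht : t * x * t⁻¹ = x⁻¹)
    (hodd : Odd (Subgroup.centralizer ({x} : Set G)).index) : x ^ 2 = 1 := by
  classical
  by_contra hne
  set C := Subgroup.centralizer ({x} : Set G) with hCdef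
  have hC : ∀ g, g ∈ C ↔ g * x = x * g := fun g => Subgroup.mem_centralizer_singleton_iff
  have ht' : t⁻¹ * x * t = x⁻¹ := by
    have : x = t⁻¹ * (t * x * t⁻¹) * t := by group
    rw [ht] at this
    have h2 : t⁻¹ * x * t = (t⁻¹ * x⁻¹ * t)⁻¹ := by group
    rw [h2, ← this]
  have hnorm : ∀ c ∈ C, t⁻¹ * c * t ∈ C := by
    intro c hc
    rw [hC] at hc ⊢
    have hc' : c * x⁻¹ = x⁻¹ * c := by
      have : c * x⁻¹ = x⁻¹ * (x * c) * x⁻¹ := by group
      rw [this, ← hc]; group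
    calc t⁻¹ * c * t * x = t⁻¹ * (c * (t * x * t⁻¹)) * t := by group
      _ = t⁻¹ * (x⁻¹ * c) * t := by rw [ht, hc']
      _ = (t⁻¹ * x⁻¹ * t) * (t⁻¹ * c * t) := by group
      _ = x * (t⁻¹ * c * t) := by
        have : t⁻¹ * x⁻¹ * t = (t⁻¹ * x * t)⁻¹ := by group
        rw [this, ht', inv_inv]
  have htC : t ∉ C := by
    intro h
    rw [hC] at h
    apply hne
    have : t * x * t⁻¹ = x := by rw [h]; group
    rw [this] at ht
    calc x ^ 2 = x * x := pow_two x
      _ = x * x⁻¹ := by rw [← ht]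
      _ = 1 := mul_inv_cancel x
  have ht2 : t * t ∈ C := by
    rw [hC]
    have h1 : t * t * x = t * (t * x * t⁻¹) * t := by group
    have h2 : t * x⁻¹ * t⁻¹ = (t * x * t⁻¹)⁻¹ := by group
    calc t * t * x = t * (t * x * t⁻¹) * t := h1
      _ = (t * x⁻¹ * t⁻¹) * (t * t) := by rw [ht]; group
      _ = x * (t * t) := by rw [h2, ht, inv_inv]
  let σ : G ⧸ C → G ⧸ C := Quotient.map' (fun g => g * t) (by
    intro a b hab
    rw [QuotientGroup.leftRel_apply] at hab ⊢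
    have : (a * t)⁻¹ * (b * t) = t⁻¹ * (a⁻¹ * b) * t := by group
    rw [this]
    exact hnorm _ hab)
  have hσ : ∀ g : G, σ (QuotientGroup.mk g) = QuotientGroup.mk (g * t) := fun g => rfl
  have hinv : ∀ q, σ (σ q) = q := by
    intro q
    obtain ⟨g, rfl⟩ := QuotientGroup.mk_surjective q
    rw [hσ, hσ, QuotientGroup.eq]
    have : (g * t * t)⁻¹ * g = (t * t)⁻¹ := by group
    rw [this]
    exact inv_mem ht2
  have hfix : ∀ q, σ q ≠ q := by
    intro q
    obtain ⟨g, rfl⟩ := QuotientGroup.mk_surjective q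
    rw [hσ, Ne, QuotientGroup.eq]
    have : (g * t)⁻¹ * g = t⁻¹ := by group
    rw [this]
    intro h
    exact htC (by simpa using inv_mem h)
  let _ : Fintype (G ⧸ C) := Fintype.ofFinite _
  let f : Function.End (G ⧸ C) := σ
  have hpow : f ^ 2 ^ 1 = 1 := by
    rw [pow_one, pow_two]
    funext q
    exact hinv q
  have : Fact (Nat.Prime 2) := ⟨Nat.prime_two⟩
  have hmod := Equiv.Perm.card_fixedPoints_modEq (f := f) hpow
  have hempty : Fintype.card (Function.fixedPoints f) = 0 := by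
    rw [Fintype.card_eq_zero_iff]
    constructor
    rintro ⟨q, hq⟩
    exact hfix q hq
  rw [hempty] at hmod
  have hidx : C.index = Fintype.card (G ⧸ C) := by
    rw [Subgroup.index, Nat.card_eq_fintype_card]
  rw [hidx] at hodd
  have := Nat.odd_iff.mp hodd
  have h0 : Fintype.card (G ⧸ C) % 2 = 0 := hmod
  omega

theorem result {G : Type*} [Group G] [Finite G] (x : G) (hx : IsConj x x⁻¹) : (∃ t : G, (∃ j : ℕ, orderOf t = 2 ^ j) ∧ t * x * t⁻¹ = x⁻¹) ∧ (Odd (Subgroup.centralizer ({x} : Set G)).index → x ^ 2 = 1) ∧ ∀ (N : Subgroup G) [N.Normal], Odd N.index → ∃ hxN : x ∈ N, IsConj (⟨x, hxN⟩ : N) (⟨x, hxN⟩ : N)⁻¹ := by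
  obtain ⟨t, ⟨j, hj⟩, ht⟩ := exists_two_elt x hx
  refine ⟨⟨t, ⟨j, hj⟩, ht⟩, sq_eq_one_of_odd_index x t ht, ?_⟩
  intro N _ hodd
  have key : ∀ (y : G) (n : ℕ), y ^ n = 1 → Nat.Coprime n N.index → y ∈ N := by
    intro y n hy hcop
    rw [← QuotientGroup.eq_one_iff (N := N)]
    have h1 : orderOf (QuotientGroup.mk y : G ⧸ N) ∣ n := by
      apply orderOf_dvd_of_pow_eq_one
      rw [← QuotientGroup.mk_pow, hy]
      rfl
    have h2 : orderOf (QuotientGroup.mk y : G ⧸ N) ∣ N.index := by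
      rw [Subgroup.index]
      exact orderOf_dvd_natCard _
    exact orderOf_eq_one_iff.mp (Nat.eq_one_of_dvd_coprimes hcop h1 h2)
  have htN : t ∈ N := by
    apply key t (2 ^ j)
    · rw [← hj]; exact pow_orderOf_eq_one t
    · exact Nat.Coprime.pow_left j (Nat.coprime_two_left.mpr hodd)
  have hxx : x * x ∈ N := by
    have h1 : x * x = (t * x * t⁻¹ * x⁻¹)⁻¹ := by
      rw [ht]; simp
    rw [h1]
    apply inv_mem
    have : t * x * t⁻¹ * x⁻¹ = t * (x * t⁻¹ * x⁻¹) := by group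
    rw [this]
    exact mul_mem htN (Subgroup.Normal.conj_mem inferInstance _ (inv_mem htN) _)
  have hxN : x ∈ N := by
    -- the image of x has order dividing 2 and odd
    rw [← QuotientGroup.eq_one_iff (N := N)]
    have h1 : orderOf (QuotientGroup.mk x : G ⧸ N) ∣ 2 := by
      apply orderOf_dvd_of_pow_eq_one
      rw [pow_two, ← QuotientGroup.mk_mul]
      exact (QuotientGroup.eq_one_iff _).mpr hxx
    have h2 : orderOf (QuotientGroup.mk x : G ⧸ N) ∣ N.index := by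
      rw [Subgroup.index]
      exact orderOf_dvd_natCard _
    exact orderOf_eq_one_iff.mp (Nat.eq_one_of_dvd_coprimes (Nat.coprime_two_left.mpr hodd) h1 h2)
  refine ⟨hxN, ?_⟩
  rw [isConj_iff]
  refine ⟨⟨t, htN⟩, ?_⟩
  ext
  simpa using ht

end Cfsg.Agent.S3863
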