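import Cfsg.Statements.S3866
import Mathlib

set_option autoImplicit false
open Cfsg

namespace Cfsg.Agent.S3866

open scoped commutatorElement

theorem comm_of_abelian {G : Type*} [Group G] (A : Subgroup G) (hA : IsMulCommutative A) :
    ∀ u ∈ A, ∀ v ∈ A, u * v = v * u := by
  intro u hu v hv
  have := mul_comm' (⟨u, hu⟩ : A) ⟨v, hv⟩
  exact congrArg Subtype.val this

theorem hmul {G : Type*} [Group G] (A : Subgroup G) [A.Normal] (hA : IsMulCommutative A) (x : G) :
    ∀ a ∈ A, ∀ b ∈ A, x * (a * b) * x⁻¹ * (a * b)⁻¹ = (x * a * x⁻¹ * a⁻¹) * (x * b * x⁻¹ * b⁻¹) := by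
  intro a ha b hb
  have hconj : ∀ a ∈ A, x * a * x⁻¹ ∈ A := fun a ha => Subgroup.Normal.conj_mem inferInstance a ha x
  have h1 := comm_of_abelian A hA (a⁻¹) (inv_mem ha) (x * b * x⁻¹ * b⁻¹) (mul_mem (hconj b hb) (inv_mem hb))
  calc x * (a * b) * x⁻¹ * (a * b)⁻¹ = (x * a * x⁻¹) * ((x * b * x⁻¹ * b⁻¹) * a⁻¹) := by group
    _ = (x * a * x⁻¹) * (a⁻¹ * (x * b * x⁻¹ * b⁻¹)) := by rw [h1]
    _ = _ := by group

def phi {G : Type*} [Group G] (A : Subgroup G) [A.Normal] (hA : IsMulCommutative A) (x : G) : A →* G where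
  toFun a := x * a * x⁻¹ * (a : G)⁻¹
  map_one' := by simp
  map_mul' a b := hmul A hA x a a.2 b b.2

theorem phi_range_le {G : Type*} [Group G] (A : Subgroup G) [A.Normal] (hA : IsMulCommutative A) (x : G) :
    (phi A hA x).range ≤ A := by
  rintro _ ⟨a, rfl⟩
  exact mul_mem (Subgroup.Normal.conj_mem inferInstance (a : G) a.2 x) (inv_mem a.2)

theorem phi_range_normal {G : Type*} [Group G] (A : Subgroup G) [A.Normal] (hA : IsMulCommutative A) (x : G)
    (hgen : A ⊔ Subgroup.zpowers x = ⊤) : (phi A hA x).range.Normal := by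
  rw [← Subgroup.normalizer_eq_top_iff, eq_top_iff, ← hgen]
  refine sup_le ?_ ?_
  · intro a ha
    rw [Subgroup.mem_normalizer_iff]
    intro h
    constructor
    · intro hh
      have : a * h * a⁻¹ = h := by
        rw [comm_of_abelian A hA a ha h (phi_range_le A hA x hh)]
        group
      rw [this]; exact hh
    · intro hh
      have h1 : a * h * a⁻¹ ∈ A := phi_range_le A hA x hh
      have h2 : h ∈ A := by
        have : h = a⁻¹ * (a * h * a⁻¹) * a := by group
        rw [this]
        exact mul_mem (mul_mem (inv_mem ha) h1) ha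
      have : a * h * a⁻¹ = h := by
        rw [comm_of_abelian A hA a ha h h2]
        group
      rw [this] at hh; exact hh
  · rw [Subgroup.zpowers_le, Subgroup.mem_normalizer_iff]
    intro h
    constructor
    · rintro ⟨a, rfl⟩
      refine ⟨⟨x * a * x⁻¹, Subgroup.Normal.conj_mem inferInstance (a : G) a.2 x⟩, ?_⟩
      simp only [phi, MonoidHom.coe_mk, OneHom.coe_mk]
      group
    · rintro ⟨a, ha⟩
      have hmem : x⁻¹ * a * x ∈ A := by
        have := Subgroup.Normal.conj_mem (inferInstance : A.Normal) (a : G) a.2 x⁻¹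
        simpa using this
      refine ⟨⟨x⁻¹ * a * x, hmem⟩, ?_⟩
      simp only [phi, MonoidHom.coe_mk, OneHom.coe_mk] at ha ⊢
      have : h = x⁻¹ * (x * h * x⁻¹) * x := by group
      rw [this, ← ha]
      group

theorem comm_mod {G : Type*} [Group G] (A : Subgroup G) [A.Normal] (hA : IsMulCommutative A) (x : G)
    (hgen : A ⊔ Subgroup.zpowers x = ⊤) : ∀ g h : G, ⁅g, h⁆ ∈ (phi A hA x).range := by
  have := phi_range_normal A hA x hgen
  set K := (phi A hA x).range with hK
  have hxa : ∀ a ∈ A, (QuotientGroup.mk a : G ⧸ K) * QuotientGroup.mk x = QuotientGroup.mk x * QuotientGroup.mk a := by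
    intro a ha
    rw [← QuotientGroup.mk_mul, ← QuotientGroup.mk_mul, eq_comm, QuotientGroup.eq]
    have h1 : x * a⁻¹ * x⁻¹ * a⁻¹⁻¹ ∈ K := ⟨⟨a⁻¹, inv_mem ha⟩, rfl⟩
    have h2 : (x * a)⁻¹ * (a * x) = x⁻¹ * (x * a⁻¹ * x⁻¹ * a⁻¹⁻¹) * x⁻¹⁻¹ := by group
    rw [h2]
    exact Subgroup.Normal.conj_mem inferInstance _ h1 _
  have hx : ∀ g : G, (QuotientGroup.mk g : G ⧸ K) * QuotientGroup.mk x = QuotientGroup.mk x * QuotientGroup.mk g := by
    have : (⊤ : Subgroup G) ≤ (Subgroup.centralizer {(QuotientGroup.mk x : G ⧸ K)}).comap (QuotientGroup.mk' K) := by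
      rw [← hgen]
      refine sup_le ?_ ?_
      · intro a ha
        rw [Subgroup.mem_comap, Subgroup.mem_centralizer_singleton_iff]
        exact hxa a ha
      · rw [Subgroup.zpowers_le, Subgroup.mem_comap, Subgroup.mem_centralizer_singleton_iff]
        rfl
    intro g
    have := this (Subgroup.mem_top g)
    rw [Subgroup.mem_comap, Subgroup.mem_centralizer_singleton_iff] at this
    exact this
  have ha : ∀ a ∈ A, ∀ g : G, (QuotientGroup.mk g : G ⧸ K) * QuotientGroup.mk a = QuotientGroup.mk a * QuotientGroup.mk g := by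
    intro a haA
    have : (⊤ : Subgroup G) ≤ (Subgroup.centralizer {(QuotientGroup.mk a : G ⧸ K)}).comap (QuotientGroup.mk' K) := by
      rw [← hgen]
      refine sup_le ?_ ?_
      · intro b hb
        rw [Subgroup.mem_comap, Subgroup.mem_centralizer_singleton_iff]
        show (QuotientGroup.mk b : G ⧸ K) * QuotientGroup.mk a = QuotientGroup.mk a * QuotientGroup.mk b
        rw [← QuotientGroup.mk_mul, ← QuotientGroup.mk_mul, comm_of_abelian A hA b hb a haA]
      · rw [Subgroup.zpowers_le, Subgroup.mem_comap, Subgroup.mem_centralizer_singleton_iff]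
        exact (hxa a haA).symm
    intro g
    have := this (Subgroup.mem_top g)
    rw [Subgroup.mem_comap, Subgroup.mem_centralizer_singleton_iff] at this
    exact this
  have hall : ∀ h g : G, (QuotientGroup.mk g : G ⧸ K) * QuotientGroup.mk h = QuotientGroup.mk h * QuotientGroup.mk g := by
    intro h
    have : (⊤ : Subgroup G) ≤ (Subgroup.center (G ⧸ K)).comap (QuotientGroup.mk' K) := by
      rw [← hgen]
      refine sup_le ?_ ?_
      · intro a haA
        rw [Subgroup.mem_comap, Subgroup.mem_center_iff]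
        intro q
        obtain ⟨g, rfl⟩ := QuotientGroup.mk_surjective q
        exact ha a haA g
      · rw [Subgroup.zpowers_le, Subgroup.mem_comap, Subgroup.mem_center_iff]
        intro q
        obtain ⟨g, rfl⟩ := QuotientGroup.mk_surjective q
        exact hx g
    have h1 := this (Subgroup.mem_top h)
    rw [Subgroup.mem_comap, Subgroup.mem_center_iff] at h1
    intro g
    exact h1 (QuotientGroup.mk g)
  intro g h
  rw [← QuotientGroup.eq_one_iff (N := K), commutatorElement_def]
  simp only [QuotientGroup.mk_mul, QuotientGroup.mk_inv]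
  rw [hall h g]
  group

theorem result {G : Type*} [Group G] [Finite G] (A : Subgroup G) [A.Normal] (hA : IsMulCommutative A) (x : G) (hgen : A ⊔ Subgroup.zpowers x = ⊤) : (∀ a ∈ A, x * a * x⁻¹ * a⁻¹ ∈ commutator G) ∧ (∀ c ∈ commutator G, ∃ a ∈ A, x * a * x⁻¹ * a⁻¹ = c) ∧ (∀ a ∈ A, ∀ b ∈ A, x * (a * b) * x⁻¹ * (a * b)⁻¹ = (x * a * x⁻¹ * a⁻¹) * (x * b * x⁻¹ * b⁻¹)) ∧ Nat.card (commutator G) * Nat.card ↥(A ⊓ Subgroup.centralizer ({x} : Set G)) = Nat.card A := by
  have h1 : ∀ a ∈ A, x * a * x⁻¹ * a⁻¹ ∈ commutator G := by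
    intro a _
    rw [commutator_def, ← commutatorElement_def]
    exact Subgroup.commutator_mem_commutator (Subgroup.mem_top x) (Subgroup.mem_top a)
  have heq : commutator G = (phi A hA x).range := by
    apply le_antisymm
    · rw [commutator_def, Subgroup.commutator_le]
      intro g _ h _
      exact comm_mod A hA x hgen g h
    · rintro _ ⟨a, rfl⟩
      exact h1 a a.2
  refine ⟨h1, ?_, hmul A hA x, ?_⟩
  · intro c hc
    rw [heq] at hc
    obtain ⟨a, rfl⟩ := hc
    exact ⟨a, a.2, rfl⟩
  · rw [heq]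
    have hker : (phi A hA x).ker = (A ⊓ Subgroup.centralizer ({x} : Set G)).subgroupOf A := by
      ext a
      rw [MonoidHom.mem_ker, Subgroup.mem_subgroupOf, Subgroup.mem_inf, Subgroup.mem_centralizer_singleton_iff]
      simp only [phi, MonoidHom.coe_mk, OneHom.coe_mk]
      constructor
      · intro h
        refine ⟨a.2, ?_⟩
        have : x * a = (x * a * x⁻¹ * (a : G)⁻¹) * (a * x) := by group
        rw [this, h, one_mul]
      · rintro ⟨_, h⟩
        rw [← h]
        group
    have h2 : Nat.card ↥(A ⊓ Subgroup.centralizer ({x} : Set G)) = Nat.card (phi A hA x).ker := by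
      rw [hker]
      exact (Nat.card_congr (Subgroup.subgroupOfEquivOfLe inf_le_left).toEquiv).symm
    rw [h2, ← Subgroup.index_ker, mul_comm]
    exact Subgroup.card_mul_index _

end Cfsg.Agent.S3866
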