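import Cfsg.Statements.S3867
import Mathlib
import Cfsg.Agent.Lib.Helper4.Card
import Cfsg.Agent.Lib.Helper12.SylowBasic

set_option autoImplicit false
open Cfsg

namespace Cfsg.Agent.S3867

open scoped Pointwise

theorem card_sylow_quotient {G : Type*} [Group G] [Finite G] (p : ℕ) [Fact p.Prime]
    (P : Sylow p G) (K : Subgroup G) [K.Normal] :
    Nat.card (Sylow p (G ⧸ K)) =
      (Subgroup.normalizer (((P : Subgroup G) ⊔ K : Subgroup G) : Set G)).index := by
  have hsurj := QuotientGroup.mk'_surjective K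
  rw [Sylow.card_eq_index_normalizer (P.mapSurjective hsurj)]
  rw [← Subgroup.index_comap_of_surjective _ hsurj]
  congr 1
  have h1 : Subgroup.normalizer ((P.mapSurjective hsurj : Sylow p (G ⧸ K)) : Set (G ⧸ K)) =
      Subgroup.normalizer (((P : Subgroup G).map (QuotientGroup.mk' K) : Subgroup (G ⧸ K)) :
        Set (G ⧸ K)) := rfl
  rw [h1, Subgroup.comap_normalizer_eq_of_surjective _ hsurj]
  rw [Subgroup.comap_map_eq, QuotientGroup.ker_mk']

theorem pow_mem_of_mem_sup {G : Type*} [Group G] {p : ℕ} (P K : Subgroup G) [K.Normal]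
    (hP : IsPGroup p P) {x : G} (hx : x ∈ P ⊔ K) : ∃ i : ℕ, x ^ (p ^ i) ∈ K := by
  obtain ⟨a, ha, k, hk, rfl⟩ := Subgroup.mem_sup_of_normal_right.mp hx
  obtain ⟨i, hi⟩ := hP ⟨a, ha⟩
  refine ⟨i, ?_⟩
  rw [← QuotientGroup.eq_one_iff, QuotientGroup.mk_pow, QuotientGroup.mk_mul,
    (QuotientGroup.eq_one_iff k).mpr hk, mul_one, ← QuotientGroup.mk_pow,
    QuotientGroup.eq_one_iff]
  have := congrArg Subtype.val hi
  simp only [Subgroup.coe_pow, Subgroup.coe_one] at this
  rw [this]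
  exact Subgroup.one_mem _

theorem sup_inf_sup_eq {G : Type*} [Group G] {p : ℕ} (P : Sylow p G)
    (M N : Subgroup G) [M.Normal] [N.Normal] (hMN : M ⊓ N = ⊥) :
    ((P : Subgroup G) ⊔ M) ⊓ ((P : Subgroup G) ⊔ N) = P := by
  apply P.is_maximal' _ (le_inf le_sup_left le_sup_left)
  intro x
  obtain ⟨i, hi⟩ := pow_mem_of_mem_sup (P : Subgroup G) M P.isPGroup' x.2.1
  obtain ⟨j, hj⟩ := pow_mem_of_mem_sup (P : Subgroup G) N P.isPGroup' x.2.2
  refine ⟨i + j, ?_⟩
  apply Subtype.ext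
  simp only [Subgroup.coe_pow, Subgroup.coe_one]
  have h1 : (x : G) ^ (p ^ (i + j)) ∈ M := by
    rw [pow_add, pow_mul]
    exact Subgroup.pow_mem _ hi _
  have h2 : (x : G) ^ (p ^ (i + j)) ∈ N := by
    rw [pow_add, mul_comm, pow_mul]
    exact Subgroup.pow_mem _ hj _
  have h3 : (x : G) ^ (p ^ (i + j)) ∈ M ⊓ N := ⟨h1, h2⟩
  rw [hMN, Subgroup.mem_bot] at h3
  exact h3

theorem normalizer_le_normalizer_sup {G : Type*} [Group G] (H K : Subgroup G) [K.Normal] :
    Subgroup.normalizer (H : Set G) ≤ Subgroup.normalizer ((H ⊔ K : Subgroup G) : Set G) := by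
  exact Subgroup.normalizer_le_normalizer_sup_normal

theorem result {G : Type*} [Group G] [Finite G] (p : ℕ) [Fact p.Prime] (M N : Subgroup G) [M.Normal] [N.Normal] (hM : M ≠ ⊥) (hN : N ≠ ⊥) (hMN : M ⊓ N = ⊥) : Nat.card (Sylow p G) * Nat.card (Sylow p (G ⧸ (M ⊔ N))) = Nat.card (Sylow p (G ⧸ M)) * Nat.card (Sylow p (G ⧸ N)) := by
  obtain ⟨P⟩ : Nonempty (Sylow p G) := inferInstance
  rw [card_sylow_quotient p P (M ⊔ N), card_sylow_quotient p P M, card_sylow_quotient p P N,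
    Sylow.card_eq_index_normalizer P]
  obtain ⟨A, hA⟩ : ∃ A : Subgroup G,
    A = Subgroup.normalizer (((P : Subgroup G) ⊔ M : Subgroup G) : Set G) := ⟨_, rfl⟩
  obtain ⟨B, hB⟩ : ∃ B : Subgroup G,
    B = Subgroup.normalizer (((P : Subgroup G) ⊔ N : Subgroup G) : Set G) := ⟨_, rfl⟩
  have hinf : Subgroup.normalizer ((P : Subgroup G) : Set G) = A ⊓ B := by
    apply le_antisymm
    · rw [hA, hB]
      exact le_inf (normalizer_le_normalizer_sup _ M) (normalizer_le_normalizer_sup _ N)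
    · have h := Subgroup.inf_normalizer_le_normalizer_inf (H := (P : Subgroup G) ⊔ M)
        (K := (P : Subgroup G) ⊔ N)
      rw [sup_inf_sup_eq P M N hMN] at h
      rw [hA, hB]
      exact h
  have hAle : A ≤ Subgroup.normalizer (((P : Subgroup G) ⊔ (M ⊔ N) : Subgroup G) : Set G) := by
    rw [hA, ← sup_assoc]
    exact normalizer_le_normalizer_sup _ N
  have hBle : B ≤ Subgroup.normalizer (((P : Subgroup G) ⊔ (M ⊔ N) : Subgroup G) : Set G) := by
    rw [hB, sup_comm M N, ← sup_assoc]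
    exact normalizer_le_normalizer_sup _ M
  have hmul : ∀ g ∈ Subgroup.normalizer (((P : Subgroup G) ⊔ (M ⊔ N) : Subgroup G) : Set G),
      g ∈ (A : Set G) * (B : Set G) := by
    intro g hg
    have hP' : ((g • P : Sylow p G) : Subgroup G) ≤ (P : Subgroup G) ⊔ (M ⊔ N) := by
      intro y hy
      rw [Cfsg.Agent.Lib.Helper12.SylowBasic.mem_smul_sylow_iff] at hy
      have h1 : g⁻¹ * y * g ∈ (P : Subgroup G) ⊔ (M ⊔ N) := Subgroup.mem_sup_left hy
      have h2 := (Subgroup.mem_normalizer_iff.mp hg (g⁻¹ * y * g)).mp h1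
      have h3 : g * (g⁻¹ * y * g) * g⁻¹ = y := by group
      rw [h3] at h2
      exact h2
    obtain ⟨c, hc, hcP⟩ := Cfsg.Agent.Lib.Helper12.SylowBasic.exists_mem_smul_eq (g • P) P
      ((P : Subgroup G) ⊔ (M ⊔ N)) hP' le_sup_left
    rw [sup_comm] at hc
    obtain ⟨z, hz, a, ha, rfl⟩ := Subgroup.mem_sup_of_normal_left.mp hc
    obtain ⟨m, hm, n, hn, rfl⟩ := Subgroup.mem_sup_of_normal_right.mp hz
    have haP : a • P = P := Sylow.smul_eq_iff_mem_normalizer.mpr (Subgroup.le_normalizer ha)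
    rw [mul_smul, haP] at hcP
    have hc1 : (m * n)⁻¹ * g ∈ Subgroup.normalizer ((P : Subgroup G) : Set G) := by
      apply Sylow.smul_eq_iff_mem_normalizer.mp
      rw [mul_smul, ← hcP, smul_smul, inv_mul_cancel, one_smul]
    have hmA : m ∈ A := by
      rw [hA]
      exact Subgroup.le_normalizer (Subgroup.mem_sup_right hm)
    have hnB : n ∈ B := by
      rw [hB]
      exact Subgroup.le_normalizer (Subgroup.mem_sup_right hn)
    have hcB : (m * n)⁻¹ * g ∈ B := by
      have := hinf ▸ hc1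
      exact this.2
    refine Set.mem_mul.mpr ⟨m, hmA, n * ((m * n)⁻¹ * g), Subgroup.mul_mem _ hnB hcB, ?_⟩
    group
  have hsup : Subgroup.normalizer (((P : Subgroup G) ⊔ (M ⊔ N) : Subgroup G) : Set G) = A ⊔ B := by
    apply le_antisymm
    · intro g hg
      obtain ⟨a, ha, b, hb, rfl⟩ := Set.mem_mul.mp (hmul g hg)
      exact Subgroup.mul_mem _ (Subgroup.mem_sup_left ha) (Subgroup.mem_sup_right hb)
    · exact sup_le hAle hBle
  have hset : ((A ⊔ B : Subgroup G) : Set G) = (A : Set G) * (B : Set G) := by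
    apply Set.Subset.antisymm
    · intro g hg
      exact hmul g (hsup ▸ hg)
    · intro g hg
      obtain ⟨a, ha, b, hb, rfl⟩ := Set.mem_mul.mp hg
      exact Subgroup.mul_mem _ (Subgroup.mem_sup_left ha) (Subgroup.mem_sup_right hb)
  have hcard := Cfsg.Agent.Lib.Helper4.Card.card_mul_set A B
  rw [← hset] at hcard
  have hcard' : Nat.card ↥(A ⊔ B) * Nat.card ↥(A ⊓ B) = Nat.card A * Nat.card B := hcard
  change (Subgroup.normalizer ((P : Subgroup G) : Set G)).index * _ = _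
  rw [hinf, hsup, ← hA, ← hB]
  have e1 := Subgroup.card_mul_index (A ⊓ B)
  have e2 := Subgroup.card_mul_index (A ⊔ B)
  have e3 := Subgroup.card_mul_index A
  have e4 := Subgroup.card_mul_index B
  have hpos : 0 < Nat.card A * Nat.card B := Nat.mul_pos Nat.card_pos Nat.card_pos
  apply Nat.eq_of_mul_eq_mul_left hpos
  calc Nat.card A * Nat.card B * ((A ⊓ B).index * (A ⊔ B).index)
      = Nat.card ↥(A ⊔ B) * Nat.card ↥(A ⊓ B) * ((A ⊓ B).index * (A ⊔ B).index) := by
        rw [hcard']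
    _ = (Nat.card ↥(A ⊓ B) * (A ⊓ B).index) * (Nat.card ↥(A ⊔ B) * (A ⊔ B).index) := by ring
    _ = (Nat.card A * A.index) * (Nat.card B * B.index) := by rw [e1, e2, e3, e4]
    _ = Nat.card A * Nat.card B * (A.index * B.index) := by ring

end Cfsg.Agent.S3867
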