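import Cfsg.Statements.S3878
import Mathlib
import Cfsg.Agent.Lib.Helper12.SylowBasic

set_option autoImplicit false
set_option linter.style.haveILetI false
open Cfsg

namespace Cfsg.Agent.S3878

theorem exists_conj_mem {G : Type*} [Group G] [Finite G] {π : Set ℕ} {H : Subgroup G}
    (hH : IsPiHall π H) {p : ℕ} (hpp : p.Prime) (hp : p ∈ π) (x : G) (hx : orderOf x = p) :
    ∃ c : G, c * x * c⁻¹ ∈ H := by
  haveI : Fact p.Prime := ⟨hpp⟩
  obtain ⟨P⟩ : Nonempty (Sylow p H) := inferInstance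
  have hidx : ¬ p ∣ ((P : Subgroup H).map H.subtype).relIndex ⊤ := by
    rw [Subgroup.relIndex_top_right, Subgroup.index_map_subtype]
    exact Nat.Prime.not_dvd_mul hpp P.not_dvd_index (hH.2 p hpp hp)
  have hQ : IsPGroup p (Subgroup.zpowers x) := by
    apply IsPGroup.of_card (n := 1)
    rw [Nat.card_zpowers, hx, pow_one]
  obtain ⟨c, -, hc⟩ := Cfsg.Agent.Lib.Helper12.SylowBasic.exists_conj_le_of_relIndex _ ⊤ le_top
    (P.isPGroup'.map _) hidx (Subgroup.zpowers x) le_top hQ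
  exact ⟨c, Subgroup.map_subtype_le _ (hc x (Subgroup.mem_zpowers x))⟩

theorem exists_cycle (n m : ℕ) (hm2 : 2 ≤ m) (hmn : m ≤ n) :
    ∃ σ : Equiv.Perm (Fin n), σ.IsCycle ∧ σ.support.card = m ∧ orderOf σ = m := by
  obtain ⟨σ, hσ⟩ := (Equiv.Perm.exists_with_cycleType_iff (α := Fin n) (m := {m})).2
    ⟨by simpa using hmn, by simpa using hm2⟩
  have h1 : σ.IsCycle := Equiv.Perm.card_cycleType_eq_one.1 (by rw [hσ]; simp)
  have h2 : σ.support.card = m := by rw [← Equiv.Perm.sum_cycleType, hσ]; simp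
  exact ⟨σ, h1, h2, by rw [h1.orderOf, h2]⟩

theorem pi_of_sylow {G : Type*} [Group G] [Finite G] {π : Set ℕ} {p : ℕ} [Fact p.Prime]
    (hpπ : p ∈ π) (P : Sylow p G) : IsPiSubgroup π (P : Subgroup G) := by
  intro s hs hsd
  obtain ⟨n, hn⟩ := IsPGroup.iff_card.1 P.isPGroup'
  rw [hn] at hsd
  have := (Nat.prime_dvd_prime_iff_eq hs Fact.out).1 (hs.dvd_of_dvd_pow hsd)
  rw [this]; exact hpπ

theorem e_of_le_one {π : Set ℕ}
    (h : ∀ p q : ℕ, p.Prime → q.Prime → p ∈ π → q ∈ π → p = q)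
    (G : Type) [Group G] [Finite G] : IsEPiGroup π G := by
  by_cases hex : ∃ p, p.Prime ∧ p ∈ π
  · obtain ⟨p, hp, hpπ⟩ := hex
    haveI : Fact p.Prime := ⟨hp⟩
    obtain ⟨P⟩ : Nonempty (Sylow p G) := inferInstance
    refine ⟨P, pi_of_sylow hpπ P, ?_⟩
    intro s hs hsπ hsd
    have := h s p hs hp hsπ hpπ
    rw [this] at hsd
    exact P.not_dvd_index hsd
  · refine ⟨⊥, ?_, ?_⟩
    · intro s hs hsd
      rw [Subgroup.card_bot] at hsd
      exact absurd (Nat.dvd_one.1 hsd) hs.ne_one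
    · intro s hs hsπ; exact absurd ⟨s, hs, hsπ⟩ hex

theorem e_of_all {π : Set ℕ} (h : ∀ p : ℕ, p.Prime → p ∈ π) (G : Type) [Group G] [Finite G] :
    IsEPiGroup π G := by
  refine ⟨⊤, fun s hs _ => h s hs, ?_⟩
  intro s hs _ hsd
  rw [Subgroup.index_top] at hsd
  exact hs.ne_one (Nat.dvd_one.1 hsd)

theorem d_of_le_one {π : Set ℕ}
    (h : ∀ p q : ℕ, p.Prime → q.Prime → p ∈ π → q ∈ π → p = q)
    (G : Type) [Group G] [Finite G] : IsDPiGroup π G := by
  intro H K hH hK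
  by_cases hex : ∃ p, p.Prime ∧ p ∈ π
  · obtain ⟨p, hp, hpπ⟩ := hex
    haveI : Fact p.Prime := ⟨hp⟩
    have key : ∀ M : Subgroup G, Maximal (IsPiSubgroup π) M →
        ∃ P : Sylow p G, (P : Subgroup G) = M := by
      intro M hM
      have hMp : IsPGroup p M := by
        have h1 : ∀ s, s.Prime → s ∣ Nat.card M → s = p :=
          fun s hs hsd => h s p hs hp (hM.1 s hs hsd) hpπ
        have h2 := Nat.eq_prime_pow_of_unique_prime_dvd (Nat.card_pos.ne')
          (fun {d} hd hdd => h1 d hd hdd)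
        exact IsPGroup.of_card h2
      obtain ⟨P, hP⟩ := hMp.exists_le_sylow
      exact ⟨P, le_antisymm (hM.2 (pi_of_sylow hpπ P) hP) hP⟩
    obtain ⟨P, rfl⟩ := key H hH
    obtain ⟨Q, rfl⟩ := key K hK
    obtain ⟨g, hg⟩ := MulAction.exists_smul_eq G P Q
    refine ⟨g, ?_⟩
    rw [← hg]
    rfl
  · have key : ∀ M : Subgroup G, IsPiSubgroup π M → M = ⊥ := by
      intro M hM
      rw [← Subgroup.card_eq_one]
      by_contra hne
      obtain ⟨s, hs, hsd⟩ := Nat.exists_prime_and_dvd hne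
      exact hex ⟨s, hs, hM s hs hsd⟩
    rw [key H hH.1, key K hK.1]
    exact ⟨1, by simp⟩

theorem d_of_all {π : Set ℕ} (h : ∀ p : ℕ, p.Prime → p ∈ π) (G : Type) [Group G] [Finite G] :
    IsDPiGroup π G := by
  intro H K hH hK
  have key : ∀ M : Subgroup G, Maximal (IsPiSubgroup π) M → M = ⊤ := by
    intro M hM
    exact top_le_iff.1 (hM.2 (fun s hs _ => h s hs) le_top)
  rw [key H hH, key K hK]
  exact ⟨1, (Subgroup.map_top_of_surjective _ (MulAut.conj 1).surjective).symm⟩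

theorem e_of_d {π : Set ℕ} (G : Type) [Group G] [Finite G] (h : IsDPiGroup π G) :
    IsEPiGroup π G := by
  have hbot : IsPiSubgroup π (⊥ : Subgroup G) := by
    intro s hs hsd
    rw [Subgroup.card_bot] at hsd
    exact absurd (Nat.dvd_one.1 hsd) hs.ne_one
  obtain ⟨M, -, hM⟩ := Finite.exists_le_maximal hbot
  refine ⟨M, hM.1, ?_⟩
  intro p hp hpπ hpd
  haveI : Fact p.Prime := ⟨hp⟩
  obtain ⟨P⟩ : Nonempty (Sylow p G) := inferInstance
  obtain ⟨M', hPM', hM'⟩ := Finite.exists_le_maximal (pi_of_sylow hpπ P)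
  obtain ⟨g, hg⟩ := h M M' hM hM'
  have h1 : M'.index = M.index := by
    rw [hg]; exact Subgroup.index_map_equiv M (MulAut.conj g)
  have h2 : M'.index ∣ (P : Subgroup G).index := Subgroup.index_dvd_of_le hPM'
  rw [← h1] at hpd
  exact P.not_dvd_index (dvd_trans hpd h2)


theorem caseB (π : Set ℕ) (ℓ r : ℕ) (hℓ : ℓ.Prime) (hℓπ : ℓ ∈ π) (h2 : 2 ∈ π)
    (hr : r.Prime) (hrπ : r ∉ π) (hrℓ : r ≤ ℓ) : ¬ IsEPiGroup π (Equiv.Perm (Fin ℓ)) := by
  rintro ⟨H, hH⟩
  obtain ⟨σ, hσc, hσs, hσo⟩ := exists_cycle ℓ ℓ hℓ.two_le le_rfl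
  obtain ⟨τ, hτc, hτs, hτo⟩ := exists_cycle ℓ 2 le_rfl hℓ.two_le
  obtain ⟨c, hc⟩ := exists_conj_mem hH hℓ hℓπ σ hσo
  obtain ⟨d, hd⟩ := exists_conj_mem hH Nat.prime_two h2 τ hτo
  have h1 : (c * σ * c⁻¹).IsCycle := hσc.conj
  have h2' : (c * σ * c⁻¹).support = Finset.univ := by
    apply Finset.eq_univ_of_card
    rw [Equiv.Perm.card_support_conj, hσs, Fintype.card_fin]
  have h3 : (d * τ * d⁻¹).IsSwap := by
    rw [← Equiv.Perm.card_support_eq_two, Equiv.Perm.card_support_conj, hτs]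
  have h4 := Equiv.Perm.closure_prime_cycle_swap (by rw [Fintype.card_fin]; exact hℓ) h1 h2' h3
  have h5 : H = ⊤ := by
    rw [eq_top_iff, ← h4, Subgroup.closure_le]
    rintro x (rfl | rfl)
    · exact hc
    · exact hd
  apply hrπ
  apply hH.1 r hr
  rw [h5, Subgroup.card_top, Nat.card_perm, Nat.card_eq_fintype_card, Fintype.card_fin]
  exact (Nat.Prime.dvd_factorial hr).2 hrℓ

theorem caseC (π : Set ℕ) (p q : ℕ) (hp : p.Prime) (hq : q.Prime) (hpq : p < q)
    (hpπ : p ∈ π) (hqπ : q ∈ π) (h2 : 2 ∉ π) : ¬ IsEPiGroup π (Equiv.Perm (Fin q)) := by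
  rintro ⟨H, hH⟩
  obtain ⟨σ, hσc, hσs, hσo⟩ := exists_cycle q q hq.two_le le_rfl
  obtain ⟨τ, hτc, hτs, hτo⟩ := exists_cycle q p hp.two_le hpq.le
  obtain ⟨c, hc⟩ := exists_conj_mem hH hq hqπ σ hσo
  obtain ⟨d, hd⟩ := exists_conj_mem hH hp hpπ τ hτo
  have h1 : (c * σ * c⁻¹).IsCycle := hσc.conj
  have h2' : (c * σ * c⁻¹).support = Finset.univ := by
    apply Finset.eq_univ_of_card
    rw [Equiv.Perm.card_support_conj, hσs, Fintype.card_fin]
  have h3 : (d * τ * d⁻¹).IsCycle := hτc.conj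
  have h3' : (d * τ * d⁻¹).support.card = p := by
    rw [Equiv.Perm.card_support_conj, hτs]
  haveI htrans : MulAction.IsPretransitive ↥H (Fin q) := by
    constructor
    intro a b
    have ha : (c * σ * c⁻¹) a ≠ a := Equiv.Perm.mem_support.1 (by rw [h2']; exact Finset.mem_univ a)
    have hb : (c * σ * c⁻¹) b ≠ b := Equiv.Perm.mem_support.1 (by rw [h2']; exact Finset.mem_univ b)
    obtain ⟨i, hi⟩ := h1.exists_pow_eq ha hb
    exact ⟨⟨(c * σ * c⁻¹) ^ i, H.pow_mem hc i⟩, hi⟩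
  have hprim : MulAction.IsPreprimitive ↥H (Fin q) :=
    MulAction.IsPreprimitive.of_prime_card (by rw [Nat.card_eq_fintype_card, Fintype.card_fin]; exact hq)
  have htr := Equiv.Perm.isPretransitive_of_isCycle_mem h3 hd
  have hsn : (((d * τ * d⁻¹).support : Set (Fin q))ᶜ).ncard = (q - p - 1) + 1 := by
    have e1 := Set.ncard_add_ncard_compl (((d * τ * d⁻¹).support : Set (Fin q)))
    rw [Set.ncard_coe_finset, h3', Nat.card_eq_fintype_card, Fintype.card_fin] at e1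
    omega
  have hsn' : (q - p - 1) + 2 < Nat.card (Fin q) := by
    rw [Nat.card_eq_fintype_card, Fintype.card_fin]
    have := hp.two_le
    omega
  have h2t := hprim.is_two_pretransitive hsn hsn' htr
  rw [MulAction.is_two_pretransitive_iff] at h2t
  have hq2 := hq.two_le
  have hab : (⟨0, by omega⟩ : Fin q) ≠ ⟨1, by omega⟩ := by
    intro h; simp [Fin.ext_iff] at h
  obtain ⟨g, hga, hgb⟩ := h2t hab hab.symm
  have hg2 : (2 : ℕ) ∣ orderOf g := by
    by_contra hnd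
    have hodd : Odd (orderOf g) := Nat.not_even_iff_odd.1 (fun he => hnd he.two_dvd)
    obtain ⟨k, hk⟩ := hodd
    have e1 : g ^ (2 * (k + 1)) = g := by
      have : 2 * (k + 1) = orderOf g + 1 := by omega
      rw [this, pow_succ, pow_orderOf_eq_one, one_mul]
    have e2 : g ^ 2 ∈ MulAction.stabilizer ↥H (⟨0, by omega⟩ : Fin q) := by
      rw [MulAction.mem_stabilizer_iff, pow_two, mul_smul, hga, hgb]
    have e3 : g ∈ MulAction.stabilizer ↥H (⟨0, by omega⟩ : Fin q) := by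
      rw [← e1, pow_mul]
      exact Subgroup.pow_mem _ e2 _
    rw [MulAction.mem_stabilizer_iff, hga] at e3
    exact hab e3.symm
  apply h2
  apply hH.1 2 Nat.prime_two
  exact dvd_trans hg2 (orderOf_dvd_natCard g)

theorem caseA (π : Set ℕ) (r : ℕ) (hr : r.Prime) (h5 : 5 ≤ r) (hrπ : r ∉ π)
    (hall : ∀ s : ℕ, s.Prime → s < r → s ∈ π) :
    ¬ IsEPiGroup π ↥(alternatingGroup (Fin (r + 1))) := by
  rintro ⟨H, hH⟩
  haveI : Nontrivial (Fin (r + 1)) := Fin.nontrivial_iff_two_le.2 (by omega)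
  have hcard : 2 * Nat.card ↥(alternatingGroup (Fin (r + 1))) = (r + 1).factorial := by
    rw [two_mul_nat_card_alternatingGroup, Nat.card_perm, Nat.card_eq_fintype_card,
      Fintype.card_fin]
  have hsimple : IsSimpleGroup ↥(alternatingGroup (Fin (r + 1))) :=
    alternatingGroup.isSimpleGroup (by rw [Nat.card_eq_fintype_card, Fintype.card_fin]; omega)
  have hrodd : r ≠ 2 := by omega
  have hrG : r ∣ Nat.card ↥(alternatingGroup (Fin (r + 1))) := by
    have h1 : r ∣ 2 * Nat.card ↥(alternatingGroup (Fin (r + 1))) := by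
      rw [hcard]; exact (Nat.Prime.dvd_factorial hr).2 (by omega)
    rcases (Nat.Prime.dvd_mul hr).1 h1 with h | h
    · exact absurd ((Nat.prime_dvd_prime_iff_eq hr Nat.prime_two).1 h) hrodd
    · exact h
  have hHtop : H ≠ ⊤ := by
    intro h
    apply hrπ
    apply hH.1 r hr
    rw [h, Subgroup.card_top]; exact hrG
  have hidxdvd : H.index ∣ (r + 1).factorial := by
    rw [← hcard]
    exact dvd_mul_of_dvd_right (Subgroup.index_dvd_card H) 2
  have hprimes : ∀ s : ℕ, s.Prime → s ∣ H.index → s = r := by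
    intro s hs hsd
    have hsπ : s ∉ π := fun h => hH.2 s hs h hsd
    have h1 : ¬ s < r := fun h => hsπ (hall s hs h)
    have h2 : s ≤ r + 1 := (Nat.Prime.dvd_factorial hs).1 (dvd_trans hsd hidxdvd)
    have h3 : s ≠ r + 1 := by
      intro h
      have hodd : Odd r := hr.odd_of_ne_two hrodd
      have heven : Even (r + 1) := hodd.add_one
      rw [← h] at heven
      have := (Nat.Prime.even_iff hs).1 heven
      omega
    omega
  have hidx0 : H.index ≠ 0 := Subgroup.index_ne_zero_of_finite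
  have hpow := Nat.eq_prime_pow_of_unique_prime_dvd hidx0 (fun {d} hd hdd => hprimes d hd hdd)
  obtain ⟨j, hj⟩ : ∃ j, H.index = r ^ j := ⟨_, hpow⟩
  have hj1 : j ≤ 1 := by
    by_contra hj2
    have h1 : r ^ 2 ∣ H.index := by rw [hj]; exact pow_dvd_pow r (by omega)
    have h2 : r ^ 2 ∣ (r + 1).factorial := dvd_trans h1 hidxdvd
    obtain ⟨m, hm⟩ : ∃ m, r = m + 1 := ⟨r - 1, by omega⟩
    have e : (r + 1).factorial = r * ((r + 1) * m.factorial) := by
      rw [Nat.factorial_succ, hm, Nat.factorial_succ]; ring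
    rw [e, pow_two] at h2
    have h3 : r ∣ (r + 1) * m.factorial := Nat.dvd_of_mul_dvd_mul_left hr.pos h2
    rcases (Nat.Prime.dvd_mul hr).1 h3 with h | h
    · have : r ∣ 1 := (Nat.dvd_add_right (dvd_refl r)).1 h
      exact hr.one_lt.ne' (Nat.dvd_one.1 this)
    · have := (Nat.Prime.dvd_factorial hr).1 h
      omega
  have hj0 : j ≠ 0 := by
    intro h
    rw [h, pow_zero] at hj
    exact hHtop (Subgroup.index_eq_one.1 hj)
  have hidx : H.index = r := by
    have : j = 1 := by omega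
    rw [hj, this, pow_one]
  have hcore : H.normalCore = ⊥ := by
    rcases hsimple.eq_bot_or_eq_top_of_normal H.normalCore H.normalCore_normal with h | h
    · exact h
    · exact absurd (top_le_iff.1 (h ▸ H.normalCore_le)) hHtop
  have hdvd : H.normalCore.index ∣ H.index.factorial := by
    rw [Subgroup.normalCore_eq_ker, Subgroup.index_ker, Subgroup.index_eq_card, ← Nat.card_perm]
    exact Subgroup.card_subgroup_dvd_card (MulAction.toPermHom _ (_ ⧸ H)).range
  rw [hcore, Subgroup.index_bot, hidx] at hdvd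
  have hle : Nat.card ↥(alternatingGroup (Fin (r + 1))) ≤ r.factorial :=
    Nat.le_of_dvd (Nat.factorial_pos r) hdvd
  have e : (r + 1).factorial = (r + 1) * r.factorial := Nat.factorial_succ r
  have hpos : 0 < r.factorial := Nat.factorial_pos r
  nlinarith

theorem no_hall (π : Set ℕ) (p q r : ℕ) (hp : p.Prime) (hq : q.Prime) (hr : r.Prime)
    (hpq : p ≠ q) (hpπ : p ∈ π) (hqπ : q ∈ π) (hrπ : r ∉ π) :
    ∃ (G : Type) (_ : Group G) (_ : Finite G), ¬ IsEPiGroup π G := by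
  classical
  by_cases h2 : 2 ∈ π
  · by_cases h3 : 3 ∈ π
    · have hex : ∃ r, r.Prime ∧ r ∉ π := ⟨r, hr, hrπ⟩
      have hspec := Nat.find_spec hex
      have hmin : ∀ s : ℕ, s.Prime → s < Nat.find hex → s ∈ π := by
        intro s hs hlt
        by_contra hsπ
        exact Nat.find_min hex hlt ⟨hs, hsπ⟩
      have h5 : 5 ≤ Nat.find hex := by
        by_contra hlt
        have hlt' : Nat.find hex < 5 := by omega
        have h2le := hspec.1.two_le
        have hne2 : Nat.find hex ≠ 2 := fun h => hspec.2 (h ▸ h2)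
        have hne3 : Nat.find hex ≠ 3 := fun h => hspec.2 (h ▸ h3)
        have h4 : Nat.find hex = 4 := by omega
        have := hspec.1
        rw [h4] at this
        exact absurd this (by decide)
      exact ⟨↥(alternatingGroup (Fin (Nat.find hex + 1))), inferInstance, inferInstance,
        caseA π _ hspec.1 h5 hspec.2 hmin⟩
    · obtain ⟨ℓ, hℓ, hℓπ, hℓ2⟩ : ∃ ℓ, ℓ.Prime ∧ ℓ ∈ π ∧ ℓ ≠ 2 := by
        by_cases hp2 : p = 2
        · exact ⟨q, hq, hqπ, fun h => hpq (hp2.trans h.symm)⟩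
        · exact ⟨p, hp, hpπ, hp2⟩
      have hℓ3 : 3 ≤ ℓ := by
        have := hℓ.two_le
        omega
      exact ⟨Equiv.Perm (Fin ℓ), inferInstance, inferInstance,
        caseB π ℓ 3 hℓ hℓπ h2 Nat.prime_three h3 hℓ3⟩
  · rcases lt_or_gt_of_ne hpq with h | h
    · exact ⟨Equiv.Perm (Fin q), inferInstance, inferInstance, caseC π p q hp hq h hpπ hqπ h2⟩
    · exact ⟨Equiv.Perm (Fin p), inferInstance, inferInstance, caseC π q p hq hp h hqπ hpπ h2⟩

theorem result (π : Set ℕ) :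
    ((∀ (G : Type) [Group G] [Finite G], Cfsg.IsEPiGroup π G) ↔
      ((∀ p q : ℕ, p.Prime → q.Prime → p ∈ π → q ∈ π → p = q) ∨ ∀ p : ℕ, p.Prime → p ∈ π)) ∧
    ((∀ (G : Type) [Group G] [Finite G], Cfsg.IsDPiGroup π G) ↔
      ((∀ p q : ℕ, p.Prime → q.Prime → p ∈ π → q ∈ π → p = q) ∨ ∀ p : ℕ, p.Prime → p ∈ π)) := by
  have key : (∀ (G : Type) [Group G] [Finite G], Cfsg.IsEPiGroup π G) →
      ((∀ p q : ℕ, p.Prime → q.Prime → p ∈ π → q ∈ π → p = q) ∨ ∀ p : ℕ, p.Prime → p ∈ π) := by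
    intro hE
    by_contra hcon
    push Not at hcon
    obtain ⟨⟨p, q, hp, hq, hpπ, hqπ, hpq⟩, ⟨r, hr, hrπ⟩⟩ := hcon
    obtain ⟨G, iG, iF, hG⟩ := no_hall π p q r hp hq hr hpq hpπ hqπ hrπ
    exact hG (@hE G iG iF)
  refine ⟨⟨key, ?_⟩, ⟨fun hD => key (fun G _ _ => e_of_d G (hD G)), ?_⟩⟩
  · rintro (h | h) G _ _
    · exact e_of_le_one h G
    · exact e_of_all h G
  · rintro (h | h) G _ _
    · exact d_of_le_one h G
    · exact d_of_all h G

end Cfsg.Agent.S3878
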