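import Cfsg.Statements.S3880
import Mathlib
import Cfsg.Agent.Lib.Helper20.Metacyc
import Cfsg.Agent.Lib.Helper20.Metacyc3

set_option autoImplicit false
open Cfsg

namespace Cfsg.Agent.S3880

open Cfsg.Agent.Lib.Helper20.Metacyc

theorem result {G : Type*} [Group G] [Finite G] {p : ℕ} [Fact p.Prime] (hp : p ≠ 2) (hG : IsPGroup p G) (hmc : Cfsg.IsMetacyclic G) (L : Subgroup G) :
    (IsMulCommutative ↥L ↔ Nat.card ↥L ≤ (commutator G).index) ∧
      (Maximal (fun K : Subgroup G => IsMulCommutative ↥K) L ↔ Nat.card ↥L = (commutator G).index) := by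
  obtain ⟨A, hn, hA, b, hb⟩ := exists_data hmc
  obtain ⟨a, haA, ha⟩ := exists_gen A
  exact abelian_card hp hG A haA ha hb L

end Cfsg.Agent.S3880
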