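import Cfsg.Statements.S3882
import Mathlib
import Cfsg.Agent.Lib.Helper20.Metacyc
import Cfsg.Agent.Lib.Helper20.Metacyc2

set_option autoImplicit false
open Cfsg

namespace Cfsg.Agent.S3882

open Cfsg.Agent.Lib.Helper20.Metacyc

theorem result {G : Type*} [Group G] [Finite G] {p : ℕ} [Fact p.Prime] (hp : p ≠ 2) (hG : IsPGroup p G) (hmc : Cfsg.IsMetacyclic G) (n : ℕ) (hGn : Nat.card ↥(commutator G) = p ^ n) (s : ℕ) (hs : s ≤ n) (g : G) :
    (g ∈ Subgroup.closure {x : G | ∃ y : G, y ^ p ^ s = x} ↔ (Subgroup.centralizer ({g} : Set G)).index ≤ p ^ (n - s)) ∧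
      Subgroup.closure {x : G | ∃ y : G, y ^ p ^ n = x} = Subgroup.center G := by
  obtain ⟨A, hn, hA, b, hb⟩ := exists_data hmc
  obtain ⟨a, haA, ha⟩ := exists_gen A
  have hdn : orderOf (cb a b) = p ^ n := by
    rw [← card_commutator hG A haA ha hb, hGn]
  exact ⟨mem_pow_closure_iff hp hG A haA ha hb hdn hs g,
    pow_closure_eq_center hp hG A haA ha hb hdn⟩

end Cfsg.Agent.S3882
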