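import Cfsg.Statements.S3885
import Mathlib
import Cfsg.Agent.Lib.Helper20.Metacyc
import Cfsg.Agent.Lib.Helper20.Metacyc6

set_option autoImplicit false
open Cfsg

namespace Cfsg.Agent.S3885

open Cfsg.Agent.Lib.Helper20.Metacyc

theorem result {G : Type*} [Group G] [Finite G] {p : ℕ} [Fact p.Prime] (hp : p ≠ 2) (hG : IsPGroup p G) (hmc : Cfsg.IsMetacyclic G) (K : Subgroup G) (hK : IsMulCommutative ↥K) (hZ : Subgroup.center G ≤ K) :
    K = Subgroup.centralizer (K : Set G) ⊓ Subgroup.centralizer (Subgroup.centralizer (K : Set G) : Set G) := by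
  obtain ⟨A, hAn, hA, b, hb⟩ := exists_data hmc
  obtain ⟨a, haA, ha⟩ := exists_gen A
  exact abelian_eq hp hG A haA ha hb K hK hZ

end Cfsg.Agent.S3885
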