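import Cfsg.Statements.S3886
import Mathlib
import Cfsg.Agent.Lib.Helper20.Metacyc
import Cfsg.Agent.Lib.Helper20.Metacyc6

set_option autoImplicit false
open Cfsg

namespace Cfsg.Agent.S3886

open Cfsg.Agent.Lib.Helper20.Metacyc

theorem result {G : Type*} [Group G] [Finite G] {p : ℕ} [Fact p.Prime] (hp : p ≠ 2) (hG : IsPGroup p G) (hmc : Cfsg.IsMetacyclic G) : Cfsg.maxCentralProduct G = (commutator G).index ^ 2 ∧
    ∀ R : Subgroup G, Cfsg.IsCentrallyLarge R ↔ (¬ IsMulCommutative ↥R ∨ Maximal (fun K : Subgroup G => IsMulCommutative ↥K) R) := by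
  obtain ⟨A, hAn, hA, b, hb⟩ := exists_data hmc
  obtain ⟨a, haA, ha⟩ := exists_gen A
  exact cl_main hp hG A haA ha hb

end Cfsg.Agent.S3886
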