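-- Statement S3897: many classes of p-elements iff p-nilpotent with abelian Sylow.
import Mathlib
import Cfsg.Statements.S3897

set_option autoImplicit false
open Cfsg

namespace Cfsg.Agent.S3897

universe u

variable {G : Type u} [Group G]

/-- conjugation action of the normalizer on a subgroup -/
@[reducible] def normAct (H : Subgroup G) : MulAction (Subgroup.normalizer (H : Set G)) H where
  smul n x := ⟨n.1 * x.1 * n.1⁻¹, (Subgroup.mem_normalizer_iff.mp n.2 x.1).mp x.2⟩
  one_smul x := Subtype.ext (by
    show ((1 : Subgroup.normalizer (H : Set G)) : G) * x.1 * ((1 : Subgroup.normalizer (H : Set G)) : G)⁻¹ = x.1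
    simp)
  mul_smul a b x := Subtype.ext (by
    show ((a * b : Subgroup.normalizer (H : Set G)) : G) * x.1 *
      ((a * b : Subgroup.normalizer (H : Set G)) : G)⁻¹ = a.1 * (b.1 * x.1 * b.1⁻¹) * a.1⁻¹
    simp [mul_assoc])

theorem orderOf_conj' (c z : G) : orderOf (c * z * c⁻¹) = orderOf z := by
  have := (MulAut.conj c).orderOf_eq z
  rwa [MulAut.conj_apply] at this

/-- the class of an element of a `p`-subgroup consists of `p`-elements -/
theorem class_prop {p : ℕ} [Fact p.Prime] (P : Sylow p G) (x : (P : Subgroup G)) :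
    ∀ z ∈ (ConjClasses.mk (x : G)).carrier, ∃ k : ℕ, orderOf z = p ^ k := by
  intro z hz
  rw [ConjClasses.mem_carrier_iff_mk_eq, ConjClasses.mk_eq_mk_iff_isConj, isConj_iff] at hz
  obtain ⟨c, hc⟩ := hz
  obtain ⟨k, hk⟩ := IsPGroup.iff_orderOf.mp P.2 x
  refine ⟨k, ?_⟩
  rw [← orderOf_conj' c z, hc, Subgroup.orderOf_coe, hk]

open scoped Pointwise in
/-- every class of `p`-elements meets the Sylow subgroup -/
theorem exists_rep [Finite G] {p : ℕ} [Fact p.Prime] (P : Sylow p G)
    (c : {c : ConjClasses G // ∀ x ∈ c.carrier, ∃ k : ℕ, orderOf x = p ^ k}) :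
    ∃ x : (P : Subgroup G), ConjClasses.mk (x : G) = c.1 := by
  obtain ⟨y, hy⟩ := ConjClasses.mk_surjective c.1
  have hyc : y ∈ c.1.carrier := ConjClasses.mem_carrier_iff_mk_eq.mpr hy
  obtain ⟨k, hk⟩ := c.2 y hyc
  have hpg : IsPGroup p (Subgroup.zpowers y) := by
    apply IsPGroup.of_card (n := k)
    rw [Nat.card_zpowers, hk]
  obtain ⟨Q, hQ⟩ := hpg.exists_le_sylow
  obtain ⟨g, hg⟩ := MulAction.exists_smul_eq G Q P
  have hmem : g * y * g⁻¹ ∈ (P : Subgroup G) := by
    rw [← hg, Sylow.coe_subgroup_smul]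
    have h1 : MulAut.conj g • y ∈ MulAut.conj g • (Q : Subgroup G) :=
      Subgroup.smul_mem_pointwise_smul _ _ _ (hQ (Subgroup.mem_zpowers y))
    rwa [MulAut.smul_def, MulAut.conj_apply] at h1
  refine ⟨⟨g * y * g⁻¹, hmem⟩, ?_⟩
  rw [← hy, ConjClasses.mk_eq_mk_iff_isConj, isConj_comm, isConj_iff]
  exact ⟨g, rfl⟩

theorem arith (p k m c d S : ℕ) (hp : 1 ≤ p) (hcd : c ≤ d) (hcpos : 0 < c)
    (h1 : k * (c + d) ≤ S) (hsum : p * S ≤ c * (p * m) + d * m)
    (hlt : (p + 1) * m < 2 * p * k) : False := by
  obtain ⟨e, rfl⟩ := Nat.exists_eq_add_of_le hcd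
  obtain ⟨p', rfl⟩ := Nat.exists_eq_add_of_le hp
  have h2 : (1 + p') * (k * (c + (c + e))) ≤ c * ((1 + p') * m) + (c + e) * m :=
    (Nat.mul_le_mul_left _ h1).trans hsum
  have h3 : (1 + p' + 1) * m * (c + (c + e)) < 2 * (1 + p') * k * (c + (c + e)) :=
    Nat.mul_lt_mul_of_pos_right hlt (by omega)
  nlinarith [Nat.zero_le (p' * e * m), Nat.zero_le (e * m)]

theorem key [Finite G] {p : ℕ} [Fact p.Prime] (P : Sylow p G)
    (hlt : (p + 1) * Nat.card ↥(P : Subgroup G) <
      2 * p * Nat.card {c : ConjClasses G // ∀ x ∈ c.carrier, ∃ k : ℕ, orderOf x = p ^ k}) :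
    Subgroup.normalizer ((P : Subgroup G) : Set G) ≤
      Subgroup.centralizer ((P : Subgroup G) : Set G) := by
  classical
  have hp := (Fact.out : p.Prime)
  by_contra hcon
  letI := normAct (P : Subgroup G)
  have hfinN : Fintype (Subgroup.normalizer ((P : Subgroup G) : Set G)) := Fintype.ofFinite _
  have hfinP : Fintype (P : Subgroup G) := Fintype.ofFinite _
  have hfinΩ : Fintype (MulAction.orbitRel.Quotient (Subgroup.normalizer ((P : Subgroup G) : Set G))
      (P : Subgroup G)) := Fintype.ofFinite _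
  have hburn := MulAction.sum_card_fixedBy_eq_card_orbits_mul_card_group
    (Subgroup.normalizer ((P : Subgroup G) : Set G)) (P : Subgroup G)
  -- (1) the number of classes is at most the number of orbits
  have hk : Nat.card {c : ConjClasses G // ∀ x ∈ c.carrier, ∃ k : ℕ, orderOf x = p ^ k} ≤
      Fintype.card (MulAction.orbitRel.Quotient (Subgroup.normalizer ((P : Subgroup G) : Set G))
      (P : Subgroup G)) := by
    rw [← Nat.card_eq_fintype_card]
    apply Nat.card_le_card_of_injective
      (fun c => (Quotient.mk'' (exists_rep P c).choose :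
        MulAction.orbitRel.Quotient (Subgroup.normalizer ((P : Subgroup G) : Set G))
          (P : Subgroup G)))
    intro c c' h
    have h1 := Quotient.exact' h
    change (exists_rep P c).choose ∈ MulAction.orbit _ (exists_rep P c').choose at h1
    obtain ⟨n, hn⟩ := h1
    apply Subtype.ext
    rw [← (exists_rep P c).choose_spec, ← (exists_rep P c').choose_spec, ← hn,
      ConjClasses.mk_eq_mk_iff_isConj, isConj_iff]
    exact ⟨n.1⁻¹, by
      show n.1⁻¹ * (n.1 * ((exists_rep P c').choose : G) * n.1⁻¹) * n.1⁻¹⁻¹ = _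
      group⟩
  -- (2) the fixed point bound
  set C' := (Subgroup.centralizer ((P : Subgroup G) : Set G)).subgroupOf
    (Subgroup.normalizer ((P : Subgroup G) : Set G)) with hC'
  have hC'ne : C' ≠ ⊤ := by
    intro h
    rw [hC', Subgroup.subgroupOf_eq_top] at h
    exact hcon h
  have hPcard : 0 < Nat.card (P : Subgroup G) := Nat.card_pos
  have hfix1 : ∀ n : Subgroup.normalizer ((P : Subgroup G) : Set G),
      Fintype.card (MulAction.fixedBy (P : Subgroup G) n) ≤ Nat.card (P : Subgroup G) := by
    intro n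
    rw [Nat.card_eq_fintype_card]
    exact Fintype.card_subtype_le _
  have hfix2 : ∀ n : Subgroup.normalizer ((P : Subgroup G) : Set G), n ∉ C' →
      p * Fintype.card (MulAction.fixedBy (P : Subgroup G) n) ≤ Nat.card (P : Subgroup G) := by
    intro n hn
    set F := (Subgroup.centralizer ({n.1} : Set G)).subgroupOf (P : Subgroup G) with hF
    have hcardF : Fintype.card (MulAction.fixedBy (P : Subgroup G) n) = Nat.card F := by
      rw [← Nat.card_eq_fintype_card]
      apply Nat.card_congr
      refine Equiv.subtypeEquivRight (fun x => ?_)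
      rw [MulAction.mem_fixedBy, hF, Subgroup.mem_subgroupOf,
        Subgroup.mem_centralizer_singleton_iff]
      constructor
      · intro h
        have h1 : n.1 * x.1 * n.1⁻¹ = x.1 := congrArg Subtype.val h
        rw [mul_inv_eq_iff_eq_mul] at h1
        exact h1.symm
      · intro h
        apply Subtype.ext
        show n.1 * x.1 * n.1⁻¹ = x.1
        rw [mul_inv_eq_iff_eq_mul]
        exact h.symm
    have hFne : F ≠ ⊤ := by
      intro h
      apply hn
      rw [hC', Subgroup.mem_subgroupOf, Subgroup.mem_centralizer_iff]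
      intro y hy
      have hy' : (⟨y, hy⟩ : (P : Subgroup G)) ∈ F := by rw [h]; exact Subgroup.mem_top _
      rw [hF, Subgroup.mem_subgroupOf, Subgroup.mem_centralizer_singleton_iff] at hy'
      exact hy'
    obtain ⟨a, ha⟩ := IsPGroup.iff_card.mp P.2
    have hdvd : Nat.card F ∣ p ^ a := ha ▸ Subgroup.card_subgroup_dvd_card F
    obtain ⟨b, hb, hFb⟩ := (Nat.dvd_prime_pow hp).mp hdvd
    have hblt : b < a := by
      rcases lt_or_eq_of_le hb with h | h
      · exact h
      · exfalso
        apply hFne
        rw [← Subgroup.card_eq_iff_eq_top, hFb, h, ha]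
    rw [hcardF, hFb, ha, ← pow_succ']
    exact Nat.pow_le_pow_right hp.pos hblt
  -- sum estimate
  have hsum : p * ∑ n : Subgroup.normalizer ((P : Subgroup G) : Set G),
      Fintype.card (MulAction.fixedBy (P : Subgroup G) n) ≤
      (Finset.univ.filter (fun n : Subgroup.normalizer ((P : Subgroup G) : Set G) => n ∈ C')).card *
        (p * Nat.card (P : Subgroup G)) +
      (Finset.univ.filter (fun n : Subgroup.normalizer ((P : Subgroup G) : Set G) => n ∉ C')).card *
        Nat.card (P : Subgroup G) := by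
    rw [Finset.mul_sum, ← Finset.sum_filter_add_sum_filter_not Finset.univ
      (fun n : Subgroup.normalizer ((P : Subgroup G) : Set G) => n ∈ C')]
    apply Nat.add_le_add
    · rw [← smul_eq_mul, ← Finset.sum_const]
      apply Finset.sum_le_sum
      intro n _
      exact Nat.mul_le_mul_left p (hfix1 n)
    · rw [← smul_eq_mul, ← Finset.sum_const]
      apply Finset.sum_le_sum
      intro n hn
      exact hfix2 n (Finset.mem_filter.mp hn).2
  -- counting N
  have hcd : (Finset.univ.filter (fun n : Subgroup.normalizer ((P : Subgroup G) : Set G) => n ∈ C')).card +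
      (Finset.univ.filter (fun n : Subgroup.normalizer ((P : Subgroup G) : Set G) => n ∉ C')).card =
      Fintype.card (Subgroup.normalizer ((P : Subgroup G) : Set G)) := by
    rw [Finset.card_filter_add_card_filter_not, Finset.card_univ]
  have hc : (Finset.univ.filter (fun n : Subgroup.normalizer ((P : Subgroup G) : Set G) => n ∈ C')).card =
      Nat.card C' := by
    rw [Nat.card_eq_fintype_card, Fintype.card_subtype]
  have h2c : 2 * Nat.card C' ≤ Fintype.card (Subgroup.normalizer ((P : Subgroup G) : Set G)) := by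
    rw [← Nat.card_eq_fintype_card, ← C'.index_mul_card]
    apply Nat.mul_le_mul_right
    have h1 : C'.index ≠ 1 := fun h => hC'ne (Subgroup.index_eq_one.mp h)
    have h0 : C'.index ≠ 0 := Subgroup.index_ne_zero_of_finite
    omega
  rw [← hcd] at hburn h2c
  rw [← hc] at h2c
  have hcpos : 0 < (Finset.univ.filter
      (fun n : Subgroup.normalizer ((P : Subgroup G) : Set G) => n ∈ C')).card := by
    rw [hc]; exact Nat.card_pos
  refine arith p _ _ _ _ _ hp.pos (by omega) hcpos ?_ hsum hlt
  rw [hburn]
  exact Nat.mul_le_mul_right _ hk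

/-- Let p be an odd prime and G a finite group with Sylow p-subgroup P, and write k_p(G) for the number of conjugacy classes of G consisting of p-elements (elements of p-power order, the identity included). Then k_p(G) > (p + 1)|P|/(2p) if and only if G has a normal p-complement and P is abelian. -/
theorem result {G : Type*} [Group G] [Finite G] {p : ℕ} [Fact p.Prime] (hp : p ≠ 2) (P : Sylow p G) :
    (p + 1) * Nat.card ↥(P : Subgroup G) < 2 * p * Nat.card {c : ConjClasses G // ∀ x ∈ c.carrier, ∃ k : ℕ, orderOf x = p ^ k} ↔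
      Cfsg.HasNormalPComplement p G ∧ IsMulCommutative ↥(P : Subgroup G) := by
  constructor
  · intro hlt
    have hkey := key P hlt
    refine ⟨⟨P, (MonoidHom.transferSylow P hkey).ker, inferInstance,
      MonoidHom.ker_transferSylow_isComplement' P hkey⟩, ?_⟩
    refine ⟨⟨fun a b => ?_⟩⟩
    have ha : (a : G) ∈ Subgroup.centralizer ((P : Subgroup G) : Set G) :=
      hkey (Subgroup.le_normalizer a.2)
    rw [Subgroup.mem_centralizer_iff] at ha
    exact Subtype.ext (ha b.1 b.2).symm
  · rintro ⟨⟨P₀, K, hKn, hKc⟩, hab⟩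
    have hp' := (Fact.out : p.Prime)
    haveI := hKn
    have hcardP : Nat.card (P : Subgroup G) = Nat.card (P₀ : Subgroup G) := by
      rw [P.card_eq_multiplicity, P₀.card_eq_multiplicity]
    have hKP₀ : Nat.card K * Nat.card (P₀ : Subgroup G) = Nat.card G := hKc.card_mul_card
    have hpK : ¬ p ∣ Nat.card K := by
      have h2 := P₀.not_dvd_index
      rwa [hKc.index_eq_card] at h2
    have hcop : (Nat.card K).Coprime (Nat.card (P : Subgroup G)) := by
      obtain ⟨a, ha⟩ := IsPGroup.iff_card.mp P.2
      rw [ha]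
      exact Nat.Coprime.pow_right _ ((Nat.Prime.coprime_iff_not_dvd hp').mpr hpK).symm
    have hKP : K.IsComplement' (P : Subgroup G) :=
      Subgroup.isComplement'_of_coprime (by rw [hcardP]; exact hKP₀) hcop
    have hinj : Function.Injective (fun x : (P : Subgroup G) =>
        (⟨ConjClasses.mk (x : G), class_prop P x⟩ :
          {c : ConjClasses G // ∀ x ∈ c.carrier, ∃ k : ℕ, orderOf x = p ^ k})) := by
      intro x y hxy
      have h1 : ConjClasses.mk (x : G) = ConjClasses.mk (y : G) := congrArg Subtype.val hxy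
      rw [ConjClasses.mk_eq_mk_iff_isConj, isConj_iff] at h1
      obtain ⟨g, hg⟩ := h1
      obtain ⟨⟨⟨k, hk⟩, ⟨u, hu⟩⟩, hku, -⟩ := (Subgroup.isComplement_iff_existsUnique.mp hKP) g
      simp only at hku
      have hux : u * (x : G) * u⁻¹ = x := by
        have h2 := hab.is_comm.comm ⟨u, hu⟩ x
        have h' : u * (x : G) = (x : G) * u := congrArg Subtype.val h2
        rw [h', mul_inv_cancel_right]
      have hy : (y : G) = k * x * k⁻¹ := by
        rw [← hg, ← hku]
        calc k * u * x * (k * u)⁻¹ = k * (u * x * u⁻¹) * k⁻¹ := by group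
          _ = k * x * k⁻¹ := by rw [hux]
      have hmemK : (y : G) * (x : G)⁻¹ ∈ K := by
        rw [hy]
        have h3 : k * x * k⁻¹ * (x : G)⁻¹ = k * (x * k⁻¹ * (x : G)⁻¹) := by group
        rw [h3]
        exact K.mul_mem hk (hKn.conj_mem _ (K.inv_mem hk) _)
      have hmemP : (y : G) * (x : G)⁻¹ ∈ (P : Subgroup G) :=
        (P : Subgroup G).mul_mem y.2 ((P : Subgroup G).inv_mem x.2)
      have hdisj : K ⊓ (P : Subgroup G) = ⊥ := disjoint_iff.mp hKP.disjoint
      have h1' : (y : G) * (x : G)⁻¹ = 1 := by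
        have h4 : (y : G) * (x : G)⁻¹ ∈ K ⊓ (P : Subgroup G) := Subgroup.mem_inf.mpr ⟨hmemK, hmemP⟩
        rw [hdisj] at h4
        exact Subgroup.mem_bot.mp h4
      exact Subtype.ext (mul_inv_eq_one.mp h1').symm
    have hle : Nat.card (P : Subgroup G) ≤
        Nat.card {c : ConjClasses G // ∀ x ∈ c.carrier, ∃ k : ℕ, orderOf x = p ^ k} :=
      Nat.card_le_card_of_injective _ hinj
    have hPpos : 0 < Nat.card (P : Subgroup G) := Nat.card_pos
    have hp2 : 2 ≤ p := hp'.two_le
    calc (p + 1) * Nat.card (P : Subgroup G) < 2 * p * Nat.card (P : Subgroup G) := by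
          apply Nat.mul_lt_mul_of_pos_right _ hPpos
          omega
      _ ≤ 2 * p * Nat.card _ := Nat.mul_le_mul_left _ hle

end Cfsg.Agent.S3897
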