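import Mathlib
import Cfsg.Statements.S3903
import Cfsg.Agent.Lib.Helper21.Higman
import Cfsg.Agent.Lib.Helper9.Cores

set_option autoImplicit false
open Cfsg

namespace Cfsg.Agent.S3903

open Cfsg.Agent.Lib.Helper21.Higman

/-- If `x ∉ N` is a `p`-element and every element outside `N` has prime power order, then every
element of `N` commuting with `x` is a `p`-element. -/
theorem cent_pgroup {G : Type*} [Group G] (N : Subgroup G)
    (h : ∀ x : G, x ∉ N → IsPrimePow (orderOf x)) {x : G} (hx : x ∉ N) {p a : ℕ} (hp : p.Prime)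
    (hxo : orderOf x = p ^ a) {n : G} (hn : n ∈ N) (hc : n * x = x * n) :
    ∃ k : ℕ, n ^ p ^ k = 1 := by
  have hy : x * n ∉ N := fun hy => hx (by
    have := N.mul_mem hy (N.inv_mem hn)
    rwa [mul_inv_cancel_right] at this)
  have hy1 : x * n ≠ 1 := fun h1 => hy (h1 ▸ N.one_mem)
  obtain ⟨s, c, hs, hc0, hyo⟩ := cp_order hy1 (h _ hy)
  have hcomm : Commute x n := hc.symm
  by_cases hsp : s = p
  · refine ⟨a + c, ?_⟩
    have h1 : (x * n) ^ (p ^ a * p ^ c) = 1 := by
      rw [mul_comm, pow_mul, ← hsp, ← hyo, pow_orderOf_eq_one, one_pow]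
    rw [hcomm.mul_pow, pow_mul, ← hxo, pow_orderOf_eq_one, one_pow, one_mul] at h1
    rw [hxo] at h1
    rw [pow_add]; exact h1
  · exfalso
    have h1 : (x * n) ^ (s ^ c) = 1 := by rw [← hyo, pow_orderOf_eq_one]
    rw [hcomm.mul_pow] at h1
    have h2 : x ^ s ^ c ∈ N := by
      have : x ^ s ^ c = (n ^ s ^ c)⁻¹ := eq_inv_of_mul_eq_one_left h1
      rw [this]; exact N.inv_mem (N.pow_mem hn _)
    have hx1 : x ≠ 1 := fun h1 => hx (h1 ▸ N.one_mem)
    have ho1 : 1 < orderOf x := by
      have h0 : 0 < orderOf x := by rw [hxo]; exact pow_pos hp.pos a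
      have h1' : orderOf x ≠ 1 := fun h => hx1 (orderOf_eq_one_iff.mp h)
      omega
    have hcop : Nat.Coprime (s ^ c) (orderOf x) := by
      rw [hxo]; exact Nat.Coprime.pow _ _ ((Nat.coprime_primes hs hp).mpr hsp)
    obtain ⟨m, -, hm⟩ := Nat.exists_mul_mod_eq_one_of_coprime hcop ho1
    have h3 : (x ^ s ^ c) ^ m = x := by
      rw [← pow_mul, ← pow_mod_orderOf, hm, pow_one]
    exact hx (h3 ▸ N.pow_mem h2 m)

theorem comm_mem_of_sup {G : Type*} [Group G] (N : Subgroup G) [N.Normal] {x : G}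
    (hsup : N ⊔ Subgroup.centralizer ({x} : Set G) = ⊤) (g : G) : g * x * g⁻¹ * x⁻¹ ∈ N := by
  have hg : g ∈ ((N ⊔ Subgroup.centralizer ({x} : Set G) : Subgroup G) : Set G) := by
    rw [hsup]; trivial
  rw [Subgroup.normal_mul] at hg
  obtain ⟨n, hn, c, hc, rfl⟩ := Set.mem_mul.mp hg
  have hcx : c * x = x * c := (Subgroup.mem_centralizer_iff.mp hc x rfl).symm
  have h1 : n * c * x * (n * c)⁻¹ * x⁻¹ = n * (x * n⁻¹ * x⁻¹) := by
    have h2 : n * c * x * (n * c)⁻¹ = n * (c * x * c⁻¹) * n⁻¹ := by group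
    rw [h2, hcx, mul_inv_cancel_right]; group
  rw [h1]
  exact N.mul_mem hn (Subgroup.Normal.conj_mem inferInstance _ (N.inv_mem hn) x)

/-- Counting lemma: if every element outside the normal subgroup `N` is a `q`-element, a Sylow
`q`-subgroup `P` is self-normalising and `N P = G`, then each element outside `N` lies in a unique
Sylow `q`-subgroup. -/
theorem sylow_unique_outside {G : Type*} [Group G] [Finite G] (N : Subgroup G) [N.Normal]
    (q : ℕ) [Fact q.Prime] (hq : ∀ y : G, y ∉ N → ∃ c : ℕ, orderOf y = q ^ c)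
    (P : Sylow q G) (hNP : N ⊔ (P : Subgroup G) = ⊤)
    (hnorm : Subgroup.normalizer ((P : Subgroup G) : Set G) = (P : Subgroup G)) :
    ∀ y : G, y ∉ N → ∀ S₁ S₂ : Sylow q G, y ∈ (S₁ : Subgroup G) → y ∈ (S₂ : Subgroup G) →
      S₁ = S₂ := by
  classical
  haveI : Fintype (Sylow q G) := Fintype.ofFinite _
  set a := Nat.card (P : Subgroup G) with ha
  set c := Nat.card ↥(N ⊓ (P : Subgroup G)) with hc
  have hSa : ∀ S : Sylow q G, Nat.card (S : Subgroup G) = a := fun S =>
    (S.card_eq_multiplicity).trans (P.card_eq_multiplicity).symm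
  have hS : ∀ S : Sylow q G, Nat.card ↥(N ⊓ (S : Subgroup G)) = c := by
    intro S
    obtain ⟨g, rfl⟩ := MulAction.exists_smul_eq G P S
    have hconj : ((g • P : Sylow q G) : Subgroup G) =
        (P : Subgroup G).map (MulAut.conj g).toMonoidHom := by
      rw [Sylow.coe_subgroup_smul]; rfl
    have hNmap : N.map (MulAut.conj g).toMonoidHom = N := by
      ext z
      constructor
      · rintro ⟨n, hn, rfl⟩
        exact Subgroup.Normal.conj_mem inferInstance n hn g
      · intro hz
        refine ⟨g⁻¹ * z * g, ?_, ?_⟩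
        · have := Subgroup.Normal.conj_mem (inferInstance : N.Normal) z hz g⁻¹
          rwa [inv_inv] at this
        · simp [MulAut.conj_apply, mul_assoc]
    have h1 : N ⊓ ((g • P : Sylow q G) : Subgroup G) =
        (N ⊓ (P : Subgroup G)).map (MulAut.conj g).toMonoidHom := by
      rw [Subgroup.map_inf _ _ _ (MulAut.conj g).injective, hNmap, hconj]
    rw [h1]
    exact (Nat.card_congr ((N ⊓ (P : Subgroup G)).equivMapOfInjective _
      (MulAut.conj g).injective).toEquiv).symm
  have hGa : Nat.card (Sylow q G) * a = Nat.card G := by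
    have h := Sylow.card_eq_index_normalizer P
    rw [h]
    show (Subgroup.normalizer ((P : Subgroup G) : Set G)).index * a = _
    rw [hnorm]
    exact Subgroup.index_mul_card _
  have hac : a = N.index * c := by
    have h1 : N.relIndex ((P : Subgroup G) ⊔ N) = N.relIndex (P : Subgroup G) :=
      Subgroup.relIndex_sup_right (P : Subgroup G) N
    rw [sup_comm, hNP, Subgroup.relIndex_top_right] at h1
    have h2 := Subgroup.card_mul_index (N.subgroupOf (P : Subgroup G))
    have h3 : Nat.card ↥(N.subgroupOf (P : Subgroup G)) = c := by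
      rw [← Subgroup.inf_subgroupOf_right]
      exact Nat.card_congr (Subgroup.subgroupOfEquivOfLe inf_le_right).toEquiv
    rw [h3] at h2
    have h4 : (N.subgroupOf (P : Subgroup G)).index = N.index := h1.symm
    rw [h4] at h2
    rw [ha, ← h2, mul_comm]
  have hNc : Nat.card (Sylow q G) * c = Nat.card N := by
    have h1 : Nat.card G = Nat.card N * N.index := (Subgroup.card_mul_index N).symm
    have h2 : Nat.card (Sylow q G) * c * N.index = Nat.card N * N.index := by
      rw [← h1, ← hGa, hac]; ring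
    have hpos : 0 < N.index := Nat.pos_of_ne_zero Subgroup.index_ne_zero_of_finite
    exact Nat.eq_of_mul_eq_mul_right hpos h2
  have hfiber : ∀ S : Sylow q G,
      Nat.card {y : G // y ∈ (S : Subgroup G) ∧ y ∉ N} = a - c := by
    intro S
    have h1 : Nat.card {y : G // y ∈ (S : Subgroup G) ∧ y ∉ N} =
        (((S : Subgroup G) : Set G) \ ((N ⊓ (S : Subgroup G) : Subgroup G) : Set G)).ncard := by
      rw [← Nat.card_coe_set_eq]
      apply Nat.card_congr
      apply Equiv.subtypeEquivRight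
      intro y
      simp only [Set.mem_sdiff, SetLike.mem_coe, Subgroup.mem_inf, not_and]
      constructor
      · rintro ⟨h1, h2⟩; exact ⟨h1, fun h3 _ => h2 h3⟩
      · rintro ⟨h1, h2⟩; exact ⟨h1, fun h3 => h2 h3 h1⟩
    rw [h1, Set.ncard_sdiff (fun y hy => (Subgroup.mem_inf.mp hy).2)]
    have h2 : (((S : Subgroup G) : Set G)).ncard = a := by
      rw [← Nat.card_coe_set_eq]; exact hSa S
    have h3 : (((N ⊓ (S : Subgroup G) : Subgroup G) : Set G)).ncard = c := by
      rw [← Nat.card_coe_set_eq]; exact hS S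
    rw [h2, h3]
  let f : (Σ S : Sylow q G, {y : G // y ∈ (S : Subgroup G) ∧ y ∉ N}) → {y : G // y ∉ N} :=
    fun s => ⟨s.2.1, s.2.2.2⟩
  have hsurj : Function.Surjective f := by
    rintro ⟨y, hy⟩
    obtain ⟨k, hk⟩ := hq y hy
    have hpg : IsPGroup q (Subgroup.zpowers y) :=
      IsPGroup.of_card ((Nat.card_zpowers y).trans hk)
    obtain ⟨S, hS'⟩ := hpg.exists_le_sylow
    exact ⟨⟨S, ⟨y, hS' (Subgroup.mem_zpowers y), hy⟩⟩, rfl⟩
  have hcardα : Nat.card (Σ S : Sylow q G, {y : G // y ∈ (S : Subgroup G) ∧ y ∉ N}) =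
      Nat.card (Sylow q G) * (a - c) := by
    rw [Nat.card_sigma, Finset.sum_congr rfl (fun S _ => hfiber S), Finset.sum_const,
      Finset.card_univ, smul_eq_mul, Nat.card_eq_fintype_card]
  have hcardβ : Nat.card {y : G // y ∉ N} = Nat.card G - Nat.card N := by
    have h1 : Nat.card {y : G // y ∉ N} = ((N : Set G)ᶜ).ncard := by
      rw [← Nat.card_coe_set_eq]; rfl
    have h2 : ((N : Set G)).ncard = Nat.card N := by
      rw [← Nat.card_coe_set_eq]; rfl
    rw [h1, Set.ncard_compl, h2]
  have hle : Nat.card (Σ S : Sylow q G, {y : G // y ∈ (S : Subgroup G) ∧ y ∉ N}) ≤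
      Nat.card {y : G // y ∉ N} := by
    rw [hcardα, hcardβ, Nat.mul_sub, hGa, hNc]
  have hinj := (hsurj.bijective_of_nat_card_le hle).1
  intro y hy S₁ S₂ h1 h2
  have h3 := @hinj ⟨S₁, ⟨y, h1, hy⟩⟩ ⟨S₂, ⟨y, h2, hy⟩⟩ rfl
  exact congrArg Sigma.fst h3

/-- Let N be a proper normal subgroup of the finite group G such that every element x of G outside N has prime power order and has centralizer C_G(x) a maximal subgroup of G. Then N is solvable. -/
theorem result {G : Type*} [Group G] [Finite G] (N : Subgroup G) [N.Normal] (hN : N ≠ ⊤)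
    (h : ∀ x : G, x ∉ N → IsPrimePow (orderOf x) ∧ IsCoatom (Subgroup.centralizer ({x} : Set G))) : Group.IsSolvable ↥N := by
  classical
  have hpp : ∀ x : G, x ∉ N → IsPrimePow (orderOf x) := fun x hx => (h x hx).1
  have hne1 : ∀ x : G, x ∉ N → x ≠ 1 := fun x hx h1 => hx (h1 ▸ N.one_mem)
  have hpsol : ∀ (s : ℕ) (T : Subgroup G), s.Prime → IsPGroup s T → Group.IsSolvable T := by
    intro s T hs hT
    haveI : Fact s.Prime := ⟨hs⟩
    haveI := hT.isNilpotent
    infer_instance
  -- first case: `N` centralises some element outside `N`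
  by_cases hcase : ∃ x : G, x ∉ N ∧ N ≤ Subgroup.centralizer ({x} : Set G)
  · obtain ⟨x, hx, hNx⟩ := hcase
    obtain ⟨p, a, hp, ha, hxo⟩ := cp_order (hne1 x hx) (hpp x hx)
    refine hpsol p N hp ?_
    intro n
    obtain ⟨k, hk⟩ := cent_pgroup N hpp hx hp hxo n.2
      ((Subgroup.mem_centralizer_iff.mp (hNx n.2) x rfl).symm)
    exact ⟨k, Subtype.ext hk⟩
  have hsup : ∀ x : G, x ∉ N → N ⊔ Subgroup.centralizer ({x} : Set G) = ⊤ := by
    intro x hx
    apply (h x hx).2.2
    refine lt_of_le_of_ne le_sup_right ?_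
    intro heq
    exact hcase ⟨x, hx, heq ▸ le_sup_left⟩
  have hcm : ∀ x : G, x ∉ N → ∀ g : G, g * x * g⁻¹ * x⁻¹ ∈ N :=
    fun x hx g => comm_mem_of_sup N (hsup x hx) g
  -- the quotient is abelian with prime power element orders
  have hQcomm : ∀ a b : G ⧸ N, a * b = b * a := by
    intro a b
    obtain ⟨g, rfl⟩ := QuotientGroup.mk_surjective a
    obtain ⟨x, rfl⟩ := QuotientGroup.mk_surjective b
    by_cases hx : x ∈ N
    · have h1 : (QuotientGroup.mk x : G ⧸ N) = 1 := (QuotientGroup.eq_one_iff x).mpr hx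
      rw [h1, mul_one, one_mul]
    · have h1 := hcm x hx g
      rw [← QuotientGroup.mk_mul, ← QuotientGroup.mk_mul]
      apply QuotientGroup.eq.mpr
      have h2 : (g * x)⁻¹ * (x * g) = (x * g)⁻¹ * (g * x * g⁻¹ * x⁻¹)⁻¹ * (x * g) := by group
      rw [h2]
      exact Subgroup.Normal.conj_mem' inferInstance _ (N.inv_mem h1) _
  obtain ⟨x₀, hx₀⟩ : ∃ x₀ : G, x₀ ∉ N := by
    by_contra hall
    apply hN
    rw [Subgroup.eq_top_iff']
    intro y
    by_contra hy
    exact hall ⟨y, hy⟩
  haveI : Nontrivial (G ⧸ N) :=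
    ⟨⟨QuotientGroup.mk x₀, 1, fun h1 => hx₀ ((QuotientGroup.eq_one_iff x₀).mp h1)⟩⟩
  have hQcp : ∀ b : G ⧸ N, b ≠ 1 → IsPrimePow (orderOf b) := by
    intro b hb
    obtain ⟨x, rfl⟩ := QuotientGroup.mk_surjective b
    have hx : x ∉ N := fun hx => hb ((QuotientGroup.eq_one_iff x).mpr hx)
    obtain ⟨s, m, hs, hm, hsm⟩ := cp_order (hne1 x hx) (hpp x hx)
    have hdvd : orderOf (QuotientGroup.mk' N x) ∣ orderOf x := orderOf_map_dvd _ x
    rw [hsm] at hdvd
    obtain ⟨i, hi, hio⟩ := (Nat.dvd_prime_pow hs).mp hdvd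
    have hi0 : i ≠ 0 := by
      rintro rfl
      rw [pow_zero] at hio
      exact hb (orderOf_eq_one_iff.mp hio)
    rw [isPrimePow_nat_iff]
    exact ⟨s, i, hs, Nat.pos_of_ne_zero hi0, hio.symm⟩
  obtain ⟨q, hq, hQq, -⟩ := exists_prime_isPGroup_of_comm (A := G ⧸ N) hQcomm hQcp
  haveI : Fact q.Prime := ⟨hq⟩
  have hqel : ∀ y : G, y ∉ N → ∃ c : ℕ, orderOf y = q ^ c := by
    intro y hy
    obtain ⟨s, m, hs, hm, hsm⟩ := cp_order (hne1 y hy) (hpp y hy)
    obtain ⟨j, hj⟩ := hQq (QuotientGroup.mk y)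
    have hb : (QuotientGroup.mk y : G ⧸ N) ≠ 1 :=
      fun hb => hy ((QuotientGroup.eq_one_iff y).mp hb)
    have h1 : orderOf (QuotientGroup.mk y : G ⧸ N) ∣ q ^ j := orderOf_dvd_of_pow_eq_one hj
    have h2 : orderOf (QuotientGroup.mk y : G ⧸ N) ∣ s ^ m :=
      hsm ▸ orderOf_map_dvd (QuotientGroup.mk' N) y
    have hsq : s = q := by
      by_contra hne
      have h3 : orderOf (QuotientGroup.mk y : G ⧸ N) ∣ Nat.gcd (q ^ j) (s ^ m) :=
        Nat.dvd_gcd h1 h2
      have h4 : Nat.gcd (q ^ j) (s ^ m) = 1 :=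
        Nat.Coprime.pow j m ((Nat.coprime_primes hq hs).mpr (Ne.symm hne))
      rw [h4] at h3
      exact hb (orderOf_eq_one_iff.mp (Nat.dvd_one.mp h3))
    exact ⟨m, hsq ▸ hsm⟩
  -- centralisers of elements outside `N` are `q`-groups
  have hcentq : ∀ x : G, x ∉ N → IsPGroup q (Subgroup.centralizer ({x} : Set G)) := by
    intro x hx m
    by_cases hm : (m : G) ∈ N
    · obtain ⟨a, hxo⟩ := hqel x hx
      obtain ⟨k, hk⟩ := cent_pgroup N hpp hx hq hxo hm
        ((Subgroup.mem_centralizer_iff.mp m.2 x rfl).symm)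
      exact ⟨k, Subtype.ext hk⟩
    · obtain ⟨c, hc⟩ := hqel _ hm
      refine ⟨c, Subtype.ext ?_⟩
      rw [Subgroup.coe_pow, ← hc, pow_orderOf_eq_one]
      rfl
  have hself : ∀ x : G, x ∈ Subgroup.centralizer ({x} : Set G) := by
    intro x
    rw [Subgroup.mem_centralizer_iff]
    intro y hy
    rw [Set.mem_singleton_iff.mp hy]
  obtain ⟨P, hMP⟩ := (hcentq x₀ hx₀).exists_le_sylow
  have hco := (h x₀ hx₀).2
  by_cases hPtop : (P : Subgroup G) = ⊤
  · haveI : Group.IsSolvable G := by
      have hG : IsPGroup q G := fun g => by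
        obtain ⟨k, hk⟩ := P.2 ⟨g, hPtop ▸ Subgroup.mem_top g⟩
        exact ⟨k, congrArg Subtype.val hk⟩
      haveI := hG.isNilpotent
      infer_instance
    infer_instance
  have hPM : Subgroup.centralizer ({x₀} : Set G) = (P : Subgroup G) := by
    by_contra hne
    exact hPtop (hco.2 _ (lt_of_le_of_ne hMP hne))
  have hPco : IsCoatom (P : Subgroup G) := hPM ▸ hco
  have hx₀P : x₀ ∈ (P : Subgroup G) := hPM ▸ hself x₀
  have hnorm_cases : Subgroup.normalizer ((P : Subgroup G) : Set G) = ⊤ ∨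
      Subgroup.normalizer ((P : Subgroup G) : Set G) = (P : Subgroup G) := by
    by_cases hne : Subgroup.normalizer ((P : Subgroup G) : Set G) = (P : Subgroup G)
    · exact Or.inr hne
    · exact Or.inl (hPco.2 _ (lt_of_le_of_ne Subgroup.le_normalizer (Ne.symm hne)))
  rcases hnorm_cases with hnt | hnorm
  · -- `P` is normal and the quotient has no proper nontrivial subgroups
    haveI hPn : (P : Subgroup G).Normal := Subgroup.normalizer_eq_top_iff.mp hnt
    haveI : Group.IsSolvable (P : Subgroup G) := hpsol q _ hq P.2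
    have hQ2 : ∀ a b : G ⧸ (P : Subgroup G), a * b = b * a := by
      intro a b
      by_cases ha : a = 1
      · rw [ha, one_mul, mul_one]
      have hle : (P : Subgroup G) ≤
          (Subgroup.zpowers a).comap (QuotientGroup.mk' (P : Subgroup G)) := by
        intro y hy
        show QuotientGroup.mk' _ y ∈ Subgroup.zpowers a
        have h1 : QuotientGroup.mk' (P : Subgroup G) y = 1 := (QuotientGroup.eq_one_iff y).mpr hy
        rw [h1]
        exact Subgroup.one_mem _
      have htop : (Subgroup.zpowers a).comap (QuotientGroup.mk' (P : Subgroup G)) = ⊤ := by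
        apply hPco.2
        refine lt_of_le_of_ne hle ?_
        intro heq
        obtain ⟨g, rfl⟩ := QuotientGroup.mk_surjective a
        have h1 : g ∈ (Subgroup.zpowers (QuotientGroup.mk g : G ⧸ (P : Subgroup G))).comap
            (QuotientGroup.mk' (P : Subgroup G)) := Subgroup.mem_zpowers _
        rw [← heq] at h1
        exact ha ((QuotientGroup.eq_one_iff g).mpr h1)
      obtain ⟨g, rfl⟩ := QuotientGroup.mk_surjective b
      have hg : g ∈ (Subgroup.zpowers a).comap (QuotientGroup.mk' (P : Subgroup G)) :=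
        htop ▸ Subgroup.mem_top g
      obtain ⟨k, hk⟩ := Subgroup.mem_zpowers_iff.mp hg
      show a * (QuotientGroup.mk' _ g) = (QuotientGroup.mk' _ g) * a
      rw [← hk]
      exact (Commute.zpow_right (Commute.refl a) k).eq
    haveI : Group.IsSolvable (G ⧸ (P : Subgroup G)) := Group.isSolvable_of_comm hQ2
    haveI : Group.IsSolvable G :=
      (Group.isSolvable_iff_subgroup_quotient (P : Subgroup G)).mpr ⟨inferInstance, inferInstance⟩
    infer_instance
  -- `P` is self-normalising
  have hNP : N ⊔ (P : Subgroup G) = ⊤ := hPM ▸ hsup x₀ hx₀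
  have huniq := sylow_unique_outside N q hqel P hNP hnorm
  have hcentral : ∀ y : G, y ∈ (P : Subgroup G) → y ∉ N →
      ∀ g ∈ (P : Subgroup G), g * y = y * g := by
    intro y hyP hy g hg
    obtain ⟨S, hS⟩ := (hcentq y hy).exists_le_sylow
    have hSne : (S : Subgroup G) ≠ ⊤ := by
      intro hS'
      have hG : IsPGroup q (⊤ : Subgroup G) := hS' ▸ S.2
      exact hPtop (P.is_maximal' hG le_top).symm
    have hSeq : Subgroup.centralizer ({y} : Set G) = (S : Subgroup G) := by
      by_contra hne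
      exact hSne ((h y hy).2.2 _ (lt_of_le_of_ne hS hne))
    have hyS : y ∈ (S : Subgroup G) := hSeq ▸ hself y
    have hSP : S = P := huniq y hy S P hyS hyP
    have hg' : g ∈ Subgroup.centralizer ({y} : Set G) := by rw [hSeq, hSP]; exact hg
    exact (Subgroup.mem_centralizer_iff.mp hg' y rfl).symm
  have hPcomm : ∀ a ∈ (P : Subgroup G), ∀ b ∈ (P : Subgroup G), a * b = b * a := by
    intro a ha b hb
    by_cases hbN : b ∈ N
    · by_cases haN : a ∈ N
      · have h1 : x₀ * a ∉ N := fun hh => hx₀ (by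
          have := N.mul_mem hh (N.inv_mem haN)
          rwa [mul_inv_cancel_right] at this)
        have h2 := hcentral (x₀ * a) (Subgroup.mul_mem _ hx₀P ha) h1 b hb
        have h3 := hcentral x₀ hx₀P hx₀ b hb
        have h4 : x₀ * (b * a) = x₀ * (a * b) := by
          calc x₀ * (b * a) = (x₀ * b) * a := (mul_assoc _ _ _).symm
            _ = (b * x₀) * a := by rw [h3]
            _ = b * (x₀ * a) := mul_assoc _ _ _
            _ = (x₀ * a) * b := h2
            _ = x₀ * (a * b) := mul_assoc _ _ _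
        exact (mul_left_cancel h4).symm
      · exact (hcentral a ha haN b hb).symm
    · exact hcentral b hb hbN a ha
  -- Burnside's transfer theorem gives a normal `q`-complement
  have hPc : Subgroup.normalizer ((P : Subgroup G) : Set G) ≤
      Subgroup.centralizer ((P : Subgroup G) : Set G) := by
    rw [hnorm]
    intro g hg
    rw [Subgroup.mem_centralizer_iff]
    intro y hy
    exact hPcomm y hy g hg
  have hcompl := MonoidHom.ker_transferSylow_isComplement' P hPc
  set K := (MonoidHom.transferSylow P hPc).ker with hK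
  have hKcard : Nat.card K * Nat.card (P : Subgroup G) = Nat.card G := hcompl.card_mul_card
  have hKne : Nat.card K ≠ 1 := by
    intro h1
    rw [h1, one_mul] at hKcard
    exact hPtop (Subgroup.eq_top_of_card_eq _ hKcard)
  obtain ⟨r, hr, hrK⟩ := Nat.exists_prime_and_dvd hKne
  haveI : Fact r.Prime := ⟨hr⟩
  have hrq : r ≠ q := by
    intro hrq
    have hidx : (P : Subgroup G).index = Nat.card K := by
      have h1 := (P : Subgroup G).card_mul_index
      rw [← hKcard, mul_comm] at h1
      exact Nat.eq_of_mul_eq_mul_right Nat.card_pos h1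
    exact P.not_dvd_index (hidx ▸ hrq ▸ hrK)
  obtain ⟨R⟩ : Nonempty (Sylow r K) := inferInstance
  have hfrat : Subgroup.normalizer (((R : Subgroup K).map K.subtype : Subgroup G) : Set G) ⊔ K = ⊤ :=
    Sylow.normalizer_sup_eq_top R
  set R' : Subgroup G := (R : Subgroup K).map K.subtype with hR'
  set D := Subgroup.normalizer (R' : Set G) with hD
  have hdvd1 : Nat.card G ∣ Nat.card D * Nat.card K := by
    have h1 := Cfsg.Agent.Lib.Helper9.card_sup_dvd D K
    rw [hfrat, Subgroup.card_top] at h1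
    exact h1
  have hPdvd : Nat.card (P : Subgroup G) ∣ Nat.card D := by
    rw [← hKcard, mul_comm (Nat.card K)] at hdvd1
    exact Nat.dvd_of_mul_dvd_mul_right Nat.card_pos hdvd1
  obtain ⟨e, he⟩ := IsPGroup.iff_card.mp P.2
  rw [he] at hPdvd
  obtain ⟨T, hT⟩ := Sylow.exists_subgroup_card_pow_prime q hPdvd
  have hT'card : Nat.card (T.map D.subtype) = q ^ e := by
    rw [← hT]
    exact (Nat.card_congr (T.equivMapOfInjective D.subtype D.subtype_injective).toEquiv).symm
  have hT'pg : IsPGroup q (T.map D.subtype) := IsPGroup.of_card hT'card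
  obtain ⟨S, hS⟩ := hT'pg.exists_le_sylow
  have hScard : Nat.card (S : Subgroup G) = q ^ e :=
    ((S.card_eq_multiplicity).trans (P.card_eq_multiplicity).symm).trans he
  have hT'S : T.map D.subtype = (S : Subgroup G) :=
    Subgroup.eq_of_le_of_card_ge hS (by rw [hScard, hT'card])
  obtain ⟨g, hg⟩ := MulAction.exists_smul_eq G S P
  have hconj : ((g • S : Sylow q G) : Subgroup G) =
      (S : Subgroup G).map (MulAut.conj g).toMonoidHom := by
    rw [Sylow.coe_subgroup_smul]; rfl
  set R'' : Subgroup G := R'.map (MulAut.conj g).toMonoidHom with hR''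
  have hPR : (P : Subgroup G) ≤ Subgroup.normalizer (R'' : Set G) := by
    have h1 := Subgroup.map_equiv_normalizer_eq R' (MulAut.conj g)
    rw [hR'', ← h1, ← hg, hconj, ← hT'S]
    apply Subgroup.map_mono
    rintro _ ⟨t, -, rfl⟩
    exact t.2
  have hRk : Nat.card (R : Subgroup K) = r ^ (Nat.card K).factorization r :=
    R.card_eq_multiplicity
  have hk0 : (Nat.card K).factorization r ≠ 0 :=
    (hr.factorization_pos_of_dvd Nat.card_pos.ne' hrK).ne'
  have hR''card : Nat.card R'' = r ^ (Nat.card K).factorization r := by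
    rw [← hRk]
    have h1 : Nat.card R' = Nat.card (R : Subgroup K) :=
      (Nat.card_congr ((R : Subgroup K).equivMapOfInjective K.subtype
        K.subtype_injective).toEquiv).symm
    rw [← h1]
    exact (Nat.card_congr (R'.equivMapOfInjective _ (MulAut.conj g).injective).toEquiv).symm
  have hR''P : ¬ R'' ≤ (P : Subgroup G) := by
    intro hle
    have h1 : Nat.card R'' ∣ Nat.card (P : Subgroup G) := Subgroup.card_dvd_of_le hle
    rw [hR''card, he] at h1
    have h2 : r ∣ q ^ e := (dvd_pow_self r hk0).trans h1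
    exact hrq ((Nat.prime_dvd_prime_iff_eq hr hq).mp (hr.dvd_of_dvd_pow h2))
  have htop2 : (P : Subgroup G) ⊔ R'' = ⊤ := by
    apply hPco.2
    refine lt_of_le_of_ne le_sup_left ?_
    intro heq
    exact hR''P (heq ▸ le_sup_right)
  haveI hR''n : R''.Normal := by
    apply Subgroup.normalizer_eq_top_iff.mp
    rw [eq_top_iff, ← htop2]
    exact sup_le hPR Subgroup.le_normalizer
  have hdvd2 : Nat.card G ∣ Nat.card (P : Subgroup G) * Nat.card R'' := by
    have h1 := Cfsg.Agent.Lib.Helper9.card_sup_dvd (P : Subgroup G) R''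
    rwa [htop2, Subgroup.card_top] at h1
  have hquot : Nat.card (G ⧸ R'') ∣ q ^ e := by
    have h1 : Nat.card G = Nat.card (G ⧸ R'') * Nat.card R'' :=
      Subgroup.card_eq_card_quotient_mul_card_subgroup R''
    rw [h1, he] at hdvd2
    exact Nat.dvd_of_mul_dvd_mul_right Nat.card_pos hdvd2
  obtain ⟨j, -, hj⟩ := (Nat.dvd_prime_pow hq).mp hquot
  haveI : Group.IsSolvable (G ⧸ R'') := by
    haveI := (IsPGroup.of_card hj).isNilpotent
    infer_instance
  haveI : Group.IsSolvable R'' := hpsol r R'' hr (IsPGroup.of_card hR''card)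
  haveI : Group.IsSolvable G :=
    (Group.isSolvable_iff_subgroup_quotient R'').mpr ⟨inferInstance, inferInstance⟩
  infer_instance

end Cfsg.Agent.S3903
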