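import Mathlib
import Cfsg.Statements.S3908
import Cfsg.Agent.Lib.Helper18.UniqueInvolution

set_option autoImplicit false
open Cfsg

namespace Cfsg.Agent.S3908

open Cfsg.Agent.Lib.Helper18.UniqueInvolution

/-- The subgroup generated by two commuting elements of exponent `p` is commutative of
exponent `p`. -/
theorem closure_pair {Q : Type*} [Group Q] (a z : Q) (hc : a * z = z * a) (p : ℕ)
    (ha : a ^ p = 1) (hz : z ^ p = 1) :
    (∀ e ∈ Subgroup.closure ({a, z} : Set Q), ∀ f ∈ Subgroup.closure ({a, z} : Set Q),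
      e * f = f * e) ∧
    ∀ e ∈ Subgroup.closure ({a, z} : Set Q), e ^ p = 1 := by
  have h1 : Subgroup.closure ({a, z} : Set Q) ≤ Subgroup.centralizer ({a, z} : Set Q) := by
    rw [Subgroup.closure_le]
    rintro x (rfl | rfl)
    · rw [SetLike.mem_coe, Subgroup.mem_centralizer_iff]
      rintro h (rfl | rfl)
      · rfl
      · exact hc.symm
    · rw [SetLike.mem_coe, Subgroup.mem_centralizer_iff]
      rintro h (rfl | rfl)
      · exact hc
      · rfl
  have h2 : ∀ e ∈ Subgroup.closure ({a, z} : Set Q), ∀ f ∈ Subgroup.closure ({a, z} : Set Q),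
      e * f = f * e := by
    intro e he
    have he' := h1 he
    rw [Subgroup.mem_centralizer_iff] at he'
    have h3 : Subgroup.closure ({a, z} : Set Q) ≤ Subgroup.centralizer ({e} : Set Q) := by
      rw [Subgroup.closure_le]
      rintro x (rfl | rfl)
      · rw [SetLike.mem_coe, Subgroup.mem_centralizer_singleton_iff]
        exact he' x (by simp)
      · rw [SetLike.mem_coe, Subgroup.mem_centralizer_singleton_iff]
        exact he' x (by simp)
    intro f hf
    have h4 := h3 hf
    rw [Subgroup.mem_centralizer_singleton_iff] at h4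
    exact h4.symm
  refine ⟨h2, ?_⟩
  intro e he
  induction he using Subgroup.closure_induction with
  | mem x hx =>
    rcases hx with rfl | rfl
    · exact ha
    · exact hz
  | one => exact one_pow p
  | mul x y hx hy ihx ihy =>
    have hxy : Commute x y := h2 x hx y hy
    rw [hxy.mul_pow, ihx, ihy, one_mul]
  | inv x hx ih => rw [inv_pow, ih, inv_one]

/-- A Sylow subgroup has exponent `p` or at most one subgroup of order `p`. -/
theorem core {G : Type*} [Group G] [Finite G]
    (hB : ∀ A B : Subgroup G, IsMulCommutative ↥A → IsMulCommutative ↥B →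
      Nat.card ↥A = Nat.card ↥B → ∃ g : G, B = A.map (MulAut.conj g).toMonoidHom)
    (p : ℕ) [Fact p.Prime] (P : Sylow p G) :
    (∀ x ∈ (P : Subgroup G), x ^ p = 1) ∨
    (∀ H K : Subgroup ↥(P : Subgroup G), Nat.card H = p → Nat.card K = p → H = K) := by
  have hp := (Fact.out : p.Prime)
  by_contra hcon
  push Not at hcon
  obtain ⟨⟨y₀, hy₀P, hy₀⟩, H, K, hH, hK, hHK⟩ := hcon
  have hPG : IsPGroup p (P : Subgroup G) := P.isPGroup'
  obtain ⟨k, hk⟩ : ∃ k, orderOf y₀ = p ^ k := by
    obtain ⟨k, hk⟩ := (IsPGroup.iff_orderOf.mp hPG) ⟨y₀, hy₀P⟩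
    exact ⟨k, by rw [← hk, Subgroup.orderOf_mk]⟩
  have hk2 : 2 ≤ k := by
    by_contra h
    push Not at h
    apply hy₀
    have h1 : orderOf y₀ ∣ p := by
      rw [hk]
      calc p ^ k ∣ p ^ 1 := pow_dvd_pow p (by omega)
        _ = p := pow_one p
    exact orderOf_dvd_iff_pow_eq_one.mp h1
  set y := y₀ ^ (p ^ (k - 2)) with hy
  have hyo : orderOf y = p ^ 2 := by
    rw [hy, orderOf_pow' _ (pow_ne_zero _ hp.ne_zero), hk,
      Nat.gcd_eq_right (pow_dvd_pow p (Nat.sub_le k 2))]
    have h1 : p ^ k = p ^ (k - 2) * p ^ 2 := by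
      rw [← pow_add]; congr 1; omega
    rw [h1]
    exact Nat.mul_div_cancel_left _ (pos_of_ne_zero (pow_ne_zero _ hp.ne_zero))
  have hHnt : Nontrivial H := by
    rw [← Finite.one_lt_card_iff_nontrivial, hH]
    exact hp.one_lt
  have hPnt : Nontrivial (P : Subgroup G) := by
    obtain ⟨u, v, huv⟩ := hHnt
    exact ⟨⟨u.1, v.1, fun h => huv (Subtype.ext h)⟩⟩
  have hcen : Nontrivial (Subgroup.center (P : Subgroup G)) := hPG.center_nontrivial
  obtain ⟨j, hj⟩ := IsPGroup.iff_card.mp (hPG.to_subgroup (Subgroup.center (P : Subgroup G)))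
  have hj0 : j ≠ 0 := by
    rintro rfl
    rw [pow_zero] at hj
    exact (Finite.one_lt_card_iff_nontrivial.mpr hcen).ne' hj
  obtain ⟨z', hz'⟩ := exists_prime_orderOf_dvd_card' p
    (show p ∣ Nat.card (Subgroup.center (P : Subgroup G)) by rw [hj]; exact dvd_pow_self p hj0)
  set z : (P : Subgroup G) := (z' : (P : Subgroup G)) with hzdef
  have hzo : orderOf z = p := by rw [hzdef, Subgroup.orderOf_coe]; exact hz'
  have hzc : ∀ b : (P : Subgroup G), b * z = z * b :=
    fun b => (Subgroup.mem_center_iff.mp z'.2 b)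
  have hgen : ∀ A : Subgroup (P : Subgroup G), Nat.card A = p → A ≠ Subgroup.zpowers z →
      ∃ a : (P : Subgroup G), orderOf a = p ∧ a ∉ Subgroup.zpowers z := by
    intro A hA hAz
    have hAnt : Nontrivial A := by
      rw [← Finite.one_lt_card_iff_nontrivial, hA]
      exact hp.one_lt
    obtain ⟨a', ha'⟩ := exists_ne (1 : A)
    have hao : orderOf (a' : (P : Subgroup G)) = p := by
      rw [Subgroup.orderOf_coe]
      have h1 : orderOf a' ∣ p := by
        have h0 := orderOf_dvd_natCard a'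
        rwa [hA] at h0
      rcases (Nat.dvd_prime hp).mp h1 with h | h
      · exact absurd (orderOf_eq_one_iff.mp h) ha'
      · exact h
    refine ⟨a', hao, fun hmem => hAz ?_⟩
    have h1 : Subgroup.zpowers (a' : (P : Subgroup G)) = A :=
      Subgroup.eq_of_le_of_card_ge (Subgroup.zpowers_le.mpr a'.2)
        (by rw [Nat.card_zpowers, hao, hA])
    have h2 : Subgroup.zpowers (a' : (P : Subgroup G)) = Subgroup.zpowers z :=
      Subgroup.eq_of_le_of_card_ge (Subgroup.zpowers_le.mpr hmem)
        (by rw [Nat.card_zpowers, Nat.card_zpowers, hao, hzo])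
    rw [← h1, h2]
  obtain ⟨a, hao, haz⟩ : ∃ a : (P : Subgroup G), orderOf a = p ∧ a ∉ Subgroup.zpowers z := by
    by_cases hHz : H = Subgroup.zpowers z
    · exact hgen K hK (fun h => hHK (hHz.trans h.symm))
    · exact hgen H hH hHz
  have hazc : a * z = z * a := hzc a
  have hap : a ^ p = 1 := by
    have h0 := pow_orderOf_eq_one a
    rwa [hao] at h0
  have hzp : z ^ p = 1 := by
    have h0 := pow_orderOf_eq_one z
    rwa [hzo] at h0
  obtain ⟨hEcomm, hEexp⟩ := closure_pair a z hazc p hap hzp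
  set E := Subgroup.closure ({a, z} : Set (P : Subgroup G)) with hE
  have haE : a ∈ E := Subgroup.subset_closure (by simp)
  have hzE : z ∈ E := Subgroup.subset_closure (by simp)
  obtain ⟨e, he⟩ := IsPGroup.iff_card.mp (hPG.to_subgroup E)
  have he2 : 2 ≤ e := by
    by_contra h
    push Not at h
    have hle : Nat.card E ≤ p := by
      rw [he]
      calc p ^ e ≤ p ^ 1 := Nat.pow_le_pow_right hp.pos (by omega)
        _ = p := pow_one p
    have h1 : Subgroup.zpowers a = E :=
      Subgroup.eq_of_le_of_card_ge (Subgroup.zpowers_le.mpr haE)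
        (by rw [Nat.card_zpowers, hao]; exact hle)
    have h2 : Subgroup.zpowers z = E :=
      Subgroup.eq_of_le_of_card_ge (Subgroup.zpowers_le.mpr hzE)
        (by rw [Nat.card_zpowers, hzo]; exact hle)
    apply haz
    rw [h2, ← h1]
    exact Subgroup.mem_zpowers a
  obtain ⟨E₂, hE₂⟩ := Sylow.exists_subgroup_card_pow_prime p
    (show p ^ 2 ∣ Nat.card E by rw [he]; exact pow_dvd_pow p he2)
  set A : Subgroup G := (E₂.map E.subtype).map (P : Subgroup G).subtype with hA
  have hAcard : Nat.card A = p ^ 2 := by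
    rw [hA, Subgroup.card_map_of_injective (Subgroup.subtype_injective _),
      Subgroup.card_map_of_injective (Subgroup.subtype_injective _), hE₂]
  have hAexp : ∀ x ∈ A, x ^ p = 1 := by
    rintro _ ⟨u, ⟨v, hv, rfl⟩, rfl⟩
    have h1 := hEexp v.1 v.2
    have h2 := congrArg Subtype.val h1
    simpa using h2
  have hAcomm : ∀ x ∈ A, ∀ x' ∈ A, x * x' = x' * x := by
    rintro _ ⟨u, ⟨v, hv, rfl⟩, rfl⟩ _ ⟨u', ⟨v', hv', rfl⟩, rfl⟩
    have h1 := hEcomm v.1 v.2 v'.1 v'.2
    exact congrArg Subtype.val h1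
  have hAmc : IsMulCommutative A := ⟨⟨fun x x' => Subtype.ext (hAcomm x.1 x.2 x'.1 x'.2)⟩⟩
  have hBmc : IsMulCommutative (Subgroup.zpowers y) := inferInstance
  obtain ⟨g, hg⟩ := hB A (Subgroup.zpowers y) hAmc hBmc (by rw [hAcard, Nat.card_zpowers, hyo])
  have hyA : y ∈ A.map (MulAut.conj g).toMonoidHom := by
    rw [← hg]; exact Subgroup.mem_zpowers y
  obtain ⟨w, hw, hwy⟩ := hyA
  have hyp : y ^ p = 1 := by
    rw [← hwy, ← map_pow, hAexp w hw, map_one]
  have h3 := orderOf_dvd_of_pow_eq_one hyp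
  rw [hyo] at h3
  have h4 := Nat.le_of_dvd hp.pos h3
  have h5 := hp.one_lt
  nlinarith

/-- Let G be a finite group in which any two abelian subgroups of the same order are conjugate. Then a Sylow 2-subgroup of G is cyclic, elementary abelian or generalized quaternion, and for an odd prime p a Sylow p-subgroup of G is cyclic or has exponent dividing p. -/
theorem result {G : Type*} [Group G] [Finite G] (hB : ∀ A B : Subgroup G, IsMulCommutative ↥A → IsMulCommutative ↥B → Nat.card ↥A = Nat.card ↥B → ∃ g : G, B = A.map (MulAut.conj g).toMonoidHom) :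
    (∀ P : Sylow 2 G, IsCyclic ↥(P : Subgroup G) ∨ Cfsg.IsElementaryAbelian 2 (P : Subgroup G) ∨ ∃ k : ℕ, Nonempty (↥(P : Subgroup G) ≃* QuaternionGroup (2 ^ k))) ∧
    ∀ (p : ℕ) [Fact p.Prime], p ≠ 2 → ∀ P : Sylow p G, IsCyclic ↥(P : Subgroup G) ∨ ∀ x ∈ (P : Subgroup G), x ^ p = 1 := by
  have hcyc : ∀ (p : ℕ) [Fact p.Prime] (P : Sylow p G), (∀ x ∈ (P : Subgroup G), x ^ p = 1) ∨
      IsCyclic ↥(P : Subgroup G) ∨
      (p = 2 ∧ ∃ n : ℕ, Nonempty (↥(P : Subgroup G) ≃* QuaternionGroup (2 ^ n))) := by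
    intro p _ P
    rcases core hB p P with h | h
    · exact Or.inl h
    · exact Or.inr (cyclic_or_quaternion_of_unique p P.isPGroup' (ncard_pow_le_of_unique p h))
  constructor
  · intro P
    rcases hcyc 2 P with h | h | ⟨-, h⟩
    · right; left
      refine ⟨⟨⟨fun a b => ?_⟩⟩, h⟩
      apply Subtype.ext
      have ha := h a.1 a.2
      have hb := h b.1 b.2
      have hab := h (a.1 * b.1) (mul_mem a.2 b.2)
      show (a : G) * (b : G) = (b : G) * (a : G)
      have hainv : (a : G)⁻¹ = a := inv_eq_of_mul_eq_one_left (by rw [← pow_two]; exact ha)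
      have hbinv : (b : G)⁻¹ = b := inv_eq_of_mul_eq_one_left (by rw [← pow_two]; exact hb)
      have h1 : ((a : G) * b)⁻¹ = (a : G) * b :=
        inv_eq_of_mul_eq_one_left (by rw [← pow_two]; exact hab)
      rw [← h1, mul_inv_rev, hainv, hbinv]
    · left; exact h
    · right; right; exact h
  · intro p _ hp2 P
    rcases hcyc p P with h | h | ⟨h2, -⟩
    · right; exact h
    · left; exact h
    · exact absurd h2 hp2

end Cfsg.Agent.S3908
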