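import Mathlib
import Cfsg.Statements.S3909

set_option autoImplicit false
open Cfsg

namespace Cfsg.Agent.S3909

/-- Let G be a finite group in which any two abelian subgroups of the same order are conjugate. Let M be a normal subgroup of G. If M contains an element of the same order as a ∈ G, then a ∈ M; and if M is elementary abelian of order p^t with p prime and t ≥ 2, then M is the unique Sylow p-subgroup of G. -/
theorem result {G : Type*} [Group G] [Finite G] (hB : ∀ A B : Subgroup G, IsMulCommutative ↥A → IsMulCommutative ↥B → Nat.card ↥A = Nat.card ↥B → ∃ g : G, B = A.map (MulAut.conj g).toMonoidHom) (M : Subgroup G) [M.Normal] :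
    (∀ a : G, (∃ m ∈ M, orderOf m = orderOf a) → a ∈ M) ∧
    ∀ (p t : ℕ) [Fact p.Prime], 2 ≤ t → Nat.card ↥M = p ^ t → Cfsg.IsElementaryAbelian p M → ∀ P : Sylow p G, (P : Subgroup G) = M := by
  have hMn : M.Normal := inferInstance
  have part1 : ∀ a : G, (∃ m ∈ M, orderOf m = orderOf a) → a ∈ M := by
    rintro a ⟨m, hm, ho⟩
    obtain ⟨g, hg⟩ := hB (Subgroup.zpowers m) (Subgroup.zpowers a) inferInstance inferInstance
      (by rw [Nat.card_zpowers, Nat.card_zpowers, ho])
    have ha : a ∈ (Subgroup.zpowers m).map (MulAut.conj g).toMonoidHom := by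
      rw [← hg]; exact Subgroup.mem_zpowers a
    obtain ⟨w, hw, rfl⟩ := ha
    have hwM : w ∈ M := (Subgroup.zpowers_le.mpr hm) hw
    exact hMn.conj_mem w hwM g
  refine ⟨part1, ?_⟩
  intro p t _ ht hcard hel P
  have hp := (Fact.out : p.Prime)
  obtain ⟨hMc, hMexp⟩ := hel
  have hMp : IsPGroup p M := IsPGroup.of_card hcard
  have hMP : M ≤ (P : Subgroup G) := hMp.le_sylow_of_normal P
  apply le_antisymm _ hMP
  intro x hxP
  by_contra hxM
  have hPG : IsPGroup p (P : Subgroup G) := P.isPGroup'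
  obtain ⟨k, hk⟩ : ∃ k, orderOf x = p ^ k := by
    obtain ⟨k, hk⟩ := (IsPGroup.iff_orderOf.mp hPG) ⟨x, hxP⟩
    exact ⟨k, by rw [← hk, Subgroup.orderOf_mk]⟩
  -- a subgroup of order p ^ 2 in M
  obtain ⟨E₂, hE₂⟩ := Sylow.exists_subgroup_card_pow_prime p
    (show p ^ 2 ∣ Nat.card M by rw [hcard]; exact pow_dvd_pow p ht)
  set A : Subgroup G := E₂.map M.subtype with hA
  have hAcard : Nat.card A = p ^ 2 := by
    rw [hA, Subgroup.card_map_of_injective (Subgroup.subtype_injective _), hE₂]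
  have hAM : A ≤ M := by
    rintro _ ⟨u, -, rfl⟩
    exact u.2
  have hAmc : IsMulCommutative A :=
    ⟨⟨fun a b => Subtype.ext (by
      have h1 := hMc.is_comm.comm (⟨a.1, hAM a.2⟩ : M) ⟨b.1, hAM b.2⟩
      have h2 : (a.1 : G) * b.1 = b.1 * a.1 := congrArg Subtype.val h1
      exact h2)⟩⟩
  -- an element of order p in M
  obtain ⟨m₁, hm₁⟩ := exists_prime_orderOf_dvd_card' p
    (show p ∣ Nat.card M by rw [hcard]; exact dvd_pow_self p (by omega))
  have hm₁' : orderOf (m₁ : G) = p := by rw [Subgroup.orderOf_coe]; exact hm₁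
  have hk2 : 2 ≤ k := by
    by_contra h
    push Not at h
    interval_cases k
    · rw [pow_zero, orderOf_eq_one_iff] at hk
      exact hxM (hk ▸ M.one_mem)
    · rw [pow_one] at hk
      exact hxM (part1 x ⟨m₁, m₁.2, by rw [hm₁', hk]⟩)
  set y := x ^ (p ^ (k - 2)) with hy
  have hyo : orderOf y = p ^ 2 := by
    rw [hy, orderOf_pow' _ (pow_ne_zero _ hp.ne_zero), hk,
      Nat.gcd_eq_right (pow_dvd_pow p (Nat.sub_le k 2))]
    have h1 : p ^ k = p ^ (k - 2) * p ^ 2 := by
      rw [← pow_add]; congr 1; omega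
    rw [h1]
    exact Nat.mul_div_cancel_left _ (pos_of_ne_zero (pow_ne_zero _ hp.ne_zero))
  obtain ⟨g, hg⟩ := hB A (Subgroup.zpowers y) hAmc inferInstance
    (by rw [hAcard, Nat.card_zpowers, hyo])
  have hyA : y ∈ A.map (MulAut.conj g).toMonoidHom := by
    rw [← hg]; exact Subgroup.mem_zpowers y
  obtain ⟨w, hw, hwy⟩ := hyA
  have hyp : y ^ p = 1 := by
    rw [← hwy, ← map_pow, hMexp w (hAM hw), map_one]
  have h3 := orderOf_dvd_of_pow_eq_one hyp
  rw [hyo] at h3
  have h4 := Nat.le_of_dvd hp.pos h3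
  have h5 := hp.one_lt
  nlinarith

end Cfsg.Agent.S3909
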