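import Mathlib
import Cfsg.Statements.S3910
import Cfsg.Agent.Lib.Helper10.CN

set_option autoImplicit false
open Cfsg

namespace Cfsg.Agent.S3910

/-- A finite group is not the union of the conjugates of a proper subgroup. -/
theorem eq_top_of_conj_cover {G : Type*} [Group G] [Finite G] (H : Subgroup G)
    (hcov : ∀ y : G, ∃ g : G, g⁻¹ * y * g ∈ H) : H = ⊤ := by
  obtain ⟨f, hf⟩ : ∃ f : (G ⧸ H) × H → G, f = fun x => x.1.out * (x.2 : G) * x.1.out⁻¹ := ⟨_, rfl⟩
  have hsurj : Function.Surjective f := by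
    intro y
    obtain ⟨g, hg⟩ := hcov y
    obtain ⟨h₀, hh₀⟩ := QuotientGroup.mk_out_eq_mul H g
    refine ⟨((QuotientGroup.mk g : G ⧸ H), ⟨(h₀ : G)⁻¹ * (g⁻¹ * y * g) * h₀,
      H.mul_mem (H.mul_mem (H.inv_mem h₀.2) hg) h₀.2⟩), ?_⟩
    rw [hf]
    show (QuotientGroup.mk g : G ⧸ H).out * ((h₀ : G)⁻¹ * (g⁻¹ * y * g) * h₀) *
      ((QuotientGroup.mk g : G ⧸ H).out)⁻¹ = y
    rw [hh₀]
    group
  have hinj : Function.Injective f :=
    (Finite.injective_iff_surjective_of_equiv
      (Subgroup.groupEquivQuotientProdSubgroup (s := H)).symm).mpr hsurj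
  have hsub : Subsingleton (G ⧸ H) := by
    constructor
    intro a b
    have h1 : f (a, 1) = f (b, 1) := by
      rw [hf]
      simp
    exact (Prod.ext_iff.mp (hinj h1)).1
  rw [← Subgroup.index_eq_one, Subgroup.index]
  exact Nat.card_eq_one_iff_unique.mpr ⟨hsub, ⟨QuotientGroup.mk 1⟩⟩

/-- In a finite nilpotent group the order of every element divides the largest element order. -/
theorem orderOf_dvd_of_max {G : Type*} [Group G] [Finite G] (hnil : Group.IsNilpotent G) (x : G)
    (hx : ∀ y : G, orderOf y ≤ orderOf x) (y : G) : orderOf y ∣ orderOf x := by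
  rw [Nat.dvd_iff_prime_pow_dvd_dvd]
  intro p k hp hpk
  by_contra hnd
  have : Fact p.Prime := ⟨hp⟩
  obtain ⟨a, m, hm, hxm⟩ := Nat.exists_eq_pow_mul_and_not_dvd (orderOf_pos x).ne' p hp.ne_one
  have hak : a < k := by
    by_contra hle
    push Not at hle
    apply hnd
    rw [hxm]
    exact (pow_dvd_pow p hle).trans (dvd_mul_right _ _)
  -- y' of order p^k, x' of order m
  have hy' : orderOf (y ^ (orderOf y / p ^ k)) = p ^ k := by
    rw [orderOf_pow_of_dvd (by
      have h1 : 0 < orderOf y / p ^ k :=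
        Nat.div_pos (Nat.le_of_dvd (orderOf_pos y) hpk) (pow_pos hp.pos k)
      exact h1.ne') (Nat.div_dvd_of_dvd hpk)]
    exact Nat.div_div_self hpk (orderOf_pos y).ne'
  have hx' : orderOf (x ^ (p ^ a)) = m := by
    rw [orderOf_pow_of_dvd (pow_pos hp.pos a).ne' (hxm ▸ dvd_mul_right _ _), hxm]
    exact Nat.mul_div_cancel_left m (pow_pos hp.pos a)
  have hcop : (orderOf (x ^ (p ^ a))).Coprime p := by
    rw [hx']
    exact ((Nat.Prime.coprime_iff_not_dvd hp).mpr hm).symm
  have htop : Group.IsNilpotent (⊤ : Subgroup G) := inferInstance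
  have hcomm : y ^ (orderOf y / p ^ k) * x ^ (p ^ a) = x ^ (p ^ a) * y ^ (orderOf y / p ^ k) :=
    Cfsg.Agent.Lib.Helper10.CN.comm_of_nilpotent ⊤ htop (Subgroup.mem_top _) (Subgroup.mem_top _)
      ⟨k, hy'⟩ hcop
  have hord : orderOf (y ^ (orderOf y / p ^ k) * x ^ (p ^ a)) = p ^ k * m := by
    rw [Commute.orderOf_mul_eq_mul_orderOf_of_coprime hcomm, hy', hx']
    rw [hy', hx']
    exact Nat.Coprime.pow_left k ((Nat.Prime.coprime_iff_not_dvd hp).mpr hm)
  have hle := hx (y ^ (orderOf y / p ^ k) * x ^ (p ^ a))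
  rw [hord, hxm] at hle
  have hm0 : 0 < m := by
    rcases Nat.eq_zero_or_pos m with h0 | h0
    · exfalso
      apply hm
      rw [h0]
      exact dvd_zero p
    · exact h0
  have hlt : p ^ a < p ^ k := Nat.pow_lt_pow_right hp.one_lt hak
  nlinarith

/-- A finite nilpotent group in which any two abelian subgroups of the same order are conjugate is cyclic. -/
theorem result {G : Type*} [Group G] [Finite G] (hB : ∀ A B : Subgroup G, IsMulCommutative ↥A → IsMulCommutative ↥B → Nat.card ↥A = Nat.card ↥B → ∃ g : G, B = A.map (MulAut.conj g).toMonoidHom) (hnil : Group.IsNilpotent G) : IsCyclic G := by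
  obtain ⟨x, hx⟩ := Finite.exists_max (fun x : G => orderOf x)
  have hdvd := orderOf_dvd_of_max hnil x hx
  have hcov : ∀ y : G, ∃ g : G, g⁻¹ * y * g ∈ Subgroup.zpowers x := by
    intro y
    have hd := hdvd y
    have hA : Nat.card (Subgroup.zpowers (x ^ (orderOf x / orderOf y))) =
        Nat.card (Subgroup.zpowers y) := by
      rw [Nat.card_zpowers, Nat.card_zpowers, orderOf_pow_of_dvd (by
        have h1 : 0 < orderOf x / orderOf y :=
          Nat.div_pos (Nat.le_of_dvd (orderOf_pos x) hd) (orderOf_pos y)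
        exact h1.ne') (Nat.div_dvd_of_dvd hd)]
      exact Nat.div_div_self hd (orderOf_pos x).ne'
    obtain ⟨g, hg⟩ := hB _ _ inferInstance inferInstance hA
    have hy : y ∈ (Subgroup.zpowers (x ^ (orderOf x / orderOf y))).map
        (MulAut.conj g).toMonoidHom := hg ▸ Subgroup.mem_zpowers y
    obtain ⟨a, ha, hay⟩ := hy
    refine ⟨g, ?_⟩
    have h1 : g⁻¹ * y * g = a := by
      rw [← hay]
      show g⁻¹ * (g * a * g⁻¹) * g = a
      group
    rw [h1]
    exact (Subgroup.zpowers_le.mpr (Subgroup.pow_mem _ (Subgroup.mem_zpowers x) _)) ha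
  have htop := eq_top_of_conj_cover (Subgroup.zpowers x) hcov
  refine ⟨x, fun y => ?_⟩
  have h1 : y ∈ Subgroup.zpowers x := by
    rw [htop]
    exact Subgroup.mem_top y
  exact h1

end Cfsg.Agent.S3910
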