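import Mathlib
import Cfsg.Statements.S3917
import Cfsg.Agent.Lib.Helper10.SZ

set_option autoImplicit false
open Cfsg

namespace Cfsg.Agent.S3917

/-- A finite abelian group that is not cyclic has more than `n` solutions of `a ^ n = 1` for
some `n`. -/
theorem exists_many_roots {G : Type*} [CommGroup G] [Finite G] (hc : ¬ IsCyclic G) :
    ∃ n : ℕ, 0 < n ∧ n < Nat.card ((powMonoidHom n : G →* G).ker) := by
  classical
  have := Fintype.ofFinite G
  by_contra hcon
  push Not at hcon
  apply hc
  apply isCyclic_of_card_pow_eq_one_le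
  intro n hn
  have h1 := hcon n hn
  have h2 : Nat.card ((powMonoidHom n : G →* G).ker) =
      (Finset.univ.filter (fun a : G => a ^ n = 1)).card :=
    Nat.subtype_card (Finset.univ.filter (fun a : G => a ^ n = 1))
      (fun x => by simp [MonoidHom.mem_ker])
  rw [← h2]
  exact h1

/-- A cyclic group killed by `n` has order at most `n`. -/
theorem card_le_of_cyclic {G : Type*} [Group G] [Finite G] (H : Subgroup G) (hH : IsCyclic H)
    (n : ℕ) (hn : 0 < n) (h : ∀ a ∈ H, a ^ n = 1) : Nat.card H ≤ n := by
  obtain ⟨g, hg⟩ := hH.exists_generator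
  have h1 := orderOf_eq_card_of_forall_mem_zpowers hg
  rw [← h1]
  apply Nat.le_of_dvd hn
  apply orderOf_dvd_of_pow_eq_one
  apply Subtype.ext
  rw [Subgroup.coe_pow]
  exact h g g.2

/-- Say that a group has self-centralizing non-cyclic subgroups when every non-cyclic subgroup H satisfies C_G(H) ≤ H. A finite abelian group with self-centralizing non-cyclic subgroups is cyclic or elementary abelian of order p² for a prime p. -/
theorem result {G : Type*} [CommGroup G] [Finite G] (hX : (∀ H : Subgroup G, ¬ IsCyclic ↥H → Subgroup.centralizer (H : Set G) ≤ H)) :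
    IsCyclic G ∨ ∃ p : ℕ, p.Prime ∧ Nat.card G = p ^ 2 ∧ Monoid.exponent G = p := by
  by_cases hc : IsCyclic G
  · exact Or.inl hc
  right
  -- every non-cyclic subgroup is everything
  have hX' : ∀ H : Subgroup G, ¬ IsCyclic ↥H → ∀ a : G, a ∈ H := by
    intro H hH a
    apply hX H hH
    rw [Subgroup.mem_centralizer_iff]
    intro h _
    exact mul_comm _ _
  have hex := exists_many_roots hc
  classical
  obtain ⟨hn0, hn⟩ := Nat.find_spec hex
  have hmin : ∀ m : ℕ, m < Nat.find hex → 0 < m →
      Nat.card ((powMonoidHom m : G →* G).ker) ≤ m := by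
    intro m hm hm0
    have h1 := Nat.find_min hex hm
    push Not at h1
    exact h1 hm0
  obtain ⟨n, hndef⟩ : ∃ n : ℕ, n = Nat.find hex := ⟨_, rfl⟩
  rw [← hndef] at hn0 hn hmin
  -- all elements satisfy a ^ n = 1
  have hTn : ¬ IsCyclic ((powMonoidHom n : G →* G).ker) := by
    intro hcyc
    have h1 := card_le_of_cyclic _ hcyc n hn0 (fun a ha => by
      have h2 := MonoidHom.mem_ker.mp ha
      rwa [powMonoidHom_apply] at h2)
    omega
  have hall : ∀ a : G, a ^ n = 1 := by
    intro a
    have h1 := hX' _ hTn a
    have h2 := MonoidHom.mem_ker.mp h1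
    rwa [powMonoidHom_apply] at h2
  have hcardn : n < Nat.card G := by
    have h1 : (powMonoidHom n : G →* G).ker = ⊤ := by
      rw [eq_top_iff]
      intro a _
      rw [MonoidHom.mem_ker, powMonoidHom_apply]
      exact hall a
    rw [h1, Subgroup.card_top] at hn
    exact hn
  have hn1 : n ≠ 1 := by
    rintro rfl
    have h1 : Nat.card ((powMonoidHom 1 : G →* G).ker) = 1 := by
      rw [Subgroup.card_eq_one, eq_bot_iff]
      intro a ha
      rw [MonoidHom.mem_ker, powMonoidHom_apply, pow_one] at ha
      exact Subgroup.mem_bot.mpr ha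
    omega
  -- n is prime
  have hprime : n.Prime := by
    by_contra hnp
    have hp : (n.minFac).Prime := Nat.minFac_prime hn1
    have hpd : n.minFac ∣ n := Nat.minFac_dvd n
    obtain ⟨m, hm⟩ := hpd
    have hm0 : 0 < m := by
      rcases Nat.eq_zero_or_pos m with h0 | h0
      · rw [h0, mul_zero] at hm
        omega
      · exact h0
    have hm1 : m ≠ 1 := by
      rintro rfl
      rw [mul_one] at hm
      apply hnp
      rw [hm]
      exact hp
    have hplt : n.minFac < n := by
      have h2 : 2 ≤ m := by omega
      have h3 : 0 < n.minFac := hp.pos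
      nlinarith
    have hmlt : m < n := by
      have h2 : 2 ≤ n.minFac := hp.two_le
      nlinarith
    have hk := hmin n.minFac hplt hp.pos
    have hm' := hmin m hmlt hm0
    have hrange : (powMonoidHom n.minFac : G →* G).range ≤ (powMonoidHom m : G →* G).ker := by
      rintro _ ⟨a, rfl⟩
      rw [MonoidHom.mem_ker, powMonoidHom_apply, powMonoidHom_apply, ← pow_mul, ← hm]
      exact hall a
    have h4 : Nat.card ((powMonoidHom n.minFac : G →* G).range) ≤ m :=
      (Nat.le_of_dvd (Nat.card_pos) (Subgroup.card_dvd_of_le hrange)).trans hm'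
    have h5 := Subgroup.card_mul_index ((powMonoidHom n.minFac : G →* G).ker)
    rw [Subgroup.index_ker] at h5
    have h6 : Nat.card G ≤ n.minFac * m := by
      rw [← h5]
      exact Nat.mul_le_mul hk h4
    rw [← hm] at h6
    omega
  refine ⟨n, hprime, ?_, ?_⟩
  · -- order p²
    have hPG : IsPGroup n G := fun g => ⟨1, by rw [pow_one]; exact hall g⟩
    have : Fact n.Prime := ⟨hprime⟩
    obtain ⟨k, hk⟩ := IsPGroup.iff_card.mp hPG
    have hnt : Nontrivial G := by
      rw [← Finite.one_lt_card_iff_nontrivial]
      have := hprime.one_lt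
      omega
    obtain ⟨x, hx1⟩ := exists_ne (1 : G)
    have hxord : orderOf x = n := by
      have h1 : orderOf x ∣ n := orderOf_dvd_of_pow_eq_one (hall x)
      rcases (Nat.dvd_prime hprime).mp h1 with h2 | h2
      · exact absurd (orderOf_eq_one_iff.mp h2) hx1
      · exact h2
    have hy : ∃ y : G, y ∉ Subgroup.zpowers x := by
      by_contra hcon
      push Not at hcon
      have h1 : Subgroup.zpowers x = ⊤ := by
        rw [eq_top_iff]
        intro a _
        exact hcon a
      have h2 : Nat.card (Subgroup.zpowers x) = Nat.card G := by rw [h1, Subgroup.card_top]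
      rw [Nat.card_zpowers, hxord] at h2
      omega
    obtain ⟨y, hy⟩ := hy
    have hHnc : ¬ IsCyclic (Subgroup.zpowers x ⊔ Subgroup.zpowers y : Subgroup G) := by
      intro hcyc
      have h1 := card_le_of_cyclic _ hcyc n hprime.pos (fun a _ => hall a)
      have h2 : Subgroup.zpowers x = Subgroup.zpowers x ⊔ Subgroup.zpowers y := by
        apply Subgroup.eq_of_le_of_card_ge le_sup_left
        rw [Nat.card_zpowers, hxord]
        exact h1
      apply hy
      rw [h2]
      exact Subgroup.mem_sup_right (Subgroup.mem_zpowers y)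
    have htop : (Subgroup.zpowers x ⊔ Subgroup.zpowers y : Subgroup G) = ⊤ := by
      rw [eq_top_iff]
      intro a _
      exact hX' _ hHnc a
    have hdvd := Cfsg.Agent.Lib.Helper10.SZ.card_sup_dvd' (Subgroup.zpowers x) (Subgroup.zpowers y)
    rw [htop, Subgroup.card_top, Nat.card_zpowers, Nat.card_zpowers, hxord] at hdvd
    have hyord : orderOf y ∣ n := orderOf_dvd_of_pow_eq_one (hall y)
    have hdvd2 : Nat.card G ∣ n ^ 2 := by
      rw [pow_two]
      exact hdvd.trans (Nat.mul_dvd_mul_left n hyord)
    rw [hk] at hdvd2 hcardn ⊢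
    have hk2 : k ≤ 2 := (Nat.pow_dvd_pow_iff_le_right hprime.one_lt).mp hdvd2
    have hk1 : 1 < k := by
      by_contra hle
      push Not at hle
      have h1 : n ^ k ≤ n ^ 1 := Nat.pow_le_pow_right hprime.pos hle
      rw [pow_one] at h1
      omega
    have hk' : k = 2 := by omega
    rw [hk']
  · -- exponent p
    have h1 : Monoid.exponent G ∣ n := Monoid.exponent_dvd_of_forall_pow_eq_one hall
    rcases (Nat.dvd_prime hprime).mp h1 with h2 | h2
    · exfalso
      have hsub : Subsingleton G := Monoid.exp_eq_one_iff.mp h2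
      have h3 : Nat.card G = 1 := Nat.card_unique
      have := hprime.one_lt
      omega
    · exact h2

end Cfsg.Agent.S3917
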