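import Cfsg.Statements.S3919
import Mathlib
import Cfsg.Agent.S0112
import Cfsg.Agent.S0113
import Cfsg.Agent.S0114
import Cfsg.Agent.Lib.Lead.MaxClass2
import Cfsg.Agent.Lib.Helper18.UniqueInvolution

set_option autoImplicit false
open Cfsg

namespace Cfsg.Agent.S3919

theorem zmod_double (k : ℕ) [NeZero k] (i : ZMod (2 * k)) (h : i + i = 0) :
    i = 0 ∨ i = (k : ZMod (2 * k)) := by
  haveI : NeZero (2 * k) := ⟨by have := NeZero.ne k; omega⟩
  have hv : i.val < 2 * k := ZMod.val_lt i
  have h1 : ((i.val + i.val : ℕ) : ZMod (2 * k)) = 0 := by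
    rw [Nat.cast_add, ZMod.natCast_zmod_val, h]
  rw [ZMod.natCast_eq_zero_iff] at h1
  have h2 : k ∣ i.val := by
    obtain ⟨c, hc⟩ := h1
    exact ⟨c, by nlinarith⟩
  obtain ⟨c, hc⟩ := h2
  have hc2 : c < 2 := by
    by_contra hlt
    push Not at hlt
    have : k * 2 ≤ k * c := Nat.mul_le_mul_left k hlt
    omega
  interval_cases c
  · left
    rw [← ZMod.natCast_zmod_val i, hc]; simp
  · right
    rw [← ZMod.natCast_zmod_val i, hc]; simp

/-- The generalized quaternion group has a self-centralizing subgroup of order 4. -/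
theorem quat_self_centralizing (k : ℕ) [NeZero k] :
    ∃ A : Subgroup (QuaternionGroup k), Nat.card A = 4 ∧
      Subgroup.centralizer (A : Set (QuaternionGroup k)) = A := by
  have hsq : (QuaternionGroup.xa (0 : ZMod (2 * k))) ^ 2 = QuaternionGroup.a (k : ZMod (2 * k)) := by
    rw [sq, QuaternionGroup.xa_mul_xa]; simp
  have hkk : (k : ZMod (2 * k)) + k = 0 := by
    have : ((2 * k : ℕ) : ZMod (2 * k)) = 0 := ZMod.natCast_self (2 * k)
    rw [← this]; push_cast; ring
  have hcube : (QuaternionGroup.xa (0 : ZMod (2 * k))) ^ 3 = QuaternionGroup.xa (k : ZMod (2 * k)) := by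
    rw [pow_succ, hsq, QuaternionGroup.a_mul_xa]
    congr 1
    linear_combination -hkk
  refine ⟨Subgroup.zpowers (QuaternionGroup.xa 0), ?_, ?_⟩
  · rw [Nat.card_zpowers, QuaternionGroup.orderOf_xa]
  · apply le_antisymm
    · intro x hx
      have h1 : QuaternionGroup.xa 0 * x = x * QuaternionGroup.xa 0 :=
        Subgroup.mem_centralizer_iff.mp hx _ (Subgroup.mem_zpowers _)
      rcases x with i | i
      · rw [QuaternionGroup.xa_mul_a, QuaternionGroup.a_mul_xa] at h1
        have h2 : (0 : ZMod (2 * k)) + i = 0 - i := by injection h1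
        rcases zmod_double k i (by linear_combination h2) with rfl | rfl
        · exact Subgroup.one_mem _
        · rw [← hsq]; exact Subgroup.pow_mem _ (Subgroup.mem_zpowers _) 2
      · rw [QuaternionGroup.xa_mul_xa, QuaternionGroup.xa_mul_xa] at h1
        have h2 : (k : ZMod (2 * k)) + i - 0 = (k : ZMod (2 * k)) + 0 - i := by injection h1
        rcases zmod_double k i (by linear_combination h2) with rfl | rfl
        · exact Subgroup.mem_zpowers _
        · rw [← hcube]; exact Subgroup.pow_mem _ (Subgroup.mem_zpowers _) 3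
    · intro x hx
      rw [Subgroup.mem_centralizer_iff]
      intro y hy
      obtain ⟨m, rfl⟩ := Subgroup.mem_zpowers_iff.mp hx
      obtain ⟨l, rfl⟩ := Subgroup.mem_zpowers_iff.mp hy
      rw [← zpow_add, ← zpow_add, add_comm]

/-- Two distinct commuting involutions span a self-commuting noncyclic subgroup of order 4. -/
theorem klein_sub {G : Type*} [Group G] (a b : G) (ha : a ≠ 1) (hb : b ≠ 1) (hab : a ≠ b)
    (ha2 : a ^ 2 = 1) (hb2 : b ^ 2 = 1) (hc : a * b = b * a) :
    ∃ A : Subgroup G, Nat.card A = 4 ∧ ¬ IsCyclic A ∧ A ≤ Subgroup.centralizer (A : Set G) := by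
  have haa : a * a = 1 := by rw [← sq]; exact ha2
  have hbb : b * b = 1 := by rw [← sq]; exact hb2
  have hba : b * a = a * b := hc.symm
  have haa' : ∀ x, a * (a * x) = x := fun x => by rw [← mul_assoc, haa, one_mul]
  have hbb' : ∀ x, b * (b * x) = x := fun x => by rw [← mul_assoc, hbb, one_mul]
  have hba' : ∀ x, b * (a * x) = a * (b * x) := fun x => by rw [← mul_assoc, hba, mul_assoc]
  have hainv : a⁻¹ = a := inv_eq_of_mul_eq_one_left haa
  have hbinv : b⁻¹ = b := inv_eq_of_mul_eq_one_left hbb
  let A : Subgroup G :=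
    { carrier := {1, a, b, a * b}
      mul_mem' := by
        rintro x y (rfl | rfl | rfl | rfl) (rfl | rfl | rfl | rfl) <;>
          simp [mul_assoc, haa, hbb, hba, haa', hbb', hba']
      one_mem' := by simp
      inv_mem' := by
        rintro x (rfl | rfl | rfl | rfl) <;> simp [hainv, hbinv, hba] }
  have hmem : ∀ x, x ∈ A ↔ (x = 1 ∨ x = a ∨ x = b ∨ x = a * b) := fun x => Iff.rfl
  have h1a : (1 : G) ≠ a := fun h => ha h.symm
  have h1b : (1 : G) ≠ b := fun h => hb h.symm
  have h1ab : (1 : G) ≠ a * b := by
    intro h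
    have : a * (a * b) = a * 1 := by rw [← h]
    rw [haa', mul_one] at this
    exact hab this.symm
  have haab : a ≠ a * b := by
    intro h
    have : a * a = a * (a * b) := congrArg (a * ·) h
    rw [haa, haa'] at this
    exact hb this.symm
  have hbab : b ≠ a * b := by
    intro h
    have : b * b = b * (a * b) := congrArg (b * ·) h
    rw [hbb, hba', hbb, mul_one] at this
    exact ha this.symm
  have hsq : ∀ x ∈ A, x ^ 2 = 1 := by
    rintro x (rfl | rfl | rfl | rfl) <;>
      simp [sq, mul_assoc, haa, hbb, hba, haa', hbb', hba']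
  have hcard : Nat.card ↥A = 4 := by
    have h : Nat.card ↥A = Set.ncard ({1, a, b, a * b} : Set G) := Nat.card_coe_set_eq _
    rw [h, Set.ncard_insert_of_notMem (by simp [h1a, h1b, h1ab]),
      Set.ncard_insert_of_notMem (by simp [hab, haab]), Set.ncard_pair hbab]
  refine ⟨A, hcard, ?_, ?_⟩
  · intro hcyc
    obtain ⟨g, hg⟩ := IsCyclic.exists_ofOrder_eq_natCard (α := ↥A)
    rw [hcard] at hg
    have h2 : g ^ 2 = 1 := Subtype.ext (hsq g.1 g.2)
    have := orderOf_dvd_of_pow_eq_one h2
    rw [hg] at this
    omega
  · intro x hx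
    rw [Subgroup.mem_centralizer_iff]
    intro y hy
    rcases hx with rfl | rfl | rfl | rfl <;> rcases hy with rfl | rfl | rfl | rfl <;>
      simp [mul_assoc, haa, hbb, hba, haa', hbb', hba']

/-- Say that a group has self-centralizing non-cyclic subgroups when every non-cyclic subgroup H satisfies C_G(H) ≤ H. A finite non-abelian 2-group G of order 2^n has self-centralizing non-cyclic subgroups if and only if G has nilpotency class n − 1 (that is, G is dihedral, semidihedral or generalized quaternion). -/
theorem result {G : Type*} [Group G] [Finite G] (hna : ¬ IsMulCommutative G) (n : ℕ) (hG : Nat.card G = 2 ^ n) :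
    (∀ H : Subgroup G, ¬ IsCyclic ↥H → Subgroup.centralizer (H : Set G) ≤ H) ↔ (⊤ : Subgroup G).lowerCentralSeries (n - 2) ≠ ⊥ := by
  classical
  haveI : Fact (Nat.Prime 2) := ⟨Nat.prime_two⟩
  have hP : IsPGroup 2 G := IsPGroup.of_card hG
  haveI : Group.IsNilpotent G := hP.isNilpotent
  have hn3 : 3 ≤ n := by
    by_contra hlt
    push Not at hlt
    apply hna
    interval_cases n
    · have : Subsingleton G := by
        rw [← Finite.card_le_one_iff_subsingleton] ; omega
      exact ⟨⟨fun a b => Subsingleton.elim _ _⟩⟩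
    · haveI : IsCyclic G := isCyclic_of_prime_card (p := 2) (by simpa using hG)
      exact ⟨⟨fun a b => IsCyclic.commGroup.mul_comm a b⟩⟩
    · exact IsPGroup.isMulCommutative_of_card_eq_prime_sq (p := 2) hG
  have hcl : Group.nilpotencyClass G ≤ n - 1 :=
    Cfsg.Agent.Lib.Lead.MaxClass2.class_le n G (by omega) hG
  have hconv : (⊤ : Subgroup G).lowerCentralSeries (n - 2) ≠ ⊥ ↔ Group.nilpotencyClass G = n - 1 := by
    rw [Ne, Subgroup.lowerCentralSeries_eq_bot_iff_nilpotencyClass_le]
    omega
  rw [hconv]
  constructor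
  · intro hyp
    -- a self-centralizing subgroup of order 4
    suffices h : ∃ A : Subgroup G, Nat.card A = 2 ^ 2 ∧ Subgroup.centralizer (A : Set G) = A by
      obtain ⟨A, hA, hC⟩ := h
      exact Cfsg.Agent.S0112.result n hG A hA hC
    by_cases hV : ∃ a b : G, a ≠ 1 ∧ b ≠ 1 ∧ a ≠ b ∧ a ^ 2 = 1 ∧ b ^ 2 = 1 ∧ a * b = b * a
    · obtain ⟨a, b, ha, hb, hab, ha2, hb2, hc⟩ := hV
      obtain ⟨A, hA, hnc, hcomm⟩ := klein_sub a b ha hb hab ha2 hb2 hc
      exact ⟨A, by rw [hA]; norm_num, le_antisymm (hyp A hnc) hcomm⟩
    · -- unique involution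
      push Not at hV
      haveI : Nontrivial G := by
        by_contra hnt
        rw [not_nontrivial_iff_subsingleton] at hnt
        exact hna ⟨⟨fun a b => Subsingleton.elim _ _⟩⟩
      haveI := hP.center_nontrivial
      obtain ⟨z, hzc, hz2, hz1⟩ : ∃ z : G, z ∈ Subgroup.center G ∧ z ^ 2 = 1 ∧ z ≠ 1 := by
        obtain ⟨k, hk⟩ := IsPGroup.iff_card.mp (hP.to_subgroup (Subgroup.center G))
        have hk0 : k ≠ 0 := by
          rintro rfl
          rw [pow_zero] at hk
          have := Finite.one_lt_card (α := ↥(Subgroup.center G))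
          omega
        have hdvd : 2 ∣ Nat.card ↥(Subgroup.center G) := by rw [hk]; exact dvd_pow_self 2 hk0
        obtain ⟨x, hx⟩ := exists_prime_orderOf_dvd_card' 2 hdvd
        refine ⟨(x : G), x.2, ?_, ?_⟩
        · have : x ^ 2 = 1 := by rw [← hx]; exact pow_orderOf_eq_one x
          exact congrArg Subtype.val this
        · intro h1
          have : x = 1 := Subtype.ext h1
          rw [this, orderOf_one] at hx
          omega
      have huniq : ∀ g : G, g ^ 2 = 1 → g = 1 ∨ g = z := by
        intro g hg
        by_contra hcon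
        push Not at hcon
        exact hV z g hz1 hcon.1 (fun h => hcon.2 h.symm) hz2 hg
          ((Subgroup.mem_center_iff.mp hzc g).symm) |> fun h => h
      have hE : Set.ncard {g : G | g ^ 2 = 1} ≤ 2 := by
        have hsub : {g : G | g ^ 2 = 1} ⊆ ({1, z} : Set G) := by
          intro g hg
          rcases huniq g hg with rfl | rfl
          · simp
          · simp
        calc Set.ncard {g : G | g ^ 2 = 1} ≤ Set.ncard ({1, z} : Set G) :=
              Set.ncard_le_ncard hsub (Set.toFinite _)
          _ ≤ 2 := (Set.ncard_insert_le 1 {z}).trans (by rw [Set.ncard_singleton])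
      rcases Cfsg.Agent.Lib.Helper18.UniqueInvolution.cyclic_or_quaternion hP hE with hcyc | ⟨m, ⟨e⟩⟩
      · exfalso
        exact hna ⟨⟨fun a b => IsCyclic.commGroup.mul_comm a b⟩⟩
      · haveI : NeZero (2 ^ m) := ⟨by positivity⟩
        obtain ⟨A₀, hA₀, hC₀⟩ := quat_self_centralizing (2 ^ m)
        refine ⟨A₀.comap e.toMonoidHom, ?_, ?_⟩
        · have h1 : Nat.card ↥(A₀.comap e.toMonoidHom) = Nat.card ↥A₀ := by
            apply Nat.card_congr
            exact
              { toFun := fun x => ⟨e x.1, x.2⟩
                invFun := fun y => ⟨e.symm y.1, by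
                  show e (e.symm y.1) ∈ A₀
                  rw [MulEquiv.apply_symm_apply]; exact y.2⟩
                left_inv := fun x => Subtype.ext (e.symm_apply_apply x.1)
                right_inv := fun y => Subtype.ext (e.apply_symm_apply y.1) }
          rw [h1, hA₀]; norm_num
        · apply le_antisymm
          · intro x hx
            show e x ∈ A₀
            rw [← hC₀, Subgroup.mem_centralizer_iff]
            intro h hh
            have h2 : e.symm h ∈ A₀.comap e.toMonoidHom := by
              show e (e.symm h) ∈ A₀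
              rw [MulEquiv.apply_symm_apply]; exact hh
            have h3 := Subgroup.mem_centralizer_iff.mp hx _ h2
            have h4 := congrArg e h3
            rw [map_mul, map_mul, MulEquiv.apply_symm_apply] at h4
            exact h4
          · intro x hx
            rw [Subgroup.mem_centralizer_iff]
            intro g hg
            have hx' : e x ∈ Subgroup.centralizer (A₀ : Set (QuaternionGroup (2 ^ m))) := by
              rw [hC₀]; exact hx
            have h3 := Subgroup.mem_centralizer_iff.mp hx' (e g) hg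
            apply e.injective
            rw [map_mul, map_mul]
            exact h3
  · intro hc
    obtain ⟨C, hCc, hCi⟩ := Cfsg.Agent.S0113.result n hn3 hG hc
    obtain ⟨e⟩ := Cfsg.Agent.S0114.result n hn3 hG hc
    have hZ2 : Nat.card ↥(Subgroup.center G) = 2 := by
      have h1 : Nat.card (G ⧸ Subgroup.center G) = 2 * 2 ^ (n - 2) := by
        rw [Nat.card_congr e.toEquiv, DihedralGroup.nat_card]
      have h2 := Subgroup.card_eq_card_quotient_mul_card_subgroup (Subgroup.center G)
      rw [hG, h1] at h2
      have h3 : 2 ^ n = 2 * 2 ^ (n - 2) * 2 := by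
        have : n = (n - 2) + 2 := by omega
        conv_lhs => rw [this]
        ring
      have hpos : 0 < 2 * 2 ^ (n - 2) := by positivity
      exact Nat.eq_of_mul_eq_mul_left hpos (h2.symm.trans h3)
    haveI hCcyc : IsCyclic ↥C := hCc
    have hCcomm : ∀ x ∈ C, ∀ y ∈ C, x * y = y * x := by
      intro x hx y hy
      have := (IsCyclic.commGroup (α := ↥C)).mul_comm ⟨x, hx⟩ ⟨y, hy⟩
      exact congrArg Subtype.val this
    have hidx : ∀ {a b : G}, a * b ∈ C ↔ (a ∈ C ↔ b ∈ C) :=
      fun {a b} => Subgroup.mul_mem_iff_of_index_two hCi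
    have hcent : ∀ y, y ∉ C → ∀ c ∈ C, c * y = y * c → c ∈ Subgroup.center G := by
      intro y hy c hcC hcy
      rw [Subgroup.mem_center_iff]
      intro g
      by_cases hg : g ∈ C
      · exact hCcomm g hg c hcC
      · have hgy : g * y ∈ C := hidx.mpr (iff_of_false hg hy)
        have h1 : (g * y) * c = c * (g * y) := hCcomm _ hgy c hcC
        have h2 : y⁻¹ * c = c * y⁻¹ := by
          have : c = y * c * y⁻¹ := by rw [← hcy]; group
          calc y⁻¹ * c = y⁻¹ * (y * c * y⁻¹) := by rw [← this]
            _ = c * y⁻¹ := by group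
        calc g * c = (g * y) * (y⁻¹ * c) := by group
          _ = (g * y) * (c * y⁻¹) := by rw [h2]
          _ = ((g * y) * c) * y⁻¹ := by group
          _ = (c * (g * y)) * y⁻¹ := by rw [h1]
          _ = c * g := by group
    have hZC : Subgroup.center G ≤ C := by
      intro z hz
      by_contra hzC
      apply hna
      refine ⟨⟨fun a b => ?_⟩⟩
      have hdec : ∀ g : G, ∃ c ∈ C, g = c ∨ g = c * z := by
        intro g
        by_cases hg : g ∈ C
        · exact ⟨g, hg, Or.inl rfl⟩
        · exact ⟨g * z⁻¹, hidx.mpr (iff_of_false hg (fun h => hzC ((Subgroup.inv_mem_iff C).mp h))),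
            Or.inr (by group)⟩
      have hzcomm : ∀ g : G, g * z = z * g := Subgroup.mem_center_iff.mp hz
      obtain ⟨c₁, h1, ha⟩ := hdec a
      obtain ⟨c₂, h2, hb⟩ := hdec b
      have hcc := hCcomm c₁ h1 c₂ h2
      rcases ha with ha | ha <;> rcases hb with hb | hb <;> rw [ha, hb]
      · exact hcc
      · calc c₁ * (c₂ * z) = (c₁ * c₂) * z := by group
          _ = (c₂ * c₁) * z := by rw [hcc]
          _ = c₂ * (c₁ * z) := by group
          _ = c₂ * (z * c₁) := by rw [hzcomm c₁]
          _ = c₂ * z * c₁ := by group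
      · calc c₁ * z * c₂ = c₁ * (z * c₂) := by group
          _ = c₁ * (c₂ * z) := by rw [hzcomm c₂]
          _ = (c₁ * c₂) * z := by group
          _ = (c₂ * c₁) * z := by rw [hcc]
          _ = c₂ * (c₁ * z) := by group
      · calc c₁ * z * (c₂ * z) = c₁ * (z * c₂) * z := by group
          _ = c₁ * (c₂ * z) * z := by rw [hzcomm c₂]
          _ = (c₁ * c₂) * z * z := by group
          _ = (c₂ * c₁) * z * z := by rw [hcc]
          _ = c₂ * (c₁ * z) * z := by group
          _ = c₂ * (z * c₁) * z := by rw [hzcomm c₁]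
          _ = c₂ * z * (c₁ * z) := by group
    intro H hH g hg
    obtain ⟨y, hyH, hyC⟩ : ∃ y ∈ H, y ∉ C := by
      by_contra hcon
      push Not at hcon
      have hle : H ≤ C := fun x hx => hcon x hx
      apply hH
      have : IsCyclic ↥(H.subgroupOf C) := inferInstance
      exact isCyclic_of_surjective (Subgroup.subgroupOfEquivOfLe hle).toMonoidHom
        (Subgroup.subgroupOfEquivOfLe hle).surjective
    have hZH : Subgroup.center G ≤ H := by
      obtain ⟨c, hcH, hcC, hc1⟩ : ∃ c, c ∈ H ∧ c ∈ C ∧ c ≠ 1 := by
        by_contra hcon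
        push Not at hcon
        apply hH
        have hy2 : y * y = 1 :=
          hcon (y * y) (H.mul_mem hyH hyH) (hidx.mpr (iff_of_false hyC hyC))
        have hall : ∀ h ∈ H, h = 1 ∨ h = y := by
          intro h hh
          by_cases hhC : h ∈ C
          · left; exact hcon h hh hhC
          · right
            have : h * y = 1 :=
              hcon (h * y) (H.mul_mem hh hyH) (hidx.mpr (iff_of_false hhC hyC))
            calc h = h * (y * y) := by rw [hy2, mul_one]
              _ = (h * y) * y := by group
              _ = y := by rw [this, one_mul]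
        refine ⟨⟨⟨y, hyH⟩, fun h => ?_⟩⟩
        rcases hall h.1 h.2 with h1 | h1
        · exact ⟨0, Subtype.ext (by simpa using h1.symm)⟩
        · exact ⟨1, Subtype.ext (by simpa using h1.symm)⟩
      obtain ⟨t, htH, htC, ht2, ht1⟩ : ∃ t, t ∈ H ∧ t ∈ C ∧ t ^ 2 = 1 ∧ t ≠ 1 := by
        have hcp : IsPGroup 2 ↥(Subgroup.zpowers c) := hP.to_subgroup _
        obtain ⟨k, hk⟩ := IsPGroup.iff_card.mp hcp
        have hk0 : k ≠ 0 := by
          rintro rfl
          rw [pow_zero, Nat.card_zpowers, orderOf_eq_one_iff] at hk
          exact hc1 hk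
        have hdvd : 2 ∣ Nat.card ↥(Subgroup.zpowers c) := by rw [hk]; exact dvd_pow_self 2 hk0
        obtain ⟨x, hx⟩ := exists_prime_orderOf_dvd_card' 2 hdvd
        have hxz : (x : G) ∈ Subgroup.zpowers c := x.2
        refine ⟨(x : G), (Subgroup.zpowers_le.mpr hcH) hxz, (Subgroup.zpowers_le.mpr hcC) hxz, ?_, ?_⟩
        · have : x ^ 2 = 1 := by rw [← hx]; exact pow_orderOf_eq_one x
          exact congrArg Subtype.val this
        · intro h1
          have : x = 1 := Subtype.ext h1
          rw [this, orderOf_one] at hx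
          omega
      intro z hz
      by_cases hz1 : z = 1
      · rw [hz1]; exact H.one_mem
      · have hzC : z ∈ C := hZC hz
        have hz2 : z ^ 2 = 1 := by
          have : (⟨z, hz⟩ : ↥(Subgroup.center G)) ^ 2 = 1 := by
            rw [← hZ2]; exact pow_card_eq_one'
          exact congrArg Subtype.val this
        have hzt : z = t := by
          by_contra hne
          haveI : Fintype ↥C := Fintype.ofFinite _
          have hle := IsCyclic.card_pow_eq_one_le (α := ↥C) (n := 2) (by norm_num)
          have h3 : ({1, ⟨z, hzC⟩, ⟨t, htC⟩} : Finset ↥C) ⊆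
              Finset.univ.filter (fun a : ↥C => a ^ 2 = 1) := by
            intro x hx
            simp only [Finset.mem_insert, Finset.mem_singleton] at hx
            rw [Finset.mem_filter]
            refine ⟨Finset.mem_univ _, ?_⟩
            rcases hx with rfl | rfl | rfl
            · exact one_pow 2
            · exact Subtype.ext hz2
            · exact Subtype.ext ht2
          have h4 : ({1, ⟨z, hzC⟩, ⟨t, htC⟩} : Finset ↥C).card = 3 := by
            rw [Finset.card_insert_of_notMem, Finset.card_insert_of_notMem, Finset.card_singleton]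
            · simp only [Finset.mem_singleton]
              intro h; exact hne (congrArg Subtype.val h)
            · simp only [Finset.mem_insert, Finset.mem_singleton]
              rintro (h | h)
              · exact hz1 (congrArg Subtype.val h).symm
              · exact ht1 (congrArg Subtype.val h).symm
          have := Finset.card_le_card h3
          omega
        rw [hzt]; exact htH
    have hgy : g * y = y * g := (Subgroup.mem_centralizer_iff.mp hg y hyH).symm
    by_cases hgC : g ∈ C
    · exact hZH (hcent y hyC g hgC hgy)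
    · have hgyC : g * y ∈ C := hidx.mpr (iff_of_false hgC hyC)
      have h1 : (g * y) * y = y * (g * y) := by rw [← mul_assoc y g y, ← hgy]
      have h2 := hZH (hcent y hyC (g * y) hgyC h1)
      have : g = (g * y) * y⁻¹ := by group
      rw [this]; exact H.mul_mem h2 (H.inv_mem hyH)

end Cfsg.Agent.S3919
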