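import Mathlib
import Cfsg.Statements.S3920

set_option autoImplicit false
open Cfsg

namespace Cfsg.Agent.S3920

open DihedralGroup

/-- Arithmetic core: when `n` is odd or a power of `2`, a residue `x` with `n ∣ 2x` is a multiple
of every non-zero residue `y` modulo `n`. -/
theorem nat_aux (n : ℕ) (hn : Odd n ∨ ∃ k : ℕ, n = 2 ^ k) (x y : ℕ) (hx : x < n)
    (hxn : n ∣ 2 * x) (hy : y < n) (hy0 : y ≠ 0) : ∃ m : ℕ, x ≡ y * m [MOD n] := by
  rcases hn with hodd | ⟨k, rfl⟩
  · refine ⟨0, ?_⟩
    have h2 : n ∣ x := Nat.Coprime.dvd_of_dvd_mul_left hodd.coprime_two_right hxn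
    have h3 : x = 0 := Nat.eq_zero_of_dvd_of_lt h2 hx
    rw [h3, mul_zero]
  · by_cases hx0 : x = 0
    · exact ⟨0, by rw [hx0, mul_zero]⟩
    have hk : k ≠ 0 := by
      rintro rfl
      rw [pow_zero] at hx
      omega
    obtain ⟨k', rfl⟩ : ∃ k', k = k' + 1 := ⟨k - 1, by omega⟩
    have hxval : x = 2 ^ k' := by
      have h1 : 2 ^ k' ∣ x := by
        rw [pow_succ, mul_comm (2 ^ k') 2] at hxn
        exact Nat.dvd_of_mul_dvd_mul_left (by norm_num : 0 < 2) hxn
      obtain ⟨q, hq⟩ := h1
      have hq1 : q = 1 := by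
        rw [hq, pow_succ] at hx
        have hq0 : q ≠ 0 := by
          rintro rfl
          rw [mul_zero] at hq
          exact hx0 hq
        have h4 : q < 2 := lt_of_mul_lt_mul_left hx (Nat.zero_le _)
        omega
      rw [hq, hq1, mul_one]
    obtain ⟨b, u, hu, hbu⟩ := Nat.exists_eq_two_pow_mul_odd hy0
    have hb : b ≤ k' := by
      by_contra hlt
      push Not at hlt
      have h2 : 2 ^ (k' + 1) ≤ 2 ^ b := Nat.pow_le_pow_right (by norm_num) hlt
      have h3 : 2 ^ b ≤ y := by
        rw [hbu]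
        exact Nat.le_mul_of_pos_right _ hu.pos
      omega
    obtain ⟨v, hv⟩ := hu
    refine ⟨2 ^ (k' - b), ?_⟩
    have h1 : y * 2 ^ (k' - b) = 2 ^ (k' + 1) * v + 2 ^ k' := by
      rw [hbu, hv]
      have h2 : 2 ^ k' = 2 ^ b * 2 ^ (k' - b) := by
        rw [← pow_add]
        congr 1
        omega
      rw [pow_succ, h2]
      ring
    rw [h1, hxval]
    show 2 ^ k' % 2 ^ (k' + 1) = (2 ^ (k' + 1) * v + 2 ^ k') % 2 ^ (k' + 1)
    rw [Nat.mul_add_mod]

/-- When `n` is odd or a power of `2`, every `2`-torsion element of `ZMod n` is a multiple of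
every non-zero element. -/
theorem torsion_mul (n : ℕ) [NeZero n] (hn : Odd n ∨ ∃ k : ℕ, n = 2 ^ k) (j t : ZMod n)
    (hj : j ≠ 0) (ht : t + t = 0) : ∃ m : ℕ, t = j * m := by
  have htv : n ∣ 2 * t.val := by
    have h1 : ((2 * t.val : ℕ) : ZMod n) = 0 := by
      push_cast
      rw [ZMod.natCast_zmod_val, two_mul]
      exact ht
    exact (ZMod.natCast_eq_zero_iff _ _).mp h1
  have hjv : j.val ≠ 0 := fun h => hj ((ZMod.val_eq_zero j).mp h)
  obtain ⟨m, hm⟩ := nat_aux n hn t.val j.val (ZMod.val_lt t) htv (ZMod.val_lt j) hjv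
  refine ⟨m, ?_⟩
  rw [← ZMod.natCast_eq_natCast_iff, Nat.cast_mul, ZMod.natCast_zmod_val,
    ZMod.natCast_zmod_val] at hm
  exact hm

/-- The rotation index of an element of the dihedral group. -/
def idx {n : ℕ} : DihedralGroup n → ZMod n
  | r i => i
  | sr i => i

/-- Say that a group has self-centralizing non-cyclic subgroups when every non-cyclic subgroup H satisfies C_G(H) ≤ H. For n ≥ 3, the dihedral group of order 2n has self-centralizing non-cyclic subgroups if and only if n is odd or a power of 2. -/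
theorem result (n : ℕ) (hn : 3 ≤ n) : (∀ H : Subgroup (DihedralGroup n), ¬ IsCyclic ↥H → Subgroup.centralizer (H : Set (DihedralGroup n)) ≤ H) ↔ (Odd n ∨ ∃ k : ℕ, n = 2 ^ k) := by
  have hne : NeZero n := ⟨by omega⟩
  constructor
  · intro hX
    by_contra hcon
    push Not at hcon
    obtain ⟨hev, hpow⟩ := hcon
    rw [Nat.not_odd_iff_even] at hev
    obtain ⟨a, m, hm, hnm⟩ := Nat.exists_eq_two_pow_mul_odd (by omega : n ≠ 0)
    have ha : a ≠ 0 := by
      rintro rfl
      rw [pow_zero, one_mul] at hnm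
      rw [hnm] at hev
      exact (Nat.not_even_iff_odd.mpr hm) hev
    have hm1 : m ≠ 1 := by
      rintro rfl
      exact hpow a (by rw [hnm, mul_one])
    obtain ⟨D, hDdef⟩ : ∃ D : ZMod n → Prop, D = fun i => ∃ j : ZMod n, i = ((2 ^ a : ℕ) : ZMod n) * j :=
      ⟨_, rfl⟩
    have hD0 : D 0 := by
      rw [hDdef]
      exact ⟨0, by rw [mul_zero]⟩
    have hDadd : ∀ x y, D x → D y → D (x + y) := by
      rw [hDdef]
      rintro x y ⟨u, rfl⟩ ⟨v, rfl⟩
      exact ⟨u + v, by ring⟩
    have hDneg : ∀ x, D x → D (-x) := by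
      rw [hDdef]
      rintro x ⟨u, rfl⟩
      exact ⟨-u, by ring⟩
    have hDsub : ∀ x y, D x → D y → D (x - y) := by
      intro x y hx hy
      rw [sub_eq_add_neg]
      exact hDadd _ _ hx (hDneg _ hy)
    let K : Subgroup (DihedralGroup n) :=
      { carrier := {g | D (idx g)}
        mul_mem' := by
          rintro (x | x) (y | y) hx hy
          · rw [r_mul_r]
            exact hDadd x y hx hy
          · rw [r_mul_sr]
            exact hDsub y x hy hx
          · rw [sr_mul_r]
            exact hDadd x y hx hy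
          · rw [sr_mul_sr]
            exact hDsub y x hy hx
        one_mem' := hD0
        inv_mem' := by
          rintro (x | x) hx
          · rw [inv_r]
            exact hDneg x hx
          · rw [inv_sr]
            exact hx }
    have hKmem : ∀ g : DihedralGroup n, g ∈ K ↔ D (idx g) := fun g => Iff.rfl
    have hDa : D ((2 ^ a : ℕ) : ZMod n) := by
      rw [hDdef]
      exact ⟨1, by rw [mul_one]⟩
    have hKnc : ¬ IsCyclic K := by
      intro hc
      have hcomm : IsMulCommutative K := inferInstance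
      have h1 : (⟨r ((2 ^ a : ℕ) : ZMod n), hDa⟩ : K) * ⟨sr 0, hD0⟩ =
          ⟨sr 0, hD0⟩ * ⟨r ((2 ^ a : ℕ) : ZMod n), hDa⟩ := hcomm.is_comm.comm _ _
      have h2 : r ((2 ^ a : ℕ) : ZMod n) * sr 0 = sr 0 * r ((2 ^ a : ℕ) : ZMod n) :=
        congrArg Subtype.val h1
      rw [r_mul_sr, sr_mul_r] at h2
      have h3 := sr.inj h2
      have h4 : ((2 ^ (a + 1) : ℕ) : ZMod n) = 0 := by
        rw [pow_succ, Nat.cast_mul]
        push_cast at h3 ⊢
        linear_combination -h3
      rw [ZMod.natCast_eq_zero_iff] at h4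
      have h5 : m ∣ 2 ^ (a + 1) := Dvd.dvd.trans ⟨2 ^ a, by rw [hnm]; ring⟩ h4
      have h6 : m = 1 :=
        Nat.Coprime.eq_one_of_dvd (Nat.Coprime.pow_right _ hm.coprime_two_right) h5
      exact hm1 h6
    have hhalf : ((n / 2 : ℕ) : ZMod n) + ((n / 2 : ℕ) : ZMod n) = 0 := by
      rw [← Nat.cast_add, ← two_mul, Nat.mul_div_cancel' hev.two_dvd, ZMod.natCast_self]
    have hcC : r ((n / 2 : ℕ) : ZMod n) ∈ Subgroup.centralizer (K : Set (DihedralGroup n)) := by
      rw [Subgroup.mem_centralizer_iff]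
      rintro (x | x) _
      · rw [r_mul_r, r_mul_r, add_comm]
      · rw [sr_mul_r, r_mul_sr]
        congr 1
        linear_combination hhalf
    have hcK : r ((n / 2 : ℕ) : ZMod n) ∉ K := by
      intro hmem
      rw [hKmem, hDdef] at hmem
      obtain ⟨u, hu⟩ := hmem
      have hu' : ((n / 2 : ℕ) : ZMod n) = ((2 ^ a : ℕ) : ZMod n) * u := hu
      have h1 : ((n / 2 : ℕ) : ZMod n) = ((2 ^ a * u.val : ℕ) : ZMod n) := by
        rw [hu', Nat.cast_mul, ZMod.natCast_zmod_val]
      rw [ZMod.natCast_eq_natCast_iff] at h1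
      have h2 : n / 2 ≡ 2 ^ a * u.val [MOD 2 ^ a] := h1.of_dvd ⟨m, hnm⟩
      have h3 : 2 ^ a ∣ n / 2 := by
        have h4 : 2 ^ a * u.val ≡ 0 [MOD 2 ^ a] :=
          (Nat.modEq_zero_iff_dvd).mpr (dvd_mul_right _ _)
        exact (Nat.modEq_zero_iff_dvd).mp (h2.trans h4)
      obtain ⟨a', rfl⟩ : ∃ a', a = a' + 1 := ⟨a - 1, by omega⟩
      have h4 : n / 2 = 2 ^ a' * m := by
        rw [hnm, pow_succ]
        have h5 : 2 ^ a' * 2 * m = 2 ^ a' * m * 2 := by ring
        rw [h5, Nat.mul_div_cancel _ (by norm_num : 0 < 2)]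
      rw [h4, pow_succ] at h3
      have h5 : 2 ∣ m := Nat.dvd_of_mul_dvd_mul_left (pow_pos (by norm_num) a') h3
      exact (Nat.not_even_iff_odd.mpr hm) (even_iff_two_dvd.mpr h5)
    exact hcK (hX K hKnc hcC)
  · intro hn' H hH c hc
    have hA : ∃ i, sr i ∈ H := by
      by_contra hcon
      push Not at hcon
      apply hH
      have hle : H ≤ Subgroup.zpowers (r 1 : DihedralGroup n) := by
        intro g hg
        cases g with
        | r t =>
          rw [Subgroup.mem_zpowers_iff]
          exact ⟨(t.val : ℤ), by rw [zpow_natCast, r_one_pow, ZMod.natCast_zmod_val]⟩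
        | sr t => exact absurd hg (hcon t)
      exact Subgroup.isCyclic_of_le hle
    obtain ⟨i, hi⟩ := hA
    have hB : ∃ j, j ≠ 0 ∧ r j ∈ H := by
      by_contra hcon
      push Not at hcon
      apply hH
      have hle : H ≤ Subgroup.zpowers (sr i : DihedralGroup n) := by
        intro g hg
        cases g with
        | r t =>
          by_cases ht : t = 0
          · rw [ht, r_zero]
            exact Subgroup.one_mem _
          · exact absurd hg (hcon t ht)
        | sr t =>
          have h1 : r (t - i) ∈ H := by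
            rw [← sr_mul_sr]
            exact H.mul_mem hi hg
          have h2 : t - i = 0 := by
            by_contra h
            exact hcon _ h h1
          have h3 : t = i := sub_eq_zero.mp h2
          rw [h3]
          exact Subgroup.mem_zpowers _
      exact Subgroup.isCyclic_of_le hle
    obtain ⟨j, hj0, hj⟩ := hB
    have hci : sr i * c = c * sr i := Subgroup.mem_centralizer_iff.mp hc _ hi
    have hcj : r j * c = c * r j := Subgroup.mem_centralizer_iff.mp hc _ hj
    cases c with
    | r t =>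
      rw [sr_mul_r, r_mul_sr] at hci
      have ht : t + t = 0 := by
        have h1 := sr.inj hci
        linear_combination h1
      obtain ⟨m, hm⟩ := torsion_mul n hn' j t hj0 ht
      rw [hm, ← r_pow]
      exact H.pow_mem hj m
    | sr t =>
      rw [r_mul_sr, sr_mul_r] at hcj
      rw [sr_mul_sr, sr_mul_sr] at hci
      have hti : (t - i) + (t - i) = 0 := by
        have h1 := r.inj hci
        linear_combination h1
      obtain ⟨m, hm⟩ := torsion_mul n hn' j (t - i) hj0 hti
      have h2 : sr t = sr i * (r j) ^ m := by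
        rw [r_pow, sr_mul_r, ← hm]
        congr 1
        ring
      rw [h2]
      exact H.mul_mem hi (H.pow_mem hj m)

end Cfsg.Agent.S3920
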