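import Cfsg.Statements.S3927
import Cfsg.Agent.Lib.Helper17.Flavell2

set_option autoImplicit false
open Cfsg

namespace Cfsg.Agent.S3927

open Cfsg.Agent.Lib.Helper17.Flavell2

/-- Let G be a finite group and α an automorphism of G with [G, α] = G, that is, the elements g·α(g)⁻¹ generate G. Then for every k ≥ 1 the iterated commutators [g, α, …, α] with k entries α — the values of the k-th iterate of the map c ↦ c·α(c)⁻¹ — also generate G. -/
theorem result {G : Type*} [Group G] [Finite G] (α : MulAut G) (hG : Subgroup.closure (Set.range (fun c : G => c * (α c)⁻¹)) = ⊤) (k : ℕ) (hk : 1 ≤ k) :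
    Subgroup.closure (Set.range ((fun c : G => c * (α c)⁻¹)^[k])) = ⊤ := by
  obtain ⟨ψ, hψ⟩ : ∃ ψ : G → G, ψ = fun c : G => c * (α c)⁻¹ := ⟨_, rfl⟩
  rw [← hψ] at hG ⊢
  have hψa : ∀ c, ψ c = c * (α c)⁻¹ := by
    intro c
    rw [hψ]
  obtain ⟨Z, hZ⟩ : ∃ Z : Subgroup (MulAut G), Z = Subgroup.zpowers α := ⟨_, rfl⟩
  have hαZ : α ∈ Z := by
    rw [hZ]
    exact Subgroup.mem_zpowers α
  have hcomm : ∀ b : Z, (b : MulAut G) * α = α * (b : MulAut G) := by
    intro b
    have hb : (b : MulAut G) ∈ Subgroup.zpowers α := hZ.le b.2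
    obtain ⟨n, hn⟩ := Subgroup.mem_zpowers_iff.1 hb
    rw [← hn]
    exact ((Commute.refl α).zpow_left n).eq
  have hcomm' : ∀ (b : Z) (c : G), (b : MulAut G) (α c) = α ((b : MulAut G) c) := by
    intro b c
    have := congrArg (fun f : MulAut G => f c) (hcomm b)
    simpa [MulAut.mul_apply] using this
  have hbψ : ∀ (b : Z) (c : G), (b : MulAut G) (ψ c) = ψ ((b : MulAut G) c) := by
    intro b c
    rw [hψa, hψa, map_mul, map_inv, hcomm']
  have hbiter : ∀ (j : ℕ) (b : Z) (c : G),
      (b : MulAut G) (ψ^[j] c) = ψ^[j] ((b : MulAut G) c) := by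
    intro j
    induction j with
    | zero =>
      intro b c
      rfl
    | succ j ih =>
      intro b c
      rw [Function.iterate_succ_apply', Function.iterate_succ_apply', hbψ, ih]
  obtain ⟨H, hH⟩ : ∃ H : Subgroup G, H = Subgroup.closure (Set.range (ψ^[k])) := ⟨_, rfl⟩
  rw [← hH]
  have hbH : ∀ (b : Z) (x : G), x ∈ H → (b : MulAut G) x ∈ H := by
    intro b x hx
    have h1 : H ≤ H.comap (b : MulAut G).toMonoidHom := by
      rw [hH, Subgroup.closure_le]
      rintro _ ⟨c, rfl⟩
      show (b : MulAut G) (ψ^[k] c) ∈ Subgroup.closure (Set.range (ψ^[k]))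
      rw [hbiter]
      exact Subgroup.subset_closure (Set.mem_range_self _)
    exact h1 hx
  obtain ⟨φ, hφ⟩ : ∃ φ : Z →* MulAut G, φ = Z.subtype := ⟨_, rfl⟩
  have hφa : ∀ b : Z, φ b = (b : MulAut G) := by
    intro b
    rw [hφ]
    rfl
  haveI : Finite (G ⋊[φ] Z) := Finite.of_equiv (G × Z) (SemidirectProduct.equivProd).symm
  obtain ⟨a, ha⟩ : ∃ a : G ⋊[φ] Z, a = SemidirectProduct.inr ⟨α, hαZ⟩ := ⟨_, rfl⟩
  have hainl : ∀ g : G, a * SemidirectProduct.inl g * a⁻¹ = SemidirectProduct.inl (α g) := by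
    intro g
    rw [ha, ← map_inv, ← SemidirectProduct.inl_aut, hφa]
  have hainr : ∀ b : Z, (SemidirectProduct.inr b : G ⋊[φ] Z) * a = a * SemidirectProduct.inr b := by
    intro b
    rw [ha, ← map_mul, ← map_mul]
    congr 1
    exact Subtype.ext (hcomm b)
  have hcminl : ∀ g : G, cm a (SemidirectProduct.inl g) = SemidirectProduct.inl (ψ g) := by
    intro g
    rw [hψa, map_mul, map_inv, ← hainl]
    unfold cm
    group
  have hcm0 : ∀ (g : G) (b : Z), cm a (SemidirectProduct.inl g * SemidirectProduct.inr b) =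
      cm a (SemidirectProduct.inl g) := by
    intro g b
    unfold cm
    have h1 : (SemidirectProduct.inr b : G ⋊[φ] Z) * a * (SemidirectProduct.inr b)⁻¹ = a := by
      rw [hainr, mul_inv_cancel_right]
    calc SemidirectProduct.inl g * SemidirectProduct.inr b * a *
          (SemidirectProduct.inl g * SemidirectProduct.inr b)⁻¹ * a⁻¹
        = SemidirectProduct.inl g * ((SemidirectProduct.inr b : G ⋊[φ] Z) * a *
          (SemidirectProduct.inr b)⁻¹) * (SemidirectProduct.inl g)⁻¹ * a⁻¹ := by group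
      _ = _ := by rw [h1]
  have hcm : ∀ γ : G ⋊[φ] Z, cm a γ = SemidirectProduct.inl (ψ γ.left) := by
    intro γ
    rw [← hcminl, ← hcm0 γ.left γ.right, SemidirectProduct.inl_left_mul_inr_right]
  have hiterinl : ∀ (j : ℕ) (g : G),
      (cm a)^[j] (SemidirectProduct.inl g) = SemidirectProduct.inl (ψ^[j] g) := by
    intro j
    induction j with
    | zero =>
      intro g
      rfl
    | succ j ih =>
      intro g
      rw [Function.iterate_succ_apply', Function.iterate_succ_apply', ih, hcminl]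
  have hiter : ∀ γ : G ⋊[φ] Z, (cm a)^[k] γ = SemidirectProduct.inl (ψ^[k] γ.left) := by
    intro γ
    obtain ⟨j, rfl⟩ : ∃ j, k = j + 1 := ⟨k - 1, by omega⟩
    rw [Function.iterate_succ_apply, Function.iterate_succ_apply, hcm, hiterinl]
  have hnc : Subgroup.normalClosure
      ((Subgroup.zpowers a : Subgroup (G ⋊[φ] Z)) : Set (G ⋊[φ] Z)) = ⊤ := by
    obtain ⟨N, hN⟩ : ∃ N : Subgroup (G ⋊[φ] Z), N = Subgroup.normalClosure
        ((Subgroup.zpowers a : Subgroup (G ⋊[φ] Z)) : Set (G ⋊[φ] Z)) := ⟨_, rfl⟩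
    rw [← hN]
    haveI : N.Normal := by
      rw [hN]
      exact Subgroup.normalClosure_normal
    have haN : a ∈ N := by
      rw [hN]
      exact Subgroup.subset_normalClosure (Subgroup.mem_zpowers a)
    have h1 : ∀ g : G, (SemidirectProduct.inl g : G ⋊[φ] Z) ∈ N := by
      have h2 : Subgroup.closure (Set.range ψ) ≤ N.comap SemidirectProduct.inl := by
        rw [Subgroup.closure_le]
        rintro _ ⟨c, rfl⟩
        show (SemidirectProduct.inl (ψ c) : G ⋊[φ] Z) ∈ N
        rw [← hcminl]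
        unfold cm
        exact N.mul_mem (Subgroup.Normal.conj_mem inferInstance a haN _) (N.inv_mem haN)
      rw [hG] at h2
      intro g
      exact h2 (Subgroup.mem_top g)
    have h3 : ∀ b : Z, (SemidirectProduct.inr b : G ⋊[φ] Z) ∈ N := by
      intro b
      have hb : (b : MulAut G) ∈ Subgroup.zpowers α := hZ.le b.2
      obtain ⟨n, hn⟩ := Subgroup.mem_zpowers_iff.1 hb
      have e : (SemidirectProduct.inr b : G ⋊[φ] Z) = a ^ n := by
        rw [ha, ← map_zpow]
        congr 1
        exact Subtype.ext (by rw [Subgroup.coe_zpow]; exact hn.symm)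
      rw [e]
      exact N.zpow_mem haN n
    rw [eq_top_iff]
    intro γ _
    rw [← SemidirectProduct.inl_left_mul_inr_right γ]
    exact N.mul_mem (h1 _) (h3 _)
  obtain ⟨K, hK⟩ : ∃ K : Subgroup (G ⋊[φ] Z), ∀ γ, γ ∈ K ↔ γ.left ∈ H := by
    refine ⟨{ carrier := {γ | γ.left ∈ H}, mul_mem' := ?_, one_mem' := ?_, inv_mem' := ?_ },
      fun γ => Iff.rfl⟩
    · intro x y hx hy
      show (x * y).left ∈ H
      rw [SemidirectProduct.mul_left, hφa]
      exact H.mul_mem hx (hbH _ _ hy)
    · show (1 : G ⋊[φ] Z).left ∈ H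
      rw [SemidirectProduct.one_left]
      exact H.one_mem
    · intro x hx
      show (x⁻¹).left ∈ H
      rw [SemidirectProduct.inv_left, hφa]
      exact hbH _ _ (H.inv_mem hx)
  have hfin := iter_gen _ (G ⋊[φ] Z) rfl a hnc k
  have hle : Subgroup.closure (insert a (Set.range ((cm a)^[k]))) ≤ K := by
    rw [Subgroup.closure_le]
    rintro x (hx | ⟨γ, rfl⟩)
    · rw [SetLike.mem_coe, hK, hx, ha, SemidirectProduct.left_inr]
      exact H.one_mem
    · rw [SetLike.mem_coe, hK, hiter, SemidirectProduct.left_inl, hH]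
      exact Subgroup.subset_closure (Set.mem_range_self _)
  rw [hfin] at hle
  rw [eq_top_iff]
  intro g _
  have h9 := (hK _).1 (hle (Subgroup.mem_top (SemidirectProduct.inl g)))
  rwa [SemidirectProduct.left_inl] at h9

end Cfsg.Agent.S3927
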