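import Mathlib
import Cfsg.Statements.S3939
import Cfsg.Agent.Lib.Helper10.CN
import Cfsg.Agent.Lib.Helper21.PiTools2
import Cfsg.Agent.Lib.Helper21.BaerSuzuki
import Cfsg.Agent.Lib.Helper21.Engel

set_option autoImplicit false
open Cfsg

namespace Cfsg.Agent.S3939

open Cfsg.Agent.Lib.Helper21.PiTools Cfsg.Agent.Lib.Helper21.Engel

/-- Membership in the hypercenter. -/
theorem mem_hyper {G : Type*} [Group G] (g : G) :
    g ∈ ⨆ n : ℕ, Subgroup.upperCentralSeries G n ↔ ∃ n, g ∈ Subgroup.upperCentralSeries G n :=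
  Subgroup.mem_iSup_of_directed (Subgroup.upperCentralSeries_mono G).directed_le

/-- The upper central series of a subgroup contains the trace of that of the group. -/
theorem ucs_inf {G : Type*} [Group G] (K : Subgroup G) (n : ℕ) :
    ∀ y : K, (y : G) ∈ Subgroup.upperCentralSeries G n → y ∈ Subgroup.upperCentralSeries K n := by
  induction n with
  | zero =>
    intro y hy
    rw [Subgroup.upperCentralSeries_zero, Subgroup.mem_bot] at hy ⊢
    exact Subtype.ext hy
  | succ n ih =>
    intro y hy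
    rw [Subgroup.mem_upperCentralSeries_succ_iff] at hy ⊢
    intro k
    apply ih
    exact hy k

/-- Elements of the hypercenter generate nilpotent subgroups with any other element. -/
theorem nil_of_mem {G : Type*} [Group G] (g x : G) (n : ℕ)
    (hg : g ∈ Subgroup.upperCentralSeries G n) :
    Group.IsNilpotent ↥(Subgroup.closure ({x, g} : Set G)) := by
  obtain ⟨K, hK⟩ : ∃ K : Subgroup G, K = Subgroup.closure ({x, g} : Set G) := ⟨_, rfl⟩
  rw [← hK]
  have hxK : x ∈ K := hK ▸ Subgroup.subset_closure (by simp)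
  have hgK : g ∈ K := hK ▸ Subgroup.subset_closure (by simp)
  have hgZ : (⟨g, hgK⟩ : K) ∈ Subgroup.upperCentralSeries K n := ucs_inf K n ⟨g, hgK⟩ hg
  have hall : ∀ (y : G) (hy : y ∈ K),
      (QuotientGroup.mk' (Subgroup.upperCentralSeries K n)) ⟨y, hy⟩ ∈
        Subgroup.zpowers ((QuotientGroup.mk' (Subgroup.upperCentralSeries K n)) ⟨x, hxK⟩) := by
    intro y hy
    have hy' : y ∈ Subgroup.closure ({x, g} : Set G) := hK ▸ hy
    induction hy' using Subgroup.closure_induction with
    | mem t ht =>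
      rcases ht with rfl | rfl
      · exact Subgroup.mem_zpowers _
      · have h1 : (QuotientGroup.mk' (Subgroup.upperCentralSeries K n)) ⟨t, hy⟩ = 1 := by
          rw [QuotientGroup.mk'_apply, QuotientGroup.eq_one_iff]
          exact hgZ
        rw [h1]
        exact Subgroup.one_mem _
    | one =>
      have h1 : (⟨1, hy⟩ : K) = 1 := rfl
      rw [h1, map_one]
      exact Subgroup.one_mem _
    | mul a b ha hb iha ihb =>
      have haK : a ∈ K := hK ▸ ha
      have hbK : b ∈ K := hK ▸ hb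
      have h1 : (⟨a * b, hy⟩ : K) = ⟨a, haK⟩ * ⟨b, hbK⟩ := rfl
      rw [h1, map_mul]
      exact Subgroup.mul_mem _ (iha haK) (ihb hbK)
    | inv a ha iha =>
      have haK : a ∈ K := hK ▸ ha
      have h1 : (⟨a⁻¹, hy⟩ : K) = (⟨a, haK⟩ : K)⁻¹ := rfl
      rw [h1, map_inv]
      exact Subgroup.inv_mem _ (iha haK)
  refine ⟨⟨n + 1, ?_⟩⟩
  rw [eq_top_iff]
  intro k _
  rw [Subgroup.mem_upperCentralSeries_succ_iff]
  intro l
  have hk := hall k k.2
  have hl := hall l l.2
  obtain ⟨i, hi⟩ := Subgroup.mem_zpowers_iff.mp hk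
  obtain ⟨j, hj⟩ := Subgroup.mem_zpowers_iff.mp hl
  have h1 : (QuotientGroup.mk' (Subgroup.upperCentralSeries K n)) (k * l * k⁻¹ * l⁻¹) = 1 := by
    rw [map_mul, map_mul, map_mul, map_inv, map_inv]
    have hk' : (QuotientGroup.mk' (Subgroup.upperCentralSeries K n)) k =
        (QuotientGroup.mk' (Subgroup.upperCentralSeries K n)) ⟨x, hxK⟩ ^ i := hi.symm
    have hl' : (QuotientGroup.mk' (Subgroup.upperCentralSeries K n)) l =
        (QuotientGroup.mk' (Subgroup.upperCentralSeries K n)) ⟨x, hxK⟩ ^ j := hj.symm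
    rw [hk', hl']
    have hc : Commute ((QuotientGroup.mk' (Subgroup.upperCentralSeries K n)) ⟨x, hxK⟩ ^ i)
        ((QuotientGroup.mk' (Subgroup.upperCentralSeries K n)) ⟨x, hxK⟩ ^ j) :=
      (Commute.refl _).zpow_zpow i j
    rw [hc.eq]
    group
  rw [QuotientGroup.mk'_apply, QuotientGroup.eq_one_iff] at h1
  exact h1


/-- The case of an element of prime power order. -/
theorem p_case {G : Type*} [Group G] [Finite G] (p : ℕ) [Fact p.Prime] (g : G)
    (hg : ∃ k : ℕ, orderOf g = p ^ k)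
    (h : ∀ x : G, Group.IsNilpotent ↥(Subgroup.closure ({x, g} : Set G))) :
    ∃ n, g ∈ Subgroup.upperCentralSeries G n := by
  have hp : p.Prime := Fact.out
  -- (a) `g` commutes with every `p'`-element
  have hcomm : ∀ y : G, (orderOf y).Coprime p → g * y = y * g := by
    intro y hy
    exact Cfsg.Agent.Lib.Helper10.CN.comm_of_nilpotent (Subgroup.closure ({y, g} : Set G)) (h y)
      (Subgroup.subset_closure (by simp)) (Subgroup.subset_closure (by simp)) hg hy
  -- (b) Baer–Suzuki
  obtain ⟨k, hk⟩ := hg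
  have hX : IsPGroup p (Subgroup.zpowers g) := IsPGroup.of_card (by rw [Nat.card_zpowers, hk])
  have hBS : ∀ c : G, IsPGroup p
      ↥(Subgroup.zpowers g ⊔ (Subgroup.zpowers g).map (MulAut.conj c).toMonoidHom) := by
    intro c
    obtain ⟨K, hK⟩ : ∃ K : Subgroup G, K = Subgroup.closure ({c, g} : Set G) := ⟨_, rfl⟩
    have hKn : Group.IsNilpotent K := hK ▸ h c
    have hcK : c ∈ K := hK ▸ Subgroup.subset_closure (by simp)
    have hgK : g ∈ K := hK ▸ Subgroup.subset_closure (by simp)
    have hcgK : c * g * c⁻¹ ∈ K := K.mul_mem (K.mul_mem hcK hgK) (K.inv_mem hcK)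
    obtain ⟨S⟩ : Nonempty (Sylow p K) := inferInstance
    have hSn : (S : Subgroup K).Normal := inferInstance
    have h1 : (⟨g, hgK⟩ : K) ∈ (S : Subgroup K) :=
      Cfsg.Agent.Lib.Helper21.PiTools2.mem_normal_sylow S hSn _
        ⟨k, by rw [Subgroup.orderOf_mk, hk]⟩
    have h2 : (⟨c * g * c⁻¹, hcgK⟩ : K) ∈ (S : Subgroup K) :=
      Cfsg.Agent.Lib.Helper21.PiTools2.mem_normal_sylow S hSn _
        ⟨k, by
          rw [Subgroup.orderOf_mk]
          have h3 : orderOf (c * g * c⁻¹) = orderOf g := (MulAut.conj c).orderOf_eq g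
          rw [h3, hk]⟩
    have hle : Subgroup.zpowers g ⊔ (Subgroup.zpowers g).map (MulAut.conj c).toMonoidHom ≤
        (S : Subgroup K).map K.subtype := by
      apply sup_le
      · rw [Subgroup.zpowers_le]
        exact ⟨⟨g, hgK⟩, h1, rfl⟩
      · rw [MonoidHom.map_zpowers, Subgroup.zpowers_le]
        exact ⟨⟨c * g * c⁻¹, hcgK⟩, h2, rfl⟩
    exact (S.isPGroup'.map K.subtype).to_le hle
  obtain ⟨N, hNn, hNp, hgN⟩ := Cfsg.Agent.Lib.Helper21.BaerSuzuki.baer_suzuki
    (Subgroup.zpowers g) hX hBS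
  have hgN' : g ∈ N := hgN (Subgroup.mem_zpowers g)
  -- (c) a Sylow subgroup containing `N`
  obtain ⟨P, hNP⟩ := hNp.exists_le_sylow
  -- (d) `G = P R`
  obtain ⟨R, hR⟩ : ∃ R : Subgroup G, R = Subgroup.closure {y : G | (orderOf y).Coprime p} :=
    ⟨_, rfl⟩
  have hRn : R.Normal := by
    constructor
    intro n hn c
    rw [hR] at hn ⊢
    refine conj_mem_closure _ ?_ c n hn
    intro c s hs
    have h3 : orderOf (c * s * c⁻¹) = orderOf s := (MulAut.conj c).orderOf_eq s
    show (orderOf (c * s * c⁻¹)).Coprime p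
    rw [h3]
    exact hs
  have hQ : IsPGroup p (G ⧸ R) := by
    intro q
    obtain ⟨y, rfl⟩ := QuotientGroup.mk_surjective q
    obtain ⟨a, b, -, -, hab, ⟨j, hj⟩, hb⟩ := Cfsg.Agent.Lib.Helper21.PiTools2.p_decomp p hp y
    refine ⟨j, ?_⟩
    have hbR : b ∈ R := by
      rw [hR]
      exact Subgroup.subset_closure ((Nat.Coprime.symm ((Nat.Prime.coprime_iff_not_dvd hp).mpr hb)))
    have h1 : (QuotientGroup.mk y : G ⧸ R) = QuotientGroup.mk a := by
      rw [hab, QuotientGroup.mk_mul, (QuotientGroup.eq_one_iff b).mpr hbR, mul_one]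
    rw [h1, ← QuotientGroup.mk_pow, ← hj, pow_orderOf_eq_one]
    rfl
  have hPR : P.1 ⊔ R = ⊤ := by
    rw [← Subgroup.index_eq_one]
    obtain ⟨m, hm⟩ := IsPGroup.iff_card.mp hQ
    have h1 : (P.1 ⊔ R).index ∣ p ^ m := by
      rw [← hm, ← Subgroup.index_eq_card]
      exact Subgroup.index_dvd_of_le le_sup_right
    have h2 : (P.1 ⊔ R).index ∣ P.1.index := Subgroup.index_dvd_of_le le_sup_left
    have h3 : ¬ p ∣ P.1.index := P.not_dvd_index
    obtain ⟨i, -, hi⟩ := (Nat.dvd_prime_pow hp).mp h1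
    rcases Nat.eq_zero_or_pos i with rfl | hipos
    · rw [hi, pow_zero]
    · exfalso
      apply h3
      refine dvd_trans ?_ h2
      rw [hi]
      exact dvd_pow_self p hipos.ne'
  have hdecomp : ∀ y : G, ∃ u ∈ P.1, ∃ c ∈ R, y = u * c := by
    intro y
    have hy : y ∈ P.1 ⊔ R := hPR ▸ Subgroup.mem_top y
    rw [← SetLike.mem_coe, Subgroup.mul_normal] at hy
    obtain ⟨u, hu, c, hc, rfl⟩ := Set.mem_mul.mp hy
    exact ⟨u, hu, c, hc, rfl⟩
  -- (e) induction along the upper central series of `P`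
  have hind : ∀ n : ℕ, ∀ a : P.1, a ∈ Subgroup.upperCentralSeries P.1 n → (a : G) ∈ N →
      (∀ y : G, (orderOf y).Coprime p → (a : G) * y = y * a) →
      (a : G) ∈ Subgroup.upperCentralSeries G n := by
    intro n
    induction n with
    | zero =>
      intro a ha _ _
      rw [Subgroup.upperCentralSeries_zero, Subgroup.mem_bot] at ha ⊢
      rw [ha]
      rfl
    | succ n ih =>
      intro a ha haN hac
      rw [Subgroup.mem_upperCentralSeries_succ_iff] at ha ⊢
      intro y
      obtain ⟨u, hu, c, hc, rfl⟩ := hdecomp y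
      have hcR : R ≤ Subgroup.centralizer ({(a : G)} : Set G) := by
        rw [hR, Subgroup.closure_le]
        intro t ht
        rw [SetLike.mem_coe, Subgroup.mem_centralizer_singleton_iff]
        exact (hac t ht).symm
      have hca : c * (a : G) = a * c := Subgroup.mem_centralizer_singleton_iff.mp (hcR hc)
      have hca' : c * (a : G)⁻¹ * c⁻¹ = (a : G)⁻¹ := by
        have : c * (a : G)⁻¹ * c⁻¹ = (c * a * c⁻¹)⁻¹ := by group
        rw [this, hca]
        group
      have h1 : (a : G) * (u * c) * (a : G)⁻¹ * (u * c)⁻¹ =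
          ((a * ⟨u, hu⟩ * a⁻¹ * (⟨u, hu⟩ : P.1)⁻¹ : P.1) : G) := by
        have : (a : G) * (u * c) * (a : G)⁻¹ * (u * c)⁻¹ =
            (a : G) * u * (c * (a : G)⁻¹ * c⁻¹) * u⁻¹ := by group
        rw [this, hca']
        rfl
      rw [commutatorElement_def, h1]
      apply ih _ (ha ⟨u, hu⟩)
      · show (a : G) * u * (a : G)⁻¹ * u⁻¹ ∈ N
        have h2 : u * (a : G)⁻¹ * u⁻¹ ∈ N := hNn.conj_mem _ (N.inv_mem haN) u
        have h3 : (a : G) * u * (a : G)⁻¹ * u⁻¹ = (a : G) * (u * (a : G)⁻¹ * u⁻¹) := by group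
        rw [h3]
        exact N.mul_mem haN h2
      · intro t ht
        show (a : G) * u * (a : G)⁻¹ * u⁻¹ * t = t * ((a : G) * u * (a : G)⁻¹ * u⁻¹)
        have h4 : (orderOf (u⁻¹ * t * u⁻¹⁻¹)).Coprime p := by
          have h5 : orderOf (u⁻¹ * t * u⁻¹⁻¹) = orderOf t := (MulAut.conj u⁻¹).orderOf_eq t
          rw [h5]
          exact ht
        have h6 := hac _ h4
        have h7 := hac t ht
        rw [inv_inv] at h6
        have h8 : (a : G)⁻¹ * (u⁻¹ * t * u) = (u⁻¹ * t * u) * (a : G)⁻¹ := by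
          have : (a : G)⁻¹ * (u⁻¹ * t * u) = (a : G)⁻¹ * ((u⁻¹ * t * u) * a) * (a : G)⁻¹ := by group
          rw [this, ← h6]
          group
        have h9 : (a : G)⁻¹ * t = t * (a : G)⁻¹ := by
          have : (a : G)⁻¹ * t = (a : G)⁻¹ * (t * a) * (a : G)⁻¹ := by group
          rw [this, ← h7]
          group
        calc (a : G) * u * (a : G)⁻¹ * u⁻¹ * t
            = (a : G) * u * ((a : G)⁻¹ * (u⁻¹ * t * u)) * u⁻¹ := by group
          _ = (a : G) * u * ((u⁻¹ * t * u) * (a : G)⁻¹) * u⁻¹ := by rw [h8]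
          _ = ((a : G) * t) * (u * (a : G)⁻¹ * u⁻¹) := by group
          _ = (t * (a : G)) * (u * (a : G)⁻¹ * u⁻¹) := by rw [h7]
          _ = t * ((a : G) * u * (a : G)⁻¹ * u⁻¹) := by group
  have hPnil : Group.IsNilpotent P.1 := P.isPGroup'.isNilpotent
  obtain ⟨n, hn⟩ := hPnil.nilpotent
  refine ⟨n, hind n ⟨g, hNP hgN'⟩ (hn ▸ Subgroup.mem_top _) hgN' hcomm⟩

/-- The general case, by induction on the order of `g`. -/
theorem main {G : Type*} [Group G] [Finite G] : ∀ (m : ℕ) (g : G), orderOf g = m →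
    (∀ x : G, Group.IsNilpotent ↥(Subgroup.closure ({x, g} : Set G))) →
    ∃ n, g ∈ Subgroup.upperCentralSeries G n := by
  intro m
  induction m using Nat.strong_induction_on with
  | _ m ih =>
    intro g hm h
    by_cases hg1 : g = 1
    · exact ⟨0, hg1 ▸ Subgroup.one_mem _⟩
    have hne : orderOf g ≠ 1 := fun h1 => hg1 (orderOf_eq_one_iff.mp h1)
    have hp : (orderOf g).minFac.Prime := Nat.minFac_prime hne
    have : Fact (orderOf g).minFac.Prime := ⟨hp⟩
    obtain ⟨a, b, ha, hb, hab, hpa, hpb⟩ :=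
      Cfsg.Agent.Lib.Helper21.PiTools2.p_decomp (orderOf g).minFac hp g
    have hsub : ∀ (c : G), c ∈ Subgroup.zpowers g → ∀ x : G,
        Group.IsNilpotent ↥(Subgroup.closure ({x, c} : Set G)) := by
      intro c hc x
      refine nil_of_le (L := Subgroup.closure ({x, g} : Set G)) ?_ (h x)
      rw [Subgroup.closure_le]
      intro t ht
      rcases ht with rfl | rfl
      · exact Subgroup.subset_closure (by simp)
      · have h1 : Subgroup.zpowers g ≤ Subgroup.closure ({x, g} : Set G) := by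
          rw [Subgroup.zpowers_le]
          exact Subgroup.subset_closure (by simp)
        exact h1 hc
    obtain ⟨n₁, hn₁⟩ := p_case (orderOf g).minFac a hpa (hsub a ha)
    have hbd : orderOf b ∣ orderOf g := orderOf_dvd_of_mem_zpowers hb
    have hblt : orderOf b < m := by
      rw [← hm]
      have hpos : 0 < orderOf g := orderOf_pos g
      have hle := Nat.le_of_dvd hpos hbd
      rcases lt_or_eq_of_le hle with h1 | h1
      · exact h1
      · exfalso
        apply hpb
        rw [h1]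
        exact Nat.minFac_dvd _
    obtain ⟨n₂, hn₂⟩ := ih (orderOf b) hblt b rfl (hsub b hb)
    refine ⟨max n₁ n₂, ?_⟩
    rw [hab]
    exact Subgroup.mul_mem _ (Subgroup.upperCentralSeries_mono G (le_max_left _ _) hn₁)
      (Subgroup.upperCentralSeries_mono G (le_max_right _ _) hn₂)

/-- In a finite group G the set of elements g such that the subgroup generated by g and x is nilpotent for every x ∈ G is exactly the hypercenter of G (the last term of the upper central series). -/
theorem result {G : Type*} [Group G] [Finite G] (g : G) :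
    (∀ x : G, Group.IsNilpotent ↥(Subgroup.closure ({x, g} : Set G))) ↔ g ∈ ⨆ n : ℕ, Subgroup.upperCentralSeries G n := by
  rw [mem_hyper]
  constructor
  · intro h
    exact main _ g rfl h
  · rintro ⟨n, hn⟩ x
    exact nil_of_mem g x n hn

end Cfsg.Agent.S3939
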