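import Mathlib
import Cfsg.Statements.S3941
import Cfsg.Agent.Lib.Helper21.PiTools2

set_option autoImplicit false
open Cfsg

namespace Cfsg.Agent.S3941

open Equiv Equiv.Perm
open Cfsg.Agent.Lib.Helper21.PiTools2

/-- The alternating group of degree `4` has no normal Sylow `3`-subgroup. -/
theorem not_three_closed_four : ¬ Cfsg.IsPClosed 3 ↥(alternatingGroup (Fin 4)) := by
  intro h
  have : Fact (Nat.Prime 3) := ⟨Nat.prime_three⟩
  obtain ⟨P⟩ : Nonempty (Sylow 3 (alternatingGroup (Fin 4))) := inferInstance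
  have hP := h P
  obtain ⟨t₁, ht₁⟩ : ∃ t : alternatingGroup (Fin 4), t = ⟨swap 0 1 * swap 0 2,
      (isThreeCycle_swap_mul_swap_same (by decide) (by decide) (by decide)).mem_alternatingGroup⟩ :=
    ⟨_, rfl⟩
  obtain ⟨t₂, ht₂⟩ : ∃ t : alternatingGroup (Fin 4), t = ⟨swap 0 1 * swap 0 3,
      (isThreeCycle_swap_mul_swap_same (by decide) (by decide) (by decide)).mem_alternatingGroup⟩ :=
    ⟨_, rfl⟩
  have ho1 : orderOf t₁ = 3 := by
    rw [ht₁]
    exact orderOf_eq_prime (by decide) (by decide)
  have ho2 : orderOf t₂ = 3 := by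
    rw [ht₂]
    exact orderOf_eq_prime (by decide) (by decide)
  have h1 : t₁ ∈ (P : Subgroup _) := mem_normal_sylow P hP t₁ ⟨1, by rw [pow_one, ho1]⟩
  have h2 : t₂ ∈ (P : Subgroup _) := mem_normal_sylow P hP t₂ ⟨1, by rw [pow_one, ho2]⟩
  have h3 : t₁ * t₂ ∈ (P : Subgroup _) := Subgroup.mul_mem _ h1 h2
  obtain ⟨k, hk⟩ := orderOf_of_mem_sylow P _ h3
  have h4 : orderOf (t₁ * t₂) = 2 := by
    rw [ht₁, ht₂]
    exact orderOf_eq_prime (by decide) (by decide)
  rw [h4] at hk
  rcases k with _ | k
  · simp at hk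
  · have h5 : 3 ∣ 2 := by
      rw [hk]
      exact dvd_pow_self 3 (Nat.succ_ne_zero k)
    omega

/-- Let n ≥ 5 and p an odd prime with p ≤ n, and suppose that every proper subgroup of the alternating group of degree n whose order is divisible by p has a normal Sylow p-subgroup. Then n = p. -/
theorem result (n p : ℕ) (hn : 5 ≤ n) [Fact p.Prime] (hp : p ≠ 2) (hpn : p ≤ n)
    (h : ∀ H : Subgroup ↥(alternatingGroup (Fin n)), H ≠ ⊤ → p ∣ Nat.card ↥H → Cfsg.IsPClosed p ↥H) : n = p := by
  have hpp : p.Prime := Fact.out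
  by_contra hne
  obtain ⟨m, rfl⟩ : ∃ m, n = m + 1 := ⟨n - 1, by omega⟩
  have hpm : p ≤ m := by omega
  have hm4 : 4 ≤ m := by omega
  obtain ⟨ψ, hψdef⟩ : ∃ ψ : Perm (Fin m) →* Perm (Fin (m + 1)),
      ψ = viaEmbeddingHom Fin.castSuccEmb := ⟨_, rfl⟩
  have hψinj : Function.Injective ψ := hψdef ▸ viaEmbeddingHom_injective _
  have hsign : ∀ e : Perm (Fin m), sign (ψ e) = sign e := by
    intro e
    rw [hψdef]
    let _ : DecidablePred (fun a => a ∈ Set.range (Fin.castSuccEmb (n := m)).toFun) :=
      fun a => Classical.propDecidable _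
    exact sign_extendDomain e _
  have hlast : ∀ e : Perm (Fin m), ψ e (Fin.last m) = Fin.last m := by
    intro e
    rw [hψdef]
    apply viaEmbedding_apply_of_notMem
    rintro ⟨x, hx⟩
    exact (Fin.castSucc_lt_last x).ne hx
  obtain ⟨φ, hφdef⟩ : ∃ φ : alternatingGroup (Fin m) →* alternatingGroup (Fin (m + 1)),
      ∀ e, ((φ e : alternatingGroup (Fin (m + 1))) : Perm (Fin (m + 1))) = ψ e.1 :=
    ⟨(ψ.comp (alternatingGroup (Fin m)).subtype).codRestrict (alternatingGroup (Fin (m + 1)))
      (fun e => by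
        rw [mem_alternatingGroup]
        show sign (ψ e.1) = 1
        rw [hsign]
        exact mem_alternatingGroup.mp e.2), fun e => rfl⟩
  have hφinj : Function.Injective φ := by
    intro a b hab
    apply Subtype.ext
    apply hψinj
    rw [← hφdef, ← hφdef, hab]
  have hrange : φ.range ≠ ⊤ := by
    intro htop
    obtain ⟨a, ha⟩ : ∃ a : Fin (m + 1), a = ⟨0, by omega⟩ := ⟨_, rfl⟩
    obtain ⟨b, hb⟩ : ∃ b : Fin (m + 1), b = ⟨1, by omega⟩ := ⟨_, rfl⟩
    have h0 : (Fin.last m) ≠ a := by
      intro h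
      have h2 := congrArg Fin.val h
      rw [ha, Fin.val_last] at h2
      simp at h2
      omega
    have h1 : (Fin.last m) ≠ b := by
      intro h
      have h2 := congrArg Fin.val h
      rw [hb, Fin.val_last] at h2
      simp at h2
      omega
    have h01 : a ≠ b := by
      intro h
      have h2 := congrArg Fin.val h
      rw [ha, hb] at h2
      simp at h2
    have hc : swap (Fin.last m) a * swap (Fin.last m) b ∈ alternatingGroup (Fin (m + 1)) :=
      (isThreeCycle_swap_mul_swap_same h0 h1 h01).mem_alternatingGroup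
    have hmem : (⟨_, hc⟩ : alternatingGroup (Fin (m + 1))) ∈ φ.range := htop ▸ Subgroup.mem_top _
    obtain ⟨e, he⟩ := hmem
    have h2 := hlast e.1
    rw [← hφdef, he] at h2
    have h3 : (swap (Fin.last m) a * swap (Fin.last m) b) (Fin.last m) = b := by
      rw [Perm.mul_apply, swap_apply_left, swap_apply_of_ne_of_ne h1.symm h01.symm]
    have h4 : (swap (Fin.last m) a * swap (Fin.last m) b) (Fin.last m) = Fin.last m := h2
    rw [h3] at h4
    exact h1 h4.symm
  have hcard : Nat.card φ.range = Nat.card (alternatingGroup (Fin m)) :=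
    (Nat.card_congr (MonoidHom.ofInjective hφinj).toEquiv).symm
  have hnt : Nontrivial (Fin m) := Fin.nontrivial_iff_two_le.mpr (by omega)
  have h2card : 2 * Nat.card (alternatingGroup (Fin m)) = m.factorial := by
    rw [two_mul_nat_card_alternatingGroup, Nat.card_perm, Nat.card_fin]
  have hpdvd : p ∣ Nat.card (alternatingGroup (Fin m)) := by
    have h1 : p ∣ 2 * Nat.card (alternatingGroup (Fin m)) := by
      rw [h2card]
      exact (Nat.Prime.dvd_factorial hpp).mpr hpm
    exact Nat.Coprime.dvd_of_dvd_mul_left ((Nat.coprime_primes hpp Nat.prime_two).mpr hp) h1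
  have h2dvd : 2 ∣ Nat.card (alternatingGroup (Fin m)) := by
    have h1 : (4 : ℕ).factorial ∣ m.factorial := Nat.factorial_dvd_factorial hm4
    rw [← h2card] at h1
    have h3 : (24 : ℕ) ∣ 2 * Nat.card (alternatingGroup (Fin m)) := by
      have h4 : (4 : ℕ).factorial = 24 := by decide
      rwa [h4] at h1
    omega
  have hclosed := h φ.range hrange (hcard ▸ hpdvd)
  have hclosed' : Cfsg.IsPClosed p (alternatingGroup (Fin m)) := by
    intro P
    obtain ⟨e, he⟩ : ∃ e : alternatingGroup (Fin m) ≃* φ.range, e = MonoidHom.ofInjective hφinj :=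
      ⟨_, rfl⟩
    have hsurj : Function.Surjective e.toMonoidHom := e.surjective
    have h1 := hclosed (P.mapSurjective hsurj)
    rw [Sylow.coe_mapSurjective] at h1
    have h2 : (P : Subgroup (alternatingGroup (Fin m))) =
        ((P : Subgroup (alternatingGroup (Fin m))).map e.toMonoidHom).comap e.toMonoidHom :=
      (Subgroup.comap_map_eq_self_of_injective e.injective _).symm
    rw [h2]
    exact h1.comap _
  obtain ⟨P⟩ : Nonempty (Sylow p (alternatingGroup (Fin m))) := inferInstance
  have hPn := hclosed' P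
  have hPbot : (P : Subgroup (alternatingGroup (Fin m))) ≠ ⊥ := P.ne_bot_of_dvd_card hpdvd
  have hPtop : (P : Subgroup (alternatingGroup (Fin m))) ≠ ⊤ := by
    intro htop
    obtain ⟨k, hk⟩ := IsPGroup.iff_card.mp P.isPGroup'
    rw [htop, Subgroup.card_top] at hk
    rw [hk] at h2dvd
    exact hp ((Nat.prime_dvd_prime_iff_eq Nat.prime_two hpp).mp
      (Nat.Prime.dvd_of_dvd_pow Nat.prime_two h2dvd)).symm
  by_cases hm5 : 5 ≤ m
  · have hsimple : IsSimpleGroup (alternatingGroup (Fin m)) :=
      alternatingGroup.isSimpleGroup (by rw [Nat.card_fin]; exact hm5)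
    rcases hPn.eq_bot_or_eq_top with h1 | h1
    · exact hPbot h1
    · exact hPtop h1
  · have hm : m = 4 := by omega
    subst hm
    have hp3 : p = 3 := by
      have h4 : p ≠ 4 := by
        rintro rfl
        exact absurd hpp (by decide)
      have h2 := hpp.two_le
      omega
    subst hp3
    exact not_three_closed_four hclosed'

end Cfsg.Agent.S3941
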