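import Mathlib
import Cfsg.Statements.S3949

set_option autoImplicit false
open Cfsg

namespace Cfsg.Agent.S3949

/-- Let G be a finite group and α an automorphism of G of order 2 such that the elements g·α(g)⁻¹ generate G. Let j be a positive integer such that 2^j divides the order of no element inverted by α. Then the set of values of the j-th iterate of the map c ↦ c·α(c)⁻¹ is exactly the set of elements of odd order inverted by α. -/
theorem result {G : Type*} [Group G] [Finite G] (α : MulAut G) (hα : orderOf α = 2) (hG : Subgroup.closure (Set.range (fun c : G => c * (α c)⁻¹)) = ⊤)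
    (j : ℕ) (hj : ∀ g : G, α g = g⁻¹ → ¬ 2 ^ j ∣ orderOf g) :
    Set.range ((fun c : G => c * (α c)⁻¹)^[j]) = {g : G | Odd (orderOf g) ∧ α g = g⁻¹} := by
  have hαα : ∀ c : G, α (α c) = c := by
    intro c
    have h1 : α ^ 2 = 1 := by rw [← hα]; exact pow_orderOf_eq_one α
    have h2 : (α ^ 2) c = c := by rw [h1]; rfl
    rw [pow_two] at h2
    exact h2
  -- f c is inverted
  have hF1 : ∀ c : G, α (c * (α c)⁻¹) = (c * (α c)⁻¹)⁻¹ := by
    intro c
    rw [map_mul, map_inv, hαα, mul_inv_rev, inv_inv]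
  -- powers of inverted elements are inverted
  have hpow : ∀ (g : G) (n : ℕ), α g = g⁻¹ → α (g ^ n) = (g ^ n)⁻¹ := by
    intro g n hg
    rw [map_pow, hg, inv_pow]
  -- iterating on inverted elements
  have hF4 : ∀ (k : ℕ) (g : G), α g = g⁻¹ →
      (fun c : G => c * (α c)⁻¹)^[k] g = g ^ (2 ^ k) := by
    intro k
    induction k with
    | zero => intro g _; simp
    | succ k ih =>
      intro g hg
      rw [Function.iterate_succ_apply', ih g hg]
      show g ^ 2 ^ k * (α (g ^ 2 ^ k))⁻¹ = g ^ 2 ^ (k + 1)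
      rw [hpow g _ hg, inv_inv, ← pow_add, pow_succ, mul_two]
  have hj0 : j ≠ 0 := by
    rintro rfl
    exact hj 1 (by simp) (by simp)
  obtain ⟨k, rfl⟩ := Nat.exists_eq_succ_of_ne_zero hj0
  ext g
  simp only [Set.mem_range, Set.mem_setOf_eq]
  constructor
  · rintro ⟨c, rfl⟩
    rw [Function.iterate_succ_apply]
    set h := c * (α c)⁻¹ with hh
    have hinv : α h = h⁻¹ := hF1 c
    rw [hF4 k h hinv]
    refine ⟨?_, hpow h _ hinv⟩
    have hn0 : orderOf h ≠ 0 := (orderOf_pos h).ne'
    obtain ⟨a, m, hm, ham⟩ := Nat.exists_eq_pow_mul_and_not_dvd hn0 2 (by norm_num)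
    have hak : a ≤ k := by
      by_contra hcon
      push Not at hcon
      apply hj h hinv
      rw [ham]
      exact Dvd.dvd.mul_right (pow_dvd_pow 2 hcon) m
    have h1 : (h ^ 2 ^ k) ^ m = 1 := by
      have h2 : 2 ^ k * m = orderOf h * 2 ^ (k - a) := by
        rw [ham]
        have h3 : 2 ^ k = 2 ^ a * 2 ^ (k - a) := by rw [← pow_add]; congr 1; omega
        rw [h3]; ring
      rw [← pow_mul, h2, pow_mul, pow_orderOf_eq_one, one_pow]
    have h4 : orderOf (h ^ 2 ^ k) ∣ m := orderOf_dvd_of_pow_eq_one h1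
    have hmodd : Odd m := Nat.odd_iff.mpr (Nat.two_dvd_ne_zero.mp hm)
    exact Odd.of_dvd_nat hmodd h4
  · rintro ⟨hodd, hinv⟩
    by_cases hg1 : g = 1
    · refine ⟨1, ?_⟩
      rw [hg1]
      apply Function.iterate_fixed
      simp
    · have hn1 : 1 < orderOf g := by
        have h0 : orderOf g ≠ 0 := (orderOf_pos g).ne'
        have h1 : orderOf g ≠ 1 := fun h => hg1 (orderOf_eq_one_iff.mp h)
        omega
      have hcop : Nat.Coprime (2 ^ (k + 1)) (orderOf g) :=
        Nat.Coprime.pow_left _ (Nat.coprime_two_left.mpr hodd)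
      obtain ⟨e, -, he⟩ := Nat.exists_mul_mod_eq_one_of_coprime hcop hn1
      refine ⟨g ^ e, ?_⟩
      rw [hF4 (k + 1) (g ^ e) (hpow g e hinv), ← pow_mul]
      conv_rhs => rw [← pow_one g]
      rw [pow_eq_pow_iff_modEq]
      show (e * 2 ^ (k + 1)) % orderOf g = 1 % orderOf g
      rw [mul_comm, he, Nat.mod_eq_of_lt hn1]

end Cfsg.Agent.S3949
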