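import Mathlib
import Cfsg.Statements.S3975

set_option autoImplicit false
open Cfsg
open scoped Pointwise

namespace Cfsg.Agent.S3975

/-- The order of the stabilizer of a subset (under left multiplication) divides its size. -/
theorem card_stabilizer_dvd {G : Type*} [Group G] [Finite G] (S : Set G) :
    Nat.card (MulAction.stabilizer G S) ∣ S.ncard := by
  set H := MulAction.stabilizer G S with hH
  have h1 : (S⁻¹ * (H : Set G)) = S⁻¹ := by
    ext x
    constructor
    · rintro ⟨a, ha, h, hh, rfl⟩
      rw [Set.mem_inv] at ha ⊢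
      have h2 : h⁻¹ • S = S := MulAction.mem_stabilizer_iff.mp (H.inv_mem hh)
      rw [mul_inv_rev, ← h2]
      exact Set.smul_mem_smul_set ha
    · intro hx
      exact ⟨x, hx, 1, H.one_mem, mul_one x⟩
  have h2 := Subgroup.card_mul_eq_card_subgroup_mul_card_quotient H S⁻¹
  rw [h1] at h2
  have h3 : Nat.card (S⁻¹ : Set G) = S.ncard := by
    rw [Nat.card_coe_set_eq, Set.ncard_inv]
  rw [← h3, h2]
  exact dvd_mul_right _ _

/-- If every stabilizer index on an invariant subset is divisible by `d`, so is its size. -/
theorem dvd_card_of_dvd_index {G X : Type*} [Group G] [MulAction G X] [Finite X]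
    (B : SubMulAction G X) (d : ℕ)
    (h : ∀ x ∈ B, d ∣ (MulAction.stabilizer G x).index) : d ∣ Nat.card B := by
  classical
  have e := MulAction.selfEquivSigmaOrbits G B
  rw [Nat.card_congr e]
  have : Fintype (MulAction.orbitRel.Quotient G B) := Fintype.ofFinite _
  rw [Nat.card_sigma]
  apply Finset.dvd_sum
  intro ω _
  rw [Nat.card_coe_set_eq, ← MulAction.index_stabilizer, SubMulAction.stabilizer_of_subMul]
  exact h _ (ω.out).2

/-- Subsets of size `k` with stabilizer of order `k` are the left cosets of subgroups
of order `k`. -/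
theorem card_cosets {G : Type*} [Group G] [Finite G] (k : ℕ) :
    Nat.card {S : Set G // S.ncard = k ∧ Nat.card (MulAction.stabilizer G S) = k}
      = Nat.card {K : Subgroup G // Nat.card K = k} * (Nat.card G / k) := by
  classical
  let f : (Σ K : {K : Subgroup G // Nat.card K = k}, G ⧸ K.1) →
      {S : Set G // S.ncard = k ∧ Nat.card (MulAction.stabilizer G S) = k} :=
    fun x => ⟨x.2.out • (x.1.1 : Set G), by
      constructor
      · rw [Set.ncard_smul_set, ← Nat.card_coe_set_eq]; exact x.1.2
      · rw [MulAction.stabilizer_smul_eq_stabilizer_map_conj, MulAction.stabilizer_subgroup,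
          Subgroup.card_map_of_injective (MulEquiv.injective _)]
        exact x.1.2⟩
  have hf : Function.Bijective f := by
    constructor
    · rintro ⟨⟨K, hK⟩, q⟩ ⟨⟨K', hK'⟩, q'⟩ hxy
      have hS : q.out • (K : Set G) = q'.out • (K' : Set G) := congrArg Subtype.val hxy
      have hx : q.out ∈ q'.out • (K' : Set G) := by
        rw [← hS]; exact ⟨1, K.one_mem, by simp⟩
      have hx' : q'.out⁻¹ * q.out ∈ K' := by
        rw [Set.mem_smul_set_iff_inv_smul_mem] at hx
        exact hx
      have hKK' : K = K' := by
        apply SetLike.coe_injective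
        have h1 : (K : Set G) = q.out⁻¹ • (q'.out • (K' : Set G)) := by
          rw [← hS, inv_smul_smul]
        rw [h1, smul_smul]
        have h2 : q.out⁻¹ * q'.out ∈ K' := by
          have := K'.inv_mem hx'
          simpa using this
        exact leftCoset_mem_leftCoset K' h2
      subst hKK'
      have hq : q = q' := by
        have h3 : q.out⁻¹ * q'.out ∈ K := (leftCoset_eq_iff K).mp hS
        rw [← QuotientGroup.out_eq' q, ← QuotientGroup.out_eq' q']
        exact QuotientGroup.eq.mpr h3
      subst hq
      rfl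
    · rintro ⟨S, hS, hstab⟩
      have hkpos : 0 < k := by
        rw [← hstab]; exact Nat.card_pos
      have hne : S.Nonempty := Set.nonempty_of_ncard_ne_zero (by omega)
      obtain ⟨s, hs⟩ := hne
      set T : Set G := s⁻¹ • S with hT
      set K : Subgroup G := MulAction.stabilizer G T with hKdef
      have hKcard : Nat.card K = k := by
        rw [hKdef, hT, MulAction.stabilizer_smul_eq_stabilizer_map_conj,
          Subgroup.card_map_of_injective (MulEquiv.injective _)]
        exact hstab
      have h1T : (1 : G) ∈ T := by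
        rw [hT, Set.mem_smul_set_iff_inv_smul_mem]; simpa using hs
      have hKT : (K : Set G) ⊆ T := by
        intro h hh
        have h2 : h • T = T := MulAction.mem_stabilizer_iff.mp hh
        rw [← h2]
        exact ⟨1, h1T, by simp⟩
      have hTcard : T.ncard = k := by rw [hT, Set.ncard_smul_set]; exact hS
      have hKT' : (K : Set G) = T := by
        apply Set.eq_of_subset_of_ncard_le hKT _ (Set.toFinite T)
        rw [hTcard, ← Nat.card_coe_set_eq]
        exact hKcard.ge
      have hS' : S = s • (K : Set G) := by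
        rw [hKT', hT, smul_inv_smul]
      refine ⟨⟨⟨K, hKcard⟩, (s : G ⧸ K)⟩, ?_⟩
      apply Subtype.ext
      show (s : G ⧸ K).out • (K : Set G) = S
      rw [hS']
      apply (leftCoset_eq_iff K).mpr
      exact QuotientGroup.eq.mp (QuotientGroup.out_eq' (s : G ⧸ K))
  have : Fintype {K : Subgroup G // Nat.card K = k} := Fintype.ofFinite _
  rw [← Nat.card_congr (Equiv.ofBijective f hf), Nat.card_sigma]
  have hterm : ∀ K : {K : Subgroup G // Nat.card K = k}, Nat.card (G ⧸ K.1) = Nat.card G / k := by
    intro K
    have hkpos : 0 < k := by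
      rw [← K.2]; exact Nat.card_pos
    have h := Subgroup.card_eq_card_quotient_mul_card_subgroup K.1
    rw [K.2] at h
    rw [h, Nat.mul_div_cancel _ hkpos]
  rw [Finset.sum_congr rfl (fun K _ => hterm K), Finset.sum_const, Finset.card_univ,
    Fintype.card_eq_nat_card, smul_eq_mul]

/-- Wielandt's count: the number of `p ^ β`-subsets is `N * m` modulo `p * m`. -/
theorem wielandt_count {G : Type*} [Group G] [Finite G] (p β m : ℕ) (hp : p.Prime)
    (hG : Nat.card G = p ^ β * m) :
    Nat.card {S : Set G // S.ncard = p ^ β}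
      ≡ Nat.card {K : Subgroup G // Nat.card K = p ^ β} * m [MOD p * m] := by
  classical
  have hppos : 0 < p ^ β := pos_of_ne_zero (pow_ne_zero _ hp.ne_zero)
  -- the invariant subset of "bad" sets
  let B : SubMulAction G (Set G) :=
    { carrier := {S | S.ncard = p ^ β ∧ Nat.card (MulAction.stabilizer G S) ≠ p ^ β}
      smul_mem' := by
        rintro g S ⟨h1, h2⟩
        refine ⟨by rw [Set.ncard_smul_set]; exact h1, ?_⟩
        rw [MulAction.stabilizer_smul_eq_stabilizer_map_conj,
          Subgroup.card_map_of_injective (MulEquiv.injective _)]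
        exact h2 }
  have hB : p * m ∣ Nat.card B := by
    apply dvd_card_of_dvd_index
    rintro S ⟨h1, h2⟩
    have h3 := card_stabilizer_dvd S
    rw [h1] at h3
    obtain ⟨j, hj, hj'⟩ := (Nat.dvd_prime_pow hp).mp h3
    have hjlt : j < β := by
      rcases hj.lt_or_eq with h | h
      · exact h
      · exact absurd (by rw [hj', h]) h2
    have h4 := Subgroup.card_mul_index (MulAction.stabilizer G S)
    rw [hj', hG] at h4
    have h5 : p ^ β = p ^ j * (p * p ^ (β - j - 1)) := by
      rw [← pow_succ', ← pow_add]; congr 1; omega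
    rw [h5, mul_assoc] at h4
    have h6 := Nat.eq_of_mul_eq_mul_left (pos_of_ne_zero (pow_ne_zero j hp.ne_zero)) h4
    rw [h6]
    exact ⟨p ^ (β - j - 1), by ring⟩
  have hA := card_cosets (G := G) (p ^ β)
  rw [hG, Nat.mul_div_cancel_left _ hppos] at hA
  have hsplit : Nat.card {S : Set G // S.ncard = p ^ β}
      = Nat.card {S : Set G // S.ncard = p ^ β ∧ Nat.card (MulAction.stabilizer G S) = p ^ β}
        + Nat.card B := by
    rw [← Nat.card_sum]
    apply Nat.card_congr
    refine Equiv.trans
      (Equiv.sumCompl (fun S : {S : Set G // S.ncard = p ^ β} =>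
        Nat.card (MulAction.stabilizer G S.1) = p ^ β)).symm ?_
    have e2 : {S : {S : Set G // S.ncard = p ^ β} //
        ¬ Nat.card (MulAction.stabilizer G S.1) = p ^ β} ≃ B :=
      { toFun := fun S => ⟨S.1.1, S.1.2, S.2⟩
        invFun := fun S => ⟨⟨S.1, S.2.1⟩, S.2.2⟩
        left_inv := fun _ => rfl
        right_inv := fun _ => rfl }
    have e1 : {S : {S : Set G // S.ncard = p ^ β} //
        Nat.card (MulAction.stabilizer G S.1) = p ^ β} ≃
        {S : Set G // S.ncard = p ^ β ∧ Nat.card (MulAction.stabilizer G S) = p ^ β} :=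
      { toFun := fun S => ⟨S.1.1, S.1.2, S.2⟩
        invFun := fun S => ⟨⟨S.1, S.2.1⟩, S.2.2⟩
        left_inv := fun _ => rfl
        right_inv := fun _ => rfl }
    exact Equiv.sumCongr e1 e2
  obtain ⟨c, hc⟩ := hB
  rw [hsplit, hA, hc]
  unfold Nat.ModEq
  rw [Nat.add_mul_mod_self_left]

/-- A finite cyclic group has exactly one subgroup of each prime power order dividing its order. -/
theorem cyclic_unique {C : Type*} [Group C] [Finite C] [IsCyclic C] (p β : ℕ) (hp : p.Prime)
    (hdiv : p ^ β ∣ Nat.card C) :
    Nat.card {K : Subgroup C // Nat.card K = p ^ β} = 1 := by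
  classical
  have : Fact p.Prime := ⟨hp⟩
  have : Fintype C := Fintype.ofFinite C
  have hppos : 0 < p ^ β := pos_of_ne_zero (pow_ne_zero _ hp.ne_zero)
  rw [Nat.card_eq_one_iff_unique]
  constructor
  · constructor
    have key : ∀ K : Subgroup C, Nat.card K = p ^ β →
        (K : Set C) = {a : C | a ^ (p ^ β) = 1} := by
      intro K hK
      apply Set.eq_of_subset_of_ncard_le _ _ (Set.toFinite _)
      · intro a ha
        have h1 : (⟨a, ha⟩ : K) ^ Nat.card K = 1 := pow_card_eq_one'
        rw [hK] at h1
        exact congrArg Subtype.val h1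
      · have h2 := IsCyclic.card_pow_eq_one_le (α := C) hppos
        rw [← Nat.card_coe_set_eq (K : Set C)]
        show _ ≤ Nat.card K
        rw [hK]
        calc ({a : C | a ^ (p ^ β) = 1} : Set C).ncard
            = (Finset.univ.filter (fun a : C => a ^ (p ^ β) = 1)).card := by
              rw [← Set.ncard_coe_finset]; congr 1; ext a; simp
          _ ≤ p ^ β := h2
    rintro ⟨K₁, h₁⟩ ⟨K₂, h₂⟩
    apply Subtype.ext
    apply SetLike.coe_injective
    rw [key K₁ h₁, key K₂ h₂]
  · obtain ⟨K, hK⟩ := Sylow.exists_subgroup_card_pow_prime p hdiv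
    exact ⟨⟨K, hK⟩⟩

/-- Let `p` be a prime and `G` a finite group whose order is divisible by `p ^ β`. Then the number of subgroups of `G` of order `p ^ β` is congruent to `1` modulo `p`. (When `p ^ β` is the full power of `p` dividing the order, these are the Sylow `p`-subgroups and this is the usual Sylow count.) -/
theorem result {G : Type*} [Group G] [Finite G] (p β : ℕ) (hp : p.Prime) (hdiv : p ^ β ∣ Nat.card G) : Nat.card {H : Subgroup G // Nat.card H = p ^ β} ≡ 1 [MOD p] := by
  obtain ⟨m, hm⟩ := hdiv
  have hn : Nat.card G ≠ 0 := Nat.card_pos.ne'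
  have hm0 : m ≠ 0 := by
    rintro rfl
    rw [mul_zero] at hm
    exact hn hm
  have : NeZero (Nat.card G) := ⟨hn⟩
  have hCG : Nat.card (Multiplicative (ZMod (Nat.card G))) = Nat.card G := by
    rw [Nat.card_congr Multiplicative.toAdd, Nat.card_zmod]
  have hC : Nat.card (Multiplicative (ZMod (Nat.card G))) = p ^ β * m := by rw [hCG, hm]
  have h1 := wielandt_count p β m hp hm
  have h2 := wielandt_count (G := Multiplicative (ZMod (Nat.card G))) p β m hp hC
  obtain ⟨e⟩ := Finite.card_eq.mp hCG.symm
  have h3 : Nat.card {S : Set G // S.ncard = p ^ β}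
      = Nat.card {S : Set (Multiplicative (ZMod (Nat.card G))) // S.ncard = p ^ β} := by
    apply Nat.card_congr
    refine Equiv.subtypeEquiv (Equiv.Set.congr e) (fun S => ?_)
    show S.ncard = p ^ β ↔ (e '' S).ncard = p ^ β
    rw [Set.ncard_image_of_injective _ e.injective]
  have h4 := cyclic_unique (C := Multiplicative (ZMod (Nat.card G))) p β hp (by rw [hC]; exact dvd_mul_right _ _)
  rw [h3] at h1
  rw [h4] at h2
  have h5 : Nat.card {H : Subgroup G // Nat.card H = p ^ β} * m ≡ 1 * m [MOD p * m] :=
    h1.symm.trans h2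
  exact Nat.ModEq.mul_right_cancel' hm0 h5

end Cfsg.Agent.S3975
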