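import Mathlib
import Cfsg.Statements.S3977
import Cfsg.Agent.S3975
import Cfsg.Agent.Lib.Helper18.UniqueInvolution

set_option autoImplicit false
open Cfsg

namespace Cfsg.Agent.S3977

open Cfsg.Agent.Lib.Helper18.UniqueInvolution

/-- Let `p` be a prime and `G` a group of order `p ^ m` which has exactly one subgroup of order `p ^ s`, where `1 ≤ s < m`, and where `s ≥ 2` if `p = 2`. Then `G` is cyclic. (For `p = 2` and `s = 1` the generalized quaternion groups also occur; that case is the classical criterion for a unique involution.) -/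
theorem result {G : Type*} [Group G] [Finite G] (p m s : ℕ) (hp : p.Prime) (hG : Nat.card G = p ^ m) (hs : 1 ≤ s) (hsm : s < m) (h2 : p ≠ 2 ∨ 2 ≤ s) (huniq : ∀ H K : Subgroup G, Nat.card H = p ^ s → Nat.card K = p ^ s → H = K) : IsCyclic G := by
  have : Fact p.Prime := ⟨hp⟩
  have hPG : IsPGroup p G := IsPGroup.of_card hG
  have hdvd : p ^ s ∣ Nat.card G := by rw [hG]; exact pow_dvd_pow p hsm.le
  obtain ⟨H, hH⟩ := Sylow.exists_subgroup_card_pow_prime p hdvd
  have hle : ∀ (K : Subgroup G) (j : ℕ), Nat.card K = p ^ j → j ≤ s → K ≤ H := by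
    intro K j hK hj
    obtain ⟨L, hL, hKL⟩ := Sylow.exists_subgroup_card_pow_prime_le p hdvd K hK hj
    rw [huniq H L hH hL]; exact hKL
  have hHne : H ≠ ⊤ := by
    intro hHtop
    rw [hHtop, Subgroup.card_top, hG] at hH
    have := Nat.pow_right_injective hp.two_le hH
    omega
  have hex : ∃ x : G, ∃ j, s < j ∧ orderOf x = p ^ j := by
    by_contra hcon
    push Not at hcon
    apply hHne
    rw [eq_top_iff]
    intro x _
    obtain ⟨j, hj⟩ := (IsPGroup.iff_orderOf.mp hPG) x
    have hjs : j ≤ s := by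
      by_contra h
      exact hcon x j (not_le.mp h) hj
    exact hle (Subgroup.zpowers x) j (by rw [Nat.card_zpowers, hj]) hjs (Subgroup.mem_zpowers x)
  obtain ⟨x, j, hj, hx⟩ := hex
  have hHcyc : H = Subgroup.zpowers (x ^ (p ^ (j - s))) := by
    apply huniq _ _ hH
    rw [Nat.card_zpowers, orderOf_pow' _ (pow_ne_zero _ hp.ne_zero), hx]
    have h1 : p ^ j = p ^ (j - s) * p ^ s := by rw [← pow_add]; congr 1; omega
    have h3 : Nat.gcd (p ^ j) (p ^ (j - s)) = p ^ (j - s) :=
      Nat.gcd_eq_right (pow_dvd_pow p (Nat.sub_le j s))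
    rw [h3]
    conv_lhs => rw [h1]
    exact Nat.mul_div_cancel_left _ (pos_of_ne_zero (pow_ne_zero _ hp.ne_zero))
  have hHc : IsCyclic H := by rw [hHcyc]; infer_instance
  have huniq1 : ∀ A B : Subgroup G, Nat.card A = p → Nat.card B = p → A = B := by
    intro A B hA hB
    have hA' := hle A 1 (by rw [hA, pow_one]) hs
    have hB' := hle B 1 (by rw [hB, pow_one]) hs
    have hcA : Nat.card (A.subgroupOf H) = p ^ 1 := by
      rw [Nat.card_congr (Subgroup.subgroupOfEquivOfLe hA').toEquiv, hA, pow_one]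
    have hcB : Nat.card (B.subgroupOf H) = p ^ 1 := by
      rw [Nat.card_congr (Subgroup.subgroupOfEquivOfLe hB').toEquiv, hB, pow_one]
    have hdiv1 : p ^ 1 ∣ Nat.card H := by
      rw [hH]; exact pow_dvd_pow p hs
    have h1 := Cfsg.Agent.S3975.cyclic_unique (C := H) p 1 hp hdiv1
    rw [Nat.card_eq_one_iff_unique] at h1
    have h3 : (⟨A.subgroupOf H, hcA⟩ : {K : Subgroup H // Nat.card K = p ^ 1})
        = ⟨B.subgroupOf H, hcB⟩ := h1.1.elim _ _
    have h4 : A.subgroupOf H = B.subgroupOf H := congrArg Subtype.val h3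
    rw [Subgroup.subgroupOf_inj, inf_eq_left.mpr hA', inf_eq_left.mpr hB'] at h4
    exact h4
  rcases cyclic_or_quaternion_of_unique p hPG (ncard_pow_le_of_unique p huniq1) with hc | ⟨hp2, n, ⟨e⟩⟩
  · exact hc
  · exfalso
    subst hp2
    have hs2 : 2 ≤ s := by
      rcases h2 with h | h
      · exact absurd rfl h
      · exact h
    have h4 : ∀ g : G, orderOf g = 4 → g ∈ H := by
      intro g hg
      exact hle (Subgroup.zpowers g) 2 (by rw [Nat.card_zpowers, hg]; norm_num) hs2
        (Subgroup.mem_zpowers g)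
    have hxa : ∀ i : ZMod (2 * 2 ^ n), e.symm (QuaternionGroup.xa i) ∈ H := by
      intro i
      apply h4
      rw [MulEquiv.orderOf_eq, QuaternionGroup.orderOf_xa]
    apply hHne
    rw [eq_top_iff]
    intro g _
    have hg : g = e.symm (e g) := (e.symm_apply_apply g).symm
    rw [hg]
    rcases e g with k | k
    · have h5 : (QuaternionGroup.a k : QuaternionGroup (2 ^ n))
          = QuaternionGroup.xa 0 * QuaternionGroup.xa (k - ((2 ^ n : ℕ) : ZMod (2 * 2 ^ n))) := by
        rw [QuaternionGroup.xa_mul_xa]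
        congr 1
        ring
      rw [h5, map_mul]
      exact H.mul_mem (hxa _) (hxa _)
    · exact hxa k

end Cfsg.Agent.S3977
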