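import Mathlib
import Cfsg.Statements.S3983
import Cfsg.Agent.Lib.Helper21.TI

set_option autoImplicit false
open scoped Pointwise
open Cfsg

namespace Cfsg.Agent.S3983

open Cfsg.Agent.Lib.Helper21.TI Cfsg.Agent.Lib.Helper21.Compl

/-- Let P be a Sylow p-subgroup of the finite group G that meets each conjugate g P g⁻¹ with g outside N_G(P) trivially, and let U be a subgroup of G of order divisible by p. Then a Sylow p-subgroup Q of U has the same property inside U: Q meets each conjugate u Q u⁻¹ with u ∈ U outside N_U(Q) trivially. -/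
theorem result {G : Type*} [Group G] [Finite G] (p : ℕ) [Fact p.Prime] (P : Sylow p G) (hTI : ∀ g : G, g ∉ Subgroup.normalizer ((P : Subgroup G) : Set G) → (P : Subgroup G) ⊓ (MulAut.conj g • (P : Subgroup G)) = ⊥) (U : Subgroup G) (hU : p ∣ Nat.card ↥U) (Q : Sylow p ↥U) : ∀ u : ↥U, u ∉ Subgroup.normalizer ((Q : Subgroup ↥U) : Set ↥U) → (Q : Subgroup ↥U) ⊓ (MulAut.conj u • (Q : Subgroup ↥U)) = ⊥ := by
  rw [ti_iff]
  intro u z hz huz hz1
  have hQ' : IsPGroup p ((Q : Subgroup U).map U.subtype) := Q.isPGroup'.map _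
  obtain ⟨P₁, hP₁⟩ := hQ'.exists_le_sylow
  have hTI₁ := ti_sylow P hTI P₁
  have hQeq : (P₁ : Subgroup G).subgroupOf U = (Q : Subgroup U) := by
    apply Q.is_maximal' (P₁.isPGroup'.comap_subtype)
    intro q hq
    show (q : G) ∈ (P₁ : Subgroup G)
    exact hP₁ (Subgroup.mem_map_of_mem _ hq)
  have hu : (u : G) ∈ Subgroup.normalizer ((P₁ : Subgroup G) : Set G) := by
    apply hTI₁ (u : G) (z : G)
    · exact hP₁ (Subgroup.mem_map_of_mem _ hz)
    · exact hP₁ (Subgroup.mem_map_of_mem U.subtype huz)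
    · intro h
      exact hz1 (Subtype.ext h)
  apply Cfsg.Agent.Lib.Helper21.Engel.mem_normalizer_of_conj_le
  intro d hd
  rw [← hQeq, Subgroup.mem_subgroupOf] at hd ⊢
  exact (Subgroup.mem_set_normalizer_iff.mp hu d).mp hd

end Cfsg.Agent.S3983
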