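import Mathlib
import Cfsg.Statements.S3985
import Cfsg.Agent.Lib.Helper21.TI
import Cfsg.Agent.Lib.Helper21.PiTools2

set_option autoImplicit false
open scoped Pointwise
open Cfsg

namespace Cfsg.Agent.S3985

open Cfsg.Agent.Lib.Helper21.TI Cfsg.Agent.Lib.Helper21.Compl
open Cfsg.Agent.Lib.Helper21.PiTools Cfsg.Agent.Lib.Helper21.PiTools2

/-- An element of order prime to `p` that normalizes the cyclic `p`-group `⟨y₀⟩` of order `p ^ n`
and fixes a non-identity element of it centralizes `y₀`. -/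
theorem commute_gen {G : Type*} [Group G] [Finite G] (p : ℕ) (hp : p.Prime) (y₀ b x : G) (n : ℕ)
    (hord : orderOf y₀ = p ^ n) (hb : ¬ p ∣ orderOf b)
    (hby : b * y₀ * b⁻¹ ∈ Subgroup.zpowers y₀) (hx : x ∈ Subgroup.zpowers y₀) (hx1 : x ≠ 1)
    (hbx : b * x = x * b) : b * y₀ = y₀ * b := by
  obtain ⟨m, hm⟩ := Subgroup.mem_zpowers_iff.mp hby
  obtain ⟨s, hs⟩ := Subgroup.mem_zpowers_iff.mp hx
  have hiter : ∀ j : ℕ, b ^ j * y₀ * (b ^ j)⁻¹ = y₀ ^ (m ^ j) := by
    intro j
    induction j with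
    | zero => simp
    | succ j ih =>
      calc b ^ (j + 1) * y₀ * (b ^ (j + 1))⁻¹ = b * (b ^ j * y₀ * (b ^ j)⁻¹) * b⁻¹ := by
            rw [pow_succ']
            group
        _ = b * y₀ ^ (m ^ j) * b⁻¹ := by rw [ih]
        _ = (b * y₀ * b⁻¹) ^ (m ^ j) := by rw [conj_zpow]
        _ = (y₀ ^ m) ^ (m ^ j) := by rw [hm]
        _ = y₀ ^ (m ^ (j + 1)) := by rw [← zpow_mul, pow_succ']
  have hxfix : (y₀ ^ m) ^ s = y₀ ^ s := by
    rw [hm, conj_zpow, hs, hbx]
    group
  rw [← zpow_mul, zpow_eq_zpow_iff_modEq, hord] at hxfix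
  have hdvd : ((p ^ n : ℕ) : ℤ) ∣ s * (m - 1) := by
    have h1 := hxfix.symm.dvd
    have h2 : s * (m - 1) = m * s - s := by ring
    rw [h2]
    exact h1
  have hs' : ¬ ((p ^ n : ℕ) : ℤ) ∣ s := by
    intro h
    apply hx1
    rw [← hs]
    rw [← hord] at h
    exact orderOf_dvd_iff_zpow_eq_one.mp h
  have hpm : (p : ℤ) ∣ m - 1 := by
    by_contra hnd
    apply hs'
    have hcop : IsCoprime ((p ^ n : ℕ) : ℤ) (m - 1) := by
      push_cast
      apply IsCoprime.pow_left
      exact (Nat.prime_iff_prime_int.mp hp).coprime_iff_not_dvd.mpr hnd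
    exact hcop.dvd_of_dvd_mul_right hdvd
  have hn0 : n ≠ 0 := by
    rintro rfl
    apply hs'
    simp
  obtain ⟨k, rfl⟩ : ∃ k, n = k + 1 := ⟨n - 1, by omega⟩
  have hpow := dvd_sub_pow_of_dvd_sub hpm k
  rw [one_pow] at hpow
  have hbk : b ^ (p ^ k) * y₀ * (b ^ (p ^ k))⁻¹ = y₀ := by
    rw [hiter]
    have h1 : y₀ ^ (m ^ p ^ k) = y₀ ^ (1 : ℤ) := by
      rw [zpow_eq_zpow_iff_modEq, hord]
      apply Int.ModEq.symm
      rw [Int.modEq_iff_dvd]
      push_cast
      exact hpow
    rw [h1, zpow_one]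
  have hbkC : b ^ (p ^ k) ∈ Subgroup.centralizer ({y₀} : Set G) := by
    rw [Subgroup.mem_centralizer_singleton_iff]
    calc b ^ (p ^ k) * y₀ = (b ^ (p ^ k) * y₀ * (b ^ (p ^ k))⁻¹) * b ^ (p ^ k) := by group
      _ = y₀ * b ^ (p ^ k) := by rw [hbk]
  have hbC : b ∈ Subgroup.centralizer ({y₀} : Set G) :=
    mem_of_pow_mem _ b (p ^ k) hbkC
      (Nat.Coprime.pow_left k ((Nat.Prime.coprime_iff_not_dvd hp).mpr hb))
  exact Subgroup.mem_centralizer_singleton_iff.mp hbC

/-- Let P be a cyclic Sylow p-subgroup of the finite group G. Then P meets each conjugate g P g⁻¹ with g outside N_G(P) trivially if and only if P is weakly self-centralizing: C_G(x) = C_G(P) for every non-identity x ∈ P. -/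
theorem result {G : Type*} [Group G] [Finite G] (p : ℕ) [Fact p.Prime] (P : Sylow p G) (hcyc : IsCyclic ↥(P : Subgroup G)) : (∀ g : G, g ∉ Subgroup.normalizer ((P : Subgroup G) : Set G) → (P : Subgroup G) ⊓ (MulAut.conj g • (P : Subgroup G)) = ⊥) ↔ ∀ x : G, x ∈ (P : Subgroup G) → x ≠ 1 → Subgroup.centralizer ({x} : Set G) = Subgroup.centralizer ((P : Subgroup G) : Set G) := by
  have hp : p.Prime := Fact.out
  rw [ti_iff]
  obtain ⟨⟨y₀, hy₀P⟩, hgen'⟩ := hcyc.exists_generator
  have hgen : ∀ h ∈ (P : Subgroup G), h ∈ Subgroup.zpowers y₀ := by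
    intro h hh
    obtain ⟨i, hi⟩ := Subgroup.mem_zpowers_iff.mp (hgen' ⟨h, hh⟩)
    rw [Subgroup.mem_zpowers_iff]
    refine ⟨i, ?_⟩
    have h1 := congrArg Subtype.val hi
    simpa using h1
  have hPcomm : ∀ a ∈ (P : Subgroup G), ∀ b ∈ (P : Subgroup G), a * b = b * a := by
    intro a ha b hb
    obtain ⟨i, rfl⟩ := Subgroup.mem_zpowers_iff.mp (hgen a ha)
    obtain ⟨j, rfl⟩ := Subgroup.mem_zpowers_iff.mp (hgen b hb)
    exact ((Commute.refl y₀).zpow_zpow i j).eq
  obtain ⟨n, hn⟩ := IsPGroup.iff_card.mp P.isPGroup'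
  have hord : orderOf y₀ = p ^ n := by
    have h1 := orderOf_eq_card_of_forall_mem_zpowers hgen'
    rw [Subgroup.orderOf_mk] at h1
    rw [h1, hn]
  -- a `p`-subgroup normalizing `P` lies in `P`
  have hmax : ∀ K : Subgroup G, IsPGroup p K → K ≤ Subgroup.normalizer ((P : Subgroup G) : Set G) →
      K ≤ (P : Subgroup G) := by
    intro K hK hKN
    have hsup : IsPGroup p ((P : Subgroup G) ⊔ K : Subgroup G) :=
      IsPGroup.to_sup_of_normal_left' P.isPGroup' hK hKN
    have h1 := P.is_maximal' hsup le_sup_left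
    rw [← h1]
    exact le_sup_right
  constructor
  · intro hTI x hx hx1
    apply le_antisymm
    · intro c hc
      rw [Subgroup.mem_centralizer_singleton_iff] at hc
      have hcN : c ∈ Subgroup.normalizer ((P : Subgroup G) : Set G) := by
        apply hTI c x hx _ hx1
        have h1 : c⁻¹ * x * c = x := by
          rw [mul_assoc, ← hc]
          group
        rw [h1]
        exact hx
      obtain ⟨a, b, ha, hb, hab, ⟨ka, hka⟩, hbp⟩ := p_decomp p hp c
      have hcle : Subgroup.zpowers c ≤ Subgroup.normalizer ((P : Subgroup G) : Set G) := by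
        rw [Subgroup.zpowers_le]
        exact hcN
      have hcle' : Subgroup.zpowers c ≤ Subgroup.centralizer ({x} : Set G) := by
        rw [Subgroup.zpowers_le, Subgroup.mem_centralizer_singleton_iff]
        exact hc
      have haP : a ∈ (P : Subgroup G) := by
        apply hmax (Subgroup.zpowers a)
          (IsPGroup.of_card (n := ka) (by rw [Nat.card_zpowers, hka]))
        · rw [Subgroup.zpowers_le]
          exact hcle ha
        · exact Subgroup.mem_zpowers a
      have hby : b * y₀ = y₀ * b := by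
        apply commute_gen p hp y₀ b x n hord hbp
        · exact hgen _ ((Subgroup.mem_set_normalizer_iff.mp (hcle hb) y₀).mp hy₀P)
        · exact hgen x hx
        · exact hx1
        · exact Subgroup.mem_centralizer_singleton_iff.mp (hcle' hb)
      rw [Subgroup.mem_centralizer_iff]
      intro h hh
      obtain ⟨i, rfl⟩ := Subgroup.mem_zpowers_iff.mp (hgen h hh)
      rw [hab]
      have h1 : y₀ ^ i * a = a * y₀ ^ i := hPcomm _ hh a haP
      have h2 : y₀ ^ i * b = b * y₀ ^ i := ((show Commute y₀ b from hby.symm).zpow_left i).eq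
      calc y₀ ^ i * (a * b) = (y₀ ^ i * a) * b := by group
        _ = a * (y₀ ^ i * b) := by rw [h1]; group
        _ = a * b * y₀ ^ i := by rw [h2]; group
    · intro c hc
      rw [Subgroup.mem_centralizer_singleton_iff]
      exact (Subgroup.mem_centralizer_iff.mp hc x hx).symm
  · intro hC g w hw hgw hw1
    have hCw := hC w hw hw1
    have hle : MulAut.conj g • (P : Subgroup G) ≤ (P : Subgroup G) := by
      apply hmax
      · have h1 : IsPGroup p ((P : Subgroup G).map (MulAut.conj g).toMonoidHom) :=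
          P.isPGroup'.map _
        exact h1
      · intro d hd
        rw [mem_conj_smul] at hd
        have h2 : (g⁻¹ * d * g) * (g⁻¹ * w * g) = (g⁻¹ * w * g) * (g⁻¹ * d * g) :=
          hPcomm _ hd _ hgw
        have h3 : d * w = w * d := by
          calc d * w = g * ((g⁻¹ * d * g) * (g⁻¹ * w * g)) * g⁻¹ := by group
            _ = g * ((g⁻¹ * w * g) * (g⁻¹ * d * g)) * g⁻¹ := by rw [h2]
            _ = w * d := by group
        have h4 : d ∈ Subgroup.centralizer ({w} : Set G) :=
          Subgroup.mem_centralizer_singleton_iff.mpr h3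
        rw [hCw] at h4
        apply Cfsg.Agent.Lib.Helper21.Engel.mem_normalizer_of_conj_le
        intro h hh
        have h5 : h * d = d * h := Subgroup.mem_centralizer_iff.mp h4 h hh
        have h6 : d * h * d⁻¹ = h := by
          rw [← h5]
          group
        rw [h6]
        exact hh
    apply Cfsg.Agent.Lib.Helper21.Engel.mem_normalizer_of_conj_le
    intro d hd
    apply hle
    rw [mem_conj_smul]
    have h1 : g⁻¹ * (g * d * g⁻¹) * g = d := by group
    rw [h1]
    exact hd

end Cfsg.Agent.S3985
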