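import Mathlib
import Cfsg.Statements.S4010

namespace Cfsg.Agent.S4010

open scoped commutatorElement

universe u v w

section basics

variable {K : Type v} [Field K] {V : Type w} [AddCommGroup V] [Module K V]
variable {P : Type u} [Group P]

theorem rho_mul_apply (ρ : P →* Module.End K V) (g h : P) (v : V) :
    ρ (g * h) v = ρ g (ρ h v) := by
  rw [map_mul]; rfl

theorem rho_one_apply (ρ : P →* Module.End K V) (v : V) : ρ 1 v = v := by
  rw [map_one]; rfl

theorem rho_injective (ρ : P →* Module.End K V) (a : P) : Function.Injective (ρ a) := by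
  intro v v' h
  have := congrArg (ρ a⁻¹) h
  rwa [← rho_mul_apply, ← rho_mul_apply, inv_mul_cancel, rho_one_apply, rho_one_apply] at this

end basics

/-- A finite `p`-group acting additively on a nontrivial abelian group of exponent `p` has a
nonzero fixed point (version with a given `ZMod p`-module structure). -/
theorem kolchin_fix' {P : Type u} [Group P] [Finite P] {p : ℕ} [Fact p.Prime] (hP : IsPGroup p P)
    {A : Type v} [AddCommGroup A] [Module (ZMod p) A] [Nontrivial A] (hpA : ∀ a : A, p • a = 0)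
    (σ : P → A →+ A) (h1 : ∀ a, σ 1 a = a) (hmul : ∀ g h a, σ (g * h) a = σ g (σ h a)) :
    ∃ a : A, a ≠ 0 ∧ ∀ g, σ g a = a := by
  classical
  obtain ⟨w₀, hw₀⟩ := exists_ne (0 : A)
  obtain ⟨B, hB⟩ : ∃ B : Submodule (ZMod p) A,
      B = Submodule.span (ZMod p) (Set.range fun g => σ g w₀) := ⟨_, rfl⟩
  haveI : Module.Finite (ZMod p) ↥B := by
    rw [hB]; exact FiniteDimensional.span_of_finite (ZMod p) (Set.finite_range _)
  haveI : Finite ↥B := Module.finite_of_finite (ZMod p)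
  have hinv : ∀ g, ∀ b ∈ B, σ g b ∈ B := by
    intro g b hb
    rw [hB] at hb ⊢
    refine Submodule.span_induction ?_ ?_ ?_ ?_ hb
    · rintro _ ⟨h, rfl⟩
      exact Submodule.subset_span ⟨g * h, (hmul g h w₀)⟩
    · rw [map_zero]; exact Submodule.zero_mem _
    · intro x y _ _ hx hy
      rw [map_add]; exact Submodule.add_mem _ hx hy
    · intro c x _ hx
      rw [ZMod.map_smul]
      exact Submodule.smul_mem _ c hx
  letI : MulAction P B :=
    { smul := fun g b => ⟨σ g b.1, hinv g b.1 b.2⟩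
      one_smul := fun b => Subtype.ext (h1 b.1)
      mul_smul := fun g h b => Subtype.ext (hmul g h b.1) }
  have hmod := hP.card_modEq_card_fixedPoints (α := B)
  have hw₀B : w₀ ∈ B := by rw [hB]; exact Submodule.subset_span ⟨1, h1 w₀⟩
  have hdvd : p ∣ Nat.card B := by
    have : addOrderOf (⟨w₀, hw₀B⟩ : B) = p := by
      apply addOrderOf_eq_prime
      · apply Subtype.ext
        simp [hpA]
      · intro h; exact hw₀ (congrArg Subtype.val h)
    have h := addOrderOf_dvd_natCard (⟨w₀, hw₀B⟩ : B)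
    rw [this] at h; exact h
  have hdvd2 : p ∣ Nat.card (MulAction.fixedPoints P B) :=
    (Nat.modEq_zero_iff_dvd.mp ((hmod.symm.trans (Nat.modEq_zero_iff_dvd.mpr hdvd))))
  have h0 : (0 : B) ∈ MulAction.fixedPoints P B := by
    intro g; exact Subtype.ext (map_zero (σ g))
  by_contra hcon
  push Not at hcon
  have hall0 : ∀ a : B, a ∈ MulAction.fixedPoints P B → a = 0 := by
    intro a ha
    by_contra hne
    obtain ⟨g, hg⟩ := hcon a.1 (fun h => hne (Subtype.ext h))
    exact hg (congrArg Subtype.val (ha g))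
  have hsub : Subsingleton (MulAction.fixedPoints P B) := by
    constructor
    rintro ⟨a, ha⟩ ⟨b, hb⟩
    apply Subtype.ext
    exact (hall0 a ha).trans (hall0 b hb).symm
  have hle : Nat.card (MulAction.fixedPoints P B) ≤ 1 := Finite.card_le_one_iff_subsingleton.mpr hsub
  have hpos : 0 < Nat.card (MulAction.fixedPoints P B) := by
    haveI : Nonempty (MulAction.fixedPoints P B) := ⟨⟨0, h0⟩⟩
    exact Nat.card_pos
  have h2 := (Fact.out : p.Prime).two_le
  have := Nat.le_of_dvd hpos hdvd2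
  omega

/-- A finite `p`-group acting additively on a nontrivial abelian group of exponent `p` has a
nonzero fixed point. -/
theorem kolchin_fix {P : Type u} [Group P] [Finite P] {p : ℕ} [Fact p.Prime] (hP : IsPGroup p P)
    {A : Type v} [AddCommGroup A] [Nontrivial A] (hpA : ∀ a : A, p • a = 0)
    (σ : P → A →+ A) (h1 : ∀ a, σ 1 a = a) (hmul : ∀ g h a, σ (g * h) a = σ g (σ h a)) :
    ∃ a : A, a ≠ 0 ∧ ∀ g, σ g a = a :=
  @kolchin_fix' P _ _ p _ hP A _ (AddCommGroup.zmodModule hpA) _ hpA σ h1 hmul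

section charp

variable {K : Type v} [Field K] {V : Type w} [AddCommGroup V] [Module K V]
variable {P : Type u} [Group P]

/-- The ascending fixed-point filtration. -/
noncomputable def fil (ρ : P →* Module.End K V) : ℕ → Submodule K V
  | 0 => ⊥
  | (i + 1) => ⨅ g : P, (fil ρ i).comap (ρ g - 1)

theorem fil_zero (ρ : P →* Module.End K V) : fil ρ 0 = ⊥ := rfl

theorem mem_fil_succ (ρ : P →* Module.End K V) (i : ℕ) (v : V) :
    v ∈ fil ρ (i + 1) ↔ ∀ g, ρ g v - v ∈ fil ρ i := by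
  show v ∈ ⨅ g : P, (fil ρ i).comap (ρ g - 1) ↔ _
  rw [Submodule.mem_iInf]
  rfl

theorem fil_inv (ρ : P →* Module.End K V) : ∀ (i : ℕ) (h : P) (v : V), v ∈ fil ρ i → ρ h v ∈ fil ρ i := by
  intro i
  induction i with
  | zero =>
    intro h v hv
    rw [fil_zero, Submodule.mem_bot] at hv ⊢
    rw [hv, map_zero]
  | succ i ih =>
    intro h v hv
    rw [mem_fil_succ] at hv ⊢
    intro g
    have h1 := ih h _ (hv (h⁻¹ * g * h))
    have e : ρ h (ρ (h⁻¹ * g * h) v - v) = ρ g (ρ h v) - ρ h v := by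
      rw [map_sub, ← rho_mul_apply ρ h (h⁻¹ * g * h) v, ← rho_mul_apply ρ g h v]
      congr 3
      group
    rwa [e] at h1

theorem fil_le_succ (ρ : P →* Module.End K V) : ∀ i, fil ρ i ≤ fil ρ (i + 1) := by
  intro i
  induction i with
  | zero => rw [fil_zero]; exact bot_le
  | succ i ih =>
    intro v hv
    rw [mem_fil_succ] at hv ⊢
    intro g; exact ih (hv g)

theorem fil_grow [Finite P] {p : ℕ} [Fact p.Prime] (hP : IsPGroup p P) (hpK : (p : K) = 0)
    (ρ : P →* Module.End K V) (i : ℕ) (hne : fil ρ i ≠ ⊤) :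
    ∃ v, v ∈ fil ρ (i + 1) ∧ v ∉ fil ρ i := by
  haveI : Nontrivial (V ⧸ fil ρ i) := Submodule.Quotient.nontrivial_iff.mpr hne
  have hinv : ∀ g, fil ρ i ≤ (fil ρ i).comap (ρ g) := fun g v hv => fil_inv ρ i g v hv
  obtain ⟨a, ha, hfix⟩ := kolchin_fix hP (A := V ⧸ fil ρ i) (fun a => by
      rw [← Nat.cast_smul_eq_nsmul K, hpK, zero_smul])
    (fun g => ((fil ρ i).mapQ (fil ρ i) (ρ g) (hinv g)).toAddMonoidHom)
    (by
      intro a
      obtain ⟨x, rfl⟩ := Submodule.Quotient.mk_surjective _ a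
      show ((fil ρ i).mapQ (fil ρ i) (ρ 1) (hinv 1)) (Submodule.Quotient.mk x) = _
      rw [Submodule.mapQ_apply, rho_one_apply])
    (by
      intro g h a
      obtain ⟨x, rfl⟩ := Submodule.Quotient.mk_surjective _ a
      show ((fil ρ i).mapQ (fil ρ i) (ρ (g * h)) (hinv (g * h))) (Submodule.Quotient.mk x) =
        ((fil ρ i).mapQ (fil ρ i) (ρ g) (hinv g))
          (((fil ρ i).mapQ (fil ρ i) (ρ h) (hinv h)) (Submodule.Quotient.mk x))
      rw [Submodule.mapQ_apply, Submodule.mapQ_apply, Submodule.mapQ_apply, rho_mul_apply])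
  obtain ⟨v, rfl⟩ := Submodule.Quotient.mk_surjective _ a
  refine ⟨v, ?_, ?_⟩
  · rw [mem_fil_succ]; intro g
    have h1 : ((fil ρ i).mapQ (fil ρ i) (ρ g) (hinv g)) (Submodule.Quotient.mk v) =
        Submodule.Quotient.mk v := hfix g
    rw [Submodule.mapQ_apply, Submodule.Quotient.eq] at h1
    exact h1
  · intro hv; exact ha ((Submodule.Quotient.mk_eq_zero _).mpr hv)

theorem fil_top [FiniteDimensional K V] [Finite P] {p : ℕ} [Fact p.Prime] (hP : IsPGroup p P)
    (hpK : (p : K) = 0) (ρ : P →* Module.End K V) : fil ρ (Module.finrank K V) = ⊤ := by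
  have key : ∀ i, fil ρ i = ⊤ ∨ i ≤ Module.finrank K (fil ρ i) := by
    intro i
    induction i with
    | zero => right; exact Nat.zero_le _
    | succ i ih =>
      by_cases hne : fil ρ i = ⊤
      · left; exact top_le_iff.mp (hne ▸ fil_le_succ ρ i)
      · rcases ih with h | h
        · exact absurd h hne
        · right
          obtain ⟨v, hv1, hv2⟩ := fil_grow hP hpK ρ i hne
          have hlt : fil ρ i < fil ρ (i + 1) :=
            lt_of_le_of_ne (fil_le_succ ρ i) (fun he => hv2 (he ▸ hv1))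
          have := Submodule.finrank_lt_finrank_of_lt hlt
          omega
  rcases key (Module.finrank K V) with h | h
  · exact h
  · exact Submodule.eq_top_of_finrank_eq (le_antisymm (Submodule.finrank_le _) h)

/-- Elements shifting the filtration by `j`. -/
def filSub (ρ : P →* Module.End K V) (j : ℕ) : Subgroup P where
  carrier := {g | ∀ i, ∀ v ∈ fil ρ i, ρ g v - v ∈ fil ρ (i - j)}
  one_mem' := by
    intro i v _
    rw [rho_one_apply, sub_self]; exact Submodule.zero_mem _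
  mul_mem' := by
    intro g h hg hh i v hv
    have e : ρ (g * h) v - v = ρ g (ρ h v - v) + (ρ g v - v) := by
      rw [rho_mul_apply, map_sub]; abel
    rw [e]
    exact (fil ρ (i - j)).add_mem (fil_inv ρ _ g _ (hh i v hv)) (hg i v hv)
  inv_mem' := by
    intro g hg i v hv
    have e : ρ g⁻¹ v - v = - ρ g⁻¹ (ρ g v - v) := by
      rw [map_sub, ← rho_mul_apply, inv_mul_cancel, rho_one_apply]; abel
    rw [e]
    exact (fil ρ (i - j)).neg_mem (fil_inv ρ _ g⁻¹ _ (hg i v hv))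

theorem mem_filSub (ρ : P →* Module.End K V) (j : ℕ) (g : P) :
    g ∈ filSub ρ j ↔ ∀ i, ∀ v ∈ fil ρ i, ρ g v - v ∈ fil ρ (i - j) := Iff.rfl

theorem derived_le_filSub (ρ : P →* Module.End K V) :
    ∀ k, derivedSeries P k ≤ filSub ρ (2 ^ k) := by
  intro k
  induction k with
  | zero =>
    intro g _
    rw [mem_filSub]
    intro i v hv
    cases i with
    | zero =>
      rw [fil_zero, Submodule.mem_bot] at hv
      rw [hv, map_zero, sub_self]; exact Submodule.zero_mem _
    | succ i =>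
      have := (mem_fil_succ ρ i v).mp hv g
      simpa using this
  | succ k ih =>
    rw [derivedSeries_succ, Subgroup.commutator_le]
    intro g hg h hh
    have hg' := (mem_filSub ρ _ g).mp (ih hg)
    have hh' := (mem_filSub ρ _ h).mp (ih hh)
    rw [mem_filSub]
    intro i v hv
    obtain ⟨u, hu⟩ : ∃ u, u = ρ (g⁻¹ * h⁻¹) v := ⟨_, rfl⟩
    have hu_mem : u ∈ fil ρ i := by rw [hu]; exact fil_inv ρ i _ v hv
    have hgu : ρ g (ρ h u) = ρ ⁅g, h⁆ v := by
      rw [hu, ← rho_mul_apply ρ h (g⁻¹ * h⁻¹) v, ← rho_mul_apply ρ g _ v]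
      congr 2
      rw [commutatorElement_def]; group
    have hhu : ρ h (ρ g u) = v := by
      rw [hu, ← rho_mul_apply ρ g (g⁻¹ * h⁻¹) v, ← rho_mul_apply ρ h _ v]
      have : h * (g * (g⁻¹ * h⁻¹)) = 1 := by group
      rw [this, rho_one_apply]
    have e : ρ ⁅g, h⁆ v - v =
        (ρ g (ρ h u - u) - (ρ h u - u)) - (ρ h (ρ g u - u) - (ρ g u - u)) := by
      have e1 : ρ g (ρ h u) - ρ h (ρ g u) =
          (ρ g (ρ h u - u) - (ρ h u - u)) - (ρ h (ρ g u - u) - (ρ g u - u)) := by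
        simp only [map_sub]; abel
      rw [← e1, hgu, hhu]
    rw [e]
    have hsub : i - 2 ^ k - 2 ^ k = i - 2 ^ (k + 1) := by rw [pow_succ]; omega
    have m1 := hg' (i - 2 ^ k) _ (hh' i u hu_mem)
    have m2 := hh' (i - 2 ^ k) _ (hg' i u hu_mem)
    rw [hsub] at m1 m2
    exact Submodule.sub_mem _ m1 m2

theorem charp_case [FiniteDimensional K V] [Finite P] {p : ℕ} [Fact p.Prime] (hP : IsPGroup p P)
    (hpK : (p : K) = 0) (ρ : P →* Module.End K V) (hρ : Function.Injective ρ) (k : ℕ)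
    (hk : Module.finrank K V ≤ 2 ^ k) : derivedSeries P k = ⊥ := by
  rw [eq_bot_iff]
  intro g hg
  have h1 := (mem_filSub ρ _ g).mp (derived_le_filSub ρ k hg)
  rw [Subgroup.mem_bot]
  apply hρ
  rw [map_one]
  apply LinearMap.ext
  intro v
  have hv : v ∈ fil ρ (Module.finrank K V) := by rw [fil_top hP hpK ρ]; trivial
  have h2 := h1 _ v hv
  rw [Nat.sub_eq_zero_of_le hk, fil_zero, Submodule.mem_bot] at h2
  rw [sub_eq_zero.mp h2]; rfl

end charp

section grp

variable {P : Type u} [Group P]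

theorem comm_mem_iff (C : Subgroup P) [C.Normal] (a b : P) :
    ⁅a, b⁆ ∈ C ↔ Commute (QuotientGroup.mk' C a) (QuotientGroup.mk' C b) := by
  rw [← commutatorElement_eq_one_iff_commute, ← map_commutatorElement, QuotientGroup.mk'_apply,
    QuotientGroup.eq_one_iff]

theorem exists_second_center [Finite P] {p : ℕ} [Fact p.Prime] (hP : IsPGroup p P)
    (C : Subgroup P) [C.Normal] (hab : ¬ ∀ a b : P, ⁅a, b⁆ ∈ C) :
    ∃ x : P, (∀ h k : P, ⁅⁅x, h⁆, k⁆ ∈ C) ∧ ∃ h : P, ⁅x, h⁆ ∉ C := by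
  have hQ : IsPGroup p (P ⧸ C) := hP.to_quotient C
  have hZne : Subgroup.center (P ⧸ C) ≠ ⊤ := by
    intro htop
    apply hab
    intro a b
    rw [comm_mem_iff]
    have hc : (QuotientGroup.mk' C a) ∈ Subgroup.center (P ⧸ C) := by rw [htop]; trivial
    rw [Subgroup.mem_center_iff] at hc
    exact (hc (QuotientGroup.mk' C b)).symm
  haveI : Nontrivial ((P ⧸ C) ⧸ Subgroup.center (P ⧸ C)) := QuotientGroup.nontrivial_iff.mpr hZne
  have hQ2 : IsPGroup p ((P ⧸ C) ⧸ Subgroup.center (P ⧸ C)) := hQ.to_quotient _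
  haveI := hQ2.center_nontrivial
  obtain ⟨⟨y, hy⟩, hy1⟩ := exists_ne (1 : Subgroup.center ((P ⧸ C) ⧸ Subgroup.center (P ⧸ C)))
  obtain ⟨xb, rfl⟩ := QuotientGroup.mk_surjective y
  obtain ⟨x, rfl⟩ := QuotientGroup.mk_surjective xb
  have hxnc : (QuotientGroup.mk' C x) ∉ Subgroup.center (P ⧸ C) := by
    intro hx
    apply hy1
    apply Subtype.ext
    exact (QuotientGroup.eq_one_iff _).mpr hx
  refine ⟨x, ?_, ?_⟩
  · intro h k
    rw [Subgroup.mem_center_iff] at hy
    have h1 := hy (QuotientGroup.mk' _ (QuotientGroup.mk' C h))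
    have h2 : QuotientGroup.mk' C ⁅x, h⁆ ∈ Subgroup.center (P ⧸ C) := by
      rw [map_commutatorElement, ← QuotientGroup.eq_one_iff, ← QuotientGroup.mk'_apply,
        map_commutatorElement, commutatorElement_eq_one_iff_commute]
      exact h1.symm
    rw [comm_mem_iff]
    rw [Subgroup.mem_center_iff] at h2
    exact (h2 (QuotientGroup.mk' C k)).symm
  · by_contra hcon
    push Not at hcon
    apply hxnc
    rw [Subgroup.mem_center_iff]
    intro q
    obtain ⟨h, rfl⟩ := QuotientGroup.mk_surjective q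
    have := (comm_mem_iff C x h).mp (hcon h)
    exact this.symm

theorem der_sub (H : Subgroup P) (h1 : derivedSeries P 1 ≤ H) :
    ∀ k, derivedSeries P (k + 1) ≤ (derivedSeries ↥H k).map H.subtype := by
  intro k
  induction k with
  | zero =>
    rw [derivedSeries_zero]
    intro g hg
    exact ⟨⟨g, h1 hg⟩, trivial, rfl⟩
  | succ k ih =>
    rw [derivedSeries_succ P (k + 1), derivedSeries_succ ↥H k, Subgroup.map_commutator]
    exact Subgroup.commutator_mono ih ih

end grp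

section semis

variable {K : Type v} [Field K] {V : Type w} [AddCommGroup V] [Module K V]
variable {P : Type u} [Group P]

/-- Elements acting trivially on `W`. -/
def fixSub (ρ : P →* Module.End K V) (W : Submodule K V) : Subgroup P where
  carrier := {g | ∀ w ∈ W, ρ g w = w}
  one_mem' := fun w _ => rho_one_apply ρ w
  mul_mem' := by
    intro g h hg hh w hw
    rw [rho_mul_apply, hh w hw, hg w hw]
  inv_mem' := by
    intro g hg w hw
    have h1 := hg w hw
    calc ρ g⁻¹ w = ρ g⁻¹ (ρ g w) := by rw [h1]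
      _ = w := by rw [← rho_mul_apply, inv_mul_cancel, rho_one_apply]

theorem mem_fixSub (ρ : P →* Module.End K V) (W : Submodule K V) (g : P) :
    g ∈ fixSub ρ W ↔ ∀ w ∈ W, ρ g w = w := Iff.rfl

theorem fixSub_normal (ρ : P →* Module.End K V) (W : Submodule K V)
    (hW : ∀ g, ∀ w ∈ W, ρ g w ∈ W) : (fixSub ρ W).Normal :=
  ⟨fun g hg h => by
    rw [mem_fixSub] at hg ⊢
    intro w hw
    rw [rho_mul_apply, rho_mul_apply, hg _ (hW h⁻¹ w hw), ← rho_mul_apply, mul_inv_cancel,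
      rho_one_apply]⟩

/-- Elements commuting with `ρ x` on `W`. -/
def commSub (ρ : P →* Module.End K V) (W : Submodule K V) (hW : ∀ g, ∀ w ∈ W, ρ g w ∈ W)
    (x : P) : Subgroup P where
  carrier := {h | ∀ w ∈ W, ρ x (ρ h w) = ρ h (ρ x w)}
  one_mem' := by intro w _; rw [rho_one_apply, rho_one_apply]
  mul_mem' := by
    intro a b ha hb w hw
    rw [rho_mul_apply ρ a b w, ha _ (hW b w hw), hb w hw, rho_mul_apply ρ a b (ρ x w)]
  inv_mem' := by
    intro a ha w hw
    have h1 := ha (ρ a⁻¹ w) (hW a⁻¹ w hw)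
    rw [← rho_mul_apply ρ a a⁻¹ w, mul_inv_cancel, rho_one_apply] at h1
    rw [h1, ← rho_mul_apply ρ a⁻¹ a, inv_mul_cancel, rho_one_apply]

theorem mem_commSub (ρ : P →* Module.End K V) (W : Submodule K V)
    (hW : ∀ g, ∀ w ∈ W, ρ g w ∈ W) (x h : P) :
    h ∈ commSub ρ W hW x ↔ ∀ w ∈ W, ρ x (ρ h w) = ρ h (ρ x w) := Iff.rfl

theorem diag_of_pgroup [IsAlgClosed K] [FiniteDimensional K V] {p : ℕ} [Fact p.Prime]
    (hP : IsPGroup p P) (hpK : (p : K) ≠ 0) (ρ : P →* Module.End K V) (g : P) :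
    ⨆ μ : K, (ρ g).eigenspace μ = ⊤ := by
  obtain ⟨m, hm⟩ := hP g
  apply Module.End.IsSemisimple.iSup_eigenspace_eq_top
  have hN : ((p ^ m : ℕ) : K) ≠ 0 := by rw [Nat.cast_pow]; exact pow_ne_zero _ hpK
  apply Module.End.isSemisimple_of_squarefree_aeval_eq_zero
    (p := Polynomial.X ^ (p ^ m) - Polynomial.C 1)
    (Polynomial.separable_X_pow_sub_C (1 : K) hN one_ne_zero).squarefree
  simp only [map_sub, map_pow, Polynomial.aeval_X, map_one]
  rw [← map_pow, hm, map_one, sub_self]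

theorem glue [FiniteDimensional K V] (f : Module.End K V) (hf : ⨆ μ : K, f.eigenspace μ = ⊤)
    (W : Submodule K V) (hW : ∀ w ∈ W, f w ∈ W) (T : Module.End K V)
    (hT : ∀ μ : K, ∀ w ∈ W ⊓ f.eigenspace μ, T w = w) : ∀ w ∈ W, T w = w := by
  intro w hw
  have h1 : W ⊓ ⨆ μ : K, f.genEigenspace μ 1 = ⨆ μ : K, W ⊓ f.genEigenspace μ 1 :=
    Submodule.inf_iSup_genEigenspace hW 1
  have h2 : w ∈ ⨆ μ : K, W ⊓ f.eigenspace μ := by
    have h3 : (⨆ μ : K, f.genEigenspace μ 1) = ⊤ := hf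
    rw [h3, inf_top_eq] at h1
    have h4 : w ∈ ⨆ μ : K, W ⊓ f.genEigenspace μ 1 := h1 ▸ hw
    exact h4
  refine Submodule.iSup_induction (fun μ => W ⊓ f.eigenspace μ) (motive := fun w => T w = w) h2
    ?_ ?_ ?_
  · intro μ x hx; exact hT μ x hx
  · exact map_zero T
  · intro x y hx hy; rw [map_add, hx, hy]

theorem semis_key [IsAlgClosed K] [FiniteDimensional K V] (p : ℕ) [Fact p.Prime]
    (hpK : (p : K) ≠ 0) :
    ∀ d : ℕ, ∀ (P : Type u) [Group P] [Finite P], IsPGroup p P →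
      ∀ (ρ : P →* Module.End K V) (W : Submodule K V),
      (∀ g, ∀ w ∈ W, ρ g w ∈ W) → Module.finrank K W = d →
      ∀ g ∈ derivedSeries P (Nat.log 2 d + 1), ∀ w ∈ W, ρ g w = w := by
  intro d
  induction d using Nat.strong_induction_on with
  | _ d ih =>
  intro P _ _ hP ρ W hW hd g hg w hw
  by_cases hd0 : d = 0
  · subst hd0
    have hbot : W = ⊥ := Submodule.finrank_eq_zero.mp hd
    rw [hbot, Submodule.mem_bot] at hw
    rw [hw, map_zero]
  have hdpos : 0 < d := Nat.pos_of_ne_zero hd0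
  obtain ⟨w₁, hw₁W, hw₁⟩ : ∃ w₁ ∈ W, w₁ ≠ 0 := by
    by_contra hcon
    push Not at hcon
    have hbot : W = ⊥ := (Submodule.eq_bot_iff _).mpr hcon
    rw [hbot, finrank_bot] at hd
    omega
  haveI := fixSub_normal ρ W hW
  by_cases hab : ∀ a b : P, ⁅a, b⁆ ∈ fixSub ρ W
  · have h1 : derivedSeries P 1 ≤ fixSub ρ W := by
      rw [derivedSeries_succ P 0, derivedSeries_zero, Subgroup.commutator_le]
      intro a _ b _; exact hab a b
    exact (mem_fixSub ρ W g).mp
      (h1 (derivedSeries_antitone P (Nat.le_add_left 1 _) hg)) w hw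
  obtain ⟨x, hx2, h₀, hx1⟩ := exists_second_center hP (fixSub ρ W) hab
  have hinj : ∀ a : P, Function.Injective (ρ a) := rho_injective ρ
  have hcomm : ∀ h k : P, ∀ w ∈ W, ρ ⁅x, h⁆ (ρ k w) = ρ k (ρ ⁅x, h⁆ w) := by
    intro h k w hw
    have h1 := (mem_fixSub ρ W _).mp (hx2 h k) (ρ k (ρ ⁅x, h⁆ w)) (hW _ _ (hW _ _ hw))
    have e1 : ρ ⁅⁅x, h⁆, k⁆ (ρ k (ρ ⁅x, h⁆ w)) = ρ ⁅x, h⁆ (ρ k w) := by
      rw [← rho_mul_apply ρ k ⁅x, h⁆ w, ← rho_mul_apply ρ _ (k * ⁅x, h⁆) w,
        ← rho_mul_apply ρ ⁅x, h⁆ k w]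
      congr 2
      rw [commutatorElement_def ⁅x, h⁆ k]; group
    rw [e1] at h1
    exact h1
  have hsc_or : ∀ z : P, (∀ k : P, ∀ w ∈ W, ρ z (ρ k w) = ρ k (ρ z w)) →
      (∃ c : K, ∀ w ∈ W, ρ z w = c • w) ∨ (∀ w ∈ W, ρ g w = w) := by
    intro z hz
    by_cases hsc : ∃ c : K, W ≤ (ρ z).eigenspace c
    · left
      obtain ⟨c, hc⟩ := hsc
      exact ⟨c, fun w hw => Module.End.mem_eigenspace_iff.mp (hc hw)⟩
    · right
      push Not at hsc
      apply glue (ρ z) (diag_of_pgroup hP hpK ρ z) W (hW z) (ρ g)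
      intro μ w hw
      have hlt : Module.finrank K ↥(W ⊓ (ρ z).eigenspace μ) < d := by
        rw [← hd]
        apply Submodule.finrank_lt_finrank_of_lt
        refine lt_of_le_of_ne inf_le_left ?_
        intro he
        exact hsc μ (he.symm.le.trans inf_le_right)
      have hinvμ : ∀ a, ∀ w ∈ W ⊓ (ρ z).eigenspace μ, ρ a w ∈ W ⊓ (ρ z).eigenspace μ := by
        intro a w hw
        refine ⟨hW a w hw.1, ?_⟩
        show ρ a w ∈ (ρ z).eigenspace μ
        rw [Module.End.mem_eigenspace_iff, hz a w hw.1, Module.End.mem_eigenspace_iff.mp hw.2,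
          map_smul]
      have hlog : Nat.log 2 (Module.finrank K ↥(W ⊓ (ρ z).eigenspace μ)) + 1 ≤ Nat.log 2 d + 1 := by
        have := Nat.log_mono_right (b := 2) hlt.le
        omega
      exact ih _ hlt P hP ρ _ hinvμ rfl g (derivedSeries_antitone P hlog hg) w hw
  by_cases hall : ∀ h : P, ∃ c : K, ∀ w ∈ W, ρ ⁅x, h⁆ w = c • w
  swap
  · push Not at hall
    obtain ⟨h, hh⟩ := hall
    rcases hsc_or ⁅x, h⁆ (hcomm h) with ⟨c, hc⟩ | hfin
    · obtain ⟨w', hw', hne⟩ := hh c
      exact absurd (hc w' hw') hne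
    · exact hfin w hw
  have hS : ∀ h : P, ∃ c : K, ∀ w ∈ W, ρ x (ρ h w) = c • ρ h (ρ x w) := by
    intro h
    obtain ⟨c, hc⟩ := hall h
    refine ⟨c, fun w hw => ?_⟩
    have h1 := hc (ρ h (ρ x w)) (hW _ _ (hW _ _ hw))
    rw [← h1, ← rho_mul_apply ρ h x w, ← rho_mul_apply ρ ⁅x, h⁆ (h * x) w,
      ← rho_mul_apply ρ x h w]
    congr 2
    rw [commutatorElement_def]; group
  have hS1 : ∀ c : K, (∀ w ∈ W, ρ x (ρ (1 : P) w) = c • ρ (1 : P) (ρ x w)) → c = 1 := by
    intro c hc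
    have h1 := hc w₁ hw₁W
    rw [rho_one_apply, rho_one_apply] at h1
    have hne : ρ x w₁ ≠ 0 := fun h0 => hw₁ (hinj x (by rw [h0, map_zero]))
    by_contra hc1
    have h2 : (1 - c) • ρ x w₁ = 0 := by rw [sub_smul, one_smul, ← h1, sub_self]
    rcases smul_eq_zero.mp h2 with h | h
    · exact hc1 (sub_eq_zero.mp h).symm
    · exact hne h
  have hSmul : ∀ (a b : P) (c c' : K), (∀ w ∈ W, ρ x (ρ a w) = c • ρ a (ρ x w)) →
      (∀ w ∈ W, ρ x (ρ b w) = c' • ρ b (ρ x w)) →
      ∀ w ∈ W, ρ x (ρ (a * b) w) = (c * c') • ρ (a * b) (ρ x w) := by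
    intro a b c c' ha hb w hw
    rw [rho_mul_apply ρ a b w, ha _ (hW b w hw), hb w hw, map_smul, smul_smul,
      rho_mul_apply ρ a b (ρ x w)]
  have hder1 : derivedSeries P 1 ≤ commSub ρ W hW x := by
    rw [derivedSeries_succ P 0, derivedSeries_zero, Subgroup.commutator_le]
    intro a _ b _
    obtain ⟨c1, h1⟩ := hS a
    obtain ⟨c2, h2⟩ := hS b
    obtain ⟨c3, h3⟩ := hS a⁻¹
    obtain ⟨c4, h4⟩ := hS b⁻¹
    have e13 : c1 * c3 = 1 := hS1 _ (by
      have h5 := hSmul a a⁻¹ c1 c3 h1 h3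
      rwa [mul_inv_cancel] at h5)
    have e24 : c2 * c4 = 1 := hS1 _ (by
      have h5 := hSmul b b⁻¹ c2 c4 h2 h4
      rwa [mul_inv_cancel] at h5)
    have hcomm4 := hSmul _ _ _ _ (hSmul _ _ _ _ (hSmul _ _ _ _ h1 h2) h3) h4
    have e : c1 * c2 * c3 * c4 = 1 := by
      calc c1 * c2 * c3 * c4 = (c1 * c3) * (c2 * c4) := by ring
        _ = 1 := by rw [e13, e24, mul_one]
    rw [mem_commSub]
    intro w hw
    have h5 := hcomm4 w hw
    rw [e, one_smul] at h5
    rw [commutatorElement_def]; exact h5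
  have hh₀ : h₀ ∉ commSub ρ W hW x := by
    intro hmem
    apply hx1
    rw [mem_fixSub]
    intro w hw
    have h1 := (mem_commSub ρ W hW x h₀).mp hmem (ρ (x⁻¹ * h₀⁻¹) w) (hW _ w hw)
    have e1 : ρ x (ρ h₀ (ρ (x⁻¹ * h₀⁻¹) w)) = ρ ⁅x, h₀⁆ w := by
      rw [← rho_mul_apply ρ h₀ (x⁻¹ * h₀⁻¹) w, ← rho_mul_apply ρ x _ w]
      congr 2
      rw [commutatorElement_def]; group
    have e2 : ρ h₀ (ρ x (ρ (x⁻¹ * h₀⁻¹) w)) = w := by
      rw [← rho_mul_apply ρ x (x⁻¹ * h₀⁻¹) w, ← rho_mul_apply ρ h₀ _ w]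
      have e3 : h₀ * (x * (x⁻¹ * h₀⁻¹)) = 1 := by group
      rw [e3, rho_one_apply]
    rw [e1, e2] at h1
    exact h1
  obtain ⟨c₀, hc₀⟩ := hS h₀
  have hc₀1 : c₀ ≠ 1 := by
    rintro rfl
    apply hh₀
    rw [mem_commSub]
    intro w hw
    have h1 := hc₀ w hw
    rwa [one_smul] at h1
  have hhalf : ∀ μ : K, 2 * Module.finrank K ↥(W ⊓ (ρ x).eigenspace μ) ≤ d := by
    intro μ
    by_cases hbot : W ⊓ (ρ x).eigenspace μ = ⊥
    · rw [hbot, finrank_bot]; omega
    have hμ0 : μ ≠ 0 := by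
      rintro rfl
      apply hbot
      rw [eq_bot_iff]
      intro v hv
      have h1 : ρ x v = 0 := by
        have h2 := Module.End.mem_eigenspace_iff.mp hv.2
        rwa [zero_smul] at h2
      rw [Submodule.mem_bot]
      exact hinj x (by rw [h1, map_zero])
    obtain ⟨E, hE⟩ : ∃ E : Submodule K V, E = W ⊓ (ρ x).eigenspace μ := ⟨_, rfl⟩
    rw [← hE]
    have hmap_le : E.map (ρ h₀) ≤ W ⊓ (ρ x).eigenspace (c₀ * μ) := by
      rintro _ ⟨v, hv, rfl⟩
      rw [hE] at hv
      refine ⟨hW h₀ v hv.1, ?_⟩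
      show ρ h₀ v ∈ (ρ x).eigenspace (c₀ * μ)
      rw [Module.End.mem_eigenspace_iff, hc₀ v hv.1, Module.End.mem_eigenspace_iff.mp hv.2,
        map_smul, smul_smul]
    have hdisj : Disjoint E (E.map (ρ h₀)) := by
      have hne : μ ≠ c₀ * μ := by
        intro h
        apply hc₀1
        have h1 : (c₀ - 1) * μ = 0 := by rw [sub_mul, one_mul, ← h, sub_self]
        rcases mul_eq_zero.mp h1 with h' | h'
        · exact sub_eq_zero.mp h'
        · exact absurd h' hμ0
      have h2 : Disjoint ((ρ x).eigenspace μ) ((ρ x).eigenspace (c₀ * μ)) :=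
        (Module.End.eigenspaces_iSupIndep (ρ x)).pairwiseDisjoint hne
      exact h2.mono (hE.le.trans inf_le_right) (hmap_le.trans inf_le_right)
    have hsum := Submodule.finrank_sup_add_finrank_inf_eq E (E.map (ρ h₀))
    rw [hdisj.eq_bot, finrank_bot, add_zero] at hsum
    have hle : Module.finrank K ↥(E ⊔ E.map (ρ h₀)) ≤ d := by
      rw [← hd]
      exact Submodule.finrank_mono (sup_le (hE.le.trans inf_le_left) (hmap_le.trans inf_le_left))
    have heq : Module.finrank K ↥(E.map (ρ h₀)) = Module.finrank K E :=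
      (LinearEquiv.finrank_eq (Submodule.equivMapOfInjective (ρ h₀) (hinj h₀) E)).symm
    omega
  have hM := der_sub (commSub ρ W hW x) hder1
  obtain ⟨m, hm, rfl⟩ := hM (Nat.log 2 d) hg
  refine glue (ρ x) (diag_of_pgroup hP hpK ρ x) W (hW x) (ρ ((commSub ρ W hW x).subtype m)) ?_ w hw
  intro μ v hv
  by_cases hbot : W ⊓ (ρ x).eigenspace μ = ⊥
  · rw [hbot, Submodule.mem_bot] at hv
    rw [hv, map_zero]
  have hpos : 0 < Module.finrank K ↥(W ⊓ (ρ x).eigenspace μ) :=
    Nat.pos_of_ne_zero (fun h0 => hbot (Submodule.finrank_eq_zero.mp h0))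
  have h2 := hhalf μ
  have hlt : Module.finrank K ↥(W ⊓ (ρ x).eigenspace μ) < d := by omega
  have hinvμ : ∀ a : ↥(commSub ρ W hW x), ∀ w ∈ W ⊓ (ρ x).eigenspace μ,
      (ρ.comp (commSub ρ W hW x).subtype) a w ∈ W ⊓ (ρ x).eigenspace μ := by
    rintro ⟨a, ha⟩ v hv
    refine ⟨hW a v hv.1, ?_⟩
    show ρ a v ∈ (ρ x).eigenspace μ
    rw [Module.End.mem_eigenspace_iff, (mem_commSub ρ W hW x a).mp ha v hv.1,
      Module.End.mem_eigenspace_iff.mp hv.2, map_smul]
  have hlog : Nat.log 2 (Module.finrank K ↥(W ⊓ (ρ x).eigenspace μ)) + 1 ≤ Nat.log 2 d := by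
    rw [← Nat.log_mul_base (by norm_num) hpos.ne']
    exact Nat.log_mono_right (by omega)
  exact ih _ hlt ↥(commSub ρ W hW x) (hP.to_subgroup _) (ρ.comp (commSub ρ W hW x).subtype) _
    hinvμ rfl m (derivedSeries_antitone _ hlog hm) v hv

end semis

/-- Let F be a field, n ≥ 1, and P a finite p-group (p a prime) admitting an injective homomorphism into the general linear group of degree n over F. Then the derived length of P is at most ⌊log₂ n⌋ + 1: that term of the derived series of P is trivial. -/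
theorem result {P : Type*} [Group P] [Finite P] (p : ℕ) [Fact p.Prime] (hP : IsPGroup p P) (F : Type*) [Field F] (n : ℕ) (hn : 1 ≤ n) (ρ : P →* Matrix.GeneralLinearGroup (Fin n) F) (hρ : Function.Injective ρ) : derivedSeries P (Nat.log 2 n + 1) = ⊥ := by
  classical
  obtain ⟨φ, hφ⟩ : ∃ φ : Matrix (Fin n) (Fin n) F →*
      Module.End (AlgebraicClosure F) (Fin n → AlgebraicClosure F), Function.Injective φ := by
    refine ⟨(MonoidHomClass.toMonoidHom
      (Matrix.toLinAlgEquiv' (R := AlgebraicClosure F) (n := Fin n))).comp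
      (MonoidHomClass.toMonoidHom (RingHom.mapMatrix (m := Fin n)
        (algebraMap F (AlgebraicClosure F)))), ?_⟩
    intro A B hAB
    have h1 : (RingHom.mapMatrix (m := Fin n) (algebraMap F (AlgebraicClosure F))) A =
        (RingHom.mapMatrix (m := Fin n) (algebraMap F (AlgebraicClosure F))) B :=
      (Matrix.toLinAlgEquiv' (R := AlgebraicClosure F) (n := Fin n)).injective hAB
    exact Matrix.map_injective (algebraMap F (AlgebraicClosure F)).injective h1
  obtain ⟨ρ', hρ'def⟩ : ∃ ρ' : P →* Module.End (AlgebraicClosure F) (Fin n → AlgebraicClosure F),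
      ρ' = φ.comp ((Units.coeHom _).comp ρ) := ⟨_, rfl⟩
  have hρ' : Function.Injective ρ' := by
    rw [hρ'def]
    intro a b hab
    apply hρ
    apply Units.ext
    exact hφ hab
  have hfin : Module.finrank (AlgebraicClosure F) (Fin n → AlgebraicClosure F) = n := by simp
  by_cases hpK : (p : AlgebraicClosure F) = 0
  · apply charp_case hP hpK ρ' hρ'
    rw [hfin]
    exact (Nat.lt_pow_succ_log_self (by norm_num) n).le
  · rw [eq_bot_iff]
    intro g hg
    rw [Subgroup.mem_bot]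
    apply hρ'
    rw [map_one]
    apply LinearMap.ext
    intro v
    have h1 := semis_key p hpK n P hP ρ' ⊤ (fun _ _ _ => trivial) (by rw [finrank_top, hfin]) g hg
      v trivial
    rw [h1]; rfl

end Cfsg.Agent.S4010
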