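import Mathlib
import Cfsg.Statements.S4013

set_option autoImplicit false
open Cfsg

namespace Cfsg.Agent.S4013

/-- Let G be a finite p-group (p prime) and N < M normal subgroups of G such that for some g ∈ M ∖ N the conjugacy class of g is exactly M ∖ N. Then p = 2 and N has index 2 in M. -/
theorem result {G : Type*} [Group G] [Finite G] (p : ℕ) [Fact p.Prime] (hG : IsPGroup p G) (N M : Subgroup G) [N.Normal] [M.Normal] (hNM : N < M) (g : G) (hgM : g ∈ M) (hgN : g ∉ N) (hcl : {h : G | IsConj g h} = (M : Set G) \ (N : Set G)) : p = 2 ∧ N.relIndex M = 2 := by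
  have hp := (Fact.out : p.Prime)
  -- class size is a power of p
  have h1 := MulAction.index_stabilizer (ConjAct G) g
  have h2 : MulAction.orbit (ConjAct G) g = {h : G | IsConj g h} := by
    ext h
    rw [ConjAct.mem_orbit_conjAct, isConj_comm]
    rfl
  rw [h2, hcl] at h1
  obtain ⟨n, hn⟩ := IsPGroup.iff_card.mp hG
  have hGc : IsPGroup p (ConjAct G) := hG
  have : Finite (ConjAct G) := inferInstanceAs (Finite G)
  obtain ⟨c, hc⟩ := hGc.index (MulAction.stabilizer (ConjAct G) g)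
  rw [hc] at h1
  -- sizes
  have hsub : (N : Set G) ⊆ (M : Set G) := hNM.le
  have h3 : ((M : Set G) \ (N : Set G)).ncard = Nat.card M - Nat.card N := by
    rw [Set.ncard_sdiff hsub (Set.toFinite _), ← Nat.card_coe_set_eq, ← Nat.card_coe_set_eq]
    rfl
  rw [h3] at h1
  have h4 := Subgroup.relIndex_mul_relIndex ⊥ N M bot_le hNM.le
  rw [Subgroup.relIndex_bot_left, Subgroup.relIndex_bot_left] at h4
  obtain ⟨a, ha⟩ := IsPGroup.iff_card.mp (hG.to_subgroup N)
  obtain ⟨m, hm⟩ := IsPGroup.iff_card.mp (hG.to_subgroup M)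
  set r := N.relIndex M with hr
  have hrdvd : r ∣ p ^ m := by rw [← hm, ← h4]; exact dvd_mul_left r _
  obtain ⟨b, -, hb⟩ := (Nat.dvd_prime_pow hp).mp hrdvd
  have hNpos : 0 < Nat.card N := Nat.card_pos
  -- p ^ c = card N * (r - 1)
  have h5 : p ^ c = Nat.card N * (r - 1) := by
    rw [h1, ← h4, Nat.mul_sub, mul_one]
  have hr1 : r ≠ 1 := by
    intro h
    rw [h, mul_one] at h4
    have h6 : N = M := Subgroup.eq_of_le_of_card_ge hNM.le h4.ge
    exact hNM.ne h6
  have hb0 : b ≠ 0 := by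
    rintro rfl
    exact hr1 (by rw [hb, pow_zero])
  have h7 : (r - 1) ∣ p ^ c := by rw [h5]; exact dvd_mul_left _ _
  obtain ⟨d, -, hd⟩ := (Nat.dvd_prime_pow hp).mp h7
  have hd0 : d = 0 := by
    by_contra hd0
    have h8 : p ∣ r - 1 := by rw [hd]; exact dvd_pow_self p hd0
    have h9 : p ∣ r := by rw [hb]; exact dvd_pow_self p hb0
    have hrpos : 1 ≤ r := by
      rw [hb]; exact Nat.one_le_pow _ _ hp.pos
    have h10 : p ∣ r - (r - 1) := Nat.dvd_sub h9 h8
    have h11 : r - (r - 1) = 1 := by omega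
    rw [h11] at h10
    exact hp.one_lt.ne' (Nat.dvd_one.mp h10)
  rw [hd0, pow_zero] at hd
  have hrpos : 1 ≤ r := by
    rw [hb]; exact Nat.one_le_pow _ _ hp.pos
  have hr2 : r = 2 := by omega
  refine ⟨?_, hr2⟩
  have h12 : p ∣ 2 := by
    rw [← hr2, hb]; exact dvd_pow_self p hb0
  exact (Nat.prime_dvd_prime_iff_eq hp Nat.prime_two).mp h12

end Cfsg.Agent.S4013
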