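import Cfsg.Statements.S4015
import Cfsg.Agent.Lib.Helper1.GWrB
import Cfsg.Agent.S4014

set_option autoImplicit false
open Cfsg

namespace Cfsg.Agent.S4015

open Matrix Cfsg.Agent.Lib.Helper1.GWr Cfsg.Agent.Lib.Helper1.SpDL

/-- Let p be an odd prime, F a finite field with q elements where p does not divide q, and e the multiplicative order of q modulo p. Let n ≥ e and write w = ⌊n/e⌋ and k = ⌊log_p w⌋. Then a Sylow p-subgroup of GL(n, F) has derived length exactly k + 1: its (k+1)-st derived subgroup is trivial and its k-th is not. -/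
theorem result (p : ℕ) [Fact p.Prime] (hp : p ≠ 2) (F : Type*) [Field F] [Fintype F] (q : ℕ) (hq : Fintype.card F = q) (hpq : ¬ p ∣ q) (n : ℕ) (hn : orderOf (q : ZMod p) ≤ n) (P : Sylow p (Matrix.GeneralLinearGroup (Fin n) F)) : derivedSeries ↥(P : Subgroup (Matrix.GeneralLinearGroup (Fin n) F)) (Nat.log p (n / orderOf (q : ZMod p)) + 1) = ⊥ ∧ derivedSeries ↥(P : Subgroup (Matrix.GeneralLinearGroup (Fin n) F)) (Nat.log p (n / orderOf (q : ZMod p))) ≠ ⊥ := by
  classical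
  subst hq
  have hpp := (Fact.out : p.Prime)
  have he0' := order_pos p _ hpq
  have hq1 : 1 < Fintype.card F := Fintype.one_lt_card
  have hdvd' := (dvd_pow_sub_one_iff p (Fintype.card F) hq1 (orderOf ((Fintype.card F : ℕ) : ZMod p))).2 dvd_rfl
  have hGL' := card_GL_val p hp hpq n
  obtain ⟨e, he⟩ : ∃ e, e = orderOf ((Fintype.card F : ℕ) : ZMod p) := ⟨_, rfl⟩
  rw [← he] at hn he0' hdvd' hGL' ⊢
  obtain ⟨w, hw⟩ : ∃ w, w = n / e := ⟨_, rfl⟩
  rw [← hw] at hGL' ⊢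
  have hw1 : 1 ≤ w := by rw [hw]; exact Nat.div_pos hn he0'
  have hew : e * w ≤ n := by rw [hw]; exact Nat.mul_div_le n e
  have hcardN : Fintype.card ((Fin e × Fin w) ⊕ Fin (n - e * w)) = Fintype.card (Fin n) := by
    simp only [Fintype.card_sum, Fintype.card_prod, Fintype.card_fin]; omega
  obtain ⟨φ, -⟩ : ∃ φ : GL ((Fin e × Fin w) ⊕ Fin (n - e * w)) F ≃* GL (Fin n) F, φ = φ :=
    ⟨Units.mapEquiv (Matrix.reindexAlgEquiv F F (Fintype.equivOfCardEq hcardN)).toMulEquiv, rfl⟩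
  haveI : Nonempty (Fin e) := ⟨⟨0, he0'⟩⟩
  obtain ⟨β, hβdef⟩ : ∃ β : (Fin w → GL (Fin e) F) →* GL (Fin n) F,
      β = φ.toMonoidHom.comp (wbeta (r := Fin (n - e * w))) := ⟨_, rfl⟩
  obtain ⟨τ, hτdef⟩ : ∃ τ : Equiv.Perm (Fin w) →* GL (Fin n) F,
      τ = φ.toMonoidHom.comp (wtau (F := F) (m := Fin e) (r := Fin (n - e * w))) := ⟨_, rfl⟩
  have hrel : ∀ (σ : Equiv.Perm (Fin w)) (f : Fin w → GL (Fin e) F),
      τ σ * β f = β (fun i => f (σ.symm i)) * τ σ := by
    intro σ f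
    rw [hβdef, hτdef]
    show φ (wtau σ) * φ (wbeta f) = φ (wbeta _) * φ (wtau σ)
    rw [← map_mul, ← map_mul, wrel]
  have hβ : Function.Injective β := by
    rw [hβdef]; exact φ.injective.comp wbeta_injective
  have hτ : Function.Injective τ := by
    rw [hτdef]; exact φ.injective.comp wtau_injective
  have hinf : β.range ⊓ τ.range = ⊥ := by
    rw [eq_bot_iff]
    rintro x ⟨⟨f, rfl⟩, ⟨σ, hσ⟩⟩
    rw [hβdef, hτdef] at hσ
    have h1 : (wtau σ : GL ((Fin e × Fin w) ⊕ Fin (n - e * w)) F) = wbeta f := φ.injective hσ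
    have h2 : (wbeta f : GL ((Fin e × Fin w) ⊕ Fin (n - e * w)) F) ∈
        (wbeta : (Fin w → GL (Fin e) F) →* GL ((Fin e × Fin w) ⊕ Fin (n - e * w)) F).range ⊓
        (wtau : Equiv.Perm (Fin w) →* GL ((Fin e × Fin w) ⊕ Fin (n - e * w)) F).range :=
      ⟨⟨f, rfl⟩, ⟨σ, h1⟩⟩
    rw [wrange_inf, Subgroup.mem_bot] at h2
    rw [Subgroup.mem_bot, hβdef]
    show φ (wbeta f) = 1
    rw [h2, map_one]
  obtain ⟨C, hCab, hCcard⟩ := exists_singer p (F := F) e he0'
  obtain ⟨a, ha⟩ : ∃ a, a = padicValNat p (Fintype.card F ^ e - 1) := ⟨_, rfl⟩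
  rw [← ha] at hCcard hGL'
  have hqe : 1 < Fintype.card F ^ e := Nat.one_lt_pow (by omega) hq1
  have ha1 : 1 ≤ a := by
    rw [ha]
    exact one_le_padicValNat_of_dvd (by omega) hdvd'
  have hCp : IsPGroup p C := IsPGroup.of_card hCcard
  have hC1 : dser C 1 = ⊥ := by
    rw [dser_succ, dser_zero, Subgroup.commutator_eq_bot_iff_le_centralizer]
    intro x hx
    rw [Subgroup.mem_centralizer_iff]
    intro y hy
    exact hCab y hy x hx
  have hC0 : dser C 0 ≠ ⊥ := by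
    rw [dser_zero]
    intro h
    rw [h, Subgroup.card_bot] at hCcard
    have h3 : 1 < p ^ a := Nat.one_lt_pow (by omega) hpp.one_lt
    omega
  obtain ⟨T₀, -⟩ : ∃ T₀ : Sylow p (Equiv.Perm (Fin w)), T₀ = T₀ := ⟨default, rfl⟩
  have hT0 : derivedSeries ↥(T₀ : Subgroup (Equiv.Perm (Fin w))) (Nat.log p w) = ⊥ :=
    (Cfsg.Agent.S4014.result p w hw1 T₀).1
  have hcardT : Nat.card T₀ = p ^ padicValNat p w.factorial := by
    rw [Sylow.card_eq_multiplicity, Nat.card_perm, Nat.card_eq_fintype_card, Fintype.card_fin,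
      Nat.factorization_def _ hpp]
  obtain ⟨W, hWd, hWc⟩ := wreath_sub hrel hβ hτ hinf C (T₀ : Subgroup (Equiv.Perm (Fin w)))
    (Nat.log p w) hC1 ((ds_eq_bot_iff _ _).1 hT0)
  constructor
  · apply sylow_upper p W _ hWd _ P
    rw [hWc, hGL', hCcard, hcardT, Nat.card_eq_fintype_card, Fintype.card_fin, ← pow_mul,
      ← pow_add]
  · obtain ⟨I, -, hI⟩ := Finset.exists_subset_card_eq (s := (Finset.univ : Finset (Fin w)))
      (n := p ^ Nat.log p w)
      (by rw [Finset.card_univ, Fintype.card_fin]; exact Nat.pow_log_le_self p (by omega))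
    obtain ⟨X, -, hXp, hXd⟩ := wexists_big hrel hβ hτ hinf p C hCp 0 hC0 (Nat.log p w) I hI
    rw [zero_add] at hXd
    exact sylow_lower p X _ hXp hXd P

end Cfsg.Agent.S4015
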