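import Mathlib
import Cfsg.Statements.S4024
import Cfsg.Agent.S3977
import Cfsg.Agent.Lib.Helper9.Cores

set_option autoImplicit false
open Cfsg

namespace Cfsg.Agent.S4024

open Cfsg.Agent.Lib.Helper9

open scoped Pointwise in
/-- A normal subgroup of order divisible by `p` meets every Sylow `p`-subgroup nontrivially. -/
theorem inf_ne_bot {G : Type*} [Group G] [Finite G] {p : ℕ} [Fact p.Prime] (P : Sylow p G)
    (N : Subgroup G) [hN : N.Normal] (hdiv : p ∣ Nat.card N) : (P : Subgroup G) ⊓ N ≠ ⊥ := by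
  obtain ⟨x, hx⟩ := exists_prime_orderOf_dvd_card' (G := N) p hdiv
  have hx1 : (x : G) ≠ 1 := by
    intro h
    have : x = 1 := Subtype.ext h
    rw [this, orderOf_one] at hx
    exact (Fact.out : p.Prime).one_lt.ne hx
  have hpg : IsPGroup p (Subgroup.zpowers (x : G)) := by
    apply IsPGroup.of_card (n := 1)
    rw [Nat.card_zpowers, pow_one, Subgroup.orderOf_coe, hx]
  obtain ⟨Q, hQ⟩ := hpg.exists_le_sylow
  obtain ⟨g, hg⟩ := MulAction.exists_smul_eq G Q P
  have h1 : g * (x : G) * g⁻¹ ∈ (P : Subgroup G) := by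
    rw [← hg, Sylow.coe_subgroup_smul]
    have h1 : MulAut.conj g • (x : G) ∈ MulAut.conj g • (Q : Subgroup G) :=
      Subgroup.smul_mem_pointwise_smul _ _ _ (hQ (Subgroup.mem_zpowers (x : G)))
    rwa [MulAut.smul_def, MulAut.conj_apply] at h1
  have h2 : g * (x : G) * g⁻¹ ∈ N := hN.conj_mem _ x.2 g
  intro hbot
  have h3 : g * (x : G) * g⁻¹ ∈ (P : Subgroup G) ⊓ N := Subgroup.mem_inf.mpr ⟨h1, h2⟩
  rw [hbot, Subgroup.mem_bot] at h3
  apply hx1
  have : (x : G) = g⁻¹ * (g * (x : G) * g⁻¹) * g := by group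
  rw [this, h3]; group

/-- Dichotomy for normal subgroups. -/
theorem dich {G : Type*} [Group G] [Finite G] {p : ℕ} [Fact p.Prime] (hp : p ≠ 2)
    (hC : ∀ H K : Subgroup G, IsPGroup p H → IsPGroup p K → Nat.card H = Nat.card K →
      ∃ g : G, K = H.map (MulAut.conj g).toMonoidHom) (P : Sylow p G)
    (N : Subgroup G) [hN : N.Normal] :
    (P : Subgroup G) ⊓ N = ⊥ ∨ (P : Subgroup G) ≤ N ∨ IsCyclic P := by
  have hpp : p.Prime := Fact.out
  set Q : Subgroup G := (P : Subgroup G) ⊓ N with hQ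
  have hQP : Q ≤ (P : Subgroup G) := inf_le_left
  have hQpg : IsPGroup p Q := P.2.to_le hQP
  obtain ⟨k, hk⟩ := IsPGroup.iff_card.mp hQpg
  obtain ⟨n, hn⟩ := IsPGroup.iff_card.mp P.2
  have hkn : k ≤ n := by
    have h1 : Nat.card Q ≤ Nat.card (P : Subgroup G) := Subgroup.card_le_of_le hQP
    rw [hk, hn] at h1
    exact (Nat.pow_le_pow_iff_right hpp.one_lt).mp h1
  rcases Nat.eq_zero_or_pos k with hk0 | hk0
  · left
    rw [hk0, pow_zero] at hk
    exact Subgroup.card_eq_one.mp hk
  rcases hkn.lt_or_eq with hlt | heq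
  · right; right
    refine Cfsg.Agent.S3977.result (G := (P : Subgroup G)) p n k hpp hn hk0 hlt (Or.inl hp) ?_
    have key : ∀ V : Subgroup (P : Subgroup G), Nat.card V = p ^ k →
        V.map (P : Subgroup G).subtype = Q := by
      intro V hV
      have hV' : Nat.card (V.map (P : Subgroup G).subtype) = p ^ k := by
        rw [Subgroup.card_subtype, hV]
      have hVle : V.map (P : Subgroup G).subtype ≤ (P : Subgroup G) := by
        intro y hy
        obtain ⟨z, _, rfl⟩ := Subgroup.mem_map.mp hy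
        exact z.2
      obtain ⟨g, hg⟩ := hC Q (V.map (P : Subgroup G).subtype) hQpg (IsPGroup.of_card hV')
        (by rw [hk, hV'])
      have hVN : V.map (P : Subgroup G).subtype ≤ N := by
        rw [hg]
        intro y hy
        obtain ⟨z, hz, rfl⟩ := Subgroup.mem_map.mp hy
        exact hN.conj_mem z (Subgroup.mem_inf.mp hz).2 g
      have hle : V.map (P : Subgroup G).subtype ≤ Q := le_inf hVle hVN
      exact Subgroup.eq_of_le_of_card_ge hle (by rw [hk, hV'])
    intro V W hV hW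
    exact Subgroup.map_injective (P : Subgroup G).subtype_injective ((key V hV).trans (key W hW).symm)
  · right; left
    have : Q = (P : Subgroup G) :=
      Subgroup.eq_of_le_of_card_ge hQP (by rw [hk, hn, heq])
    rw [← this]
    exact inf_le_right

/-- Let p be an odd prime and G a finite group in which any two p-subgroups of the same order are conjugate, with Sylow p-subgroup P. If H is a normal p-solvable subgroup of G whose order is divisible by p, then P is abelian, and either P ≤ H or P is cyclic. -/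
theorem result {G : Type*} [Group G] [Finite G]
    {p : ℕ} [Fact p.Prime] (hp : p ≠ 2) (hC : ∀ H K : Subgroup G, IsPGroup p H → IsPGroup p K → Nat.card H = Nat.card K →
      ∃ g : G, K = H.map (MulAut.conj g).toMonoidHom) (P : Sylow p G)
    (H : Subgroup G) [H.Normal] (hsolv : Cfsg.IsPSolvable p H) (hdiv : p ∣ Nat.card H) :
    IsMulCommutative P ∧ ((P : Subgroup G) ≤ H ∨ IsCyclic P) := by
  have hpp : p.Prime := Fact.out
  have hsecond : (P : Subgroup G) ≤ H ∨ IsCyclic P := by
    rcases dich hp hC P H with h | h | h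
    · exact absurd h (inf_ne_bot P H hdiv)
    · exact Or.inl h
    · exact Or.inr h
  refine ⟨?_, hsecond⟩
  by_cases hcyc : IsCyclic P
  · exact ⟨⟨fun a b => by
      haveI := hcyc
      obtain ⟨g, hg⟩ := IsCyclic.exists_generator (α := (P : Subgroup G))
      obtain ⟨i, rfl⟩ := Subgroup.mem_zpowers_iff.mp (hg a)
      obtain ⟨j, rfl⟩ := Subgroup.mem_zpowers_iff.mp (hg b)
      rw [← zpow_add, ← zpow_add, add_comm]⟩⟩
  -- the p'-core and the quotient
  set M : Subgroup G := pPrimeCore p G with hM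
  have hMcop : (Nat.card M).Coprime p := pPrimeCore_coprime p G
  -- the chain
  obtain ⟨n, K, hK0, hKlast, hKmono, hKnorm, hKstep⟩ := hsolv
  -- minimal index with p ∣ card
  have hex : ∃ i : ℕ, ∃ hi : i < n + 1, p ∣ Nat.card (K ⟨i, hi⟩) := by
    refine ⟨n, Nat.lt_succ_self n, ?_⟩
    have : K ⟨n, Nat.lt_succ_self n⟩ = ⊤ := hKlast
    rw [this, Subgroup.card_top]
    exact hdiv
  classical
  let i₀ := Nat.find hex
  obtain ⟨hi₀, hi₀div⟩ := Nat.find_spec hex
  have hi₀pos : i₀ ≠ 0 := by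
    intro h0
    have h1 : K ⟨i₀, hi₀⟩ = ⊥ := by
      have : (⟨i₀, hi₀⟩ : Fin (n + 1)) = 0 := Fin.ext h0
      rw [this]; exact hK0
    rw [h1, Subgroup.card_bot] at hi₀div
    exact hpp.one_lt.ne' (Nat.dvd_one.mp hi₀div)
  obtain ⟨j, hj⟩ := Nat.exists_eq_succ_of_ne_zero hi₀pos
  have hjn : j < n := by omega
  have hjnot : ¬ p ∣ Nat.card (K (Fin.castSucc ⟨j, hjn⟩)) := by
    intro hd
    have := Nat.find_min hex (m := j) (by omega)
    exact this ⟨by omega, hd⟩
  have hsucc : (Fin.succ ⟨j, hjn⟩ : Fin (n + 1)) = ⟨i₀, hi₀⟩ := Fin.ext (by simp [hj])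
  set A : Subgroup H := K (Fin.castSucc ⟨j, hjn⟩) with hA
  set B : Subgroup H := K (Fin.succ ⟨j, hjn⟩) with hB
  have hAB : A ≤ B := hKmono (Fin.castSucc_le_succ _)
  have hBdiv : p ∣ Nat.card B := by rw [hB, hsucc]; exact hi₀div
  have hAn : A.Normal := hKnorm _
  have hBn : B.Normal := hKnorm _
  have hrel : ∃ m : ℕ, A.relIndex B = p ^ m := by
    rcases hKstep ⟨j, hjn⟩ with h | h
    · exact h
    · exfalso
      have h1 : A.relIndex B * Nat.card A = Nat.card B := by
        rw [Subgroup.relIndex, ← Nat.card_congr (Subgroup.subgroupOfEquivOfLe hAB).toEquiv, mul_comm,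
          Subgroup.card_mul_index]
      rw [← h1] at hBdiv
      rcases hpp.dvd_mul.mp hBdiv with h2 | h2
      · exact hpp.one_lt.ne' (Nat.dvd_one.mp (h ▸ Nat.dvd_gcd h2 dvd_rfl))
      · exact hjnot h2
  obtain ⟨m, hm⟩ := hrel
  -- A maps into M
  have hAM : A.map H.subtype ≤ M := by
    have h1 : A ≤ pPrimeCore p H :=
      le_pPrimeCore hAn ((Nat.Prime.coprime_iff_not_dvd hpp).mpr hjnot).symm
    exact (Subgroup.map_mono h1).trans (pPrimeCore_subtype_le p H)
  -- the quotient
  let π : G →* G ⧸ M := QuotientGroup.mk' M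
  set Hbar : Subgroup (G ⧸ M) := H.map π with hHbar
  haveI hHbarN : Hbar.Normal := Subgroup.Normal.map inferInstance π (QuotientGroup.mk'_surjective M)
  set Bbar : Subgroup (G ⧸ M) := (B.map H.subtype).map π with hBbar
  have hBbar_le : Bbar ≤ Hbar := by
    apply Subgroup.map_mono
    intro y hy
    obtain ⟨z, _, rfl⟩ := Subgroup.mem_map.mp hy
    exact z.2
  have hBbar_pg : IsPGroup p Bbar := by
    intro ⟨y, hy⟩
    obtain ⟨z, hz, rfl⟩ := Subgroup.mem_map.mp hy
    obtain ⟨b, hb, rfl⟩ := Subgroup.mem_map.mp hz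
    refine ⟨m, ?_⟩
    apply Subtype.ext
    show (π (H.subtype b)) ^ p ^ m = 1
    have h1 : (⟨b, hb⟩ : B) ^ (A.subgroupOf B).index ∈ A.subgroupOf B := by
      haveI : (A.subgroupOf B).Normal := Subgroup.Normal.subgroupOf hAn B
      exact Subgroup.pow_index_mem _ _
    have h2 : b ^ p ^ m ∈ A := by
      have : (A.subgroupOf B).index = p ^ m := hm
      rw [this] at h1
      exact h1
    have h3 : H.subtype (b ^ p ^ m) ∈ M := hAM (Subgroup.mem_map_of_mem _ h2)
    rw [← map_pow, ← map_pow]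
    exact (QuotientGroup.eq_one_iff _).mpr h3
  have hBbar_ne : Bbar ≠ ⊥ := by
    intro hbot
    have h1 : B.map H.subtype ≤ M := by
      intro y hy
      have : π y ∈ Bbar := Subgroup.mem_map_of_mem _ hy
      rw [hbot, Subgroup.mem_bot] at this
      exact (QuotientGroup.eq_one_iff _).mp this
    have h2 : Nat.card (B.map H.subtype) ∣ Nat.card M := Subgroup.card_dvd_of_le h1
    rw [Subgroup.card_subtype] at h2
    have h3 : p ∣ Nat.card M := hBdiv.trans h2
    exact hpp.one_lt.ne' (Nat.dvd_one.mp (hMcop ▸ Nat.dvd_gcd h3 dvd_rfl))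
  have hBbar_norm : Hbar ≤ Subgroup.normalizer (Bbar : Set (G ⧸ M)) := by
    intro y hy
    obtain ⟨h, hh, rfl⟩ := Subgroup.mem_map.mp hy
    rw [Subgroup.mem_normalizer_iff]
    have key : ∀ h' : G, h' ∈ H → ∀ z, z ∈ Bbar → π h' * z * (π h')⁻¹ ∈ Bbar := by
      intro h' hh' z hz
      obtain ⟨w, hw, rfl⟩ := Subgroup.mem_map.mp hz
      obtain ⟨b, hb, rfl⟩ := Subgroup.mem_map.mp hw
      have : (⟨h', hh'⟩ : H) * b * (⟨h', hh'⟩ : H)⁻¹ ∈ B := hBn.conj_mem b hb _
      have h4 : π (H.subtype ((⟨h', hh'⟩ : H) * b * (⟨h', hh'⟩ : H)⁻¹)) ∈ Bbar :=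
        Subgroup.mem_map_of_mem _ (Subgroup.mem_map_of_mem _ this)
      simpa using h4
    intro z
    constructor
    · intro hz
      exact key h hh z hz
    · intro hz
      have := key h⁻¹ (H.inv_mem hh) _ hz
      have e : π h⁻¹ * (π h * z * (π h)⁻¹) * (π h⁻¹)⁻¹ = z := by
        rw [map_inv]; group
      rwa [e] at this
  have hBsub : Bbar.IsSubnormal :=
    Subgroup.IsSubnormal.step Bbar Hbar hBbar_le
      (Subgroup.IsSubnormal.step Hbar ⊤ le_top Subgroup.IsSubnormal.top
        (by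
          have : Hbar.subgroupOf ⊤ = (Hbar.comap (⊤ : Subgroup (G ⧸ M)).subtype) := rfl
          exact Subgroup.Normal.comap hHbarN _))
      ((Subgroup.normal_subgroupOf_iff_le_normalizer hBbar_le).mpr hBbar_norm)
  set U : Subgroup (G ⧸ M) := pCore p (G ⧸ M) with hU
  have hBU : Bbar ≤ U := le_pCore_of_isSubnormal hBsub hBbar_pg
  have hUne : U ≠ ⊥ := fun h => hBbar_ne (le_bot_iff.mp (h ▸ hBU))
  have hUpg : IsPGroup p U := pCore_isPGroup p (G ⧸ M)
  haveI hUn : U.Normal := inferInstance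
  -- the centre of U
  set Z : Subgroup (G ⧸ M) := (Subgroup.center U).map U.subtype with hZ
  haveI hZn : Z.Normal := ConjAct.normal_of_characteristic_of_normal
  haveI : Nontrivial U := (Subgroup.nontrivial_iff_ne_bot U).mpr hUne
  have hZnt : Nontrivial (Subgroup.center U) := hUpg.center_nontrivial
  have hZcard : p ∣ Nat.card Z := by
    have h1 : IsPGroup p (Subgroup.center U) := hUpg.to_subgroup _
    rcases h1.card_eq_or_dvd with h | h
    · exfalso
      have := (Subgroup.card_eq_one (H := Subgroup.center U)).mp h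
      exact (Subgroup.nontrivial_iff_ne_bot _).mp hZnt this
    · rw [hZ, Subgroup.card_subtype]; exact h
  set N : Subgroup G := Z.comap π with hN
  haveI hNn : N.Normal := Subgroup.Normal.comap hZn π
  have hNcard : p ∣ Nat.card N := by
    have : Nat.card N = Nat.card M * Nat.card Z := card_comap_mk' M Z
    rw [this]
    exact Dvd.dvd.mul_left hZcard _
  have hPN : (P : Subgroup G) ≤ N := by
    rcases dich hp hC P N with h | h | h
    · exact absurd h (inf_ne_bot P N hNcard)
    · exact h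
    · exact absurd h hcyc
  refine ⟨⟨fun a b => ?_⟩⟩
  have ha : π (a : G) ∈ Z := hPN a.2
  have hb : π (b : G) ∈ Z := hPN b.2
  obtain ⟨za, hza, hza'⟩ := Subgroup.mem_map.mp ha
  obtain ⟨zb, hzb, hzb'⟩ := Subgroup.mem_map.mp hb
  have hcomm : π (a : G) * π (b : G) = π (b : G) * π (a : G) := by
    rw [← hza', ← hzb']
    have := Subgroup.mem_center_iff.mp hza zb
    have h2 := congrArg U.subtype this
    simpa using h2.symm
  have hc : (a : G) * (b : G) * ((b : G) * (a : G))⁻¹ ∈ M := by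
    apply (QuotientGroup.eq_one_iff _).mp
    show π _ = 1
    rw [map_mul, map_mul, map_inv, map_mul, hcomm]
    group
  have hcP : (a : G) * (b : G) * ((b : G) * (a : G))⁻¹ ∈ (P : Subgroup G) :=
    (P : Subgroup G).mul_mem ((P : Subgroup G).mul_mem a.2 b.2)
      ((P : Subgroup G).inv_mem ((P : Subgroup G).mul_mem b.2 a.2))
  have hc1 : (a : G) * (b : G) * ((b : G) * (a : G))⁻¹ = 1 := by
    set c := (a : G) * (b : G) * ((b : G) * (a : G))⁻¹ with hcdef
    obtain ⟨k, hk⟩ := P.2 ⟨c, hcP⟩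
    have hk' : c ^ p ^ k = 1 := by
      have := congrArg Subtype.val hk
      simpa using this
    have h1 : orderOf c ∣ p ^ k := orderOf_dvd_of_pow_eq_one hk'
    have h2 : orderOf c ∣ Nat.card M := by
      have := orderOf_dvd_natCard (⟨c, hc⟩ : M)
      rwa [Subgroup.orderOf_mk] at this
    have h3 : orderOf c ∣ 1 := by
      have h4 : (Nat.card M).Coprime (p ^ k) := Nat.Coprime.pow_right k hMcop
      exact h4 ▸ Nat.dvd_gcd h2 h1
    exact orderOf_eq_one_iff.mp (Nat.dvd_one.mp h3)
  apply Subtype.ext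
  show (a : G) * (b : G) = (b : G) * (a : G)
  have := mul_inv_eq_one.mp hc1
  exact this

end Cfsg.Agent.S4024
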