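import Mathlib
import Cfsg.Statements.S4027
import Cfsg.Agent.Lib.Helper21.NormalSylowTwo

set_option autoImplicit false
open Cfsg

namespace Cfsg.Agent.S4027

open Cfsg.Agent.Lib.Helper21.NormalSylowTwo

/-- Let G be a finite group in which every element x of odd order satisfies N_G(⟨x⟩) = C_G(x). Then the Sylow 2-subgroups of G are normal. -/
theorem result {G : Type*} [Group G] [Finite G]
    (hirr : ∀ x : G, (∀ r : ℕ, r.Prime → r ∣ orderOf x → r ≠ 2) →
      Subgroup.normalizer ((Subgroup.zpowers x : Subgroup G) : Set G) ≤ Subgroup.centralizer {x}) (P : Sylow 2 G) :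
    (P : Subgroup G).Normal := by
  apply normal_sylow_two
  intro x g hxp hx2 hnorm _
  have h1 : ∀ r : ℕ, r.Prime → r ∣ orderOf x → r ≠ 2 := by
    intro r hr hrx
    rw [(Nat.prime_dvd_prime_iff_eq hr hxp).mp hrx]
    exact hx2
  have h2 := mem_normalizer_zpowers x g hnorm
  have h3 := hirr x h1 h2
  rw [Subgroup.mem_centralizer_singleton_iff] at h3
  exact h3

end Cfsg.Agent.S4027
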