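import Mathlib
import Cfsg.Statements.S4028
import Cfsg.Agent.Lib.Helper21.PiTools2
import Cfsg.Agent.Lib.Helper21.Compl
import Cfsg.Agent.Lib.Helper21.Engel

set_option autoImplicit false
open Cfsg

namespace Cfsg.Agent.S4028

open Cfsg.Agent.Lib.Helper21.PiTools Cfsg.Agent.Lib.Helper21.PiTools2
open Cfsg.Agent.Lib.Helper21.Compl

/-- An element of odd order normalizing a cyclic `2`-group `⟨x⟩` centralizes it. -/
theorem commute_of_coprime_normalizer {G : Type*} [Group G] [Finite G] (p : ℕ) (hp : p.Prime)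
    (hp2 : p = 2)
    (x b : G) (k : ℕ) (hk : orderOf x = p ^ k) (hb : ¬ p ∣ orderOf b)
    (hbN : b ∈ Subgroup.normalizer ((Subgroup.zpowers x : Subgroup G) : Set G)) :
    b * x = x * b := by
  set H := Subgroup.zpowers x with hH
  have hcard : Nat.card (MulAut H) ∣ p ^ k := by
    rw [IsCyclic.card_mulAut, Nat.card_zpowers, hk]
    rcases Nat.eq_zero_or_pos k with h0 | h0
    · rw [h0, pow_zero, Nat.totient_one]
    · rw [Nat.totient_prime_pow hp h0]
      have h1 : p ^ k = p ^ (k - 1) * p := by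
        rw [← pow_succ]
        congr 1
        omega
      rw [h1]
      apply Nat.mul_dvd_mul_left
      rw [hp2]
      decide
  have h1 : orderOf (H.normalizerMonoidHom ⟨b, hbN⟩) ∣ orderOf b := by
    have h2 := orderOf_map_dvd H.normalizerMonoidHom (⟨b, hbN⟩ : Subgroup.normalizer (H : Set G))
    rwa [Subgroup.orderOf_mk] at h2
  have h3 : orderOf (H.normalizerMonoidHom ⟨b, hbN⟩) ∣ p ^ k :=
    (orderOf_dvd_natCard _).trans hcard
  have hcop : Nat.Coprime (orderOf b) (p ^ k) :=
    Nat.Coprime.pow_right k ((Nat.Prime.coprime_iff_not_dvd hp).mpr hb).symm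
  have h4 : orderOf (H.normalizerMonoidHom ⟨b, hbN⟩) = 1 :=
    Nat.eq_one_of_dvd_coprimes hcop h1 h3
  have h5 : H.normalizerMonoidHom ⟨b, hbN⟩ = 1 := orderOf_eq_one_iff.mp h4
  have hxH : x ∈ H := Subgroup.mem_zpowers x
  have h6 : ((H.normalizerMonoidHom ⟨b, hbN⟩) ⟨x, hxH⟩ : G) = b * x * b⁻¹ := rfl
  rw [h5] at h6
  have h7 : x = b * x * b⁻¹ := h6
  calc b * x = (b * x * b⁻¹) * b := by group
    _ = x * b := by rw [← h7]

/-- Let G be a finite group with Sylow 2-subgroup P. Then N_G(⟨x⟩) = C_G(x) holds for every 2-element x of G if and only if N_P(⟨y⟩) = C_P(y) holds for every y ∈ P (computed inside P). -/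
theorem result {G : Type*} [Group G] [Finite G] (P : Sylow 2 G) :
    (∀ x : G, (∀ r : ℕ, r.Prime → r ∣ orderOf x → r = 2) →
      Subgroup.normalizer ((Subgroup.zpowers x : Subgroup G) : Set G) ≤ Subgroup.centralizer {x}) ↔
    (∀ y : ↥(P : Subgroup G), Subgroup.normalizer ((Subgroup.zpowers y : Subgroup ↥(P : Subgroup G)) : Set ↥(P : Subgroup G)) ≤
        Subgroup.centralizer {y}) := by
  have : Fact (Nat.Prime 2) := ⟨Nat.prime_two⟩
  constructor
  · intro h y g hg
    have hy2 : ∀ r : ℕ, r.Prime → r ∣ orderOf (y : G) → r = 2 := by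
      obtain ⟨k, hk⟩ := orderOf_of_mem_sylow P y.1 y.2
      intro r hr hd
      rw [hk] at hd
      exact (Nat.prime_dvd_prime_iff_eq hr Nat.prime_two).mp (hr.dvd_of_dvd_pow hd)
    have hgN : (g : G) ∈ Subgroup.normalizer ((Subgroup.zpowers (y : G) : Subgroup G) : Set G) := by
      apply Cfsg.Agent.Lib.Helper21.Engel.mem_normalizer_of_conj_le
      intro d hd
      obtain ⟨i, rfl⟩ := Subgroup.mem_zpowers_iff.mp hd
      have h1 : g * y ^ i * g⁻¹ ∈ Subgroup.zpowers y :=
        (Subgroup.mem_set_normalizer_iff.mp hg (y ^ i)).mp (Subgroup.zpow_mem_zpowers y i)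
      obtain ⟨j, hj⟩ := Subgroup.mem_zpowers_iff.mp h1
      rw [Subgroup.mem_zpowers_iff]
      refine ⟨j, ?_⟩
      have := congrArg Subtype.val hj
      simpa using this
    have h2 := h y hy2 hgN
    rw [Subgroup.mem_centralizer_singleton_iff] at h2 ⊢
    exact Subtype.ext h2
  · intro h x hx g hg
    obtain ⟨k, hk⟩ : ∃ k : ℕ, orderOf x = 2 ^ k := (isPi_singleton_iff 2 Nat.prime_two x).mp hx
    obtain ⟨a, b, ha, hb, hab, ⟨ka, hka⟩, hbodd⟩ := p_decomp 2 Nat.prime_two g
    set H := Subgroup.zpowers x with hH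
    have hgle : Subgroup.zpowers g ≤ Subgroup.normalizer (H : Set G) := by
      rw [Subgroup.zpowers_le]
      exact hg
    have haN := hgle ha
    have hbN := hgle hb
    have hbx : b * x = x * b := commute_of_coprime_normalizer 2 Nat.prime_two rfl x b k hk hbodd hbN
    have hax : a * x = x * a := by
      have hH2 : IsPGroup 2 H := IsPGroup.of_card (n := k) (by rw [Nat.card_zpowers, hk])
      have hA2 : IsPGroup 2 (Subgroup.zpowers a) :=
        IsPGroup.of_card (n := ka) (by rw [Nat.card_zpowers, hka])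
      have hAle : Subgroup.zpowers a ≤ Subgroup.normalizer (H : Set G) := by
        rw [Subgroup.zpowers_le]
        exact haN
      have hsup : IsPGroup 2 (H ⊔ Subgroup.zpowers a : Subgroup G) :=
        IsPGroup.to_sup_of_normal_left' hH2 hA2 hAle
      obtain ⟨Q, hQ⟩ := hsup.exists_le_sylow
      obtain ⟨c, hc⟩ := MulAction.exists_smul_eq G Q P
      have hcP : ∀ u ∈ (Q : Subgroup G), c * u * c⁻¹ ∈ (P : Subgroup G) := by
        intro u hu
        rw [← hc, Sylow.coe_subgroup_smul, mem_conj_smul]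
        have h1 : c⁻¹ * (c * u * c⁻¹) * c = u := by group
        rw [h1]
        exact hu
      have hxQ : x ∈ (Q : Subgroup G) := hQ (Subgroup.mem_sup_left (Subgroup.mem_zpowers x))
      have haQ : a ∈ (Q : Subgroup G) := hQ (Subgroup.mem_sup_right (Subgroup.mem_zpowers a))
      have hmem : (⟨c * a * c⁻¹, hcP a haQ⟩ : (P : Subgroup G)) ∈
          Subgroup.normalizer ((Subgroup.zpowers (⟨c * x * c⁻¹, hcP x hxQ⟩ : (P : Subgroup G)) :
            Subgroup ↥(P : Subgroup G)) : Set ↥(P : Subgroup G)) := by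
        apply Cfsg.Agent.Lib.Helper21.Engel.mem_normalizer_of_conj_le
        intro d hd
        obtain ⟨i, rfl⟩ := Subgroup.mem_zpowers_iff.mp hd
        have h1 : a * x ^ i * a⁻¹ ∈ H :=
          (Subgroup.mem_set_normalizer_iff.mp haN (x ^ i)).mp (Subgroup.zpow_mem_zpowers x i)
        obtain ⟨j, hj⟩ := Subgroup.mem_zpowers_iff.mp h1
        rw [Subgroup.mem_zpowers_iff]
        refine ⟨j, ?_⟩
        apply Subtype.ext
        simp only [Subgroup.coe_zpow, Subgroup.coe_mul, Subgroup.coe_inv]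
        rw [conj_zpow, conj_zpow, hj]
        group
      have h2 := h _ hmem
      rw [Subgroup.mem_centralizer_singleton_iff] at h2
      have h3 : c * a * c⁻¹ * (c * x * c⁻¹) = c * x * c⁻¹ * (c * a * c⁻¹) := congrArg Subtype.val h2
      calc a * x = c⁻¹ * (c * a * c⁻¹ * (c * x * c⁻¹)) * c := by group
        _ = c⁻¹ * (c * x * c⁻¹ * (c * a * c⁻¹)) * c := by rw [h3]
        _ = x * a := by group
    rw [Subgroup.mem_centralizer_singleton_iff, hab]
    calc a * b * x = a * (b * x) := by group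
      _ = a * (x * b) := by rw [hbx]
      _ = (a * x) * b := by group
      _ = x * a * b := by rw [hax]
      _ = x * (a * b) := by group

end Cfsg.Agent.S4028
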