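import Mathlib
import Cfsg.Statements.S4036

set_option autoImplicit false
open Cfsg

namespace Cfsg.Agent.S4036

/-- Let P be a finite abelian p-group and K a group of automorphisms of P (a subgroup of Aut P) whose order is divisible by p. If all non-identity elements of K have the same fixed-point subgroup on P, then K has no non-trivial normal subgroup of order prime to p. -/
theorem result {P : Type*} [CommGroup P] [Finite P] {p : ℕ}
    [Fact p.Prime] (hP : IsPGroup p P) (K : Subgroup (MulAut P)) (hK : p ∣ Nat.card K)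
    (hfix : ∀ x y : MulAut P, x ∈ K → y ∈ K → x ≠ 1 → y ≠ 1 → ∀ v : P, x v = v ↔ y v = v) :
    ∀ N : Subgroup ↥K, N.Normal → ¬ p ∣ Nat.card N → N = ⊥ := by
  intro N hNn hNp
  have hp : p.Prime := Fact.out
  have : Finite (MulAut P) := Finite.of_injective (fun e : MulAut P => (e : P → P))
    (fun a b h => MulEquiv.ext (congrFun h))
  let _ : Fintype N := Fintype.ofFinite N
  by_contra hNbot
  -- a nonidentity element of N
  obtain ⟨n₀, hn₀N, hn₀1⟩ : ∃ n₀ : K, n₀ ∈ N ∧ n₀ ≠ 1 := by
    by_contra hcon
    apply hNbot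
    rw [eq_bot_iff]
    intro n hn
    rw [Subgroup.mem_bot]
    by_contra hn1
    exact hcon ⟨n, hn, hn1⟩
  have hn₀1' : (n₀ : MulAut P) ≠ 1 := fun h => hn₀1 (Subtype.ext h)
  -- an element of order p in K
  obtain ⟨x, hx⟩ := exists_prime_orderOf_dvd_card' p hK
  have hx1 : (x : MulAut P) ≠ 1 := by
    intro h
    have h1 : x = 1 := Subtype.ext h
    rw [h1, orderOf_one] at hx
    exact hp.ne_one hx.symm
  -- the trace map
  let T : P →* P :=
    { toFun := fun v => ∏ n : N, ((n : K) : MulAut P) v
      map_one' := by simp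
      map_mul' := by
        intro a b
        simp [Finset.prod_mul_distrib] }
  have hT : ∀ v : P, T v = ∏ n : N, ((n : K) : MulAut P) v := fun v => rfl
  -- T commutes with K
  have hTK : ∀ (k : K) (v : P), T ((k : MulAut P) v) = (k : MulAut P) (T v) := by
    intro k v
    rw [hT, hT, map_prod]
    symm
    apply Fintype.prod_equiv (MulAut.conjNormal k : N ≃* N).toEquiv
    intro n
    have h1 : (((MulAut.conjNormal k : N ≃* N) n : N) : K) = k * n * k⁻¹ :=
      MulAut.conjNormal_apply k n
    show (k : MulAut P) (((n : K) : MulAut P) v) =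
      ((((MulAut.conjNormal k : N ≃* N) n : N) : K) : MulAut P) ((k : MulAut P) v)
    rw [h1]
    simp
  -- T is invariant under N
  have hTN : ∀ (n₁ : N) (v : P), T (((n₁ : K) : MulAut P) v) = T v := by
    intro n₁ v
    rw [hT, hT]
    apply Fintype.prod_equiv (Equiv.mulRight n₁)
    intro n
    simp
  -- T on common fixed points
  have hTfix : ∀ v : P, (∀ n : N, ((n : K) : MulAut P) v = v) → T v = v ^ Nat.card N := by
    intro v hv
    rw [hT, Finset.prod_congr rfl (fun n _ => hv n), Finset.prod_const, Finset.card_univ,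
      Nat.card_eq_fintype_card]
  -- the kernel of T is trivial
  have hker : T.ker = ⊥ := by
    by_contra hW
    have hWp : IsPGroup p T.ker := hP.to_subgroup T.ker
    obtain ⟨m, hm⟩ := IsPGroup.iff_card.mp hWp
    have hm0 : m ≠ 0 := by
      rintro rfl
      rw [pow_zero] at hm
      exact hW ((Subgroup.card_eq_one).mp hm)
    have hpW : p ∣ Nat.card T.ker := by
      rw [hm]
      exact dvd_pow_self p hm0
    have hinv : ∀ (g : Subgroup.zpowers x) (w : T.ker), (((g : K) : MulAut P) (w : P)) ∈ T.ker := by
      intro g w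
      rw [MonoidHom.mem_ker, hTK, MonoidHom.mem_ker.mp w.2, map_one]
    let act : MulAction (Subgroup.zpowers x) T.ker :=
      { smul := fun g w => ⟨((g : K) : MulAut P) (w : P), hinv g w⟩
        one_smul := fun w => Subtype.ext rfl
        mul_smul := fun g h w => Subtype.ext rfl }
    have hZp : IsPGroup p (Subgroup.zpowers x) :=
      IsPGroup.of_card (n := 1) (by rw [Nat.card_zpowers, hx, pow_one])
    have h1fix : (1 : T.ker) ∈ MulAction.fixedPoints (Subgroup.zpowers x) T.ker := by
      intro g
      apply Subtype.ext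
      show ((g : K) : MulAut P) ((1 : T.ker) : P) = ((1 : T.ker) : P)
      simp
    obtain ⟨b, hbfix, hb1⟩ := hZp.exists_fixed_point_of_prime_dvd_card_of_fixed_point T.ker hpW h1fix
    have hxb : (x : MulAut P) (b : P) = b := by
      have h2 := hbfix ⟨x, Subgroup.mem_zpowers x⟩
      exact congrArg Subtype.val h2
    have hNb : ∀ n : N, ((n : K) : MulAut P) (b : P) = b := by
      intro n
      by_cases hn1 : ((n : K) : MulAut P) = 1
      · rw [hn1]
        rfl
      · exact (hfix x _ x.2 (n : K).2 hx1 hn1 b).mp hxb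
    have hTb := hTfix b hNb
    rw [MonoidHom.mem_ker.mp b.2] at hTb
    have hb1' : (b : P) = 1 := by
      obtain ⟨j, hj⟩ := (IsPGroup.iff_orderOf.mp hP) (b : P)
      have h3 : orderOf (b : P) ∣ Nat.card N := orderOf_dvd_of_pow_eq_one hTb.symm
      rcases Nat.eq_zero_or_pos j with h0 | h0
      · rw [h0, pow_zero] at hj
        exact orderOf_eq_one_iff.mp hj
      · exfalso
        apply hNp
        refine dvd_trans ?_ h3
        rw [hj]
        exact dvd_pow_self p h0.ne'
    exact hb1 (Subtype.ext hb1').symm
  have hinj : Function.Injective T := (MonoidHom.ker_eq_bot_iff T).mp hker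
  apply hn₀1'
  apply MulEquiv.ext
  intro v
  exact hinj (hTN ⟨n₀, hn₀N⟩ v)

end Cfsg.Agent.S4036
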