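import Mathlib
import Cfsg.Statements.S4043
import Cfsg.Agent.Lib.Helper21.Compl
import Cfsg.Agent.Lib.Helper10.SZ

set_option autoImplicit false
open Cfsg

namespace Cfsg.Agent.S4043

open Cfsg.Agent.Lib.Helper21.Compl
open scoped Pointwise

/-- Let G be a finite group that is the semidirect product of a normal p-subgroup N by a subgroup A, and also of N by a subgroup A₁, where p is a prime and A and A₁ both have normal p-complements. If C_N(A) = C_N(A₁) = 1, then A₁ is conjugate to A by an element of N. -/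
theorem result {G : Type*} [Group G] [Finite G] {p : ℕ}
    [Fact p.Prime] (N : Subgroup G) [N.Normal] (hN : IsPGroup p N) (A A₁ : Subgroup G)
    (hA : A.IsComplement' N) (hA₁ : A₁.IsComplement' N)
    (hAp : Cfsg.HasNormalPComplement p A) (hA₁p : Cfsg.HasNormalPComplement p A₁)
    (hC : ∀ n : G, n ∈ N → (∀ a : G, a ∈ A → a * n * a⁻¹ = n) → n = 1)
    (hC₁ : ∀ n : G, n ∈ N → (∀ a : G, a ∈ A₁ → a * n * a⁻¹ = n) → n = 1) :
    ∃ n : G, n ∈ N ∧ A₁ = A.map (MulAut.conj n).toMonoidHom := by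
  have hp := (Fact.out : p.Prime)
  have hNn : N.Normal := inferInstance
  obtain ⟨S, K, hKn, hKS⟩ := hAp
  obtain ⟨S₁, K₁, hK₁n, hK₁S₁⟩ := hA₁p
  -- cardinalities
  have hcA : Nat.card A = N.index := hA.index_eq_card.symm
  have hcA₁ : Nat.card A₁ = N.index := hA₁.index_eq_card.symm
  have hKcard : Nat.card K * Nat.card S = Nat.card A := hKS.card_mul_card
  have hK₁card : Nat.card K₁ * Nat.card S₁ = Nat.card A₁ := hK₁S₁.card_mul_card
  have hSS₁ : Nat.card S₁ = Nat.card S := by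
    rw [S₁.card_eq_multiplicity, S.card_eq_multiplicity, hcA, hcA₁]
  have hSpos : 0 < Nat.card S := Nat.card_pos
  have hKK₁ : Nat.card K₁ = Nat.card K := by
    have h1 : Nat.card K₁ * Nat.card S = Nat.card K * Nat.card S := by
      rw [hKcard, ← hSS₁, hK₁card, hcA, hcA₁]
    exact Nat.eq_of_mul_eq_mul_right hSpos h1
  have hKidx : K.index = Nat.card S := hKS.symm.index_eq_card
  have hKp : ¬ p ∣ Nat.card K := by
    have h1 := S.not_dvd_index
    rwa [hKS.index_eq_card] at h1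
  have hKcop : (Nat.card K).Coprime p := ((Nat.Prime.coprime_iff_not_dvd hp).mpr hKp).symm
  obtain ⟨kN, hkN⟩ := IsPGroup.iff_card.mp hN
  have hNKcop : (Nat.card N).Coprime (Nat.card K) := by
    rw [hkN]
    exact Nat.Coprime.pow_left _ hKcop.symm
  -- the subgroups of G
  set K' : Subgroup G := K.map A.subtype with hK'
  set K₁' : Subgroup G := K₁.map A₁.subtype with hK₁'
  have hK'card : Nat.card K' = Nat.card K :=
    Subgroup.card_map_of_injective (Subgroup.subtype_injective _)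
  have hK₁'card : Nat.card K₁' = Nat.card K :=
    (Subgroup.card_map_of_injective (Subgroup.subtype_injective _)).trans hKK₁
  have hK₁'A₁ : K₁' ≤ A₁ := by
    rintro _ ⟨u, -, rfl⟩
    exact u.2
  -- the retraction and E
  set ρ := retr A N hA with hρ
  set E : Subgroup G := K.comap ρ with hE
  have hEN : N ≤ E := by
    intro x hx
    show ρ x ∈ K
    rw [(retr_eq_one_iff A N hA x).mpr hx]
    exact K.one_mem
  have hEK : K' ≤ E := by
    rintro _ ⟨k, hk, rfl⟩
    show ρ (k : G) ∈ K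
    rw [hρ, retr_coe]
    exact hk
  have hEK₁ : K₁' ≤ E := by
    intro x hx
    show ρ x ∈ K
    have h1 : (ρ x) ^ K.index ∈ K := K.pow_index_mem (ρ x)
    apply mem_of_pow_mem K (ρ x) K.index h1
    have h2 : orderOf (ρ x) ∣ Nat.card K := by
      have h3 : orderOf (ρ x) ∣ orderOf x := orderOf_map_dvd ρ x
      have h4 : orderOf x ∣ Nat.card K₁' := by
        have h5 := orderOf_dvd_natCard (⟨x, hx⟩ : K₁')
        rwa [Subgroup.orderOf_mk] at h5
      rw [hK₁'card] at h4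
      exact h3.trans h4
    rw [hKidx, S.card_eq_multiplicity]
    exact Nat.Coprime.pow_left _ (Nat.Coprime.coprime_dvd_right h2 hKcop.symm)
  have hEcard : Nat.card E = Nat.card N * Nat.card K := by
    have h1 : E.index = Nat.card S := by
      rw [hE, Subgroup.index_comap_of_surjective K (retr_surjective A N hA), hKidx]
    have h2 := E.card_mul_index
    rw [h1, ← hA.card_mul_card, ← hKcard] at h2
    have h3 : Nat.card E * Nat.card S = Nat.card N * Nat.card K * Nat.card S := by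
      rw [h2]; ring
    exact Nat.eq_of_mul_eq_mul_right hSpos h3
  -- Schur–Zassenhaus inside E
  have hrel : N.relIndex E = Nat.card K := by
    have h1 := Cfsg.Agent.Lib.Helper10.SZ.card_mul_relIndex' hEN
    rw [hEcard] at h1
    exact Nat.eq_of_mul_eq_mul_left Nat.card_pos h1
  have hNEcard : Nat.card (N.subgroupOf E) = Nat.card N :=
    Nat.card_congr (Subgroup.subgroupOfEquivOfLe hEN).toEquiv
  have hcopE : (Nat.card (N.subgroupOf E)).Coprime (N.subgroupOf E).index := by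
    rw [hNEcard]
    show (Nat.card N).Coprime (N.relIndex E)
    rw [hrel]
    exact hNKcop
  have hHE : Nat.card (K'.subgroupOf E) = (N.subgroupOf E).index := by
    rw [Nat.card_congr (Subgroup.subgroupOfEquivOfLe hEK).toEquiv, hK'card]
    exact hrel.symm
  have hKE : Nat.card (K₁'.subgroupOf E) = (N.subgroupOf E).index := by
    rw [Nat.card_congr (Subgroup.subgroupOfEquivOfLe hEK₁).toEquiv, hK₁'card]
    exact hrel.symm
  have hsolv : Group.IsSolvable (N.subgroupOf E) := by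
    have h1 : IsPGroup p (N.subgroupOf E) := IsPGroup.of_card (hNEcard.trans hkN)
    have h2 : Group.IsNilpotent (N.subgroupOf E) := h1.isNilpotent
    infer_instance
  obtain ⟨g, hg⟩ := Cfsg.Agent.Lib.Helper10.SZ.conj_aux (Nat.card E) E rfl (N.subgroupOf E) hcopE
    (K'.subgroupOf E) (K₁'.subgroupOf E) hHE hKE (Or.inl hsolv)
  have hg' := congrArg (Subgroup.map E.subtype) hg
  rw [Cfsg.Agent.Lib.Helper10.SZ.map_conj_smul, Subgroup.map_subgroupOf_eq_of_le hEK,
    Subgroup.map_subgroupOf_eq_of_le hEK₁] at hg'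
  obtain ⟨γ, hγ⟩ : ∃ γ : G, γ = E.subtype g := ⟨_, rfl⟩
  rw [← hγ] at hg'
  have hconjK : ∀ x, x ∈ K₁' ↔ γ⁻¹ * x * γ ∈ K' := by
    intro x
    rw [← hg', mem_conj_smul]
  -- the normalizer of K₁'
  set M := Subgroup.normalizer (K₁' : Set G) with hM
  have hA₁M : A₁ ≤ M := le_normalizer_map_subtype A₁ K₁
  have hAK' : A ≤ Subgroup.normalizer (K' : Set G) := le_normalizer_map_subtype A K
  set A₂ : Subgroup G := A.map (MulAut.conj γ).toMonoidHom with hA₂
  have hA₂M : A₂ ≤ M := by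
    rintro _ ⟨a, ha, rfl⟩
    rw [hM, Subgroup.mem_set_normalizer_iff]
    intro h
    have h1 := (Subgroup.mem_set_normalizer_iff.mp (hAK' ha)) (γ⁻¹ * h * γ)
    show h ∈ K₁' ↔ γ * a * γ⁻¹ * h * (γ * a * γ⁻¹)⁻¹ ∈ K₁'
    rw [hconjK, hconjK]
    have h2 : γ⁻¹ * (γ * a * γ⁻¹ * h * (γ * a * γ⁻¹)⁻¹) * γ = a * (γ⁻¹ * h * γ) * a⁻¹ := by
      simp [mul_assoc]
    rw [h2]
    exact h1
  -- N ∩ K₁' = 1
  have hNK₁ : N ⊓ K₁' = ⊥ := by
    apply (Subgroup.disjoint_of_coprime_natCard _).eq_bot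
    rw [hK₁'card]
    exact hNKcop
  -- M ∩ N = 1
  have hMN : ∀ m ∈ M, m ∈ N → m = 1 := by
    -- C = C_N(K₁') is trivial
    have hCtriv : ∀ c ∈ N, (∀ k ∈ K₁', k * c = c * k) → c = 1 := by
      intro c₀ hc₀N hc₀K
      by_contra hc₀1
      let C : Subgroup G :=
        { carrier := {c | c ∈ N ∧ ∀ k ∈ K₁', k * c = c * k}
          mul_mem' := by
            rintro a b ⟨ha1, ha2⟩ ⟨hb1, hb2⟩
            refine ⟨N.mul_mem ha1 hb1, fun k hk => ?_⟩
            rw [← mul_assoc, ha2 k hk, mul_assoc, hb2 k hk, mul_assoc]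
          one_mem' := ⟨N.one_mem, fun k _ => by rw [mul_one, one_mul]⟩
          inv_mem' := by
            rintro a ⟨ha1, ha2⟩
            refine ⟨N.inv_mem ha1, fun k hk => ?_⟩
            have h1 := ha2 k hk
            calc k * a⁻¹ = a⁻¹ * (a * k) * a⁻¹ := by simp
              _ = a⁻¹ * (k * a) * a⁻¹ := by rw [h1]
              _ = a⁻¹ * k := by simp [mul_assoc] }
      set T : Subgroup G := (S₁ : Subgroup A₁).map A₁.subtype with hT
      have hTA₁ : T ≤ A₁ := by
        rintro _ ⟨u, -, rfl⟩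
        exact u.2
      have hTp : IsPGroup p T := S₁.isPGroup'.map A₁.subtype
      have hCp : IsPGroup p C := by
        have hCN : C ≤ N := fun c hc => hc.1
        exact hN.to_le hCN
      have hconjC : ∀ t ∈ T, ∀ c ∈ C, t * c * t⁻¹ ∈ C := by
        intro t ht c hc
        refine ⟨hNn.conj_mem c hc.1 t, fun k hk => ?_⟩
        have htM : t ∈ M := hA₁M (hTA₁ ht)
        have h1 : t⁻¹ * k * t ∈ K₁' := by
          have h2 := (Subgroup.mem_set_normalizer_iff.mp htM) (t⁻¹ * k * t)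
          have h3 : t * (t⁻¹ * k * t) * t⁻¹ = k := by simp [mul_assoc]
          exact h2.mpr (by rw [h3]; exact hk)
        have h4 := hc.2 _ h1
        calc k * (t * c * t⁻¹) = t * ((t⁻¹ * k * t) * c) * t⁻¹ := by simp [mul_assoc]
          _ = t * (c * (t⁻¹ * k * t)) * t⁻¹ := by rw [h4]
          _ = t * c * t⁻¹ * k := by simp [mul_assoc]
      let act : MulAction T C :=
        { smul := fun t c => ⟨t.1 * c.1 * t.1⁻¹, hconjC t.1 t.2 c.1 c.2⟩
          one_smul := fun c => Subtype.ext (by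
            show (1 : G) * c.1 * (1 : G)⁻¹ = c.1
            simp)
          mul_smul := fun s t c => Subtype.ext (by
            show (s.1 * t.1) * c.1 * (s.1 * t.1)⁻¹ = s.1 * (t.1 * c.1 * t.1⁻¹) * s.1⁻¹
            simp [mul_assoc]) }
      have hCnt : p ∣ Nat.card C := by
        obtain ⟨j, hj⟩ := IsPGroup.iff_card.mp hCp
        rw [hj]
        apply dvd_pow_self
        rintro rfl
        rw [pow_zero] at hj
        have hsub : Subsingleton C := (Nat.card_eq_one_iff_unique.mp hj).1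
        have h1 : (⟨c₀, hc₀N, hc₀K⟩ : C) = 1 := Subsingleton.elim _ _
        exact hc₀1 (congrArg Subtype.val h1)
      have hfix1 : (1 : C) ∈ MulAction.fixedPoints T C := by
        intro t
        apply Subtype.ext
        show t.1 * (1 : G) * t.1⁻¹ = 1
        simp
      obtain ⟨b, hbfix, hb1⟩ := hTp.exists_fixed_point_of_prime_dvd_card_of_fixed_point C hCnt hfix1
      apply hb1
      apply Subtype.ext
      symm
      apply hC₁ b.1 b.2.1
      intro a ha
      -- a = k * s with k ∈ K₁, s ∈ S₁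
      obtain ⟨⟨k, s⟩, hks⟩ := hK₁S₁.2 ⟨a, ha⟩
      have hks' : (k.1 : G) * (s.1 : G) = a := congrArg Subtype.val hks
      have hkK : (k.1 : G) ∈ K₁' := ⟨k.1, k.2, rfl⟩
      have hsT : (s.1 : G) ∈ T := ⟨s.1, s.2, rfl⟩
      have h1 : (s.1 : G) * b.1 * (s.1 : G)⁻¹ = b.1 :=
        congrArg Subtype.val (hbfix ⟨(s.1 : G), hsT⟩)
      have h2 : (k.1 : G) * b.1 = b.1 * (k.1 : G) := b.2.2 _ hkK
      rw [← hks']
      calc (k.1 : G) * (s.1 : G) * b.1 * ((k.1 : G) * (s.1 : G))⁻¹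
          = (k.1 : G) * ((s.1 : G) * b.1 * (s.1 : G)⁻¹) * (k.1 : G)⁻¹ := by simp [mul_assoc]
        _ = (k.1 : G) * b.1 * (k.1 : G)⁻¹ := by rw [h1]
        _ = b.1 := by rw [h2, mul_inv_cancel_right]
    intro m hmM hmN
    apply hCtriv m hmN
    intro k hk
    have h1 : m * k * m⁻¹ ∈ K₁' := (Subgroup.mem_set_normalizer_iff.mp hmM k).mp hk
    have h2 : m * k * m⁻¹ * k⁻¹ ∈ K₁' := K₁'.mul_mem h1 (K₁'.inv_mem hk)
    have h3 : m * k * m⁻¹ * k⁻¹ ∈ N := by
      have h4 : m * k * m⁻¹ * k⁻¹ = m * (k * m⁻¹ * k⁻¹) := by simp [mul_assoc]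
      rw [h4]
      exact N.mul_mem hmN (hNn.conj_mem _ (N.inv_mem hmN) k)
    have h5 : m * k * m⁻¹ * k⁻¹ ∈ N ⊓ K₁' := ⟨h3, h2⟩
    rw [hNK₁, Subgroup.mem_bot] at h5
    have h6 : m * k = k * m := by
      have h7 : m * k = (m * k * m⁻¹ * k⁻¹) * (k * m) := by simp [mul_assoc]
      rw [h7, h5, one_mul]
    exact h6.symm
  -- M ≤ A₁
  have hMA₁ : M ≤ A₁ := by
    intro m hm
    obtain ⟨⟨a, n⟩, han⟩ := hA₁.2 m
    have han' : (a : G) * (n : G) = m := han
    have h1 : (n : G) ∈ M := by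
      have h2 : (n : G) = (a : G)⁻¹ * m := by rw [← han', inv_mul_cancel_left]
      rw [h2]
      exact M.mul_mem (M.inv_mem (hA₁M a.2)) hm
    have h3 := hMN _ h1 n.2
    rw [← han', h3, mul_one]
    exact a.2
  have hA₂A₁ : A₂ = A₁ := by
    apply Subgroup.eq_of_le_of_card_ge (hA₂M.trans hMA₁)
    rw [hA₂, Subgroup.card_map_of_injective (MulAut.conj γ).injective, hcA, hcA₁]
  -- write γ⁻¹ = a * n
  obtain ⟨⟨a, n⟩, han⟩ := hA.2 γ⁻¹
  have han' : (a : G) * (n : G) = γ⁻¹ := han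
  have hγ' : γ = (n : G)⁻¹ * (a : G)⁻¹ := by
    rw [← inv_inv γ, ← han', mul_inv_rev]
  refine ⟨(n : G)⁻¹, N.inv_mem n.2, ?_⟩
  rw [← hA₂A₁]
  ext x
  constructor
  · rintro ⟨b, hb, rfl⟩
    refine ⟨(a : G)⁻¹ * b * (a : G), A.mul_mem (A.mul_mem (A.inv_mem a.2) hb) a.2, ?_⟩
    show (n : G)⁻¹ * ((a : G)⁻¹ * b * (a : G)) * (n : G)⁻¹⁻¹ = γ * b * γ⁻¹
    rw [hγ']
    simp [mul_assoc]
  · rintro ⟨b, hb, rfl⟩
    refine ⟨(a : G) * b * (a : G)⁻¹, A.mul_mem (A.mul_mem a.2 hb) (A.inv_mem a.2), ?_⟩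
    show γ * ((a : G) * b * (a : G)⁻¹) * γ⁻¹ = (n : G)⁻¹ * b * (n : G)⁻¹⁻¹
    rw [hγ']
    simp [mul_assoc]

end Cfsg.Agent.S4043
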