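import Mathlib
import Cfsg.Statements.S4049
import Cfsg.Agent.Lib.Helper21.NormalSylowTwo

set_option autoImplicit false
open Cfsg

namespace Cfsg.Agent.S4049

open Cfsg.Agent.Lib.Helper21.NormalSylowTwo

/-- Let G be a finite group such that N_G(H)/C_G(H) has odd order for every nontrivial subgroup H of odd order. Then the Sylow 2-subgroups of G are normal. -/
theorem result {G : Type*} [Group G] [Finite G]
    (hhom : ∀ H : Subgroup G, H ≠ ⊥ → ¬ 2 ∣ Nat.card ↥H →
        ¬ 2 ∣ (Subgroup.centralizer (H : Set G)).relIndex (Subgroup.normalizer (H : Set G))) (P : Sylow 2 G) :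
    (P : Subgroup G).Normal := by
  apply normal_sylow_two
  intro x g hxp hx2 hnorm hsq
  by_contra hcomm
  have hHne : Subgroup.zpowers x ≠ ⊥ := by
    intro h
    rw [Subgroup.zpowers_eq_bot] at h
    rw [h, orderOf_one] at hxp
    exact Nat.not_prime_one hxp
  have hHodd : ¬ 2 ∣ Nat.card (Subgroup.zpowers x) := by
    rw [Nat.card_zpowers]
    intro h
    exact hx2 ((Nat.prime_dvd_prime_iff_eq Nat.prime_two hxp).mp h).symm
  apply hhom _ hHne hHodd
  have hgN := mem_normalizer_zpowers x g hnorm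
  set N := Subgroup.normalizer ((Subgroup.zpowers x : Subgroup G) : Set G) with hN
  set C := Subgroup.centralizer ((Subgroup.zpowers x : Subgroup G) : Set G) with hC
  have hg2 : (⟨g, hgN⟩ : N) * ⟨g, hgN⟩ ∈ C.subgroupOf N := by
    rw [Subgroup.mem_subgroupOf]
    exact (mem_centralizer_zpowers x _).mpr hsq
  have hg1 : (⟨g, hgN⟩ : N) ∉ C.subgroupOf N := by
    rw [Subgroup.mem_subgroupOf]
    exact fun h => hcomm ((mem_centralizer_zpowers x _).mp h)
  have hord : orderOf (((⟨g, hgN⟩ : N) : N ⧸ C.subgroupOf N)) = 2 := by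
    apply orderOf_eq_prime
    · rw [pow_two, ← QuotientGroup.mk_mul, QuotientGroup.eq_one_iff]
      exact hg2
    · rw [Ne, QuotientGroup.eq_one_iff]
      exact hg1
  have h5 := orderOf_dvd_natCard (((⟨g, hgN⟩ : N) : N ⧸ C.subgroupOf N))
  rw [hord] at h5
  exact h5

end Cfsg.Agent.S4049
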