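import Mathlib
import Cfsg.Statements.S4050
import Cfsg.Agent.Lib.Helper21.PiClosed

set_option autoImplicit false
open Cfsg

namespace Cfsg.Agent.S4050

open Cfsg.Agent.Lib.Helper21.PiTools Cfsg.Agent.Lib.Helper21.PiClosed
open Cfsg.Agent.Lib.Helper21.Compl

/-- Elementwise homogeneity passes to subgroups. -/
theorem homE_subgroup {G : Type*} [Group G] (π : Set ℕ) (h : HomE π G) (B : Subgroup G) :
    HomE π ↥B := by
  intro Q' hQ' y hy hpy x hx
  have hyN : (y : G) ∈ Subgroup.normalizer ((Q'.map B.subtype : Subgroup G) : Set G) := by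
    rw [Subgroup.mem_set_normalizer_iff]
    intro g
    have hn := Subgroup.mem_set_normalizer_iff.mp hy
    constructor
    · rintro ⟨g', hg', rfl⟩
      exact ⟨y * g' * y⁻¹, (hn g').mp hg', rfl⟩
    · rintro ⟨k', hk', hk⟩
      have hk2 : (y : G) * g * (y : G)⁻¹ = (k' : G) := hk.symm
      refine ⟨y⁻¹ * k' * y, ?_, ?_⟩
      · apply (hn (y⁻¹ * k' * y)).mpr
        have h1 : y * (y⁻¹ * k' * y) * y⁻¹ = k' := by group
        rw [h1]
        exact hk'
      · show (y : G)⁻¹ * (k' : G) * (y : G) = g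
        rw [← hk2]
        group
  have hQpi : ∀ a ∈ Q'.map B.subtype, IsPi πᶜ a := by
    rintro _ ⟨a, ha, rfl⟩
    exact (hQ' a ha).of_orderOf_dvd (dvd_of_eq (Subgroup.orderOf_coe a))
  have hypi : IsPi π (y : G) := hpy.of_orderOf_dvd (dvd_of_eq (Subgroup.orderOf_coe y))
  have h1 := h (Q'.map B.subtype) hQpi (y : G) hyN hypi (x : G) ⟨x, hx, rfl⟩
  exact Subtype.ext h1

/-- The inductive step along a normal series. -/
theorem step {G : Type*} [Group G] [Finite G] (π : Set ℕ) (hE : HomE π G)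
    (A B : Subgroup G) [hAn : A.Normal] (hAB : A ≤ B)
    (hfac : IsPiNum π (A.relIndex B) ∨ IsPiNum πᶜ (A.relIndex B))
    (T : Subgroup G) (hTA : T ≤ A) (hT : ∀ x ∈ A, x ∈ T ↔ IsPi π x) :
    ∃ T' : Subgroup G, T' ≤ B ∧ ∀ x ∈ B, x ∈ T' ↔ IsPi π x := by
  rcases hfac with hfac | hfac
  · have hE' := homE_subgroup π hE B
    have hL' : ∀ x ∈ A.subgroupOf B, x ∈ T.subgroupOf B ↔ IsPi π x := by
      intro x hx
      rw [Subgroup.mem_subgroupOf] at hx ⊢
      rw [hT _ hx]
      constructor
      · intro h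
        exact h.of_orderOf_dvd (dvd_of_eq (Subgroup.orderOf_coe x).symm)
      · intro h
        exact h.of_orderOf_dvd (dvd_of_eq (Subgroup.orderOf_coe x))
    have hLK' : T.subgroupOf B ≤ A.subgroupOf B := by
      intro x hx
      rw [Subgroup.mem_subgroupOf] at hx ⊢
      exact hTA hx
    have hLQ' : ∀ qb : ↥B ⧸ A.subgroupOf B, qb ∈ (⊤ : Subgroup (↥B ⧸ A.subgroupOf B)) ↔
        IsPi π qb := by
      intro qb
      refine ⟨fun _ => ?_, fun _ => Subgroup.mem_top _⟩
      apply IsPiNum.of_dvd hfac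
      have h1 : orderOf qb ∣ Nat.card (↥B ⧸ A.subgroupOf B) := orderOf_dvd_natCard qb
      rw [← Subgroup.index_eq_card] at h1
      exact h1
    obtain ⟨T', hT'⟩ := core π hE' (A.subgroupOf B) (T.subgroupOf B) hLK' hL' ⊤ hLQ'
    refine ⟨T'.map B.subtype, ?_, ?_⟩
    · rintro _ ⟨u, -, rfl⟩
      exact u.2
    · intro x hx
      constructor
      · rintro ⟨u, hu, rfl⟩
        exact ((hT' u).mp hu).of_orderOf_dvd (dvd_of_eq (Subgroup.orderOf_coe u))
      · intro h
        refine ⟨⟨x, hx⟩, (hT' _).mpr ?_, rfl⟩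
        exact h.of_orderOf_dvd (dvd_of_eq (Subgroup.orderOf_mk x hx))
  · refine ⟨T, hTA.trans hAB, ?_⟩
    intro x hx
    constructor
    · intro h
      exact (hT x (hTA h)).mp h
    · intro h
      have h2 := Subgroup.pow_index_mem (A.subgroupOf B) (⟨x, hx⟩ : B)
      have h3 : x ^ A.relIndex B ∈ A := h2
      have h4 : x ∈ A := mem_of_pow_mem A x _ h3 (IsPiNum.coprime h hfac).symm
      exact (hT x h4).mpr h

/-- Let π be a set of primes and G a finite group. The π-elements of G (elements whose order is divisible only by primes of π) form a subgroup if and only if G is π-separable (it has a chain of normal subgroups from 1 to G with each successive index divisible only by primes in π or only by primes outside π) and N_G(H)/C_G(H) is a π'-group for every nontrivial π'-subgroup H of G. -/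
theorem result {G : Type*} [Group G] [Finite G] (π : Set ℕ)
    (hπ : ∀ p ∈ π, p.Prime) :
    (∃ K : Subgroup G, ∀ x : G, x ∈ K ↔ ∀ p : ℕ, p.Prime → p ∣ orderOf x → p ∈ π) ↔
    ((∃ (n : ℕ) (H : Fin (n + 1) → Subgroup G), H 0 = ⊥ ∧ H (Fin.last n) = ⊤ ∧ Monotone H ∧ (∀ i, (H i).Normal) ∧
      ∀ i : Fin n, (∀ q : ℕ, q.Prime → q ∣ (H i.castSucc).relIndex (H i.succ) → q ∈ π) ∨
        (∀ q : ℕ, q.Prime → q ∣ (H i.castSucc).relIndex (H i.succ) → q ∉ π)) ∧
     (∀ H : Subgroup G, H ≠ ⊥ → (∀ p : ℕ, p.Prime → p ∣ Nat.card ↥H → p ∉ π) →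
        ∀ p : ℕ, p.Prime → p ∣ (Subgroup.centralizer (H : Set G)).relIndex (Subgroup.normalizer (H : Set G)) → p ∉ π)) := by
  constructor
  · rintro ⟨T, hT⟩
    have hT' : ∀ x : G, x ∈ T ↔ IsPi π x := hT
    have hTn : T.Normal := by
      constructor
      intro a ha g
      exact (hT' _).mpr (((hT' a).mp ha).conj g)
    have hTcard : IsPiNum π (Nat.card T) := isPiNum_card_subgroup T (fun x hx => (hT' x).mp hx)
    have hTidx : IsPiNum πᶜ T.index := by
      rw [Subgroup.index_eq_card]
      apply isPiNum_card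
      intro qb
      obtain ⟨g, rfl⟩ := QuotientGroup.mk_surjective qb
      have h1 := quot_pi' π ⊤ T (fun x _ => hT' x)
      exact h1 _ ⟨g, Subgroup.mem_top g, rfl⟩
    refine ⟨⟨2, ![⊥, T, ⊤], rfl, rfl, ?_, ?_, ?_⟩, ?_⟩
    · rw [Fin.monotone_iff_le_succ]
      intro i
      fin_cases i
      · exact bot_le
      · exact le_top
    · intro i
      fin_cases i
      · exact (inferInstance : (⊥ : Subgroup G).Normal)
      · exact hTn
      · exact (inferInstance : (⊤ : Subgroup G).Normal)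
    · intro i
      fin_cases i
      · left
        show IsPiNum π ((⊥ : Subgroup G).relIndex T)
        rw [Subgroup.relIndex_bot_left]
        exact hTcard
      · right
        show IsPiNum πᶜ (T.relIndex ⊤)
        rw [Subgroup.relIndex_top_right]
        exact hTidx
    · intro H _ hH
      have hHnum : IsPiNum πᶜ (Nat.card H) := hH
      show IsPiNum πᶜ ((Subgroup.centralizer (H : Set G)).relIndex (Subgroup.normalizer (H : Set G)))
      have h1 : T ⊓ Subgroup.normalizer (H : Set G) ≤ Subgroup.centralizer (H : Set G) := by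
        rintro y ⟨hyT, hyN⟩
        rw [Subgroup.mem_centralizer_iff]
        intro h hh
        have h2 : y * h * y⁻¹ ∈ H := (Subgroup.mem_set_normalizer_iff.mp hyN h).mp hh
        have h3 : y * h * y⁻¹ * h⁻¹ ∈ H := H.mul_mem h2 (H.inv_mem hh)
        have h4 : y * h * y⁻¹ * h⁻¹ ∈ T := by
          have h5 : y * h * y⁻¹ * h⁻¹ = y * (h * y⁻¹ * h⁻¹) := by group
          rw [h5]
          exact T.mul_mem hyT (hTn.conj_mem _ (T.inv_mem hyT) h)
        have h6 : y * h * y⁻¹ * h⁻¹ = 1 :=
          ((hT' _).mp h4).eq_one (IsPi.of_card H hHnum h3)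
        have h7 : y * h = (y * h * y⁻¹ * h⁻¹) * (h * y) := by group
        rw [h7, h6, one_mul]
      have h2 := Subgroup.relIndex_dvd_of_le_left (Subgroup.normalizer (H : Set G)) h1
      rw [Subgroup.inf_relIndex_right] at h2
      exact hTidx.of_dvd (h2.trans (Subgroup.relIndex_dvd_index_of_normal T _))
  · rintro ⟨⟨n, H, h0, hlast, hmono, hnorm, hfac⟩, hhom⟩
    have hE := homE_of_hhom π hhom
    have key : ∀ i : Fin (n + 1), ∃ T : Subgroup G, T ≤ H i ∧ ∀ x ∈ H i, x ∈ T ↔ IsPi π x := by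
      intro i
      induction i using Fin.induction with
      | zero =>
        refine ⟨⊥, bot_le, ?_⟩
        intro x hx
        rw [h0, Subgroup.mem_bot] at hx
        rw [hx]
        exact ⟨fun _ => isPi_one π, fun _ => Subgroup.one_mem _⟩
      | succ i ih =>
        obtain ⟨T, hTA, hT⟩ := ih
        have := hnorm i.castSucc
        exact step π hE (H i.castSucc) (H i.succ) (hmono (Fin.castSucc_le_succ i)) (hfac i) T hTA hT
    obtain ⟨T, -, hT⟩ := key (Fin.last n)
    refine ⟨T, fun x => ?_⟩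
    exact hT x (hlast ▸ Subgroup.mem_top x)

end Cfsg.Agent.S4050
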