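import Mathlib
import Cfsg.Statements.S4051
import Cfsg.Agent.Lib.Helper21.PiClosed

set_option autoImplicit false
open Cfsg

namespace Cfsg.Agent.S4051

open Cfsg.Agent.Lib.Helper21.PiTools Cfsg.Agent.Lib.Helper21.PiClosed

/-- Let π be a set of primes and G a finite group such that N_G(H)/C_G(H) is a π'-group for every nontrivial π'-subgroup H of G. If K is a normal subgroup of G such that the π-elements of K form a subgroup and the π-elements of G/K form a subgroup, then the π-elements of G form a subgroup. -/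
theorem result {G : Type*} [Group G] [Finite G] (π : Set ℕ)
    (hπ : ∀ p ∈ π, p.Prime) (hhom : (∀ H : Subgroup G, H ≠ ⊥ → (∀ p : ℕ, p.Prime → p ∣ Nat.card ↥H → p ∉ π) →
        ∀ p : ℕ, p.Prime → p ∣ (Subgroup.centralizer (H : Set G)).relIndex (Subgroup.normalizer (H : Set G)) → p ∉ π))
    (K : Subgroup G) [K.Normal]
    (hK : ∃ L : Subgroup ↥K, ∀ x : ↥K, x ∈ L ↔ ∀ p : ℕ, p.Prime → p ∣ orderOf x → p ∈ π)
    (hQ : ∃ L : Subgroup (G ⧸ K), ∀ x : G ⧸ K, x ∈ L ↔ ∀ p : ℕ, p.Prime → p ∣ orderOf x → p ∈ π) :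
    (∃ K : Subgroup G, ∀ x : G, x ∈ K ↔ ∀ p : ℕ, p.Prime → p ∣ orderOf x → p ∈ π) := by
  obtain ⟨L₀, hL₀⟩ := hK
  obtain ⟨LQ, hLQ⟩ := hQ
  have hE := homE_of_hhom π hhom
  obtain ⟨T, hT⟩ := core π hE K (L₀.map K.subtype) (by
    rintro _ ⟨u, -, rfl⟩
    exact u.2) (by
    intro x hx
    constructor
    · rintro ⟨u, hu, rfl⟩
      have h1 := (hL₀ u).mp hu
      intro p hp hd
      have hd' : p ∣ orderOf u := by
        have h2 : orderOf (K.subtype u) = orderOf u := Subgroup.orderOf_coe u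
        rwa [h2] at hd
      exact h1 p hp hd'
    · intro h
      refine ⟨⟨x, hx⟩, (hL₀ _).mpr ?_, rfl⟩
      intro p hp hd
      rw [Subgroup.orderOf_mk] at hd
      exact h p hp hd) LQ hLQ
  exact ⟨T, hT⟩

end Cfsg.Agent.S4051
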