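import Mathlib
import Cfsg.Statements.S4056
import Cfsg.Agent.S0013

set_option autoImplicit false
open Cfsg

namespace Cfsg.Agent.S4056

/-- In a group of exponent dividing `4`, if `d = x⁻¹ y x y⁻¹` is central then `d ^ 2 = 1` and
`y` commutes with `x ^ 2`. -/
theorem key {P : Type*} [Group P] (h4 : ∀ g : P, g ^ 4 = 1) (x y : P)
    (hd : x⁻¹ * y * x * y⁻¹ ∈ Subgroup.center P) :
    (x⁻¹ * y * x * y⁻¹) ^ 2 = 1 ∧ y * x ^ 2 * y⁻¹ = x ^ 2 := by
  obtain ⟨d, hdd⟩ : ∃ d : P, d = x⁻¹ * y * x * y⁻¹ := ⟨_, rfl⟩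
  rw [← hdd] at hd ⊢
  have hc : ∀ g : P, Commute g d := fun g => Subgroup.mem_center_iff.mp hd g
  have hconj : y * x * y⁻¹ = x * d := by
    rw [hdd]
    group
  have h3 : y * x ^ 2 * y⁻¹ = x ^ 2 * d ^ 2 := by
    rw [← conj_pow, hconj, (hc x).mul_pow]
  have hd2c : ∀ g : P, Commute g (d ^ 2) := fun g => (hc g).pow_right 2
  have h4' : y * (y * x ^ 2 * y⁻¹) * y⁻¹ = x ^ 2 := by
    rw [h3]
    calc y * (x ^ 2 * d ^ 2) * y⁻¹ = (y * x ^ 2 * y⁻¹) * (y * d ^ 2 * y⁻¹) := by group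
      _ = x ^ 2 * d ^ 2 * d ^ 2 := by
        rw [h3, (hd2c y).eq]
        group
      _ = x ^ 2 * d ^ 4 := by
        rw [mul_assoc, ← pow_add]
      _ = x ^ 2 := by rw [h4 d, mul_one]
  have hAB : Commute (x ^ 2) (y ^ 2) := by
    have h5 : y ^ 2 * x ^ 2 * (y ^ 2)⁻¹ = x ^ 2 := by
      have e : y ^ 2 * x ^ 2 * (y ^ 2)⁻¹ = y * (y * x ^ 2 * y⁻¹) * y⁻¹ := by
        rw [pow_two y]
        group
      rw [e, h4']
    have h6 : y ^ 2 * x ^ 2 = x ^ 2 * y ^ 2 := by
      calc y ^ 2 * x ^ 2 = (y ^ 2 * x ^ 2 * (y ^ 2)⁻¹) * y ^ 2 := by group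
        _ = x ^ 2 * y ^ 2 := by rw [h5]
    exact h6.symm
  have h5 : (x * y) ^ 2 = x ^ 2 * y ^ 2 * d := by
    calc (x * y) ^ 2 = x * (y * x * y⁻¹) * (y * y) := by
          rw [pow_two]
          group
      _ = x * (x * d) * (y * y) := by rw [hconj]
      _ = x * x * (d * (y * y)) := by group
      _ = x * x * ((y * y) * d) := by rw [(hc (y * y)).eq]
      _ = x ^ 2 * y ^ 2 * d := by
        rw [pow_two, pow_two]
        group
  have h6 : (x * y) ^ 4 = d ^ 2 := by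
    have h7 : (x * y) ^ 4 = ((x * y) ^ 2) ^ 2 := by rw [← pow_mul]
    rw [h7, h5, (hc (x ^ 2 * y ^ 2)).mul_pow, hAB.mul_pow, ← pow_mul, ← pow_mul, h4 x, h4 y,
      one_mul, one_mul]
  have hd2 : d ^ 2 = 1 := by rw [← h6, h4]
  refine ⟨hd2, ?_⟩
  rw [h3, hd2, mul_one]

/-- In a finite 2-group of nilpotency class at most 2 and exponent dividing 4, the Frattini subgroup lies in the centre and is elementary abelian. -/
theorem result {P : Type*} [Group P] [Finite P] (hP : IsPGroup 2 P)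
    (hcl : Group.nilpotencyClass P ≤ 2) (hexp : Monoid.exponent P ∣ 4) :
    frattini P ≤ Subgroup.center P ∧ Cfsg.IsElementaryAbelian 2 (frattini P) := by
  have : Fact (Nat.Prime 2) := ⟨Nat.prime_two⟩
  have hnil : Group.IsNilpotent P := hP.isNilpotent
  have h4 : ∀ g : P, g ^ 4 = 1 := Monoid.exponent_dvd_iff_forall_pow_eq_one.mp hexp
  have hucs : Subgroup.upperCentralSeries P 2 = ⊤ :=
    Subgroup.upperCentralSeries_eq_top_iff_nilpotencyClass_le.mpr hcl
  have hcent : ∀ a b : P, a * b * a⁻¹ * b⁻¹ ∈ Subgroup.center P := by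
    intro a b
    have h1 : a ∈ Subgroup.upperCentralSeries P (1 + 1) := by
      show a ∈ Subgroup.upperCentralSeries P 2
      rw [hucs]
      exact Subgroup.mem_top a
    rw [Subgroup.mem_upperCentralSeries_succ_iff, Subgroup.upperCentralSeries_one] at h1
    exact h1 b
  have hkey : ∀ x y : P, (x⁻¹ * y * x * y⁻¹) ^ 2 = 1 ∧ y * x ^ 2 * y⁻¹ = x ^ 2 := by
    intro x y
    apply key h4 x y
    have h1 := hcent x⁻¹ y
    rwa [inv_inv] at h1
  -- the central elements of order at most 2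
  let N : Subgroup P :=
    { carrier := {z | z ∈ Subgroup.center P ∧ z ^ 2 = 1}
      mul_mem' := by
        rintro a b ⟨ha, ha2⟩ ⟨hb, hb2⟩
        refine ⟨Subgroup.mul_mem _ ha hb, ?_⟩
        have hc : Commute a b := (Subgroup.mem_center_iff.mp hb a)
        rw [hc.mul_pow, ha2, hb2, one_mul]
      one_mem' := ⟨Subgroup.one_mem _, one_pow 2⟩
      inv_mem' := by
        rintro a ⟨ha, ha2⟩
        exact ⟨Subgroup.inv_mem _ ha, by rw [inv_pow, ha2, inv_one]⟩ }
  have hNmem : ∀ z : P, z ∈ N ↔ z ∈ Subgroup.center P ∧ z ^ 2 = 1 := fun z => Iff.rfl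
  have hNn : N.Normal := by
    constructor
    intro n hn g
    have h1 : g * n * g⁻¹ = n := by
      rw [Subgroup.mem_center_iff.mp ((hNmem n).mp hn).1 g]
      group
    rw [h1]
    exact hn
  have hcomm : commutator P ≤ N := by
    rw [commutator_def, Subgroup.commutator_le]
    intro a _ b _
    rw [commutatorElement_def, hNmem]
    refine ⟨hcent a b, ?_⟩
    have h1 := (hkey a⁻¹ b).1
    rwa [inv_inv] at h1
  have hpow : ∀ x : P, x ^ 2 ∈ N := by
    intro x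
    rw [hNmem]
    refine ⟨?_, ?_⟩
    · rw [Subgroup.mem_center_iff]
      intro g
      have h1 := (hkey x g).2
      calc g * x ^ 2 = (g * x ^ 2 * g⁻¹) * g := by group
        _ = x ^ 2 * g := by rw [h1]
    · rw [← pow_mul]
      exact h4 x
  have hle : frattini P ≤ N := Cfsg.Agent.S0013.result 2 hP N hcomm hpow
  refine ⟨fun a ha => ((hNmem a).mp (hle ha)).1, ⟨⟨⟨fun a b => ?_⟩⟩, fun a ha => ((hNmem a).mp (hle ha)).2⟩⟩
  apply Subtype.ext
  exact (Subgroup.mem_center_iff.mp ((hNmem b.1).mp (hle b.2)).1 a.1)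

end Cfsg.Agent.S4056
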