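import Mathlib
import Cfsg.Statements.S4066
import Cfsg.Agent.Lib.Helper21.BaerSuzuki
import Cfsg.Agent.Lib.Helper21.Compl
import Cfsg.Agent.Lib.Helper21.Engel
import Cfsg.Agent.Lib.Helper9.Cores

set_option autoImplicit false
open Cfsg

namespace Cfsg.Agent.S4066

open Cfsg.Agent.Lib.Helper21.Compl
open Cfsg.Agent.Lib.Helper21.Engel (mem_normalizer_of_conj_le)

universe u

theorem aux : ∀ (n : ℕ) (G : Type u) [Group G] [Finite G], Nat.card G = n →
    (∀ x : G, Cfsg.IsTISubset (Subgroup.centralizer ({x} : Set G) : Set G)) →
    ∀ (p : ℕ) [Fact p.Prime] (P Q : Sylow p G), P ≠ Q →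
      (P : Subgroup G) ⊓ (Q : Subgroup G) = ⊥ := by
  intro n
  induction n using Nat.strong_induction_on with
  | _ n ih =>
    intro G _ _ hn hTI p _ P Q hPQ
    rw [eq_bot_iff]
    intro y hy
    rw [Subgroup.mem_bot]
    by_contra hy1
    obtain ⟨hyP, hyQ⟩ := hy
    have hPnt : Nontrivial (P : Subgroup G) :=
      ⟨⟨⟨y, hyP⟩, 1, fun h => hy1 (congrArg Subtype.val h)⟩⟩
    have hZ : Nontrivial (Subgroup.center (P : Subgroup G)) := P.isPGroup'.center_nontrivial
    obtain ⟨z', hz'⟩ := exists_ne (1 : Subgroup.center (P : Subgroup G))
    obtain ⟨z, hz⟩ : ∃ z : G, z = ((z' : (P : Subgroup G)) : G) := ⟨_, rfl⟩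
    have hz1 : z ≠ 1 := by
      intro h
      apply hz'
      apply Subtype.ext
      apply Subtype.ext
      rw [← hz]
      exact h
    have hzP : ∀ a ∈ (P : Subgroup G), a * z = z * a := by
      intro a ha
      have h1 := Subgroup.mem_center_iff.mp z'.2 ⟨a, ha⟩
      rw [hz]
      exact congrArg Subtype.val h1
    obtain ⟨H, hH⟩ : ∃ H : Subgroup G, H = Subgroup.centralizer ({z} : Set G) := ⟨_, rfl⟩
    have hPH : (P : Subgroup G) ≤ H := by
      intro a ha
      rw [hH, Subgroup.mem_centralizer_singleton_iff]
      exact hzP a ha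
    obtain ⟨g, hg⟩ := MulAction.exists_smul_eq G P Q
    have hQmem : ∀ a, a ∈ (Q : Subgroup G) ↔ g⁻¹ * a * g ∈ (P : Subgroup G) := by
      intro a
      rw [← hg, Sylow.coe_subgroup_smul, mem_conj_smul]
    have hgN : g ∈ Subgroup.normalizer ((H : Subgroup G) : Set G) := by
      by_contra hgN
      have h1 := hTI z g (hH ▸ hgN) (g⁻¹ * y * g) (hH ▸ hPH ((hQmem y).mp hyQ)) (by
        have h2 : g * (g⁻¹ * y * g) * g⁻¹ = y := by group
        rw [h2]
        exact hH ▸ hPH hyP)
      apply hy1
      calc y = g * (g⁻¹ * y * g) * g⁻¹ := by group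
        _ = 1 := by rw [h1]; group
    have hQH : (Q : Subgroup G) ≤ H := by
      intro a ha
      have h1 : g⁻¹ * a * g ∈ H := hPH ((hQmem a).mp ha)
      have h2 := (Subgroup.mem_set_normalizer_iff.mp hgN (g⁻¹ * a * g)).mp h1
      have h3 : g * (g⁻¹ * a * g) * g⁻¹ = a := by group
      rw [h3] at h2
      exact h2
    by_cases hHtop : H = ⊤
    · -- z is central
      have hzc : ∀ a : G, a * z = z * a := by
        intro a
        have h1 : a ∈ H := hHtop ▸ Subgroup.mem_top a
        rw [hH, Subgroup.mem_centralizer_singleton_iff] at h1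
        exact h1
      have hnormal : ∀ x g' : G, g' ∈ Subgroup.normalizer
          ((Subgroup.centralizer ({x} : Set G) : Subgroup G) : Set G) := by
        intro x g'
        by_contra hg'
        apply hz1
        apply hTI x g' hg' z
        · rw [SetLike.mem_coe, Subgroup.mem_centralizer_singleton_iff]
          exact (hzc x).symm
        · have h1 : g' * z * g'⁻¹ = z := by
            rw [hzc g']
            group
          rw [h1, SetLike.mem_coe, Subgroup.mem_centralizer_singleton_iff]
          exact (hzc x).symm
      have hPQle : (P : Subgroup G) ≤ Q := by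
        intro w hw
        have hwp : IsPGroup p (Subgroup.zpowers w) :=
          P.isPGroup'.to_le (Subgroup.zpowers_le.mpr hw)
        obtain ⟨N, hNn, hNp, hwN⟩ :=
          Cfsg.Agent.Lib.Helper21.BaerSuzuki.baer_suzuki (Subgroup.zpowers w) hwp (by
            intro g'
            rw [MonoidHom.map_zpowers]
            have hc : g' * w * g'⁻¹ * w = w * (g' * w * g'⁻¹) := by
              have h1 : w ∈ Subgroup.centralizer ({w} : Set G) :=
                Subgroup.mem_centralizer_singleton_iff.mpr rfl
              have h2 := (Subgroup.mem_set_normalizer_iff.mp (hnormal w g') w).mp h1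
              exact Subgroup.mem_centralizer_singleton_iff.mp h2
            have hp2 : IsPGroup p (Subgroup.zpowers ((MulAut.conj g').toMonoidHom w)) := by
              have h3 := hwp.map (MulAut.conj g').toMonoidHom
              rwa [MonoidHom.map_zpowers] at h3
            apply IsPGroup.to_sup_of_normal_left' hwp hp2
            rw [Subgroup.zpowers_le]
            apply mem_normalizer_of_conj_le
            intro d hd
            obtain ⟨i, rfl⟩ := Subgroup.mem_zpowers_iff.mp hd
            have h4 : (MulAut.conj g').toMonoidHom w * w ^ i * ((MulAut.conj g').toMonoidHom w)⁻¹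
                = w ^ i := by
              show g' * w * g'⁻¹ * w ^ i * (g' * w * g'⁻¹)⁻¹ = w ^ i
              have h5 : Commute (g' * w * g'⁻¹) (w ^ i) := (show Commute (g' * w * g'⁻¹) w from hc).zpow_right i
              rw [h5.eq]
              group
            rw [h4]
            exact Subgroup.zpow_mem_zpowers w i)
        have hsup : IsPGroup p ((Q : Subgroup G) ⊔ N : Subgroup G) :=
          IsPGroup.to_sup_of_normal_right Q.isPGroup' hNp
        have h1 := Q.is_maximal' hsup le_sup_left
        have h2 : N ≤ (Q : Subgroup G) := by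
          rw [← h1]
          exact le_sup_right
        exact h2 (hwN (Subgroup.mem_zpowers w))
      exact hPQ (Sylow.ext (P.is_maximal' Q.isPGroup' hPQle).symm)
    · -- induction inside H
      have hcard : Nat.card H < n := by
        rw [← hn]
        exact Cfsg.Agent.Lib.Helper9.card_lt_of_lt_top (lt_top_iff_ne_top.mpr hHtop)
      have hTI' : ∀ x : H, Cfsg.IsTISubset (Subgroup.centralizer ({x} : Set H) : Set H) := by
        intro x h hh c hc hhc
        have hmemC : ∀ d : H, d ∈ Subgroup.centralizer ({x} : Set H) ↔
            (d : G) ∈ Subgroup.centralizer ({(x : G)} : Set G) := by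
          intro d
          rw [Subgroup.mem_centralizer_singleton_iff, Subgroup.mem_centralizer_singleton_iff]
          constructor
          · intro h1
            exact congrArg Subtype.val h1
          · intro h1
            exact Subtype.ext h1
        have hn' : (h : G) ∉ Subgroup.normalizer
            ((Subgroup.centralizer ({(x : G)} : Set G) : Subgroup G) : Set G) := by
          intro hcon
          apply hh
          rw [Subgroup.mem_set_normalizer_iff]
          intro d
          have h1 := Subgroup.mem_set_normalizer_iff.mp hcon (d : G)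
          rw [SetLike.mem_coe, SetLike.mem_coe, hmemC, hmemC]
          exact h1
        have h2 := hTI (x : G) (h : G) hn' (c : G) ((hmemC c).mp hc) ((hmemC _).mp hhc)
        exact Subtype.ext h2
      have h3 := ih (Nat.card H) hcard H rfl hTI' p (P.subtype hPH) (Q.subtype hQH)
        (fun heq => hPQ (Sylow.subtype_injective heq))
      have hmem : (⟨y, hPH hyP⟩ : H) ∈ ((P.subtype hPH : Sylow p H) : Subgroup H) ⊓
          ((Q.subtype hQH : Sylow p H) : Subgroup H) := by
        rw [Sylow.coe_subtype, Sylow.coe_subtype]
        exact ⟨hyP, hyQ⟩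
      rw [h3, Subgroup.mem_bot] at hmem
      exact hy1 (congrArg Subtype.val hmem)

/-- Let G be a finite group in which the centralizer of every element meets each of its conjugates by elements outside its normalizer trivially. Then any two distinct Sylow p-subgroups of G, for any prime p, intersect trivially. -/
theorem result {G : Type*} [Group G] [Finite G] (hTI : ∀ x : G, Cfsg.IsTISubset (Subgroup.centralizer ({x} : Set G) : Set G))
    {p : ℕ} [Fact p.Prime] (P Q : Sylow p G) (hPQ : P ≠ Q) : (P : Subgroup G) ⊓ (Q : Subgroup G) = ⊥ :=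
  aux (Nat.card G) G rfl hTI p P Q hPQ

end Cfsg.Agent.S4066
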