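import Mathlib
import Cfsg.Statements.S4074

set_option autoImplicit false
open Cfsg

namespace Cfsg.Agent.S4074

theorem result (n : ℕ) (hn : 2 < n) :
    (∀ H : Subgroup (DihedralGroup n), ¬ IsMulCommutative H → Subgroup.normalizer (H : Set (DihedralGroup n)) = H) ↔
    (n = 4 ∨ Odd n) := by
  haveI : NeZero n := ⟨by omega⟩
  constructor
  · intro hall
    by_contra hcon
    push_neg at hcon
    obtain ⟨hn4, hodd⟩ := hcon
    have heven : Even n := Nat.not_odd_iff_even.1 hodd
    have h2n : 2 ∣ n := even_iff_two_dvd.1 heven
    let H : Subgroup (DihedralGroup n) :=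
      { carrier := {g | ∃ j : ZMod n, g = DihedralGroup.r (2 * j) ∨ g = DihedralGroup.sr (2 * j)}
        one_mem' := ⟨0, Or.inl (by rw [mul_zero]; exact DihedralGroup.one_def)⟩
        mul_mem' := by
          rintro a b ⟨i, hi | hi⟩ ⟨j, hj | hj⟩
          · exact ⟨i + j, Or.inl (by rw [hi, hj, DihedralGroup.r_mul_r, mul_add])⟩
          · exact ⟨j - i, Or.inr (by rw [hi, hj, DihedralGroup.r_mul_sr, mul_sub])⟩
          · exact ⟨i + j, Or.inr (by rw [hi, hj, DihedralGroup.sr_mul_r, mul_add])⟩
          · exact ⟨j - i, Or.inl (by rw [hi, hj, DihedralGroup.sr_mul_sr, mul_sub])⟩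
        inv_mem' := by
          rintro a ⟨i, hi | hi⟩
          · exact ⟨-i, Or.inl (by rw [hi, DihedralGroup.inv_r, mul_neg])⟩
          · exact ⟨i, Or.inr (by rw [hi, DihedralGroup.inv_sr])⟩ }
    have hHr : ∀ i : ZMod n, DihedralGroup.r i ∈ H ↔ ∃ j : ZMod n, i = 2 * j := by
      intro i
      constructor
      · rintro ⟨j, hj | hj⟩
        · exact ⟨j, DihedralGroup.r.inj hj⟩
        · cases hj
      · rintro ⟨j, rfl⟩
        exact ⟨j, Or.inl rfl⟩
    have hHsr : ∀ i : ZMod n, DihedralGroup.sr i ∈ H ↔ ∃ j : ZMod n, i = 2 * j := by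
      intro i
      constructor
      · rintro ⟨j, hj | hj⟩
        · cases hj
        · exact ⟨j, DihedralGroup.sr.inj hj⟩
      · rintro ⟨j, rfl⟩
        exact ⟨j, Or.inr rfl⟩
    have hna : ¬ IsMulCommutative H := by
      intro hc
      have h2 : (DihedralGroup.r (2 : ZMod n)) ∈ H := (hHr 2).2 ⟨1, (mul_one 2).symm⟩
      have h0 : (DihedralGroup.sr (0 : ZMod n)) ∈ H := (hHsr 0).2 ⟨0, (mul_zero 2).symm⟩
      have h' : DihedralGroup.r (2 : ZMod n) * DihedralGroup.sr 0
          = DihedralGroup.sr 0 * DihedralGroup.r 2 :=
        congrArg Subtype.val (hc.is_comm.comm ⟨_, h2⟩ ⟨_, h0⟩)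
      rw [DihedralGroup.r_mul_sr, DihedralGroup.sr_mul_r] at h'
      have h3 : (0 : ZMod n) - 2 = 0 + 2 := DihedralGroup.sr.inj h'
      have h4 : ((4 : ℕ) : ZMod n) = 0 := by
        push_cast
        linear_combination -h3
      have h5 : n ∣ 4 := (ZMod.natCast_eq_zero_iff 4 n).1 h4
      have h6 : n ≤ 4 := Nat.le_of_dvd (by norm_num) h5
      have h7 : n = 3 := by omega
      rw [h7] at h5
      norm_num at h5
    have hr1 : DihedralGroup.r (1 : ZMod n) ∉ H := by
      intro hmem
      obtain ⟨j, hj⟩ := (hHr 1).1 hmem
      have h := congrArg (ZMod.castHom h2n (ZMod 2)) hj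
      rw [map_one, map_mul] at h
      have h2 : (ZMod.castHom h2n (ZMod 2)) (2 : ZMod n) = 0 := by
        rw [map_ofNat]
        decide
      rw [h2, zero_mul] at h
      exact absurd h (by decide)
    have hr1N : DihedralGroup.r (1 : ZMod n)
        ∈ Subgroup.normalizer (H : Set (DihedralGroup n)) := by
      rw [Subgroup.mem_normalizer_iff]
      intro h
      rcases h with i | i
      · show DihedralGroup.r i ∈ H
          ↔ DihedralGroup.r 1 * DihedralGroup.r i * (DihedralGroup.r 1)⁻¹ ∈ H
        rw [DihedralGroup.inv_r, DihedralGroup.r_mul_r, DihedralGroup.r_mul_r]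
        have e : (1 : ZMod n) + i + -1 = i := by ring
        rw [e]
      · show DihedralGroup.sr i ∈ H
          ↔ DihedralGroup.r 1 * DihedralGroup.sr i * (DihedralGroup.r 1)⁻¹ ∈ H
        rw [DihedralGroup.inv_r, DihedralGroup.r_mul_sr, DihedralGroup.sr_mul_r, hHsr, hHsr]
        constructor
        · rintro ⟨j, hj⟩
          exact ⟨j - 1, by rw [hj]; ring⟩
        · rintro ⟨j, hj⟩
          exact ⟨j + 1, by linear_combination hj⟩
    have hself := hall H hna
    rw [hself] at hr1N
    exact hr1 hr1N
  · intro hcase H hna
    apply le_antisymm _ Subgroup.le_normalizer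
    have hsr : ∃ i : ZMod n, DihedralGroup.sr i ∈ H := by
      by_contra hno
      push_neg at hno
      apply hna
      refine ⟨⟨fun a b => ?_⟩⟩
      obtain ⟨a, ha⟩ := a
      obtain ⟨b, hb⟩ := b
      apply Subtype.ext
      show a * b = b * a
      rcases a with i | i
      · rcases b with j | j
        · rw [DihedralGroup.r_mul_r, DihedralGroup.r_mul_r, add_comm]
        · exact absurd hb (hno j)
      · exact absurd ha (hno i)
    obtain ⟨i, hi⟩ := hsr
    have hrot : ∃ k : ZMod n, DihedralGroup.r k ∈ H ∧ k + k ≠ 0 := by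
      by_contra hno
      push_neg at hno
      apply hna
      refine ⟨⟨fun a b => ?_⟩⟩
      obtain ⟨a, ha⟩ := a
      obtain ⟨b, hb⟩ := b
      apply Subtype.ext
      show a * b = b * a
      rcases a with k | k
      · rcases b with l | l
        · rw [DihedralGroup.r_mul_r, DihedralGroup.r_mul_r, add_comm]
        · rw [DihedralGroup.r_mul_sr, DihedralGroup.sr_mul_r]
          congr 1
          have h := hno k ha
          linear_combination -h
      · rcases b with l | l
        · rw [DihedralGroup.sr_mul_r, DihedralGroup.r_mul_sr]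
          congr 1
          have h := hno l hb
          linear_combination h
        · rw [DihedralGroup.sr_mul_sr, DihedralGroup.sr_mul_sr]
          congr 1
          have hmem : DihedralGroup.r (l - k) ∈ H := by
            have h := H.mul_mem ha hb
            rwa [DihedralGroup.sr_mul_sr] at h
          have h := hno (l - k) hmem
          linear_combination h
    intro g hg
    rcases hcase with h4 | hodd
    · subst h4
      obtain ⟨k, hk, hk2⟩ := hrot
      have hr1 : DihedralGroup.r (1 : ZMod 4) ∈ H := by
        have hdec : ∀ k : ZMod 4, k + k ≠ 0 → k = 1 ∨ k = 3 := by decide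
        rcases hdec k hk2 with h1 | h3
        · rw [h1] at hk
          exact hk
        · rw [h3] at hk
          have h := H.mul_mem (H.mul_mem hk hk) hk
          rw [DihedralGroup.r_mul_r, DihedralGroup.r_mul_r] at h
          have e : (3 : ZMod 4) + 3 + 3 = 1 := by decide
          rwa [e] at h
      have hrall : ∀ j : ZMod 4, DihedralGroup.r j ∈ H := by
        intro j
        have h := H.pow_mem hr1 j.val
        rw [DihedralGroup.r_one_pow, ZMod.natCast_zmod_val] at h
        exact h
      rcases g with j | j
      · exact hrall j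
      · have h := H.mul_mem hi (hrall (j - i))
        rw [DihedralGroup.sr_mul_r] at h
        have e : i + (j - i) = j := by ring
        rwa [e] at h
    · have hkey : ∀ j : ZMod n,
          DihedralGroup.r j ∈ Subgroup.normalizer (H : Set (DihedralGroup n)) →
          DihedralGroup.r j ∈ H := by
        intro j hj
        rw [Subgroup.mem_normalizer_iff] at hj
        have h1 : DihedralGroup.r j * DihedralGroup.sr i * (DihedralGroup.r j)⁻¹ ∈ H :=
          (hj (DihedralGroup.sr i)).1 hi
        rw [DihedralGroup.inv_r, DihedralGroup.r_mul_sr, DihedralGroup.sr_mul_r] at h1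
        have h2 := H.mul_mem h1 hi
        rw [DihedralGroup.sr_mul_sr] at h2
        have h3 := H.pow_mem h2 ((n + 1) / 2)
        rw [DihedralGroup.r_pow] at h3
        have e : (i - (i - j + -j)) * (((n + 1) / 2 : ℕ) : ZMod n) = j := by
          obtain ⟨m, hm⟩ := hodd
          have hdiv : (n + 1) / 2 = m + 1 := by omega
          rw [hdiv]
          have hm2 : (2 : ZMod n) * (m : ZMod n) + 1 = 0 := by
            have h' : ((2 * m + 1 : ℕ) : ZMod n) = 0 := by
              rw [← hm]
              exact ZMod.natCast_self n
            push_cast at h'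
            exact h'
          push_cast
          linear_combination j * hm2
        rwa [e] at h3
      rcases g with j | j
      · exact hkey j hg
      · have hiN : DihedralGroup.sr i ∈ Subgroup.normalizer (H : Set (DihedralGroup n)) :=
          Subgroup.le_normalizer hi
        have h1 := (Subgroup.normalizer (H : Set (DihedralGroup n))).mul_mem hiN hg
        rw [DihedralGroup.sr_mul_sr] at h1
        have h2 := hkey (j - i) h1
        have h3 := H.mul_mem hi h2
        rw [DihedralGroup.sr_mul_r] at h3
        have e : i + (j - i) = j := by ring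
        rwa [e] at h3

end Cfsg.Agent.S4074
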