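import Mathlib
import Cfsg.Statements.S4075

set_option autoImplicit false
open Cfsg

namespace Cfsg.Agent.S4075

theorem result {G : Type*} [Group G] [Finite G]
    [Group.IsNilpotent G] :
    (∀ H : Subgroup G, ¬ IsMulCommutative H → Subgroup.normalizer (H : Set G) = H) ↔
    (IsMulCommutative G ∨ (IsPrimePow (Nat.card G) ∧ ¬ IsMulCommutative G ∧ ∀ H : Subgroup G, H ≠ ⊤ → IsMulCommutative H)) := by
  constructor
  · intro h
    by_cases hG : IsMulCommutative G
    · exact Or.inl hG
    · right
      have hprop : ∀ H : Subgroup G, H ≠ ⊤ → IsMulCommutative H := by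
        intro H hH
        by_contra hc
        have h1 := h H hc
        have hnc : NormalizerCondition G := Group.normalizerCondition_of_isNilpotent
        have h2 := hnc H (lt_top_iff_ne_top.mpr hH)
        rw [h1] at h2
        exact lt_irrefl _ h2
      refine ⟨?_, hG, hprop⟩
      by_contra hpp
      apply hG
      obtain ⟨φ⟩ := ((Group.isNilpotent_of_finite_tfae (G := G)).out 0 4).mp ‹_›
      have hS : ∀ (p : (Nat.card G).primeFactors) (P : Sylow p G),
          IsMulCommutative (P : Subgroup G) := by
        intro p P
        apply hprop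
        intro htop
        have hpp' : (p : ℕ).Prime := Nat.prime_of_mem_primeFactors p.2
        have : Fact (p : ℕ).Prime := ⟨hpp'⟩
        have hc := P.card_eq_multiplicity
        rw [htop, Subgroup.card_top] at hc
        apply hpp
        rw [hc]
        have hdvd : (p : ℕ) ∣ Nat.card G := Nat.dvd_of_mem_primeFactors p.2
        have hfac : 0 < (Nat.card G).factorization p :=
          hpp'.factorization_pos_of_dvd Nat.card_pos.ne' hdvd
        exact ⟨p, _, hpp'.prime, hfac, rfl⟩
      refine ⟨⟨fun a b => ?_⟩⟩
      have ha : a = φ (φ.symm a) := (φ.apply_symm_apply a).symm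
      have hb : b = φ (φ.symm b) := (φ.apply_symm_apply b).symm
      have hcomm : φ.symm a * φ.symm b = φ.symm b * φ.symm a := by
        funext p
        funext P
        have := (hS p P).is_comm.comm (φ.symm a p P) (φ.symm b p P)
        exact this
      calc a * b = φ (φ.symm a) * φ (φ.symm b) := by rw [← ha, ← hb]
        _ = φ (φ.symm a * φ.symm b) := (map_mul φ _ _).symm
        _ = φ (φ.symm b * φ.symm a) := by rw [hcomm]
        _ = φ (φ.symm b) * φ (φ.symm a) := map_mul φ _ _
        _ = b * a := by rw [← ha, ← hb]
  · rintro (hG | ⟨_, hG, hprop⟩)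
    · intro H hH
      exfalso
      apply hH
      refine ⟨⟨fun a b => ?_⟩⟩
      apply Subtype.ext
      exact hG.is_comm.comm (a : G) (b : G)
    · intro H hH
      have : H = ⊤ := by
        by_contra hne
        exact hH (hprop H hne)
      subst this
      rw [eq_top_iff]
      intro x _
      rw [Subgroup.mem_normalizer_iff]
      intro y
      simp

end Cfsg.Agent.S4075
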