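import Mathlib
import Cfsg.Statements.S4084

set_option autoImplicit false
open Cfsg

namespace Cfsg.Agent.S4084

theorem memD {G : Type*} [Group G] (x y : G) :
    y ∈ Subgroup.centralizer (Subgroup.centralizer ({x} : Set G) : Set G) ↔
      ∀ h : G, Commute x h → Commute h y := by
  rw [Subgroup.mem_centralizer_iff]
  constructor
  · intro hy h hxh
    apply hy h
    rw [SetLike.mem_coe, Subgroup.mem_centralizer_iff]
    intro k hk
    rw [Set.mem_singleton_iff] at hk
    subst hk
    exact hxh
  · intro hy h hh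
    rw [SetLike.mem_coe, Subgroup.mem_centralizer_iff] at hh
    exact hy h (hh x rfl)

theorem key {G : Type*} [Group G] [Finite G] {p q : ℕ} (hp : p.Prime) (hq : q.Prime)
    (hpq : p ≠ q) :
    (∃ g : G, orderOf g = p * q) ↔
      ∃ x : G, p * q ∣ Nat.card (Subgroup.centralizer (Subgroup.centralizer ({x} : Set G) : Set G)) := by
  constructor
  · rintro ⟨g, hg⟩
    refine ⟨g, ?_⟩
    rw [← hg, ← Nat.card_zpowers]
    apply Subgroup.card_dvd_of_le
    rw [Subgroup.zpowers_le, memD]
    intro h hgh
    exact hgh.symm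
  · rintro ⟨x, hx⟩
    set D := Subgroup.centralizer (Subgroup.centralizer ({x} : Set G) : Set G) with hD
    haveI : Fact p.Prime := ⟨hp⟩
    haveI : Fact q.Prime := ⟨hq⟩
    obtain ⟨a, ha⟩ := exists_prime_orderOf_dvd_card' (G := D) p (dvd_trans (dvd_mul_right p q) hx)
    obtain ⟨b, hb⟩ := exists_prime_orderOf_dvd_card' (G := D) q (dvd_trans (dvd_mul_left q p) hx)
    have hab : Commute (a : G) (b : G) := by
      have h1 := (memD x (b : G)).mp b.2
      have h2 := (memD x (a : G)).mp a.2
      have h3 : Commute x (a : G) := h2 x (Commute.refl x)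
      exact h1 a h3
    refine ⟨(a : G) * (b : G), ?_⟩
    have ha' : orderOf (a : G) = p := by rw [Subgroup.orderOf_coe]; exact ha
    have hb' : orderOf (b : G) = q := by rw [Subgroup.orderOf_coe]; exact hb
    rw [hab.orderOf_mul_eq_mul_orderOf_of_coprime, ha', hb']
    rw [ha', hb']
    exact (Nat.coprime_primes hp hq).mpr hpq

theorem result {G H : Type*} [Group G] [Finite G] [Group H] [Finite H] (e : G ≃ H)
    (he : ∀ x y : G, Commute x y ↔ Commute (e x) (e y))
    {p q : ℕ} (hp : p.Prime) (hq : q.Prime) (hpq : p ≠ q) :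
    (∃ g : G, orderOf g = p * q) ↔ (∃ h : H, orderOf h = p * q) := by
  have hcard : ∀ x : G,
      Nat.card (Subgroup.centralizer (Subgroup.centralizer ({x} : Set G) : Set G)) =
      Nat.card (Subgroup.centralizer (Subgroup.centralizer ({e x} : Set H) : Set H)) := by
    intro x
    apply Nat.card_congr
    refine e.subtypeEquiv ?_
    intro y
    rw [memD, memD]
    constructor
    · intro hy h' hh'
      obtain ⟨h, rfl⟩ := e.surjective h'
      exact (he h y).mp (hy h ((he x h).mpr hh'))
    · intro hy h hh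
      exact (he h y).mpr (hy (e h) ((he x h).mp hh))
  rw [key hp hq hpq, key hp hq hpq]
  constructor
  · rintro ⟨x, hx⟩
    exact ⟨e x, by rw [← hcard]; exact hx⟩
  · rintro ⟨x', hx'⟩
    obtain ⟨x, rfl⟩ := e.surjective x'
    exact ⟨x, by rw [hcard]; exact hx'⟩

end Cfsg.Agent.S4084
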