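import Cfsg.Statements.S4085
import Mathlib

set_option autoImplicit false
open Cfsg

namespace Cfsg.Agent.S4085

section Helpers

open Subgroup

variable {K : Type*} [Group K]

/-- adjacency in the power graph -/
def Adj (x y : K) : Prop := x ∈ zpowers y ∨ y ∈ zpowers x

/-- closed twins in the power graph -/
def Tw (x y : K) : Prop := ∀ z : K, Adj z x ↔ Adj z y

theorem adj_comm (x y : K) : Adj x y ↔ Adj y x := Or.comm

theorem adj_self (x : K) : Adj x x := Or.inl (mem_zpowers x)

theorem tw_refl (x : K) : Tw x x := fun _ => Iff.rfl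

theorem tw_symm {x y : K} (h : Tw x y) : Tw y x := fun z => (h z).symm

theorem tw_trans {x y z : K} (h1 : Tw x y) (h2 : Tw y z) : Tw x z :=
  fun w => (h1 w).trans (h2 w)

theorem tw_adj {x y : K} (h : Tw x y) : Adj x y := (h x).1 (adj_self x)

theorem tw_of_zpowers_eq {x y : K} (h : zpowers x = zpowers y) : Tw x y := by
  intro z
  have h2 : x ∈ zpowers z ↔ y ∈ zpowers z := by
    constructor
    · intro hx
      have h1 : zpowers x ≤ zpowers z := zpowers_le.2 hx
      rw [h] at h1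
      exact zpowers_le.1 h1
    · intro hy
      have h1 : zpowers y ≤ zpowers z := zpowers_le.2 hy
      rw [← h] at h1
      exact zpowers_le.1 h1
  unfold Adj
  rw [h, h2]

theorem zpowers_eq_of_mem_of_orderOf_le [Finite K] {c y : K} (h : c ∈ zpowers y)
    (ho : orderOf y ≤ orderOf c) : zpowers c = zpowers y := by
  apply Subgroup.eq_of_le_of_card_ge (zpowers_le.2 h)
  rw [Nat.card_zpowers, Nat.card_zpowers]
  exact ho

theorem card_tw_eq_ncard (y : K) : Nat.card {c : K // Tw c y} = Set.ncard {c : K | Tw c y} :=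
  Nat.card_coe_set_eq {c : K | Tw c y}

theorem ncard_zpowers (y : K) : Set.ncard (zpowers y : Set K) = orderOf y := by
  rw [← Nat.card_coe_set_eq, SetLike.coe_sort_coe, Nat.card_zpowers]

theorem totient_le_card_tw [Finite K] (y : K) :
    Nat.totient (orderOf y) ≤ Nat.card {c : K // Tw c y} := by
  classical
  have hinj : Set.InjOn (fun i : ℕ => y ^ i)
      (↑((Finset.range (orderOf y)).filter (orderOf y).Coprime) : Set ℕ) := by
    intro i hi j hj hij
    simp only [Finset.coe_filter, Finset.mem_range, Set.mem_ofPred_eq] at hi hj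
    exact pow_injOn_Iio_orderOf (Set.mem_Iio.2 hi.1) (Set.mem_Iio.2 hj.1) hij
  have hsub : ∀ i ∈ (↑((Finset.range (orderOf y)).filter (orderOf y).Coprime) : Set ℕ),
      (fun i : ℕ => y ^ i) i ∈ {c : K | Tw c y} := by
    intro i hi
    simp only [Finset.coe_filter, Finset.mem_range, Set.mem_ofPred_eq] at hi
    show Tw (y ^ i) y
    apply tw_of_zpowers_eq
    apply zpowers_eq_of_mem_of_orderOf_le (Subgroup.npow_mem_zpowers y i)
    rw [Nat.Coprime.orderOf_pow hi.2]
  have h1 := Set.ncard_le_ncard_of_injOn (fun i : ℕ => y ^ i) hsub hinj (Set.toFinite _)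
  rw [Set.ncard_coe_finset] at h1
  rw [card_tw_eq_ncard]
  exact h1

theorem le_two_mul_totient_sq (n : ℕ) :
    n ≤ 2 * (Nat.totient n) ^ 2 ∧ (Odd n → n ≤ (Nat.totient n) ^ 2) := by
  induction n using Nat.recOnPosPrimePosCoprime with
  | prime_pow p k hp hk =>
    obtain ⟨j, rfl⟩ : ∃ j, k = j + 1 := ⟨k - 1, by omega⟩
    rw [Nat.totient_prime_pow hp (Nat.succ_pos j), Nat.succ_sub_one]
    rcases hp.eq_two_or_odd' with rfl | hodd
    · constructor
      · have h1 : 1 ≤ 2 ^ j := Nat.one_le_two_pow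
        simp only [show (2:ℕ) - 1 = 1 from rfl, mul_one]
        rw [pow_succ]
        nlinarith
      · intro h
        exfalso
        have : Even (2 ^ (j + 1)) := (Nat.even_pow.2 ⟨even_two, Nat.succ_ne_zero j⟩)
        exact (Nat.not_odd_iff_even.2 this) h
    · have hp3 : 3 ≤ p := by
        have := hp.two_le
        obtain ⟨m, hm⟩ := hodd
        omega
      have hmain : p ^ (j + 1) ≤ (p ^ j * (p - 1)) ^ 2 := by
        obtain ⟨r, rfl⟩ : ∃ r, p = r + 3 := ⟨p - 3, by omega⟩
        have h1 : 1 ≤ (r + 3) ^ j := Nat.one_le_pow _ _ (by omega)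
        have h2 : (r + 3) ≤ (r + 3 - 1) ^ 2 := by
          simp only [show r + 3 - 1 = r + 2 by omega]
          nlinarith
        calc (r + 3) ^ (j + 1) = (r + 3) ^ j * (r + 3) := pow_succ _ _
          _ ≤ ((r + 3) ^ j * (r + 3) ^ j) * (r + 3 - 1) ^ 2 := by
              apply Nat.mul_le_mul _ h2
              nlinarith
          _ = ((r + 3) ^ j * (r + 3 - 1)) ^ 2 := by ring
      exact ⟨by omega, fun _ => hmain⟩
  | zero => simp
  | one => simp
  | coprime a b ha hb hab iha ihb =>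
    rw [Nat.totient_mul hab]
    rcases Nat.even_or_odd a with hea | hoa
    · have hob : Odd b := by
        by_contra h
        rw [Nat.not_odd_iff_even] at h
        exact Nat.not_coprime_of_dvd_of_dvd (by norm_num : 1 < 2) hea.two_dvd h.two_dvd hab
      constructor
      · calc a * b ≤ (2 * (Nat.totient a) ^ 2) * (Nat.totient b) ^ 2 :=
              Nat.mul_le_mul iha.1 (ihb.2 hob)
          _ = 2 * (Nat.totient a * Nat.totient b) ^ 2 := by ring
      · intro h
        exact absurd (Nat.odd_mul.1 h).1 (Nat.not_odd_iff_even.2 hea)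
    · rcases Nat.even_or_odd b with heb | hob
      · constructor
        · calc a * b ≤ (Nat.totient a) ^ 2 * (2 * (Nat.totient b) ^ 2) :=
                Nat.mul_le_mul (iha.2 hoa) ihb.1
            _ = 2 * (Nat.totient a * Nat.totient b) ^ 2 := by ring
        · intro h
          exact absurd (Nat.odd_mul.1 h).2 (Nat.not_odd_iff_even.2 heb)
      · have h1 : a * b ≤ (Nat.totient a * Nat.totient b) ^ 2 := by
          calc a * b ≤ (Nat.totient a) ^ 2 * (Nat.totient b) ^ 2 :=
                Nat.mul_le_mul (iha.2 hoa) (ihb.2 hob)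
            _ = (Nat.totient a * Nat.totient b) ^ 2 := by ring
        exact ⟨by omega, fun _ => h1⟩

theorem mem_zpowers_of_orderOf_dvd [Finite K] {x u v : K} (hu : u ∈ zpowers x)
    (hv : v ∈ zpowers x) (h : orderOf u ∣ orderOf v) : u ∈ zpowers v := by
  have hmn : orderOf v ∣ orderOf x := orderOf_dvd_of_mem_zpowers hv
  have hn0 : orderOf x ≠ 0 := (orderOf_pos x).ne'
  have hm0 : 0 < orderOf v := orderOf_pos v
  have hwo : orderOf (x ^ (orderOf x / orderOf v)) = orderOf v := orderOf_pow_orderOf_div hn0 hmn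
  have key : ∀ c : K, c ∈ zpowers x → c ^ (orderOf v) = 1 →
      c ∈ zpowers (x ^ (orderOf x / orderOf v)) := by
    intro c hc hcm
    obtain ⟨i, rfl⟩ := mem_powers_iff_mem_zpowers.2 hc
    have h1 : orderOf x ∣ i * orderOf v := by
      rw [orderOf_dvd_iff_pow_eq_one, pow_mul]
      exact hcm
    obtain ⟨t, ht⟩ := hmn
    have ht' : orderOf x / orderOf v = t := by
      rw [ht]
      exact Nat.mul_div_cancel_left t hm0
    have h2 : t ∣ i := by
      rw [ht, mul_comm i (orderOf v)] at h1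
      exact Nat.dvd_of_mul_dvd_mul_left hm0 h1
    obtain ⟨s, rfl⟩ := h2
    rw [ht']
    have : (fun j : ℕ => x ^ j) (t * s) = (x ^ t) ^ s := pow_mul x t s
    rw [this]
    exact Subgroup.npow_mem_zpowers _ s
  have hvw : v ∈ zpowers (x ^ (orderOf x / orderOf v)) := key v hv (pow_orderOf_eq_one v)
  have huw : u ∈ zpowers (x ^ (orderOf x / orderOf v)) :=
    key u hu (orderOf_dvd_iff_pow_eq_one.1 h)
  have heq : zpowers v = zpowers (x ^ (orderOf x / orderOf v)) :=
    zpowers_eq_of_mem_of_orderOf_le hvw (le_of_eq hwo)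
  rw [heq]
  exact huw

theorem orderOf_pow_of_mul {p q : ℕ} (hp : p.Prime) (hq : q.Prime) {x : K}
    (hx : orderOf x = p * q) : orderOf (x ^ q) = p := by
  have h1 := orderOf_pow_orderOf_div (x := x) (n := p)
    (by rw [hx]; exact (Nat.mul_pos hp.pos hq.pos).ne') (by rw [hx]; exact dvd_mul_right p q)
  rwa [hx, Nat.mul_div_cancel_left q hp.pos] at h1

theorem fwd_key [Finite K] {p q : ℕ} (hp : p.Prime) (hq : q.Prime) {x : K}
    (hx : orderOf x = p * q) {c : K}
    (h1 : Adj c (x ^ q)) (h2 : Adj c x) (h3 : ¬ Adj c (x ^ p)) :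
    zpowers c = zpowers (x ^ q) := by
  have ha : orderOf (x ^ q) = p := orderOf_pow_of_mul hp hq hx
  have hbx : x ^ p ∈ zpowers x := Subgroup.npow_mem_zpowers x p
  rcases h1 with h1 | h1
  · have hc1 : c ≠ 1 := by
      rintro rfl
      exact h3 (Or.inl (one_mem _))
    have hd : orderOf c ∣ p := ha ▸ orderOf_dvd_of_mem_zpowers h1
    have ho : orderOf c = p := by
      rcases (Nat.dvd_prime hp).1 hd with h | h
      · exact absurd (orderOf_eq_one_iff.1 h) hc1
      · exact h
    exact zpowers_eq_of_mem_of_orderOf_le h1 (le_of_eq (by rw [ha, ho]))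
  · rcases h2 with h2 | h2
    · have hd : orderOf c ∣ p * q := hx ▸ orderOf_dvd_of_mem_zpowers h2
      have hpd : p ∣ orderOf c := ha ▸ orderOf_dvd_of_mem_zpowers h1
      obtain ⟨t, ht⟩ := hpd
      have htq : t ∣ q := by
        rw [ht] at hd
        exact Nat.dvd_of_mul_dvd_mul_left hp.pos hd
      rcases (Nat.dvd_prime hq).1 htq with h | h
      · have ho : orderOf c = p := by rw [ht, h, mul_one]
        exact (zpowers_eq_of_mem_of_orderOf_le h1 (le_of_eq (by rw [ha, ho]))).symm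
      · have ho : orderOf c = p * q := by rw [ht, h]
        have hcx : zpowers c = zpowers x :=
          zpowers_eq_of_mem_of_orderOf_le h2 (le_of_eq (by rw [hx, ho]))
        exact absurd (Or.inr (hcx ▸ hbx)) h3
    · exact absurd (Or.inr (zpowers_le.2 h2 hbx)) h3

theorem not_adj_of_prime_orders {a b : K} {p q : ℕ} (hp : p.Prime) (hq : q.Prime)
    (hpq : p ≠ q) (ha : orderOf a = p) (hb : orderOf b = q) : ¬ Adj a b := by
  rintro (h | h)
  · have h1 := orderOf_dvd_of_mem_zpowers h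
    rw [ha, hb] at h1
    exact hpq ((Nat.prime_dvd_prime_iff_eq hp hq).1 h1)
  · have h1 := orderOf_dvd_of_mem_zpowers h
    rw [ha, hb] at h1
    exact hpq ((Nat.prime_dvd_prime_iff_eq hq hp).1 h1).symm

theorem card_tw_prime [Finite K] {p q : ℕ} (hp : p.Prime) (hq : q.Prime) (hpq : p ≠ q)
    {x : K} (hx : orderOf x = p * q) : Nat.card {c : K // Tw c (x ^ q)} = p - 1 := by
  have hx' : orderOf x = q * p := by rw [hx, mul_comm]
  have ha : orderOf (x ^ q) = p := orderOf_pow_of_mul hp hq hx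
  have hb : orderOf (x ^ p) = q := orderOf_pow_of_mul hq hp hx'
  have hnab : ¬ Adj (x ^ q) (x ^ p) := not_adj_of_prime_orders hp hq hpq ha hb
  have hset : {c : K | Tw c (x ^ q)} = (zpowers (x ^ q) : Set K) \ {1} := by
    ext c
    simp only [Set.mem_ofPred_eq, Set.mem_sdiff, SetLike.mem_coe, Set.mem_singleton_iff]
    constructor
    · intro h
      have h1 : Adj c (x ^ q) := tw_adj h
      have h2 : Adj c x :=
        (adj_comm _ _).1 ((h x).2 (Or.inr (Subgroup.npow_mem_zpowers x q)))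
      have h3 : ¬ Adj c (x ^ p) := by
        intro hcb
        exact hnab ((adj_comm _ _).1 ((h (x ^ p)).1 ((adj_comm _ _).1 hcb)))
      have h4 := fwd_key hp hq hx h1 h2 h3
      refine ⟨h4 ▸ mem_zpowers c, ?_⟩
      rintro rfl
      exact h3 (Or.inl (one_mem _))
    · rintro ⟨hc, hc1⟩
      apply tw_of_zpowers_eq
      have hd : orderOf c ∣ p := ha ▸ orderOf_dvd_of_mem_zpowers hc
      have ho : orderOf c = p := by
        rcases (Nat.dvd_prime hp).1 hd with h | h
        · exact absurd (orderOf_eq_one_iff.1 h) hc1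
        · exact h
      exact zpowers_eq_of_mem_of_orderOf_le hc (le_of_eq (by rw [ha, ho]))
  rw [card_tw_eq_ncard, hset, Set.ncard_sdiff_singleton_of_mem (one_mem _), ncard_zpowers, ha]

/-- the graph invariant -/
def Psi (K : Type*) [Group K] (p q : ℕ) : Prop :=
  ∃ a b x : K, ¬ Adj a b ∧ Adj x a ∧ Adj x b ∧
    Nat.card {c : K // Tw c a} = p - 1 ∧ Nat.card {c : K // Tw c b} = q - 1 ∧
    (p - 1) * (q - 1) ≤ Nat.card {c : K // Tw c x} ∧
    (∀ c, Adj c a → Adj c x → ¬ Adj c b → Tw c a) ∧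
    (∀ c, Adj c b → Adj c x → ¬ Adj c a → Tw c b)

theorem fwd [Finite K] {p q : ℕ} (hp : p.Prime) (hq : q.Prime) (hpq : p ≠ q)
    (h : ∃ g : K, orderOf g = p * q) : Psi K p q := by
  obtain ⟨x, hx⟩ := h
  have hx' : orderOf x = q * p := by rw [hx, mul_comm]
  have ha : orderOf (x ^ q) = p := orderOf_pow_of_mul hp hq hx
  have hb : orderOf (x ^ p) = q := orderOf_pow_of_mul hq hp hx'
  refine ⟨x ^ q, x ^ p, x, not_adj_of_prime_orders hp hq hpq ha hb,
    Or.inr (Subgroup.npow_mem_zpowers x q), Or.inr (Subgroup.npow_mem_zpowers x p),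
    card_tw_prime hp hq hpq hx, card_tw_prime hq hp hpq.symm hx', ?_, ?_, ?_⟩
  · have h1 := totient_le_card_tw x
    rw [hx, Nat.totient_mul ((Nat.coprime_primes hp hq).2 hpq), Nat.totient_prime hp,
      Nat.totient_prime hq] at h1
    exact h1
  · intro c h1 h2 h3
    exact tw_of_zpowers_eq (fwd_key hp hq hx h1 h2 h3)
  · intro c h1 h2 h3
    exact tw_of_zpowers_eq (fwd_key hq hp hx' h1 h2 h3)

theorem prime_eq_of_tw [Finite K] {y a : K} {π k r : ℕ} (hπ : π.Prime) (hk : 0 < k)
    (ha : orderOf a = π ^ k) (h : Tw y a) (hr : r.Prime) (hry : r ∣ orderOf y) : r = π := by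
  have hco : orderOf (y ^ (orderOf y / r)) = r :=
    orderOf_pow_orderOf_div (orderOf_pos y).ne' hry
  have hcy : Adj (y ^ (orderOf y / r)) y := Or.inl (Subgroup.npow_mem_zpowers y _)
  rcases (h _).1 hcy with h1 | h1
  · have h2 := orderOf_dvd_of_mem_zpowers h1
    rw [hco, ha] at h2
    exact (Nat.prime_dvd_prime_iff_eq hr hπ).1 (hr.dvd_of_dvd_pow h2)
  · have h2 := orderOf_dvd_of_mem_zpowers h1
    rw [hco, ha] at h2
    have h3 : π ∣ r := dvd_trans (dvd_pow_self π hk.ne') h2
    exact ((Nat.prime_dvd_prime_iff_eq hπ hr).1 h3).symm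

theorem exists_order_p [Finite K] {p π ρ k l : ℕ} (hπ : π.Prime) (hρ : ρ.Prime)
    (hπρ : π ≠ ρ) (hk : 0 < k) (hl : 0 < l) {a b x : K} (hax : a ∈ zpowers x)
    (hbx : b ∈ zpowers x) (ha : orderOf a = π ^ k) (hb : orderOf b = ρ ^ l) (hp : 0 < p)
    (hcard : Nat.card {c : K // Tw c a} = p - 1)
    (h7 : ∀ c, Adj c a → Adj c x → ¬ Adj c b → Tw c a) :
    ∃ y ∈ zpowers x, orderOf y = p := by
  classical
  haveI : Fintype K := Fintype.ofFinite K
  have hnab : ¬ Adj a b := by
    rintro (h | h)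
    · have h1 := orderOf_dvd_of_mem_zpowers h
      rw [ha, hb] at h1
      exact hπρ ((Nat.prime_dvd_prime_iff_eq hπ hρ).1
        (hπ.dvd_of_dvd_pow (dvd_trans (dvd_pow_self π hk.ne') h1)))
    · have h1 := orderOf_dvd_of_mem_zpowers h
      rw [ha, hb] at h1
      exact hπρ ((Nat.prime_dvd_prime_iff_eq hρ hπ).1
        (hρ.dvd_of_dvd_pow (dvd_trans (dvd_pow_self ρ hl.ne') h1))).symm
  obtain ⟨y, hy, hmax⟩ : ∃ y, Tw y a ∧ ∀ c, Tw c a → orderOf c ≤ orderOf y := by
    have hne : (Finset.univ.filter (fun c : K => Tw c a)).Nonempty :=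
      ⟨a, Finset.mem_filter.2 ⟨Finset.mem_univ _, tw_refl a⟩⟩
    obtain ⟨y, hy, hmax⟩ := Finset.exists_max_image _ (fun c : K => orderOf c) hne
    exact ⟨y, (Finset.mem_filter.1 hy).2,
      fun c hc => hmax c (Finset.mem_filter.2 ⟨Finset.mem_univ _, hc⟩)⟩
  have hbya : ¬ Adj b y := fun h => hnab ((adj_comm _ _).1 ((hy b).1 h))
  have hyx : y ∈ zpowers x := by
    have h1 : Adj x y := (hy x).2 (Or.inr hax)
    rcases h1 with h | h
    · exact absurd (Or.inl (zpowers_le.2 h hbx)) hbya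
    · exact h
  have hset : {c : K | Tw c a} = (zpowers y : Set K) \ {1} := by
    ext c
    simp only [Set.mem_ofPred_eq, Set.mem_sdiff, SetLike.mem_coe, Set.mem_singleton_iff]
    constructor
    · intro hc
      have hcy : Tw c y := tw_trans hc (tw_symm hy)
      refine ⟨?_, ?_⟩
      · rcases tw_adj hcy with h | h
        · exact h
        · have h2 : orderOf c ≤ orderOf y := hmax c hc
          have h4 := zpowers_eq_of_mem_of_orderOf_le h h2
          rw [h4]
          exact mem_zpowers c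
      · rintro rfl
        exact hnab ((adj_comm _ _).1 ((hc b).1 (Or.inr (one_mem _))))
    · rintro ⟨hc, hc1⟩
      apply h7 c
      · exact (hy c).1 (Or.inl hc)
      · exact Or.inl (zpowers_le.2 hyx hc)
      · rintro (h | h)
        · have hne : orderOf c ≠ 1 := fun h' => hc1 (orderOf_eq_one_iff.1 h')
          obtain ⟨r, hr, hrc⟩ := Nat.exists_prime_and_dvd hne
          have h1 : r = π :=
            prime_eq_of_tw hπ hk ha hy hr (dvd_trans hrc (orderOf_dvd_of_mem_zpowers hc))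
          have h2 : r ∣ ρ ^ l := hb ▸ dvd_trans hrc (orderOf_dvd_of_mem_zpowers h)
          have h3 : r = ρ := (Nat.prime_dvd_prime_iff_eq hr hρ).1 (hr.dvd_of_dvd_pow h2)
          exact hπρ (h1.symm.trans h3)
        · exact hbya (Or.inl (zpowers_le.2 hc h))
  have hcard2 : Nat.card {c : K // Tw c a} = orderOf y - 1 := by
    rw [card_tw_eq_ncard, hset, Set.ncard_sdiff_singleton_of_mem (one_mem _), ncard_zpowers]
  refine ⟨y, hyx, ?_⟩
  have h0 := orderOf_pos y
  omega

theorem bwd_upper [Finite K] {p q : ℕ} (hp : p.Prime) (hq : q.Prime) (hpq : p ≠ q)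
    {a b x : K} (hax : a ∈ zpowers x) (hbx : b ∈ zpowers x) (h1 : ¬ Adj a b)
    (h4 : Nat.card {c : K // Tw c a} = p - 1) (h5 : Nat.card {c : K // Tw c b} = q - 1)
    (h7 : ∀ c, Adj c a → Adj c x → ¬ Adj c b → Tw c a)
    (h8 : ∀ c, Adj c b → Adj c x → ¬ Adj c a → Tw c b) :
    ∃ h : K, orderOf h = p * q := by
  have hd1 : orderOf a ≠ 0 := (orderOf_pos a).ne'
  have hd2 : orderOf b ≠ 0 := (orderOf_pos b).ne'
  have hnd1 : ¬ orderOf a ∣ orderOf b :=
    fun h => h1 (Or.inl (mem_zpowers_of_orderOf_dvd hax hbx h))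
  have hnd2 : ¬ orderOf b ∣ orderOf a :=
    fun h => h1 (Or.inr (mem_zpowers_of_orderOf_dvd hbx hax h))
  obtain ⟨π, hπ1⟩ : ∃ π, (orderOf b).factorization π < (orderOf a).factorization π := by
    by_contra hcon
    push Not at hcon
    exact hnd1 ((Nat.factorization_le_iff_dvd hd1 hd2).1 (Finsupp.le_def.2 hcon))
  obtain ⟨ρ, hρ1⟩ : ∃ ρ, (orderOf a).factorization ρ < (orderOf b).factorization ρ := by
    by_contra hcon
    push Not at hcon
    exact hnd2 ((Nat.factorization_le_iff_dvd hd2 hd1).1 (Finsupp.le_def.2 hcon))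
  have hπ : π.Prime := by
    by_contra hnp
    have h0 := Nat.factorization_eq_zero_of_not_prime (orderOf a) hnp
    rw [h0] at hπ1
    exact Nat.not_lt_zero _ hπ1
  have hρ : ρ.Prime := by
    by_contra hnp
    have h0 := Nat.factorization_eq_zero_of_not_prime (orderOf b) hnp
    rw [h0] at hρ1
    exact Nat.not_lt_zero _ hρ1
  have hπρ : π ≠ ρ := by
    rintro rfl
    exact lt_asymm hπ1 hρ1
  have hk0 : 0 < (orderOf a).factorization π := lt_of_le_of_lt (Nat.zero_le _) hπ1
  have hl0 : 0 < (orderOf b).factorization ρ := lt_of_le_of_lt (Nat.zero_le _) hρ1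
  have hkd : π ^ (orderOf a).factorization π ∣ orderOf a := Nat.ordProj_dvd _ _
  have hld : ρ ^ (orderOf b).factorization ρ ∣ orderOf b := Nat.ordProj_dvd _ _
  obtain ⟨a₁, ha₁⟩ : ∃ a₁, a₁ = a ^ (orderOf a / π ^ (orderOf a).factorization π) := ⟨_, rfl⟩
  obtain ⟨b₁, hb₁⟩ : ∃ b₁, b₁ = b ^ (orderOf b / ρ ^ (orderOf b).factorization ρ) := ⟨_, rfl⟩
  have ha₁o : orderOf a₁ = π ^ (orderOf a).factorization π := by
    rw [ha₁]; exact orderOf_pow_orderOf_div hd1 hkd
  have hb₁o : orderOf b₁ = ρ ^ (orderOf b).factorization ρ := by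
    rw [hb₁]; exact orderOf_pow_orderOf_div hd2 hld
  have ha₁a : a₁ ∈ zpowers a := by rw [ha₁]; exact Subgroup.npow_mem_zpowers a _
  have hb₁b : b₁ ∈ zpowers b := by rw [hb₁]; exact Subgroup.npow_mem_zpowers b _
  have ha₁nb : a₁ ∉ zpowers b := by
    intro h
    have h2 := orderOf_dvd_of_mem_zpowers h
    rw [ha₁o] at h2
    have h3 := (hπ.pow_dvd_iff_le_factorization hd2).1 h2
    exact absurd hπ1 (not_lt.2 h3)
  have hb₁na : b₁ ∉ zpowers a := by
    intro h
    have h2 := orderOf_dvd_of_mem_zpowers h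
    rw [hb₁o] at h2
    have h3 := (hρ.pow_dvd_iff_le_factorization hd1).1 h2
    exact absurd hρ1 (not_lt.2 h3)
  have htwa : Tw a₁ a := h7 a₁ (Or.inl ha₁a) (Or.inl (zpowers_le.2 hax ha₁a)) (by
    rintro (h | h)
    · exact ha₁nb h
    · exact h1 (Or.inr (zpowers_le.2 ha₁a h)))
  have htwb : Tw b₁ b := h8 b₁ (Or.inl hb₁b) (Or.inl (zpowers_le.2 hbx hb₁b)) (by
    rintro (h | h)
    · exact hb₁na h
    · exact h1 (Or.inl (zpowers_le.2 hb₁b h)))
  have h4' : Nat.card {c : K // Tw c a₁} = p - 1 := by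
    rw [← h4]
    exact Nat.card_congr (Equiv.subtypeEquivRight
      (fun c => ⟨fun h => tw_trans h htwa, fun h => tw_trans h (tw_symm htwa)⟩))
  have h5' : Nat.card {c : K // Tw c b₁} = q - 1 := by
    rw [← h5]
    exact Nat.card_congr (Equiv.subtypeEquivRight
      (fun c => ⟨fun h => tw_trans h htwb, fun h => tw_trans h (tw_symm htwb)⟩))
  have h7' : ∀ c, Adj c a₁ → Adj c x → ¬ Adj c b₁ → Tw c a₁ := fun c hc1 hc2 hc3 =>
    tw_trans (h7 c ((htwa c).1 hc1) hc2 (fun h => hc3 ((htwb c).2 h))) (tw_symm htwa)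
  have h8' : ∀ c, Adj c b₁ → Adj c x → ¬ Adj c a₁ → Tw c b₁ := fun c hc1 hc2 hc3 =>
    tw_trans (h8 c ((htwb c).1 hc1) hc2 (fun h => hc3 ((htwa c).2 h))) (tw_symm htwb)
  obtain ⟨y, hyx, hy⟩ := exists_order_p hπ hρ hπρ hk0 hl0 (zpowers_le.2 hax ha₁a)
    (zpowers_le.2 hbx hb₁b) ha₁o hb₁o hp.pos h4' h7'
  obtain ⟨y', hy'x, hy'⟩ := exists_order_p hρ hπ hπρ.symm hl0 hk0 (zpowers_le.2 hbx hb₁b)
    (zpowers_le.2 hax ha₁a) hb₁o ha₁o hq.pos h5' h8'
  refine ⟨y * y', ?_⟩
  have hcomm : Commute y y' := by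
    obtain ⟨i, hi⟩ := hyx
    obtain ⟨j, hj⟩ := hy'x
    rw [← hi, ← hj]
    exact (Commute.refl x).zpow_zpow i j
  rw [hcomm.orderOf_mul_eq_mul_orderOf_of_coprime
    (by rw [hy, hy']; exact (Nat.coprime_primes hp hq).2 hpq), hy, hy']

theorem two_mul_card_inf_le [Finite K] {u v : K} (h : u ∉ zpowers v) :
    2 * Nat.card (zpowers u ⊓ zpowers v : Subgroup K) ≤ orderOf u := by
  have hle : zpowers u ⊓ zpowers v ≤ zpowers u := inf_le_left
  have hdvd : Nat.card (zpowers u ⊓ zpowers v : Subgroup K) ∣ Nat.card (zpowers u) :=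
    Subgroup.card_dvd_of_le hle
  rw [Nat.card_zpowers] at hdvd
  have hne : Nat.card (zpowers u ⊓ zpowers v : Subgroup K) ≠ orderOf u := by
    intro heq
    have h1 : zpowers u ⊓ zpowers v = zpowers u :=
      Subgroup.eq_of_le_of_card_ge hle (by rw [Nat.card_zpowers, heq])
    have hu : u ∈ zpowers u ⊓ zpowers v := by
      rw [h1]
      exact mem_zpowers u
    exact h hu.2
  obtain ⟨t, ht⟩ := hdvd
  have hpos := orderOf_pos u
  rcases t with _ | _ | t
  · rw [ht] at hpos
    simp at hpos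
  · exact absurd (by rw [ht]; simp) hne
  · rw [ht]
    nlinarith [Nat.zero_le (Nat.card (zpowers u ⊓ zpowers v : Subgroup K)), Nat.zero_le t]

theorem numeric {P Q g f₁ f₂ d₁ d₂ : ℕ} (hP : 0 < P) (hQ : 0 < Q) (hg : P * Q ≤ g)
    (h1 : 2 * g ≤ d₁) (h2 : 2 * g ≤ d₂) (t1 : d₁ ≤ 2 * f₁ ^ 2) (t2 : d₂ ≤ 2 * f₂ ^ 2)
    (hf1 : f₁ ≤ P) (hf2 : f₂ ≤ Q) : P = Q := by
  have e3 : f₁ ^ 2 ≤ P ^ 2 := Nat.pow_le_pow_left hf1 2
  have e4 : f₂ ^ 2 ≤ Q ^ 2 := Nat.pow_le_pow_left hf2 2
  have e5 : P * Q ≤ P * P := by nlinarith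
  have e6 : P * Q ≤ Q * Q := by nlinarith
  have e7 : Q ≤ P := Nat.le_of_mul_le_mul_left e5 hP
  have e8 : P ≤ Q := Nat.le_of_mul_le_mul_right e6 hQ
  omega

theorem bwd [Finite K] {p q : ℕ} (hp : p.Prime) (hq : q.Prime) (hpq : p ≠ q)
    (h : Psi K p q) : ∃ g : K, orderOf g = p * q := by
  obtain ⟨a, b, x, h1, h2, h3, h4, h5, h6, h7, h8⟩ := h
  by_cases hU : ∃ y, Tw y x ∧ a ∈ zpowers y ∧ b ∈ zpowers y
  · obtain ⟨y, hyx, hay, hby⟩ := hU
    exact bwd_upper hp hq hpq hay hby h1 h4 h5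
      (fun c hc1 hc2 hc3 => h7 c hc1 ((hyx c).1 hc2) hc3)
      (fun c hc1 hc2 hc3 => h8 c hc1 ((hyx c).1 hc2) hc3)
  · exfalso
    push Not at hU
    have hsub : {c : K | Tw c x} ⊆ ((zpowers a ⊓ zpowers b : Subgroup K) : Set K) := by
      intro y hy
      have hy' : Tw y x := hy
      have hya : Adj a y := (hy' a).2 ((adj_comm _ _).1 h2)
      have hyb : Adj b y := (hy' b).2 ((adj_comm _ _).1 h3)
      rcases hya with hya | hya
      · rcases hyb with hyb | hyb
        · exact absurd hyb (hU y hy' hya)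
        · exact absurd (Or.inl (zpowers_le.2 hyb hya)) h1
      · rcases hyb with hyb | hyb
        · exact absurd (Or.inr (zpowers_le.2 hya hyb)) h1
        · exact ⟨hya, hyb⟩
    have hg : Nat.card {c : K // Tw c x} ≤ Nat.card (zpowers a ⊓ zpowers b : Subgroup K) := by
      rw [card_tw_eq_ncard, ← SetLike.coe_sort_coe, Nat.card_coe_set_eq]
      exact Set.ncard_le_ncard hsub (Set.toFinite _)
    have hd1 := two_mul_card_inf_le (u := a) (v := b) (fun h => h1 (Or.inl h))
    have hd2 := two_mul_card_inf_le (u := b) (v := a) (fun h => h1 (Or.inr h))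
    rw [inf_comm] at hd2
    have hf1 := totient_le_card_tw a
    have hf2 := totient_le_card_tw b
    rw [h4] at hf1
    rw [h5] at hf2
    have ht1 := (le_two_mul_totient_sq (orderOf a)).1
    have ht2 := (le_two_mul_totient_sq (orderOf b)).1
    have hp2 := hp.two_le
    have hq2 := hq.two_le
    have hPQ : p - 1 = q - 1 :=
      numeric (by omega) (by omega) (le_trans h6 hg) hd1 hd2 ht1 ht2 hf1 hf2
    omega

theorem transport {G H : Type*} [Group G] [Group H] (e : G ≃ H)
    (he : ∀ x y : G, Adj x y ↔ Adj (e x) (e y)) {p q : ℕ} (h : Psi G p q) : Psi H p q := by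
  obtain ⟨a, b, x, h1, h2, h3, h4, h5, h6, h7, h8⟩ := h
  have he' : ∀ (z : H) (d : G), Adj z (e d) ↔ Adj (e.symm z) d := by
    intro z d
    have h := he (e.symm z) d
    rw [e.apply_symm_apply] at h
    exact h.symm
  have htw : ∀ c d : G, Tw c d ↔ Tw (e c) (e d) := by
    intro c d
    constructor
    · intro h z
      rw [he' z c, he' z d]
      exact h (e.symm z)
    · intro h z
      rw [he z c, he z d]
      exact h (e z)
  have hcard : ∀ d : G, Nat.card {c : H // Tw c (e d)} = Nat.card {c : G // Tw c d} := by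
    intro d
    exact (Nat.card_congr (e.subtypeEquiv (fun c => htw c d))).symm
  refine ⟨e a, e b, e x, fun h => h1 ((he a b).2 h), (he x a).1 h2, (he x b).1 h3,
    by rw [hcard, h4], by rw [hcard, h5], by rw [hcard]; exact h6, ?_, ?_⟩
  · intro c hc1 hc2 hc3
    have h9 := h7 (e.symm c) ((he' c a).1 hc1) ((he' c x).1 hc2)
      (fun h => hc3 ((he' c b).2 h))
    have h10 := (htw _ _).1 h9
    rw [e.apply_symm_apply] at h10
    exact h10
  · intro c hc1 hc2 hc3
    have h9 := h8 (e.symm c) ((he' c b).1 hc1) ((he' c x).1 hc2)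
      (fun h => hc3 ((he' c a).2 h))
    have h10 := (htw _ _).1 h9
    rw [e.apply_symm_apply] at h10
    exact h10

end Helpers

/-- Let G and H be finite groups whose power graphs are isomorphic: there is a bijection e : G → H such that, for all x, y, one of x, y is a power of the other exactly when one of e(x), e(y) is a power of the other. Then G and H have the same prime graph: for distinct primes p, q, G has an element of order pq if and only if H does. -/
theorem result {G H : Type*} [Group G] [Finite G] [Group H] [Finite H] (e : G ≃ H)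
    (he : ∀ x y : G, (x ∈ Subgroup.zpowers y ∨ y ∈ Subgroup.zpowers x) ↔
      (e x ∈ Subgroup.zpowers (e y) ∨ e y ∈ Subgroup.zpowers (e x)))
    {p q : ℕ} (hp : p.Prime) (hq : q.Prime) (hpq : p ≠ q) :
    (∃ g : G, orderOf g = p * q) ↔ (∃ h : H, orderOf h = p * q) := by
  constructor
  · intro h
    exact bwd hp hq hpq (transport e he (fwd hp hq hpq h))
  · intro h
    have he' : ∀ x y : H, Adj x y ↔ Adj (e.symm x) (e.symm y) := by
      intro x y
      have h1 := he (e.symm x) (e.symm y)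
      simp only [e.apply_symm_apply] at h1
      exact h1.symm
    exact bwd hp hq hpq (transport e.symm he' (fwd hp hq hpq h))

end Cfsg.Agent.S4085
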