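import Mathlib
import Cfsg.Statements.S4086

set_option autoImplicit false
open Cfsg

namespace Cfsg.Agent.S4086

theorem zpow_mem_of_gcd_dvd {G : Type*} [Group G] (z : G) (n : ℕ) (hz : z ^ n = 1) (a b : ℤ)
    (h : (Int.gcd a n : ℤ) ∣ b) : z ^ b ∈ Subgroup.zpowers (z ^ a) := by
  obtain ⟨c, hc⟩ := h
  rw [Int.gcd_eq_gcd_ab a n] at hc
  rw [Subgroup.mem_zpowers_iff]
  refine ⟨Int.gcdA a n * c, ?_⟩
  rw [← zpow_mul, hc]
  have : (a * Int.gcdA a n + (n : ℤ) * Int.gcdB a n) * c
      = a * (Int.gcdA a n * c) + (n : ℤ) * (Int.gcdB a n * c) := by ring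
  rw [this, zpow_add, zpow_mul z (n : ℤ), zpow_natCast, hz, one_zpow, mul_one]

theorem cyclic_of_le_zpowers {G : Type*} [Group G] (g : G) (K : Subgroup G)
    (h : K ≤ Subgroup.zpowers g) : IsCyclic K := by
  have : IsCyclic (K.subgroupOf (Subgroup.zpowers g)) := inferInstance
  exact isCyclic_of_surjective (Subgroup.subgroupOfEquivOfLe h).toMonoidHom
    (Subgroup.subgroupOfEquivOfLe h).surjective

theorem result {G : Type*} [Group G] [Finite G] :
    (∀ g : G, g ≠ 1 → IsPrimePow (orderOf g)) ↔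
    (∀ x y : G, IsCyclic ↥(Subgroup.closure ({x, y} : Set G)) → (x ∈ Subgroup.zpowers y ∨ y ∈ Subgroup.zpowers x)) := by
  constructor
  · intro h x y hcyc
    rw [Subgroup.isCyclic_iff_exists_zpowers_eq_top] at hcyc
    obtain ⟨z, hz⟩ := hcyc
    have hx : x ∈ Subgroup.zpowers z := by
      rw [hz]; exact Subgroup.subset_closure (by simp)
    have hy : y ∈ Subgroup.zpowers z := by
      rw [hz]; exact Subgroup.subset_closure (by simp)
    obtain ⟨a, rfl⟩ := Subgroup.mem_zpowers_iff.mp hx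
    obtain ⟨b, rfl⟩ := Subgroup.mem_zpowers_iff.mp hy
    by_cases hz1 : z = 1
    · left
      rw [hz1, one_zpow, one_zpow]
      exact Subgroup.one_mem (Subgroup.zpowers (1 : G))
    · obtain ⟨p, k, hp, hk, hpk⟩ := (isPrimePow_nat_iff _).mp (h z hz1)
      have hzn : z ^ (p ^ k) = 1 := by rw [hpk]; exact pow_orderOf_eq_one z
      have ha : Int.gcd a ((p ^ k : ℕ) : ℤ) ∣ p ^ k := Int.gcd_dvd_natAbs_right a ((p ^ k : ℕ) : ℤ)
      have hb : Int.gcd b ((p ^ k : ℕ) : ℤ) ∣ p ^ k := Int.gcd_dvd_natAbs_right b ((p ^ k : ℕ) : ℤ)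
      obtain ⟨i, -, hi⟩ := (Nat.dvd_prime_pow hp).mp ha
      obtain ⟨j, -, hj⟩ := (Nat.dvd_prime_pow hp).mp hb
      rcases le_total i j with hij | hij
      · right
        apply zpow_mem_of_gcd_dvd z (p ^ k) hzn a b
        rw [hi]
        have h1 : ((p ^ i : ℕ) : ℤ) ∣ ((p ^ j : ℕ) : ℤ) := by
          exact_mod_cast pow_dvd_pow p hij
        refine h1.trans ?_
        rw [← hj]
        exact Int.gcd_dvd_left b _
      · left
        apply zpow_mem_of_gcd_dvd z (p ^ k) hzn b a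
        rw [hj]
        have h1 : ((p ^ j : ℕ) : ℤ) ∣ ((p ^ i : ℕ) : ℤ) := by
          exact_mod_cast pow_dvd_pow p hij
        refine h1.trans ?_
        rw [← hi]
        exact Int.gcd_dvd_left a _
  · intro h g hg
    by_contra hnp
    rw [isPrimePow_iff_unique_prime_dvd] at hnp
    have hn0 : orderOf g ≠ 0 := (orderOf_pos g).ne'
    have hn1 : orderOf g ≠ 1 := by
      rw [Ne, orderOf_eq_one_iff]; exact hg
    obtain ⟨p, hp, hpn⟩ := Nat.exists_prime_and_dvd hn1
    have : ∃ q : ℕ, q.Prime ∧ q ∣ orderOf g ∧ q ≠ p := by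
      by_contra hcon
      push Not at hcon
      exact hnp ⟨p, ⟨hp, hpn⟩, fun q hq => hcon q hq.1 hq.2⟩
    obtain ⟨q, hq, hqn, hqp⟩ := this
    have hxo := orderOf_pow_orderOf_div hn0 hpn
    have hyo := orderOf_pow_orderOf_div hn0 hqn
    have hcyc : IsCyclic ↥(Subgroup.closure ({g ^ (orderOf g / p), g ^ (orderOf g / q)} : Set G)) := by
      apply cyclic_of_le_zpowers g
      rw [Subgroup.closure_le]
      intro w hw
      rcases hw with rfl | rfl
      · exact Subgroup.npow_mem_zpowers g _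
      · exact Subgroup.npow_mem_zpowers g _
    rcases h _ _ hcyc with h1 | h1
    · have := orderOf_dvd_of_mem_zpowers h1
      rw [hxo, hyo] at this
      exact hqp ((Nat.prime_dvd_prime_iff_eq hp hq).mp this).symm
    · have := orderOf_dvd_of_mem_zpowers h1
      rw [hxo, hyo] at this
      exact hqp ((Nat.prime_dvd_prime_iff_eq hq hp).mp this)

end Cfsg.Agent.S4086
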