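import Cfsg.Statements.S4089
import Cfsg.Agent.Lib.Helper17.Subnorm

set_option autoImplicit false
open Cfsg

namespace Cfsg.Agent.S4089

/-- Let G be a finite group, p a prime and H a p-subgroup of G. Then the set of elements g of G such that H is subnormal in the subgroup generated by H and g is the union of the normalizers N_G(R) over the subgroups R of G containing H with R = O_p(N_G(R)); and this set does not change when H is replaced by the intersection of all Sylow p-subgroups of G containing H. -/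
theorem result {G : Type*} [Group G] [Finite G] (p : ℕ) [Fact p.Prime]
    (H : Subgroup G) (hH : IsPGroup p H) :
    {g : G | ((H).subgroupOf (H ⊔ Subgroup.zpowers g)).IsSubnormal} =
      {g : G | ∃ R : Subgroup G, H ≤ R ∧ (Cfsg.pCore p (Subgroup.normalizer (R : Set G))).map (Subgroup.normalizer (R : Set G)).subtype = R ∧ g ∈ Subgroup.normalizer (R : Set G)} ∧
    ∀ g : G, (((H).subgroupOf (H ⊔ Subgroup.zpowers g)).IsSubnormal ↔
      (((sInf {K : Subgroup G | ∃ Q : Sylow p G, H ≤ (Q : Subgroup G) ∧ K = (Q : Subgroup G)})).subgroupOf ((sInf {K : Subgroup G | ∃ Q : Sylow p G, H ≤ (Q : Subgroup G) ∧ K = (Q : Subgroup G)}) ⊔ Subgroup.zpowers g)).IsSubnormal) := by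
  have key1 : ∀ g : G, ((H).subgroupOf (H ⊔ Subgroup.zpowers g)).IsSubnormal →
      ∃ R : Subgroup G, H ≤ R ∧ (Cfsg.pCore p (Subgroup.normalizer (R : Set G))).map (Subgroup.normalizer (R : Set G)).subtype = R ∧ g ∈ Subgroup.normalizer (R : Set G) := by
    intro g hg
    obtain ⟨R, h1, h2, h3⟩ := Cfsg.Agent.Lib.Helper17.Subnorm.exists_radical hH le_sup_left hg
    exact ⟨R, h1, h2, h3 (Subgroup.mem_sup_right (Subgroup.mem_zpowers g))⟩
  have key2 : ∀ (H' : Subgroup G), IsPGroup p H' → ∀ g : G, (∃ R : Subgroup G, H' ≤ R ∧ (Cfsg.pCore p (Subgroup.normalizer (R : Set G))).map (Subgroup.normalizer (R : Set G)).subtype = R ∧ g ∈ Subgroup.normalizer (R : Set G)) → ((H').subgroupOf (H' ⊔ Subgroup.zpowers g)).IsSubnormal := by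
    rintro H' hH' g ⟨R, h1, h2, h3⟩
    refine Cfsg.Agent.Lib.Helper17.Subnorm.isSubnormal_of_radical hH' h1 h2 le_sup_left ?_
    refine sup_le (h1.trans ?_) ?_
    · exact Subgroup.le_normalizer
    · rw [Subgroup.zpowers_le]; exact h3
  refine ⟨?_, ?_⟩
  · ext g
    exact ⟨key1 g, key2 H hH g⟩
  · intro g
    obtain ⟨I, hI⟩ : ∃ I, I = sInf {K : Subgroup G | ∃ Q : Sylow p G, H ≤ (Q : Subgroup G) ∧ K = (Q : Subgroup G)} := ⟨_, rfl⟩
    rw [← hI]
    have hHI : H ≤ I := by
      rw [hI]; apply le_sInf; rintro K ⟨Q, hQ, rfl⟩; exact hQ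
    obtain ⟨Q₀, hQ₀⟩ := hH.exists_le_sylow
    have hIp : IsPGroup p I := Q₀.isPGroup'.to_le (by rw [hI]; exact sInf_le ⟨Q₀, hQ₀, rfl⟩)
    constructor
    · intro hg
      obtain ⟨R, h1, h2, h3⟩ := key1 g hg
      apply key2 I hIp g
      refine ⟨R, ?_, h2, h3⟩
      refine le_trans ?_ (Cfsg.Agent.Lib.Helper17.Subnorm.sInf_sylow_le_radical h2)
      rw [hI]
      apply sInf_le_sInf
      rintro K ⟨Q, hQ, rfl⟩
      exact ⟨Q, h1.trans hQ, rfl⟩
    · intro hg
      have h1 : I ≤ (Cfsg.pCore p ↥(I ⊔ Subgroup.zpowers g)).map (I ⊔ Subgroup.zpowers g).subtype :=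
        (Cfsg.Agent.Lib.Helper17.Subnorm.isSubnormal_iff_le_pCoreOf hIp le_sup_left).1 hg
      rw [Cfsg.Agent.Lib.Helper17.Subnorm.isSubnormal_iff_le_pCoreOf hH le_sup_left]
      exact Cfsg.Agent.Lib.Helper17.Subnorm.le_pCoreOf_of_le (sup_le_sup_right hHI _) le_sup_left (hHI.trans h1)

end Cfsg.Agent.S4089
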