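import Mathlib
import Cfsg.Agent.Lib.Helper16.Basic
import Cfsg.Statements.S4092

set_option autoImplicit false
open Cfsg

namespace Cfsg.Agent.S4092

open scoped Pointwise
open Cfsg.Agent.Lib.Helper16.Basic

theorem result {G : Type*} [Group G] [Finite G] (p : ℕ) [Fact p.Prime]
    (P : Sylow p G) (hP : ¬ (P : Subgroup G).Normal) :
    p * Nat.card (P : Subgroup G) ≤ Nat.card {g : G // ∃ k : ℕ, orderOf g = p ^ k} := by
  classical
  have hp : p.Prime := Fact.out
  have hpelt : ∀ (S : Sylow p G) (x : G), x ∈ (S : Subgroup G) → ∃ k : ℕ, orderOf x = p ^ k := by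
    intro S x hx
    obtain ⟨k, hk⟩ := S.isPGroup' ⟨x, hx⟩
    have h1 : orderOf (⟨x, hx⟩ : (S : Subgroup G)) ∣ p ^ k := orderOf_dvd_of_pow_eq_one hk
    obtain ⟨j, _, hj⟩ := (Nat.dvd_prime_pow hp).mp h1
    exact ⟨j, by rw [← hj, ← Subgroup.orderOf_coe]⟩
  have hmemsmul : ∀ (g : G) (S : Sylow p G) (x : G),
      x ∈ ((g • S : Sylow p G) : Subgroup G) ↔ g⁻¹ * x * g ∈ (S : Subgroup G) := by
    intro g S x
    rw [Sylow.coe_subgroup_smul, Subgroup.mem_pointwise_smul_iff_inv_smul_mem]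
    have e : (MulAut.conj g)⁻¹ • x = g⁻¹ * x * g := by
      rw [← map_inv, MulAut.smul_def, MulAut.conj_apply, inv_inv]
    rw [e]
  have hex : ∃ Q : Sylow p G, Q ≠ P := by
    by_contra hcon
    push Not at hcon
    apply hP
    constructor
    intro n hn g
    have h1 := hcon (g • P)
    have h2 : g * n * g⁻¹ ∈ ((g • P : Sylow p G) : Subgroup G) := by
      rw [hmemsmul]
      have e : g⁻¹ * (g * n * g⁻¹) * g = n := by group
      rw [e]
      exact hn
    rw [h1] at h2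
    exact h2
  obtain ⟨Q₁, hQ₁⟩ := hex
  have hnonempty : Nonempty {pr : Sylow p G × Sylow p G // pr.1 ≠ pr.2} := ⟨⟨(Q₁, P), hQ₁⟩⟩
  obtain ⟨⟨⟨P₀, Q₀⟩, hne⟩, hmax⟩ := Finite.exists_max
    (fun pr : {pr : Sylow p G × Sylow p G // pr.1 ≠ pr.2} =>
      Nat.card ((pr.1.1 : Subgroup G) ⊓ (pr.1.2 : Subgroup G) : Subgroup G))
  have hne' : P₀ ≠ Q₀ := hne
  set D := (P₀ : Subgroup G) ⊓ (Q₀ : Subgroup G) with hD
  have hmax' : ∀ S S' : Sylow p G, S ≠ S' → D ≤ (S : Subgroup G) ⊓ (S' : Subgroup G) →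
      (S : Subgroup G) ⊓ (S' : Subgroup G) = D := by
    intro S S' hSS hle
    exact (Subgroup.eq_of_le_of_card_ge hle (hmax ⟨(S, S'), hSS⟩)).symm
  have hDQ : D < (Q₀ : Subgroup G) := by
    refine lt_of_le_of_ne inf_le_right ?_
    intro h
    have h1 : (Q₀ : Subgroup G) ≤ P₀ := by
      rw [← h]
      exact inf_le_left
    have h2 := Q₀.is_maximal' P₀.isPGroup' h1
    exact hne' (Sylow.ext h2)
  obtain ⟨y, hyQ, hyN, hyD⟩ := exists_mem_normalizer_not_mem Q₀.isPGroup' hDQ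
  have hpow : ∀ i : ℕ, 0 < i → i < p → y ^ i ∉ D := by
    intro i hi hip hmem
    obtain ⟨k, hk⟩ := hpelt Q₀ y hyQ
    have hcop : i.Coprime (orderOf y) := by
      rw [hk]
      apply Nat.Coprime.pow_right
      exact Nat.coprime_comm.mp ((Nat.Prime.coprime_iff_not_dvd hp).mpr
        (Nat.not_dvd_of_pos_of_lt hi hip))
    obtain ⟨m, hm⟩ := exists_pow_eq_self_of_coprime hcop
    apply hyD
    rw [← hm]
    exact D.pow_mem hmem m
  have hnormD : ∀ (i : ℕ) (x : G), x ∈ D ↔ y ^ i * x * (y ^ i)⁻¹ ∈ D := by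
    intro i
    have := Subgroup.pow_mem _ hyN i
    exact Subgroup.mem_normalizer_iff.mp this
  have hyiQ : ∀ i : ℕ, y ^ i ∈ (Q₀ : Subgroup G) := fun i => Subgroup.pow_mem _ hyQ i
  let S : ℕ → Sylow p G := fun i => (y ^ i) • P₀
  have hSmem : ∀ (i : ℕ) (x : G),
      x ∈ (S i : Subgroup G) ↔ (y ^ i)⁻¹ * x * y ^ i ∈ (P₀ : Subgroup G) :=
    fun i x => hmemsmul (y ^ i) P₀ x
  have hDS : ∀ i, D ≤ (S i : Subgroup G) := by
    intro i x hx
    rw [hSmem]
    have h1 : (y ^ i)⁻¹ * x * y ^ i ∈ D := by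
      rw [hnormD i]
      have e : y ^ i * ((y ^ i)⁻¹ * x * y ^ i) * (y ^ i)⁻¹ = x := by group
      rw [e]
      exact hx
    exact (Subgroup.mem_inf.mp h1).1
  have hSQ : ∀ i, S i ≠ Q₀ := by
    intro i h
    apply hne'
    have h1 : (y ^ i) • Q₀ = Q₀ :=
      Sylow.smul_eq_iff_mem_normalizer.mpr (Subgroup.le_normalizer (hyiQ i))
    have h2 : (y ^ i) • P₀ = (y ^ i) • Q₀ := by
      rw [h1]
      exact h
    exact smul_left_cancel _ h2
  have hSS : ∀ i j, i < j → j < p → S i ≠ S j := by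
    intro i j hij hjp h
    set z := y ^ (j - i) with hz
    have hzj : y ^ j = y ^ i * z := by
      rw [hz, ← pow_add]
      congr 1
      omega
    have hzs : z • P₀ = P₀ := by
      have h1 : (y ^ i) • P₀ = (y ^ j) • P₀ := h
      rw [hzj, mul_smul] at h1
      exact (smul_left_cancel _ h1).symm
    have hzN : z ∈ Subgroup.normalizer ((P₀ : Subgroup G) : Set G) :=
      Sylow.smul_eq_iff_mem_normalizer.mp hzs
    have hzQ : z ∈ (Q₀ : Subgroup G) := hyiQ _
    have hzP : z ∈ (P₀ : Subgroup G) := by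
      have hzn : Subgroup.zpowers z ≤ Subgroup.normalizer ((P₀ : Subgroup G) : Set G) := by
        rw [Subgroup.zpowers_le]
        exact hzN
      have hzp : IsPGroup p (Subgroup.zpowers z) := by
        rw [IsPGroup.iff_card, Nat.card_zpowers]
        obtain ⟨k, hk⟩ := hpelt Q₀ z hzQ
        exact ⟨k, hk⟩
      have hsup := hzp.to_sup_of_normal_right' P₀.isPGroup' hzn
      have := P₀.is_maximal' hsup le_sup_right
      rw [← this]
      exact Subgroup.mem_sup_left (Subgroup.mem_zpowers z)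
    exact hpow (j - i) (by omega) (by omega) (Subgroup.mem_inf.mpr ⟨hzP, hzQ⟩)
  have L1 : ∀ (i : ℕ) (x : G), x ∉ D → y ^ i * x * (y ^ i)⁻¹ ∉ D := by
    intro i x hx h
    exact hx ((hnormD i x).mpr h)
  have L2 : ∀ i j, i < p → j < p → i ≠ j → (S i : Subgroup G) ⊓ (S j : Subgroup G) = D := by
    intro i j hi hj hij
    apply hmax' _ _ _ (le_inf (hDS i) (hDS j))
    rcases Nat.lt_or_gt_of_ne hij with h | h
    · exact hSS i j h hj
    · exact (hSS j i h hi).symm
  have L3 : ∀ i, (S i : Subgroup G) ⊓ (Q₀ : Subgroup G) = D :=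
    fun i => hmax' _ _ (hSQ i) (le_inf (hDS i) inf_le_right)
  have L4' : ∀ i j, i < j → j < p → ∀ x ∈ D, ∀ x' ∈ D, y ^ i * x ≠ y ^ j * x' := by
    intro i j hij hjp x hx x' hx' h
    have hzj : y ^ j = y ^ i * y ^ (j - i) := by
      rw [← pow_add]
      congr 1
      omega
    rw [hzj, mul_assoc] at h
    have h1 : x = y ^ (j - i) * x' := mul_left_cancel h
    have h2 : y ^ (j - i) = x * x'⁻¹ := by rw [h1]; group
    apply hpow (j - i) (by omega) (by omega)
    rw [h2]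
    exact D.mul_mem hx (D.inv_mem hx')
  have L4 : ∀ i j, i < p → j < p → ∀ x ∈ D, ∀ x' ∈ D, y ^ i * x = y ^ j * x' → i = j := by
    intro i j hi hj x hx x' hx' h
    by_contra hij
    rcases Nat.lt_or_gt_of_ne hij with h' | h'
    · exact L4' i j h' hj x hx x' hx' h
    · exact L4' j i h' hi x' hx' x hx h.symm
  let φ : Fin p × (P₀ : Subgroup G) → G := fun ix =>
    if (ix.2 : G) ∈ D then y ^ (ix.1 : ℕ) * (ix.2 : G)
    else y ^ (ix.1 : ℕ) * (ix.2 : G) * (y ^ (ix.1 : ℕ))⁻¹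
  have hφ1 : ∀ (i : Fin p) (x : (P₀ : Subgroup G)), (x : G) ∈ D →
      φ (i, x) = y ^ (i : ℕ) * (x : G) := by
    intro i x hx
    simp only [φ]
    rw [if_pos hx]
  have hφ2 : ∀ (i : Fin p) (x : (P₀ : Subgroup G)), (x : G) ∉ D →
      φ (i, x) = y ^ (i : ℕ) * (x : G) * (y ^ (i : ℕ))⁻¹ := by
    intro i x hx
    simp only [φ]
    rw [if_neg hx]
  have hconjS : ∀ (i : ℕ) (x : (P₀ : Subgroup G)),
      y ^ i * (x : G) * (y ^ i)⁻¹ ∈ (S i : Subgroup G) := by
    intro i x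
    rw [hSmem]
    have e : (y ^ i)⁻¹ * (y ^ i * (x : G) * (y ^ i)⁻¹) * y ^ i = x := by group
    rw [e]
    exact x.2
  have hφp : ∀ ix : Fin p × (P₀ : Subgroup G), ∃ k : ℕ, orderOf (φ ix) = p ^ k := by
    rintro ⟨i, x⟩
    by_cases hx : (x : G) ∈ D
    · rw [hφ1 i x hx]
      exact hpelt Q₀ _ (Subgroup.mul_mem _ (hyiQ i) (Subgroup.mem_inf.mp hx).2)
    · rw [hφ2 i x hx]
      exact hpelt (S i) _ (hconjS i x)
  have hφinj : Function.Injective φ := by
    rintro ⟨i, x⟩ ⟨j, x'⟩ h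
    by_cases hx : (x : G) ∈ D
    · by_cases hx' : (x' : G) ∈ D
      · rw [hφ1 i x hx, hφ1 j x' hx'] at h
        have hij := L4 i j i.2 j.2 x hx x' hx' h
        have hij' : i = j := Fin.ext hij
        subst hij'
        have := mul_left_cancel h
        rw [Prod.mk.injEq]
        exact ⟨rfl, Subtype.ext this⟩
      · exfalso
        rw [hφ1 i x hx, hφ2 j x' hx'] at h
        have h1 : y ^ (j : ℕ) * (x' : G) * (y ^ (j : ℕ))⁻¹ ∈ (S j : Subgroup G) ⊓ (Q₀ : Subgroup G) := by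
          refine Subgroup.mem_inf.mpr ⟨hconjS j x', ?_⟩
          rw [← h]
          exact Subgroup.mul_mem _ (hyiQ i) (Subgroup.mem_inf.mp hx).2
        rw [L3] at h1
        exact L1 j x' hx' h1
    · by_cases hx' : (x' : G) ∈ D
      · exfalso
        rw [hφ2 i x hx, hφ1 j x' hx'] at h
        have h1 : y ^ (i : ℕ) * (x : G) * (y ^ (i : ℕ))⁻¹ ∈ (S i : Subgroup G) ⊓ (Q₀ : Subgroup G) := by
          refine Subgroup.mem_inf.mpr ⟨hconjS i x, ?_⟩
          rw [h]
          exact Subgroup.mul_mem _ (hyiQ j) (Subgroup.mem_inf.mp hx').2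
        rw [L3] at h1
        exact L1 i x hx h1
      · rw [hφ2 i x hx, hφ2 j x' hx'] at h
        by_cases hij : (i : ℕ) = (j : ℕ)
        · have hij' : i = j := Fin.ext hij
          subst hij'
          have h1 := mul_right_cancel h
          have h2 := mul_left_cancel h1
          rw [Prod.mk.injEq]
          exact ⟨rfl, Subtype.ext h2⟩
        · exfalso
          have h1 : y ^ (i : ℕ) * (x : G) * (y ^ (i : ℕ))⁻¹ ∈
              (S i : Subgroup G) ⊓ (S j : Subgroup G) := by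
            refine Subgroup.mem_inf.mpr ⟨hconjS i x, ?_⟩
            rw [h]
            exact hconjS j x'
          rw [L2 i j i.2 j.2 hij] at h1
          exact L1 i x hx h1
  have hcard : Nat.card (Fin p × (P₀ : Subgroup G)) ≤
      Nat.card {g : G // ∃ k : ℕ, orderOf g = p ^ k} := by
    apply Nat.card_le_card_of_injective
      (fun ix => (⟨φ ix, hφp ix⟩ : {g : G // ∃ k : ℕ, orderOf g = p ^ k}))
    intro a b hab
    have : φ a = φ b := congrArg Subtype.val hab
    exact hφinj this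
  rw [Nat.card_prod, Nat.card_fin] at hcard
  have hPP₀ : Nat.card (P : Subgroup G) = Nat.card (P₀ : Subgroup G) := by
    rw [P.card_eq_multiplicity, P₀.card_eq_multiplicity]
  rw [hPP₀]
  exact hcard

end Cfsg.Agent.S4092
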