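import Mathlib
import Cfsg.Statements.S4093

set_option autoImplicit false
open Cfsg

namespace Cfsg.Agent.S4093

open scoped Pointwise

theorem result {G : Type*} [Group G] [Finite G] (p : ℕ) [Fact p.Prime]
    (P : Sylow p G) (N : Subgroup G) [N.Normal] (hNP : N.IsComplement' (P : Subgroup G)) :
    Nat.card {g : G // ∃ k : ℕ, orderOf g = p ^ k} =
      ∑ᶠ x : (P : Subgroup G), Nat.card N / Nat.card ↥(N ⊓ Subgroup.centralizer ({(x : G)} : Set G)) := by
  have hp : p.Prime := Fact.out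
  have hN : N.Normal := inferInstance
  let act : MulAction N G := MulAction.compHom G ((MulAut.conj : G →* MulAut G).comp N.subtype)
  have hsmul : ∀ (n : N) (g : G), n • g = (n : G) * g * (n : G)⁻¹ := fun n g => rfl
  have hdisj : ∀ y : G, y ∈ N → y ∈ (P : Subgroup G) → y = 1 := by
    intro y h1 h2
    have := hNP.disjoint
    rw [Subgroup.disjoint_def] at this
    exact this h1 h2
  have horb : ∀ (x : (P : Subgroup G)) (g : G), g ∈ MulAction.orbit N (x : G) → g * (x : G)⁻¹ ∈ N := by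
    rintro x g ⟨n, rfl⟩
    change n • (x : G) * (x : G)⁻¹ ∈ N
    rw [hsmul]
    have h1 := hN.conj_mem _ (N.inv_mem n.2) (x : G)
    have e : (n : G) * (x : G) * (n : G)⁻¹ * (x : G)⁻¹ = (n : G) * ((x : G) * (n : G)⁻¹ * (x : G)⁻¹) := by
      group
    rw [e]
    exact N.mul_mem n.2 h1
  have hpow : ∀ (x : (P : Subgroup G)), ∃ k : ℕ, orderOf (x : G) = p ^ k := by
    intro x
    obtain ⟨k, hk⟩ := P.isPGroup' x
    have h1 : orderOf x ∣ p ^ k := orderOf_dvd_of_pow_eq_one hk
    obtain ⟨j, _, hj⟩ := (Nat.dvd_prime_pow hp).mp h1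
    exact ⟨j, by rw [Subgroup.orderOf_coe]; exact hj⟩
  have hord : ∀ (x : (P : Subgroup G)) (g : G), g ∈ MulAction.orbit N (x : G) →
      ∃ k : ℕ, orderOf g = p ^ k := by
    rintro x g ⟨n, rfl⟩
    obtain ⟨k, hk⟩ := hpow x
    refine ⟨k, ?_⟩
    change orderOf (n • (x : G)) = p ^ k
    rw [hsmul, ← hk]
    exact (MulAut.conj (n : G)).orderOf_eq (x : G)
  let F : (Σ x : (P : Subgroup G), MulAction.orbit N (x : G)) → {g : G // ∃ k : ℕ, orderOf g = p ^ k} :=
    fun s => ⟨(s.2 : G), hord s.1 s.2 s.2.2⟩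
  have hFinj : Function.Injective F := by
    rintro ⟨x, g, hg⟩ ⟨x', g', hg'⟩ h
    have hgg : g = g' := congrArg Subtype.val h
    subst hgg
    have h1 := horb x g hg
    have h2 := horb x' g hg'
    have h3 : (x : G) * (x' : G)⁻¹ ∈ N := by
      have := N.mul_mem (N.inv_mem h1) h2
      have e : (g * (x : G)⁻¹)⁻¹ * (g * (x' : G)⁻¹) = (x : G) * (x' : G)⁻¹ := by group
      rw [e] at this
      exact this
    have h4 : (x : G) * (x' : G)⁻¹ ∈ (P : Subgroup G) :=
      Subgroup.mul_mem _ x.2 (Subgroup.inv_mem _ x'.2)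
    have h5 := hdisj _ h3 h4
    have h6 : x = x' := by
      apply Subtype.ext
      exact mul_inv_eq_one.mp h5
    subst h6
    rfl
  have hFsurj : Function.Surjective F := by
    rintro ⟨g, k, hk⟩
    have hpg : IsPGroup p (Subgroup.zpowers g) := by
      rw [IsPGroup.iff_card, Nat.card_zpowers, hk]
      exact ⟨k, rfl⟩
    obtain ⟨Q, hQ⟩ := hpg.exists_le_sylow
    obtain ⟨y, hy⟩ := MulAction.exists_smul_eq G P Q
    have hgQ : g ∈ (Q : Subgroup G) := hQ (Subgroup.mem_zpowers g)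
    rw [← hy, Sylow.coe_subgroup_smul, Subgroup.mem_pointwise_smul_iff_inv_smul_mem] at hgQ
    have hgQ' : y⁻¹ * g * y ∈ (P : Subgroup G) := by
      have e : (MulAut.conj y)⁻¹ • g = y⁻¹ * g * y := by
        rw [← map_inv, MulAut.smul_def, MulAut.conj_apply, inv_inv]
      rw [e] at hgQ
      exact hgQ
    have htop := hNP.sup_eq_top
    have hy' : y ∈ N ⊔ (P : Subgroup G) := by rw [htop]; trivial
    rw [Subgroup.mem_sup_of_normal_left] at hy'
    obtain ⟨n, hn, w, hw, rfl⟩ := hy'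
    have hx : n⁻¹ * g * n ∈ (P : Subgroup G) := by
      have := Subgroup.mul_mem _ (Subgroup.mul_mem _ hw hgQ') (Subgroup.inv_mem _ hw)
      have e : w * ((n * w)⁻¹ * g * (n * w)) * w⁻¹ = n⁻¹ * g * n := by group
      rw [e] at this
      exact this
    refine ⟨⟨⟨n⁻¹ * g * n, hx⟩, ⟨g, ⟨⟨n, hn⟩, ?_⟩⟩⟩, rfl⟩
    change (⟨n, hn⟩ : N) • (n⁻¹ * g * n) = g
    rw [hsmul]
    group
  have hcard := Nat.card_congr (Equiv.ofBijective F ⟨hFinj, hFsurj⟩)
  have : Fintype (P : Subgroup G) := Fintype.ofFinite _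
  rw [← hcard, Nat.card_sigma, finsum_eq_sum_of_fintype]
  apply Finset.sum_congr rfl
  intro x _
  have h1 : Nat.card (MulAction.orbit N (x : G)) * Nat.card (MulAction.stabilizer N (x : G)) =
      Nat.card N := by
    rw [Nat.card_coe_set_eq, ← MulAction.index_stabilizer, mul_comm]
    exact Subgroup.card_mul_index _
  have hstab : MulAction.stabilizer N (x : G) =
      (N ⊓ Subgroup.centralizer ({(x : G)} : Set G)).subgroupOf N := by
    ext n
    rw [MulAction.mem_stabilizer_iff, hsmul, Subgroup.mem_subgroupOf, Subgroup.mem_inf,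
      Subgroup.mem_centralizer_iff]
    constructor
    · intro h
      refine ⟨n.2, ?_⟩
      intro k hk
      rw [Set.mem_singleton_iff] at hk
      subst hk
      have := mul_inv_eq_iff_eq_mul.mp h
      exact this.symm
    · rintro ⟨_, h⟩
      have := h (x : G) rfl
      rw [mul_inv_eq_iff_eq_mul]
      exact this.symm
  have h2 : Nat.card (MulAction.stabilizer N (x : G)) =
      Nat.card ↥(N ⊓ Subgroup.centralizer ({(x : G)} : Set G)) := by
    rw [hstab]
    exact Nat.card_congr (Subgroup.subgroupOfEquivOfLe inf_le_left).toEquiv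
  rw [h2] at h1
  rw [← h1]
  exact (Nat.mul_div_cancel _ Nat.card_pos).symm

end Cfsg.Agent.S4093
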