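import Mathlib
import Cfsg.Agent.Lib.Helper16.Basic
import Cfsg.Statements.S4106

set_option autoImplicit false
open Cfsg

namespace Cfsg.Agent.S4106

open Cfsg.Agent.Lib.Helper16.Basic

universe u

theorem key : ∀ (m : ℕ) (G : Type u) [Group G] [Finite G] (n : ℕ), Nat.card G = m * n →
    m.Coprime n →
    Nat.card {C : ConjClasses G // ∀ g : G, ConjClasses.mk g = C → orderOf g ∣ m} ≤ m := by
  intro m
  induction m using Nat.strong_induction_on with
  | _ m ih =>
    intro G _ _ n hcard hcop
    rcases Nat.lt_or_ge m 2 with hm | hm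
    · have hpos : 0 < Nat.card G := Nat.card_pos
      have hm1 : m = 1 := by
        rcases Nat.eq_zero_or_pos m with h0 | h0
        · rw [h0, zero_mul] at hcard
          omega
        · omega
      subst hm1
      rw [Finite.card_le_one_iff_subsingleton]
      constructor
      rintro ⟨C, hC⟩ ⟨C', hC'⟩
      apply Subtype.ext
      obtain ⟨g, rfl⟩ := ConjClasses.mk_surjective C
      obtain ⟨g', rfl⟩ := ConjClasses.mk_surjective C'
      have h1 := hC g rfl
      have h2 := hC' g' rfl
      rw [Nat.dvd_one, orderOf_eq_one_iff] at h1 h2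
      subst h1
      subst h2
      rfl
    · have hmne : m ≠ 1 := by omega
      set p := m.minFac with hp_def
      have hp : p.Prime := Nat.minFac_prime hmne
      have hpm : p ∣ m := Nat.minFac_dvd m
      have : Fact p.Prime := ⟨hp⟩
      obtain ⟨e, m₁, hpm₁, hm_eq⟩ :=
        Nat.exists_eq_pow_mul_and_not_dvd (by omega : m ≠ 0) p hp.ne_one
      have he : e ≠ 0 := by
        rintro rfl
        rw [pow_zero, one_mul] at hm_eq
        rw [hm_eq] at hpm
        exact hpm₁ hpm
      have hm₁pos : 0 < m₁ := by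
        rcases Nat.eq_zero_or_pos m₁ with h0 | h0
        · rw [h0, mul_zero] at hm_eq
          omega
        · exact h0
      have hpe2 : 2 ≤ p ^ e := by
        calc 2 ≤ p := hp.two_le
          _ = p ^ 1 := (pow_one p).symm
          _ ≤ p ^ e := Nat.pow_le_pow_right hp.pos (Nat.one_le_iff_ne_zero.mpr he)
      have hm₁lt : m₁ < m := by
        rw [hm_eq]
        nlinarith
      have hcop_p_m₁ : (p ^ e).Coprime m₁ :=
        Nat.Coprime.pow_left e ((Nat.Prime.coprime_iff_not_dvd hp).mpr hpm₁)
      have hcop_m₁_n : m₁.Coprime n :=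
        Nat.Coprime.coprime_dvd_left ⟨p ^ e, by rw [hm_eq]; ring⟩ hcop
      have hcop_pe_n : (p ^ e).Coprime n := Nat.Coprime.coprime_dvd_left ⟨m₁, hm_eq⟩ hcop
      have hcop_p_n : p.Coprime n := Nat.Coprime.coprime_dvd_left (dvd_pow_self p he) hcop_pe_n
      have hcop₁ : m₁.Coprime (p ^ e * n) := Nat.Coprime.mul_right hcop_p_m₁.symm hcop_m₁_n
      have hcardG : Nat.card G = m₁ * (p ^ e * n) := by
        rw [hcard, hm_eq]
        ring
      obtain ⟨P⟩ : Nonempty (Sylow p G) := inferInstance
      have hPcard : Nat.card (P : Subgroup G) ≤ p ^ e := by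
        obtain ⟨j, hj⟩ := IsPGroup.iff_card.mp P.isPGroup'
        have h1 : Nat.card (P : Subgroup G) ∣ Nat.card G := Subgroup.card_subgroup_dvd_card _
        rw [hj, hcard, hm_eq, mul_assoc] at h1
        have h2 : (p ^ j).Coprime (m₁ * n) :=
          Nat.Coprime.pow_left j (Nat.Coprime.mul_right
            ((Nat.Prime.coprime_iff_not_dvd hp).mpr hpm₁) hcop_p_n)
        rw [hj]
        exact Nat.le_of_dvd (pow_pos hp.pos e) (h2.dvd_of_dvd_mul_right h1)
      let Cu : ↥(P : Subgroup G) → Subgroup G :=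
        fun u => Subgroup.centralizer ({(u : G)} : Set G)
      let mu : ↥(P : Subgroup G) → ℕ := fun u => Nat.gcd (Nat.card (Cu u)) m₁
      have hmu_le : ∀ u, mu u ≤ m₁ := fun u => Nat.le_of_dvd hm₁pos (Nat.gcd_dvd_right _ _)
      have hIH : ∀ u : (P : Subgroup G),
          Nat.card {D : ConjClasses (Cu u) //
            ∀ v : Cu u, ConjClasses.mk v = D → orderOf v ∣ mu u} ≤ mu u := by
        intro u
        apply ih (mu u) (lt_of_le_of_lt (hmu_le u) hm₁lt) (Cu u)
          (Nat.gcd (Nat.card (Cu u)) (p ^ e * n))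
        · have hdvd : Nat.card (Cu u) ∣ m₁ * (p ^ e * n) := by
            rw [← hcardG]
            exact Subgroup.card_subgroup_dvd_card _
          rw [← Nat.Coprime.gcd_mul _ hcop₁]
          exact (Nat.gcd_eq_left hdvd).symm
        · exact Nat.Coprime.coprime_dvd_left (Nat.gcd_dvd_right _ _)
            (Nat.Coprime.coprime_dvd_right (Nat.gcd_dvd_right _ _) hcop₁)
      have hex : ∀ C : {C : ConjClasses G // ∀ g : G, ConjClasses.mk g = C → orderOf g ∣ m},
          ∃ (u : (P : Subgroup G)) (v : G) (hv : v ∈ Cu u),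
            orderOf (⟨v, hv⟩ : Cu u) ∣ mu u ∧ C.1 = ConjClasses.mk ((u : G) * v) := by
        rintro ⟨C, hC⟩
        obtain ⟨x, rfl⟩ := ConjClasses.mk_surjective C
        have hx : orderOf x ∣ p ^ e * m₁ := by
          rw [← hm_eq]
          exact hC x rfl
        have hxpow : x ^ (p ^ e * m₁) = 1 := orderOf_dvd_iff_pow_eq_one.mp hx
        have hb := Nat.gcd_eq_gcd_ab (p ^ e) m₁
        rw [hcop_p_m₁.gcd_eq_one] at hb
        set A := Nat.gcdA (p ^ e) m₁ with hA
        set B := Nat.gcdB (p ^ e) m₁ with hB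
        set x₁ := x ^ ((m₁ : ℤ) * B) with hx₁
        set x₂ := x ^ (((p ^ e : ℕ) : ℤ) * A) with hx₂
        have hx12 : x = x₁ * x₂ := by
          rw [hx₁, hx₂, ← zpow_add, add_comm, ← hb]
          simp
        have hx₁p : x₁ ^ (p ^ e) = 1 := by
          rw [hx₁, ← zpow_natCast, ← zpow_mul]
          have e1 : (m₁ : ℤ) * B * ((p ^ e : ℕ) : ℤ) = ((p ^ e * m₁ : ℕ) : ℤ) * B := by
            push_cast
            ring
          rw [e1, zpow_mul, zpow_natCast, hxpow, one_zpow]
        have hx₂m : x₂ ^ m₁ = 1 := by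
          rw [hx₂, ← zpow_natCast, ← zpow_mul]
          have e1 : ((p ^ e : ℕ) : ℤ) * A * (m₁ : ℤ) = ((p ^ e * m₁ : ℕ) : ℤ) * A := by
            push_cast
            ring
          rw [e1, zpow_mul, zpow_natCast, hxpow, one_zpow]
        have hcomm : Commute x₁ x₂ := Commute.zpow_zpow_self x _ _
        have hpg : IsPGroup p (Subgroup.zpowers x₁) := by
          rw [IsPGroup.iff_card, Nat.card_zpowers]
          obtain ⟨j, _, hj⟩ := (Nat.dvd_prime_pow hp).mp (orderOf_dvd_of_pow_eq_one hx₁p)
          exact ⟨j, hj⟩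
        obtain ⟨g, hg⟩ := exists_conj_le_sylow hpg P
        have huP : g * x₁ * g⁻¹ ∈ (P : Subgroup G) :=
          hg ⟨x₁, Subgroup.mem_zpowers x₁, rfl⟩
        have hvC : g * x₂ * g⁻¹ ∈ Cu ⟨g * x₁ * g⁻¹, huP⟩ := by
          rw [Subgroup.mem_centralizer_iff]
          intro h hh
          rw [Set.mem_singleton_iff] at hh
          subst hh
          change g * x₁ * g⁻¹ * (g * x₂ * g⁻¹) = g * x₂ * g⁻¹ * (g * x₁ * g⁻¹)
          have e1 : g * x₁ * g⁻¹ * (g * x₂ * g⁻¹) = g * (x₁ * x₂) * g⁻¹ := by group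
          have e2 : g * x₂ * g⁻¹ * (g * x₁ * g⁻¹) = g * (x₂ * x₁) * g⁻¹ := by group
          rw [e1, e2, hcomm.eq]
        refine ⟨⟨g * x₁ * g⁻¹, huP⟩, g * x₂ * g⁻¹, hvC, ?_, ?_⟩
        · apply Nat.dvd_gcd
          · exact orderOf_dvd_natCard _
          · apply orderOf_dvd_of_pow_eq_one
            apply Subtype.ext
            change (g * x₂ * g⁻¹) ^ m₁ = 1
            rw [conj_pow, hx₂m]
            group
        · rw [ConjClasses.mk_eq_mk_iff_isConj, isConj_iff]
          refine ⟨g, ?_⟩
          change g * x * g⁻¹ = g * x₁ * g⁻¹ * (g * x₂ * g⁻¹)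
          rw [hx12]
          group
      choose fu fv hfv hfo hfC using hex
      have hmemCu : ∀ (u : (P : Subgroup G))
          (C : {C : ConjClasses G // ∀ g : G, ConjClasses.mk g = C → orderOf g ∣ m})
          (_ : fu C = u), fv C ∈ Cu u := by
        intro u C hCu
        subst hCu
        exact hfv C
      have hfo' : ∀ (u : (P : Subgroup G))
          (C : {C : ConjClasses G // ∀ g : G, ConjClasses.mk g = C → orderOf g ∣ m})
          (hCu : fu C = u), ∀ v' : Cu u,
          ConjClasses.mk v' = ConjClasses.mk (⟨fv C, hmemCu u C hCu⟩ : Cu u) → orderOf v' ∣ mu u := by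
        intro u C hCu
        subst hCu
        intro v' hv'
        rw [ConjClasses.mk_eq_mk_iff_isConj, isConj_iff] at hv'
        obtain ⟨c, hc⟩ := hv'
        have h1 : orderOf (c * v' * c⁻¹) = orderOf v' := (MulAut.conj c).orderOf_eq v'
        rw [← h1, hc]
        exact hfo C
      have hfiber : ∀ u : (P : Subgroup G),
          Nat.card {C : {C : ConjClasses G // ∀ g : G, ConjClasses.mk g = C → orderOf g ∣ m} //
            fu C = u} ≤
          Nat.card {D : ConjClasses (Cu u) //
            ∀ v : Cu u, ConjClasses.mk v = D → orderOf v ∣ mu u} := by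
        intro u
        apply Nat.card_le_card_of_injective
          (fun C : {C : {C : ConjClasses G // ∀ g : G, ConjClasses.mk g = C → orderOf g ∣ m} //
              fu C = u} =>
            (⟨ConjClasses.mk (⟨fv C.1, hmemCu u C.1 C.2⟩ : Cu u), hfo' u C.1 C.2⟩ :
              {D : ConjClasses (Cu u) // ∀ v : Cu u, ConjClasses.mk v = D → orderOf v ∣ mu u}))
        rintro ⟨C, hCu⟩ ⟨C', hCu'⟩ h
        have h1 : ConjClasses.mk (⟨fv C, hmemCu u C hCu⟩ : Cu u) =
            ConjClasses.mk (⟨fv C', hmemCu u C' hCu'⟩ : Cu u) := congrArg Subtype.val h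
        rw [ConjClasses.mk_eq_mk_iff_isConj, isConj_iff] at h1
        obtain ⟨c, hc⟩ := h1
        have hc' : (c : G) * fv C * (c : G)⁻¹ = fv C' := congrArg Subtype.val hc
        have hcu : (u : G) * (c : G) = (c : G) * (u : G) := by
          have := c.2
          rw [Subgroup.mem_centralizer_iff] at this
          exact this (u : G) rfl
        apply Subtype.ext
        apply Subtype.ext
        rw [hfC C, hfC C', hCu, hCu', ConjClasses.mk_eq_mk_iff_isConj, isConj_iff]
        refine ⟨(c : G), ?_⟩
        rw [← hc']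
        calc (c : G) * ((u : G) * fv C) * (c : G)⁻¹
            = ((c : G) * (u : G)) * fv C * (c : G)⁻¹ := by group
          _ = ((u : G) * (c : G)) * fv C * (c : G)⁻¹ := by rw [hcu]
          _ = (u : G) * ((c : G) * fv C * (c : G)⁻¹) := by group
      have : Fintype (P : Subgroup G) := Fintype.ofFinite _
      have hsum : Nat.card {C : ConjClasses G // ∀ g : G, ConjClasses.mk g = C → orderOf g ∣ m} =
          ∑ u : (P : Subgroup G),
            Nat.card {C : {C : ConjClasses G // ∀ g : G, ConjClasses.mk g = C → orderOf g ∣ m} //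
              fu C = u} := by
        rw [← Nat.card_sigma]
        exact (Nat.card_congr (Equiv.sigmaFiberEquiv fu)).symm
      rw [hsum]
      calc ∑ u : (P : Subgroup G),
            Nat.card {C : {C : ConjClasses G // ∀ g : G, ConjClasses.mk g = C → orderOf g ∣ m} //
              fu C = u}
          ≤ ∑ _u : (P : Subgroup G), m₁ :=
            Finset.sum_le_sum (fun u _ => (hfiber u).trans ((hIH u).trans (hmu_le u)))
        _ = Nat.card (P : Subgroup G) * m₁ := by
            rw [Finset.sum_const, Finset.card_univ, smul_eq_mul, ← Nat.card_eq_fintype_card]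
        _ ≤ p ^ e * m₁ := Nat.mul_le_mul_right _ hPcard
        _ = m := hm_eq.symm

theorem result {G : Type*} [Group G] [Finite G]
    (π : Set ℕ) (hπ : ∀ q ∈ π, q.Prime)
    (m : ℕ) (hm : m ∣ Nat.card G) (hmπ : ∀ q : ℕ, q.Prime → q ∣ m → q ∈ π)
    (hm' : ∀ q ∈ π, ¬ q ∣ Nat.card G / m) :
    Nat.card {C : ConjClasses G // ∀ q : ℕ, q.Prime → (∃ g : G, ConjClasses.mk g = C ∧ q ∣ orderOf g) → q ∈ π} ≤ m := by
  have hcard : Nat.card G = m * (Nat.card G / m) := (Nat.mul_div_cancel' hm).symm
  have hcop : m.Coprime (Nat.card G / m) := by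
    apply Nat.coprime_of_dvd
    intro k hk hkm hkn
    exact hm' k (hmπ k hk hkm) hkn
  refine le_trans ?_ (key m G (Nat.card G / m) hcard hcop)
  apply Nat.card_le_card_of_injective
    (fun C : {C : ConjClasses G // ∀ q : ℕ, q.Prime →
        (∃ g : G, ConjClasses.mk g = C ∧ q ∣ orderOf g) → q ∈ π} =>
      (⟨C.1, by
        intro g hg
        have h1 : orderOf g ∣ m * (Nat.card G / m) := by
          rw [← hcard]
          exact orderOf_dvd_natCard g
        have h2 : (orderOf g).Coprime (Nat.card G / m) := by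
          apply Nat.coprime_of_dvd
          intro k hk hko hkn
          exact hm' k (C.2 k hk ⟨g, hg, hko⟩) hkn
        exact h2.dvd_of_dvd_mul_right h1⟩ :
        {C : ConjClasses G // ∀ g : G, ConjClasses.mk g = C → orderOf g ∣ m}))
  intro C C' h
  apply Subtype.ext
  have := congrArg Subtype.val h
  exact this

end Cfsg.Agent.S4106
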