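import Mathlib
import Cfsg.Statements.S4107
import Cfsg.Agent.Lib.Lead.Cores

set_option autoImplicit false
open Cfsg

namespace Cfsg.Agent.S4107

open Cfsg.Agent.Lib.Lead.Cores

theorem key {G : Type*} [Group G] [Finite G] (N : Subgroup G) [N.Normal]
    (heq : ∀ x : G, x ∉ N → ∀ n ∈ N, orderOf (x * n) = orderOf x)
    (p : ℕ) [Fact p.Prime] (x : G) (hx : x ∈ Cfsg.pCore p G) (hxN : x ∉ N) : IsPGroup p N := by
  have hOn : (Cfsg.pCore p G).Normal := pCore_normal p
  have hOp : IsPGroup p (Cfsg.pCore p G) := pCore_isPGroup p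
  obtain ⟨k, hk⟩ := hOp ⟨x, hx⟩
  have hxk : x ^ (p ^ k) = 1 := by
    have := congrArg Subtype.val hk
    simpa using this
  rintro ⟨u, hu⟩
  have hxu : (x * u) ^ (p ^ k) = 1 := by
    rw [← orderOf_dvd_iff_pow_eq_one, heq x hxN u hu, orderOf_dvd_iff_pow_eq_one]
    exact hxk
  set D : Subgroup G := Cfsg.pCore p G ⊓ N with hD
  have hDn : D.Normal := inferInstance
  have hcomm : Commute (QuotientGroup.mk x : G ⧸ D) (QuotientGroup.mk u : G ⧸ D) := by
    show (QuotientGroup.mk x : G ⧸ D) * (QuotientGroup.mk u : G ⧸ D) = (QuotientGroup.mk u : G ⧸ D) * (QuotientGroup.mk x : G ⧸ D)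
    rw [← QuotientGroup.mk_mul, ← QuotientGroup.mk_mul, QuotientGroup.eq]
    constructor
    · have e : (x * u)⁻¹ * (u * x) = (u⁻¹ * x⁻¹ * u⁻¹⁻¹) * x := by group
      rw [e]
      exact (Cfsg.pCore p G).mul_mem (hOn.conj_mem _ ((Cfsg.pCore p G).inv_mem hx) _) hx
    · have e : (x * u)⁻¹ * (u * x) = u⁻¹ * (x⁻¹ * u * x⁻¹⁻¹) := by group
      rw [e]
      exact N.mul_mem (N.inv_mem hu) (Subgroup.Normal.conj_mem inferInstance _ hu _)
  have h1 : ((QuotientGroup.mk x : G ⧸ D) * (QuotientGroup.mk u : G ⧸ D)) ^ (p ^ k) = 1 := by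
    rw [← QuotientGroup.mk_mul, ← QuotientGroup.mk_pow, hxu]; rfl
  rw [hcomm.mul_pow, ← QuotientGroup.mk_pow, hxk, ← QuotientGroup.mk_pow] at h1
  have h2 : (QuotientGroup.mk (u ^ p ^ k) : G ⧸ D) = 1 := by
    rw [← h1]
    exact (one_mul _).symm
  rw [QuotientGroup.eq_one_iff] at h2
  obtain ⟨j, hj⟩ := hOp ⟨u ^ p ^ k, h2.1⟩
  have hj' : (u ^ p ^ k) ^ p ^ j = 1 := by
    have := congrArg Subtype.val hj
    simpa using this
  refine ⟨k + j, ?_⟩
  apply Subtype.ext
  rw [Subgroup.coe_pow, Subgroup.coe_one, pow_add, pow_mul]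
  exact hj'

theorem exists_prime {G : Type*} [Group G] [Finite G] (N : Subgroup G)
    (h : ¬ Cfsg.fittingSubgroup G ≤ N) : ∃ p : Nat.Primes, ∃ x : G, x ∈ Cfsg.pCore (p : ℕ) G ∧ x ∉ N := by
  by_contra hcon
  push Not at hcon
  apply h
  rw [fittingSubgroup_eq_iSup_pCore]
  exact iSup_le (fun p x hx => hcon p x hx)

theorem result {G : Type*} [Group G] [Finite G] (N : Subgroup G) [N.Normal] (hN1 : N ≠ ⊥) (hN2 : N ≠ ⊤)
    (heq : ∀ x : G, x ∉ N → ∀ n ∈ N, orderOf (x * n) = orderOf x) :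
    (N ≤ Cfsg.fittingSubgroup G ∨ Cfsg.fittingSubgroup G ≤ N) ∧
    (N < Cfsg.fittingSubgroup G → IsPrimePow (Nat.card (Cfsg.fittingSubgroup G))) := by
  constructor
  · by_cases h : Cfsg.fittingSubgroup G ≤ N
    · right; exact h
    · left
      obtain ⟨p, x, hx, hxN⟩ := exists_prime N h
      have : Fact (p : ℕ).Prime := ⟨p.2⟩
      have hNp := key N heq p x hx hxN
      exact (le_pCore inferInstance hNp).trans (pCore_le_fittingSubgroup (p : ℕ))
  · intro hlt
    have h : ¬ Cfsg.fittingSubgroup G ≤ N := not_le_of_gt hlt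
    obtain ⟨p, x, hx, hxN⟩ := exists_prime N h
    have hpf : Fact (p : ℕ).Prime := ⟨p.2⟩
    have hNp := key N heq p x hx hxN
    obtain ⟨a, ha⟩ := hNp.exists_card_eq
    have ha0 : a ≠ 0 := by
      intro h0
      rw [h0, pow_zero, Subgroup.card_eq_one] at ha
      exact hN1 ha
    have hFle : Cfsg.fittingSubgroup G ≤ Cfsg.pCore (p : ℕ) G := by
      rw [fittingSubgroup_eq_iSup_pCore]
      apply iSup_le
      intro q
      by_cases hqp : q = p
      · rw [hqp]
      · have hqf : Fact (q : ℕ).Prime := ⟨q.2⟩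
        have hqN : Cfsg.pCore (q : ℕ) G ≤ N := by
          by_contra hcon
          rw [SetLike.not_le_iff_exists] at hcon
          obtain ⟨y, hy, hyN⟩ := hcon
          have hNq := key N heq q y hy hyN
          obtain ⟨b, hb⟩ := hNq.exists_card_eq
          rw [ha] at hb
          have hdvd : (p : ℕ) ∣ (q : ℕ) ^ b := by
            rw [← hb]; exact dvd_pow_self _ ha0
          have := (Nat.prime_dvd_prime_iff_eq p.2 q.2).mp (p.2.dvd_of_dvd_pow hdvd)
          exact hqp (Subtype.ext this.symm)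
        have hOq : IsPGroup (q : ℕ) (Cfsg.pCore (q : ℕ) G) := pCore_isPGroup (q : ℕ)
        obtain ⟨b, hb⟩ := hOq.exists_card_eq
        have hdvd : (q : ℕ) ^ b ∣ (p : ℕ) ^ a := by
          rw [← hb, ← ha]; exact Subgroup.card_dvd_of_le hqN
        have hb0 : b = 0 := by
          by_contra hb0
          have h1 : (q : ℕ) ∣ (p : ℕ) ^ a := (dvd_pow_self _ hb0).trans hdvd
          have := (Nat.prime_dvd_prime_iff_eq q.2 p.2).mp (q.2.dvd_of_dvd_pow h1)
          exact hqp (Subtype.ext this)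
        rw [hb0, pow_zero, Subgroup.card_eq_one] at hb
        rw [hb]
        exact bot_le
    have hFp : IsPGroup (p : ℕ) (Cfsg.fittingSubgroup G) :=
      (pCore_isPGroup (p : ℕ)).to_le hFle
    obtain ⟨n, hn⟩ := hFp.exists_card_eq
    have hn0 : n ≠ 0 := by
      intro h0
      rw [h0, pow_zero, Subgroup.card_eq_one] at hn
      rw [hn] at hlt
      exact not_lt_bot hlt
    rw [hn, isPrimePow_nat_iff]
    exact ⟨p, n, p.2, Nat.pos_of_ne_zero hn0, rfl⟩

end Cfsg.Agent.S4107
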