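import Mathlib
import Cfsg.Statements.S4108

set_option autoImplicit false
open Cfsg

namespace Cfsg.Agent.S4108

open scoped Pointwise

theorem mem_conj_sub {G : Type*} [Group G] (L H : Subgroup G) (g x : L) :
    x ∈ MulAut.conj g • H.subgroupOf L ↔ (g : G)⁻¹ * (x : G) * (g : G) ∈ H := by
  rw [Subgroup.mem_pointwise_smul_iff_inv_smul_mem]
  have e : (MulAut.conj g)⁻¹ • x = g⁻¹ * x * g := by
    rw [← map_inv, MulAut.smul_def, MulAut.conj_apply, inv_inv]
  rw [e, Subgroup.mem_subgroupOf]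
  push_cast
  rfl

theorem result {G : Type*} [Group G] [Finite G] (N : Subgroup G) [N.Normal] (hN1 : N ≠ ⊥) (hN2 : N ≠ ⊤)
    (heq : ∀ x : G, x ∉ N → ∀ n ∈ N, orderOf (x * n) = orderOf x)
    (p : ℕ) [Fact p.Prime] (hNp : IsPGroup p N) :
    ∀ H : Subgroup G, H ≠ ⊥ → (Nat.card H).Coprime p →
      Cfsg.IsFrobeniusComplement (H.subgroupOf (N ⊔ H)) ∧ Cfsg.frobeniusKernel (H.subgroupOf (N ⊔ H)) = (N.subgroupOf (N ⊔ H) : Set ↥(N ⊔ H)) := by
  intro H hH hcop
  have hNn : N.Normal := inferInstance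
  have hordN : ∀ n ∈ N, ∃ k : ℕ, orderOf n ∣ p ^ k := by
    intro n hn
    obtain ⟨k, hk⟩ := hNp ⟨n, hn⟩
    refine ⟨k, ?_⟩
    apply orderOf_dvd_of_pow_eq_one
    have := congrArg Subtype.val hk
    exact this
  have hordH : ∀ h ∈ H, orderOf h ∣ Nat.card H := fun h hh => Subgroup.orderOf_dvd_natCard H hh
  have hB : ∀ x, x ∈ N → x ∈ H → x = 1 := by
    intro x hxN hxH
    obtain ⟨k, hk⟩ := hordN x hxN
    have hc : (Nat.card H).Coprime (p ^ k) := Nat.Coprime.pow_right k hcop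
    have := Nat.eq_one_of_dvd_coprimes hc (hordH x hxH) hk
    exact orderOf_eq_one_iff.mp this
  have hA : ∀ h ∈ H, h ≠ 1 → ∀ n ∈ N, n * h = h * n → n = 1 := by
    intro h hh hh1 n hn hcomm
    have hhN : h ∉ N := fun hhN => hh1 (hB h hhN hh)
    have h1 := heq h hhN n hn
    obtain ⟨k, hk⟩ := hordN n hn
    have hc : (orderOf h).Coprime (orderOf n) :=
      Nat.Coprime.coprime_dvd_left (hordH h hh)
        (Nat.Coprime.coprime_dvd_right hk (Nat.Coprime.pow_right k hcop))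
    have hcm : Commute h n := hcomm.symm
    rw [hcm.orderOf_mul_eq_mul_orderOf_of_coprime hc] at h1
    have hpos : 0 < orderOf h := orderOf_pos h
    have h2 : orderOf n = 1 := by
      have : orderOf h * orderOf n = orderOf h * 1 := by rw [h1, mul_one]
      exact Nat.eq_of_mul_eq_mul_left hpos this
    exact orderOf_eq_one_iff.mp h2
  have hC : ∀ x ∈ N ⊔ H, ∃ n ∈ N, ∃ h ∈ H, x = n * h := by
    intro x hx
    rw [Subgroup.mem_sup_of_normal_left] at hx
    obtain ⟨n, hn, h, hh, rfl⟩ := hx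
    exact ⟨n, hn, h, hh, rfl⟩
  have hDD : ∀ n ∈ N, ∀ x ∈ H, ∀ k ∈ H, x = n * k * n⁻¹ → x ≠ 1 → n = 1 := by
    intro n hn x hx k hk hxk hx1
    have h1 : x * k⁻¹ ∈ N := by
      have h2 := hNn.conj_mem _ (N.inv_mem hn) k
      have e : x * k⁻¹ = n * (k * n⁻¹ * k⁻¹) := by rw [hxk]; group
      rw [e]
      exact N.mul_mem hn h2
    have h2 : x * k⁻¹ ∈ H := H.mul_mem hx (H.inv_mem hk)
    have h3 := hB _ h1 h2
    have h4 : x = k := mul_inv_eq_one.mp h3
    rw [← h4] at hxk
    apply hA x hx hx1 n hn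
    have e : n * x = (n * x * n⁻¹) * n := by group
    rw [e, ← hxk]
  have hE : ∀ n ∈ N, ∀ h ∈ H, h ≠ 1 → ∃ m ∈ N, m * h * m⁻¹ = n * h := by
    intro n hn h hh hh1
    let f : N → N := fun m => ⟨(m : G) * h * (m : G)⁻¹ * h⁻¹, by
      have h2 := hNn.conj_mem _ (N.inv_mem m.2) h
      have e : (m : G) * h * (m : G)⁻¹ * h⁻¹ = (m : G) * (h * (m : G)⁻¹ * h⁻¹) := by group
      rw [e]
      exact N.mul_mem m.2 h2⟩
    have hf : Function.Injective f := by
      intro m m' hmm
      have h1 : (m : G) * h * (m : G)⁻¹ * h⁻¹ = (m' : G) * h * (m' : G)⁻¹ * h⁻¹ :=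
        congrArg Subtype.val hmm
      have h2 : (m : G) * h * (m : G)⁻¹ = (m' : G) * h * (m' : G)⁻¹ := mul_right_cancel h1
      have h3 : ((m' : G)⁻¹ * (m : G)) * h = h * ((m' : G)⁻¹ * (m : G)) := by
        calc ((m' : G)⁻¹ * (m : G)) * h = (m' : G)⁻¹ * ((m : G) * h * (m : G)⁻¹) * (m : G) := by group
          _ = (m' : G)⁻¹ * ((m' : G) * h * (m' : G)⁻¹) * (m : G) := by rw [h2]
          _ = h * ((m' : G)⁻¹ * (m : G)) := by group
      have h4 := hA h hh hh1 _ (N.mul_mem (N.inv_mem m'.2) m.2) h3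
      apply Subtype.ext
      have h5 : (m : G) = (m' : G) * ((m' : G)⁻¹ * (m : G)) := by group
      rw [h5, h4, mul_one]
    have hsurj : Function.Surjective f := Finite.injective_iff_surjective.mp hf
    obtain ⟨m, hm⟩ := hsurj ⟨n, hn⟩
    have h1 : (m : G) * h * (m : G)⁻¹ * h⁻¹ = n := congrArg Subtype.val hm
    refine ⟨m, m.2, ?_⟩
    rw [← h1]
    group
  refine ⟨⟨?_, ?_, ?_⟩, ?_⟩
  · intro hbot
    apply hH
    rw [eq_bot_iff]
    intro h hh
    have hmem : (⟨h, Subgroup.mem_sup_right hh⟩ : ↥(N ⊔ H)) ∈ H.subgroupOf (N ⊔ H) := by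
      rw [Subgroup.mem_subgroupOf]
      exact hh
    rw [hbot, Subgroup.mem_bot] at hmem
    rw [Subgroup.mem_bot]
    exact congrArg Subtype.val hmem
  · intro htop
    rw [Subgroup.subgroupOf_eq_top] at htop
    apply hN1
    rw [eq_bot_iff]
    intro n hn
    rw [Subgroup.mem_bot]
    exact hB n hn (htop (Subgroup.mem_sup_left hn))
  · intro g hg
    rw [eq_bot_iff]
    intro x hx
    obtain ⟨hx1, hx2⟩ := Subgroup.mem_inf.mp hx
    rw [mem_conj_sub] at hx2
    rw [Subgroup.mem_subgroupOf] at hx1 hg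
    rw [Subgroup.mem_bot]
    by_contra hne
    have hne' : (x : G) ≠ 1 := fun h => hne (Subtype.ext h)
    obtain ⟨n, hn, h, hh, hgnh⟩ := hC (g : G) g.2
    have hk : h * ((g : G)⁻¹ * (x : G) * (g : G)) * h⁻¹ ∈ H :=
      H.mul_mem (H.mul_mem hh hx2) (H.inv_mem hh)
    have hxe : (x : G) = n * (h * ((g : G)⁻¹ * (x : G) * (g : G)) * h⁻¹) * n⁻¹ := by
      rw [hgnh]
      group
    have hn1 := hDD n hn (x : G) hx1 _ hk hxe hne'
    apply hg
    rw [hgnh, hn1, one_mul]
    exact hh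
  · ext x
    simp only [Cfsg.frobeniusKernel, Set.mem_ofPred_eq, SetLike.mem_coe, Subgroup.mem_subgroupOf]
    constructor
    · rintro (h | h)
      · rw [h]
        exact N.one_mem
      · obtain ⟨n, hn, k, hk, hxnk⟩ := hC (x : G) x.2
        by_cases hk1 : k = 1
        · rw [hxnk, hk1, mul_one]
          exact hn
        · exfalso
          obtain ⟨m, hm, hmk⟩ := hE n hn k hk hk1
          apply h ⟨m, Subgroup.mem_sup_left hm⟩
          rw [mem_conj_sub]
          have e : m⁻¹ * (x : G) * m = k := by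
            rw [hxnk, ← hmk]
            group
          change m⁻¹ * (x : G) * m ∈ H
          rw [e]
          exact hk
    · intro hxN
      by_cases hx1 : x = 1
      · exact Or.inl hx1
      · right
        intro g hg
        rw [mem_conj_sub] at hg
        have h1 : (g : G)⁻¹ * (x : G) * (g : G) ∈ N := by
          have := hNn.conj_mem _ hxN (g : G)⁻¹
          rw [inv_inv] at this
          exact this
        have h2 := hB _ h1 hg
        apply hx1
        apply Subtype.ext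
        have e : (x : G) = (g : G) * ((g : G)⁻¹ * (x : G) * (g : G)) * (g : G)⁻¹ := by group
        rw [e, h2]
        simp

end Cfsg.Agent.S4108
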