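import Mathlib
import Cfsg.Statements.S4112

set_option autoImplicit false
open Cfsg

namespace Cfsg.Agent.S4112

universe u

@[reducible] def conjAction {G : Type u} [Group G] (M R : Subgroup G) [hM : M.Normal] :
    MulAction R M where
  smul y x := ⟨(y : G) * x * (y : G)⁻¹, hM.conj_mem x x.2 y⟩
  one_smul x := Subtype.ext (by
    show ((1 : R) : G) * x * ((1 : R) : G)⁻¹ = x
    simp)
  mul_smul a b x := Subtype.ext (by
    show ((a * b : R) : G) * x * ((a * b : R) : G)⁻¹ =
      (a : G) * ((b : G) * x * (b : G)⁻¹) * (a : G)⁻¹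
    simp [mul_assoc])

theorem one_to_two {G : Type u} [Group G] [Finite G] (N M : Subgroup G) [N.Normal]
    [hM : M.Normal]
    (h1 : ∀ x ∈ M, x ≠ 1 → Subgroup.centralizer ({x} : Set G) ≤ N) :
    N.index.Coprime (Nat.card M) := by
  by_contra hnc
  obtain ⟨p, hp, hpN, hpM⟩ := Nat.Prime.not_coprime_iff_dvd.mp hnc
  have : Fact p.Prime := ⟨hp⟩
  obtain ⟨S⟩ : Nonempty (Sylow p G) := inferInstance
  let _ : MulAction (S : Subgroup G) M := conjAction M S
  obtain ⟨x, hx, hx1⟩ := S.isPGroup'.exists_fixed_point_of_prime_dvd_card_of_fixed_point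
    (α := M) hpM (a := 1) (by
      intro y
      apply Subtype.ext
      show (y : G) * ((1 : M) : G) * (y : G)⁻¹ = ((1 : M) : G)
      simp)
  have hx1' : (x : G) ≠ 1 := fun h => hx1 (Subtype.ext h).symm
  have hSN : (S : Subgroup G) ≤ N := by
    intro g hg
    apply h1 x x.2 hx1'
    rw [Subgroup.mem_centralizer_iff]
    intro y hy
    rw [Set.mem_singleton_iff] at hy
    subst hy
    have h3 := hx ⟨g, hg⟩
    have h4 : g * (x : G) * g⁻¹ = x := congrArg Subtype.val h3
    calc (x : G) * g = g * x * g⁻¹ * g := by rw [h4]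
      _ = g * x := by group
  have h5 : N.index ∣ (S : Subgroup G).index := Subgroup.index_dvd_of_le hSN
  exact S.not_dvd_index (hpN.trans h5)

theorem two_to_one {G : Type u} [Group G] [Finite G] (N M : Subgroup G) [N.Normal] [M.Normal]
    (hcam : ∀ g : G, g ∉ N → ∀ m ∈ M, ∃ x : G, x * g * x⁻¹ = g * m)
    (h2 : N.index.Coprime (Nat.card M)) :
    ∀ x ∈ M, x ≠ 1 → Subgroup.centralizer ({x} : Set G) ≤ N := by
  intro x hxM hx1
  have key : ∀ n : ℕ, ∀ g : G, orderOf g = n → g ∈ Subgroup.centralizer ({x} : Set G) →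
      g ∈ N := by
    intro n
    induction n using Nat.strong_induction_on with
    | _ n ih =>
      intro g hgn hgC
      by_contra hgN
      have hcomm : Commute g x :=
        (Subgroup.mem_centralizer_iff.mp hgC x (Set.mem_singleton x)).symm
      by_cases hcop : (orderOf g).Coprime (Nat.card M)
      · obtain ⟨y, hy⟩ := hcam g hgN x hxM
        have ho : orderOf (g * x) = orderOf g := by
          rw [← hy]
          exact (MulAut.conj y).orderOf_eq g
        have hox : (orderOf g).Coprime (orderOf x) :=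
          Nat.Coprime.coprime_dvd_right (Subgroup.orderOf_dvd_natCard M hxM) hcop
        rw [hcomm.orderOf_mul_eq_mul_orderOf_of_coprime hox] at ho
        have hpos : 0 < orderOf g := orderOf_pos g
        have h3 : orderOf x = 1 := Nat.eq_of_mul_eq_mul_left hpos (ho.trans (mul_one _).symm)
        exact hx1 (orderOf_eq_one_iff.mp h3)
      · obtain ⟨q, hq, hqg, hqM⟩ := Nat.Prime.not_coprime_iff_dvd.mp hcop
        have hlt : orderOf (g ^ q) < n := by
          rw [orderOf_pow_of_dvd hq.ne_zero hqg, ← hgn]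
          exact Nat.div_lt_self (orderOf_pos g) hq.one_lt
        have hgq : g ^ q ∈ N := ih _ hlt (g ^ q) rfl (Subgroup.pow_mem _ hgC q)
        have h3 : orderOf (QuotientGroup.mk g : G ⧸ N) ∣ q := by
          apply orderOf_dvd_of_pow_eq_one
          rw [← QuotientGroup.mk_pow, QuotientGroup.eq_one_iff]; exact hgq
        have h4 : orderOf (QuotientGroup.mk g : G ⧸ N) ∣ N.index := by
          rw [Subgroup.index_eq_card]; exact orderOf_dvd_natCard _
        have h5 : q.Coprime N.index := (Nat.Coprime.coprime_dvd_right hqM h2).symm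
        have h6 : orderOf (QuotientGroup.mk g : G ⧸ N) = 1 := Nat.eq_one_of_dvd_coprimes h5 h3 h4
        rw [orderOf_eq_one_iff, QuotientGroup.eq_one_iff] at h6
        exact hgN h6
  intro g hg
  exact key _ g rfl hg

theorem two_to_three {G : Type u} [Group G] [Finite G] (N M : Subgroup G) [hN : N.Normal]
    [M.Normal] (hMN : M ≤ N) (h2 : N.index.Coprime (Nat.card M)) :
    ∃ H : Subgroup G, H ⊔ N = ⊤ ∧ H ⊓ M = ⊥ := by
  obtain ⟨H, -, hH⟩ := Finite.exists_le_minimal (p := fun L : Subgroup G => L ⊔ N = ⊤)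
    (a := ⊤) (top_sup_eq N)
  have hHN : H ⊔ N = ⊤ := hH.prop
  refine ⟨H, hHN, ?_⟩
  have hminH : ∀ K' : Subgroup H, K' ⊔ N.subgroupOf H = ⊤ → K' = ⊤ := by
    intro K' hK'
    have h1 : K'.map H.subtype ⊔ N = ⊤ := by
      have h2 : (K' ⊔ N.subgroupOf H).map H.subtype = H := by
        rw [hK', ← MonoidHom.range_eq_map, Subgroup.range_subtype]
      rw [Subgroup.map_sup, Subgroup.subgroupOf_map_subtype] at h2
      have h3 : H ≤ K'.map H.subtype ⊔ N := by
        calc H = K'.map H.subtype ⊔ N ⊓ H := h2.symm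
          _ ≤ K'.map H.subtype ⊔ N := sup_le_sup_left inf_le_left _
      rw [eq_top_iff, ← hHN]
      exact sup_le h3 le_sup_right
    have h4 : H ≤ K'.map H.subtype := hH.le_of_le h1 (Subgroup.map_subtype_le K')
    rw [eq_top_iff]
    intro y _
    obtain ⟨z, hz, hzy⟩ := h4 y.2
    have : z = y := Subtype.ext hzy
    rwa [← this]
  by_contra hne
  have hcard : Nat.card (H ⊓ M : Subgroup G) ≠ 1 := fun h => hne (Subgroup.card_eq_one.mp h)
  obtain ⟨p, hp, hpd⟩ := Nat.exists_prime_and_dvd hcard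
  have : Fact p.Prime := ⟨hp⟩
  have hpM : p ∣ Nat.card M := hpd.trans (Subgroup.card_dvd_of_le inf_le_right)
  have hDidx : (N.subgroupOf H).index = N.index := by
    show N.relIndex H = N.index
    rw [← Subgroup.relIndex_sup_left, sup_comm, hHN, Subgroup.relIndex_top_right]
  have hpD : p ∣ Nat.card (N.subgroupOf H) := by
    have h1 : Nat.card (N.subgroupOf H) = Nat.card (N ⊓ H : Subgroup G) := by
      rw [← Subgroup.subgroupOf_map_subtype,
        Subgroup.card_map_of_injective H.subtype_injective]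
    rw [h1, inf_comm]
    exact hpd.trans (Subgroup.card_dvd_of_le (inf_le_inf_left H hMN))
  obtain ⟨P⟩ : Nonempty (Sylow p (N.subgroupOf H)) := inferInstance
  have hfrat := Sylow.normalizer_sup_eq_top P
  have hPn : ((P : Subgroup (N.subgroupOf H)).map (N.subgroupOf H).subtype).Normal := by
    rw [← Subgroup.normalizer_eq_top_iff]; exact hminH _ hfrat
  have hP'card : Nat.card ((P : Subgroup (N.subgroupOf H)).map (N.subgroupOf H).subtype) =
      Nat.card P := Subgroup.card_map_of_injective (N.subgroupOf H).subtype_injective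
  have hP'le : (P : Subgroup (N.subgroupOf H)).map (N.subgroupOf H).subtype ≤ N.subgroupOf H :=
    Subgroup.map_subtype_le _
  have hP'idx : ((P : Subgroup (N.subgroupOf H)).map (N.subgroupOf H).subtype).index =
      (P : Subgroup (N.subgroupOf H)).index * (N.subgroupOf H).index :=
    Subgroup.index_map_subtype _
  have hcop : (Nat.card ((P : Subgroup (N.subgroupOf H)).map (N.subgroupOf H).subtype)).Coprime
      ((P : Subgroup (N.subgroupOf H)).map (N.subgroupOf H).subtype).index := by
    obtain ⟨k, hk⟩ := P.isPGroup'.exists_card_eq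
    rw [hP'card, hk, hP'idx]
    apply Nat.Coprime.pow_left
    rw [Nat.Prime.coprime_iff_not_dvd hp]
    intro hdvd
    rcases (Nat.Prime.dvd_mul hp).mp hdvd with h | h
    · exact P.not_dvd_index h
    · rw [hDidx] at h
      exact Nat.Prime.not_coprime_iff_dvd.mpr ⟨p, hp, h, hpM⟩ h2
  obtain ⟨K', hK'⟩ := Subgroup.exists_right_complement'_of_coprime hcop
  have hsup := hK'.sup_eq_top
  have hK'top : K' = ⊤ := by
    apply hminH
    rw [eq_top_iff, ← hsup]
    exact sup_le (hP'le.trans le_sup_right) le_sup_left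
  have hP'bot : Nat.card ((P : Subgroup (N.subgroupOf H)).map (N.subgroupOf H).subtype) = 1 := by
    have h3 := hK'.card_mul_card
    rw [hK'top, Subgroup.card_top] at h3
    have hpos : 0 < Nat.card H := Nat.card_pos
    exact Nat.eq_of_mul_eq_mul_right hpos (h3.trans (one_mul _).symm)
  have h7 : p ∣ Nat.card P := P.dvd_card_of_dvd_card hpD
  rw [← hP'card, hP'bot] at h7
  exact hp.one_lt.ne' (Nat.dvd_one.mp h7)

theorem result {G : Type*} [Group G] [Finite G] (N M : Subgroup G) [N.Normal] [M.Normal] (hMN : M ≤ N) (hM1 : M ≠ ⊥) (hN2 : N ≠ ⊤)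
    (hcam : ∀ g : G, g ∉ N → ∀ m ∈ M, ∃ x : G, x * g * x⁻¹ = g * m) :
    ((∀ x ∈ M, x ≠ 1 → Subgroup.centralizer ({x} : Set G) ≤ N) ↔ N.index.Coprime (Nat.card M)) ∧
    ((∀ x ∈ M, x ≠ 1 → Subgroup.centralizer ({x} : Set G) ≤ N) → ∃ H : Subgroup G, H ⊔ N = ⊤ ∧ H ⊓ M = ⊥) :=
  ⟨⟨one_to_two N M, two_to_one N M hcam⟩,
    fun h => two_to_three N M hMN (one_to_two N M h)⟩

end Cfsg.Agent.S4112
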