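import Mathlib
import Cfsg.Statements.S4116

set_option autoImplicit false
open Cfsg

namespace Cfsg.Agent.S4116

theorem arith {Ω : Type*} [Fintype Ω] [Nonempty Ω] (k : ℕ) (idx : Ω → ℕ) (hdvd : ∀ ω, idx ω ∣ k)
    (hk : 0 < k) (hsum : ∑ ω, idx ω + k = Fintype.card Ω * k + 1) : ∃ ω, idx ω = 1 := by
  classical
  by_contra hcon
  push Not at hcon
  have hpos : ∀ ω, 0 < idx ω := fun ω => Nat.pos_of_dvd_of_pos (hdvd ω) hk
  have h2 : ∀ ω, 2 ≤ idx ω := fun ω => by
    have := hpos ω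
    have := hcon ω
    omega
  have hle : ∀ ω, idx ω ≤ k := fun ω => Nat.le_of_dvd hk (hdvd ω)
  have hhalf : ∀ ω, idx ω < k → 2 * idx ω ≤ k := by
    intro ω hlt
    obtain ⟨c, hc⟩ := hdvd ω
    have hc2 : 2 ≤ c := by
      rcases Nat.lt_or_ge c 2 with h | h
      · interval_cases c
        · omega
        · omega
      · exact h
    rw [hc]
    nlinarith
  have hsumk : ∑ ω : Ω, (k - idx ω) + ∑ ω : Ω, idx ω = Fintype.card Ω * k := by
    rw [← Finset.sum_add_distrib, Finset.sum_congr rfl (fun ω _ => Nat.sub_add_cancel (hle ω)),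
      Finset.sum_const, Finset.card_univ, smul_eq_mul]
  have hne0 : ∑ ω : Ω, (k - idx ω) ≠ 0 := by
    intro h0
    have hk1 : k = 1 := by omega
    obtain ⟨ω⟩ := ‹Nonempty Ω›
    have := h2 ω
    have := hle ω
    omega
  obtain ⟨ω₀, -, hω₀⟩ := Finset.exists_ne_zero_of_sum_ne_zero hne0
  have h1 := Finset.add_sum_erase Finset.univ (fun ω => k - idx ω) (Finset.mem_univ ω₀)
  have hlt0 : idx ω₀ < k := by omega
  have hh0 := hhalf ω₀ hlt0
  have hne1 : ∑ ω ∈ Finset.univ.erase ω₀, (k - idx ω) ≠ 0 := by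
    have := h2 ω₀
    omega
  obtain ⟨ω₁, hω₁mem, hω₁⟩ := Finset.exists_ne_zero_of_sum_ne_zero hne1
  have hlt1 : idx ω₁ < k := by omega
  have hh1 := hhalf ω₁ hlt1
  have h3 : k - idx ω₁ ≤ ∑ ω ∈ Finset.univ.erase ω₀, (k - idx ω) :=
    Finset.single_le_sum (f := fun ω => k - idx ω) (fun _ _ => Nat.zero_le _) hω₁mem
  omega

theorem result {G : Type*} [Group G] [Finite G] (H : Subgroup G)
    (hHall : (Nat.card H).Coprime H.index) (hTI : Cfsg.IsTISubset (H : Set G))
    (K : Subgroup G) (hK : ∀ q : ℕ, q.Prime → q ∣ Nat.card K → q ∣ Nat.card H) :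
    ∃ g : G, K ≤ H.map (MulAut.conj g).toMonoidHom := by
  classical
  set Nn := Subgroup.normalizer (H : Set G) with hNn
  have hHN : H ≤ Nn := Subgroup.le_normalizer
  have hS : ∀ z : G, z ∈ Nn → (∀ q : ℕ, q.Prime → q ∣ orderOf z → q ∣ Nat.card H) → z ∈ H := by
    intro z hz hzπ
    have hcop : (orderOf z).Coprime H.index := by
      apply Nat.coprime_of_dvd
      intro q hq hqz hqi
      have := Nat.eq_one_of_dvd_coprimes hHall (hzπ q hq hqz) hqi
      exact hq.ne_one this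
    have hnorm : (H.subgroupOf Nn).Normal := Subgroup.normal_in_normalizer
    let z' : Nn := ⟨z, hz⟩
    have h1 : orderOf (QuotientGroup.mk z' : Nn ⧸ H.subgroupOf Nn) ∣ orderOf z := by
      apply orderOf_dvd_of_pow_eq_one
      rw [← QuotientGroup.mk_pow]
      have : z' ^ orderOf z = 1 := by
        apply Subtype.ext
        change z ^ orderOf z = 1
        exact pow_orderOf_eq_one z
      rw [this]
      rfl
    have h2 : orderOf (QuotientGroup.mk z' : Nn ⧸ H.subgroupOf Nn) ∣ H.index := by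
      have h3 : orderOf (QuotientGroup.mk z' : Nn ⧸ H.subgroupOf Nn) ∣
          Nat.card (Nn ⧸ H.subgroupOf Nn) := orderOf_dvd_natCard _
      rw [← Subgroup.index_eq_card] at h3
      exact h3.trans (Subgroup.relIndex_dvd_index_of_le hHN)
    have h4 := Nat.eq_one_of_dvd_coprimes hcop h1 h2
    rw [orderOf_eq_one_iff, QuotientGroup.eq_one_iff] at h4
    exact h4
  have hKπ : ∀ c ∈ K, ∀ g : G, ∀ q : ℕ, q.Prime → q ∣ orderOf (g⁻¹ * c * g) → q ∣ Nat.card H := by
    intro c hc g q hq hqo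
    apply hK q hq
    have e : orderOf (g⁻¹ * c * g) = orderOf c := by
      have := (MulAut.conj g⁻¹).orderOf_eq c
      rw [MulAut.conj_apply, inv_inv] at this
      exact this
    rw [e] at hqo
    exact hqo.trans (Subgroup.orderOf_dvd_natCard K hc)
  have hE : ∀ y ∈ K, y ≠ 1 → ∃ g : G, g⁻¹ * y * g ∈ H := by
    intro y hy hy1
    have ho : orderOf y ≠ 1 := fun h => hy1 (orderOf_eq_one_iff.mp h)
    obtain ⟨q, hq, hqy⟩ := Nat.exists_prime_and_dvd ho
    have : Fact q.Prime := ⟨hq⟩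
    set w := y ^ (orderOf y / q) with hw
    have hwo : orderOf w = q := orderOf_pow_orderOf_div (orderOf_pos y).ne' hqy
    have hqH : q ∣ Nat.card H := hK q hq (hqy.trans (Subgroup.orderOf_dvd_natCard K hy))
    have hqi : ¬ q ∣ H.index := by
      intro h
      exact hq.ne_one (Nat.eq_one_of_dvd_coprimes hHall hqH h)
    have hpg : IsPGroup q (Subgroup.zpowers w) := by
      rw [IsPGroup.iff_card, Nat.card_zpowers, hwo]
      exact ⟨1, (pow_one q).symm⟩
    have hfix := hpg.nonempty_fixed_point_of_prime_not_dvd_card (G ⧸ H)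
      (by rw [← Subgroup.index_eq_card]; exact hqi)
    obtain ⟨x, hx⟩ := hfix
    obtain ⟨g, rfl⟩ := QuotientGroup.mk_surjective x
    have hwg : g⁻¹ * w * g ∈ H := by
      have h1 := hx ⟨w, Subgroup.mem_zpowers w⟩
      have h2 : (QuotientGroup.mk (w * g) : G ⧸ H) = QuotientGroup.mk g := h1
      rw [QuotientGroup.eq] at h2
      have := H.inv_mem h2
      have e : ((w * g)⁻¹ * g)⁻¹ = g⁻¹ * w * g := by group
      rw [e] at this
      exact this
    refine ⟨g, ?_⟩
    apply hS _ _ (hKπ y hy g)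
    by_contra hnot
    have hcomm : y * w = w * y := by
      rw [hw]
      exact (Commute.pow_right (Commute.refl y) _).eq
    have h3 := hTI (g⁻¹ * y * g) hnot (g⁻¹ * w * g) hwg (by
      have e : g⁻¹ * y * g * (g⁻¹ * w * g) * (g⁻¹ * y * g)⁻¹ = g⁻¹ * (y * w * y⁻¹) * g := by group
      rw [e, hcomm]
      have e2 : g⁻¹ * (w * y * y⁻¹) * g = g⁻¹ * w * g := by group
      rw [e2]
      exact hwg)
    have hw1 : w = 1 := by
      have e : w = g * (g⁻¹ * w * g) * g⁻¹ := by group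
      rw [e, h3]
      group
    rw [hw1, orderOf_one] at hwo
    exact hq.ne_one hwo.symm
  have hsmul : ∀ (c : K) (g : G),
      c • (QuotientGroup.mk g : G ⧸ Nn) = QuotientGroup.mk ((c : G) * g) := fun c g => rfl
  have hfixiff : ∀ (c : K) (g : G),
      c • (QuotientGroup.mk g : G ⧸ Nn) = QuotientGroup.mk g ↔ g⁻¹ * (c : G) * g ∈ Nn := by
    intro c g
    rw [hsmul, QuotientGroup.eq]
    have e : ((c : G) * g)⁻¹ * g = (g⁻¹ * (c : G) * g)⁻¹ := by group
    rw [e, inv_mem_iff]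
  have hfix1 : ∀ y : K, y ≠ 1 → Nat.card (MulAction.fixedBy (G ⧸ Nn) y) = 1 := by
    intro y hy1
    have hy1' : (y : G) ≠ 1 := fun h => hy1 (Subtype.ext h)
    rw [Nat.card_eq_one_iff_unique]
    constructor
    · constructor
      rintro ⟨x, hx⟩ ⟨x', hx'⟩
      apply Subtype.ext
      obtain ⟨g, rfl⟩ := QuotientGroup.mk_surjective x
      obtain ⟨g', rfl⟩ := QuotientGroup.mk_surjective x'
      rw [MulAction.mem_fixedBy, hfixiff] at hx hx'
      have ha := hS _ hx (hKπ y y.2 g)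
      have hb := hS _ hx' (hKπ y y.2 g')
      change (QuotientGroup.mk g : G ⧸ Nn) = QuotientGroup.mk g'
      rw [QuotientGroup.eq]
      by_contra hnot
      have h3 := hTI (g⁻¹ * g') hnot (g'⁻¹ * (y : G) * g') hb (by
        have e : g⁻¹ * g' * (g'⁻¹ * (y : G) * g') * (g⁻¹ * g')⁻¹ = g⁻¹ * (y : G) * g := by group
        rw [e]
        exact ha)
      apply hy1'
      have e : (y : G) = g' * (g'⁻¹ * (y : G) * g') * g'⁻¹ := by group
      rw [e, h3]
      group
    · obtain ⟨g, hg⟩ := hE (y : G) y.2 hy1'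
      exact ⟨⟨QuotientGroup.mk g, by rw [MulAction.mem_fixedBy, hfixiff]; exact hHN hg⟩⟩
  have : Fintype K := Fintype.ofFinite K
  have : Fintype (Quotient (MulAction.orbitRel K (G ⧸ Nn))) := Fintype.ofFinite _
  have hB := Nat.card_congr (MulAction.sigmaFixedByEquivOrbitsProdGroup K (G ⧸ Nn))
  rw [Nat.card_sigma, Nat.card_prod] at hB
  have hB2 : ∑ y : K, Nat.card (MulAction.fixedBy (G ⧸ Nn) y) =
      Nat.card (G ⧸ Nn) + (Nat.card K - 1) := by
    rw [← Finset.add_sum_erase Finset.univ _ (Finset.mem_univ (1 : K))]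
    congr 1
    · exact Nat.card_congr (Equiv.subtypeUnivEquiv (fun x => one_smul K x))
    · rw [Finset.sum_congr rfl (fun y hy => hfix1 y (Finset.ne_of_mem_erase hy)),
        Finset.sum_const, Finset.card_erase_of_mem (Finset.mem_univ _), Finset.card_univ,
        smul_eq_mul, mul_one, Nat.card_eq_fintype_card]
  have hC := Nat.card_congr (MulAction.selfEquivSigmaOrbitsQuotientStabilizer K (G ⧸ Nn))
  rw [Nat.card_sigma] at hC
  have hne : Nonempty (Quotient (MulAction.orbitRel K (G ⧸ Nn))) :=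
    ⟨Quotient.mk'' (QuotientGroup.mk 1)⟩
  have hkpos : 0 < Nat.card K := Nat.card_pos
  obtain ⟨ω, hω⟩ := arith (Nat.card K)
    (fun ω : Quotient (MulAction.orbitRel K (G ⧸ Nn)) =>
      Nat.card (K ⧸ MulAction.stabilizer K (Quotient.out ω)))
    (fun ω => by rw [← Subgroup.index_eq_card]; exact Subgroup.index_dvd_card _) hkpos (by
      rw [← hC, ← Nat.card_eq_fintype_card]
      omega)
  have hstab : MulAction.stabilizer K (Quotient.out ω) = ⊤ := by
    rw [← Subgroup.index_eq_one, Subgroup.index_eq_card]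
    exact hω
  obtain ⟨g, hg⟩ := QuotientGroup.mk_surjective (Quotient.out ω)
  refine ⟨g, ?_⟩
  intro c hc
  have h1 : (⟨c, hc⟩ : K) ∈ MulAction.stabilizer K (Quotient.out ω) := by
    rw [hstab]
    trivial
  rw [MulAction.mem_stabilizer_iff, ← hg, hfixiff] at h1
  have h2 := hS _ h1 (hKπ c hc g)
  refine ⟨g⁻¹ * c * g, h2, ?_⟩
  change g * (g⁻¹ * c * g) * g⁻¹ = c
  group

end Cfsg.Agent.S4116
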