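import Cfsg.Statements.S4134
import Mathlib

set_option autoImplicit false
open Cfsg

namespace Cfsg.Agent.S4134

universe u

/-- the `p`-part trick: some power `x^(1+p^j f)` has `p`-power order -/
theorem ppart {G : Type u} [Group G] [Finite G] (x : G) (p j : ℕ) (hp : p.Prime) :
    ∃ f a : ℕ, orderOf (x ^ (1 + p ^ j * f)) = p ^ a := by
  have ho : 0 < orderOf x := orderOf_pos x
  obtain ⟨k, m, hm, hkm⟩ := Nat.exists_eq_pow_mul_and_not_dvd ho.ne' p hp.ne_one
  have hcop : Nat.Coprime (p ^ j) m :=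
    Nat.Coprime.pow_left j ((Nat.Prime.coprime_iff_not_dvd hp).2 hm)
  have hmpos : 0 < m := by
    rcases Nat.eq_zero_or_pos m with h0 | h0
    · rw [h0, mul_zero] at hkm; omega
    · exact h0
  obtain ⟨f, hf⟩ : ∃ f, m ∣ 1 + p ^ j * f := by
    obtain ⟨e, he1, he0⟩ := Nat.chineseRemainder hcop 1 0
    have hpj : 0 < p ^ j := pos_of_ne_zero (pow_ne_zero _ hp.ne_zero)
    have hpos : 1 ≤ e + p ^ j * m := by
      have : 0 < p ^ j * m := Nat.mul_pos hpj hmpos
      omega
    have h1 : 1 ≡ e + p ^ j * m [MOD p ^ j] := by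
      have : e + p ^ j * m ≡ e [MOD p ^ j] := by
        simp [Nat.ModEq]
      exact (this.trans he1).symm
    have h2 : p ^ j ∣ e + p ^ j * m - 1 := (Nat.modEq_iff_dvd' hpos).1 h1
    obtain ⟨f, hf⟩ := h2
    refine ⟨f, ?_⟩
    have h3 : 1 + p ^ j * f = e + p ^ j * m := by omega
    rw [h3]
    have h4 : m ∣ e := (Nat.modEq_zero_iff_dvd).1 he0
    exact Dvd.dvd.add h4 (Dvd.intro_left _ rfl)
  refine ⟨f, ?_⟩
  have hpow : (x ^ (1 + p ^ j * f)) ^ (p ^ k) = 1 := by
    rw [← pow_mul]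
    apply orderOf_dvd_iff_pow_eq_one.1
    rw [hkm, mul_comm (p ^ k) m]
    exact Nat.mul_dvd_mul hf (dvd_refl _)
  obtain ⟨a, -, ha⟩ := (Nat.dvd_prime_pow hp).1 (orderOf_dvd_of_pow_eq_one hpow)
  exact ⟨a, ha⟩

/-- the centralizer of an element -/
abbrev C {G : Type u} [Group G] (x : G) : Subgroup G := Subgroup.centralizer ({x} : Set G)

theorem mem_C {G : Type u} [Group G] {x g : G} : g ∈ C x ↔ x * g = g * x := by
  simp [C, Subgroup.mem_centralizer_iff]

/-- the class-size hypothesis: every non-central element has centralizer of index `n > 1` -/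
structure Ctx (G : Type u) [Group G] (n : ℕ) : Prop where
  hn : 1 < n
  h : ∀ x : G, x ∉ Subgroup.center G → (C x).index = n

theorem cent_eq {G : Type u} [Group G] [Finite G] {n : ℕ} (X : Ctx G n) {x y : G}
    (hx : x ∉ Subgroup.center G) (hy : y ∉ Subgroup.center G) (hle : C x ≤ C y) : C x = C y := by
  have h1 := Subgroup.card_mul_index (C x)
  have h2 := Subgroup.card_mul_index (C y)
  rw [X.h x hx] at h1
  rw [X.h y hy] at h2
  have hn0 : 0 < n := by have := X.hn; omega
  have h3 : Nat.card (C x) = Nat.card (C y) := by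
    have : Nat.card (C x) * n = Nat.card (C y) * n := by rw [h1, h2]
    exact Nat.eq_of_mul_eq_mul_right hn0 this
  exact Subgroup.eq_of_le_of_card_ge hle (le_of_eq h3.symm)

theorem C_le_pow {G : Type u} [Group G] (x : G) (k : ℕ) : C x ≤ C (x ^ k) := by
  intro g hg
  rw [mem_C] at hg ⊢
  exact (Commute.pow_left (show Commute x g from hg) k).eq

theorem not_central_of_pow {G : Type u} [Group G] {x : G} {k : ℕ}
    (h : x ^ k ∉ Subgroup.center G) : x ∉ Subgroup.center G :=
  fun hx => h (Subgroup.pow_mem _ hx k)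

/-- commuting elements of coprime orders: the centralizer of a non-central one is inside the
centralizer of the other -/
theorem L1 {G : Type u} [Group G] [Finite G] {n : ℕ} (X : Ctx G n) {x y : G}
    (hx : x ∉ Subgroup.center G) (hxy : x * y = y * x)
    (hco : (orderOf x).Coprime (orderOf y)) : C x ≤ C y := by
  have hx1 : x ≠ 1 := fun h => hx (h ▸ Subgroup.one_mem _)
  have hox : 1 < orderOf x := by
    have h0 : 0 < orderOf x := orderOf_pos x
    have h1 : orderOf x ≠ 1 := fun h => hx1 (orderOf_eq_one_iff.1 h)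
    omega
  obtain ⟨u, -, hu⟩ := Nat.exists_mul_mod_eq_one_of_coprime hco.symm hox
  have hpow : (x * y) ^ (orderOf y * u) = x := by
    rw [(show Commute x y from hxy).mul_pow, pow_mul y, pow_orderOf_eq_one, one_pow, mul_one,
      ← pow_mod_orderOf, hu, pow_one]
  have hxyZ : x * y ∉ Subgroup.center G := by
    intro hc
    apply hx
    rw [← hpow]
    exact Subgroup.pow_mem _ hc _
  have hle : C (x * y) ≤ C x := by
    have := C_le_pow (x * y) (orderOf y * u)
    rwa [hpow] at this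
  have heq : C (x * y) = C x := cent_eq X hxyZ hx hle
  intro g hg
  have hg2 : g ∈ C (x * y) := by rw [heq]; exact hg
  rw [mem_C] at hg hg2 ⊢
  have : x * (y * g) = x * (g * y) := by
    rw [← mul_assoc x y g, hg2, ← mul_assoc x g y, hg, mul_assoc]
  exact mul_left_cancel this

theorem comm_of_pows {G : Type u} [Group G] (t v : G) (A B : ℕ) (hco : A.Coprime B)
    (h1 : t ^ A * v = v * t ^ A) (h2 : t ^ B * v = v * t ^ B) : t * v = v * t := by
  have hc : IsCoprime (A : ℤ) (B : ℤ) := Nat.isCoprime_iff_coprime.2 hco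
  obtain ⟨a, b, hab⟩ := hc
  have ht : t = (t ^ A) ^ a * (t ^ B) ^ b := by
    rw [← zpow_natCast t A, ← zpow_natCast t B, ← zpow_mul, ← zpow_mul, ← zpow_add,
      mul_comm (A : ℤ) a, mul_comm (B : ℤ) b, hab, zpow_one]
  have c1 : Commute ((t ^ A) ^ a) v := (show Commute (t ^ A) v from h1).zpow_left a
  have c2 : Commute ((t ^ B) ^ b) v := (show Commute (t ^ B) v from h2).zpow_left b
  have c3 : Commute ((t ^ A) ^ a * (t ^ B) ^ b) v := c1.mul_left c2
  rw [← ht] at c3
  exact c3.eq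

/-- a non-central element has a non-central power of prime power order -/
theorem primary_power {G : Type u} [Group G] [Finite G] :
    ∀ (N : ℕ) (g : G), orderOf g = N → g ∉ Subgroup.center G →
      ∃ q : ℕ, q.Prime ∧ q ∣ N ∧ ∃ j k : ℕ, g ^ j ∉ Subgroup.center G ∧
        orderOf (g ^ j) = q ^ k := by
  intro N
  induction N using Nat.strong_induction_on with
  | _ N ih =>
    intro g hN hg
    have hg1 : g ≠ 1 := fun h => hg (h ▸ Subgroup.one_mem _)
    have hN1 : N ≠ 1 := fun h => hg1 (orderOf_eq_one_iff.1 (hN.trans h))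
    have hN0 : N ≠ 0 := by rw [← hN]; exact (orderOf_pos g).ne'
    obtain ⟨q, hqp, hqN⟩ : ∃ q : ℕ, q.Prime ∧ q ∣ N :=
      ⟨N.minFac, Nat.minFac_prime hN1, Nat.minFac_dvd N⟩
    obtain ⟨k, m, hm, hkm⟩ := Nat.exists_eq_pow_mul_and_not_dvd hN0 q hqp.ne_one
    by_cases h1 : g ^ m ∉ Subgroup.center G
    · refine ⟨q, hqp, hqN, m, ?_⟩
      have hpow : (g ^ m) ^ (q ^ k) = 1 := by
        rw [← pow_mul, mul_comm, ← hkm, ← hN, pow_orderOf_eq_one]
      obtain ⟨a, -, ha⟩ := (Nat.dvd_prime_pow hqp).1 (orderOf_dvd_of_pow_eq_one hpow)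
      exact ⟨a, h1, ha⟩
    · rw [not_not] at h1
      by_cases h2 : g ^ (q ^ k) ∉ Subgroup.center G
      · have hk0 : k ≠ 0 := by
          intro hk0
          rw [hk0, pow_zero, one_mul] at hkm
          rw [hkm] at hqN
          exact hm hqN
        have hqk : 0 < q ^ k := pos_of_ne_zero (pow_ne_zero k hqp.ne_zero)
        have hom : orderOf (g ^ (q ^ k)) = m := by
          rw [orderOf_pow' g (pow_ne_zero k hqp.ne_zero), hN, hkm,
            Nat.gcd_eq_right (Dvd.intro _ rfl)]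
          exact Nat.mul_div_cancel_left m hqk
        have hmN : m < N := by
          have hm0 : 0 < m := by
            rcases Nat.eq_zero_or_pos m with h0 | h0
            · rw [h0, mul_zero] at hkm; exact absurd hkm hN0
            · exact h0
          have h2k : 2 ≤ q ^ k := by
            calc 2 ≤ q := hqp.two_le
              _ = q ^ 1 := (pow_one q).symm
              _ ≤ q ^ k := Nat.pow_le_pow_right hqp.pos (Nat.one_le_iff_ne_zero.2 hk0)
          rw [hkm]
          calc m < 2 * m := by omega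
            _ ≤ q ^ k * m := Nat.mul_le_mul_right m h2k
        obtain ⟨q', hq'p, hq'm, j, k', hj, hjo⟩ := ih m hmN (g ^ (q ^ k)) hom h2
        refine ⟨q', hq'p, ?_, q ^ k * j, k', ?_, ?_⟩
        · rw [hkm]; exact Dvd.dvd.mul_left hq'm _
        · rwa [pow_mul]
        · rwa [pow_mul]
      · rw [not_not] at h2
        exfalso
        apply hg
        have hco : Nat.Coprime m (q ^ k) :=
          Nat.Coprime.pow_right k ((Nat.Prime.coprime_iff_not_dvd hqp).2 hm).symm
        rw [Subgroup.mem_center_iff]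
        intro v
        have e1 : g ^ m * v = v * g ^ m := (Subgroup.mem_center_iff.1 h1 v).symm
        have e2 : g ^ (q ^ k) * v = v * g ^ (q ^ k) := (Subgroup.mem_center_iff.1 h2 v).symm
        exact (comm_of_pows g v m (q ^ k) hco e1 e2).symm

/-- numerical data: `z = |Z(G)|`, `c = |C(x) : Z(G)|` for non-central `x` -/
structure Ctx2 (G : Type u) [Group G] (n z c : ℕ) : Prop where
  X : Ctx G n
  hz : Nat.card (Subgroup.center G) = z
  hc : ∀ x : G, x ∉ Subgroup.center G → ((Subgroup.center G).subgroupOf (C x)).index = c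
  hcard : ∀ x : G, x ∉ Subgroup.center G → Nat.card (C x) = z * c

theorem dvd_of_NC {G : Type u} [Group G] [Finite G] {n z c : ℕ} (Y : Ctx2 G n z c)
    {s : ℕ} (hs : s.Prime) {x : G} (hx : x ∉ Subgroup.center G) {k : ℕ}
    (hk : orderOf x = s ^ k) : s ∣ c := by
  rw [← Y.hc x hx]
  have hxC : x ∈ C x := by rw [mem_C]
  have hne : (QuotientGroup.mk ⟨x, hxC⟩ : (C x) ⧸ ((Subgroup.center G).subgroupOf (C x))) ≠ 1 := by
    rw [Ne, QuotientGroup.eq_one_iff, Subgroup.mem_subgroupOf]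
    exact hx
  have hpow : (QuotientGroup.mk ⟨x, hxC⟩ : (C x) ⧸ ((Subgroup.center G).subgroupOf (C x))) ^ (s ^ k)
      = 1 := by
    rw [← QuotientGroup.mk_pow]
    have : (⟨x, hxC⟩ : C x) ^ (s ^ k) = 1 := by
      apply Subtype.ext
      rw [Subgroup.coe_pow, Subgroup.coe_one]
      show x ^ (s ^ k) = 1
      rw [← hk, pow_orderOf_eq_one]
    rw [this, QuotientGroup.mk_one]
  obtain ⟨a, -, ha⟩ := (Nat.dvd_prime_pow hs).1 (orderOf_dvd_of_pow_eq_one hpow)
  have ha0 : a ≠ 0 := by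
    intro ha0
    rw [ha0, pow_zero, orderOf_eq_one_iff] at ha
    exact hne ha
  have h1 : s ∣ orderOf (QuotientGroup.mk ⟨x, hxC⟩ :
      (C x) ⧸ ((Subgroup.center G).subgroupOf (C x))) := by
    rw [ha]; exact dvd_pow_self s ha0
  exact h1.trans (orderOf_dvd_natCard _)

theorem NC_of_dvd {G : Type u} [Group G] [Finite G] {n z c : ℕ} (Y : Ctx2 G n z c)
    {s : ℕ} (hs : s.Prime) (hsc : s ∣ c) {g : G} (hg : g ∉ Subgroup.center G) :
    ∃ y : G, y ∈ C g ∧ y ∉ Subgroup.center G ∧ ∃ k : ℕ, orderOf y = s ^ k := by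
  haveI : Fact s.Prime := ⟨hs⟩
  have hcard : s ∣ Nat.card ((C g) ⧸ ((Subgroup.center G).subgroupOf (C g))) := by
    have h1 := Y.hc g hg
    rw [← h1] at hsc
    exact hsc
  obtain ⟨ub, hub⟩ := exists_prime_orderOf_dvd_card' s hcard
  obtain ⟨u, rfl⟩ := QuotientGroup.mk_surjective ub
  have hu1 : (u : G) ∉ Subgroup.center G := by
    intro hc
    have h1 : (QuotientGroup.mk u : (C g) ⧸ ((Subgroup.center G).subgroupOf (C g))) = 1 := by
      rw [QuotientGroup.eq_one_iff, Subgroup.mem_subgroupOf]; exact hc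
    rw [h1, orderOf_one] at hub
    exact hs.one_lt.ne hub
  have hu2 : (u : G) ^ s ∈ Subgroup.center G := by
    have h1 : (QuotientGroup.mk u : (C g) ⧸ ((Subgroup.center G).subgroupOf (C g))) ^ s = 1 := by
      have := pow_orderOf_eq_one (QuotientGroup.mk u : (C g) ⧸ ((Subgroup.center G).subgroupOf (C g)))
      rwa [hub] at this
    rw [← QuotientGroup.mk_pow, QuotientGroup.eq_one_iff, Subgroup.mem_subgroupOf,
      Subgroup.coe_pow] at h1
    exact h1
  obtain ⟨f, k, hf⟩ := ppart (u : G) s 1 hs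
  rw [pow_one] at hf
  refine ⟨(u : G) ^ (1 + s * f), Subgroup.pow_mem _ u.2 _, ?_, k, hf⟩
  intro hc
  apply hu1
  have e : (u : G) = (u : G) ^ (1 + s * f) * (((u : G) ^ s) ^ f)⁻¹ := by
    rw [pow_add, pow_one, pow_mul, mul_assoc, mul_inv_cancel, mul_one]
  rw [e]
  exact Subgroup.mul_mem _ hc (Subgroup.inv_mem _ (Subgroup.pow_mem _ hu2 f))

/-- two primes with non-central elements: all centralizers of non-central elements are abelian -/
theorem F1 {G : Type u} [Group G] [Finite G] {n z c : ℕ} (Y : Ctx2 G n z c)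
    {q r : ℕ} (hq : q.Prime) (hr : r.Prime) (hqr : q ≠ r) (hqc : q ∣ c) (hrc : r ∣ c)
    {g : G} (hg : g ∉ Subgroup.center G) : ∀ t ∈ C g, ∀ v ∈ C g, t * v = v * t := by
  obtain ⟨s, hs, -, j, k, hj, hjo⟩ := primary_power (orderOf g) g rfl hg
  have hCeq : C g = C (g ^ j) := cent_eq Y.X hg hj (C_le_pow g j)
  obtain ⟨s', hs', hss', hs'c⟩ : ∃ s' : ℕ, s'.Prime ∧ s' ≠ s ∧ s' ∣ c := by
    by_cases hqs : q = s
    · exact ⟨r, hr, fun h => hqr (hqs.trans h.symm), hrc⟩
    · exact ⟨q, hq, hqs, hqc⟩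
  obtain ⟨y, hyC, hyZ, k', hyo⟩ := NC_of_dvd Y hs' hs'c hj
  have hgy : g ^ j * y = y * g ^ j := mem_C.1 hyC
  have hcop : (orderOf (g ^ j)).Coprime (orderOf y) := by
    rw [hjo, hyo]
    exact Nat.Coprime.pow _ _ ((Nat.coprime_primes hs hs').2 (Ne.symm hss'))
  have hle : C (g ^ j) ≤ C y := L1 Y.X hj hgy hcop
  have hCy : C (g ^ j) = C y := cent_eq Y.X hj hyZ hle
  intro t ht v hv
  rw [hCeq] at ht hv
  have hot : 0 < orderOf t := orderOf_pos t
  obtain ⟨e, m, hm, hem⟩ := Nat.exists_eq_pow_mul_and_not_dvd hot.ne' s hs.ne_one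
  have ht1 : t ^ m ∈ C (g ^ j) := Subgroup.pow_mem _ ht m
  have ht2 : t ^ (s ^ e) ∈ C (g ^ j) := Subgroup.pow_mem _ ht _
  have ho1 : orderOf (t ^ m) ∣ s ^ e := by
    apply orderOf_dvd_of_pow_eq_one
    rw [← pow_mul, mul_comm, ← hem, pow_orderOf_eq_one]
  have ho2 : orderOf (t ^ (s ^ e)) ∣ m := by
    apply orderOf_dvd_of_pow_eq_one
    rw [← pow_mul, ← hem, pow_orderOf_eq_one]
  have hc1 : C y ≤ C (t ^ m) := by
    apply L1 Y.X hyZ
    · have h3 : t ^ m ∈ C y := by rw [← hCy]; exact ht1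
      exact mem_C.1 h3
    · rw [hyo]
      exact Nat.Coprime.coprime_dvd_right ho1
        (Nat.Coprime.pow _ _ ((Nat.coprime_primes hs' hs).2 hss'))
  have hc2 : C (g ^ j) ≤ C (t ^ (s ^ e)) := by
    apply L1 Y.X hj (mem_C.1 ht2)
    rw [hjo]
    exact Nat.Coprime.coprime_dvd_right ho2
      (Nat.Coprime.pow_left _ ((Nat.Prime.coprime_iff_not_dvd hs).2 hm))
  have hv' : v ∈ C y := by rw [← hCy]; exact hv
  have hv1 : t ^ m * v = v * t ^ m := mem_C.1 (hc1 hv')
  have hv2 : t ^ (s ^ e) * v = v * t ^ (s ^ e) := mem_C.1 (hc2 hv)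
  exact comm_of_pows t v m (s ^ e)
    (Nat.Coprime.pow_right _ ((Nat.Prime.coprime_iff_not_dvd hs).2 hm).symm) hv1 hv2

/-- the abelian-centralizer situation -/
structure Ctx3 (G : Type u) [Group G] (n z c : ℕ) : Prop where
  Y : Ctx2 G n z c
  ab : ∀ g : G, g ∉ Subgroup.center G → ∀ t ∈ C g, ∀ v ∈ C g, t * v = v * t

theorem Ctx3.eqC {G : Type u} [Group G] [Finite G] {n z c : ℕ} (W : Ctx3 G n z c) {g t : G}
    (hg : g ∉ Subgroup.center G) (ht : t ∈ C g) (htZ : t ∉ Subgroup.center G) : C t = C g := by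
  have hle : C g ≤ C t := fun v hv => mem_C.2 (W.ab g hg t ht v hv)
  exact (cent_eq W.Y.X hg htZ hle).symm

theorem c_le_n {G : Type u} [Group G] [Finite G] {n z c : ℕ} (W : Ctx3 G n z c) {g₀ : G}
    (hg₀ : g₀ ∉ Subgroup.center G) : c ≤ n := by
  have hn := W.Y.X.hn
  have hne : C g₀ ≠ ⊤ := by
    intro h
    have h1 := W.Y.X.h g₀ hg₀
    rw [h, Subgroup.index_top] at h1
    omega
  obtain ⟨w, hw⟩ : ∃ w : G, w ∉ C g₀ := by
    by_contra hcon
    push Not at hcon
    exact hne (eq_top_iff.2 fun x _ => hcon x)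
  have hwZ : w ∉ Subgroup.center G := fun h => hw (Subgroup.center_le_centralizer _ h)
  have hinf : C g₀ ⊓ C w ≤ Subgroup.center G := by
    intro t ht
    by_contra htZ
    have e1 := W.eqC hg₀ ht.1 htZ
    have e2 := W.eqC hwZ ht.2 htZ
    apply hw
    rw [← e1, e2, mem_C]
  have e := Subgroup.card_mul_index (C g₀ ⊓ C w)
  have e' := Subgroup.card_mul_index (C g₀)
  rw [W.Y.hcard g₀ hg₀, W.Y.X.h g₀ hg₀] at e'
  have i1 : (C g₀ ⊓ C w).index ≤ n * n := by
    have h1 := Subgroup.index_inf_le (H := C g₀) (K := C w)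
    rwa [W.Y.X.h g₀ hg₀, W.Y.X.h w hwZ] at h1
  have i2 : Nat.card (C g₀ ⊓ C w : Subgroup G) ≤ z := by
    rw [← W.Y.hz]; exact Subgroup.card_le_of_le hinf
  have hz0 : 0 < z := by rw [← W.Y.hz]; exact Nat.card_pos
  have h3 : z * n * c ≤ z * n * n := by
    calc z * n * c = z * c * n := by ring
      _ = Nat.card (C g₀ ⊓ C w : Subgroup G) * (C g₀ ⊓ C w).index := by rw [e', e]
      _ ≤ z * (n * n) := Nat.mul_le_mul i2 i1
      _ = z * n * n := by ring
  exact Nat.le_of_mul_le_mul_left h3 (Nat.mul_pos hz0 (by omega))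

/-- the centre of `G` inside a subgroup -/
abbrev ZS {G : Type u} [Group G] (S : Subgroup G) : Subgroup S := (Subgroup.center G).subgroupOf S

/-- a non-central `s`-subgroup has a non-central element which is central modulo the centre,
with `s`-th power in the centre -/
theorem exists_central_mod {G : Type u} [Group G] [Finite G] {s : ℕ} [hsf : Fact s.Prime]
    (S : Subgroup G) (hS : IsPGroup s S) (hSZ : ¬ S ≤ Subgroup.center G) :
    ∃ u : G, u ∈ S ∧ u ∉ Subgroup.center G ∧ u ^ s ∈ Subgroup.center G ∧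
      ∀ v ∈ S, u⁻¹ * v⁻¹ * u * v ∈ Subgroup.center G := by
  have hs : s.Prime := hsf.out
  have hQ : IsPGroup s (S ⧸ ZS S) := hS.to_quotient (ZS S)
  haveI : Nontrivial (S ⧸ ZS S) := by
    obtain ⟨x, hxS, hxZ⟩ := SetLike.not_le_iff_exists.1 hSZ
    refine ⟨⟨QuotientGroup.mk ⟨x, hxS⟩, 1, ?_⟩⟩
    rw [Ne, QuotientGroup.eq_one_iff, Subgroup.mem_subgroupOf]
    exact hxZ
  haveI := hQ.center_nontrivial
  obtain ⟨⟨ub, hub⟩, hne⟩ := exists_ne (1 : Subgroup.center (S ⧸ ZS S))
  have hub1 : ub ≠ 1 := fun h => hne (Subtype.ext h)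
  obtain ⟨j, hj⟩ := (IsPGroup.iff_orderOf.1 hQ) ub
  have hj0 : j ≠ 0 := by
    intro hj0
    rw [hj0, pow_zero, orderOf_eq_one_iff] at hj
    exact hub1 hj
  obtain ⟨i, hi⟩ := Nat.exists_eq_succ_of_ne_zero hj0
  rw [hi] at hj
  have hpow_s : (ub ^ (s ^ i)) ^ s = 1 := by
    rw [← pow_mul, ← pow_succ, ← hj, pow_orderOf_eq_one]
  have hne' : ub ^ (s ^ i) ≠ 1 := by
    intro h
    have h1 := orderOf_dvd_of_pow_eq_one h
    rw [hj] at h1
    have h2 := (Nat.pow_dvd_pow_iff_le_right hs.one_lt).1 h1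
    omega
  have hcen : ub ^ (s ^ i) ∈ Subgroup.center (S ⧸ ZS S) := Subgroup.pow_mem _ hub _
  obtain ⟨u, hu⟩ := QuotientGroup.mk_surjective (ub ^ (s ^ i))
  refine ⟨(u : G), u.2, ?_, ?_, ?_⟩
  · intro hc
    apply hne'
    rw [← hu, QuotientGroup.eq_one_iff, Subgroup.mem_subgroupOf]
    exact hc
  · rw [← hu, ← QuotientGroup.mk_pow, QuotientGroup.eq_one_iff, Subgroup.mem_subgroupOf,
      Subgroup.coe_pow] at hpow_s
    exact hpow_s
  · intro v hv
    have hcomm := Subgroup.mem_center_iff.1 hcen (QuotientGroup.mk ⟨v, hv⟩)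
    rw [← hu] at hcomm
    have h1 : (QuotientGroup.mk (u⁻¹ * (⟨v, hv⟩ : S)⁻¹ * u * ⟨v, hv⟩) : S ⧸ ZS S) = 1 := by
      rw [QuotientGroup.mk_mul, QuotientGroup.mk_mul, QuotientGroup.mk_mul, QuotientGroup.mk_inv,
        QuotientGroup.mk_inv]
      calc (QuotientGroup.mk u : S ⧸ ZS S)⁻¹ * (QuotientGroup.mk ⟨v, hv⟩)⁻¹ * QuotientGroup.mk u *
            QuotientGroup.mk ⟨v, hv⟩
          = (QuotientGroup.mk u : S ⧸ ZS S)⁻¹ * (QuotientGroup.mk ⟨v, hv⟩)⁻¹ *
            (QuotientGroup.mk u * QuotientGroup.mk ⟨v, hv⟩) := by group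
        _ = (QuotientGroup.mk u : S ⧸ ZS S)⁻¹ * (QuotientGroup.mk ⟨v, hv⟩)⁻¹ *
            (QuotientGroup.mk ⟨v, hv⟩ * QuotientGroup.mk u) := by rw [hcomm]
        _ = 1 := by group
    rw [QuotientGroup.eq_one_iff, Subgroup.mem_subgroupOf] at h1
    simpa using h1

/-- if `u⁻¹ v⁻¹ u v` is central then `u` commutes with the `v`-conjugate of anything commuting
with `u` -/
theorem conj_mem_C {G : Type u} [Group G] {u v t : G}
    (hζ : u⁻¹ * v⁻¹ * u * v ∈ Subgroup.center G) (ht : u * t = t * u) :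
    u * (v * t * v⁻¹) = (v * t * v⁻¹) * u := by
  obtain ⟨ζ, hζd⟩ : ∃ ζ, ζ = u⁻¹ * v⁻¹ * u * v := ⟨_, rfl⟩
  rw [← hζd] at hζ
  have huv : u * v = v * u * ζ := by rw [hζd]; group
  have hζv : u * ζ * v⁻¹ = v⁻¹ * u := by rw [hζd]; group
  have hzt : ζ * t = t * ζ := (Subgroup.mem_center_iff.1 hζ t).symm
  calc u * (v * t * v⁻¹) = (u * v) * t * v⁻¹ := by group
    _ = v * u * ζ * t * v⁻¹ := by rw [huv]
    _ = v * u * (ζ * t) * v⁻¹ := by group
    _ = v * u * (t * ζ) * v⁻¹ := by rw [hzt]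
    _ = v * (u * t) * ζ * v⁻¹ := by group
    _ = v * (t * u) * ζ * v⁻¹ := by rw [ht]
    _ = v * t * (u * ζ * v⁻¹) := by group
    _ = v * t * (v⁻¹ * u) := by rw [hζv]
    _ = v * t * v⁻¹ * u := by group

theorem pow_comm_of_central {G : Type u} [Group G] {u v : G} {s : ℕ}
    (hu : u ^ s ∈ Subgroup.center G) (hζ : u⁻¹ * v⁻¹ * u * v ∈ Subgroup.center G) :
    u * v ^ s = v ^ s * u := by
  obtain ⟨ζ, hζd⟩ : ∃ ζ, ζ = u⁻¹ * v⁻¹ * u * v := ⟨_, rfl⟩
  rw [← hζd] at hζ
  have huv : u * v = v * u * ζ := by rw [hζd]; group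
  have hc : ∀ (j : ℕ) (g : G), ζ ^ j * g = g * ζ ^ j := fun j g =>
    (Subgroup.mem_center_iff.1 (Subgroup.pow_mem _ hζ j) g).symm
  have hA : ∀ j : ℕ, u ^ j * v = v * u ^ j * ζ ^ j := by
    intro j
    induction j with
    | zero => simp
    | succ j ih =>
      calc u ^ (j + 1) * v = u ^ j * (u * v) := by rw [pow_succ, mul_assoc]
        _ = u ^ j * (v * u * ζ) := by rw [huv]
        _ = (u ^ j * v) * u * ζ := by group
        _ = v * u ^ j * ζ ^ j * u * ζ := by rw [ih]
        _ = v * u ^ j * (ζ ^ j * u) * ζ := by group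
        _ = v * u ^ j * (u * ζ ^ j) * ζ := by rw [hc j u]
        _ = v * u ^ (j + 1) * ζ ^ (j + 1) := by rw [pow_succ, pow_succ]; group
  have hζs : ζ ^ s = 1 := by
    have h1 := hA s
    have h2 : u ^ s * v = v * u ^ s := (Subgroup.mem_center_iff.1 hu v).symm
    rw [h2] at h1
    have h3 : v * u ^ s * 1 = v * u ^ s * ζ ^ s := by rw [mul_one]; exact h1
    exact (mul_left_cancel h3).symm
  have hB : ∀ j : ℕ, u * v ^ j = v ^ j * u * ζ ^ j := by
    intro j
    induction j with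
    | zero => simp
    | succ j ih =>
      calc u * v ^ (j + 1) = (u * v ^ j) * v := by rw [pow_succ, mul_assoc]
        _ = v ^ j * u * ζ ^ j * v := by rw [ih]
        _ = v ^ j * u * (ζ ^ j * v) := by group
        _ = v ^ j * u * (v * ζ ^ j) := by rw [hc j v]
        _ = v ^ j * (u * v) * ζ ^ j := by group
        _ = v ^ j * (v * u * ζ) * ζ ^ j := by rw [huv]
        _ = v ^ (j + 1) * u * ζ ^ (j + 1) := by rw [pow_succ, pow_succ]; group
  rw [hB s, hζs, mul_one]

/-- counting lemma: if all stabilizers have index `d` then `d` divides the number of points -/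
theorem dvd_card_of_stab {S : Type*} [Group S] [Finite S] {X : Type*} [Finite X] [MulAction S X]
    (d : ℕ) (hstab : ∀ x : X, (MulAction.stabilizer S x).index = d) : d ∣ Nat.card X := by
  classical
  rw [Nat.card_congr (MulAction.selfEquivSigmaOrbits S X)]
  haveI : Fintype (MulAction.orbitRel.Quotient S X) := Fintype.ofFinite _
  rw [Nat.card_sigma]
  apply Finset.dvd_sum
  intro ω _
  rw [Nat.card_coe_set_eq, ← MulAction.index_stabilizer, hstab]

/-- orbit counting for a conjugation action with constant stabilizer -/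
theorem orbit_count {G : Type u} [Group G] [Finite G] (S T A : Subgroup G)
    (hnorm : ∀ v ∈ S, ∀ t ∈ T, v * t * v⁻¹ ∈ T)
    (hstab : ∀ t ∈ T, t ∉ Subgroup.center G → ∀ v ∈ S, (v * t * v⁻¹ = t ↔ v ∈ A)) :
    (A.subgroupOf S).index ∣ Nat.card {t : G // t ∈ T ∧ t ∉ Subgroup.center G} := by
  classical
  letI : MulAction S {t : G // t ∈ T ∧ t ∉ Subgroup.center G} :=
    { smul := fun v t => ⟨(v : G) * t.1 * (v : G)⁻¹, hnorm v v.2 t.1 t.2.1, fun hc => t.2.2 (by
          have h1 := (inferInstance : (Subgroup.center G).Normal).conj_mem' _ hc (v : G)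
          simpa [mul_assoc] using h1)⟩
      one_smul := fun t => Subtype.ext (by
        show ((1 : S) : G) * t.1 * ((1 : S) : G)⁻¹ = t.1
        simp)
      mul_smul := fun v w t => Subtype.ext (by
        show ((v * w : S) : G) * t.1 * ((v * w : S) : G)⁻¹ =
          (v : G) * ((w : G) * t.1 * (w : G)⁻¹) * (v : G)⁻¹
        simp [mul_assoc]) }
  refine dvd_card_of_stab (S := ↥S) (X := {t : G // t ∈ T ∧ t ∉ Subgroup.center G}) _ ?_
  intro t
  have hst : MulAction.stabilizer S t = A.subgroupOf S := by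
    ext v
    rw [MulAction.mem_stabilizer_iff, Subgroup.mem_subgroupOf]
    constructor
    · intro h
      exact (hstab t.1 t.2.1 t.2.2 v v.2).1 (congrArg Subtype.val h)
    · intro h
      exact Subtype.ext ((hstab t.1 t.2.1 t.2.2 v v.2).2 h)
  rw [hst]

/-- the `s`-elements of a commutative subgroup -/
def pPart {G : Type u} [Group G] (H : Subgroup G) (hH : ∀ a ∈ H, ∀ b ∈ H, a * b = b * a)
    (s : ℕ) : Subgroup G where
  carrier := {t | t ∈ H ∧ ∃ j : ℕ, t ^ (s ^ j) = 1}
  mul_mem' := by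
    rintro a b ⟨ha, ja, hja⟩ ⟨hb, jb, hjb⟩
    refine ⟨H.mul_mem ha hb, ja + jb, ?_⟩
    rw [(show Commute a b from hH a ha b hb).mul_pow, pow_add, pow_mul, hja, one_pow,
      mul_comm (s ^ ja) (s ^ jb), pow_mul, hjb, one_pow, one_mul]
  one_mem' := ⟨H.one_mem, 0, by simp⟩
  inv_mem' := by
    rintro a ⟨ha, ja, hja⟩
    exact ⟨H.inv_mem ha, ja, by rw [inv_pow, hja, inv_one]⟩

/-- a subgroup `T ≤ H` consisting of exactly the `s`-elements of `H` is a Sylow subgroup -/
theorem card_pElements {G : Type u} [Group G] [Finite G] (H T : Subgroup G) (hTH : T ≤ H)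
    {s : ℕ} [Fact s.Prime] (hT1 : ∀ t ∈ T, ∃ j : ℕ, t ^ (s ^ j) = 1)
    (hT2 : ∀ t ∈ H, (∃ j : ℕ, t ^ (s ^ j) = 1) → t ∈ T) :
    Nat.card T = s ^ ((Nat.card H).factorization s) := by
  have hP : IsPGroup s (T.subgroupOf H) := by
    intro g
    obtain ⟨j, hj⟩ := hT1 (g : H) (Subgroup.mem_subgroupOf.1 g.2)
    refine ⟨j, ?_⟩
    apply Subtype.ext
    apply Subtype.ext
    rw [Subgroup.coe_pow, Subgroup.coe_pow, Subgroup.coe_one, Subgroup.coe_one]
    exact hj
  obtain ⟨Q, hQ⟩ := hP.exists_le_sylow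
  have hQT : (Q : Subgroup H) ≤ T.subgroupOf H := by
    intro y hy
    rw [Subgroup.mem_subgroupOf]
    apply hT2 _ y.2
    obtain ⟨j, hj⟩ := Q.isPGroup' ⟨y, hy⟩
    refine ⟨j, ?_⟩
    have h1 : ((⟨y, hy⟩ : (Q : Subgroup H)) : H) ^ (s ^ j) = 1 := by
      rw [← Subgroup.coe_pow, hj, Subgroup.coe_one]
    have h2 : (y : G) ^ (s ^ j) = 1 := by
      rw [← Subgroup.coe_pow]
      exact congrArg Subtype.val h1
    exact h2
  have heq : T.subgroupOf H = Q := le_antisymm hQ hQT
  rw [← Nat.card_congr (Subgroup.subgroupOfEquivOfLe hTH).toEquiv, heq]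
  exact Sylow.card_eq_multiplicity Q

/-- key lemma: in the abelian-centralizer situation, the `s`-part of `n` divides `c_{s'} - 1` -/
theorem KL {G : Type u} [Group G] [Finite G] {n z c : ℕ} (W : Ctx3 G n z c)
    {s s' : ℕ} (hs : s.Prime) (hs' : s'.Prime) (hss' : s ≠ s')
    {g₀ : G} (hg₀ : g₀ ∉ Subgroup.center G) (k : ℕ) (hk : s ^ k ∣ n) :
    s ^ k ∣ s' ^ (c.factorization s') - 1 := by
  rcases Nat.eq_zero_or_pos k with rfl | hkpos
  · simp
  haveI : Fact s.Prime := ⟨hs⟩
  haveI : Fact s'.Prime := ⟨hs'⟩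
  have hsn : s ∣ n := (dvd_pow_self s hkpos.ne').trans hk
  obtain ⟨S⟩ : Nonempty (Sylow s G) := inferInstance
  have hSZ : ¬ (S : Subgroup G) ≤ Subgroup.center G := by
    intro hle
    have h1 : (Subgroup.center G).index ∣ (S : Subgroup G).index := Subgroup.index_dvd_of_le hle
    have h2 : n ∣ (Subgroup.center G).index := by
      rw [← W.Y.X.h g₀ hg₀]
      exact Subgroup.index_dvd_of_le (Subgroup.center_le_centralizer _)
    exact S.not_dvd_index (hsn.trans (h2.trans h1))
  obtain ⟨u, huS, huZ, hus, hζ⟩ := exists_central_mod (S : Subgroup G) S.isPGroup' hSZ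
  have hab := W.ab u huZ
  obtain ⟨T, hT⟩ : ∃ T : Subgroup G, T = pPart (C u) hab s' := ⟨_, rfl⟩
  have hTmem : ∀ t : G, t ∈ T ↔ t ∈ C u ∧ ∃ j : ℕ, t ^ (s' ^ j) = 1 := by
    intro t; rw [hT]; rfl
  have hTC : T ≤ C u := fun t ht => ((hTmem t).1 ht).1
  have hcardT : Nat.card T = s' ^ ((z * c).factorization s') := by
    rw [← W.Y.hcard u huZ]
    exact card_pElements (C u) T hTC (fun t ht => ((hTmem t).1 ht).2)
      (fun t ht hj => (hTmem t).2 ⟨ht, hj⟩)
  have hcardTZ : Nat.card (T ⊓ Subgroup.center G : Subgroup G) = s' ^ (z.factorization s') := by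
    rw [← W.Y.hz]
    exact card_pElements (Subgroup.center G) (T ⊓ Subgroup.center G) inf_le_right
      (fun t ht => ((hTmem t).1 ht.1).2)
      (fun t ht hj => ⟨(hTmem t).2 ⟨Subgroup.center_le_centralizer _ ht, hj⟩, ht⟩)
  have hnorm : ∀ v ∈ (S : Subgroup G), ∀ t ∈ T, v * t * v⁻¹ ∈ T := by
    intro v hv t ht
    obtain ⟨htC, j, hj⟩ := (hTmem t).1 ht
    rw [hTmem]
    refine ⟨mem_C.2 (conj_mem_C (hζ v hv) (mem_C.1 htC)), j, ?_⟩
    rw [conj_pow, hj, mul_one, mul_inv_cancel]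
  have hstab : ∀ t ∈ T, t ∉ Subgroup.center G → ∀ v ∈ (S : Subgroup G),
      (v * t * v⁻¹ = t ↔ v ∈ C u) := by
    intro t ht htZ v _
    have hCt : C t = C u := W.eqC huZ (hTC ht) htZ
    rw [← hCt, mem_C]
    constructor
    · intro h
      calc t * v = v * t * v⁻¹ * v := by rw [h]
        _ = v * t := by group
    · intro h
      calc v * t * v⁻¹ = t * v * v⁻¹ := by rw [h]
        _ = t := by group
  have hd := orbit_count (S : Subgroup G) T (C u) hnorm hstab
  have hX : Nat.card {t : G // t ∈ T ∧ t ∉ Subgroup.center G} =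
      s' ^ ((z * c).factorization s') - s' ^ (z.factorization s') := by
    rw [← hcardT, ← hcardTZ]
    have h1 : {t : G | t ∈ T ∧ t ∉ Subgroup.center G} =
        (T : Set G) \ ((T ⊓ Subgroup.center G : Subgroup G) : Set G) := by
      ext t
      simp only [Set.mem_ofPred_eq, Set.mem_sdiff, SetLike.mem_coe, Subgroup.mem_inf]
      tauto
    have h2 : Nat.card {t : G // t ∈ T ∧ t ∉ Subgroup.center G} =
        Set.ncard {t : G | t ∈ T ∧ t ∉ Subgroup.center G} := Nat.card_coe_set_eq _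
    rw [h2, h1, Set.ncard_sdiff (by intro t ht; exact ht.1) (Set.toFinite _)]
    rfl
  have hz0 : z ≠ 0 := by rw [← W.Y.hz]; exact Nat.card_pos.ne'
  have hc0 : c ≠ 0 := by
    intro h0
    have h1 := W.Y.hcard u huZ
    rw [h0, mul_zero] at h1
    exact Nat.card_pos.ne' h1
  have hfac : (z * c).factorization s' = z.factorization s' + c.factorization s' := by
    rw [Nat.factorization_mul hz0 hc0, Finsupp.add_apply]
  have hX2 : Nat.card {t : G // t ∈ T ∧ t ∉ Subgroup.center G} =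
      s' ^ (z.factorization s') * (s' ^ (c.factorization s') - 1) := by
    rw [hX, hfac, pow_add, Nat.mul_sub, mul_one]
  rw [hX2] at hd
  obtain ⟨m₁, hm₁⟩ := (IsPGroup.iff_card.1 S.isPGroup')
  have hd1 : ((C u).subgroupOf (S : Subgroup G)).index ∣ s ^ m₁ := by
    rw [← hm₁]; exact Subgroup.index_dvd_card _
  obtain ⟨i, -, hi⟩ := (Nat.dvd_prime_pow hs).1 hd1
  have hcop : (((C u).subgroupOf (S : Subgroup G)).index).Coprime (s' ^ (z.factorization s')) := by
    rw [hi]; exact Nat.Coprime.pow _ _ ((Nat.coprime_primes hs hs').2 hss')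
  have hd2 : ((C u).subgroupOf (S : Subgroup G)).index ∣ s' ^ (c.factorization s') - 1 :=
    Nat.Coprime.dvd_of_dvd_mul_left hcop hd
  have hrel : ((C u).subgroupOf (S : Subgroup G)).index = (C u).relIndex (S : Subgroup G) := rfl
  have e1 : (C u ⊓ (S : Subgroup G)).relIndex (S : Subgroup G) * (S : Subgroup G).index =
      (C u ⊓ (S : Subgroup G)).index := Subgroup.relIndex_mul_index inf_le_right
  have e2 : (C u ⊓ (S : Subgroup G)).relIndex (C u) * (C u).index =
      (C u ⊓ (S : Subgroup G)).index := Subgroup.relIndex_mul_index inf_le_left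
  rw [Subgroup.inf_relIndex_right] at e1
  rw [W.Y.X.h u huZ] at e2
  have hdvd : s ^ k ∣ (C u).relIndex (S : Subgroup G) * (S : Subgroup G).index := by
    rw [e1, ← e2]; exact Dvd.dvd.mul_left hk _
  have hcop2 : (s ^ k).Coprime (S : Subgroup G).index :=
    Nat.Coprime.pow_left k ((Nat.Prime.coprime_iff_not_dvd hs).2 S.not_dvd_index)
  have hsk : s ^ k ∣ (C u).relIndex (S : Subgroup G) :=
    Nat.Coprime.dvd_of_dvd_mul_right hcop2 hdvd
  rw [hrel] at hd2
  exact hsk.trans hd2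

/-- two distinct primes cannot both have non-central elements of prime power order -/
theorem stepB {G : Type u} [Group G] [Finite G] {n z c : ℕ} (Y : Ctx2 G n z c)
    {q r : ℕ} (hq : q.Prime) (hr : r.Prime) (hqr : q ≠ r) (hqc : q ∣ c) (hrc : r ∣ c)
    {g₀ : G} (hg₀ : g₀ ∉ Subgroup.center G) : False := by
  have W : Ctx3 G n z c := ⟨Y, fun g hg => F1 Y hq hr hqr hqc hrc hg⟩
  have h1 : c ≤ n := c_le_n W hg₀
  have hc0 : c ≠ 0 := by
    intro h0
    have h2 := Y.hcard g₀ hg₀
    rw [h0, mul_zero] at h2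
    exact Nat.card_pos.ne' h2
  have hdiv : n ∣ (q ^ (c.factorization q) - 1) * (r ^ (c.factorization r) - 1) := by
    rw [Nat.dvd_iff_prime_pow_dvd_dvd]
    intro s k hs hk
    by_cases hsr : s = r
    · rw [hsr] at hk ⊢
      exact Dvd.dvd.mul_right (KL W hr hq (Ne.symm hqr) hg₀ k hk) _
    · exact Dvd.dvd.mul_left (KL W hs hr hsr hg₀ k hk) _
  have hvq : 0 < c.factorization q := hq.factorization_pos_of_dvd hc0 hqc
  have hvr : 0 < c.factorization r := hr.factorization_pos_of_dvd hc0 hrc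
  have hQ : 2 ≤ q ^ (c.factorization q) := by
    calc 2 ≤ q := hq.two_le
      _ = q ^ 1 := (pow_one q).symm
      _ ≤ q ^ (c.factorization q) := Nat.pow_le_pow_right hq.pos hvq
  have hR : 2 ≤ r ^ (c.factorization r) := by
    calc 2 ≤ r := hr.two_le
      _ = r ^ 1 := (pow_one r).symm
      _ ≤ r ^ (c.factorization r) := Nat.pow_le_pow_right hr.pos hvr
  have hprod : q ^ (c.factorization q) * r ^ (c.factorization r) ∣ c :=
    Nat.Coprime.mul_dvd_of_dvd_of_dvd (Nat.Coprime.pow _ _ ((Nat.coprime_primes hq hr).2 hqr))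
      (Nat.ordProj_dvd c q) (Nat.ordProj_dvd c r)
  have hle2 : q ^ (c.factorization q) * r ^ (c.factorization r) ≤ c :=
    Nat.le_of_dvd (Nat.pos_of_ne_zero hc0) hprod
  obtain ⟨Q', hQ'⟩ : ∃ Q', q ^ (c.factorization q) = Q' + 2 :=
    ⟨q ^ (c.factorization q) - 2, by omega⟩
  obtain ⟨R', hR'⟩ : ∃ R', r ^ (c.factorization r) = R' + 2 :=
    ⟨r ^ (c.factorization r) - 2, by omega⟩
  rw [hQ', hR'] at hdiv hle2
  have e1 : Q' + 2 - 1 = Q' + 1 := by omega
  have e2 : R' + 2 - 1 = R' + 1 := by omega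
  rw [e1, e2] at hdiv
  have hle3 : n ≤ (Q' + 1) * (R' + 1) := Nat.le_of_dvd (Nat.mul_pos (by omega) (by omega)) hdiv
  nlinarith

/-- the abelian normal subgroup with quotient of exponent `p` -/
theorem partC {G : Type u} [Group G] [Finite G] {n : ℕ} (X : Ctx G n) {p : ℕ}
    [hp : Fact p.Prime] (P : Sylow p G) :
    ∃ A : Subgroup (P : Subgroup G), A.Normal ∧ IsMulCommutative A ∧
      ∀ y : (P : Subgroup G), y ^ p ∈ A := by
  by_cases hS : ∀ y : (P : Subgroup G), (y : G) ^ p ∈ Subgroup.center G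
  · refine ⟨(Subgroup.center G).subgroupOf (P : Subgroup G), inferInstance, ?_, ?_⟩
    · refine ⟨⟨fun a b => Subtype.ext (Subtype.ext ?_)⟩⟩
      have ha : ((a : (P : Subgroup G)) : G) ∈ Subgroup.center G := Subgroup.mem_subgroupOf.1 a.2
      have h1 := Subgroup.mem_center_iff.1 ha ((b : (P : Subgroup G)) : G)
      simp only [Subgroup.coe_mul]
      exact h1.symm
    · intro y
      rw [Subgroup.mem_subgroupOf, Subgroup.coe_pow]
      exact hS y
  · push Not at hS
    obtain ⟨x, hx⟩ := hS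
    have hxZ : (x : G) ∉ Subgroup.center G := not_central_of_pow hx
    have hCp : C ((x : G) ^ p) = C (x : G) := (cent_eq X hxZ hx (C_le_pow _ p)).symm
    have c2 : ∀ v ∈ C (x : G), v ^ p ∈ Subgroup.center G → ∀ w ∈ C (x : G), v * w = w * v := by
      intro v hv hvp w hw
      have hxv : (x : G) * v = v * (x : G) := mem_C.1 hv
      have hpow : ((x : G) * v) ^ p = (x : G) ^ p * v ^ p :=
        (show Commute (x : G) v from hxv).mul_pow p
      have hnZ : ((x : G) * v) ^ p ∉ Subgroup.center G := by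
        intro hc
        apply hx
        have e : (x : G) ^ p = ((x : G) * v) ^ p * (v ^ p)⁻¹ := by
          rw [hpow, mul_assoc, mul_inv_cancel, mul_one]
        rw [e]
        exact Subgroup.mul_mem _ hc (Subgroup.inv_mem _ hvp)
      have hxvZ : (x : G) * v ∉ Subgroup.center G := not_central_of_pow hnZ
      have hle : C ((x : G) * v) ≤ C (x : G) := by
        intro g hg
        have h1 : g ∈ C (((x : G) * v) ^ p) := C_le_pow _ p hg
        rw [hpow, mem_C] at h1
        rw [← hCp, mem_C]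
        have hz := Subgroup.mem_center_iff.1 hvp
        have h2 : (x : G) ^ p * g * v ^ p = g * (x : G) ^ p * v ^ p := by
          calc (x : G) ^ p * g * v ^ p = (x : G) ^ p * (g * v ^ p) := by rw [mul_assoc]
            _ = (x : G) ^ p * (v ^ p * g) := by rw [hz g]
            _ = (x : G) ^ p * v ^ p * g := by rw [mul_assoc]
            _ = g * ((x : G) ^ p * v ^ p) := h1
            _ = g * (x : G) ^ p * v ^ p := by rw [mul_assoc]
        exact mul_right_cancel h2
      have heq : C ((x : G) * v) = C (x : G) := cent_eq X hxvZ hxZ hle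
      have hw' : w ∈ C ((x : G) * v) := by rw [heq]; exact hw
      have h1 := mem_C.1 hw'
      have h2 := mem_C.1 hw
      have h3 : (x : G) * (v * w) = (x : G) * (w * v) := by
        rw [← mul_assoc, h1, ← mul_assoc, ← mul_assoc, h2]
      exact mul_left_cancel h3
    have c3 : ∀ v ∈ C (x : G), (∀ w ∈ C (x : G), v ^ p * w = w * v ^ p) →
        ∀ w ∈ C (x : G), v * w = w * v := by
      intro v hv hvp
      by_cases hvZ : v ^ p ∈ Subgroup.center G
      · exact c2 v hv hvZ
      · have hle : C (x : G) ≤ C (v ^ p) := fun w hw => mem_C.2 (hvp w hw)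
        have e1 : C (x : G) = C (v ^ p) := cent_eq X hxZ hvZ hle
        have e2 : C v = C (v ^ p) := cent_eq X (not_central_of_pow hvZ) hvZ (C_le_pow v p)
        intro w hw
        have h1 : w ∈ C v := by rw [e2, ← e1]; exact hw
        exact mem_C.1 h1
    have c4 : ∀ (j : ℕ) (v : G), v ∈ C (x : G) → v ^ (p ^ j) = 1 →
        ∀ w ∈ C (x : G), v * w = w * v := by
      intro j
      induction j with
      | zero =>
        intro v _ hv1 w _
        rw [pow_zero, pow_one] at hv1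
        rw [hv1, one_mul, mul_one]
      | succ j ih =>
        intro v hv hv1
        apply c3 v hv
        apply ih (v ^ p) (Subgroup.pow_mem _ hv p)
        rw [← pow_mul, ← pow_succ']
        exact hv1
    have hPZ : ¬ (P : Subgroup G) ≤ Subgroup.center G := fun hle => hxZ (hle x.2)
    obtain ⟨zz, hzP, hzZ, hzp, hzζ⟩ := exists_central_mod (P : Subgroup G) P.isPGroup' hPZ
    have c6 : ∀ v ∈ (P : Subgroup G), zz * v ^ p = v ^ p * zz :=
      fun v hv => pow_comm_of_central hzp (hzζ v hv)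
    have hzC : zz ∈ C (x : G) := by
      rw [← hCp, mem_C]; exact (c6 (x : G) x.2).symm
    have hpel : ∀ a : (P : Subgroup G), ∃ j : ℕ, (a : G) ^ (p ^ j) = 1 := by
      intro a
      obtain ⟨j, hj⟩ := P.isPGroup' a
      exact ⟨j, by rw [← Subgroup.coe_pow, hj, Subgroup.coe_one]⟩
    obtain ⟨jz, hjz⟩ := hpel ⟨zz, hzP⟩
    have hzcen := c4 jz zz hzC hjz
    have hCz : C (x : G) = C zz := cent_eq X hxZ hzZ (fun w hw => mem_C.2 (hzcen w hw))
    refine ⟨(C zz).subgroupOf (P : Subgroup G), ?_, ?_, ?_⟩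
    · constructor
      intro a ha g
      rw [Subgroup.mem_subgroupOf] at ha ⊢
      rw [mem_C] at ha
      rw [Subgroup.coe_mul, Subgroup.coe_mul, Subgroup.coe_inv, mem_C]
      exact conj_mem_C (hzζ (g : G) g.2) ha
    · refine ⟨⟨fun a b => Subtype.ext (Subtype.ext ?_)⟩⟩
      have ha : ((a : (P : Subgroup G)) : G) ∈ C (x : G) := by
        rw [hCz]; exact Subgroup.mem_subgroupOf.1 a.2
      have hb : ((b : (P : Subgroup G)) : G) ∈ C (x : G) := by
        rw [hCz]; exact Subgroup.mem_subgroupOf.1 b.2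
      obtain ⟨ja, hja⟩ := hpel (a : (P : Subgroup G))
      have h1 := c4 ja _ ha hja _ hb
      simp only [Subgroup.coe_mul]
      exact h1
    · intro y
      rw [Subgroup.mem_subgroupOf, Subgroup.coe_pow, mem_C]
      exact c6 (y : G) y.2

/-- Let G be a finite group whose conjugacy classes have exactly two sizes, 1 and n > 1. Then n is a power of a prime p and G is the direct product of a p-group and an abelian group of order prime to p: its Sylow p-subgroup P is normal with an abelian normal complement centralizing it; moreover P has an abelian normal subgroup A with P/A of exponent dividing p. -/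
theorem result {G : Type*} [Group G] [Finite G] (n : ℕ) (hn : 1 < n)
    (h : ∀ x : G, (Subgroup.centralizer ({x} : Set G)).index = 1 ∨ (Subgroup.centralizer ({x} : Set G)).index = n) (hex : ∃ x : G, (Subgroup.centralizer ({x} : Set G)).index = n) :
    ∃ (p : ℕ) (_ : Fact p.Prime) (a : ℕ), n = p ^ a ∧ ∀ P : Sylow p G, (P : Subgroup G).Normal ∧
      (∃ N : Subgroup G, N.Normal ∧ N.IsComplement' (P : Subgroup G) ∧ IsMulCommutative N ∧
        ∀ x ∈ N, ∀ y ∈ (P : Subgroup G), x * y = y * x) ∧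
      ∃ A : Subgroup (P : Subgroup G), A.Normal ∧ IsMulCommutative A ∧ ∀ y : (P : Subgroup G), y ^ p ∈ A := by
  classical
  have X : Ctx G n := ⟨hn, fun x hx => by
    rcases h x with h1 | h1
    · exfalso
      apply hx
      have h2 : C x = ⊤ := Subgroup.index_eq_one.1 h1
      rw [Subgroup.mem_center_iff]
      intro g
      have hg : g ∈ C x := by rw [h2]; exact Subgroup.mem_top g
      exact (mem_C.1 hg).symm
    · exact h1⟩
  obtain ⟨g₀, hg₀n⟩ := hex
  have hg₀ : g₀ ∉ Subgroup.center G := by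
    intro hc
    have h1 : C g₀ = ⊤ := by
      rw [eq_top_iff]
      intro v _
      rw [mem_C]
      exact (Subgroup.mem_center_iff.1 hc v).symm
    have h2 : (C g₀).index = 1 := by rw [h1, Subgroup.index_top]
    have h3 : (C g₀).index = n := hg₀n
    omega
  obtain ⟨z, hz⟩ : ∃ z, Nat.card (Subgroup.center G) = z := ⟨_, rfl⟩
  obtain ⟨c, hc⟩ : ∃ c, ((Subgroup.center G).subgroupOf (C g₀)).index = c := ⟨_, rfl⟩
  have hz0 : 0 < z := by rw [← hz]; exact Nat.card_pos
  have hcardsub : ∀ x : G, Nat.card ((Subgroup.center G).subgroupOf (C x)) = z := by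
    intro x
    rw [← hz]
    exact Nat.card_congr (Subgroup.subgroupOfEquivOfLe (Subgroup.center_le_centralizer _)).toEquiv
  have hcard0 : Nat.card (C g₀) = z * c := by
    rw [← Subgroup.card_mul_index ((Subgroup.center G).subgroupOf (C g₀)), hcardsub, hc]
  have hcard : ∀ x : G, x ∉ Subgroup.center G → Nat.card (C x) = z * c := by
    intro x hx
    have h1 := Subgroup.card_mul_index (C x)
    have h2 := Subgroup.card_mul_index (C g₀)
    rw [X.h x hx] at h1
    rw [X.h g₀ hg₀, hcard0] at h2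
    have h3 : Nat.card (C x) * n = z * c * n := by rw [h1, h2]
    exact Nat.eq_of_mul_eq_mul_right (by omega) h3
  have hcidx : ∀ x : G, x ∉ Subgroup.center G →
      ((Subgroup.center G).subgroupOf (C x)).index = c := by
    intro x hx
    have h1 := Subgroup.card_mul_index ((Subgroup.center G).subgroupOf (C x))
    rw [hcardsub, hcard x hx] at h1
    exact Nat.eq_of_mul_eq_mul_left hz0 h1
  have Y : Ctx2 G n z c := ⟨X, hz, hcidx, hcard⟩
  obtain ⟨p, hp, -, j₀, k₀, hx₀, hx₀o⟩ := primary_power (orderOf g₀) g₀ rfl hg₀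
  haveI hpf : Fact p.Prime := ⟨hp⟩
  have hpc : p ∣ c := dvd_of_NC Y hp hx₀ hx₀o
  have hB : ∀ (q : ℕ), q.Prime → q ≠ p → ∀ y : G, (∃ k, orderOf y = q ^ k) →
      y ∈ Subgroup.center G := by
    intro q hq hqp y ⟨k, hk⟩
    by_contra hy
    exact stepB Y hq hp hqp (dvd_of_NC Y hq hy hk) hpc hg₀
  have hC : ∀ g : G, (orderOf g).Coprime p → g ∈ Subgroup.center G := by
    intro g hco
    by_contra hg
    obtain ⟨q, hq, hqg, j, k, hj, hjo⟩ := primary_power (orderOf g) g rfl hg
    have hqp : q ≠ p := by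
      intro hqp
      rw [hqp] at hqg
      exact hp.one_lt.ne' (Nat.Coprime.eq_one_of_dvd hco.symm hqg)
    exact hj (hB q hq hqp _ ⟨k, hjo⟩)
  have hG0 : Nat.card G ≠ 0 := Nat.card_pos.ne'
  obtain ⟨e, m', hm', hGm⟩ := Nat.exists_eq_pow_mul_and_not_dvd hG0 p hp.ne_one
  have hcop : Nat.Coprime p m' := (Nat.Prime.coprime_iff_not_dvd hp).2 hm'
  have hm'0 : 0 < m' := by
    rcases Nat.eq_zero_or_pos m' with h0 | h0
    · rw [h0, mul_zero] at hGm; exact absurd hGm hG0
    · exact h0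
  obtain ⟨N, hN⟩ : ∃ N : Subgroup G, ∀ g : G, g ∈ N ↔ g ∈ Subgroup.center G ∧ g ^ m' = 1 :=
    ⟨{ carrier := {g | g ∈ Subgroup.center G ∧ g ^ m' = 1}
       mul_mem' := by
        rintro a b ⟨ha, ha'⟩ ⟨hb, hb'⟩
        refine ⟨Subgroup.mul_mem _ ha hb, ?_⟩
        have hcomm : Commute a b := Subgroup.mem_center_iff.1 hb a
        rw [hcomm.mul_pow, ha', hb', one_mul]
       one_mem' := ⟨Subgroup.one_mem _, one_pow _⟩
       inv_mem' := by
        rintro a ⟨ha, ha'⟩
        exact ⟨Subgroup.inv_mem _ ha, by rw [inv_pow, ha', inv_one]⟩ }, fun g => Iff.rfl⟩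
  have hNZ : N ≤ Subgroup.center G := fun g hg => ((hN g).1 hg).1
  have hNmem : ∀ g : G, (orderOf g).Coprime p → g ∈ N := by
    intro g hco
    rw [hN]
    refine ⟨hC g hco, ?_⟩
    apply orderOf_dvd_iff_pow_eq_one.1
    have h1 : orderOf g ∣ p ^ e * m' := by rw [← hGm]; exact orderOf_dvd_natCard g
    exact Nat.Coprime.dvd_of_dvd_mul_left (Nat.Coprime.pow_right e hco) h1
  have hNcop : (Nat.card N).Coprime p := by
    rw [Nat.coprime_comm, Nat.Prime.coprime_iff_not_dvd hp]
    intro hdvd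
    obtain ⟨y, hy⟩ := exists_prime_orderOf_dvd_card' p hdvd
    have hy1 : (y : G) ^ m' = 1 := ((hN _).1 y.2).2
    have hy2 : orderOf (y : G) = p := by rw [Subgroup.orderOf_coe]; exact hy
    have hy3 : p ∣ m' := by rw [← hy2]; exact orderOf_dvd_of_pow_eq_one hy1
    exact hm' hy3
  have hNdvd : Nat.card N ∣ m' := by
    have h1 : Nat.card N ∣ p ^ e * m' := by rw [← hGm]; exact Subgroup.card_subgroup_dvd_card N
    exact Nat.Coprime.dvd_of_dvd_mul_left (Nat.Coprime.pow_right e hNcop) h1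
  have hm'dvd : m' ∣ Nat.card N := by
    rw [Nat.dvd_iff_prime_pow_dvd_dvd]
    intro q k hq hqk
    rcases Nat.eq_zero_or_pos k with hk0 | hkpos
    · rw [hk0, pow_zero]; exact one_dvd _
    · have hqp : q ≠ p := by
        intro hqp
        rw [hqp] at hqk
        exact hm' ((dvd_pow_self p hkpos.ne').trans hqk)
      haveI : Fact q.Prime := ⟨hq⟩
      obtain ⟨Q⟩ : Nonempty (Sylow q G) := inferInstance
      have hQN : (Q : Subgroup G) ≤ N := by
        intro y hy
        apply hNmem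
        obtain ⟨i, hi⟩ := (IsPGroup.iff_orderOf.1 Q.isPGroup') ⟨y, hy⟩
        have h1 : orderOf y = q ^ i := by rw [← hi, Subgroup.orderOf_mk]
        rw [h1]
        exact Nat.Coprime.pow_left i ((Nat.coprime_primes hq hp).2 hqp)
      have h1 : Nat.card Q ∣ Nat.card N := Subgroup.card_dvd_of_le hQN
      have h2 : q ^ k ∣ Nat.card Q := by
        rw [Sylow.card_eq_multiplicity]
        apply pow_dvd_pow
        exact (hq.pow_dvd_iff_le_factorization hG0).1 (hqk.trans (Dvd.intro_left (p ^ e) hGm.symm))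
      exact h2.trans h1
  have hNcard : Nat.card N = m' := Nat.dvd_antisymm hNdvd hm'dvd
  have hNidx : N.index = p ^ e := by
    have h1 := Subgroup.card_mul_index N
    rw [hNcard, hGm, mul_comm] at h1
    exact Nat.eq_of_mul_eq_mul_right hm'0 h1
  obtain ⟨a, -, ha⟩ : ∃ a, a ≤ e ∧ n = p ^ a := by
    apply (Nat.dvd_prime_pow hp).1
    rw [← hNidx, ← X.h g₀ hg₀]
    exact Subgroup.index_dvd_of_le (hNZ.trans (Subgroup.center_le_centralizer _))
  refine ⟨p, hpf, a, ha, ?_⟩
  intro P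
  have hfac : (Nat.card G).factorization p = e := by
    rw [hGm, Nat.factorization_mul (pow_ne_zero e hp.ne_zero) hm'0.ne', Finsupp.add_apply,
      Nat.Prime.factorization_pow hp, Finsupp.single_eq_same,
      Nat.factorization_eq_zero_of_not_dvd hm', add_zero]
  have hPcard : Nat.card P = p ^ e := by rw [Sylow.card_eq_multiplicity, hfac]
  have hcompl : N.IsComplement' (P : Subgroup G) := by
    apply Subgroup.isComplement'_of_coprime
    · rw [hNcard, hPcard, hGm, mul_comm]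
    · rw [hNcard, hPcard]; exact (Nat.Coprime.pow_left e hcop).symm
  have hPn : (P : Subgroup G).Normal := by
    constructor
    intro x hx g
    obtain ⟨⟨⟨n₀, hn₀⟩, ⟨u, hu⟩⟩, hg'⟩ := hcompl.2 g
    have hg : n₀ * u = g := hg'
    have hn₀ : n₀ ∈ N := hn₀
    have hu : u ∈ (P : Subgroup G) := hu
    have hc : ∀ w : G, n₀ * w = w * n₀ := fun w => (Subgroup.mem_center_iff.1 (hNZ hn₀) w).symm
    have e1 : g * x * g⁻¹ = u * x * u⁻¹ := by
      rw [← hg]
      calc n₀ * u * x * (n₀ * u)⁻¹ = n₀ * (u * x * u⁻¹) * n₀⁻¹ := by group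
        _ = (u * x * u⁻¹) * n₀ * n₀⁻¹ := by rw [hc]
        _ = u * x * u⁻¹ := by group
    rw [e1]
    exact Subgroup.mul_mem _ (Subgroup.mul_mem _ hu hx) (Subgroup.inv_mem _ hu)
  refine ⟨hPn, ⟨N, ?_, hcompl, ?_, ?_⟩, partC X P⟩
  · constructor
    intro x hx g
    have h1 := Subgroup.mem_center_iff.1 (hNZ hx) g
    have h2 : g * x * g⁻¹ = x := by rw [h1, mul_assoc, mul_inv_cancel, mul_one]
    rw [h2]; exact hx
  · refine ⟨⟨fun a b => Subtype.ext ?_⟩⟩
    have h1 := Subgroup.mem_center_iff.1 (hNZ b.2) (a : G)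
    rw [Subgroup.coe_mul, Subgroup.coe_mul]
    exact h1
  · intro x hx y _
    exact (Subgroup.mem_center_iff.1 (hNZ hx) y).symm

end Cfsg.Agent.S4134
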