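import Cfsg.Statements.S4139
import Mathlib

set_option autoImplicit false
open Cfsg

namespace Cfsg.Agent.S4139

/-- size of the conjugacy class of `x` -/
noncomputable def cs {X : Type*} [Group X] (x : X) : ℕ := Nat.card (ConjClasses.mk x).carrier

/-- number of classes of size `k` -/
noncomputable def nk (X : Type*) [Group X] (k : ℕ) : ℕ :=
  Nat.card {C : ConjClasses X // Nat.card C.carrier = k}

theorem cs_eq_index {X : Type*} [Group X] (x : X) :
    cs x = (Subgroup.centralizer {x}).index := by
  have h1 : (Subgroup.centralizer {x}).index = (MulAction.stabilizer (ConjAct X) x).index := by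
    rw [Subgroup.centralizer_eq_comap_stabilizer]
    exact Subgroup.index_comap_of_surjective _ (ConjAct.toConjAct (G := X)).surjective
  rw [h1, MulAction.index_stabilizer, ConjAct.orbit_eq_carrier_conjClasses]
  exact (Nat.card_coe_set_eq _)

theorem cs_le {X : Type*} [Group X] [Finite X] (x : X) : cs x ≤ Nat.card X :=
  Nat.card_le_card_of_injective Subtype.val Subtype.val_injective

theorem card_fiber {X : Type*} [Group X] [Finite X] (k : ℕ) :
    Nat.card {x : X // cs x = k} = k * nk X k := by
  classical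
  have : Finite (ConjClasses X) := Quotient.finite _
  haveI := Fintype.ofFinite {C : ConjClasses X // Nat.card C.carrier = k}
  have e : {x : X // cs x = k} ≃
      Σ C : {C : ConjClasses X // Nat.card C.carrier = k}, C.1.carrier :=
    { toFun := fun x => ⟨⟨ConjClasses.mk x.1, x.2⟩, ⟨x.1, ConjClasses.mem_carrier_mk⟩⟩
      invFun := fun s => ⟨s.2.1, by
        have h1 := ConjClasses.mem_carrier_iff_mk_eq.mp s.2.2
        show Nat.card (ConjClasses.mk s.2.1).carrier = k
        rw [h1]; exact s.1.2⟩
      left_inv := fun x => rfl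
      right_inv := by
        rintro ⟨⟨C, hC⟩, ⟨y, hy⟩⟩
        have h1 := ConjClasses.mem_carrier_iff_mk_eq.mp hy
        subst h1
        rfl }
  rw [Nat.card_congr e, Nat.card_sigma]
  rw [Finset.sum_congr rfl (fun a _ => a.2), Finset.sum_const, Finset.card_univ, smul_eq_mul,
    mul_comm, nk, Nat.card_eq_fintype_card]

theorem card_pred {X : Type*} [Group X] [Finite X] (P : ℕ → Prop) [DecidablePred P] (M : ℕ)
    (hM : Nat.card X < M) :
    Nat.card {x : X // P (cs x)} = ∑ k ∈ Finset.range M, if P k then k * nk X k else 0 := by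
  classical
  haveI := Fintype.ofFinite X
  have hlt : ∀ x : X, cs x < M := fun x => lt_of_le_of_lt (cs_le x) hM
  rw [Nat.card_eq_fintype_card, Fintype.card_subtype, Finset.card_filter]
  have h1 : ∀ x : X, (if P (cs x) then 1 else 0) =
      ∑ k ∈ Finset.range M, if cs x = k then (if P k then 1 else 0) else 0 := by
    intro x
    rw [Finset.sum_ite_eq]
    simp [hlt x]
  simp_rw [h1]
  rw [Finset.sum_comm]
  refine Finset.sum_congr rfl (fun k _ => ?_)
  by_cases hP : P k
  · simp only [hP, if_true]
    rw [← card_fiber, Nat.card_eq_fintype_card, Fintype.card_subtype, Finset.card_filter]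
  · simp [hP]

theorem card_pred_eq {G H : Type*} [Group G] [Finite G] [Group H] [Finite H]
    (h : ∀ k : ℕ, nk G k = nk H k) (P : ℕ → Prop) :
    Nat.card {x : G // P (cs x)} = Nat.card {x : H // P (cs x)} := by
  classical
  rw [card_pred P (Nat.card G + Nat.card H + 1) (by omega),
    card_pred P (Nat.card G + Nat.card H + 1) (by omega)]
  exact Finset.sum_congr rfl (fun k _ => by rw [h k])

theorem card_eq_of {G H : Type*} [Group G] [Finite G] [Group H] [Finite H]
    (h : ∀ k : ℕ, nk G k = nk H k) : Nat.card G = Nat.card H := by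
  have h1 := card_pred_eq h (fun _ => True)
  rwa [Nat.card_congr (Equiv.subtypeUnivEquiv (fun _ => trivial)),
    Nat.card_congr (Equiv.subtypeUnivEquiv (fun _ => trivial))] at h1

theorem cs_eq_one_iff {X : Type*} [Group X] (x : X) : cs x = 1 ↔ x ∈ Subgroup.center X := by
  rw [cs_eq_index, Subgroup.index_eq_one, Subgroup.centralizer_eq_top_iff_subset,
    Set.singleton_subset_iff]
  rfl

theorem card_cs_one (X : Type*) [Group X] :
    Nat.card {x : X // cs x = 1} = Nat.card (Subgroup.center X) :=
  Nat.card_congr (Equiv.subtypeEquivRight (fun x => cs_eq_one_iff x))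

theorem card_center_eq_of {G H : Type*} [Group G] [Finite G] [Group H] [Finite H]
    (h : ∀ k : ℕ, nk G k = nk H k) :
    Nat.card (Subgroup.center G) = Nat.card (Subgroup.center H) := by
  have h1 := card_pred_eq h (fun k => k = 1)
  rwa [card_cs_one, card_cs_one] at h1



/-- elements whose class size is prime to `q` -/
def AA (G : Type*) [Group G] (q : ℕ) : Set G := {x | ¬ q ∣ cs x}

theorem cs_conj {G : Type*} [Group G] (g x : G) : cs (g * x * g⁻¹) = cs x := by
  unfold cs
  have : ConjClasses.mk (g * x * g⁻¹) = ConjClasses.mk x :=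
    ConjClasses.mk_eq_mk_iff_isConj.mpr (isConj_iff.mpr ⟨g⁻¹, by group⟩)
  rw [this]

theorem cs_mul_center {G : Type*} [Group G] (x z : G) (hz : z ∈ Subgroup.center G) :
    cs (x * z) = cs x := by
  rw [cs_eq_index, cs_eq_index]
  congr 1
  ext y
  rw [Subgroup.mem_centralizer_singleton_iff, Subgroup.mem_centralizer_singleton_iff]
  have h1 : z * y = y * z := (Subgroup.mem_center_iff.mp hz y).symm
  constructor
  · intro h
    have : y * x * z = x * y * z := by
      calc y * x * z = y * (x * z) := by group
        _ = x * z * y := h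
        _ = x * (z * y) := by group
        _ = x * (y * z) := by rw [h1]
        _ = x * y * z := by group
    exact mul_right_cancel this
  · intro h
    calc y * (x * z) = y * x * z := by group
      _ = x * y * z := by rw [h]
      _ = x * (y * z) := by group
      _ = x * (z * y) := by rw [h1]
      _ = x * z * y := by group

section
variable {G : Type*} [Group G] [Finite G] {q : ℕ} [Fact q.Prime]

theorem exists_sylow_le {x : G} (hx : x ∈ AA G q) :
    ∃ Q' : Sylow q G, (Q' : Subgroup G) ≤ Subgroup.centralizer {x} := by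
  have hx' : ¬ q ∣ (Subgroup.centralizer {x}).index := by rw [← cs_eq_index]; exact hx
  obtain ⟨S⟩ : Nonempty (Sylow q (Subgroup.centralizer {x})) := inferInstance
  have hp : IsPGroup q ((S : Subgroup (Subgroup.centralizer {x})).map
      (Subgroup.centralizer {x}).subtype) := S.2.map _
  have hnd : ¬ q ∣ ((S : Subgroup (Subgroup.centralizer {x})).map
      (Subgroup.centralizer {x}).subtype).index := by
    rw [Subgroup.index_map_subtype]
    intro hdvd
    rcases (Nat.Prime.dvd_mul (Fact.out : q.Prime)).mp hdvd with h1 | h1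
    · exact S.not_dvd_index h1
    · exact hx' h1
  refine ⟨hp.toSylow hnd, ?_⟩
  rw [IsPGroup.toSylow_coe]
  exact Subgroup.map_subtype_le _

theorem mem_AA_of_le {x : G} (Q' : Sylow q G)
    (h : (Q' : Subgroup G) ≤ Subgroup.centralizer {x}) : x ∈ AA G q := by
  show ¬ q ∣ cs x
  rw [cs_eq_index]
  intro hd
  exact Q'.not_dvd_index (hd.trans (Subgroup.index_dvd_of_le h))

theorem free_lemma {x z g : G} (hz : z ∈ Subgroup.center G) (hg : g * x * g⁻¹ = x * z) :
    orderOf z ∣ cs x := by
  have hzc : ∀ w : G, w * z = z * w := fun w => Subgroup.mem_center_iff.mp hz w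
  have step : ∀ y, IsConj y x → IsConj (y * z) x := by
    intro y hy
    obtain ⟨c, hc⟩ := isConj_iff.mp hy
    refine isConj_iff.mpr ⟨g⁻¹ * c, ?_⟩
    have h2 : x = g⁻¹ * (x * z) * g := by rw [← hg]; group
    calc g⁻¹ * c * (y * z) * (g⁻¹ * c)⁻¹ = g⁻¹ * (c * y * (z * c⁻¹)) * g := by group
      _ = g⁻¹ * (c * y * (c⁻¹ * z)) * g := by rw [hzc c⁻¹]
      _ = g⁻¹ * (c * y * c⁻¹ * z) * g := by group
      _ = g⁻¹ * (x * z) * g := by rw [hc]
      _ = x := h2.symm
  have pow : ∀ k : ℕ, ∀ y, IsConj y x → IsConj (y * z ^ k) x := by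
    intro k
    induction k with
    | zero => intro y hy; simpa using hy
    | succ k ih =>
      intro y hy
      have := step _ (ih y hy)
      rwa [mul_assoc, ← pow_succ] at this
  have hS : (QuotientGroup.mk : G → G ⧸ Subgroup.zpowers z) ⁻¹'
      ((QuotientGroup.mk : G → G ⧸ Subgroup.zpowers z) '' (ConjClasses.mk x).carrier) =
      (ConjClasses.mk x).carrier := by
    ext y
    constructor
    · rintro ⟨s, hs, hsy⟩
      have h1 := QuotientGroup.eq.mp hsy
      obtain ⟨k, hk⟩ := mem_powers_iff_mem_zpowers.mpr h1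
      have h2 : y = s * z ^ k := by
        have : z ^ k = s⁻¹ * y := hk
        rw [this]; group
      rw [h2]
      rw [ConjClasses.mem_carrier_iff_mk_eq, ConjClasses.mk_eq_mk_iff_isConj] at hs ⊢
      exact pow k s hs
    · intro hy
      exact ⟨y, hy, rfl⟩
  have e := QuotientGroup.preimageMkEquivSubgroupProdSet (Subgroup.zpowers z)
    ((QuotientGroup.mk : G → G ⧸ Subgroup.zpowers z) '' (ConjClasses.mk x).carrier)
  rw [hS] at e
  unfold cs
  rw [Nat.card_congr e, Nat.card_prod, Nat.card_zpowers]
  exact dvd_mul_right _ _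

end


section
variable {G : Type*} [Group G] [Finite G] {q : ℕ} [Fact q.Prime]

/-- conjugation action of a subgroup on an invariant subset of the central quotient -/
@[reducible] def actQ (Q : Subgroup G) (S : Set (G ⧸ Subgroup.center G))
    (hS : ∀ g ∈ Q, ∀ x ∈ S,
      (g : G ⧸ Subgroup.center G) * x * (g : G ⧸ Subgroup.center G)⁻¹ ∈ S) :
    MulAction Q S where
  smul g x := ⟨(g.1 : G ⧸ Subgroup.center G) * x.1 * (g.1 : G ⧸ Subgroup.center G)⁻¹,
    hS g.1 g.2 x.1 x.2⟩
  one_smul x := by
    apply Subtype.ext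
    show (((1 : Q) : G) : G ⧸ Subgroup.center G) * x.1 *
      (((1 : Q) : G) : G ⧸ Subgroup.center G)⁻¹ = x.1
    simp
  mul_smul a b x := by
    apply Subtype.ext
    show (((a * b : Q) : G) : G ⧸ Subgroup.center G) * x.1 *
      (((a * b : Q) : G) : G ⧸ Subgroup.center G)⁻¹ =
      ((a : G) : G ⧸ Subgroup.center G) * (((b : G) : G ⧸ Subgroup.center G) * x.1 *
        ((b : G) : G ⧸ Subgroup.center G)⁻¹) * ((a : G) : G ⧸ Subgroup.center G)⁻¹
    simp [mul_assoc]

theorem comm_of_conj_center (Q : Sylow q G) {x g : G} (hx : x ∈ AA G q)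
    (hg : g ∈ (Q : Subgroup G)) (h : x⁻¹ * (g * x * g⁻¹) ∈ Subgroup.center G) :
    g * x = x * g := by
  have hq : q.Prime := Fact.out
  set z := x⁻¹ * (g * x * g⁻¹) with hz
  have hgz : g * x * g⁻¹ = x * z := by rw [hz]; group
  have hzc : ∀ w : G, w * z = z * w := fun w => Subgroup.mem_center_iff.mp h w
  have h1 : orderOf z ∣ cs x := free_lemma h hgz
  have hpow : ∀ k : ℕ, g ^ k * x * (g ^ k)⁻¹ = x * z ^ k := by
    intro k
    induction k with
    | zero => simp
    | succ k ih =>
      calc g ^ (k + 1) * x * (g ^ (k + 1))⁻¹ = g * (g ^ k * x * (g ^ k)⁻¹) * g⁻¹ := by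
            rw [pow_succ']; group
        _ = g * (x * z ^ k) * g⁻¹ := by rw [ih]
        _ = g * x * (z ^ k * g⁻¹) := by group
        _ = g * x * (g⁻¹ * z ^ k) := by
            rw [(Commute.pow_right (show Commute g⁻¹ z from hzc g⁻¹) k).eq]
        _ = g * x * g⁻¹ * z ^ k := by group
        _ = x * z * z ^ k := by rw [hgz]
        _ = x * z ^ (k + 1) := by rw [pow_succ']; group
  have h2 : z ^ orderOf g = 1 := by
    have := hpow (orderOf g)
    rw [pow_orderOf_eq_one] at this
    simpa using this.symm
  have h3 : orderOf z ∣ orderOf g := orderOf_dvd_of_pow_eq_one h2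
  obtain ⟨j, hj⟩ := Q.isPGroup' ⟨g, hg⟩
  have h4 : orderOf g ∣ q ^ j := by
    apply orderOf_dvd_of_pow_eq_one
    have := congrArg Subtype.val hj
    simpa using this
  have hcop : Nat.Coprime (q ^ j) (cs x) :=
    Nat.Coprime.pow_left j ((Nat.Prime.coprime_iff_not_dvd hq).mpr hx)
  have h5 : orderOf z = 1 := Nat.eq_one_of_dvd_coprimes hcop (h3.trans h4) h1
  have h6 : z = 1 := orderOf_eq_one_iff.mp h5
  rw [h6, mul_one] at hgz
  calc g * x = g * x * g⁻¹ * g := by group
    _ = x * g := by rw [hgz]

theorem dvd_card_AA (Q : Sylow q G) (u : G) (hu : u ∈ (Q : Subgroup G))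
    (huc : ∀ g ∈ (Q : Subgroup G), g * u = u * g) (hun : u ∉ Subgroup.center G) :
    q * Nat.card (Subgroup.center G) ∣ Nat.card (AA G q) := by
  have hq : q.Prime := Fact.out
  set Abar : Set (G ⧸ Subgroup.center G) :=
    (QuotientGroup.mk : G → G ⧸ Subgroup.center G) '' AA G q with hAbar
  have hpre : (QuotientGroup.mk : G → G ⧸ Subgroup.center G) ⁻¹' Abar = AA G q := by
    ext y
    constructor
    · rintro ⟨s, hs, hsy⟩
      have h1 := QuotientGroup.eq.mp hsy
      have h2 : y = s * (s⁻¹ * y) := by group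
      show ¬ q ∣ cs y
      rw [h2, cs_mul_center _ _ h1]
      exact hs
    · intro hy
      exact ⟨y, hy, rfl⟩
  have hcard : Nat.card (AA G q) = Nat.card (Subgroup.center G) * Nat.card Abar := by
    have e := QuotientGroup.preimageMkEquivSubgroupProdSet (Subgroup.center G) Abar
    rw [hpre] at e
    rw [Nat.card_congr e, Nat.card_prod]
  have hinv : ∀ g ∈ (Q : Subgroup G), ∀ x ∈ Abar,
      (g : G ⧸ Subgroup.center G) * x * (g : G ⧸ Subgroup.center G)⁻¹ ∈ Abar := by
    rintro g hg _ ⟨x, hx, rfl⟩
    refine ⟨g * x * g⁻¹, ?_, rfl⟩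
    show ¬ q ∣ cs (g * x * g⁻¹)
    rw [cs_conj]
    exact hx
  letI := actQ (Q : Subgroup G) Abar hinv
  have hmod := (Q.isPGroup').card_modEq_card_fixedPoints (↥Abar)
  set B : Subgroup (G ⧸ Subgroup.center G) :=
    (Subgroup.centralizer ((Q : Subgroup G) : Set G)).map (QuotientGroup.mk' (Subgroup.center G))
    with hB
  have h1 : ∀ a : ↥Abar, a ∈ MulAction.fixedPoints (Q : Subgroup G) ↥Abar → a.1 ∈ B := by
    rintro ⟨_, ⟨x, hx, rfl⟩⟩ ha
    refine Subgroup.mem_map.mpr ⟨x, ?_, rfl⟩
    rw [Subgroup.mem_centralizer_iff]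
    intro g hg
    have h2 := congrArg Subtype.val (ha ⟨g, hg⟩)
    have h3 : ((g * x * g⁻¹ : G) : G ⧸ Subgroup.center G) = (x : G ⧸ Subgroup.center G) := h2
    have h4 := QuotientGroup.eq.mp h3.symm
    exact comm_of_conj_center Q hx hg h4
  have h2a : ∀ b ∈ B, b ∈ Abar := by
    intro b hb
    obtain ⟨c, hc, rfl⟩ := Subgroup.mem_map.mp hb
    refine ⟨c, mem_AA_of_le Q ?_, rfl⟩
    intro g hg
    rw [Subgroup.mem_centralizer_singleton_iff]
    exact (hc g hg)
  have h2b : ∀ (b : G ⧸ Subgroup.center G) (hb : b ∈ B),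
      (⟨b, h2a b hb⟩ : ↥Abar) ∈ MulAction.fixedPoints (Q : Subgroup G) ↥Abar := by
    intro b hb
    obtain ⟨c, hc, rfl⟩ := Subgroup.mem_map.mp hb
    intro g
    apply Subtype.ext
    show ((g : G) : G ⧸ Subgroup.center G) * (QuotientGroup.mk' (Subgroup.center G) c) *
      ((g : G) : G ⧸ Subgroup.center G)⁻¹ = QuotientGroup.mk' (Subgroup.center G) c
    have h3 : (g : G) * c * (g : G)⁻¹ = c := by
      rw [hc g g.2]; group
    show (((g : G) * c * (g : G)⁻¹ : G) : G ⧸ Subgroup.center G) = _
    rw [h3]; rfl
  have hfix : Nat.card (MulAction.fixedPoints (Q : Subgroup G) ↥Abar) = Nat.card B := by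
    refine Nat.card_congr
      { toFun := fun a => ⟨a.1.1, h1 a.1 a.2⟩
        invFun := fun b => ⟨⟨b.1, h2a b.1 b.2⟩, h2b b.1 b.2⟩
        left_inv := fun a => rfl
        right_inv := fun b => rfl }
  have hqB : q ∣ Nat.card B := by
    have huB : (QuotientGroup.mk' (Subgroup.center G) u) ∈ B :=
      Subgroup.mem_map.mpr ⟨u, by
        rw [Subgroup.mem_centralizer_iff]; exact huc, rfl⟩
    have hne : (QuotientGroup.mk' (Subgroup.center G) u) ≠ 1 := by
      intro h
      exact hun ((QuotientGroup.eq_one_iff u).mp h)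
    obtain ⟨j, hj⟩ := Q.isPGroup' ⟨u, hu⟩
    have h4 : orderOf u ∣ q ^ j := by
      apply orderOf_dvd_of_pow_eq_one
      have := congrArg Subtype.val hj
      simpa using this
    have h5 : orderOf (QuotientGroup.mk' (Subgroup.center G) u) ∣ q ^ j :=
      (orderOf_map_dvd _ u).trans h4
    obtain ⟨i, hi, hi2⟩ := (Nat.dvd_prime_pow hq).mp h5
    have hi0 : i ≠ 0 := by
      rintro rfl
      rw [pow_zero] at hi2
      exact hne (orderOf_eq_one_iff.mp hi2)
    have h6 : q ∣ orderOf (QuotientGroup.mk' (Subgroup.center G) u) := by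
      rw [hi2]; exact dvd_pow_self q hi0
    have h7 : orderOf (⟨_, huB⟩ : B) ∣ Nat.card B := orderOf_dvd_natCard _
    rw [Subgroup.orderOf_mk] at h7
    exact h6.trans h7
  have hqA : q ∣ Nat.card Abar := by
    rw [hfix] at hmod
    exact (Nat.modEq_zero_iff_dvd).mp (hmod.trans ((Nat.modEq_zero_iff_dvd).mpr hqB))
  rw [hcard, mul_comm]
  exact Nat.mul_dvd_mul_left _ hqA

theorem center_sylow_le (Q : Sylow q G)
    (hA : Nat.card (AA G q) * q ^ (Nat.card G).factorization q =
      q ^ (Nat.card (Subgroup.center G)).factorization q * Nat.card G)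
    (u : G) (hu : u ∈ (Q : Subgroup G)) (huc : ∀ g ∈ (Q : Subgroup G), g * u = u * g) :
    u ∈ Subgroup.center G := by
  by_contra hun
  have h1 := dvd_card_AA Q u hu huc hun
  have hq : q.Prime := Fact.out
  have h2 : q ^ ((Nat.card (Subgroup.center G)).factorization q + 1) ∣
      q * Nat.card (Subgroup.center G) := by
    rw [pow_succ, mul_comm]
    exact Nat.mul_dvd_mul_left q (Nat.ordProj_dvd _ _)
  have h3 : q ^ ((Nat.card (Subgroup.center G)).factorization q + 1) *
      q ^ (Nat.card G).factorization q ∣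
      q ^ (Nat.card (Subgroup.center G)).factorization q * Nat.card G := by
    rw [← hA]
    exact Nat.mul_dvd_mul_right (h2.trans h1) _
  have h4 : q ^ ((Nat.card G).factorization q + 1) ∣ Nat.card G := by
    have : q ^ (Nat.card (Subgroup.center G)).factorization q *
        q ^ ((Nat.card G).factorization q + 1) ∣
        q ^ (Nat.card (Subgroup.center G)).factorization q * Nat.card G := by
      convert h3 using 1
      ring
    exact (Nat.mul_dvd_mul_iff_left (pow_pos hq.pos _)).mp this
  exact Nat.pow_succ_factorization_not_dvd (Nat.card_pos.ne') hq h4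

end


theorem card_le_pow_of_le_center {X : Type*} [Group X] [Finite X] {q : ℕ} [Fact q.Prime]
    {D : Subgroup X} (hD : IsPGroup q D) (hle : D ≤ Subgroup.center X) :
    Nat.card D ∣ q ^ (Nat.card (Subgroup.center X)).factorization q := by
  have hq : q.Prime := Fact.out
  obtain ⟨j, hj⟩ := IsPGroup.iff_card.mp hD
  have h1 : Nat.card D ∣ Nat.card (Subgroup.center X) := Subgroup.card_dvd_of_le hle
  rw [hj] at h1 ⊢
  exact Nat.pow_dvd_pow q ((Nat.Prime.pow_dvd_iff_le_factorization hq (Nat.card_pos.ne')).mp h1)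

section
variable {G : Type*} [Group G] [Finite G] {q : ℕ} [Fact q.Prime]

theorem key_bound
    (hA : Nat.card (AA G q) * q ^ (Nat.card G).factorization q =
      q ^ (Nat.card (Subgroup.center G)).factorization q * Nat.card G) (Q' : Sylow q G) :
    Nat.card (Subgroup.centralizer ((Q' : Subgroup G) : Set G)) * Nat.card (Sylow q G) ≤
      Nat.card (AA G q) := by
  have hq : q.Prime := Fact.out
  set C := Subgroup.centralizer ((Q' : Subgroup G) : Set G) with hC
  set N := Subgroup.normalizer ((Q' : Subgroup G) : Set G) with hN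
  set D := (Q' : Subgroup G) ⊓ C with hD
  have hCN : C ≤ N := Subgroup.centralizer_le_normalizer _
  have hDc : D ≤ Subgroup.center G := by
    intro u hu
    exact center_sylow_le Q' hA u hu.1 (fun g hg => hu.2 g hg)
  have hDp : IsPGroup q D := Q'.isPGroup'.to_le inf_le_left
  have hD1 : Nat.card D ≤ q ^ (Nat.card (Subgroup.center G)).factorization q :=
    Nat.le_of_dvd (pow_pos hq.pos _) (card_le_pow_of_le_center hDp hDc)
  have hD2 : Nat.card D * D.relIndex C = Nat.card C := by
    have := Subgroup.relIndex_mul_relIndex (H := ⊥) (K := D) (L := C) bot_le inf_le_right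
    rwa [Subgroup.relIndex_bot_left, Subgroup.relIndex_bot_left] at this
  have hD3 : D.relIndex C = (Q' : Subgroup G).relIndex C := Subgroup.inf_relIndex_right _ _
  have hN1 : Nat.card (Q' : Subgroup G) * (Q' : Subgroup G).relIndex N = Nat.card N := by
    have := Subgroup.relIndex_mul_relIndex (H := ⊥) (K := (Q' : Subgroup G)) (L := N) bot_le
      Subgroup.le_normalizer
    rwa [Subgroup.relIndex_bot_left, Subgroup.relIndex_bot_left] at this
  have hN0 : (Q' : Subgroup G).relIndex N ≠ 0 := by
    intro h0
    rw [h0, mul_zero] at hN1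
    exact (Nat.card_pos (α := N)).ne' hN1.symm
  have hD4 : (Q' : Subgroup G).relIndex C ≤ (Q' : Subgroup G).relIndex N :=
    Subgroup.relIndex_le_of_le_right hCN hN0
  have hN2 : Nat.card N * Nat.card (Sylow q G) = Nat.card G := by
    rw [Q'.card_eq_index_normalizer]
    exact Subgroup.card_mul_index N
  have hQc : Nat.card (Q' : Subgroup G) = q ^ (Nat.card G).factorization q :=
    Q'.card_eq_multiplicity
  have e1 : Nat.card C * Nat.card (Sylow q G) * q ^ (Nat.card G).factorization q ≤
      Nat.card (AA G q) * q ^ (Nat.card G).factorization q := by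
    calc Nat.card C * Nat.card (Sylow q G) * q ^ (Nat.card G).factorization q
        = Nat.card D * (Q' : Subgroup G).relIndex C * Nat.card (Sylow q G) *
            q ^ (Nat.card G).factorization q := by rw [← hD2, hD3]
      _ ≤ q ^ (Nat.card (Subgroup.center G)).factorization q * (Q' : Subgroup G).relIndex N *
            Nat.card (Sylow q G) * q ^ (Nat.card G).factorization q := by gcongr
      _ = q ^ (Nat.card (Subgroup.center G)).factorization q *
            ((q ^ (Nat.card G).factorization q * (Q' : Subgroup G).relIndex N) *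
              Nat.card (Sylow q G)) := by ring
      _ = q ^ (Nat.card (Subgroup.center G)).factorization q * Nat.card G := by
            rw [← hQc, hN1, hN2]
      _ = Nat.card (AA G q) * q ^ (Nat.card G).factorization q := hA.symm
  exact Nat.le_of_mul_le_mul_right e1 (pow_pos hq.pos _)

theorem sylow_normal (Q : Sylow q G)
    (hA : Nat.card (AA G q) * q ^ (Nat.card G).factorization q =
      q ^ (Nat.card (Subgroup.center G)).factorization q * Nat.card G) :
    (Q : Subgroup G).Normal := by
  classical
  have hq : q.Prime := Fact.out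
  by_contra hn
  haveI := Fintype.ofFinite (Sylow q G)
  have hs2 : 2 ≤ Nat.card (Sylow q G) := by
    by_contra hlt
    have h1 : Nat.card (Sylow q G) ≤ 1 := by omega
    haveI : Subsingleton (Sylow q G) := (Finite.card_le_one_iff_subsingleton).mp h1
    exact hn (Sylow.normal_of_subsingleton Q)
  have hkey := key_bound hA
  have hsub : AA G q ⊆ insert 1 (⋃ Q' ∈ (Finset.univ : Finset (Sylow q G)),
      ((Subgroup.centralizer ((Q' : Subgroup G) : Set G) : Set G) \ {1})) := by
    intro x hx
    by_cases hx1 : x = 1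
    · left; exact hx1
    · right
      obtain ⟨Q', hQ'⟩ := exists_sylow_le hx
      refine Set.mem_iUnion₂.mpr ⟨Q', Finset.mem_univ _, ⟨?_, hx1⟩⟩
      show x ∈ Subgroup.centralizer ((Q' : Subgroup G) : Set G)
      rw [Subgroup.mem_centralizer_iff]
      intro g hg
      exact Subgroup.mem_centralizer_singleton_iff.mp (hQ' hg)
  have h1 : Nat.card (AA G q) ≤ (∑ Q' : Sylow q G,
      (Nat.card (Subgroup.centralizer ((Q' : Subgroup G) : Set G)) - 1)) + 1 := by
    rw [Nat.card_coe_set_eq]
    refine (Set.ncard_le_ncard hsub (Set.toFinite _)).trans ?_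
    refine (Set.ncard_insert_le _ _).trans ?_
    refine Nat.add_le_add_right ?_ 1
    refine (Finset.set_ncard_biUnion_le _ _).trans ?_
    refine Finset.sum_le_sum (fun Q' _ => ?_)
    rw [Set.ncard_sdiff_singleton_of_mem (Subgroup.one_mem _)]
    exact le_of_eq (by rw [← Nat.card_coe_set_eq]; rfl)
  set s := Nat.card (Sylow q G) with hs
  set t := Nat.card (AA G q) with ht
  have hspos : 0 < s := by omega
  have h2 : ∀ Q' : Sylow q G,
      Nat.card (Subgroup.centralizer ((Q' : Subgroup G) : Set G)) - 1 ≤ t / s - 1 := by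
    intro Q'
    exact Nat.sub_le_sub_right ((Nat.le_div_iff_mul_le hspos).mpr (hkey Q')) 1
  have h3 : (∑ Q' : Sylow q G,
      (Nat.card (Subgroup.centralizer ((Q' : Subgroup G) : Set G)) - 1)) ≤ s * (t / s - 1) := by
    refine (Finset.sum_le_card_nsmul _ _ _ (fun Q' _ => h2 Q')).trans ?_
    rw [Finset.card_univ, smul_eq_mul, hs, Nat.card_eq_fintype_card]
  have h4 : 1 ≤ t / s := by
    have : 1 ≤ Nat.card (Subgroup.centralizer ((Q : Subgroup G) : Set G)) := Nat.card_pos
    exact this.trans ((Nat.le_div_iff_mul_le hspos).mpr (hkey Q))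
  have h5 : t / s * s ≤ t := Nat.div_mul_le_self t s
  obtain ⟨d, hd⟩ : ∃ d, t / s = d + 1 := ⟨t / s - 1, by omega⟩
  rw [hd] at h3 h5
  have h6 : (d + 1) * s = s * d + s := by ring
  have h7 : s * (d + 1 - 1) = s * d := by simp
  rw [h7] at h3
  omega

end


theorem nilp_count {H : Type*} [Group H] [Finite H] (hH : Group.IsNilpotent H) (q : ℕ)
    [Fact q.Prime] :
    Nat.card (AA H q) * q ^ (Nat.card H).factorization q =
      q ^ (Nat.card (Subgroup.center H)).factorization q * Nat.card H := by
  have hq : q.Prime := Fact.out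
  have hnorm : ∀ (p : ℕ) (_hp : Fact p.Prime) (P : Sylow p H), (P : Subgroup H).Normal :=
    ((Group.isNilpotent_of_finite_tfae (G := H)).out 0 3).mp hH
  obtain ⟨Q⟩ : Nonempty (Sylow q H) := inferInstance
  have hQn : (Q : Subgroup H).Normal := hnorm q inferInstance Q
  set C := Subgroup.centralizer ((Q : Subgroup H) : Set H) with hC
  have hAA : AA H q = (C : Set H) := by
    ext x
    constructor
    · intro hx
      obtain ⟨Q', hQ'⟩ := exists_sylow_le hx
      haveI := Sylow.unique_of_normal Q hQn
      have hQQ : Q' = Q := Subsingleton.elim _ _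
      rw [hQQ] at hQ'
      show x ∈ C
      rw [hC, Subgroup.mem_centralizer_iff]
      intro g hg
      exact Subgroup.mem_centralizer_singleton_iff.mp (hQ' hg)
    · intro hx
      refine mem_AA_of_le Q ?_
      intro g hg
      rw [Subgroup.mem_centralizer_singleton_iff]
      exact (Subgroup.mem_centralizer_iff.mp hx) g hg
  have hsup : (Q : Subgroup H) ⊔ C = ⊤ := by
    apply Subgroup.eq_top_of_card_eq
    apply Nat.dvd_antisymm (Subgroup.card_subgroup_dvd_card _)
    rw [← Nat.factorization_prime_le_iff_dvd (Nat.card_pos.ne') (Nat.card_pos.ne')]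
    intro r hr
    have h1 : r ^ (Nat.card H).factorization r ∣
        Nat.card ((Q : Subgroup H) ⊔ C : Subgroup H) := by
      by_cases hrq : r = q
      · rw [hrq, ← Q.card_eq_multiplicity]
        exact Subgroup.card_dvd_of_le le_sup_left
      · haveI := Fact.mk hr
        obtain ⟨R⟩ : Nonempty (Sylow r H) := inferInstance
        have hR : (R : Subgroup H) ≤ (Q : Subgroup H) ⊔ C := by
          refine le_trans ?_ le_sup_right
          intro y hy
          rw [hC, Subgroup.mem_centralizer_iff]
          intro g hg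
          have hdis : Disjoint (Q : Subgroup H) (R : Subgroup H) :=
            IsPGroup.disjoint_of_ne q r (Ne.symm hrq) _ _ Q.isPGroup' R.isPGroup'
          exact (Subgroup.commute_of_normal_of_disjoint _ _ hQn (hnorm r inferInstance R) hdis
            g y hg hy).eq
        rw [← R.card_eq_multiplicity]
        exact Subgroup.card_dvd_of_le hR
    exact (Nat.Prime.pow_dvd_iff_le_factorization hr (Nat.card_pos.ne')).mp h1
  set D := (Q : Subgroup H) ⊓ C with hD
  have hidx : (Q : Subgroup H).index = (Q : Subgroup H).relIndex C := by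
    have h1 := Subgroup.relIndex_sup_right (H := C) (K := (Q : Subgroup H))
    rw [sup_comm, hsup, Subgroup.relIndex_top_right] at h1
    exact h1
  have hD2 : Nat.card D * (Q : Subgroup H).relIndex C = Nat.card C := by
    have h1 := Subgroup.relIndex_mul_relIndex (H := ⊥) (K := D) (L := C) bot_le inf_le_right
    rwa [Subgroup.relIndex_bot_left, Subgroup.relIndex_bot_left,
      Subgroup.inf_relIndex_right] at h1
  have hDc : D ≤ Subgroup.center H := by
    intro x hx
    have hxQ : x ∈ (Q : Subgroup H) := hx.1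
    have hxC : x ∈ C := hx.2
    have h1 : (Q : Subgroup H) ⊔ C ≤ Subgroup.centralizer {x} := by
      refine sup_le ?_ ?_
      · intro g hg
        rw [Subgroup.mem_centralizer_singleton_iff]
        exact (Subgroup.mem_centralizer_iff.mp hxC) g hg
      · intro c hc
        rw [Subgroup.mem_centralizer_singleton_iff]
        exact ((Subgroup.mem_centralizer_iff.mp hc) x hxQ).symm
    rw [hsup] at h1
    rw [Subgroup.mem_center_iff]
    intro g
    exact Subgroup.mem_centralizer_singleton_iff.mp (h1 (Subgroup.mem_top g))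
  have hDcard : Nat.card D = q ^ (Nat.card (Subgroup.center H)).factorization q := by
    apply Nat.dvd_antisymm (card_le_pow_of_le_center (Q.isPGroup'.to_le inf_le_left) hDc)
    have h1 : q ^ (Nat.card (Subgroup.center H)).factorization q ∣
        Nat.card D * (Q : Subgroup H).index := by
      rw [hidx, hD2]
      exact (Nat.ordProj_dvd _ _).trans
        (Subgroup.card_dvd_of_le (Subgroup.center_le_centralizer _))
    exact Nat.Coprime.dvd_of_dvd_mul_right
      (Nat.Coprime.pow_left _ ((Nat.Prime.coprime_iff_not_dvd hq).mpr Q.not_dvd_index)) h1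
  have hcardA : Nat.card (AA H q) = Nat.card C := by rw [hAA]; rfl
  rw [hcardA, ← hD2, ← hidx, hDcard, ← Q.card_eq_multiplicity, mul_assoc,
    Subgroup.index_mul_card]

/-- Let G and H be finite groups such that for every natural number k, G and H have the same number of conjugacy classes of size k. If H is nilpotent then G is nilpotent. -/
theorem result {G H : Type*} [Group G] [Finite G] [Group H] [Finite H]
    (hH : Group.IsNilpotent H)
    (h : ∀ k : ℕ, Nat.card {C : ConjClasses G // Nat.card C.carrier = k} = Nat.card {C : ConjClasses H // Nat.card C.carrier = k}) :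
    Group.IsNilpotent G := by
  have hnk : ∀ k : ℕ, nk G k = nk H k := h
  refine ((Group.isNilpotent_of_finite_tfae (G := G)).out 0 3).mpr ?_
  intro p hp P
  haveI := hp
  apply sylow_normal P
  have h1 := nilp_count hH p
  have h2 : Nat.card (AA G p) = Nat.card (AA H p) := card_pred_eq hnk (fun k => ¬ p ∣ k)
  rw [h2, card_eq_of hnk, card_center_eq_of hnk]
  exact h1

end Cfsg.Agent.S4139
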