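import Mathlib
import Cfsg.Statements.S4142

set_option autoImplicit false
open Cfsg

namespace Cfsg.Agent.S4142

theorem key {G : Type*} [Group G] [Finite G] (N : Subgroup G) [hN : N.Normal] (g : G) :
    (∀ n ∈ N, ∃ x : G, x * g * x⁻¹ = g * n) ↔
      Nat.card (Subgroup.centralizer ({g} : Set G)) =
        Nat.card (Subgroup.centralizer ({(QuotientGroup.mk g : G ⧸ N)} : Set (G ⧸ N))) := by
  set C := Subgroup.centralizer ({g} : Set G) with hC
  set Cbar := Subgroup.centralizer ({(QuotientGroup.mk g : G ⧸ N)} : Set (G ⧸ N)) with hCbar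
  set T := Cbar.comap (QuotientGroup.mk' N) with hT
  have hmemT : ∀ x : G, x ∈ T ↔ g⁻¹ * x * g * x⁻¹ ∈ N := by
    intro x
    rw [hT, Subgroup.mem_comap, hCbar, Subgroup.mem_centralizer_iff]
    constructor
    · intro h
      have h1 := h _ rfl
      have h2 : (QuotientGroup.mk (g * x) : G ⧸ N) = QuotientGroup.mk (x * g) := h1
      rw [QuotientGroup.eq] at h2
      have h3 := hN.conj_mem _ h2 x
      have e : x * ((g * x)⁻¹ * (x * g)) * x⁻¹ = g⁻¹ * x * g * x⁻¹ := by group
      rw [e] at h3
      exact h3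
    · intro h k hk
      rw [Set.mem_singleton_iff] at hk
      subst hk
      have h3 := hN.conj_mem _ h x⁻¹
      have e : x⁻¹ * (g⁻¹ * x * g * x⁻¹) * x⁻¹⁻¹ = (g * x)⁻¹ * (x * g) := by group
      rw [e] at h3
      have h2 : (QuotientGroup.mk (g * x) : G ⧸ N) = QuotientGroup.mk (x * g) := by
        rw [QuotientGroup.eq]; exact h3
      exact h2
  have hmemC : ∀ x : G, x ∈ C ↔ g * x = x * g := by
    intro x
    rw [hC, Subgroup.mem_centralizer_iff]
    constructor
    · intro h; exact h g rfl
    · intro h k hk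
      rw [Set.mem_singleton_iff] at hk
      subst hk
      exact h
  have hCT : C ≤ T := by
    intro x hx
    rw [hmemT]
    rw [hmemC] at hx
    have e : g⁻¹ * x * g * x⁻¹ = g⁻¹ * (x * g) * x⁻¹ := by group
    rw [e, ← hx]
    have e2 : g⁻¹ * (g * x) * x⁻¹ = 1 := by group
    rw [e2]
    exact N.one_mem
  have hTcard : Nat.card T = Nat.card N * Nat.card Cbar := by
    have h1 := Subgroup.card_mul_index T
    have h2 : T.index = Cbar.index :=
      Subgroup.index_comap_of_surjective Cbar (QuotientGroup.mk'_surjective N)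
    have h3 := Subgroup.card_mul_index Cbar
    have h4 := Subgroup.card_eq_card_quotient_mul_card_subgroup N
    have hpos : 0 < Cbar.index := Nat.pos_of_ne_zero Subgroup.index_ne_zero_of_finite
    have : Nat.card T * Cbar.index = Nat.card N * Nat.card Cbar * Cbar.index := by
      calc Nat.card T * Cbar.index = Nat.card T * T.index := by rw [h2]
        _ = Nat.card G := h1
        _ = Nat.card (G ⧸ N) * Nat.card N := h4
        _ = Nat.card Cbar * Cbar.index * Nat.card N := by rw [h3]
        _ = Nat.card N * Nat.card Cbar * Cbar.index := by ring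
    exact Nat.eq_of_mul_eq_mul_right hpos this
  set C' := C.subgroupOf T with hC'
  have hC'card : Nat.card C' = Nat.card C :=
    Nat.card_congr (Subgroup.subgroupOfEquivOfLe hCT).toEquiv
  have hquot : Nat.card C * Nat.card (T ⧸ C') = Nat.card T := by
    rw [← hC'card, ← Subgroup.index_eq_card]
    exact Subgroup.card_mul_index C'
  have hφ : ∀ x : T, g⁻¹ * (x : G) * g * (x : G)⁻¹ ∈ N := fun x => (hmemT x).mp x.2
  let φ : T → N := fun x => ⟨g⁻¹ * (x : G) * g * (x : G)⁻¹, hφ x⟩
  have hφeq : ∀ a b : T, φ a = φ b ↔ a⁻¹ * b ∈ C' := by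
    intro a b
    rw [hC', Subgroup.mem_subgroupOf, hmemC]
    constructor
    · intro h
      have h1 : g⁻¹ * (a : G) * g * (a : G)⁻¹ = g⁻¹ * (b : G) * g * (b : G)⁻¹ :=
        congrArg Subtype.val h
      have h2 : (a : G) * g * (a : G)⁻¹ = (b : G) * g * (b : G)⁻¹ := by
        have := congrArg (fun t => g * t) h1
        simpa [mul_assoc] using this
      push_cast
      calc g * ((a : G)⁻¹ * (b : G)) = (a : G)⁻¹ * ((a : G) * g * (a : G)⁻¹) * (b : G) := by group
        _ = (a : G)⁻¹ * ((b : G) * g * (b : G)⁻¹) * (b : G) := by rw [h2]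
        _ = (a : G)⁻¹ * (b : G) * g := by group
    · intro h
      push_cast at h
      apply Subtype.ext
      change g⁻¹ * (a : G) * g * (a : G)⁻¹ = g⁻¹ * (b : G) * g * (b : G)⁻¹
      have h2 : (a : G) * g * (a : G)⁻¹ = (b : G) * g * (b : G)⁻¹ := by
        calc (a : G) * g * (a : G)⁻¹ = (a : G) * (g * ((a : G)⁻¹ * (b : G))) * (b : G)⁻¹ := by group
          _ = (a : G) * ((a : G)⁻¹ * (b : G) * g) * (b : G)⁻¹ := by rw [h]
          _ = (b : G) * g * (b : G)⁻¹ := by group
      calc g⁻¹ * (a : G) * g * (a : G)⁻¹ = g⁻¹ * ((a : G) * g * (a : G)⁻¹) := by group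
        _ = g⁻¹ * ((b : G) * g * (b : G)⁻¹) := by rw [h2]
        _ = g⁻¹ * (b : G) * g * (b : G)⁻¹ := by group
  let φbar : T ⧸ C' → N := Quotient.lift φ (by
    intro a b hab
    have hab' : QuotientGroup.leftRel C' a b := hab
    rw [QuotientGroup.leftRel_apply] at hab'
    exact (hφeq a b).mpr hab')
  have hφbar : ∀ a : T, φbar (QuotientGroup.mk a) = φ a := fun a => rfl
  have hinj : Function.Injective φbar := by
    intro a b
    induction a using QuotientGroup.induction_on with
    | H a =>
      induction b using QuotientGroup.induction_on with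
      | H b =>
        intro h
        rw [hφbar, hφbar] at h
        rw [QuotientGroup.eq]
        exact (hφeq a b).mp h
  have hCpos : 0 < Nat.card C := Nat.card_pos
  constructor
  · intro hcam
    have hsurj : Function.Surjective φbar := by
      intro n
      obtain ⟨x, hx⟩ := hcam n n.2
      have hxT : x ∈ T := by
        rw [hmemT]
        have e : g⁻¹ * x * g * x⁻¹ = g⁻¹ * (x * g * x⁻¹) := by group
        rw [e, hx]
        have e2 : g⁻¹ * (g * (n : G)) = n := by group
        rw [e2]
        exact n.2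
      refine ⟨QuotientGroup.mk ⟨x, hxT⟩, ?_⟩
      rw [hφbar]
      apply Subtype.ext
      change g⁻¹ * x * g * x⁻¹ = n
      have e : g⁻¹ * x * g * x⁻¹ = g⁻¹ * (x * g * x⁻¹) := by group
      rw [e, hx]
      group
    have hcard : Nat.card (T ⧸ C') = Nat.card N :=
      Nat.card_congr (Equiv.ofBijective φbar ⟨hinj, hsurj⟩)
    rw [hcard, hTcard] at hquot
    have hNpos : 0 < Nat.card N := Nat.card_pos
    have : Nat.card N * Nat.card C = Nat.card N * Nat.card Cbar := by
      rw [← hquot]; ring
    exact Nat.eq_of_mul_eq_mul_left hNpos this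
  · intro hcard n hn
    have hcard' : Nat.card (T ⧸ C') = Nat.card N := by
      rw [hTcard, ← hcard] at hquot
      have : Nat.card C * Nat.card (T ⧸ C') = Nat.card C * Nat.card N := by
        rw [hquot]; ring
      exact Nat.eq_of_mul_eq_mul_left hCpos this
    have hbij : Function.Bijective φbar :=
      hinj.bijective_of_nat_card_le (le_of_eq hcard'.symm)
    obtain ⟨a, ha⟩ := hbij.2 ⟨n, hn⟩
    induction a using QuotientGroup.induction_on with
    | H a =>
      rw [hφbar] at ha
      have h1 : g⁻¹ * (a : G) * g * (a : G)⁻¹ = n := congrArg Subtype.val ha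
      refine ⟨a, ?_⟩
      rw [← h1]
      group

theorem result {G : Type*} [Group G] [Finite G] (N : Subgroup G) [N.Normal] :
    (∀ g : G, g ∉ N → ∀ n ∈ N, ∃ x : G, x * g * x⁻¹ = g * n) ↔
      ∀ g : G, g ∉ N → Nat.card (Subgroup.centralizer ({g} : Set G)) =
        Nat.card (Subgroup.centralizer ({(QuotientGroup.mk g : G ⧸ N)} : Set (G ⧸ N))) := by
  constructor
  · intro h g hg
    exact (key N g).mp (h g hg)
  · intro h g hg
    exact (key N g).mpr (h g hg)

end Cfsg.Agent.S4142
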