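import Mathlib
import Cfsg.Statements.S4143
import Cfsg.Agent.Lib.Helper1.MaxClass

set_option autoImplicit false
open Cfsg

namespace Cfsg.Agent.S4143

open scoped commutatorElement

theorem comm_of_card_le {p : ℕ} [hp : Fact p.Prime] {T : Type*} [Group T] [Finite T] (k : ℕ)
    (hk : k ≤ 2) (hT : Nat.card T = p ^ k) (a b : T) : a * b = b * a := by
  interval_cases k
  · have h1 : Nat.card T = 1 := by simpa using hT
    have : Subsingleton T := (Nat.card_eq_one_iff_unique.mp h1).1
    rw [Subsingleton.elim a 1, Subsingleton.elim b 1]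
  · have hc : IsCyclic T := isCyclic_of_prime_card (p := p) (by simpa using hT)
    obtain ⟨g, hg⟩ := hc.exists_generator
    obtain ⟨i, hi⟩ := Subgroup.mem_zpowers_iff.mp (hg a)
    obtain ⟨j, hj⟩ := Subgroup.mem_zpowers_iff.mp (hg b)
    rw [← hi, ← hj]
    exact zpow_mul_comm g i j
  · exact (IsPGroup.isMulCommutative_of_card_eq_prime_sq hT).is_comm.comm a b

theorem result {X : Type*} [Group X] [Finite X] {p : ℕ} [Fact p.Prime] (n : ℕ) (hX : Nat.card X = p ^ n)
    (B : Subgroup X) (hB : Nat.card B = p ^ 3) (hBna : ¬ IsMulCommutative B) (hC : Subgroup.centralizer (B : Set X) ≤ B) :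
    Group.nilpotencyClass X = n - 1 := by
  have hp := (Fact.out : p.Prime)
  have hPG : IsPGroup p X := IsPGroup.of_card hX
  have hnil : Group.IsNilpotent X := hPG.isNilpotent
  have hn3 : 3 ≤ n := by
    have h1 := Subgroup.card_subgroup_dvd_card B
    rw [hB, hX] at h1
    exact (Nat.pow_dvd_pow_iff_le_right hp.one_lt).mp h1
  have hnt : Nontrivial X := by
    rw [← Finite.one_lt_card_iff_nontrivial, hX]
    exact Nat.one_lt_pow (by omega) hp.one_lt
  have hZC : Subgroup.center X ≤ Subgroup.centralizer (B : Set X) :=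
    Subgroup.center_le_centralizer _
  have hZB : Subgroup.center X ≤ B := hZC.trans hC
  have hZne : Subgroup.center X ≠ ⊥ := (hPG.bot_lt_center).ne'
  obtain ⟨a, ha, b, hb, hab⟩ : ∃ a ∈ B, ∃ b ∈ B, a * b ≠ b * a := by
    by_contra hcon
    push_neg at hcon
    exact hBna ⟨⟨fun x y => Subtype.ext (hcon x.1 x.2 y.1 y.2)⟩⟩
  have hkey : ∀ T : Subgroup X, T ≤ B → a ∈ T → b ∈ T → T = B := by
    intro T hTB haT hbT
    have hd : Nat.card T ∣ p ^ 3 := by rw [← hB]; exact Subgroup.card_dvd_of_le hTB
    obtain ⟨k, hk, hTk⟩ := (Nat.dvd_prime_pow hp).mp hd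
    by_cases hk3 : k = 3
    · exact Subgroup.eq_of_le_of_card_ge hTB (by rw [hB, hTk, hk3])
    · exfalso
      have h5 := comm_of_card_le k (by omega) hTk (⟨a, haT⟩ : T) ⟨b, hbT⟩
      exact hab (congrArg Subtype.val h5)
  have hCB : Nat.card (Subgroup.centralizer (B : Set X)) = p := by
    have hd : Nat.card (Subgroup.centralizer (B : Set X)) ∣ p ^ 3 := by
      rw [← hB]; exact Subgroup.card_dvd_of_le hC
    obtain ⟨k, hk, hCk⟩ := (Nat.dvd_prime_pow hp).mp hd
    have haC : a ∉ Subgroup.centralizer (B : Set X) := by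
      intro h
      rw [Subgroup.mem_centralizer_iff] at h
      exact hab (h b hb).symm
    have hk0 : k ≠ 0 := by
      intro h0
      rw [h0, pow_zero] at hCk
      have h1 : Subgroup.centralizer (B : Set X) = ⊥ := Subgroup.card_eq_one.mp hCk
      rw [h1] at hZC
      exact hZne (le_bot_iff.mp hZC)
    have hk3 : k ≠ 3 := by
      intro h3
      have h1 : Subgroup.centralizer (B : Set X) = B :=
        Subgroup.eq_of_le_of_card_ge hC (by rw [hB, hCk, h3])
      rw [h1] at haC
      exact haC ha
    have hk2 : k ≠ 2 := by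
      intro h2
      obtain ⟨T, hT⟩ : ∃ T : Subgroup X,
          T = Subgroup.centralizer (B : Set X) ⊔ Subgroup.zpowers a := ⟨_, rfl⟩
      have hTB : T ≤ B := by
        rw [hT]
        exact sup_le hC (by rw [Subgroup.zpowers_le]; exact ha)
      have hTa : T ≤ Subgroup.centralizer ({a} : Set X) := by
        rw [hT]
        apply sup_le
        · exact Subgroup.centralizer_le (by simpa using ha)
        · rw [Subgroup.zpowers_le, Subgroup.mem_centralizer_iff]
          intro h hh
          rw [Set.mem_singleton_iff] at hh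
          rw [hh]
      have haT : a ∈ T := by
        rw [hT]; exact (le_sup_right : Subgroup.zpowers a ≤ _) (Subgroup.mem_zpowers a)
      have hCT : Subgroup.centralizer (B : Set X) ≤ T := by rw [hT]; exact le_sup_left
      have hd2 : Nat.card T ∣ p ^ 3 := by rw [← hB]; exact Subgroup.card_dvd_of_le hTB
      obtain ⟨j, hj, hTj⟩ := (Nat.dvd_prime_pow hp).mp hd2
      have hj2 : 2 < j := by
        by_contra hcon
        have hle : Nat.card T ≤ Nat.card (Subgroup.centralizer (B : Set X)) := by
          rw [hTj, hCk, h2]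
          exact Nat.pow_le_pow_right hp.pos (by omega)
        have h1 := Subgroup.eq_of_le_of_card_ge hCT hle
        rw [h1] at haC
        exact haC haT
      have hTB' : T = B := Subgroup.eq_of_le_of_card_ge hTB (by
        rw [hB, hTj]; exact Nat.pow_le_pow_right hp.pos (by omega))
      have hbT : b ∈ T := by rw [hTB']; exact hb
      have h5 := hTa hbT
      rw [Subgroup.mem_centralizer_iff] at h5
      exact hab (h5 a rfl)
    have : k = 1 := by omega
    rw [hCk, this, pow_one]
  have hZcard : Nat.card (Subgroup.center X) = p := by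
    have hd : Nat.card (Subgroup.center X) ∣ p := by
      rw [← hCB]; exact Subgroup.card_dvd_of_le hZC
    rcases (Nat.dvd_prime hp).mp hd with h | h
    · exact absurd (Subgroup.card_eq_one.mp h) hZne
    · exact h
  have hZeq : Subgroup.centralizer (B : Set X) = Subgroup.center X :=
    (Subgroup.eq_of_le_of_card_ge hZC (by rw [hCB, hZcard])).symm
  obtain ⟨Bb, hBb⟩ : ∃ Bb : Subgroup (X ⧸ Subgroup.center X),
      Bb = B.map (QuotientGroup.mk' (Subgroup.center X)) := ⟨_, rfl⟩
  have hBbcard : Nat.card Bb = p ^ 2 := by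
    have h1 := Cfsg.Agent.Lib.Helper1.MaxClass.card_map_mk_mul (Subgroup.center X) B hZB
    rw [← hBb, hZcard, hB] at h1
    have h2 : Nat.card Bb * p = p ^ 2 * p := by rw [h1]; ring
    exact Nat.eq_of_mul_eq_mul_right hp.pos h2
  have hXbar : Nat.card (X ⧸ Subgroup.center X) = p ^ (n - 1) := by
    have h1 := Subgroup.card_eq_card_quotient_mul_card_subgroup (Subgroup.center X)
    rw [hX, hZcard] at h1
    have h2 : p ^ (n - 1) * p = Nat.card (X ⧸ Subgroup.center X) * p := by
      rw [← h1, ← pow_succ]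
      congr 1
      omega
    exact (Nat.eq_of_mul_eq_mul_right hp.pos h2).symm
  have hBbcomm : ∀ u ∈ Bb, ∀ v ∈ Bb, u * v = v * u := by
    intro u hu v hv
    have h5 := (IsPGroup.isMulCommutative_of_card_eq_prime_sq hBbcard).is_comm.comm
      (⟨u, hu⟩ : ↥Bb) ⟨v, hv⟩
    exact congrArg Subtype.val h5
  obtain ⟨D, hD⟩ : ∃ D : Subgroup X, D = (Subgroup.centralizer (Bb : Set (X ⧸ Subgroup.center X))).comap
      (QuotientGroup.mk' (Subgroup.center X)) := ⟨_, rfl⟩
  have hDc : ∀ y ∈ B, ∀ x ∈ D, ⁅x, y⁆ ∈ Subgroup.center X := by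
    intro y hy x hx
    rw [hD, Subgroup.mem_comap, Subgroup.mem_centralizer_iff] at hx
    have h1 := hx (QuotientGroup.mk' (Subgroup.center X) y)
      (by rw [hBb]; exact Subgroup.mem_map_of_mem _ hy)
    rw [← QuotientGroup.eq_one_iff, ← QuotientGroup.mk'_apply, map_commutatorElement,
      commutatorElement_eq_one_iff_commute]
    exact h1.symm
  have hBD : B ≤ D := by
    intro y hy
    rw [hD, Subgroup.mem_comap, Subgroup.mem_centralizer_iff]
    intro u hu
    exact hBbcomm u hu _ (by rw [hBb]; exact Subgroup.mem_map_of_mem _ hy)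
  have hZD : Subgroup.center X ≤ D := hZB.trans hBD
  obtain ⟨f, hf⟩ : ∃ f : ↥D →* ↥(Subgroup.center X) × ↥(Subgroup.center X),
      f = (Cfsg.Agent.Lib.Helper1.MaxClass.commHom D a (hDc a ha)).prod
        (Cfsg.Agent.Lib.Helper1.MaxClass.commHom D b (hDc b hb)) := ⟨_, rfl⟩
  have hker : f.ker ≤ (Subgroup.center X).subgroupOf D := by
    intro x hx
    rw [MonoidHom.mem_ker, hf, MonoidHom.prod_apply, Prod.mk_eq_one] at hx
    obtain ⟨h1, h2⟩ := hx
    have h1' : ⁅(x : X), a⁆ = 1 := by
      have := congrArg Subtype.val h1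
      rwa [Cfsg.Agent.Lib.Helper1.MaxClass.commHom_apply] at this
    have h2' : ⁅(x : X), b⁆ = 1 := by
      have := congrArg Subtype.val h2
      rwa [Cfsg.Agent.Lib.Helper1.MaxClass.commHom_apply] at this
    rw [commutatorElement_eq_one_iff_commute] at h1' h2'
    have hT := hkey (B ⊓ Subgroup.centralizer ({(x : X)} : Set X)) inf_le_left
      (Subgroup.mem_inf.mpr ⟨ha, by
        rw [Subgroup.mem_centralizer_iff]
        intro h hh
        rw [Set.mem_singleton_iff] at hh
        rw [hh]; exact h1'.eq⟩)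
      (Subgroup.mem_inf.mpr ⟨hb, by
        rw [Subgroup.mem_centralizer_iff]
        intro h hh
        rw [Set.mem_singleton_iff] at hh
        rw [hh]; exact h2'.eq⟩)
    rw [Subgroup.mem_subgroupOf, ← hZeq, Subgroup.mem_centralizer_iff]
    intro y hy
    have hy' : y ∈ B ⊓ Subgroup.centralizer ({(x : X)} : Set X) := by rw [hT]; exact hy
    have h5 := (Subgroup.mem_inf.mp hy').2
    rw [Subgroup.mem_centralizer_iff] at h5
    exact (h5 (x : X) rfl).symm
  have hDcard : Nat.card D ≤ p ^ 3 := by
    have h1 := Subgroup.card_mul_index f.ker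
    rw [Subgroup.index_ker] at h1
    have h2 : Nat.card f.range ≤ p ^ 2 := by
      have := Subgroup.card_le_card_group f.range
      rwa [Nat.card_prod, hZcard, ← pow_two] at this
    have h3 : Nat.card f.ker ≤ p := by
      have := Subgroup.card_le_of_le hker
      rwa [Nat.card_congr (Subgroup.subgroupOfEquivOfLe hZD).toEquiv, hZcard] at this
    calc Nat.card D = Nat.card f.ker * Nat.card f.range := h1.symm
      _ ≤ p * p ^ 2 := Nat.mul_le_mul h3 h2
      _ = p ^ 3 := by ring
  have hDB : B = D := Subgroup.eq_of_le_of_card_ge hBD (by rw [hB]; exact hDcard)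
  have hcent : Subgroup.centralizer (Bb : Set (X ⧸ Subgroup.center X)) = Bb := by
    apply le_antisymm
    · intro y hy
      obtain ⟨x, hx⟩ := QuotientGroup.mk'_surjective (Subgroup.center X) y
      have hxD : x ∈ D := by
        rw [hD, Subgroup.mem_comap, hx]; exact hy
      rw [← hDB] at hxD
      rw [hBb, ← hx]
      exact Subgroup.mem_map_of_mem _ hxD
    · intro y hy
      rw [Subgroup.mem_centralizer_iff]
      intro u hu
      exact hBbcomm u hu y hy
  have h6 := Cfsg.Agent.Lib.Helper1.MaxClass.suzuki_aux (n - 1) (X ⧸ Subgroup.center X) hXbar Bb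
    hBbcard hcent
  rw [Group.nilpotencyClass_eq_quotient_center_plus_one, h6]
  omega

end Cfsg.Agent.S4143
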