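import Mathlib
import Cfsg.Statements.S4145
import Cfsg.Agent.Lib.Helper12.NPC

set_option autoImplicit false
open Cfsg

namespace Cfsg.Agent.S4145

theorem core {G : Type*} [Group G] [Finite G] {p : ℕ} [hp : Fact p.Prime] (P : Sylow p G) (x : G)
    (hxP : x ∈ (P : Subgroup G))
    (hx : ∀ y ∈ (P : Subgroup G), ∃ k : ℤ, x ^ k = y) (g : G)
    (hg : g ∈ Subgroup.normalizer ((P : Subgroup G) : Set G))
    (hw : x ∉ Subgroup.zpowers (g * x * g⁻¹ * x⁻¹)) : g * x = x * g := by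
  obtain ⟨a, ha⟩ := P.isPGroup'.exists_card_eq
  have hxa : x ^ (p ^ a) = 1 := by
    have h1 : orderOf x ∣ Nat.card (P : Subgroup G) := Subgroup.orderOf_dvd_natCard _ hxP
    rw [ha] at h1
    exact orderOf_dvd_iff_pow_eq_one.mp h1
  have hxa' : x ^ ((p : ℤ) ^ a) = 1 := by
    rw [← Nat.cast_pow, zpow_natCast]; exact hxa
  have hgx : g * x * g⁻¹ ∈ (P : Subgroup G) := (Subgroup.mem_set_normalizer_iff.mp hg x).mp hxP
  obtain ⟨k, hk⟩ := hx _ hgx
  have hdvd : (p : ℤ) ∣ k - 1 := by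
    by_contra hnd
    have hcop : IsCoprime ((p : ℤ) ^ a) (k - 1) :=
      ((Nat.prime_iff_prime_int.mp hp.out).irreducible.coprime_iff_not_dvd.mpr hnd).pow_left
    obtain ⟨s, t, hst⟩ := hcop
    apply hw
    rw [Subgroup.mem_zpowers_iff]
    refine ⟨t, ?_⟩
    have hw' : g * x * g⁻¹ * x⁻¹ = x ^ (k - 1) := by rw [zpow_sub, zpow_one, hk]
    have h2 : (k - 1) * t = 1 - s * (p : ℤ) ^ a := by linear_combination hst
    rw [hw', ← zpow_mul, h2, zpow_sub, zpow_one, zpow_mul', hxa', one_zpow, inv_one, mul_one]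
  have hind : ∀ n : ℕ, g ^ n * x * (g ^ n)⁻¹ = x ^ (k ^ n) := by
    intro n
    induction n with
    | zero => simp
    | succ n ih =>
      have h3 : g ^ (n + 1) * x * (g ^ (n + 1))⁻¹ = g * (g ^ n * x * (g ^ n)⁻¹) * g⁻¹ := by
        rw [pow_succ', mul_inv_rev]; simp only [mul_assoc]
      rw [h3, ih, ← conj_zpow, ← hk, ← zpow_mul, pow_succ']
  have hpa : g ^ (p ^ a) * x * (g ^ (p ^ a))⁻¹ = x := by
    rw [hind]
    have h1 : (p : ℤ) ^ (a + 1) ∣ k ^ (p ^ a) - 1 ^ (p ^ a) := dvd_sub_pow_of_dvd_sub hdvd a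
    rw [one_pow] at h1
    obtain ⟨j, hj⟩ := dvd_trans (pow_dvd_pow (p : ℤ) (Nat.le_succ a)) h1
    have h2 : k ^ (p ^ a) = 1 + (p : ℤ) ^ a * j := by linear_combination hj
    rw [h2, zpow_add, zpow_one, zpow_mul, hxa', one_zpow, mul_one]
  obtain ⟨e, m, hm, hem⟩ := Nat.exists_eq_pow_mul_and_not_dvd (orderOf_pos g).ne' p hp.out.ne_one
  have hy : g ^ m ∈ (P : Subgroup G) := by
    have hm0 : m ≠ 0 := by rintro rfl; exact hm (dvd_zero p)
    have hpg : IsPGroup p (Subgroup.zpowers (g ^ m)) := by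
      apply IsPGroup.of_card (n := e)
      rw [Nat.card_zpowers, orderOf_pow_of_dvd hm0 ⟨p ^ e, by rw [hem, mul_comm]⟩, hem,
        Nat.mul_div_cancel _ (Nat.pos_of_ne_zero hm0)]
    have h := hpg.inf_normalizer_sylow P
    have h' : g ^ m ∈ Subgroup.zpowers (g ^ m) ⊓ (P : Subgroup G) := by
      rw [← h]
      exact ⟨Subgroup.mem_zpowers _, pow_mem hg m⟩
    exact h'.2
  have hc2 : Commute (g ^ m) x := by
    obtain ⟨l, hl⟩ := hx _ hy
    rw [← hl]
    exact Commute.zpow_self x l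
  have hc1 : Commute (g ^ (p ^ a)) x := mul_inv_eq_iff_eq_mul.mp hpa
  have hcop : IsCoprime ((p ^ a : ℕ) : ℤ) (m : ℤ) :=
    Nat.isCoprime_iff_coprime.mpr
      (Nat.Coprime.pow_left a ((Nat.Prime.coprime_iff_not_dvd hp.out).mpr hm))
  obtain ⟨s, t, hst⟩ := hcop
  have hgz : g = (g ^ (p ^ a)) ^ s * (g ^ m) ^ t := by
    rw [← zpow_natCast g (p ^ a), ← zpow_natCast g m, ← zpow_mul, ← zpow_mul, ← zpow_add,
      mul_comm _ s, mul_comm _ t, hst, zpow_one]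
  have hfin : Commute g x := by
    rw [hgz]; exact (hc1.zpow_left s).mul_left (hc2.zpow_left t)
  exact hfin.eq

theorem npc_sub {G : Type*} [Group G] [Finite G] {p : ℕ} [hp : Fact p.Prime] (P : Sylow p G) (x : G)
    (hxP : x ∈ (P : Subgroup G))
    (hx : ∀ y ∈ (P : Subgroup G), ∃ k : ℤ, x ^ k = y) (L : Subgroup G)
    (hPL : (P : Subgroup G) ≤ L)
    (hL : ∀ g ∈ L, (∀ y ∈ (P : Subgroup G), g * y * g⁻¹ ∈ (P : Subgroup G)) →
      x ∉ Subgroup.zpowers (g * x * g⁻¹ * x⁻¹)) :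
    ∃ T : Subgroup G, T ≤ L ∧ (Nat.card T).Coprime p ∧
      (∀ y ∈ L, (orderOf y).Coprime p → y ∈ T) ∧
      (∀ u ∈ (P : Subgroup G), ∀ h ∈ L, u * h * u⁻¹ * h⁻¹ ∈ T) ∧
      T.relIndex L = Nat.card (P : Subgroup G) := by
  obtain ⟨Q, hQ⟩ : ∃ Q : Sylow p ↥L, Q = P.subtype hPL := ⟨_, rfl⟩
  have hQmem : ∀ y : ↥L, y ∈ (Q : Subgroup ↥L) ↔ (y : G) ∈ (P : Subgroup G) := by
    intro y; rw [hQ, Sylow.coe_subtype, Subgroup.mem_subgroupOf]
  have hxQ : (⟨x, hPL hxP⟩ : ↥L) ∈ (Q : Subgroup ↥L) := (hQmem _).mpr hxP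
  have hxgen : ∀ y ∈ (Q : Subgroup ↥L), ∃ k : ℤ, (⟨x, hPL hxP⟩ : ↥L) ^ k = y := by
    intro y hy
    obtain ⟨k, hk⟩ := hx _ ((hQmem y).mp hy)
    exact ⟨k, Subtype.ext (by rw [Subgroup.coe_zpow]; exact hk)⟩
  have hNC : Subgroup.normalizer ((Q : Subgroup ↥L) : Set ↥L) ≤
      Subgroup.centralizer ((Q : Subgroup ↥L) : Set ↥L) := by
    intro g hg
    have hgn : ∀ y ∈ (P : Subgroup G), (g : G) * y * (g : G)⁻¹ ∈ (P : Subgroup G) := by
      intro y hy
      have h1 : g * ⟨y, hPL hy⟩ * g⁻¹ ∈ (Q : Subgroup ↥L) :=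
        (Subgroup.mem_set_normalizer_iff.mp hg ⟨y, hPL hy⟩).mp ((hQmem _).mpr hy)
      exact (hQmem _).mp h1
    have hnot : (⟨x, hPL hxP⟩ : ↥L) ∉
        Subgroup.zpowers (g * ⟨x, hPL hxP⟩ * g⁻¹ * (⟨x, hPL hxP⟩ : ↥L)⁻¹) := by
      intro hmem
      rw [Subgroup.mem_zpowers_iff] at hmem
      obtain ⟨s, hs⟩ := hmem
      apply hL (g : G) g.2 hgn
      rw [Subgroup.mem_zpowers_iff]
      refine ⟨s, ?_⟩
      have := congrArg Subtype.val hs
      simpa using this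
    have hcomm := core Q ⟨x, hPL hxP⟩ hxQ hxgen g hg hnot
    rw [Subgroup.mem_centralizer_iff]
    intro y hy
    obtain ⟨k, hk⟩ := hxgen y hy
    rw [← hk]
    exact ((show Commute g ⟨x, hPL hxP⟩ from hcomm).zpow_right k).eq.symm
  have hcommQ : ∀ a b : ↥(Q : Subgroup ↥L), a * b = b * a := by
    intro a b
    obtain ⟨ka, hka⟩ := hxgen a a.2
    obtain ⟨kb, hkb⟩ := hxgen b b.2
    apply Subtype.ext
    rw [Subgroup.coe_mul, Subgroup.coe_mul, ← hka, ← hkb]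
    exact (Commute.zpow_zpow_self _ ka kb).eq
  obtain ⟨f, hf⟩ : ∃ f : ↥L →* ↥(Q : Subgroup ↥L), f = MonoidHom.transferSylow Q hNC := ⟨_, rfl⟩
  have hcompl : Subgroup.IsComplement' f.ker (Q : Subgroup ↥L) := by
    rw [hf]; exact MonoidHom.ker_transferSylow_isComplement' Q hNC
  have hnd : ¬ p ∣ Nat.card f.ker := by
    rw [hf]; exact MonoidHom.not_dvd_card_ker_transferSylow Q hNC
  refine ⟨f.ker.map L.subtype, Subgroup.map_subtype_le _, ?_, ?_, ?_, ?_⟩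
  · rw [Subgroup.card_map_of_injective (Subgroup.subtype_injective _)]
    exact ((Nat.Prime.coprime_iff_not_dvd hp.out).mpr hnd).symm
  · intro y hy hcop
    refine ⟨⟨y, hy⟩, ?_, rfl⟩
    rw [SetLike.mem_coe, MonoidHom.mem_ker]
    have h1 : orderOf (f ⟨y, hy⟩) ∣ orderOf (⟨y, hy⟩ : ↥L) := orderOf_map_dvd _ _
    rw [Subgroup.orderOf_mk y hy] at h1
    obtain ⟨k, hk⟩ := (IsPGroup.iff_orderOf.mp Q.isPGroup') (f ⟨y, hy⟩)
    rw [hk] at h1
    have h3 : p ^ k = 1 := Nat.Coprime.eq_one_of_dvd (Nat.Coprime.pow_left k hcop.symm) h1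
    rw [h3] at hk
    exact orderOf_eq_one_iff.mp hk
  · intro u hu h hh
    refine ⟨⟨u, hPL hu⟩ * ⟨h, hh⟩ * (⟨u, hPL hu⟩ : ↥L)⁻¹ * (⟨h, hh⟩ : ↥L)⁻¹, ?_, rfl⟩
    rw [SetLike.mem_coe, MonoidHom.mem_ker, map_mul, map_mul, map_mul, map_inv, map_inv,
      hcommQ (f ⟨u, hPL hu⟩) (f ⟨h, hh⟩), mul_inv_cancel_right, mul_inv_cancel]
  · have h1 : (f.ker.map L.subtype).relIndex L = f.ker.index := by
      rw [Subgroup.relIndex, Subgroup.subgroupOf,
        Subgroup.comap_map_eq_self_of_injective (Subgroup.subtype_injective _)]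
    rw [h1, hcompl.symm.index_eq_card, hQ, Sylow.coe_subtype]
    exact Nat.card_congr (Subgroup.subgroupOfEquivOfLe hPL).toEquiv

theorem result {G : Type*} [Group G] [Finite G] (p : ℕ) [Fact p.Prime]
    (P : Sylow p G) (hP : IsCyclic (P : Subgroup G)) (H : Subgroup G) [H.Normal] (h1 : p ∣ Nat.card H) (h2 : p ∣ H.index) :
    Cfsg.HasNormalPComplement p H ∧ Cfsg.IsPSolvable p G := by
  have hp : Fact p.Prime := inferInstance
  have hHn : H.Normal := inferInstance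
  obtain ⟨⟨x, hxP⟩, hgen⟩ := hP.exists_zpow_surjective
  have hx : ∀ y ∈ (P : Subgroup G), ∃ k : ℤ, x ^ k = y := by
    intro y hy
    obtain ⟨k, hk⟩ := hgen ⟨y, hy⟩
    refine ⟨k, ?_⟩
    have := congrArg Subtype.val hk
    simpa using this
  have hPcomm : ∀ u ∈ (P : Subgroup G), u * x = x * u := by
    intro u hu
    obtain ⟨k, hk⟩ := hx u hu
    rw [← hk]; exact (Commute.zpow_self x k).eq
  have hPH : ¬ (P : Subgroup G) ≤ H := by
    intro hle
    exact P.not_dvd_index (h2.trans (Subgroup.index_dvd_of_le hle))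
  obtain ⟨T1, hT1L, hT1c, hT1p, hT1comm, -⟩ :=
    npc_sub P x hxP hx (H ⊔ (P : Subgroup G)) le_sup_right (by
      intro g hg hgn hmem
      rw [← SetLike.mem_coe, Subgroup.normal_mul] at hg
      obtain ⟨h, hh, u, hu, rfl⟩ := hg
      have hw : h * u * x * (h * u)⁻¹ * x⁻¹ ∈ H := by
        have e : h * u * x * (h * u)⁻¹ * x⁻¹ = h * (x * h⁻¹ * x⁻¹) := by
          have hux := hPcomm u hu
          calc h * u * x * (h * u)⁻¹ * x⁻¹ = h * (u * x) * u⁻¹ * h⁻¹ * x⁻¹ := by group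
            _ = h * (x * u) * u⁻¹ * h⁻¹ * x⁻¹ := by rw [hux]
            _ = h * (x * h⁻¹ * x⁻¹) := by group
        rw [e]
        exact H.mul_mem hh (hHn.conj_mem _ (H.inv_mem hh) x)
      have hxH : x ∈ H := (Subgroup.zpowers_le.mpr hw) hmem
      apply hPH
      intro y hy
      obtain ⟨k, hk⟩ := hx y hy
      rw [← hk]; exact H.zpow_mem hxH k)
  obtain ⟨K, hKdef⟩ : ∃ K : Subgroup G, K = T1 ⊓ H := ⟨_, rfl⟩
  have hKa : ∀ y ∈ K, (orderOf y).Coprime p := by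
    intro y hy
    rw [hKdef] at hy
    exact Nat.Coprime.coprime_dvd_left (Subgroup.orderOf_dvd_natCard _ hy.1) hT1c
  have hKb : ∀ y ∈ H, (orderOf y).Coprime p → y ∈ K := by
    intro y hy hc
    rw [hKdef]
    exact ⟨hT1p y ((le_sup_left : H ≤ H ⊔ (P : Subgroup G)) hy) hc, hy⟩
  have hconj_order : ∀ (c y : G), orderOf (c * y * c⁻¹) = orderOf y := by
    intro c y
    have e : c * y * c⁻¹ = MulAut.conj c y := by simp [MulAut.conj_apply]
    rw [e, MulEquiv.orderOf_eq]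
  have hKH : K ≤ H := by rw [hKdef]; exact inf_le_right
  have hKn : K.Normal := by
    constructor
    intro y hy c
    apply hKb _ (hHn.conj_mem y (hKH hy) c)
    rw [hconj_order]; exact hKa y hy
  have hKc : (Nat.card K).Coprime p := by
    have hle : K ≤ T1 := by rw [hKdef]; exact inf_le_left
    exact Nat.Coprime.coprime_dvd_left (Subgroup.card_dvd_of_le hle) hT1c
  have part1 : Cfsg.HasNormalPComplement p ↥H := by
    have hn : (K.subgroupOf H).Normal := inferInstance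
    apply Cfsg.Agent.Lib.Helper12.NPC.hasNormalPComplement_of (K.subgroupOf H)
    · rw [Nat.card_congr (Subgroup.subgroupOfEquivOfLe hKH).toEquiv]
      exact hKc
    · intro y hy
      rw [Subgroup.mem_subgroupOf]
      apply hKb _ y.2
      rw [Subgroup.orderOf_coe]; exact hy
  obtain ⟨C, hC⟩ : ∃ C : Subgroup G, ∀ g, g ∈ C ↔ ∀ h ∈ H, g * h * g⁻¹ * h⁻¹ ∈ K :=
    ⟨{ carrier := {g | ∀ h ∈ H, g * h * g⁻¹ * h⁻¹ ∈ K}
       one_mem' := by
         intro h hh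
         have e : (1 : G) * h * 1⁻¹ * h⁻¹ = 1 := by group
         rw [e]; exact K.one_mem
       mul_mem' := by
         intro a b ha hb h hh
         have e : a * b * h * (a * b)⁻¹ * h⁻¹ =
             a * (b * h * b⁻¹ * h⁻¹) * a⁻¹ * (a * h * a⁻¹ * h⁻¹) := by group
         rw [e]
         exact K.mul_mem (hKn.conj_mem _ (hb h hh) a) (ha h hh)
       inv_mem' := by
         intro a ha h hh
         have e : a⁻¹ * h * a⁻¹⁻¹ * h⁻¹ = a⁻¹ * (a * h * a⁻¹ * h⁻¹)⁻¹ * a⁻¹⁻¹ := by group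
         rw [e]
         exact hKn.conj_mem _ (K.inv_mem (ha h hh)) a⁻¹ }, fun g => Iff.rfl⟩
  have hCn : C.Normal := by
    constructor
    intro g hg c
    rw [hC] at hg ⊢
    intro h hh
    have e : c * g * c⁻¹ * h * (c * g * c⁻¹)⁻¹ * h⁻¹ =
        c * (g * (c⁻¹ * h * c⁻¹⁻¹) * g⁻¹ * (c⁻¹ * h * c⁻¹⁻¹)⁻¹) * c⁻¹ := by group
    rw [e]
    exact hKn.conj_mem _ (hg _ (hHn.conj_mem h hh c⁻¹)) c
  have hPC : (P : Subgroup G) ≤ C := by
    intro u hu
    rw [hC]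
    intro h hh
    rw [hKdef]
    exact ⟨hT1comm u hu h ((le_sup_left : H ≤ H ⊔ (P : Subgroup G)) hh),
      H.mul_mem (hHn.conj_mem h hh u) (H.inv_mem hh)⟩
  obtain ⟨z, hzP, hzH, hz1⟩ : ∃ z, z ∈ (P : Subgroup G) ∧ z ∈ H ∧ z ≠ 1 := by
    obtain ⟨h0, hh0⟩ := exists_prime_orderOf_dvd_card' (G := ↥H) p h1
    have hpg : IsPGroup p (Subgroup.zpowers (h0 : G)) := by
      apply IsPGroup.of_card (n := 1)
      rw [Nat.card_zpowers, Subgroup.orderOf_coe, hh0, pow_one]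
    obtain ⟨c, hc⟩ := Cfsg.Agent.Lib.Helper12.SylowBasic.exists_conj_le_sylow P _ hpg
    refine ⟨c * (h0 : G) * c⁻¹, hc _ (Subgroup.mem_zpowers _), hHn.conj_mem _ h0.2 c, ?_⟩
    intro h
    rw [conj_eq_one_iff] at h
    have h0' : h0 = 1 := Subtype.ext h
    rw [h0', orderOf_one] at hh0
    exact hp.out.ne_one hh0.symm
  obtain ⟨T, hTC, hTc, hTp, -, hTrel⟩ := npc_sub P x hxP hx C hPC (by
    intro g hg hgn hmem
    rw [Subgroup.mem_zpowers_iff] at hmem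
    obtain ⟨s, hs⟩ := hmem
    have hgz : g * z * g⁻¹ * z⁻¹ = 1 := by
      have h1 : g * z * g⁻¹ * z⁻¹ ∈ K := (hC g).mp hg z hzH
      have h2 : g * z * g⁻¹ * z⁻¹ ∈ (P : Subgroup G) :=
        (P : Subgroup G).mul_mem (hgn z hzP) ((P : Subgroup G).inv_mem hzP)
      have h3 := hKa _ h1
      obtain ⟨k, hk⟩ := (IsPGroup.iff_orderOf.mp P.isPGroup') ⟨_, h2⟩
      rw [Subgroup.orderOf_mk _ h2] at hk
      rw [hk] at h3
      rcases Nat.eq_zero_or_pos k with rfl | hkpos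
      · rw [pow_zero] at hk
        exact orderOf_eq_one_iff.mp hk
      · exact absurd (dvd_pow_self p hkpos.ne') ((Nat.Prime.coprime_iff_not_dvd hp.out).mp h3.symm)
    obtain ⟨j, hj⟩ := hx z hzP
    obtain ⟨k, hk⟩ := hx _ (hgn x hxP)
    have hwj : (g * x * g⁻¹ * x⁻¹) ^ j = 1 := by
      have hcm : Commute (g * x * g⁻¹) x⁻¹ := by
        rw [← hk]; exact (Commute.zpow_self x k).inv_right
      rw [hcm.mul_zpow, conj_zpow, inv_zpow, hj]; exact hgz
    apply hz1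
    rw [← hj, ← hs, ← zpow_mul, mul_comm s j, zpow_mul, hwj, one_zpow])
  have hTn : T.Normal := by
    constructor
    intro y hy c
    apply hTp _ (hCn.conj_mem y (hTC hy) c)
    rw [hconj_order]
    exact Nat.Coprime.coprime_dvd_left (Subgroup.orderOf_dvd_natCard _ hy) hTc
  refine ⟨part1, 3, ![⊥, T, C, ⊤], rfl, rfl, ?_, ?_, ?_⟩
  · apply Fin.monotone_iff_le_succ.mpr
    intro i
    fin_cases i
    · exact bot_le
    · exact hTC
    · exact le_top
  · intro i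
    fin_cases i
    · exact Subgroup.normal_bot
    · exact hTn
    · exact hCn
    · exact Subgroup.normal_top
  · intro i
    fin_cases i
    · right
      show ((⊥ : Subgroup G).relIndex T).Coprime p
      rw [Subgroup.relIndex_bot_left]; exact hTc
    · left
      obtain ⟨a, ha⟩ := P.isPGroup'.exists_card_eq
      exact ⟨a, by show T.relIndex C = p ^ a; rw [hTrel, ha]⟩
    · right
      show (C.relIndex ⊤).Coprime p
      rw [Subgroup.relIndex_top_right]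
      have hnd : ¬ p ∣ C.index := fun h => P.not_dvd_index (h.trans (Subgroup.index_dvd_of_le hPC))
      exact ((Nat.Prime.coprime_iff_not_dvd hp.out).mpr hnd).symm

end Cfsg.Agent.S4145
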