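import Mathlib
import Cfsg.Statements.S4152
import Cfsg.Agent.Lib.Helper14.ClassSize

set_option autoImplicit false
open Cfsg

namespace Cfsg.Agent.S4152

theorem split (π : Set ℕ) : ∀ M : ℕ, M ≠ 0 → ∃ a b : ℕ, a * b = M ∧ Nat.Coprime a b ∧
    (∀ q : ℕ, q.Prime → q ∣ a → q ∈ π) ∧ (∀ q : ℕ, q.Prime → q ∣ b → q ∉ π) := by
  intro M
  induction M using Nat.strong_induction_on with
  | _ M ih =>
  intro hM
  by_cases h1 : M = 1
  · exact ⟨1, 1, by rw [h1], Nat.coprime_one_left 1,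
      fun q hq hd => absurd (Nat.dvd_one.1 hd) hq.ne_one,
      fun q hq hd => absurd (Nat.dvd_one.1 hd) hq.ne_one⟩
  · obtain ⟨q, hq, hqM⟩ := Nat.exists_prime_and_dvd h1
    obtain ⟨k, M', hqM', hMeq⟩ := Nat.exists_eq_pow_mul_and_not_dvd hM q hq.ne_one
    have hk0 : k ≠ 0 := by
      rintro rfl
      rw [pow_zero, one_mul] at hMeq
      exact hqM' (hMeq ▸ hqM)
    have hM'0 : M' ≠ 0 := by
      rintro rfl
      exact hM (by rw [hMeq, mul_zero])
    have hlt : M' < M := by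
      have h2 : 2 ≤ q ^ k := (hq.two_le).trans (Nat.le_self_pow hk0 q)
      have h3 : 0 < M' := Nat.pos_of_ne_zero hM'0
      rw [hMeq]
      nlinarith
    obtain ⟨a', b', hab, hcop, ha, hb⟩ := ih M' hlt hM'0
    have hqa : ¬ q ∣ a' := fun h => hqM' (hab ▸ Dvd.dvd.mul_right h b')
    have hqb : ¬ q ∣ b' := fun h => hqM' (hab ▸ Dvd.dvd.mul_left h a')
    by_cases hqπ : q ∈ π
    · refine ⟨q ^ k * a', b', by rw [hMeq, ← hab, mul_assoc], ?_, ?_, hb⟩
      · exact (Nat.Coprime.mul_right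
          (Nat.Coprime.pow_right k ((Nat.Prime.coprime_iff_not_dvd hq).2 hqb).symm) hcop.symm).symm
      · intro r hr hd
        rcases (Nat.Prime.dvd_mul hr).1 hd with h | h
        · have := (Nat.prime_dvd_prime_iff_eq hr hq).1 (hr.dvd_of_dvd_pow h)
          rw [this]; exact hqπ
        · exact ha r hr h
    · refine ⟨a', q ^ k * b', by rw [hMeq, ← hab]; ring, ?_, ha, ?_⟩
      · exact Nat.Coprime.mul_right
          (Nat.Coprime.pow_right k ((Nat.Prime.coprime_iff_not_dvd hq).2 hqa).symm) hcop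
      · intro r hr hd
        rcases (Nat.Prime.dvd_mul hr).1 hd with h | h
        · have := (Nat.prime_dvd_prime_iff_eq hr hq).1 (hr.dvd_of_dvd_pow h)
          rw [this]; exact hqπ
        · exact hb r hr h

theorem fiber_sum {α β : Type*} [Finite α] [Finite β] (f : α → β) (n : ℕ)
    (h : ∀ b, Nat.card {a // f a = b} ≤ n) : Nat.card α ≤ n * Nat.card β := by
  classical
  haveI : Fintype β := Fintype.ofFinite β
  rw [Nat.card_congr (Equiv.sigmaFiberEquiv f).symm, Nat.card_sigma]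
  calc ∑ b, Nat.card {a // f a = b} ≤ ∑ _b : β, n := Finset.sum_le_sum (fun b _ => h b)
    _ = n * Nat.card β := by
      rw [Finset.sum_const, Finset.card_univ, smul_eq_mul, ← Nat.card_eq_fintype_card, mul_comm]

theorem orderOf_conj_eq {X : Type*} [Group X] (c g : X) : orderOf (c * g * c⁻¹) = orderOf g := by
  have := (MulAut.conj c).orderOf_eq g
  rwa [MulAut.conj_apply] at this

theorem orderOf_eq_of_mk_eq {X : Type*} [Group X] (g x : X)
    (h : ConjClasses.mk g = ConjClasses.mk x) : orderOf g = orderOf x := by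
  obtain ⟨c, hc⟩ := isConj_iff.1 (ConjClasses.mk_eq_mk_iff_isConj.1 h)
  rw [← hc, orderOf_conj_eq]

theorem class_pairs {X : Type*} [Group X] [Finite X] (C : ConjClasses X) :
    Nat.card {p : X × X // ConjClasses.mk p.1 = C ∧ p.1 * p.2 = p.2 * p.1} = Nat.card X := by
  classical
  obtain ⟨x₀, rfl⟩ := ConjClasses.mk_surjective C
  haveI : Fintype {x : X // ConjClasses.mk x = ConjClasses.mk x₀} := Fintype.ofFinite _
  let e : {p : X × X // ConjClasses.mk p.1 = ConjClasses.mk x₀ ∧ p.1 * p.2 = p.2 * p.1} ≃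
      Σ x : {x : X // ConjClasses.mk x = ConjClasses.mk x₀}, {h : X // x.1 * h = h * x.1} :=
    { toFun := fun p => ⟨⟨p.1.1, p.2.1⟩, ⟨p.1.2, p.2.2⟩⟩
      invFun := fun s => ⟨(s.1.1, s.2.1), s.1.2, s.2.2⟩
      left_inv := fun p => rfl
      right_inv := fun s => rfl }
  rw [Nat.card_congr e, Nat.card_sigma]
  have key : ∀ x : {x : X // ConjClasses.mk x = ConjClasses.mk x₀},
      Nat.card {h : X // x.1 * h = h * x.1} *
        Nat.card {x : X // ConjClasses.mk x = ConjClasses.mk x₀} = Nat.card X := by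
    rintro ⟨x, hx⟩
    have h1 : Nat.card {h : X // x * h = h * x} =
        Nat.card (Subgroup.centralizer ({x} : Set X)) := by
      apply Nat.card_congr
      apply Equiv.subtypeEquivRight
      intro h
      rw [Subgroup.mem_centralizer_iff]
      simp
    have h2 : Nat.card {y : X // ConjClasses.mk y = ConjClasses.mk x₀} =
        (Subgroup.centralizer ({x} : Set X)).index := by
      rw [Cfsg.Agent.Lib.Helper14.ClassSize.index_centralizer_eq_ncard, ← Nat.card_coe_set_eq]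
      apply Nat.card_congr
      apply Equiv.subtypeEquivRight
      intro y
      exact ⟨fun h => (ConjClasses.mk_eq_mk_iff_isConj.1 (h.trans hx.symm)).symm,
        fun h => (ConjClasses.mk_eq_mk_iff_isConj.2 (IsConj.symm h)).trans hx⟩
    show Nat.card {h : X // x * h = h * x} *
        Nat.card {x : X // ConjClasses.mk x = ConjClasses.mk x₀} = Nat.card X
    rw [h1, h2]
    exact Subgroup.card_mul_index _
  have hm : Nat.card {x : X // ConjClasses.mk x = ConjClasses.mk x₀} ≠ 0 := by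
    haveI : Nonempty {x : X // ConjClasses.mk x = ConjClasses.mk x₀} := ⟨⟨x₀, rfl⟩⟩
    exact Nat.card_pos.ne'
  apply Nat.eq_of_mul_eq_mul_right (Nat.pos_of_ne_zero hm)
  rw [Finset.sum_mul]
  simp only [key]
  rw [Finset.sum_const, Finset.card_univ, smul_eq_mul, ← Nat.card_eq_fintype_card, mul_comm]

theorem pairs_eq {X : Type*} [Group X] [Finite X] (π : Set ℕ) :
    Nat.card {p : X × X // (∀ q : ℕ, q.Prime → q ∣ orderOf p.1 → q ∈ π) ∧ p.1 * p.2 = p.2 * p.1} =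
      Nat.card {C : ConjClasses X // ∀ q : ℕ, q.Prime →
        (∃ g : X, ConjClasses.mk g = C ∧ q ∣ orderOf g) → q ∈ π} * Nat.card X := by
  classical
  haveI : Fintype {C : ConjClasses X // ∀ q : ℕ, q.Prime →
      (∃ g : X, ConjClasses.mk g = C ∧ q ∣ orderOf g) → q ∈ π} := Fintype.ofFinite _
  let e : {p : X × X // (∀ q : ℕ, q.Prime → q ∣ orderOf p.1 → q ∈ π) ∧ p.1 * p.2 = p.2 * p.1} ≃
      Σ C : {C : ConjClasses X // ∀ q : ℕ, q.Prime →
          (∃ g : X, ConjClasses.mk g = C ∧ q ∣ orderOf g) → q ∈ π},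
        {p : X × X // ConjClasses.mk p.1 = C.1 ∧ p.1 * p.2 = p.2 * p.1} :=
    { toFun := fun p => ⟨⟨ConjClasses.mk p.1.1, fun q hq hg => by
          obtain ⟨g, hg, hd⟩ := hg
          apply p.2.1 q hq
          rwa [← orderOf_eq_of_mk_eq g p.1.1 hg]⟩, ⟨p.1, rfl, p.2.2⟩⟩
      invFun := fun s => ⟨s.2.1, fun q hq hd => s.1.2 q hq ⟨s.2.1.1, s.2.2.1, hd⟩, s.2.2.2⟩
      left_inv := fun p => rfl
      right_inv := by
        rintro ⟨⟨C, hC⟩, ⟨p, hpC, hc⟩⟩
        obtain rfl : ConjClasses.mk p.1 = C := hpC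
        rfl }
  rw [Nat.card_congr e, Nat.card_sigma]
  simp only [class_pairs]
  rw [Finset.sum_const, Finset.card_univ, smul_eq_mul, ← Nat.card_eq_fintype_card]

theorem coset_le {G : Type*} [Group G] [Finite G] (N : Subgroup G) (S : G → Prop) (t : G ⧸ N) :
    Nat.card {p : G × G // S p.1 ∧ (QuotientGroup.mk p.2 : G ⧸ N) = t ∧ p.1 * p.2 = p.2 * p.1} ≤
      Nat.card {p : G × N // S p.1 ∧ p.1 * (p.2 : G) = (p.2 : G) * p.1} := by
  classical
  let w : G → G := fun x =>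
    if hx : ∃ h : G, (QuotientGroup.mk h : G ⧸ N) = t ∧ x * h = h * x then hx.choose else 1
  have hw : ∀ x h : G, (QuotientGroup.mk h : G ⧸ N) = t → x * h = h * x →
      (QuotientGroup.mk (w x) : G ⧸ N) = t ∧ x * w x = w x * x := by
    intro x h h1 h2
    have hx : ∃ h : G, (QuotientGroup.mk h : G ⧸ N) = t ∧ x * h = h * x := ⟨h, h1, h2⟩
    have : w x = hx.choose := dif_pos hx
    rw [this]
    exact hx.choose_spec
  let f : {p : G × G // S p.1 ∧ (QuotientGroup.mk p.2 : G ⧸ N) = t ∧ p.1 * p.2 = p.2 * p.1} →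
      {p : G × N // S p.1 ∧ p.1 * (p.2 : G) = (p.2 : G) * p.1} := fun p =>
    ⟨(p.1.1, ⟨(w p.1.1)⁻¹ * p.1.2,
        QuotientGroup.eq.1 ((hw p.1.1 p.1.2 p.2.2.1 p.2.2.2).1.trans p.2.2.1.symm)⟩), p.2.1, by
        have c1 : Commute p.1.1 (w p.1.1) := (hw p.1.1 p.1.2 p.2.2.1 p.2.2.2).2
        have c2 : Commute p.1.1 p.1.2 := p.2.2.2
        exact (c1.inv_right.mul_right c2).eq⟩
  apply Nat.card_le_card_of_injective f
  rintro ⟨⟨x, h⟩, hp⟩ ⟨⟨x', h'⟩, hp'⟩ hff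
  have h1 : x = x' := congrArg (fun q => q.1.1) hff
  subst h1
  have h2 : (w x)⁻¹ * h = (w x)⁻¹ * h' := congrArg (fun q => (q.1.2 : G)) hff
  have h3 : h = h' := mul_left_cancel h2
  subst h3
  rfl

theorem step2 {G : Type*} [Group G] [Finite G] (N : Subgroup G) (π : Set ℕ) (s : G ⧸ N) :
    Nat.card {p : G × N // ((QuotientGroup.mk p.1 : G ⧸ N) = s ∧
        ∀ q : ℕ, q.Prime → q ∣ orderOf p.1 → q ∈ π) ∧ p.1 * (p.2 : G) = (p.2 : G) * p.1} ≤
      Nat.card {p : G × G // (p.1 ∈ N ∧ ∀ q : ℕ, q.Prime → q ∣ orderOf p.1 → q ∈ π) ∧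
        (QuotientGroup.mk p.2 : G ⧸ N) = s ∧ p.1 * p.2 = p.2 * p.1} := by
  obtain ⟨a, b, hab, hcop, ha, hb⟩ := split π (Nat.card G) Nat.card_pos.ne'
  obtain ⟨u, v, huv⟩ : ∃ u v : ℤ, u * a + v * b = 1 := Nat.isCoprime_iff_coprime.2 hcop
  have hpow : ∀ x : G, x ^ (a * b) = 1 := fun x => by rw [hab]; exact pow_card_eq_one'
  have hPi : ∀ x : G, (∀ q : ℕ, q.Prime → q ∣ orderOf x → q ∈ π) → x ^ a = 1 := by
    intro x hx
    have h1 : orderOf x ∣ a * b := orderOf_dvd_of_pow_eq_one (hpow x)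
    have h2 : Nat.Coprime (orderOf x) b := by
      by_contra hcon
      obtain ⟨q, hq, hq1, hq2⟩ := Nat.Prime.not_coprime_iff_dvd.1 hcon
      exact hb q hq hq2 (hx q hq hq1)
    exact orderOf_dvd_iff_pow_eq_one.1 (h2.dvd_of_dvd_mul_right h1)
  obtain ⟨e1, he1⟩ : ∃ e : ℤ, e = v * b := ⟨_, rfl⟩
  obtain ⟨e2, he2⟩ : ∃ e : ℤ, e = u * a := ⟨_, rfl⟩
  have hA : ∀ x : G, x ^ e2 * x ^ e1 = x := by
    intro x
    rw [← zpow_add, he1, he2, huv, zpow_one]
  have hB : ∀ x : G, (x ^ e1) ^ a = 1 := by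
    intro x
    have h1 : e1 * (a : ℤ) = ((a * b : ℕ) : ℤ) * v := by rw [he1]; push_cast; ring
    rw [← zpow_natCast, ← zpow_mul, h1, zpow_mul, zpow_natCast, hpow, one_zpow]
  have hC : ∀ x : G, x ^ a = 1 → x ^ e2 = 1 := by
    intro x hx
    rw [he2, mul_comm, zpow_mul, zpow_natCast, hx, one_zpow]
  have hC' : ∀ x : G, x ^ a = 1 → x ^ e1 = x := by
    intro x hx
    have := hA x
    rwa [hC x hx, one_mul] at this
  have hD : ∀ x : G, (x ^ e2) ^ e1 = 1 := by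
    intro x
    have h1 : e2 * e1 = ((a * b : ℕ) : ℤ) * (u * v) := by rw [he1, he2]; push_cast; ring
    rw [← zpow_mul, h1, zpow_mul, zpow_natCast, hpow, one_zpow]
  have hE : ∀ x : G, ∀ q : ℕ, q.Prime → q ∣ orderOf (x ^ e1) → q ∈ π := by
    intro x q hq hd
    exact ha q hq (hd.trans (orderOf_dvd_of_pow_eq_one (hB x)))
  let f : {p : G × N // ((QuotientGroup.mk p.1 : G ⧸ N) = s ∧
        ∀ q : ℕ, q.Prime → q ∣ orderOf p.1 → q ∈ π) ∧ p.1 * (p.2 : G) = (p.2 : G) * p.1} →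
      {p : G × G // (p.1 ∈ N ∧ ∀ q : ℕ, q.Prime → q ∣ orderOf p.1 → q ∈ π) ∧
        (QuotientGroup.mk p.2 : G ⧸ N) = s ∧ p.1 * p.2 = p.2 * p.1} := fun p =>
    ⟨((p.1.2 : G) ^ e1, p.1.1 * (p.1.2 : G) ^ e2), ⟨N.zpow_mem p.1.2.2 e1, hE _⟩, by
        have h1 : (QuotientGroup.mk p.1.1 : G ⧸ N) = QuotientGroup.mk (p.1.1 * (p.1.2 : G) ^ e2) :=
          QuotientGroup.eq.2 (by rw [inv_mul_cancel_left]; exact N.zpow_mem p.1.2.2 e2)
        exact h1.symm.trans p.2.1.1, by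
        have c : Commute p.1.1 (p.1.2 : G) := p.2.2
        exact ((c.symm.zpow_left e1).mul_right
          ((Commute.refl (p.1.2 : G)).zpow_zpow e1 e2)).eq⟩
  apply Nat.card_le_card_of_injective f
  rintro ⟨⟨x, n⟩, ⟨hs, hπ⟩, hc⟩ ⟨⟨x', n'⟩, ⟨hs', hπ'⟩, hc'⟩ hff
  have h1 : (n : G) ^ e1 = (n' : G) ^ e1 := congrArg (fun q => q.1.1) hff
  have h2 : x * (n : G) ^ e2 = x' * (n' : G) ^ e2 := congrArg (fun q => q.1.2) hff
  have key : ∀ (y : G) (m : G), (∀ q : ℕ, q.Prime → q ∣ orderOf y → q ∈ π) → y * m = m * y →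
      (y * m ^ e2) ^ e1 = y := by
    intro y m hy hym
    have c : Commute y m := hym
    rw [(c.zpow_right e2).mul_zpow e1, hD m, mul_one, hC' y (hPi y hy)]
  have h3 : x = x' := by
    have h4 : (x * (n : G) ^ e2) ^ e1 = (x' * (n' : G) ^ e2) ^ e1 := by rw [h2]
    rwa [key x n hπ hc, key x' n' hπ' hc'] at h4
  subst h3
  have h4 : (n : G) ^ e2 = (n' : G) ^ e2 := mul_left_cancel h2
  have h5 : (n : G) = n' := by
    calc (n : G) = (n : G) ^ e2 * (n : G) ^ e1 := (hA _).symm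
      _ = (n' : G) ^ e2 * (n' : G) ^ e1 := by rw [h1, h4]
      _ = n' := hA _
  have h6 : n = n' := Subtype.ext h5
  subst h6
  rfl

theorem pairs_le {G : Type*} [Group G] [Finite G] (N : Subgroup G) [N.Normal] (π : Set ℕ) :
    Nat.card {p : G × G // (∀ q : ℕ, q.Prime → q ∣ orderOf p.1 → q ∈ π) ∧ p.1 * p.2 = p.2 * p.1} ≤
      Nat.card {p : N × N // (∀ q : ℕ, q.Prime → q ∣ orderOf p.1 → q ∈ π) ∧
          p.1 * p.2 = p.2 * p.1} *
        Nat.card {p : (G ⧸ N) × (G ⧸ N) // (∀ q : ℕ, q.Prime → q ∣ orderOf p.1 → q ∈ π) ∧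
          p.1 * p.2 = p.2 * p.1} := by
  let φ : {p : G × G // (∀ q : ℕ, q.Prime → q ∣ orderOf p.1 → q ∈ π) ∧ p.1 * p.2 = p.2 * p.1} →
      {p : (G ⧸ N) × (G ⧸ N) // (∀ q : ℕ, q.Prime → q ∣ orderOf p.1 → q ∈ π) ∧
        p.1 * p.2 = p.2 * p.1} :=
    fun p => ⟨((QuotientGroup.mk p.1.1 : G ⧸ N), (QuotientGroup.mk p.1.2 : G ⧸ N)),
      fun q hq hd => p.2.1 q hq (hd.trans (orderOf_map_dvd (QuotientGroup.mk' N) p.1.1)), by
        show (QuotientGroup.mk p.1.1 : G ⧸ N) * QuotientGroup.mk p.1.2 =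
          QuotientGroup.mk p.1.2 * QuotientGroup.mk p.1.1
        rw [← QuotientGroup.mk_mul, ← QuotientGroup.mk_mul, p.2.2]⟩
  apply fiber_sum φ
  rintro ⟨⟨s, t⟩, hst⟩
  calc Nat.card {p // φ p = ⟨(s, t), hst⟩}
      ≤ Nat.card {p : G × G // ((QuotientGroup.mk p.1 : G ⧸ N) = s ∧
          ∀ q : ℕ, q.Prime → q ∣ orderOf p.1 → q ∈ π) ∧
          (QuotientGroup.mk p.2 : G ⧸ N) = t ∧ p.1 * p.2 = p.2 * p.1} := by
        apply Nat.card_le_card_of_injective (fun p =>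
          ⟨p.1.1, ⟨congrArg (fun r => r.1.1) p.2, p.1.2.1⟩, congrArg (fun r => r.1.2) p.2, p.1.2.2⟩)
        rintro ⟨⟨p, hp⟩, hφ⟩ ⟨⟨p', hp'⟩, hφ'⟩ h
        have : p = p' := congrArg Subtype.val h
        subst this
        rfl
    _ ≤ Nat.card {p : G × N // ((QuotientGroup.mk p.1 : G ⧸ N) = s ∧
          ∀ q : ℕ, q.Prime → q ∣ orderOf p.1 → q ∈ π) ∧ p.1 * (p.2 : G) = (p.2 : G) * p.1} :=
        coset_le N (fun x => (QuotientGroup.mk x : G ⧸ N) = s ∧
          ∀ q : ℕ, q.Prime → q ∣ orderOf x → q ∈ π) t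
    _ ≤ Nat.card {p : G × G // (p.1 ∈ N ∧ ∀ q : ℕ, q.Prime → q ∣ orderOf p.1 → q ∈ π) ∧
          (QuotientGroup.mk p.2 : G ⧸ N) = s ∧ p.1 * p.2 = p.2 * p.1} := step2 N π s
    _ ≤ Nat.card {p : G × N // (p.1 ∈ N ∧ ∀ q : ℕ, q.Prime → q ∣ orderOf p.1 → q ∈ π) ∧
          p.1 * (p.2 : G) = (p.2 : G) * p.1} :=
        coset_le N (fun x => x ∈ N ∧ ∀ q : ℕ, q.Prime → q ∣ orderOf x → q ∈ π) s
    _ ≤ Nat.card {p : N × N // (∀ q : ℕ, q.Prime → q ∣ orderOf p.1 → q ∈ π) ∧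
          p.1 * p.2 = p.2 * p.1} := by
        apply Nat.card_le_card_of_injective (fun p =>
          ⟨(⟨p.1.1, p.2.1.1⟩, p.1.2), (by
            intro q hq hd
            apply p.2.1.2 q hq
            rwa [← Subgroup.orderOf_coe] at hd), Subtype.ext p.2.2⟩)
        rintro ⟨⟨c, m⟩, hp⟩ ⟨⟨c', m'⟩, hp'⟩ h
        have h1 : c = c' := congrArg (fun r => (r.1.1 : G)) h
        have h2 : m = m' := congrArg (fun r => r.1.2) h
        subst h1
        subst h2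
        rfl

theorem result {G : Type*} [Group G] [Finite G] (N : Subgroup G) [N.Normal] (π : Set ℕ) :
    Nat.card {C : ConjClasses G // ∀ q : ℕ, q.Prime → (∃ g : G, ConjClasses.mk g = C ∧ q ∣ orderOf g) → q ∈ π} ≤ Nat.card {C : ConjClasses N // ∀ q : ℕ, q.Prime → (∃ g : N, ConjClasses.mk g = C ∧ q ∣ orderOf g) → q ∈ π} * Nat.card {C : ConjClasses (G ⧸ N) // ∀ q : ℕ, q.Prime → (∃ g : (G ⧸ N), ConjClasses.mk g = C ∧ q ∣ orderOf g) → q ∈ π} := by
  have hG := pairs_eq (X := G) π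
  have hN := pairs_eq (X := N) π
  have hQ := pairs_eq (X := G ⧸ N) π
  have h2 := pairs_le N π
  have hcard : Nat.card G = Nat.card (G ⧸ N) * Nat.card N :=
    Subgroup.card_eq_card_quotient_mul_card_subgroup N
  rw [hG, hN, hQ] at h2
  have hpos : 0 < Nat.card G := Nat.card_pos
  apply Nat.le_of_mul_le_mul_right _ hpos
  calc _ ≤ _ := h2
    _ = _ := by rw [hcard]; ring

end Cfsg.Agent.S4152
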