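import Mathlib
import Cfsg.Statements.S4153

set_option autoImplicit false
open Cfsg

namespace Cfsg.Agent.S4153

theorem fiber {G : Type*} [Group G] [Finite G] (p : ℕ) [Fact p.Prime] (N : Subgroup G)
    [hN : N.Normal] (P : Sylow p G) (Pbar : Sylow p (G ⧸ N)) (b : G ⧸ N)
    (hb : ∃ k : ℕ, orderOf b = p ^ k) :
    Nat.card (P : Subgroup G) ≤
      Nat.card {g : G // (∃ k : ℕ, orderOf g = p ^ k) ∧ (QuotientGroup.mk g : G ⧸ N) = b} *
        Nat.card (Pbar : Subgroup (G ⧸ N)) ∧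
    (N ≤ Subgroup.center G → Nat.card (P : Subgroup G) =
      Nat.card {g : G // (∃ k : ℕ, orderOf g = p ^ k) ∧ (QuotientGroup.mk g : G ⧸ N) = b} *
        Nat.card (Pbar : Subgroup (G ⧸ N))) := by
  have hp : p.Prime := Fact.out
  obtain ⟨k, hk⟩ := hb
  obtain ⟨g₀, rfl⟩ := QuotientGroup.mk_surjective b
  obtain ⟨a, m, hm, ham⟩ := Nat.exists_eq_pow_mul_and_not_dvd (orderOf_pos g₀).ne' p hp.ne_one
  have hcop : m.Coprime (orderOf (QuotientGroup.mk g₀ : G ⧸ N)) := by
    rw [hk]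
    exact Nat.Coprime.pow_right k ((Nat.Prime.coprime_iff_not_dvd hp).mpr hm).symm
  obtain ⟨t, ht⟩ := exists_pow_eq_self_of_coprime hcop
  set q : G := (g₀ ^ m) ^ t with hq
  have hqb : (QuotientGroup.mk q : G ⧸ N) = QuotientGroup.mk g₀ := by
    rw [hq, QuotientGroup.mk_pow, QuotientGroup.mk_pow]
    exact ht
  have hqp : q ^ (p ^ a) = 1 := by
    rw [hq, ← pow_mul, ← pow_mul]
    have e : m * (t * p ^ a) = (p ^ a * m) * t := by ring
    rw [e, ← ham, pow_mul, pow_orderOf_eq_one, one_pow]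
  have hpg : IsPGroup p (Subgroup.zpowers q) := by
    rw [IsPGroup.iff_card, Nat.card_zpowers]
    obtain ⟨j, _, hj⟩ := (Nat.dvd_prime_pow hp).mp (orderOf_dvd_of_pow_eq_one hqp)
    exact ⟨j, hj⟩
  obtain ⟨P₁, hP₁⟩ := hpg.exists_le_sylow
  have hqP₁ : q ∈ (P₁ : Subgroup G) := hP₁ (Subgroup.mem_zpowers q)
  have hpelt : ∀ x : G, x ∈ (P₁ : Subgroup G) → ∃ k : ℕ, orderOf x = p ^ k := by
    intro x hx
    obtain ⟨k, hk⟩ := P₁.isPGroup' ⟨x, hx⟩
    have h1 : orderOf (⟨x, hx⟩ : (P₁ : Subgroup G)) ∣ p ^ k := orderOf_dvd_of_pow_eq_one hk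
    obtain ⟨j, _, hj⟩ := (Nat.dvd_prime_pow hp).mp h1
    exact ⟨j, by rw [← hj, ← Subgroup.orderOf_coe]⟩
  set Fb := {g : G // (∃ k : ℕ, orderOf g = p ^ k) ∧
    (QuotientGroup.mk g : G ⧸ N) = QuotientGroup.mk g₀} with hFb
  have hmem : ∀ n : ↥(N ⊓ (P₁ : Subgroup G)), (∃ k : ℕ, orderOf (q * (n : G)) = p ^ k) ∧
      (QuotientGroup.mk (q * (n : G)) : G ⧸ N) = QuotientGroup.mk g₀ := by
    intro n
    have hn := Subgroup.mem_inf.mp n.2
    refine ⟨hpelt _ (Subgroup.mul_mem _ hqP₁ hn.2), ?_⟩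
    rw [← hqb, QuotientGroup.eq]
    have e : (q * (n : G))⁻¹ * q = (n : G)⁻¹ := by group
    rw [e]
    exact N.inv_mem hn.1
  let ι : ↥(N ⊓ (P₁ : Subgroup G)) → Fb := fun n => ⟨q * (n : G), hmem n⟩
  have hι : Function.Injective ι := by
    intro n n' h
    have h1 : q * (n : G) = q * (n' : G) := congrArg Subtype.val h
    exact Subtype.ext (mul_left_cancel h1)
  have hle : Nat.card ↥(N ⊓ (P₁ : Subgroup G)) ≤ Nat.card Fb := Nat.card_le_card_of_injective ι hι
  set f : (P₁ : Subgroup G) →* G ⧸ N := (QuotientGroup.mk' N).comp (P₁ : Subgroup G).subtype with hf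
  have hrange : f.range = (P₁ : Subgroup G).map (QuotientGroup.mk' N) := by
    rw [hf, MonoidHom.range_comp, Subgroup.range_subtype]
  have hker : f.ker = N.subgroupOf (P₁ : Subgroup G) := by
    rw [hf, ← MonoidHom.comap_ker, QuotientGroup.ker_mk']
    rfl
  have hkercard : Nat.card f.ker = Nat.card ↥(N ⊓ (P₁ : Subgroup G)) := by
    rw [hker, ← Subgroup.inf_subgroupOf_right]
    exact Nat.card_congr (Subgroup.subgroupOfEquivOfLe inf_le_right).toEquiv
  have hprod : Nat.card ↥(N ⊓ (P₁ : Subgroup G)) *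
      Nat.card ((P₁ : Subgroup G).map (QuotientGroup.mk' N)) = Nat.card (P₁ : Subgroup G) := by
    rw [← hkercard, ← hrange, ← Subgroup.index_ker]
    exact Subgroup.card_mul_index f.ker
  have hPP₁ : Nat.card (P : Subgroup G) = Nat.card (P₁ : Subgroup G) := by
    rw [P.card_eq_multiplicity, P₁.card_eq_multiplicity]
  have hsurj : Function.Surjective (QuotientGroup.mk' N) := QuotientGroup.mk'_surjective N
  have himg : Nat.card ((P₁ : Subgroup G).map (QuotientGroup.mk' N)) =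
      Nat.card (Pbar : Subgroup (G ⧸ N)) := by
    have h1 := (P₁.mapSurjective hsurj).card_eq_multiplicity
    rw [Sylow.coe_mapSurjective] at h1
    rw [h1, Pbar.card_eq_multiplicity]
  constructor
  · rw [hPP₁, ← hprod, himg]
    exact Nat.mul_le_mul_right _ hle
  · intro hcen
    rw [hPP₁, ← hprod, himg]
    congr 1
    apply le_antisymm hle
    have hιs : Function.Surjective ι := by
      rintro ⟨g, ⟨j, hj⟩, hg⟩
      have hnN : q⁻¹ * g ∈ N := by
        rw [← QuotientGroup.eq, hqb, hg]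
      have hncen : q⁻¹ * g ∈ Subgroup.center G := hcen hnN
      have hcomm : Commute q (q⁻¹ * g) := by
        have := Subgroup.mem_center_iff.mp hncen q
        exact this
      have hgq : g = q * (q⁻¹ * g) := by group
      have hcomm2 : Commute q⁻¹ g := by
        have h1 : Commute q g := by
          rw [hgq]
          exact (Commute.refl q).mul_right hcomm
        exact h1.inv_left
      have hnp : (q⁻¹ * g) ^ (p ^ (a + j)) = 1 := by
        rw [hcomm2.mul_pow, inv_pow, pow_add, pow_mul, hqp, one_pow, inv_one, one_mul,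
          mul_comm, pow_mul, ← hj, pow_orderOf_eq_one, one_pow]
      have hpgn : IsPGroup p (Subgroup.zpowers (q⁻¹ * g)) := by
        rw [IsPGroup.iff_card, Nat.card_zpowers]
        obtain ⟨i, _, hi⟩ := (Nat.dvd_prime_pow hp).mp (orderOf_dvd_of_pow_eq_one hnp)
        exact ⟨i, hi⟩
      have hnorm : (Subgroup.zpowers (q⁻¹ * g)).Normal := by
        constructor
        intro x hx y
        have hxc : x ∈ Subgroup.center G := by
          obtain ⟨i, rfl⟩ := Subgroup.mem_zpowers_iff.mp hx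
          exact Subgroup.zpow_mem _ hncen i
        have e : y * x * y⁻¹ = x := by
          have := Subgroup.mem_center_iff.mp hxc y
          rw [this]
          group
        rw [e]
        exact hx
      have hsup := P₁.isPGroup'.to_sup_of_normal_right hpgn
      have hmax := P₁.is_maximal' hsup le_sup_left
      have hnP₁ : q⁻¹ * g ∈ (P₁ : Subgroup G) := by
        rw [← hmax]
        exact Subgroup.mem_sup_right (Subgroup.mem_zpowers _)
      refine ⟨⟨q⁻¹ * g, Subgroup.mem_inf.mpr ⟨hnN, hnP₁⟩⟩, ?_⟩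
      apply Subtype.ext
      change q * (q⁻¹ * g) = g
      group
    exact Nat.card_le_card_of_surjective ι hιs

theorem result {G : Type*} [Group G] [Finite G] (p : ℕ) [Fact p.Prime] (N : Subgroup G) [N.Normal]
    (P : Sylow p G) (Pbar : Sylow p (G ⧸ N)) :
    Nat.card {g : (G ⧸ N) // ∃ k : ℕ, orderOf g = p ^ k} * Nat.card (P : Subgroup G) ≤ Nat.card {g : G // ∃ k : ℕ, orderOf g = p ^ k} * Nat.card (Pbar : Subgroup (G ⧸ N)) ∧
    (N ≤ Subgroup.center G → Nat.card {g : (G ⧸ N) // ∃ k : ℕ, orderOf g = p ^ k} * Nat.card (P : Subgroup G) = Nat.card {g : G // ∃ k : ℕ, orderOf g = p ^ k} * Nat.card (Pbar : Subgroup (G ⧸ N))) := by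
  have hp : p.Prime := Fact.out
  have hB : ∀ g : G, (∃ k : ℕ, orderOf g = p ^ k) →
      ∃ k : ℕ, orderOf (QuotientGroup.mk g : G ⧸ N) = p ^ k := by
    rintro g ⟨k, hk⟩
    have h1 : orderOf (QuotientGroup.mk g : G ⧸ N) ∣ p ^ k := by
      rw [← hk]
      exact orderOf_dvd_of_pow_eq_one (by rw [← QuotientGroup.mk_pow, pow_orderOf_eq_one]; rfl)
    obtain ⟨j, _, hj⟩ := (Nat.dvd_prime_pow hp).mp h1
    exact ⟨j, hj⟩
  let e : {g : G // ∃ k : ℕ, orderOf g = p ^ k} ≃
      Σ b : {g : (G ⧸ N) // ∃ k : ℕ, orderOf g = p ^ k},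
        {g : G // (∃ k : ℕ, orderOf g = p ^ k) ∧ (QuotientGroup.mk g : G ⧸ N) = b.1} :=
    { toFun := fun a => ⟨⟨QuotientGroup.mk a.1, hB a.1 a.2⟩, ⟨a.1, a.2, rfl⟩⟩
      invFun := fun s => ⟨s.2.1, s.2.2.1⟩
      left_inv := fun a => rfl
      right_inv := fun s => Sigma.subtype_ext (Subtype.ext s.2.2.2) rfl }
  have : Fintype {g : (G ⧸ N) // ∃ k : ℕ, orderOf g = p ^ k} := Fintype.ofFinite _
  have hA := Nat.card_congr e
  rw [Nat.card_sigma] at hA
  have hBc : Nat.card {g : (G ⧸ N) // ∃ k : ℕ, orderOf g = p ^ k} * Nat.card (P : Subgroup G) =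
      ∑ _b : {g : (G ⧸ N) // ∃ k : ℕ, orderOf g = p ^ k}, Nat.card (P : Subgroup G) := by
    rw [Finset.sum_const, Finset.card_univ, Nat.card_eq_fintype_card, smul_eq_mul]
  rw [hBc, hA, Finset.sum_mul]
  constructor
  · apply Finset.sum_le_sum
    intro b _
    exact (fiber p N P Pbar b.1 b.2).1
  · intro hcen
    apply Finset.sum_congr rfl
    intro b _
    exact (fiber p N P Pbar b.1 b.2).2 hcen

end Cfsg.Agent.S4153
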