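import Mathlib
import Cfsg.Statements.S4154

set_option autoImplicit false
open Cfsg

namespace Cfsg.Agent.S4154

def FSub {G : Type*} [Group G] (α : MulAut G) (N : Subgroup G) [N.Normal]
    (hN : ∀ n ∈ N, α n ∈ N) : Subgroup G where
  carrier := {x | x⁻¹ * α x ∈ N}
  one_mem' := by simp
  mul_mem' := by
    intro x y hx hy
    have e : (x * y)⁻¹ * α (x * y) = y⁻¹ * (x⁻¹ * α x) * y⁻¹⁻¹ * (y⁻¹ * α y) := by
      rw [map_mul]; group
    show (x * y)⁻¹ * α (x * y) ∈ N
    rw [e]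
    exact N.mul_mem (Subgroup.Normal.conj_mem inferInstance _ hx _) hy
  inv_mem' := by
    intro x hx
    have e : x⁻¹⁻¹ * α x⁻¹ = x * (x⁻¹ * α x)⁻¹ * x⁻¹ := by
      rw [map_inv]; group
    show x⁻¹⁻¹ * α x⁻¹ ∈ N
    rw [e]
    exact Subgroup.Normal.conj_mem inferInstance _ (N.inv_mem hx) _

def CSub {G : Type*} [Group G] (α : MulAut G) : Subgroup G where
  carrier := {x | α x = x}
  one_mem' := by simp
  mul_mem' := by
    intro x y hx hy
    show α (x * y) = x * y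
    rw [map_mul, hx, hy]
  inv_mem' := by
    intro x hx
    show α x⁻¹ = x⁻¹
    rw [map_inv, hx]

theorem result {G : Type*} [Group G] [Finite G] (α : MulAut G)
    (hccp : ∀ x : G, ∃ c g : G, α c = c ∧ x = c * (g⁻¹ * α g))
    (N : Subgroup G) [N.Normal] (hN : ∀ n ∈ N, α n ∈ N) :
    (∀ x : G, ∃ c g : G, c⁻¹ * α c ∈ N ∧ x⁻¹ * (c * (g⁻¹ * α g)) ∈ N) ∧
    (∀ x : G, x⁻¹ * α x ∈ N → ∃ c : G, α c = c ∧ c⁻¹ * x ∈ N) := by
  constructor
  · intro x
    obtain ⟨c, g, hc, hx⟩ := hccp x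
    refine ⟨c, g, ?_, ?_⟩
    · rw [hc, inv_mul_cancel]; exact N.one_mem
    · rw [← hx, inv_mul_cancel]; exact N.one_mem
  · set F := FSub α N hN with hF
    set C := CSub α with hC
    set S := C ⊔ N with hS
    have hCF : C ≤ F := by
      intro c hc
      show c⁻¹ * α c ∈ N
      have : α c = c := hc
      rw [this, inv_mul_cancel]; exact N.one_mem
    have hNF : N ≤ F := by
      intro n hn
      show n⁻¹ * α n ∈ N
      exact N.mul_mem (N.inv_mem hn) (hN n hn)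
    have hSF : S ≤ F := sup_le hCF hNF
    let q := QuotientGroup.mk' N
    let ψ : G → G ⧸ N := fun g => q (g * (α g)⁻¹)
    have hψ : ∀ g₁ g₂ : G, g₁⁻¹ * g₂ ∈ F → ψ g₁ = ψ g₂ := by
      intro g₁ g₂ h
      show q (g₁ * (α g₁)⁻¹) = q (g₂ * (α g₂)⁻¹)
      rw [QuotientGroup.mk'_eq_mk']
      refine ⟨(g₁ * (α g₁)⁻¹)⁻¹ * (g₂ * (α g₂)⁻¹), ?_, by group⟩
      have h' : (g₁⁻¹ * g₂)⁻¹ * α (g₁⁻¹ * g₂) ∈ N := h
      have e : (g₁ * (α g₁)⁻¹)⁻¹ * (g₂ * (α g₂)⁻¹)
          = (α g₁ * (g₁⁻¹ * g₂)) * ((g₁⁻¹ * g₂)⁻¹ * α (g₁⁻¹ * g₂))⁻¹ * (α g₁ * (g₁⁻¹ * g₂))⁻¹ := by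
        rw [map_mul, map_inv]; group
      rw [e]
      exact Subgroup.Normal.conj_mem inferInstance _ (N.inv_mem h') _
    let ψ' : G ⧸ F → G ⧸ N := Quotient.lift ψ (fun a b hab => hψ a b (QuotientGroup.leftRel_apply.mp hab))
    have hsurj : Function.Surjective (fun p : (S.map q) × (G ⧸ F) => (p.1 : G ⧸ N) * ψ' p.2) := by
      intro y
      obtain ⟨x, rfl⟩ := QuotientGroup.mk'_surjective N y
      obtain ⟨c, g, hc, hx⟩ := hccp x
      refine ⟨(⟨q c, Subgroup.mem_map_of_mem q (Subgroup.mem_sup_left hc)⟩, QuotientGroup.mk g⁻¹), ?_⟩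
      show q c * ψ g⁻¹ = q x
      show q c * q (g⁻¹ * (α g⁻¹)⁻¹) = q x
      rw [← map_mul, hx, map_inv, inv_inv]
    have hcard := Nat.card_le_card_of_surjective _ hsurj
    rw [Nat.card_prod] at hcard
    have h1 : (S.map q).index = S.index := by
      apply Subgroup.index_map_eq _ (QuotientGroup.mk'_surjective N)
      rw [QuotientGroup.ker_mk']
      exact le_sup_right
    have h2 := Subgroup.index_mul_card (S.map q)
    rw [h1] at h2
    have h3 : S.index ≤ F.index := by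
      have hpos : 0 < Nat.card (S.map q) := Nat.card_pos
      have : S.index * Nat.card (S.map q) ≤ F.index * Nat.card (S.map q) := by
        rw [h2, mul_comm]; exact hcard
      exact Nat.le_of_mul_le_mul_right this hpos
    have h4 : F ≤ S := by
      have h5 := Subgroup.relIndex_mul_index hSF
      have h6 : F.index ≤ S.index := Nat.le_of_dvd (Nat.pos_of_ne_zero Subgroup.index_ne_zero_of_finite) (Subgroup.index_dvd_of_le hSF)
      have h7 : S.index = F.index := le_antisymm h3 h6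
      rw [h7] at h5
      have h8 : S.relIndex F = 1 := by
        have hpos : 0 < F.index := Nat.pos_of_ne_zero Subgroup.index_ne_zero_of_finite
        exact Nat.eq_of_mul_eq_mul_right hpos (by rw [h5, one_mul])
      exact Subgroup.relIndex_eq_one.mp h8
    intro x hx
    have hxS : x ∈ S := h4 hx
    rw [hS, Subgroup.mem_sup_of_normal_right] at hxS
    obtain ⟨c, hc, n, hn, rfl⟩ := hxS
    refine ⟨c, hc, ?_⟩
    rw [inv_mul_cancel_left]
    exact hn

end Cfsg.Agent.S4154
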