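import Mathlib
import Cfsg.Statements.S4155
import Cfsg.Agent.Lib.Lead.Cores
import Cfsg.Agent.Lib.Helper18.UniqueInvolution

set_option autoImplicit false
open Cfsg

namespace Cfsg.Agent.S4155

theorem prod_shift {M : Type*} [CommMonoid M] (f : ℕ → M) (n : ℕ) (h : f (n + 1) = f 0) :
    ∏ k ∈ Finset.range (n + 1), f (k + 1) = ∏ k ∈ Finset.range (n + 1), f k := by
  rw [Finset.prod_range_succ (fun k => f (k + 1)) n, Finset.prod_range_succ' f n, h]

theorem prod_mul_mod {M : Type*} [CommMonoid M] (q k : ℕ) (hq : q.Prime) (hk0 : 0 < k)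
    (hkq : k < q) (F : ℕ → M) :
    ∏ c ∈ Finset.range q, F (c * k % q) = ∏ j ∈ Finset.range q, F j := by
  classical
  have hcop : Nat.Coprime q k :=
    (Nat.Prime.coprime_iff_not_dvd hq).2 (Nat.not_dvd_of_pos_of_lt hk0 hkq)
  have hinj : Set.InjOn (fun c => c * k % q) (Finset.range q : Set ℕ) := by
    intro a ha b hb hab
    have ha' : a < q := Finset.mem_range.1 (Finset.mem_coe.1 ha)
    have hb' : b < q := Finset.mem_range.1 (Finset.mem_coe.1 hb)
    have h1 : a ≡ b [MOD q] := Nat.ModEq.cancel_right_of_coprime hcop hab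
    have h2 : a % q = b % q := h1
    rwa [Nat.mod_eq_of_lt ha', Nat.mod_eq_of_lt hb'] at h2
  have himg : (Finset.range q).image (fun c => c * k % q) = Finset.range q := by
    apply Finset.eq_of_subset_of_card_le
    · intro x hx
      obtain ⟨c, -, rfl⟩ := Finset.mem_image.1 hx
      exact Finset.mem_range.2 (Nat.mod_lt _ hq.pos)
    · exact le_of_eq (Finset.card_image_of_injOn hinj).symm
  calc ∏ c ∈ Finset.range q, F (c * k % q)
      = ∏ j ∈ (Finset.range q).image (fun c => c * k % q), F j := by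
        rw [Finset.prod_image hinj]
    _ = ∏ j ∈ Finset.range q, F j := by rw [himg]

theorem fpf_pow {Γ M : Type*} [Group Γ] [CommGroup M] (ψ : Γ →* MulAut M) (q : ℕ) (hq : q.Prime)
    (hfpf : ∀ g : Γ, g ≠ 1 → g ^ q = 1 → ∀ m : M, ψ g m = m → m = 1)
    (z w : Γ) (hz : z ^ q = 1) (hw : w ^ q = 1) (hzw : Commute z w) (hz1 : z ≠ 1)
    (hwz : w ∉ Subgroup.zpowers z) (m : M) : m ^ q = 1 := by
  have hT : ∀ g : Γ, g ≠ 1 → g ^ q = 1 → ∀ m : M, ∏ k ∈ Finset.range q, ψ (g ^ k) m = 1 := by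
    intro g hg1 hgq m
    apply hfpf g hg1 hgq
    rw [map_prod]
    obtain ⟨n, rfl⟩ : ∃ n, q = n + 1 := ⟨q - 1, by have := hq.pos; omega⟩
    have h1 : ∀ k : ℕ, ψ g (ψ (g ^ k) m) = ψ (g ^ (k + 1)) m := by
      intro k
      rw [pow_succ', map_mul, MulAut.mul_apply]
    rw [Finset.prod_congr rfl (fun k _ => h1 k)]
    exact prod_shift (fun k => ψ (g ^ k) m) n (by simp only [hgq, pow_zero])
  have hline : ∀ c : ℕ, z * w ^ c ≠ 1 := by
    intro c hc
    have hwc : w ^ c = z⁻¹ := eq_inv_of_mul_eq_one_right hc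
    have hqc : ¬ q ∣ c := by
      rintro ⟨d, rfl⟩
      rw [pow_mul, hw, one_pow] at hwc
      exact hz1 (inv_eq_one.1 hwc.symm)
    have hcop : Nat.Coprime c q := Nat.Coprime.symm ((Nat.Prime.coprime_iff_not_dvd hq).2 hqc)
    have hb : (c : ℤ) * Nat.gcdA c q + (q : ℤ) * Nat.gcdB c q = 1 := by
      have h := Nat.gcd_eq_gcd_ab c q
      have hg1 : Nat.gcd c q = 1 := hcop
      rw [hg1, Nat.cast_one] at h
      exact h.symm
    apply hwz
    have hw1 : w = z ^ (-(Nat.gcdA c q)) := by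
      calc w = w ^ (1 : ℤ) := (zpow_one w).symm
        _ = w ^ ((c : ℤ) * Nat.gcdA c q + (q : ℤ) * Nat.gcdB c q) := by rw [hb]
        _ = (w ^ c) ^ (Nat.gcdA c q) * (w ^ q) ^ (Nat.gcdB c q) := by
            rw [zpow_add, zpow_mul, zpow_mul, zpow_natCast, zpow_natCast]
        _ = z ^ (-(Nat.gcdA c q)) := by
            rw [hwc, hw, one_zpow, mul_one, inv_zpow, zpow_neg]
    rw [hw1]
    exact Subgroup.zpow_mem_zpowers z _
  have hw1 : w ≠ 1 := by
    rintro rfl
    exact hwz (one_mem _)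
  obtain ⟨n, rfl⟩ : ∃ n, q = n + 1 := ⟨q - 1, by have := hq.pos; omega⟩
  have hA : ∏ k ∈ Finset.range n, ∏ j ∈ Finset.range (n + 1), ψ (z ^ (k + 1) * w ^ j) m = 1 := by
    have h1 : ∏ k ∈ Finset.range (n + 1), ∏ j ∈ Finset.range (n + 1), ψ (z ^ k * w ^ j) m = 1 := by
      rw [Finset.prod_comm]
      apply Finset.prod_eq_one
      intro j _
      have h2 : ∀ k : ℕ, ψ (z ^ k * w ^ j) m = ψ (w ^ j) (ψ (z ^ k) m) := by
        intro k
        rw [((hzw.pow_left k).pow_right j).eq, map_mul, MulAut.mul_apply]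
      rw [Finset.prod_congr rfl (fun k _ => h2 k), ← map_prod, hT z hz1 hz m, map_one]
    have h4 : ∏ k ∈ Finset.range (n + 1), ∏ j ∈ Finset.range (n + 1), ψ (z ^ k * w ^ j) m
        = (∏ k ∈ Finset.range n, ∏ j ∈ Finset.range (n + 1), ψ (z ^ (k + 1) * w ^ j) m)
          * ∏ j ∈ Finset.range (n + 1), ψ (z ^ 0 * w ^ j) m :=
      Finset.prod_range_succ' (fun k => ∏ j ∈ Finset.range (n + 1), ψ (z ^ k * w ^ j) m) n
    have h3 : ∏ j ∈ Finset.range (n + 1), ψ (z ^ 0 * w ^ j) m = 1 := by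
      simp only [pow_zero, one_mul]
      exact hT w hw1 hw m
    rw [h4, h3, mul_one] at h1
    exact h1
  have hB : ∏ c ∈ Finset.range (n + 1), ∏ k ∈ Finset.range (n + 1), ψ ((z * w ^ c) ^ k) m = 1 := by
    apply Finset.prod_eq_one
    intro c _
    apply hT (z * w ^ c) (hline c) _ m
    rw [(hzw.pow_right c).mul_pow, hz, one_mul, pow_right_comm, hw, one_pow]
  have hC : ∏ c ∈ Finset.range (n + 1), ∏ k ∈ Finset.range (n + 1), ψ ((z * w ^ c) ^ k) m
      = (∏ k ∈ Finset.range n, ∏ j ∈ Finset.range (n + 1), ψ (z ^ (k + 1) * w ^ j) m)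
        * m ^ (n + 1) := by
    have h0 : ∏ c ∈ Finset.range (n + 1), ∏ k ∈ Finset.range (n + 1), ψ ((z * w ^ c) ^ k) m
        = ∏ k ∈ Finset.range (n + 1), ∏ c ∈ Finset.range (n + 1), ψ ((z * w ^ c) ^ k) m :=
      Finset.prod_comm
    have h5 : ∏ k ∈ Finset.range (n + 1), ∏ c ∈ Finset.range (n + 1), ψ ((z * w ^ c) ^ k) m
        = (∏ k ∈ Finset.range n, ∏ c ∈ Finset.range (n + 1), ψ ((z * w ^ c) ^ (k + 1)) m)
          * ∏ c ∈ Finset.range (n + 1), ψ ((z * w ^ c) ^ 0) m :=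
      Finset.prod_range_succ' (fun k => ∏ c ∈ Finset.range (n + 1), ψ ((z * w ^ c) ^ k) m) n
    rw [h0, h5]
    congr 1
    · apply Finset.prod_congr rfl
      intro k hk
      have hk' : k + 1 < n + 1 := by have := Finset.mem_range.1 hk; omega
      have h6 : ∀ c : ℕ, ψ ((z * w ^ c) ^ (k + 1)) m
          = ψ (z ^ (k + 1) * w ^ (c * (k + 1) % (n + 1))) m := by
        intro c
        rw [(hzw.pow_right c).mul_pow, ← pow_mul, pow_eq_pow_mod (c * (k + 1)) hw]
      exact (Finset.prod_congr rfl (fun c _ => h6 c)).trans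
        (prod_mul_mod (n + 1) (k + 1) hq (Nat.succ_pos k) hk'
          (fun j => ψ (z ^ (k + 1) * w ^ j) m))
    · simp only [pow_zero, map_one, MulAut.one_apply, Finset.prod_const, Finset.card_range]
  rw [hC, hA, one_mul] at hB
  exact hB

theorem exists_central_of_dvd {X : Type*} [Group X] [Finite X] (hnil : Group.IsNilpotent X)
    (s : ℕ) [hs : Fact s.Prime] (hsd : s ∣ Nat.card X) :
    ∃ z : X, (∀ x : X, x * z = z * x) ∧ orderOf z = s := by
  classical
  have hnorm : ∀ (p : ℕ) (_hp : Fact p.Prime) (P : Sylow p X), (P : Subgroup X).Normal :=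
    (Group.isNilpotent_of_finite_tfae.out 0 3).1 hnil
  obtain ⟨P⟩ : Nonempty (Sylow s X) := inferInstance
  have hPn : (P : Subgroup X).Normal := hnorm s hs P
  have hPcard : Nat.card (P : Subgroup X) = s ^ (Nat.card X).factorization s :=
    Sylow.card_eq_multiplicity P
  have hXpos : Nat.card X ≠ 0 := Nat.card_pos.ne'
  have hf1 : 1 ≤ (Nat.card X).factorization s :=
    (Nat.Prime.pow_dvd_iff_le_factorization hs.out hXpos).1 (by rwa [pow_one])
  have hPnt : Nontrivial (P : Subgroup X) := by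
    rw [← Finite.one_lt_card_iff_nontrivial, hPcard]
    exact Nat.one_lt_pow (by omega) hs.out.one_lt
  have hPp : IsPGroup s (P : Subgroup X) := P.isPGroup'
  have hcnt : Nontrivial (Subgroup.center (P : Subgroup X)) := hPp.center_nontrivial
  have hcd : s ∣ Nat.card (Subgroup.center (P : Subgroup X)) := by
    have hcp : IsPGroup s (Subgroup.center (P : Subgroup X)) := hPp.to_subgroup _
    rcases hcp.card_eq_or_dvd with h | h
    · exfalso
      have := Finite.one_lt_card_iff_nontrivial.2 hcnt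
      omega
    · exact h
  obtain ⟨z₀, hz₀⟩ :=
    exists_prime_orderOf_dvd_card' (G := Subgroup.center (P : Subgroup X)) s hcd
  obtain ⟨z, hzdef⟩ : ∃ z : X, z = ((z₀ : (P : Subgroup X)) : X) := ⟨_, rfl⟩
  have hzo : orderOf z = s := by
    rw [hzdef, Subgroup.orderOf_coe, Subgroup.orderOf_coe, hz₀]
  have hzP : z ∈ (P : Subgroup X) := by
    rw [hzdef]
    exact (z₀ : (P : Subgroup X)).2
  have hzc : ∀ y ∈ (P : Subgroup X), y * z = z * y := by
    intro y hy
    have h1 := Subgroup.mem_center_iff.1 z₀.2 ⟨y, hy⟩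
    rw [hzdef]
    exact congrArg Subtype.val h1
  have hCpos : Nat.card (Subgroup.centralizer {z}) ≠ 0 := Nat.card_pos.ne'
  have hPle : (P : Subgroup X) ≤ Subgroup.centralizer {z} := by
    intro y hy
    rw [Subgroup.mem_centralizer_iff]
    intro h hh
    rw [Set.mem_singleton_iff] at hh
    rw [hh]
    exact (hzc y hy).symm
  have hC : Subgroup.centralizer {z} = ⊤ := by
    apply Subgroup.eq_top_of_card_eq
    apply Nat.dvd_antisymm (Subgroup.card_subgroup_dvd_card _)
    rw [← Nat.factorization_prime_le_iff_dvd hXpos hCpos]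
    intro r hr
    by_cases hrs : r = s
    · rw [hrs]
      have h1 : Nat.card (P : Subgroup X) ∣ Nat.card (Subgroup.centralizer {z}) :=
        Subgroup.card_dvd_of_le hPle
      rw [hPcard] at h1
      exact (Nat.Prime.pow_dvd_iff_le_factorization hs.out hCpos).1 h1
    · haveI : Fact r.Prime := ⟨hr⟩
      obtain ⟨R⟩ : Nonempty (Sylow r X) := inferInstance
      have hRn : (R : Subgroup X).Normal := hnorm r ⟨hr⟩ R
      have hdisj : Disjoint (R : Subgroup X) (P : Subgroup X) :=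
        IsPGroup.disjoint_of_ne r s hrs (R : Subgroup X) (P : Subgroup X) R.isPGroup' P.isPGroup'
      have hRle : (R : Subgroup X) ≤ Subgroup.centralizer {z} := by
        intro y hy
        rw [Subgroup.mem_centralizer_iff]
        intro h hh
        rw [Set.mem_singleton_iff] at hh
        rw [hh]
        have hc : z * y * z⁻¹ * y⁻¹ ∈ (R : Subgroup X) ⊓ (P : Subgroup X) := by
          refine Subgroup.mem_inf.2 ⟨?_, ?_⟩
          · exact mul_mem (hRn.conj_mem y hy z) (inv_mem hy)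
          · have h1 := hPn.conj_mem z⁻¹ (inv_mem hzP) y
            have h2 := mul_mem hzP h1
            have h3 : z * y * z⁻¹ * y⁻¹ = z * (y * z⁻¹ * y⁻¹) := by group
            rw [h3]
            exact h2
        rw [hdisj.eq_bot, Subgroup.mem_bot] at hc
        exact mul_inv_eq_iff_eq_mul.1 (mul_inv_eq_one.1 hc)
      have h1 : Nat.card (R : Subgroup X) ∣ Nat.card (Subgroup.centralizer {z}) :=
        Subgroup.card_dvd_of_le hRle
      rw [Sylow.card_eq_multiplicity] at h1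
      exact (Nat.Prime.pow_dvd_iff_le_factorization hr hCpos).1 h1
  refine ⟨z, ?_, hzo⟩
  intro x
  have hx : x ∈ Subgroup.centralizer {z} := by rw [hC]; exact Subgroup.mem_top x
  rw [Subgroup.mem_centralizer_iff] at hx
  exact (hx z (Set.mem_singleton z)).symm

theorem core_fixed {G : Type*} [Group G] [Finite G] (N : Subgroup G)
    (heq : ∀ x : G, x ∉ N → ∀ n ∈ N, orderOf (x * n) = orderOf x)
    (q s : ℕ) (hq : q.Prime) (hs : s.Prime) (hqs : q ≠ s) (x v : G) (a : ℕ)
    (hx : x ∉ N) (hxo : orderOf x = q ^ a) (hv : v ∈ N) (hvs : v ^ s = 1)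
    (hxv : x * v = v * x) : v = 1 := by
  by_contra hv1
  haveI : Fact s.Prime := ⟨hs⟩
  have hvo : orderOf v = s := orderOf_eq_prime hvs hv1
  have h1 := heq x hx v hv
  have hcop : Nat.Coprime (orderOf x) (orderOf v) := by
    rw [hxo, hvo]
    exact Nat.Coprime.pow_left a ((Nat.coprime_primes hq hs).2 hqs)
  have hcm : Commute x v := hxv
  have h2 : orderOf (x * v) = orderOf x * orderOf v :=
    Commute.orderOf_mul_eq_mul_orderOf_of_coprime hcm hcop
  rw [h2, hvo] at h1
  have hpos : 0 < orderOf x := orderOf_pos x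
  have h3 : orderOf x * s = orderOf x * 1 := by rw [h1, mul_one]
  have h4 := Nat.eq_of_mul_eq_mul_left hpos h3
  exact hs.one_lt.ne' h4

theorem fixed_of_pow {G : Type*} [Group G] [Finite G] (N : Subgroup G)
    (heq : ∀ x : G, x ∉ N → ∀ n ∈ N, orderOf (x * n) = orderOf x)
    (q s : ℕ) (hq : q.Prime) (hs : s.Prime) (hqs : q ≠ s) (g v : G)
    (hg : g ∉ N) (hgq : g ^ q ∈ N) (hv : v ∈ N) (hvs : v ^ s = 1) (hgv : g * v = v * g) :
    v = 1 := by
  have hopos : orderOf g ≠ 0 := (orderOf_pos g).ne'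
  obtain ⟨a, m, hqm, hom⟩ := Nat.exists_eq_pow_mul_and_not_dvd hopos q hq.ne_one
  have hm0 : m ≠ 0 := by
    rintro rfl
    exact hqm (dvd_zero q)
  have hxo : orderOf (g ^ m) = q ^ a := by
    rw [orderOf_pow_of_dvd hm0 (by rw [hom]; exact dvd_mul_left m _), hom,
      Nat.mul_div_cancel _ (Nat.pos_of_ne_zero hm0)]
  have hx : g ^ m ∉ N := by
    intro hmem
    have hcop : Nat.Coprime m q := Nat.Coprime.symm ((Nat.Prime.coprime_iff_not_dvd hq).2 hqm)
    have hb : (m : ℤ) * Nat.gcdA m q + (q : ℤ) * Nat.gcdB m q = 1 := by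
      have h := Nat.gcd_eq_gcd_ab m q
      have hg1 : Nat.gcd m q = 1 := hcop
      rw [hg1, Nat.cast_one] at h
      exact h.symm
    apply hg
    have h5 : g = (g ^ m) ^ (Nat.gcdA m q) * (g ^ q) ^ (Nat.gcdB m q) := by
      calc g = g ^ (1 : ℤ) := (zpow_one g).symm
        _ = g ^ ((m : ℤ) * Nat.gcdA m q + (q : ℤ) * Nat.gcdB m q) := by rw [hb]
        _ = (g ^ m) ^ (Nat.gcdA m q) * (g ^ q) ^ (Nat.gcdB m q) := by
            rw [zpow_add, zpow_mul, zpow_mul, zpow_natCast, zpow_natCast]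
    rw [h5]
    exact mul_mem (zpow_mem hmem _) (zpow_mem hgq _)
  have hxv : g ^ m * v = v * g ^ m := by
    have hc : Commute g v := hgv
    exact (hc.pow_left m).eq
  exact core_fixed N heq q s hq hs hqs (g ^ m) v a hx hxo hv hvs hxv

theorem exists_V {G : Type*} [Group G] [Finite G] (N : Subgroup G) [hNn : N.Normal]
    (hN1 : N ≠ ⊥) (hnil : Group.IsNilpotent N) (hnpp : ¬ IsPrimePow (Nat.card N)) (q : ℕ) :
    ∃ s : ℕ, s.Prime ∧ s ≠ q ∧ ∃ V : Subgroup G, V.Normal ∧ V ≠ ⊥ ∧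
      ∀ v ∈ V, v ∈ N ∧ (∀ n ∈ N, n * v = v * n) ∧ v ^ s = 1 := by
  classical
  have hcard1 : Nat.card N ≠ 1 := by
    intro h
    exact hN1 (Subgroup.card_eq_one.1 h)
  have hpos : Nat.card N ≠ 0 := Nat.card_pos.ne'
  have hex : ∃ s : ℕ, s.Prime ∧ s ≠ q ∧ s ∣ Nat.card N := by
    by_contra hcon
    push_neg at hcon
    have huniq : ∀ {d : ℕ}, Nat.Prime d → d ∣ Nat.card N → d = q := by
      intro d hd hdd
      by_contra h
      exact hcon d hd h hdd
    obtain ⟨r, hr, hrd⟩ := Nat.exists_prime_and_dvd hcard1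
    have hq : q.Prime := by
      rw [← huniq hr hrd]
      exact hr
    have hpow := Nat.eq_prime_pow_of_unique_prime_dvd hpos huniq
    have hk : (Nat.card N).primeFactorsList.length ≠ 0 := by
      intro h0
      rw [h0, pow_zero] at hpow
      exact hcard1 hpow
    apply hnpp
    rw [hpow]
    exact IsPrimePow.pow (Nat.prime_iff.mp hq).isPrimePow hk
  obtain ⟨s, hs, hsq, hsd⟩ := hex
  refine ⟨s, hs, hsq, ?_⟩
  let V : Subgroup G :=
    { carrier := {v | v ∈ N ∧ (∀ n ∈ N, n * v = v * n) ∧ v ^ s = 1}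
      one_mem' := ⟨N.one_mem, fun n _ => by rw [mul_one, one_mul], one_pow s⟩
      mul_mem' := by
        rintro a b ⟨haN, hac, has⟩ ⟨hbN, hbc, hbs⟩
        refine ⟨N.mul_mem haN hbN, ?_, ?_⟩
        · intro n hn
          rw [← mul_assoc, hac n hn, mul_assoc, hbc n hn, mul_assoc]
        · have hab : Commute a b := hbc a haN
          rw [hab.mul_pow, has, hbs, one_mul]
      inv_mem' := by
        rintro a ⟨haN, hac, has⟩
        refine ⟨N.inv_mem haN, ?_, ?_⟩
        · intro n hn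
          have h : Commute n a := hac n hn
          exact (Commute.inv_right h).eq
        · rw [inv_pow, has, inv_one] }
  have hVmem : ∀ v, v ∈ V ↔ (v ∈ N ∧ (∀ n ∈ N, n * v = v * n) ∧ v ^ s = 1) := fun v => Iff.rfl
  refine ⟨V, ?_, ?_, fun v hv => (hVmem v).1 hv⟩
  · constructor
    intro v hv g
    rw [hVmem] at hv ⊢
    obtain ⟨hvN, hvc, hvs⟩ := hv
    refine ⟨hNn.conj_mem v hvN g, ?_, ?_⟩
    · intro n hn
      have hn' : g⁻¹ * n * g ∈ N := by
        have h0 := hNn.conj_mem n hn g⁻¹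
        rwa [inv_inv] at h0
      have h := hvc _ hn'
      calc n * (g * v * g⁻¹) = g * (g⁻¹ * n * g * v) * g⁻¹ := by group
        _ = g * (v * (g⁻¹ * n * g)) * g⁻¹ := by rw [h]
        _ = g * v * g⁻¹ * n := by group
    · rw [conj_pow, hvs, mul_one, mul_inv_cancel]
  · haveI : Fact s.Prime := ⟨hs⟩
    obtain ⟨z, hzc, hzo⟩ := exists_central_of_dvd hnil s hsd
    intro hbot
    have hzs : z ^ s = 1 := by
      have h0 := pow_orderOf_eq_one z
      rwa [hzo] at h0
    have hzV : (z : G) ∈ V := by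
      rw [hVmem]
      refine ⟨z.2, ?_, ?_⟩
      · intro n hn
        exact congrArg Subtype.val (hzc ⟨n, hn⟩)
      · exact congrArg Subtype.val hzs
    rw [hbot, Subgroup.mem_bot] at hzV
    have hz1 : z = 1 := Subtype.ext hzV
    rw [hz1, orderOf_one] at hzo
    exact hs.one_lt.ne hzo

theorem result {G : Type*} [Group G] [Finite G] (N : Subgroup G) [N.Normal] (hN1 : N ≠ ⊥) (hN2 : N ≠ ⊤)
    (heq : ∀ x : G, x ∉ N → ∀ n ∈ N, orderOf (x * n) = orderOf x)
    (hnil : Group.IsNilpotent N) (hnpp : ¬ IsPrimePow (Nat.card N)) :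
    N = Cfsg.fittingSubgroup G ∧
    ∀ (q : ℕ) [Fact q.Prime] (Q : Sylow q (G ⧸ N)), IsCyclic (Q : Subgroup (G ⧸ N)) ∨ ∃ n : ℕ, Nonempty ((Q : Subgroup (G ⧸ N)) ≃* QuaternionGroup (2 ^ n)) := by
  classical
  have hNn : N.Normal := inferInstance
  constructor
  · apply le_antisymm (Cfsg.Agent.Lib.Lead.Cores.le_fittingSubgroup hNn hnil)
    rw [Cfsg.Agent.Lib.Lead.Cores.fittingSubgroup_eq_iSup_pCore]
    apply iSup_le
    intro p
    haveI : Fact (p : ℕ).Prime := ⟨p.2⟩
    intro x hxp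
    by_contra hxN
    obtain ⟨s, hs, hsp, V, hVn, hVbot, hV⟩ := exists_V N hN1 hnil hnpp (p : ℕ)
    obtain ⟨v, hvV, hv1⟩ : ∃ v ∈ V, v ≠ 1 := by
      by_contra hcon
      push_neg at hcon
      exact hVbot ((Subgroup.eq_bot_iff_forall V).2 hcon)
    obtain ⟨hvN, hvc, hvs⟩ := hV v hvV
    have hpP : IsPGroup (p : ℕ) (Cfsg.pCore (p : ℕ) G) :=
      Cfsg.Agent.Lib.Lead.Cores.pCore_isPGroup (p : ℕ)
    have hpn : (Cfsg.pCore (p : ℕ) G).Normal := Cfsg.Agent.Lib.Lead.Cores.pCore_normal (p : ℕ)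
    have hVs : IsPGroup s V := by
      rintro ⟨w, hw⟩
      refine ⟨1, ?_⟩
      apply Subtype.ext
      have h0 := (hV w hw).2.2
      simpa using h0
    haveI : Fact s.Prime := ⟨hs⟩
    have hdisj : Disjoint (Cfsg.pCore (p : ℕ) G) V :=
      IsPGroup.disjoint_of_ne (p : ℕ) s (Ne.symm hsp) _ _ hpP hVs
    have hc : x * v * x⁻¹ * v⁻¹ ∈ Cfsg.pCore (p : ℕ) G ⊓ V := by
      refine Subgroup.mem_inf.2 ⟨?_, ?_⟩
      · have h1 := hpn.conj_mem x⁻¹ (inv_mem hxp) v
        have h2 := mul_mem hxp h1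
        have h3 : x * v * x⁻¹ * v⁻¹ = x * (v * x⁻¹ * v⁻¹) := by group
        rw [h3]
        exact h2
      · exact mul_mem (hVn.conj_mem v hvV x) (inv_mem hvV)
    rw [hdisj.eq_bot, Subgroup.mem_bot] at hc
    have hxv : x * v = v * x := mul_inv_eq_iff_eq_mul.1 (mul_inv_eq_one.1 hc)
    obtain ⟨j, hj⟩ := hpP ⟨x, hxp⟩
    have hxpow : x ^ ((p : ℕ) ^ j) = 1 := congrArg Subtype.val hj
    obtain ⟨a, -, ha⟩ := (Nat.dvd_prime_pow p.2).1 (orderOf_dvd_of_pow_eq_one hxpow)
    exact hv1 (core_fixed N heq (p : ℕ) s p.2 hs (Ne.symm hsp) x v a hxN ha hvN hvs hxv)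
  · intro q hqF Q
    have hq : q.Prime := hqF.out
    have hQp : IsPGroup q (Q : Subgroup (G ⧸ N)) := Q.isPGroup'
    suffices hE : Set.ncard {g : (Q : Subgroup (G ⧸ N)) | g ^ q = 1} ≤ q by
      rcases Cfsg.Agent.Lib.Helper18.UniqueInvolution.cyclic_or_quaternion_of_unique q hQp hE
        with h | ⟨-, h⟩
      · exact Or.inl h
      · exact Or.inr h
    by_contra hE
    push_neg at hE
    have hQcard : q ∣ Nat.card (Q : Subgroup (G ⧸ N)) := by
      rcases hQp.card_eq_or_dvd with h | h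
      · exfalso
        haveI : Subsingleton (Q : Subgroup (G ⧸ N)) := (Nat.card_eq_one_iff_unique.1 h).1
        have h1 : Set.ncard {g : (Q : Subgroup (G ⧸ N)) | g ^ q = 1} ≤ 1 :=
          Set.ncard_le_one_of_subsingleton _
        have h2 := hq.one_lt
        omega
      · exact h
    obtain ⟨z, hzc, hzo⟩ := exists_central_of_dvd hQp.isNilpotent q hQcard
    obtain ⟨w, hwq, hwz⟩ : ∃ w : (Q : Subgroup (G ⧸ N)), w ^ q = 1 ∧ w ∉ Subgroup.zpowers z := by
      by_contra hcon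
      push_neg at hcon
      have hsub : {g : (Q : Subgroup (G ⧸ N)) | g ^ q = 1}
          ⊆ (Subgroup.zpowers z : Set (Q : Subgroup (G ⧸ N))) := fun g hg => hcon g hg
      have h1 := Set.ncard_le_ncard hsub (Set.toFinite _)
      have h2 : Set.ncard (Subgroup.zpowers z : Set (Q : Subgroup (G ⧸ N))) = q := by
        rw [← Nat.card_coe_set_eq]
        exact (Nat.card_zpowers z).trans hzo
      omega
    obtain ⟨s, hs, hsq, V, hVn, hVbot, hV⟩ := exists_V N hN1 hnil hnpp q
    haveI := hVn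
    letI instC : CommGroup V :=
      { (inferInstance : Group V) with
        mul_comm := fun a b => Subtype.ext ((hV b.1 b.2).2.1 a.1 (hV a.1 a.2).1) }
    have hker : N ≤ (MulAut.conjNormal (H := V)).ker := by
      intro n hn
      rw [MonoidHom.mem_ker]
      apply MulEquiv.ext
      intro v
      apply Subtype.ext
      rw [MulAut.conjNormal_apply, MulAut.one_apply]
      have h := (hV v.1 v.2).2.1 n hn
      rw [h, mul_assoc, mul_inv_cancel, mul_one]
    let ψ : (G ⧸ N) →* MulAut V := QuotientGroup.lift N (MulAut.conjNormal (H := V)) hker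
    have hψ : ∀ (g : G) (v : V), ((ψ (QuotientGroup.mk g) v : V) : G) = g * v * g⁻¹ :=
      fun g v => MulAut.conjNormal_apply g v
    have hfpf : ∀ g : G ⧸ N, g ≠ 1 → g ^ q = 1 → ∀ m : V, ψ g m = m → m = 1 := by
      intro g hg1 hgq m hm
      obtain ⟨g', rfl⟩ := QuotientGroup.mk_surjective g
      have hg'N : g' ∉ N := by
        intro h
        exact hg1 ((QuotientGroup.eq_one_iff g').2 h)
      have hg'q : g' ^ q ∈ N := by
        rw [← QuotientGroup.eq_one_iff, QuotientGroup.mk_pow]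
        exact hgq
      have h1 : g' * (m : G) * g'⁻¹ = (m : G) := (hψ g' m).symm.trans (congrArg Subtype.val hm)
      have hcomm : g' * (m : G) = (m : G) * g' := mul_inv_eq_iff_eq_mul.1 h1
      have hmv := hV m.1 m.2
      have h2 := fixed_of_pow N heq q s hq hs (Ne.symm hsq) g' m.1 hg'N hg'q hmv.1 hmv.2.2 hcomm
      exact Subtype.ext h2
    have hfpf' : ∀ g : (Q : Subgroup (G ⧸ N)), g ≠ 1 → g ^ q = 1 →
        ∀ m : V, (ψ.comp (Q : Subgroup (G ⧸ N)).subtype) g m = m → m = 1 := by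
      intro g hg1 hgq m hm
      refine hfpf (g : G ⧸ N) ?_ ?_ m hm
      · intro h
        exact hg1 (Subtype.ext h)
      · exact congrArg Subtype.val hgq
    have hz1 : z ≠ 1 := by
      rintro rfl
      rw [orderOf_one] at hzo
      exact hq.one_lt.ne hzo
    have hzq : z ^ q = 1 := by
      have h0 := pow_orderOf_eq_one z
      rwa [hzo] at h0
    have hzw : Commute z w := (hzc w).symm
    have hall : ∀ m : V, m ^ q = 1 := fun m =>
      fpf_pow (ψ.comp (Q : Subgroup (G ⧸ N)).subtype) q hq hfpf' z w hzq hwq hzw hz1 hwz m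
    apply hVbot
    rw [Subgroup.eq_bot_iff_forall]
    intro v hv
    have h1 : v ^ q = 1 := congrArg Subtype.val (hall ⟨v, hv⟩)
    have h2 : v ^ s = 1 := (hV v hv).2.2
    have hcop : Nat.Coprime q s := (Nat.coprime_primes hq hs).2 (Ne.symm hsq)
    have hd1 : orderOf v ∣ q := orderOf_dvd_of_pow_eq_one h1
    have hd2 : orderOf v ∣ s := orderOf_dvd_of_pow_eq_one h2
    have h3 : orderOf v = 1 := Nat.eq_one_of_dvd_coprimes hcop hd1 hd2
    exact orderOf_eq_one_iff.1 h3

end Cfsg.Agent.S4155
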