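import Mathlib
import Cfsg.Statements.S4156

set_option autoImplicit false
open Cfsg

namespace Cfsg.Agent.S4156

universe u

noncomputable def M {n : ℕ} (F : Type u) [Field F] (σ : Equiv.Perm (Fin (n + 1))) :
    Matrix (Fin n) (Fin n) F :=
  fun j i => (if σ i.castSucc = j.castSucc then (1 : F) else 0) -
    (if σ (Fin.last n) = j.castSucc then (1 : F) else 0)

theorem M_apply {n : ℕ} (F : Type u) [Field F] (σ : Equiv.Perm (Fin (n + 1))) (j i : Fin n) :
    M F σ j i = (if σ i.castSucc = j.castSucc then (1 : F) else 0) -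
      (if σ (Fin.last n) = j.castSucc then (1 : F) else 0) := rfl

theorem sumk {n : ℕ} {F : Type u} [Field F] (x : Fin (n + 1)) (g : Fin (n + 1) → F) :
    ∑ k : Fin n, (if x = k.castSucc then g k.castSucc else 0) =
      if x = Fin.last n then 0 else g x := by
  by_cases hx : x = Fin.last n
  · rw [if_pos hx]
    apply Finset.sum_eq_zero
    intro k _
    rw [if_neg]
    rw [hx]
    exact (Fin.castSucc_lt_last k).ne'
  · rw [if_neg hx]
    obtain ⟨k₀, rfl⟩ := Fin.exists_castSucc_eq.2 hx
    simp [Fin.castSucc_inj]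

theorem M_one {n : ℕ} (F : Type u) [Field F] : M F (1 : Equiv.Perm (Fin (n + 1))) = 1 := by
  ext j i
  have h1 : ¬ (Fin.last n = j.castSucc) := (Fin.castSucc_lt_last j).ne'
  rw [M_apply, Equiv.Perm.one_apply, Equiv.Perm.one_apply, if_neg h1, sub_zero, Matrix.one_apply]
  by_cases h : i = j
  · subst h
    simp
  · rw [if_neg (fun hc => h (Fin.castSucc_injective n hc)), if_neg (fun hc => h hc.symm)]

theorem M_mul {n : ℕ} (F : Type u) [Field F] (σ τ : Equiv.Perm (Fin (n + 1))) :
    M F (σ * τ) = M F σ * M F τ := by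
  ext j i
  rw [Matrix.mul_apply]
  have e : ∀ k : Fin n, M F σ j k * M F τ k i =
      (if τ i.castSucc = k.castSucc then (if σ k.castSucc = j.castSucc then (1:F) else 0) else 0)
      - (if τ (Fin.last n) = k.castSucc then
          (if σ k.castSucc = j.castSucc then (1:F) else 0) else 0)
      - (if τ i.castSucc = k.castSucc then
          (if σ (Fin.last n) = j.castSucc then (1:F) else 0) else 0)
      + (if τ (Fin.last n) = k.castSucc then
          (if σ (Fin.last n) = j.castSucc then (1:F) else 0) else 0) := by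
    intro k
    rw [M_apply, M_apply]
    by_cases h1 : τ i.castSucc = k.castSucc <;> by_cases h2 : τ (Fin.last n) = k.castSucc <;>
      simp [h1, h2] <;> ring
  have s1 : ∑ k : Fin n, (if τ i.castSucc = k.castSucc then
      (if σ k.castSucc = j.castSucc then (1:F) else 0) else 0) =
      if τ i.castSucc = Fin.last n then 0 else
        (if σ (τ i.castSucc) = j.castSucc then (1:F) else 0) :=
    sumk (τ i.castSucc) (fun y => if σ y = j.castSucc then (1:F) else 0)
  have s2 : ∑ k : Fin n, (if τ (Fin.last n) = k.castSucc then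
      (if σ k.castSucc = j.castSucc then (1:F) else 0) else 0) =
      if τ (Fin.last n) = Fin.last n then 0 else
        (if σ (τ (Fin.last n)) = j.castSucc then (1:F) else 0) :=
    sumk (τ (Fin.last n)) (fun y => if σ y = j.castSucc then (1:F) else 0)
  have s3 : ∑ k : Fin n, (if τ i.castSucc = k.castSucc then
      (if σ (Fin.last n) = j.castSucc then (1:F) else 0) else 0) =
      if τ i.castSucc = Fin.last n then 0 else
        (if σ (Fin.last n) = j.castSucc then (1:F) else 0) :=
    sumk (τ i.castSucc) (fun _ => if σ (Fin.last n) = j.castSucc then (1:F) else 0)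
  have s4 : ∑ k : Fin n, (if τ (Fin.last n) = k.castSucc then
      (if σ (Fin.last n) = j.castSucc then (1:F) else 0) else 0) =
      if τ (Fin.last n) = Fin.last n then 0 else
        (if σ (Fin.last n) = j.castSucc then (1:F) else 0) :=
    sumk (τ (Fin.last n)) (fun _ => if σ (Fin.last n) = j.castSucc then (1:F) else 0)
  simp only [e]
  rw [Finset.sum_add_distrib, Finset.sum_sub_distrib, Finset.sum_sub_distrib, s1, s2, s3, s4,
    M_apply, Equiv.Perm.mul_apply, Equiv.Perm.mul_apply]
  by_cases h1 : τ i.castSucc = Fin.last n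
  · have h2 : τ (Fin.last n) ≠ Fin.last n := by
      intro h2
      have := τ.injective (h1.trans h2.symm)
      exact (Fin.castSucc_lt_last i).ne this
    simp [h1, h2]
    ring
  · by_cases h2 : τ (Fin.last n) = Fin.last n
    · simp [h1, h2]
    · simp [h1, h2]

noncomputable def Mhom (n : ℕ) (F : Type u) [Field F] :
    Equiv.Perm (Fin (n + 1)) →* Matrix (Fin n) (Fin n) F where
  toFun := M F
  map_one' := M_one F
  map_mul' := M_mul F

theorem det_one {n : ℕ} (F : Type u) [Field F] (hn : 5 ≤ n)
    (σ : alternatingGroup (Fin (n + 1))) : (M F (σ : Equiv.Perm (Fin (n + 1)))).det = 1 := by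
  let d : alternatingGroup (Fin (n + 1)) →* F :=
    (Matrix.detMonoidHom).comp ((Mhom n F).comp (Subgroup.subtype _))
  let d' : alternatingGroup (Fin (n + 1)) →* Fˣ := d.toHomUnits
  have h1 : commutator (alternatingGroup (Fin (n + 1))) ≤ d'.ker :=
    Abelianization.commutator_subset_ker d'
  have h2 : commutator (alternatingGroup (Fin (n + 1))) = ⊤ :=
    commutator_alternatingGroup_eq_top (by
      rw [Nat.card_eq_fintype_card, Fintype.card_fin]
      omega)
  rw [h2] at h1
  have h3 : d' σ = 1 := MonoidHom.mem_ker.1 (h1 (Subgroup.mem_top σ))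
  have h4 : ((d' σ : Fˣ) : F) = d σ := MonoidHom.coe_toHomUnits d σ
  rw [h3, Units.val_one] at h4
  exact h4.symm

noncomputable def g {n : ℕ} (F : Type u) [Field F] (hn : 5 ≤ n) :
    alternatingGroup (Fin (n + 1)) →* Matrix.SpecialLinearGroup (Fin n) F where
  toFun σ := ⟨M F (σ : Equiv.Perm (Fin (n + 1))), det_one F hn σ⟩
  map_one' := Subtype.ext (M_one F)
  map_mul' _ _ := Subtype.ext (M_mul F _ _)

theorem g_inj {n : ℕ} (F : Type u) [Field F] (hn : 5 ≤ n)
    (σ : alternatingGroup (Fin (n + 1)))
    (h : g F hn σ ∈ Subgroup.center (Matrix.SpecialLinearGroup (Fin n) F)) : σ = 1 := by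
  obtain ⟨r, -, hr⟩ := Matrix.SpecialLinearGroup.mem_center_iff.1 h
  have key : ∀ j i : Fin n, M F (σ : Equiv.Perm (Fin (n + 1))) j i = if j = i then r else 0 := by
    intro j i
    have h1 : (Matrix.scalar (Fin n) r) j i = M F (σ : Equiv.Perm (Fin (n + 1))) j i :=
      congrFun (congrFun hr j) i
    rw [← h1, Matrix.scalar_apply, Matrix.diagonal_apply]
  apply Subtype.ext
  show (σ : Equiv.Perm (Fin (n + 1))) = 1
  by_cases hl : (σ : Equiv.Perm (Fin (n + 1))) (Fin.last n) = Fin.last n
  · have hfix : ∀ i : Fin n, (σ : Equiv.Perm (Fin (n + 1))) i.castSucc = i.castSucc := by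
      intro i
      have hx : (σ : Equiv.Perm (Fin (n + 1))) i.castSucc ≠ Fin.last n := by
        intro hx
        have := (σ : Equiv.Perm (Fin (n + 1))).injective (hx.trans hl.symm)
        exact (Fin.castSucc_lt_last i).ne this
      obtain ⟨j, hj⟩ := Fin.exists_castSucc_eq.2 hx
      have hk := key j i
      rw [M_apply, if_pos hj.symm, hl, if_neg (Fin.castSucc_lt_last j).ne', sub_zero] at hk
      by_cases hji : j = i
      · rw [← hj, hji]
      · rw [if_neg hji] at hk
        exact absurd hk one_ne_zero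
    ext x
    refine Fin.lastCases ?_ ?_ x
    · rw [hl]; rfl
    · intro i
      rw [hfix i]; rfl
  · exfalso
    obtain ⟨a, ha⟩ := Fin.exists_castSucc_eq.2 hl
    obtain ⟨i, hi⟩ : ∃ i : Fin n, i ≠ a := by
      by_cases h0 : a = ⟨0, by omega⟩
      · exact ⟨⟨1, by omega⟩, by rw [h0]; simp [Fin.ext_iff]⟩
      · exact ⟨⟨0, by omega⟩, fun hc => h0 hc.symm⟩
    have hk := key a i
    have hne : ¬ ((σ : Equiv.Perm (Fin (n + 1))) i.castSucc = a.castSucc) := by
      intro hc
      have := (σ : Equiv.Perm (Fin (n + 1))).injective (hc.trans ha)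
      exact (Fin.castSucc_lt_last i).ne this
    rw [M_apply, if_neg hne, if_pos ha.symm, if_neg (fun hc => hi hc.symm), zero_sub,
      neg_eq_zero] at hk
    exact one_ne_zero hk

theorem result (n : ℕ) (hn : 5 ≤ n) (F : Type*) [Field F] [Finite F] :
    ∃ f : alternatingGroup (Fin (n + 1)) →* Matrix.ProjectiveSpecialLinearGroup (Fin n) F, Function.Injective f := by
  refine ⟨(QuotientGroup.mk' (Subgroup.center (Matrix.SpecialLinearGroup (Fin n) F))).comp
    (g F hn), ?_⟩
  rw [injective_iff_map_eq_one]
  intro σ hσ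
  apply g_inj F hn σ
  exact (QuotientGroup.eq_one_iff _).1 hσ

end Cfsg.Agent.S4156
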