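import Mathlib
import Cfsg.Statements.S4163

set_option autoImplicit false
open Cfsg

namespace Cfsg.Agent.S4163

theorem mem_cent {G : Type*} [Group G] (g y : G) :
    g ∈ Subgroup.centralizer ({y} : Set G) ↔ y * g = g * y := by
  rw [Subgroup.mem_centralizer_iff]
  constructor
  · intro h
    exact h y (Set.mem_singleton y)
  · intro h z hz
    rw [Set.mem_singleton_iff.1 hz]
    exact h

def cm {G : Type*} [Group G] (x b : G) : G := b⁻¹ * x⁻¹ * b * x

theorem cm_mem {G : Type*} [Group G] (A : Subgroup G) [hAn : A.Normal] (x b : G) (hb : b ∈ A) :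
    cm x b ∈ A := by
  have h1 : x⁻¹ * b * x⁻¹⁻¹ ∈ A := hAn.conj_mem b hb x⁻¹
  rw [inv_inv] at h1
  have h2 := A.mul_mem (A.inv_mem hb) h1
  have e : b⁻¹ * (x⁻¹ * b * x) = cm x b := by
    unfold cm
    group
  rw [e] at h2
  exact h2

theorem cm_eq {G : Type*} [Group G] (A : Subgroup G) [hAn : A.Normal]
    (hA : ∀ a ∈ A, ∀ b ∈ A, a * b = b * a) (x b b' : G) (hb : b ∈ A) (hb' : b' ∈ A)
    (ht : b'⁻¹ * b ∈ Subgroup.centralizer ({x} : Set G)) : cm x b = cm x b' := by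
  rw [mem_cent] at ht
  have htA : b'⁻¹ * b ∈ A := A.mul_mem (A.inv_mem hb') hb
  have hcomm := hA _ htA _ (cm_mem A x b' hb')
  have e1 : cm x b = (b'⁻¹ * b)⁻¹ * (b'⁻¹ * x⁻¹ * b') * ((b'⁻¹ * b) * x) := by
    unfold cm
    group
  rw [e1, ← ht]
  have e2 : (b'⁻¹ * b)⁻¹ * (b'⁻¹ * x⁻¹ * b') * (x * (b'⁻¹ * b))
      = (b'⁻¹ * b)⁻¹ * (cm x b' * (b'⁻¹ * b)) := by
    unfold cm
    group
  rw [e2, ← hcomm]
  exact inv_mul_cancel_left _ _

theorem cm_conj {G : Type*} [Group G] (x a c : G) (hc : x * c = c * x) :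
    c * cm x a * c⁻¹ = cm x (c * a * c⁻¹) := by
  have h0 : x⁻¹ * c = c * x⁻¹ := by
    calc x⁻¹ * c = x⁻¹ * (c * x) * x⁻¹ := by group
      _ = x⁻¹ * (x * c) * x⁻¹ := by rw [hc]
      _ = c * x⁻¹ := by group
  have h1 : c⁻¹ * x⁻¹ * c = x⁻¹ := by
    calc c⁻¹ * x⁻¹ * c = c⁻¹ * (x⁻¹ * c) := by group
      _ = c⁻¹ * (c * x⁻¹) := by rw [h0]
      _ = x⁻¹ := by group
  have h2 : c⁻¹ * x = x * c⁻¹ := by
    calc c⁻¹ * x = c⁻¹ * (x * c) * c⁻¹ := by group
      _ = c⁻¹ * (c * x) * c⁻¹ := by rw [hc]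
      _ = x * c⁻¹ := by group
  unfold cm
  calc c * (a⁻¹ * x⁻¹ * a * x) * c⁻¹ = c * a⁻¹ * x⁻¹ * a * (x * c⁻¹) := by group
    _ = c * a⁻¹ * (c⁻¹ * x⁻¹ * c) * a * (c⁻¹ * x) := by rw [h1, h2]
    _ = (c * a * c⁻¹)⁻¹ * x⁻¹ * (c * a * c⁻¹) * x := by group

theorem card_lt {G : Type*} [Group G] [Finite G] (A : Subgroup G) [hAn : A.Normal]
    (hA : ∀ a ∈ A, ∀ b ∈ A, a * b = b * a) (x a : G) (ha : a ∈ A)
    (hy : cm x a ≠ 1) :
    Nat.card (Subgroup.centralizer ({x} : Set G)) <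
      Nat.card (Subgroup.centralizer ({cm x a} : Set G)) := by
  classical
  have hyA : cm x a ∈ A := cm_mem A x a ha
  have hAS : A ≤ Subgroup.centralizer ({cm x a} : Set G) := by
    intro b hb
    rw [mem_cent]
    exact hA _ hyA b hb
  have hβ : ∀ v : G, ∃ b0 : G, (∃ b ∈ A, cm x b = v) → (b0 ∈ A ∧ cm x b0 = v) := by
    intro v
    by_cases h : ∃ b ∈ A, cm x b = v
    · obtain ⟨b, hb, hbv⟩ := h
      exact ⟨b, fun _ => ⟨hb, hbv⟩⟩
    · exact ⟨1, fun h' => absurd h' h⟩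
  choose β hβ' using hβ
  have hρ : ∀ v : G, ∃ c0 : G, (∃ c ∈ Subgroup.centralizer ({x} : Set G), c * cm x a * c⁻¹ = v) →
      (c0 ∈ Subgroup.centralizer ({x} : Set G) ∧ c0 * cm x a * c0⁻¹ = v) := by
    intro v
    by_cases h : ∃ c ∈ Subgroup.centralizer ({x} : Set G), c * cm x a * c⁻¹ = v
    · obtain ⟨c, hc, hcv⟩ := h
      exact ⟨c, fun _ => ⟨hc, hcv⟩⟩
    · exact ⟨1, fun h' => absurd h' h⟩
  choose ρ hρ' using hρ
  have hI : ∀ c ∈ Subgroup.centralizer ({x} : Set G), ∃ b ∈ A, cm x b = c * cm x a * c⁻¹ := by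
    intro c hc
    exact ⟨c * a * c⁻¹, hAn.conj_mem a ha c, (cm_conj x a c ((mem_cent _ _).1 hc)).symm⟩
  have hI1 : ∃ b ∈ A, cm x b = 1 := by
    refine ⟨1, A.one_mem, ?_⟩
    unfold cm
    group
  have hρH : ∀ c ∈ Subgroup.centralizer ({x} : Set G),
      (ρ (c * cm x a * c⁻¹))⁻¹ * c ∈
        Subgroup.centralizer ({x} : Set G) ⊓ Subgroup.centralizer ({cm x a} : Set G) := by
    intro c hc
    obtain ⟨h1, h2⟩ := hρ' (c * cm x a * c⁻¹) ⟨c, hc, rfl⟩
    have hS : (ρ (c * cm x a * c⁻¹))⁻¹ * c ∈ Subgroup.centralizer ({cm x a} : Set G) := by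
      rw [mem_cent]
      calc cm x a * ((ρ (c * cm x a * c⁻¹))⁻¹ * c)
          = (ρ (c * cm x a * c⁻¹))⁻¹ * (ρ (c * cm x a * c⁻¹) * cm x a * (ρ (c * cm x a * c⁻¹))⁻¹) * c := by
            group
        _ = (ρ (c * cm x a * c⁻¹))⁻¹ * (c * cm x a * c⁻¹) * c := by rw [h2]
        _ = (ρ (c * cm x a * c⁻¹))⁻¹ * c * cm x a := by group
    exact Subgroup.mem_inf.2 ⟨Subgroup.mul_mem _ (Subgroup.inv_mem _ h1) hc, hS⟩
  have key : ∀ v v' h1 h2 : G, (∃ b ∈ A, cm x b = v) → (∃ b ∈ A, cm x b = v') →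
      h1 ∈ Subgroup.centralizer ({x} : Set G) ⊓ Subgroup.centralizer ({cm x a} : Set G) →
      h2 ∈ Subgroup.centralizer ({x} : Set G) ⊓ Subgroup.centralizer ({cm x a} : Set G) →
      β v * h1 = β v' * h2 → v = v' ∧ h1 = h2 := by
    intro v v' h1 h2 hv hv' hh1 hh2 heq
    obtain ⟨hb, hbv⟩ := hβ' v hv
    obtain ⟨hb', hbv'⟩ := hβ' v' hv'
    have ht : (β v')⁻¹ * β v ∈ Subgroup.centralizer ({x} : Set G) := by
      have e : (β v')⁻¹ * β v = h2 * h1⁻¹ := by
        calc (β v')⁻¹ * β v = (β v')⁻¹ * (β v * h1) * h1⁻¹ := by group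
          _ = (β v')⁻¹ * (β v' * h2) * h1⁻¹ := by rw [heq]
          _ = h2 * h1⁻¹ := by group
      rw [e]
      exact Subgroup.mul_mem _ (Subgroup.mem_inf.1 hh2).1 (Subgroup.inv_mem _ (Subgroup.mem_inf.1 hh1).1)
    have hvv : v = v' := by
      rw [← hbv, ← hbv']
      exact cm_eq A hA x (β v) (β v') hb hb' ht
    refine ⟨hvv, ?_⟩
    rw [hvv] at heq
    exact mul_left_cancel heq
  let F : (Subgroup.centralizer ({x} : Set G)) ⊕
      (↥(Subgroup.centralizer ({x} : Set G) ⊓ Subgroup.centralizer ({cm x a} : Set G))) →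
      (Subgroup.centralizer ({cm x a} : Set G)) := fun s =>
    Sum.elim
      (fun c : Subgroup.centralizer ({x} : Set G) =>
        ⟨β ((c : G) * cm x a * (c : G)⁻¹) * ((ρ ((c : G) * cm x a * (c : G)⁻¹))⁻¹ * (c : G)),
        Subgroup.mul_mem _ (hAS (hβ' _ (hI c c.2)).1) (Subgroup.mem_inf.1 (hρH c c.2)).2⟩)
      (fun h : ↥(Subgroup.centralizer ({x} : Set G) ⊓ Subgroup.centralizer ({cm x a} : Set G)) =>
        ⟨β 1 * (h : G), Subgroup.mul_mem _ (hAS (hβ' _ hI1).1) (Subgroup.mem_inf.1 h.2).2⟩) s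
  have hF : Function.Injective F := by
    intro s t hst
    have hst' : ((F s : Subgroup.centralizer ({cm x a} : Set G)) : G) = (F t : G) :=
      congrArg Subtype.val hst
    rcases s with c | h <;> rcases t with c' | h'
    · have hk := key _ _ _ _ (hI c c.2) (hI c' c'.2) (hρH c c.2) (hρH c' c'.2) hst'
      obtain ⟨hv, hh⟩ := hk
      rw [hv] at hh
      have : (c : G) = (c' : G) := mul_left_cancel hh
      rw [Subtype.ext this]
    · exfalso
      have hk := key _ _ _ _ (hI c c.2) hI1 (hρH c c.2) h'.2 hst'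
      have h1 : (c : G) * cm x a * (c : G)⁻¹ = 1 := hk.1
      apply hy
      calc cm x a = (c : G)⁻¹ * ((c : G) * cm x a * (c : G)⁻¹) * (c : G) := by group
        _ = (c : G)⁻¹ * 1 * (c : G) := by rw [h1]
        _ = 1 := by group
    · exfalso
      have hk := key _ _ _ _ hI1 (hI c' c'.2) h.2 (hρH c' c'.2) hst'
      have h1 : (c' : G) * cm x a * (c' : G)⁻¹ = 1 := hk.1.symm
      apply hy
      calc cm x a = (c' : G)⁻¹ * ((c' : G) * cm x a * (c' : G)⁻¹) * (c' : G) := by group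
        _ = (c' : G)⁻¹ * 1 * (c' : G) := by rw [h1]
        _ = 1 := by group
    · have hk := key _ _ _ _ hI1 hI1 h.2 h'.2 hst'
      rw [Subtype.ext hk.2]
  have hle := Nat.card_le_card_of_injective F hF
  rw [Nat.card_sum] at hle
  have hpos : 0 < Nat.card (↥(Subgroup.centralizer ({x} : Set G) ⊓
      Subgroup.centralizer ({cm x a} : Set G))) := Nat.card_pos
  omega

theorem cm_central {G : Type*} [Group G] [Finite G] (A : Subgroup G) [hAn : A.Normal]
    (hA : ∀ a ∈ A, ∀ b ∈ A, a * b = b * a) (m : ℕ)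
    (hmin : ∀ x : G, 1 < (Subgroup.centralizer ({x} : Set G)).index →
      m ≤ (Subgroup.centralizer ({x} : Set G)).index)
    (x : G) (hx : (Subgroup.centralizer ({x} : Set G)).index = m) (a : G) (ha : a ∈ A) :
    cm x a ∈ Subgroup.center G := by
  by_contra hcon
  have hy1 : cm x a ≠ 1 := by
    intro h
    rw [h] at hcon
    exact hcon (Subgroup.one_mem _)
  have hlt := card_lt A hA x a ha hy1
  have hidx : 1 < (Subgroup.centralizer ({cm x a} : Set G)).index := by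
    have h0 : (Subgroup.centralizer ({cm x a} : Set G)).index ≠ 0 := Subgroup.index_ne_zero_of_finite
    have h1 : (Subgroup.centralizer ({cm x a} : Set G)).index ≠ 1 := by
      intro h
      rw [Subgroup.index_eq_one] at h
      apply hcon
      rw [Subgroup.mem_center_iff]
      intro g
      have hg : g ∈ Subgroup.centralizer ({cm x a} : Set G) := by
        rw [h]
        exact Subgroup.mem_top g
      rw [mem_cent] at hg
      exact hg.symm
    omega
  have hm := hmin _ hidx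
  have e1 := Subgroup.index_mul_card (Subgroup.centralizer ({cm x a} : Set G))
  have e2 := Subgroup.index_mul_card (Subgroup.centralizer ({x} : Set G))
  rw [hx] at e2
  have hmpos : 0 < m := by
    rw [← hx]
    exact Nat.pos_of_ne_zero Subgroup.index_ne_zero_of_finite
  have h3 : m * Nat.card (Subgroup.centralizer ({x} : Set G)) <
      m * Nat.card (Subgroup.centralizer ({cm x a} : Set G)) :=
    Nat.mul_lt_mul_of_pos_left hlt hmpos
  have h4 : m * Nat.card (Subgroup.centralizer ({cm x a} : Set G)) ≤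
      (Subgroup.centralizer ({cm x a} : Set G)).index *
        Nat.card (Subgroup.centralizer ({cm x a} : Set G)) :=
    Nat.mul_le_mul_right _ hm
  have h5 := lt_of_lt_of_le h3 h4
  rw [e1, e2] at h5
  exact lt_irrefl _ h5

theorem q_all {G : Type*} [Group G] [Finite G] (A : Subgroup G) [hAn : A.Normal]
    (hA : ∀ a ∈ A, ∀ b ∈ A, a * b = b * a) (m : ℕ)
    (hmin : ∀ x : G, 1 < (Subgroup.centralizer ({x} : Set G)).index →
      m ≤ (Subgroup.centralizer ({x} : Set G)).index) :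
    ∀ g ∈ Subgroup.closure {x : G | (Subgroup.centralizer ({x} : Set G)).index = 1 ∨
      (Subgroup.centralizer ({x} : Set G)).index = m},
      ∀ a ∈ A, cm g a ∈ Subgroup.center G := by
  intro g hg
  refine Subgroup.closure_induction (p := fun g _ => ∀ a ∈ A, cm g a ∈ Subgroup.center G)
    ?_ ?_ ?_ ?_ hg
  · intro x hx a ha
    rcases hx with hx | hx
    · rw [Subgroup.index_eq_one] at hx
      have hmem : a ∈ Subgroup.centralizer ({x} : Set G) := by
        rw [hx]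
        exact Subgroup.mem_top a
      rw [mem_cent] at hmem
      have e : cm x a = 1 := by
        unfold cm
        calc a⁻¹ * x⁻¹ * a * x = a⁻¹ * x⁻¹ * (a * x) := by group
          _ = a⁻¹ * x⁻¹ * (x * a) := by rw [hmem]
          _ = 1 := by group
      rw [e]
      exact Subgroup.one_mem _
    · exact cm_central A hA m hmin x hx a ha
  · intro a ha
    have e : cm (1 : G) a = 1 := by
      unfold cm
      group
    rw [e]
    exact Subgroup.one_mem _
  · intro g h _ _ ihg ihh a ha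
    have e : cm (g * h) a = cm h a * (h⁻¹ * cm g a * h) := by
      unfold cm
      group
    have hz := Subgroup.mem_center_iff.1 (ihg a ha) h
    have e2 : h⁻¹ * cm g a * h = cm g a := by
      calc h⁻¹ * cm g a * h = h⁻¹ * (cm g a * h) := by group
        _ = h⁻¹ * (h * cm g a) := by rw [hz]
        _ = cm g a := by group
    rw [e, e2]
    exact Subgroup.mul_mem _ (ihh a ha) (ihg a ha)
  · intro g _ ih a ha
    have e : cm g⁻¹ a = (cm g (g * a * g⁻¹))⁻¹ := by
      unfold cm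
      group
    rw [e]
    exact Subgroup.inv_mem _ (ih _ (hAn.conj_mem a ha g))

theorem comm_cent {G : Type*} [Group G] (A : Subgroup G)
    (x y : G) (hx : ∀ a ∈ A, cm x a ∈ Subgroup.center G)
    (hy : ∀ a ∈ A, cm y a ∈ Subgroup.center G) :
    x * y * x⁻¹ * y⁻¹ ∈ Subgroup.centralizer (A : Set G) := by
  rw [Subgroup.mem_centralizer_iff]
  intro a ha
  have ha' : a ∈ A := ha
  have hz1 := hx a ha'
  have hz2 := hy a ha'
  have hT : (x * y)⁻¹ * a * (x * y) = (y * x)⁻¹ * a * (y * x) := by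
    have e1 : (x * y)⁻¹ * a * (x * y) = a * (cm y a * (y⁻¹ * cm x a * y)) := by
      unfold cm
      group
    have e2 : (y * x)⁻¹ * a * (y * x) = a * (cm x a * (x⁻¹ * cm y a * x)) := by
      unfold cm
      group
    have hc1 := Subgroup.mem_center_iff.1 hz1 y
    have hc2 := Subgroup.mem_center_iff.1 hz2 x
    have c1 : y⁻¹ * cm x a * y = cm x a := by
      calc y⁻¹ * cm x a * y = y⁻¹ * (cm x a * y) := by group
        _ = y⁻¹ * (y * cm x a) := by rw [hc1]
        _ = cm x a := by group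
    have c2 : x⁻¹ * cm y a * x = cm y a := by
      calc x⁻¹ * cm y a * x = x⁻¹ * (cm y a * x) := by group
        _ = x⁻¹ * (x * cm y a) := by rw [hc2]
        _ = cm y a := by group
    have c3 : cm y a * cm x a = cm x a * cm y a := Subgroup.mem_center_iff.1 hz1 (cm y a)
    rw [e1, e2, c1, c2, c3]
  calc a * (x * y * x⁻¹ * y⁻¹) = (x * y) * ((x * y)⁻¹ * a * (x * y)) * (y * x)⁻¹ := by group
    _ = (x * y) * ((y * x)⁻¹ * a * (y * x)) * (y * x)⁻¹ := by rw [hT]
    _ = x * y * x⁻¹ * y⁻¹ * a := by group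

theorem four_comm {G : Type*} [Group G] [Finite G] (A : Subgroup G) [hAn : A.Normal]
    (hA : ∀ a ∈ A, ∀ b ∈ A, a * b = b * a) (hCA : Subgroup.centralizer (A : Set G) = A) (m : ℕ)
    (hmin : ∀ x : G, 1 < (Subgroup.centralizer ({x} : Set G)).index →
      m ≤ (Subgroup.centralizer ({x} : Set G)).index) (x y z w : G)
    (hx : x ∈ Subgroup.closure {x : G | (Subgroup.centralizer ({x} : Set G)).index = 1 ∨
      (Subgroup.centralizer ({x} : Set G)).index = m})
    (hy : y ∈ Subgroup.closure {x : G | (Subgroup.centralizer ({x} : Set G)).index = 1 ∨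
      (Subgroup.centralizer ({x} : Set G)).index = m})
    (hz : z ∈ Subgroup.closure {x : G | (Subgroup.centralizer ({x} : Set G)).index = 1 ∨
      (Subgroup.centralizer ({x} : Set G)).index = m}) :
    (x * y * x⁻¹ * y⁻¹) * z * (x * y * x⁻¹ * y⁻¹)⁻¹ * z⁻¹ * w *
      ((x * y * x⁻¹ * y⁻¹) * z * (x * y * x⁻¹ * y⁻¹)⁻¹ * z⁻¹)⁻¹ * w⁻¹ = 1 := by
  have hQ := q_all A hA m hmin
  have hc1 : x * y * x⁻¹ * y⁻¹ ∈ A := by
    have h := comm_cent A x y (hQ x hx) (hQ y hy)
    rw [hCA] at h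
    exact h
  have hc2 : (x * y * x⁻¹ * y⁻¹) * z * (x * y * x⁻¹ * y⁻¹)⁻¹ * z⁻¹ ∈ Subgroup.center G := by
    have h := hQ z⁻¹ (Subgroup.inv_mem _ hz) (x * y * x⁻¹ * y⁻¹)⁻¹ (A.inv_mem hc1)
    have e : cm z⁻¹ (x * y * x⁻¹ * y⁻¹)⁻¹
        = (x * y * x⁻¹ * y⁻¹) * z * (x * y * x⁻¹ * y⁻¹)⁻¹ * z⁻¹ := by
      unfold cm
      group
    rw [e] at h
    exact h
  have h3 := Subgroup.mem_center_iff.1 hc2 w
  generalize (x * y * x⁻¹ * y⁻¹) * z * (x * y * x⁻¹ * y⁻¹)⁻¹ * z⁻¹ = c2 at h3 ⊢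
  calc c2 * w * c2⁻¹ * w⁻¹ = (c2 * w) * c2⁻¹ * w⁻¹ := by group
    _ = (w * c2) * c2⁻¹ * w⁻¹ := by rw [h3]
    _ = 1 := by group

theorem result {G : Type*} [Group G] [Finite G]
    (A : Subgroup G) [A.Normal] (hA : IsMulCommutative A) (hCA : Subgroup.centralizer (A : Set G) = A)
    (m : ℕ) (hm1 : 1 < m) (hm : ∃ x : G, (Subgroup.centralizer ({x} : Set G)).index = m) (hmin : ∀ x : G, 1 < (Subgroup.centralizer ({x} : Set G)).index → m ≤ (Subgroup.centralizer ({x} : Set G)).index) :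
    Subgroup.upperCentralSeries ↥(Subgroup.closure {x : G | (Subgroup.centralizer ({x} : Set G)).index = 1 ∨ (Subgroup.centralizer ({x} : Set G)).index = m}) 3 = ⊤ := by
  have hA' : ∀ a ∈ A, ∀ b ∈ A, a * b = b * a := by
    intro a ha b hb
    exact congrArg Subtype.val (hA.is_comm.comm ⟨a, ha⟩ ⟨b, hb⟩)
  rw [eq_top_iff]
  intro u _
  change u ∈ Subgroup.upperCentralSeries _ (2 + 1)
  rw [Subgroup.mem_upperCentralSeries_succ_iff]
  intro y
  change _ ∈ Subgroup.upperCentralSeries _ (1 + 1)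
  rw [Subgroup.mem_upperCentralSeries_succ_iff]
  intro z
  change _ ∈ Subgroup.upperCentralSeries _ (0 + 1)
  rw [Subgroup.mem_upperCentralSeries_succ_iff]
  intro w
  rw [Subgroup.upperCentralSeries_zero, Subgroup.mem_bot]
  apply Subtype.ext
  have h := four_comm A hA' hCA m hmin u.1 y.1 z.1 w.1 u.2 y.2 z.2
  simp only [Subgroup.coe_mul, Subgroup.coe_inv, OneMemClass.coe_one]
  exact h

end Cfsg.Agent.S4163
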