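import Cfsg.Statements.S4168

set_option autoImplicit false
open Cfsg

namespace Cfsg.Agent.S4168

theorem hom_trivial_of_perfect {G A : Type*} [Group G] [Group A] (hA : ∀ a b : A, a * b = b * a)
    (h : commutator G = ⊤) (f : G →* A) (x : G) : f x = 1 := by
  have h1 : commutator G ≤ f.ker := by
    rw [commutator_def, Subgroup.commutator_le]
    intro a _ b _
    rw [MonoidHom.mem_ker, commutatorElement_def, map_mul, map_mul, map_mul, map_inv, map_inv]
    rw [hA (f a) (f b), mul_assoc, mul_assoc, mul_inv_cancel_left, mul_inv_cancel]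
  rw [h] at h1
  exact h1 (Subgroup.mem_top x)

theorem result {L : Type*} [Group L] [Finite L] (hL : Cfsg.IsQuasisimple L)
    (p : ℕ) (hp : p.Prime) (hdiv : p ∣ Nat.card (Subgroup.center L)) : p ∣ (Subgroup.center L).index := by
  have hpf := Fact.mk hp
  obtain ⟨hperf, -⟩ := hL
  obtain ⟨z, hz⟩ := exists_prime_orderOf_dvd_card' p hdiv
  have hall : ∀ x : L, MonoidHom.transferCenterPow L x = 1 :=
    fun x => hom_trivial_of_perfect (fun a b => Subtype.ext (Subgroup.mem_center_iff.mp b.2 (a : L))) (Group.isPerfect_def.mp hperf)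
      (MonoidHom.transferCenterPow L) x
  have h3 : ((z : L)) ^ (Subgroup.center L).index = 1 := by
    have := congrArg (Subtype.val) (hall (z : L))
    rwa [MonoidHom.transferCenterPow_apply] at this
  have h4 : z ^ (Subgroup.center L).index = 1 := by
    apply Subtype.ext
    simpa using h3
  have := orderOf_dvd_of_pow_eq_one h4
  rwa [hz] at this

end Cfsg.Agent.S4168
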