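import Mathlib
import Cfsg.Statements.S4169
import Cfsg.Agent.S4163
import Cfsg.Agent.Lib.Helper10.CN

set_option autoImplicit false
open Cfsg

namespace Cfsg.Agent.S4169

theorem exists_sc {P : Type*} [Group P] [Finite P] [hnil : Group.IsNilpotent P] :
    ∃ A : Subgroup P, A.Normal ∧ (∀ a ∈ A, ∀ b ∈ A, a * b = b * a) ∧
      Subgroup.centralizer (A : Set P) = A := by
  classical
  haveI : Nonempty {A : Subgroup P // A.Normal ∧ (∀ a ∈ A, ∀ b ∈ A, a * b = b * a)} := by
    refine ⟨⟨⊥, inferInstance, ?_⟩⟩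
    intro a ha b hb
    rw [Subgroup.mem_bot] at ha hb
    rw [ha, hb]
  obtain ⟨⟨A, hAn, hAc⟩, hmax⟩ := Finite.exists_max
    (fun A : {A : Subgroup P // A.Normal ∧ (∀ a ∈ A, ∀ b ∈ A, a * b = b * a)} => Nat.card A.1)
  refine ⟨A, hAn, hAc, ?_⟩
  haveI := hAn
  have hle : A ≤ Subgroup.centralizer (A : Set P) := by
    intro a ha
    rw [Subgroup.mem_centralizer_iff]
    intro b hb
    exact hAc b hb a ha
  by_contra hne
  have hex : ∃ c ∈ Subgroup.centralizer (A : Set P), c ∉ A := by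
    by_contra hcon
    push_neg at hcon
    exact hne (le_antisymm hcon hle)
  obtain ⟨c, hc, hcA⟩ := hex
  have hNn : ((Subgroup.centralizer (A : Set P)).map (QuotientGroup.mk' A)).Normal :=
    Subgroup.Normal.map inferInstance _ (QuotientGroup.mk'_surjective A)
  haveI := hNn
  have hNne : (Subgroup.centralizer (A : Set P)).map (QuotientGroup.mk' A) ≠ ⊥ := by
    intro h
    have h1 : QuotientGroup.mk' A c ∈ (Subgroup.centralizer (A : Set P)).map (QuotientGroup.mk' A) :=
      Subgroup.mem_map_of_mem _ hc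
    rw [h, Subgroup.mem_bot] at h1
    exact hcA ((QuotientGroup.eq_one_iff c).1 h1)
  obtain ⟨z, hzN, hz1, hzc⟩ := Cfsg.Agent.Lib.Helper10.CN.inf_center_ne_bot
    ((Subgroup.centralizer (A : Set P)).map (QuotientGroup.mk' A)) hNne
  obtain ⟨c0, hc0, hc0z⟩ := Subgroup.mem_map.1 hzN
  have hc0A : c0 ∉ A := by
    intro h
    apply hz1
    rw [← hc0z]
    exact (QuotientGroup.eq_one_iff c0).2 h
  have hzn : (Subgroup.zpowers z).Normal := by
    constructor
    intro n hn g
    obtain ⟨k, rfl⟩ := Subgroup.mem_zpowers_iff.1 hn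
    have hcomm : Commute g (z ^ k) := (show Commute g z from hzc g).zpow_right k
    have e : g * z ^ k * g⁻¹ = z ^ k := by
      rw [hcomm.eq]
      group
    rw [e]
    exact Subgroup.zpow_mem_zpowers z k
  have hBn : ((Subgroup.zpowers z).comap (QuotientGroup.mk' A)).Normal := hzn.comap _
  have hAB : A ≤ (Subgroup.zpowers z).comap (QuotientGroup.mk' A) := by
    intro a ha
    rw [Subgroup.mem_comap]
    have : QuotientGroup.mk' A a = 1 := (QuotientGroup.eq_one_iff a).2 ha
    rw [this]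
    exact Subgroup.one_mem _
  have hc0B : c0 ∈ (Subgroup.zpowers z).comap (QuotientGroup.mk' A) := by
    rw [Subgroup.mem_comap, hc0z]
    exact Subgroup.mem_zpowers z
  have hdec : ∀ u ∈ (Subgroup.zpowers z).comap (QuotientGroup.mk' A),
      ∃ i : ℤ, (c0 ^ i)⁻¹ * u ∈ A := by
    intro u hu
    rw [Subgroup.mem_comap] at hu
    obtain ⟨i, hi⟩ := Subgroup.mem_zpowers_iff.1 hu
    refine ⟨i, ?_⟩
    apply (QuotientGroup.eq_one_iff _).1
    have e : ((((c0 ^ i)⁻¹ * u : P)) : P ⧸ A) = (QuotientGroup.mk' A (c0 ^ i))⁻¹ * QuotientGroup.mk' A u := rfl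
    rw [e, map_zpow, hc0z, hi]
    exact inv_mul_cancel _
  have hc0c : ∀ a ∈ A, Commute a c0 := by
    intro a ha
    exact (Subgroup.mem_centralizer_iff.1 hc0) a ha
  have hBc : ∀ u ∈ (Subgroup.zpowers z).comap (QuotientGroup.mk' A),
      ∀ v ∈ (Subgroup.zpowers z).comap (QuotientGroup.mk' A), u * v = v * u := by
    intro u hu v hv
    obtain ⟨i, hi⟩ := hdec u hu
    obtain ⟨j, hj⟩ := hdec v hv
    have eu : u = c0 ^ i * ((c0 ^ i)⁻¹ * u) := by group
    have ev : v = c0 ^ j * ((c0 ^ j)⁻¹ * v) := by group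
    have h11 : Commute (c0 ^ i) (c0 ^ j) := (Commute.refl c0).zpow_zpow i j
    have h12 : Commute (c0 ^ i) ((c0 ^ j)⁻¹ * v) := ((hc0c _ hj).zpow_right i).symm
    have h21 : Commute ((c0 ^ i)⁻¹ * u) (c0 ^ j) := (hc0c _ hi).zpow_right j
    have h22 : Commute ((c0 ^ i)⁻¹ * u) ((c0 ^ j)⁻¹ * v) := hAc _ hi _ hj
    have hfin : Commute (c0 ^ i * ((c0 ^ i)⁻¹ * u)) (c0 ^ j * ((c0 ^ j)⁻¹ * v)) :=
      (h11.mul_right h12).mul_left (h21.mul_right h22)
    rw [eu, ev]
    exact hfin.eq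
  have hcard := hmax ⟨(Subgroup.zpowers z).comap (QuotientGroup.mk' A), hBn, hBc⟩
  have heq := Subgroup.eq_of_le_of_card_ge hAB hcard
  apply hc0A
  rw [heq]
  exact hc0B

theorem result {P : Type*} [Group P] [Finite P] {p : ℕ} [Fact p.Prime] (hP : IsPGroup p P)
    (m : ℕ) (hm : 1 < m) (h : ∀ x : P, (Subgroup.centralizer ({x} : Set P)).index = 1 ∨ (Subgroup.centralizer ({x} : Set P)).index = m) :
    upperCentralSeries P 3 = ⊤ := by
  haveI : Group.IsNilpotent P := hP.isNilpotent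
  obtain ⟨A, hAn, hAc, hCA⟩ := exists_sc (P := P)
  haveI := hAn
  have hmin : ∀ x : P, 1 < (Subgroup.centralizer ({x} : Set P)).index →
      m ≤ (Subgroup.centralizer ({x} : Set P)).index := by
    intro x hx
    rcases h x with h1 | h1
    · omega
    · omega
  have hall : ∀ g : P, g ∈ Subgroup.closure {x : P | (Subgroup.centralizer ({x} : Set P)).index = 1 ∨
      (Subgroup.centralizer ({x} : Set P)).index = m} := fun g => Subgroup.subset_closure (h g)
  rw [eq_top_iff]
  intro u _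
  change u ∈ Subgroup.upperCentralSeries P (2 + 1)
  rw [Subgroup.mem_upperCentralSeries_succ_iff]
  intro y
  change _ ∈ Subgroup.upperCentralSeries P (1 + 1)
  rw [Subgroup.mem_upperCentralSeries_succ_iff]
  intro z
  change _ ∈ Subgroup.upperCentralSeries P (0 + 1)
  rw [Subgroup.mem_upperCentralSeries_succ_iff]
  intro w
  rw [Subgroup.upperCentralSeries_zero, Subgroup.mem_bot]
  exact Cfsg.Agent.S4163.four_comm A hAc hCA m hmin u y z w (hall u) (hall y) (hall z)

end Cfsg.Agent.S4169
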