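import Mathlib
import Cfsg.Statements.S4170

set_option autoImplicit false
open scoped Pointwise
open Cfsg

namespace Cfsg.Agent.S4170

/-- Let p be an odd prime and G a nontrivial group of permutations of a finite set Ω that is generated by its elements of p-power order. Then Ω has two disjoint nonempty subsets Δ₁ and Δ₂ such that the index in G of the subgroup of elements mapping Δ₁ onto Δ₁ and Δ₂ onto Δ₂ (and hence also the complement of their union onto itself) is divisible by p. -/
theorem result {Ω : Type*} [Fintype Ω] (p : ℕ) [Fact p.Prime] (hp : p ≠ 2) (G : Subgroup (Equiv.Perm Ω)) (hG : G ≠ ⊥) (hgen : Subgroup.closure {g : G | ∃ k : ℕ, orderOf g = p ^ k} = ⊤) :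
    ∃ Δ₁ Δ₂ : Set Ω, Δ₁.Nonempty ∧ Δ₂.Nonempty ∧ Disjoint Δ₁ Δ₂ ∧ p ∣ (MulAction.stabilizer G Δ₁ ⊓ MulAction.stabilizer G Δ₂).index := by
  classical
  have hpp : p.Prime := Fact.out
  have h1 : ∃ g : G, g ≠ 1 ∧ ∃ k : ℕ, orderOf g = p ^ k := by
    by_contra hcon
    have hbot : Subgroup.closure {g : G | ∃ k : ℕ, orderOf g = p ^ k} = ⊥ := by
      rw [Subgroup.closure_eq_bot_iff]
      intro g hg
      by_contra hne
      exact hcon ⟨g, hne, hg⟩
    rw [hbot] at hgen
    apply hG
    rw [Subgroup.eq_bot_iff_forall]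
    intro x hx
    have hx' : (⟨x, hx⟩ : G) ∈ (⊥ : Subgroup G) := by rw [hgen]; trivial
    rw [Subgroup.mem_bot] at hx'
    exact congrArg Subtype.val hx'
  obtain ⟨g, hg1, k, hk⟩ := h1
  have hk0 : k ≠ 0 := by
    rintro rfl
    rw [pow_zero, orderOf_eq_one_iff] at hk
    exact hg1 hk
  have hog0 : orderOf g ≠ 0 := by
    rw [hk]
    exact pow_ne_zero _ hpp.pos.ne'
  have hpdvd : p ∣ orderOf g := by
    rw [hk]
    exact dvd_pow_self p hk0
  set u : G := g ^ (orderOf g / p) with hudef
  have hu : orderOf u = p := orderOf_pow_orderOf_div hog0 hpdvd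
  have hu1 : u ≠ 1 := by
    intro h
    rw [h, orderOf_one] at hu
    exact hpp.one_lt.ne hu
  obtain ⟨x0, hx0⟩ : ∃ x0 : Ω, u • x0 ≠ x0 := by
    by_contra hcon
    push_neg at hcon
    apply hu1
    apply Subtype.ext
    apply Equiv.ext
    intro x
    exact hcon x
  let Z : Subgroup G := Subgroup.zpowers u
  let C : Set Ω := MulAction.orbit Z x0
  have hx0C : x0 ∈ C := MulAction.mem_orbit_self x0
  have hux0C : u • x0 ∈ C := MulAction.mem_orbit x0 (⟨u, Subgroup.mem_zpowers u⟩ : Z)
  have hCeq : ({x0} : Set Ω) ∪ C \ {x0} = C :=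
    Set.union_diff_cancel (Set.singleton_subset_iff.mpr hx0C)
  have huC : u • C = C := by
    have := MulAction.smul_orbit (⟨u, Subgroup.mem_zpowers u⟩ : Z) x0
    exact this
  let K : Subgroup G := MulAction.stabilizer G C
  have huK : u ∈ K := by
    rw [MulAction.mem_stabilizer_iff]
    exact huC
  have hZK : Z ≤ K := by
    rw [Subgroup.zpowers_le]
    exact huK
  have hZp : IsPGroup p Z := by
    apply IsPGroup.of_card (n := 1)
    rw [pow_one]
    rw [Nat.card_zpowers]
    exact hu
  obtain ⟨n, hn⟩ := hZp.card_orbit x0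
  have hn0 : n ≠ 0 := by
    rintro rfl
    rw [pow_zero, Nat.card_eq_one_iff_unique] at hn
    obtain ⟨hsub, -⟩ := hn
    have := hsub.elim (⟨u • x0, hux0C⟩ : C) ⟨x0, hx0C⟩
    exact hx0 (congrArg Subtype.val this)
  have hCcard : p ∣ Nat.card C := by
    have : Nat.card C = p ^ n := hn
    rw [this]
    exact dvd_pow_self p hn0
  refine ⟨{x0}, C \ {x0}, Set.singleton_nonempty x0, ⟨u • x0, hux0C, ?_⟩, Set.disjoint_sdiff_right, ?_⟩
  · simpa using hx0
  · set H : Subgroup G := MulAction.stabilizer G ({x0} : Set Ω) ⊓ MulAction.stabilizer G (C \ {x0}) with hH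
    have hHK : H ≤ K := by
      intro a ha
      rw [hH, Subgroup.mem_inf, MulAction.mem_stabilizer_iff, MulAction.mem_stabilizer_iff] at ha
      rw [MulAction.mem_stabilizer_iff]
      calc a • C = a • (({x0} : Set Ω) ∪ C \ {x0}) := by rw [hCeq]
        _ = a • ({x0} : Set Ω) ∪ a • (C \ {x0}) := Set.smul_set_union
        _ = ({x0} : Set Ω) ∪ C \ {x0} := by rw [ha.1, ha.2]
        _ = C := hCeq
    have hsub : H.subgroupOf K = MulAction.stabilizer K x0 := by
      ext a
      rw [Subgroup.mem_subgroupOf, MulAction.mem_stabilizer_iff, hH, Subgroup.mem_inf,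
        MulAction.mem_stabilizer_iff, MulAction.mem_stabilizer_iff]
      have haC : (a : G) • C = C := a.2
      constructor
      · rintro ⟨h1, -⟩
        rw [Set.smul_set_singleton] at h1
        exact Set.singleton_eq_singleton_iff.mp h1
      · intro h
        have h' : (a : G) • x0 = x0 := h
        have h1 : (a : G) • ({x0} : Set Ω) = {x0} := by
          rw [Set.smul_set_singleton, h']
        refine ⟨h1, ?_⟩
        rw [Set.smul_set_sdiff, haC, h1]
    have horb : MulAction.orbit K x0 = C := by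
      apply Set.Subset.antisymm
      · rintro y ⟨a, rfl⟩
        have haC : (a : G) • C = C := a.2
        have : (a : G) • x0 ∈ (a : G) • C := Set.smul_mem_smul_set hx0C
        rw [haC] at this
        exact this
      · rintro y ⟨z, rfl⟩
        exact ⟨⟨(z : G), hZK z.2⟩, rfl⟩
    have hrel : H.relIndex K = Nat.card C := by
      rw [Subgroup.relIndex, hsub, MulAction.index_stabilizer, horb]
      exact (Nat.card_coe_set_eq C).symm
    have hidx : H.relIndex K * K.index = H.index := Subgroup.relIndex_mul_index hHK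
    rw [← hidx, hrel]
    exact Dvd.dvd.mul_right hCcard _

end Cfsg.Agent.S4170
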