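import Mathlib
import Cfsg.Statements.S4177

set_option autoImplicit false
open Cfsg

namespace Cfsg.Agent.S4177

open Classical in
theorem fixed_mem_span {k V K : Type*} [Field k] [AddCommGroup V] [Module k V] [Group K] [Fintype K]
    (hK : (Fintype.card K : k) ≠ 0) (ρ : Representation k K V) (a : V)
    (hspan : Submodule.span k {u : V | ∃ x : K, ρ x a = u} = ⊤) (w : V) (hw : ∀ x, ρ x w = w) :
    w ∈ Submodule.span k ({∑ x : K, ρ x a} : Set V) := by
  have key : ∀ v : V, (∑ x : K, ρ x v) ∈ Submodule.span k ({∑ x : K, ρ x a} : Set V) := by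
    intro v
    have hv : v ∈ Submodule.span k {u : V | ∃ x : K, ρ x a = u} := by rw [hspan]; trivial
    induction hv using Submodule.span_induction with
    | mem u hu =>
      obtain ⟨x₀, rfl⟩ := hu
      have : ∑ x : K, ρ x (ρ x₀ a) = ∑ x : K, ρ x a := by
        have e : ∀ x : K, ρ x (ρ x₀ a) = ρ (x * x₀) a := by
          intro x; rw [map_mul]; rfl
        simp_rw [e]
        exact Fintype.sum_equiv (Equiv.mulRight x₀) _ _ (fun x => rfl)
      rw [this]
      exact Submodule.subset_span rfl
    | zero => simp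
    | add u v _ _ hu hv =>
      simp_rw [map_add]
      rw [Finset.sum_add_distrib]
      exact Submodule.add_mem _ hu hv
    | smul c u _ hu =>
      simp_rw [map_smul]
      rw [← Finset.smul_sum]
      exact Submodule.smul_mem _ c hu
  have h1 := key w
  simp_rw [hw] at h1
  rw [Finset.sum_const, Finset.card_univ, ← Nat.cast_smul_eq_nsmul k] at h1
  exact (Submodule.smul_mem_iff _ hK).mp h1

open Classical in
theorem sum_eq_card_smul {k V K : Type*} [Field k] [AddCommGroup V] [Module k V] [Group K] [Fintype K]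
    (ρ : Representation k K V) (a : V) :
    ∑ x : K, ρ x a = (Finset.univ.filter (fun y : K => ρ y a = a)).card •
      ∑ u ∈ Finset.univ.image (fun x : K => ρ x a), u := by
  have h := Finset.sum_comp (s := (Finset.univ : Finset K)) (fun u : V => u) (fun x : K => ρ x a)
  rw [h, Finset.smul_sum]
  apply Finset.sum_congr rfl
  intro u hu
  rw [Finset.mem_image] at hu
  obtain ⟨x₀, -, rfl⟩ := hu
  congr 1
  apply Finset.card_bij' (fun x _ => x₀⁻¹ * x) (fun y _ => x₀ * y)
  · intro x hx
    rw [Finset.mem_filter] at hx ⊢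
    refine ⟨Finset.mem_univ _, ?_⟩
    have : ρ (x₀⁻¹ * x) a = ρ x₀⁻¹ (ρ x a) := by rw [map_mul]; rfl
    rw [this, hx.2]
    have : ρ x₀⁻¹ (ρ x₀ a) = ρ (x₀⁻¹ * x₀) a := by rw [map_mul]; rfl
    rw [this, inv_mul_cancel, map_one]; rfl
  · intro y hy
    rw [Finset.mem_filter] at hy ⊢
    refine ⟨Finset.mem_univ _, ?_⟩
    have : ρ (x₀ * y) a = ρ x₀ (ρ y a) := by rw [map_mul]; rfl
    rw [this, hy.2]
  · intro x _; simp
  · intro y _; simp

theorem result {k V H : Type*} [Field k] [AddCommGroup V] [Module k V] [Group H] [Finite H]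
    (hchar : ¬ ringChar k ∣ Nat.card H) (ρ : Representation k H V) (a : V)
    (hspan : Submodule.span k {u : V | ∃ h : H, ρ h a = u} = ⊤) :
    Module.finrank k ρ.invariants ≤ 1 ∧
    ∀ b : V, (Nat.card {u : V | ∃ h : H, ρ h a = u}).Coprime (Nat.card {u : V | ∃ h : H, ρ h b = u}) → ∀ h : H, ρ h b = b := by
  classical
  have hfin : Fintype H := Fintype.ofFinite H
  have hcard : ∀ n : ℕ, n ∣ Nat.card H → (n : k) ≠ 0 := by
    intro n hn h0
    rw [CharP.cast_eq_zero_iff k (ringChar k)] at h0
    exact hchar (h0.trans hn)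
  constructor
  · have hH : (Fintype.card H : k) ≠ 0 := by
      apply hcard; rw [Nat.card_eq_fintype_card]
    have hle : ρ.invariants ≤ Submodule.span k ({∑ x : H, ρ x a} : Set V) := by
      intro w hw
      exact fixed_mem_span hH ρ a hspan w ((Representation.mem_invariants ρ w).mp hw)
    have h1 := Submodule.finrank_mono hle
    have h2 : Module.finrank k (Submodule.span k ({∑ x : H, ρ x a} : Set V)) ≤ 1 := by
      by_cases hv : ∑ x : H, ρ x a = 0
      · rw [hv, Submodule.span_zero_singleton]; simp
      · rw [finrank_span_singleton hv]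
    exact h1.trans h2
  · intro b hcop
    letI : MulAction H V := MulAction.compHom V (ρ : H →* Module.End k V)
    have hsm : ∀ (h : H) (v : V), h • v = ρ h v := fun h v => rfl
    have hOa : {u : V | ∃ h : H, ρ h a = u} = MulAction.orbit H a := rfl
    have hOb : {u : V | ∃ h : H, ρ h b = u} = MulAction.orbit H b := rfl
    rw [hOa, hOb, Nat.card_coe_set_eq, Nat.card_coe_set_eq, ← MulAction.index_stabilizer,
      ← MulAction.index_stabilizer] at hcop
    set A := MulAction.stabilizer H a with hA
    set K := MulAction.stabilizer H b with hKdef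
    -- K is transitive on the orbit of a
    have hdvd : A.index * K.index ∣ (A ⊓ K).index :=
      Nat.Coprime.mul_dvd_of_dvd_of_dvd hcop (Subgroup.index_dvd_of_le inf_le_left)
        (Subgroup.index_dvd_of_le inf_le_right)
    have hrel := Subgroup.relIndex_mul_index (inf_le_right : A ⊓ K ≤ K)
    rw [Subgroup.inf_relIndex_right] at hrel
    have hKpos : 0 < K.index := Nat.pos_of_ne_zero Subgroup.index_ne_zero_of_finite
    have hdvd2 : A.index ∣ A.relIndex K := by
      rw [← hrel] at hdvd
      exact Nat.dvd_of_mul_dvd_mul_right hKpos hdvd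
    have hstabK : MulAction.stabilizer K a = A.subgroupOf K := by
      ext x
      rw [MulAction.mem_stabilizer_iff, Subgroup.mem_subgroupOf, hA, MulAction.mem_stabilizer_iff]
      rfl
    have hidx : (MulAction.orbit K a).ncard = A.relIndex K := by
      rw [← MulAction.index_stabilizer, hstabK]; rfl
    have hsub : MulAction.orbit K a ⊆ MulAction.orbit H a := by
      rintro _ ⟨x, rfl⟩
      exact ⟨(x : H), rfl⟩
    have hfinO : (MulAction.orbit H a).Finite := Set.finite_range _
    have hOeq : MulAction.orbit K a = MulAction.orbit H a := by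
      apply Set.eq_of_subset_of_ncard_le hsub _ hfinO
      rw [hidx, ← MulAction.index_stabilizer]
      apply Nat.le_of_dvd _ hdvd2
      rw [← hidx, Set.ncard_pos (hfinO.subset hsub)]
      exact MulAction.nonempty_orbit a
    have htrans : ∀ h : H, ∃ x : K, ρ (x : H) a = ρ h a := by
      intro h
      have : ρ h a ∈ MulAction.orbit K a := by
        rw [hOeq]; exact ⟨h, rfl⟩
      obtain ⟨x, hx⟩ := this
      exact ⟨x, hx⟩
    -- representation of K
    have hfinK : Fintype K := Fintype.ofFinite K
    let ρK : Representation k K V := ρ.comp K.subtype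
    have hρK : ∀ (x : K) (v : V), ρK x v = ρ (x : H) v := fun x v => rfl
    have hspanK : Submodule.span k {u : V | ∃ x : K, ρK x a = u} = ⊤ := by
      rw [eq_top_iff, ← hspan]
      apply Submodule.span_mono
      rintro u ⟨h, rfl⟩
      obtain ⟨x, hx⟩ := htrans h
      exact ⟨x, hx⟩
    have hKcard : (Fintype.card K : k) ≠ 0 := by
      apply hcard
      rw [← Nat.card_eq_fintype_card]
      exact Subgroup.card_subgroup_dvd_card K
    have hbfix : ∀ x : K, ρK x b = b := by
      intro x
      exact x.2
    have hb := fixed_mem_span hKcard ρK a hspanK b hbfix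
    rw [sum_eq_card_smul ρK a] at hb
    have himg : Finset.univ.image (fun x : K => ρK x a) = Finset.univ.image (fun h : H => ρ h a) := by
      ext u
      simp only [Finset.mem_image, Finset.mem_univ, true_and]
      constructor
      · rintro ⟨x, rfl⟩; exact ⟨(x : H), rfl⟩
      · rintro ⟨h, rfl⟩
        obtain ⟨x, hx⟩ := htrans h
        exact ⟨x, hx⟩
    rw [himg] at hb
    set s : V := ∑ u ∈ Finset.univ.image (fun h : H => ρ h a), u with hs
    have hsinv : ∀ g : H, ρ g s = s := by
      intro g
      rw [hs, map_sum]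
      apply Finset.sum_bij' (fun u _ => ρ g u) (fun u _ => ρ g⁻¹ u)
      · intro u hu
        rw [Finset.mem_image] at hu ⊢
        obtain ⟨h, -, rfl⟩ := hu
        exact ⟨g * h, Finset.mem_univ _, by rw [map_mul]; rfl⟩
      · intro u hu
        rw [Finset.mem_image] at hu ⊢
        obtain ⟨h, -, rfl⟩ := hu
        exact ⟨g⁻¹ * h, Finset.mem_univ _, by rw [map_mul]; rfl⟩
      · intro u _
        have : ρ g⁻¹ (ρ g u) = ρ (g⁻¹ * g) u := by rw [map_mul]; rfl
        rw [this, inv_mul_cancel, map_one]; rfl
      · intro u _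
        have : ρ g (ρ g⁻¹ u) = ρ (g * g⁻¹) u := by rw [map_mul]; rfl
        rw [this, mul_inv_cancel, map_one]; rfl
      · intro u _; rfl
    rw [Submodule.mem_span_singleton] at hb
    obtain ⟨c, hc⟩ := hb
    intro g
    rw [← hc, map_smul, map_nsmul, hsinv g]

end Cfsg.Agent.S4177
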