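import Mathlib
import Cfsg.Statements.S4178

set_option autoImplicit false
open Cfsg

namespace Cfsg.Agent.S4178

theorem index_le_of_stab {H : Type*} [Group H] {Ω : Type*} [MulAction H Ω] [Finite Ω]
    (R : Subgroup H) (ω : Ω) (hstab : MulAction.stabilizer H ω ≤ R) (T : Set Ω)
    (hT : MulAction.orbit H ω ⊆ T) : R.index ≤ T.ncard := by
  have h1 : R.index ∣ (MulAction.stabilizer H ω).index := Subgroup.index_dvd_of_le hstab
  rw [MulAction.index_stabilizer] at h1
  have h2 : (MulAction.orbit H ω).ncard ≤ T.ncard := Set.ncard_le_ncard hT (Set.toFinite T)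
  have h3 : 0 < (MulAction.orbit H ω).ncard := by
    rw [Set.ncard_pos (Set.toFinite _)]
    exact MulAction.nonempty_orbit ω
  exact (Nat.le_of_dvd h3 h1).trans h2

theorem ncard_ne_zero_set {Ω : Type*} [Finite Ω] [Zero Ω] : {x : Ω | x ≠ 0}.ncard = Nat.card Ω - 1 := by
  have : {x : Ω | x ≠ 0} = ({0} : Set Ω)ᶜ := by
    ext x; simp
  rw [this, Set.ncard_compl, Set.ncard_singleton]

def quotAction {F V : Type*} [Field F] [AddCommGroup V] [Module F V]
    (H : Subgroup (V ≃ₗ[F] V)) (W : Submodule F V) (hW : ∀ h ∈ H, ∀ w ∈ W, h w ∈ W) :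
    MulAction H (V ⧸ W) where
  smul h x := W.mapQ W ((h : V ≃ₗ[F] V) : V →ₗ[F] V) (fun w hw => hW h h.2 w hw) x
  one_smul := by
    intro x
    induction x using Submodule.Quotient.induction_on with
    | H v =>
      show W.mapQ W (((1 : H) : V ≃ₗ[F] V) : V →ₗ[F] V) _ (Submodule.Quotient.mk v) = Submodule.Quotient.mk v
      rw [Submodule.mapQ_apply]
      rfl
  mul_smul := by
    intro a b x
    induction x using Submodule.Quotient.induction_on with
    | H v =>
      show W.mapQ W (((a * b : H) : V ≃ₗ[F] V) : V →ₗ[F] V) _ (Submodule.Quotient.mk v) =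
        W.mapQ W (((a : H) : V ≃ₗ[F] V) : V →ₗ[F] V) _ (W.mapQ W (((b : H) : V ≃ₗ[F] V) : V →ₗ[F] V) _ (Submodule.Quotient.mk v))
      rw [Submodule.mapQ_apply, Submodule.mapQ_apply, Submodule.mapQ_apply]
      rfl

theorem exists_fixed {F V : Type*} [Field F] [AddCommGroup V] [Module F V] [FiniteDimensional F V]
    (h : V ≃ₗ[F] V) (W : Submodule F V) (hW : ∀ w ∈ W, h w ∈ W) (v : V) (hv : v ∉ W)
    (hvW : h v - v ∈ W) : ∃ u : V, u ≠ 0 ∧ h u = u := by
  by_contra hcon
  push Not at hcon
  let f : V →ₗ[F] V := (h : V →ₗ[F] V) - LinearMap.id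
  have hf : ∀ w ∈ W, f w ∈ W := by
    intro w hw
    show h w - w ∈ W
    exact W.sub_mem (hW w hw) hw
  let g : W →ₗ[F] W := f.restrict hf
  have hginj : Function.Injective g := by
    rw [← LinearMap.ker_eq_bot, LinearMap.ker_eq_bot']
    intro w hw
    have h1 : f (w : V) = 0 := by
      have := congrArg Subtype.val hw
      simpa [g] using this
    have h2 : h (w : V) = (w : V) := by
      have : h (w : V) - (w : V) = 0 := h1
      exact sub_eq_zero.mp this
    by_contra hw0
    exact hcon (w : V) (fun h0 => hw0 (Subtype.ext h0)) h2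
  have hgsurj : Function.Surjective g := LinearMap.injective_iff_surjective.mp hginj
  obtain ⟨w, hw⟩ := hgsurj ⟨h v - v, hvW⟩
  have h1 : h (w : V) - (w : V) = h v - v := by
    have := congrArg Subtype.val hw
    simpa [g, f] using this
  have h2 : h (v - (w : V)) = v - (w : V) := by
    rw [map_sub]
    have : h v - h (w : V) - (v - (w : V)) = 0 := by
      have e : h v - h (w : V) - (v - (w : V)) = (h v - v) - (h (w : V) - (w : V)) := by abel
      rw [e, h1, sub_self]
    exact sub_eq_zero.mp this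
  have h3 : v - (w : V) = 0 := by
    by_contra h0
    exact hcon _ h0 h2
  apply hv
  rw [sub_eq_zero.mp h3]
  exact w.2

theorem result {F V : Type*} [Field F] [Fintype F] [AddCommGroup V] [Module F V] [FiniteDimensional F V] [Nontrivial V]
    (H : Subgroup (V ≃ₗ[F] V)) :
    (Subgroup.closure {h : ↥H | ∃ v : V, v ≠ 0 ∧ (h : V ≃ₗ[F] V) v = v}).index ≤ Fintype.card F ^ Module.finrank F V - 1 ∧
    ((∃ W : Submodule F V, W ≠ ⊥ ∧ W ≠ ⊤ ∧ ∀ h ∈ H, ∀ w ∈ W, h w ∈ W) →
      ((Subgroup.closure {h : ↥H | ∃ v : V, v ≠ 0 ∧ (h : V ≃ₗ[F] V) v = v}).index : ℝ) ≤ Real.sqrt ((Fintype.card F : ℝ) ^ Module.finrank F V) - 1) := by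
  have hVfin : Finite V := Module.finite_of_finite F
  set R := Subgroup.closure {h : ↥H | ∃ v : V, v ≠ 0 ∧ (h : V ≃ₗ[F] V) v = v} with hR
  have hinv : ∀ (h : H) (v : V), (h : V ≃ₗ[F] V) v = 0 → v = 0 := by
    intro h v hv
    have := congrArg (h : V ≃ₗ[F] V).symm hv
    simpa using this
  constructor
  · obtain ⟨ω, hω⟩ := exists_ne (0 : V)
    have hstab : MulAction.stabilizer H ω ≤ R := by
      intro h hh
      apply Subgroup.subset_closure
      exact ⟨ω, hω, hh⟩
    have hT : MulAction.orbit H ω ⊆ {x : V | x ≠ 0} := by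
      rintro _ ⟨h, rfl⟩
      intro h0
      exact hω (hinv h ω h0)
    have := index_le_of_stab R ω hstab _ hT
    rw [ncard_ne_zero_set, Module.natCard_eq_pow_finrank (K := F) (V := V), Nat.card_eq_fintype_card] at this
    exact this
  · rintro ⟨W, hW0, hW1, hW⟩
    have hWinv : ∀ (h : H) (v : V), (h : V ≃ₗ[F] V) v ∈ W → v ∈ W := by
      intro h v hv
      have := hW (h⁻¹ : H) (h⁻¹ : H).2 _ hv
      simpa using this
    have hq : 1 ≤ Fintype.card F := Fintype.card_pos
    have b1 : R.index ≤ Fintype.card F ^ Module.finrank F W - 1 := by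
      obtain ⟨ω, hωW, hω⟩ := (Submodule.ne_bot_iff W).mp hW0
      have hstab : MulAction.stabilizer H ω ≤ R := by
        intro h hh
        apply Subgroup.subset_closure
        exact ⟨ω, hω, hh⟩
      have hT : MulAction.orbit H ω ⊆ ((fun w : W => (w : V)) '' {x : W | x ≠ 0}) := by
        rintro _ ⟨h, rfl⟩
        refine ⟨⟨(h : V ≃ₗ[F] V) ω, hW h h.2 ω hωW⟩, ?_, rfl⟩
        intro h0
        have := congrArg Subtype.val h0
        exact hω (hinv h ω this)
      have := index_le_of_stab R ω hstab _ hT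
      rw [Set.ncard_image_of_injective _ Subtype.val_injective, ncard_ne_zero_set,
        Module.natCard_eq_pow_finrank (K := F) (V := W), Nat.card_eq_fintype_card] at this
      exact this
    have b2 : R.index ≤ Fintype.card F ^ Module.finrank F (V ⧸ W) - 1 := by
      obtain ⟨ω, hωW⟩ : ∃ ω : V, ω ∉ W := by
        by_contra hcon
        push Not at hcon
        exact hW1 (eq_top_iff.mpr (fun x _ => hcon x))
      letI := quotAction H W hW
      have hQfin : Finite (V ⧸ W) := Module.finite_of_finite F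
      have hsmul : ∀ (h : H) (v : V), h • (Submodule.Quotient.mk v : V ⧸ W) = Submodule.Quotient.mk ((h : V ≃ₗ[F] V) v) := by
        intro h v
        show W.mapQ W (((h : H) : V ≃ₗ[F] V) : V →ₗ[F] V) _ (Submodule.Quotient.mk v) = _
        rw [Submodule.mapQ_apply]
        rfl
      have hstab : MulAction.stabilizer H (Submodule.Quotient.mk ω : V ⧸ W) ≤ R := by
        intro h hh
        apply Subgroup.subset_closure
        have hh' : h • (Submodule.Quotient.mk ω : V ⧸ W) = Submodule.Quotient.mk ω := hh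
        rw [hsmul, Submodule.Quotient.eq] at hh'
        exact exists_fixed (h : V ≃ₗ[F] V) W (hW h h.2) ω hωW hh'
      have hT : MulAction.orbit H (Submodule.Quotient.mk ω : V ⧸ W) ⊆ {x : V ⧸ W | x ≠ 0} := by
        rintro _ ⟨h, rfl⟩
        show h • (Submodule.Quotient.mk ω : V ⧸ W) ≠ 0
        rw [hsmul, Ne, Submodule.Quotient.mk_eq_zero]
        intro h0
        exact hωW (hWinv h ω h0)
      have := index_le_of_stab R (Submodule.Quotient.mk ω : V ⧸ W) hstab _ hT
      rw [ncard_ne_zero_set, Module.natCard_eq_pow_finrank (K := F) (V := V ⧸ W), Nat.card_eq_fintype_card] at this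
      exact this
    have hsum : Module.finrank F (V ⧸ W) + Module.finrank F W = Module.finrank F V :=
      Submodule.finrank_quotient_add_finrank W
    set a := Module.finrank F W
    set b := Module.finrank F (V ⧸ W)
    set q := Fintype.card F
    have hqa : 1 ≤ q ^ a := Nat.one_le_pow _ _ hq
    have hqb : 1 ≤ q ^ b := Nat.one_le_pow _ _ hq
    have c1 : R.index + 1 ≤ q ^ a := by omega
    have c2 : R.index + 1 ≤ q ^ b := by omega
    have c3 : (R.index + 1) * (R.index + 1) ≤ q ^ (Module.finrank F V) := by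
      rw [← hsum, pow_add]
      exact Nat.mul_le_mul c2 c1
    have c4 : ((R.index : ℝ) + 1) ^ 2 ≤ (q : ℝ) ^ Module.finrank F V := by
      have : (((R.index + 1) * (R.index + 1) : ℕ) : ℝ) ≤ ((q ^ (Module.finrank F V) : ℕ) : ℝ) := by
        exact_mod_cast c3
      push_cast at this
      nlinarith [this]
    have c5 : (R.index : ℝ) + 1 ≤ Real.sqrt ((q : ℝ) ^ Module.finrank F V) :=
      Real.le_sqrt_of_sq_le c4
    linarith

end Cfsg.Agent.S4178
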