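import Cfsg.Statements.S4182


set_option autoImplicit false
open Cfsg

namespace Cfsg.Agent.S4182

open scoped Pointwise

universe u v

/-- element of `p`-power order -/
def PE (p : ℕ) {G : Type u} [Group G] (g : G) : Prop := ∃ k : ℕ, orderOf g = p ^ k

/-- subgroup generated by its elements of `p`-power order -/
def PG (p : ℕ) {G : Type u} [Group G] (L : Subgroup G) : Prop :=
  Subgroup.closure {g : G | g ∈ L ∧ PE p g} = L

theorem PG_sup (p : ℕ) {G : Type u} [Group G] {L L' : Subgroup G} (h : PG p L) (h' : PG p L') :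
    PG p (L ⊔ L') := by
  unfold PG at *
  apply le_antisymm
  · rw [Subgroup.closure_le]
    intro g hg
    exact hg.1
  · apply sup_le
    · conv_lhs => rw [← h]
      apply Subgroup.closure_mono
      intro g hg
      exact ⟨Subgroup.mem_sup_left hg.1, hg.2⟩
    · conv_lhs => rw [← h']
      apply Subgroup.closure_mono
      intro g hg
      exact ⟨Subgroup.mem_sup_right hg.1, hg.2⟩

theorem PG_zpowers (p : ℕ) {G : Type u} [Group G] {g : G} (hg : PE p g) :
    PG p (Subgroup.zpowers g) := by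
  unfold PG
  apply le_antisymm
  · rw [Subgroup.closure_le]
    intro x hx
    exact hx.1
  · rw [Subgroup.zpowers_le]
    apply Subgroup.subset_closure
    exact ⟨Subgroup.mem_zpowers g, hg⟩

theorem PE_map (p : ℕ) {G : Type u} [Group G] (φ : MulAut G) (g : G) : PE p (φ g) ↔ PE p g := by
  unfold PE
  rw [MulEquiv.orderOf_eq]

theorem PG_smul (p : ℕ) {G : Type u} [Group G] (φ : MulAut G) {L : Subgroup G} (h : PG p L) :
    PG p (φ • L) := by
  unfold PG at *
  have hset : {g : G | g ∈ φ • L ∧ PE p g} = φ • {g : G | g ∈ L ∧ PE p g} := by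
    ext x
    rw [Set.mem_smul_set_iff_inv_smul_mem]
    simp only [Set.mem_ofPred_eq]
    rw [Subgroup.mem_pointwise_smul_iff_inv_smul_mem, MulAut.smul_def, PE_map]
  rw [hset, ← Subgroup.smul_closure, h]

theorem smul_ne_top {G : Type u} [Group G] (φ : MulAut G) {L : Subgroup G} (h : L ≠ ⊤) :
    φ • L ≠ ⊤ := by
  intro h'
  apply h
  rw [eq_top_iff]
  intro x _
  have : φ • x ∈ φ • L := by rw [h']; exact Subgroup.mem_top _
  exact Subgroup.smul_mem_pointwise_smul_iff.mp this

theorem aux (p : ℕ) [Fact p.Prime] {ι : Type v} [Fintype ι] (hι : Fintype.card ι ≤ p) :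
    ∀ (n : ℕ) (G : Type u) [Group G] [Finite G], Nat.card G = n →
      Subgroup.closure {g : G | PE p g} = ⊤ →
      ∀ K : ι → Subgroup G, (∀ g : G, PE p g → ∃ i, g ∈ K i) → ∃ i, K i = ⊤ := by
  intro n
  induction n using Nat.strong_induction_on with
  | _ n IH =>
  intro G _ _ hn hgen K hcov
  by_contra hK
  have hK' : ∀ i, K i ≠ ⊤ := fun i h => hK ⟨i, h⟩
  have hp : p.Prime := Fact.out
  -- Step 1
  have F1 : ∀ H : Subgroup G, H ≠ ⊤ → PG p H → ∃ i, H ≤ K i := by
    intro H hH hPG
    have hlt : Nat.card H < n := by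
      rw [← hn]
      apply lt_of_le_of_ne (Subgroup.card_le_card_group H)
      intro h
      exact hH ((Subgroup.card_eq_iff_eq_top H).mp h)
    have hgenH : Subgroup.closure {g : H | PE p g} = ⊤ := by
      apply Subgroup.map_injective H.subtype_injective
      rw [MonoidHom.map_closure, ← MonoidHom.range_eq_map, Subgroup.range_subtype]
      have : (H.subtype '' {g : H | PE p g}) = {g : G | g ∈ H ∧ PE p g} := by
        ext x
        constructor
        · rintro ⟨y, hy, rfl⟩
          refine ⟨y.2, ?_⟩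
          obtain ⟨k, hk⟩ := hy
          exact ⟨k, by rw [← hk]; exact (Subgroup.orderOf_coe y)⟩
        · rintro ⟨hx, k, hk⟩
          refine ⟨⟨x, hx⟩, ⟨k, ?_⟩, rfl⟩
          rw [← hk]; exact (Subgroup.orderOf_mk x hx)
      rw [this]
      exact hPG
    obtain ⟨i, hi⟩ := IH (Nat.card H) hlt H rfl hgenH (fun i => (K i).subgroupOf H) (by
      intro g hg
      obtain ⟨k, hk⟩ := hg
      obtain ⟨i, hi⟩ := hcov (g : G) ⟨k, by rw [← hk]; exact Subgroup.orderOf_coe g⟩
      exact ⟨i, Subgroup.mem_subgroupOf.mpr hi⟩)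
    exact ⟨i, Subgroup.subgroupOf_eq_top.mp hi⟩
  -- Step 2: the maximal proper p-generated subgroups
  obtain ⟨s, hs⟩ : ∃ s : Set (Subgroup G), s = {L | L ≠ ⊤ ∧ PG p L} := ⟨_, rfl⟩
  obtain ⟨𝓜, h𝓜⟩ : ∃ 𝓜 : Set (Subgroup G), 𝓜 = {L | Maximal (· ∈ s) L} := ⟨_, rfl⟩
  have hMs : ∀ L ∈ 𝓜, L ≠ ⊤ ∧ PG p L := by
    intro L hL
    rw [h𝓜] at hL
    have := hL.1
    rw [hs] at this
    exact this
  have hMmax : ∀ L ∈ 𝓜, ∀ L' : Subgroup G, L' ≠ ⊤ → PG p L' → L ≤ L' → L' ≤ L := by
    intro L hL L' h1 h2 h3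
    rw [h𝓜] at hL
    exact hL.2 (by rw [hs]; exact ⟨h1, h2⟩) h3
  -- Step 3: injection into ι
  have hexi : ∀ L : 𝓜, ∃ i, (L : Subgroup G) ≤ K i :=
    fun L => F1 L (hMs L L.2).1 (hMs L L.2).2
  choose f hf using hexi
  have hfinj : Function.Injective f := by
    intro L L' hLL'
    have h0 : (L' : Subgroup G) ≤ K (f L) := by rw [hLL']; exact hf L'
    have h1 : (L : Subgroup G) ⊔ L' ≤ K (f L) := sup_le (hf L) h0
    have h2 : (L : Subgroup G) ⊔ L' ≠ ⊤ := by
      intro h
      rw [h] at h1
      exact hK' (f L) (top_le_iff.mp h1)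
    have h3 := PG_sup p (hMs L L.2).2 (hMs L' L'.2).2
    have h4 := hMmax L L.2 _ h2 h3 le_sup_left
    have h5 := hMmax L' L'.2 _ h2 h3 le_sup_right
    apply Subtype.ext
    exact le_antisymm (le_trans le_sup_left h5) (le_trans le_sup_right h4)
  have hcardM : Nat.card 𝓜 ≤ p := by
    calc Nat.card 𝓜 ≤ Nat.card ι := Nat.card_le_card_of_injective f hfinj
      _ = Fintype.card ι := Nat.card_eq_fintype_card
      _ ≤ p := hι
  -- Step 4: cover
  have hsfin : s.Finite := Set.toFinite s
  have hcovM : ∀ g : G, PE p g → ∃ L ∈ 𝓜, g ∈ L := by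
    intro g hg
    obtain ⟨i, hi⟩ := hcov g hg
    have hz : Subgroup.zpowers g ∈ s := by
      rw [hs]
      refine ⟨?_, PG_zpowers p hg⟩
      intro h
      apply hK' i
      rw [eq_top_iff, ← h, Subgroup.zpowers_le]
      exact hi
    obtain ⟨L, hL1, hL2⟩ := hsfin.exists_le_maximal hz
    exact ⟨L, by rw [h𝓜]; exact hL2, hL1 (Subgroup.mem_zpowers g)⟩
  -- Step 5: conjugation invariance
  have hconj : ∀ L ∈ 𝓜, ∀ φ : MulAut G, φ • L ∈ 𝓜 := by
    intro L hL φ
    have hL' := hL
    rw [h𝓜] at hL' ⊢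
    refine ⟨?_, ?_⟩
    · show φ • L ∈ s
      rw [hs]
      exact ⟨smul_ne_top φ (hMs L hL).1, PG_smul p φ (hMs L hL).2⟩
    · intro L' hL's hle
      have hL's' := hL's
      rw [hs] at hL's'
      have h1 : φ⁻¹ • L' ∈ s := by
        rw [hs]
        exact ⟨smul_ne_top φ⁻¹ hL's'.1, PG_smul p φ⁻¹ hL's'.2⟩
      have h2 : L ≤ φ⁻¹ • L' := by
        have := (Subgroup.pointwise_smul_le_pointwise_smul_iff (a := φ⁻¹)).mpr hle
        rwa [inv_smul_smul] at this
      have h3 := hL'.2 h1 h2
      have := (Subgroup.pointwise_smul_le_pointwise_smul_iff (a := φ)).mpr h3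
      rwa [smul_inv_smul] at this
  -- Step 6: p-elements normalize the members
  have hnorm : ∀ u : G, PE p u → ∀ L ∈ 𝓜, MulAut.conj u • L = L := by
    intro u hu L hL
    by_contra hne
    obtain ⟨L₀, hL₀, huL₀⟩ := hcovM u hu
    have hfix : ∀ j : ℕ, MulAut.conj (u ^ j) • L₀ = L₀ := fun j =>
      Subgroup.conj_smul_eq_self_of_mem (pow_mem huL₀ j)
    obtain ⟨k, hk⟩ := hu
    have hpow : ∀ d : ℕ, 0 < d → d < p → MulAut.conj (u ^ d) • L ≠ L := by
      intro d hd0 hdp hd
      apply hne
      have hcop : Nat.Coprime d (p ^ k) := by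
        apply Nat.Coprime.pow_right
        exact (Nat.coprime_comm.mp ((Nat.Prime.coprime_iff_not_dvd hp).mpr
          (Nat.not_dvd_of_pos_of_lt hd0 hdp)))
      rcases Nat.lt_or_ge 1 (p ^ k) with h1 | h1
      · obtain ⟨e, he⟩ := Nat.exists_mul_mod_eq_one_of_coprime hcop h1
        have hue : (u ^ d) ^ e = u := by
          rw [← pow_mul, ← pow_mod_orderOf, hk, he.2, pow_one]
        have hstab : MulAut.conj (u ^ d) ∈ MulAction.stabilizer (MulAut G) L :=
          MulAction.mem_stabilizer_iff.mpr hd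
        have h2 := MulAction.mem_stabilizer_iff.mp (pow_mem hstab e)
        rw [← map_pow, hue] at h2
        exact h2
      · have hu1 : u = 1 := by
          have : orderOf u = 1 := by
            rw [hk]; exact le_antisymm h1 (Nat.one_le_pow _ _ hp.pos)
          exact orderOf_eq_one_iff.mp this
        rw [hu1, map_one, one_smul]
    have hlt : ∀ i j : ℕ, i < j → j < p →
        MulAut.conj (u ^ i) • L ≠ MulAut.conj (u ^ j) • L := by
      intro i j hij hjp h
      have h1 : u ^ j = u ^ i * u ^ (j - i) := by rw [← pow_add]; congr 1; omega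
      rw [h1, map_mul, mul_smul] at h
      have h2 := smul_left_cancel _ h
      exact hpow (j - i) (by omega) (by omega) h2.symm
    have hno : ∀ j : ℕ, L₀ ≠ MulAut.conj (u ^ j) • L := by
      intro j h
      have h1 : MulAut.conj (u ^ j) • L₀ = MulAut.conj (u ^ j) • L := by rw [hfix j]; exact h
      have h2 : L₀ = L := smul_left_cancel _ h1
      apply hne
      rw [← h2]
      have := hfix 1
      rwa [pow_one] at this
    let F : Option (Fin p) → 𝓜 := fun o =>
      o.elim ⟨L₀, hL₀⟩ (fun j => ⟨MulAut.conj (u ^ (j : ℕ)) • L, hconj L hL _⟩)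
    have hF : Function.Injective F := by
      intro a b hab
      cases a with
      | none =>
        cases b with
        | none => rfl
        | some j =>
          exfalso
          exact hno (j : ℕ) (congrArg Subtype.val hab)
      | some i =>
        cases b with
        | none =>
          exfalso
          exact hno (i : ℕ) (congrArg Subtype.val hab).symm
        | some j =>
          have h1 : MulAut.conj (u ^ (i : ℕ)) • L = MulAut.conj (u ^ (j : ℕ)) • L :=
            congrArg Subtype.val hab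
          congr 1
          apply Fin.ext
          rcases lt_trichotomy (i : ℕ) (j : ℕ) with h | h | h
          · exact absurd h1 (hlt _ _ h j.2)
          · exact h
          · exact absurd h1.symm (hlt _ _ h i.2)
    have hc := Nat.card_le_card_of_injective F hF
    have hc' : Nat.card (Option (Fin p)) = p + 1 := by
      rw [Nat.card_eq_fintype_card, Fintype.card_option, Fintype.card_fin]
    omega
  -- Step 7: members are normal
  have hnormal : ∀ L ∈ 𝓜, ∀ g : G, MulAut.conj g • L = L := by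
    intro L hL g
    have hsub : {g : G | PE p g} ⊆
        (((MulAction.stabilizer (MulAut G) L).comap (MulAut.conj : G →* MulAut G) :
          Subgroup G) : Set G) := by
      intro u hu
      exact hnorm u hu L hL
    have := (Subgroup.closure_le _).mpr hsub
    rw [hgen] at this
    exact this (Subgroup.mem_top g)
  have hN : ∀ L ∈ 𝓜, L.Normal := by
    intro L hL
    refine ⟨fun n hn g => ?_⟩
    have h1 : MulAut.conj g • n ∈ MulAut.conj g • L := Subgroup.smul_mem_pointwise_smul _ _ _ hn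
    rw [hnormal L hL g] at h1
    simpa [MulAut.smul_def, MulAut.conj_apply] using h1
  -- Step 8: index
  have hidx : ∀ L ∈ 𝓜, p * Nat.card L ≤ Nat.card G ∧ ∃ a : ℕ, L.index = p ^ a := by
    intro L hL
    haveI := hN L hL
    have hex : ∃ u : G, PE p u ∧ u ∉ L := by
      by_contra hcon
      apply (hMs L hL).1
      rw [eq_top_iff, ← hgen, Subgroup.closure_le]
      intro u hu
      by_contra hu'
      exact hcon ⟨u, hu, hu'⟩
    obtain ⟨u, hu, huL⟩ := hex
    have htop : L ⊔ Subgroup.zpowers u = ⊤ := by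
      by_contra hne
      have := hMmax L hL _ hne (PG_sup p (hMs L hL).2 (PG_zpowers p hu)) le_sup_left
      exact huL (this (Subgroup.mem_sup_right (Subgroup.mem_zpowers u)))
    obtain ⟨k, hk⟩ := hu
    have h1 : L.index ∣ p ^ k := by
      rw [← Subgroup.relIndex_top_right, ← htop, Subgroup.relIndex_sup_left, ← hk,
        ← Nat.card_zpowers]
      exact Subgroup.relIndex_dvd_card _ _
    obtain ⟨a, ha, ha'⟩ := (Nat.dvd_prime_pow hp).mp h1
    have ha0 : a ≠ 0 := by
      rintro rfl
      rw [pow_zero] at ha'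
      exact (hMs L hL).1 (Subgroup.index_eq_one.mp ha')
    refine ⟨?_, a, ha'⟩
    have h2 := Subgroup.card_mul_index L
    rw [ha'] at h2
    rw [← h2]
    have h3 : p ≤ p ^ a := Nat.le_self_pow ha0 p
    calc p * Nat.card L = Nat.card L * p := mul_comm _ _
      _ ≤ Nat.card L * p ^ a := Nat.mul_le_mul_left _ h3
  -- Step 9: the members cover G
  have hall : ∀ g : G, ∃ L ∈ 𝓜, g ∈ L := by
    intro g
    have ho : orderOf g ≠ 0 := (orderOf_pos g).ne'
    obtain ⟨e, m, hm, hom⟩ := Nat.exists_eq_pow_mul_and_not_dvd ho p hp.ne_one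
    have hv : PE p (g ^ m) := by
      have : orderOf (g ^ m) ∣ p ^ e := by
        apply orderOf_dvd_of_pow_eq_one
        rw [← pow_mul, mul_comm, ← hom, pow_orderOf_eq_one]
      obtain ⟨j, _, hj⟩ := (Nat.dvd_prime_pow hp).mp this
      exact ⟨j, hj⟩
    obtain ⟨L, hL, hgL⟩ := hcovM _ hv
    refine ⟨L, hL, ?_⟩
    haveI := hN L hL
    obtain ⟨a, ha⟩ := (hidx L hL).2
    have h2 : g ^ (p ^ a) ∈ L := by rw [← ha]; exact Subgroup.pow_index_mem L g
    have hcop : Nat.Coprime m (p ^ a) :=
      Nat.Coprime.pow_right _ (Nat.Coprime.symm ((Nat.Prime.coprime_iff_not_dvd hp).mpr hm))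
    have hb := Int.gcd_eq_gcd_ab (m : ℤ) ((p ^ a : ℕ) : ℤ)
    have hg1 : (Int.gcd (m : ℤ) ((p ^ a : ℕ) : ℤ)) = 1 := by
      rw [Int.gcd_natCast_natCast]; exact hcop
    rw [hg1] at hb
    have hgg : g = (g ^ m) ^ (Int.gcdA (m:ℤ) ((p^a : ℕ) : ℤ)) *
        (g ^ (p ^ a)) ^ (Int.gcdB (m:ℤ) ((p^a:ℕ):ℤ)) := by
      rw [← zpow_natCast g m, ← zpow_natCast g (p^a), ← zpow_mul, ← zpow_mul, ← zpow_add, ← hb]
      simp
    rw [hgg]
    exact mul_mem (zpow_mem hgL _) (zpow_mem h2 _)
  -- Step 10: counting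
  classical
  haveI : Fintype G := Fintype.ofFinite G
  have h𝓜fin : 𝓜.Finite := Set.toFinite 𝓜
  obtain ⟨T, hT⟩ : ∃ T : Finset (Subgroup G), T = h𝓜fin.toFinset := ⟨_, rfl⟩
  have hTmem : ∀ L, L ∈ T ↔ L ∈ 𝓜 := fun L => by rw [hT]; exact Set.Finite.mem_toFinset h𝓜fin
  have hTcard : T.card ≤ p := by
    have : T.card = Nat.card 𝓜 := by
      rw [hT]; exact (Nat.card_eq_card_finite_toFinset h𝓜fin).symm
    rw [this]; exact hcardM
  obtain ⟨L₁, hL₁, _⟩ := hall 1
  have hTne : 1 ≤ T.card := Finset.card_pos.mpr ⟨L₁, (hTmem L₁).mpr hL₁⟩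
  have hsub : (Finset.univ : Finset G).erase 1 ⊆
      T.biUnion (fun L => (Finset.univ.filter (fun g => g ∈ L)).erase 1) := by
    intro g hg
    rw [Finset.mem_erase] at hg
    obtain ⟨L, hL, hgL⟩ := hall g
    rw [Finset.mem_biUnion]
    exact ⟨L, (hTmem L).mpr hL, Finset.mem_erase.mpr ⟨hg.1,
      Finset.mem_filter.mpr ⟨Finset.mem_univ _, hgL⟩⟩⟩
  have hc1 := Finset.card_le_card hsub
  have hc2 := Finset.card_biUnion_le (s := T)
    (t := fun L => (Finset.univ.filter (fun g => g ∈ L)).erase 1)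
  have hc3 : ∀ L ∈ T, p * ((Finset.univ.filter (fun g => g ∈ L)).erase 1).card + p
      ≤ Fintype.card G := by
    intro L hL
    have h1 := (hidx L ((hTmem L).mp hL)).1
    have h2 : (Finset.univ.filter (fun g => g ∈ L)).card = Nat.card L := by
      rw [← Fintype.card_subtype]
      exact (Nat.card_eq_fintype_card).symm
    have h3 : ((Finset.univ.filter (fun g => g ∈ L)).erase 1).card + 1 = Nat.card L := by
      rw [← h2]
      apply Finset.card_erase_add_one
      exact Finset.mem_filter.mpr ⟨Finset.mem_univ _, one_mem L⟩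
    have hG : Nat.card G = Fintype.card G := Nat.card_eq_fintype_card
    rw [hG, ← h3] at h1
    linarith
  have hc4 : p * (∑ L ∈ T, ((Finset.univ.filter (fun g => g ∈ L)).erase 1).card) + p * T.card
      ≤ T.card * Fintype.card G := by
    rw [Finset.mul_sum]
    have := Finset.sum_le_card_nsmul T
      (fun L => p * ((Finset.univ.filter (fun g => g ∈ L)).erase 1).card + p)
      (Fintype.card G) hc3
    rw [Finset.sum_add_distrib, Finset.sum_const, smul_eq_mul, smul_eq_mul] at this
    linarith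
  have hc5 : Fintype.card G ≤
      (∑ L ∈ T, ((Finset.univ.filter (fun g => g ∈ L)).erase 1).card) + 1 := by
    have : ((Finset.univ : Finset G).erase 1).card + 1 = Fintype.card G := by
      rw [Finset.card_erase_add_one (Finset.mem_univ _)]; rfl
    omega
  have hp2 := hp.two_le
  have hN1 : 1 ≤ Fintype.card G := Fintype.card_pos
  have e1 := Nat.mul_le_mul_left p hc5
  have e2 := Nat.mul_le_mul_right (Fintype.card G) hTcard
  have e3 : p * T.card ≤ p * 1 := by linarith
  have e4 : T.card ≤ 1 := Nat.le_of_mul_le_mul_left e3 hp.pos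
  have e5 : T.card = 1 := le_antisymm e4 hTne
  rw [e5] at hc4
  have e6 := Nat.mul_le_mul_right (Fintype.card G) hp2
  linarith

/-- Let p be a prime and G a finite group generated by its p-elements. If a finite family of proper subgroups of G covers the set of p-elements of G (every element of p-power order lies in one of them), then the family has at least p + 1 members. -/
theorem result {G : Type*} [Group G] [Finite G] (p : ℕ) [Fact p.Prime] (hgen : Subgroup.closure {g : G | ∃ k : ℕ, orderOf g = p ^ k} = ⊤)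
    {ι : Type*} [Fintype ι] (K : ι → Subgroup G) (hK : ∀ i, K i ≠ ⊤)
    (hcov : ∀ g : G, (∃ k : ℕ, orderOf g = p ^ k) → ∃ i, g ∈ K i) :
    p + 1 ≤ Fintype.card ι := by
  by_contra hlt
  have hι : Fintype.card ι ≤ p := by omega
  obtain ⟨i, hi⟩ := aux p hι (Nat.card G) G rfl hgen K hcov
  exact hK i hi

end Cfsg.Agent.S4182
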