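import Cfsg.Statements.S4186

set_option autoImplicit false
open Cfsg

namespace Cfsg.Agent.S4186

theorem aux {G : Type*} [Group G] (T X : Subgroup G)
    (hTN : T ≤ Subgroup.normalizer (X : Set G)) (k : ℕ) :
    ∀ t ∈ T, t ^ (2 ^ k) = 1 → t ∉ Subgroup.centralizer (X : Set G) →
      ∃ t ∈ T, ∃ x ∈ X, x ≠ 1 ∧ t * x * t⁻¹ = x⁻¹ := by
  induction k with
  | zero =>
    intro t _ ht1 htC
    exfalso
    apply htC
    rw [pow_zero, pow_one] at ht1
    rw [ht1]
    exact Subgroup.one_mem _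
  | succ k ih =>
    intro t htT ht1 htC
    by_cases h2 : t ^ 2 ∈ Subgroup.centralizer (X : Set G)
    · rw [Subgroup.mem_centralizer_iff] at htC
      push Not at htC
      obtain ⟨x, hxX, hx⟩ := htC
      have hxX' : x ∈ X := hxX
      have htx : t * x * t⁻¹ ∈ X := (Subgroup.mem_normalizer_iff.mp (hTN htT) x).mp hxX'
      refine ⟨t, htT, x⁻¹ * (t * x * t⁻¹), X.mul_mem (X.inv_mem hxX') htx, ?_, ?_⟩
      · intro h
        apply hx
        have : t * x * t⁻¹ = x := by
          have := congrArg (fun z => x * z) h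
          simpa using this
        calc x * t = (t * x * t⁻¹) * t := by rw [this]
          _ = t * x := by group
      · have h3 := (Subgroup.mem_centralizer_iff.mp h2) x hxX
        have h4 : t * t * x * t⁻¹ * t⁻¹ = x := by
          have : t * t * x = x * (t * t) := by
            rw [← pow_two, ← h3, pow_two]
          calc t * t * x * t⁻¹ * t⁻¹ = (t * t * x) * t⁻¹ * t⁻¹ := by group
            _ = x * (t * t) * t⁻¹ * t⁻¹ := by rw [this]
            _ = x := by group
        calc t * (x⁻¹ * (t * x * t⁻¹)) * t⁻¹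
            = (t * x * t⁻¹)⁻¹ * (t * t * x * t⁻¹ * t⁻¹) := by group
          _ = (t * x * t⁻¹)⁻¹ * x := by rw [h4]
          _ = (x⁻¹ * (t * x * t⁻¹))⁻¹ := by group
    · apply ih (t ^ 2) (T.pow_mem htT 2) _ h2
      rw [← pow_mul, ← pow_succ']
      exact ht1

theorem result {G : Type*} [Group G] (T X : Subgroup G) [Finite ↥T] (hT : IsPGroup 2 ↥T) (hTN : T ≤ Subgroup.normalizer (X : Set G)) (hTC : ¬ T ≤ Subgroup.centralizer (X : Set G)) : ∃ t ∈ T, ∃ x ∈ X, x ≠ 1 ∧ t * x * t⁻¹ = x⁻¹ := by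
  rw [SetLike.not_le_iff_exists] at hTC
  obtain ⟨t, htT, htC⟩ := hTC
  obtain ⟨k, hk⟩ := hT ⟨t, htT⟩
  have hk' : t ^ (2 ^ k) = 1 := by
    have := congrArg Subtype.val hk
    simpa using this
  exact aux T X hTN k t htT hk' htC

end Cfsg.Agent.S4186
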