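import Cfsg.Statements.S4194
import Cfsg.Agent.Lib.Helper29.CamHer
-- import your own Cfsg.Agent.* helpers here

set_option autoImplicit false
open Cfsg

namespace Cfsg.Agent.S4194

/-- A finite group G has commutative Sylow 2-subgroups if and only if every 2-element of G (element of order a power of 2) is 2-central, that is, its centralizer contains a Sylow 2-subgroup of G. -/
theorem result {G : Type*} [Group G] [Finite G] (P : Sylow 2 G) :
    IsMulCommutative (P : Subgroup G) ↔ ∀ x : G, (∃ k : ℕ, orderOf x = 2 ^ k) → (∃ Q : Sylow 2 G, (Q : Subgroup G) ≤ Subgroup.centralizer ({x} : Set G)) := by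
  haveI : Fact (Nat.Prime 2) := ⟨Nat.prime_two⟩
  constructor
  · intro hP x hx
    obtain ⟨k, hk⟩ := hx
    have hz : IsPGroup 2 (Subgroup.zpowers x) := by
      apply IsPGroup.of_card (n := k)
      rw [Nat.card_zpowers, hk]
    obtain ⟨Q, hQ⟩ := hz.exists_le_sylow
    obtain ⟨g, hg⟩ := MulAction.exists_smul_eq G P Q
    have hxQ : x ∈ Q := hQ (Subgroup.mem_zpowers x)
    have hcomm : ∀ a ∈ P, ∀ b ∈ P, a * b = b * a := by
      intro a ha b hb
      have := hP.is_comm.comm (⟨a, ha⟩ : (P : Subgroup G)) ⟨b, hb⟩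
      exact congrArg Subtype.val this
    refine ⟨Q, ?_⟩
    intro q hq
    rw [Cfsg.Agent.Lib.Helper29.CamHer.mem_cent]
    rw [← hg] at hq hxQ
    have hq' : g⁻¹ * q * g ∈ P := (Cfsg.Agent.Lib.Helper29.CamHer.mem_smul P g q).1 hq
    have hx' : g⁻¹ * x * g ∈ P := (Cfsg.Agent.Lib.Helper29.CamHer.mem_smul P g x).1 hxQ
    have h1 := hcomm _ hq' _ hx'
    calc q * x = g * ((g⁻¹ * q * g) * (g⁻¹ * x * g)) * g⁻¹ := by group
      _ = g * ((g⁻¹ * x * g) * (g⁻¹ * q * g)) * g⁻¹ := by rw [h1]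
      _ = x * q := by group
  · intro h
    exact ⟨⟨fun a b => Subtype.ext (Cfsg.Agent.Lib.Helper29.CamHer.main h P a.1 a.2 b.1 b.2)⟩⟩

end Cfsg.Agent.S4194
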