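import Mathlib
import Cfsg.Statements.S4230

set_option autoImplicit false
open Cfsg

namespace Cfsg.Agent.S4230

theorem result (p q f : ℕ) (hp : p.Prime) (hp2 : p ≠ 2) (hpq : ¬ p ∣ q) :
    ((p : ℤ) ∣ (Polynomial.cyclotomic f ℤ).eval (q : ℤ)) ↔ ∃ j : ℕ, f = orderOf (q : ZMod p) * p ^ j := by
  have hpf : Fact p.Prime := ⟨hp⟩
  have hq0 : (q : ZMod p) ≠ 0 := by
    rw [Ne, ZMod.natCast_eq_zero_iff]; exact hpq
  have hqpow : (q : ZMod p) ^ (p - 1) = 1 := ZMod.pow_card_sub_one_eq_one hq0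
  have hed : orderOf (q : ZMod p) ∣ p - 1 := orderOf_dvd_of_pow_eq_one hqpow
  have hp1 : p - 1 ≠ 0 := by have := hp.two_le; omega
  have he0 : orderOf (q : ZMod p) ≠ 0 := by
    intro h; rw [h, zero_dvd_iff] at hed; exact hp1 hed
  have hpe : ¬ p ∣ orderOf (q : ZMod p) := by
    intro h
    have := Nat.le_of_dvd (Nat.pos_of_ne_zero hp1) (h.trans hed)
    omega
  have hiff : ((p : ℤ) ∣ (Polynomial.cyclotomic f ℤ).eval (q : ℤ)) ↔
      (Polynomial.cyclotomic f (ZMod p)).eval (q : ZMod p) = 0 := by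
    rw [← ZMod.intCast_zmod_eq_zero_iff_dvd, ← Polynomial.map_cyclotomic_int f (ZMod p)]
    have := Polynomial.eval_intCast_map (Int.castRingHom (ZMod p)) (Polynomial.cyclotomic f ℤ) (q : ℤ)
    rw [Int.cast_natCast] at this
    rw [this]
    simp
  rw [hiff]
  rcases Nat.eq_zero_or_pos f with hf0 | hfpos
  · subst hf0
    simp only [Polynomial.cyclotomic_zero, Polynomial.eval_one, one_ne_zero, false_iff]
    rintro ⟨j, hj⟩
    have : orderOf (q : ZMod p) * p ^ j ≠ 0 := Nat.mul_ne_zero he0 (pow_ne_zero j hp.ne_zero)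
    exact this hj.symm
  · obtain ⟨j, m, hm, hfm⟩ := Nat.exists_eq_pow_mul_and_not_dvd hfpos.ne' p hp.ne_one
    have hroot : (Polynomial.cyclotomic f (ZMod p)).eval (q : ZMod p) = 0 ↔
        (Polynomial.cyclotomic m (ZMod p)).eval (q : ZMod p) = 0 := by
      rcases Nat.eq_zero_or_pos j with hj0 | hjpos
      · subst hj0
        rw [hfm, pow_zero, one_mul]
      · rw [hfm, Polynomial.cyclotomic_mul_prime_pow_eq (ZMod p) hm hjpos, Polynomial.eval_pow]
        have hne : p ^ j - p ^ (j - 1) ≠ 0 := by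
          have : p ^ (j - 1) < p ^ j := Nat.pow_lt_pow_right hp.one_lt (by omega)
          omega
        exact pow_eq_zero_iff hne
    rw [hroot]
    have hmne : NeZero ((m : ℕ) : ZMod p) := ⟨by rw [Ne, ZMod.natCast_eq_zero_iff]; exact hm⟩
    have h2 : (Polynomial.cyclotomic m (ZMod p)).eval (q : ZMod p) = 0 ↔ orderOf (q : ZMod p) = m := by
      rw [← IsPrimitiveRoot.iff_orderOf, ← Polynomial.isRoot_cyclotomic_iff]
      rfl
    rw [h2]
    constructor
    · intro h
      exact ⟨j, by rw [hfm, h, mul_comm]⟩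
    · rintro ⟨j', hj'⟩
      rw [hfm] at hj'
      rcases lt_trichotomy j j' with hlt | heq | hgt
      · exfalso
        obtain ⟨d, rfl⟩ := Nat.exists_eq_add_of_lt hlt
        have : p ^ j * m = p ^ j * (orderOf (q : ZMod p) * p ^ (d + 1)) := by
          rw [hj']; ring
        have h3 := Nat.eq_of_mul_eq_mul_left (pow_pos hp.pos j) this
        apply hm
        rw [h3]
        exact Dvd.dvd.mul_left (dvd_pow_self p (by omega)) _
      · subst heq
        have : p ^ j * m = p ^ j * orderOf (q : ZMod p) := by rw [hj']; ring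
        exact (Nat.eq_of_mul_eq_mul_left (pow_pos hp.pos j) this).symm
      · exfalso
        obtain ⟨d, rfl⟩ := Nat.exists_eq_add_of_lt hgt
        have : p ^ j' * (p ^ (d + 1) * m) = p ^ j' * orderOf (q : ZMod p) := by
          rw [mul_comm (p ^ j') (orderOf (q : ZMod p)), ← hj']; ring
        have h3 := Nat.eq_of_mul_eq_mul_left (pow_pos hp.pos j') this
        apply hpe
        rw [← h3]
        exact Dvd.dvd.mul_right (dvd_pow_self p (by omega)) _

end Cfsg.Agent.S4230
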