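import Mathlib
import Cfsg.Statements.S4244

set_option autoImplicit false
open Cfsg

namespace Cfsg.Agent.S4244

theorem card_mul_relIndex {G : Type*} [Group G] {K L : Subgroup G} (h : K ≤ L) :
    Nat.card K * K.relIndex L = Nat.card L := by
  have h1 := Subgroup.card_mul_index (K.subgroupOf L)
  rw [Nat.card_congr (Subgroup.subgroupOfEquivOfLe h).toEquiv] at h1
  exact h1

theorem relIndex_normal_dvd_index {G : Type*} [Group G] [Finite G] (N X : Subgroup G) [N.Normal] :
    X.relIndex N ∣ X.index := by
  have h1 : N.relIndex (X ⊔ N) = N.relIndex X := Subgroup.relIndex_sup_right X N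
  have a1 := card_mul_relIndex (le_sup_left : X ≤ X ⊔ N)
  have a2 := card_mul_relIndex (le_sup_right : N ≤ X ⊔ N)
  have a3 := card_mul_relIndex (inf_le_left : X ⊓ N ≤ X)
  have a4 := card_mul_relIndex (inf_le_right : X ⊓ N ≤ N)
  rw [h1] at a2
  rw [Subgroup.inf_relIndex_left] at a3
  rw [Subgroup.inf_relIndex_right] at a4
  have hpos : 0 < Nat.card (X ⊓ N : Subgroup G) := Nat.card_pos
  have hpos2 : 0 < N.relIndex X := by
    rcases Nat.eq_zero_or_pos (N.relIndex X) with h0 | h0
    · rw [h0, mul_zero] at a3
      have : 0 < Nat.card X := Nat.card_pos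
      omega
    · exact h0
  have key : X.relIndex (X ⊔ N) = X.relIndex N := by
    have e : Nat.card (X ⊓ N : Subgroup G) * N.relIndex X * X.relIndex (X ⊔ N)
        = Nat.card (X ⊓ N : Subgroup G) * N.relIndex X * X.relIndex N := by
      calc Nat.card (X ⊓ N : Subgroup G) * N.relIndex X * X.relIndex (X ⊔ N)
          = Nat.card X * X.relIndex (X ⊔ N) := by rw [a3]
        _ = Nat.card (X ⊔ N : Subgroup G) := a1
        _ = Nat.card N * N.relIndex X := a2.symm
        _ = Nat.card (X ⊓ N : Subgroup G) * X.relIndex N * N.relIndex X := by rw [a4]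
        _ = Nat.card (X ⊓ N : Subgroup G) * N.relIndex X * X.relIndex N := by ring
    exact Nat.eq_of_mul_eq_mul_left (Nat.mul_pos hpos hpos2) e
  rw [← key]
  exact Subgroup.relIndex_dvd_index_of_le le_sup_left

theorem result {G : Type*} [Group G] [Finite G] (H : Subgroup G) (hH : H.IsSubnormal) (K : Subgroup G) :
    (H ⊓ K).relIndex H ∣ K.index := by
  induction hH with
  | top =>
    rw [Subgroup.inf_relIndex_left, Subgroup.relIndex_top_right]
  | step H M hle hsub hN ih =>
    rw [Subgroup.inf_relIndex_left] at ih ⊢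
    refine Dvd.dvd.trans ?_ ih
    have := relIndex_normal_dvd_index (H.subgroupOf M) (K.subgroupOf M)
    rw [Subgroup.relIndex_subgroupOf hle] at this
    exact this

end Cfsg.Agent.S4244
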