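import Mathlib
import Cfsg.Statements.S4253

set_option autoImplicit false
open Cfsg
open scoped Pointwise

namespace Cfsg.Agent.S4253

theorem result {G : Type*} [Group G] [Finite G] (H : Subgroup G) (hH : Cfsg.IsFrobeniusComplement H)
    (g : G) (hg : g ≠ 1) (a b : G ⧸ H) (ha : g • a = a) (hb : g • b = b) : a = b := by
  obtain ⟨-, -, hF⟩ := hH
  induction a using QuotientGroup.induction_on with
  | H x =>
  induction b using QuotientGroup.induction_on with
  | H y =>
  rw [MulAction.Quotient.smul_mk, QuotientGroup.eq, smul_eq_mul] at ha hb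
  by_contra hne
  rw [QuotientGroup.eq] at hne
  have h1 := hF _ hne
  have h2 : x⁻¹ * g * x ∈ H := by
    have : x⁻¹ * g * x = ((g * x)⁻¹ * x)⁻¹ := by group
    rw [this]; exact H.inv_mem ha
  have h3 : y⁻¹ * g * y ∈ H := by
    have : y⁻¹ * g * y = ((g * y)⁻¹ * y)⁻¹ := by group
    rw [this]; exact H.inv_mem hb
  have h4 : x⁻¹ * g * x ∈ MulAut.conj (x⁻¹ * y) • H := by
    have : x⁻¹ * g * x = MulAut.conj (x⁻¹ * y) • (y⁻¹ * g * y) := by
      rw [MulAut.smul_def, MulAut.conj_apply]; group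
    rw [this]
    exact Subgroup.smul_mem_pointwise_smul _ _ _ h3
  have h5 : x⁻¹ * g * x ∈ H ⊓ MulAut.conj (x⁻¹ * y) • H := ⟨h2, h4⟩
  rw [h1, Subgroup.mem_bot] at h5
  apply hg
  calc g = x * (x⁻¹ * g * x) * x⁻¹ := by group
    _ = 1 := by rw [h5]; group

end Cfsg.Agent.S4253
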