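import Cfsg.Statements.S4260

set_option autoImplicit false
open Cfsg

namespace Cfsg.Agent.S4260

theorem result {G : Type*} [Group G] [Finite G] (H : Subgroup G) (hHall : (Nat.card H).Coprime H.index)
    (hexp : ∀ x : G, x ^ H.index ∈ H) : H.Normal := by
  constructor
  intro h hh g
  have h1 : (g * h * g⁻¹) ^ Nat.card H = 1 := by
    rw [conj_pow]
    have : h ^ Nat.card H = 1 := by
      have h0 : (⟨h, hh⟩ : H) ^ Nat.card H = 1 := pow_card_eq_one'
      have h00 := congrArg Subtype.val h0
      rw [Subgroup.coe_pow] at h00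
      exact h00
    rw [this]; group
  have h2 : orderOf (g * h * g⁻¹) ∣ Nat.card H := orderOf_dvd_of_pow_eq_one h1
  have h3 : (H.index).Coprime (orderOf (g * h * g⁻¹)) :=
    Nat.Coprime.coprime_dvd_right h2 hHall.symm
  obtain ⟨m, hm⟩ := exists_pow_eq_self_of_coprime h3
  rw [← hm]
  exact H.pow_mem (hexp _) m

end Cfsg.Agent.S4260
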