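import Mathlib
import Cfsg.Agent.S0048
import Cfsg.Agent.Lib.Lead.Hall
import Cfsg.Statements.S4261

set_option autoImplicit false
open Cfsg

namespace Cfsg.Agent.S4261

theorem result {G : Type*} [Group G] [Finite G] (hG : Group.IsSolvable G) (M : Subgroup G) (hM : IsCoatom M)
    (hexp : ∀ x : G, x ^ M.index ∈ M) : M.Normal := by
  set K := M.normalCore with hK
  have hKM : K ≤ M := Subgroup.normalCore_le M
  have hKn : K.Normal := inferInstance
  set π := QuotientGroup.mk' K with hπ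
  have hπs : Function.Surjective π := QuotientGroup.mk'_surjective K
  have hmemK : ∀ g : G, π g = 1 ↔ g ∈ K := fun g => QuotientGroup.eq_one_iff g
  have hnt : Nontrivial (G ⧸ K) := by
    obtain ⟨g, hg⟩ : ∃ g : G, g ∉ M := by
      by_contra hcon
      push Not at hcon
      exact hM.1 (eq_top_iff.mpr fun x _ => hcon x)
    refine ⟨⟨π g, 1, ?_⟩⟩
    intro h
    exact hg (hKM ((hmemK g).mp h))
  obtain ⟨Vb, hVbn, hVbc, p', k', hp', hk', hVbcard⟩ :=
    Cfsg.Agent.Lib.Lead.Hall.exists_minimal_normal (G ⧸ K)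
  set V := Vb.comap π with hV
  have hVn : V.Normal := hVbn.comap π
  have hmemV : ∀ g : G, g ∈ V ↔ π g ∈ Vb := fun g => Iff.rfl
  have hVM : ¬ V ≤ M := by
    intro hle
    have h1 : V ≤ K := Subgroup.normal_le_normalCore.mpr hle
    have h2 : Vb = ⊥ := by
      rw [eq_bot_iff]
      intro y hy
      obtain ⟨x, rfl⟩ := hπs y
      have : x ∈ K := h1 hy
      rw [Subgroup.mem_bot]
      exact (hmemK x).mpr this
    rw [h2, Subgroup.card_bot] at hVbcard
    have := Nat.one_lt_pow hk'.ne' hp'.one_lt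
    omega
  have hsup : M ⊔ V = ⊤ := by
    apply hM.2
    refine lt_of_le_of_ne le_sup_left (fun h => hVM ?_)
    rw [h]
    exact le_sup_right
  have hcommV : ∀ a ∈ V, ∀ b ∈ V, π a * π b = π b * π a := by
    intro a ha b hb
    have := hVbc.is_comm.comm (⟨π a, ha⟩ : Vb) ⟨π b, hb⟩
    exact congrArg Subtype.val this
  have hdec : ∀ g : G, ∃ m ∈ M, ∃ v ∈ V, g = m * v := by
    intro g
    have : g ∈ M ⊔ V := by rw [hsup]; trivial
    rw [Subgroup.mem_sup_of_normal_right] at this
    obtain ⟨m, hm, v, hv, rfl⟩ := this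
    exact ⟨m, hm, v, hv, rfl⟩
  have claim : ∀ N : Subgroup G, N.Normal →
      (∀ d ∈ N ⊓ M, ∀ v ∈ V, π v * π d = π d * π v) → N ⊓ M ≤ K := by
    intro N hN hc
    have hnorm : (N ⊓ M).Normal := by
      constructor
      intro x hx g
      obtain ⟨m, hm, v, hv, rfl⟩ := hdec g
      have hx' := Subgroup.mem_inf.mp hx
      have h1 : v * x * v⁻¹ * x⁻¹ ∈ K := by
        rw [← hmemK, map_mul, map_mul, map_mul, map_inv, map_inv, hc x hx v hv]
        group
      have h2 : v * x * v⁻¹ ∈ M := by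
        have e : v * x * v⁻¹ = (v * x * v⁻¹ * x⁻¹) * x := by group
        rw [e]
        exact M.mul_mem (hKM h1) hx'.2
      have h3 : v * x * v⁻¹ ∈ N := hN.conj_mem x hx'.1 v
      have e : m * v * x * (m * v)⁻¹ = m * (v * x * v⁻¹) * m⁻¹ := by group
      rw [e]
      exact Subgroup.mem_inf.mpr ⟨hN.conj_mem _ h3 m, M.mul_mem (M.mul_mem hm h2) (M.inv_mem hm)⟩
    exact Subgroup.normal_le_normalCore.mpr inf_le_right
  have hVMK : V ⊓ M ≤ K := by
    apply claim V hVn
    intro d hd v hv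
    exact hcommV v hv d (Subgroup.mem_inf.mp hd).1
  set q := M.index with hq
  have hf : ∀ h ∈ M, ∀ v ∈ V, π h ^ q * π v = π v * π h ^ q := by
    intro h hh v hv
    have hx : (v * h) ^ q ∈ M := hexp (v * h)
    have hhq : h ^ q ∈ M := M.pow_mem hh q
    have hnM : (v * h) ^ q * (h ^ q)⁻¹ ∈ M := M.mul_mem hx (M.inv_mem hhq)
    have hnV : (v * h) ^ q * (h ^ q)⁻¹ ∈ V := by
      rw [← QuotientGroup.eq_one_iff (N := V), QuotientGroup.mk_mul, QuotientGroup.mk_inv,
        QuotientGroup.mk_pow, QuotientGroup.mk_pow, QuotientGroup.mk_mul,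
        (QuotientGroup.eq_one_iff v).mpr hv, one_mul, mul_inv_cancel]
    have hnK := hVMK (Subgroup.mem_inf.mpr ⟨hnV, hnM⟩)
    rw [← hmemK, map_mul, map_inv, map_pow, map_pow, mul_inv_eq_one, map_mul] at hnK
    have hc : Commute ((π v * π h) ^ q) (π v * π h) := (Commute.refl _).pow_left q
    rw [hnK] at hc
    have h1 : π h ^ q * (π v * π h) = π v * π h * π h ^ q := hc.eq
    have h2 : π h * π h ^ q = π h ^ q * π h := ((Commute.refl (π h)).pow_right q).eq
    have h3 : π h ^ q * π v * π h = π v * π h ^ q * π h := by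
      rw [mul_assoc, h1, mul_assoc, h2, ← mul_assoc]
    exact mul_right_cancel h3
  set C := (Subgroup.centralizer (Vb : Set (G ⧸ K))).comap π with hC
  have hCn : C.Normal := by
    have : (Subgroup.centralizer (Vb : Set (G ⧸ K))).Normal := Subgroup.normal_centralizer
    exact this.comap π
  have hCMK : C ⊓ M ≤ K := by
    apply claim C hCn
    intro d hd v hv
    have hd' := (Subgroup.mem_inf.mp hd).1
    rw [hC, Subgroup.mem_comap, Subgroup.mem_centralizer_iff] at hd'
    exact hd' (π v) hv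
  have hMq : ∀ h ∈ M, h ^ q ∈ K := by
    intro h hh
    apply hCMK
    refine Subgroup.mem_inf.mpr ⟨?_, M.pow_mem hh q⟩
    rw [hC, Subgroup.mem_comap, Subgroup.mem_centralizer_iff]
    intro y hy
    obtain ⟨v, rfl⟩ := hπs y
    rw [map_pow]
    exact (hf h hh v hy).symm
  have hpp : IsPrimePow M.index := by
    have : Group.IsSolvable G := hG
    exact Cfsg.Agent.S0048.result M hM
  obtain ⟨p, k, hp, hk, hpk⟩ := (isPrimePow_nat_iff _).mp hpp
  have : Fact p.Prime := ⟨hp⟩
  have hpg : IsPGroup p (G ⧸ K) := by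
    intro y
    obtain ⟨g, rfl⟩ := hπs y
    refine ⟨k + k, ?_⟩
    have h1 : (g ^ q) ^ q ∈ K := hMq _ (hexp g)
    rw [← hmemK, map_pow, map_pow, ← pow_mul] at h1
    rw [pow_add, hpk]
    exact h1
  have hnil : Group.IsNilpotent (G ⧸ K) := hpg.isNilpotent
  have hnc : NormalizerCondition (G ⧸ K) := Group.normalizerCondition_of_isNilpotent
  have hmemMb : ∀ g : G, π g ∈ M.map π ↔ g ∈ M := by
    intro g
    constructor
    · rintro ⟨m, hm, hmg⟩
      have h1 : m⁻¹ * g ∈ K := by
        rw [← hmemK, map_mul, map_inv, hmg, inv_mul_cancel]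
      have e : g = m * (m⁻¹ * g) := by group
      rw [e]
      exact M.mul_mem hm (hKM h1)
    · intro hg
      exact ⟨g, hg, rfl⟩
  have hMbtop : M.map π < ⊤ := by
    rw [lt_top_iff_ne_top]
    intro h
    apply hM.1
    rw [eq_top_iff]
    intro g _
    rw [← hmemMb, h]
    trivial
  have hlt := hnc _ hMbtop
  obtain ⟨y, hyN, hyM⟩ := SetLike.exists_of_lt hlt
  obtain ⟨t, rfl⟩ := hπs y
  have htM : t ∉ M := fun h => hyM ((hmemMb t).mpr h)
  have htN : t ∈ Subgroup.normalizer (M : Set G) := by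
    rw [Subgroup.mem_normalizer_iff]
    intro x
    rw [Subgroup.mem_normalizer_iff] at hyN
    rw [← hmemMb x, ← hmemMb (t * x * t⁻¹), map_mul, map_mul, map_inv]
    exact hyN (π x)
  have hlt2 : M < Subgroup.normalizer (M : Set G) := by
    refine lt_of_le_of_ne Subgroup.le_normalizer (fun h => htM ?_)
    rw [h]
    exact htN
  exact Subgroup.normalizer_eq_top_iff.mp (hM.2 _ hlt2)

end Cfsg.Agent.S4261
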