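import Cfsg.Statements.S4296
import Mathlib
import Cfsg.Agent.S0034
import Cfsg.Agent.S0035
import Cfsg.Agent.S0041
import Cfsg.Agent.S4295
import Cfsg.Agent.S4370
import Cfsg.Agent.Lib.Helper17.Syl
import Cfsg.Agent.Lib.Helper18.UniqueInvolution

set_option autoImplicit false
open Cfsg

namespace Cfsg.Agent.S4296

open scoped Pointwise

section aux

variable {L : Type*} [Group L] [Finite L]

omit [Finite L] in
theorem fpf (H N : Subgroup L) (hF : Cfsg.IsFrobeniusComplement H) (hdisj : N ⊓ H = ⊥) (h : L)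
    (hh : h ∈ H) (hh1 : h ≠ 1) : N ⊓ Subgroup.centralizer {h} = ⊥ := by
  rw [eq_bot_iff]
  intro x hx
  rw [Subgroup.mem_bot]
  by_contra hx1
  have hxH : x ∉ H := fun hxH => hx1 (by
    have : x ∈ N ⊓ H := ⟨hx.1, hxH⟩
    rwa [hdisj, Subgroup.mem_bot] at this)
  have h3 := hF.2.2 x hxH
  have hc : x * h = h * x := Subgroup.mem_centralizer_singleton_iff.1 hx.2
  have hmem : h ∈ H ⊓ (MulAut.conj x • H) := by
    refine Subgroup.mem_inf.2 ⟨hh, ?_⟩
    rw [Cfsg.Agent.S0034.mem_conj]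
    have e : x⁻¹ * h * x = h := by
      rw [mul_assoc, ← hc, ← mul_assoc, inv_mul_cancel, one_mul]
    rw [e]; exact hh
  rw [h3, Subgroup.mem_bot] at hmem
  exact hh1 hmem

theorem exists_invariant_abelian (N A : Subgroup L) [N.Normal] (hN : N ≠ ⊥) (p : ℕ) [Fact p.Prime]
    (hA : IsPGroup p A) (hpN : ¬ p ∣ Nat.card N) :
    ∃ V : Subgroup L, V ≤ N ∧ V ≠ ⊥ ∧ (∀ a ∈ V, ∀ b ∈ V, a * b = b * a) ∧
      A ≤ Subgroup.normalizer (V : Set L) := by
  have hcN : Nat.card N ≠ 1 := fun h => hN (Subgroup.card_eq_one.1 h)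
  set r := (Nat.card N).minFac with hr
  have hrp : r.Prime := Nat.minFac_prime hcN
  have : Fact r.Prime := ⟨hrp⟩
  have hrN : r ∣ Nat.card N := Nat.minFac_dvd _
  have hcard : ¬ p ∣ Nat.card (Sylow r ↥N) := by
    intro hdvd
    apply hpN
    have R0 : Sylow r ↥N := default
    exact hdvd.trans ((R0.card_dvd_index).trans (Subgroup.index_dvd_card _))
  let φ : L →* MulAut ↥N := MulAut.conjNormal
  have hB : IsPGroup p (A.map φ) := hA.map φ
  obtain ⟨R, hR⟩ := hB.nonempty_fixed_point_of_prime_not_dvd_card (Sylow r ↥N) hcard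
  set R₀ : Subgroup L := (R : Subgroup N).map N.subtype with hR₀
  have hR₀N : R₀ ≤ N := by rintro _ ⟨y, -, rfl⟩; exact y.2
  have hAR : ∀ a ∈ A, ∀ x ∈ R₀, a * x * a⁻¹ ∈ R₀ := by
    rintro a ha _ ⟨y, hy, rfl⟩
    have h1 : (⟨φ a, Subgroup.mem_map_of_mem φ ha⟩ : A.map φ) • R = R := hR _
    have h2 : φ a • R = R := h1
    have h3 : φ a • y ∈ φ a • (R : Subgroup N) := Subgroup.smul_mem_pointwise_smul y (φ a) _ hy
    rw [← Sylow.pointwise_smul_def, h2] at h3
    refine ⟨φ a • y, h3, ?_⟩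
    exact MulAut.conjNormal_apply a y
  have hR₀q : IsPGroup r R₀ := R.isPGroup'.map _
  have hR₀card : Nat.card R₀ = r ^ (Nat.card N).factorization r := by
    rw [← R.card_eq_multiplicity]
    exact (Nat.card_congr (Subgroup.equivMapOfInjective _ _ N.subtype_injective).toEquiv).symm
  have hR₀nt : Nontrivial ↥R₀ := by
    rw [← Finite.one_lt_card_iff_nontrivial, hR₀card]
    exact Nat.one_lt_pow (Nat.Prime.factorization_pos_of_dvd hrp Nat.card_pos.ne' hrN).ne' hrp.one_lt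
  have hcnt := hR₀q.center_nontrivial
  obtain ⟨c, hc1⟩ := exists_ne (1 : ↥(Subgroup.center ↥R₀))
  refine ⟨R₀ ⊓ Subgroup.centralizer (R₀ : Set L), inf_le_left.trans hR₀N, ?_, ?_, ?_⟩
  · intro hbot
    apply hc1
    have hmem : ((c : ↥R₀) : L) ∈ R₀ ⊓ Subgroup.centralizer (R₀ : Set L) := by
      refine Subgroup.mem_inf.2 ⟨(c : ↥R₀).2, ?_⟩
      rw [Subgroup.mem_centralizer_iff]
      intro y hy
      have := Subgroup.mem_center_iff.1 c.2 ⟨y, hy⟩
      exact congrArg Subtype.val this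
    rw [hbot, Subgroup.mem_bot] at hmem
    apply Subtype.ext
    apply Subtype.ext
    exact hmem
  · intro a ha b hb
    exact (Subgroup.mem_centralizer_iff.1 ha.2 b hb.1).symm
  · intro a ha
    apply Cfsg.Agent.Lib.Helper17.Syl.mem_normalizer_of_conj_mem
    intro v hv
    refine Subgroup.mem_inf.2 ⟨hAR a ha v hv.1, ?_⟩
    rw [Subgroup.mem_centralizer_iff]
    intro y hy
    have hy' : a⁻¹ * y * a⁻¹⁻¹ ∈ R₀ := hAR a⁻¹ (A.inv_mem ha) y hy
    have h4 := Subgroup.mem_centralizer_iff.1 hv.2 _ hy'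
    calc y * (a * v * a⁻¹) = a * ((a⁻¹ * y * a⁻¹⁻¹) * v) * a⁻¹ := by group
      _ = a * (v * (a⁻¹ * y * a⁻¹⁻¹)) * a⁻¹ := by rw [h4]
      _ = a * v * a⁻¹ * y := by group

theorem inverts (N : Subgroup L) [N.Normal] (t : L) (ht2 : t * t = 1)
    (hfp : N ⊓ Subgroup.centralizer {t} = ⊥) (x : L) (hx : x ∈ N) : t * x * t⁻¹ = x⁻¹ := by
  have hti : t⁻¹ = t := inv_eq_of_mul_eq_one_left ht2
  let f : N → N := fun n => ⟨(n : L)⁻¹ * (t * n * t⁻¹),
    N.mul_mem (N.inv_mem n.2) (Subgroup.Normal.conj_mem inferInstance _ n.2 t)⟩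
  have finj : Function.Injective f := by
    intro n m h
    have h' : (n : L)⁻¹ * (t * n * t⁻¹) = (m : L)⁻¹ * (t * m * t⁻¹) := congrArg Subtype.val h
    have hmem : (m : L) * (n : L)⁻¹ ∈ N ⊓ Subgroup.centralizer {t} := by
      refine Subgroup.mem_inf.2 ⟨N.mul_mem m.2 (N.inv_mem n.2), ?_⟩
      rw [Subgroup.mem_centralizer_singleton_iff]
      have e : (m : L) * (n : L)⁻¹ = t * ((m : L) * (n : L)⁻¹) * t⁻¹ := by
        calc (m : L) * (n : L)⁻¹
            = m * ((n : L)⁻¹ * (t * n * t⁻¹)) * (t * (n : L)⁻¹ * t⁻¹) := by group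
          _ = m * ((m : L)⁻¹ * (t * m * t⁻¹)) * (t * (n : L)⁻¹ * t⁻¹) := by rw [h']
          _ = t * ((m : L) * (n : L)⁻¹) * t⁻¹ := by group
      calc (m : L) * (n : L)⁻¹ * t = (t * ((m : L) * (n : L)⁻¹) * t⁻¹) * t := by rw [← e]
        _ = t * ((m : L) * (n : L)⁻¹) := by group
    rw [hfp, Subgroup.mem_bot] at hmem
    apply Subtype.ext
    exact (mul_inv_eq_one.1 hmem).symm
  have fsurj : Function.Surjective f := Finite.surjective_of_injective finj
  obtain ⟨n, hn⟩ := fsurj ⟨x, hx⟩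
  have hn' : (n : L)⁻¹ * (t * n * t⁻¹) = x := congrArg Subtype.val hn
  rw [← hn']
  calc t * ((n : L)⁻¹ * (t * n * t⁻¹)) * t⁻¹ = t * (n : L)⁻¹ * t * n * (t⁻¹ * t⁻¹) := by group
    _ = t * (n : L)⁻¹ * t * n := by rw [hti, ht2, mul_one]
    _ = t * (n : L)⁻¹ * t⁻¹ * n := by rw [hti]
    _ = ((n : L)⁻¹ * (t * n * t⁻¹))⁻¹ := by group

end aux

theorem result {L : Type*} [Group L] [Finite L] (H : Subgroup L) (hF : Cfsg.IsFrobeniusComplement H)
    (hZ : ∃ (p : ℕ) (_ : Fact p.Prime) (P : Sylow p H), ¬ IsCyclic P) :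
    Odd (Nat.card (Cfsg.frobeniusKernel H)) ∧ IsSquare (Nat.card (Cfsg.frobeniusKernel H)) := by
  classical
  obtain ⟨N, hNK, hNn, hNc⟩ := Cfsg.Agent.S0035.result H hF
  obtain ⟨hcardK, hmod⟩ := Cfsg.Agent.S0034.result H hF
  have hKN : Nat.card (Cfsg.frobeniusKernel H) = Nat.card N := by rw [← hNK]; rfl
  have hdisj : N ⊓ H = ⊥ := hNc.disjoint.eq_bot
  have hcop : (Nat.card H).Coprime (Nat.card N) := by
    rw [← hKN, hcardK]
    unfold Nat.Coprime
    rw [Nat.gcd_rec, hmod, ← Nat.gcd_rec, Nat.gcd_one_right]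
  have hNbot : N ≠ ⊥ := by
    intro h
    apply hF.2.1
    have h1 : Nat.card N = 1 := by rw [h]; exact Subgroup.card_bot
    rw [← hKN, hcardK] at h1
    exact Subgroup.index_eq_one.1 h1
  obtain ⟨p, hp, P, hPnc⟩ := hZ
  have hpp : p.Prime := hp.out
  have hPnt : Nontrivial ↥(P : Subgroup H) := by
    by_contra h
    rw [not_nontrivial_iff_subsingleton] at h
    exact hPnc isCyclic_of_subsingleton
  have hpH : p ∣ Nat.card H :=
    (P.isPGroup'.card_eq_or_dvd.resolve_left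
      (Finite.one_lt_card_iff_nontrivial.2 hPnt).ne').trans (Subgroup.card_subgroup_dvd_card _)
  have hpN : ¬ p ∣ Nat.card N := fun h =>
    hpp.one_lt.ne' (Nat.Coprime.eq_one_of_dvd
      (Nat.Coprime.coprime_dvd_left hpH (Nat.Coprime.coprime_dvd_right h hcop)) dvd_rfl)
  have hT : Set.ncard {g : ↥(P : Subgroup H) | g ^ p = 1} ≤ p := by
    by_contra hgt
    push Not at hgt
    have hcnt := P.isPGroup'.center_nontrivial
    have hdvd : p ∣ Nat.card (Subgroup.center ↥(P : Subgroup H)) := by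
      rcases (P.isPGroup'.to_subgroup (Subgroup.center ↥(P : Subgroup H))).card_eq_or_dvd with h | h
      · exact absurd h (Finite.one_lt_card_iff_nontrivial.2 hcnt).ne'
      · exact h
    obtain ⟨z, hz⟩ := exists_prime_orderOf_dvd_card' p hdvd
    obtain ⟨g, hg, hgz⟩ : ∃ g : ↥(P : Subgroup H), g ^ p = 1 ∧
        g ∉ Subgroup.zpowers (z : ↥(P : Subgroup H)) := by
      by_contra hcon
      push Not at hcon
      have hsub : {g : ↥(P : Subgroup H) | g ^ p = 1} ⊆
          (Subgroup.zpowers (z : ↥(P : Subgroup H)) : Set ↥(P : Subgroup H)) := fun g hg => hcon g hg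
      have h1 := Set.ncard_le_ncard hsub (Set.toFinite _)
      have hc : Set.ncard (Subgroup.zpowers (z : ↥(P : Subgroup H)) : Set ↥(P : Subgroup H)) = p := by
        rw [← Nat.card_coe_set_eq]
        change Nat.card (Subgroup.zpowers (z : ↥(P : Subgroup H))) = p
        rw [Nat.card_zpowers, Subgroup.orderOf_coe, hz]
      omega
    set g₀ : L := ((g : H) : L) with hg₀
    set z₀ : L := (((z : ↥(P : Subgroup H)) : H) : L) with hz₀
    have hgz₀ : g₀ * z₀ = z₀ * g₀ := by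
      have := Subgroup.mem_center_iff.1 z.2 g
      have h1 := congrArg (fun w : ↥(P : Subgroup H) => ((w : H) : L)) this
      exact h1
    set A : Subgroup L := Subgroup.closure {g₀, z₀} with hA
    have hAcomm : IsMulCommutative ↥A := by
      apply Subgroup.isMulCommutative_closure
      intro x hx y hy
      rcases hx with rfl | rfl <;> rcases hy with rfl | rfl
      · rfl
      · exact hgz₀
      · exact hgz₀.symm
      · rfl
    have hAP : A ≤ ((P : Subgroup H).map H.subtype) := by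
      rw [hA, Subgroup.closure_le]
      rintro x (rfl | rfl)
      · exact ⟨(g : H), g.2, rfl⟩
      · exact ⟨((z : ↥(P : Subgroup H)) : H), (z : ↥(P : Subgroup H)).2, rfl⟩
    have hAH : A ≤ H := hAP.trans (by rintro _ ⟨y, -, rfl⟩; exact y.2)
    have hAp : IsPGroup p A := (P.isPGroup'.map H.subtype).to_le hAP
    have hg₀A : g₀ ∈ A := Subgroup.subset_closure (Set.mem_insert _ _)
    have hz₀A : z₀ ∈ A := Subgroup.subset_closure (Set.mem_insert_of_mem _ rfl)
    have hAnc : ¬ IsCyclic A := by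
      intro hcyc
      have hord : orderOf (⟨z₀, hz₀A⟩ : A) = p := by
        rw [Subgroup.orderOf_mk, hz₀, Subgroup.orderOf_coe, Subgroup.orderOf_coe,
          Subgroup.orderOf_coe]; exact hz
      have hgp : (⟨g₀, hg₀A⟩ : A) ^ p = 1 := by
        apply Subtype.ext
        have h1 := congrArg (fun w : ↥(P : Subgroup H) => ((w : H) : L)) hg
        simpa using h1
      have hmem := Cfsg.Agent.S4370.mem_zpowers_of_cyclic hpp _ _ hord hgp
      obtain ⟨k, hk⟩ := Subgroup.mem_zpowers_iff.1 hmem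
      apply hgz
      refine Subgroup.mem_zpowers_iff.2 ⟨k, ?_⟩
      have hk' : z₀ ^ k = g₀ := congrArg Subtype.val hk
      apply Subtype.ext
      apply Subtype.ext
      rw [← hg₀, ← hk', hz₀]
      simp
    obtain ⟨V, hVN, hVbot, hVcomm, hAV⟩ := exists_invariant_abelian N A hNbot p hAp hpN
    have hVc : IsMulCommutative ↥V := ⟨⟨fun a b => Subtype.ext (hVcomm a.1 a.2 b.1 b.2)⟩⟩
    have hfpf : ∀ a ∈ A, a ≠ 1 → V ⊓ Subgroup.centralizer {a} = ⊥ := by
      intro a ha ha1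
      rw [eq_bot_iff, ← fpf H N hF hdisj a (hAH ha) ha1]
      exact inf_le_inf_right _ hVN
    exact hAnc (Cfsg.Agent.S0041.result A V hVbot hAV hfpf (Or.inl hAcomm))
  rcases Cfsg.Agent.Lib.Helper18.UniqueInvolution.cyclic_or_quaternion_of_unique p P.isPGroup' hT
    with hcyc | ⟨hp2, n, ⟨e₁⟩⟩
  · exact absurd hcyc hPnc
  subst hp2
  have hn : 1 ≤ n := by
    by_contra h0
    have hn0 : n = 0 := by omega
    subst hn0
    apply hPnc
    exact (e₁.isCyclic).2 QuaternionGroup.quaternionGroup_one_isCyclic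
  obtain ⟨n', rfl⟩ : ∃ n', n = n' + 1 := ⟨n - 1, by omega⟩
  let ψ : QuaternionGroup (2 ^ (n' + 1)) →* L :=
    H.subtype.comp ((P : Subgroup H).subtype.comp e₁.symm.toMonoidHom)
  have hψinj : Function.Injective ψ := by
    intro a b hab
    apply e₁.symm.injective
    apply Subtype.ext
    apply Subtype.ext
    exact hab
  have hψH : ∀ q, ψ q ∈ H := fun q => ((e₁.symm q : ↥(P : Subgroup H)) : H).2
  set u : ZMod (2 * 2 ^ (n' + 1)) := ((2 ^ n' : ℕ) : ZMod (2 * 2 ^ (n' + 1))) with hu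
  have huu : u + u = ((2 ^ (n' + 1) : ℕ) : ZMod (2 * 2 ^ (n' + 1))) := by
    rw [hu, ← Nat.cast_add]; congr 1; ring
  have hmm : ((2 ^ (n' + 1) : ℕ) : ZMod (2 * 2 ^ (n' + 1))) + ((2 ^ (n' + 1) : ℕ) : ZMod (2 * 2 ^ (n' + 1))) = 0 := by
    rw [← Nat.cast_add]
    have : 2 ^ (n' + 1) + 2 ^ (n' + 1) = 2 * 2 ^ (n' + 1) := by ring
    rw [this]; exact ZMod.natCast_self _
  set qi : QuaternionGroup (2 ^ (n' + 1)) := QuaternionGroup.a u with hqi
  set qj : QuaternionGroup (2 ^ (n' + 1)) := QuaternionGroup.xa 0 with hqj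
  set qt : QuaternionGroup (2 ^ (n' + 1)) :=
    QuaternionGroup.a ((2 ^ (n' + 1) : ℕ) : ZMod (2 * 2 ^ (n' + 1))) with hqt
  have r1 : qi * qi = qt := by rw [hqi, hqt, QuaternionGroup.a_mul_a, huu]
  have r2 : qj * qj = qt := by
    rw [hqj, hqt, QuaternionGroup.xa_mul_xa]; congr 1; ring
  have r3 : qj * qi = qt * (qi * qj) := by
    rw [hqj, hqi, hqt, QuaternionGroup.xa_mul_a, QuaternionGroup.a_mul_xa, QuaternionGroup.a_mul_xa]
    congr 1
    linear_combination huu + hmm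
  have r4 : qt * qt = 1 := by
    rw [hqt, QuaternionGroup.a_mul_a, hmm]; rfl
  have r5 : qt ≠ 1 := by
    rw [hqt]
    intro h
    have h1 : ((2 ^ (n' + 1) : ℕ) : ZMod (2 * 2 ^ (n' + 1))) = 0 := QuaternionGroup.a.inj h
    rw [ZMod.natCast_eq_zero_iff] at h1
    have h2 := Nat.le_of_dvd (by positivity) h1
    have : 0 < 2 ^ (n' + 1) := by positivity
    omega
  set i := ψ qi with hi
  set j := ψ qj with hj
  set t := ψ qt with ht
  have hii : i * i = t := by rw [hi, ht, ← map_mul, r1]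
  have hjj : j * j = t := by rw [hj, ht, ← map_mul, r2]
  have hji : j * i = t * (i * j) := by rw [hi, hj, ht, ← map_mul, ← map_mul, ← map_mul, r3]
  have ht2 : t * t = 1 := by rw [ht, ← map_mul, r4, map_one]
  have ht1 : t ≠ 1 := by
    intro h
    apply r5
    apply hψinj
    rw [map_one]; exact h
  have htH : t ∈ H := hψH qt
  have hfp := fpf H N hF hdisj t htH ht1
  have hinv : ∀ x ∈ N, t * x * t⁻¹ = x⁻¹ := fun x hx => inverts N t ht2 hfp x hx
  have hodd : Odd (Nat.card N) := by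
    by_contra hev
    rw [Nat.not_odd_iff_even] at hev
    obtain ⟨w, hw⟩ := exists_prime_orderOf_dvd_card' (G := N) 2 hev.two_dvd
    have hw2 : (w : L) * (w : L) = 1 := by
      have := pow_orderOf_eq_one w
      rw [hw, pow_two] at this
      exact congrArg Subtype.val this
    have hwi : (w : L)⁻¹ = w := inv_eq_of_mul_eq_one_left hw2
    have h1 := hinv w w.2
    rw [hwi] at h1
    have hmem : (w : L) ∈ N ⊓ Subgroup.centralizer {t} := by
      refine Subgroup.mem_inf.2 ⟨w.2, ?_⟩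
      rw [Subgroup.mem_centralizer_singleton_iff]
      have : (w : L) * t = t * w * t⁻¹ * t := by rw [h1]
      rw [this]; group
    rw [hfp, Subgroup.mem_bot] at hmem
    have : orderOf w = 1 := by
      rw [orderOf_eq_one_iff]; exact Subtype.ext hmem
    omega
  rw [hKN]
  refine ⟨hodd, ?_⟩
  have hcomm : ∀ a b : N, a * b = b * a := by
    intro a b
    apply Subtype.ext
    have h1 := hinv a a.2
    have h2 := hinv b b.2
    have h3 := hinv (a * b : L) (N.mul_mem a.2 b.2)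
    have e : t * ((a : L) * b) * t⁻¹ = (t * a * t⁻¹) * (t * b * t⁻¹) := by group
    rw [e, h1, h2] at h3
    have h4 : ((a : L)⁻¹ * (b : L)⁻¹)⁻¹ = (((a : L) * b)⁻¹)⁻¹ := congrArg (·⁻¹) h3
    rw [inv_inv, mul_inv_rev, inv_inv, inv_inv] at h4
    exact h4.symm
  let _cg : CommGroup N := { (inferInstance : Group N) with mul_comm := hcomm }
  let cI : N →* N :=
    { toFun := fun k => ⟨i * k.1 * i⁻¹, hNn.conj_mem k.1 k.2 i⟩
      map_one' := Subtype.ext (by
        show i * 1 * i⁻¹ = 1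
        group)
      map_mul' := fun a b => Subtype.ext (by
        show i * (a.1 * b.1) * i⁻¹ = (i * a.1 * i⁻¹) * (i * b.1 * i⁻¹)
        group) }
  let cJ : N →* N :=
    { toFun := fun k => ⟨j * k.1 * j⁻¹, hNn.conj_mem k.1 k.2 j⟩
      map_one' := Subtype.ext (by
        show j * 1 * j⁻¹ = 1
        group)
      map_mul' := fun a b => Subtype.ext (by
        show j * (a.1 * b.1) * j⁻¹ = (j * a.1 * j⁻¹) * (j * b.1 * j⁻¹)
        group) }
  have hII : ∀ k : N, cI (cI k) = k⁻¹ := by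
    intro k
    apply Subtype.ext
    show i * (i * k.1 * i⁻¹) * i⁻¹ = (k.1)⁻¹
    have e : i * (i * k.1 * i⁻¹) * i⁻¹ = (i * i) * k.1 * (i * i)⁻¹ := by group
    rw [e, hii]
    exact hinv k.1 k.2
  have hJJ : ∀ k : N, cJ (cJ k) = k⁻¹ := by
    intro k
    apply Subtype.ext
    show j * (j * k.1 * j⁻¹) * j⁻¹ = (k.1)⁻¹
    have e : j * (j * k.1 * j⁻¹) * j⁻¹ = (j * j) * k.1 * (j * j)⁻¹ := by group
    rw [e, hjj]
    exact hinv k.1 k.2
  have hIJ : ∀ k : N, cI (cJ k) = (cJ (cI k))⁻¹ := by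
    intro k
    apply Subtype.ext
    show i * (j * k.1 * j⁻¹) * i⁻¹ = (j * (i * k.1 * i⁻¹) * j⁻¹)⁻¹
    have hy : (i * j) * k.1 * (i * j)⁻¹ ∈ N := hNn.conj_mem k.1 k.2 (i * j)
    have h1 := hinv _ hy
    have e1 : j * (i * k.1 * i⁻¹) * j⁻¹ = (j * i) * k.1 * (j * i)⁻¹ := by group
    have e2 : (t * (i * j)) * k.1 * (t * (i * j))⁻¹ = t * ((i * j) * k.1 * (i * j)⁻¹) * t⁻¹ := by
      group
    rw [e1, hji, e2, h1, inv_inv]
    group
  have hcard : Nat.card (Additive N) = Nat.card N := rfl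
  exact Cfsg.Agent.S4295.sq_card_general (Nat.card N) (Additive N) hcard hodd
    (MonoidHom.toAdditive cI) (MonoidHom.toAdditive cJ)
    (fun x => congrArg Additive.ofMul (hII (Additive.toMul x)))
    (fun x => congrArg Additive.ofMul (hJJ (Additive.toMul x)))
    (fun x => congrArg Additive.ofMul (hIJ (Additive.toMul x)))

end Cfsg.Agent.S4296
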