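import Cfsg.Statements.S4341
import Mathlib
import Cfsg.Agent.Lib.Helper16.PClosed
import Cfsg.Agent.Lib.Helper17.Syl
import Cfsg.Agent.Lib.Helper19.RelIndex
import Cfsg.Agent.Lib.Helper23.SylowCount

set_option autoImplicit false
open Cfsg

namespace Cfsg.Agent.S4341

theorem frattini_count {G : Type*} [Group G] [Finite G] (p : ℕ) [Fact p.Prime]
    (M L : Subgroup G) (hML : M ≤ L) (hL : L ≤ Subgroup.normalizer (M : Set G))
    (Q : Sylow p M) :
    (Subgroup.normalizer (((Q : Subgroup M).map M.subtype : Subgroup G) : Set G)).relIndex L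
      = Nat.card (Sylow p M) := by
  set Q₀ : Subgroup G := (Q : Subgroup M).map M.subtype with hQ₀
  set B := Subgroup.normalizer (Q₀ : Set G) with hB
  have hQM : Q₀ ≤ M := by
    rintro _ ⟨y, -, rfl⟩; exact y.2
  have hsub : Q₀.subgroupOf M = (Q : Subgroup M) := by
    rw [hQ₀]; exact Subgroup.comap_map_eq_self_of_injective M.subtype_injective _
  have h1 : B.relIndex M = Nat.card (Sylow p M) := by
    have e : Subgroup.normalizer (((Q : Subgroup M)) : Set M) = B.subgroupOf M := by
      rw [← hsub, ← Subgroup.subgroupOf_normalizer_eq hQM]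
    rw [Sylow.card_eq_index_normalizer Q]
    change _ = (Subgroup.normalizer (((Q : Subgroup M)) : Set M)).index
    rw [e]
    rfl
  have hT : IsPGroup p Q₀ := Q.isPGroup'.map _
  have hidx : ¬ p ∣ Q₀.relIndex M := by
    unfold Subgroup.relIndex; rw [hsub]; exact Q.not_dvd_index
  have h2 : L = M ⊔ (B ⊓ L) := by
    apply le_antisymm
    · intro x hx
      obtain ⟨c, hc, hcx⟩ := Cfsg.Agent.Lib.Helper17.Syl.frattini_relIndex hQM hT hidx (hL hx)
      have : x = c⁻¹ * (c * x) := by group
      rw [this]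
      exact Subgroup.mul_mem _ (Subgroup.mem_sup_left (M.inv_mem hc))
        (Subgroup.mem_sup_right ⟨hcx, L.mul_mem (hML hc) hx⟩)
    · exact sup_le hML inf_le_right
  have h3 := Cfsg.Agent.Lib.Helper19.relIndex_sup_of_le_normalizer M (B ⊓ L) (inf_le_right.trans hL)
  rw [← h2, Subgroup.inf_relIndex_right] at h3
  rw [h3, ← h1, ← Subgroup.inf_relIndex_right (B ⊓ L) M, ← Subgroup.inf_relIndex_right B M]
  congr 1
  rw [inf_assoc, inf_eq_right.2 hML]

theorem result {G : Type*} [Group G] [Finite G]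
    (p : ℕ) [Fact p.Prime] (K : Subgroup G) [K.Normal] (P : Sylow p G) (N : Subgroup G)
    (hN : N = ((P : Subgroup G) ⊔ K) ⊓ Subgroup.normalizer (((P : Subgroup G) ⊓ K : Subgroup G) : Set G))
    [hn : (((P : Subgroup G) ⊓ K).subgroupOf N).Normal] :
    Nat.card (Sylow p G) =
      Nat.card (Sylow p (G ⧸ K)) * Nat.card (Sylow p K) * Nat.card (Sylow p (N ⧸ ((P : Subgroup G) ⊓ K).subgroupOf N)) := by
  have hp : p.Prime := Fact.out
  set D : Subgroup G := (P : Subgroup G) ⊓ K with hD
  set H : Subgroup G := (P : Subgroup G) ⊔ K with hH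
  set A := Subgroup.normalizer ((P : Subgroup G) : Set G) with hA
  set B := Subgroup.normalizer (D : Set G) with hB
  set S₁ := Subgroup.normalizer (H : Set G) with hS₁
  have hAB : A ≤ B := by
    intro x hx
    rw [hB, Subgroup.mem_normalizer_iff]
    intro y
    rw [hA, Subgroup.mem_normalizer_iff] at hx
    constructor
    · rintro ⟨h1, h2⟩
      exact ⟨(hx y).1 h1, Subgroup.Normal.conj_mem inferInstance y h2 x⟩
    · rintro ⟨h1, h2⟩
      refine ⟨(hx y).2 h1, ?_⟩
      have := Subgroup.Normal.conj_mem (inferInstance : K.Normal) _ h2 x⁻¹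
      simpa [mul_assoc] using this
  have hAS : A ≤ S₁ := by
    intro x hx
    apply Cfsg.Agent.Lib.Helper17.Syl.mem_normalizer_of_conj_mem
    intro r hr
    have h1 : x * r * x⁻¹ ∈ H.map (MulAut.conj x).toMonoidHom := ⟨r, hr, rfl⟩
    rw [hH, Subgroup.map_sup] at h1
    have h2 : Subgroup.map (MulAut.conj x).toMonoidHom (P : Subgroup G) ⊔
        Subgroup.map (MulAut.conj x).toMonoidHom K ≤ H := by
      apply sup_le_sup
      · rintro _ ⟨y, hy, rfl⟩
        rw [hA, Subgroup.mem_normalizer_iff] at hx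
        exact (hx y).1 hy
      · rintro _ ⟨y, hy, rfl⟩
        exact Subgroup.Normal.conj_mem inferInstance y hy x
    exact h2 h1
  have ha : S₁.index = Nat.card (Sylow p (G ⧸ K)) := by
    have hsurj := QuotientGroup.mk'_surjective K
    rw [Sylow.card_eq_index_normalizer (P.mapSurjective hsurj)]
    rw [← Subgroup.index_comap_of_surjective _ hsurj]
    congr 1
    have e := Subgroup.comap_normalizer_eq_of_surjective
      ((P.mapSurjective hsurj : Sylow p (G ⧸ K)) : Subgroup (G ⧸ K)) hsurj
    rw [Sylow.coe_mapSurjective, Subgroup.comap_map_eq, QuotientGroup.ker_mk'] at e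
    rw [hS₁, hH, ← e]
    rfl
  have hb : (S₁ ⊓ B).relIndex S₁ = Nat.card (Sylow p K) := by
    obtain ⟨Q, hQ⟩ := Cfsg.Agent.Lib.Helper16.PClosed.sylow_inf_normal P K
    have := frattini_count p K S₁ (le_sup_right.trans Subgroup.le_normalizer)
      (by rw [Subgroup.normalizer_eq_top]; exact le_top) Q
    rw [hQ] at this
    rw [Subgroup.inf_relIndex_left]
    exact this
  have hPN : (P : Subgroup G) ≤ N := by
    rw [hN]
    exact le_inf le_sup_left (Subgroup.le_normalizer.trans hAB)
  have hNS : N ≤ S₁ ⊓ B := by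
    rw [hN]
    exact inf_le_inf_right _ Subgroup.le_normalizer
  have hSN : S₁ ⊓ B ≤ Subgroup.normalizer (N : Set G) := by
    intro x hx
    apply Cfsg.Agent.Lib.Helper17.Syl.mem_normalizer_of_conj_mem
    intro r hr
    rw [hN] at hr ⊢
    refine ⟨?_, ?_⟩
    · have : x ∈ Subgroup.normalizer (H : Set G) := hx.1
      rw [Subgroup.mem_normalizer_iff] at this
      exact (this r).1 hr.1
    · exact B.mul_mem (B.mul_mem hx.2 hr.2) (B.inv_mem hx.2)
  have hc : A.relIndex (S₁ ⊓ B) = Nat.card (Sylow p N) := by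
    have := frattini_count p N (S₁ ⊓ B) hNS hSN (P.subtype hPN)
    have e : Subgroup.map N.subtype ((P.subtype hPN : Sylow p N) : Subgroup N) = (P : Subgroup G) := by
      rw [Sylow.coe_subtype]
      exact Subgroup.map_subgroupOf_eq_of_le hPN
    rw [e] at this
    exact this
  have hd : Nat.card (Sylow p (N ⧸ ((P : Subgroup G) ⊓ K).subgroupOf N)) = Nat.card (Sylow p N) := by
    apply Cfsg.Agent.Lib.Helper23.SylowCount.card_sylow_quotient_eq
    intro Q
    have hpg : IsPGroup p (((P : Subgroup G) ⊓ K).subgroupOf N) :=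
      (P.isPGroup'.to_le inf_le_left).comap_subtype
    exact (hpg.le_sylow_of_normal Q).trans Subgroup.le_normalizer
  rw [hd, ← ha, ← hb, ← hc, Sylow.card_eq_index_normalizer P]
  rw [mul_assoc, mul_comm ((S₁ ⊓ B).relIndex S₁),
    Subgroup.relIndex_mul_relIndex _ _ _ (le_inf hAS hAB) inf_le_left, mul_comm,
    Subgroup.relIndex_mul_index hAS]
  rfl

end Cfsg.Agent.S4341
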