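import Cfsg.Statements.S4303
import Mathlib
import Cfsg.Agent.S4341
import Cfsg.Agent.Lib.Helper16.PClosed
import Cfsg.Agent.Lib.Helper17.Syl
import Cfsg.Agent.Lib.Helper19.RelIndex
import Cfsg.Agent.Lib.Helper23.SylowCount

set_option autoImplicit false
universe u
open Cfsg

namespace Cfsg.Agent.S4303

section bad

variable {G : Type*} [Group G] [Finite G] {p : ℕ} [Fact p.Prime]
  (P : Sylow p G) (K : Subgroup G) [K.Normal]

theorem not_dvd_card (h1 : (P : Subgroup G) ⊓ K = ⊥) (h2 : (P : Subgroup G) ⊔ K = ⊤) :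
    ¬ p ∣ Nat.card K := by
  have hc : Subgroup.IsComplement' (P : Subgroup G) K := by
    apply Subgroup.isComplement'_of_disjoint_and_mul_eq_univ (disjoint_iff.2 h1)
    rw [← Subgroup.mul_normal, h2]; rfl
  have h3 := hc.card_mul_card
  have h4 := Subgroup.card_mul_index (P : Subgroup G)
  have h5 : Nat.card K = (P : Subgroup G).index := by
    have hpos : 0 < Nat.card (P : Subgroup G) := Nat.card_pos
    exact Nat.eq_of_mul_eq_mul_left hpos (h3.trans h4.symm)
  rw [h5]; exact P.not_dvd_index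

omit [Finite G] in
theorem le_of_isPGroup (h2 : (P : Subgroup G) ⊔ K = ⊤) {q : ℕ} (hq : q.Prime) (hqp : q ≠ p)
    (X : Subgroup G) (hX : IsPGroup q X) : X ≤ K := by
  have hp : p.Prime := Fact.out
  have hGK : IsPGroup p (G ⧸ K) :=
    Cfsg.Agent.Lib.Helper16.PClosed.isPGroup_quotient_of_sup_eq_top P.isPGroup' h2
  intro x hx
  obtain ⟨k, hk⟩ := hX ⟨x, hx⟩
  obtain ⟨j, hj⟩ := hGK (QuotientGroup.mk x)
  have hk' : x ^ q ^ k = 1 := by
    have := congrArg Subtype.val hk
    simpa using this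
  have hk2 : (QuotientGroup.mk x : G ⧸ K) ^ q ^ k = 1 := by
    rw [← QuotientGroup.mk_pow, hk']; rfl
  have hcop : Nat.Coprime (q ^ k) (p ^ j) := Nat.Coprime.pow _ _ ((Nat.coprime_primes hq hp).2 hqp)
  have h3 := pow_gcd_eq_one.2 ⟨hk2, hj⟩
  rw [hcop, pow_one] at h3
  exact (QuotientGroup.eq_one_iff x).1 h3

theorem exists_invariant_sylow (h1 : (P : Subgroup G) ⊓ K = ⊥) (h2 : (P : Subgroup G) ⊔ K = ⊤)
    {q : ℕ} [Fact q.Prime] (hqp : q ≠ p) (L : Subgroup G) (hPL : (P : Subgroup G) ≤ L) :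
    ∃ Q : Sylow q L, (P : Subgroup G) ≤
      Subgroup.normalizer ((((Q : Subgroup L).map L.subtype) : Subgroup G) : Set G) := by
  have hq : q.Prime := Fact.out
  have hcard : ¬ p ∣ Nat.card (Sylow q L) := by
    have e := Cfsg.Agent.Lib.Helper23.SylowCount.card_sylow_subgroup_eq (p := q) (K.subgroupOf L) (by
      intro Q x hx
      rw [Subgroup.mem_subgroupOf]
      have hX : IsPGroup q ((Q : Subgroup L).map L.subtype) := Q.isPGroup'.map _
      exact le_of_isPGroup P K h2 hq hqp _ hX ⟨x, hx, rfl⟩)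
    rw [← e]
    intro hdvd
    apply not_dvd_card P K h1 h2
    have Q0 : Sylow q (K.subgroupOf L) := default
    have d1 := (Q0.card_dvd_index).trans (Subgroup.index_dvd_card _)
    have d2 : Nat.card (K.subgroupOf L) ∣ Nat.card K := by
      rw [← Subgroup.inf_subgroupOf_right K L,
        Nat.card_congr (Subgroup.subgroupOfEquivOfLe (inf_le_right : K ⊓ L ≤ L)).toEquiv]
      exact Subgroup.card_dvd_of_le inf_le_left
    exact hdvd.trans (d1.trans d2)
  obtain ⟨Q, hQ⟩ := (P.isPGroup'.comap_subtype (K := L)).nonempty_fixed_point_of_prime_not_dvd_card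
    (Sylow q L) hcard
  refine ⟨Q, ?_⟩
  intro x hx
  have hx' : (⟨x, hPL hx⟩ : L) ∈ Subgroup.normalizer ((Q : Subgroup L) : Set L) := by
    have := hQ ⟨⟨x, hPL hx⟩, hx⟩
    exact Sylow.smul_eq_iff_mem_normalizer.1 this
  apply Cfsg.Agent.Lib.Helper17.Syl.mem_normalizer_of_conj_mem
  rintro _ ⟨z, hz, rfl⟩
  exact ⟨⟨x, hPL hx⟩ * z * ⟨x, hPL hx⟩⁻¹, (Subgroup.mem_normalizer_iff.1 hx' z).1 hz, rfl⟩

omit [Fact p.Prime] in
theorem card_of_sylow_normalizer {q : ℕ} [Fact q.Prime] (X : Subgroup G) (hX : IsPGroup q X)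
    (h : ¬ q ∣ (X.subgroupOf (Subgroup.normalizer (X : Set G))).index) :
    Nat.card X = q ^ (Nat.card G).factorization q := by
  have hq : q.Prime := Fact.out
  obtain ⟨k, hk⟩ := IsPGroup.iff_card.1 hX
  rw [hk]
  have hdvd : q ^ k ∣ Nat.card G := hk ▸ Subgroup.card_subgroup_dvd_card X
  have hle : k ≤ (Nat.card G).factorization q :=
    (hq.pow_dvd_iff_le_factorization Nat.card_pos.ne').1 hdvd
  rcases hle.eq_or_lt with h' | h'
  · rw [h']
  · exfalso
    apply h
    have : q ^ (k + 1) ∣ Nat.card G := (hq.pow_dvd_iff_le_factorization Nat.card_pos.ne').2 h'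
    exact Sylow.prime_dvd_card_quotient_normalizer this hk

theorem key (h1 : (P : Subgroup G) ⊓ K = ⊥) (h2 : (P : Subgroup G) ⊔ K = ⊤)
    {q : ℕ} [Fact q.Prime] (hqp : q ≠ p) :
    q ^ ((Subgroup.normalizer ((P : Subgroup G) : Set G)).index).factorization q % p = 1 := by
  have hp : p.Prime := Fact.out
  have hq : q.Prime := Fact.out
  set A := Subgroup.normalizer ((P : Subgroup G) : Set G) with hA
  obtain R : Sylow q A := default
  set R₀ : Subgroup G := (R : Subgroup A).map A.subtype with hR₀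
  have hR₀card : Nat.card R₀ = q ^ (Nat.card A).factorization q := by
    rw [← R.card_eq_multiplicity]
    exact (Nat.card_congr (Subgroup.equivMapOfInjective _ _ A.subtype_injective).toEquiv).symm
  have hR₀A : R₀ ≤ A := by rintro _ ⟨y, -, rfl⟩; exact y.2
  have hR₀q : IsPGroup q R₀ := R.isPGroup'.map _
  have hR₀K : R₀ ≤ K := le_of_isPGroup P K h2 hq hqp R₀ hR₀q
  have hcomm : ∀ r ∈ R₀, ∀ x ∈ (P : Subgroup G), x * r = r * x := by
    intro r hr x hx
    have hA1 : r * x * r⁻¹ ∈ (P : Subgroup G) := (Subgroup.mem_normalizer_iff.1 (hR₀A hr) x).1 hx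
    have e1 : r * x * r⁻¹ * x⁻¹ ∈ (P : Subgroup G) ⊓ K := by
      refine ⟨Subgroup.mul_mem _ hA1 (Subgroup.inv_mem _ hx), ?_⟩
      have : r * x * r⁻¹ * x⁻¹ = r * (x * r⁻¹ * x⁻¹) := by group
      rw [this]
      exact K.mul_mem (hR₀K hr) (Subgroup.Normal.conj_mem inferInstance _ (K.inv_mem (hR₀K hr)) x)
    rw [h1, Subgroup.mem_bot] at e1
    have e2 : r * x = r * x * r⁻¹ * x⁻¹ * (x * r) := by group
    rw [e1, one_mul] at e2
    exact e2.symm
  have hPR₀ : (P : Subgroup G) ≤ Subgroup.normalizer (R₀ : Set G) := by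
    intro x hx
    apply Cfsg.Agent.Lib.Helper17.Syl.mem_normalizer_of_conj_mem
    intro r hr
    rw [hcomm r hr x hx]; simpa using hr
  let 𝒳 : Set (Subgroup G) :=
    {X | R₀ ≤ X ∧ IsPGroup q X ∧ (P : Subgroup G) ≤ Subgroup.normalizer (X : Set G)}
  have hne : 𝒳.Nonempty := ⟨R₀, le_rfl, hR₀q, hPR₀⟩
  obtain ⟨X, hX𝒳, hXmax⟩ := Set.exists_max_image 𝒳 (fun Y : Subgroup G => Nat.card Y)
    (Set.toFinite _) hne
  obtain ⟨hX1, hXq, hPX⟩ := hX𝒳
  set L := Subgroup.normalizer (X : Set G) with hL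
  obtain ⟨Q, hQ⟩ := exists_invariant_sylow P K h1 h2 hqp L hPX
  have hXQ : X ≤ (Q : Subgroup L).map L.subtype := by
    intro x hx
    have hnorm : (Subgroup.comap L.subtype X).Normal := Subgroup.normal_in_normalizer
    have h3 : Subgroup.comap L.subtype X ≤ (Q : Subgroup L) :=
      IsPGroup.le_sylow_of_normal (hXq.comap_subtype (K := L)) Q
    exact ⟨⟨x, Subgroup.le_normalizer hx⟩, h3 hx, rfl⟩
  have hmem : (Q : Subgroup L).map L.subtype ∈ 𝒳 := ⟨hX1.trans hXQ, Q.isPGroup'.map _, hQ⟩
  have hXeq : X = (Q : Subgroup L).map L.subtype :=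
    Subgroup.eq_of_le_of_card_ge hXQ (hXmax _ hmem)
  have hsub : X.subgroupOf L = (Q : Subgroup L) := by
    rw [hXeq]; exact Subgroup.comap_map_eq_self_of_injective L.subtype_injective _
  have hXcard : Nat.card X = q ^ (Nat.card G).factorization q := by
    apply card_of_sylow_normalizer X hXq
    rw [hsub]; exact Q.not_dvd_index
  have hAX : Nat.card (A ⊓ X : Subgroup G) = q ^ (Nat.card A).factorization q := by
    have hpg : IsPGroup q (A ⊓ X : Subgroup G) := hXq.to_le inf_le_right
    obtain ⟨j, hj⟩ := IsPGroup.iff_card.1 hpg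
    rw [hj]
    have hd : q ^ j ∣ Nat.card A := hj ▸ Subgroup.card_dvd_of_le inf_le_left
    have hle : j ≤ (Nat.card A).factorization q :=
      (hq.pow_dvd_iff_le_factorization Nat.card_pos.ne').1 hd
    have hge : q ^ (Nat.card A).factorization q ≤ q ^ j := by
      rw [← hj, ← hR₀card]
      exact Subgroup.card_le_of_le (le_inf hR₀A hX1)
    have hge' := (Nat.pow_le_pow_iff_right hq.one_lt).1 hge
    rw [le_antisymm hle hge']
  have hrel : A.relIndex X = q ^ (A.index).factorization q := by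
    have h3 := Cfsg.Agent.Lib.Helper17.Syl.relIndex_mul_card_inf A X
    rw [hAX, hXcard] at h3
    have h4 : (Nat.card G).factorization q = (Nat.card A).factorization q + (A.index).factorization q := by
      rw [← A.card_mul_index, Nat.factorization_mul Nat.card_pos.ne' Subgroup.index_ne_zero_of_finite]
      rfl
    rw [h4, pow_add, mul_comm] at h3
    exact Nat.eq_of_mul_eq_mul_left (pow_pos hq.pos _) h3
  rw [← hrel]
  set M := X ⊔ (P : Subgroup G) with hM
  have hPM : (P : Subgroup G) ≤ M := le_sup_right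
  have fc := Cfsg.Agent.S4341.frattini_count p M M le_rfl Subgroup.le_normalizer (P.subtype hPM)
  have e : Subgroup.map M.subtype ((P.subtype hPM : Sylow p M) : Subgroup M) = (P : Subgroup G) := by
    rw [Sylow.coe_subtype]
    exact Subgroup.map_subgroupOf_eq_of_le hPM
  rw [e] at fc
  have hmod : A.relIndex M ≡ 1 [MOD p] := by
    have : A.relIndex M = Nat.card (Sylow p M) := fc
    rw [this]; exact card_sylow_modEq_one p M
  have hB'X : A ⊓ M ≤ Subgroup.normalizer (X : Set G) :=
    inf_le_right.trans (sup_le Subgroup.le_normalizer hPX)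
  have h5 := Cfsg.Agent.Lib.Helper19.relIndex_sup_of_le_normalizer X (A ⊓ M) hB'X
  have h6 : X ⊔ (A ⊓ M) = M :=
    le_antisymm (sup_le le_sup_left inf_le_right)
      (sup_le le_sup_left (le_sup_of_le_right (le_inf Subgroup.le_normalizer le_sup_right)))
  rw [h6, Subgroup.inf_relIndex_right] at h5
  have h7 : (A ⊓ M).relIndex X = A.relIndex X := by
    rw [← Subgroup.inf_relIndex_right (A ⊓ M) X, ← Subgroup.inf_relIndex_right A X]
    congr 1
    rw [inf_assoc, inf_eq_right.2 (le_sup_left : X ≤ M)]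
  rw [← h7, ← h5]
  have : A.relIndex M % p = 1 % p := hmod
  rw [this, Nat.mod_eq_of_lt hp.one_lt]

theorem bad_case (h1 : (P : Subgroup G) ⊓ K = ⊥) (h2 : (P : Subgroup G) ⊔ K = ⊤) :
    ∃ l : List ℕ, l.prod = Nat.card (Sylow p G) ∧ ∀ m ∈ l, IsPrimePow m ∧ m % p = 1 := by
  have hp : p.Prime := Fact.out
  set n := (Subgroup.normalizer ((P : Subgroup G) : Set G)).index with hn'
  have hn : Nat.card (Sylow p G) = n := Sylow.card_eq_index_normalizer P
  have hn0 : n ≠ 0 := Subgroup.index_ne_zero_of_finite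
  refine ⟨n.primeFactors.toList.map (fun q => q ^ n.factorization q), ?_, ?_⟩
  · rw [Finset.prod_map_toList, hn]
    have := Nat.prod_factorization_pow_eq_self hn0
    rw [Finsupp.prod, Nat.support_factorization] at this
    exact this
  · intro m hm
    rw [List.mem_map] at hm
    obtain ⟨q, hq, rfl⟩ := hm
    rw [Finset.mem_toList, Nat.mem_primeFactors] at hq
    obtain ⟨hq1, hq2, -⟩ := hq
    have : Fact q.Prime := ⟨hq1⟩
    have hqp : q ≠ p := by
      rintro rfl
      have h3 := card_sylow_modEq_one q G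
      rw [hn] at h3
      have h0 : n % q = 0 := Nat.mod_eq_zero_of_dvd hq2
      have h4 : n % q = 1 % q := h3
      rw [h0, Nat.mod_eq_of_lt hp.one_lt] at h4
      exact absurd h4 (by norm_num)
    refine ⟨?_, key P K h1 h2 hqp⟩
    exact ⟨q, n.factorization q, hq1.prime, (hq1.factorization_pos_of_dvd hn0 hq2), rfl⟩

end bad

def Good (p : ℕ) (n : ℕ) : Prop :=
  ∃ l : List ℕ, l.prod = n ∧
      ∀ m ∈ l, (IsPrimePow m ∧ m % p = 1) ∨
        ∃ (S : Type u) (_ : Group S) (_ : Finite S), IsSimpleGroup S ∧ m = Nat.card (Sylow p S)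

theorem good_mul (p a b : ℕ) (ha : Good.{u} p a) (hb : Good.{u} p b) : Good.{u} p (a * b) := by
  obtain ⟨l1, h1, h1'⟩ := ha
  obtain ⟨l2, h2, h2'⟩ := hb
  refine ⟨l1 ++ l2, by simp [h1, h2], ?_⟩
  intro m hm
  rcases List.mem_append.1 hm with h | h
  · exact h1' m h
  · exact h2' m h

theorem main (p : ℕ) [Fact p.Prime] : ∀ (n : ℕ) (G : Type u) [Group G] [Finite G],
    Nat.card G = n → Good.{u} p (Nat.card (Sylow p G)) := by
  intro n
  induction n using Nat.strong_induction_on with
  | _ n ih =>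
    intro G _ _ hG
    by_cases hsimple : IsSimpleGroup G
    · refine ⟨[Nat.card (Sylow p G)], by simp, ?_⟩
      intro m hm
      simp only [List.mem_singleton] at hm
      exact Or.inr ⟨G, inferInstance, inferInstance, hsimple, hm⟩
    obtain P : Sylow p G := default
    by_cases hsub : Subsingleton G
    · obtain ⟨l, hl, hl'⟩ := bad_case P ⊤ (by
        rw [inf_top_eq]; exact Subgroup.eq_bot_of_subsingleton _) (sup_top_eq _)
      exact ⟨l, hl, fun m hm => Or.inl (hl' m hm)⟩
    have hnt : Nontrivial G := not_subsingleton_iff_nontrivial.1 hsub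
    obtain ⟨K, hKn, hK1, hK2⟩ : ∃ K : Subgroup G, K.Normal ∧ K ≠ ⊥ ∧ K ≠ ⊤ := by
      by_contra hcon
      apply hsimple
      rw [isSimpleGroup_iff]
      refine ⟨hnt, fun H hH => ?_⟩
      by_contra h'
      push Not at h'
      exact hcon ⟨H, hH, h'.1, h'.2⟩
    have := hKn
    by_cases hbad : (P : Subgroup G) ⊓ K = ⊥ ∧ (P : Subgroup G) ⊔ K = ⊤
    · obtain ⟨l, hl, hl'⟩ := bad_case P K hbad.1 hbad.2
      exact ⟨l, hl, fun m hm => Or.inl (hl' m hm)⟩
    · set N := ((P : Subgroup G) ⊔ K) ⊓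
        Subgroup.normalizer (((P : Subgroup G) ⊓ K : Subgroup G) : Set G) with hN
      have hDN : (P : Subgroup G) ⊓ K ≤ N :=
        le_inf (inf_le_left.trans le_sup_left) Subgroup.le_normalizer
      have hn : (((P : Subgroup G) ⊓ K).subgroupOf N).Normal :=
        (Subgroup.normal_subgroupOf_iff_le_normalizer hDN).2 inf_le_right
      rw [Cfsg.Agent.S4341.result p K P N hN]
      have hKcard : 1 < Nat.card K := (Subgroup.one_lt_card_iff_ne_bot _).2 hK1
      have hKidx := K.card_mul_index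
      have hidxpos : 0 < K.index := Nat.pos_of_ne_zero Subgroup.index_ne_zero_of_finite
      refine good_mul p _ _ (good_mul p _ _ ?_ ?_) ?_
      · refine ih (Nat.card (G ⧸ K)) ?_ (G ⧸ K) rfl
        have : Nat.card (G ⧸ K) = K.index := rfl
        rw [this, ← hG, ← hKidx]
        nlinarith
      · refine ih (Nat.card K) ?_ K rfl
        rw [← hG]
        exact lt_of_le_of_ne (Subgroup.card_le_card_group K)
          (fun h => hK2 ((Subgroup.card_eq_iff_eq_top _).1 h))
      · refine ih _ ?_ (N ⧸ ((P : Subgroup G) ⊓ K).subgroupOf N) rfl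
        set D' := ((P : Subgroup G) ⊓ K).subgroupOf N with hD'
        have hidx : Nat.card (N ⧸ D') = D'.index := rfl
        have hD'card := D'.card_mul_index
        have hD'pos : 0 < D'.index := Nat.pos_of_ne_zero Subgroup.index_ne_zero_of_finite
        have hNle : Nat.card N ≤ Nat.card G := Subgroup.card_le_card_group N
        rw [hidx, ← hG]
        by_cases hD : (P : Subgroup G) ⊓ K = ⊥
        · have hNtop : N ≠ ⊤ := by
            intro hNt
            apply hbad
            refine ⟨hD, ?_⟩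
            have : N ≤ (P : Subgroup G) ⊔ K := inf_le_left
            rw [hNt] at this
            exact top_le_iff.1 this
          have hNlt : Nat.card N < Nat.card G :=
            lt_of_le_of_ne hNle (fun h => hNtop ((Subgroup.card_eq_iff_eq_top _).1 h))
          have : D'.index ≤ Nat.card N := Nat.le_of_dvd Nat.card_pos (Subgroup.index_dvd_card _)
          omega
        · have hc2 : 1 < Nat.card D' := by
            rw [hD', Nat.card_congr (Subgroup.subgroupOfEquivOfLe hDN).toEquiv]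
            exact (Subgroup.one_lt_card_iff_ne_bot _).2 hD
          nlinarith

theorem result {G : Type u} [Group G] [Finite G]
    (p : ℕ) [Fact p.Prime] :
    ∃ l : List ℕ, l.prod = Nat.card (Sylow p G) ∧
      ∀ m ∈ l, (IsPrimePow m ∧ m % p = 1) ∨
        ∃ (S : Type u) (_ : Group S) (_ : Finite S), IsSimpleGroup S ∧ m = Nat.card (Sylow p S) :=
  main p (Nat.card G) G rfl

end Cfsg.Agent.S4303
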