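import Cfsg.Statements.S4331
import Mathlib

set_option autoImplicit false
open Cfsg

namespace Cfsg.Agent.S4331

structure E where
  b : ZMod 3 × ZMod 3
  k : ZMod 8
  j : ZMod 2
deriving DecidableEq, Fintype

def zt (k : ZMod 8) : ZMod 3 × ZMod 3 :=
  (![(1,0),(1,1),(0,2),(1,2),(2,0),(2,2),(0,1),(2,1)] : Fin 8 → ZMod 3 × ZMod 3) k

def cj (j : ZMod 2) (v : ZMod 3 × ZMod 3) : ZMod 3 × ZMod 3 := if j = 0 then v else (v.1, -v.2)

def mulF (u v : ZMod 3 × ZMod 3) : ZMod 3 × ZMod 3 :=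
  (u.1 * v.1 - u.2 * v.2, u.1 * v.2 + u.2 * v.1)

def act (k : ZMod 8) (j : ZMod 2) (v : ZMod 3 × ZMod 3) : ZMod 3 × ZMod 3 := mulF (zt k) (cj j v)

def tw (j : ZMod 2) (k : ZMod 8) : ZMod 8 := if j = 0 then k else 3 * k

instance instMulE : Mul E := ⟨fun p q => ⟨p.b + act p.k p.j q.b, p.k + tw p.j q.k, p.j + q.j⟩⟩
instance instOneE : One E := ⟨⟨0, 0, 0⟩⟩
instance instInvE : Inv E := ⟨fun p => ⟨-act (-tw p.j p.k) p.j p.b, -tw p.j p.k, p.j⟩⟩

theorem mul_def (p q : E) : p * q = ⟨p.b + act p.k p.j q.b, p.k + tw p.j q.k, p.j + q.j⟩ := rfl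
theorem one_def : (1 : E) = ⟨0, 0, 0⟩ := rfl
theorem inv_def (p : E) : p⁻¹ = ⟨-act (-tw p.j p.k) p.j p.b, -tw p.j p.k, p.j⟩ := rfl

theorem act_add : ∀ k j v w, act k j (v + w) = act k j v + act k j w := by decide
theorem act_act : ∀ k j k' j' v, act (k + tw j k') (j + j') v = act k j (act k' j' v) := by decide
theorem tw_add : ∀ j a b, tw j (a + b) = tw j a + tw j b := by decide
theorem tw_tw : ∀ j j' c, tw (j + j') c = tw j (tw j' c) := by decide
theorem act_zero : ∀ v, act 0 0 v = v := by decide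
theorem tw_zero : ∀ k, tw 0 k = k := by decide
theorem jj : ∀ j : ZMod 2, j + j = 0 := by decide

instance instGroupE : Group E := Group.ofLeftAxioms
  (by
    intro p q r
    simp only [mul_def, act_add, act_act, tw_add, tw_tw, add_assoc])
  (by
    intro p
    simp only [mul_def, one_def, act_zero, tw_zero, zero_add])
  (by
    intro p
    simp only [mul_def, inv_def, one_def, neg_add_cancel, jj])

def aE : E := ⟨0, 0, 1⟩

set_option maxRecDepth 100000 in
theorem main_check : ∀ c : E, ∃ k : E,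
    ((k * c * k⁻¹) * aE = aE * (k * c * k⁻¹)) ∨ (k * c * k⁻¹).b = 0 := by
  decide +kernel

set_option maxRecDepth 100000 in
theorem Hs_mul : ∀ x : E, x.b = 0 → ∀ y : E, y.b = 0 → (x * y).b = 0 := by decide +kernel
set_option maxRecDepth 100000 in
theorem Hs_inv : ∀ x : E, x.b = 0 → (x⁻¹).b = 0 := by decide +kernel

def Hs : Subgroup E where
  carrier := {p | p.b = 0}
  mul_mem' := fun {x y} hx hy => Hs_mul x hx y hy
  one_mem' := rfl
  inv_mem' := fun {x} hx => Hs_inv x hx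

set_option maxRecDepth 100000 in
theorem Ds_mul : ∀ x : E, (x.b = 0 ∧ 4 * x.k = 0) → ∀ y : E, (y.b = 0 ∧ 4 * y.k = 0) →
    ((x * y).b = 0 ∧ 4 * (x * y).k = 0) := by decide +kernel
set_option maxRecDepth 100000 in
theorem Ds_inv : ∀ x : E, (x.b = 0 ∧ 4 * x.k = 0) → ((x⁻¹).b = 0 ∧ 4 * (x⁻¹).k = 0) := by
  decide +kernel

def Ds : Subgroup E where
  carrier := {p | p.b = 0 ∧ 4 * p.k = 0}
  mul_mem' := fun {x y} hx hy => Ds_mul x hx y hy
  one_mem' := ⟨rfl, rfl⟩
  inv_mem' := fun {x} hx => Ds_inv x hx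

set_option maxRecDepth 100000 in
theorem Bs_mul : ∀ x : E, (x.b = 0 ∧ 2 * x.k = 0) → ∀ y : E, (y.b = 0 ∧ 2 * y.k = 0) →
    ((x * y).b = 0 ∧ 2 * (x * y).k = 0) := by decide +kernel
set_option maxRecDepth 100000 in
theorem Bs_inv : ∀ x : E, (x.b = 0 ∧ 2 * x.k = 0) → ((x⁻¹).b = 0 ∧ 2 * (x⁻¹).k = 0) := by
  decide +kernel

def Bs : Subgroup E where
  carrier := {p | p.b = 0 ∧ 2 * p.k = 0}
  mul_mem' := fun {x y} hx hy => Bs_mul x hx y hy
  one_mem' := ⟨rfl, rfl⟩
  inv_mem' := fun {x} hx => Bs_inv x hx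

set_option maxRecDepth 100000 in
theorem c1 : ∀ y : E, (y.b = 0 ∧ 2 * y.k = 0) → y * aE = aE * y := by decide +kernel
set_option maxRecDepth 100000 in
theorem c2 : ∀ x : E, (x.b = 0 ∧ 2 * x.k = 0) → ∀ y : E, (y.b = 0 ∧ 4 * y.k = 0) →
    ((y * x * y⁻¹).b = 0 ∧ 2 * (y * x * y⁻¹).k = 0) := by decide +kernel
set_option maxRecDepth 100000 in
theorem c3 : ∀ x : E, (x.b = 0 ∧ 4 * x.k = 0) → ∀ y : E, y.b = 0 →
    ((y * x * y⁻¹).b = 0 ∧ 4 * (y * x * y⁻¹).k = 0) := by decide +kernel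

theorem subnormal_chain {G : Type*} [Group G] (A B D P X : Subgroup G)
    (hAB : A ≤ B) (hBD : B ≤ D) (hXP : X ≤ P)
    (n1 : ∀ x ∈ A, ∀ y ∈ B, y * x * y⁻¹ ∈ A)
    (n2 : ∀ x ∈ B, ∀ y ∈ D, y * x * y⁻¹ ∈ B)
    (n3 : ∀ x ∈ D, ∀ y ∈ P, y * x * y⁻¹ ∈ D) :
    (A.subgroupOf X).IsSubnormal := by
  have hD : (D.subgroupOf P).IsSubnormal := by
    apply Subgroup.Normal.isSubnormal
    constructor
    intro n hn x
    rw [Subgroup.mem_subgroupOf] at hn ⊢
    exact n3 _ hn _ x.2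
  have hB : (B.subgroupOf P).IsSubnormal := by
    refine Subgroup.IsSubnormal.step _ (D.subgroupOf P) ?_ hD ?_
    · intro x hx
      rw [Subgroup.mem_subgroupOf] at hx ⊢
      exact hBD hx
    · constructor
      intro n hn x
      rw [Subgroup.mem_subgroupOf, Subgroup.mem_subgroupOf] at hn ⊢
      have hx : ((x : P) : G) ∈ D := Subgroup.mem_subgroupOf.1 x.2
      exact n2 _ hn _ hx
  have hA : (A.subgroupOf P).IsSubnormal := by
    refine Subgroup.IsSubnormal.step _ (B.subgroupOf P) ?_ hB ?_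
    · intro x hx
      rw [Subgroup.mem_subgroupOf] at hx ⊢
      exact hAB hx
    · constructor
      intro n hn x
      rw [Subgroup.mem_subgroupOf, Subgroup.mem_subgroupOf] at hn ⊢
      have hx : ((x : P) : G) ∈ B := Subgroup.mem_subgroupOf.1 x.2
      exact n1 _ hn _ hx
  have h := hA.comap (Subgroup.inclusion hXP)
  have e : (A.subgroupOf P).comap (Subgroup.inclusion hXP) = A.subgroupOf X := by
    ext x
    rw [Subgroup.mem_comap, Subgroup.mem_subgroupOf, Subgroup.mem_subgroupOf]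
    rfl
  rw [e] at h
  exact h

theorem subnormal_of_commute {G : Type*} [Group G] (a g : G) (h : g * a = a * g) :
    ((Subgroup.zpowers a).subgroupOf (Subgroup.zpowers a ⊔ Subgroup.zpowers g)).IsSubnormal := by
  apply Subgroup.Normal.isSubnormal
  have hle : Subgroup.zpowers a ⊔ Subgroup.zpowers g ≤ Subgroup.centralizer {a} := by
    rw [sup_le_iff]
    constructor
    · rw [Subgroup.zpowers_le, Subgroup.mem_centralizer_singleton_iff]
    · rw [Subgroup.zpowers_le, Subgroup.mem_centralizer_singleton_iff]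
      exact h
  constructor
  intro n hn x
  rw [Subgroup.mem_subgroupOf] at hn ⊢
  have hx := hle x.2
  rw [Subgroup.mem_centralizer_singleton_iff] at hx
  obtain ⟨k, hk⟩ := Subgroup.mem_zpowers_iff.1 hn
  have hc : Commute (x : G) a := hx
  have e : ((x * n * x⁻¹ : ↥(Subgroup.zpowers a ⊔ Subgroup.zpowers g)) : G) = a ^ k := by
    show (x : G) * (n : G) * (x : G)⁻¹ = a ^ k
    rw [← hk, (hc.zpow_right k).eq, mul_inv_cancel_right]
  rw [e]
  exact Subgroup.zpow_mem_zpowers a k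

theorem aE_sq : aE * aE = 1 := by decide
theorem aE_ne : aE ≠ 1 := by decide

theorem cardA : Nat.card (Subgroup.zpowers aE) = 2 := by
  rw [Nat.card_zpowers]
  have : Fact (Nat.Prime 2) := ⟨Nat.prime_two⟩
  exact orderOf_eq_prime (by rw [pow_two]; exact aE_sq) aE_ne

def g1 : E →* Multiplicative (ZMod 2) where
  toFun x := Multiplicative.ofAdd x.j
  map_one' := rfl
  map_mul' _ _ := rfl

theorem mem_ker_g1 (x : E) : x ∈ g1.ker ↔ x.j = 0 := by
  rw [MonoidHom.mem_ker]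
  exact Iff.rfl

def g2 : g1.ker →* Multiplicative (ZMod 8) where
  toFun x := Multiplicative.ofAdd x.1.k
  map_one' := rfl
  map_mul' x y := by
    have hx : x.1.j = 0 := (mem_ker_g1 x.1).1 x.2
    show Multiplicative.ofAdd (x.1.k + tw x.1.j y.1.k) = _
    rw [hx, tw_zero]
    rfl

theorem solvE : Group.IsSolvable E := by
  have hK2 : Group.IsSolvable g2.ker := by
    apply Group.isSolvable_of_comm
    rintro ⟨⟨x, hx⟩, hx2⟩ ⟨⟨y, hy⟩, hy2⟩
    have hxj : x.j = 0 := (mem_ker_g1 x).1 hx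
    have hyj : y.j = 0 := (mem_ker_g1 y).1 hy
    have hxk : x.k = 0 := hx2
    have hyk : y.k = 0 := hy2
    apply Subtype.ext
    apply Subtype.ext
    show x * y = y * x
    rw [mul_def, mul_def, hxj, hyj, hxk, hyk, act_zero, act_zero, add_comm]
  have hK : Group.IsSolvable g1.ker :=
    Group.isSolvable_of_ker_le_range g2.ker.subtype g2 (by simp)
  exact Group.isSolvable_of_ker_le_range g1.ker.subtype g1 (by simp)

set_option maxRecDepth 100000 in
theorem v_cube : ∀ v : E, (v.k = 0 ∧ v.j = 0) → v * v * v = 1 := by decide +kernel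
set_option maxRecDepth 100000 in
theorem v_comm : ∀ v : E, (v.k = 0 ∧ v.j = 0) → ∀ n : E,
    ((n * v * n⁻¹ * v⁻¹).k = 0 ∧ (n * v * n⁻¹ * v⁻¹).j = 0) := by decide +kernel
set_option maxRecDepth 100000 in
theorem v_cent : ∀ n : E, (∀ v : E, (v.k = 0 ∧ v.j = 0) → n * v * n⁻¹ * v⁻¹ = 1) →
    (n.k = 0 ∧ n.j = 0) := by decide +kernel

theorem pcore_bot : Cfsg.pCore 2 E = ⊥ := by
  rw [Cfsg.pCore, sSup_eq_bot]
  rintro N ⟨hN, hNp⟩
  have triv : ∀ x : E, x ∈ N → (x.k = 0 ∧ x.j = 0) → x = 1 := by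
    intro x hxN hxV
    obtain ⟨m, hm⟩ := hNp ⟨x, hxN⟩
    have h1 : x ^ (2 ^ m) = 1 := congrArg Subtype.val hm
    have h2 : x ^ 3 = 1 := by
      rw [pow_succ, pow_two]
      exact v_cube x hxV
    have d1 := orderOf_dvd_of_pow_eq_one h1
    have d2 := orderOf_dvd_of_pow_eq_one h2
    have d3 : orderOf x ∣ Nat.gcd (2 ^ m) 3 := Nat.dvd_gcd d1 d2
    have cop : Nat.gcd (2 ^ m) 3 = 1 := Nat.Coprime.pow_left m (by decide)
    rw [cop, Nat.dvd_one] at d3
    exact orderOf_eq_one_iff.1 d3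
  rw [Subgroup.eq_bot_iff_forall]
  intro n hn
  have hnV : n.k = 0 ∧ n.j = 0 := by
    apply v_cent
    intro v hv
    apply triv
    · have h1 : v * n⁻¹ * v⁻¹ ∈ N := hN.conj_mem _ (N.inv_mem hn) v
      have h2 := N.mul_mem hn h1
      have e : n * (v * n⁻¹ * v⁻¹) = n * v * n⁻¹ * v⁻¹ := by group
      rw [e] at h2
      exact h2
    · exact v_comm v hv n
  exact triv n hn hnV

theorem result :
    ∃ (G : Type) (_ : Group G) (_ : Finite G) (A : Subgroup G), Group.IsSolvable G ∧ Nat.card A = 2 ∧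
      (∀ c : G, ∃ g : G, IsConj c g ∧ (A.subgroupOf (A ⊔ Subgroup.zpowers g)).IsSubnormal) ∧
      ¬ A ≤ Cfsg.pCore 2 G := by
  refine ⟨E, instGroupE, inferInstance, Subgroup.zpowers aE, solvE, cardA, ?_, ?_⟩
  · intro c
    obtain ⟨k, hk⟩ := main_check c
    refine ⟨k * c * k⁻¹, isConj_iff.2 ⟨k, rfl⟩, ?_⟩
    rcases hk with hk | hk
    · exact subnormal_of_commute aE _ hk
    · have hA_B : Subgroup.zpowers aE ≤ Bs := by
        rw [Subgroup.zpowers_le]
        exact ⟨rfl, rfl⟩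
      have hB_D : Bs ≤ Ds := by
        intro x hx
        refine ⟨hx.1, ?_⟩
        have h2 : (2 : ZMod 8) * x.k = 0 := hx.2
        have : (4 : ZMod 8) * x.k = 2 * (2 * x.k) := by ring
        rw [this, h2, mul_zero]
      have hX : Subgroup.zpowers aE ⊔ Subgroup.zpowers (k * c * k⁻¹) ≤ Hs := by
        rw [sup_le_iff, Subgroup.zpowers_le, Subgroup.zpowers_le]
        exact ⟨rfl, hk⟩
      refine subnormal_chain (Subgroup.zpowers aE) Bs Ds Hs _ hA_B hB_D hX ?_ ?_ ?_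
      · intro x hx y hy
        obtain ⟨i, rfl⟩ := Subgroup.mem_zpowers_iff.1 hx
        have hc : Commute y aE := c1 y hy
        rw [(hc.zpow_right i).eq, mul_inv_cancel_right]
        exact Subgroup.zpow_mem_zpowers aE i
      · intro x hx y hy
        exact c2 x hx y hy
      · intro x hx y hy
        exact c3 x hx y hy
  · rw [pcore_bot]
    intro h
    have := h (Subgroup.mem_zpowers aE)
    rw [Subgroup.mem_bot] at this
    exact aE_ne this

end Cfsg.Agent.S4331
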