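import Cfsg.Statements.S4332
import Mathlib

set_option autoImplicit false
open Cfsg

namespace Cfsg.Agent.S4332

open Equiv
open scoped Pointwise

theorem pinv_apply {α : Type*} (f : Perm α) (x : α) : f⁻¹ (f x) = x := f.symm_apply_apply x

theorem papply_inv {α : Type*} (f : Perm α) (x : α) : f (f⁻¹ x) = x := f.apply_symm_apply x

theorem subnormal_of_commute {G : Type*} [Group G] (σ g : G) (h : Commute (g * σ * g⁻¹) σ) :
    ((Subgroup.zpowers σ).subgroupOf
      (Subgroup.zpowers σ ⊔ MulAut.conj g • Subgroup.zpowers σ)).IsSubnormal := by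
  apply Subgroup.Normal.isSubnormal
  have hle : Subgroup.zpowers σ ⊔ MulAut.conj g • Subgroup.zpowers σ ≤
      Subgroup.centralizer {σ} := by
    rw [sup_le_iff]
    constructor
    · rw [Subgroup.zpowers_le, Subgroup.mem_centralizer_singleton_iff]
    · intro y hy
      obtain ⟨z, hz, rfl⟩ := hy
      obtain ⟨k, rfl⟩ := Subgroup.mem_zpowers_iff.1 hz
      rw [Subgroup.mem_centralizer_singleton_iff]
      have e : (MulAut.conj g) (σ ^ k) = (g * σ * g⁻¹) ^ k := by
        rw [MulAut.conj_apply, conj_zpow]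
      show (MulAut.conj g) (σ ^ k) * σ = σ * (MulAut.conj g) (σ ^ k)
      rw [e]
      exact (h.zpow_left k).eq
  constructor
  intro n hn x
  rw [Subgroup.mem_subgroupOf] at hn ⊢
  have hx := hle x.2
  rw [Subgroup.mem_centralizer_singleton_iff] at hx
  obtain ⟨k, hk⟩ := Subgroup.mem_zpowers_iff.1 hn
  have hc : Commute (x : G) σ := hx
  have e : ((x * n * x⁻¹ : ↥(Subgroup.zpowers σ ⊔ MulAut.conj g • Subgroup.zpowers σ)) : G)
      = σ ^ k := by
    show (x : G) * (n : G) * (x : G)⁻¹ = σ ^ k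
    rw [← hk, (hc.zpow_right k).eq, mul_inv_cancel_right]
  rw [e]
  exact Subgroup.zpow_mem_zpowers σ k

theorem commute_of_agree {α : Type*} [DecidableEq α] [Fintype α] (g σ : Perm α)
    (h : ∀ y ∈ σ.support, g y = σ y) : Commute g σ := by
  have h1 : ∀ y, y ∉ σ.support → g y ∉ σ.support := by
    intro y hy hgy
    have h2 : σ⁻¹ (g y) ∈ σ.support := by
      rw [← Perm.support_inv, Perm.apply_mem_support, Perm.support_inv]
      exact hgy
    have h3 := h _ h2
    rw [papply_inv] at h3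
    have h4 := g.injective h3
    rw [h4] at h2
    exact hy h2
  ext y
  show g (σ y) = σ (g y)
  by_cases hy : y ∈ σ.support
  · rw [h y hy, h (σ y) (Perm.apply_mem_support.2 hy)]
  · have e1 : σ y = y := Perm.notMem_support.1 hy
    have e2 : σ (g y) = g y := Perm.notMem_support.1 (h1 y hy)
    rw [e1, e2]

theorem commute_of_fix {α : Type*} [DecidableEq α] [Fintype α] (g σ : Perm α)
    (h : ∀ y ∈ σ.support, g y = y) : Commute g σ := by
  apply Perm.Disjoint.commute
  intro y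
  by_cases hy : y ∈ σ.support
  · exact Or.inl (h y hy)
  · exact Or.inr (Perm.notMem_support.1 hy)

theorem commute_of_disjoint {α : Type*} [DecidableEq α] [Fintype α] (g σ : Perm α)
    (h : ∀ y ∈ σ.support, g y ∉ σ.support) : Commute (g * σ * g⁻¹) σ := by
  apply Perm.Disjoint.commute
  intro y
  by_cases hy : y ∈ σ.support
  · left
    have h1 : g⁻¹ y ∉ σ.support := by
      intro h2
      have := h _ h2
      rw [papply_inv] at this
      exact this hy
    show g (σ (g⁻¹ y)) = y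
    rw [Perm.notMem_support.1 h1, papply_inv]
  · exact Or.inr (Perm.notMem_support.1 hy)

theorem exists_triple (c : Perm (Fin 8)) :
    ∃ x1 x2 x3 : Fin 8, x1 ≠ x2 ∧ x1 ≠ x3 ∧ x2 ≠ x3 ∧
      ((c x1 = x1 ∧ c x2 = x2 ∧ c x3 = x3) ∨ (c x1 = x2 ∧ c x2 = x3 ∧ c x3 = x1) ∨
       ((c x1 ≠ x1 ∧ c x1 ≠ x2 ∧ c x1 ≠ x3) ∧ (c x2 ≠ x1 ∧ c x2 ≠ x2 ∧ c x2 ≠ x3) ∧
        (c x3 ≠ x1 ∧ c x3 ≠ x2 ∧ c x3 ≠ x3))) := by
  by_cases hM : c.support.card ≤ 5
  · have h2 : 2 < (c.support)ᶜ.card := by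
      rw [Finset.card_compl, Fintype.card_fin]
      omega
    obtain ⟨a, b, d, ha, hb, hd, hab, had, hbd⟩ := Finset.two_lt_card_iff.1 h2
    rw [Finset.mem_compl, Perm.notMem_support] at ha hb hd
    exact ⟨a, b, d, hab, had, hbd, Or.inl ⟨ha, hb, hd⟩⟩
  · push Not at hM
    obtain ⟨x1, hx1⟩ : ∃ x, x ∈ c.support := Finset.card_pos.1 (by omega)
    have h1 : c x1 ≠ x1 := Perm.mem_support.1 hx1
    by_cases h3 : c (c (c x1)) = x1
    · refine ⟨x1, c x1, c (c x1), h1.symm, ?_, ?_, Or.inr (Or.inl ⟨rfl, rfl, h3⟩)⟩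
      · intro h
        rw [← h] at h3
        exact h1 h3
      · intro h
        exact h1 (c.injective h).symm
    · by_cases h2 : c (c x1) = x1
      · obtain ⟨x2, hx2M, hx2⟩ := Finset.exists_mem_notMem_of_card_lt_card
          (s := {x1, c x1}) (t := c.support) (lt_of_le_of_lt Finset.card_le_two (by omega))
        obtain ⟨x3, hx3M, hx3⟩ := Finset.exists_mem_notMem_of_card_lt_card
          (s := {x1, c x1, x2, c x2, c⁻¹ x2}) (t := c.support)
          (lt_of_le_of_lt Finset.card_le_five hM)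
        simp only [Finset.mem_insert, Finset.mem_singleton, not_or] at hx2 hx3
        have hc2 : c x2 ≠ x2 := Perm.mem_support.1 hx2M
        have hc3 : c x3 ≠ x3 := Perm.mem_support.1 hx3M
        refine ⟨x1, x2, x3, Ne.symm hx2.1, Ne.symm hx3.1, Ne.symm hx3.2.2.1,
          Or.inr (Or.inr ⟨⟨h1, Ne.symm hx2.2, Ne.symm hx3.2.1⟩, ⟨?_, hc2, Ne.symm hx3.2.2.2.1⟩,
            ⟨?_, ?_, hc3⟩⟩)⟩
        · intro h
          rw [← h2] at h
          exact hx2.2 (c.injective h)
        · intro h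
          rw [← h2] at h
          exact hx3.2.1 (c.injective h)
        · intro h
          apply hx3.2.2.2.2
          rw [← h, pinv_apply]
      · obtain ⟨x3, hx3M, hx3⟩ := Finset.exists_mem_notMem_of_card_lt_card
          (s := {x1, c x1, c⁻¹ x1, c (c x1), c (c (c x1))}) (t := c.support)
          (lt_of_le_of_lt Finset.card_le_five hM)
        simp only [Finset.mem_insert, Finset.mem_singleton, not_or] at hx3
        have hc3 : c x3 ≠ x3 := Perm.mem_support.1 hx3M
        refine ⟨x1, c (c x1), x3, Ne.symm h2, Ne.symm hx3.1, Ne.symm hx3.2.2.2.1,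
          Or.inr (Or.inr ⟨⟨h1, ?_, Ne.symm hx3.2.1⟩, ⟨h3, ?_, Ne.symm hx3.2.2.2.2⟩,
            ⟨?_, ?_, hc3⟩⟩)⟩
        · intro h
          exact h1 (c.injective h).symm
        · intro h
          exact h1 (c.injective (c.injective h))
        · intro h
          apply hx3.2.2.1
          rw [← h, pinv_apply]
        · intro h
          exact hx3.2.1 (c.injective h)

theorem exists_conj_commute (σ : Perm (Fin 8)) (hσ : σ.IsThreeCycle) (c : Perm (Fin 8)) :
    ∃ g : Perm (Fin 8), IsConj c g ∧ Commute (g * σ * g⁻¹) σ := by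
  obtain ⟨s, hs⟩ : ∃ s, s ∈ σ.support := Finset.card_pos.1 (by rw [hσ.card_support]; omega)
  have hsupp := hσ.support_eq_iff_mem_support.2 hs
  have hnd := hσ.nodup_iff_mem_support.2 hs
  have h3 : σ (σ (σ s)) = s := by
    have : (σ ^ 3) s = s := by rw [← hσ.orderOf, pow_orderOf_eq_one]; rfl
    exact this
  have hd12 : s ≠ σ s := by
    intro h; rw [List.nodup_cons] at hnd; exact hnd.1 (by simp [← h])
  have hd13 : s ≠ σ (σ s) := by
    intro h; rw [List.nodup_cons] at hnd; exact hnd.1 (by simp [← h])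
  have hd23 : σ s ≠ σ (σ s) := by
    intro h; exact hd12 (σ.injective h)
  obtain ⟨x1, x2, x3, h12, h13, h23, hcase⟩ := exists_triple c
  have hf : Function.Injective (![x1, x2, x3] : Fin 3 → Fin 8) := by
    intro i j hij
    fin_cases i <;> fin_cases j <;> simp_all
  have hg : Function.Injective (![s, σ s, σ (σ s)] : Fin 3 → Fin 8) := by
    intro i j hij
    fin_cases i <;> fin_cases j <;> simp_all
  obtain ⟨h, hh⟩ := Perm.exists_extending_pair _ _ hf hg
  have hh1 : h x1 = s := hh 0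
  have hh2 : h x2 = σ s := hh 1
  have hh3 : h x3 = σ (σ s) := hh 2
  have hi1 : h⁻¹ s = x1 := by rw [← hh1, pinv_apply]
  have hi2 : h⁻¹ (σ s) = x2 := by rw [← hh2, pinv_apply]
  have hi3 : h⁻¹ (σ (σ s)) = x3 := by rw [← hh3, pinv_apply]
  have hconj : IsConj c (h * c * h⁻¹) := isConj_iff.2 ⟨h, rfl⟩
  have hmem : ∀ y ∈ σ.support, y = s ∨ y = σ s ∨ y = σ (σ s) := by
    intro y hy
    rw [hsupp] at hy
    simpa using hy
  have hg1 : (h * c * h⁻¹) s = h (c x1) := by
    show h (c (h⁻¹ s)) = _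
    rw [hi1]
  have hg2 : (h * c * h⁻¹) (σ s) = h (c x2) := by
    show h (c (h⁻¹ (σ s))) = _
    rw [hi2]
  have hg3 : (h * c * h⁻¹) (σ (σ s)) = h (c x3) := by
    show h (c (h⁻¹ (σ (σ s)))) = _
    rw [hi3]
  refine ⟨h * c * h⁻¹, hconj, ?_⟩
  rcases hcase with ⟨e1, e2, e3⟩ | ⟨e1, e2, e3⟩ | ⟨e1, e2, e3⟩
  · have hc : Commute (h * c * h⁻¹) σ := by
      apply commute_of_fix
      intro y hy
      rcases hmem y hy with rfl | rfl | rfl
      · rw [hg1, e1, hh1]
      · rw [hg2, e2, hh2]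
      · rw [hg3, e3, hh3]
    have e : h * c * h⁻¹ * σ * (h * c * h⁻¹)⁻¹ = σ := by
      rw [hc.eq, mul_inv_cancel_right]
    rw [e]
  · have hc : Commute (h * c * h⁻¹) σ := by
      apply commute_of_agree
      intro y hy
      rcases hmem y hy with rfl | rfl | rfl
      · rw [hg1, e1, hh2]
      · rw [hg2, e2, hh3]
      · rw [hg3, e3, hh1, h3]
    have e : h * c * h⁻¹ * σ * (h * c * h⁻¹)⁻¹ = σ := by
      rw [hc.eq, mul_inv_cancel_right]
    rw [e]
  · apply commute_of_disjoint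
    have key : ∀ z, z ≠ x1 → z ≠ x2 → z ≠ x3 → h z ∉ σ.support := by
      intro z z1 z2 z3 hz
      rcases hmem _ hz with e | e | e
      · rw [← hh1] at e
        exact z1 (h.injective e)
      · rw [← hh2] at e
        exact z2 (h.injective e)
      · rw [← hh3] at e
        exact z3 (h.injective e)
    intro y hy
    rcases hmem y hy with rfl | rfl | rfl
    · rw [hg1]
      exact key _ e1.1 e1.2.1 e1.2.2
    · rw [hg2]
      exact key _ e2.1 e2.2.1 e2.2.2
    · rw [hg3]
      exact key _ e3.1 e3.2.1 e3.2.2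

theorem dvd_card_of_normal {n : ℕ} (hn : 0 < n) (N : Subgroup (Perm (Fin n))) (hN : N.Normal)
    (hne : N ≠ ⊥) : n ∣ Nat.card N := by
  obtain ⟨σ, hσN, hσ1⟩ : ∃ σ ∈ N, σ ≠ 1 := by
    by_contra h
    push Not at h
    exact hne ((Subgroup.eq_bot_iff_forall N).2 h)
  obtain ⟨x, hx⟩ : ∃ x, σ x ≠ x := by
    by_contra h
    push Not at h
    exact hσ1 (Equiv.ext h)
  have htrans : ∀ u v : Fin n, ∃ m ∈ N, m u = v := by
    intro u v
    by_cases huv : u = v
    · exact ⟨1, N.one_mem, by simpa using huv⟩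
    · let τ1 : Perm (Fin n) := Equiv.swap x u
      let τ : Perm (Fin n) := Equiv.swap (τ1 (σ x)) v * τ1
      refine ⟨τ * σ * τ⁻¹, hN.conj_mem σ hσN τ, ?_⟩
      have e0 : τ1 x = u := Equiv.swap_apply_left x u
      have e0' : τ1 (σ x) ≠ u := by
        rw [← e0]
        exact fun h => hx (τ1.injective h)
      have e1 : τ x = u := by
        show Equiv.swap (τ1 (σ x)) v (τ1 x) = u
        rw [e0]
        exact Equiv.swap_apply_of_ne_of_ne (Ne.symm e0') huv
      have e2 : τ (σ x) = v := by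
        show Equiv.swap (τ1 (σ x)) v (τ1 (σ x)) = v
        exact Equiv.swap_apply_left _ _
      have e3 : τ⁻¹ u = x := by rw [← e1]; simp
      show τ (σ (τ⁻¹ u)) = v
      rw [e3, e2]
  have horb : MulAction.orbit N (⟨0, hn⟩ : Fin n) = Set.univ := by
    ext v
    simp only [Set.mem_univ, iff_true]
    obtain ⟨m, hm, hmv⟩ := htrans ⟨0, hn⟩ v
    exact ⟨⟨m, hm⟩, hmv⟩
  have := Subgroup.index_dvd_card (MulAction.stabilizer N (⟨0, hn⟩ : Fin n))
  rw [MulAction.index_stabilizer, horb, Set.ncard_univ, Nat.card_fin] at this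
  exact this

theorem result
    (σ : Equiv.Perm (Fin 8)) (hσ : σ.IsThreeCycle) :
    (∀ c : Equiv.Perm (Fin 8), ∃ g : Equiv.Perm (Fin 8), IsConj c g ∧
      ((Subgroup.zpowers σ).subgroupOf (Subgroup.zpowers σ ⊔ MulAut.conj g • Subgroup.zpowers σ)).IsSubnormal) ∧
    Cfsg.pCore 3 (Equiv.Perm (Fin 8)) = ⊥ := by
  constructor
  · intro c
    obtain ⟨g, hg, hcomm⟩ := exists_conj_commute σ hσ c
    exact ⟨g, hg, subnormal_of_commute σ g hcomm⟩
  · rw [Cfsg.pCore, sSup_eq_bot]
    rintro N ⟨hN, hNp⟩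
    by_contra hne
    have h8 := dvd_card_of_normal (by norm_num : 0 < 8) N hN hne
    have : Fact (Nat.Prime 3) := ⟨Nat.prime_three⟩
    obtain ⟨k, hk⟩ := (IsPGroup.iff_card (p := 3)).1 hNp
    rw [hk] at h8
    have h2 : 2 ∣ 3 ^ k := Dvd.dvd.trans (by norm_num) h8
    have := Nat.Prime.dvd_of_dvd_pow Nat.prime_two h2
    omega

end Cfsg.Agent.S4332
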