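import Cfsg.Statements.S4333
import Mathlib
import Cfsg.Agent.S0066

set_option autoImplicit false
open Pointwise
open Cfsg

namespace Cfsg.Agent.S4333

open Cfsg.Agent.Lib.Helper10.SZ Cfsg.Agent.Lib.Helper10.Coprime
open Cfsg.Agent.S0066

theorem wielandt' {G : Type*} [Group G] [Finite G] : ∀ (n : ℕ) (L S : Subgroup G),
    Nat.card L = n → S ≤ L →
    (∀ a ∈ S, ∀ g ∈ L, RSub S (S ⊔ MulAut.conj (g⁻¹ * a * g) • S)) → RSub S L := by
  intro n
  induction n using Nat.strong_induction_on with
  | _ n ih =>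
    intro L S hn hSL hyp
    by_contra hnot
    have hall : ∀ H : Subgroup G, S ≤ H → H < L → RSub S H := by
      intro H hSH hHL
      exact ih (Nat.card H) (by rw [← hn]; exact card_lt_of_lt hHL) H S rfl hSH
        (fun a ha g hg => hyp a ha g (hHL.le hg))
    obtain ⟨M, hSM, hML, hMuniv⟩ := zipper L _ S hSL rfl hall hnot
    have hnorm : ∀ a ∈ S, ∀ g ∈ L, g⁻¹ * a * g ∈ Subgroup.normalizer (M : Set G) := by
      intro a ha g hg
      have hxL : g⁻¹ * a * g ∈ L := L.mul_mem (L.mul_mem (L.inv_mem hg) (hSL ha)) hg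
      have h0 : MulAut.conj (g⁻¹ * a * g) • S ≤ L := by
        have h1 : MulAut.conj (g⁻¹ * a * g) • S ≤ MulAut.conj (g⁻¹ * a * g) • L :=
          Subgroup.pointwise_smul_le_pointwise_smul_iff.mpr hSL
        rwa [conj_smul_eq_of_mem hxL] at h1
      have h1 : S ⊔ MulAut.conj (g⁻¹ * a * g) • S ≤ L := sup_le hSL h0
      have h2 : S ⊔ MulAut.conj (g⁻¹ * a * g) • S < L :=
        lt_of_le_of_ne h1 (fun h => hnot (h ▸ hyp a ha g hg))
      have h3 : MulAut.conj (g⁻¹ * a * g) • S ≤ M := le_sup_right.trans (hMuniv _ le_sup_left h2)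
      have hS' : S ≤ MulAut.conj (g⁻¹ * a * g)⁻¹ • M := by
        have h4 : MulAut.conj (g⁻¹ * a * g)⁻¹ • MulAut.conj (g⁻¹ * a * g) • S ≤
            MulAut.conj (g⁻¹ * a * g)⁻¹ • M :=
          Subgroup.pointwise_smul_le_pointwise_smul_iff.mpr h3
        rwa [← conj_mul_smul, inv_mul_cancel, map_one, one_smul] at h4
      have hcard : Nat.card (MulAut.conj (g⁻¹ * a * g)⁻¹ • M : Subgroup G) = Nat.card M :=
        card_conj_smul _ _
      have hM' : MulAut.conj (g⁻¹ * a * g)⁻¹ • M < L := by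
        have h4 : MulAut.conj (g⁻¹ * a * g)⁻¹ • M ≤ MulAut.conj (g⁻¹ * a * g)⁻¹ • L :=
          Subgroup.pointwise_smul_le_pointwise_smul_iff.mpr hML.le
        rw [conj_smul_eq_of_mem (L.inv_mem hxL)] at h4
        refine lt_of_le_of_ne h4 ?_
        intro h5
        rw [h5] at hcard
        exact (card_lt_of_lt hML).ne hcard.symm
      have h6 : MulAut.conj (g⁻¹ * a * g)⁻¹ • M ≤ M := hMuniv _ hS' hM'
      have h7 : MulAut.conj (g⁻¹ * a * g)⁻¹ • M = M :=
        Subgroup.eq_of_le_of_card_ge h6 (by rw [hcard])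
      have h8 : (g⁻¹ * a * g)⁻¹ ∈ Subgroup.normalizer (M : Set G) :=
        mem_normalizer_iff_conj_smul.mpr h7
      have h9 := Subgroup.inv_mem _ h8
      rwa [inv_inv] at h9
    obtain ⟨Nc, hNc⟩ : ∃ Nc : Subgroup G,
        Nc = Subgroup.closure {g : G | ∃ x ∈ L, ∃ s ∈ S, g = x * s * x⁻¹} := ⟨_, rfl⟩
    have hNcN : Nc ≤ Subgroup.normalizer (M : Set G) ⊓ L := by
      rw [hNc, Subgroup.closure_le]
      rintro g ⟨x, hx, s, hs, rfl⟩
      have h1 := hnorm s hs x⁻¹ (L.inv_mem hx)
      rw [inv_inv] at h1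
      exact Subgroup.mem_inf.2 ⟨h1, L.mul_mem (L.mul_mem hx (hSL hs)) (L.inv_mem hx)⟩
    have hSNc : S ≤ Nc := by
      intro s hs
      rw [hNc]
      apply Subgroup.subset_closure
      exact ⟨1, L.one_mem, s, hs, by simp⟩
    have hLNc : L ≤ Subgroup.normalizer (Nc : Set G) := by
      intro y hy
      apply mem_normalizer_of_conj_mem
      intro s hs
      rw [hNc] at hs ⊢
      induction hs using Subgroup.closure_induction with
      | mem g hg =>
        obtain ⟨x, hx, t, ht, rfl⟩ := hg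
        apply Subgroup.subset_closure
        exact ⟨y * x, L.mul_mem hy hx, t, ht, by group⟩
      | one => simp
      | mul a b _ _ ha hb =>
        have : y * (a * b) * y⁻¹ = (y * a * y⁻¹) * (y * b * y⁻¹) := by group
        rw [this]; exact Subgroup.mul_mem _ ha hb
      | inv a _ ha =>
        have : y * a⁻¹ * y⁻¹ = (y * a * y⁻¹)⁻¹ := by group
        rw [this]; exact Subgroup.inv_mem _ ha
    by_cases hLM : L ≤ Subgroup.normalizer (M : Set G)
    · have h1 : RSub S M := hall M hSM hML
      have h2 : RSub M L := RSub.step M L L hML.le hLM (RSub.refl L)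
      exact hnot (h1.trans h2)
    · have hX : Subgroup.normalizer (M : Set G) ⊓ L < L :=
        lt_of_le_of_ne inf_le_right (fun h => hLM (by rw [← h]; exact inf_le_left))
      have hSX : S ≤ Subgroup.normalizer (M : Set G) ⊓ L :=
        le_inf (hSM.trans Subgroup.le_normalizer) hSL
      have hXM : Subgroup.normalizer (M : Set G) ⊓ L ≤ M := hMuniv _ hSX hX
      have hNcM : Nc ≤ M := hNcN.trans hXM
      have h1 : RSub S Nc := hall Nc hSNc (lt_of_le_of_lt hNcM hML)
      have h2 : RSub Nc L := RSub.step Nc L L (hNcM.trans hML.le) hLNc (RSub.refl L)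
      exact hnot (h1.trans h2)

/-- Let A be a subgroup of a finite group G. If A is subnormal in the subgroup generated by A and its conjugate by g⁻¹ a g, for every a ∈ A and every g ∈ G, then A is subnormal in G. (A sharpening of Wielandt's subnormality criterion: only conjugates of A by conjugates of elements of A are needed.) -/
theorem result {G : Type*} [Group G] [Finite G]
    (A : Subgroup G)
    (h : ∀ a ∈ A, ∀ g : G, (A.subgroupOf (A ⊔ MulAut.conj (g⁻¹ * a * g) • A)).IsSubnormal) :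
    A.IsSubnormal := by
  have h1 : RSub A ⊤ := wielandt' _ ⊤ A rfl le_top
    (fun a ha g _ => rsub_of le_sup_left (h a ha g))
  have h2 := h1.isSubnormal
  exact Subgroup.IsSubnormal.trans le_top h2 Subgroup.IsSubnormal.top

end Cfsg.Agent.S4333
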