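import Cfsg.Statements.S4337
import Mathlib

set_option autoImplicit false
open Cfsg

namespace Cfsg.Agent.S4337

open Equiv

theorem sign_comm4 : ∀ g₁ g₂ : Perm (Fin 4), Perm.sign (g₁ * g₂ * g₁⁻¹ * g₂⁻¹) = 1 := by
  intro g₁ g₂
  rw [map_mul, map_mul, map_mul, map_inv, map_inv, mul_comm (Perm.sign g₁), mul_assoc,
    mul_assoc, mul_inv_cancel_left, mul_inv_cancel]

set_option maxRecDepth 100000 in
theorem v4_step : ∀ g₁ g₂ : Perm (Fin 4), Perm.sign g₁ = 1 → Perm.sign g₂ = 1 →
    ((g₁ * g₂ * g₁⁻¹ * g₂⁻¹) * (g₁ * g₂ * g₁⁻¹ * g₂⁻¹) = 1 ∧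
      ((g₁ * g₂ * g₁⁻¹ * g₂⁻¹) = 1 ∨ ∀ x, (g₁ * g₂ * g₁⁻¹ * g₂⁻¹) x ≠ x)) := by
  decide

set_option maxRecDepth 100000 in
theorem v4_comm : ∀ g₁ g₂ : Perm (Fin 4),
    (g₁ * g₁ = 1 ∧ (g₁ = 1 ∨ ∀ x, g₁ x ≠ x)) → (g₂ * g₂ = 1 ∧ (g₂ = 1 ∨ ∀ x, g₂ x ≠ x)) →
    g₁ * g₂ = g₂ * g₁ := by
  decide

set_option maxRecDepth 100000 in
theorem v4_mul : ∀ g₁ g₂ : Perm (Fin 4),
    (g₁ * g₁ = 1 ∧ (g₁ = 1 ∨ ∀ x, g₁ x ≠ x)) → (g₂ * g₂ = 1 ∧ (g₂ = 1 ∨ ∀ x, g₂ x ≠ x)) →
    ((g₁ * g₂) * (g₁ * g₂) = 1 ∧ ((g₁ * g₂) = 1 ∨ ∀ x, (g₁ * g₂) x ≠ x)) := by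
  decide

set_option maxRecDepth 100000 in
theorem v4_inv : ∀ g₁ : Perm (Fin 4),
    (g₁ * g₁ = 1 ∧ (g₁ = 1 ∨ ∀ x, g₁ x ≠ x)) →
    (g₁⁻¹ * g₁⁻¹ = 1 ∧ (g₁⁻¹ = 1 ∨ ∀ x, g₁⁻¹ x ≠ x)) := by
  decide

def V4 : Subgroup (Perm (Fin 4)) where
  carrier := {σ | σ * σ = 1 ∧ (σ = 1 ∨ ∀ x, σ x ≠ x)}
  mul_mem' := fun {a b} ha hb => v4_mul a b ha hb
  one_mem' := ⟨mul_one 1, Or.inl rfl⟩
  inv_mem' := fun {a} ha => v4_inv a ha

theorem solvable4 : Group.IsSolvable (Perm (Fin 4)) := by
  rw [Group.isSolvable_def]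
  refine ⟨3, ?_⟩
  have h1 : derivedSeries (Perm (Fin 4)) 1 ≤ alternatingGroup (Fin 4) := by
    rw [derivedSeries_succ, derivedSeries_zero, Subgroup.commutator_le]
    intro g₁ _ g₂ _
    rw [Perm.mem_alternatingGroup, commutatorElement_def]
    exact sign_comm4 g₁ g₂
  have h2 : derivedSeries (Perm (Fin 4)) 2 ≤ V4 := by
    rw [derivedSeries_succ]
    refine (Subgroup.commutator_mono h1 h1).trans ?_
    rw [Subgroup.commutator_le]
    intro g₁ hg₁ g₂ hg₂
    exact v4_step g₁ g₂ (Perm.mem_alternatingGroup.1 hg₁) (Perm.mem_alternatingGroup.1 hg₂)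
  rw [derivedSeries_succ, eq_bot_iff]
  refine (Subgroup.commutator_mono h2 h2).trans ?_
  rw [Subgroup.commutator_le]
  intro g₁ hg₁ g₂ hg₂
  rw [Subgroup.mem_bot, commutatorElement_eq_one_iff_mul_comm]
  exact v4_comm g₁ g₂ hg₁ hg₂

theorem solvable_small (α : Type*) [Fintype α] [DecidableEq α] (h : Fintype.card α ≤ 4) :
    Group.IsSolvable (Perm α) := by
  have h' : Fintype.card α ≤ Fintype.card (Fin 4) := by simpa using h
  obtain ⟨ι⟩ := Function.Embedding.nonempty_of_card_le h'
  have := solvable4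
  exact Group.isSolvable_of_isSolvable_injective (Perm.viaEmbeddingHom_injective ι)

theorem solvable_closure_of_support {n : ℕ} (S : Set (Perm (Fin n))) (T : Finset (Fin n))
    (hT : T.card ≤ 4) (hS : ∀ f ∈ S, f.support ⊆ T) :
    Group.IsSolvable (Subgroup.closure S) := by
  have hsol : Group.IsSolvable (Perm {x // x ∈ T}) := solvable_small _ (by simpa using hT)
  have hle : Subgroup.closure S ≤ (Perm.ofSubtype : Perm {x // x ∈ T} →* Perm (Fin n)).range := by
    rw [Subgroup.closure_le]
    intro f hf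
    refine ⟨Perm.subtypePerm f (Perm.isInvariant_of_support_le (hS f hf)), ?_⟩
    apply Perm.ofSubtype_subtypePerm
    intro x hx
    exact hS f hf (Perm.mem_support.2 hx)
  have hr : Group.IsSolvable (Perm.ofSubtype : Perm {x // x ∈ T} →* Perm (Fin n)).range :=
    Group.isSolvable_of_surjective (MonoidHom.rangeRestrict_surjective _)
  exact Group.isSolvable_of_isSolvable_injective (Subgroup.inclusion_injective hle)

theorem solvable_sup_zpowers {G : Type*} [Group G] (K : Subgroup G) (c : G) [Group.IsSolvable K]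
    (hc : ∀ k ∈ K, Commute k c) : Group.IsSolvable (K ⊔ Subgroup.zpowers c : Subgroup G) := by
  have comm : ∀ (m : K) (z : Subgroup.zpowers c),
      Commute (K.subtype m) ((Subgroup.zpowers c).subtype z) := by
    intro m z
    obtain ⟨z, hz⟩ := z
    obtain ⟨k, rfl⟩ := Subgroup.mem_zpowers_iff.1 hz
    exact (hc m.1 m.2).zpow_right k
  let φ : K × Subgroup.zpowers c →* G :=
    MonoidHom.noncommCoprod K.subtype (Subgroup.zpowers c).subtype comm
  have hle : K ⊔ Subgroup.zpowers c ≤ φ.range := by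
    rw [sup_le_iff]
    constructor
    · intro k hk
      exact ⟨(⟨k, hk⟩, 1), by simp [φ]⟩
    · intro z hz
      exact ⟨(1, ⟨z, hz⟩), by simp [φ]⟩
  have hz : Group.IsSolvable (Subgroup.zpowers c) := by
    apply Group.isSolvable_of_comm
    rintro ⟨x, hx⟩ ⟨y, hy⟩
    obtain ⟨i, rfl⟩ := Subgroup.mem_zpowers_iff.1 hx
    obtain ⟨j, rfl⟩ := Subgroup.mem_zpowers_iff.1 hy
    apply Subtype.ext
    exact (zpow_mul_comm c i j)
  have hr : Group.IsSolvable φ.range := Group.isSolvable_of_surjective (MonoidHom.rangeRestrict_surjective _)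
  exact Group.isSolvable_of_isSolvable_injective (Subgroup.inclusion_injective hle)

theorem card_union_of_not_disjoint {α : Type*} [DecidableEq α] (s t : Finset α)
    (h : ¬ Disjoint s t) : (s ∪ t).card + 1 ≤ s.card + t.card := by
  have h1 := Finset.card_union_add_card_inter s t
  have h2 : 0 < (s ∩ t).card := Finset.card_pos.2 (Finset.not_disjoint_iff_nonempty_inter.1 h)
  omega

theorem case_two {n : ℕ} (a b c : Perm (Fin n))
    (ha : a.IsSwap) (hb : b.IsSwap)
    (hca : Disjoint c.support a.support) (hcb : Disjoint c.support b.support) :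
    Group.IsSolvable (Subgroup.closure ({a, b, c} : Set (Perm (Fin n)))) := by
  have ha2 := Perm.card_support_eq_two.2 ha
  have hb2 := Perm.card_support_eq_two.2 hb
  have hK : Group.IsSolvable (Subgroup.closure ({a, b} : Set (Perm (Fin n)))) := by
    apply solvable_closure_of_support _ (a.support ∪ b.support)
    · have := Finset.card_union_le a.support b.support
      omega
    · intro f hf
      rcases hf with rfl | rfl
      · exact Finset.subset_union_left
      · exact Finset.subset_union_right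
  have hcomm : ∀ k ∈ Subgroup.closure ({a, b} : Set (Perm (Fin n))), Commute k c := by
    intro k hk
    have hle : Subgroup.closure ({a, b} : Set (Perm (Fin n))) ≤ Subgroup.centralizer {c} := by
      rw [Subgroup.closure_le]
      intro f hf
      rw [SetLike.mem_coe, Subgroup.mem_centralizer_singleton_iff]
      rcases hf with rfl | rfl
      · exact (Perm.disjoint_iff_disjoint_support.2 hca).commute.eq.symm
      · exact (Perm.disjoint_iff_disjoint_support.2 hcb).commute.eq.symm
    have := hle hk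
    rw [Subgroup.mem_centralizer_singleton_iff] at this
    exact this
  have hsol := solvable_sup_zpowers _ c hcomm
  have hle : Subgroup.closure ({a, b, c} : Set (Perm (Fin n))) ≤
      Subgroup.closure ({a, b} : Set (Perm (Fin n))) ⊔ Subgroup.zpowers c := by
    rw [Subgroup.closure_le]
    intro f hf
    rcases hf with rfl | rfl | rfl
    · exact (le_sup_left : Subgroup.closure ({f, b} : Set (Perm (Fin n))) ≤ _)
        (Subgroup.subset_closure (by simp))
    · exact (le_sup_left : Subgroup.closure ({a, f} : Set (Perm (Fin n))) ≤ _)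
        (Subgroup.subset_closure (by simp))
    · exact (le_sup_right : Subgroup.zpowers f ≤ _) (Subgroup.mem_zpowers f)
  exact Group.isSolvable_of_isSolvable_injective (Subgroup.inclusion_injective hle)

theorem result (n : ℕ) (a b c : Equiv.Perm (Fin n))
    (ha : a.IsSwap) (hb : b.IsSwap) (hc : c.IsSwap) :
    Group.IsSolvable (Subgroup.closure ({a, b, c} : Set (Equiv.Perm (Fin n)))) := by
  have ha2 := Perm.card_support_eq_two.2 ha
  have hb2 := Perm.card_support_eq_two.2 hb
  have hc2 := Perm.card_support_eq_two.2 hc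
  by_cases h1 : Disjoint c.support a.support ∧ Disjoint c.support b.support
  · exact case_two a b c ha hb h1.1 h1.2
  by_cases h2 : Disjoint b.support a.support ∧ Disjoint b.support c.support
  · have := case_two a c b ha hc h2.1 h2.2
    have he : ({a, b, c} : Set (Perm (Fin n))) = {a, c, b} := by
      ext x; simp only [Set.mem_insert_iff, Set.mem_singleton_iff]; tauto
    rw [he]
    exact this
  by_cases h3 : Disjoint a.support b.support ∧ Disjoint a.support c.support
  · have := case_two b c a hb hc h3.1 h3.2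
    have he : ({a, b, c} : Set (Perm (Fin n))) = {b, c, a} := by
      ext x; simp only [Set.mem_insert_iff, Set.mem_singleton_iff]; tauto
    rw [he]
    exact this
  apply solvable_closure_of_support _ (a.support ∪ b.support ∪ c.support)
  · by_cases hab : Disjoint a.support b.support
    · have hac : ¬ Disjoint a.support c.support := fun h => h3 ⟨hab, h⟩
      have hbc : ¬ Disjoint b.support c.support := fun h => h2 ⟨hab.symm, h⟩
      have e1 := card_union_of_not_disjoint _ _ hac
      have hbc' : ¬ Disjoint (a.support ∪ c.support) b.support := by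
        rw [Finset.disjoint_union_left]
        exact fun h => hbc h.2.symm
      have e2 := card_union_of_not_disjoint _ _ hbc'
      have e3 : a.support ∪ b.support ∪ c.support = a.support ∪ c.support ∪ b.support := by
        rw [Finset.union_right_comm]
      rw [e3]
      omega
    · have e1 := card_union_of_not_disjoint _ _ hab
      have hc' : ¬ Disjoint (a.support ∪ b.support) c.support := by
        rw [Finset.disjoint_union_left]
        exact fun h => h1 ⟨h.1.symm, h.2.symm⟩
      have e2 := card_union_of_not_disjoint _ _ hc'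
      omega
  · intro f hf
    rcases hf with rfl | rfl | rfl
    · exact Finset.subset_union_left.trans Finset.subset_union_left
    · exact Finset.subset_union_right.trans Finset.subset_union_left
    · exact Finset.subset_union_right

end Cfsg.Agent.S4337
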