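import Cfsg.Statements.S4342
import Mathlib

set_option autoImplicit false
open Cfsg

namespace Cfsg.Agent.S4342

lemma card_sylow_quot_central {K : Type*} [Group K] [Finite K] (p : ℕ) [Fact p.Prime]
    (Z : Subgroup K) [Z.Normal] (hZ : Z ≤ Subgroup.center K) :
    Nat.card (Sylow p (K ⧸ Z)) = Nat.card (Sylow p K) := by
  have hf : Function.Surjective (QuotientGroup.mk' Z) := QuotientGroup.mk'_surjective Z
  symm
  apply Nat.card_eq_of_bijective (Sylow.mapSurjective hf)
  refine ⟨?_, Sylow.mapSurjective_surjective hf p⟩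
  intro P Q hPQ
  have h1 : (P : Subgroup K).map (QuotientGroup.mk' Z) = (Q : Subgroup K).map (QuotientGroup.mk' Z) := by
    have := congrArg (fun R : Sylow p (K ⧸ Z) => (R : Subgroup (K ⧸ Z))) hPQ
    simpa using this
  have h2 : (P : Subgroup K) ⊔ Z = (Q : Subgroup K) ⊔ Z := by
    have := congrArg (Subgroup.comap (QuotientGroup.mk' Z)) h1
    rwa [Subgroup.comap_map_eq, Subgroup.comap_map_eq, QuotientGroup.ker_mk'] at this
  have hZN : Z ≤ Subgroup.normalizer ((P : Subgroup K) : Set K) := by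
    intro z hz
    rw [Subgroup.mem_normalizer_iff]
    intro y
    have hc : z * y = y * z := ((Subgroup.mem_center_iff.1 (hZ hz)) y).symm
    rw [hc, mul_inv_cancel_right]
  have hQN : (Q : Subgroup K) ≤ Subgroup.normalizer ((P : Subgroup K) : Set K) := by
    calc (Q : Subgroup K) ≤ (Q : Subgroup K) ⊔ Z := le_sup_left
      _ = (P : Subgroup K) ⊔ Z := h2.symm
      _ ≤ Subgroup.normalizer ((P : Subgroup K) : Set K) := sup_le Subgroup.le_normalizer hZN
  have hpg : IsPGroup p ((P : Subgroup K) ⊔ (Q : Subgroup K) : Subgroup K) :=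
    IsPGroup.to_sup_of_normal_left' P.isPGroup' Q.isPGroup' hQN
  have h3 := P.is_maximal' hpg le_sup_left
  have hle : (Q : Subgroup K) ≤ P := by
    rw [← h3]
    exact le_sup_right
  exact (Sylow.ext (Q.is_maximal' P.isPGroup' hle)).symm ▸ rfl

lemma sylow_le_of_normal {G : Type*} [Group G] [Finite G] (p : ℕ) [Fact p.Prime]
    (H : Subgroup G) [H.Normal] (hp : ¬ p ∣ H.index) (P : Sylow p G) : (P : Subgroup G) ≤ H := by
  have hpg : IsPGroup p ((P : Subgroup G).map (QuotientGroup.mk' H)) := P.isPGroup'.map _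
  obtain ⟨k, hk⟩ := IsPGroup.iff_card.1 hpg
  have hdvd : Nat.card ((P : Subgroup G).map (QuotientGroup.mk' H)) ∣ H.index :=
    Subgroup.card_subgroup_dvd_card _
  rw [hk] at hdvd
  have hk0 : k = 0 := by
    by_contra hne
    exact hp (dvd_trans (dvd_pow_self p hne) hdvd)
  rw [hk0, pow_zero] at hk
  have hbot : (P : Subgroup G).map (QuotientGroup.mk' H) = ⊥ := Subgroup.card_eq_one.1 hk
  rw [Subgroup.map_eq_bot_iff, QuotientGroup.ker_mk'] at hbot
  exact hbot

lemma card_sylow_normal {G : Type*} [Group G] [Finite G] (p : ℕ) [Fact p.Prime]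
    (H : Subgroup G) [H.Normal] (hp : ¬ p ∣ H.index) :
    Nat.card (Sylow p H) = Nat.card (Sylow p G) := by
  symm
  apply Nat.card_eq_of_bijective (fun P : Sylow p G => P.subtype (sylow_le_of_normal p H hp P))
  constructor
  · intro P Q hPQ
    exact Sylow.subtype_injective hPQ
  · intro Q
    obtain ⟨P, hP⟩ := Q.exists_comap_subtype_eq
    refine ⟨P, ?_⟩
    apply Sylow.ext
    rw [← hP]
    rfl

theorem result {G : Type*} [Group G] [Finite G]
    (p : ℕ) [Fact p.Prime] (H : Subgroup G) [H.Normal] (hp : ¬ p ∣ H.index) :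
    Nat.card (Sylow p (H ⧸ Subgroup.center H)) = Nat.card (Sylow p G) := by
  rw [card_sylow_quot_central p (Subgroup.center H) le_rfl, card_sylow_normal p H hp]

end Cfsg.Agent.S4342
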