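import Cfsg.Statements.S4343
import Mathlib
import Cfsg.Agent.Lib.Helper23.SylowSmall

set_option autoImplicit false
open Cfsg

namespace Cfsg.Agent.S4343

open Cfsg.Agent.Lib.Helper23.SylowSmall

theorem sylow_ne_top {S : Type*} [Group S] [Finite S]
    [IsSimpleGroup S] (hS : ¬ IsMulCommutative S) (p : ℕ) [Fact p.Prime] (P : Sylow p S) :
    (P : Subgroup S) ≠ ⊤ := by
  intro htop
  apply hS
  have hpg : IsPGroup p S := by
    intro g
    obtain ⟨k, hk⟩ := P.isPGroup' ⟨g, by rw [htop]; trivial⟩
    exact ⟨k, by simpa [Subtype.ext_iff] using hk⟩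
  have hnt : Nontrivial (Subgroup.center S) := hpg.center_nontrivial
  have hc : Subgroup.center S = ⊤ := by
    rcases (inferInstance : (Subgroup.center S).Normal).eq_bot_or_eq_top with h | h
    · exfalso
      rw [Subgroup.nontrivial_iff_ne_bot] at hnt
      exact hnt h
    · exact h
  refine ⟨⟨fun a b => ?_⟩⟩
  have ha : a ∈ Subgroup.center S := by rw [hc]; trivial
  exact (Subgroup.mem_center_iff.1 ha b).symm

theorem result {S : Type*} [Group S] [Finite S]
    [IsSimpleGroup S] (hS : ¬ IsMulCommutative S) (p : ℕ) [Fact p.Prime] (hp : p ∣ Nat.card S)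
    (hn : Nat.card (Sylow p S) < p ^ 2) (P : Sylow p S) : Nat.card P = p := by
  have hPtop := sylow_ne_top hS p P
  have hPbot : (P : Subgroup S) ≠ ⊥ := P.ne_bot_of_dvd_card hp
  obtain ⟨Q, hQ⟩ : ∃ Q : Sylow p S, P ≠ Q := by
    by_contra hcon
    push Not at hcon
    have hsub : Subsingleton (Sylow p S) := ⟨fun A B => (hcon A).symm.trans (hcon B)⟩
    have hnorm : (P : Subgroup S).Normal := Sylow.normal_of_subsingleton P
    rcases hnorm.eq_bot_or_eq_top with h | h
    · exact hPbot h
    · exact hPtop h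
  have h1 := card_eq_mul_card_inf hn P Q hQ
  have hD : (P : Subgroup S) ⊓ Q ≤ (P : Subgroup S).normalCore := by
    intro a ha b
    have h2 := inf_le_sylow hn P Q hQ (b⁻¹ • P) ha
    rw [Sylow.coe_subgroup_smul, Subgroup.mem_pointwise_smul_iff_inv_smul_mem] at h2
    simpa using h2
  have hcore : (P : Subgroup S).normalCore = ⊥ := by
    rcases (inferInstance : (P : Subgroup S).normalCore.Normal).eq_bot_or_eq_top with h | h
    · exact h
    · exfalso
      apply hPtop
      rw [eq_top_iff, ← h]
      exact Subgroup.normalCore_le _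
  rw [hcore, le_bot_iff] at hD
  rw [hD, Subgroup.card_bot, mul_one] at h1
  exact h1

end Cfsg.Agent.S4343
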