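import Cfsg.Statements.S4344
import Mathlib

set_option autoImplicit false
open Cfsg

namespace Cfsg.Agent.S4344

open scoped Pointwise

theorem result {S : Type*} [Group S] [Finite S]
    [IsSimpleGroup S] (hS : ¬ IsMulCommutative S) (p : ℕ) [Fact p.Prime] (hp : p ∣ Nat.card S)
    (M : Subgroup S) (hM : IsCoatom M) (C : Subgroup S) (hCM : C ≤ M) (hCn : (C.subgroupOf M).Normal)
    (hC : IsCyclic C) (P : Sylow p S) (hP : (P : Subgroup S) ≤ C) :
    Nat.card (Sylow p S) = M.index := by
  have hCcomm : ∀ a ∈ C, ∀ b ∈ C, a * b = b * a := by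
    intro a ha b hb
    exact setLike_mul_comm (s := C) ha hb
  have hconjC : ∀ m ∈ M, ∀ c ∈ C, m * c * m⁻¹ ∈ C := by
    intro m hm c hc
    have h := hCn.conj_mem ⟨c, hCM hc⟩ (by simpa [Subgroup.mem_subgroupOf] using hc) ⟨m, hm⟩
    simpa [Subgroup.mem_subgroupOf] using h
  have hMN : M ≤ Subgroup.normalizer (P : Set S) := by
    intro m hm
    rw [← Sylow.smul_eq_iff_mem_normalizer]
    have hQC : ((m • P : Sylow p S) : Subgroup S) ≤ C := by
      intro q hq
      change q ∈ (MulAut.conj m • (P : Subgroup S)) at hq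
      rw [Subgroup.mem_pointwise_smul_iff_inv_smul_mem] at hq
      have h1 : m⁻¹ * q * m ∈ C := hP (by simpa [MulAut.smul_def] using hq)
      have h2 := hconjC m hm _ h1
      simpa [mul_assoc] using h2
    have hQN : ((m • P : Sylow p S) : Subgroup S) ≤ Subgroup.normalizer (P : Set S) := by
      intro q hq
      change q ∈ Subgroup.normalizer ((P : Subgroup S) : Set S)
      rw [Subgroup.mem_normalizer_iff]
      intro y
      constructor
      · intro hy
        have : q * y * q⁻¹ = y := by
          rw [hCcomm q (hQC hq) y (hP hy), mul_inv_cancel_right]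
        rw [this]
        exact hy
      · intro hy
        have hy' : q * y * q⁻¹ ∈ C := hP hy
        have hyC : y ∈ C := by
          have := C.mul_mem (C.mul_mem (C.inv_mem (hQC hq)) hy') (hQC hq)
          simpa [mul_assoc] using this
        have : q * y * q⁻¹ = y := by
          rw [hCcomm q (hQC hq) y hyC, mul_inv_cancel_right]
        rw [this] at hy
        exact hy
    have hpg : IsPGroup p (((m • P : Sylow p S) : Subgroup S) ⊔ (P : Subgroup S) : Subgroup S) :=
      IsPGroup.to_sup_of_normal_right' (m • P : Sylow p S).isPGroup' P.isPGroup' hQN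
    have h1 := P.is_maximal' hpg le_sup_right
    have hle : ((m • P : Sylow p S) : Subgroup S) ≤ P := by
      rw [← h1]
      exact le_sup_left
    have h2 := (m • P : Sylow p S).is_maximal' P.isPGroup' hle
    exact Sylow.ext h2.symm
  have hNtop : Subgroup.normalizer (P : Set S) ≠ ⊤ := by
    intro htop
    have hnormal : (P : Subgroup S).Normal := by
      rw [← Subgroup.normalizer_eq_top_iff]
      exact htop
    rcases hnormal.eq_bot_or_eq_top with hbot | htop'
    · exact P.ne_bot_of_dvd_card hp hbot
    · apply hS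
      have hCtop : C = ⊤ := top_le_iff.1 (htop' ▸ hP)
      refine ⟨⟨fun a b => hCcomm a (hCtop ▸ Subgroup.mem_top a) b (hCtop ▸ Subgroup.mem_top b)⟩⟩
  have hMeq : M = Subgroup.normalizer (P : Set S) := by
    rcases eq_or_lt_of_le hMN with h | h
    · exact h
    · exact absurd (hM.2 _ h) hNtop
  rw [P.card_eq_index_normalizer, ← hMeq]

end Cfsg.Agent.S4344
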