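import Cfsg.Statements.S4345
import Mathlib
import Cfsg.Agent.Lib.Lead.Hall

set_option autoImplicit false
open Cfsg

namespace Cfsg.Agent.S4345

open Cfsg.Agent.Lib.Lead.Hall

theorem card_sup_dvd_of_normal {N : Type*} [Group N] [Finite N] (A B : Subgroup N) [A.Normal] :
    Nat.card (A ⊔ B : Subgroup N) ∣ Nat.card A * Nat.card B := by
  have h1 := Subgroup.relIndex_mul_relIndex ⊥ A (A ⊔ B) bot_le le_sup_left
  rw [Subgroup.relIndex_bot_left, Subgroup.relIndex_bot_left, Subgroup.relIndex_sup_left] at h1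
  rw [← h1]
  exact Nat.mul_dvd_mul_left _ (Subgroup.relIndex_dvd_card A B)

theorem result {G : Type*} [Group G] [Finite G]
    (hG : Group.IsSolvable G) (p ℓ : ℕ) [Fact p.Prime] (hℓ : ℓ.Prime) :
    ℓ ^ (Nat.card (Sylow p G)).factorization ℓ ≡ 1 [MOD p] := by
  have hp : p.Prime := Fact.out
  by_cases hpl : ℓ = p
  · subst hpl
    rw [Nat.factorization_eq_zero_of_not_dvd (not_dvd_card_sylow ℓ G), pow_zero]
  have : Fact ℓ.Prime := ⟨hℓ⟩
  obtain ⟨P⟩ : Nonempty (Sylow p G) := inferInstance
  set N : Subgroup G := Subgroup.normalizer ((P : Subgroup G) : Set G) with hN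
  have hPN : (P : Subgroup G) ≤ N := Subgroup.le_normalizer
  obtain ⟨L'⟩ : Nonempty (Sylow ℓ N) := inferInstance
  have hPnorm : ((P : Subgroup G).subgroupOf N).Normal := Subgroup.normal_in_normalizer
  set a := (Nat.card G).factorization p with ha
  set b := (Nat.card G).factorization ℓ with hb
  set c := (Nat.card N).factorization ℓ with hc
  have hcardP : Nat.card (P : Subgroup G) = p ^ a := P.card_eq_multiplicity
  have hcardL' : Nat.card (L' : Subgroup N) = ℓ ^ c := L'.card_eq_multiplicity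
  have hGpos : Nat.card G ≠ 0 := Nat.card_pos.ne'
  have hNpos : Nat.card N ≠ 0 := Nat.card_pos.ne'
  have hcb : c ≤ b := by
    have h1 : Nat.card N ∣ Nat.card G := Subgroup.card_subgroup_dvd_card N
    exact (Nat.factorization_le_iff_dvd hNpos hGpos).2 h1 ℓ
  set K : Subgroup G := (((P : Subgroup G).subgroupOf N) ⊔ (L' : Subgroup N)).map N.subtype with hK
  have hKcard : Nat.card K ∣ p ^ a * ℓ ^ c := by
    rw [hK, Subgroup.card_map_of_injective N.subtype_injective]
    have h1 := card_sup_dvd_of_normal ((P : Subgroup G).subgroupOf N) (L' : Subgroup N)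
    have h2 : Nat.card ((P : Subgroup G).subgroupOf N) = p ^ a := by
      rw [← hcardP]
      exact Nat.card_congr (Subgroup.subgroupOfEquivOfLe hPN).toEquiv
    rwa [h2, hcardL'] at h1
  have hPK : (P : Subgroup G) ≤ K := by
    intro x hx
    exact ⟨⟨x, hPN hx⟩, Subgroup.mem_sup_left (Subgroup.mem_subgroupOf.2 hx), rfl⟩
  have hLK : (L' : Subgroup N).map N.subtype ≤ K := Subgroup.map_mono le_sup_right
  have hKN : K ≤ N := by
    rintro x ⟨y, -, rfl⟩
    exact y.2
  set m := p ^ a * ℓ ^ b with hm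
  have hcop_pl : Nat.Coprime (p ^ a) (ℓ ^ b) :=
    Nat.Coprime.pow _ _ ((Nat.coprime_primes hp hℓ).2 (Ne.symm hpl))
  have hmdvd : m ∣ Nat.card G :=
    Nat.Coprime.mul_dvd_of_dvd_of_dvd hcop_pl (Nat.ordProj_dvd _ _) (Nat.ordProj_dvd _ _)
  obtain ⟨n, hn⟩ := hmdvd
  have hmn : m.Coprime n := by
    have hn0 : n ≠ 0 := by
      rintro rfl
      rw [mul_zero] at hn
      exact hGpos hn
    rw [hm]
    apply Nat.Coprime.mul_left
    · apply Nat.Coprime.pow_left
      rw [Nat.Prime.coprime_iff_not_dvd hp]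
      intro hd
      have h1 : p ^ (a + 1) ∣ Nat.card G := by
        rw [hn, hm, pow_succ]
        obtain ⟨k, hk⟩ := hd
        exact ⟨ℓ ^ b * k, by rw [hk]; ring⟩
      exact Nat.pow_succ_factorization_not_dvd hGpos hp h1
    · apply Nat.Coprime.pow_left
      rw [Nat.Prime.coprime_iff_not_dvd hℓ]
      intro hd
      have h1 : ℓ ^ (b + 1) ∣ Nat.card G := by
        rw [hn, hm, pow_succ]
        obtain ⟨k, hk⟩ := hd
        exact ⟨p ^ a * k, by rw [hk]; ring⟩
      exact Nat.pow_succ_factorization_not_dvd hGpos hℓ h1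
  have hKm : Nat.card K ∣ m := by
    apply dvd_trans hKcard
    exact Nat.mul_dvd_mul_left _ (Nat.pow_dvd_pow ℓ hcb)
  have hKcop : (Nat.card K).Coprime n := Nat.Coprime.coprime_dvd_left hKm hmn
  obtain ⟨H, hHcard, hKH⟩ := hall_le m n hn hmn K hKcop
  have hPH : (P : Subgroup G) ≤ H := hPK.trans hKH
  have h1 : Nat.card (Sylow p H) ≡ 1 [MOD p] := card_sylow_modEq_one p H
  have h2 : Nat.card (Sylow p H) = N.relIndex H := by
    rw [Sylow.card_eq_index_normalizer (P.subtype hPH)]
    have h5 : ((P.subtype hPH : Sylow p H) : Subgroup H) = (P : Subgroup G).subgroupOf H :=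
      Sylow.coe_subtype P hPH
    change (Subgroup.normalizer (((P.subtype hPH : Sylow p H) : Subgroup H) : Set H)).index = _
    rw [h5, ← Subgroup.subgroupOf_normalizer_eq hPH]
    rfl
  rw [h2] at h1
  have h3 : N.relIndex H = (N ⊓ H).relIndex H := (Subgroup.inf_relIndex_right N H).symm
  have h4 : Nat.card (N ⊓ H : Subgroup G) * (N ⊓ H).relIndex H = Nat.card H := by
    have := Subgroup.relIndex_mul_relIndex ⊥ (N ⊓ H) H bot_le inf_le_right
    rwa [Subgroup.relIndex_bot_left, Subgroup.relIndex_bot_left] at this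
  have hNHpos : Nat.card (N ⊓ H : Subgroup G) ≠ 0 := Nat.card_pos.ne'
  have hvl : (Nat.card (N ⊓ H : Subgroup G)).factorization ℓ = c := by
    apply le_antisymm
    · have : Nat.card (N ⊓ H : Subgroup G) ∣ Nat.card N := Subgroup.card_dvd_of_le inf_le_left
      exact (Nat.factorization_le_iff_dvd hNHpos hNpos).2 this ℓ
    · have h5 : (L' : Subgroup N).map N.subtype ≤ N ⊓ H := le_inf (hLK.trans hKN) (hLK.trans hKH)
      have h6 : ℓ ^ c ∣ Nat.card (N ⊓ H : Subgroup G) := by
        rw [← hcardL', ← Subgroup.card_map_of_injective N.subtype_injective]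
        exact Subgroup.card_dvd_of_le h5
      exact (hℓ.pow_dvd_iff_le_factorization hNHpos).1 h6
  have hrelpos : (N ⊓ H).relIndex H ≠ 0 := by
    intro h0
    rw [h0, mul_zero] at h4
    exact Nat.card_pos.ne' h4.symm
  have hrel_pow : ∃ j, (N ⊓ H).relIndex H = ℓ ^ j := by
    have h5 : (P : Subgroup G) ≤ N ⊓ H := le_inf hPN hPH
    have h6 : (N ⊓ H).relIndex H ∣ (P : Subgroup G).relIndex H := Subgroup.relIndex_dvd_of_le_left H h5
    have h7 : Nat.card (P : Subgroup G) * (P : Subgroup G).relIndex H = Nat.card H := by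
      have := Subgroup.relIndex_mul_relIndex ⊥ (P : Subgroup G) H bot_le hPH
      rwa [Subgroup.relIndex_bot_left, Subgroup.relIndex_bot_left] at this
    rw [hcardP, hHcard, hm] at h7
    have h8 : (P : Subgroup G).relIndex H = ℓ ^ b :=
      Nat.eq_of_mul_eq_mul_left (pow_pos hp.pos a) h7
    rw [h8] at h6
    obtain ⟨j, -, hj⟩ := (Nat.dvd_prime_pow hℓ).1 h6
    exact ⟨j, hj⟩
  obtain ⟨j, hj⟩ := hrel_pow
  have hj2 : c + j = b := by
    have h5 : (Nat.card (N ⊓ H : Subgroup G) * (N ⊓ H).relIndex H).factorization ℓ =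
        (Nat.card H).factorization ℓ := by rw [h4]
    rw [Nat.factorization_mul hNHpos hrelpos, hHcard, hm, Finsupp.add_apply, hvl, hj,
      Nat.factorization_mul (pow_pos hp.pos a).ne' (pow_pos hℓ.pos b).ne', Finsupp.add_apply,
      Nat.Prime.factorization_pow hℓ, Nat.Prime.factorization_pow hℓ,
      Nat.Prime.factorization_pow hp] at h5
    simp only [Finsupp.single_apply, if_true] at h5
    rw [if_neg (Ne.symm hpl)] at h5
    omega
  have hidx : (Nat.card (Sylow p G)).factorization ℓ = j := by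
    rw [Sylow.card_eq_index_normalizer P]
    change (N.index).factorization ℓ = j
    have h5 := Subgroup.card_mul_index N
    have hidxpos : N.index ≠ 0 := Subgroup.index_ne_zero_of_finite
    have h6 : (Nat.card N * N.index).factorization ℓ = (Nat.card G).factorization ℓ := by rw [h5]
    rw [Nat.factorization_mul hNpos hidxpos, Finsupp.add_apply] at h6
    omega
  rw [hidx, ← hj, ← h3]
  exact h1

end Cfsg.Agent.S4345
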