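import Cfsg.Statements.S4355
import Cfsg.Agent.Lib.Helper29.CamHer
-- import your own Cfsg.Agent.* helpers here

set_option autoImplicit false
open Cfsg

namespace Cfsg.Agent.S4355

/-- If every element of 2-power order of a finite group has a conjugacy class of odd size, then the Sylow 2-subgroups of the group are abelian. -/
theorem result {G : Type*} [Group G] [Finite G]
    (h : ∀ x : G, (∃ k : ℕ, orderOf x = 2 ^ k) → ¬ 2 ∣ (Subgroup.centralizer ({x} : Set G)).index) (P : Sylow 2 G) :
    IsMulCommutative P := by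
  haveI : Fact (Nat.Prime 2) := ⟨Nat.prime_two⟩
  have hH : Cfsg.Agent.Lib.Helper29.CamHer.Hyp G := by
    intro x hx
    have hodd := h x hx
    obtain ⟨Q₀⟩ : Nonempty (Sylow 2 (Subgroup.centralizer ({x} : Set G))) := inferInstance
    have hP1 : IsPGroup 2 ((Q₀ : Subgroup (Subgroup.centralizer ({x} : Set G))).map
        (Subgroup.centralizer ({x} : Set G)).subtype) := Q₀.2.map _
    have hP2 : ¬ 2 ∣ ((Q₀ : Subgroup (Subgroup.centralizer ({x} : Set G))).map
        (Subgroup.centralizer ({x} : Set G)).subtype).index := by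
      rw [Subgroup.index_map_subtype]
      exact Nat.Prime.not_dvd_mul Nat.prime_two Q₀.not_dvd_index hodd
    refine ⟨hP1.toSylow hP2, ?_⟩
    rw [IsPGroup.toSylow_coe]
    exact Subgroup.map_subtype_le _
  exact ⟨⟨fun a b => Subtype.ext (Cfsg.Agent.Lib.Helper29.CamHer.main hH P a.1 a.2 b.1 b.2)⟩⟩

end Cfsg.Agent.S4355
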