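import Cfsg.Statements.S4365
import Mathlib

set_option autoImplicit false
open Cfsg

namespace Cfsg.Agent.S4365

theorem conj_count {Q : Type*} [Group Q] [Finite Q] (K : Subgroup Q) (y : Q) (hy : y ≠ 1)
    (hK : ∀ g : Q, g * y * g⁻¹ ∈ K) (hC : Subgroup.centralizer ({y} : Set Q) ≤ K) :
    K.index < Nat.card K := by
  have h1 : (Subgroup.centralizer ({y} : Set Q)).index =
      (MulAction.stabilizer (ConjAct Q) y).index := by
    rw [Subgroup.centralizer_eq_comap_stabilizer]
    exact Subgroup.index_comap_of_surjective _ (ConjAct.toConjAct (G := Q)).surjective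
  have h2 : (MulAction.stabilizer (ConjAct Q) y).index = (MulAction.orbit (ConjAct Q) y).ncard :=
    MulAction.index_stabilizer _ _
  have h3 : MulAction.orbit (ConjAct Q) y ⊆ ((K : Set Q) \ {1}) := by
    intro h hh
    rw [ConjAct.mem_orbit_conjAct, isConj_iff] at hh
    obtain ⟨c, hc⟩ := hh
    have h4 : h = c⁻¹ * y * c⁻¹⁻¹ := by rw [← hc]; group
    refine ⟨?_, ?_⟩
    · rw [h4]; exact hK c⁻¹
    · intro h5
      rw [Set.mem_singleton_iff] at h5
      apply hy
      rw [← hc, h5]; group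
  have h4 : (MulAction.orbit (ConjAct Q) y).ncard ≤ ((K : Set Q) \ {1}).ncard :=
    Set.ncard_le_ncard h3 (Set.toFinite _)
  have h5 : ((K : Set Q) \ {1}).ncard = Nat.card K - 1 := by
    rw [Set.ncard_sdiff_singleton_of_mem (Subgroup.one_mem K)]
    rfl
  have h6 : K.index ≤ (Subgroup.centralizer ({y} : Set Q)).index :=
    Nat.le_of_dvd (Nat.pos_of_ne_zero Subgroup.index_ne_zero_of_finite) (Subgroup.index_dvd_of_le hC)
  have h7 : 0 < Nat.card K := Nat.card_pos
  omega

variable {P : Type*} [Group P]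

theorem cent_index_one_iff (u : P) :
    (Subgroup.centralizer ({u} : Set P)).index = 1 ↔ u ∈ Subgroup.center P := by
  rw [Subgroup.index_eq_one, Subgroup.centralizer_eq_top_iff_subset, Set.singleton_subset_iff]
  rfl

theorem mem_cent (u g : P) : g ∈ Subgroup.centralizer ({u} : Set P) ↔ u * g = g * u := by
  rw [Subgroup.mem_centralizer_iff]
  simp

theorem cent_eq [Finite P] (p a : ℕ)
    (hidx : ∀ u : P, u ∉ Subgroup.center P → (Subgroup.centralizer ({u} : Set P)).index = p ^ a)
    (u v : P) (hu : u ∉ Subgroup.center P) (hv : v ∉ Subgroup.center P)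
    (h : Subgroup.centralizer ({u} : Set P) ≤ Subgroup.centralizer ({v} : Set P)) :
    Subgroup.centralizer ({u} : Set P) = Subgroup.centralizer ({v} : Set P) := by
  apply Subgroup.eq_of_le_of_card_ge h
  have h1 := Subgroup.card_mul_index (Subgroup.centralizer ({u} : Set P))
  have h2 := Subgroup.card_mul_index (Subgroup.centralizer ({v} : Set P))
  rw [hidx u hu] at h1
  rw [hidx v hv] at h2
  have h3 : 0 < (Subgroup.centralizer ({v} : Set P)).index :=
    Nat.pos_of_ne_zero Subgroup.index_ne_zero_of_finite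
  rw [hidx v hv] at h3
  have h4 : Nat.card (Subgroup.centralizer ({v} : Set P)) * p ^ a =
      Nat.card (Subgroup.centralizer ({u} : Set P)) * p ^ a := by rw [h1, h2]
  exact (Nat.eq_of_mul_eq_mul_right h3 h4).le

theorem cent_mul_central (y ζ : P) (hζ : ζ ∈ Subgroup.center P) :
    Subgroup.centralizer ({y * ζ} : Set P) = Subgroup.centralizer ({y} : Set P) := by
  ext g
  rw [mem_cent, mem_cent]
  have h1 : g * ζ = ζ * g := Subgroup.mem_center_iff.1 hζ g
  constructor
  · intro h
    have : y * g * ζ = g * y * ζ := by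
      calc y * g * ζ = y * ζ * g := by rw [mul_assoc, h1, mul_assoc]
        _ = g * (y * ζ) := h
        _ = g * y * ζ := by rw [mul_assoc]
    exact mul_right_cancel this
  · intro h
    calc y * ζ * g = y * g * ζ := by rw [mul_assoc, ← h1, mul_assoc]
      _ = g * y * ζ := by rw [h]
      _ = g * (y * ζ) := by rw [mul_assoc]

theorem key [Finite P] (p a : ℕ)
    (hidx : ∀ u : P, u ∉ Subgroup.center P → (Subgroup.centralizer ({u} : Set P)).index = p ^ a)
    (g w : P) (hw : w ^ p ∈ Subgroup.center P)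
    (hc : (g : P ⧸ Subgroup.center P) * (w : P ⧸ Subgroup.center P) = (w : P ⧸ Subgroup.center P) * g)
    (hg : g ^ p ∉ Subgroup.center P) :
    Subgroup.centralizer ({g} : Set P) ≤ Subgroup.centralizer ({w} : Set P) := by
  have hg1 : g ∉ Subgroup.center P := fun h => hg (Subgroup.pow_mem _ h p)
  have h1 : Subgroup.centralizer ({g} : Set P) = Subgroup.centralizer ({g ^ p} : Set P) := by
    apply cent_eq p a hidx g (g ^ p) hg1 hg
    intro h hh
    rw [mem_cent] at hh ⊢
    exact (Commute.pow_left (show Commute g h from hh) p).eq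
  have hζ : (g ^ p)⁻¹ * (g * w) ^ p ∈ Subgroup.center P := by
    rw [← QuotientGroup.eq]
    have h2 : ((g * w : P) : P ⧸ Subgroup.center P) ^ p =
        (g : P ⧸ Subgroup.center P) ^ p * (w : P ⧸ Subgroup.center P) ^ p := by
      rw [QuotientGroup.mk_mul]
      exact (show Commute (g : P ⧸ Subgroup.center P) (w : P ⧸ Subgroup.center P) from hc).mul_pow p
    have h3 : (w : P ⧸ Subgroup.center P) ^ p = 1 := by
      rw [← QuotientGroup.mk_pow]
      exact (QuotientGroup.eq_one_iff _).2 hw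
    rw [QuotientGroup.mk_pow, QuotientGroup.mk_pow, h2, h3, mul_one]
  have h4 : (g * w) ^ p = g ^ p * ((g ^ p)⁻¹ * (g * w) ^ p) := by group
  have h5 : (g * w) ^ p ∉ Subgroup.center P := by
    intro h
    apply hg
    have : g ^ p = (g * w) ^ p * ((g ^ p)⁻¹ * (g * w) ^ p)⁻¹ := by group
    rw [this]
    exact Subgroup.mul_mem _ h (Subgroup.inv_mem _ hζ)
  have h6 : g * w ∉ Subgroup.center P := fun h => h5 (Subgroup.pow_mem _ h p)
  have h7 : Subgroup.centralizer ({g * w} : Set P) ≤ Subgroup.centralizer ({g} : Set P) := by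
    rw [h1, ← cent_mul_central (g ^ p) _ hζ, ← h4]
    intro h hh
    rw [mem_cent] at hh ⊢
    exact (Commute.pow_left (show Commute (g * w) h from hh) p).eq
  have h8 := cent_eq p a hidx (g * w) g h6 hg1 h7
  intro h hh
  have hh2 : h ∈ Subgroup.centralizer ({g * w} : Set P) := by rw [h8]; exact hh
  rw [mem_cent] at hh hh2 ⊢
  have : g * (w * h) = g * (h * w) := by
    calc g * (w * h) = g * w * h := by rw [mul_assoc]
      _ = h * (g * w) := hh2
      _ = h * g * w := by rw [mul_assoc]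
      _ = g * h * w := by rw [hh]
      _ = g * (h * w) := by rw [mul_assoc]
  exact mul_left_cancel this

theorem result {P : Type*} [Group P] [Finite P] (p : ℕ) [Fact p.Prime]
    (hP : IsPGroup p P) (a : ℕ) (ha : 1 ≤ a)
    (hcs : {k : ℕ | ∃ x : P, (Subgroup.centralizer ({x} : Set P)).index = k} = {1, p ^ a}) (x : P) :
    x ^ p ∈ Subgroup.center P := by
  have hp : p.Prime := Fact.out
  have hidx : ∀ u : P, u ∉ Subgroup.center P → (Subgroup.centralizer ({u} : Set P)).index = p ^ a := by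
    intro u hu
    have h1 : (Subgroup.centralizer ({u} : Set P)).index ∈
        {k : ℕ | ∃ x : P, (Subgroup.centralizer ({x} : Set P)).index = k} := ⟨u, rfl⟩
    rw [hcs] at h1
    rcases h1 with h1 | h1
    · exact absurd ((cent_index_one_iff u).1 h1) hu
    · exact h1
  by_contra hxp
  have hx : x ∉ Subgroup.center P := fun h => hxp (Subgroup.pow_mem _ h p)
  set Z := Subgroup.center P with hZ
  set C := Subgroup.centralizer ({x} : Set P) with hCdef
  have stepA : ∀ w : P, w ^ p ∈ Z → (x : P ⧸ Z) * (w : P ⧸ Z) = (w : P ⧸ Z) * x →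
      C ≤ Subgroup.centralizer ({w} : Set P) := fun w hw hc => key p a hidx x w hw hc hxp
  obtain ⟨w0, m, hw0, hw0Z, hw0p⟩ : ∃ w0 : P, ∃ m : ℕ, w0 = x ^ m ∧ w0 ∉ Z ∧ w0 ^ p ∈ Z := by
    have hex : ∃ n : ℕ, x ^ (p ^ n) ∈ Z := by
      obtain ⟨k, hk⟩ := hP x
      exact ⟨k, by rw [hk]; exact Subgroup.one_mem _⟩
    classical
    have hn0 : Nat.find hex ≠ 0 := by
      intro h0
      have := Nat.find_spec hex
      rw [h0, pow_zero, pow_one] at this
      exact hx this
    obtain ⟨m, hm⟩ := Nat.exists_eq_succ_of_ne_zero hn0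
    refine ⟨x ^ (p ^ m), p ^ m, rfl, ?_, ?_⟩
    · exact Nat.find_min hex (by omega)
    · have := Nat.find_spec hex
      rw [hm, pow_succ, pow_mul] at this
      exact this
  have hCw0 : Subgroup.centralizer ({w0} : Set P) = C := by
    symm
    apply cent_eq p a hidx x w0 hx hw0Z
    intro h hh
    rw [mem_cent] at hh ⊢
    rw [hw0]
    exact (Commute.pow_left (show Commute x h from hh) m).eq
  have stepB : ∀ g : P, (x : P ⧸ Z) * (g : P ⧸ Z) = (g : P ⧸ Z) * x →
      C ≤ Subgroup.centralizer ({g} : Set P) := by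
    intro g hc
    by_cases hgp : g ^ p ∈ Z
    · exact stepA g hgp hc
    · have hg1 : g ∉ Z := fun h => hgp (Subgroup.pow_mem _ h p)
      have hc2 : (g : P ⧸ Z) * (w0 : P ⧸ Z) = (w0 : P ⧸ Z) * g := by
        rw [hw0, QuotientGroup.mk_pow]
        exact ((show Commute (x : P ⧸ Z) (g : P ⧸ Z) from hc).pow_left m).eq.symm
      have h1 := key p a hidx g w0 hw0p hc2 hgp
      have h2 := cent_eq p a hidx g w0 hg1 hw0Z h1
      rw [h2, hCw0]
  have stepB' : ∀ g : P, (x : P ⧸ Z) * (g : P ⧸ Z) = (g : P ⧸ Z) * x → g ∈ C := by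
    intro g hc
    have h1 := stepB g hc
    have h2 : x ∈ C := by rw [hCdef, mem_cent]
    have h3 := h1 h2
    rw [mem_cent] at h3
    rw [hCdef, mem_cent]
    exact h3.symm
  have hxbar : (x : P ⧸ Z) ≠ 1 := by
    intro h
    exact hx ((QuotientGroup.eq_one_iff _).1 h)
  have hnt : Nontrivial (P ⧸ Z) := ⟨⟨(x : P ⧸ Z), 1, hxbar⟩⟩
  have hQp : IsPGroup p (P ⧸ Z) := hP.to_quotient Z
  obtain ⟨z, hzZ, hzp, hzc⟩ : ∃ z : P, z ∉ Z ∧ z ^ p ∈ Z ∧
      ∀ h : P, (z : P ⧸ Z) * (h : P ⧸ Z) = (h : P ⧸ Z) * z := by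
    have hcn : Nontrivial (Subgroup.center (P ⧸ Z)) := hQp.center_nontrivial
    have hcp : IsPGroup p (Subgroup.center (P ⧸ Z)) := hQp.to_subgroup _
    have hdvd : p ∣ Nat.card (Subgroup.center (P ⧸ Z)) := by
      rcases hcp.card_eq_or_dvd with h | h
      · exfalso
        have := Finite.one_lt_card_iff_nontrivial.2 hcn
        omega
      · exact h
    obtain ⟨c, hc⟩ := exists_prime_orderOf_dvd_card' p hdvd
    obtain ⟨z, hz⟩ := QuotientGroup.mk_surjective (c : P ⧸ Z)
    have hc1 : c ≠ 1 := by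
      intro h
      rw [h, orderOf_one] at hc
      exact hp.one_lt.ne hc
    have hcp1 : c ^ p = 1 := by rw [← hc]; exact pow_orderOf_eq_one c
    refine ⟨z, ?_, ?_, ?_⟩
    · intro h
      apply hc1
      apply Subtype.ext
      rw [← hz]
      exact (QuotientGroup.eq_one_iff _).2 h
    · rw [← QuotientGroup.eq_one_iff, QuotientGroup.mk_pow, hz]
      exact_mod_cast congrArg Subtype.val hcp1
    · intro h
      rw [hz]
      exact (Subgroup.mem_center_iff.1 c.2 (h : P ⧸ Z)).symm
  have hCz : Subgroup.centralizer ({z} : Set P) = C := by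
    symm
    exact cent_eq p a hidx x z hx hzZ (stepA z hzp (hzc x).symm)
  have hCnorm : ∀ g : P, g * x * g⁻¹ ∈ C := by
    intro g
    rw [← hCz, mem_cent]
    have hζ : z⁻¹ * (g⁻¹ * z * g) ∈ Z := by
      rw [← QuotientGroup.eq]
      rw [QuotientGroup.mk_mul, QuotientGroup.mk_mul, QuotientGroup.mk_inv, mul_assoc, hzc g]
      group
    have hxz : z * x = x * z := by
      have : x ∈ Subgroup.centralizer ({z} : Set P) := by
        rw [hCz, hCdef, mem_cent]
      rwa [mem_cent] at this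
    have hζc : ∀ y : P, y * (z⁻¹ * (g⁻¹ * z * g)) = (z⁻¹ * (g⁻¹ * z * g)) * y :=
      fun y => Subgroup.mem_center_iff.1 hζ y
    have e1 : g⁻¹ * z * g = z * (z⁻¹ * (g⁻¹ * z * g)) := by group
    calc z * (g * x * g⁻¹) = g * ((g⁻¹ * z * g) * x) * g⁻¹ := by group
      _ = g * (z * (z⁻¹ * (g⁻¹ * z * g)) * x) * g⁻¹ := by rw [← e1]
      _ = g * (z * x * (z⁻¹ * (g⁻¹ * z * g))) * g⁻¹ := by
          rw [mul_assoc z, ← hζc x, ← mul_assoc z]
      _ = g * (x * (z * (z⁻¹ * (g⁻¹ * z * g)))) * g⁻¹ := by rw [hxz, mul_assoc x]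
      _ = g * (x * (g⁻¹ * z * g)) * g⁻¹ := by rw [← e1]
      _ = g * x * g⁻¹ * z := by group
  have hZC : Z ≤ C := by
    intro u hu
    rw [hCdef, mem_cent]
    exact Subgroup.mem_center_iff.1 hu x
  have hCtop : C ≠ ⊤ := by
    intro h
    apply hx
    rw [← cent_index_one_iff, ← hCdef, h, Subgroup.index_top]
  obtain ⟨g0, hg0⟩ : ∃ g0 : P, g0 ∉ C := by
    by_contra hcon
    push Not at hcon
    exact hCtop (eq_top_iff.2 fun g _ => hcon g)
  have hg0Z : g0 ∉ Z := fun h => hg0 (hZC h)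
  have hinf : C ⊓ Subgroup.centralizer ({g0} : Set P) ≤ Z := by
    intro u hu
    have hu1 : u ∈ C := hu.1
    have hu2 : u ∈ Subgroup.centralizer ({g0} : Set P) := hu.2
    by_contra huZ
    have h1 : (x : P ⧸ Z) * (u : P ⧸ Z) = (u : P ⧸ Z) * x := by
      rw [hCdef, mem_cent] at hu1
      rw [← QuotientGroup.mk_mul, ← QuotientGroup.mk_mul, hu1]
    have h2 := cent_eq p a hidx x u hx huZ (stepB u h1)
    apply hg0
    rw [hCdef, h2, mem_cent]
    rw [mem_cent] at hu2
    exact hu2.symm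
  have hi : Z.index ≤ p ^ a * p ^ a := by
    have h1 : Z.index ≤ (C ⊓ Subgroup.centralizer ({g0} : Set P)).index :=
      Nat.le_of_dvd (Nat.pos_of_ne_zero Subgroup.index_ne_zero_of_finite) (Subgroup.index_dvd_of_le hinf)
    have h2 := Subgroup.index_inf_le (H := C) (K := Subgroup.centralizer ({g0} : Set P))
    rw [hidx g0 hg0Z, hCdef, hidx x hx] at h2
    rw [hCdef] at h1
    omega
  have hker : (QuotientGroup.mk' Z).ker ≤ C := by rw [QuotientGroup.ker_mk']; exact hZC
  have hKidx : (C.map (QuotientGroup.mk' Z)).index = p ^ a := by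
    rw [Subgroup.index_map_eq C (QuotientGroup.mk'_surjective Z) hker, hCdef, hidx x hx]
  have hcount := conj_count (C.map (QuotientGroup.mk' Z)) (x : P ⧸ Z) hxbar
    (by
      intro q
      obtain ⟨g, rfl⟩ := QuotientGroup.mk_surjective q
      exact ⟨g * x * g⁻¹, hCnorm g, rfl⟩)
    (by
      intro q hq
      obtain ⟨g, rfl⟩ := QuotientGroup.mk_surjective q
      rw [mem_cent] at hq
      exact ⟨g, stepB' g hq, rfl⟩)
  rw [hKidx] at hcount
  have h1 := Subgroup.card_mul_index (C.map (QuotientGroup.mk' Z))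
  rw [hKidx] at h1
  have h2 : Nat.card (P ⧸ Z) = Z.index := (Subgroup.index_eq_card Z).symm
  rw [h2] at h1
  have hpos : 0 < p ^ a := pow_pos hp.pos a
  have h3 : p ^ a * p ^ a < Nat.card (C.map (QuotientGroup.mk' Z)) * p ^ a :=
    Nat.mul_lt_mul_of_pos_right hcount hpos
  omega

end Cfsg.Agent.S4365
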