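import Cfsg.Statements.S4377
import Mathlib

set_option autoImplicit false
open Cfsg

namespace Cfsg.Agent.S4377

lemma count_pow_eq_sum {G : Type*} [Group G] [Finite G] (n : ℕ) (hn : 0 < n) :
    Nat.card {g : G // g ^ n = 1} = ∑ d ∈ n.divisors, Nat.card {g : G // orderOf g = d} := by
  classical
  have : Fintype G := Fintype.ofFinite G
  have h1 : Nat.card {g : G // g ^ n = 1} = (Finset.univ.filter (fun g : G => g ^ n = 1)).card := by
    rw [Nat.card_eq_fintype_card, Fintype.card_subtype]
  have h2 : ∀ d : ℕ, Nat.card {g : G // orderOf g = d}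
      = (Finset.univ.filter (fun g : G => orderOf g = d)).card := by
    intro d
    rw [Nat.card_eq_fintype_card, Fintype.card_subtype]
  rw [h1]
  rw [Finset.card_eq_sum_card_fiberwise (f := fun g : G => orderOf g) (t := n.divisors)]
  · apply Finset.sum_congr rfl
    intro d hd
    rw [h2 d]
    congr 1
    ext g
    simp only [Finset.mem_filter, Finset.mem_univ, true_and]
    constructor
    · rintro ⟨_, h⟩
      exact h
    · intro h
      refine ⟨?_, h⟩
      rw [← orderOf_dvd_iff_pow_eq_one, h]
      exact Nat.dvd_of_mem_divisors hd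
  · intro g hg
    simp only [Finset.coe_filter, Finset.mem_univ, true_and, Set.mem_ofPred_eq] at hg
    simp only [Finset.mem_coe, Nat.mem_divisors]
    exact ⟨orderOf_dvd_of_pow_eq_one hg, hn.ne'⟩

lemma count_order_zero {G : Type*} [Group G] [Finite G] :
    Nat.card {g : G // orderOf g = 0} = 0 := by
  have : IsEmpty {g : G // orderOf g = 0} := ⟨fun ⟨g, hg⟩ => (orderOf_pos g).ne' hg⟩
  exact Nat.card_of_isEmpty

lemma count_pow_of_forall {G : Type*} [Group G] [Finite G] (n : ℕ) (h : ∀ g : G, g ^ n = 1) :
    Nat.card {g : G // g ^ n = 1} = Nat.card G :=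
  Nat.card_congr (Equiv.subtypeUnivEquiv h)

theorem result {G H : Type*} [Group G] [Finite G] [Group H] [Finite H] :
    (∀ n : ℕ, Nat.card {g : G // orderOf g = n} = Nat.card {h : H // orderOf h = n}) ↔
      ∀ n : ℕ, Nat.card {g : G // g ^ n = 1} = Nat.card {h : H // h ^ n = 1} := by
  constructor
  · intro h n
    have hpos : ∀ m : ℕ, 0 < m →
        Nat.card {g : G // g ^ m = 1} = Nat.card {h : H // h ^ m = 1} := by
      intro m hm
      rw [count_pow_eq_sum m hm, count_pow_eq_sum m hm]
      exact Finset.sum_congr rfl (fun d _ => h d)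
    rcases Nat.eq_zero_or_pos n with rfl | hn
    · set N := Nat.card G * Nat.card H with hN
      have hNpos : 0 < N := Nat.mul_pos Nat.card_pos Nat.card_pos
      have hG : ∀ g : G, g ^ N = 1 := by
        intro g
        rw [hN, pow_mul, pow_card_eq_one', one_pow]
      have hH : ∀ g : H, g ^ N = 1 := by
        intro g
        rw [hN, mul_comm, pow_mul, pow_card_eq_one', one_pow]
      rw [count_pow_of_forall 0 (fun g => pow_zero g), count_pow_of_forall 0 (fun g => pow_zero g),
        ← count_pow_of_forall N hG, ← count_pow_of_forall N hH]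
      exact hpos N hNpos
    · exact hpos n hn
  · intro h n
    induction n using Nat.strong_induction_on with
    | _ n ih =>
      rcases Nat.eq_zero_or_pos n with rfl | hn
      · rw [count_order_zero, count_order_zero]
      · have hG := count_pow_eq_sum (G := G) n hn
        have hH := count_pow_eq_sum (G := H) n hn
        rw [← Nat.cons_self_properDivisors hn.ne', Finset.sum_cons] at hG hH
        have hsum : ∑ d ∈ n.properDivisors, Nat.card {g : G // orderOf g = d}
            = ∑ d ∈ n.properDivisors, Nat.card {g : H // orderOf g = d} := by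
          apply Finset.sum_congr rfl
          intro d hd
          exact ih d (Nat.mem_properDivisors.1 hd).2
        have := h n
        omega

end Cfsg.Agent.S4377
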