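import Cfsg.Statements.S4378
import Mathlib
import Cfsg.Agent.S0043
import Cfsg.Agent.Lib.Lead.Hall
import Cfsg.Agent.Lib.Helper10.CNQuot

set_option autoImplicit false
open Cfsg

namespace Cfsg.Agent.S4378

universe u

def Hyp (p : ℕ) (G : Type*) [Group G] : Prop :=
  ∀ M : Subgroup G, IsCoatom M →
    (∃ K : Subgroup ↥M, K.Normal ∧ ¬ p ∣ Nat.card K ∧ ∃ k : ℕ, K.index = p ^ k) ∨ (M.index).Prime

def Good (G : Type*) [Group G] : Prop :=
  ∃ A B C : Subgroup G, A.Normal ∧ B.Normal ∧ C.Normal ∧ A ≤ B ∧ B ≤ C ∧ Odd (Nat.card A) ∧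
    (∃ k : ℕ, A.relIndex B = 2 ^ k) ∧ Odd (B.relIndex C) ∧ ∃ k : ℕ, C.index = 2 ^ k

theorem coatom_comap {G : Type*} [Group G] (N : Subgroup G) [N.Normal]
    (Mb : Subgroup (G ⧸ N)) (h : IsCoatom Mb) : IsCoatom (Mb.comap (QuotientGroup.mk' N)) := by
  have hsurj := QuotientGroup.mk'_surjective N
  refine ⟨?_, ?_⟩
  · intro htop
    apply h.1
    apply Subgroup.comap_injective hsurj
    rw [htop, Subgroup.comap_top]
  · intro X hX
    have h1 : Mb ≤ X.map (QuotientGroup.mk' N) := by
      have h2 := Subgroup.map_mono (f := QuotientGroup.mk' N) hX.le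
      rwa [Subgroup.map_comap_eq_self_of_surjective hsurj] at h2
    have hNX : N ≤ X := by
      have h2 : N ≤ Mb.comap (QuotientGroup.mk' N) := by
        intro n hn
        rw [Subgroup.mem_comap]
        have h3 : QuotientGroup.mk' N n = 1 := (QuotientGroup.eq_one_iff n).2 hn
        rw [h3]; exact Mb.one_mem
      exact h2.trans hX.le
    have h2 : X.map (QuotientGroup.mk' N) ≠ Mb := by
      intro heq
      have h3 : X ≤ Mb.comap (QuotientGroup.mk' N) := by
        rw [← heq]; exact Subgroup.le_comap_map _ _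
      exact absurd hX (not_lt_of_ge h3)
    have h3 : X.map (QuotientGroup.mk' N) = ⊤ := h.2 _ (lt_of_le_of_ne h1 (Ne.symm h2))
    have h4 := Subgroup.comap_map_eq (QuotientGroup.mk' N) X
    rw [h3, Subgroup.comap_top, QuotientGroup.ker_mk', sup_of_le_left hNX] at h4
    exact h4.symm

theorem hyp_quot {G : Type*} [Group G] [Finite G] {p : ℕ} (hp : p.Prime) (N : Subgroup G)
    [N.Normal] (h : Hyp p G) : Hyp p (G ⧸ N) := by
  intro Mb hMb
  have hsurj := QuotientGroup.mk'_surjective N
  rcases h _ (coatom_comap N Mb hMb) with ⟨K, hKn, hKodd, k, hk⟩ | hprime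
  · left
    have hφ : Function.Surjective ((QuotientGroup.mk' N).subgroupComap Mb) :=
      MonoidHom.subgroupComap_surjective_of_surjective _ _ hsurj
    refine ⟨K.map ((QuotientGroup.mk' N).subgroupComap Mb), hKn.map _ hφ, ?_, ?_⟩
    · intro hdvd
      exact hKodd (hdvd.trans (Subgroup.card_map_dvd K _))
    · have h1 := Subgroup.index_map_dvd K hφ
      rw [hk] at h1
      obtain ⟨j, _, hj⟩ := (Nat.dvd_prime_pow hp).1 h1
      exact ⟨j, hj⟩
  · right
    rwa [Subgroup.index_comap_of_surjective Mb hsurj] at hprime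

theorem complement_coatom {G : Type*} [Group G] (N : Subgroup G) [N.Normal]
    (hab : ∀ x ∈ N, ∀ y ∈ N, x * y = y * x)
    (hmin : ∀ L : Subgroup G, L.Normal → L ≤ N → L = ⊥ ∨ L = N) (M : Subgroup G)
    (hsup : M ⊔ N = ⊤) (hM : M ≠ ⊤) : M ⊓ N = ⊥ ∧ IsCoatom M := by
  have hdec : ∀ g : G, ∃ m ∈ M, ∃ n ∈ N, g = m * n := by
    intro g
    have hg : g ∈ (↑(M ⊔ N) : Set G) := by rw [hsup]; exact Subgroup.mem_top g
    rw [Subgroup.mul_normal] at hg
    obtain ⟨m, hm, n, hn, rfl⟩ := Set.mem_mul.1 hg
    exact ⟨m, hm, n, hn, rfl⟩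
  have key : ∀ X : Subgroup G, M ≤ X → (X ⊓ N).Normal := by
    intro X hMX
    constructor
    intro x hx g
    obtain ⟨m, hm, n, hn, rfl⟩ := hdec g
    have h1 : n * x * n⁻¹ = x := by
      have h2 := hab n hn x hx.2
      rw [h2]; group
    have h2 : m * n * x * (m * n)⁻¹ = m * (n * x * n⁻¹) * m⁻¹ := by group
    rw [h2, h1]
    exact ⟨X.mul_mem (X.mul_mem (hMX hm) hx.1) (X.inv_mem (hMX hm)),
      (inferInstance : N.Normal).conj_mem x hx.2 m⟩
  have h0 : M ⊓ N = ⊥ := by
    rcases hmin _ (key M le_rfl) inf_le_right with h | h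
    · exact h
    · exfalso
      apply hM
      have h1 : N ≤ M := by rw [← h]; exact inf_le_left
      rw [← hsup]
      exact (sup_of_le_left h1).symm
  refine ⟨h0, hM, ?_⟩
  intro X hX
  rcases hmin _ (key X hX.le) inf_le_right with h | h
  · exfalso
    apply not_le_of_gt hX
    intro x hx
    obtain ⟨m, hm, n, hn, rfl⟩ := hdec x
    have hnX : n ∈ X := by
      have h1 : n = m⁻¹ * (m * n) := by group
      rw [h1]; exact X.mul_mem (X.inv_mem (hX.le hm)) hx
    have h2 : n ∈ X ⊓ N := ⟨hnX, hn⟩
    rw [h, Subgroup.mem_bot] at h2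
    rw [h2, mul_one]; exact hm
  · have hNX : N ≤ X := by rw [← h]; exact inf_le_left
    apply top_le_iff.1
    rw [← hsup]; exact sup_le hX.le hNX

theorem series_of_complement {G : Type*} [Group G] [Finite G] (N : Subgroup G) [N.Normal]
    (M : Subgroup G) (hinf : M ⊓ N = ⊥) (hsup : M ⊔ N = ⊤) (K' : Subgroup ↥M) [K'.Normal] :
    (N ⊔ K'.map M.subtype).Normal ∧ N.relIndex (N ⊔ K'.map M.subtype) = Nat.card K' ∧
      (N ⊔ K'.map M.subtype).index = K'.index := by
  have hdec : ∀ g : G, ∃ m ∈ M, ∃ n ∈ N, g = m * n := by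
    intro g
    have hg : g ∈ (↑(M ⊔ N) : Set G) := by rw [hsup]; exact Subgroup.mem_top g
    rw [Subgroup.mul_normal] at hg
    obtain ⟨m, hm, n, hn, rfl⟩ := Set.mem_mul.1 hg
    exact ⟨m, hm, n, hn, rfl⟩
  have hrel : N.relIndex (N ⊔ K'.map M.subtype) = Nat.card K' := by
    rw [Subgroup.relIndex_sup_left, ← Subgroup.inf_relIndex_right]
    have h1 : N ⊓ K'.map M.subtype = ⊥ := by
      apply le_bot_iff.1
      rw [← hinf]
      exact le_inf (inf_le_right.trans (Subgroup.map_subtype_le _)) inf_le_left
    rw [h1, Subgroup.relIndex_bot_left]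
    exact Subgroup.card_map_of_injective M.subtype_injective
  refine ⟨?_, hrel, ?_⟩
  · constructor
    intro c hc g
    have hc' : c ∈ (↑(N ⊔ K'.map M.subtype) : Set G) := hc
    rw [Subgroup.normal_mul] at hc'
    obtain ⟨n', hn', k, hk, rfl⟩ := Set.mem_mul.1 hc'
    obtain ⟨m, hm, n, hn, rfl⟩ := hdec g
    obtain ⟨k', hk', rfl⟩ := hk
    have e : m * n * (n' * (M.subtype k')) * (m * n)⁻¹ =
        (m * (n * n' * (M.subtype k' * n⁻¹ * (M.subtype k')⁻¹)) * m⁻¹) *
          (m * M.subtype k' * m⁻¹) := by group
    rw [e]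
    refine Subgroup.mul_mem _ (Subgroup.mem_sup_left ?_) (Subgroup.mem_sup_right ?_)
    · apply (inferInstance : N.Normal).conj_mem
      refine N.mul_mem (N.mul_mem hn hn') ?_
      exact (inferInstance : N.Normal).conj_mem _ (N.inv_mem hn) _
    · refine ⟨⟨m, hm⟩ * k' * ⟨m, hm⟩⁻¹, (inferInstance : K'.Normal).conj_mem k' hk' _, ?_⟩
      simp
  · have hcomp : M.IsComplement' N := by
      apply Subgroup.isComplement'_of_disjoint_and_mul_eq_univ (disjoint_iff.2 hinf)
      rw [← Subgroup.mul_normal, hsup, Subgroup.coe_top]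
    have h1 : N.index = Nat.card M := hcomp.index_eq_card
    have h2 := Subgroup.relIndex_mul_index (le_sup_left : N ≤ N ⊔ K'.map M.subtype)
    rw [hrel, h1, ← Subgroup.card_mul_index K'] at h2
    exact Nat.eq_of_mul_eq_mul_left Nat.card_pos h2

theorem central_of_card_two {G : Type*} [Group G] (N : Subgroup G) [N.Normal]
    (h : Nat.card N = 2) (n : G) (hn : n ∈ N) (g : G) : g * n * g⁻¹ = n := by
  by_cases h1 : n = 1
  · subst h1; group
  · obtain ⟨a, b, hab, huniv⟩ := Nat.card_eq_two_iff.1 h
    have hmem : ∀ x : ↥N, x = a ∨ x = b := by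
      intro x
      have hx : x ∈ ({a, b} : Set ↥N) := by rw [huniv]; exact Set.mem_univ x
      simpa using hx
    have hne : ∀ x y : ↥N, x ≠ 1 → y ≠ 1 → x = y := by
      intro x y hx hy
      rcases hmem x with rfl | rfl <;> rcases hmem y with rfl | rfl <;>
        rcases hmem 1 with h1 | h1
      all_goals first | rfl | (exact absurd h1.symm hx) | (exact absurd h1.symm hy)
    have h2 : (⟨g * n * g⁻¹, (inferInstance : N.Normal).conj_mem n hn g⟩ : ↥N) = ⟨n, hn⟩ := by
      apply hne
      · intro h3
        have h4 : g * n * g⁻¹ = 1 := congrArg Subtype.val h3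
        apply h1
        have h5 : n = g⁻¹ * (g * n * g⁻¹) * g := by group
        rw [h5, h4]; group
      · intro h3
        exact h1 (congrArg Subtype.val h3)
    exact congrArg Subtype.val h2

theorem main : ∀ (n : ℕ) (G : Type u) [Group G] [Finite G], Group.IsSolvable G →
    Nat.card G = n → Hyp 2 G → Good G := by
  intro n
  induction n using Nat.strong_induction_on with
  | _ n ih =>
    intro G _ _ hsol hn hyp
    by_cases hodd : ∃ N : Subgroup G, N.Normal ∧ N ≠ ⊥ ∧ Odd (Nat.card N)
    · obtain ⟨N, hNn, hN0, hNodd⟩ := hodd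
      have hsurj := QuotientGroup.mk'_surjective N
      have hlt : Nat.card (G ⧸ N) < n := by
        have h1 := Subgroup.card_eq_card_quotient_mul_card_subgroup N
        have h2 : 1 < Nat.card N := by
          have h3 : Nat.card N ≠ 1 := fun h => hN0 (Subgroup.card_eq_one.1 h)
          have h4 : 0 < Nat.card N := Nat.card_pos
          omega
        have h5 : 0 < Nat.card (G ⧸ N) := Nat.card_pos
        rw [← hn, h1]
        nlinarith
      obtain ⟨Ab, Bb, Cb, hAn, hBn, hCn, hAB, hBC, hAodd, ⟨k, hk⟩, hBCodd, ⟨j, hj⟩⟩ :=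
        ih _ hlt (G ⧸ N) inferInstance rfl (hyp_quot Nat.prime_two N hyp)
      refine ⟨Ab.comap (QuotientGroup.mk' N), Bb.comap (QuotientGroup.mk' N),
        Cb.comap (QuotientGroup.mk' N), hAn.comap _, hBn.comap _, hCn.comap _,
        Subgroup.comap_mono hAB, Subgroup.comap_mono hBC, ?_, ⟨k, ?_⟩, ?_, ⟨j, ?_⟩⟩
      · rw [Cfsg.Agent.Lib.Lead.Hall.card_comap_mk]; exact hNodd.mul hAodd
      · rw [Subgroup.relIndex_comap, Subgroup.map_comap_eq_self_of_surjective hsurj]; exact hk
      · rw [Subgroup.relIndex_comap, Subgroup.map_comap_eq_self_of_surjective hsurj]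
        exact hBCodd
      · rw [Subgroup.index_comap_of_surjective _ hsurj]; exact hj
    · push Not at hodd
      by_cases htriv : Nat.card G = 1
      · refine ⟨⊤, ⊤, ⊤, inferInstance, inferInstance, inferInstance, le_rfl, le_rfl, ?_,
          ⟨0, ?_⟩, ?_, ⟨0, ?_⟩⟩
        · rw [Subgroup.card_top, htriv]; exact odd_one
        · simp
        · simp
        · simp
      · have hnt : Nontrivial G := by
          rw [← Finite.one_lt_card_iff_nontrivial]
          have h4 : 0 < Nat.card G := Nat.card_pos
          omega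
        obtain ⟨N, -, hNmin⟩ := Finite.exists_le_minimal
          (p := fun L : Subgroup G => L.Normal ∧ L ≠ ⊥) (a := ⊤) ⟨inferInstance, top_ne_bot⟩
        have hNn : N.Normal := hNmin.prop.1
        have hN0 : N ≠ ⊥ := hNmin.prop.2
        have hmin : ∀ L : Subgroup G, L.Normal → L ≤ N → L = ⊥ ∨ L = N := by
          intro L hL hLN
          by_cases hL0 : L = ⊥
          · exact Or.inl hL0
          · exact Or.inr (le_antisymm hLN (hNmin.le_of_le ⟨hL, hL0⟩ hLN))
        obtain ⟨hc, r, hr, hexp⟩ := Cfsg.Agent.S0043.result N hN0 hmin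
        have hrf : Fact r.Prime := ⟨hr⟩
        have hNp : IsPGroup r N := by
          intro g
          refine ⟨1, ?_⟩
          apply Subtype.ext
          simpa using hexp g g.2
        obtain ⟨k, hk⟩ := hNp.exists_card_eq
        have hr2 : r = 2 := by
          by_contra hne
          apply hodd N hNn hN0
          rw [hk]
          exact (hr.odd_of_ne_two hne).pow
        subst hr2
        have hab : ∀ x ∈ N, ∀ y ∈ N, x * y = y * x := by
          intro x hx y hy
          have h1 : (⟨x, hx⟩ : ↥N) * ⟨y, hy⟩ = ⟨y, hy⟩ * ⟨x, hx⟩ := mul_comm' _ _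
          exact congrArg Subtype.val h1
        have hsurj := QuotientGroup.mk'_surjective N
        have hlt : Nat.card (G ⧸ N) < n := by
          have h1 := Subgroup.card_eq_card_quotient_mul_card_subgroup N
          have h2 : 1 < Nat.card N := by
            have h3 : Nat.card N ≠ 1 := fun h => hN0 (Subgroup.card_eq_one.1 h)
            have h4 : 0 < Nat.card N := Nat.card_pos
            omega
          have h5 : 0 < Nat.card (G ⧸ N) := Nat.card_pos
          rw [← hn, h1]
          nlinarith
        obtain ⟨Ab, Bb, Cb, hAn, hBn, hCn, hAB, hBC, hAodd, ⟨k₁, hk₁⟩, hBCodd, ⟨j, hj⟩⟩ :=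
          ih _ hlt (G ⧸ N) inferInstance rfl (hyp_quot Nat.prime_two N hyp)
        by_cases hA0 : Ab = ⊥
        · subst hA0
          refine ⟨⊥, Bb.comap (QuotientGroup.mk' N), Cb.comap (QuotientGroup.mk' N),
            inferInstance, hBn.comap _, hCn.comap _, bot_le, Subgroup.comap_mono hBC, ?_,
            ⟨k + k₁, ?_⟩, ?_, ⟨j, ?_⟩⟩
          · rw [Subgroup.card_bot]; exact odd_one
          · rw [Subgroup.relIndex_bot_left, Cfsg.Agent.Lib.Lead.Hall.card_comap_mk, hk,
              ← Subgroup.relIndex_bot_left, hk₁, pow_add]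
          · rw [Subgroup.relIndex_comap, Subgroup.map_comap_eq_self_of_surjective hsurj]
            exact hBCodd
          · rw [Subgroup.index_comap_of_surjective _ hsurj]; exact hj
        · have hAsol : Group.IsSolvable ↥Ab := inferInstance
          obtain ⟨Vb, q, hVn, hV0, hq, hVq, hVle⟩ :=
            Cfsg.Agent.Lib.Helper10.CNQuot.exists_normal_pgroup_le (Nat.card Ab) Ab hAn hA0
              hAsol le_rfl
          have hqf : Fact q.Prime := ⟨hq⟩
          obtain ⟨j₁, hj₁⟩ := hVq.exists_card_eq
          have hj₁0 : j₁ ≠ 0 := by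
            rintro rfl
            rw [pow_zero, Subgroup.card_eq_one] at hj₁
            exact hV0 hj₁
          have hqV : q ∣ Nat.card Vb := by rw [hj₁]; exact dvd_pow_self q hj₁0
          have hq2 : q ≠ 2 := by
            rintro rfl
            have h1 : 2 ∣ Nat.card Ab := hqV.trans (Subgroup.card_dvd_of_le hVle)
            exact (Nat.not_even_iff_odd.2 hAodd) (even_iff_two_dvd.2 h1)
          obtain ⟨A₂, hA₂⟩ : ∃ A₂ : Subgroup G, A₂ = Vb.comap (QuotientGroup.mk' N) := ⟨_, rfl⟩
          have hA₂n : A₂.Normal := by rw [hA₂]; exact hVn.comap _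
          have hNA₂ : N ≤ A₂ := by
            intro x hx
            rw [hA₂, Subgroup.mem_comap]
            have h3 : QuotientGroup.mk' N x = 1 := (QuotientGroup.eq_one_iff x).2 hx
            rw [h3]; exact Vb.one_mem
          have hcardA₂ : Nat.card A₂ = Nat.card N * Nat.card Vb := by
            rw [hA₂]; exact Cfsg.Agent.Lib.Lead.Hall.card_comap_mk N Vb
          obtain ⟨Q₀⟩ : Nonempty (Sylow q ↥A₂) := inferInstance
          have hfrat := Sylow.normalizer_sup_eq_top Q₀
          obtain ⟨Q, hQ⟩ : ∃ Q : Subgroup G, Q = (Q₀ : Subgroup ↥A₂).map A₂.subtype := ⟨_, rfl⟩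
          rw [← hQ] at hfrat
          have hQA₂ : Q ≤ A₂ := by rw [hQ]; exact Subgroup.map_subtype_le _
          have hrelQ : Q.relIndex A₂ = (Q₀ : Subgroup ↥A₂).index := by
            rw [Subgroup.relIndex, hQ, Subgroup.subgroupOf,
              Subgroup.comap_map_eq_self_of_injective A₂.subtype_injective]
          have hrelN : N.relIndex A₂ = q ^ j₁ := by
            have h2 : ((⊥ : Subgroup (G ⧸ N)).comap (QuotientGroup.mk' N)).relIndex
                (Vb.comap (QuotientGroup.mk' N)) = q ^ j₁ := by
              rw [Subgroup.relIndex_comap, Subgroup.map_comap_eq_self_of_surjective hsurj,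
                Subgroup.relIndex_bot_left, hj₁]
            have h1 : (⊥ : Subgroup (G ⧸ N)).comap (QuotientGroup.mk' N) = N := by
              rw [MonoidHom.comap_bot, QuotientGroup.ker_mk']
            rw [h1] at h2
            rw [hA₂]
            exact h2
          have hA₂le : A₂ ≤ N ⊔ Q := by
            have h1 : (N ⊔ Q).relIndex A₂ ∣ q ^ j₁ := by
              rw [← hrelN]; exact Subgroup.relIndex_dvd_of_le_left A₂ le_sup_left
            have h2 : (N ⊔ Q).relIndex A₂ ∣ (Q₀ : Subgroup ↥A₂).index := by
              rw [← hrelQ]; exact Subgroup.relIndex_dvd_of_le_left A₂ le_sup_right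
            have h3 : (N ⊔ Q).relIndex A₂ = 1 := by
              obtain ⟨i, _, hi⟩ := (Nat.dvd_prime_pow hq).1 h1
              rcases Nat.eq_zero_or_pos i with h0 | hpos
              · rw [hi, h0, pow_zero]
              · exfalso
                apply Q₀.not_dvd_index
                refine dvd_trans ?_ h2
                rw [hi]
                exact dvd_pow_self q (by omega)
            exact Subgroup.relIndex_eq_one.1 h3
          have hsup : Subgroup.normalizer (Q : Set G) ⊔ N = ⊤ := by
            apply top_le_iff.1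
            rw [← hfrat]
            refine sup_le le_sup_left (hA₂le.trans ?_)
            exact sup_le le_sup_right (Subgroup.le_normalizer.trans le_sup_left)
          have hQ0 : Q ≠ ⊥ := by
            intro h0
            have h1 : (Q₀ : Subgroup ↥A₂) = ⊥ := by
              rw [hQ] at h0
              exact (Subgroup.map_eq_bot_iff_of_injective _ A₂.subtype_injective).1 h0
            apply Q₀.not_dvd_index
            rw [h1, Subgroup.index_bot, hcardA₂]
            exact hqV.mul_left _
          have hQodd : Odd (Nat.card Q) := by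
            have h1 : Nat.card Q = Nat.card (Q₀ : Subgroup ↥A₂) := by
              rw [hQ]; exact Subgroup.card_map_of_injective A₂.subtype_injective
            obtain ⟨i, hi⟩ := Q₀.isPGroup'.exists_card_eq
            rw [h1, hi]
            exact (hq.odd_of_ne_two hq2).pow
          have hMtop : Subgroup.normalizer (Q : Set G) ≠ ⊤ := by
            intro htop
            exact hodd Q (Subgroup.normalizer_eq_top_iff.1 htop) hQ0 hQodd
          obtain ⟨hinf, hcoatom⟩ := complement_coatom N hab hmin _ hsup hMtop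
          rcases hyp _ hcoatom with ⟨K', hK'n, hK'odd, k', hk'⟩ | hprime
          · obtain ⟨hCn, hrel, hidx⟩ := series_of_complement N _ hinf hsup K'
            refine ⟨⊥, N, _, inferInstance, hNn, hCn, bot_le, le_sup_left, ?_, ⟨k, ?_⟩, ?_,
              ⟨k', ?_⟩⟩
            · rw [Subgroup.card_bot]; exact odd_one
            · rw [Subgroup.relIndex_bot_left, hk]
            · rw [hrel]
              exact Nat.odd_iff.2 (Nat.two_dvd_ne_zero.1 hK'odd)
            · rw [hidx, hk']
          · exfalso
            have hcomp : N.IsComplement' (Subgroup.normalizer (Q : Set G)) := by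
              apply Subgroup.IsComplement'.symm
              apply Subgroup.isComplement'_of_disjoint_and_mul_eq_univ (disjoint_iff.2 hinf)
              rw [← Subgroup.mul_normal, hsup, Subgroup.coe_top]
            have h1 : (Subgroup.normalizer (Q : Set G)).index = Nat.card N :=
              hcomp.index_eq_card
            rw [h1, hk] at hprime
            have hk0 : k ≠ 0 := by
              rintro rfl
              rw [pow_zero] at hprime
              exact Nat.not_prime_one hprime
            have h2 : 2 = 2 ^ k :=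
              (Nat.prime_dvd_prime_iff_eq Nat.prime_two hprime).1 (dvd_pow_self 2 hk0)
            have hN2 : Nat.card N = 2 := by rw [hk, ← h2]
            have hNM : N ≤ Subgroup.normalizer (Q : Set G) := by
              intro x hx
              rw [Subgroup.mem_normalizer_iff]
              intro y
              have h3 : x * y * x⁻¹ = y := by
                have h4 := central_of_card_two N hN2 x hx y⁻¹
                rw [inv_inv] at h4
                calc x * y * x⁻¹ = y * (y⁻¹ * x * y) * x⁻¹ := by group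
                  _ = y * x * x⁻¹ := by rw [h4]
                  _ = y := by group
              rw [h3]
            apply hN0
            apply le_bot_iff.1
            rw [← hinf]
            exact le_inf hNM le_rfl

/-- Let G be a finite solvable group in which every maximal subgroup either has a normal 2-complement or has prime index. Then G has a chain of normal subgroups 1 ≤ A ≤ B ≤ C ≤ G in which A and C/B have odd order and B/A and G/C are 2-groups (so the 2-length of G is at most 2). -/
theorem result {G : Type*} [Group G] [Finite G]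
    (hG : Group.IsSolvable G)
    (hmax : ∀ M : Subgroup G, IsCoatom M → (∃ K : Subgroup ↥M, K.Normal ∧ ¬ 2 ∣ Nat.card K ∧ ∃ k : ℕ, K.index = 2 ^ k) ∨ (M.index).Prime) :
    ∃ A B C : Subgroup G, A.Normal ∧ B.Normal ∧ C.Normal ∧ A ≤ B ∧ B ≤ C ∧ Odd (Nat.card A) ∧
      (∃ k : ℕ, A.relIndex B = 2 ^ k) ∧ Odd (B.relIndex C) ∧ ∃ k : ℕ, C.index = 2 ^ k :=
  main _ G hG rfl hmax

end Cfsg.Agent.S4378
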