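import Cfsg.Statements.S4379
import Mathlib
import Cfsg.Agent.S4378
import Cfsg.Agent.S0002
import Cfsg.Agent.S3744
import Cfsg.Agent.Lib.Helper12.PSolvable
import Cfsg.Agent.Lib.Helper10.Coprime

set_option autoImplicit false
open Cfsg

namespace Cfsg.Agent.S4379

universe u

open scoped Pointwise
open Cfsg.Agent.S4378 (coatom_comap hyp_quot complement_coatom series_of_complement Hyp)
open Cfsg.Agent.Lib.Helper10.SZ Cfsg.Agent.Lib.Helper10.Coprime

def Good4 (p : ℕ) (G : Type*) [Group G] : Prop :=
  ∃ A B C D : Subgroup G, A.Normal ∧ B.Normal ∧ C.Normal ∧ D.Normal ∧ A ≤ B ∧ B ≤ C ∧ C ≤ D ∧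
    ¬ p ∣ Nat.card A ∧ (∃ k : ℕ, A.relIndex B = p ^ k) ∧ ¬ p ∣ B.relIndex C ∧
    (∃ k : ℕ, C.relIndex D = p ^ k) ∧ ¬ p ∣ D.index

theorem inf_relIndex_dvd {G : Type*} [Group G] [Finite G] (X Y Z : Subgroup G) [X.Normal]
    (hXY : X ≤ Y) : (X ⊓ Z).relIndex (Y ⊓ Z) ∣ X.relIndex Y := by
  have h1 : (X ⊓ (Y ⊓ Z)).relIndex (Y ⊓ Z) = X.relIndex (Y ⊓ Z) :=
    Subgroup.inf_relIndex_right X (Y ⊓ Z)
  have h2 : X ⊓ (Y ⊓ Z) = X ⊓ Z := by rw [← inf_assoc, inf_of_le_left hXY]
  rw [← h2, h1]
  exact Cfsg.Agent.Lib.Helper12.PSolvable.relIndex_dvd_of_le_right X inf_le_left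

theorem cent_index {G : Type*} [Group G] [Finite G] (p : ℕ) [Fact p.Prime] (N : Subgroup G)
    [N.Normal] (hN : Nat.card N = p) : ¬ p ∣ (Subgroup.centralizer (N : Set G)).index := by
  have hp : p.Prime := Fact.out
  have hker : (MulAut.conjNormal (H := N)).ker = Subgroup.centralizer (N : Set G) := by
    ext g
    rw [MonoidHom.mem_ker, Subgroup.mem_centralizer_iff]
    constructor
    · intro hg n hn
      have h0 := congrArg (fun f : MulAut ↥N => ((f ⟨n, hn⟩ : ↥N) : G)) hg
      have h1 : g * n * g⁻¹ = n := by simpa [MulAut.conjNormal_apply] using h0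
      calc n * g = g * n * g⁻¹ * g := by rw [h1]
        _ = g * n := by group
    · intro hg
      apply MulEquiv.ext
      intro y
      apply Subtype.ext
      rw [MulAut.conjNormal_apply]
      have h1 := hg y y.2
      rw [← h1, mul_inv_cancel_right]; rfl
  have hcyc : IsCyclic ↥N := isCyclic_of_prime_card hN
  have hAutCard : Nat.card (MulAut ↥N) = p - 1 := by
    rw [IsCyclic.card_mulAut, hN, Nat.totient_prime hp]
  intro hdvd
  rw [← hker, Subgroup.index_ker] at hdvd
  have h1 : p ∣ p - 1 := by
    rw [← hAutCard]
    exact hdvd.trans (Subgroup.card_subgroup_dvd_card _)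
  have h2 := Nat.le_of_dvd (by have := hp.two_le; omega) h1
  have := hp.two_le
  omega

theorem main4 (p : ℕ) [Fact p.Prime] : ∀ (n : ℕ) (G : Type u) [Group G] [Finite G],
    Cfsg.IsPSolvable p G → Nat.card G = n → Hyp p G → Good4 p G := by
  have hp : p.Prime := Fact.out
  intro n
  induction n using Nat.strong_induction_on with
  | _ n ih =>
    intro G _ _ hsol hn hyp
    by_cases hodd : ∃ N : Subgroup G, N.Normal ∧ N ≠ ⊥ ∧ ¬ p ∣ Nat.card N
    · obtain ⟨N, hNn, hN0, hNodd⟩ := hodd
      have hsurj := QuotientGroup.mk'_surjective N
      have hlt : Nat.card (G ⧸ N) < n := by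
        have h1 := Subgroup.card_eq_card_quotient_mul_card_subgroup N
        have h2 : 1 < Nat.card N := by
          have h3 : Nat.card N ≠ 1 := fun h => hN0 (Subgroup.card_eq_one.1 h)
          have h4 : 0 < Nat.card N := Nat.card_pos
          omega
        have h5 : 0 < Nat.card (G ⧸ N) := Nat.card_pos
        rw [← hn, h1]
        nlinarith
      obtain ⟨Ab, Bb, Cb, Db, hAn, hBn, hCn, hDn, hAB, hBC, hCD, hAodd, ⟨k, hk⟩, hBCodd,
          ⟨j, hj⟩, hDidx⟩ :=
        ih _ hlt (G ⧸ N) (Cfsg.Agent.S3744.isPSolvable_quotient hsol N) rfl (hyp_quot hp N hyp)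
      refine ⟨Ab.comap (QuotientGroup.mk' N), Bb.comap (QuotientGroup.mk' N),
        Cb.comap (QuotientGroup.mk' N), Db.comap (QuotientGroup.mk' N), hAn.comap _,
        hBn.comap _, hCn.comap _, hDn.comap _,
        Subgroup.comap_mono hAB, Subgroup.comap_mono hBC, Subgroup.comap_mono hCD, ?_, ⟨k, ?_⟩,
        ?_, ⟨j, ?_⟩, ?_⟩
      · rw [Cfsg.Agent.Lib.Lead.Hall.card_comap_mk]
        intro h
        rcases (Nat.Prime.dvd_mul hp).1 h with h | h
        · exact hNodd h
        · exact hAodd h
      · rw [Subgroup.relIndex_comap, Subgroup.map_comap_eq_self_of_surjective hsurj]; exact hk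
      · rw [Subgroup.relIndex_comap, Subgroup.map_comap_eq_self_of_surjective hsurj]
        exact hBCodd
      · rw [Subgroup.relIndex_comap, Subgroup.map_comap_eq_self_of_surjective hsurj]; exact hj
      · rw [Subgroup.index_comap_of_surjective _ hsurj]; exact hDidx
    · push Not at hodd
      have hp1 : ¬ p ∣ 1 := fun h => hp.one_lt.ne' (Nat.dvd_one.1 h)
      by_cases htriv : Nat.card G = 1
      · refine ⟨⊤, ⊤, ⊤, ⊤, inferInstance, inferInstance, inferInstance, inferInstance, le_rfl,
          le_rfl, le_rfl, ?_, ⟨0, ?_⟩, ?_, ⟨0, ?_⟩, ?_⟩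
        · rw [Subgroup.card_top, htriv]; exact hp1
        · simp
        · simpa using hp1
        · simp
        · simpa using hp1
      · have hnt : Nontrivial G := by
          rw [← Finite.one_lt_card_iff_nontrivial]
          have h4 : 0 < Nat.card G := Nat.card_pos
          omega
        obtain ⟨N, -, hNmin⟩ := Finite.exists_le_minimal
          (p := fun L : Subgroup G => L.Normal ∧ L ≠ ⊥) (a := ⊤) ⟨inferInstance, top_ne_bot⟩
        have hNn : N.Normal := hNmin.prop.1
        have hN0 : N ≠ ⊥ := hNmin.prop.2
        have hmin : ∀ L : Subgroup G, L.Normal → L ≤ N → L = ⊥ ∨ L = N := by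
          intro L hL hLN
          by_cases hL0 : L = ⊥
          · exact Or.inl hL0
          · exact Or.inr (le_antisymm hLN (hNmin.le_of_le ⟨hL, hL0⟩ hLN))
        have hNp : IsPGroup p N := by
          obtain ⟨D0, hD0n, hD0le, hD00, hD0⟩ :=
            Cfsg.Agent.Lib.Helper12.PSolvable.exists_normal_le hsol N hN0
          have hD0N : D0 = N := by
            rcases hmin D0 hD0n hD0le with h | h
            · exact absurd h hD00
            · exact h
          rw [hD0N] at hD0
          rcases hD0 with h | h
          · exact h
          · exfalso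
            have h1 := hodd N hNn hN0
            have h2 := Nat.dvd_gcd h1 (dvd_refl p)
            rw [Nat.Coprime] at h
            rw [h] at h2
            exact hp1 h2
        obtain ⟨k, hk⟩ := hNp.exists_card_eq
        have hab : ∀ x ∈ N, ∀ y ∈ N, x * y = y * x := by
          have hNnt : Nontrivial ↥N := (Subgroup.nontrivial_iff_ne_bot N).2 hN0
          have hZnt : Nontrivial ↥(Subgroup.center ↥N) := hNp.center_nontrivial
          have hZn : ((Subgroup.center ↥N).map N.subtype).Normal :=
            ConjAct.normal_of_characteristic_of_normal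
          have hZ0 : (Subgroup.center ↥N).map N.subtype ≠ ⊥ := by
            intro h0
            have h1 := (Subgroup.map_eq_bot_iff_of_injective _ N.subtype_injective).1 h0
            exact (Subgroup.nontrivial_iff_ne_bot _).1 hZnt h1
          have hZN : (Subgroup.center ↥N).map N.subtype = N := by
            rcases hmin _ hZn (Subgroup.map_subtype_le _) with h | h
            · exact absurd h hZ0
            · exact h
          intro x hx y hy
          rw [← hZN] at hx
          obtain ⟨z, hz, rfl⟩ := hx
          have h1 := Subgroup.mem_center_iff.1 hz ⟨y, hy⟩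
          have h2 : (y : G) * (z : G) = (z : G) * y := congrArg Subtype.val h1
          exact h2.symm
        have hsurj := QuotientGroup.mk'_surjective N
        have hlt : Nat.card (G ⧸ N) < n := by
          have h1 := Subgroup.card_eq_card_quotient_mul_card_subgroup N
          have h2 : 1 < Nat.card N := by
            have h3 : Nat.card N ≠ 1 := fun h => hN0 (Subgroup.card_eq_one.1 h)
            have h4 : 0 < Nat.card N := Nat.card_pos
            omega
          have h5 : 0 < Nat.card (G ⧸ N) := Nat.card_pos
          rw [← hn, h1]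
          nlinarith
        obtain ⟨Ab, Bb, Cb, Db, hAn, hBn, hCn, hDn, hAB, hBC, hCD, hAodd, ⟨k₁, hk₁⟩, hBCodd,
            ⟨j, hj⟩, hDidx⟩ :=
          ih _ hlt (G ⧸ N) (Cfsg.Agent.S3744.isPSolvable_quotient hsol N) rfl
            (hyp_quot hp N hyp)
        by_cases hA0 : Ab = ⊥
        · subst hA0
          refine ⟨⊥, Bb.comap (QuotientGroup.mk' N), Cb.comap (QuotientGroup.mk' N),
            Db.comap (QuotientGroup.mk' N), inferInstance, hBn.comap _, hCn.comap _,
            hDn.comap _, bot_le, Subgroup.comap_mono hBC, Subgroup.comap_mono hCD, ?_,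
            ⟨k + k₁, ?_⟩, ?_, ⟨j, ?_⟩, ?_⟩
          · rw [Subgroup.card_bot]; exact hp1
          · rw [Subgroup.relIndex_bot_left, Cfsg.Agent.Lib.Lead.Hall.card_comap_mk, hk,
              ← Subgroup.relIndex_bot_left, hk₁, pow_add]
          · rw [Subgroup.relIndex_comap, Subgroup.map_comap_eq_self_of_surjective hsurj]
            exact hBCodd
          · rw [Subgroup.relIndex_comap, Subgroup.map_comap_eq_self_of_surjective hsurj]
            exact hj
          · rw [Subgroup.index_comap_of_surjective _ hsurj]; exact hDidx
        · obtain ⟨A₁, hA₁⟩ : ∃ A₁ : Subgroup G, A₁ = Ab.comap (QuotientGroup.mk' N) := ⟨_, rfl⟩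
          have hA₁n : A₁.Normal := by rw [hA₁]; exact hAn.comap _
          have hNA₁ : N ≤ A₁ := by
            intro x hx
            rw [hA₁, Subgroup.mem_comap]
            have h3 : QuotientGroup.mk' N x = 1 := (QuotientGroup.eq_one_iff x).2 hx
            rw [h3]; exact Ab.one_mem
          have hrelN : N.relIndex A₁ = Nat.card Ab := by
            have h2 : ((⊥ : Subgroup (G ⧸ N)).comap (QuotientGroup.mk' N)).relIndex
                (Ab.comap (QuotientGroup.mk' N)) = Nat.card Ab := by
              rw [Subgroup.relIndex_comap, Subgroup.map_comap_eq_self_of_surjective hsurj,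
                Subgroup.relIndex_bot_left]
            have h1 : (⊥ : Subgroup (G ⧸ N)).comap (QuotientGroup.mk' N) = N := by
              rw [MonoidHom.comap_bot, QuotientGroup.ker_mk']
            rw [h1] at h2
            rw [hA₁]
            exact h2
          have hcardN' : Nat.card (N.subgroupOf A₁) = p ^ k := by
            rw [← hk]
            exact Nat.card_congr (Subgroup.subgroupOfEquivOfLe hNA₁).toEquiv
          have hcop : (Nat.card (N.subgroupOf A₁)).Coprime (N.subgroupOf A₁).index := by
            rw [hcardN']
            apply Nat.Coprime.pow_left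
            have h1 : (N.subgroupOf A₁).index = Nat.card Ab := hrelN
            rw [h1]
            exact (Nat.Prime.coprime_iff_not_dvd hp).2 hAodd
          have hN'comm : IsMulCommutative ↥(N.subgroupOf A₁) :=
            ⟨⟨fun a b => Subtype.ext (Subtype.ext (hab _ a.2 _ b.2))⟩⟩
          obtain ⟨K₀, hK₀⟩ := Subgroup.exists_right_complement'_of_coprime hcop
          obtain ⟨K, hK⟩ : ∃ K : Subgroup G, K = K₀.map A₁.subtype := ⟨_, rfl⟩
          have hKA₁ : K ≤ A₁ := by rw [hK]; exact Subgroup.map_subtype_le _
          have hcardK₀ : Nat.card K₀ = Nat.card Ab := by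
            rw [← hrelN]; exact (hK₀.symm.index_eq_card).symm
          have hcardK : Nat.card K = Nat.card Ab := by
            rw [hK, Subgroup.card_map_of_injective A₁.subtype_injective, hcardK₀]
          have hsup : Subgroup.normalizer (K : Set G) ⊔ N = ⊤ := by
            apply top_le_iff.1
            intro g _
            have hKgle : MulAut.conj g • K ≤ A₁ := by
              intro x hx
              rw [mem_conj_smul_iff] at hx
              have h1 := hA₁n.conj_mem _ (hKA₁ hx) g
              have h2 : g * (g⁻¹ * x * g) * g⁻¹ = x := by group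
              rwa [h2] at h1
            have hcardKg : Nat.card ((MulAut.conj g • K).subgroupOf A₁) = Nat.card K₀ := by
              rw [Nat.card_congr (Subgroup.subgroupOfEquivOfLe hKgle).toEquiv, card_conj_smul,
                hcardK, hcardK₀]
            have hcompg : (N.subgroupOf A₁).IsComplement' ((MulAut.conj g • K).subgroupOf A₁) := by
              apply Subgroup.isComplement'_of_coprime
              · rw [hcardKg]; exact hK₀.card_mul_card
              · rw [hcardKg]
                have h1 : (N.subgroupOf A₁).index = Nat.card K₀ := hK₀.symm.index_eq_card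
                rw [← h1]; exact hcop
            obtain ⟨a, haN', ha⟩ := Cfsg.Agent.S0002.result (N.subgroupOf A₁) hcop K₀ _ hK₀ hcompg
            have hmemM : g⁻¹ * (a : G) ∈ Subgroup.normalizer (K : Set G) := by
              apply mem_normalizer_of_conj_mem
              intro s hs
              rw [hK] at hs
              obtain ⟨k₀, hk₀, rfl⟩ := hs
              have h1 : a * k₀ * a⁻¹ ∈ MulAut.conj a • K₀ := by
                rw [mem_conj_smul_iff]
                have h2 : a⁻¹ * (a * k₀ * a⁻¹) * a = k₀ := by group
                rw [h2]; exact hk₀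
              rw [ha, Subgroup.mem_subgroupOf, mem_conj_smul_iff] at h1
              have h3 : g⁻¹ * (a : G) * A₁.subtype k₀ * (g⁻¹ * (a : G))⁻¹ =
                  g⁻¹ * ((a * k₀ * a⁻¹ : ↥A₁) : G) * g := by
                push_cast
                simp only [Subgroup.coe_subtype]
                group
              rw [h3]; exact h1
            have hg : g = (a : G) * (g⁻¹ * (a : G))⁻¹ := by group
            rw [hg]
            exact Subgroup.mul_mem _ (Subgroup.mem_sup_right (Subgroup.mem_subgroupOf.1 haN'))
              (Subgroup.mem_sup_left (Subgroup.inv_mem _ hmemM))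
          have hKp : ¬ p ∣ Nat.card K := by rw [hcardK]; exact hAodd
          have hK0 : K ≠ ⊥ := by
            intro h0
            rw [h0, Subgroup.card_bot] at hcardK
            exact hA0 (Subgroup.card_eq_one.1 hcardK.symm)
          have hMtop : Subgroup.normalizer (K : Set G) ≠ ⊤ := by
            intro htop
            exact hKp (hodd K (Subgroup.normalizer_eq_top_iff.1 htop) hK0)
          obtain ⟨hinf, hcoatom⟩ := complement_coatom N hab hmin _ hsup hMtop
          rcases hyp _ hcoatom with ⟨K', hK'n, hK'odd, k', hk'⟩ | hprime
          · obtain ⟨hCn', hrel, hidx⟩ := series_of_complement N _ hinf hsup K'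
            refine ⟨⊥, N, _, ⊤, inferInstance, hNn, hCn', inferInstance, bot_le, le_sup_left,
              le_top, ?_, ⟨k, ?_⟩, ?_, ⟨k', ?_⟩, ?_⟩
            · rw [Subgroup.card_bot]; exact hp1
            · rw [Subgroup.relIndex_bot_left, hk]
            · rw [hrel]; exact hK'odd
            · rw [Subgroup.relIndex_top_right, hidx, hk']
            · rw [Subgroup.index_top]; exact hp1
          · have hcomp : N.IsComplement' (Subgroup.normalizer (K : Set G)) := by
              apply Subgroup.IsComplement'.symm
              apply Subgroup.isComplement'_of_disjoint_and_mul_eq_univ (disjoint_iff.2 hinf)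
              rw [← Subgroup.mul_normal, hsup, Subgroup.coe_top]
            have h1 : (Subgroup.normalizer (K : Set G)).index = Nat.card N :=
              hcomp.index_eq_card
            rw [h1, hk] at hprime
            have hk0 : k ≠ 0 := by
              rintro rfl
              rw [pow_zero] at hprime
              exact Nat.not_prime_one hprime
            have h2 : p = p ^ k :=
              (Nat.prime_dvd_prime_iff_eq hp hprime).1 (dvd_pow_self p hk0)
            have hNp' : Nat.card N = p := by rw [hk, ← h2]
            have hC₀idx := cent_index p N hNp'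
            have hNC₀ : N ≤ Subgroup.centralizer (N : Set G) := by
              intro x hx
              rw [Subgroup.mem_centralizer_iff]
              intro y hy
              exact hab y hy x hx
            have hdec : ∀ g : G, ∃ m ∈ Subgroup.normalizer (K : Set G), ∃ n ∈ N, g = m * n := by
              intro g
              have hg : g ∈ (↑(Subgroup.normalizer (K : Set G) ⊔ N) : Set G) := by
                rw [hsup]; exact Subgroup.mem_top g
              rw [Subgroup.mul_normal] at hg
              obtain ⟨m, hm, n, hn, rfl⟩ := Set.mem_mul.1 hg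
              exact ⟨m, hm, n, hn, rfl⟩
            have hKC : K ⊓ Subgroup.centralizer (N : Set G) = ⊥ := by
              by_contra hne
              have hnorm : (K ⊓ Subgroup.centralizer (N : Set G)).Normal := by
                constructor
                intro x hx g
                obtain ⟨m, hm, n, hn, rfl⟩ := hdec g
                have h3 : n * x * n⁻¹ = x := by
                  have h4 := Subgroup.mem_centralizer_iff.1 hx.2 n hn
                  rw [h4]; group
                have h4 : m * n * x * (m * n)⁻¹ = m * (n * x * n⁻¹) * m⁻¹ := by group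
                rw [h4, h3]
                exact ⟨(Subgroup.mem_normalizer_iff.1 hm x).1 hx.1,
                  (inferInstance : (Subgroup.centralizer (N : Set G)).Normal).conj_mem x hx.2 m⟩
              exact hKp ((hodd _ hnorm hne).trans (Subgroup.card_dvd_of_le inf_le_left))
            have hAC : A₁ ⊓ Subgroup.centralizer (N : Set G) = N := by
              refine le_antisymm ?_ (le_inf hNA₁ hNC₀)
              rintro x ⟨hxA, hxC⟩
              obtain ⟨⟨⟨n', hn'⟩, ⟨k₀, hk₀⟩⟩, hnk⟩ := hK₀.2 ⟨x, hxA⟩
              have hx' : x = (n' : G) * (k₀ : G) := by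
                have h3 : _ = _ := congrArg Subtype.val hnk
                simpa using h3.symm
              have hn'N : (n' : G) ∈ N := Subgroup.mem_subgroupOf.1 hn'
              have hkK : (k₀ : G) ∈ K := by rw [hK]; exact ⟨k₀, hk₀, rfl⟩
              have hkC : (k₀ : G) ∈ Subgroup.centralizer (N : Set G) := by
                have h3 : (k₀ : G) = (n' : G)⁻¹ * x := by rw [hx']; group
                rw [h3]
                exact Subgroup.mul_mem _ (Subgroup.inv_mem _ (hNC₀ hn'N)) hxC
              have h4 : (k₀ : G) ∈ K ⊓ Subgroup.centralizer (N : Set G) := ⟨hkK, hkC⟩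
              rw [hKC, Subgroup.mem_bot] at h4
              rw [hx', h4, mul_one]; exact hn'N
            have hB₁n : (Bb.comap (QuotientGroup.mk' N)).Normal := hBn.comap _
            have hC₁n : (Cb.comap (QuotientGroup.mk' N)).Normal := hCn.comap _
            have hD₁n : (Db.comap (QuotientGroup.mk' N)).Normal := hDn.comap _
            have hA₁B₁ : A₁ ≤ Bb.comap (QuotientGroup.mk' N) := by
              rw [hA₁]; exact Subgroup.comap_mono hAB
            have hrAB : A₁.relIndex (Bb.comap (QuotientGroup.mk' N)) = p ^ k₁ := by
              rw [hA₁, Subgroup.relIndex_comap, Subgroup.map_comap_eq_self_of_surjective hsurj]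
              exact hk₁
            have hrBC : ¬ p ∣ (Bb.comap (QuotientGroup.mk' N)).relIndex
                (Cb.comap (QuotientGroup.mk' N)) := by
              rw [Subgroup.relIndex_comap, Subgroup.map_comap_eq_self_of_surjective hsurj]
              exact hBCodd
            have hrCD : (Cb.comap (QuotientGroup.mk' N)).relIndex
                (Db.comap (QuotientGroup.mk' N)) = p ^ j := by
              rw [Subgroup.relIndex_comap, Subgroup.map_comap_eq_self_of_surjective hsurj]
              exact hj
            have hDi : ¬ p ∣ (Db.comap (QuotientGroup.mk' N)).index := by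
              rw [Subgroup.index_comap_of_surjective _ hsurj]; exact hDidx
            refine ⟨⊥, Bb.comap (QuotientGroup.mk' N) ⊓ Subgroup.centralizer (N : Set G),
              Cb.comap (QuotientGroup.mk' N) ⊓ Subgroup.centralizer (N : Set G),
              Db.comap (QuotientGroup.mk' N) ⊓ Subgroup.centralizer (N : Set G),
              inferInstance, inferInstance, inferInstance, inferInstance, bot_le,
              inf_le_inf_right _ (Subgroup.comap_mono hBC),
              inf_le_inf_right _ (Subgroup.comap_mono hCD), ?_, ?_, ?_, ?_, ?_⟩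
            · rw [Subgroup.card_bot]; exact hp1
            · have hNB : N ≤ Bb.comap (QuotientGroup.mk' N) ⊓ Subgroup.centralizer (N : Set G) :=
                le_inf (hNA₁.trans hA₁B₁) hNC₀
              have h3 := Subgroup.relIndex_mul_relIndex ⊥ N _ bot_le hNB
              have h4 : N.relIndex (Bb.comap (QuotientGroup.mk' N) ⊓
                  Subgroup.centralizer (N : Set G)) ∣ p ^ k₁ := by
                rw [← hrAB]
                have h5 := inf_relIndex_dvd A₁ (Bb.comap (QuotientGroup.mk' N))
                  (Subgroup.centralizer (N : Set G)) hA₁B₁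
                rwa [hAC] at h5
              obtain ⟨i, _, hi⟩ := (Nat.dvd_prime_pow hp).1 h4
              refine ⟨k + i, ?_⟩
              rw [← h3, Subgroup.relIndex_bot_left, hk, hi, pow_add]
            · intro h3
              exact hrBC (h3.trans (inf_relIndex_dvd _ _ _ (Subgroup.comap_mono hBC)))
            · have h4 := inf_relIndex_dvd (Cb.comap (QuotientGroup.mk' N))
                (Db.comap (QuotientGroup.mk' N)) (Subgroup.centralizer (N : Set G))
                (Subgroup.comap_mono hCD)
              rw [hrCD] at h4
              obtain ⟨i, _, hi⟩ := (Nat.dvd_prime_pow hp).1 h4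
              exact ⟨i, hi⟩
            · intro h3
              have h4 := Subgroup.relIndex_mul_index
                (inf_le_left : Db.comap (QuotientGroup.mk' N) ⊓
                  Subgroup.centralizer (N : Set G) ≤ Db.comap (QuotientGroup.mk' N))
              rw [← h4, Subgroup.inf_relIndex_left] at h3
              rcases (Nat.Prime.dvd_mul hp).1 h3 with h5 | h5
              · exact hC₀idx (h5.trans (Subgroup.relIndex_dvd_index_of_normal _ _))
              · exact hDi h5

/-- Let p be an odd prime and G a finite p-solvable group in which every maximal subgroup either has a normal p-complement or has prime index. Then G has a chain of normal subgroups 1 ≤ A ≤ B ≤ C ≤ D ≤ G in which A, C/B and G/D have order prime to p and B/A and D/C are p-groups (so the p-length of G is at most 2). -/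
theorem result {G : Type*} [Group G] [Finite G]
    (p : ℕ) [Fact p.Prime] (hp : p ≠ 2) (hG : Cfsg.IsPSolvable p G)
    (hmax : ∀ M : Subgroup G, IsCoatom M → (∃ K : Subgroup ↥M, K.Normal ∧ ¬ p ∣ Nat.card K ∧ ∃ k : ℕ, K.index = p ^ k) ∨ (M.index).Prime) :
    ∃ A B C D : Subgroup G, A.Normal ∧ B.Normal ∧ C.Normal ∧ D.Normal ∧ A ≤ B ∧ B ≤ C ∧ C ≤ D ∧ ¬ p ∣ Nat.card A ∧
      (∃ k : ℕ, A.relIndex B = p ^ k) ∧ ¬ p ∣ B.relIndex C ∧ (∃ k : ℕ, C.relIndex D = p ^ k) ∧ ¬ p ∣ D.index :=
  main4 p _ G hG rfl hmax

end Cfsg.Agent.S4379
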