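import Cfsg.Statements.S4387
import Mathlib

set_option autoImplicit false
open Cfsg

namespace Cfsg.Agent.S4387

open scoped Pointwise

lemma mem_conj_smul {G : Type*} [Group G] (M : Subgroup G) (x g : G) :
    g ∈ MulAut.conj x • M ↔ x⁻¹ * g * x ∈ M := by
  rw [Subgroup.mem_pointwise_smul_iff_inv_smul_mem]
  simp [MulAut.smul_def]

lemma exists_not_mem_conj {G : Type*} [Group G] [Finite G] (M : Subgroup G) (hM : M ≠ ⊤) :
    ∃ g : G, ∀ x : G, g ∉ MulAut.conj x • M := by
  classical
  by_contra hcon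
  push Not at hcon
  have : Fintype G := Fintype.ofFinite G
  have : Fintype (G ⧸ M) := Fintype.ofFinite _
  have : Fintype (MulAction.orbitRel.Quotient G (G ⧸ M)) := Fintype.ofFinite _
  have hB := MulAction.sum_card_fixedBy_eq_card_orbits_mul_card_group G (G ⧸ M)
  have hΩ : Fintype.card (MulAction.orbitRel.Quotient G (G ⧸ M)) = 1 := by
    rw [Fintype.card_eq_one_iff_nonempty_unique]
    exact (MulAction.pretransitive_iff_unique_quotient_of_nonempty G (G ⧸ M)).1 inferInstance
  rw [hΩ, one_mul] at hB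
  have hfix : ∀ g : G, 1 ≤ Fintype.card (MulAction.fixedBy (G ⧸ M) g) := by
    intro g
    obtain ⟨x, hx⟩ := hcon g
    rw [mem_conj_smul] at hx
    apply Fintype.card_pos_iff.2
    refine ⟨⟨(x : G ⧸ M), ?_⟩⟩
    rw [MulAction.mem_fixedBy, MulAction.Quotient.smul_coe, QuotientGroup.eq]
    have : (g • x)⁻¹ * x = (x⁻¹ * g * x)⁻¹ := by simp [smul_eq_mul, mul_assoc]
    rw [this]
    exact M.inv_mem hx
  have hone : 2 ≤ Fintype.card (MulAction.fixedBy (G ⧸ M) (1 : G)) := by
    have h1 : MulAction.fixedBy (G ⧸ M) (1 : G) = Set.univ := by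
      ext y
      simp
    have h2 : Fintype.card (MulAction.fixedBy (G ⧸ M) (1 : G)) = Fintype.card (G ⧸ M) := by
      rw [← Fintype.card_congr (Equiv.Set.univ (G ⧸ M))]
      exact Fintype.card_congr (Equiv.setCongr h1)
    rw [h2]
    have h3 : M.index ≠ 1 := fun h => hM (Subgroup.index_eq_one.1 h)
    have h4 : M.index ≠ 0 := Subgroup.index_ne_zero_of_finite
    have h5 : M.index = Fintype.card (G ⧸ M) := by
      rw [Subgroup.index, Nat.card_eq_fintype_card]
    omega
  have hsum : Fintype.card G + 1 ≤ ∑ g : G, Fintype.card (MulAction.fixedBy (G ⧸ M) g) := by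
    rw [← Finset.add_sum_erase Finset.univ _ (Finset.mem_univ (1 : G))]
    have h1 : (Finset.univ.erase (1 : G)).card • 1 ≤
        ∑ g ∈ Finset.univ.erase (1 : G), Fintype.card (MulAction.fixedBy (G ⧸ M) g) :=
      Finset.card_nsmul_le_sum _ _ _ (fun g _ => hfix g)
    rw [Finset.card_erase_of_mem (Finset.mem_univ _), Finset.card_univ, smul_eq_mul, mul_one] at h1
    have h2 : 1 ≤ Fintype.card G := Fintype.card_pos
    omega
  omega

theorem result {G : Type*} [Group G] [Finite G] [Nontrivial G]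
    (h : ∀ M N : Subgroup G, IsCoatom M → IsCoatom N → ∃ g : G, N = MulAut.conj g • M) :
    IsCyclic G ∧ IsPrimePow (Nat.card G) := by
  have hbt : (⊥ : Subgroup G) ≠ ⊤ := bot_ne_top
  obtain ⟨M₀, hM₀, -⟩ := (eq_top_or_exists_le_coatom (⊥ : Subgroup G)).resolve_left hbt
  have hcov : ∀ H : Subgroup G, H ≠ ⊤ → ∃ x : G, H ≤ MulAut.conj x • M₀ := by
    intro H hH
    obtain ⟨N, hN, hHN⟩ := (eq_top_or_exists_le_coatom H).resolve_left hH
    obtain ⟨x, rfl⟩ := h M₀ N hM₀ hN
    exact ⟨x, hHN⟩
  constructor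
  · obtain ⟨g, hg⟩ := exists_not_mem_conj M₀ hM₀.1
    have hz : Subgroup.zpowers g = ⊤ := by
      by_contra hne
      obtain ⟨x, hx⟩ := hcov _ hne
      exact hg x (hx (Subgroup.mem_zpowers g))
    exact isCyclic_iff_exists_zpowers_eq_top.2 ⟨g, hz⟩
  · by_contra hnpp
    have hcard : Nat.card G ∣ Nat.card M₀ := by
      rw [← Nat.factorization_prime_le_iff_dvd Nat.card_pos.ne' Nat.card_pos.ne']
      intro p hp
      have : Fact p.Prime := ⟨hp⟩
      obtain ⟨P⟩ : Nonempty (Sylow p G) := inferInstance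
      have hPcard := P.card_eq_multiplicity
      have hPne : (P : Subgroup G) ≠ ⊤ := by
        intro htop
        apply hnpp
        have h1 : Nat.card G = p ^ (Nat.card G).factorization p := by
          rw [← hPcard]
          rw [htop, Subgroup.card_top]
        have h2 : (Nat.card G).factorization p ≠ 0 := by
          intro h0
          rw [h0, pow_zero] at h1
          have : 1 < Nat.card G := Finite.one_lt_card
          omega
        rw [h1]
        exact ⟨p, _, hp.prime, Nat.pos_of_ne_zero h2, rfl⟩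
      obtain ⟨x, hx⟩ := hcov _ hPne
      have h3 : Nat.card (P : Subgroup G) ∣ Nat.card (MulAut.conj x • M₀ : Subgroup G) :=
        Subgroup.card_dvd_of_le hx
      have h4 : Nat.card (MulAut.conj x • M₀ : Subgroup G) = Nat.card M₀ :=
        (Nat.card_congr (Subgroup.equivSMul (MulAut.conj x) M₀).toEquiv).symm
      rw [h4] at h3
      have h5 : p ^ (Nat.card G).factorization p ∣ Nat.card M₀ := by
        rw [← hPcard]
        exact h3
      exact (hp.pow_dvd_iff_le_factorization Nat.card_pos.ne').1 h5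
    have hle : Nat.card G ≤ Nat.card M₀ := Nat.le_of_dvd Nat.card_pos hcard
    exact hM₀.1 (Subgroup.eq_top_of_le_card _ hle)

end Cfsg.Agent.S4387
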