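import Cfsg.Statements.S4406
import Mathlib
import Cfsg.Agent.Lib.Helper23.FrobSemi

set_option autoImplicit false
open Cfsg

namespace Cfsg.Agent.S4406

open scoped Pointwise

abbrev A4 := ↥(alternatingGroup (Fin 4))

def inB (u v x : A4 × A4) : Prop := x = 1 ∨ x = u ∨ x = v ∨ x = u * v

instance instDecInB (u v x : A4 × A4) : Decidable (inB u v x) := by unfold inB; infer_instance

def nrm (u v r : A4 × A4) : Prop :=
  inB u v (r * u * r⁻¹) ∧ inB u v (r * v * r⁻¹)

instance instDecNrm (u v r : A4 × A4) : Decidable (nrm u v r) := by unfold nrm; infer_instance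

def good (u v : A4 × A4) : Prop :=
  ∀ a : A4, a ≠ 1 → a * a * a = 1 → ∀ b : A4, b ≠ 1 → b * b * b = 1 →
      nrm u v (a, b) ∨ nrm u v (a, b⁻¹)

instance instDecGood (u v : A4 × A4) : Decidable (good u v) := by unfold good; infer_instance

def meets (u v : A4 × A4) : Prop :=
  (u.2 = 1 ∨ v.2 = 1 ∨ (u * v).2 = 1) ∨ (u.1 = 1 ∨ v.1 = 1 ∨ (u * v).1 = 1)

instance instDecMeets (u v : A4 × A4) : Decidable (meets u v) := by unfold meets; infer_instance

set_option synthInstance.maxSize 2000 in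
set_option synthInstance.maxHeartbeats 400000 in
set_option maxRecDepth 1000000 in
theorem core : ∀ u : A4 × A4, u * u = 1 → u ≠ 1 → ∀ v : A4 × A4, v * v = 1 → v ≠ 1 → v ≠ u →
    meets u v ∨ good u v := by
  decide +kernel

set_option maxRecDepth 1000000 in
theorem sq_of_fourth : ∀ x : A4 × A4, (x * x) * (x * x) = 1 → x * x = 1 := by
  decide +kernel

set_option maxRecDepth 1000000 in
theorem cube_of_ninth : ∀ x : A4 × A4, (x * x * x) * (x * x * x) * (x * x * x) = 1 →
    x * x * x = 1 := by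
  decide +kernel

theorem sq_of_pow : ∀ (k : ℕ) (x : A4 × A4), x ^ (2 ^ k) = 1 → x * x = 1 := by
  intro k
  induction k with
  | zero =>
    intro x hx
    rw [pow_zero, pow_one] at hx
    rw [hx, mul_one]
  | succ k ih =>
    intro x hx
    apply sq_of_fourth
    apply ih (x * x)
    rw [← pow_two, ← pow_mul, ← pow_succ']
    exact hx

theorem cube_of_pow : ∀ (k : ℕ) (x : A4 × A4), x ^ (3 ^ k) = 1 → x * x * x = 1 := by
  intro k
  induction k with
  | zero =>
    intro x hx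
    rw [pow_zero, pow_one] at hx
    rw [hx, mul_one, mul_one]
  | succ k ih =>
    intro x hx
    apply cube_of_ninth
    have h3 : x * x * x = x ^ 3 := by rw [pow_succ, pow_two]
    rw [h3]
    have h4 : x ^ 3 * x ^ 3 * x ^ 3 = (x ^ 3) ^ 3 := by rw [pow_succ (x ^ 3), pow_two]
    rw [h4, ← h3]
    apply ih (x * x * x)
    rw [h3, ← pow_mul, ← pow_succ']
    exact hx

def c0 : A4 := ⟨Equiv.swap 0 1 * Equiv.swap 1 2, Equiv.Perm.mem_alternatingGroup.2 (by decide)⟩

theorem c0_ne : c0 ≠ 1 := by decide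
theorem c0_cube : c0 * c0 * c0 = 1 := by decide

theorem exists_in_sylow (Q : Sylow 3 (A4 × A4)) (x : A4 × A4) (hx1 : x ≠ 1)
    (hx3 : x * x * x = 1) : ∃ g : A4 × A4, g * x * g⁻¹ ∈ Q := by
  have hf : Fact (Nat.Prime 3) := ⟨Nat.prime_three⟩
  have hord : orderOf x = 3 := by
    apply orderOf_eq_prime
    · rw [pow_succ, pow_two]
      exact hx3
    · exact hx1
  have hT : IsPGroup 3 (Subgroup.zpowers x) := by
    apply IsPGroup.of_card (n := 1)
    rw [Nat.card_zpowers, hord, pow_one]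
  obtain ⟨Q', hQ'⟩ := hT.exists_le_sylow
  obtain ⟨g, hg⟩ := MulAction.exists_smul_eq (A4 × A4) Q' Q
  refine ⟨g, ?_⟩
  have h1 : x ∈ (Q' : Subgroup (A4 × A4)) := hQ' (Subgroup.mem_zpowers x)
  have h2 : g * x * g⁻¹ ∈ ((g • Q' : Sylow 3 (A4 × A4)) : Subgroup (A4 × A4)) := by
    rw [Sylow.coe_subgroup_smul, Cfsg.Agent.Lib.Helper23.FrobSemi.mem_conj_smul]
    have e : g⁻¹ * (g * x * g⁻¹) * g = x := by group
    rw [e]
    exact h1
  rw [hg] at h2
  exact h2

theorem result
    (X : Sylow 2 (↥(alternatingGroup (Fin 4)) × ↥(alternatingGroup (Fin 4))))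
    (Q : Sylow 3 (↥(alternatingGroup (Fin 4)) × ↥(alternatingGroup (Fin 4))))
    (B : Subgroup (↥(alternatingGroup (Fin 4)) × ↥(alternatingGroup (Fin 4)))) (hBX : B ≤ (X : Subgroup _)) (hB4 : Nat.card ↥B = 4) :
    B ⊓ ((X : Subgroup _) ⊓ Subgroup.prod ⊤ ⊥) ≠ ⊥ ∨ B ⊓ ((X : Subgroup _) ⊓ Subgroup.prod ⊥ ⊤) ≠ ⊥ ∨
      ∃ R : Subgroup (↥(alternatingGroup (Fin 4)) × ↥(alternatingGroup (Fin 4))), R ≤ (Q : Subgroup _) ∧ Nat.card ↥R = 3 ∧
        R ≠ (Q : Subgroup _) ⊓ Subgroup.prod ⊤ ⊥ ∧ R ≠ (Q : Subgroup _) ⊓ Subgroup.prod ⊥ ⊤ ∧ R ≤ Subgroup.normalizer (B : Set _) := by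
  classical
  have hinv : ∀ x ∈ B, x * x = 1 := by
    intro x hx
    obtain ⟨k, hk⟩ := X.isPGroup' ⟨x, hBX hx⟩
    have hk' : x ^ (2 ^ k) = 1 := congrArg Subtype.val hk
    exact sq_of_pow k x hk'
  have hncard : (B : Set (A4 × A4)).ncard = 4 := by
    rw [← Nat.card_coe_set_eq]
    exact hB4
  obtain ⟨u, huB, hu1⟩ : ∃ u ∈ B, u ≠ 1 := by
    by_contra hcon
    push Not at hcon
    have hsub : (B : Set (A4 × A4)) ⊆ {1} := fun x hx => hcon x hx
    have := Set.ncard_le_ncard hsub (Set.finite_singleton _)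
    rw [hncard, Set.ncard_singleton] at this
    omega
  obtain ⟨v, hvB, hv1, hvu⟩ : ∃ v ∈ B, v ≠ 1 ∧ v ≠ u := by
    by_contra hcon
    push Not at hcon
    have hsub : (B : Set (A4 × A4)) ⊆ {1, u} := by
      intro x hx
      by_cases h : x = 1
      · exact Or.inl h
      · exact Or.inr (hcon x hx h)
    have h1 := Set.ncard_le_ncard hsub (Set.toFinite _)
    have h2 : ({1, u} : Set (A4 × A4)).ncard ≤ 2 := by
      refine (Set.ncard_insert_le _ _).trans ?_
      rw [Set.ncard_singleton]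
    rw [hncard] at h1
    omega
  have hu2 := hinv u huB
  have hv2 := hinv v hvB
  have huvB : u * v ∈ B := B.mul_mem huB hvB
  have huv1 : u * v ≠ 1 := by
    intro h
    apply hvu
    calc v = (u * u) * v := by rw [hu2, one_mul]
      _ = u * (u * v) := by rw [mul_assoc]
      _ = u := by rw [h, mul_one]
  have huvu : u * v ≠ u := by
    intro h
    apply hv1
    have := mul_left_cancel (h.trans (mul_one u).symm)
    exact this
  have huvv : u * v ≠ v := by
    intro h
    apply hu1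
    have := mul_right_cancel (h.trans (one_mul v).symm)
    exact this
  have hBset : ∀ x ∈ B, inB u v x := by
    have hsub : ({1, u, v, u * v} : Set (A4 × A4)) ⊆ (B : Set (A4 × A4)) := by
      intro x hx
      rcases hx with rfl | rfl | rfl | rfl
      · exact B.one_mem
      · exact huB
      · exact hvB
      · exact huvB
    have hcard4 : ({1, u, v, u * v} : Set (A4 × A4)).ncard = 4 := by
      have e : ({1, u, v, u * v} : Set (A4 × A4)) =
          (({1, u, v, u * v} : Finset (A4 × A4)) : Set (A4 × A4)) := by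
        push_cast
        rfl
      rw [e, Set.ncard_coe_finset]
      rw [Finset.card_insert_of_notMem, Finset.card_insert_of_notMem,
        Finset.card_insert_of_notMem, Finset.card_singleton]
      · simp only [Finset.mem_singleton]
        exact fun h => huvv h.symm
      · simp only [Finset.mem_insert, Finset.mem_singleton, not_or]
        exact ⟨fun h => hvu h.symm, fun h => huvu h.symm⟩
      · simp only [Finset.mem_insert, Finset.mem_singleton, not_or]
        exact ⟨fun h => hu1 h.symm, fun h => hv1 h.symm, fun h => huv1 h.symm⟩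
    have heq := Set.eq_of_subset_of_ncard_le hsub (by rw [hncard, hcard4]) (Set.toFinite _)
    intro x hx
    have hx' : x ∈ ({1, u, v, u * v} : Set (A4 × A4)) := by
      rw [heq]
      exact hx
    exact hx'
  rcases core u hu2 hu1 v hv2 hv1 hvu with hm | hg
  · have key1 : ∀ w ∈ B, w ≠ 1 → w.2 = 1 →
        B ⊓ ((X : Subgroup (A4 × A4)) ⊓ Subgroup.prod ⊤ ⊥) ≠ ⊥ := by
      intro w hw hw1 hw2 hbot
      have hmem : w ∈ B ⊓ ((X : Subgroup (A4 × A4)) ⊓ Subgroup.prod ⊤ ⊥) :=
        ⟨hw, hBX hw, Subgroup.mem_prod.2 ⟨Subgroup.mem_top _, Subgroup.mem_bot.2 hw2⟩⟩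
      rw [hbot, Subgroup.mem_bot] at hmem
      exact hw1 hmem
    have key2 : ∀ w ∈ B, w ≠ 1 → w.1 = 1 →
        B ⊓ ((X : Subgroup (A4 × A4)) ⊓ Subgroup.prod ⊥ ⊤) ≠ ⊥ := by
      intro w hw hw1 hw2 hbot
      have hmem : w ∈ B ⊓ ((X : Subgroup (A4 × A4)) ⊓ Subgroup.prod ⊥ ⊤) :=
        ⟨hw, hBX hw, Subgroup.mem_prod.2 ⟨Subgroup.mem_bot.2 hw2, Subgroup.mem_top _⟩⟩
      rw [hbot, Subgroup.mem_bot] at hmem
      exact hw1 hmem
    rcases hm with (h | h | h) | (h | h | h)
    · exact Or.inl (key1 u huB hu1 h)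
    · exact Or.inl (key1 v hvB hv1 h)
    · exact Or.inl (key1 (u * v) huvB huv1 h)
    · exact Or.inr (Or.inl (key2 u huB hu1 h))
    · exact Or.inr (Or.inl (key2 v hvB hv1 h))
    · exact Or.inr (Or.inl (key2 (u * v) huvB huv1 h))
  · right; right
    obtain ⟨g1, hg1⟩ := exists_in_sylow Q ((c0, 1) : A4 × A4)
      (by intro h; exact c0_ne (congrArg Prod.fst h))
      (by
        show ((c0 * c0 * c0, 1 * 1 * 1) : A4 × A4) = 1
        rw [c0_cube]
        rfl)
    obtain ⟨g2, hg2⟩ := exists_in_sylow Q ((1, c0) : A4 × A4)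
      (by intro h; exact c0_ne (congrArg Prod.snd h))
      (by
        show ((1 * 1 * 1, c0 * c0 * c0) : A4 × A4) = 1
        rw [c0_cube]
        rfl)
    have ha1 : g1.1 * c0 * g1.1⁻¹ ≠ 1 := by
      intro h
      apply c0_ne
      have e : c0 = g1.1⁻¹ * (g1.1 * c0 * g1.1⁻¹) * g1.1 := by group
      rw [e, h]
      group
    have ha3 : (g1.1 * c0 * g1.1⁻¹) * (g1.1 * c0 * g1.1⁻¹) * (g1.1 * c0 * g1.1⁻¹) = 1 := by
      have e : (g1.1 * c0 * g1.1⁻¹) * (g1.1 * c0 * g1.1⁻¹) * (g1.1 * c0 * g1.1⁻¹) =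
          g1.1 * (c0 * c0 * c0) * g1.1⁻¹ := by group
      rw [e, c0_cube]
      group
    have hb1 : g2.2 * c0 * g2.2⁻¹ ≠ 1 := by
      intro h
      apply c0_ne
      have e : c0 = g2.2⁻¹ * (g2.2 * c0 * g2.2⁻¹) * g2.2 := by group
      rw [e, h]
      group
    have hb3 : (g2.2 * c0 * g2.2⁻¹) * (g2.2 * c0 * g2.2⁻¹) * (g2.2 * c0 * g2.2⁻¹) = 1 := by
      have e : (g2.2 * c0 * g2.2⁻¹) * (g2.2 * c0 * g2.2⁻¹) * (g2.2 * c0 * g2.2⁻¹) =
          g2.2 * (c0 * c0 * c0) * g2.2⁻¹ := by group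
      rw [e, c0_cube]
      group
    have hg1' : ((g1.1 * c0 * g1.1⁻¹, 1) : A4 × A4) ∈ (Q : Subgroup (A4 × A4)) := by
      have e : ((g1.1 * c0 * g1.1⁻¹, 1) : A4 × A4) = g1 * (c0, 1) * g1⁻¹ := by
        ext1
        · rfl
        · show (1 : A4) = g1.2 * 1 * g1.2⁻¹
          group
      rw [e]
      exact hg1
    have hg2' : ((1, g2.2 * c0 * g2.2⁻¹) : A4 × A4) ∈ (Q : Subgroup (A4 × A4)) := by
      have e : ((1, g2.2 * c0 * g2.2⁻¹) : A4 × A4) = g2 * (1, c0) * g2⁻¹ := by
        ext1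
        · show (1 : A4) = g2.1 * 1 * g2.1⁻¹
          group
        · rfl
      rw [e]
      exact hg2
    generalize g1.1 * c0 * g1.1⁻¹ = a at ha1 ha3 hg1'
    generalize g2.2 * c0 * g2.2⁻¹ = b at hb1 hb3 hg2'
    have main : ∀ r : A4 × A4, r ∈ (Q : Subgroup (A4 × A4)) → r.1 ≠ 1 → r.2 ≠ 1 →
        r * r * r = 1 → nrm u v r →
        ∃ R : Subgroup (A4 × A4), R ≤ (Q : Subgroup _) ∧ Nat.card ↥R = 3 ∧
        R ≠ (Q : Subgroup _) ⊓ Subgroup.prod ⊤ ⊥ ∧ R ≠ (Q : Subgroup _) ⊓ Subgroup.prod ⊥ ⊤ ∧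
        R ≤ Subgroup.normalizer (B : Set _) := by
      intro r hrQ hr1 hr2 hr3 hn
      have hrne : r ≠ 1 := fun h => hr1 (congrArg Prod.fst h)
      have hf : Fact (Nat.Prime 3) := ⟨Nat.prime_three⟩
      have hfw : ∀ h ∈ B, r * h * r⁻¹ ∈ B := by
        intro h hh
        have hru : r * u * r⁻¹ ∈ B := by
          rcases hn.1 with e | e | e | e
          · rw [e]; exact B.one_mem
          · rw [e]; exact huB
          · rw [e]; exact hvB
          · rw [e]; exact huvB
        have hrv : r * v * r⁻¹ ∈ B := by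
          rcases hn.2 with e | e | e | e
          · rw [e]; exact B.one_mem
          · rw [e]; exact huB
          · rw [e]; exact hvB
          · rw [e]; exact huvB
        rcases hBset h hh with rfl | rfl | rfl | rfl
        · have e : r * 1 * r⁻¹ = 1 := by group
          rw [e]
          exact B.one_mem
        · exact hru
        · exact hrv
        · have e : r * (u * v) * r⁻¹ = (r * u * r⁻¹) * (r * v * r⁻¹) := by group
          rw [e]
          exact B.mul_mem hru hrv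
      refine ⟨Subgroup.zpowers r, ?_, ?_, ?_, ?_, ?_⟩
      · rw [Subgroup.zpowers_le]
        exact hrQ
      · rw [Nat.card_zpowers]
        apply orderOf_eq_prime
        · rw [pow_succ, pow_two]
          exact hr3
        · exact hrne
      · intro h
        have hmem : r ∈ (Q : Subgroup (A4 × A4)) ⊓ Subgroup.prod ⊤ ⊥ := by
          rw [← h]
          exact Subgroup.mem_zpowers r
        exact hr2 (Subgroup.mem_bot.1 (Subgroup.mem_prod.1 hmem.2).2)
      · intro h
        have hmem : r ∈ (Q : Subgroup (A4 × A4)) ⊓ Subgroup.prod ⊥ ⊤ := by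
          rw [← h]
          exact Subgroup.mem_zpowers r
        exact hr1 (Subgroup.mem_bot.1 (Subgroup.mem_prod.1 hmem.2).1)
      · rw [Subgroup.zpowers_le, Subgroup.mem_normalizer_iff]
        intro h
        constructor
        · exact hfw h
        · intro hh
          have h2 := hfw _ (hfw _ hh)
          have e : r * (r * (r * h * r⁻¹) * r⁻¹) * r⁻¹ = (r * r * r) * h * (r * r * r)⁻¹ := by
            group
          rw [e, hr3] at h2
          simpa using h2
    rcases hg a ha1 ha3 b hb1 hb3 with hn | hn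
    · apply main (a, b) _ ha1 hb1 _ hn
      · have e : ((a, b) : A4 × A4) = (a, 1) * (1, b) := by
          ext1 <;> simp
        rw [e]
        exact Subgroup.mul_mem _ hg1' hg2'
      · show ((a * a * a, b * b * b) : A4 × A4) = 1
        rw [ha3, hb3]
        rfl
    · have hbi1 : b⁻¹ ≠ 1 := fun h => hb1 (inv_eq_one.1 h)
      have hbi3 : b⁻¹ * b⁻¹ * b⁻¹ = 1 := by
        have e : b⁻¹ * b⁻¹ * b⁻¹ = (b * b * b)⁻¹ := by group
        rw [e, hb3, inv_one]
      apply main (a, b⁻¹) _ ha1 hbi1 _ hn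
      · have e : ((a, b⁻¹) : A4 × A4) = (a, 1) * (1, b)⁻¹ := by
          ext1 <;> simp
        rw [e]
        exact Subgroup.mul_mem _ hg1' (Subgroup.inv_mem _ hg2')
      · show ((a * a * a, b⁻¹ * b⁻¹ * b⁻¹) : A4 × A4) = 1
        rw [ha3, hbi3]
        rfl

end Cfsg.Agent.S4406
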