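import Cfsg.Statements.S4410
import Mathlib
import Cfsg.Agent.Lib.Helper9.Cores
import Cfsg.Agent.Lib.Helper9.Components
import Cfsg.Agent.Lib.Helper9.Misc
import Cfsg.Agent.Lib.Lead.Cores

set_option autoImplicit false
open Cfsg

namespace Cfsg.Agent.S4410

section lin

variable {V : Type*} [AddCommGroup V] [Module (ZMod 2) V]

theorem aa (v : V) : v + v = 0 := ZModModule.add_self v

theorem aab (a b : V) : a + (a + b) = b := by rw [← add_assoc, aa, zero_add]

theorem app_inv (f : V ≃ₗ[ZMod 2] V) (v : V) : f (f⁻¹ v) = v := by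
  rw [← LinearEquiv.mul_apply, mul_inv_cancel]; rfl

theorem inv_app (f : V ≃ₗ[ZMod 2] V) (v : V) : f⁻¹ (f v) = v := by
  rw [← LinearEquiv.mul_apply, inv_mul_cancel]; rfl

theorem invol (g : V ≃ₗ[ZMod 2] V) (d : V) (hd : g d = d) (h : ∀ v, g v = v ∨ g v = v + d)
    (v : V) : g (g v) = v := by
  rcases h v with h1 | h1
  · rw [h1, h1]
  · rw [h1, map_add, h1, hd, add_assoc, aa, add_zero]

theorem pow4 (T u : V ≃ₗ[ZMod 2] V) (c c' : V) (hTc : T c = c) (hTc' : T c' = c')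
    (huc' : u c' = c') (hT : ∀ v, T v = v ∨ T v = v + c) (hu : ∀ v, u v = v ∨ u v = v + c') :
    (u * T) ^ 4 = 1 := by
  obtain ⟨y, hy⟩ : ∃ y : V ≃ₗ[ZMod 2] V, y = u * T := ⟨_, rfl⟩
  rw [← hy]
  have hyv : ∀ v, y v = u (T v) := fun v => by rw [hy]; rfl
  have hyc' : y c' = c' := by rw [hyv, hTc', huc']
  have hyc : y c = c ∨ y c = c + c' := by rw [hyv, hTc]; exact hu c
  have hyw : ∀ v, y v = v ∨ y v = v + c ∨ y v = v + c' ∨ y v = v + (c + c') := by
    intro v
    rw [hyv]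
    rcases hT v with h | h
    · rw [h]
      rcases hu v with h' | h'
      · left; exact h'
      · right; right; left; exact h'
    · rw [h, map_add]
      rcases hu v with h' | h' <;> rcases hu c with h'' | h'' <;> rw [h', h'']
      · right; left; rfl
      · right; right; right; rfl
      · right; right; right
        simp [add_assoc, add_left_comm, add_comm, aa, aab]
      · right; left
        simp [add_assoc, add_left_comm, add_comm, aa, aab]
  have e4 : y ^ 4 = (y * y) * (y * y) := by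
    rw [show (4 : ℕ) = 2 + 2 from rfl, pow_add, pow_two]
  rw [e4]
  rcases hyc with hc1 | hc2
  · have h1 : y * y = 1 := by
      ext v
      show y (y v) = v
      rcases hyw v with h | h | h | h
      · rw [h, h]
      · rw [h, map_add, h, hc1]
        simp [add_assoc, add_left_comm, add_comm, aa, aab]
      · rw [h, map_add, h, hyc']
        simp [add_assoc, add_left_comm, add_comm, aa, aab]
      · rw [h, map_add, map_add, h, hc1, hyc']
        simp [add_assoc, add_left_comm, add_comm, aa, aab]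
    rw [h1, one_mul]
  · have h1 : ∀ v, (y * y) v = v ∨ (y * y) v = v + c' := by
      intro v
      show y (y v) = v ∨ y (y v) = v + c'
      rcases hyw v with h | h | h | h
      · left; rw [h, h]
      · right; rw [h, map_add, h, hc2]
        simp [add_assoc, add_left_comm, add_comm, aa, aab]
      · left; rw [h, map_add, h, hyc']
        simp [add_assoc, add_left_comm, add_comm, aa, aab]
      · right; rw [h, map_add, map_add, h, hc2, hyc']
        simp [add_assoc, add_left_comm, add_comm, aa, aab]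
    ext v
    exact invol (y * y) c' (by show y (y c') = c'; rw [hyc', hyc']) h1 v

theorem stepA (Q : Subgroup (V ≃ₗ[ZMod 2] V)) (hodd : Odd (Nat.card Q))
    (T : V ≃ₗ[ZMod 2] V) (hTQ : ∀ x ∈ Q, T * x * T⁻¹ ∈ Q) (c : V) (hTc : T c = c)
    (hT : ∀ v, T v = v ∨ T v = v + c) (x : V ≃ₗ[ZMod 2] V) (hx : x ∈ Q)
    (hxc : T (x c) = x c) : x * T = T * x := by
  have hTT : T * T = 1 := by
    ext v; exact invol T c hTc hT v
  have hTinv : T⁻¹ = T := inv_eq_of_mul_eq_one_left hTT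
  obtain ⟨u, hu⟩ : ∃ u : V ≃ₗ[ZMod 2] V, u = x * T * x⁻¹ := ⟨_, rfl⟩
  have huv : ∀ v, u v = x (T (x⁻¹ v)) := fun v => by rw [hu]; rfl
  have hyQ : u * T ∈ Q := by
    have h1 : u * T = x * (T * x⁻¹ * T⁻¹) := by rw [hu, hTinv]; group
    rw [h1]; exact Q.mul_mem hx (hTQ _ (Q.inv_mem hx))
  have hu1 : ∀ v, u v = v ∨ u v = v + x c := by
    intro v
    rcases hT (x⁻¹ v) with h | h
    · left; rw [huv, h, app_inv]
    · right; rw [huv, h, map_add, app_inv]
  have huc' : u (x c) = x c := by rw [huv, inv_app, hTc]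
  have h4 : (u * T) ^ 4 = 1 := pow4 T u c (x c) hTc hxc huc' hT hu1
  have hm : (u * T) ^ (Nat.card Q) = 1 := by
    have := pow_card_eq_one' (G := Q) (x := ⟨u * T, hyQ⟩)
    exact congrArg Subtype.val this
  have hy1 : u * T = 1 := by
    have h1 : orderOf (u * T) ∣ 4 := orderOf_dvd_of_pow_eq_one h4
    have h2 : orderOf (u * T) ∣ Nat.card Q := orderOf_dvd_of_pow_eq_one hm
    have h3 : Nat.Coprime 4 (Nat.card Q) := by
      have h0 : Nat.Coprime 2 (Nat.card Q) := Nat.coprime_two_left.2 hodd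
      exact Nat.Coprime.pow_left 2 h0
    have h5 : orderOf (u * T) ∣ Nat.gcd 4 (Nat.card Q) := Nat.dvd_gcd h1 h2
    rw [h3] at h5
    exact orderOf_eq_one_iff.1 (Nat.dvd_one.1 h5)
  have h6 : u = T := by
    have : u = T⁻¹ := eq_inv_of_mul_eq_one_left hy1
    rw [this, hTinv]
  rw [hu] at h6
  calc x * T = (x * T * x⁻¹) * x := by group
    _ = T * x := by rw [h6]

theorem eq_of_add_eq_zero2 (a b : V) (h : a + b = 0) : a = b := by
  rw [← add_zero a, ← aa b, ← add_assoc, h, zero_add]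

theorem core (Q : Subgroup (V ≃ₗ[ZMod 2] V)) (hodd : Odd (Nat.card Q))
    (P : V ≃ₗ[ZMod 2] V) (hPQ : ∀ x ∈ Q, P * x * P⁻¹ ∈ Q) (c : V) (hc : c ≠ 0) (hPc : P c = c)
    (hT : ∀ v, P (P v) = v ∨ P (P v) = v + c) (x : V ≃ₗ[ZMod 2] V) (hx : x ∈ Q) :
    x * (P * P) = (P * P) * x := by
  by_contra hne
  obtain ⟨T, hTdef⟩ : ∃ T : V ≃ₗ[ZMod 2] V, T = P * P := ⟨_, rfl⟩
  rw [← hTdef] at hne
  have hTv : ∀ v, T v = P (P v) := fun v => by rw [hTdef]; rfl
  have hT' : ∀ v, T v = v ∨ T v = v + c := fun v => by rw [hTv]; exact hT v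
  have hTc : T c = c := by rw [hTv, hPc, hPc]
  have hTQ : ∀ x ∈ Q, T * x * T⁻¹ ∈ Q := by
    intro z hz
    have e : T * z * T⁻¹ = P * (P * z * P⁻¹) * P⁻¹ := by rw [hTdef]; group
    rw [e]; exact hPQ _ (hPQ _ hz)
  obtain ⟨v₀, hv₀⟩ : ∃ v₀, T v₀ ≠ v₀ := by
    by_contra hall
    push Not at hall
    apply hne
    have : T = 1 := by ext v; exact hall v
    rw [this, mul_one, one_mul]
  have hv₀' : T v₀ = v₀ + c := (hT' v₀).resolve_left hv₀
  have hB : ∀ z : V ≃ₗ[ZMod 2] V, z * T = T * z → z c = c := by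
    intro z hz
    have h1 : z (T v₀) = T (z v₀) := congrArg (fun f : V ≃ₗ[ZMod 2] V => f v₀) hz
    rw [hv₀', map_add] at h1
    rcases hT' (z v₀) with h | h
    · rw [h] at h1
      exfalso
      have h2 : z c = 0 := add_left_cancel (a := z v₀) (by rw [add_zero]; exact h1)
      apply hc
      have h3 : z c = z 0 := by rw [h2, map_zero]
      exact z.injective h3
    · rw [h] at h1
      exact add_left_cancel h1
  have hA : ∀ z ∈ Q, z c ≠ c → T (z c) = z c + c := by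
    intro z hz hzc
    rcases hT' (z c) with h | h
    · exact absurd (hB z (stepA Q hodd T hTQ c hTc hT' z hz h)) hzc
    · exact h
  have hxc : x c ≠ c := by
    intro h
    apply hne
    exact stepA Q hodd T hTQ c hTc hT' x hx (by rw [h, hTc])
  obtain ⟨c₁, hc₁⟩ : ∃ c₁, c₁ = x c := ⟨_, rfl⟩
  have hTc₁ : T c₁ = c₁ + c := by rw [hc₁]; exact hA x hx hxc
  have hx'c : (T * x * T⁻¹) c = c₁ + c := by
    show T (x (T⁻¹ c)) = c₁ + c
    have h1 : T⁻¹ c = c := by
      have h2 := inv_app T c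
      rw [hTc] at h2; exact h2
    rw [h1, ← hc₁, hTc₁]
  have hC : ∀ z ∈ Q, z c = c ∨ z c = c₁ ∨ z c = c₁ + c := by
    intro z hz
    by_contra hcon
    push Not at hcon
    obtain ⟨h1, h2, h3⟩ := hcon
    have e1 : (z⁻¹ * x) c ≠ c := by
      intro h
      apply h2
      have h' : z⁻¹ (x c) = c := h
      rw [← hc₁] at h'
      rw [← h', app_inv]
    have e2 : (z⁻¹ * (T * x * T⁻¹)) c ≠ c := by
      intro h
      apply h3
      have h' : z⁻¹ ((T * x * T⁻¹) c) = c := h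
      rw [hx'c] at h'
      calc z c = z (z⁻¹ (c₁ + c)) := by rw [h']
        _ = c₁ + c := app_inv z _
    have f1 := hA (z⁻¹ * x) (Q.mul_mem (Q.inv_mem hz) hx) e1
    have f2 := hA (z⁻¹ * (T * x * T⁻¹)) (Q.mul_mem (Q.inv_mem hz) (hTQ x hx)) e2
    have g1 : T (z⁻¹ c₁) = z⁻¹ c₁ + c := by rw [hc₁]; exact f1
    have g2 : T (z⁻¹ (c₁ + c)) = z⁻¹ (c₁ + c) + c := by rw [← hx'c]; exact f2
    rw [map_add, map_add, g1] at g2
    have g3 : T (z⁻¹ c) = z⁻¹ c := by
      have h' : z⁻¹ c₁ + (c + T (z⁻¹ c)) = z⁻¹ c₁ + (c + z⁻¹ c) := by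
        rw [← add_assoc, g2]; abel
      exact add_left_cancel (add_left_cancel h')
    have g4 := hB z⁻¹ (stepA Q hodd T hTQ c hTc hT' z⁻¹ (Q.inv_mem hz) g3)
    apply h1
    calc z c = z (z⁻¹ c) := by rw [g4]
      _ = c := app_inv z c
  have hPinvc : P⁻¹ c = c := by
    have h2 := inv_app P c
    rw [hPc] at h2; exact h2
  have hD := hC (P * x * P⁻¹) (hPQ x hx)
  have e : (P * x * P⁻¹) c = P c₁ := by
    show P (x (P⁻¹ c)) = P c₁
    rw [hPinvc, hc₁]
  rw [e] at hD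
  have hc₁c : c₁ ≠ c := by rw [hc₁]; exact hxc
  rcases hD with h | h | h
  · apply hc₁c
    apply P.injective
    rw [h, hPc]
  · have h' : T c₁ = c₁ := by rw [hTv, h, h]
    rw [hTc₁] at h'
    apply hc
    exact add_left_cancel (a := c₁) (by rw [add_zero]; exact h')
  · have h' : T c₁ = c₁ := by
      rw [hTv, h, map_add, h, hPc, add_assoc, aa, add_zero]
    rw [hTc₁] at h'
    apply hc
    exact add_left_cancel (a := c₁) (by rw [add_zero]; exact h')

end lin

/-- Let V be a finite-dimensional vector space over the field with two elements and S a solvable group of linear automorphisms of V with O₂(S) = 1. If P ∈ S has order 4 and (P − 1)³ = 0 on V, then the image of (P − 1)² has at least 4 elements; equivalently, in the decomposition of V into indecomposable modules for the cyclic group generated by P, at least two summands have dimension 3. -/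
theorem result
    {V : Type*} [AddCommGroup V] [Module (ZMod 2) V] [Finite V]
    (S : Subgroup (V ≃ₗ[ZMod 2] V)) (hS : Group.IsSolvable ↥S) (hO2 : Cfsg.pCore 2 ↥S = ⊥)
    (P : V ≃ₗ[ZMod 2] V) (hPS : P ∈ S) (hP4 : orderOf P = 4)
    (hcub : ((P : V →ₗ[ZMod 2] V) - LinearMap.id) ^ 3 = 0) :
    4 ≤ Nat.card ↥(LinearMap.range (((P : V →ₗ[ZMod 2] V) - LinearMap.id) ^ 2)) := by
  classical
  by_contra hlt
  push Not at hlt
  have hfin : Finite (V ≃ₗ[ZMod 2] V) := Finite.of_injective (fun f : V ≃ₗ[ZMod 2] V => (f : V → V))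
    DFunLike.coe_injective
  have hS' := hS
  obtain ⟨N, hN⟩ : ∃ N : V →ₗ[ZMod 2] V, N = (P : V →ₗ[ZMod 2] V) - LinearMap.id := ⟨_, rfl⟩
  rw [← hN] at hcub hlt
  have hNv : ∀ v, N v = P v + v := by
    intro v; rw [hN]; simp [ZModModule.sub_eq_add]
  have hN2 : ∀ v, (N ^ 2) v = P (P v) + v := by
    intro v
    rw [pow_two, Module.End.mul_apply, hNv, hNv, map_add]
    simp [add_assoc, add_left_comm, add_comm, aa, aab]
  have hN3 : ∀ v, N ((N ^ 2) v) = 0 := by
    intro v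
    have h1 : (N ^ 3) v = 0 := by rw [hcub]; rfl
    rw [pow_succ'] at h1
    exact h1
  obtain ⟨v₀, hv₀⟩ : ∃ v₀, P (P v₀) ≠ v₀ := by
    by_contra hall
    push Not at hall
    have h1 : P ^ 2 = 1 := by
      rw [pow_two]; ext v; exact hall v
    have h2 : orderOf P ∣ 2 := orderOf_dvd_of_pow_eq_one h1
    rw [hP4] at h2
    omega
  obtain ⟨c, hcdef⟩ : ∃ c, c = (N ^ 2) v₀ := ⟨_, rfl⟩
  have hc0 : c ≠ 0 := by
    intro h
    rw [hcdef, hN2] at h
    exact hv₀ (eq_of_add_eq_zero2 _ _ h)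
  have hmem : ∀ w, (N ^ 2) w ∈ LinearMap.range (N ^ 2) := fun w => LinearMap.mem_range_self _ w
  have hR : ∀ v, (N ^ 2) v = 0 ∨ (N ^ 2) v = c := by
    intro v
    by_contra hcon
    push Not at hcon
    obtain ⟨hd0, hdc⟩ := hcon
    obtain ⟨d, hd⟩ : ∃ d, d = (N ^ 2) v := ⟨_, rfl⟩
    rw [← hd] at hd0 hdc
    obtain ⟨e0, he0⟩ : ∃ e0 : ↥(LinearMap.range (N ^ 2)), (e0 : V) = 0 := ⟨0, rfl⟩
    obtain ⟨e1, he1⟩ : ∃ e1 : ↥(LinearMap.range (N ^ 2)), (e1 : V) = c :=
      ⟨⟨c, by rw [hcdef]; exact hmem v₀⟩, rfl⟩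
    obtain ⟨e2, he2⟩ : ∃ e2 : ↥(LinearMap.range (N ^ 2)), (e2 : V) = d :=
      ⟨⟨d, by rw [hd]; exact hmem v⟩, rfl⟩
    obtain ⟨e3, he3⟩ : ∃ e3 : ↥(LinearMap.range (N ^ 2)), (e3 : V) = c + d :=
      ⟨⟨c + d, by rw [hcdef, hd, ← map_add]; exact hmem _⟩, rfl⟩
    have h01 : e0 ≠ e1 := fun h => hc0 (by rw [← he1, ← h, he0])
    have h02 : e0 ≠ e2 := fun h => hd0 (by rw [← he2, ← h, he0])
    have h03 : e0 ≠ e3 := fun h => hdc (by
      have h' : c + d = 0 := by rw [← he3, ← h, he0]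
      exact (eq_of_add_eq_zero2 _ _ h').symm)
    have h12 : e1 ≠ e2 := fun h => hdc (by rw [← he2, ← h, he1])
    have h13 : e1 ≠ e3 := fun h => hd0 (by
      have h' : c = c + d := by rw [← he3, ← h, he1]
      exact left_eq_add.1 h')
    have h23 : e2 ≠ e3 := fun h => hc0 (by
      have h' : d = c + d := by rw [← he3, ← h, he2]
      exact right_eq_add.1 h')
    haveI : Fintype ↥(LinearMap.range (N ^ 2)) := Fintype.ofFinite _
    have h4 : ({e0, e1, e2, e3} : Finset ↥(LinearMap.range (N ^ 2))).card = 4 := by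
      rw [Finset.card_insert_of_notMem, Finset.card_insert_of_notMem,
        Finset.card_insert_of_notMem, Finset.card_singleton]
      · simp [h23]
      · simp [h12, h13]
      · simp [h01, h02, h03]
    have h5 := Finset.card_le_univ ({e0, e1, e2, e3} : Finset ↥(LinearMap.range (N ^ 2)))
    rw [h4, ← Nat.card_eq_fintype_card] at h5
    omega
  have hT : ∀ v, P (P v) = v ∨ P (P v) = v + c := by
    intro v
    rcases hR v with h | h
    · left; rw [hN2] at h; exact eq_of_add_eq_zero2 _ _ h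
    · right; rw [hN2] at h
      rw [← h]; simp [add_assoc, add_left_comm, add_comm, aa, aab]
  have hPc : P c = c := by
    have h1 := hN3 v₀
    rw [← hcdef, hNv] at h1
    exact eq_of_add_eq_zero2 _ _ h1
  obtain ⟨t, ht⟩ : ∃ t : ↥S, (t : V ≃ₗ[ZMod 2] V) = P * P := ⟨⟨P * P, S.mul_mem hPS hPS⟩, rfl⟩
  have hcen : ∀ q : ℕ, q.Prime → ∀ x ∈ Cfsg.pCore q ↥S, x * t = t * x := by
    intro q hq x hx
    by_cases hq2 : q = 2
    · subst hq2; rw [hO2, Subgroup.mem_bot] at hx; rw [hx]; simp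
    · have hqf : Fact q.Prime := ⟨hq⟩
      have hQp : IsPGroup q ↥(Cfsg.pCore q ↥S) := Cfsg.Agent.Lib.Helper9.pCore_isPGroup q ↥S
      have hQn : (Cfsg.pCore q ↥S).Normal := Cfsg.Agent.Lib.Lead.Cores.pCore_normal q
      obtain ⟨Q, hQ⟩ : ∃ Q : Subgroup (V ≃ₗ[ZMod 2] V), Q = (Cfsg.pCore q ↥S).map S.subtype :=
        ⟨_, rfl⟩
      have hQodd : Odd (Nat.card Q) := by
        have h1 : Nat.card Q = Nat.card (Cfsg.pCore q ↥S) := by
          rw [hQ]; exact Subgroup.card_map_of_injective S.subtype_injective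
        obtain ⟨k, hk⟩ := hQp.exists_card_eq
        rw [h1, hk]
        exact Odd.pow (hq.odd_of_ne_two hq2)
      have hPQ : ∀ z ∈ Q, P * z * P⁻¹ ∈ Q := by
        intro z hz
        rw [hQ] at hz ⊢
        obtain ⟨z', hz', rfl⟩ := hz
        exact ⟨⟨P, hPS⟩ * z' * ⟨P, hPS⟩⁻¹, hQn.conj_mem z' hz' ⟨P, hPS⟩, rfl⟩
      have h2 := core Q hQodd P hPQ c hc0 hPc hT (x : V ≃ₗ[ZMod 2] V)
        (by rw [hQ]; exact ⟨x, hx, rfl⟩)
      apply Subtype.ext
      show (x : V ≃ₗ[ZMod 2] V) * (t : V ≃ₗ[ZMod 2] V) = (t : V ≃ₗ[ZMod 2] V) * x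
      rw [ht]; exact h2
  have ht2 : t * t = 1 := by
    apply Subtype.ext
    show (t : V ≃ₗ[ZMod 2] V) * (t : V ≃ₗ[ZMod 2] V) = 1
    rw [ht]
    have h1 : P ^ 4 = 1 := by rw [← hP4]; exact pow_orderOf_eq_one P
    rw [← h1, show (4 : ℕ) = 2 + 2 from rfl, pow_add, pow_two]
  have htF : t ∈ Subgroup.centralizer (Cfsg.fittingSubgroup ↥S : Set ↥S) := by
    rw [Subgroup.mem_centralizer_iff]
    intro x hx
    have hx' : x ∈ Cfsg.fittingSubgroup ↥S := hx
    rw [Cfsg.Agent.Lib.Lead.Cores.fittingSubgroup_eq_iSup_pCore] at hx'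
    have hle : (⨆ p : Nat.Primes, Cfsg.pCore (p : ℕ) ↥S) ≤
        Subgroup.centralizer ({t} : Set ↥S) := by
      apply iSup_le
      intro p y hy
      rw [Subgroup.mem_centralizer_singleton_iff]
      exact hcen p p.2 y hy
    exact Subgroup.mem_centralizer_singleton_iff.1 (hle hx')
  have hCF : Subgroup.centralizer (Cfsg.fittingSubgroup ↥S : Set ↥S) ≤ Cfsg.fittingSubgroup ↥S :=
    (Cfsg.Agent.Lib.Helper9.layer_eq_bot_iff ↥S).2
      (Cfsg.Agent.Lib.Helper9.layer_eq_bot_of_isSolvable ↥S)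
  have hFn : (Cfsg.fittingSubgroup ↥S).Normal := Cfsg.Agent.Lib.Lead.Cores.fittingSubgroup_normal
  let T₂ : Subgroup ↥S :=
    { carrier := {z | z ∈ Cfsg.fittingSubgroup ↥S ∧
        z ∈ Subgroup.centralizer (Cfsg.fittingSubgroup ↥S : Set ↥S) ∧ z * z = 1}
      one_mem' := ⟨one_mem _, one_mem _, mul_one 1⟩
      mul_mem' := by
        rintro a b ⟨ha1, ha2, ha3⟩ ⟨hb1, hb2, hb3⟩
        refine ⟨mul_mem ha1 hb1, mul_mem ha2 hb2, ?_⟩
        have hab : b * a = a * b := Subgroup.mem_centralizer_iff.1 ha2 b hb1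
        calc a * b * (a * b) = a * (b * a) * b := by group
          _ = a * (a * b) * b := by rw [hab]
          _ = (a * a) * (b * b) := by group
          _ = 1 := by rw [ha3, hb3, one_mul]
      inv_mem' := by
        rintro a ⟨ha1, ha2, ha3⟩
        refine ⟨inv_mem ha1, inv_mem ha2, ?_⟩
        calc a⁻¹ * a⁻¹ = (a * a)⁻¹ := by group
          _ = 1 := by rw [ha3, inv_one] }
  have hT₂n : T₂.Normal := by
    constructor
    rintro z ⟨hz1, hz2, hz3⟩ s
    refine ⟨hFn.conj_mem z hz1 s, (Subgroup.normal_centralizer).conj_mem z hz2 s, ?_⟩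
    calc s * z * s⁻¹ * (s * z * s⁻¹) = s * (z * z) * s⁻¹ := by group
      _ = 1 := by rw [hz3]; group
  have hT₂p : IsPGroup 2 T₂ := by
    intro z
    refine ⟨1, ?_⟩
    apply Subtype.ext
    rw [pow_one, pow_two]
    exact z.2.2.2
  have hle := Cfsg.Agent.Lib.Lead.Cores.le_pCore hT₂n hT₂p
  have ht1 : t ∈ Cfsg.pCore 2 ↥S := hle ⟨hCF htF, htF, ht2⟩
  rw [hO2, Subgroup.mem_bot] at ht1
  have hPP : P * P = 1 := by rw [← ht, ht1]; rfl
  apply hv₀
  have h1 : (P * P) v₀ = v₀ := by rw [hPP]; rfl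
  exact h1

end Cfsg.Agent.S4410
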