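import Mathlib
import Cfsg.Statements.S4412
import Cfsg.Agent.Lib.Helper23.Weight1
import Cfsg.Agent.Lib.Helper23.Weight2

set_option autoImplicit false
open Cfsg

namespace Cfsg.Agent.S4412

open Cfsg.Agent.Lib.Helper23.Weight in
/-- Let p be an odd prime, P a finite p-group and I an elementary abelian subgroup of order 8 of Aut(P). Call T ∈ I, T ≠ 1, broad when its fixed-point subgroup C_P(T) is not cyclic. Suppose I has a proper subgroup I₀ containing no broad element such that the product of any two broad elements lies in I₀. Then P is abelian of rank exactly 3 (generated by three elements but not by two), there are exactly three broad elements and they generate I, and I₀ is exactly the set of products of two broad elements. -/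
theorem result
    {P : Type*} [Group P] [Finite P] (p : ℕ) (hp : p.Prime) (hp2 : p ≠ 2) (hP : IsPGroup p P)
    (I : Subgroup (MulAut P)) (hI : Cfsg.IsElementaryAbelian 2 I) (hI8 : Nat.card ↥I = 8)
    (I₀ : Subgroup (MulAut P)) (hI₀ : I₀ < I)
    (hdisj : ∀ T ∈ I₀, T ≠ 1 → ∃ g : P, ∀ x : P, (T x = x ↔ x ∈ Subgroup.zpowers g))
    (hprod : ∀ T ∈ I, ∀ T' ∈ I, T ≠ 1 → T' ≠ 1 → (¬ ∃ g : P, ∀ x : P, (T x = x ↔ x ∈ Subgroup.zpowers g)) →
      (¬ ∃ g : P, ∀ x : P, (T' x = x ↔ x ∈ Subgroup.zpowers g)) → T * T' ∈ I₀) :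
    IsMulCommutative P ∧ (∃ a b c : P, Subgroup.closure {a, b, c} = ⊤) ∧ (¬ ∃ a b : P, Subgroup.closure {a, b} = ⊤) ∧
      Nat.card {T : MulAut P // T ∈ I ∧ T ≠ 1 ∧ ¬ ∃ g : P, ∀ x : P, (T x = x ↔ x ∈ Subgroup.zpowers g)} = 3 ∧
      Subgroup.closure {T : MulAut P | T ∈ I ∧ T ≠ 1 ∧ ¬ ∃ g : P, ∀ x : P, (T x = x ↔ x ∈ Subgroup.zpowers g)} = I ∧
      (I₀ : Set (MulAut P)) = {S : MulAut P | ∃ T T' : MulAut P, T ∈ I ∧ T' ∈ I ∧ T ≠ 1 ∧ T' ≠ 1 ∧
        (¬ ∃ g : P, ∀ x : P, (T x = x ↔ x ∈ Subgroup.zpowers g)) ∧ (¬ ∃ g : P, ∀ x : P, (T' x = x ↔ x ∈ Subgroup.zpowers g)) ∧ S = T * T'} := by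
  haveI : Fact p.Prime := ⟨hp⟩
  have hIc : ∀ S ∈ I, ∀ T ∈ I, S * T = T * S := by
    intro S hS T hT
    exact congrArg Subtype.val (hI.1.is_comm.comm ⟨S, hS⟩ ⟨T, hT⟩)
  have hIi : ∀ T ∈ I, T * T = 1 := by
    intro T hT
    rw [← pow_two]
    exact hI.2 T hT
  obtain ⟨a, haI, b, hbI, c, hcI, x₁, x₂, x₃, hx₁, hx₂, hx₃, ha1, ha2, ha3, hb1, hb2, hb3,
    hc1, hc2, hc3⟩ := basis p hp2 hP I hIc hIi hI8
  have hn₁ := inv_ne p hp2 hP x₁ hx₁
  have hn₂ := inv_ne p hp2 hP x₂ hx₂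
  have hn₃ := inv_ne p hp2 hP x₃ hx₃
  have henum := enum I hI8 a b c haI hbI hcI x₁ x₂ x₃ hn₁ hn₂ hn₃ ha1 ha2 ha3 hb1 hb2 hb3
    hc1 hc2 hc3
  have hcp : ∀ S ∈ I, ∀ T ∈ I, ∀ x, S (T x) = T (S x) := by
    intro S hS T hT x
    have h2 := congrArg (fun f : MulAut P => f x) (hIc S hS T hT)
    simpa [MulAut.mul_apply] using h2
  have hexcl : ∀ S ∈ I, ∀ T ∈ I, ∀ g : P, (∀ x, S x = x ↔ x ∈ Subgroup.zpowers g) →
      ∀ z x : P, S z = z → S x = x → T z = z → T x = x⁻¹ → z = 1 ∨ x = 1 := by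
    intro S hS T hT g hg z x hSz hSx hTz hTx
    refine cyc_key p hp2 hP T g z x ?_ ((hg z).mp hSz) ((hg x).mp hSx) hTz hTx
    rw [← hg, hcp S hS T hT, (hg g).mpr (Subgroup.mem_zpowers g)]
  have hba : ¬ ∃ g : P, ∀ x : P, (a x = x ↔ x ∈ Subgroup.zpowers g) := by
    rintro ⟨g, hg⟩
    rcases hexcl a haI b hbI g hg x₃ x₂ ha3 ha2 hb3 hb2 with h | h
    · exact hx₃ h
    · exact hx₂ h
  have hbb : ¬ ∃ g : P, ∀ x : P, (b x = x ↔ x ∈ Subgroup.zpowers g) := by
    rintro ⟨g, hg⟩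
    rcases hexcl b hbI a haI g hg x₃ x₁ hb3 hb1 ha3 ha1 with h | h
    · exact hx₃ h
    · exact hx₁ h
  have hbc : ¬ ∃ g : P, ∀ x : P, (c x = x ↔ x ∈ Subgroup.zpowers g) := by
    rintro ⟨g, hg⟩
    rcases hexcl c hcI a haI g hg x₂ x₁ hc2 hc1 ha2 ha1 with h | h
    · exact hx₂ h
    · exact hx₁ h
  have ha_ne : a ≠ 1 := by
    intro h
    rw [h, MulAut.one_apply] at ha1
    exact hn₁ ha1.symm
  have hb_ne : b ≠ 1 := by
    intro h
    rw [h, MulAut.one_apply] at hb2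
    exact hn₂ hb2.symm
  have hc_ne : c ≠ 1 := by
    intro h
    rw [h, MulAut.one_apply] at hc3
    exact hn₃ hc3.symm
  have habI₀ : a * b ∈ I₀ := hprod a haI b hbI ha_ne hb_ne hba hbb
  have hacI₀ : a * c ∈ I₀ := hprod a haI c hcI ha_ne hc_ne hba hbc
  have hbcI₀ : b * c ∈ I₀ := hprod b hbI c hcI hb_ne hc_ne hbb hbc
  have hab_ne : a * b ≠ 1 := by
    intro h
    have h2 := congrArg (fun f : MulAut P => f x₁) h
    simp only [MulAut.mul_apply, hb1, ha1, MulAut.one_apply] at h2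
    exact hn₁ h2
  have hac_ne : a * c ≠ 1 := by
    intro h
    have h2 := congrArg (fun f : MulAut P => f x₁) h
    simp only [MulAut.mul_apply, hc1, ha1, MulAut.one_apply] at h2
    exact hn₁ h2
  have hbc_ne : b * c ≠ 1 := by
    intro h
    have h2 := congrArg (fun f : MulAut P => f x₂) h
    simp only [MulAut.mul_apply, hc2, hb2, MulAut.one_apply] at h2
    exact hn₂ h2
  obtain ⟨g₃, hg₃⟩ := hdisj (a * b) habI₀ hab_ne
  obtain ⟨g₂, hg₂⟩ := hdisj (a * c) hacI₀ hac_ne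
  obtain ⟨g₁, hg₁⟩ := hdisj (b * c) hbcI₀ hbc_ne
  have habI : a * b ∈ I := mul_mem haI hbI
  have hacI : a * c ∈ I := mul_mem haI hcI
  have hbcI : b * c ∈ I := mul_mem hbI hcI
  have E3 : ∀ z, (a * b) z = z → c z = z → z = 1 := by
    intro z h1 h2
    rcases hexcl (a * b) habI c hcI g₃ hg₃ z x₃ h1 (by rw [MulAut.mul_apply, hb3, ha3]) h2 hc3
      with h | h
    · exact h
    · exact absurd h hx₃
  have E2 : ∀ z, (a * c) z = z → b z = z → z = 1 := by
    intro z h1 h2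
    rcases hexcl (a * c) hacI b hbI g₂ hg₂ z x₂ h1 (by rw [MulAut.mul_apply, hc2, ha2]) h2 hb2
      with h | h
    · exact h
    · exact absurd h hx₂
  have E1 : ∀ z, (b * c) z = z → a z = z → z = 1 := by
    intro z h1 h2
    rcases hexcl (b * c) hbcI a haI g₁ hg₁ z x₁ h1 (by rw [MulAut.mul_apply, hc1, hb1]) h2 ha1
      with h | h
    · exact h
    · exact absurd h hx₁
  have E0 : ∀ w, (a * b) w = w → a w = w⁻¹ → w = 1 := by
    intro w h1 h2
    rcases hexcl (a * b) habI a haI g₃ hg₃ x₃ w (by rw [MulAut.mul_apply, hb3, ha3]) h1 ha3 h2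
      with h | h
    · exact absurd h hx₃
    · exact h
  have hcls : ∀ w : P, (∀ T ∈ I, T w = w ∨ T w = w⁻¹) →
      w = 1 ∨ (a w = w⁻¹ ∧ b w = w ∧ c w = w) ∨ (a w = w ∧ b w = w⁻¹ ∧ c w = w) ∨
        (a w = w ∧ b w = w ∧ c w = w⁻¹) := by
    intro w hw
    rcases hw a haI with h1 | h1 <;> rcases hw b hbI with h2 | h2 <;>
      rcases hw c hcI with h3 | h3
    · left
      exact E3 w (by rw [MulAut.mul_apply, h2, h1]) h3
    · right; right; right
      exact ⟨h1, h2, h3⟩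
    · right; right; left
      exact ⟨h1, h2, h3⟩
    · left
      exact E1 w (by rw [MulAut.mul_apply, h3, map_inv, h2, inv_inv]) h1
    · right; left
      exact ⟨h1, h2, h3⟩
    · left
      exact E2 w (by rw [MulAut.mul_apply, h3, map_inv, h1, inv_inv]) h2
    · left
      exact E3 w (by rw [MulAut.mul_apply, h2, map_inv, h1, inv_inv]) h3
    · left
      exact E0 w (by rw [MulAut.mul_apply, h2, map_inv, h1, inv_inv]) h1
  have hzc : ∀ g u v : P, u ∈ Subgroup.zpowers g → v ∈ Subgroup.zpowers g → u * v = v * u := by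
    rintro g u v ⟨m, rfl⟩ ⟨n, rfl⟩
    exact Commute.zpow_zpow_self g m n
  have hP12 := pair_comm c (a * b) (hIc c hcI (a * b) habI) (hIi (a * b) habI)
    (fun z h1 h2 => E3 z h2 h1)
  have hP13 := pair_comm b (a * c) (hIc b hbI (a * c) hacI) (hIi (a * c) hacI)
    (fun z h1 h2 => E2 z h2 h1)
  have hP23 := pair_comm a (b * c) (hIc a haI (b * c) hbcI) (hIi (b * c) hbcI)
    (fun z h1 h2 => E1 z h2 h1)
  have hWcomm : ∀ u ∈ {x : P | ∀ T ∈ I, T x = x ∨ T x = x⁻¹},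
      ∀ v ∈ {x : P | ∀ T ∈ I, T x = x ∨ T x = x⁻¹}, u * v = v * u := by
    intro u hu v hv
    rcases hcls u hu with rfl | ⟨u1, u2, u3⟩ | ⟨u1, u2, u3⟩ | ⟨u1, u2, u3⟩
    · simp
    · rcases hcls v hv with rfl | ⟨v1, v2, v3⟩ | ⟨v1, v2, v3⟩ | ⟨v1, v2, v3⟩
      · simp
      · exact hzc g₁ u v ((hg₁ u).mp (by rw [MulAut.mul_apply, u3, u2]))
          ((hg₁ v).mp (by rw [MulAut.mul_apply, v3, v2]))
      · exact hP12 u v u3 v3
      · exact hP13 u v u2 v2
    · rcases hcls v hv with rfl | ⟨v1, v2, v3⟩ | ⟨v1, v2, v3⟩ | ⟨v1, v2, v3⟩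
      · simp
      · exact hP12 u v u3 v3
      · exact hzc g₂ u v ((hg₂ u).mp (by rw [MulAut.mul_apply, u3, u1]))
          ((hg₂ v).mp (by rw [MulAut.mul_apply, v3, v1]))
      · exact hP23 u v u1 v1
    · rcases hcls v hv with rfl | ⟨v1, v2, v3⟩ | ⟨v1, v2, v3⟩ | ⟨v1, v2, v3⟩
      · simp
      · exact hP13 u v u2 v2
      · exact hP23 u v u1 v1
      · exact hzc g₃ u v ((hg₃ u).mp (by rw [MulAut.mul_apply, u2, u1]))
          ((hg₃ v).mp (by rw [MulAut.mul_apply, v2, v1]))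
  have hWgen := wt_gen p hp2 hP I hIc hIi
  have hcommP : ∀ u v : P, u * v = v * u := by
    intro u v
    have hmc := Subgroup.isMulCommutative_closure hWcomm
    have hu : u ∈ Subgroup.closure {x : P | ∀ T ∈ I, T x = x ∨ T x = x⁻¹} := by
      rw [hWgen]
      exact Subgroup.mem_top u
    have hv : v ∈ Subgroup.closure {x : P | ∀ T ∈ I, T x = x ∨ T x = x⁻¹} := by
      rw [hWgen]
      exact Subgroup.mem_top v
    exact congrArg Subtype.val (hmc.is_comm.comm ⟨u, hu⟩ ⟨v, hv⟩)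
  have habc_inv : ∀ x : P, (a * b * c) x = x⁻¹ := by
    let K : Subgroup P :=
      { carrier := {x | (a * b * c) x = x⁻¹}
        mul_mem' := by
          intro x y hx hy
          have hx' : (a * b * c) x = x⁻¹ := hx
          have hy' : (a * b * c) y = y⁻¹ := hy
          show (a * b * c) (x * y) = (x * y)⁻¹
          rw [map_mul, hx', hy', mul_inv_rev, hcommP]
        one_mem' := by
          show (a * b * c) 1 = 1⁻¹
          rw [map_one, inv_one]
        inv_mem' := by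
          intro x hx
          have hx' : (a * b * c) x = x⁻¹ := hx
          show (a * b * c) x⁻¹ = x⁻¹⁻¹
          rw [map_inv, hx'] }
    have hle : Subgroup.closure {x : P | ∀ T ∈ I, T x = x ∨ T x = x⁻¹} ≤ K := by
      rw [Subgroup.closure_le]
      intro w hw
      show (a * b * c) w = w⁻¹
      rcases hcls w hw with rfl | ⟨w1, w2, w3⟩ | ⟨w1, w2, w3⟩ | ⟨w1, w2, w3⟩
      · rw [map_one, inv_one]
      · rw [MulAut.mul_apply, MulAut.mul_apply, w3, w2, w1]
      · rw [MulAut.mul_apply, MulAut.mul_apply, w3, w2, map_inv, w1]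
      · rw [MulAut.mul_apply, MulAut.mul_apply, w3, map_inv, w2, map_inv, w1]
    intro x
    have hx : x ∈ K := hle (by rw [hWgen]; exact Subgroup.mem_top x)
    exact hx
  have hcyc_abc : ∃ g : P, ∀ x : P, ((a * b * c) x = x ↔ x ∈ Subgroup.zpowers g) := by
    refine ⟨1, fun x => ?_⟩
    rw [habc_inv, Subgroup.zpowers_one_eq_bot, Subgroup.mem_bot]
    constructor
    · intro h
      by_contra hx
      exact inv_ne p hp2 hP x hx h
    · rintro rfl
      exact inv_one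
  have hset : {T : MulAut P | T ∈ I ∧ T ≠ 1 ∧
      ¬ ∃ g : P, ∀ x : P, (T x = x ↔ x ∈ Subgroup.zpowers g)} = {a, b, c} := by
    ext T
    constructor
    · rintro ⟨hT, hT1, hbr⟩
      rcases henum T hT with rfl | rfl | rfl | rfl | rfl | rfl | rfl | rfl
      · exact absurd rfl hT1
      · simp
      · simp
      · simp
      · exact absurd ⟨g₃, hg₃⟩ hbr
      · exact absurd ⟨g₂, hg₂⟩ hbr
      · exact absurd ⟨g₁, hg₁⟩ hbr
      · exact absurd hcyc_abc hbr
    · rintro (rfl | rfl | rfl)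
      · exact ⟨haI, ha_ne, hba⟩
      · exact ⟨hbI, hb_ne, hbb⟩
      · exact ⟨hcI, hc_ne, hbc⟩
  have hab_d : a ≠ b := by
    intro h
    rw [h, hb1] at ha1
    exact hn₁ ha1.symm
  have hac_d : a ≠ c := by
    intro h
    rw [h, hc1] at ha1
    exact hn₁ ha1.symm
  have hbc_d : b ≠ c := by
    intro h
    rw [h, hc2] at hb2
    exact hn₂ hb2.symm
  refine ⟨⟨⟨hcommP⟩⟩, ⟨g₁, g₂, g₃, ?_⟩,
    not_two_gen hcommP p hp2 hP a b c x₁ x₂ x₃ hx₁ hx₂ hx₃ ha1 ha2 ha3 hb1 hb2 hb3 hc1 hc2 hc3,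
    ?_, ?_, ?_⟩
  · rw [eq_top_iff, ← hWgen, Subgroup.closure_le]
    intro w hw
    rcases hcls w hw with rfl | ⟨w1, w2, w3⟩ | ⟨w1, w2, w3⟩ | ⟨w1, w2, w3⟩
    · exact one_mem _
    · have h1 : w ∈ Subgroup.zpowers g₁ := (hg₁ w).mp (by rw [MulAut.mul_apply, w3, w2])
      exact (Subgroup.zpowers_le.mpr (Subgroup.subset_closure (by simp))) h1
    · have h1 : w ∈ Subgroup.zpowers g₂ := (hg₂ w).mp (by rw [MulAut.mul_apply, w3, w1])
      exact (Subgroup.zpowers_le.mpr (Subgroup.subset_closure (by simp))) h1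
    · have h1 : w ∈ Subgroup.zpowers g₃ := (hg₃ w).mp (by rw [MulAut.mul_apply, w2, w1])
      exact (Subgroup.zpowers_le.mpr (Subgroup.subset_closure (by simp))) h1
  · have h3 : Set.ncard {T : MulAut P | T ∈ I ∧ T ≠ 1 ∧
        ¬ ∃ g : P, ∀ x : P, (T x = x ↔ x ∈ Subgroup.zpowers g)} = 3 := by
      rw [Set.ncard_eq_three]
      exact ⟨a, b, c, hab_d, hac_d, hbc_d, hset⟩
    exact (Nat.card_coe_set_eq _).trans h3
  · rw [hset]
    apply le_antisymm
    · rw [Subgroup.closure_le]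
      rintro T (rfl | rfl | rfl)
      · exact haI
      · exact hbI
      · exact hcI
    · intro T hT
      have hA : a ∈ Subgroup.closure ({a, b, c} : Set (MulAut P)) :=
        Subgroup.subset_closure (by simp)
      have hB : b ∈ Subgroup.closure ({a, b, c} : Set (MulAut P)) :=
        Subgroup.subset_closure (by simp)
      have hC : c ∈ Subgroup.closure ({a, b, c} : Set (MulAut P)) :=
        Subgroup.subset_closure (by simp)
      rcases henum T hT with rfl | rfl | rfl | rfl | rfl | rfl | rfl | rfl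
      · exact one_mem _
      · exact hA
      · exact hB
      · exact hC
      · exact mul_mem hA hB
      · exact mul_mem hA hC
      · exact mul_mem hB hC
      · exact mul_mem (mul_mem hA hB) hC
  · ext S
    constructor
    · intro hS
      have hS' : S ∈ I₀ := hS
      rcases henum S (hI₀.le hS') with rfl | rfl | rfl | rfl | rfl | rfl | rfl | rfl
      · exact ⟨a, a, haI, haI, ha_ne, ha_ne, hba, hba, (hIi a haI).symm⟩
      · exact absurd (hdisj _ hS' ha_ne) hba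
      · exact absurd (hdisj _ hS' hb_ne) hbb
      · exact absurd (hdisj _ hS' hc_ne) hbc
      · exact ⟨a, b, haI, hbI, ha_ne, hb_ne, hba, hbb, rfl⟩
      · exact ⟨a, c, haI, hcI, ha_ne, hc_ne, hba, hbc, rfl⟩
      · exact ⟨b, c, hbI, hcI, hb_ne, hc_ne, hbb, hbc, rfl⟩
      · have hcI₀ : c ∈ I₀ := by
          have h1 := mul_mem (inv_mem habI₀) hS'
          have e : (a * b)⁻¹ * (a * b * c) = c := by group
          rwa [e] at h1
        exact absurd (hdisj _ hcI₀ hc_ne) hbc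
    · rintro ⟨T, T', hT, hT', hT1, hT'1, hbT, hbT', rfl⟩
      exact hprod T hT T' hT' hT1 hT'1 hbT hbT'

end Cfsg.Agent.S4412
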