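import Cfsg.Statements.S4417
import Cfsg.Agent.Lib.Helper1.GWrC
import Cfsg.Agent.S4015

set_option autoImplicit false
open Cfsg

namespace Cfsg.Agent.S4417

open Matrix Cfsg.Agent.Lib.Helper1.GWr Cfsg.Agent.Lib.Helper1.SpDL

/-- Let F be a field with q elements, p a prime not dividing q, and e the multiplicative order of q modulo p; assume e ≤ n. Then every p-subgroup of GL_n(F) has derived length at most ⌊log₂(n/e)⌋ + 1: that term of its derived series is trivial (n/e is the integer quotient). -/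
theorem result {F : Type*} [Field F] [Fintype F] (q : ℕ) (hF : Fintype.card F = q) (p : ℕ) [Fact p.Prime] (hpq : ¬ p ∣ q) (n e : ℕ) (he : e = orderOf (q : ZMod p)) (hen : e ≤ n) (P : Subgroup (GL (Fin n) F)) (hP : IsPGroup p P) : derivedSeries ↥P (Nat.log 2 (n / e) + 1) = ⊥ := by
  classical
  subst hF
  have hpp := (Fact.out : p.Prime)
  obtain ⟨R, hR⟩ := hP.exists_le_sylow
  suffices h : derivedSeries ↥(R : Subgroup (GL (Fin n) F)) (Nat.log 2 (n / e) + 1) = ⊥ by
    rw [ds_eq_bot_iff] at h ⊢
    rw [eq_bot_iff, ← h]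
    exact dser_mono hR _
  by_cases hp2 : p = 2
  · subst hp2
    have hodd : Odd (Fintype.card F) := by
      rw [Nat.odd_iff]
      omega
    have he1 : e = 1 := by
      rw [he, ZMod.natCast_eq_one_iff_odd.2 hodd, orderOf_one]
    subst he1
    rw [Nat.div_one]
    obtain ⟨W, hWd, hWc⟩ := two_bound hodd n hen
    exact sylow_upper 2 W _ hWd hWc R
  · have h1 := (Cfsg.Agent.S4015.result p hp2 F _ rfl hpq n (by rw [← he]; exact hen) R).1
    rw [← he] at h1
    have hle : Nat.log p (n / e) ≤ Nat.log 2 (n / e) :=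
      Nat.log_anti_left (by norm_num) hpp.two_le
    rw [ds_eq_bot_iff] at h1 ⊢
    obtain ⟨d, hd⟩ := Nat.exists_eq_add_of_le hle
    rw [hd, show Nat.log p (n / e) + d + 1 = (Nat.log p (n / e) + 1) + d by ring, dser_add, h1]
    exact eq_bot_iff.2 (dser_le ⊥ d)

end Cfsg.Agent.S4417
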