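import Cfsg.Statements.S4420
import Mathlib

set_option autoImplicit false
open Cfsg

namespace Cfsg.Agent.S4420

lemma exp_two_case {H : Type*} [Group H] [Finite H] (A : Subgroup H) (hA : A ≠ ⊤)
    (h2 : ∀ x : H, x ^ 2 = 1) :
    ∃ B : Subgroup H, B.Normal ∧ IsMulCommutative ↥B ∧ B.index = 2 ∧
      (∀ x : H, x ∉ B → x ^ 2 = 1 ∧ ∀ b ∈ B, x * b * x⁻¹ = b⁻¹) := by
  have hinv : ∀ x : H, x⁻¹ = x := by
    intro x
    have := h2 x
    rw [pow_two] at this
    exact inv_eq_of_mul_eq_one_left this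
  have hcomm : ∀ a b : H, a * b = b * a := by
    intro a b
    calc a * b = (a * b)⁻¹ := (hinv _).symm
      _ = b⁻¹ * a⁻¹ := mul_inv_rev a b
      _ = b * a := by rw [hinv, hinv]
  have hp : IsPGroup 2 H := fun x => ⟨1, by simpa using h2 x⟩
  have : Fact (Nat.Prime 2) := ⟨Nat.prime_two⟩
  obtain ⟨n, hn⟩ := IsPGroup.iff_card.1 hp
  have hnpos : n ≠ 0 := by
    rintro rfl
    rw [pow_zero] at hn
    apply hA
    have : Subsingleton H := (Nat.card_eq_one_iff_unique.1 hn).1
    exact Subsingleton.elim _ _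
  obtain ⟨m, rfl⟩ := Nat.exists_eq_succ_of_ne_zero hnpos
  obtain ⟨B, hB⟩ := Sylow.exists_subgroup_card_pow_prime (G := H) 2 (n := m)
    (by rw [hn]; exact pow_dvd_pow 2 (Nat.le_succ m))
  have hidx : B.index = 2 := by
    have h1 := B.card_mul_index
    rw [hB, hn, pow_succ] at h1
    exact Nat.eq_of_mul_eq_mul_left (pow_pos (by norm_num) m) h1
  refine ⟨B, ⟨fun n hn g => ?_⟩, ?_, hidx, ?_⟩
  · rw [hcomm g n, mul_inv_cancel_right]
    exact hn
  · exact IsMulCommutative.of_setLike_mul_comm (fun a _ b _ => hcomm a b)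
  · intro x _
    refine ⟨h2 x, fun b _ => ?_⟩
    rw [hcomm x b, mul_inv_cancel_right, hinv]

theorem result {H : Type*} [Group H] [Finite H] (A : Subgroup H) (hA : A ≠ ⊤) (hD : ∀ x : H, x ∉ A → x ^ 2 = 1) :
    ∃ B : Subgroup H, B.Normal ∧ IsMulCommutative ↥B ∧ B.index = 2 ∧
      (∀ x : H, x ∉ B → x ^ 2 = 1 ∧ ∀ b ∈ B, x * b * x⁻¹ = b⁻¹) ∧
      (¬ (IsMulCommutative H ∧ ∀ x : H, x ^ 2 = 1) →
        ∀ B' : Subgroup H, B'.Normal → IsMulCommutative ↥B' → B'.index = 2 →
          (∀ x : H, x ∉ B' → x ^ 2 = 1 ∧ ∀ b ∈ B', x * b * x⁻¹ = b⁻¹) → B' = B) := by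
  by_cases h2 : ∀ x : H, x ^ 2 = 1
  · obtain ⟨B, hB1, hB2, hB3, hB4⟩ := exp_two_case A hA h2
    refine ⟨B, hB1, hB2, hB3, hB4, fun hnot => ?_⟩
    exfalso
    apply hnot
    refine ⟨⟨⟨fun a b => ?_⟩⟩, h2⟩
    have hinv : ∀ x : H, x⁻¹ = x := by
      intro x
      have := h2 x
      rw [pow_two] at this
      exact inv_eq_of_mul_eq_one_left this
    calc a * b = (a * b)⁻¹ := (hinv _).symm
      _ = b⁻¹ * a⁻¹ := mul_inv_rev a b
      _ = b * a := by rw [hinv, hinv]
  · push Not at h2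
    obtain ⟨y, hy⟩ := h2
    have hyA : y ∈ A := by
      by_contra h
      exact hy (hD y h)
    obtain ⟨x₀, hx₀⟩ : ∃ x : H, x ∉ A := by
      by_contra h
      push Not at h
      exact hA (Subgroup.eq_top_iff' A |>.2 h)
    have hxinv : ∀ x : H, x ∉ A → x⁻¹ = x := by
      intro x hx
      have := hD x hx
      rw [pow_two] at this
      exact inv_eq_of_mul_eq_one_left this
    have hinvert : ∀ x : H, x ∉ A → ∀ a ∈ A, x * a * x⁻¹ = a⁻¹ := by
      intro x hx a ha
      have hxa : x * a ∉ A := fun h => hx (by simpa using A.mul_mem h (A.inv_mem ha))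
      have h1 := hD (x * a) hxa
      rw [hxinv x hx]
      rw [pow_two] at h1
      have : x * a * x = a⁻¹ := by
        have h3 : x * a * x * a = 1 := by simpa [mul_assoc] using h1
        exact eq_inv_of_mul_eq_one_left h3
      exact this
    have hAcomm : ∀ a ∈ A, ∀ b ∈ A, a * b = b * a := by
      intro a ha b hb
      have h1 := hinvert x₀ hx₀ (a * b) (A.mul_mem ha hb)
      have h2 := hinvert x₀ hx₀ a ha
      have h3 := hinvert x₀ hx₀ b hb
      have h4 : x₀ * (a * b) * x₀⁻¹ = (x₀ * a * x₀⁻¹) * (x₀ * b * x₀⁻¹) := by group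
      rw [h1, h2, h3, mul_inv_rev] at h4
      have h5 := congrArg (fun t => t⁻¹) h4
      simpa using h5
    have hprod : ∀ x x' : H, x ∉ A → x' ∉ A → x * x' ∈ A := by
      intro x x' hx hx'
      by_contra hxx
      have h1 := hinvert (x * x') hxx y hyA
      have h2 := hinvert x' hx' y hyA
      have h3 := hinvert x hx y⁻¹ (A.inv_mem hyA)
      have h4 : x * x' * y * (x * x')⁻¹ = x * (x' * y * x'⁻¹) * x⁻¹ := by group
      rw [h1, h2, h3, inv_inv] at h4
      apply hy
      rw [pow_two]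
      calc y * y = y⁻¹ * y := by rw [h4]
        _ = 1 := inv_mul_cancel y
    have hidx : A.index = 2 := by
      rw [Subgroup.index_eq_two_iff]
      refine ⟨x₀, fun b => ?_⟩
      by_cases hb : b ∈ A
      · refine Or.inr ⟨hb, fun h => hx₀ ?_⟩
        simpa using A.mul_mem (A.inv_mem hb) h
      · exact Or.inl ⟨hprod b x₀ hb hx₀, hb⟩
    refine ⟨A, Subgroup.normal_of_index_eq_two hidx, IsMulCommutative.of_setLike_mul_comm hAcomm,
      hidx, fun x hx => ⟨hD x hx, hinvert x hx⟩, ?_⟩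
    intro _ B' hB'n hB'c hB'i hB'
    have hyB' : y ∈ B' := by
      by_contra h
      exact hy (hB' y h).1
    have hle : B' ≤ A := by
      intro b hb
      by_contra hbA
      have h1 := hinvert b hbA y hyA
      have h2 : b * y = y * b := setLike_mul_comm hb hyB'
      rw [h2, mul_inv_cancel_right] at h1
      apply hy
      rw [pow_two]
      calc y * y = y * y⁻¹ := by rw [← h1]
        _ = 1 := mul_inv_cancel y
    apply le_antisymm hle
    intro a ha
    by_contra haB
    have hx₀B : x₀ ∉ B' := fun h => hx₀ (hle h)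
    have : a * x₀ ∈ B' := (Subgroup.mul_mem_iff_of_index_two hB'i).2 (by tauto)
    have h1 : a * x₀ ∈ A := hle this
    apply hx₀
    simpa using A.mul_mem (A.inv_mem ha) h1

end Cfsg.Agent.S4420
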