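import Mathlib
import Cfsg.Statements.S4425
import Cfsg.Agent.Lib.Helper6.RegInner

set_option autoImplicit false
open Cfsg

namespace Cfsg.Agent.S4425

/-- Let χ be an irreducible character of the finite group G, p a prime, p^a the p-part of the order of G and p^b the p-part of the degree χ(1). Let χ̃ be the class function equal to p^a · χ on p-regular elements and zero on p-singular elements. Then p^(−b) · χ̃ is a generalized character of G, while p^(−(b+1)) · χ̃ is not. -/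
theorem result {G : Type*} [Group G] [Finite G] (p : ℕ) [Fact p.Prime] (χ : Cfsg.IrrCharacter G) : Cfsg.IsGeneralizedCharacter G (fun x : G => if p ∣ orderOf x then (0 : ℂ) else ((p ^ ((Nat.card G).factorization p - (Cfsg.charDegree (χ : G → ℂ)).factorization p) : ℕ) : ℂ) * (χ : G → ℂ) x) ∧ ¬ Cfsg.IsGeneralizedCharacter G (fun x : G => if p ∣ orderOf x then (0 : ℂ) else ((p ^ (Nat.card G).factorization p : ℕ) : ℂ) / ((p ^ ((Cfsg.charDegree (χ : G → ℂ)).factorization p + 1) : ℕ) : ℂ) * (χ : G → ℂ) x) := by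
  classical
  haveI : Fintype G := Fintype.ofFinite G
  have hp := (Fact.out : p.Prime)
  have hχc := Cfsg.Agent.Lib.Helper1.IsIrrCharacter.isCharacter χ.2
  have hle := Cfsg.Agent.Lib.Helper24.Defect.degree_factorization_le p χ
  have hdeg := Cfsg.Agent.Lib.Helper24.Defect.charDegree_dvd_card χ
  obtain ⟨a, ha⟩ : ∃ a, a = (Nat.card G).factorization p := ⟨_, rfl⟩
  obtain ⟨b, hb⟩ : ∃ b, b = (Cfsg.charDegree (χ : G → ℂ)).factorization p := ⟨_, rfl⟩
  rw [← ha, ← hb] at hle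
  rw [← ha, ← hb]
  have hpb : ∀ k : ℕ, ((p ^ k : ℕ) : ℂ) ≠ 0 := by
    intro k
    have h2 : 0 < p ^ k := pow_pos hp.pos _
    exact_mod_cast h2.ne'
  have hone : ¬ p ∣ orderOf (1 : G) := by
    rw [orderOf_one]
    exact hp.one_lt.ne' ∘ Nat.dvd_one.mp
  constructor
  · have hf : (fun x : G => if p ∣ orderOf x then (0 : ℂ)
        else ((p ^ (a - b) : ℕ) : ℂ) * (χ : G → ℂ) x) =
        fun x => ((p ^ b : ℕ) : ℂ)⁻¹ * Cfsg.Agent.Lib.Helper6.regPart p (χ : G → ℂ) x := by
      funext x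
      unfold Cfsg.Agent.Lib.Helper6.regPart
      split_ifs
      · simp
      · rw [← ha]
        have h3 : ((p ^ a : ℕ) : ℂ) = ((p ^ b : ℕ) : ℂ) * ((p ^ (a - b) : ℕ) : ℂ) := by
          rw [← Nat.cast_mul, ← pow_add]
          congr 2
          omega
        rw [h3]
        have := hpb b
        field_simp
    rw [hf]
    apply Cfsg.Agent.Lib.Helper6.isGeneralizedCharacter_of_classInner_int
    · intro g h
      beta_reduce
      rw [Cfsg.Agent.Lib.Helper6.isClassFunction_regPart p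
        (Cfsg.Agent.Lib.Helper1.IsIrrCharacter.isClassFunction χ.2) g h]
    · intro ψ
      obtain ⟨k, hk⟩ := Cfsg.Agent.Lib.Helper6.pow_dvd_regCoef_left p χ ψ
      refine ⟨k, ?_⟩
      have h1 := Cfsg.Agent.Lib.Helper6.classInner_regPart_eq p χ ψ
      unfold Cfsg.classInner at h1 ⊢
      have h2 : ∑ g : G, ((p ^ b : ℕ) : ℂ)⁻¹ *
          Cfsg.Agent.Lib.Helper6.regPart p (χ : G → ℂ) g * (starRingEnd ℂ) ((ψ : G → ℂ) g) =
          ((p ^ b : ℕ) : ℂ)⁻¹ * ∑ g : G, Cfsg.Agent.Lib.Helper6.regPart p (χ : G → ℂ) g *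
            (starRingEnd ℂ) ((ψ : G → ℂ) g) := by
        rw [Finset.mul_sum]
        apply Finset.sum_congr rfl
        intro g _
        ring
      rw [h2, mul_left_comm, h1, hk, ← hb]
      have := hpb b
      push_cast at this ⊢
      field_simp
  · rintro ⟨χ₁, χ₂, h₁, h₂, heq⟩
    obtain ⟨P⟩ := (inferInstance : Nonempty (Sylow p G))
    haveI : Fintype (P : Subgroup G) := Fintype.ofFinite _
    obtain ⟨c₁, hc₁⟩ := Cfsg.Agent.Lib.Helper6.sum_sylow_char p P h₁
    obtain ⟨c₂, hc₂⟩ := Cfsg.Agent.Lib.Helper6.sum_sylow_char p P h₂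
    have hs := Cfsg.Agent.Lib.Helper6.sum_sylow_regular p P (f := χ₁ - χ₂)
      (fun g hg => by rw [← heq]; exact if_pos hg)
    simp only [Pi.sub_apply, Finset.sum_sub_distrib] at hs
    rw [hc₁, hc₂, ← ha] at hs
    have h1 := congrFun heq 1
    beta_reduce at h1
    rw [if_neg hone, Pi.sub_apply, ← hs,
      Cfsg.Agent.Lib.Helper24.CharBasic.char_one_nat hχc] at h1
    have h3 : (Cfsg.charDegree (χ : G → ℂ) : ℂ) =
        ((p ^ (b + 1) : ℕ) : ℂ) * ((c₁ : ℂ) - (c₂ : ℂ)) := by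
      have e1 := hpb a
      have e2 := hpb (b + 1)
      field_simp at h1
      linear_combination h1
    have h4 : (Cfsg.charDegree (χ : G → ℂ) : ℤ) =
        ((p ^ (b + 1) : ℕ) : ℤ) * ((c₁ : ℤ) - (c₂ : ℤ)) := by
      exact_mod_cast h3
    have h5 : ((p ^ (b + 1) : ℕ) : ℤ) ∣ (Cfsg.charDegree (χ : G → ℂ) : ℤ) := ⟨_, h4⟩
    have h6 : p ^ (b + 1) ∣ Cfsg.charDegree (χ : G → ℂ) := by exact_mod_cast h5
    rw [hb] at h6
    exact Nat.pow_succ_factorization_not_dvd hdeg.2.ne' hp h6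

end Cfsg.Agent.S4425
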