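import Mathlib
import Cfsg.Statements.S4426
import Cfsg.Agent.Lib.Helper6.RegInner

set_option autoImplicit false
open Cfsg

namespace Cfsg.Agent.S4426

/-- Let χ be an irreducible character in the p-block B of the finite group G (relative to a maximal ideal M of the algebraic integers containing p), let p^a be the p-part of the order of G, and let χ̃ be the class function equal to p^a · χ on p-regular elements and zero elsewhere. For ξ ∈ B the inner product [χ̃, ξ] is an integer. The following are equivalent: (a) χ has height zero in B; (b) for some ξ ∈ B the integer [χ̃, ξ] is nonzero and the exact power of p dividing it equals the exact power of p dividing ξ(1); (c) the same holds for every ξ ∈ B. -/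
theorem result {G : Type*} [Group G] [Fintype G] (p : ℕ) [Fact p.Prime] (M : Ideal Cfsg.AlgInt) (hM : Cfsg.IsPModular p M) (B : Set (Cfsg.IrrCharacter G)) (hB : Cfsg.IsPBlock M B) (χ : Cfsg.IrrCharacter G) (hχ : χ ∈ B) : (Cfsg.blockHeight p B (χ : G → ℂ) = 0 ↔ ∃ ξ ∈ B, ∃ n : ℤ, Cfsg.classInner (fun x : G => if p ∣ orderOf x then (0 : ℂ) else ((p ^ (Nat.card G).factorization p : ℕ) : ℂ) * (χ : G → ℂ) x) (ξ : G → ℂ) = (n : ℂ) ∧ n ≠ 0 ∧ padicValInt p n = (Cfsg.charDegree (ξ : G → ℂ)).factorization p) ∧ (Cfsg.blockHeight p B (χ : G → ℂ) = 0 ↔ ∀ ξ ∈ B, ∃ n : ℤ, Cfsg.classInner (fun x : G => if p ∣ orderOf x then (0 : ℂ) else ((p ^ (Nat.card G).factorization p : ℕ) : ℂ) * (χ : G → ℂ) x) (ξ : G → ℂ) = (n : ℂ) ∧ n ≠ 0 ∧ padicValInt p n = (Cfsg.charDegree (ξ : G → ℂ)).factorization p) := by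
  classical
  have hmax := hM.2.1
  have hBeq := Cfsg.Agent.Lib.Helper24.Defect.block_eq_blockOf hmax B hB hχ
  have hmem : ∀ ψ : Cfsg.IrrCharacter G, ψ ∈ B ↔ Cfsg.SameBlock M (χ : G → ℂ) (ψ : G → ℂ) := by
    intro ψ
    rw [hBeq]
    exact Iff.rfl
  have hheight : Cfsg.blockHeight p B (χ : G → ℂ) = 0 ↔ ∀ ψ ∈ B,
      (Cfsg.charDegree (χ : G → ℂ)).factorization p ≤
        (Cfsg.charDegree (ψ : G → ℂ)).factorization p := by
    unfold Cfsg.blockHeight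
    rw [Nat.sub_eq_zero_iff_le]
    constructor
    · intro h ψ hψ
      exact le_trans h (Nat.sInf_le ⟨ψ, hψ, rfl⟩)
    · intro h
      have hne : ((fun ψ : Cfsg.IrrCharacter G =>
          (Cfsg.charDegree (ψ : G → ℂ)).factorization p) '' B).Nonempty := ⟨_, χ, hχ, rfl⟩
      apply le_csInf hne
      rintro _ ⟨ψ, hψ, rfl⟩
      exact h ψ hψ
  have hP : ∀ ξ : Cfsg.IrrCharacter G, (∃ n : ℤ, Cfsg.classInner (fun x : G =>
      if p ∣ orderOf x then (0 : ℂ)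
      else ((p ^ (Nat.card G).factorization p : ℕ) : ℂ) * (χ : G → ℂ) x) (ξ : G → ℂ) = (n : ℂ) ∧
      n ≠ 0 ∧ padicValInt p n = (Cfsg.charDegree (ξ : G → ℂ)).factorization p) ↔
      ¬ Cfsg.MemLocalIdeal M ((Cfsg.Agent.Lib.Helper6.regCoef p χ ξ : ℂ) /
        (Cfsg.charDegree (ξ : G → ℂ) : ℂ)) := by
    intro ξ
    have hd0 := (Cfsg.Agent.Lib.Helper24.Defect.charDegree_dvd_card ξ).2.ne'
    have hdv := Cfsg.Agent.Lib.Helper6.pow_dvd_regCoef_right p χ ξ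
    have hci := Cfsg.Agent.Lib.Helper6.classInner_regPart_eq p χ ξ
    constructor
    · rintro ⟨n, hn, h0, hv⟩
      have hn' : Cfsg.classInner (Cfsg.Agent.Lib.Helper6.regPart p (χ : G → ℂ)) (ξ : G → ℂ)
          = (n : ℂ) := hn
      rw [hci] at hn'
      have hn2 : n = Cfsg.Agent.Lib.Helper6.regCoef p χ ξ := by exact_mod_cast hn'.symm
      subst hn2
      intro hJ
      have h1 := (Cfsg.Agent.Lib.Helper6.int_ratio_memLocalIdeal_iff hM hd0 hdv).mp hJ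
      exact (Cfsg.Agent.Lib.Helper6.padic_iff_not_dvd hdv).mp ⟨h0, hv⟩ h1
    · intro hJ
      refine ⟨Cfsg.Agent.Lib.Helper6.regCoef p χ ξ, hci, ?_⟩
      apply (Cfsg.Agent.Lib.Helper6.padic_iff_not_dvd hdv).mpr
      intro hd
      exact hJ ((Cfsg.Agent.Lib.Helper6.int_ratio_memLocalIdeal_iff hM hd0 hdv).mpr hd)
  have hrefl : Cfsg.SameBlock M (χ : G → ℂ) (χ : G → ℂ) :=
    Cfsg.Agent.Lib.Helper6.sameBlock_refl hmax _
  refine ⟨⟨fun h => ⟨χ, hχ, (hP χ).mpr (Cfsg.Agent.Lib.Helper6.regCoef_not_mem_of_min hM χ χ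
    hrefl (fun ψ hψ => (hheight.mp h) ψ ((hmem ψ).mpr hψ)))⟩, ?_⟩, ⟨?_, ?_⟩⟩
  · rintro ⟨ξ, hξ, hex⟩
    exact hheight.mpr (fun ψ hψ => Cfsg.Agent.Lib.Helper6.min_of_regCoef_not_mem hM χ ξ
      ((hmem ξ).mp hξ) ((hP ξ).mp hex) ψ ((hmem ψ).mp hψ))
  · intro h ξ hξ
    exact (hP ξ).mpr (Cfsg.Agent.Lib.Helper6.regCoef_not_mem_of_min hM χ ξ ((hmem ξ).mp hξ)
      (fun ψ hψ => hheight.mp h ψ ((hmem ψ).mpr hψ)))
  · intro h
    exact hheight.mpr (fun ψ hψ => Cfsg.Agent.Lib.Helper6.min_of_regCoef_not_mem hM χ χ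
      hrefl ((hP χ).mp (h χ hχ)) ψ ((hmem ψ).mp hψ))

end Cfsg.Agent.S4426
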