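import Mathlib
import Cfsg.Statements.S4428
import Cfsg.Agent.Lib.Helper6.RegRes2
import Cfsg.Agent.Lib.Helper24.Osima
import Cfsg.Agent.Lib.Helper1.CharExtra
import Cfsg.Agent.S4431

set_option autoImplicit false
open Cfsg

namespace Cfsg.Agent.S4428

/-- Let χ be an irreducible character of height zero in the p-block B of the finite group G (relative to a maximal ideal M of the algebraic integers containing p). Let x be a p-element of G with centralizer C, and let b be a block of C that induces B. Form the class function ϑ(c) = χ(x c) on C and its b-part (the sum over ψ ∈ b of the inner product of ϑ with ψ, times ψ). Then the b-part of ϑ does not vanish identically on the p-regular elements of C. (Compare the second main Theorem, which gives vanishing when b does not induce B.) -/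
theorem result {G : Type*} [Group G] [Finite G] (p : ℕ) [Fact p.Prime] (M : Ideal Cfsg.AlgInt) (hM : Cfsg.IsPModular p M) (B : Set (Cfsg.IrrCharacter G)) (hB : Cfsg.IsPBlock M B) (χ : Cfsg.IrrCharacter G) (hχ : χ ∈ B) (h0 : Cfsg.blockHeight p B (χ : G → ℂ) = 0) (x : G) (hx : ∃ k : ℕ, orderOf x = p ^ k) (b : Set (Cfsg.IrrCharacter (Subgroup.centralizer ({x} : Set G)))) (hb : Cfsg.IsInducedBlock M (Subgroup.centralizer ({x} : Set G)) b B) : ∃ y : Subgroup.centralizer ({x} : Set G), ¬ p ∣ orderOf y ∧ Cfsg.blockPart b (fun c : Subgroup.centralizer ({x} : Set G) => (χ : G → ℂ) (x * (c : G))) y ≠ 0 := by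
  classical
  haveI : Fintype G := Fintype.ofFinite G
  haveI : Fintype (Subgroup.centralizer ({x} : Set G)) := Fintype.ofFinite _
  haveI : Fintype (Cfsg.IrrCharacter (Subgroup.centralizer ({x} : Set G))) :=
    Cfsg.Agent.Lib.Helper1.irrFintype
  have hmax := hM.2.1
  obtain ⟨hbb, -, -⟩ := id hb
  obtain ⟨ψ', hψ'⟩ := Cfsg.Agent.Lib.Helper24.Defect.block_nonempty hmax b hbb
  have h431 := (Cfsg.Agent.S4431.result p M hM _ b B hb χ ψ' hψ').2 hχ h0
  obtain ⟨c, hc1, hc2⟩ := Cfsg.Agent.Lib.Helper6.char_expansion_nat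
    (Cfsg.Agent.Lib.Helper1.IsCharacter.restrict
      (Cfsg.Agent.Lib.Helper1.IsIrrCharacter.isCharacter χ.2)
      (Subgroup.centralizer ({x} : Set G)))
  have hxC : x ∈ Subgroup.centralizer ({x} : Set G) := by
    rw [Subgroup.mem_centralizer_iff]
    intro h hh
    rw [Set.mem_singleton_iff] at hh
    rw [hh]
  have hcomm : ∀ g : Subgroup.centralizer ({x} : Set G), (g : G) * x = x * (g : G) := by
    intro g
    have h1 := g.2
    rw [Subgroup.mem_centralizer_iff] at h1
    exact (h1 x (Set.mem_singleton x)).symm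
  have hxz : (⟨x, hxC⟩ : Subgroup.centralizer ({x} : Set G)) ∈
      Subgroup.center (Subgroup.centralizer ({x} : Set G)) := by
    rw [Subgroup.mem_center_iff]
    intro g
    apply Subtype.ext
    exact hcomm g
  obtain ⟨k, hk⟩ := hx
  have hlam : ∀ ξ : Cfsg.IrrCharacter (Subgroup.centralizer ({x} : Set G)), ∃ l : ℂ,
      l ^ (p ^ k) = 1 ∧ ∀ g : Subgroup.centralizer ({x} : Set G),
        (ξ : Subgroup.centralizer ({x} : Set G) → ℂ) (g * ⟨x, hxC⟩) =
          l * (ξ : Subgroup.centralizer ({x} : Set G) → ℂ) g := by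
    intro ξ
    obtain ⟨l, -, hl⟩ := Cfsg.Agent.Lib.Helper1.IsIrrCharacter.central_mul ξ.2 hxz
    refine ⟨l, ?_, hl⟩
    have hpow : ∀ j : ℕ, ∀ g : Subgroup.centralizer ({x} : Set G),
        (ξ : Subgroup.centralizer ({x} : Set G) → ℂ) (g * ⟨x, hxC⟩ ^ j) =
          l ^ j * (ξ : Subgroup.centralizer ({x} : Set G) → ℂ) g := by
      intro j
      induction j with
      | zero =>
        intro g
        simp
      | succ j ih =>
        intro g
        rw [pow_succ, ← mul_assoc, hl, ih, pow_succ]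
        ring
    have h1 := hpow (p ^ k) 1
    have hx1 : (⟨x, hxC⟩ : Subgroup.centralizer ({x} : Set G)) ^ (p ^ k) = 1 := by
      apply Subtype.ext
      rw [Subgroup.coe_pow, Subgroup.coe_one, ← hk]
      exact pow_orderOf_eq_one x
    rw [hx1, mul_one] at h1
    have hne := Cfsg.Agent.Lib.Helper6.irr_one_ne_zero ξ.2
    have h2 : (l ^ (p ^ k) - 1) * (ξ : Subgroup.centralizer ({x} : Set G) → ℂ) 1 = 0 := by
      rw [sub_mul, one_mul, ← h1, sub_self]
    rcases mul_eq_zero.mp h2 with h | h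
    · exact sub_eq_zero.mp h
    · exact absurd h hne
  choose lam hlam1 hlam2 using hlam
  have hϑ : (fun c' : Subgroup.centralizer ({x} : Set G) => (χ : G → ℂ) (x * (c' : G))) =
      fun c' : Subgroup.centralizer ({x} : Set G) =>
        ∑ ξ : Cfsg.IrrCharacter (Subgroup.centralizer ({x} : Set G)),
          ((c ξ : ℂ) * lam ξ) * (ξ : Subgroup.centralizer ({x} : Set G) → ℂ) c' := by
    funext c'
    have h1 := congrFun hc2 (c' * ⟨x, hxC⟩)
    have h2 : ((c' * ⟨x, hxC⟩ : Subgroup.centralizer ({x} : Set G)) : G) = x * (c' : G) := by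
      rw [Subgroup.coe_mul]
      exact hcomm c'
    beta_reduce at h1
    rw [h2] at h1
    rw [h1]
    apply Finset.sum_congr rfl
    intro ξ _
    rw [hlam2 ξ c']
    ring
  have hinner : ∀ ψ : Cfsg.IrrCharacter (Subgroup.centralizer ({x} : Set G)),
      Cfsg.classInner (fun c' : Subgroup.centralizer ({x} : Set G) => (χ : G → ℂ) (x * (c' : G)))
        (ψ : Subgroup.centralizer ({x} : Set G) → ℂ) = (c ψ : ℂ) * lam ψ := by
    intro ψ
    rw [hϑ]
    exact Cfsg.Agent.Lib.Helper6.classInner_sum_irr _ ψ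
  by_contra hcon
  push_neg at hcon
  have hF : ∀ y : Subgroup.centralizer ({x} : Set G),
      Cfsg.blockPart b (fun c' : Subgroup.centralizer ({x} : Set G) =>
        (χ : G → ℂ) (x * (c' : G))) y =
      ∑ ξ : Cfsg.IrrCharacter (Subgroup.centralizer ({x} : Set G)),
        (if ξ ∈ b then (c ξ : ℂ) * lam ξ else 0) *
          (ξ : Subgroup.centralizer ({x} : Set G) → ℂ) y := by
    intro y
    rw [Cfsg.Agent.Lib.Helper6.blockPart_apply,
      Cfsg.Agent.Lib.Helper24.Defect.finsum_block_eq_sum, Finset.sum_filter]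
    apply Finset.sum_congr rfl
    intro ξ _
    split_ifs with h
    · rw [hinner ξ]
    · rw [zero_mul]
  have hreg0 : Cfsg.Agent.Lib.Helper6.regPart p (fun y : Subgroup.centralizer ({x} : Set G) =>
      ∑ ξ : Cfsg.IrrCharacter (Subgroup.centralizer ({x} : Set G)),
        (if ξ ∈ b then (c ξ : ℂ) * lam ξ else 0) *
          (ξ : Subgroup.centralizer ({x} : Set G) → ℂ) y) = fun _ => 0 := by
    funext y
    unfold Cfsg.Agent.Lib.Helper6.regPart
    split_ifs with hy
    · rfl
    · beta_reduce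
      rw [← hF y, hcon y hy, mul_zero]
  have h5 := Cfsg.Agent.Lib.Helper6.classInner_regPart_sum p
    (fun ξ : Cfsg.IrrCharacter (Subgroup.centralizer ({x} : Set G)) =>
      if ξ ∈ b then (c ξ : ℂ) * lam ξ else 0) ψ'
  rw [hreg0] at h5
  have h6 : Cfsg.classInner (fun _ : Subgroup.centralizer ({x} : Set G) => (0 : ℂ))
      (ψ' : Subgroup.centralizer ({x} : Set G) → ℂ) = 0 := by
    unfold Cfsg.classInner
    simp
  rw [h6] at h5
  apply h431
  have e1 : Cfsg.classInner (fun h : Subgroup.centralizer ({x} : Set G) =>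
      if p ∣ orderOf h then (0 : ℂ)
      else ((p ^ (Nat.card (Subgroup.centralizer ({x} : Set G))).factorization p : ℕ) : ℂ) *
        (χ : G → ℂ) h) (ψ' : Subgroup.centralizer ({x} : Set G) → ℂ) =
      ∑ ξ : Cfsg.IrrCharacter (Subgroup.centralizer ({x} : Set G)),
        (c ξ : ℂ) * (Cfsg.Agent.Lib.Helper6.regCoef p ξ ψ' : ℂ) := by
    have h2 := Cfsg.Agent.Lib.Helper6.classInner_regPart_sum p
      (fun ξ : Cfsg.IrrCharacter (Subgroup.centralizer ({x} : Set G)) => (c ξ : ℂ)) ψ'
    rw [← hc2] at h2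
    exact h2
  rw [e1, Cfsg.Agent.Lib.Helper24.CharBasic.char_one_nat
    (Cfsg.Agent.Lib.Helper1.IsIrrCharacter.isCharacter ψ'.2)]
  have e2 : ∑ ξ : Cfsg.IrrCharacter (Subgroup.centralizer ({x} : Set G)),
      (c ξ : ℂ) * (Cfsg.Agent.Lib.Helper6.regCoef p ξ ψ' : ℂ) =
      ∑ ξ : Cfsg.IrrCharacter (Subgroup.centralizer ({x} : Set G)),
        ((c ξ : ℂ) - (if ξ ∈ b then (c ξ : ℂ) * lam ξ else 0)) *
          (Cfsg.Agent.Lib.Helper6.regCoef p ξ ψ' : ℂ) := by
    simp only [sub_mul, Finset.sum_sub_distrib]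
    rw [← h5, sub_zero]
  rw [e2, Finset.sum_div]
  apply Cfsg.Agent.Lib.Helper6.memLocalIdeal_sum hmax
  intro ξ _
  rw [mul_div_assoc]
  by_cases hξb : ξ ∈ b
  · rw [if_pos hξb]
    have e3 : (c ξ : ℂ) - (c ξ : ℂ) * lam ξ = -((c ξ : ℂ) * (lam ξ - 1)) := by ring
    rw [e3]
    apply Cfsg.Agent.Lib.Helper6.MemLocalIdeal.mul_right hmax _
      (Cfsg.Agent.Lib.Helper6.regCoef_ratio_memLocalRing hM ξ ψ')
    exact Cfsg.Agent.Lib.Helper6.MemLocalIdeal.neg
      (Cfsg.Agent.Lib.Helper6.MemLocalIdeal.mul_left hmax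
        (Cfsg.Agent.Lib.Helper6.memLocalRing_natCast hmax _)
        (Cfsg.Agent.Lib.Helper24.Osima.root_sub_one_mem hM (hlam1 ξ)))
  · rw [Cfsg.Agent.Lib.Helper6.regCoef_eq_zero_of_not_mem hM b hbb hξb hψ']
    simp only [Int.cast_zero, zero_div, mul_zero]
    exact Cfsg.Agent.Lib.Helper6.memLocalIdeal_zero hmax

end Cfsg.Agent.S4428
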