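import Cfsg.Statements.S4444
import Cfsg.Agent.Lib.Helper10.Glaub8

set_option autoImplicit false
open Cfsg

namespace Cfsg.Agent.S4444

open Cfsg.Agent.Lib.Helper10.Glaub

/-- The Glauberman correspondence for a p-group of operators. Inside a finite group Γ let S normalise G with the orders of G and S coprime, S a p-group, and let C = G ⊓ C(S) be the fixed points. Call an irreducible character χ of G S-invariant when χ(s g s⁻¹) = χ(g) for s ∈ S, g ∈ G. Then: (i) for every S-invariant χ there is exactly one irreducible character β of C whose multiplicity [χ_C, β] in the restriction of χ is not divisible by p; (ii) that multiplicity is ≡ 1 or ≡ −1 (mod p); (iii) distinct S-invariant χ give distinct β; (iv) every irreducible character of C arises in this way. So χ ↦ β is a bijection from the S-invariant irreducible characters of G onto the irreducible characters of C. -/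
theorem result {Γ : Type*} [Group Γ] [Fintype Γ] (G S : Subgroup Γ) [Fintype G] (hnorm : ∀ s ∈ S, ∀ g ∈ G, s * g * s⁻¹ ∈ G) (hcop : (Nat.card G).Coprime (Nat.card S)) (p : ℕ) (hp : p.Prime) (hS : IsPGroup p S) (C : Subgroup Γ) [Fintype C] (hC : C = G ⊓ Subgroup.centralizer (S : Set Γ)) (hCG : C ≤ G) : (∀ χ : Cfsg.IrrCharacter G, (∀ s ∈ S, ∀ g g' : G, (g' : Γ) = s * g * s⁻¹ → (χ : G → ℂ) g' = (χ : G → ℂ) g) → ∃! β : Cfsg.IrrCharacter C, ∃ m : ℕ, Cfsg.classInner (fun c : C => (χ : G → ℂ) ⟨c, hCG c.2⟩) (β : C → ℂ) = (m : ℂ) ∧ ¬ p ∣ m) ∧ (∀ χ : Cfsg.IrrCharacter G, (∀ s ∈ S, ∀ g g' : G, (g' : Γ) = s * g * s⁻¹ → (χ : G → ℂ) g' = (χ : G → ℂ) g) → ∀ β : Cfsg.IrrCharacter C, ∀ m : ℕ, Cfsg.classInner (fun c : C => (χ : G → ℂ) ⟨c, hCG c.2⟩) (β : C → ℂ) = (m : ℂ) → ¬ p ∣ m → ((m : ℤ) ≡ 1 [ZMOD p] ∨ (m : ℤ) ≡ -1 [ZMOD p])) ∧ (∀ χ χ' : Cfsg.IrrCharacter G, (∀ s ∈ S, ∀ g g' : G, (g' : Γ)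 = s * g * s⁻¹ → (χ : G → ℂ) g' = (χ : G → ℂ) g) → (∀ s ∈ S, ∀ g g' : G, (g' : Γ) = s * g * s⁻¹ → (χ' : G → ℂ) g' = (χ' : G → ℂ) g) → ∀ β : Cfsg.IrrCharacter C, ∀ m m' : ℕ, Cfsg.classInner (fun c : C => (χ : G → ℂ) ⟨c, hCG c.2⟩) (β : C → ℂ) = (m : ℂ) → ¬ p ∣ m → Cfsg.classInner (fun c : C => (χ' : G → ℂ) ⟨c, hCG c.2⟩) (β : C → ℂ) = (m' : ℂ) → ¬ p ∣ m' → χ = χ') ∧ (∀ β : Cfsg.IrrCharacter C, ∃ χ : Cfsg.IrrCharacter G, (∀ s ∈ S, ∀ g g' : G, (g' : Γ) = s * g * s⁻¹ → (χ : G → ℂ) g' = (χ : G → ℂ) g) ∧ ∃ m : ℕ, Cfsg.classInner (fun c : C => (χ : G → ℂ) ⟨c, hCG c.2⟩) (β : C → ℂ) = (m : ℂ) ∧ ¬ p ∣ m) := by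
  classical
  haveI : Fact p.Prime := ⟨hp⟩
  have hpG : C ≠ G → ¬ p ∣ Nat.card G := by
    intro hne hd
    apply hne
    have hS1 : Nat.card S = 1 := by
      obtain ⟨k, hk⟩ := IsPGroup.iff_card.mp hS
      rcases Nat.eq_zero_or_pos k with h0 | h0
      · rw [hk, h0, pow_zero]
      · exfalso
        have h1 : p ∣ Nat.card S := by rw [hk]; exact dvd_pow_self p h0.ne'
        have h2 : p ∣ Nat.gcd (Nat.card G) (Nat.card S) := Nat.dvd_gcd hd h1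
        rw [Nat.Coprime] at hcop
        rw [hcop] at h2
        exact hp.one_lt.ne' (Nat.dvd_one.mp h2)
    rw [hC]
    apply inf_eq_left.mpr
    intro g hg
    rw [Subgroup.mem_centralizer_iff]
    intro s hs
    have : s = 1 := by
      have hsub : Subsingleton S := (Nat.card_eq_one_iff_unique.mp hS1).1
      have := Subsingleton.elim (⟨s, hs⟩ : S) 1
      exact congrArg Subtype.val this
    rw [this]; simp
  obtain ⟨hA, hB, hCc⟩ := gl_main S p hp hS (Nat.card G) G C hCG rfl hnorm hpG hC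
  refine ⟨?_, ?_, ?_, ?_⟩
  · intro χ hχ
    obtain ⟨β, hβ, ⟨m, hm, hmc⟩, hoth⟩ := hA χ χ.2 hχ
    refine ⟨⟨β, hβ⟩, ⟨m, hm, not_dvd_of_modEq hp hmc⟩, ?_⟩
    rintro ⟨γ, hγ⟩ ⟨m', hm', hpm'⟩
    by_contra hne
    obtain ⟨n, hn, hpn⟩ := hoth γ hγ (fun h => hne (Subtype.ext h))
    have : m' = n := by exact_mod_cast hm'.symm.trans hn
    exact hpm' (this ▸ hpn)
  · intro χ hχ β m hm hpm
    obtain ⟨β₀, hβ₀, ⟨m₀, hm₀, hmc⟩, hoth⟩ := hA χ χ.2 hχ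
    have e : (β : C → ℂ) = β₀ := by
      by_contra hne
      obtain ⟨n, hn, hpn⟩ := hoth β β.2 hne
      have : m = n := by exact_mod_cast hm.symm.trans hn
      exact hpm (this ▸ hpn)
    rw [e] at hm
    have : m = m₀ := by exact_mod_cast hm.symm.trans hm₀
    rw [this]; exact hmc
  · intro χ χ' hχ hχ' β m m' hm hpm hm' hpm'
    exact Subtype.ext (hB χ χ' χ.2 χ'.2 hχ hχ' β β.2 m m' hm hpm hm' hpm')
  · intro β
    obtain ⟨χ, hχ, hχinv, m, hm, hpm⟩ := hCc β β.2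
    exact ⟨⟨χ, hχ⟩, hχinv, m, hm, hpm⟩

end Cfsg.Agent.S4444
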