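import Cfsg.Statements.S4446
import Cfsg.Agent.Lib.Helper10.Glaub21

set_option autoImplicit false
open Cfsg

namespace Cfsg.Agent.S4446

open scoped ComplexConjugate
open Cfsg.Agent.Lib.Helper10.Glaub Cfsg.Agent.Lib.Helper1

/-- Let the finite group Γ be generated by a normal subgroup G and a cyclic subgroup S of coprime orders, C = G ⊓ C(S), and let χ be an S-invariant irreducible character of G with canonical extension χ̂ to Γ (the extension whose determinantal order is coprime to the order of S). Then there are exactly one irreducible character β of C and one sign ε such that χ̂(c s) = ε β(c) for every c ∈ C and every generator s of S; this β is a constituent of the restriction of χ to C; distinct S-invariant χ give distinct β; and every irreducible character of C arises in this way. -/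
theorem result {Γ : Type*} [Group Γ] [Fintype Γ] (G S : Subgroup Γ) [Fintype G] (hnorm : ∀ s ∈ S, ∀ g ∈ G, s * g * s⁻¹ ∈ G) (hcop : (Nat.card G).Coprime (Nat.card S)) (htop : G ⊔ S = ⊤) (hcyc : IsCyclic S) (C : Subgroup Γ) [Fintype C] (hC : C = G ⊓ Subgroup.centralizer (S : Set Γ)) (hCG : C ≤ G) : (∀ (χ : Cfsg.IrrCharacter G) (χh : Cfsg.IrrCharacter Γ), (∀ s ∈ S, ∀ g g' : G, (g' : Γ) = s * g * s⁻¹ → (χ : G → ℂ) g' = (χ : G → ℂ) g) → (∀ g : G, (χh : Γ → ℂ) g = (χ : G → ℂ) g) → (Cfsg.detOrder (χh : Γ → ℂ)).Coprime (Nat.card S) → (∃! βε : Cfsg.IrrCharacter C × ℤ, (βε.2 = 1 ∨ βε.2 = -1) ∧ ∀ c : C, ∀ s : Γ, Subgroup.zpowers s = S → (χh : Γ → ℂ) ((c : Γ) * s) = (βε.2 : ℂ) * (βε.1 : C → ℂ) c) ∧ ∀ β : Cfsg.IrrCharacter C, ∀ ε : ℤ, (ε = 1 ∨ ε = -1) → (∀ c : C, ∀ s : Γ, Subgroup.zpowers s = S → (χh : Γ → ℂ) ((c : Γ) * s) = (ε : ℂ) * (β : C → ℂ) c) → Cfsg.classInner (fun c : C => (χ : G → ℂ) ⟨c, hCG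 c.2⟩) (β : C → ℂ) ≠ 0) ∧ (∀ (χ χ' : Cfsg.IrrCharacter G) (χh χh' : Cfsg.IrrCharacter Γ), (∀ s ∈ S, ∀ g g' : G, (g' : Γ) = s * g * s⁻¹ → (χ : G → ℂ) g' = (χ : G → ℂ) g) → (∀ s ∈ S, ∀ g g' : G, (g' : Γ) = s * g * s⁻¹ → (χ' : G → ℂ) g' = (χ' : G → ℂ) g) → (∀ g : G, (χh : Γ → ℂ) g = (χ : G → ℂ) g) → (∀ g : G, (χh' : Γ → ℂ) g = (χ' : G → ℂ) g) → (Cfsg.detOrder (χh : Γ → ℂ)).Coprime (Nat.card S) → (Cfsg.detOrder (χh' : Γ → ℂ)).Coprime (Nat.card S) → ∀ β : Cfsg.IrrCharacter C, ∀ ε ε' : ℤ, (ε = 1 ∨ ε = -1) → (ε' = 1 ∨ ε' = -1) → (∀ c : C, ∀ s : Γ, Subgroup.zpowers s = S → (χh : Γ → ℂ) ((c : Γ) * s) = (ε : ℂ) * (β : C → ℂ) c) → (∀ c : C, ∀ s : Γ, Subgroup.zpowers s = S → (χh' : Γ → ℂ) ((c : Γ) * s) = (ε' : ℂ) * (β : C → ℂ) c) → χ = χ') ∧ (∀ β : Cfsg.IrrCharacter C, ∃ (χ : Cfsg.IrrCharacter G) (χh : Cfsg.IrrCharacter Γ) (ε : ℤ), (∀ s ∈ S, ∀ g g' : G, (g' : Γ) = s * g * s⁻¹ → (χ : G → ℂ) g' = (χ : G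 → ℂ) g) ∧ (∀ g : G, (χh : Γ → ℂ) g = (χ : G → ℂ) g) ∧ (Cfsg.detOrder (χh : Γ → ℂ)).Coprime (Nat.card S) ∧ (ε = 1 ∨ ε = -1) ∧ ∀ c : C, ∀ s : Γ, Subgroup.zpowers s = S → (χh : Γ → ℂ) ((c : Γ) * s) = (ε : ℂ) * (β : C → ℂ) c) := by
  classical
  haveI := hcyc
  haveI hGn : G.Normal := setup_normal G S hnorm htop
  have hidx := setup_index G S htop
  have hcard := setup_card G S htop
  obtain ⟨s₀, hs₀⟩ : ∃ s : Γ, Subgroup.zpowers s = S := by
    obtain ⟨g, hg⟩ := hcyc.exists_generator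
    refine ⟨(g : Γ), ?_⟩
    have h1 : Subgroup.zpowers g = ⊤ := (Subgroup.eq_top_iff' _).mpr hg
    have h2 := congrArg (Subgroup.map S.subtype) h1
    rw [MonoidHom.map_zpowers] at h2
    rw [show S.subtype g = (g : Γ) from rfl] at h2
    rw [h2, ← MonoidHom.range_eq_map, Subgroup.range_subtype]
  have hcardC : (Nat.card C : ℂ) ≠ 0 := by
    have : Nat.card C ≠ 0 := Nat.card_pos.ne'
    exact_mod_cast this
  have K1 : ∀ (χh : Γ → ℂ), Cfsg.IsIrrCharacter Γ χh → Cfsg.IsIrrCharacter G (fun g : G => χh g) →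
      (Cfsg.detOrder χh).Coprime (Nat.card S) →
      ∃ (β : C → ℂ) (ε : ℤ), Cfsg.IsIrrCharacter C β ∧ (ε = 1 ∨ ε = -1) ∧
        (∀ c : C, ∀ s' : Γ, Subgroup.zpowers s' = S → χh ((c : Γ) * s') = (ε : ℂ) * β c) ∧
        Cfsg.classInner (fun c : C => χh c) β ≠ 0 := by
    intro χh hχh hres hdet
    exact gen_values G S C hnorm hcop hcyc hC hCG hcard hχh hres
      (fun m hm hm1 x => canon_pow_invariant G S hidx hcop hχh hres hdet m hm hm1 x) s₀ hs₀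
  have K2 : ∀ (χh : Γ → ℂ) (β β' : C → ℂ) (ε ε' : ℤ), Cfsg.IsIrrCharacter C β →
      Cfsg.IsIrrCharacter C β' → (ε = 1 ∨ ε = -1) → (ε' = 1 ∨ ε' = -1) →
      (∀ c : C, ∀ s' : Γ, Subgroup.zpowers s' = S → χh ((c : Γ) * s') = (ε : ℂ) * β c) →
      (∀ c : C, ∀ s' : Γ, Subgroup.zpowers s' = S → χh ((c : Γ) * s') = (ε' : ℂ) * β' c) →
      β = β' ∧ ε = ε' := by
    intro χh β β' ε ε' hβ hβ' hε hε' h1 h2
    have h3 : ∀ c : C, (ε : ℂ) * β c = (ε' : ℂ) * β' c :=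
      fun c => (h1 c s₀ hs₀).symm.trans (h2 c s₀ hs₀)
    obtain ⟨d, hd0, hd⟩ := IsIrrCharacter.degree_pos hβ
    obtain ⟨d', hd0', hd'⟩ := IsIrrCharacter.degree_pos hβ'
    have h4 := h3 1
    rw [hd, hd'] at h4
    have h5 : ε * (d : ℤ) = ε' * (d' : ℤ) := by exact_mod_cast h4
    have hεε : ε = ε' := by
      rcases hε with rfl | rfl <;> rcases hε' with rfl | rfl
      · rfl
      · exfalso; omega
      · exfalso; omega
      · rfl
    refine ⟨?_, hεε⟩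
    subst hεε
    funext c
    have h6 := h3 c
    have hε0 : (ε : ℂ) ≠ 0 := by rcases hε with rfl | rfl <;> norm_num
    exact mul_left_cancel₀ hε0 h6
  have K3 : ∀ (χh χh' : Γ → ℂ), Cfsg.IsIrrCharacter Γ χh → Cfsg.IsIrrCharacter Γ χh' →
      Cfsg.IsIrrCharacter G (fun g : G => χh g) → Cfsg.IsIrrCharacter G (fun g : G => χh' g) →
      ∀ (β : C → ℂ) (ε ε' : ℤ), Cfsg.IsIrrCharacter C β → (ε = 1 ∨ ε = -1) → (ε' = 1 ∨ ε' = -1) →
      (∀ c : C, ∀ s' : Γ, Subgroup.zpowers s' = S → χh ((c : Γ) * s') = (ε : ℂ) * β c) →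
      (∀ c : C, ∀ s' : Γ, Subgroup.zpowers s' = S → χh' ((c : Γ) * s') = (ε' : ℂ) * β c) →
      (fun g : G => χh g) = (fun g : G => χh' g) := by
    intro χh χh' hχh hχh' hres hres' β ε ε' hβ hε hε' hform hform'
    by_contra hne
    have h0 : Cfsg.classInner (fun g : G => χh' g) (fun g : G => χh g) = 0 :=
      classInner_irr_ne hres' hres (fun h => hne h.symm)
    have h1 := gen_orth G S C hnorm hcop hC hCG s₀ hs₀ hχh hres hχh' h0
    have h2 : ∑ c : C, χh' ((c : Γ) * s₀) * conj (χh ((c : Γ) * s₀))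
        = (ε' : ℂ) * (ε : ℂ) * (Nat.card C : ℂ) := by
      have h4 := classInner_irr_self hβ
      unfold Cfsg.classInner at h4
      have h5 : ∑ c : C, β c * conj (β c) = (Nat.card C : ℂ) := by
        field_simp at h4
        exact h4
      rw [← h5, Finset.mul_sum]
      refine Finset.sum_congr rfl (fun c _ => ?_)
      rw [hform c s₀ hs₀, hform' c s₀ hs₀, map_mul, map_intCast]
      ring
    rw [h2] at h1
    have hε0 : (ε : ℂ) ≠ 0 := by rcases hε with rfl | rfl <;> norm_num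
    have hε0' : (ε' : ℂ) ≠ 0 := by rcases hε' with rfl | rfl <;> norm_num
    exact (mul_ne_zero (mul_ne_zero hε0' hε0) hcardC) h1
  refine ⟨?_, ?_, ?_⟩
  · intro χ χh hinv hext hdet
    have hres : Cfsg.IsIrrCharacter G (fun g : G => (χh : Γ → ℂ) g) := by
      have : (fun g : G => (χh : Γ → ℂ) g) = (χ : G → ℂ) := funext hext
      rw [this]; exact χ.2
    obtain ⟨β, ε, hβ, hε, hform, hcons⟩ := K1 χh χh.2 hres hdet
    have hcons' : Cfsg.classInner (fun c : C => (χ : G → ℂ) ⟨c, hCG c.2⟩) β ≠ 0 := by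
      have : (fun c : C => (χ : G → ℂ) ⟨c, hCG c.2⟩) = fun c : C => (χh : Γ → ℂ) c := by
        funext c; exact (hext ⟨c, hCG c.2⟩).symm
      rw [this]; exact hcons
    constructor
    · refine ⟨(⟨β, hβ⟩, ε), ⟨hε, hform⟩, ?_⟩
      rintro ⟨β', ε'⟩ ⟨hε', hform'⟩
      obtain ⟨e1, e2⟩ := K2 χh β' β ε' ε β'.2 hβ hε' hε hform' hform
      exact Prod.ext (Subtype.ext e1) e2
    · intro β' ε' hε' hform'
      obtain ⟨e1, e2⟩ := K2 χh β' β ε' ε β'.2 hβ hε' hε hform' hform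
      rw [e1]; exact hcons'
  · intro χ χ' χh χh' hinv hinv' hext hext' hdet hdet' β ε ε' hε hε' hform hform'
    have hres : Cfsg.IsIrrCharacter G (fun g : G => (χh : Γ → ℂ) g) := by
      have : (fun g : G => (χh : Γ → ℂ) g) = (χ : G → ℂ) := funext hext
      rw [this]; exact χ.2
    have hres' : Cfsg.IsIrrCharacter G (fun g : G => (χh' : Γ → ℂ) g) := by
      have : (fun g : G => (χh' : Γ → ℂ) g) = (χ' : G → ℂ) := funext hext'
      rw [this]; exact χ'.2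
    have h := K3 χh χh' χh.2 χh'.2 hres hres' β ε ε' β.2 hε hε' hform hform'
    apply Subtype.ext
    funext g
    rw [← hext g, ← hext' g]
    exact congrFun h g
  · intro β
    have hexF : ∀ χ : {χ : Cfsg.IrrCharacter G // SInv S G (χ : G → ℂ)},
        ∃ (χh : Cfsg.IrrCharacter Γ) (β : Cfsg.IrrCharacter C) (ε : ℤ),
          (∀ g : G, (χh : Γ → ℂ) g = (χ.1 : G → ℂ) g) ∧
          (Cfsg.detOrder (χh : Γ → ℂ)).Coprime (Nat.card S) ∧ (ε = 1 ∨ ε = -1) ∧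
          ∀ c : C, ∀ s : Γ, Subgroup.zpowers s = S →
            (χh : Γ → ℂ) ((c : Γ) * s) = (ε : ℂ) * (β : C → ℂ) c := by
      rintro ⟨χ, hχinv⟩
      obtain ⟨d, hd, hdG, -⟩ := IsIrrCharacter.degree_dvd_card χ.2
      have hcopidx : ∀ k : ℕ, k.Coprime (Nat.card S) → Nat.Coprime G.index k :=
        fun k hk => Nat.Coprime.coprime_dvd_left hidx hk.symm
      have hdetG : (Cfsg.detOrder (χ : G → ℂ)).Coprime (Nat.card S) :=
        Nat.Coprime.coprime_dvd_left (detOrder_dvd_card (IsIrrCharacter.isCharacter χ.2)) hcop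
      have hcop' : Nat.Coprime G.index (Cfsg.detOrder (χ : G → ℂ) * d) :=
        Nat.Coprime.mul_right (hcopidx _ hdetG)
          (hcopidx _ (Nat.Coprime.coprime_dvd_left hdG hcop))
      obtain ⟨χ₀, ⟨hχ₀, hχ₀ext, hχ₀det⟩, -⟩ := Cfsg.Agent.S0867.result G (χ : G → ℂ) χ.2
        (setup_inv G S htop (IsIrrCharacter.isClassFunction χ.2) hχinv) d hd hcop'
      have hdet0 : (Cfsg.detOrder χ₀).Coprime (Nat.card S) := by rw [hχ₀det]; exact hdetG
      have hres : Cfsg.IsIrrCharacter G (fun g : G => χ₀ g) := by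
        rw [show (fun g : G => χ₀ g) = (χ : G → ℂ) from funext hχ₀ext]; exact χ.2
      obtain ⟨β, ε, hβ, hε, hform, -⟩ := K1 χ₀ hχ₀ hres hdet0
      exact ⟨⟨χ₀, hχ₀⟩, ⟨β, hβ⟩, ε, hχ₀ext, hdet0, hε, hform⟩
    choose Fh Fβ Fε hF1 hF2 hF3 hF4 using hexF
    have hresF : ∀ χ, Cfsg.IsIrrCharacter G (fun g : G => (Fh χ : Γ → ℂ) g) := by
      intro χ
      rw [show (fun g : G => (Fh χ : Γ → ℂ) g) = (χ.1 : G → ℂ) from funext (hF1 χ)]
      exact χ.1.2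
    have hinj : Function.Injective Fβ := by
      intro χ χ' hβeq
      have h4' := hF4 χ'
      rw [← hβeq] at h4'
      have h := K3 (Fh χ) (Fh χ') (Fh χ).2 (Fh χ').2 (hresF χ) (hresF χ') (Fβ χ) (Fε χ) (Fε χ')
        (Fβ χ).2 (hF3 χ) (hF3 χ') (hF4 χ) h4'
      apply Subtype.ext
      apply Subtype.ext
      funext g
      rw [← hF1 χ g, ← hF1 χ' g]
      exact congrFun h g
    have hsolv : Group.IsSolvable S :=
      isSolvable_of_comm (fun a b => (IsCyclic.isMulCommutative (α := S)).is_comm.comm a b)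
    have hcardeq : Nat.card {χ : Cfsg.IrrCharacter G // SInv S G (χ : G → ℂ)}
        = Nat.card (Cfsg.IrrCharacter C) :=
      card_irr_inv_fix S hsolv (Nat.card G) G C rfl hnorm hcop hC
    haveI : Fintype (Cfsg.IrrCharacter C) := irrFintype
    have hbij := (Nat.bijective_iff_injective_and_card Fβ).mpr ⟨hinj, hcardeq⟩
    obtain ⟨χ, hχ⟩ := hbij.2 β
    exact ⟨χ.1, Fh χ, Fε χ, χ.2, hF1 χ, hF2 χ, hF3 χ, hχ ▸ hF4 χ⟩

end Cfsg.Agent.S4446
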