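import Cfsg.Statements.S4451
import Cfsg.Agent.Lib.Helper10.Glaub23

set_option autoImplicit false
open Cfsg

namespace Cfsg.Agent.S4451

open scoped ComplexConjugate
open Cfsg.Agent.Lib.Helper10.Glaub Cfsg.Agent.Lib.Helper1


/-- Let the finite group Γ be generated by a normal subgroup G and a cyclic subgroup S of coprime orders such that every non-identity element of S has the same centraliser C = G ⊓ C(S) in G. Let χ be an S-invariant irreducible character of G, χ̂ its canonical extension to Γ (determinantal order coprime to the order of S), and β the irreducible character of C with χ̂(c s) = ε₀ β(c) for c ∈ C and generators s of S (ε₀ = ±1). Then there are a sign ε = ±1, which may differ from ε₀, and a linear character μ of S with μ² = 1, such that: (a) χ̂(c x) = ε β(c) μ(x) for all c ∈ C and all x ∈ S other than 1; (b) the restriction of χ to C equals |S|·ϑ + ε β for some character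 ϑ of C or ϑ = 0; (c) |S| divides χ(1) − ε β(1). -/
theorem result {Γ : Type*} [Group Γ] [Fintype Γ] (G S : Subgroup Γ) [Fintype G] (hnorm : ∀ s ∈ S, ∀ g ∈ G, s * g * s⁻¹ ∈ G) (hcop : (Nat.card G).Coprime (Nat.card S)) (htop : G ⊔ S = ⊤) (hcyc : IsCyclic S) (C : Subgroup Γ) [Fintype C] (hC : C = G ⊓ Subgroup.centralizer (S : Set Γ)) (hCG : C ≤ G) (hfpf : ∀ x ∈ S, x ≠ 1 → G ⊓ Subgroup.centralizer ({x} : Set Γ) = C) (χ : Cfsg.IrrCharacter G) (hinv : (∀ s ∈ S, ∀ g g' : G, (g' : Γ) = s * g * s⁻¹ → (χ : G → ℂ) g' = (χ : G → ℂ) g)) (χh : Cfsg.IrrCharacter Γ) (hext : (∀ g : G, (χh : Γ → ℂ) g = (χ : G → ℂ) g)) (hdet : (Cfsg.detOrder (χh : Γ → ℂ)).Coprime (Nat.card S)) (β : Cfsg.IrrCharacter C) (ε₀ : ℤ) (hε₀ : ε₀ = 1 ∨ ε₀ = -1) (hβ : ∀ c : C, ∀ s : Γ, Subgroup.zpowers s = S → (χh : Γ → ℂ) ((c : Γ) * s) = (ε₀ : ℂ) * (β : C → ℂ) c) : ∃ ε : ℤ, (ε = 1 ∨ ε = -1) ∧ (∃ μ : S → ℂ, Cfsg.IsCharacter S μ ∧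 μ 1 = 1 ∧ (∀ x : S, μ x * μ x = 1) ∧ ∀ c : C, ∀ x : S, x ≠ 1 → (χh : Γ → ℂ) ((c : Γ) * x) = (ε : ℂ) * (β : C → ℂ) c * μ x) ∧ (∃ ϑ : C → ℂ, Cfsg.IsCharacter C ϑ ∧ (fun c : C => (χ : G → ℂ) ⟨c, hCG c.2⟩) = fun c => (Nat.card S : ℂ) * ϑ c + (ε : ℂ) * (β : C → ℂ) c) ∧ (Nat.card S : ℤ) ∣ (Cfsg.charDegree (χ : G → ℂ) : ℤ) - ε * (Cfsg.charDegree (β : C → ℂ) : ℤ) := by
  classical
  have hres : Cfsg.IsIrrCharacter G (fun g : G => (χh : Γ → ℂ) g) := by
    have : (fun g : G => (χh : Γ → ℂ) g) = (χ : G → ℂ) := funext hext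
    rw [this]; exact χ.2
  obtain ⟨dχ, -, hdχ⟩ := IsIrrCharacter.degree_pos χ.2
  obtain ⟨dβ, -, hdβ⟩ := IsIrrCharacter.degree_pos β.2
  have hcdχ : Cfsg.charDegree (χ : G → ℂ) = dχ := Cfsg.Agent.Lib.Helper1.charDegree_eq hdχ
  have hcdβ : Cfsg.charDegree (β : C → ℂ) = dβ := Cfsg.Agent.Lib.Helper1.charDegree_eq hdβ
  by_cases hS2 : 2 ≤ Nat.card S
  · obtain ⟨ε, hε, hμ, ϑ, hϑ, hϑeq⟩ := uniform_values G S hnorm hcop htop hcyc C hC hCG hfpf hS2
      χh.2 hres hdet β ε₀ hε₀ hβ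
    refine ⟨ε, hε, hμ, ⟨ϑ, hϑ, ?_⟩, ?_⟩
    · funext c
      rw [← hext ⟨c, hCG c.2⟩]
      exact congrFun hϑeq c
    · obtain ⟨dϑ, hdϑ⟩ := IsCharacter.degree_nat hϑ
      have h1 := congrFun hϑeq 1
      have h2 : (χh : Γ → ℂ) ((1 : C) : Γ) = (χ : G → ℂ) 1 := hext 1
      rw [h2, hdχ, hdϑ, hdβ] at h1
      have h3 : (dχ : ℤ) = (Nat.card S : ℤ) * dϑ + ε * dβ := by exact_mod_cast h1
      rw [hcdχ, hcdβ, h3]
      exact ⟨dϑ, by ring⟩
  · have hS1 : Nat.card S = 1 := by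
      have : 0 < Nat.card S := Nat.card_pos
      omega
    have hall : ∀ x : S, x = 1 := by
      intro x
      have := (Nat.card_eq_one_iff_unique.mp hS1).1
      exact Subsingleton.elim x 1
    have hSbot : Subgroup.zpowers (1 : Γ) = S := by
      rw [Subgroup.zpowers_one_eq_bot]
      exact (Subgroup.card_eq_one.mp hS1).symm
    have hval : ∀ c : C, (χ : G → ℂ) ⟨c, hCG c.2⟩ = (ε₀ : ℂ) * (β : C → ℂ) c := by
      intro c
      have := hβ c 1 hSbot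
      rw [mul_one] at this
      rw [← this]
      exact (hext ⟨c, hCG c.2⟩).symm
    refine ⟨ε₀, hε₀, ⟨fun _ => 1, isCharacter_one, rfl, fun x => by simp, ?_⟩,
      ⟨0, isCharacter_zero, ?_⟩, ?_⟩
    · intro c x hx
      exact absurd (hall x) hx
    · funext c
      rw [hval c]
      simp
    · rw [hS1]
      simp

end Cfsg.Agent.S4451
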