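import Cfsg.Statements.S4452
import Cfsg.Agent.Lib.Helper10.Glaub22

set_option autoImplicit false
open Cfsg

namespace Cfsg.Agent.S4452

open Cfsg.Agent.Lib.Helper10.Glaub Cfsg.Agent.Lib.Helper1

universe u

/-- The group side: `G = K H`. -/
theorem side_G {G : Type u} [Group G] [Finite G] (K H : Subgroup G) [hK : K.Normal]
    (hKH : K ⊔ H = ⊤) (hcop : (Nat.card K).Coprime (Nat.card H))
    (hsolv : Group.IsSolvable H) :
    Nat.card {χ : Cfsg.IrrCharacter G // (Cfsg.charDegree (χ : G → ℂ)).Coprime (Nat.card H)} =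
      Nat.card (Cfsg.IrrCharacter ↥(K ⊓ Subgroup.centralizer (H : Set G))) *
        Nat.card (H →* ℂˣ) := by
  classical
  rw [card_coprime_degree K H hKH hcop, card_lin K H hKH hcop]
  congr 1
  have hn : ∀ s ∈ H, ∀ k ∈ K, s * k * s⁻¹ ∈ K := fun s _ k hk => hK.conj_mem k hk s
  rw [← card_irr_inv_fix H hsolv (Nat.card K) K (K ⊓ Subgroup.centralizer (H : Set G)) rfl hn
    hcop rfl]
  apply Nat.card_congr
  apply Equiv.subtypeEquivRight
  intro θ
  constructor
  · intro h s hs g g' hg
    have := h s g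
    have h2 : g' = ⟨s * g * s⁻¹, hK.conj_mem (g : G) g.2 s⟩ := Subtype.ext hg
    rw [h2]
    exact this
  · intro h g n
    have hg : g ∈ K ⊔ H := by rw [hKH]; exact Subgroup.mem_top g
    obtain ⟨k, hk, s, hs, rfl⟩ := Subgroup.mem_sup_of_normal_left.1 hg
    have h1 := h s hs n ⟨s * n * s⁻¹, hn s hs n n.2⟩ rfl
    have h2 := IsIrrCharacter.isClassFunction θ.2 ⟨s * n * s⁻¹, hn s hs n n.2⟩ ⟨k, hk⟩
    rw [← h1, ← h2]
    apply congrArg
    apply Subtype.ext
    simp [mul_assoc]

/-- The local side: `N = N_G(H)`. -/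
theorem side_N {G : Type u} [Group G] [Finite G] (K H : Subgroup G) [hK : K.Normal]
    (hKH : K ⊔ H = ⊤) (hcop : (Nat.card K).Coprime (Nat.card H)) :
    Nat.card {η : Cfsg.IrrCharacter (Subgroup.normalizer (H : Set G)) //
        (Cfsg.charDegree (η : Subgroup.normalizer (H : Set G) → ℂ)).Coprime (Nat.card H)} =
      Nat.card (Cfsg.IrrCharacter ↥(K ⊓ Subgroup.centralizer (H : Set G))) *
        Nat.card (H →* ℂˣ) := by
  classical
  have hdisj : K ⊓ H = ⊥ := (Subgroup.disjoint_of_coprime_natCard hcop).eq_bot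
  have hHN : H ≤ Subgroup.normalizer (H : Set G) := Subgroup.le_normalizer
  -- elements of K ∩ N centralize H
  have hcent : ∀ x : G, x ∈ K → x ∈ Subgroup.normalizer (H : Set G) →
      x ∈ Subgroup.centralizer (H : Set G) := by
    intro x hxK hxN
    rw [Subgroup.mem_centralizer_iff]
    intro h hh
    have h1 : x * h * x⁻¹ ∈ H := (Subgroup.mem_normalizer_iff.mp hxN h).mp hh
    have h2 : x * h * x⁻¹ * h⁻¹ ∈ H := H.mul_mem h1 (H.inv_mem hh)
    have h3 : x * h * x⁻¹ * h⁻¹ ∈ K := by
      have : x * h * x⁻¹ * h⁻¹ = x * (h * x⁻¹ * h⁻¹) := by group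
      rw [this]
      exact K.mul_mem hxK (hK.conj_mem _ (K.inv_mem hxK) h)
    have h4 : x * h * x⁻¹ * h⁻¹ ∈ K ⊓ H := ⟨h3, h2⟩
    rw [hdisj, Subgroup.mem_bot] at h4
    have h5 : x * h = h * x := by
      have : x * h = (x * h * x⁻¹ * h⁻¹) * (h * x) := by group
      rw [this, h4, one_mul]
    exact h5.symm
  let eK : K.subgroupOf (Subgroup.normalizer (H : Set G)) ≃*
      ↥(K ⊓ Subgroup.centralizer (H : Set G)) :=
    { toFun := fun x => ⟨x.1.1, ⟨x.2, hcent x.1.1 x.2 x.1.2⟩⟩
      invFun := fun y => ⟨⟨y.1, Subgroup.centralizer_le_normalizer _ y.2.2⟩, y.2.1⟩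
      left_inv := fun x => rfl
      right_inv := fun y => rfl
      map_mul' := fun x y => rfl }
  let eH : H.subgroupOf (Subgroup.normalizer (H : Set G)) ≃* H :=
    Subgroup.subgroupOfEquivOfLe hHN
  have hcardH : Nat.card (H.subgroupOf (Subgroup.normalizer (H : Set G))) = Nat.card H :=
    Nat.card_congr eH.toEquiv
  have hcardK : Nat.card (K.subgroupOf (Subgroup.normalizer (H : Set G))) ∣ Nat.card K := by
    rw [Nat.card_congr eK.toEquiv]
    exact Subgroup.card_dvd_of_le inf_le_left
  have hcop' : (Nat.card (K.subgroupOf (Subgroup.normalizer (H : Set G)))).Coprime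
      (Nat.card (H.subgroupOf (Subgroup.normalizer (H : Set G)))) := by
    rw [hcardH]
    exact Nat.Coprime.coprime_dvd_left hcardK hcop
  have hdecomp : ∀ g : Subgroup.normalizer (H : Set G),
      ∃ k ∈ K.subgroupOf (Subgroup.normalizer (H : Set G)),
      ∃ s ∈ H.subgroupOf (Subgroup.normalizer (H : Set G)), k * s = g := by
    intro g
    have hg : (g : G) ∈ K ⊔ H := by rw [hKH]; exact Subgroup.mem_top _
    obtain ⟨k, hk, s, hs, hks⟩ := Subgroup.mem_sup_of_normal_left.1 hg
    have hsN : s ∈ Subgroup.normalizer (H : Set G) := hHN hs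
    have hkN : k ∈ Subgroup.normalizer (H : Set G) := by
      have : k = (g : G) * s⁻¹ := by rw [← hks]; group
      rw [this]
      exact Subgroup.mul_mem _ g.2 (Subgroup.inv_mem _ hsN)
    exact ⟨⟨k, hkN⟩, hk, ⟨s, hsN⟩, hs, Subtype.ext hks⟩
  have hsup : K.subgroupOf (Subgroup.normalizer (H : Set G)) ⊔
      H.subgroupOf (Subgroup.normalizer (H : Set G)) = ⊤ := by
    rw [eq_top_iff]
    intro g _
    obtain ⟨k, hk, s, hs, rfl⟩ := hdecomp g
    exact Subgroup.mul_mem_sup hk hs
  have hL := card_coprime_degree (K.subgroupOf (Subgroup.normalizer (H : Set G)))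
    (H.subgroupOf (Subgroup.normalizer (H : Set G))) hsup hcop'
  have hlin := card_lin (K.subgroupOf (Subgroup.normalizer (H : Set G)))
    (H.subgroupOf (Subgroup.normalizer (H : Set G))) hsup hcop'
  rw [hcardH] at hL
  rw [hL, hlin, Nat.card_congr (MulEquiv.monoidHomCongrLeftEquiv eH), ← card_irr_congr eK]
  congr 1
  apply Nat.card_congr
  apply Equiv.subtypeUnivEquiv
  intro θ g n
  obtain ⟨k, hk, s, hs, rfl⟩ := hdecomp g
  have hθ := IsIrrCharacter.isClassFunction θ.2 n ⟨k, hk⟩
  rw [← hθ]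
  apply congrArg
  apply Subtype.ext
  apply Subtype.ext
  have hnc := hcent (n : Subgroup.normalizer (H : Set G)) n.2
    (n : Subgroup.normalizer (H : Set G)).2
  rw [Subgroup.mem_centralizer_iff] at hnc
  have h1 := hnc (s : G) hs
  show (k : G) * (s : G) * ((n : Subgroup.normalizer (H : Set G)) : G) * ((k : G) * (s : G))⁻¹ =
    (k : G) * ((n : Subgroup.normalizer (H : Set G)) : G) * (k : G)⁻¹
  rw [mul_assoc (k : G), h1]
  group


/-- Let the finite group G be the product of a normal subgroup K and a solvable subgroup H of coprime orders, and let N = N_G(H). Then the number of irreducible characters of G of degree coprime to the order of H equals the number of irreducible characters of N of degree coprime to the order of H. (The two sets are in fact in a canonical bijection; only the equality of their sizes is stated here.) -/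
theorem result {G : Type*} [Group G] [Finite G] (K H : Subgroup G) [K.Normal] (hKH : K ⊔ H = ⊤) (hcop : (Nat.card K).Coprime (Nat.card H)) (hsolv : Group.IsSolvable H) : Nat.card {χ : Cfsg.IrrCharacter G // (Cfsg.charDegree (χ : G → ℂ)).Coprime (Nat.card H)} = Nat.card {η : Cfsg.IrrCharacter (Subgroup.normalizer (H : Set G)) // (Cfsg.charDegree (η : Subgroup.normalizer (H : Set G) → ℂ)).Coprime (Nat.card H)} := by
  rw [side_G K H hKH hcop hsolv, side_N K H hKH hcop]

end Cfsg.Agent.S4452
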