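import Mathlib
import Cfsg.Statements.S4458
import Cfsg.Agent.Lib.Helper23.TwoDeg

set_option autoImplicit false
open Cfsg

namespace Cfsg.Agent.S4458

open Cfsg.Agent.Lib.Helper1 Cfsg.Agent.Lib.Helper23.TwoDeg

theorem map_commutator_le {G H : Type*} [Group G] [Group H] (f : G →* H) :
    (commutator G).map f ≤ commutator H := by
  rw [commutator_def, commutator_def, Subgroup.map_commutator]
  exact Subgroup.commutator_mono le_top le_top

/-- If a finite group has exactly two irreducible character degrees, 1 and m with m ≠ 1, then its commutator subgroup is abelian. -/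
theorem result {G : Type*} [Group G] [Finite G] (m : ℕ) (hcd : ∀ χ : Cfsg.IrrCharacter G, Cfsg.charDegree (χ : G → ℂ) = 1 ∨ Cfsg.charDegree (χ : G → ℂ) = m) (hm : ∃ χ : Cfsg.IrrCharacter G, Cfsg.charDegree (χ : G → ℂ) = m) (hm1 : m ≠ 1) : ∀ a ∈ commutator G, ∀ b ∈ commutator G, a * b = b * a := by
  classical
  have h2 : TwoDeg G m := twoDeg_of_charDegree m hcd
  have hth : ∀ p : ℕ, p.Prime → p ∣ m → ∃ N : Subgroup G, N.Normal ∧
      (Nat.card N).Coprime p ∧ ∃ k : ℕ, N.index = p ^ k := by
    intro p hp hpm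
    apply Cfsg.Agent.S4456.result p hp
    intro χ hχ
    rcases hcd χ with h | h
    · exact absurd h hχ
    · rw [h]
      exact hpm
  by_cases hpp : ∃ p e : ℕ, p.Prime ∧ m = p ^ e
  · obtain ⟨p, e, hp, rfl⟩ := hpp
    have he : e ≠ 0 := by
      rintro rfl
      exact hm1 (pow_zero p)
    obtain ⟨N, hN, hcop, k, hk⟩ := hth p hp (dvd_pow_self p he)
    have hNab : ∀ a b : N, a * b = b * a :=
      abelian_of_coprime h2 N (Nat.Coprime.pow_right e hcop)
    have hq : IsPGroup p (G ⧸ N) :=
      IsPGroup.of_card (n := k) (by rw [← Subgroup.index_eq_card, hk])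
    have : Fact p.Prime := ⟨hp⟩
    have hnil : Group.IsNilpotent (G ⧸ N) := hq.isNilpotent
    intro a ha b hb
    have hc : a * b * a⁻¹ * b⁻¹ ∈ N := by
      have h3 : (QuotientGroup.mk' N a) ∈ commutator (G ⧸ N) :=
        map_commutator_le (QuotientGroup.mk' N) ⟨a, ha, rfl⟩
      have h4 : (QuotientGroup.mk' N b) ∈ commutator (G ⧸ N) :=
        map_commutator_le (QuotientGroup.mk' N) ⟨b, hb, rfl⟩
      have h5 := nilpotent_comm (h2.quot N) h3 h4
      rw [← QuotientGroup.eq_one_iff]
      have h6 : ((a * b * a⁻¹ * b⁻¹ : G) : G ⧸ N) =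
          QuotientGroup.mk' N a * QuotientGroup.mk' N b * (QuotientGroup.mk' N a)⁻¹ *
            (QuotientGroup.mk' N b)⁻¹ := rfl
      rw [h6, h5]
      group
    have hcent : ∀ x ∈ commutator G, ∀ n ∈ N, x * n = n * x :=
      fun x hx n hn => commutator_centralizes h2 N hNab hx hn
    set c := a * b * a⁻¹ * b⁻¹ with hcdef
    have hca : a * c = c * a := hcent a ha c hc
    have hpow : ∀ j : ℕ, a ^ j * b * (a ^ j)⁻¹ * b⁻¹ = c ^ j := by
      intro j
      induction j with
      | zero => simp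
      | succ j ih =>
        have h7 : a ^ (j + 1) * b * (a ^ (j + 1))⁻¹ * b⁻¹ =
            a * (a ^ j * b * (a ^ j)⁻¹ * b⁻¹) * (a⁻¹ * (a * b * a⁻¹ * b⁻¹)) := by
          rw [pow_succ']
          group
        rw [h7, ih, ← hcdef]
        have hcj : a * c ^ j = c ^ j * a := (Commute.pow_right (show Commute a c from hca) j).eq
        rw [hcj, mul_assoc, ← mul_assoc a, mul_inv_cancel, one_mul, ← pow_succ]
    have hak : a ^ N.index ∈ N := Subgroup.pow_index_mem N a
    have h6 : c ^ N.index = 1 := by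
      rw [← hpow]
      have h7 := hcent b hb _ hak
      calc a ^ N.index * b * (a ^ N.index)⁻¹ * b⁻¹
          = (b * a ^ N.index) * (a ^ N.index)⁻¹ * b⁻¹ := by rw [h7]
        _ = 1 := by group
    have h8 : c ^ Nat.card N = 1 := by
      have h9 : (⟨c, hc⟩ : N) ^ Nat.card N = 1 := pow_card_eq_one'
      have h10 : (((⟨c, hc⟩ : N) ^ Nat.card N : N) : G) = ((1 : N) : G) := congrArg Subtype.val h9
      rw [Subgroup.coe_pow, Subgroup.coe_one] at h10
      exact h10
    have h9 : orderOf c ∣ Nat.gcd N.index (Nat.card N) :=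
      Nat.dvd_gcd (orderOf_dvd_of_pow_eq_one h6) (orderOf_dvd_of_pow_eq_one h8)
    have h10 : Nat.gcd N.index (Nat.card N) = 1 := by
      rw [hk]
      exact Nat.Coprime.pow_left k hcop.symm
    rw [h10, Nat.dvd_one, orderOf_eq_one_iff] at h9
    calc a * b = c * (b * a) := by rw [hcdef]; group
      _ = b * a := by rw [h9, one_mul]
  · push Not at hpp
    have hcomm_le : ∀ p : ℕ, p.Prime → p ∣ m → ∃ N : Subgroup G,
        (Nat.card N).Coprime p ∧ commutator G ≤ N := by
      intro p hp hpm
      obtain ⟨N, hN, hcop, k, hk⟩ := hth p hp hpm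
      refine ⟨N, hcop, ?_⟩
      have : Fintype (G ⧸ N) := Fintype.ofFinite _
      have hlin : ∀ χ : Cfsg.IrrCharacter (G ⧸ N), (χ : G ⧸ N → ℂ) 1 = 1 := by
        intro χ
        rcases (h2.quot N) χ χ.2 with h | h
        · exact h
        · exfalso
          obtain ⟨d, hd, hdvd, hdpos⟩ := IsIrrCharacter.degree_dvd_card χ.2
          rw [← Subgroup.index_eq_card, hk] at hdvd
          obtain ⟨j, hj, rfl⟩ := (Nat.dvd_prime_pow hp).1 hdvd
          rw [h] at hd
          have h3 : m = p ^ j := by exact_mod_cast hd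
          exact hpp p j hp h3
      have hab := abelian_of_all_linear hlin
      rw [commutator_def, Subgroup.commutator_le]
      intro x _ y _
      rw [← QuotientGroup.eq_one_iff, commutatorElement_def]
      have h6 : ((x * y * x⁻¹ * y⁻¹ : G) : G ⧸ N) =
          QuotientGroup.mk' N x * QuotientGroup.mk' N y * (QuotientGroup.mk' N x)⁻¹ *
            (QuotientGroup.mk' N y)⁻¹ := rfl
      rw [h6, hab (QuotientGroup.mk' N x) (QuotientGroup.mk' N y)]
      group
    have hcop : (Nat.card (commutator G)).Coprime m := by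
      by_contra hnc
      obtain ⟨p, hp, h1, h2'⟩ := Nat.Prime.not_coprime_iff_dvd.1 hnc
      obtain ⟨N, hcopN, hle⟩ := hcomm_le p hp h2'
      have h3 : p ∣ Nat.card N := h1.trans (Subgroup.card_dvd_of_le hle)
      exact (Nat.Prime.coprime_iff_not_dvd hp).1 hcopN.symm h3
    intro a ha b hb
    have h4 := abelian_of_coprime h2 (commutator G) hcop ⟨a, ha⟩ ⟨b, hb⟩
    exact congrArg Subtype.val h4

end Cfsg.Agent.S4458
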