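import Mathlib
import Cfsg.Statements.S4459
import Cfsg.Agent.S4457
import Cfsg.Agent.Lib.Helper23.TwoDeg3

set_option autoImplicit false
open Cfsg

namespace Cfsg.Agent.S4459

open Cfsg.Agent.Lib.Helper1 Cfsg.Agent.Lib.Helper23.TwoDeg

/-- Let G be a non-abelian finite group and p a prime. Then the irreducible character degrees of G are exactly 1 and p if and only if either G has an abelian normal subgroup of index p or the centre of G has index p³. -/
theorem result {G : Type*} [Group G] [Finite G] (hG : ∃ a b : G, a * b ≠ b * a) (p : ℕ) (hp : p.Prime) : ((∀ χ : Cfsg.IrrCharacter G, Cfsg.charDegree (χ : G → ℂ) = 1 ∨ Cfsg.charDegree (χ : G → ℂ) = p) ∧ ∃ χ : Cfsg.IrrCharacter G, Cfsg.charDegree (χ : G → ℂ) = p) ↔ ((∃ A : Subgroup G, A.Normal ∧ (∀ a ∈ A, ∀ b ∈ A, a * b = b * a) ∧ A.index = p) ∨ (Subgroup.center G).index = p ^ 3) := by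
  classical
  have := Fintype.ofFinite G
  constructor
  · rintro ⟨hcd, hm⟩
    have h2 : TwoDeg G p := twoDeg_of_charDegree p hcd
    rcases Cfsg.Agent.S4457.result p hcd hm hp.one_lt.ne' with h |
      ⟨p', e, hp', hpe, P, A, hPn, hAn, hP, hAab, hinf, hsup⟩
    · exact Or.inl h
    · have hpp : p' = p ∧ e = 1 := (Nat.Prime.pow_eq_iff hp).1 hpe.symm
      obtain ⟨hp'p, -⟩ := hpp
      rw [hp'p] at hP
      have hdecomp : ∀ g : G, ∃ x ∈ P, ∃ a ∈ A, g = x * a := by
        intro g
        have hg : g ∈ (P ⊔ A : Subgroup G) := by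
          rw [hsup]
          exact Subgroup.mem_top g
        rw [← SetLike.mem_coe, Subgroup.mul_normal] at hg
        obtain ⟨x, hx, a, ha, rfl⟩ := hg
        exact ⟨x, hx, a, ha, rfl⟩
      have hcomm : ∀ x ∈ P, ∀ a ∈ A, x * a = a * x := by
        intro x hx a ha
        exact Subgroup.commute_of_normal_of_disjoint P A hPn hAn (disjoint_iff.2 hinf) x a hx ha
      have hAcent : A ≤ Subgroup.center G := by
        intro a ha
        rw [Subgroup.mem_center_iff]
        intro g
        obtain ⟨x, hx, a', ha', rfl⟩ := hdecomp g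
        rw [mul_assoc, hAab a' ha' a ha, ← mul_assoc, hcomm x hx a ha, mul_assoc]
      have : Fact p.Prime := ⟨hp⟩
      have hQ : IsPGroup p (G ⧸ A) := by
        intro q
        obtain ⟨g, rfl⟩ := QuotientGroup.mk_surjective q
        obtain ⟨x, hx, a, ha, rfl⟩ := hdecomp g
        obtain ⟨k, hk⟩ := hP ⟨x, hx⟩
        refine ⟨k, ?_⟩
        have h1 : ((x * a : G) : G ⧸ A) = (x : G ⧸ A) := by
          rw [QuotientGroup.mk_mul, (QuotientGroup.eq_one_iff a).2 ha, mul_one]
        rw [h1, ← QuotientGroup.mk_pow]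
        have h3 : x ^ p ^ k = 1 := congrArg Subtype.val hk
        rw [h3]
        rfl
      have hnil : Group.IsNilpotent G := by
        have h5 := hQ.isNilpotent
        exact Subgroup.isNilpotent_of_ker_le_center (QuotientGroup.mk' A)
          (by rw [QuotientGroup.ker_mk']; exact hAcent)
      obtain ⟨n, hn⟩ := IsPGroup.iff_card.1 hQ
      have hidx : (Subgroup.center G).index ∣ p ^ n := by
        rw [← hn, ← Subgroup.index_eq_card]
        exact Subgroup.index_dvd_of_le hAcent
      obtain ⟨k, -, hk⟩ := (Nat.dvd_prime_pow hp).1 hidx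
      exact core hp h2 hG hk
  · intro h
    have hdeg : ∀ χ : Cfsg.IrrCharacter G,
        (χ : G → ℂ) 1 = (Cfsg.charDegree (χ : G → ℂ) : ℂ) :=
      fun χ => Cfsg.Agent.S4456.degree_eq (IsIrrCharacter.isCharacter χ.2)
    have hall : ∀ χ : Cfsg.IrrCharacter G, Cfsg.charDegree (χ : G → ℂ) = 1 ∨
        Cfsg.charDegree (χ : G → ℂ) = p := by
      intro χ
      rcases h with ⟨A, hAn, hAab, hAidx⟩ | hZ
      · have h1 := degree_dvd_index_of_abelian A hAab χ.2 (hdeg χ)
        rw [hAidx] at h1
        exact (Nat.dvd_prime hp).1 h1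
      · have h5 := sq_mul_card_Zc_le χ.2 (hdeg χ)
        have h6 := Subgroup.card_le_of_le (center_le_Zc χ.2)
        have h7 := Subgroup.card_mul_index (Subgroup.center G)
        rw [hZ] at h7
        have h8 : Cfsg.charDegree (χ : G → ℂ) ^ 2 ≤ p ^ 3 := by
          have h9 : Cfsg.charDegree (χ : G → ℂ) ^ 2 * Nat.card (Subgroup.center G) ≤
              p ^ 3 * Nat.card (Subgroup.center G) := by
            calc Cfsg.charDegree (χ : G → ℂ) ^ 2 * Nat.card (Subgroup.center G)
                ≤ Cfsg.charDegree (χ : G → ℂ) ^ 2 * Nat.card (Zc (χ : G → ℂ) χ.2) :=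
                  Nat.mul_le_mul_left _ h6
              _ ≤ Nat.card G := h5
              _ = p ^ 3 * Nat.card (Subgroup.center G) := by rw [← h7, mul_comm]
          exact Nat.le_of_mul_le_mul_right h9 Nat.card_pos
        have h9 : Cfsg.charDegree (χ : G → ℂ) ∣ p ^ 3 := by
          obtain ⟨n, ρ, hρ, hχρ⟩ := χ.2
          have := hρ
          have h10 := degree_dvd_index_of_scalar ρ (Subgroup.center G)
            (fun z hz => central_scalar ρ hz)
          rw [hZ] at h10
          have h11 : (Module.finrank ℂ (Fin n → ℂ) : ℂ) =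
              (Cfsg.charDegree (χ : G → ℂ) : ℂ) := by
            rw [← hdeg χ, ← hχρ]
            exact (Representation.char_one ρ).symm
          have h12 : Module.finrank ℂ (Fin n → ℂ) = Cfsg.charDegree (χ : G → ℂ) := by
            exact_mod_cast h11
          rw [← h12]
          exact h10
        obtain ⟨j, hj, hj2⟩ := (Nat.dvd_prime_pow hp).1 h9
        rw [hj2, ← pow_mul] at h8
        have h13 := (Nat.pow_le_pow_iff_right hp.one_lt).1 h8
        have h14 : j = 0 ∨ j = 1 := by omega
        rcases h14 with rfl | rfl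
        · left
          rw [hj2, pow_zero]
        · right
          rw [hj2, pow_one]
    refine ⟨hall, ?_⟩
    by_contra hcon
    push Not at hcon
    obtain ⟨a, b, hab⟩ := hG
    apply hab
    apply abelian_of_all_linear
    intro χ
    rw [hdeg χ]
    rcases hall χ with h1 | h1
    · rw [h1]
      simp
    · exact absurd h1 (hcon χ)

end Cfsg.Agent.S4459
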