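import Mathlib
import Cfsg.Statements.S4462
import Cfsg.Agent.Lib.Helper23.BG
import Cfsg.Agent.Lib.Lead.Cores

set_option autoImplicit false
open Cfsg

namespace Cfsg.Agent.S4462

open Cfsg.Agent.Lib.Helper1 Cfsg.Agent.Lib.Helper23.BG Cfsg.Agent.Lib.Lead.Cores

universe u

def HasSeries (G : Type u) [Group G] (k : ℕ) : Prop :=
  ∃ N : Fin (k + 1) → Subgroup G, N 0 = ⊥ ∧ N (Fin.last k) = ⊤ ∧ Monotone N ∧
    (∀ i, (N i).Normal) ∧ ∀ i : Fin k, ∀ h : (N i.castSucc).subgroupOf (N i.succ) |>.Normal,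
      Group.IsNilpotent (↥(N i.succ) ⧸ (N i.castSucc).subgroupOf (N i.succ))

theorem nilp_quot {G : Type u} [Group G] (H K : Subgroup G) (hH : Group.IsNilpotent H) :
    ∀ h : (K.subgroupOf H).Normal, Group.IsNilpotent (H ⧸ K.subgroupOf H) := by
  intro h
  exact Group.nilpotent_of_surjective (QuotientGroup.mk' (K.subgroupOf H))
    (QuotientGroup.mk'_surjective _)

theorem nilp_comap {G Q : Type u} [Group G] [Group Q] (π : G →* Q)
    (hπ : Function.Surjective π) (A B : Subgroup Q) (hn : (A.subgroupOf B).Normal)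
    (hnil : Group.IsNilpotent (B ⧸ A.subgroupOf B)) :
    ∀ h : ((A.comap π).subgroupOf (B.comap π)).Normal,
      Group.IsNilpotent (↥(B.comap π) ⧸ (A.comap π).subgroupOf (B.comap π)) := by
  have hsurj : Function.Surjective
      ((QuotientGroup.mk' (A.subgroupOf B)).comp (π.subgroupComap B)) := by
    intro q
    obtain ⟨b, rfl⟩ := QuotientGroup.mk'_surjective _ q
    obtain ⟨g, hg⟩ := hπ b
    have hgB : g ∈ B.comap π := by
      rw [Subgroup.mem_comap, hg]
      exact b.2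
    refine ⟨⟨g, hgB⟩, ?_⟩
    have h1 : π.subgroupComap B ⟨g, hgB⟩ = b := Subtype.ext hg
    rw [MonoidHom.comp_apply, h1]
  have hker : ((QuotientGroup.mk' (A.subgroupOf B)).comp (π.subgroupComap B)).ker =
      (A.comap π).subgroupOf (B.comap π) := by
    ext x
    rw [MonoidHom.mem_ker, Subgroup.mem_subgroupOf, Subgroup.mem_comap, MonoidHom.comp_apply,
      QuotientGroup.mk'_apply, QuotientGroup.eq_one_iff, Subgroup.mem_subgroupOf]
    rfl
  rw [← hker]
  intro h
  exact Group.nilpotent_of_mulEquiv (QuotientGroup.quotientKerEquivOfSurjective _ hsurj).symm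

theorem step {G : Type u} [Group G] (A : Subgroup G) [A.Normal] (hA : Group.IsNilpotent A)
    (k : ℕ) (h : HasSeries (G ⧸ A) k) : HasSeries G (k + 1) := by
  obtain ⟨N', h0, hlast, hmono, hnorm, hnil⟩ := h
  refine ⟨Fin.cons ⊥ (fun j => (N' j).comap (QuotientGroup.mk' A)), ?_, ?_, ?_, ?_, ?_⟩
  · exact Fin.cons_zero _ _
  · rw [← Fin.succ_last, Fin.cons_succ, hlast]
    exact Subgroup.comap_top _
  · rw [Fin.monotone_iff_le_succ]
    intro i
    induction i using Fin.cases with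
    | zero =>
      rw [Fin.castSucc_zero, Fin.cons_zero]
      exact bot_le
    | succ j =>
      rw [← Fin.succ_castSucc, Fin.cons_succ, Fin.cons_succ]
      exact Subgroup.comap_mono (hmono (Fin.castSucc_le_succ j))
  · intro i
    induction i using Fin.cases with
    | zero =>
      rw [Fin.cons_zero]
      exact Subgroup.normal_bot
    | succ j =>
      rw [Fin.cons_succ]
      exact (hnorm j).comap _
  · intro i
    induction i using Fin.cases with
    | zero =>
      rw [Fin.castSucc_zero, Fin.cons_zero, Fin.cons_succ, h0, MonoidHom.comap_bot,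
        QuotientGroup.ker_mk']
      exact nilp_quot A ⊥ hA
    | succ j =>
      rw [← Fin.succ_castSucc, Fin.cons_succ, Fin.cons_succ]
      exact nilp_comap (QuotientGroup.mk' A) (QuotientGroup.mk'_surjective A) _ _
        ((hnorm j.castSucc).subgroupOf _) (hnil j ((hnorm j.castSucc).subgroupOf _))

theorem series_of_nilpotent {G : Type u} [Group G] (hG : Group.IsNilpotent G) (k : ℕ) :
    HasSeries G (k + 1) := by
  refine ⟨Fin.cons ⊥ (fun _ => ⊤), ?_, ?_, ?_, ?_, ?_⟩
  · exact Fin.cons_zero _ _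
  · rw [← Fin.succ_last, Fin.cons_succ]
  · rw [Fin.monotone_iff_le_succ]
    intro i
    rw [Fin.cons_succ]
    exact le_top
  · intro i
    induction i using Fin.cases with
    | zero =>
      rw [Fin.cons_zero]
      exact Subgroup.normal_bot
    | succ j =>
      rw [Fin.cons_succ]
      exact Subgroup.normal_top
  · intro i
    rw [Fin.cons_succ]
    exact nilp_quot ⊤ _ (Group.nilpotent_of_mulEquiv Subgroup.topEquiv.symm)

theorem card_lt {G : Type u} [Group G] [Finite G] [hF : (Cfsg.fittingSubgroup G).Normal]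
    (hsolv : Group.IsSolvable G) (hnil : ¬ Group.IsNilpotent G) :
    Nat.card {d : ℕ // ∃ χ : Cfsg.IrrCharacter (G ⧸ Cfsg.fittingSubgroup G),
      Cfsg.charDegree (χ : G ⧸ Cfsg.fittingSubgroup G → ℂ) = d} <
    Nat.card {d : ℕ // ∃ χ : Cfsg.IrrCharacter G, Cfsg.charDegree (χ : G → ℂ) = d} := by
  classical
  have := Fintype.ofFinite G
  have hQ : Fintype (G ⧸ Cfsg.fittingSubgroup G) := Fintype.ofFinite _
  have hfinG : Finite (Cfsg.IrrCharacter G) := irr_finite
  have hfinQ : Finite (Cfsg.IrrCharacter (G ⧸ Cfsg.fittingSubgroup G)) := irr_finite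
  have hne : Nonempty (Cfsg.IrrCharacter (G ⧸ Cfsg.fittingSubgroup G)) :=
    ⟨⟨fun _ => 1, isIrrCharacter_one⟩⟩
  obtain ⟨χb, hmax⟩ := Finite.exists_max
    (fun χ : Cfsg.IrrCharacter (G ⧸ Cfsg.fittingSubgroup G) =>
      Cfsg.charDegree (χ : G ⧸ Cfsg.fittingSubgroup G → ℂ))
  have hχ : Cfsg.IsIrrCharacter G (fun g : G => (χb : G ⧸ Cfsg.fittingSubgroup G → ℂ) g) :=
    IsIrrCharacter.inflate (Cfsg.fittingSubgroup G) χb.2
  have hKn : (charKer _ (IsIrrCharacter.isCharacter hχ)).Normal := charKer_normal _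
  have hFK : Cfsg.fittingSubgroup G ≤ charKer _ (IsIrrCharacter.isCharacter hχ) := by
    intro g hg
    rw [mem_charKer]
    show (χb : G ⧸ Cfsg.fittingSubgroup G → ℂ) (g : G ⧸ Cfsg.fittingSubgroup G) =
      (χb : G ⧸ Cfsg.fittingSubgroup G → ℂ) ((1 : G) : G ⧸ Cfsg.fittingSubgroup G)
    rw [(QuotientGroup.eq_one_iff g).2 hg, QuotientGroup.mk_one]
  have hBG : ¬ charKer _ (IsIrrCharacter.isCharacter hχ) ≤ Cfsg.fittingSubgroup G ∨
      (charKer _ (IsIrrCharacter.isCharacter hχ) = Cfsg.fittingSubgroup G ∧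
        Group.IsSolvable (G ⧸ charKer _ (IsIrrCharacter.isCharacter hχ)) ∧
        charKer _ (IsIrrCharacter.isCharacter hχ) ≠ ⊤) := by
    by_cases hKF : charKer _ (IsIrrCharacter.isCharacter hχ) ≤ Cfsg.fittingSubgroup G
    · right
      have heq := le_antisymm hKF hFK
      refine ⟨heq, inferInstance, ?_⟩
      intro htop
      rw [heq] at htop
      have h1 : Group.IsNilpotent (Cfsg.fittingSubgroup G) := fittingSubgroup_isNilpotent
      rw [htop] at h1
      exact hnil (Group.nilpotent_of_mulEquiv Subgroup.topEquiv)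
    · exact Or.inl hKF
  obtain ⟨ψ, hψ, hdeg, -⟩ := broline_garrison hχ _ (fun g => Iff.rfl) hBG
  have hfinT : ({d : ℕ | ∃ χ : Cfsg.IrrCharacter G, Cfsg.charDegree (χ : G → ℂ) = d}).Finite :=
    Set.finite_range (fun χ : Cfsg.IrrCharacter G => Cfsg.charDegree (χ : G → ℂ))
  have hss : {d : ℕ | ∃ χ : Cfsg.IrrCharacter (G ⧸ Cfsg.fittingSubgroup G),
      Cfsg.charDegree (χ : G ⧸ Cfsg.fittingSubgroup G → ℂ) = d} ⊂
      {d : ℕ | ∃ χ : Cfsg.IrrCharacter G, Cfsg.charDegree (χ : G → ℂ) = d} := by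
    rw [Set.ssubset_iff_of_subset]
    · refine ⟨Cfsg.charDegree ψ, ⟨⟨ψ, hψ⟩, rfl⟩, ?_⟩
      rintro ⟨φ, hφ⟩
      have h1 : Cfsg.charDegree (φ : G ⧸ Cfsg.fittingSubgroup G → ℂ) ≤
          Cfsg.charDegree (χb : G ⧸ Cfsg.fittingSubgroup G → ℂ) := hmax φ
      have h2 : Cfsg.charDegree (fun g : G => (χb : G ⧸ Cfsg.fittingSubgroup G → ℂ) g) =
          Cfsg.charDegree (χb : G ⧸ Cfsg.fittingSubgroup G → ℂ) := rfl
      omega
    · rintro d ⟨φ, hφ⟩
      exact ⟨⟨fun g : G => (φ : G ⧸ Cfsg.fittingSubgroup G → ℂ) g,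
        IsIrrCharacter.inflate (Cfsg.fittingSubgroup G) φ.2⟩, hφ⟩
  have h3 := Set.ncard_lt_ncard hss hfinT
  rw [← Nat.card_coe_set_eq, ← Nat.card_coe_set_eq] at h3
  exact h3

theorem series_aux : ∀ (k : ℕ) (G : Type u) [Group G] [Finite G], Group.IsSolvable G →
    Nat.card {d : ℕ // ∃ χ : Cfsg.IrrCharacter G, Cfsg.charDegree (χ : G → ℂ) = d} ≤ k →
    HasSeries G k := by
  intro k
  induction k with
  | zero =>
    intro G _ _ hsolv hcard
    exfalso
    classical
    have := Fintype.ofFinite G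
    have hfinG : Finite (Cfsg.IrrCharacter G) := irr_finite
    have hfinT : ({d : ℕ | ∃ χ : Cfsg.IrrCharacter G, Cfsg.charDegree (χ : G → ℂ) = d}).Finite :=
      Set.finite_range (fun χ : Cfsg.IrrCharacter G => Cfsg.charDegree (χ : G → ℂ))
    have hfin : Finite {d : ℕ // ∃ χ : Cfsg.IrrCharacter G, Cfsg.charDegree (χ : G → ℂ) = d} :=
      hfinT.to_subtype
    have hne : Nonempty {d : ℕ // ∃ χ : Cfsg.IrrCharacter G, Cfsg.charDegree (χ : G → ℂ) = d} :=
      ⟨⟨_, ⟨⟨fun _ => 1, isIrrCharacter_one⟩, rfl⟩⟩⟩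
    have hpos := Nat.card_pos (α := {d : ℕ // ∃ χ : Cfsg.IrrCharacter G,
      Cfsg.charDegree (χ : G → ℂ) = d})
    omega
  | succ k ih =>
    intro G _ _ hsolv hcard
    by_cases hnil : Group.IsNilpotent G
    · exact series_of_nilpotent hnil k
    · have hFn : (Cfsg.fittingSubgroup G).Normal := fittingSubgroup_normal
      have hlt := card_lt hsolv hnil
      have hq : HasSeries (G ⧸ Cfsg.fittingSubgroup G) k :=
        ih (G ⧸ Cfsg.fittingSubgroup G) inferInstance (by omega)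
      exact step (Cfsg.fittingSubgroup G) fittingSubgroup_isNilpotent k hq

/-- Let G be a finite solvable group with exactly n distinct irreducible character degrees. Then G has normal subgroups 1 = N₀ ≤ N₁ ≤ ⋯ ≤ Nₙ = G with every quotient N_{i+1}/N_i nilpotent (the nilpotent length of G is at most n). -/
theorem result {G : Type*} [Group G] [Finite G] (hsolv : Group.IsSolvable G) (n : ℕ) (hcd : Nat.card {d : ℕ // ∃ χ : Cfsg.IrrCharacter G, Cfsg.charDegree (χ : G → ℂ) = d} = n) : ∃ N : Fin (n + 1) → Subgroup G, N 0 = ⊥ ∧ N (Fin.last n) = ⊤ ∧ Monotone N ∧ (∀ i, (N i).Normal) ∧ ∀ i : Fin n, ∀ h : (N i.castSucc).subgroupOf (N i.succ) |>.Normal, Group.IsNilpotent (↥(N i.succ) ⧸ (N i.castSucc).subgroupOf (N i.succ)) :=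
  series_aux n G hsolv hcd.le

end Cfsg.Agent.S4462
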