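import Mathlib
import Cfsg.Statements.S4468
import Cfsg.Agent.Lib.Helper25.MinPC

set_option autoImplicit false
set_option linter.unusedSectionVars false
open Cfsg

namespace Cfsg.Agent.S4468

open Cfsg.Agent.Lib.Helper1 Cfsg.Agent.S0899 Cfsg.Agent.Lib.Helper25.MinPC

universe u

section aux

variable {G : Type u} [Group G] [Finite G]

/-- decomposition into irreducibles; a constituent of full degree is the whole character -/
theorem decomp' [Fintype (IrrCharacter G)] {ψ : G → ℂ} (hψ : IsCharacter G ψ) {n : ℕ}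
    (hψ1 : ψ 1 = n) :
    ∃ m : IrrCharacter G → ℕ,
      (∀ g, ψ g = ∑ φ : IrrCharacter G, (m φ : ℂ) * (φ : G → ℂ) g) ∧
      ∀ φ : IrrCharacter G, m φ ≠ 0 →
        ∃ d : ℕ, (φ : G → ℂ) 1 = d ∧ 0 < d ∧ d ≤ n ∧ (d = n → ψ = (φ : G → ℂ)) := by
  classical
  have hfin : Fintype G := Fintype.ofFinite G
  obtain ⟨m, hm1, hm2⟩ := IsCharacter.eq_sum_irr hψ
  have hval : ∀ g, ψ g = ∑ φ : IrrCharacter G, (m φ : ℂ) * (φ : G → ℂ) g := by
    intro g
    have h1 := congrFun hm2 g
    rw [h1]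
    simp only [Finset.sum_apply, Pi.smul_apply, smul_eq_mul]
  refine ⟨m, hval, ?_⟩
  intro φ hφ
  obtain ⟨d, hd0, hd⟩ := IsIrrCharacter.degree_pos φ.2
  have hdeg : ∀ φ' : IrrCharacter G, ∃ d' : ℕ, 0 < d' ∧ (φ' : G → ℂ) 1 = d' := fun φ' =>
    IsIrrCharacter.degree_pos φ'.2
  choose dd hdd0 hdd using hdeg
  have h1 := hval 1
  rw [hψ1] at h1
  have h2 : (n : ℂ) = ((∑ φ' : IrrCharacter G, m φ' * dd φ' : ℕ) : ℂ) := by
    rw [h1]
    push_cast
    exact Finset.sum_congr rfl (fun φ' _ => by rw [hdd])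
  have h3 : n = ∑ φ' : IrrCharacter G, m φ' * dd φ' := by exact_mod_cast h2
  have h3' : n = m φ * dd φ + ∑ φ' ∈ Finset.univ.erase φ, m φ' * dd φ' := by
    rw [h3]
    exact (Finset.add_sum_erase Finset.univ (fun φ' => m φ' * dd φ') (Finset.mem_univ φ)).symm
  have h5 : dd φ = d := by
    have h6 := hdd φ
    rw [hd] at h6
    exact_mod_cast h6.symm
  rw [h5] at h3'
  have h7 : 1 * d ≤ m φ * d := Nat.mul_le_mul_right d (Nat.pos_of_ne_zero hφ)
  refine ⟨d, hd, hd0, by omega, ?_⟩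
  intro hdn
  rw [hdn] at h3' h7
  have hn0 : 0 < n := by omega
  have hm1' : m φ = 1 := by
    by_contra hne
    have h8 : 2 * n ≤ m φ * n := Nat.mul_le_mul_right n (by omega)
    omega
  have hrest : ∑ φ' ∈ Finset.univ.erase φ, m φ' * dd φ' = 0 := by
    rw [hm1'] at h3'
    omega
  have hzero : ∀ φ' : IrrCharacter G, φ' ≠ φ → m φ' = 0 := by
    intro φ' hne
    have h8 := (Finset.sum_eq_zero_iff.mp hrest) φ' (Finset.mem_erase.mpr ⟨hne, Finset.mem_univ _⟩)
    rcases Nat.mul_eq_zero.mp h8 with h9 | h9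
    · exact h9
    · exact absurd h9 (hdd0 φ').ne'
  funext g
  rw [hval g, Finset.sum_eq_single φ]
  · rw [hm1']
    simp
  · intro φ' _ hne
    rw [hzero φ' hne]
    simp
  · intro h
    exact absurd (Finset.mem_univ _) h

/-- a reducible faithful character of degree `≤ p - 1` of a `p`-solvable group forces a
normal Sylow `p`-subgroup -/
theorem PC_of_constituents (p : ℕ) [hp : Fact p.Prime] (hsolv : IsPSolvable p G) (ψ : G → ℂ)
    (hψ : IsCharacter G ψ) (n : ℕ) (hψ1 : ψ 1 = n) (hfaith : ∀ g, ψ g = ψ 1 → g = 1)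
    (hnp : n + 1 ≤ p) (hred : ¬ IsIrrCharacter G ψ) : PC p (⊤ : Subgroup G) := by
  classical
  have hfin : Fintype G := Fintype.ofFinite G
  have hfinI : Fintype (IrrCharacter G) := irrFintype
  obtain ⟨m, hval, hdeg⟩ := decomp' hψ hψ1
  have hlt : ∀ φ : IrrCharacter G, m φ ≠ 0 → ∃ d : ℕ, (φ : G → ℂ) 1 = d ∧ d + 1 < p := by
    intro φ hφ
    obtain ⟨d, hd, hd0, hdn, heq⟩ := hdeg φ hφ
    refine ⟨d, hd, ?_⟩
    by_contra hcon
    apply hred
    rw [heq (by omega)]
    exact φ.2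
  have hq : ∀ φ : IrrCharacter G, m φ ≠ 0 → ∀ x y : G, PE p x → PE p y →
      ∃ k : ℕ, (φ : G → ℂ) ((x * y) ^ (p ^ k)) = (φ : G → ℂ) 1 := by
    intro φ hφ x y hx hy
    obtain ⟨d, hd, hdp⟩ := hlt φ hφ
    have hφc := IsIrrCharacter.isCharacter φ.2
    obtain ⟨N, hN⟩ : ∃ N : Subgroup G, N = charKer (φ : G → ℂ) hφc := ⟨_, rfl⟩
    have hNn : N.Normal := by
      rw [hN]
      exact charKer_normal hφc
    obtain ⟨φ', hφ', hφφ'⟩ := IsIrrCharacter.deflate N φ.2 (fun n hn => by
      rw [hN] at hn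
      exact (mem_charKer hφc).mp hn)
    have hsolvQ : IsPSolvable p (G ⧸ N) :=
      Cfsg.Agent.Lib.Helper4.PSolv.isPSolvable_of_surjective (QuotientGroup.mk' N)
        (QuotientGroup.mk'_surjective N) hsolv
    have hfaithQ : ∀ q : G ⧸ N, φ' q = φ' 1 → q = 1 := by
      intro q hq
      obtain ⟨g, rfl⟩ := QuotientGroup.mk_surjective q
      rw [QuotientGroup.eq_one_iff, hN, mem_charKer, hφφ' g, hφφ' 1]
      exact hq
    have hφ'1 : φ' 1 = d := by
      rw [← hd, hφφ' 1]
      rfl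
    have hPC := psolv_closed p d hdp (Nat.card (G ⧸ N)) (G ⧸ N) le_rfl hsolvQ φ'
      (IsIrrCharacter.isCharacter hφ') hφ'1 hfaithQ
    obtain ⟨k, hk⟩ := hPC (x : G ⧸ N) (Subgroup.mem_top _) (y : G ⧸ N) (Subgroup.mem_top _)
      (PE_map p (QuotientGroup.mk' N) hx) (PE_map p (QuotientGroup.mk' N) hy)
    refine ⟨k, ?_⟩
    rw [hφφ', hφφ' 1]
    exact congrArg φ' hk
  intro x _ y _ hx hy
  have hex : ∀ φ : IrrCharacter G, ∃ k : ℕ, m φ ≠ 0 →
      (φ : G → ℂ) ((x * y) ^ (p ^ k)) = (φ : G → ℂ) 1 := by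
    intro φ
    by_cases hφ : m φ = 0
    · exact ⟨0, fun h => absurd hφ h⟩
    · obtain ⟨k, hk⟩ := hq φ hφ x y hx hy
      exact ⟨k, fun _ => hk⟩
  choose kk hkk using hex
  refine ⟨∑ φ : IrrCharacter G, kk φ, ?_⟩
  apply hfaith
  rw [hval, hval 1]
  refine Finset.sum_congr rfl (fun φ _ => ?_)
  by_cases hφ : m φ = 0
  · rw [hφ]
    simp
  · congr 1
    have hle : kk φ ≤ ∑ φ' : IrrCharacter G, kk φ' :=
      Finset.single_le_sum (f := kk) (fun _ _ => Nat.zero_le _) (Finset.mem_univ φ)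
    obtain ⟨t, ht⟩ := Nat.exists_eq_add_of_le hle
    rw [ht, pow_add, pow_mul]
    have hz := hkk φ hφ
    have hφc := IsIrrCharacter.isCharacter φ.2
    have hmem : (x * y) ^ (p ^ kk φ) ∈ charKer (φ : G → ℂ) hφc := (mem_charKer hφc).mpr hz
    exact (mem_charKer hφc).mp (Subgroup.pow_mem _ hmem _)

end aux

/-- Ito's theorem by induction on the group order -/
theorem main (p : ℕ) [hp : Fact p.Prime] (n : ℕ) (hnp : n + 1 ≤ p) (N : ℕ) :
    ∀ (G : Type u) [Group G] [Finite G], Nat.card G ≤ N → IsPSolvable p G →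
      ∀ ψ : G → ℂ, IsCharacter G ψ → ψ 1 = n → (∀ g, ψ g = ψ 1 → g = 1) →
      ¬ PC p (⊤ : Subgroup G) →
      n + 1 = p ∧ (∃ k : ℕ, n = 2 ^ k) ∧ IsIrrCharacter G ψ := by
  induction N with
  | zero =>
    intro G _ _ hcard
    have := Nat.card_pos (α := G)
    omega
  | succ N ih =>
    intro G _ _ hcard hsolv ψ hψ hψ1 hfaith hnot
    have hn1 : n + 1 = p := by
      by_contra hne
      exact hnot (psolv_closed p n (by omega) _ G le_rfl hsolv ψ hψ hψ1 hfaith)
    have hirr : IsIrrCharacter G ψ := by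
      by_contra hred
      exact hnot (PC_of_constituents p hsolv ψ hψ n hψ1 hfaith hnp hred)
    refine ⟨hn1, ?_, hirr⟩
    by_cases hall : ∀ L : Subgroup G, L ≠ ⊤ → PC p L
    · have hA : ∀ Q : Subgroup G, IsPGroup p Q → ∀ a ∈ Q, ∀ b ∈ Q, a * b = b * a :=
        fun Q hQ => pgroup_comm p hψ hψ1 (by omega) hfaith Q hQ
      have hperf := not_perfect p hall hnot hsolv
      obtain ⟨q, hq, e, a, hcard'⟩ := prime_power p hA hall hnot hperf
      have hfin : Fintype G := Fintype.ofFinite G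
      obtain ⟨d, hd, hdvd, hd0⟩ := IsIrrCharacter.degree_dvd_card hirr
      have hdn : d = n := by
        rw [hψ1] at hd
        exact_mod_cast hd.symm
      rw [hdn] at hdvd hd0
      rw [hcard'] at hdvd
      have hcop : Nat.Coprime n (p ^ a) := by
        apply Nat.Coprime.pow_right
        rw [Nat.coprime_comm, Nat.Prime.coprime_iff_not_dvd hp.out]
        intro h
        have h1 := Nat.le_of_dvd hd0 h
        omega
      have hdvd2 : n ∣ q ^ e := Nat.Coprime.dvd_of_dvd_mul_right hcop hdvd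
      obtain ⟨c, -, hc⟩ := (Nat.dvd_prime_pow hq).mp hdvd2
      by_cases hc0 : c = 0
      · exact ⟨0, by rw [hc, hc0, pow_zero, pow_zero]⟩
      · by_cases hq2 : q = 2
        · exact ⟨c, by rw [hc, hq2]⟩
        · exfalso
          have hqodd : Odd q := hq.odd_of_ne_two hq2
          have hnodd : Odd n := by
            rw [hc]
            exact hqodd.pow
          have hpeven : Even p := by
            rw [← hn1]
            exact hnodd.add_one
          have hp2 : p = 2 := (Nat.Prime.even_iff hp.out).mp hpeven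
          have hn1' : n = 1 := by omega
          rw [hn1'] at hc
          have h1 := Nat.one_lt_pow hc0 hq.one_lt
          omega
    · push Not at hall
      obtain ⟨L, hL, hLnot⟩ := hall
      have hlt : Nat.card L ≤ N := by
        by_contra hcon
        apply hL
        apply Subgroup.eq_top_of_le_card
        omega
      have hres1 : (fun l : L => ψ l) 1 = n := by
        show ψ ((1 : L) : G) = n
        rw [Subgroup.coe_one, hψ1]
      have hfaithL : ∀ l : L, (fun l : L => ψ l) l = (fun l : L => ψ l) 1 → l = 1 := by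
        intro l hl
        apply Subtype.ext
        apply hfaith
        exact hl
      have h1 := ih L hlt (Cfsg.Agent.Lib.Helper12.PSolvable.isPSolvable_subgroup hsolv L)
        (fun l : L => ψ l) (IsCharacter.restrict hψ L) hres1 hfaithL
        (fun h => hLnot (PC_of_top p L h))
      exact h1.2.1

/-- Let the finite p-solvable group G have a faithful character χ of degree n ≤ p − 1 and suppose that a Sylow p-subgroup of G is not normal. Then n = p − 1, n is a power of 2, and χ is irreducible. -/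
theorem result {G : Type*} [Group G] [Finite G] (χ : G → ℂ) (hχ : Cfsg.IsCharacter G χ) (hfaith : ∀ g : G, χ g = χ 1 → g = 1) (n : ℕ) (hn : Cfsg.charDegree χ = n) (p : ℕ) (hp : p.Prime) (hsolv : Cfsg.IsPSolvable p G) (hnp : n + 1 ≤ p) (P : Sylow p G) (hP : ¬ (P : Subgroup G).Normal) : n + 1 = p ∧ (∃ k : ℕ, n = 2 ^ k) ∧ Cfsg.IsIrrCharacter G χ := by
  haveI : Fact p.Prime := ⟨hp⟩
  obtain ⟨D, hD⟩ := IsCharacter.degree_nat hχ
  have hDn : D = n := by
    rw [← hn]
    unfold Cfsg.charDegree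
    rw [hD]
    simp
  rw [hDn] at hD
  exact main p n hnp (Nat.card G) G le_rfl hsolv χ hχ hD hfaith
    (fun h => hP (normal_of_PC p h P))

end Cfsg.Agent.S4468
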