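import Mathlib
import Cfsg.Statements.S4473
import Cfsg.Agent.Lib.Helper23.Prim2a
import Cfsg.Agent.Lib.Helper23.Prim2b
import Cfsg.Agent.Lib.Helper1.CharMono2
import Cfsg.Agent.Lib.Helper1.CharMore

set_option autoImplicit false
open Cfsg

namespace Cfsg.Agent.S4473

open Cfsg.Agent.Lib.Helper23 in
/-- Let the finite group G have a faithful irreducible character χ of degree 2 that is primitive: χ is not induced from a character of any proper subgroup. Then the centre of G has index 12, 24 or 60. -/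
theorem result {G : Type*} [Group G] [Fintype G] (χ : Cfsg.IrrCharacter G) (hfaith : ∀ g : G, (χ : G → ℂ) g = (χ : G → ℂ) 1 → g = 1) (h2 : Cfsg.charDegree (χ : G → ℂ) = 2) (hprim : ∀ H : Subgroup G, H ≠ ⊤ → ∀ θ : H → ℂ, Cfsg.IsCharacter H θ → (χ : G → ℂ) ≠ Cfsg.indFun H θ) : (Subgroup.center G).index = 12 ∨ (Subgroup.center G).index = 24 ∨ (Subgroup.center G).index = 60 := by
  classical
  obtain ⟨n, ρ, hρ, hχ⟩ := χ.2
  have hχ1 : (χ : G → ℂ) 1 = (n : ℂ) := by
    rw [← hχ, Representation.char_one, Module.finrank_fin_fun]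
  have hn : n = 2 := by
    unfold Cfsg.charDegree at h2
    rw [hχ1] at h2
    simpa using h2
  subst hn
  haveI := hρ
  obtain ⟨M, hMdef⟩ : ∃ M : G → Matrix (Fin 2) (Fin 2) ℂ, ∀ g, M g = LinearMap.toMatrix' (ρ g) :=
    ⟨fun g => LinearMap.toMatrix' (ρ g), fun g => rfl⟩
  have hM1 : M 1 = 1 := by
    rw [hMdef, map_one]
    exact LinearMap.toMatrix'_one
  have hMmul : ∀ g h, M (g * h) = M g * M h := by
    intro g h
    rw [hMdef, hMdef, hMdef, map_mul]
    exact LinearMap.toMatrix'_mul _ _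
  have hMtr : ∀ g, (M g).trace = (χ : G → ℂ) g := by
    intro g
    rw [← hχ, hMdef]
    show (LinearMap.toMatrix' (ρ g)).trace = LinearMap.trace ℂ _ (ρ g)
    rw [LinearMap.trace_eq_matrix_trace ℂ (Pi.basisFun ℂ (Fin 2)) (ρ g),
      LinearMap.toMatrix_eq_toMatrix']
  have hMinj : ∀ g h, M g = M h → g = h := by
    intro g h hgh
    have h1 : M (g * h⁻¹) = 1 := by
      rw [hMmul, hgh, ← hMmul, mul_inv_cancel, hM1]
    have h2 : (χ : G → ℂ) (g * h⁻¹) = (χ : G → ℂ) 1 := by
      rw [← hMtr, ← hMtr, h1, hM1]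
    exact mul_inv_eq_one.mp (hfaith _ h2)
  have hMinv : ∀ g, M g * M g⁻¹ = 1 := fun g => by
    rw [← hMmul, mul_inv_cancel, hM1]
  have hcs : ∀ g, (∃ c : ℂ, M g = c • (1 : Matrix (Fin 2) (Fin 2) ℂ)) →
      g ∈ Subgroup.center G := by
    rintro g ⟨c, hc⟩
    rw [Subgroup.mem_center_iff]
    intro h
    apply hMinj
    rw [hMmul, hMmul, hc, Matrix.mul_smul, Matrix.smul_mul, Matrix.mul_one, Matrix.one_mul]
  have hNS : ∀ g, g ∉ Subgroup.center G →
      ∀ c : ℂ, M g ≠ c • (1 : Matrix (Fin 2) (Fin 2) ℂ) :=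
    fun g hg c hc => hg (hcs g ⟨c, hc⟩)
  have hCA : ∀ g : G, g ∉ Subgroup.center G → ∀ a b : G, a * g = g * a → b * g = g * b →
      a * b = b * a := by
    intro g hg a b ha hb
    apply hMinj
    rw [hMmul, hMmul]
    apply Prim2.comm_of_comm (M g) (M a) (M b) (hNS g hg)
    · rw [← hMmul, ← hMmul, ha]
    · rw [← hMmul, ← hMmul, hb]
  have hN2 : ∀ g : G, g ∉ Subgroup.center G → ∀ x y : G,
      (x * g * x⁻¹) * g = g * (x * g * x⁻¹) → (y * g * y⁻¹) * g = g * (y * g * y⁻¹) →
      x * g ≠ g * x → y * g ≠ g * y → (x⁻¹ * y) * g = g * (x⁻¹ * y) := by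
    intro g hg x y hx hy hxg hyg
    have hpw : ∀ k : ℕ, M (g ^ k) = M g ^ k := by
      intro k
      induction k with
      | zero => rw [pow_zero, pow_zero, hM1]
      | succ k ih => rw [pow_succ, hMmul, ih, pow_succ]
    have hpow : M g ^ orderOf g = 1 := by
      rw [← hpw, pow_orderOf_eq_one, hM1]
    have hdisc := Prim2.disc_ne (M g) (hNS g hg) (orderOf g) (orderOf_pos g) hpow
    have key : ∀ w : G, (w * g * w⁻¹) * g = g * (w * g * w⁻¹) → w * g ≠ g * w →
        M (w * g * w⁻¹) = (M g).trace • (1 : Matrix (Fin 2) (Fin 2) ℂ) - M g := by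
      intro w hw hwg
      have htr : (M (w * g * w⁻¹)).trace = (M g).trace := by
        rw [hMmul, hMmul, Matrix.trace_mul_comm, ← Matrix.mul_assoc, ← hMmul, inv_mul_cancel,
          hM1, Matrix.one_mul]
      have hdet : (M (w * g * w⁻¹)).det = (M g).det := by
        rw [hMmul, hMmul, Matrix.det_mul, Matrix.det_mul]
        have h1 : (M w).det * (M w⁻¹).det = 1 := by
          rw [← Matrix.det_mul, hMinv, Matrix.det_one]
        linear_combination (M g).det * h1
      rcases Prim2.conj_eq_or (M g) (M (w * g * w⁻¹)) (hNS g hg) hdisc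
        (by rw [← hMmul, ← hMmul, hw]) htr hdet with h | h
      · exfalso
        apply hwg
        have h3 := hMinj _ _ h
        calc w * g = (w * g * w⁻¹) * w := by group
          _ = g * w := by rw [h3]
      · exact h
    have e := hMinj _ _ ((key x hx hxg).trans (key y hy hyg).symm)
    calc x⁻¹ * y * g = x⁻¹ * (y * g * y⁻¹) * y := by group
      _ = x⁻¹ * (x * g * x⁻¹) * y := by rw [e]
      _ = g * (x⁻¹ * y) := by group
  have hnab : ∀ A : Subgroup G, A.Normal → (∀ a ∈ A, ∀ b ∈ A, a * b = b * a) →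
      A ≤ Subgroup.center G := by
    intro A hA hab a ha
    haveI := hA
    obtain ⟨ω, hω⟩ := Cfsg.Agent.Lib.Helper1.scalar_of_primitive ρ hρ (by
      intro K φ hφ hind
      by_contra hK
      exact hprim K hK φ (Cfsg.Agent.Lib.Helper1.IsIrrCharacter.isCharacter hφ)
        (hχ.symm.trans hind)) A hab a ha
    apply hcs
    refine ⟨ω, ?_⟩
    rw [hMdef, hω, map_smul, LinearMap.toMatrix'_id]
  have hne : ∃ g : G, g ∉ Subgroup.center G := by
    by_contra hcon
    push_neg at hcon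
    have hcomm : ∀ a b : G, a * b = b * a := fun a b => Subgroup.mem_center_iff.mp (hcon b) a
    have h1 := Cfsg.Agent.Lib.Helper1.irr_degree_one_of_comm hcomm χ.2
    rw [hχ1] at h1
    norm_num at h1
  exact Prim2.ca_count hCA hN2 hnab hne

end Cfsg.Agent.S4473
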