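import Mathlib
import Cfsg.Statements.S4477
import Cfsg.Agent.S4058

set_option autoImplicit false
open Cfsg

namespace Cfsg.Agent.S4477

open Cfsg.Agent.Lib.Helper1 Cfsg.Agent.Lib.Helper10.FS Cfsg.Agent.S4058
open scoped ComplexConjugate

universe u

theorem zmod_two_aux : (1 : ZMod 2) + 1 = 0 := by decide

theorem cyclic_of_frattini {G : Type u} [Group G] [Finite G] (h : (frattini G).index ≤ 2) :
    IsCyclic G := by
  by_cases htop : frattini G = ⊤
  · have h1 : (⊥ : Subgroup G) = ⊤ := frattini_nongenerating (by rw [htop, bot_sup_eq])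
    have h2 : ∀ g : G, g = 1 := by
      intro g
      have h3 : g ∈ (⊤ : Subgroup G) := Subgroup.mem_top g
      rw [← h1, Subgroup.mem_bot] at h3
      exact h3
    have : Subsingleton G := ⟨fun x y => by rw [h2 x, h2 y]⟩
    infer_instance
  · obtain ⟨g, hg⟩ : ∃ g : G, g ∉ frattini G := by
      by_contra hcon
      push Not at hcon
      exact htop (eq_top_iff.2 (fun g _ => hcon g))
    have hle : frattini G ≤ Subgroup.zpowers g ⊔ frattini G := le_sup_right
    have h1 := Subgroup.relIndex_mul_index hle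
    have h2 : (frattini G).relIndex (Subgroup.zpowers g ⊔ frattini G) ≠ 1 := by
      intro h3
      rw [Subgroup.relIndex_eq_one] at h3
      exact hg (h3 (Subgroup.mem_sup_left (Subgroup.mem_zpowers g)))
    have h0 : (frattini G).index ≠ 0 := Subgroup.index_ne_zero_of_finite
    have h4 : (Subgroup.zpowers g ⊔ frattini G).index = 1 := by
      have hx0 : (frattini G).relIndex (Subgroup.zpowers g ⊔ frattini G) ≠ 0 :=
        fun hx => h0 (by rw [← h1, hx, zero_mul])
      have hy0 : (Subgroup.zpowers g ⊔ frattini G).index ≠ 0 :=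
        fun hy => h0 (by rw [← h1, hy, mul_zero])
      by_contra hy1
      have hx2 : 2 ≤ (frattini G).relIndex (Subgroup.zpowers g ⊔ frattini G) := by omega
      have hy2 : 2 ≤ (Subgroup.zpowers g ⊔ frattini G).index := by omega
      have h5 : 2 * 2 ≤ (frattini G).relIndex (Subgroup.zpowers g ⊔ frattini G) *
          (Subgroup.zpowers g ⊔ frattini G).index := Nat.mul_le_mul hx2 hy2
      omega
    rw [Subgroup.index_eq_one] at h4
    have h5 := frattini_nongenerating h4
    exact isCyclic_iff_exists_zpowers_eq_top.2 ⟨g, h5⟩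

theorem orbit_data {G : Type u} [Group G] [Fintype G] (hG : IsPGroup 2 G) (a : ℕ)
    (ha : Nat.card (Lam G) = 2 ^ a) (χ : Cfsg.IrrCharacter G) (n : ℕ)
    (hnd : n ∣ Nat.card G) (hnb : ∀ g, ‖(χ : G → ℂ) g‖ ≤ (n : ℝ)) :
    ∃ b s c : ℕ, Nat.card (MulAction.orbit (Lam G) χ) = 2 ^ b ∧
      Nat.card (MulAction.stabilizer (Lam G) χ) = 2 ^ s ∧ n = 2 ^ c ∧ b + s = a ∧
      s ≤ c * 2 := by
  classical
  have : Fact (Nat.Prime 2) := ⟨Nat.prime_two⟩
  have hfinL : Fintype (Lam G) := Fintype.ofFinite _
  have hirrfin : Fintype (Cfsg.IrrCharacter G) := irrFintype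
  have hfinO : Fintype (MulAction.orbit (Lam G) χ) := Fintype.ofFinite _
  have hfinS0 : Fintype (MulAction.stabilizer (Lam G) χ) := Fintype.ofFinite _
  have hos : Nat.card (MulAction.orbit (Lam G) χ) *
      Nat.card (MulAction.stabilizer (Lam G) χ) = 2 ^ a := by
    rw [← ha]
    have h := MulAction.card_orbit_mul_card_stabilizer_eq_card_group (Lam G) χ
    simp only [Nat.card_eq_fintype_card]
    exact h
  obtain ⟨b, hb, hOb⟩ := (Nat.dvd_prime_pow Nat.prime_two).mp (Dvd.intro _ hos)
  obtain ⟨s, hs, hSs⟩ := (Nat.dvd_prime_pow Nat.prime_two).mp (Dvd.intro_left _ hos)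
  have hbs : b + s = a := by
    rw [hOb, hSs, ← pow_add] at hos
    exact Nat.pow_right_injective (le_refl 2) hos
  obtain ⟨e, he⟩ := IsPGroup.iff_card.mp hG
  rw [he] at hnd
  obtain ⟨c, hc, hnc⟩ := (Nat.dvd_prime_pow Nat.prime_two).mp hnd
  have hsb : Nat.card (MulAction.stabilizer (Lam G) χ) ≤ n ^ 2 := by
    have hfinS : Fintype (MulAction.stabilizer (Lam G) χ) := Fintype.ofFinite _
    rw [Nat.card_eq_fintype_card]
    refine stab_bound χ.2 n hnb
      ((Lam G).subtype.comp (MulAction.stabilizer (Lam G) χ).subtype) ?_ ?_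
    · exact (Subtype.val_injective).comp Subtype.val_injective
    · intro t g
      have h1 : t.1 • χ = χ := t.2
      have h2 := congrArg (fun ψ : Cfsg.IrrCharacter G => ψ.1 g) h1
      exact h2
  rw [hSs, hnc, ← pow_mul] at hsb
  have hs2c : s ≤ c * 2 := (Nat.pow_le_pow_iff_right (by norm_num)).mp hsb
  exact ⟨b, s, c, hOb, hSs, hnc, hbs, hs2c⟩

theorem orbit_dvd4 {G : Type u} [Group G] [Fintype G] (hG : IsPGroup 2 G) (a : ℕ)
    (ha : Nat.card (Lam G) = 2 ^ a) (ha2 : 2 ≤ a) (χ : Cfsg.IrrCharacter G) (n : ℕ)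
    (hnd : n ∣ Nat.card G) (hnb : ∀ g, ‖(χ : G → ℂ) g‖ ≤ (n : ℝ))
    (hex : ¬ (n = 2 ∧ ∀ μ : Lam G, μ • χ = χ)) :
    4 ∣ Nat.card (MulAction.orbit (Lam G) χ) * n := by
  classical
  obtain ⟨b, s, c, hOb, hSs, hnc, hbs, hs2c⟩ := orbit_data hG a ha χ n hnd hnb
  have h4 : (4 : ℕ) = 2 ^ 2 := by norm_num
  have hkey : 2 ≤ b + c := by
    by_cases hfix : ∀ μ : Lam G, μ • χ = χ
    · have hst : MulAction.stabilizer (Lam G) χ = ⊤ := by
        ext μ
        simp only [MulAction.mem_stabilizer_iff, Subgroup.mem_top, iff_true]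
        exact hfix μ
      rw [hst, Subgroup.card_top, ha] at hSs
      have hsa : a = s := Nat.pow_right_injective (le_refl 2) hSs
      have hc1 : c ≠ 1 := by
        rintro rfl
        exact hex ⟨by rw [hnc, pow_one], hfix⟩
      omega
    · have hb1 : b ≠ 0 := by
        rintro rfl
        apply hfix
        intro μ
        rw [pow_zero] at hOb
        have hsub : Subsingleton (MulAction.orbit (Lam G) χ) :=
          (Nat.card_eq_one_iff_unique.1 hOb).1
        have h1 := Subsingleton.elim
          (⟨μ • χ, MulAction.mem_orbit χ μ⟩ : MulAction.orbit (Lam G) χ)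
          ⟨χ, MulAction.mem_orbit_self χ⟩
        exact congrArg Subtype.val h1
      omega
  rw [hOb, hnc, ← pow_add, h4]
  exact pow_dvd_pow 2 hkey

theorem card_F_sub {G : Type u} [Group G] [Fintype G] [Fintype (Cfsg.IrrCharacter G)]
    (hG : IsPGroup 2 G) (a : ℕ) (ha : Nat.card (Lam G) = 2 ^ a) (ha2 : 2 ≤ a)
    (F : Finset (Cfsg.IrrCharacter G))
    (hF : ∀ χ : Cfsg.IrrCharacter G, χ ∈ F ↔ ((χ : G → ℂ) 1 = 2 ∧
      (∀ μ : Lam G, μ • χ = χ) ∧ ind (χ : G → ℂ) ≠ 0)) :
    ∃ m : ℤ, (Nat.card {s : G // s * s = 1} : ℂ) - 2 * (F.card : ℂ) = 4 * (m : ℂ) := by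
  classical
  have hqfin : Fintype (Quotient (MulAction.orbitRel (Lam G) (Cfsg.IrrCharacter G))) :=
    Fintype.ofFinite _
  have hsum := sum_degree_mul_ind (G := G)
  have hF2 : ∑ χ : Cfsg.IrrCharacter G, (if χ ∈ F then (2 : ℂ) else 0) = 2 * (F.card : ℂ) := by
    rw [Finset.sum_ite_mem, Finset.univ_inter, Finset.sum_const, nsmul_eq_mul]
    ring
  rw [← hsum, ← hF2, ← Finset.sum_sub_distrib]
  rw [← Finset.sum_fiberwise (s := Finset.univ)
    (g := fun χ : Cfsg.IrrCharacter G =>
      (Quotient.mk (MulAction.orbitRel (Lam G) (Cfsg.IrrCharacter G)) χ))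
    (f := fun χ : Cfsg.IrrCharacter G => (χ : G → ℂ) 1 * ind (χ : G → ℂ) -
      (if χ ∈ F then (2 : ℂ) else 0))]
  apply sum_dvd_aux
  intro q _
  induction q using Quotient.inductionOn with
  | _ χ₀ =>
    obtain ⟨n, hn1, hnd, hnpos, hnb⟩ := irr_data χ₀.2
    have hconst : ∀ χ ∈ Finset.univ.filter (fun χ : Cfsg.IrrCharacter G =>
        (Quotient.mk (MulAction.orbitRel (Lam G) (Cfsg.IrrCharacter G)) χ) =
          Quotient.mk _ χ₀),
        (χ : G → ℂ) 1 * ind (χ : G → ℂ) - (if χ ∈ F then (2 : ℂ) else 0) =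
          (χ₀ : G → ℂ) 1 * ind (χ₀ : G → ℂ) - (if χ₀ ∈ F then (2 : ℂ) else 0) := by
      intro χ hχ
      have h1 := (Finset.mem_filter.mp hχ).2
      have h2 : χ ∈ MulAction.orbit (Lam G) χ₀ := by
        rw [← MulAction.orbitRel_apply]
        exact Quotient.exact h1
      obtain ⟨μ, rfl⟩ := h2
      have hmem : (μ • χ₀ ∈ F) ↔ (χ₀ ∈ F) := by
        constructor
        · intro h
          have hfix := ((hF _).1 h).2.1
          have h3 := hfix μ⁻¹
          rw [inv_smul_smul] at h3
          rw [← h3] at h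
          exact h
        · intro h
          have hfix := ((hF _).1 h).2.1
          rw [hfix μ]
          exact h
      have h3 : ((μ • χ₀ : Cfsg.IrrCharacter G) : G → ℂ) 1 = (χ₀ : G → ℂ) 1 := by
        show (μ • χ₀).1 1 = _
        rw [Cfsg.Agent.S4058.smul_apply, map_one, Units.val_one, one_mul]
      rw [ind_smul, h3]
      simp only [hmem]
    rw [Finset.sum_congr rfl hconst, Finset.sum_const, nsmul_eq_mul]
    have hcard : (Finset.univ.filter (fun χ : Cfsg.IrrCharacter G =>
        (Quotient.mk (MulAction.orbitRel (Lam G) (Cfsg.IrrCharacter G)) χ) =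
          Quotient.mk _ χ₀)).card = Nat.card (MulAction.orbit (Lam G) χ₀) := by
      rw [← Fintype.card_subtype, ← Nat.card_eq_fintype_card]
      apply Nat.card_congr
      refine Equiv.subtypeEquivRight (fun χ => ?_)
      rw [Quotient.eq]
      exact MulAction.orbitRel_apply
    rw [hcard, hn1]
    by_cases hχF : χ₀ ∈ F
    · obtain ⟨hdeg, hfix, hind⟩ := (hF χ₀).1 hχF
      have hcard1 : Nat.card (MulAction.orbit (Lam G) χ₀) = 1 := by
        rw [Nat.card_eq_one_iff_unique]
        refine ⟨⟨fun x y => ?_⟩, ⟨⟨χ₀, MulAction.mem_orbit_self χ₀⟩⟩⟩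
        obtain ⟨x, μ, rfl⟩ := x
        obtain ⟨y, ν, rfl⟩ := y
        apply Subtype.ext
        show μ • χ₀ = ν • χ₀
        rw [hfix μ, hfix ν]
      have hn2 : (n : ℂ) = 2 := by rw [← hn1, hdeg]
      rw [hcard1, if_pos hχF, hn2]
      rcases ind_irr χ₀.2 with ⟨h0, -⟩ | ⟨h1 | h1, -⟩
      · exact absurd h0 hind
      · exact ⟨0, by rw [h1]; push_cast; ring⟩
      · exact ⟨-1, by rw [h1]; push_cast; ring⟩
    · rw [if_neg hχF, sub_zero]
      rcases ind_irr χ₀.2 with ⟨h0, -⟩ | ⟨hpm, -⟩
      · exact ⟨0, by rw [h0]; simp⟩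
      · have hex : ¬ (n = 2 ∧ ∀ μ : Lam G, μ • χ₀ = χ₀) := by
          rintro ⟨hn2, hfix⟩
          apply hχF
          rw [hF]
          refine ⟨by rw [hn1, hn2]; norm_num, hfix, ?_⟩
          rcases hpm with h | h <;> rw [h] <;> norm_num
        obtain ⟨w, hw⟩ := orbit_dvd4 hG a ha ha2 χ₀ n hnd hnb hex
        have h3 : ((Nat.card (MulAction.orbit (Lam G) χ₀) : ℂ)) * (n : ℂ) = 4 * (w : ℂ) := by
          exact_mod_cast congrArg (Nat.cast : ℕ → ℂ) hw
        rcases hpm with h | h
        · exact ⟨w, by rw [h]; push_cast; linear_combination h3⟩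
        · exact ⟨-w, by rw [h]; push_cast; linear_combination -h3⟩

def St {G : Type u} [Group G] (χ : G → ℂ) : Subgroup (G →* ℂˣ) where
  carrier := {μ | (∀ g, μ g ^ 4 = 1) ∧ ∀ g, ((μ g : ℂˣ) : ℂ) * χ g = χ g}
  mul_mem' := by
    intro a b ha hb
    refine ⟨fun g => ?_, fun g => ?_⟩
    · rw [MonoidHom.mul_apply, mul_pow, ha.1 g, hb.1 g, mul_one]
    · rw [MonoidHom.mul_apply, Units.val_mul, mul_assoc, hb.2 g, ha.2 g]
  one_mem' := ⟨fun g => by simp, fun g => by simp⟩
  inv_mem' := by
    intro a ha
    refine ⟨fun g => ?_, fun g => ?_⟩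
    · rw [MonoidHom.inv_apply, inv_pow, ha.1 g, inv_one]
    · rw [MonoidHom.inv_apply]
      have h := ha.2 g
      calc (((a g)⁻¹ : ℂˣ) : ℂ) * χ g = (((a g)⁻¹ : ℂˣ) : ℂ) * (((a g : ℂˣ) : ℂ) * χ g) := by
            rw [h]
        _ = χ g := by rw [← mul_assoc, ← Units.val_mul, inv_mul_cancel, Units.val_one, one_mul]

instance stFinite {G : Type u} [Group G] [Finite G] (χ : G → ℂ) : Finite (St χ) := by
  classical
  apply Finite.of_injective (fun μ : St χ => fun g : G =>
    (⟨μ.1 g, (mem_rootsOfUnity 4 _).2 (μ.2.1 g)⟩ : rootsOfUnity 4 ℂ))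
  intro μ ν h
  apply Subtype.ext
  apply MonoidHom.ext
  intro g
  exact congrArg Subtype.val (congrFun h g)

/-- Alperin–Feit–Thompson: a 2-group with t ≡ 1 (mod 4) involutions is cyclic or has [G : G′] = 4. -/
theorem result {G : Type*} [Group G] [Finite G] (hG : IsPGroup 2 G) (ht : Nat.card {x : G // orderOf x = 2} % 4 = 1) : IsCyclic G ∨ (commutator G).index = 4 := by
  classical
  have hfin : Fintype G := Fintype.ofFinite G
  have hirrfin : Fintype (Cfsg.IrrCharacter G) := irrFintype
  have : Fact (Nat.Prime 2) := ⟨Nat.prime_two⟩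
  obtain ⟨a, ha⟩ := IsPGroup.iff_card.mp (lam_isPGroup G)
  have hcount : Nat.card {s : G // s * s = 1} = Nat.card {x : G // orderOf x = 2} + 1 := by
    rw [Nat.card_eq_fintype_card, Nat.card_eq_fintype_card, Fintype.card_subtype,
      Fintype.card_subtype]
    have h1 : Finset.univ.filter (fun s : G => s * s = 1) =
        insert 1 (Finset.univ.filter (fun s : G => orderOf s = 2)) := by
      ext s
      simp only [Finset.mem_filter, Finset.mem_univ, true_and, Finset.mem_insert]
      constructor
      · intro h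
        rw [← pow_two] at h
        have h2 := orderOf_dvd_of_pow_eq_one h
        rcases (Nat.dvd_prime Nat.prime_two).1 h2 with h3 | h3
        · left
          exact orderOf_eq_one_iff.1 h3
        · right
          exact h3
      · rintro (rfl | h)
        · exact one_mul 1
        · rw [← pow_two, ← h, pow_orderOf_eq_one]
    rw [h1, Finset.card_insert_of_notMem]
    simp
  have hab : ∀ x y : G, x * y * x⁻¹ * y⁻¹ ∈ frattini G := by
    intro x y
    unfold frattini Order.radical
    simp only [Subgroup.mem_iInf]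
    exact fun M hM => (Cfsg.Agent.Lib.Helper22.Regular.pgroup_coatom hG M hM).2 x y
  have hcomle : commutator G ≤ frattini G := by
    rw [commutator_def, Subgroup.commutator_le]
    intro x _ y _
    rw [commutatorElement_def]
    exact hab x y
  by_cases ha2 : 2 ≤ a
  · by_cases hidx : (commutator G).index = 4
    · exact Or.inr hidx
    · by_cases hidx2 : (commutator G).index ≤ 2
      · left
        apply cyclic_of_frattini
        exact (Nat.le_of_dvd (Nat.pos_of_ne_zero Subgroup.index_ne_zero_of_finite)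
          (Subgroup.index_dvd_of_le hcomle)).trans hidx2
      · exfalso
        have hidx8 : 8 ≤ (commutator G).index := by
          obtain ⟨e, he⟩ := IsPGroup.iff_card.mp hG
          have h1 : (commutator G).index ∣ 2 ^ e := he ▸ Subgroup.index_dvd_card _
          obtain ⟨j, hj, hj2⟩ := (Nat.dvd_prime_pow Nat.prime_two).mp h1
          rw [hj2] at hidx hidx2 ⊢
          have hj3 : 3 ≤ j := by
            by_contra hlt
            have : j = 0 ∨ j = 1 ∨ j = 2 := by omega
            rcases this with rfl | rfl | rfl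
            · exact hidx2 (by norm_num)
            · exact hidx2 (by norm_num)
            · exact hidx (by norm_num)
          calc 8 = 2 ^ 3 := by norm_num
            _ ≤ 2 ^ j := Nat.pow_le_pow_right (by norm_num) hj3
        set F : Finset (Cfsg.IrrCharacter G) := Finset.univ.filter
          (fun χ : Cfsg.IrrCharacter G => (χ : G → ℂ) 1 = 2 ∧
            (∀ μ : Lam G, μ • χ = χ) ∧ ind (χ : G → ℂ) ≠ 0) with hFdef
        have hF : ∀ χ : Cfsg.IrrCharacter G, χ ∈ F ↔ ((χ : G → ℂ) 1 = 2 ∧
            (∀ μ : Lam G, μ • χ = χ) ∧ ind (χ : G → ℂ) ≠ 0) := by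
          intro χ
          rw [hFdef, Finset.mem_filter]
          simp only [Finset.mem_univ, true_and]
        obtain ⟨m, hm⟩ := card_F_sub hG a ha ha2 F hF
        have hodd : Odd F.card := by
          have h1 : ((Nat.card {x : G // orderOf x = 2} : ℤ) + 1 - 2 * (F.card : ℤ) : ℤ) =
              4 * m := by
            have h2 : (((Nat.card {x : G // orderOf x = 2} : ℤ) + 1 - 2 * (F.card : ℤ) : ℤ) : ℂ)
                = ((4 * m : ℤ) : ℂ) := by
              push_cast
              rw [← hm, hcount]
              push_cast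
              ring
            exact_mod_cast h2
          rw [Nat.odd_iff]
          omega
        have hlam4 : Nat.card (Lam G) ≤ 4 := by
          obtain ⟨χ, hχ⟩ : F.Nonempty := by
            rw [Finset.nonempty_iff_ne_empty]
            rintro h
            rw [h, Finset.card_empty] at hodd
            simp at hodd
          obtain ⟨hdeg, hfix, -⟩ := (hF χ).1 hχ
          obtain ⟨n, hn1, -, -, hnb⟩ := irr_data χ.2
          have hn2 : n = 2 := by
            rw [hdeg] at hn1
            exact_mod_cast hn1.symm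
          have hfinL : Fintype (Lam G) := Fintype.ofFinite _
          rw [Nat.card_eq_fintype_card]
          have h1 := stab_bound χ.2 n hnb (Lam G).subtype Subtype.val_injective (by
            intro t g
            have h2 := congrArg (fun ψ : Cfsg.IrrCharacter G => ψ.1 g) (hfix t)
            exact h2)
          rw [hn2] at h1
          exact h1
        have hlam4' : 4 ≤ Nat.card (Lam G) := by
          rw [ha]
          calc 4 = 2 ^ 2 := by norm_num
            _ ≤ 2 ^ a := Nat.pow_le_pow_right (by norm_num) ha2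
        have hcomm : ∀ x y : G, x * y * x⁻¹ * y⁻¹ ∈ commutator G := by
          intro x y
          rw [commutator_def]
          have h0 := Subgroup.commutator_mem_commutator (Subgroup.mem_top x) (Subgroup.mem_top y)
          rwa [commutatorElement_def] at h0
        obtain ⟨Λ, hΛc, hΛ⟩ := exists_linear_chars (commutator G) hcomm
        obtain ⟨β, hβΛ, hβ⟩ : ∃ β ∈ Λ, β ∉ Lam G := by
          by_contra hcon
          push Not at hcon
          have hsub : (Λ : Set (G →* ℂˣ)) ⊆ ((Lam G : Subgroup (G →* ℂˣ)) : Set (G →* ℂˣ)) :=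
            fun μ hμ => hcon μ hμ
          have h1 : Λ.card = (Λ : Set (G →* ℂˣ)).ncard := (Set.ncard_coe_finset Λ).symm
          have h2 : Nat.card (Lam G) =
              ((Lam G : Subgroup (G →* ℂˣ)) : Set (G →* ℂˣ)).ncard := rfl
          have h3 := Set.ncard_le_ncard hsub (Set.toFinite _)
          rw [← h1, ← h2, hΛc] at h3
          omega
        obtain ⟨e, he⟩ := IsPGroup.iff_card.mp hG
        have hQe : ∀ g : G, (β g) ^ (2 ^ (e + 1)) = 1 := by
          intro g
          rw [← map_pow, pow_succ, pow_mul, ← he, pow_card_eq_one', one_pow, map_one]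
        have hex : ∃ i : ℕ, ∀ g : G, (β g) ^ (2 ^ (i + 1)) = 1 := ⟨e, hQe⟩
        have hQ0 : ¬ ∀ g : G, (β g) ^ (2 ^ (0 + 1)) = 1 := by
          intro h
          apply hβ
          intro g
          have := h g
          rw [zero_add, pow_one, pow_two] at this
          exact this
        have hi0 : Nat.find hex ≠ 0 := by
          intro h
          have := Nat.find_spec hex
          rw [h] at this
          exact hQ0 this
        obtain ⟨j, hj⟩ : ∃ j, Nat.find hex = j + 1 := ⟨Nat.find hex - 1, by omega⟩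
        have hQj : ¬ ∀ g : G, (β g) ^ (2 ^ (j + 1)) = 1 :=
          Nat.find_min hex (by omega)
        have hQj1 : ∀ g : G, (β g) ^ (2 ^ (j + 1 + 1)) = 1 := by
          have := Nat.find_spec hex
          rw [hj] at this
          exact this
        set α : G →* ℂˣ := (powMonoidHom (2 ^ j)).comp β with hα
        have hαg : ∀ g : G, α g = (β g) ^ (2 ^ j) := fun g => rfl
        have hαLam : α ∉ Lam G := by
          intro h
          apply hQj
          intro g
          have h1 := h g
          rw [hαg, ← pow_add] at h1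
          rw [pow_succ, mul_two]
          exact h1
        have hα2 : ∀ g : G, (α g * α g) * (α g * α g) = 1 := by
          intro g
          rw [hαg, ← pow_add, ← pow_add]
          have h1 := hQj1 g
          have h2 : 2 ^ (j + 1 + 1) = 2 ^ j + 2 ^ j + (2 ^ j + 2 ^ j) := by ring
          rw [h2] at h1
          exact h1
        have hαα : α * α ∈ Lam G := by
          intro g
          rw [MonoidHom.mul_apply]
          exact hα2 g
        have hreal : ∀ χ ∈ F, ∀ g : G, (χ : G → ℂ) g ≠ 0 →
            ((α g : ℂˣ) : ℂ) = 1 ∨ ((α g : ℂˣ) : ℂ) = -1 := by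
          intro χ hχ g hg
          obtain ⟨-, hfix, -⟩ := (hF χ).1 hχ
          have h1 := congrArg (fun ψ : Cfsg.IrrCharacter G => ψ.1 g) (hfix ⟨α * α, hαα⟩)
          have h2 : (((α * α) g : ℂˣ) : ℂ) * χ.1 g = χ.1 g := h1
          rw [MonoidHom.mul_apply, Units.val_mul] at h2
          have h3 : ((α g : ℂˣ) : ℂ) * ((α g : ℂˣ) : ℂ) = 1 := by
            have h4 : (((α g : ℂˣ) : ℂ) * ((α g : ℂˣ) : ℂ) - 1) * χ.1 g = 0 := by
              linear_combination h2
            rcases mul_eq_zero.1 h4 with h5 | h5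
            · linear_combination h5
            · exact absurd h5 hg
          exact mul_self_eq_one_iff.1 h3
        have hτmem : ∀ χ ∈ F, (⟨fun g => ((α g : ℂˣ) : ℂ) * χ.1 g,
            IsIrrCharacter.mul_linear χ.2 α⟩ : Cfsg.IrrCharacter G) ∈ F := by
          intro χ hχ
          obtain ⟨hdeg, hfix, hind⟩ := (hF χ).1 hχ
          rw [hF]
          refine ⟨?_, ?_, ?_⟩
          · show ((α 1 : ℂˣ) : ℂ) * χ.1 1 = 2
            rw [map_one, Units.val_one, one_mul]
            exact hdeg
          · intro μ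
            apply Subtype.ext
            funext g
            show ((μ.1 g : ℂˣ) : ℂ) * (((α g : ℂˣ) : ℂ) * χ.1 g) = ((α g : ℂˣ) : ℂ) * χ.1 g
            have h1 := congrArg (fun ψ : Cfsg.IrrCharacter G => ψ.1 g) (hfix μ)
            have h2 : ((μ.1 g : ℂˣ) : ℂ) * χ.1 g = χ.1 g := h1
            linear_combination ((α g : ℂˣ) : ℂ) * h2
          · have hχre : ∀ s, (χ.1 s).im = 0 := by
              rcases ind_irr χ.2 with ⟨h0, -⟩ | ⟨-, hre⟩
              · exact absurd h0 hind
              · exact hre
            rcases ind_irr (IsIrrCharacter.mul_linear χ.2 α) with ⟨-, s, hs⟩ | ⟨hpm, -⟩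
            · exfalso
              apply hs
              by_cases hg : χ.1 s = 0
              · rw [hg, mul_zero]
                rfl
              · rcases hreal χ hχ s hg with h | h
                · rw [h, one_mul]
                  exact hχre s
                · rw [h, neg_one_mul, Complex.neg_im, hχre s, neg_zero]
            · rcases hpm with h | h
              · show ind (fun g => ((α g : ℂˣ) : ℂ) * χ.1 g) ≠ 0
                rw [h]
                norm_num
              · show ind (fun g => ((α g : ℂˣ) : ℂ) * χ.1 g) ≠ 0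
                rw [h]
                norm_num
        have hτne : ∀ χ ∈ F, (⟨fun g => ((α g : ℂˣ) : ℂ) * χ.1 g,
            IsIrrCharacter.mul_linear χ.2 α⟩ : Cfsg.IrrCharacter G) ≠ χ := by
          intro χ hχ heq
          obtain ⟨hdeg, hfix, hind⟩ := (hF χ).1 hχ
          have hαfix : ∀ g : G, ((α g : ℂˣ) : ℂ) * χ.1 g = χ.1 g := by
            intro g
            exact congrArg (fun ψ : Cfsg.IrrCharacter G => ψ.1 g) heq
          have hαSt : α ∈ St χ.1 := by
            refine ⟨fun g => ?_, hαfix⟩
            have h1 := hα2 g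
            rw [← pow_two, ← pow_two, ← pow_mul] at h1
            exact h1
          have hsub : ((Lam G : Subgroup (G →* ℂˣ)) : Set (G →* ℂˣ)) ⊂
              ((St χ.1 : Subgroup (G →* ℂˣ)) : Set (G →* ℂˣ)) := by
            refine ⟨?_, fun hcon => hαLam (hcon hαSt)⟩
            intro μ hμ
            refine ⟨fun g => ?_, fun g => ?_⟩
            · have h1 := hμ g
              rw [← pow_two] at h1
              have h2 : μ g ^ 4 = (μ g ^ 2) ^ 2 := by rw [← pow_mul]
              rw [h2, h1, one_pow]
            · exact congrArg (fun ψ : Cfsg.IrrCharacter G => ψ.1 g) (hfix ⟨μ, hμ⟩)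
          have h1 := Set.ncard_lt_ncard hsub (Set.toFinite _)
          have h2 : Nat.card (Lam G) =
              ((Lam G : Subgroup (G →* ℂˣ)) : Set (G →* ℂˣ)).ncard := rfl
          have h3 : Nat.card (St χ.1) =
              ((St χ.1 : Subgroup (G →* ℂˣ)) : Set (G →* ℂˣ)).ncard := rfl
          rw [← h2, ← h3] at h1
          obtain ⟨n, hn1, -, -, hnb⟩ := irr_data χ.2
          have hn2 : n = 2 := by
            rw [hdeg] at hn1
            exact_mod_cast hn1.symm
          have hfinS : Fintype (St χ.1) := Fintype.ofFinite _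
          have h4 := stab_bound χ.2 n hnb (St χ.1).subtype Subtype.val_injective
            (fun t g => t.2.2 g)
          rw [hn2, ← Nat.card_eq_fintype_card] at h4
          omega
        have hτinv : ∀ χ ∈ F, (⟨fun g => ((α g : ℂˣ) : ℂ) * (((α g : ℂˣ) : ℂ) * χ.1 g),
            IsIrrCharacter.mul_linear (IsIrrCharacter.mul_linear χ.2 α) α⟩ :
            Cfsg.IrrCharacter G) = χ := by
          intro χ hχ
          obtain ⟨-, hfix, -⟩ := (hF χ).1 hχ
          apply Subtype.ext
          funext g
          show ((α g : ℂˣ) : ℂ) * (((α g : ℂˣ) : ℂ) * χ.1 g) = χ.1 g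
          have h1 := congrArg (fun ψ : Cfsg.IrrCharacter G => ψ.1 g) (hfix ⟨α * α, hαα⟩)
          have h2 : (((α * α) g : ℂˣ) : ℂ) * χ.1 g = χ.1 g := h1
          rw [MonoidHom.mul_apply, Units.val_mul] at h2
          linear_combination h2
        have hsumz : ∑ χ ∈ F, (1 : ZMod 2) = 0 := by
          refine Finset.sum_involution (fun χ _ => (⟨fun g => ((α g : ℂˣ) : ℂ) * χ.1 g,
            IsIrrCharacter.mul_linear χ.2 α⟩ : Cfsg.IrrCharacter G)) ?_ ?_ ?_ ?_
          · intro χ _
            exact zmod_two_aux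
          · intro χ hχ _
            exact hτne χ hχ
          · intro χ hχ
            exact hτmem χ hχ
          · intro χ hχ
            exact hτinv χ hχ
        rw [Finset.sum_const, nsmul_eq_mul, mul_one] at hsumz
        have heven : Even F.card := (ZMod.natCast_eq_zero_iff_even).1 hsumz
        exact (Nat.not_even_iff_odd.2 hodd) heven
  · left
    apply cyclic_of_frattini
    have h1 := card_lam_ge hG
    rw [ha] at h1
    have h2 : 2 ^ a ≤ 2 ^ 1 := Nat.pow_le_pow_right (by norm_num) (by omega)
    omega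

end Cfsg.Agent.S4477
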