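import Mathlib
import Cfsg.Statements.S4478
import Cfsg.Agent.S0914
import Cfsg.Agent.S4456
import Cfsg.Agent.Lib.Helper6.BlockVanish
import Cfsg.Agent.Lib.Helper25.KGV
import Cfsg.Agent.Lib.Helper10.FS

set_option autoImplicit false
open Cfsg

namespace Cfsg.Agent.S4478

open Cfsg.Agent.Lib.Helper1

universe u

theorem vanish {G : Type u} [Group G] [Fintype G] (χ : Cfsg.IrrCharacter G) {p : ℕ} (hp : p.Prime)
    (hdvd : p ^ (Nat.card G).factorization p ∣ Cfsg.charDegree (χ : G → ℂ)) (g : G)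
    (hg : p ∣ orderOf g) : (χ : G → ℂ) g = 0 := by
  have : Fact p.Prime := ⟨hp⟩
  obtain ⟨M, hM⟩ := Cfsg.Agent.Lib.Helper25.KGV.exists_pModular p hp
  have h1 : ¬ p ∣ Nat.card G / Cfsg.charDegree (χ : G → ℂ) := by
    obtain ⟨n, hn1, hndvd, hnpos⟩ := IsIrrCharacter.degree_dvd_card χ.2
    have hdeg : Cfsg.charDegree (χ : G → ℂ) = n := by
      have h3 := Cfsg.Agent.S4456.degree_eq (IsIrrCharacter.isCharacter χ.2)
      rw [hn1] at h3
      exact_mod_cast h3.symm
    rw [hdeg] at hdvd ⊢
    intro h4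
    obtain ⟨k, hk⟩ := hndvd
    have h6 : Nat.card G / n = k := by
      rw [hk, Nat.mul_div_cancel_left k hnpos]
    rw [h6] at h4
    have h5 : p ^ ((Nat.card G).factorization p + 1) ∣ Nat.card G := by
      rw [pow_succ]
      conv_rhs => rw [hk]
      exact Nat.mul_dvd_mul hdvd h4
    exact Nat.pow_succ_factorization_not_dvd Nat.card_pos.ne' hp h5
  have h2 := (Cfsg.Agent.S0914.result p M hM χ).1 h1
  exact Cfsg.Agent.Lib.Helper6.irr_eq_zero_of_singular hM χ h2 g hg

theorem sum_sq {G : Type u} [Group G] [Fintype G] (χ : Cfsg.IrrCharacter G)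
    (hV2 : ∀ g : G, 2 ∣ orderOf g → (χ : G → ℂ) g = 0)
    (hVp : ∀ g : G, 2 ∣ orderOf g → g * g ≠ 1 → (χ : G → ℂ) (g * g) = 0)
    (hne : (χ : G → ℂ) ≠ fun _ => 1) :
    ∑ g : G, (χ : G → ℂ) (g * g) =
      (Nat.card {x : G // orderOf x = 2} : ℂ) * (χ : G → ℂ) 1 := by
  classical
  have h1 : ∑ g : G, (χ : G → ℂ) (g * g) =
      ∑ g ∈ Finset.univ.filter (fun g : G => 2 ∣ orderOf g), (χ : G → ℂ) (g * g) +
      ∑ g ∈ Finset.univ.filter (fun g : G => ¬ 2 ∣ orderOf g), (χ : G → ℂ) (g * g) :=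
    (Finset.sum_filter_add_sum_filter_not Finset.univ (fun g : G => 2 ∣ orderOf g) _).symm
  have h2 : ∑ g ∈ Finset.univ.filter (fun g : G => ¬ 2 ∣ orderOf g), (χ : G → ℂ) (g * g) =
      ∑ g ∈ Finset.univ.filter (fun g : G => ¬ 2 ∣ orderOf g), (χ : G → ℂ) g := by
    refine Finset.sum_nbij' (fun g => g * g) (fun y => y ^ ((orderOf y + 1) / 2)) ?_ ?_ ?_ ?_ ?_
    · intro g hg
      rw [Finset.mem_filter] at hg ⊢
      refine ⟨Finset.mem_univ _, ?_⟩
      have h3 : (orderOf g).Coprime 2 := by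
        rw [Nat.coprime_comm]
        exact (Nat.Prime.coprime_iff_not_dvd Nat.prime_two).2 hg.2
      rw [← pow_two, Nat.Coprime.orderOf_pow h3]
      exact hg.2
    · intro y hy
      rw [Finset.mem_filter] at hy ⊢
      refine ⟨Finset.mem_univ _, ?_⟩
      intro h3
      exact hy.2 (h3.trans (orderOf_pow_dvd _))
    · intro g hg
      rw [Finset.mem_filter] at hg
      have h3 : (orderOf g).Coprime 2 := by
        rw [Nat.coprime_comm]
        exact (Nat.Prime.coprime_iff_not_dvd Nat.prime_two).2 hg.2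
      show (g * g) ^ ((orderOf (g * g) + 1) / 2) = g
      rw [← pow_two, Nat.Coprime.orderOf_pow h3, ← pow_mul]
      have h4 : 2 * ((orderOf g + 1) / 2) = orderOf g + 1 := by
        have := hg.2
        omega
      rw [h4, pow_succ, pow_orderOf_eq_one, one_mul]
    · intro y hy
      rw [Finset.mem_filter] at hy
      show y ^ ((orderOf y + 1) / 2) * y ^ ((orderOf y + 1) / 2) = y
      rw [← pow_add]
      have h4 : (orderOf y + 1) / 2 + (orderOf y + 1) / 2 = orderOf y + 1 := by
        have := hy.2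
        omega
      rw [h4, pow_succ, pow_orderOf_eq_one, one_mul]
    · intro g _
      rfl
  have h3 : ∑ g ∈ Finset.univ.filter (fun g : G => ¬ 2 ∣ orderOf g), (χ : G → ℂ) g = 0 := by
    have h4 := Finset.sum_filter_add_sum_filter_not Finset.univ (fun g : G => 2 ∣ orderOf g)
      (fun g => (χ : G → ℂ) g)
    have h5 : ∑ g ∈ Finset.univ.filter (fun g : G => 2 ∣ orderOf g), (χ : G → ℂ) g = 0 := by
      apply Finset.sum_eq_zero
      intro g hg
      exact hV2 g (Finset.mem_filter.1 hg).2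
    rw [h5, zero_add] at h4
    rw [h4]
    have h6 := classInner_irr_ne χ.2 (isIrrCharacter_one (G := G)) hne
    unfold Cfsg.classInner at h6
    simp only [map_one, mul_one] at h6
    rcases mul_eq_zero.1 h6 with h7 | h7
    · exfalso
      have h8 : (Nat.card G : ℂ) ≠ 0 := by exact_mod_cast Nat.card_pos.ne'
      exact h8 (inv_eq_zero.1 h7)
    · exact h7
  have h4 : ∑ g ∈ Finset.univ.filter (fun g : G => 2 ∣ orderOf g), (χ : G → ℂ) (g * g) =
      ∑ g ∈ Finset.univ.filter (fun g : G => orderOf g = 2), (χ : G → ℂ) 1 := by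
    symm
    have hsub : Finset.univ.filter (fun g : G => orderOf g = 2) ⊆
        Finset.univ.filter (fun g : G => 2 ∣ orderOf g) := by
      intro g hg
      rw [Finset.mem_filter] at hg ⊢
      exact ⟨Finset.mem_univ _, hg.2 ▸ dvd_rfl⟩
    rw [← Finset.sum_subset hsub]
    · apply Finset.sum_congr rfl
      intro g hg
      rw [Finset.mem_filter] at hg
      have h5 : g * g = 1 := by
        rw [← pow_two, ← hg.2, pow_orderOf_eq_one]
      rw [h5]
    · intro g hg hg2
      rw [Finset.mem_filter] at hg hg2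
      apply hVp g hg.2
      intro h5
      apply hg2
      refine ⟨Finset.mem_univ _, ?_⟩
      rw [← pow_two] at h5
      exact Nat.dvd_antisymm (orderOf_dvd_of_pow_eq_one h5) hg.2
  rw [h1, h2, h3, add_zero, h4, Finset.sum_const, nsmul_eq_mul]
  congr 2
  rw [Nat.card_eq_fintype_card, Fintype.card_subtype]

theorem conj_map {G : Type u} [Group G] (s : G) (hs : orderOf s = 2) :
    ∃ φ : G ⧸ Subgroup.centralizer ({s} : Set G) → {y : G // orderOf y = 2},
      Function.Injective φ ∧ ∀ q, ∃ g : G, (φ q : G) = g * s * g⁻¹ := by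
  have hord : ∀ g : G, orderOf (g * s * g⁻¹) = 2 := by
    intro g
    rw [← hs]
    exact (MulAut.conj g).orderOf_eq s
  refine ⟨fun q => Quotient.liftOn' q
    (fun g => (⟨g * s * g⁻¹, hord g⟩ : {y : G // orderOf y = 2})) ?_, ?_, ?_⟩
  · intro a b hab
    rw [QuotientGroup.leftRel_apply] at hab
    apply Subtype.ext
    have h1 := Subgroup.mem_centralizer_iff.1 hab s rfl
    show a * s * a⁻¹ = b * s * b⁻¹
    have h2 : b * s * b⁻¹ = a * ((a⁻¹ * b) * s) * (a⁻¹ * b)⁻¹ * a⁻¹ := by group
    rw [h2, ← h1]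
    group
  · intro q1 q2
    refine Quotient.inductionOn₂' q1 q2 ?_
    intro a b hab
    apply Quotient.sound'
    rw [QuotientGroup.leftRel_apply, Subgroup.mem_centralizer_iff]
    intro h hh
    rw [Set.mem_singleton_iff] at hh
    subst hh
    have h1 : a * h * a⁻¹ = b * h * b⁻¹ := congrArg Subtype.val hab
    calc h * (a⁻¹ * b) = a⁻¹ * (a * h * a⁻¹) * b := by group
      _ = a⁻¹ * (b * h * b⁻¹) * b := by rw [h1]
      _ = a⁻¹ * b * h := by group
  · intro q
    refine Quotient.inductionOn' q ?_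
    intro g
    exact ⟨g, rfl⟩

/-- If an irreducible χ has degree x divisible by #G₂ and by #G_p for every odd p with elements of order 2p present, then G has one class of involutions, each involution centralizer is a Hall subgroup of order x, and ν₂(χ) = 1. -/
theorem result {G : Type*} [Group G] [Fintype G] (heven : Even (Nat.card G)) (χ : Cfsg.IrrCharacter G) (h2 : 2 ^ (Nat.card G).factorization 2 ∣ Cfsg.charDegree (χ : G → ℂ)) (hp : ∀ p : ℕ, p.Prime → p ≠ 2 → (∃ g : G, orderOf g = 2 * p) → p ^ (Nat.card G).factorization p ∣ Cfsg.charDegree (χ : G → ℂ)) : (∀ s t : G, orderOf s = 2 → orderOf t = 2 → IsConj s t) ∧ (∀ s : G, orderOf s = 2 → Nat.card (Subgroup.centralizer ({s} : Set G)) = Cfsg.charDegree (χ : G → ℂ) ∧ (Nat.card (Subgroup.centralizer ({s} : Set G))).Coprime (Subgroup.centralizer ({s} : Set G)).index) ∧ (Nat.card G : ℂ)⁻¹ * ∑ g : G, (χ : G → ℂ) (g * g) = 1 := by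
  classical
  have hG0 : Nat.card G ≠ 0 := Nat.card_pos.ne'
  have h2card : 2 ∣ Nat.card G := heven.two_dvd
  set x := Cfsg.charDegree (χ : G → ℂ) with hx
  have hx1 : (χ : G → ℂ) 1 = (x : ℂ) :=
    Cfsg.Agent.S4456.degree_eq (IsIrrCharacter.isCharacter χ.2)
  obtain ⟨n, hn1, hndvd, hnpos⟩ := IsIrrCharacter.degree_dvd_card χ.2
  have hxn : x = n := by
    rw [hn1] at hx1
    exact_mod_cast hx1.symm
  have hxdvd : x ∣ Nat.card G := hxn ▸ hndvd
  have hxpos : 0 < x := hxn ▸ hnpos
  have hx0 : x ≠ 0 := hxpos.ne'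
  have hV2 : ∀ g : G, 2 ∣ orderOf g → (χ : G → ℂ) g = 0 :=
    fun g hg => vanish χ Nat.prime_two h2 g hg
  have h2x : 2 ∣ x := by
    have hv : (Nat.card G).factorization 2 ≠ 0 :=
      (Nat.Prime.factorization_pos_of_dvd Nat.prime_two hG0 h2card).ne'
    exact (dvd_pow_self 2 hv).trans h2
  have hne : (χ : G → ℂ) ≠ fun _ => 1 := by
    intro h
    have h3 := congrFun h 1
    rw [hx1] at h3
    have h4 : x = 1 := by exact_mod_cast h3
    rw [h4] at h2x
    omega
  have hVp : ∀ g : G, 2 ∣ orderOf g → g * g ≠ 1 → (χ : G → ℂ) (g * g) = 0 := by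
    intro g hg hgg
    obtain ⟨m, hm⟩ := hg
    have hgpos : 0 < orderOf g := orderOf_pos g
    have ho : orderOf (g * g) = m := by
      rw [← pow_two, orderOf_pow_of_dvd two_ne_zero ⟨m, hm⟩, hm, Nat.mul_div_cancel_left m two_pos]
    have hm1 : m ≠ 1 := by
      intro h
      rw [h, orderOf_eq_one_iff] at ho
      exact hgg ho
    by_cases h2m : 2 ∣ m
    · exact hV2 (g * g) (ho ▸ h2m)
    · obtain ⟨p, pp, hpm⟩ := Nat.exists_prime_and_dvd hm1
      have hp2 : p ≠ 2 := fun h => h2m (h ▸ hpm)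
      obtain ⟨j, hj⟩ := hpm
      have hj0 : j ≠ 0 := by
        rintro rfl
        rw [hj, mul_zero, mul_zero] at hm
        omega
      have hjd : j ∣ orderOf g := ⟨2 * p, by rw [hm, hj]; ring⟩
      have ho2 : orderOf (g ^ j) = 2 * p := by
        rw [orderOf_pow_of_dvd hj0 hjd, hm, hj]
        have h5 : 2 * (p * j) = (2 * p) * j := by ring
        rw [h5, Nat.mul_div_cancel _ (Nat.pos_of_ne_zero hj0)]
      have h6 := hp p pp hp2 ⟨g ^ j, ho2⟩
      exact vanish χ pp h6 (g * g) (ho ▸ ⟨j, hj⟩)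
  have hsum := sum_sq χ hV2 hVp hne
  set T := Nat.card {y : G // orderOf y = 2} with hT
  have hTpos : 0 < T := by
    have : Fact (Nat.Prime 2) := ⟨Nat.prime_two⟩
    obtain ⟨y, hy⟩ := exists_prime_orderOf_dvd_card' 2 h2card
    have : Nonempty {y : G // orderOf y = 2} := ⟨⟨y, hy⟩⟩
    exact Nat.card_pos
  have hν : (Nat.card G : ℂ)⁻¹ * ∑ g : G, (χ : G → ℂ) (g * g) = 1 ∧ T * x = Nat.card G := by
    obtain ⟨k, ρ, hρ, hχρ⟩ := χ.2
    have := hρ
    have hGc : (Nat.card G : ℂ) ≠ 0 := by exact_mod_cast hG0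
    rw [hsum, hx1]
    have hcases : (Nat.card G : ℂ)⁻¹ * ((T : ℂ) * (x : ℂ)) = 0 ∨
        (Nat.card G : ℂ)⁻¹ * ((T : ℂ) * (x : ℂ)) = 1 ∨
        (Nat.card G : ℂ)⁻¹ * ((T : ℂ) * (x : ℂ)) = -1 := by
      have hind : Cfsg.Agent.Lib.Helper10.FS.ind ρ.character =
          (Nat.card G : ℂ)⁻¹ * ((T : ℂ) * (x : ℂ)) := by
        unfold Cfsg.Agent.Lib.Helper10.FS.ind
        rw [hχρ, hsum, hx1]
      rcases Cfsg.Agent.Lib.Helper10.FS.dichotomy k ρ with ⟨-, h0, -⟩ |
        ⟨M0, ε, -, -, -, hε, hi, -⟩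
      · left
        rw [← hind, h0]
      · rcases hε with rfl | rfl
        · right; left
          rw [← hind, hi]
        · right; right
          rw [← hind, hi]
    rcases hcases with h | h | h
    · exfalso
      rcases mul_eq_zero.1 h with h3 | h3
      · exact hGc (inv_eq_zero.1 h3)
      · have h4 : T * x = 0 := by exact_mod_cast h3
        rcases Nat.mul_eq_zero.1 h4 with h5 | h5
        · omega
        · omega
    · refine ⟨h, ?_⟩
      have h3 : (T : ℂ) * (x : ℂ) = (Nat.card G : ℂ) := by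
        field_simp at h
        exact h
      exact_mod_cast h3
    · exfalso
      have h3 : (T : ℂ) * (x : ℂ) + (Nat.card G : ℂ) = 0 := by
        field_simp at h
        linear_combination h
      have h4 : T * x + Nat.card G = 0 := by exact_mod_cast h3
      omega
  obtain ⟨hν1, hTx⟩ := hν
  have hkey : ∀ s : G, orderOf s = 2 → ∀ p : ℕ, p.Prime →
      p ∣ Nat.card (Subgroup.centralizer ({s} : Set G)) →
      p ^ (Nat.card G).factorization p ∣ x := by
    intro s hs p pp hpC
    by_cases hp2 : p = 2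
    · rw [hp2]
      exact h2
    · apply hp p pp hp2
      have : Fact p.Prime := ⟨pp⟩
      obtain ⟨u, hu⟩ := exists_prime_orderOf_dvd_card' p hpC
      have hu2 : orderOf (u : G) = p := by
        rw [Subgroup.orderOf_coe, hu]
      have hcomm : Commute s (u : G) := Subgroup.mem_centralizer_iff.1 u.2 s rfl
      refine ⟨s * u, ?_⟩
      rw [hcomm.orderOf_mul_eq_mul_orderOf_of_coprime, hs, hu2]
      rw [hs, hu2]
      exact (Nat.coprime_primes Nat.prime_two pp).2 (Ne.symm hp2)
  have hcent : ∀ s : G, orderOf s = 2 →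
      Nat.card (Subgroup.centralizer ({s} : Set G)) = x ∧
      (Subgroup.centralizer ({s} : Set G)).index = T := by
    intro s hs
    have hC0 : Nat.card (Subgroup.centralizer ({s} : Set G)) ≠ 0 := Nat.card_pos.ne'
    have hCdvd : Nat.card (Subgroup.centralizer ({s} : Set G)) ∣ x := by
      rw [← Nat.factorization_prime_le_iff_dvd hC0 hx0]
      intro p pp
      by_cases hpC : p ∣ Nat.card (Subgroup.centralizer ({s} : Set G))
      · have h3 := hkey s hs p pp hpC
        have h4 := (Nat.Prime.pow_dvd_iff_le_factorization pp hx0).1 h3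
        have h5 := (Nat.factorization_le_iff_dvd hC0 hG0).2
          (Subgroup.card_subgroup_dvd_card (Subgroup.centralizer ({s} : Set G))) p
        exact h5.trans h4
      · rw [Nat.factorization_eq_zero_of_not_dvd hpC]
        exact Nat.zero_le _
    obtain ⟨φ, hφ, -⟩ := conj_map s hs
    have hidx : (Subgroup.centralizer ({s} : Set G)).index ≤ T := by
      rw [Subgroup.index_eq_card, hT]
      exact Nat.card_le_card_of_injective φ hφ
    have hmul := Subgroup.card_mul_index (Subgroup.centralizer ({s} : Set G))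
    have hCle := Nat.le_of_dvd hxpos hCdvd
    have hidxpos : 0 < (Subgroup.centralizer ({s} : Set G)).index :=
      Nat.pos_of_ne_zero Subgroup.index_ne_zero_of_finite
    have h3 : Nat.card (Subgroup.centralizer ({s} : Set G)) = x := by
      by_contra hlt
      have hlt' : Nat.card (Subgroup.centralizer ({s} : Set G)) < x := lt_of_le_of_ne hCle hlt
      have h4 : Nat.card (Subgroup.centralizer ({s} : Set G)) *
          (Subgroup.centralizer ({s} : Set G)).index < x * T :=
        calc Nat.card (Subgroup.centralizer ({s} : Set G)) *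
              (Subgroup.centralizer ({s} : Set G)).index
            < x * (Subgroup.centralizer ({s} : Set G)).index :=
              Nat.mul_lt_mul_of_pos_right hlt' hidxpos
          _ ≤ x * T := Nat.mul_le_mul_left x hidx
      rw [hmul, mul_comm x T, hTx] at h4
      exact lt_irrefl _ h4
    refine ⟨h3, ?_⟩
    rw [h3, ← hTx, mul_comm T x] at hmul
    exact Nat.eq_of_mul_eq_mul_left hxpos hmul
  refine ⟨?_, ?_, hν1⟩
  · intro s t hs ht
    obtain ⟨φ, hφ, hφ2⟩ := conj_map s hs
    have hbij : Function.Bijective φ := by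
      apply Function.Injective.bijective_of_nat_card_le hφ
      rw [← Subgroup.index_eq_card, (hcent s hs).2]
    obtain ⟨q, hq⟩ := hbij.2 ⟨t, ht⟩
    obtain ⟨g, hg⟩ := hφ2 q
    rw [hq] at hg
    exact isConj_iff.2 ⟨g, hg.symm⟩
  · intro s hs
    refine ⟨(hcent s hs).1, ?_⟩
    rw [(hcent s hs).1, (hcent s hs).2]
    by_contra hnc
    obtain ⟨p, pp, hpx, hpT⟩ := Nat.Prime.not_coprime_iff_dvd.1 hnc
    have h3 := hkey s hs p pp ((hcent s hs).1 ▸ hpx)
    have h5 : p ^ ((Nat.card G).factorization p + 1) ∣ Nat.card G := by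
      have h6 : p ^ (Nat.card G).factorization p * p ∣ x * T := Nat.mul_dvd_mul h3 hpT
      rw [mul_comm x T, hTx] at h6
      rw [pow_succ]
      exact h6
    exact Nat.pow_succ_factorization_not_dvd hG0 pp h5

end Cfsg.Agent.S4478
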