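import Mathlib
import Cfsg.Statements.S4480
import Cfsg.Agent.S4479
import Cfsg.Agent.Lib.Helper23.Klein7

set_option autoImplicit false
open Cfsg

namespace Cfsg.Agent.S4480

/-- Same setting as the Klein-four order formula: G of order 4·g₀ (g₀ odd) with no normal 2-complement, P a Sylow 2-subgroup, J an involution of P, M over 2, principal 2-block {1, χ₁, χ₂, χ₃} with χ_i(J) = ε_i = ±1. Suppose ε₁ε₂ε₃ = −1 and ε₃ = −1, and put q = x₃ = χ₃(1). Then there is a natural number m with 4·c(J) = m·c(P)·(q + 1), and the order of G equals (m³·c(P)/4)·(q³ − q)/2, that is 8·#G = m³·c(P)·(q³ − q). -/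
theorem result {G : Type*} [Group G] [Finite G] (M : Ideal Cfsg.AlgInt) (hM : Cfsg.IsPModular 2 M) (g₀ : ℕ) (hg₀ : Odd g₀) (hG : Nat.card G = 4 * g₀) (hnc : ¬ ∃ N : Subgroup G, N.Normal ∧ Nat.card N = g₀) (P : Sylow 2 G) (J : G) (hJ : J ∈ (P : Subgroup G)) (hJ2 : orderOf J = 2) (χ₁ χ₂ χ₃ : Cfsg.IrrCharacter G) (ε₁ ε₂ ε₃ : ℤ) (hB : Cfsg.principalBlock M G = {χ : Cfsg.IrrCharacter G | (χ : G → ℂ) = (fun _ => 1) ∨ χ = χ₁ ∨ χ = χ₂ ∨ χ = χ₃}) (hdist : (χ₁ : G → ℂ) ≠ (fun _ => 1) ∧ (χ₂ : G → ℂ) ≠ (fun _ => 1) ∧ (χ₃ : G → ℂ) ≠ (fun _ => 1) ∧ χ₁ ≠ χ₂ ∧ χ₁ ≠ χ₃ ∧ χ₂ ≠ χ₃) (hε : (ε₁ = 1 ∨ ε₁ = -1) ∧ (ε₂ = 1 ∨ ε₂ = -1) ∧ (ε₃ = 1 ∨ ε₃ = -1)) (hval : (χ₁ : G → ℂ) J = ε₁ ∧ (χ₂ : G → ℂ) J = ε₂ ∧ (χ₃ : G → ℂ) J = ε₃) (hprod : ε₁ * ε₂ * ε₃ = -1) (hε₃ : ε₃ = -1) : ∃ m : ℕ, 4 * Nat.card (Subgroup.centralizer ({J} : Set G)) = m * Nat.card (Subgroup.centralizer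 ((P : Subgroup G) : Set G)) * (Cfsg.charDegree (χ₃ : G → ℂ) + 1) ∧ 8 * Nat.card G = m ^ 3 * Nat.card (Subgroup.centralizer ((P : Subgroup G) : Set G)) * (Cfsg.charDegree (χ₃ : G → ℂ) ^ 3 - Cfsg.charDegree (χ₃ : G → ℂ)) := by
  have R := Cfsg.Agent.S4479.result M hM g₀ hg₀ hG hnc P J hJ hJ2 χ₁ χ₂ χ₃ ε₁ ε₂ ε₃ hB hdist hε hval
  obtain ⟨he1, he2, hq, hx21⟩ := Cfsg.Agent.Lib.Helper23.Klein.klein_x_eq M hM g₀ hg₀ hG hnc P J
    hJ hJ2 χ₁ χ₂ χ₃ ε₁ ε₂ ε₃ hB hdist hε hval hprod hε₃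
  have hx₁ : 0 < Cfsg.charDegree (χ₁ : G → ℂ) :=
    Cfsg.Agent.Lib.Helper24.CharBasic.irr_degree_pos χ₁.2
  have hcP : 0 < Nat.card (Subgroup.centralizer ((P : Subgroup G) : Set G)) := Nat.card_pos
  have hcJ : 0 < Nat.card (Subgroup.centralizer ({J} : Set G)) := Nat.card_pos
  have hdvd1 : Nat.card (Subgroup.centralizer ((P : Subgroup G) : Set G))
      ∣ Nat.card (Subgroup.centralizer ({J} : Set G)) :=
    Subgroup.card_dvd_of_le (Subgroup.centralizer_le (Set.singleton_subset_iff.mpr hJ))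
  have hdvd2 : Nat.card (Subgroup.centralizer ({J} : Set G)) ∣ Nat.card G :=
    Subgroup.card_subgroup_dvd_card _
  rw [hx21] at hq
  rw [hx21, hq, he1, he2, hε₃] at R
  rw [hq]
  generalize Cfsg.charDegree (χ₁ : G → ℂ) = x at *
  generalize Nat.card (Subgroup.centralizer ((P : Subgroup G) : Set G)) = cP at *
  generalize Nat.card (Subgroup.centralizer ({J} : Set G)) = cJ at *
  generalize Nat.card G = g at *
  obtain ⟨n₁, rfl⟩ := hdvd1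
  obtain ⟨i, rfl⟩ := hdvd2
  have hn₁ : 0 < n₁ := Nat.pos_of_mul_pos_left hcJ
  have hxq : (0 : ℚ) < x := by exact_mod_cast hx₁
  have hcPq : (0 : ℚ) < cP := by exact_mod_cast hcP
  have hNQ : ((cP * n₁ * i : ℕ) : ℚ) * ((x : ℚ) + 1) ^ 2 * (cP : ℚ) ^ 2
      = 4 * x * (2 * x + 1) * ((cP * n₁ : ℕ) : ℚ) ^ 3 := by
    rw [R]
    push_cast
    have h1 : (1 : ℚ) + x + x + -1 = 2 * x := by ring
    rw [h1]
    field_simp
    ring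
  have hN : cP * n₁ * i * (x + 1) ^ 2 * cP ^ 2 = 4 * x * (2 * x + 1) * (cP * n₁) ^ 3 := by
    exact_mod_cast hNQ
  have hN2 : i * (x + 1) ^ 2 = (2 * n₁) ^ 2 * (x * (2 * x + 1)) := by
    have hpos : 0 < cP ^ 3 * n₁ := by positivity
    apply Nat.eq_of_mul_eq_mul_left hpos
    calc cP ^ 3 * n₁ * (i * (x + 1) ^ 2) = cP * n₁ * i * (x + 1) ^ 2 * cP ^ 2 := by ring
      _ = 4 * x * (2 * x + 1) * (cP * n₁) ^ 3 := hN
      _ = cP ^ 3 * n₁ * ((2 * n₁) ^ 2 * (x * (2 * x + 1))) := by ring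
  have hcop1 : Nat.Coprime (x + 1) x := by
    rw [← Nat.isCoprime_iff_coprime]
    exact ⟨1, -1, by push_cast; ring⟩
  have hcop2 : Nat.Coprime (x + 1) (2 * x + 1) := by
    rw [← Nat.isCoprime_iff_coprime]
    exact ⟨2, -1, by push_cast; ring⟩
  have hcop : Nat.Coprime ((x + 1) ^ 2) (x * (2 * x + 1)) :=
    Nat.Coprime.pow_left 2 (Nat.Coprime.mul_right hcop1 hcop2)
  have hd : (x + 1) ^ 2 ∣ (2 * n₁) ^ 2 := by
    apply Nat.Coprime.dvd_of_dvd_mul_right hcop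
    rw [← hN2]
    exact Dvd.intro_left i rfl
  have hd' : x + 1 ∣ 2 * n₁ := (Nat.pow_dvd_pow_iff (by norm_num)).mp hd
  obtain ⟨m, hm⟩ := hd'
  refine ⟨m, ?_, ?_⟩
  · calc 4 * (cP * n₁) = 2 * cP * (2 * n₁) := by ring
      _ = 2 * cP * ((x + 1) * m) := by rw [hm]
      _ = m * cP * (1 + x + x + 1) := by ring
  · have hsub : (1 + x + x) ^ 3 - (1 + x + x) = 4 * x * (x + 1) * (2 * x + 1) := by
      apply Nat.sub_eq_of_eq_add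
      ring
    rw [hsub]
    have hpos : 0 < (x + 1) ^ 3 * cP ^ 2 := by positivity
    apply Nat.eq_of_mul_eq_mul_right hpos
    calc 8 * (cP * n₁ * i) * ((x + 1) ^ 3 * cP ^ 2)
        = 8 * (x + 1) * (cP * n₁ * i * (x + 1) ^ 2 * cP ^ 2) := by ring
      _ = 8 * (x + 1) * (4 * x * (2 * x + 1) * (cP * n₁) ^ 3) := by rw [hN]
      _ = 4 * x * (x + 1) * (2 * x + 1) * cP ^ 3 * (2 * n₁) ^ 3 := by ring
      _ = 4 * x * (x + 1) * (2 * x + 1) * cP ^ 3 * ((x + 1) * m) ^ 3 := by rw [hm]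
      _ = m ^ 3 * cP * (4 * x * (x + 1) * (2 * x + 1)) * ((x + 1) ^ 3 * cP ^ 2) := by ring

end Cfsg.Agent.S4480
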