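import Mathlib
import Cfsg.Statements.S4483
import Cfsg.Agent.Lib.Helper6.RegInner
import Cfsg.Agent.Lib.Helper6.RealCls

set_option autoImplicit false
open Cfsg

namespace Cfsg.Agent.S4483

/-- Let G be a finite group of order 2^n·g₀ with g₀ odd, and M a maximal ideal of the algebraic integers containing 2. Every real-valued irreducible character of G of odd degree lies in the principal 2-block; consequently G has at most 2^(2n) real-valued irreducible characters of odd degree. -/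
theorem result {G : Type*} [Group G] [Finite G] (M : Ideal Cfsg.AlgInt) (hM : Cfsg.IsPModular 2 M) : (∀ χ : Cfsg.IrrCharacter G, (∀ g : G, ((χ : G → ℂ) g).im = 0) → Odd (Cfsg.charDegree (χ : G → ℂ)) → χ ∈ Cfsg.principalBlock M G) ∧ Nat.card {χ : Cfsg.IrrCharacter G // (∀ g : G, ((χ : G → ℂ) g).im = 0) ∧ Odd (Cfsg.charDegree (χ : G → ℂ))} ≤ 2 ^ (2 * (Nat.card G).factorization 2) := by
  classical
  haveI : Fintype G := Fintype.ofFinite G
  haveI : Fintype (Cfsg.IrrCharacter G) := Cfsg.Agent.Lib.Helper1.irrFintype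
  have hmax := hM.2.1
  haveI : Fact (Nat.Prime 2) := ⟨Nat.prime_two⟩
  have part1 : ∀ χ : Cfsg.IrrCharacter G, (∀ g : G, ((χ : G → ℂ) g).im = 0) →
      Odd (Cfsg.charDegree (χ : G → ℂ)) → χ ∈ Cfsg.principalBlock M G := by
    intro χ hreal hodd
    apply Cfsg.Agent.Lib.Helper6.mem_principalBlock_of_invol hM χ
    · intro g hg
      have h1 : Cfsg.centralChar (χ : G → ℂ) g⁻¹ = Cfsg.centralChar (χ : G → ℂ) g := by
        unfold Cfsg.centralChar
        rw [Cfsg.Agent.Lib.Helper6.centralizer_singleton_inv,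
          Cfsg.Agent.Lib.Helper1.IsCharacter.inv
            (Cfsg.Agent.Lib.Helper1.IsIrrCharacter.isCharacter χ.2) g,
          Complex.conj_eq_iff_im.mpr (hreal g)]
      rw [h1, sub_self]
      exact Cfsg.Agent.Lib.Helper6.memLocalIdeal_zero hmax
    · intro g hg
      exact Cfsg.Agent.Lib.Helper6.centralChar_mem_of_even_index hM χ hodd g hg
  refine ⟨part1, ?_⟩
  obtain ⟨ι, hι⟩ : ∃ ι : Cfsg.IrrCharacter G, (ι : G → ℂ) = fun _ => 1 :=
    ⟨⟨fun _ => 1, Cfsg.Agent.Lib.Helper1.isIrrCharacter_one⟩, rfl⟩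
  have hdeg1 : Cfsg.charDegree (ι : G → ℂ) = 1 := by
    rw [hι]
    unfold Cfsg.charDegree
    simp
  have hne : ∀ ψ ∈ Cfsg.principalBlock M G, Cfsg.Agent.Lib.Helper6.regCoef 2 ι ψ ≠ 0 := by
    intro ψ hψ h0
    have hsame : Cfsg.SameBlock M (ι : G → ℂ) (ψ : G → ℂ) := by
      rw [hι]
      exact hψ
    refine Cfsg.Agent.Lib.Helper6.regCoef_not_mem_of_min hM ι ψ hsame ?_ ?_
    · intro ψ' _
      rw [hdeg1]
      simp
    · rw [h0]
      simp only [Int.cast_zero, zero_div]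
      exact Cfsg.Agent.Lib.Helper6.memLocalIdeal_zero hmax
  have hm11 : Cfsg.Agent.Lib.Helper6.regCoef 2 ι ι ≤
      ((2 ^ (Nat.card G).factorization 2 : ℕ) : ℤ) := by
    have h1 := Cfsg.Agent.Lib.Helper6.regCoef_mul_ordCompl 2 ι ι
    have h2 : ∑ g : G, Cfsg.Agent.Lib.Helper6.regTrunc 2 (ι : G → ℂ) g * (ι : G → ℂ) g =
        ((Finset.univ.filter (fun g : G => ¬ 2 ∣ orderOf g)).card : ℂ) := by
      rw [Finset.card_filter, Nat.cast_sum]
      apply Finset.sum_congr rfl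
      intro g _
      unfold Cfsg.Agent.Lib.Helper6.regTrunc
      rw [hι]
      by_cases hg : 2 ∣ orderOf g <;> simp [hg]
    rw [h2] at h1
    have h3 : (Cfsg.Agent.Lib.Helper6.ordCompl G 2 : ℤ) * Cfsg.Agent.Lib.Helper6.regCoef 2 ι ι =
        ((Finset.univ.filter (fun g : G => ¬ 2 ∣ orderOf g)).card : ℤ) := by exact_mod_cast h1
    have h4 : (Finset.univ.filter (fun g : G => ¬ 2 ∣ orderOf g)).card ≤ Nat.card G := by
      rw [Nat.card_eq_fintype_card]
      exact Finset.card_le_univ _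
    have h5 := Cfsg.Agent.Lib.Helper6.ordCompl_mul (G := G) 2
    have h6 := Cfsg.Agent.Lib.Helper6.ordCompl_pos (G := G) 2
    have h7 : (Cfsg.Agent.Lib.Helper6.ordCompl G 2 : ℤ) * Cfsg.Agent.Lib.Helper6.regCoef 2 ι ι ≤
        (Cfsg.Agent.Lib.Helper6.ordCompl G 2 : ℤ) *
          ((2 ^ (Nat.card G).factorization 2 : ℕ) : ℤ) := by
      rw [h3]
      have h8 : ((Finset.univ.filter (fun g : G => ¬ 2 ∣ orderOf g)).card : ℤ) ≤
          (Nat.card G : ℤ) := by exact_mod_cast h4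
      rw [← h5] at h8
      push_cast at h8 ⊢
      linarith
    exact le_of_mul_le_mul_left h7 (by exact_mod_cast h6)
  have hsq := Cfsg.Agent.Lib.Helper6.sum_regCoef_sq 2 ι
  have hcount : (Finset.univ.filter (fun ψ : Cfsg.IrrCharacter G =>
      Cfsg.Agent.Lib.Helper6.regCoef 2 ι ψ ≠ 0)).card ≤ 2 ^ (2 * (Nat.card G).factorization 2) := by
    have h1 : ((Finset.univ.filter (fun ψ : Cfsg.IrrCharacter G =>
        Cfsg.Agent.Lib.Helper6.regCoef 2 ι ψ ≠ 0)).card : ℤ) ≤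
        ∑ ψ : Cfsg.IrrCharacter G, Cfsg.Agent.Lib.Helper6.regCoef 2 ι ψ ^ 2 := by
      rw [Finset.card_filter, Nat.cast_sum]
      apply Finset.sum_le_sum
      intro ψ _
      split_ifs with h
      · have h2 : 0 < Cfsg.Agent.Lib.Helper6.regCoef 2 ι ψ ^ 2 := by positivity
        have h3 : ((1 : ℕ) : ℤ) = 1 := by norm_num
        rw [h3]
        omega
      · have h2 : 0 ≤ Cfsg.Agent.Lib.Helper6.regCoef 2 ι ψ ^ 2 := by positivity
        simpa using h2
    rw [hsq] at h1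
    have h2 : ((2 ^ (Nat.card G).factorization 2 : ℕ) : ℤ) * Cfsg.Agent.Lib.Helper6.regCoef 2 ι ι ≤
        ((2 ^ (Nat.card G).factorization 2 : ℕ) : ℤ) * ((2 ^ (Nat.card G).factorization 2 : ℕ) : ℤ) :=
      mul_le_mul_of_nonneg_left hm11 (by positivity)
    have h3 : ((Finset.univ.filter (fun ψ : Cfsg.IrrCharacter G =>
        Cfsg.Agent.Lib.Helper6.regCoef 2 ι ψ ≠ 0)).card : ℤ) ≤
        ((2 ^ (2 * (Nat.card G).factorization 2) : ℕ) : ℤ) := by
      have h4 : ((2 ^ (2 * (Nat.card G).factorization 2) : ℕ) : ℤ) =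
          ((2 ^ (Nat.card G).factorization 2 : ℕ) : ℤ) * ((2 ^ (Nat.card G).factorization 2 : ℕ) : ℤ) := by
        rw [two_mul, pow_add]
        push_cast
        ring
      rw [h4]
      linarith
    exact_mod_cast h3
  have hinj : Nat.card {χ : Cfsg.IrrCharacter G // (∀ g : G, ((χ : G → ℂ) g).im = 0) ∧
      Odd (Cfsg.charDegree (χ : G → ℂ))} ≤ (Finset.univ.filter (fun ψ : Cfsg.IrrCharacter G =>
      Cfsg.Agent.Lib.Helper6.regCoef 2 ι ψ ≠ 0)).card := by
    rw [Nat.card_eq_fintype_card, Fintype.card_subtype]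
    apply Finset.card_le_card
    intro χ hχ
    rw [Finset.mem_filter] at hχ ⊢
    exact ⟨Finset.mem_univ _, hne χ (part1 χ hχ.2.1 hχ.2.2)⟩
  exact le_trans hinj hcount

end Cfsg.Agent.S4483
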