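import Cfsg.Statements.S4493
import Cfsg.Agent.Lib.Helper1.CharIto3
open Cfsg.Agent.Lib.Helper1 Representation
open scoped ComplexConjugate

set_option autoImplicit false
open Cfsg

namespace Cfsg.Agent.S4493

/-- Let G be a finite solvable group and p a prime. Then G has a normal abelian Sylow p-subgroup if and only if no irreducible character degree of G is divisible by p. -/
theorem result {G : Type*} [Group G] [Finite G] (hsolv : Group.IsSolvable G) (p : ℕ) (hp : p.Prime) : (∃ P : Subgroup G, P.Normal ∧ (∀ x ∈ P, ∀ y ∈ P, x * y = y * x) ∧ IsPGroup p P ∧ ¬ p ∣ P.index) ↔ ∀ χ : Cfsg.IrrCharacter G, ¬ p ∣ Cfsg.charDegree (χ : G → ℂ) := by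
  classical
  haveI : Fintype G := Fintype.ofFinite G
  constructor
  · rintro ⟨P, hPn, hPab, hPp, hPidx⟩ χ hdvd
    obtain ⟨n, ρ, hρ, hρχ⟩ := χ.2
    haveI := hρ
    haveI := hPn
    have h1 := ito ρ P hPab
    have h2 : Cfsg.charDegree (χ : G → ℂ) = Module.finrank ℂ (Fin n → ℂ) := by
      apply charDegree_eq
      rw [← hρχ, char_one]
    rw [h2] at hdvd
    exact hPidx (hdvd.trans h1)
  · intro h
    have hPD : PD p G := by
      intro χ hχ d hd
      have h1 := h ⟨χ, hχ⟩
      rwa [charDegree_eq hd] at h1
    refine ito_converse_generic p hp (fun Y _ => Group.IsSolvable Y) ?_ ?_ ?_ _ G rfl hsolv hPD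
    · intro Y _ _ M _ hY
      haveI := hY
      infer_instance
    · intro Y _ _ K _ hY
      haveI := hY
      infer_instance
    · intro Y _ _ _ hY
      haveI := hY
      obtain ⟨N, hNn, hNc, r, k, hr, hk, hNcard⟩ :=
        Cfsg.Agent.Lib.Lead.Hall.exists_minimal_normal Y
      refine ⟨N, hNn, ?_, ?_⟩
      · intro hbot
        rw [hbot, Subgroup.card_bot] at hNcard
        have h1 := Nat.one_lt_pow hk.ne' hr.one_lt
        omega
      · by_cases hrp : r = p
        · left
          subst hrp
          exact IsPGroup.of_card hNcard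
        · right
          rw [hNcard]
          exact Nat.Coprime.pow_left k ((Nat.coprime_primes hr hp).mpr hrp)

end Cfsg.Agent.S4493
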