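import Cfsg.Statements.S4494
import Mathlib
import Cfsg.Agent.Lib.Helper6.BrauerFeit


set_option autoImplicit false
open Cfsg

namespace Cfsg.Agent.S4494

/-- The Brauer–Feit bound. Let B be a p-block of the finite group G (relative to a maximal ideal M of the algebraic integers containing p) and let d be its defect. Then the number k(B) of irreducible characters in B satisfies k(B) ≤ p^(2d)/4 + 1, stated here as 4·k(B) ≤ p^(2d) + 4. -/
theorem result {G : Type*} [Group G] [Finite G] (p : ℕ) [Fact p.Prime] (M : Ideal Cfsg.AlgInt) (hM : Cfsg.IsPModular p M) (B : Set (Cfsg.IrrCharacter G)) (hB : Cfsg.IsPBlock M B) : 4 * Nat.card B ≤ p ^ (2 * Cfsg.blockDefect p B) + 4 := by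
  classical
  have : Fintype G := Fintype.ofFinite G
  have : Fintype (Cfsg.IrrCharacter G) := Cfsg.Agent.Lib.Helper1.irrFintype
  have hbf := Cfsg.Agent.Lib.Helper6.brauer_feit hM B hB
  have hcard : Nat.card B ≤ ∑ χ ∈ Finset.univ.filter (fun χ : Cfsg.IrrCharacter G => χ ∈ B),
      p ^ (2 * Cfsg.blockHeight p B (χ : G → ℂ)) := by
    have h1 : Nat.card B = (Finset.univ.filter (fun χ : Cfsg.IrrCharacter G => χ ∈ B)).card := by
      rw [Nat.card_eq_fintype_card, Fintype.card_subtype]
    rw [h1, Finset.card_eq_sum_ones]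
    apply Finset.sum_le_sum
    intro χ _
    exact Nat.one_le_pow _ _ (Fact.out : p.Prime).pos
  have h2 : (p ^ Cfsg.blockDefect p B) ^ 2 = p ^ (2 * Cfsg.blockDefect p B) := by
    rw [← pow_mul, mul_comm]
  rw [h2] at hbf
  have h3 : p ^ (2 * Cfsg.blockDefect p B) / 4 * 4 ≤ p ^ (2 * Cfsg.blockDefect p B) :=
    Nat.div_mul_le_self _ _
  omega

end Cfsg.Agent.S4494
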