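import Cfsg.Statements.S4498
import Cfsg.Agent.Lib.Helper24.Osima
import Cfsg.Agent.Lib.Helper6.Block

set_option autoImplicit false
open Cfsg

namespace Cfsg.Agent.S4498

open Subgroup Cfsg.Agent.Lib.Helper1 Cfsg.Agent.Lib.Helper6 Cfsg.Agent.Lib.Helper24
open scoped ComplexConjugate

theorem finsum_block {G : Type*} [Group G] [Fintype (IrrCharacter G)]
    (B : Set (IrrCharacter G)) [DecidablePred (fun χ : IrrCharacter G => χ ∈ B)]
    (f : IrrCharacter G → ℂ) :
    ∑ᶠ χ ∈ B, f χ = ∑ χ : IrrCharacter G, if χ ∈ B then f χ else 0 := by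
  have h := finsum_mem_setOf_eq_sum_filter (fun χ : IrrCharacter G => χ ∈ B) f
  rw [Set.ofPred_mem_eq] at h
  rw [h, Finset.sum_filter]

theorem q_dvd_index {G : Type*} [Group G] [Finite G] (p q : ℕ) [Fact p.Prime] [Fact q.Prime]
    (hpq : p ≠ q) (hq : q ∣ Nat.card G) (hno : ∀ g : G, orderOf g ≠ p * q) (h : G)
    (hp : p ∣ orderOf h) : q ∣ (centralizer ({h} : Set G)).index := by
  have hpp : p.Prime := Fact.out
  have hqp : q.Prime := Fact.out
  by_contra hnd
  have h1 : q ∣ Nat.card (centralizer ({h} : Set G)) := by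
    have h2 : q ∣ Nat.card (centralizer ({h} : Set G)) * (centralizer ({h} : Set G)).index := by
      rw [Subgroup.card_mul_index]; exact hq
    rcases hqp.dvd_mul.mp h2 with h3 | h3
    · exact h3
    · exact absurd h3 hnd
  obtain ⟨u, hu⟩ := exists_prime_orderOf_dvd_card' (G := centralizer ({h} : Set G)) q h1
  have hu' : orderOf (u : G) = q := by rw [Subgroup.orderOf_coe]; exact hu
  have hh0 : orderOf h ≠ 0 := (orderOf_pos h).ne'
  have ho : orderOf (h ^ (orderOf h / p)) = p := orderOf_pow_orderOf_div hh0 hp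
  have hcomm : Commute (h ^ (orderOf h / p)) (u : G) := by
    have h4 : (u : G) * h = h * (u : G) := mem_centralizer_singleton_iff.mp u.2
    exact (Commute.pow_left (show Commute h (u : G) from h4.symm) _)
  have h5 := hcomm.orderOf_mul_eq_mul_orderOf_of_coprime
    (by rw [ho, hu']; exact (Nat.coprime_primes hpp hqp).mpr hpq)
  rw [ho, hu'] at h5
  exact hno _ h5

theorem result {G : Type*} [Group G] [Finite G] (p q : ℕ) [Fact p.Prime] [Fact q.Prime] (hpq : p ≠ q) (hp : p ∣ Nat.card G) (hq : q ∣ Nat.card G) (hno : ∀ g : G, orderOf g ≠ p * q) (Mp Mq : Ideal Cfsg.AlgInt) (hMp : Cfsg.IsPModular p Mp) (hMq : Cfsg.IsPModular q Mq) : ∃ χ : Cfsg.IrrCharacter G, (χ : G → ℂ) ≠ (fun _ => 1) ∧ χ ∈ Cfsg.principalBlock Mp G ∧ χ ∈ Cfsg.principalBlock Mq G := by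
  classical
  have hpp : p.Prime := Fact.out
  have hqp : q.Prime := Fact.out
  have hfinG : Fintype G := Fintype.ofFinite G
  have hfin : Fintype (IrrCharacter G) := irrFintype
  have hmp := hMp.2.1
  have hmq := hMq.2.1
  by_contra hcon
  push Not at hcon
  have htriv : IsIrrCharacter G (fun _ : G => (1 : ℂ)) := CharBasic.irr_trivial
  have hBp : IsPBlock Mp (principalBlock Mp G) := ⟨⟨fun _ => 1, htriv⟩, rfl⟩
  have hBq : IsPBlock Mq (principalBlock Mq G) := ⟨⟨fun _ => 1, htriv⟩, rfl⟩
  have htp : (⟨fun _ => 1, htriv⟩ : IrrCharacter G) ∈ principalBlock Mp G :=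
    sameBlock_refl hmp _
  have htq : (⟨fun _ => 1, htriv⟩ : IrrCharacter G) ∈ principalBlock Mq G :=
    sameBlock_refl hmq _
  obtain ⟨y, hy⟩ := exists_prime_orderOf_dvd_card' (G := G) p hp
  have hyp : p ∣ orderOf y := by rw [hy]
  have hΓ0 : ∀ h : G, ¬ p ∣ orderOf h →
      ∑ χ : IrrCharacter G, (if χ ∈ principalBlock Mp G
        then conj ((χ : G → ℂ) h) * (χ : G → ℂ) y else 0) = 0 := by
    intro h hh
    have h1 := Osima.weak_block_orth hMp (principalBlock Mp G) hBp h y hh hyp
    rw [finsum_block] at h1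
    have h2 := congrArg conj h1
    rw [map_sum, map_zero] at h2
    refine Eq.trans ?_ h2
    apply Finset.sum_congr rfl
    intro χ _
    by_cases hχ : χ ∈ principalBlock Mp G
    · rw [if_pos hχ, if_pos hχ, map_mul, Complex.conj_conj]
    · rw [if_neg hχ, if_neg hχ, map_zero]
  have hA0 : ∀ h : G, q ∣ orderOf h → blockCoeff (principalBlock Mq G) h = 0 := by
    intro h hh
    have h1 := Osima.weak_block_orth hMq (principalBlock Mq G) hBq 1 h
      (by rw [orderOf_one]; exact hqp.one_lt.ne' ∘ Nat.dvd_one.mp) hh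
    show (Nat.card G : ℂ)⁻¹ * ∑ᶠ χ ∈ principalBlock Mq G,
      (χ : G → ℂ) 1 * conj ((χ : G → ℂ) h) = 0
    rw [h1, mul_zero]
  have hALR : ∀ h : G, MemLocalRing Mq (blockCoeff (principalBlock Mq G) h) :=
    fun h => Osima.blockCoeff_memLocalRing hmq _ hBq h
  have hAcf : IsClassFunction G (blockCoeff (principalBlock Mq G)) :=
    isClassFunction_blockCoeff _
  have hAinv : ∀ h : G, blockCoeff (principalBlock Mq G) h⁻¹
      = (Nat.card G : ℂ)⁻¹ * ∑ ψ : IrrCharacter G, (if ψ ∈ principalBlock Mq G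
          then (ψ : G → ℂ) 1 * (ψ : G → ℂ) h else 0) := by
    intro h
    show (Nat.card G : ℂ)⁻¹ * ∑ᶠ χ ∈ principalBlock Mq G,
      (χ : G → ℂ) 1 * conj ((χ : G → ℂ) h⁻¹) = _
    rw [finsum_block]
    congr 1
    apply Finset.sum_congr rfl
    intro ψ _
    rw [CharBasic.char_inv (CharBasic.isCharacter_of_irr ψ.2), Complex.conj_conj]
  have hI : ∑ h : G, blockCoeff (principalBlock Mq G) h⁻¹ *
      ∑ χ : IrrCharacter G, (if χ ∈ principalBlock Mp G
        then conj ((χ : G → ℂ) h) * (χ : G → ℂ) y else 0) = 1 := by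
    have e1 : ∀ h : G, blockCoeff (principalBlock Mq G) h⁻¹ *
        ∑ χ : IrrCharacter G, (if χ ∈ principalBlock Mp G
          then conj ((χ : G → ℂ) h) * (χ : G → ℂ) y else 0)
        = ∑ ψ : IrrCharacter G, ∑ χ : IrrCharacter G,
          (if ψ ∈ principalBlock Mq G ∧ χ ∈ principalBlock Mp G
            then (ψ : G → ℂ) 1 * (χ : G → ℂ) y *
              ((Nat.card G : ℂ)⁻¹ * ((ψ : G → ℂ) h * conj ((χ : G → ℂ) h))) else 0) := by
      intro h
      rw [hAinv h, mul_assoc, Finset.sum_mul_sum, Finset.mul_sum]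
      apply Finset.sum_congr rfl
      intro ψ _
      rw [Finset.mul_sum]
      apply Finset.sum_congr rfl
      intro χ _
      by_cases hψ : ψ ∈ principalBlock Mq G
      · by_cases hχ : χ ∈ principalBlock Mp G
        · rw [if_pos hψ, if_pos hχ, if_pos ⟨hψ, hχ⟩]; ring
        · rw [if_neg hχ, if_neg (show ¬ (ψ ∈ principalBlock Mq G ∧ χ ∈ principalBlock Mp G)
            from fun h' => hχ h'.2), mul_zero, mul_zero]
      · rw [if_neg hψ, if_neg (show ¬ (ψ ∈ principalBlock Mq G ∧ χ ∈ principalBlock Mp G)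
          from fun h' => hψ h'.1), zero_mul, mul_zero]
    rw [Finset.sum_congr rfl (fun h _ => e1 h), Finset.sum_comm]
    have e2 : ∀ ψ : IrrCharacter G, ∑ h : G, ∑ χ : IrrCharacter G,
          (if ψ ∈ principalBlock Mq G ∧ χ ∈ principalBlock Mp G
            then (ψ : G → ℂ) 1 * (χ : G → ℂ) y *
              ((Nat.card G : ℂ)⁻¹ * ((ψ : G → ℂ) h * conj ((χ : G → ℂ) h))) else 0)
        = if ψ ∈ principalBlock Mq G ∧ ψ ∈ principalBlock Mp G
            then (ψ : G → ℂ) 1 * (ψ : G → ℂ) y else 0 := by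
      intro ψ
      rw [Finset.sum_comm]
      have e3 : ∀ χ : IrrCharacter G, ∑ h : G,
          (if ψ ∈ principalBlock Mq G ∧ χ ∈ principalBlock Mp G
            then (ψ : G → ℂ) 1 * (χ : G → ℂ) y *
              ((Nat.card G : ℂ)⁻¹ * ((ψ : G → ℂ) h * conj ((χ : G → ℂ) h))) else 0)
          = if χ = ψ then (if ψ ∈ principalBlock Mq G ∧ ψ ∈ principalBlock Mp G
            then (ψ : G → ℂ) 1 * (ψ : G → ℂ) y else 0) else 0 := by
        intro χ
        by_cases hc : ψ ∈ principalBlock Mq G ∧ χ ∈ principalBlock Mp G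
        · simp only [if_pos hc]
          rw [← Finset.mul_sum, ← Finset.mul_sum]
          have h3 := classInner_irr ψ.2 χ.2
          unfold classInner at h3
          rw [h3]
          by_cases hχψ : χ = ψ
          · rw [if_pos hχψ, if_pos (by rw [hχψ]), mul_one]
            rw [hχψ] at hc
            rw [if_pos hc, hχψ]
          · rw [if_neg hχψ, if_neg (fun h' => hχψ (Subtype.ext h'.symm)), mul_zero]
        · simp only [if_neg hc]
          rw [Finset.sum_const_zero]
          by_cases hχψ : χ = ψ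
          · rw [if_pos hχψ, if_neg (by rw [hχψ] at hc; exact hc)]
          · rw [if_neg hχψ]
      rw [Finset.sum_congr rfl (fun χ _ => e3 χ), Finset.sum_ite_eq' Finset.univ ψ,
        if_pos (Finset.mem_univ _)]
    rw [Finset.sum_congr rfl (fun ψ _ => e2 ψ),
      Finset.sum_eq_single (⟨fun _ => 1, htriv⟩ : IrrCharacter G)]
    · rw [if_pos ⟨htq, htp⟩, one_mul]
    · intro ψ _ hψ
      rw [if_neg]
      rintro ⟨h1, h2⟩
      by_cases hψ1 : (ψ : G → ℂ) = fun _ => 1
      · exact hψ (Subtype.ext hψ1)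
      · exact hcon ψ hψ1 h2 h1
    · intro h
      exact absurd (Finset.mem_univ _) h
  have hII : MemLocalIdeal Mq (∑ h : G, blockCoeff (principalBlock Mq G) h⁻¹ *
      ∑ χ : IrrCharacter G, (if χ ∈ principalBlock Mp G
        then conj ((χ : G → ℂ) h) * (χ : G → ℂ) y else 0)) := by
    have hT : ∀ h k : G, (p ∣ orderOf h ∧ ¬ q ∣ orderOf h) →
        (p ∣ orderOf (k * h * k⁻¹) ∧ ¬ q ∣ orderOf (k * h * k⁻¹)) := by
      intro h k hh
      have e : orderOf (k * h * k⁻¹) = orderOf h := by
        have := (MulAut.conj k).orderOf_eq h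
        simpa using this
      rw [e]
      exact hh
    have hDcf : IsClassFunction G (fun h : G => blockCoeff (principalBlock Mq G) h⁻¹ *
        ∑ χ : IrrCharacter G, (if χ ∈ principalBlock Mp G
          then conj ((χ : G → ℂ) h) * (χ : G → ℂ) y else 0)) := by
      intro h k
      have e : (k * h * k⁻¹)⁻¹ = k * h⁻¹ * k⁻¹ := by group
      show blockCoeff (principalBlock Mq G) (k * h * k⁻¹)⁻¹ * _ = _
      rw [e, hAcf]
      congr 1
      apply Finset.sum_congr rfl
      intro χ _
      rw [IsIrrCharacter.isClassFunction χ.2 h k]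
    have hkey := sum_conjStable_memLocalIdeal hmq
      (fun h : G => blockCoeff (principalBlock Mq G) h⁻¹ *
        ∑ χ : IrrCharacter G, (if χ ∈ principalBlock Mp G
          then conj ((χ : G → ℂ) h) * (χ : G → ℂ) y else 0)) hDcf
      (fun h : G => p ∣ orderOf h ∧ ¬ q ∣ orderOf h) hT (by
        intro h
        by_cases hh : p ∣ orderOf h
        · apply MemLocalIdeal.mul_right hmq
            ((memLocalIdeal_natCast_iff hMq _).mpr (q_dvd_index p q hpq hq hno h hh))
          apply MemLocalRing.mul hmq (hALR _)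
          apply memLocalRing_sum hmq
          intro χ _
          by_cases hχ : χ ∈ principalBlock Mp G
          · rw [if_pos hχ]
            have h1 := CharBasic.char_isIntegral (CharBasic.isCharacter_of_irr χ.2) h⁻¹
            rw [CharBasic.char_inv (CharBasic.isCharacter_of_irr χ.2)] at h1
            exact MemLocalRing.mul hmq (memLocalRing_of_isIntegral hmq h1)
              (memLocalRing_of_isIntegral hmq
                (CharBasic.char_isIntegral (CharBasic.isCharacter_of_irr χ.2) y))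
          · rw [if_neg hχ]; exact memLocalRing_zero hmq
        · rw [hΓ0 h hh, mul_zero, mul_zero]
          exact memLocalIdeal_zero hmq)
    rw [Finset.sum_filter] at hkey
    refine (congrArg (MemLocalIdeal Mq) (Finset.sum_congr rfl (fun h _ => ?_))).mp hkey
    by_cases hh : p ∣ orderOf h ∧ ¬ q ∣ orderOf h
    · rw [if_pos hh]
    · rw [if_neg hh]
      by_cases hh1 : p ∣ orderOf h
      · have hh2 : q ∣ orderOf h := by
          by_contra hh2
          exact hh ⟨hh1, hh2⟩
        rw [hA0 h⁻¹ (by rw [orderOf_inv]; exact hh2), zero_mul]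
      · rw [hΓ0 h hh1, mul_zero]
  rw [hI] at hII
  exact not_memLocalIdeal_one hmq hII

end Cfsg.Agent.S4498
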