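import Mathlib
import Cfsg.Statements.S4499
import Cfsg.Agent.Lib.Helper6.BrauerFeit2

set_option autoImplicit false
open Cfsg

namespace Cfsg.Agent.S4499

/-- Let G be a finite group whose order has p-part p^a (a ≥ 1), and fix a maximal ideal M of the algebraic integers containing p. If the degree of one irreducible character of a p-block B is divisible by p^(a−1), then the degree of every irreducible character in B is divisible by p^(a−1) (so B has defect at most 1). -/
theorem result {G : Type*} [Group G] [Finite G] (p : ℕ) [Fact p.Prime] (M : Ideal Cfsg.AlgInt) (hM : Cfsg.IsPModular p M) (hpa : p ∣ Nat.card G) (B : Set (Cfsg.IrrCharacter G)) (hB : Cfsg.IsPBlock M B) (χ : Cfsg.IrrCharacter G) (hχ : χ ∈ B) (hdiv : p ^ ((Nat.card G).factorization p - 1) ∣ Cfsg.charDegree (χ : G → ℂ)) (ψ : Cfsg.IrrCharacter G) (hψ : ψ ∈ B) : p ^ ((Nat.card G).factorization p - 1) ∣ Cfsg.charDegree (ψ : G → ℂ) := by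
  classical
  obtain ⟨_⟩ := nonempty_fintype G
  have hp := (Fact.out : p.Prime)
  obtain ⟨s, hs⟩ : ∃ s, s = sInf ((fun χ : IrrCharacter G =>
      (charDegree (χ : G → ℂ)).factorization p) '' B) := ⟨_, rfl⟩
  have hsle : ∀ φ ∈ B, s ≤ (charDegree (φ : G → ℂ)).factorization p := by
    intro φ hφ
    rw [hs]
    exact Nat.sInf_le ⟨φ, hφ, rfl⟩
  have hdegpos : ∀ φ : IrrCharacter G, charDegree (φ : G → ℂ) ≠ 0 :=
    fun φ => (Cfsg.Agent.Lib.Helper24.CharBasic.irr_degree_pos φ.2).ne'
  have hνχ : (Nat.card G).factorization p - 1 ≤ (charDegree (χ : G → ℂ)).factorization p :=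
    (hp.pow_dvd_iff_le_factorization (hdegpos χ)).mp hdiv
  have hh : blockHeight p B (χ : G → ℂ) = (charDegree (χ : G → ℂ)).factorization p - s := by
    rw [hs]
    rfl
  have hdd : blockDefect p B = (Nat.card G).factorization p - s := by
    rw [hs]
    rfl
  have hdegle : (charDegree (χ : G → ℂ)).factorization p ≤ (Nat.card G).factorization p :=
    Cfsg.Agent.Lib.Helper24.Defect.degree_factorization_le p χ
  rw [hp.pow_dvd_iff_le_factorization (hdegpos ψ)]
  by_cases h0 : blockHeight p B (χ : G → ℂ) = 0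
  · have h1 := hsle χ hχ
    have h2 := hsle ψ hψ
    omega
  · have h1 := Cfsg.Agent.Lib.Helper6.height_add_two_le hM B hB hχ h0
    have h2 := hsle χ hχ
    omega

end Cfsg.Agent.S4499
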