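import Cfsg.Statements.S4506
import Cfsg.Agent.Lib.Helper24.PC5
import Cfsg.Agent.Lib.Helper1.CharThreePrime

set_option autoImplicit false
open Cfsg

namespace Cfsg.Agent.S4506

attribute [local instance] Cfsg.Agent.Lib.Helper24.PC.galAct

/-- Let G be a finite group, p a prime, p^a the p-part of the order of G and g′ its p′-part. Call two irreducible characters p-conjugate when one is obtained from the other by applying a field automorphism of ℂ that fixes the g′-th roots of unity, and let r be the number of characters p-conjugate to the irreducible character χ (χ included). Then the exponent of p in r·χ(1) is at most a; and if p^a divides r·χ(1) then p^a already divides χ(1). -/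
theorem result {G : Type*} [Group G] [Finite G] (p : ℕ) (hp : p.Prime) (χ : Cfsg.IrrCharacter G) (r : ℕ) (hr : Nat.card {ψ : Cfsg.IrrCharacter G // ∃ σ : ℂ ≃+* ℂ, σ (Complex.exp (2 * Real.pi * Complex.I / ((Nat.card G / p ^ (Nat.card G).factorization p) : ℕ))) = Complex.exp (2 * Real.pi * Complex.I / ((Nat.card G / p ^ (Nat.card G).factorization p) : ℕ)) ∧ (ψ : G → ℂ) = fun g => σ ((χ : G → ℂ) g)} = r) : (r * Cfsg.charDegree (χ : G → ℂ)).factorization p ≤ (Nat.card G).factorization p ∧ (p ^ (Nat.card G).factorization p ∣ r * Cfsg.charDegree (χ : G → ℂ) → p ^ (Nat.card G).factorization p ∣ Cfsg.charDegree (χ : G → ℂ)) := by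
  classical
  haveI : Fintype G := Fintype.ofFinite G
  haveI : NeZero (Nat.card G) := ⟨Nat.card_pos.ne'⟩
  haveI : Fact p.Prime := ⟨hp⟩
  obtain ⟨M, hM⟩ := Cfsg.Agent.Lib.Helper1.exists_pModular_ideal p hp
  have hn0 : Nat.card G ≠ 0 := Nat.card_pos.ne'
  have hg : (Nat.card G / p ^ (Nat.card G).factorization p) ∣ Nat.card G :=
    Nat.div_dvd_of_dvd (Nat.ordProj_dvd _ _)
  rw [Cfsg.Agent.Lib.Helper24.PC.card_conj_eq p χ hg] at hr
  have hdegdvd := (Cfsg.Agent.Lib.Helper24.Defect.charDegree_dvd_card χ).1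
  have hdegpos := (Cfsg.Agent.Lib.Helper24.Defect.charDegree_dvd_card χ).2
  have hnotdvd : ¬ p ∣ p - 1 :=
    Nat.not_dvd_of_pos_of_lt (Nat.sub_pos_of_lt hp.one_lt) (Nat.sub_lt hp.pos Nat.one_pos)
  by_cases ha : 1 ≤ (Nat.card G).factorization p
  · have hng : Nat.card G = p ^ (Nat.card G).factorization p
        * (Nat.card G / p ^ (Nat.card G).factorization p) :=
      (Nat.ordProj_mul_ordCompl_eq_self _ p).symm
    have hcop : Nat.Coprime p (Nat.card G / p ^ (Nat.card G).factorization p) :=
      Nat.coprime_ordCompl hp hn0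
    obtain ⟨rV, h1, h2, h3⟩ := Cfsg.Agent.Lib.Helper24.PC.main_aux p hM _ _ ha hng hcop rfl hg χ
    rw [hr] at h1
    have hc : Nat.Coprime (p ^ (Nat.card G).factorization p) (p - 1) :=
      Nat.Coprime.pow_left _ ((Nat.Prime.coprime_iff_not_dvd hp).mpr hnotdvd)
    have hmid : r * Cfsg.charDegree (χ : G → ℂ)
        ∣ (p - 1) * (rV * Cfsg.charDegree (χ : G → ℂ)) := by
      rw [← mul_assoc]
      exact Nat.mul_dvd_mul h1 dvd_rfl
    constructor
    · have hdvd : r * Cfsg.charDegree (χ : G → ℂ) ∣ (p - 1) * Nat.card G :=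
        hmid.trans (Nat.mul_dvd_mul dvd_rfl h2)
      have hp1 : p - 1 ≠ 0 := (Nat.sub_pos_of_lt hp.one_lt).ne'
      have hne : (p - 1) * Nat.card G ≠ 0 := Nat.mul_ne_zero hp1 hn0
      have hle := (Nat.factorization_le_iff_dvd (ne_zero_of_dvd_ne_zero hne hdvd) hne).mpr hdvd p
      rw [Nat.factorization_mul hp1 hn0, Finsupp.add_apply,
        Nat.factorization_eq_zero_of_not_dvd hnotdvd, zero_add] at hle
      exact hle
    · intro hpa
      have h4 : p ^ (Nat.card G).factorization p
          ∣ (p - 1) * (rV * Cfsg.charDegree (χ : G → ℂ)) := hpa.trans hmid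
      have h5 : p ^ (Nat.card G).factorization p ∣ rV * Cfsg.charDegree (χ : G → ℂ) :=
        hc.dvd_of_dvd_mul_left h4
      have h6 := h3 h5
      rw [h6, mul_one] at h1
      have hc2 : Nat.Coprime (p ^ (Nat.card G).factorization p) r :=
        Nat.Coprime.coprime_dvd_right h1 hc
      exact hc2.dvd_of_dvd_mul_left hpa
  · have ha0 : (Nat.card G).factorization p = 0 := by omega
    have hgn : Nat.card G / p ^ (Nat.card G).factorization p = Nat.card G := by
      rw [ha0, pow_zero, Nat.div_one]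
    have hk := Cfsg.Agent.Lib.Helper24.PC.card_ker_unitsMap hg
    have h2 : (Nat.card G / p ^ (Nat.card G).factorization p).totient = (Nat.card G).totient := by
      rw [hgn]
    rw [h2] at hk
    have hφ : 0 < (Nat.card G).totient := Nat.totient_pos.mpr (Nat.pos_of_ne_zero hn0)
    have hk1 : Nat.card (ZMod.unitsMap hg).ker = 1 :=
      Nat.eq_of_mul_eq_mul_right hφ (by rw [hk, one_mul])
    obtain ⟨hos1, -⟩ := Cfsg.Agent.Lib.Helper24.PC.card_orbit_sub (ZMod.unitsMap hg).ker χ
    rw [hr, hk1] at hos1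
    have hr1 : r = 1 := Nat.eq_one_of_mul_eq_one_right hos1
    rw [hr1, one_mul, ha0]
    refine ⟨?_, fun h => h⟩
    have hle := (Nat.factorization_le_iff_dvd hdegpos.ne' hn0).mpr hdegdvd p
    rw [ha0] at hle
    exact hle

end Cfsg.Agent.S4506
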