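import Cfsg.Statements.S4508
import Mathlib
import Cfsg.Agent.Lib.Helper1.CharPRes
import Cfsg.Agent.Lib.Helper24.SelfCent2
import Cfsg.Agent.Lib.Helper25.SelfCentChar
import Cfsg.Agent.Lib.Helper25.DetReg

set_option autoImplicit false
open Cfsg

namespace Cfsg.Agent.S4508

open Cfsg.Agent.Lib.Helper1 Cfsg.Agent.Lib.Helper24.SelfCent Cfsg.Agent.Lib.Helper25.SelfCentChar
  Cfsg.Agent.Lib.Helper25.DetReg

/-- Let the finite group G contain an element x of prime order p with C_G(x) = ⟨x⟩, and let t be the number of conjugacy classes of elements of order p. If G has an irreducible character of degree p − 1, then t is even or the commutator subgroup has even index. -/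
theorem result {G : Type*} [Group G] [Finite G] (p : ℕ) (hp : p.Prime) (x : G) (hx : orderOf x = p) (hC : Subgroup.centralizer ({x} : Set G) = Subgroup.zpowers x) (t : ℕ) (ht : Nat.card {C : ConjClasses G // ∃ g ∈ C.carrier, orderOf g = p} = t) (χ : Cfsg.IrrCharacter G) (hχ : Cfsg.charDegree (χ : G → ℂ) + 1 = p) : Even t ∨ Even (commutator G).index := by
  classical
  haveI : Fintype G := Fintype.ofFinite G
  by_cases hte : Even t
  · exact Or.inl hte
  right
  have hto : Odd t := Nat.not_even_iff_odd.mp hte
  have hcount := count_eq hp hx hC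
  rw [ht] at hcount
  by_cases hp2 : p = 2
  · have ht1 : t = 1 := by
      rw [hp2] at hcount
      exact Nat.eq_one_of_mul_eq_one_right hcount
    have hN := normalizer_eq_of_count hp hx hC (by rw [ht, ht1, hp2])
    rw [index_of_burnside hp hx hC hN, hp2]
    exact even_two
  obtain ⟨q, hq⟩ : ∃ q, q = (Subgroup.zpowers x).relIndex
      (Subgroup.normalizer (Subgroup.zpowers x : Set G)) := ⟨_, rfl⟩
  rw [← hq] at hcount
  have hqeven : Even q := by
    have h1 : Even (t * q) := by rw [hcount]; exact Nat.Prime.even_sub_one hp hp2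
    rcases Nat.even_mul.mp h1 with h | h
    · exact absurd h hte
    · exact h
  have hq2 : 2 ≤ q := by
    obtain ⟨c, hc⟩ := hqeven
    have h0 : q ≠ 0 := by
      intro h
      rw [h, mul_zero] at hcount
      have := hp.two_le
      omega
    omega
  obtain ⟨d, hd⟩ := IsCharacter.degree_nat (IsIrrCharacter.isCharacter χ.2)
  have hdeg : (χ : G → ℂ) 1 = ((p - 1 : ℕ) : ℂ) := by
    have h1 : charDegree (χ : G → ℂ) = d := charDegree_eq hd
    rw [hd]
    congr 1
    omega
  have hcardP : Nat.card (Subgroup.zpowers x) = p := card_zp hx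
  have hsc : ∀ g : G, ∀ u ∈ Subgroup.zpowers x, u ≠ 1 → g * u = u * g →
      g ∈ Subgroup.zpowers x := by
    intro g u hu hu1 hcomm
    have h1 := gen_of_card hp hcardP hu hu1
    have h2 := centralizer_of_order hp hx hC h1.1
    rw [← h1.2, ← h2, Subgroup.mem_centralizer_singleton_iff]
    exact hcomm
  have hvan : ∀ g ∈ Subgroup.normalizer (Subgroup.zpowers x : Set G), g ∉ Subgroup.zpowers x →
      (χ : G → ℂ) g = 0 := fun g hgN hgP =>
    vanish_of_degree (Subgroup.zpowers x) hp hcardP hsc
      (by
        have h1 : ((Subgroup.zpowers x).subgroupOf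
          (Subgroup.normalizer (Subgroup.zpowers x : Set G))).index = q := by rw [hq]; rfl
        rw [h1]; exact hq2)
      (by
        have h1 : ((Subgroup.zpowers x).subgroupOf
          (Subgroup.normalizer (Subgroup.zpowers x : Set G))).index = q := by rw [hq]; rfl
        rw [h1]; exact Dvd.intro_left t hcount)
      χ.2 hdeg g hgN hgP
  obtain ⟨y, hyN, m, r, hym, hqm, hrodd, hpow⟩ := exists_two_elt hp hp2 hx hC
  rw [← hq] at hqm
  have hmeven : Even m := by
    rw [hqm] at hqeven
    rcases Nat.even_mul.mp hqeven with h | h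
    · exact h
    · exact absurd h (Nat.not_even_iff_odd.mpr hrodd)
  have hdet : detChar (χ : G → ℂ) y = -1 := by
    apply detChar_eq_neg_one (IsIrrCharacter.isCharacter χ.2) y m (t * r) hym hmeven
      (hto.mul hrodd)
    · rw [hdeg, ← hcount, hqm]
      congr 1
      ring
    · intro i hi
      exact hvan _ (Subgroup.pow_mem _ hyN i) (hpow i hi)
  obtain ⟨δ, hδ⟩ := detChar_hom (IsIrrCharacter.isCharacter χ.2)
  have hδy : ((δ y : ℂˣ) : ℂ) = -1 := by rw [← hδ, hdet]
  have hmem : y ^ (commutator G).index ∈ δ.ker :=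
    Abelianization.commutator_subset_ker δ (Subgroup.pow_index_mem _ y)
  rw [MonoidHom.mem_ker, map_pow] at hmem
  have h1 : ((δ y : ℂˣ) : ℂ) ^ (commutator G).index = 1 := by
    rw [← Units.val_pow_eq_pow_val, hmem]
    rfl
  rw [hδy] at h1
  exact (neg_one_pow_eq_one_iff_even (by norm_num)).mp h1

end Cfsg.Agent.S4508
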