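import Cfsg.Statements.S4510
import Cfsg.Agent.Lib.Helper24.Defect

set_option autoImplicit false
open Cfsg

namespace Cfsg.Agent.S4510

theorem result {G : Type*} [Group G] [Finite G] (p : ℕ) [Fact p.Prime] (M : Ideal Cfsg.AlgInt) (hM : Cfsg.IsPModular p M) (d : ℕ) (χ ψ : Cfsg.IrrCharacter G) (hχ : Cfsg.blockDefect p (Cfsg.blockOf M (χ : G → ℂ)) = d) (hψ : Cfsg.blockDefect p (Cfsg.blockOf M (ψ : G → ℂ)) = d) : Cfsg.SameBlock M (χ : G → ℂ) (ψ : G → ℂ) ↔ ∀ x : G, ¬ p ∣ orderOf x → (Nat.card (Subgroup.centralizer ({x} : Set G))).factorization p = d → Cfsg.MemLocalIdeal M (Cfsg.centralChar (χ : G → ℂ) x - Cfsg.centralChar (ψ : G → ℂ) x) := by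
  classical
  have hfinG : Fintype G := Fintype.ofFinite G
  have hfin : Fintype (IrrCharacter G) := Cfsg.Agent.Lib.Helper1.irrFintype
  have hfinC : Fintype (ConjClasses G) := Fintype.ofFinite _
  constructor
  · intro h x _ _
    exact h x
  · intro h
    by_contra hcon
    have hB : IsPBlock M (blockOf M (χ : G → ℂ)) := ⟨χ, rfl⟩
    have k1 := Cfsg.Agent.Lib.Helper24.Defect.key_congr hM (blockOf M (χ : G → ℂ)) hB χ rfl
    have k2 := Cfsg.Agent.Lib.Helper24.Defect.key_congr hM (blockOf M (χ : G → ℂ)) hB ψ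
      (by rw [hψ, hχ])
    rw [if_pos (Cfsg.Agent.Lib.Helper6.mem_blockOf_self hM.2.1 χ)] at k1
    rw [if_neg (show ψ ∉ blockOf M (χ : G → ℂ) from hcon)] at k2
    have k3 := Cfsg.Agent.Lib.Helper6.MemLocalIdeal.sub hM.2.1 k1 k2
    have k4 : MemLocalIdeal M (∑ C ∈ Finset.univ.filter (fun C : ConjClasses G =>
          ¬ p ∣ orderOf (Cfsg.Agent.Lib.Helper6.crep C) ∧
          (Nat.card (Subgroup.centralizer ({Cfsg.Agent.Lib.Helper6.crep C} : Set G))).factorization p
            = blockDefect p (blockOf M (χ : G → ℂ))),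
          blockCoeff (blockOf M (χ : G → ℂ)) (Cfsg.Agent.Lib.Helper6.crep C)
            * centralChar (χ : G → ℂ) (Cfsg.Agent.Lib.Helper6.crep C)
        - ∑ C ∈ Finset.univ.filter (fun C : ConjClasses G =>
          ¬ p ∣ orderOf (Cfsg.Agent.Lib.Helper6.crep C) ∧
          (Nat.card (Subgroup.centralizer ({Cfsg.Agent.Lib.Helper6.crep C} : Set G))).factorization p
            = blockDefect p (blockOf M (χ : G → ℂ))),
          blockCoeff (blockOf M (χ : G → ℂ)) (Cfsg.Agent.Lib.Helper6.crep C)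
            * centralChar (ψ : G → ℂ) (Cfsg.Agent.Lib.Helper6.crep C)) := by
      rw [← Finset.sum_sub_distrib]
      apply Cfsg.Agent.Lib.Helper6.memLocalIdeal_sum hM.2.1
      intro C hC
      obtain ⟨c1, c2⟩ := (Finset.mem_filter.mp hC).2
      rw [← mul_sub]
      exact Cfsg.Agent.Lib.Helper6.MemLocalIdeal.mul_left hM.2.1
        (Cfsg.Agent.Lib.Helper24.Osima.blockCoeff_memLocalRing hM.2.1 _ hB _)
        (h _ c1 (c2.trans hχ))
    have k5 := Cfsg.Agent.Lib.Helper6.MemLocalIdeal.add hM.2.1 k3 k4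
    apply Cfsg.Agent.Lib.Helper6.not_memLocalIdeal_one hM.2.1
    convert k5 using 1
    ring

end Cfsg.Agent.S4510
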