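import Mathlib
import Cfsg.Statements.S4518
import Cfsg.Agent.Lib.Helper1.CharMore
import Cfsg.Agent.Lib.Helper10.GalConj

set_option autoImplicit false
open Cfsg

namespace Cfsg.Agent.S4518

open Cfsg.Agent.Lib.Helper1

/-- Let N be a normal subgroup of the finite group G whose index is not divisible by the prime p, and let k be coprime to the order of G with k ^ (p ^ e) ≡ 1 modulo the order of G for some e (so g ↦ g ^ k induces a field automorphism of p-power order on character values). If an irreducible character χ of G satisfies χ (g ^ k) = χ g for all g, then every irreducible constituent θ of the restriction of χ to N satisfies θ (n ^ k) = θ n for all n. -/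
theorem result {G : Type*} [Group G] [Fintype G] (p : ℕ) [Fact p.Prime] (N : Subgroup G) [N.Normal] [Fintype N] (hidx : ¬ p ∣ N.index) (k e : ℕ) (hk : Nat.Coprime k (Nat.card G)) (hke : k ^ (p ^ e) ≡ 1 [MOD Nat.card G]) (χ : Cfsg.IrrCharacter G) (hχ : ∀ g : G, (χ : G → ℂ) (g ^ k) = (χ : G → ℂ) g) (θ : Cfsg.IrrCharacter N) (hθ : Cfsg.classInner (fun n : N => (χ : G → ℂ) n) (θ : N → ℂ) ≠ 0) : ∀ n : N, (θ : N → ℂ) (n ^ k) = (θ : N → ℂ) n := by
  classical
  have hp : p.Prime := Fact.out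
  have hkN : Nat.Coprime k (Nat.card N) :=
    Nat.Coprime.coprime_dvd_right (Subgroup.card_subgroup_dvd_card N) hk
  have hχcl := IsCharacter.isClassFunction (IsIrrCharacter.isCharacter χ.2)
  obtain ⟨O, hO⟩ : ∃ O : Finset (N → ℂ),
      O = Finset.univ.image (fun g : G => conjChar N (θ : N → ℂ) g) := ⟨_, rfl⟩
  have hcard : ¬ p ∣ O.card := by
    have h1 := card_orbit_mul_card_stab N (θ : N → ℂ)
    rw [← hO] at h1
    have h2 : N ≤ charStab N (θ : N → ℂ) :=
      le_charStab N (IsCharacter.isClassFunction (IsIrrCharacter.isCharacter θ.2))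
    obtain ⟨c, hc⟩ := Subgroup.card_dvd_of_le h2
    have h4 : O.card * c = N.index := by
      have h5 := N.card_mul_index
      rw [← h1, hc] at h5
      have hN0 : 0 < Nat.card N := Nat.card_pos
      apply Nat.eq_of_mul_eq_mul_left hN0
      rw [h5]
      ring
    intro hdvd
    exact hidx (h4 ▸ Dvd.dvd.mul_right hdvd c)
  have hOirr : ∀ ψ ∈ O, IsIrrCharacter N ψ ∧
      classInner (fun n : N => (χ : G → ℂ) n) ψ ≠ 0 := by
    intro ψ hψ
    rw [hO, Finset.mem_image] at hψ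
    obtain ⟨g, -, rfl⟩ := hψ
    refine ⟨conjChar_irr N θ.2 g, ?_⟩
    rw [classInner_restrict_conjChar N hχcl]
    exact hθ
  have hOmem : ∀ ψ : N → ℂ, IsIrrCharacter N ψ →
      classInner (fun n : N => (χ : G → ℂ) n) ψ ≠ 0 → ψ ∈ O := by
    intro ψ hψ hc
    obtain ⟨g, hg⟩ := clifford_conj N χ.2 θ.2 hψ hθ hc
    rw [hO, Finset.mem_image]
    exact ⟨g, Finset.mem_univ _, hg.symm⟩
  have hpowinv : ∀ f g : N → ℂ,
      classInner (fun n => f (n ^ k)) (fun n => g (n ^ k)) = classInner f g := by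
    intro f g
    unfold classInner
    congr 1
    exact Equiv.sum_comp (powCoprime hkN.symm) (fun n => f n * (starRingEnd ℂ) (g n))
  have hσ : ∀ ψ ∈ O, (fun n : N => ψ (n ^ k)) ∈ O := by
    intro ψ hψ
    obtain ⟨h1, h2⟩ := hOirr ψ hψ
    apply hOmem _ (Cfsg.Agent.Lib.Helper10.GalConj.isIrrCharacter_pow k hkN h1)
    have h3 := hpowinv (fun n : N => (χ : G → ℂ) n) ψ
    have h4 : (fun n : N => (fun n : N => (χ : G → ℂ) n) (n ^ k))
        = fun n : N => (χ : G → ℂ) n := by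
      funext n
      simp only [Subgroup.coe_pow]
      exact hχ n
    rw [h4] at h3
    rw [h3]
    exact h2
  obtain ⟨f, hf⟩ : ∃ f : Function.End {ψ // ψ ∈ O}, ∀ ψ : {ψ // ψ ∈ O},
      ((f ψ : {ψ // ψ ∈ O}) : N → ℂ) = fun n => (ψ : N → ℂ) (n ^ k) :=
    ⟨fun ψ => ⟨fun n => (ψ : N → ℂ) (n ^ k), hσ ψ.1 ψ.2⟩, fun ψ => rfl⟩
  have hfpow : ∀ (m : ℕ) (ψ : {ψ // ψ ∈ O}),
      (((f ^ m) ψ : {ψ // ψ ∈ O}) : N → ℂ) = fun n => (ψ : N → ℂ) (n ^ (k ^ m)) := by
    intro m
    induction m with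
    | zero =>
      intro ψ
      funext n
      show (ψ : N → ℂ) n = (ψ : N → ℂ) (n ^ (k ^ 0))
      rw [pow_zero, pow_one]
    | succ m ih =>
      intro ψ
      rw [pow_succ]
      show (((f ^ m) (f ψ) : {ψ // ψ ∈ O}) : N → ℂ) = _
      rw [ih (f ψ), hf ψ]
      funext n
      simp only
      rw [← pow_mul, ← pow_succ]
  have hf1 : f ^ p ^ e = 1 := by
    funext ψ
    apply Subtype.ext
    rw [hfpow]
    funext n
    have h2 : n ^ (k ^ (p ^ e)) = n := by
      have h1 : k ^ (p ^ e) ≡ 1 [MOD orderOf n] :=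
        Nat.ModEq.of_dvd ((orderOf_dvd_natCard n).trans (Subgroup.card_subgroup_dvd_card N)) hke
      have h3 := pow_eq_pow_iff_modEq.mpr h1
      rw [h3, pow_one]
    rw [h2]
    rfl
  have hmod := Equiv.Perm.card_fixedPoints_modEq (f := f) (p := p) (n := e) hf1
  have hne : (Function.fixedPoints f).Nonempty := by
    by_contra hemp
    rw [Set.not_nonempty_iff_eq_empty] at hemp
    haveI hIE : IsEmpty (Function.fixedPoints f) := by
      rw [hemp]
      exact Set.isEmpty_coe_sort.mpr rfl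
    have h0 : ∀ inst : Fintype (Function.fixedPoints f), @Fintype.card _ inst = 0 :=
      fun inst => @Fintype.card_eq_zero _ inst hIE
    rw [h0, Fintype.card_coe] at hmod
    exact hcard ((Nat.modEq_zero_iff_dvd).mp hmod)
  obtain ⟨ψ₀, hψ₀⟩ := hne
  obtain ⟨g₀, hg₀⟩ := clifford_conj N χ.2 θ.2 (hOirr ψ₀.1 ψ₀.2).1 hθ (hOirr ψ₀.1 ψ₀.2).2
  have hfix : (fun n : N => (ψ₀ : N → ℂ) (n ^ k)) = (ψ₀ : N → ℂ) := by
    have h1 := congrArg Subtype.val hψ₀
    rw [hf] at h1
    exact h1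
  intro n
  obtain ⟨m, rfl⟩ := (conjNormal N g₀).surjective n
  have h1 := congrFun hfix m
  rw [hg₀, conjChar_eq_comp] at h1
  simp only [Function.comp_apply, map_pow] at h1
  exact h1

end Cfsg.Agent.S4518
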