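import Cfsg.Statements.S4558
import Cfsg.Agent.Lib.Helper24.CharBasic

set_option autoImplicit false
open Cfsg

namespace Cfsg.Agent.S4558

open Cfsg.Agent.Lib.Helper24.CharBasic Polynomial

theorem sum_roots_zero (p : ℕ) [Fact p.Prime] (j : ℕ) (s : Finset ℂ) (d : ℂ → ℕ)
    (hs : ∀ μ ∈ s, μ ^ (p ^ j) = 1) (h0 : ∑ μ ∈ s, (d μ : ℂ) * μ = 0) :
    p ∣ ∑ μ ∈ s, d μ := by
  classical
  have hp : p.Prime := Fact.out
  rcases Nat.eq_zero_or_pos j with rfl | hj
  · have h1 : ∑ μ ∈ s, (d μ : ℂ) * μ = ((∑ μ ∈ s, d μ : ℕ) : ℂ) := by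
      push_cast
      apply Finset.sum_congr rfl
      intro μ hμ
      have := hs μ hμ
      rw [pow_zero, pow_one] at this
      rw [this, mul_one]
    rw [h1] at h0
    have : (∑ μ ∈ s, d μ) = 0 := by exact_mod_cast h0
    rw [this]
    exact dvd_zero p
  · obtain ⟨k, rfl⟩ : ∃ k, j = k + 1 := ⟨j - 1, by omega⟩
    set q := p ^ (k + 1) with hq
    have hq0 : q ≠ 0 := pow_ne_zero _ hp.ne_zero
    have : NeZero q := ⟨hq0⟩
    set ζ : ℂ := Complex.exp (2 * Real.pi * Complex.I / q) with hζ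
    have hprim : IsPrimitiveRoot ζ q := Complex.isPrimitiveRoot_exp q hq0
    have hex : ∀ μ ∈ s, ∃ a : ℕ, ζ ^ a = μ := by
      intro μ hμ
      obtain ⟨a, _, ha⟩ := hprim.eq_pow_of_pow_eq_one (hs μ hμ)
      exact ⟨a, ha⟩
    choose! a ha using hex
    let f : ℤ[X] := ∑ μ ∈ s, C (d μ : ℤ) * X ^ (a μ)
    have hf : aeval ζ f = 0 := by
      simp only [f, map_sum, map_mul, aeval_C, map_pow, aeval_X]
      rw [← h0]
      apply Finset.sum_congr rfl
      intro μ hμ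
      rw [ha μ hμ]
      simp
    have hint : IsIntegral ℤ ζ := hprim.isIntegral (Nat.pos_of_ne_zero hq0)
    have hdvd : cyclotomic q ℤ ∣ f := by
      rw [cyclotomic_eq_minpoly hprim (Nat.pos_of_ne_zero hq0)]
      exact minpoly.isIntegrallyClosed_dvd hint hf
    have h1 : eval 1 (cyclotomic q ℤ) ∣ eval 1 f := by
      obtain ⟨c, hc⟩ := hdvd
      rw [hc, eval_mul]
      exact dvd_mul_right _ _
    rw [hq, eval_one_cyclotomic_prime_pow] at h1
    have h2 : eval 1 f = ((∑ μ ∈ s, d μ : ℕ) : ℤ) := by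
      simp [f, eval_finsetSum]
    rw [h2] at h1
    exact_mod_cast h1

theorem result {G : Type*} [Group G] [Finite G] (p : ℕ) [Fact p.Prime] (χ : G → ℂ) (hχ : Cfsg.IsCharacter G χ) (g : G) (hg : ∃ j : ℕ, orderOf g = p ^ j) (h0 : χ g = 0) : p ∣ Cfsg.charDegree χ := by
  have hdeg := char_one_nat hχ
  obtain ⟨j, hj⟩ := hg
  obtain ⟨n, ρ, rfl⟩ := hχ
  have hm : 0 < orderOf g := orderOf_pos g
  obtain ⟨s, d, h1, _, _, h4⟩ := char_pow_formula ρ g (orderOf g) hm (pow_orderOf_eq_one g)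
  have e0 := h4 0
  simp only [pow_zero, mul_one] at e0
  have e1 := h4 1
  simp only [pow_one] at e1
  rw [h0] at e1
  rw [hj] at h1
  have key := sum_roots_zero p j s d h1 e1.symm
  have : (Cfsg.charDegree ρ.character : ℂ) = ((∑ μ ∈ s, d μ : ℕ) : ℂ) := by
    rw [← hdeg, e0]; push_cast; rfl
  have : Cfsg.charDegree ρ.character = ∑ μ ∈ s, d μ := by exact_mod_cast this
  rw [this]
  exact key

end Cfsg.Agent.S4558
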