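import Cfsg.Statements.S4566
import Cfsg.Agent.Lib.Helper24.CharBasic

set_option autoImplicit false
open Cfsg

namespace Cfsg.Agent.S4566

open Cfsg.Agent.Lib.Helper24.CharBasic

theorem smul_one_inj {n : ℕ} (hn : n ≠ 0) {a b : ℂ}
    (h : a • (1 : Module.End ℂ (Fin n → ℂ)) = b • (1 : Module.End ℂ (Fin n → ℂ))) : a = b := by
  have h1 := congrArg (LinearMap.trace ℂ (Fin n → ℂ)) h
  rw [map_smul, map_smul, LinearMap.trace_one, Module.finrank_fin_fun] at h1
  simp only [smul_eq_mul] at h1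
  exact mul_right_cancel₀ (by exact_mod_cast hn) h1

theorem result {G : Type*} [Group G] [Fintype G] (N : Subgroup G) [Fintype N] (hN : N ≤ Subgroup.center G) (ψ : Cfsg.IrrCharacter ↥N) (hfaith : ∀ n : ↥N, (ψ : ↥N → ℂ) n = (ψ : ↥N → ℂ) 1 → n = 1) (χ : Cfsg.IrrCharacter G) (hover : Cfsg.classInner (fun n : ↥N => (χ : G → ℂ) n) (ψ : ↥N → ℂ) ≠ 0) (g x : G) (hcomm : x⁻¹ * g⁻¹ * x * g ∈ N) (hne : x⁻¹ * g⁻¹ * x * g ≠ 1) : (χ : G → ℂ) g = 0 := by
  classical
  obtain ⟨χf, hχirr⟩ := χ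
  obtain ⟨ψf, hψirr⟩ := ψ
  simp only at hfaith hover ⊢
  have hχ1 := irr_one_ne_zero hχirr
  obtain ⟨n, ρ, hρ, rfl⟩ := hχirr
  have hn : n ≠ 0 := by
    intro h0
    apply hχ1
    rw [Representation.char_one, Module.finrank_fin_fun, h0]
    simp
  have hsc : ∀ z : N, ∃ c : ℂ, ρ (z : G) = c • (1 : Module.End ℂ (Fin n → ℂ)) :=
    fun z => central_scalar ρ hρ z (hN z.2)
  choose c hc using hsc
  have hc1 : c 1 = 1 := by
    have h := hc 1
    rw [Subgroup.coe_one, map_one] at h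
    have h' : (1 : ℂ) • (1 : Module.End ℂ (Fin n → ℂ)) = c 1 • 1 := by rw [one_smul]; exact h
    exact (smul_one_inj hn h').symm
  have hcmul : ∀ z w : N, c (z * w) = c z * c w := by
    intro z w
    have h := hc (z * w)
    rw [Subgroup.coe_mul, map_mul, hc z, hc w, smul_mul_smul_comm, one_mul] at h
    exact (smul_one_inj hn h).symm
  let f : N →* ℂ := { toFun := c, map_one' := hc1, map_mul' := hcmul }
  let lam : N →* ℂˣ := f.toHomUnits
  have hlam : ∀ z : N, ((lam z : ℂˣ) : ℂ) = c z := fun z => rfl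
  have hmulchar : ∀ (z : N) (h : G), ρ.character ((z : G) * h) = c z * ρ.character h := by
    intro z h
    unfold Representation.character
    rw [map_mul, hc z, smul_mul_assoc, one_mul, map_smul, smul_eq_mul]
  have hres : (fun z : N => ρ.character (z : G)) =
      ρ.character 1 • (fun z : N => ((lam z : ℂˣ) : ℂ)) := by
    funext z
    have := hmulchar z 1
    rw [mul_one] at this
    rw [this, Pi.smul_apply, smul_eq_mul, hlam, mul_comm]
  rw [hres, classInner_smul_left, irr_orthonormal (irr_of_hom lam) hψirr] at hover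
  have hlamψ : (fun z : N => ((lam z : ℂˣ) : ℂ)) = ψf := by
    by_contra hcon
    rw [if_neg hcon, mul_zero] at hover
    exact hover rfl
  set z₀ : N := ⟨x⁻¹ * g⁻¹ * x * g, hcomm⟩ with hz₀
  have hz₀ne : z₀ ≠ 1 := by
    intro h
    apply hne
    have := congrArg Subtype.val h
    simpa [hz₀] using this
  have hψz : ψf z₀ ≠ ψf 1 := fun h => hz₀ne (hfaith z₀ h)
  rw [← hlamψ] at hψz
  simp only [hlam, hc1] at hψz
  have hzc : (z₀⁻¹ : N) = ⟨(z₀ : G)⁻¹, inv_mem z₀.2⟩ := rfl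
  have hcinv : c z₀⁻¹ ≠ 1 := by
    intro h
    apply hψz
    have := hcmul z₀ z₀⁻¹
    rw [mul_inv_cancel, hc1, h, mul_one] at this
    exact this.symm
  have hconj : x⁻¹ * g * x = ((z₀⁻¹ : N) : G) * g := by
    have hcen := Subgroup.mem_center_iff.mp (hN (z₀⁻¹).2) g
    rw [← hcen]
    simp only [hz₀, InvMemClass.coe_inv]
    group
  have h1 : ρ.character g = ρ.character (x⁻¹ * g * x) := by
    have := Representation.char_conj ρ g x⁻¹
    rw [inv_inv] at this
    exact this.symm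
  rw [hconj, hmulchar] at h1
  have h2 : (1 - c z₀⁻¹) * ρ.character g = 0 := by
    rw [sub_mul, one_mul, ← h1, sub_self]
  rcases mul_eq_zero.mp h2 with h3 | h3
  · exact absurd (sub_eq_zero.mp h3).symm hcinv
  · exact h3

end Cfsg.Agent.S4566
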