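import Cfsg.Statements.S4574
import Cfsg.Agent.Lib.Helper1.CharGalois
import Cfsg.Agent.Lib.Helper24.CharBasic

set_option autoImplicit false
open Cfsg

namespace Cfsg.Agent.S4574

open Cfsg.Agent.Lib.Helper1 Cfsg.Agent.Lib.Helper24
open scoped ComplexConjugate

universe u v

theorem sum_norm_sq_ge_card {G : Type u} [Group G] [Fintype G] {V : Type v} [AddCommGroup V]
    [Module ℂ V] [FiniteDimensional ℂ V] (ρ : Representation ℂ G V) (A : Finset G)
    (hA0 : ∀ g ∈ A, ρ.character g ≠ 0)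
    (hA : ∀ j : ℕ, j.Coprime (Nat.card G) → ∀ g : G, g ^ j ∈ A → g ∈ A) :
    (A.card : ℝ) ≤ ∑ g ∈ A, ‖ρ.character g‖ ^ 2 := by
  classical
  have hN : NeZero (Nat.card G) := ⟨Nat.card_pos.ne'⟩
  have hiff : ∀ j : ℕ, j.Coprime (Nat.card G) → ∀ g : G, g ∈ A → g ^ j ∈ A := by
    intro j hj
    have hsub : A.map (powCoprime hj.symm).symm.toEmbedding ⊆ A := by
      intro g hg
      rw [Finset.mem_map] at hg
      obtain ⟨h, hh, rfl⟩ := hg
      apply hA j hj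
      have e1 : ((powCoprime hj.symm).symm h) ^ j = h := (powCoprime hj.symm).apply_symm_apply h
      show ((powCoprime hj.symm).symm h) ^ j ∈ A
      rw [e1]
      exact hh
    have heq : A.map (powCoprime hj.symm).symm.toEmbedding = A :=
      Finset.eq_of_subset_of_card_le hsub (by rw [Finset.card_map])
    intro g hg
    rw [← heq, Finset.mem_map] at hg
    obtain ⟨h, hh, hg'⟩ := hg
    have e1 : g ^ j = h := by
      rw [← hg']
      exact (powCoprime hj.symm).apply_symm_apply h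
    rw [e1]
    exact hh
  have hj : ∀ σ : CyclotomicField (Nat.card G) ℚ ≃ₐ[ℚ] CyclotomicField (Nat.card G) ℚ,
      ∃ j : ℕ, j.Coprime (Nat.card G) ∧ σ (cycZeta (Nat.card G)) = cycZeta (Nat.card G) ^ j :=
    fun σ => cyc_aut_zeta (Nat.card G) σ
  choose j hj1 hj2 using hj
  have hge : ∀ g ∈ A, ((Finset.univ : Finset (CyclotomicField (Nat.card G) ℚ ≃ₐ[ℚ]
      CyclotomicField (Nat.card G) ℚ)).card : ℝ) ≤
      ∑ σ : CyclotomicField (Nat.card G) ℚ ≃ₐ[ℚ] CyclotomicField (Nat.card G) ℚ,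
        ‖ρ.character (g ^ j σ)‖ ^ 2 := by
    intro g hg
    obtain ⟨x, hx, hxσ⟩ := exists_cyc_lift (Nat.card G) ρ (fun g => pow_card_eq_one') g
    obtain ⟨m, hm, -⟩ := cyc_norm (Nat.card G) x hx
    have hm' : (m : ℂ) = ∏ σ : CyclotomicField (Nat.card G) ℚ ≃ₐ[ℚ] CyclotomicField (Nat.card G) ℚ,
        ρ.character (g ^ j σ) := by
      rw [hm]
      exact Finset.prod_congr rfl (fun σ _ => hxσ σ (j σ) (hj2 σ))
    have hm0 : m ≠ 0 := by
      intro h0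
      rw [h0] at hm'
      have : (∏ σ : CyclotomicField (Nat.card G) ℚ ≃ₐ[ℚ] CyclotomicField (Nat.card G) ℚ,
        ρ.character (g ^ j σ)) ≠ 0 :=
        Finset.prod_ne_zero_iff.mpr (fun σ _ => hA0 _ (hiff (j σ) (hj1 σ) g hg))
      exact this (by rw [← hm']; simp)
    have h1 : (1 : ℝ) ≤ ‖(m : ℂ)‖ := by
      rw [Complex.norm_intCast]
      have : 1 ≤ |m| := Int.one_le_abs hm0
      exact_mod_cast this
    apply sum_ge_card_of_prod_ge_one
    · intro σ _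
      have := norm_pos_iff.mpr (hA0 _ (hiff (j σ) (hj1 σ) g hg))
      positivity
    · rw [Finset.prod_pow, ← norm_prod, ← hm']
      exact one_le_pow₀ h1
  have hswap : ∑ g ∈ A, ∑ σ : CyclotomicField (Nat.card G) ℚ ≃ₐ[ℚ] CyclotomicField (Nat.card G) ℚ,
      ‖ρ.character (g ^ j σ)‖ ^ 2 = ((Finset.univ : Finset (CyclotomicField (Nat.card G) ℚ ≃ₐ[ℚ]
      CyclotomicField (Nat.card G) ℚ)).card : ℝ) * ∑ g ∈ A, ‖ρ.character g‖ ^ 2 := by
    rw [Finset.sum_comm]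
    have : ∀ σ : CyclotomicField (Nat.card G) ℚ ≃ₐ[ℚ] CyclotomicField (Nat.card G) ℚ,
        ∑ g ∈ A, ‖ρ.character (g ^ j σ)‖ ^ 2 = ∑ g ∈ A, ‖ρ.character g‖ ^ 2 := by
      intro σ
      exact Finset.sum_equiv (powCoprime (hj1 σ).symm)
        (fun g => ⟨hiff (j σ) (hj1 σ) g, hA (j σ) (hj1 σ) g⟩) (fun g _ => rfl)
    simp only [this]
    rw [Finset.sum_const, nsmul_eq_mul]
  have hsum := Finset.sum_le_sum hge
  rw [hswap, Finset.sum_const, nsmul_eq_mul] at hsum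
  have hK : (0 : ℝ) < ((Finset.univ : Finset (CyclotomicField (Nat.card G) ℚ ≃ₐ[ℚ]
      CyclotomicField (Nat.card G) ℚ)).card : ℝ) := by
    have : 0 < (Finset.univ : Finset (CyclotomicField (Nat.card G) ℚ ≃ₐ[ℚ]
      CyclotomicField (Nat.card G) ℚ)).card := Finset.card_pos.mpr ⟨1, Finset.mem_univ _⟩
    exact_mod_cast this
  rw [mul_comm] at hsum
  exact le_of_mul_le_mul_left hsum hK

theorem norm_pow_eq {G : Type u} [Group G] [Finite G] {V : Type v} [AddCommGroup V]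
    [Module ℂ V] [FiniteDimensional ℂ V] (ρ : Representation ℂ G V) (g : G) (k : ℕ)
    (h : ‖ρ.character g‖ = (Module.finrank ℂ V : ℝ)) :
    ‖ρ.character (g ^ k)‖ = (Module.finrank ℂ V : ℝ) := by
  obtain ⟨ω, hω⟩ := (norm_char_eq_iff ρ g).mp h
  apply (norm_char_eq_iff ρ (g ^ k)).mpr
  refine ⟨ω ^ k, ?_⟩
  rw [map_pow, hω]
  ext v
  simp [smul_pow]

theorem aux {G : Type u} [Group G] [Fintype G] (χ : G → ℂ) (hχ : Cfsg.IsIrrCharacter G χ)
    [DecidablePred (fun g : G => ‖χ g‖ = (Cfsg.charDegree χ : ℝ))]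
    [DecidablePred (fun g : G => χ g = 0)] :
    (Cfsg.charDegree χ ^ 2 - 1) * (Finset.univ.filter (fun g : G => ‖χ g‖ = (Cfsg.charDegree χ : ℝ))).card ≤ (Finset.univ.filter (fun g : G => χ g = 0)).card ∧ ((∀ g : G, ‖χ g‖ = 0 ∨ ‖χ g‖ = 1 ∨ ‖χ g‖ = (Cfsg.charDegree χ : ℝ)) → (Cfsg.charDegree χ ^ 2 - 1) * (Finset.univ.filter (fun g : G => ‖χ g‖ = (Cfsg.charDegree χ : ℝ))).card = (Finset.univ.filter (fun g : G => χ g = 0)).card) := by
  classical
  have hd1 : 0 < Cfsg.charDegree χ := CharBasic.irr_degree_pos hχ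
  have hone : χ 1 = (Cfsg.charDegree χ : ℂ) := CharBasic.char_one_nat (CharBasic.isCharacter_of_irr hχ)
  have hsum : ∑ h : G, ‖χ h‖ ^ 2 = (Nat.card G : ℝ) := by
    have h3 := classInner_irr_self hχ
    rw [Cfsg.classInner] at h3
    have hne : (Nat.card G : ℂ) ≠ 0 := by
      have := Nat.card_pos (α := G)
      exact_mod_cast this.ne'
    have h4 : ∑ g : G, χ g * conj (χ g) = (Nat.card G : ℂ) := by
      field_simp at h3
      exact h3
    have h5 : ∀ g : G, χ g * conj (χ g) = ((‖χ g‖ ^ 2 : ℝ) : ℂ) := by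
      intro g
      rw [Complex.mul_conj, Complex.normSq_eq_norm_sq]
    simp only [h5] at h4
    exact_mod_cast h4
  have hAge : ((Finset.univ.filter (fun g : G => χ g ≠ 0 ∧ ‖χ g‖ ≠ (Cfsg.charDegree χ : ℝ))).card : ℝ)
      ≤ ∑ g ∈ Finset.univ.filter (fun g : G => χ g ≠ 0 ∧ ‖χ g‖ ≠ (Cfsg.charDegree χ : ℝ)),
        ‖χ g‖ ^ 2 := by
    obtain ⟨n, ρ, hρ, rfl⟩ := hχ
    have hfr : (Module.finrank ℂ (Fin n → ℂ) : ℝ) = (Cfsg.charDegree ρ.character : ℝ) := by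
      rw [Representation.char_one] at hone
      exact_mod_cast hone
    have hN : NeZero (Nat.card G) := ⟨Nat.card_pos.ne'⟩
    apply sum_norm_sq_ge_card ρ
    · intro g hg
      exact (Finset.mem_filter.mp hg).2.1
    · intro j hj g hg
      rw [Finset.mem_filter] at hg ⊢
      refine ⟨Finset.mem_univ _, ?_, ?_⟩
      · intro h0
        apply hg.2.1
        obtain ⟨x, hx, hxσ⟩ := exists_cyc_lift (Nat.card G) ρ (fun g => pow_card_eq_one') g
        obtain ⟨σ, hσ⟩ := cyc_exists_aut (Nat.card G) j hj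
        have h1 := hxσ 1 1 (by simp)
        rw [pow_one, h0] at h1
        have hx0 : x = 0 := by
          apply cycEmb_injective (Nat.card G)
          rw [map_zero]
          exact h1
        rw [← hxσ σ j hσ, hx0, map_zero, map_zero]
      · intro hnorm
        apply hg.2.2
        rw [← hfr] at hnorm ⊢
        exact norm_pow_eq ρ g j hnorm
  have hcZ : ((Finset.univ.filter (fun g : G => ‖χ g‖ = (Cfsg.charDegree χ : ℝ))).card : ℝ)
      = ∑ g : G, if ‖χ g‖ = (Cfsg.charDegree χ : ℝ) then (1 : ℝ) else 0 := by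
    rw [Finset.card_filter]
    push_cast
    rfl
  have hcN : ((Finset.univ.filter (fun g : G => χ g = 0)).card : ℝ)
      = ∑ g : G, if χ g = 0 then (1 : ℝ) else 0 := by
    rw [Finset.card_filter]
    push_cast
    rfl
  have hcA : ((Finset.univ.filter (fun g : G => χ g ≠ 0 ∧ ‖χ g‖ ≠ (Cfsg.charDegree χ : ℝ))).card : ℝ)
      = ∑ g : G, if (χ g ≠ 0 ∧ ‖χ g‖ ≠ (Cfsg.charDegree χ : ℝ)) then (1 : ℝ) else 0 := by
    rw [Finset.card_filter]
    push_cast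
    rfl
  have hsA : ∑ g ∈ Finset.univ.filter (fun g : G => χ g ≠ 0 ∧ ‖χ g‖ ≠ (Cfsg.charDegree χ : ℝ)),
        ‖χ g‖ ^ 2
      = ∑ g : G, if (χ g ≠ 0 ∧ ‖χ g‖ ≠ (Cfsg.charDegree χ : ℝ)) then ‖χ g‖ ^ 2 else 0 := by
    rw [Finset.sum_filter]
  have hdR : (1 : ℝ) ≤ (Cfsg.charDegree χ : ℝ) := by exact_mod_cast hd1
  have hp1 : ∀ g : G, (1 : ℝ) = (if ‖χ g‖ = (Cfsg.charDegree χ : ℝ) then (1 : ℝ) else 0)
      + (if (χ g ≠ 0 ∧ ‖χ g‖ ≠ (Cfsg.charDegree χ : ℝ)) then (1 : ℝ) else 0)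
      + (if χ g = 0 then (1 : ℝ) else 0) := by
    intro g
    by_cases h0 : χ g = 0
    · have hn' : ¬ ((0 : ℝ) = (Cfsg.charDegree χ : ℝ)) := by
        intro h
        linarith
      simp [h0, hn']
    · by_cases hn : ‖χ g‖ = (Cfsg.charDegree χ : ℝ)
      · simp [h0, hn]
      · simp [h0, hn]
  have hp2 : ∀ g : G, ‖χ g‖ ^ 2 = (Cfsg.charDegree χ : ℝ) ^ 2 *
        (if ‖χ g‖ = (Cfsg.charDegree χ : ℝ) then (1 : ℝ) else 0)
      + (if (χ g ≠ 0 ∧ ‖χ g‖ ≠ (Cfsg.charDegree χ : ℝ)) then ‖χ g‖ ^ 2 else 0) := by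
    intro g
    by_cases h0 : χ g = 0
    · have hn' : ¬ ((0 : ℝ) = (Cfsg.charDegree χ : ℝ)) := by
        intro h
        linarith
      simp [h0, hn']
    · by_cases hn : ‖χ g‖ = (Cfsg.charDegree χ : ℝ)
      · simp [h0, hn]
      · simp [h0, hn]
  have hG1 : (Nat.card G : ℝ) = ((Finset.univ.filter (fun g : G => ‖χ g‖ = (Cfsg.charDegree χ : ℝ))).card : ℝ)
      + ((Finset.univ.filter (fun g : G => χ g ≠ 0 ∧ ‖χ g‖ ≠ (Cfsg.charDegree χ : ℝ))).card : ℝ)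
      + ((Finset.univ.filter (fun g : G => χ g = 0)).card : ℝ) := by
    rw [hcZ, hcA, hcN, ← Finset.sum_add_distrib, ← Finset.sum_add_distrib,
      ← Finset.sum_congr rfl (fun g _ => hp1 g), Finset.sum_const, Finset.card_univ,
      Nat.card_eq_fintype_card]
    simp
  have hG2 : (Nat.card G : ℝ) = (Cfsg.charDegree χ : ℝ) ^ 2 *
        ((Finset.univ.filter (fun g : G => ‖χ g‖ = (Cfsg.charDegree χ : ℝ))).card : ℝ)
      + ∑ g ∈ Finset.univ.filter (fun g : G => χ g ≠ 0 ∧ ‖χ g‖ ≠ (Cfsg.charDegree χ : ℝ)),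
        ‖χ g‖ ^ 2 := by
    rw [hcZ, hsA, Finset.mul_sum, ← Finset.sum_add_distrib,
      ← Finset.sum_congr rfl (fun g _ => hp2 g), hsum]
  have hcast : (((Cfsg.charDegree χ ^ 2 - 1 : ℕ)) : ℝ) = (Cfsg.charDegree χ : ℝ) ^ 2 - 1 := by
    have h1 : 1 ≤ Cfsg.charDegree χ ^ 2 := Nat.one_le_pow _ _ hd1
    rw [Nat.cast_sub h1]
    push_cast
    ring
  constructor
  · have hR : (((Cfsg.charDegree χ ^ 2 - 1) *
        (Finset.univ.filter (fun g : G => ‖χ g‖ = (Cfsg.charDegree χ : ℝ))).card : ℕ) : ℝ)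
        ≤ ((Finset.univ.filter (fun g : G => χ g = 0)).card : ℝ) := by
      rw [Nat.cast_mul, hcast]
      nlinarith
    exact_mod_cast hR
  · intro hall
    have hAeq : ∑ g ∈ Finset.univ.filter (fun g : G => χ g ≠ 0 ∧ ‖χ g‖ ≠ (Cfsg.charDegree χ : ℝ)),
        ‖χ g‖ ^ 2
        = ((Finset.univ.filter (fun g : G => χ g ≠ 0 ∧ ‖χ g‖ ≠ (Cfsg.charDegree χ : ℝ))).card : ℝ) := by
      rw [Finset.sum_congr rfl (g := fun _ => (1 : ℝ)), Finset.sum_const, nsmul_eq_mul, mul_one]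
      intro g hg
      rw [Finset.mem_filter] at hg
      rcases hall g with h | h | h
      · exact absurd (norm_eq_zero.mp h) hg.2.1
      · rw [h]; norm_num
      · exact absurd h hg.2.2
    have hR : (((Cfsg.charDegree χ ^ 2 - 1) *
        (Finset.univ.filter (fun g : G => ‖χ g‖ = (Cfsg.charDegree χ : ℝ))).card : ℕ) : ℝ)
        = ((Finset.univ.filter (fun g : G => χ g = 0)).card : ℝ) := by
      rw [Nat.cast_mul, hcast]
      nlinarith
    exact_mod_cast hR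

theorem result {G : Type*} [Group G] [Fintype G] [DecidableEq G] (χ : G → ℂ) (hχ : Cfsg.IsIrrCharacter G χ) : (Cfsg.charDegree χ ^ 2 - 1) * (Finset.univ.filter (fun g : G => ‖χ g‖ = (Cfsg.charDegree χ : ℝ))).card ≤ (Finset.univ.filter (fun g : G => χ g = 0)).card ∧ ((∀ g : G, ‖χ g‖ = 0 ∨ ‖χ g‖ = 1 ∨ ‖χ g‖ = (Cfsg.charDegree χ : ℝ)) → (Cfsg.charDegree χ ^ 2 - 1) * (Finset.univ.filter (fun g : G => ‖χ g‖ = (Cfsg.charDegree χ : ℝ))).card = (Finset.univ.filter (fun g : G => χ g = 0)).card) := by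
  exact @aux G _ _ χ hχ _ _

end Cfsg.Agent.S4574
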