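import Cfsg.Statements.S4582
import Mathlib

set_option autoImplicit false
open Cfsg

namespace Cfsg.Agent.S4582

open scoped Pointwise

theorem keyA {H : Type*} [Group H] [Finite H] (N : Subgroup H) [N.Normal] (P : Subgroup H)
    (hPg : IsPGroup 2 P) (hidx : Odd P.index) (hsup : P ⊔ N = ⊤)
    (hP : ∀ x ∈ P, x ^ 2 ∈ (P ⊓ N) ⊔ ⁅P, P⁆)
    (hQ : ∀ x ∈ P ⊓ N, x ^ 2 ∈ ⁅P, P⁆)
    (hodd : Odd (Nat.card (Abelianization N))) :
    ∀ x ∈ P, x ^ 2 ∈ ⁅P, P⁆ := by
  classical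
  have hker : ∀ (y : H) (hy : y ∈ P),
      (Abelianization.of (⟨y, hy⟩ : P) = 1 ↔ y ∈ ⁅P, P⁆) := by
    intro y hy
    rw [← MonoidHom.mem_ker, Abelianization.ker_of, ← Subgroup.map_subtype_commutator]
    constructor
    · intro h
      exact ⟨⟨y, hy⟩, h, rfl⟩
    · rintro ⟨z, hz, hzy⟩
      have : z = ⟨y, hy⟩ := Subtype.ext hzy
      rw [← this]
      exact hz
  have hA2 : IsPGroup 2 (Abelianization P) := hPg.to_quotient _
  let V : H →* Abelianization P := MonoidHom.transfer (Abelianization.of : P →* Abelianization P)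
  have hVN : ∀ n ∈ N, V n = 1 := by
    intro n hn
    let f : N →* Abelianization P := V.comp N.subtype
    have h1 : (V n) ^ (Nat.card (Abelianization N)) = 1 := by
      have : V n = Abelianization.lift f (Abelianization.of ⟨n, hn⟩) := by
        rw [Abelianization.lift_apply_of]
        rfl
      rw [this, ← map_pow, pow_card_eq_one', map_one]
    obtain ⟨k, hk⟩ := hA2 (V n)
    have h2 : orderOf (V n) ∣ Nat.card (Abelianization N) := orderOf_dvd_of_pow_eq_one h1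
    have h3 : orderOf (V n) ∣ 2 ^ k := orderOf_dvd_of_pow_eq_one hk
    have h4 : Nat.Coprime (Nat.card (Abelianization N)) (2 ^ k) :=
      Nat.Coprime.pow_right _ (Nat.Coprime.symm (Nat.coprime_two_left.mpr hodd))
    have h5 : orderOf (V n) = 1 := Nat.eq_one_of_dvd_coprimes h4 h2 h3
    exact orderOf_eq_one_iff.mp h5
  have hVc : ∀ d ∈ ⁅P, P⁆, V d = 1 := by
    intro d hd
    have h1 : d ∈ commutator H := Subgroup.commutator_mono le_top le_top hd
    exact Abelianization.commutator_subset_ker V h1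
  have hVsq : ∀ x ∈ P, V (x ^ 2) = 1 := by
    intro x hx
    have hle : (P ⊓ N) ⊔ ⁅P, P⁆ ≤ V.ker := by
      refine sup_le ?_ ?_
      · intro z hz
        exact hVN z hz.2
      · intro z hz
        exact hVc z hz
    exact hle (hP x hx)
  have hconj : ∀ (y : H) (hy : y ∈ P) (g : H) (hg : g⁻¹ * y * g ∈ P),
      (Abelianization.of (⟨g⁻¹ * y * g, hg⟩ : P)) ^ 2 = (Abelianization.of (⟨y, hy⟩ : P)) ^ 2 := by
    intro y hy g hg
    have hgm : g ∈ ((P ⊔ N : Subgroup H) : Set H) := by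
      rw [hsup]; exact Set.mem_univ g
    rw [Subgroup.mul_normal] at hgm
    obtain ⟨p, hp, n, hn, rfl⟩ := Set.mem_mul.mp hgm
    have hy' : p⁻¹ * y * p ∈ P := P.mul_mem (P.mul_mem (P.inv_mem hp) hy) hp
    have hqP : (p⁻¹ * y * p)⁻¹ * ((p * n)⁻¹ * y * (p * n)) ∈ P :=
      P.mul_mem (P.inv_mem hy') hg
    have hqN : (p⁻¹ * y * p)⁻¹ * ((p * n)⁻¹ * y * (p * n)) ∈ N := by
      have e : (p⁻¹ * y * p)⁻¹ * ((p * n)⁻¹ * y * (p * n))
          = ((p⁻¹ * y * p)⁻¹ * n⁻¹ * (p⁻¹ * y * p)⁻¹⁻¹) * n := by group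
      rw [e]
      exact N.mul_mem (Subgroup.Normal.conj_mem inferInstance _ (N.inv_mem hn) _) hn
    have hq2 := hQ _ ⟨hqP, hqN⟩
    have e1 : (⟨(p * n)⁻¹ * y * (p * n), hg⟩ : P)
        = (⟨p, hp⟩ : P)⁻¹ * ⟨y, hy⟩ * ⟨p, hp⟩ *
          ⟨(p⁻¹ * y * p)⁻¹ * ((p * n)⁻¹ * y * (p * n)), hqP⟩ := by
      apply Subtype.ext
      simp only [Subgroup.coe_mul, Subgroup.coe_inv]
      group
    have e2 : (Abelianization.of (⟨(p⁻¹ * y * p)⁻¹ * ((p * n)⁻¹ * y * (p * n)), hqP⟩ : P)) ^ 2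
        = 1 := by
      rw [← map_pow]
      exact (hker _ (P.pow_mem hqP 2)).mpr hq2
    rw [e1, map_mul, map_mul, map_mul, map_inv, mul_pow, e2, mul_one]
    congr 1
    rw [mul_comm, ← mul_assoc, mul_inv_cancel, one_mul]
  intro x hx
  have hVx : (V x) ^ 2 = ((Abelianization.of (⟨x, hx⟩ : P)) ^ 2) ^ P.index := by
    have hfin : Fintype (Quotient (MulAction.orbitRel (Subgroup.zpowers x) (H ⧸ P))) :=
      Fintype.ofFinite _
    show (MonoidHom.transfer (Abelianization.of : P →* Abelianization P) x) ^ 2 = _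
    rw [MonoidHom.transfer_eq_prod_quotient_orbitRel_zpowers_quot, ← Finset.prod_pow,
      Subgroup.index_eq_sum_minimalPeriod P x, ← Finset.prod_pow_eq_pow_sum]
    refine Finset.prod_congr rfl ?_
    intro q _
    rw [hconj (x ^ Function.minimalPeriod (x • ·) q.out) (P.pow_mem hx _) q.out.out]
    rw [← pow_mul, mul_comm, pow_mul]
    congr 1
  have h1 : ((Abelianization.of (⟨x, hx⟩ : P)) ^ 2) ^ P.index = 1 := by
    rw [← hVx, ← map_pow]
    exact hVsq x hx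
  obtain ⟨k, hk⟩ := hA2 ((Abelianization.of (⟨x, hx⟩ : P)) ^ 2)
  have h2 : orderOf ((Abelianization.of (⟨x, hx⟩ : P)) ^ 2) ∣ P.index :=
    orderOf_dvd_of_pow_eq_one h1
  have h3 : orderOf ((Abelianization.of (⟨x, hx⟩ : P)) ^ 2) ∣ 2 ^ k :=
    orderOf_dvd_of_pow_eq_one hk
  have h4 : Nat.Coprime P.index (2 ^ k) :=
    Nat.Coprime.pow_right _ (Nat.Coprime.symm (Nat.coprime_two_left.mpr hidx))
  have h5 : orderOf ((Abelianization.of (⟨x, hx⟩ : P)) ^ 2) = 1 :=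
    Nat.eq_one_of_dvd_coprimes h4 h2 h3
  have h6 : (Abelianization.of (⟨x, hx⟩ : P)) ^ 2 = 1 := orderOf_eq_one_iff.mp h5
  rw [← map_pow] at h6
  exact (hker (x ^ 2) (P.pow_mem hx 2)).mp h6

theorem result {G : Type*} [Group G] [Finite G] (N : Subgroup G) [N.Normal] (P : Sylow 2 G)
    (hP : ∀ x ∈ (P : Subgroup G), x ^ 2 ∈ ((P : Subgroup G) ⊓ N) ⊔ ⁅(P : Subgroup G), (P : Subgroup G)⁆)
    (hQ : ∀ x ∈ (P : Subgroup G) ⊓ N, x ^ 2 ∈ ⁅(P : Subgroup G) ⊓ N, (P : Subgroup G) ⊓ N⁆)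
    (hodd : Odd (Nat.card (Abelianization N))) :
    ∀ x ∈ (P : Subgroup G), x ^ 2 ∈ ⁅(P : Subgroup G), (P : Subgroup G)⁆ := by
  have hfact : Fact (Nat.Prime 2) := ⟨Nat.prime_two⟩
  have hPH : (P : Subgroup G) ≤ (P : Subgroup G) ⊔ N := le_sup_left
  have hNH : N ≤ (P : Subgroup G) ⊔ N := le_sup_right
  have hcH : ⁅(P : Subgroup G), (P : Subgroup G)⁆ ≤ (P : Subgroup G) ⊔ N :=
    (Subgroup.commutator_le_self _).trans hPH
  have hcomm : ⁅(P : Subgroup G).subgroupOf ((P : Subgroup G) ⊔ N),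
      (P : Subgroup G).subgroupOf ((P : Subgroup G) ⊔ N)⁆
      = (⁅(P : Subgroup G), (P : Subgroup G)⁆).subgroupOf ((P : Subgroup G) ⊔ N) := by
    apply Subgroup.map_injective (Subgroup.subtype_injective ((P : Subgroup G) ⊔ N))
    rw [Subgroup.map_commutator, Subgroup.map_subgroupOf_eq_of_le hPH,
      Subgroup.map_subgroupOf_eq_of_le hcH]
  have hinf : (P : Subgroup G).subgroupOf ((P : Subgroup G) ⊔ N) ⊓ N.subgroupOf ((P : Subgroup G) ⊔ N)
      = ((P : Subgroup G) ⊓ N).subgroupOf ((P : Subgroup G) ⊔ N) := by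
    ext x
    simp [Subgroup.mem_subgroupOf]
  have hidx : Odd ((P : Subgroup G).subgroupOf ((P : Subgroup G) ⊔ N)).index := by
    have h1 : (P : Subgroup G).relIndex ((P : Subgroup G) ⊔ N) ∣ (P : Subgroup G).index :=
      ⟨_, (Subgroup.relIndex_mul_index hPH).symm⟩
    have h2 : ¬ 2 ∣ (P : Subgroup G).index := P.not_dvd_index
    have h3 : ¬ 2 ∣ (P : Subgroup G).relIndex ((P : Subgroup G) ⊔ N) := fun h => h2 (h.trans h1)
    exact Nat.odd_iff.mpr (Nat.two_dvd_ne_zero.mp h3)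
  have hsup : (P : Subgroup G).subgroupOf ((P : Subgroup G) ⊔ N) ⊔ N.subgroupOf ((P : Subgroup G) ⊔ N)
      = ⊤ := by
    rw [← Subgroup.subgroupOf_sup hPH hNH, Subgroup.subgroupOf_self]
  have hodd' : Odd (Nat.card (Abelianization (N.subgroupOf ((P : Subgroup G) ⊔ N)))) := by
    have e : Abelianization (N.subgroupOf ((P : Subgroup G) ⊔ N)) ≃* Abelianization N :=
      (Subgroup.subgroupOfEquivOfLe hNH).abelianizationCongr
    rw [Nat.card_congr e.toEquiv]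
    exact hodd
  have key := keyA (N.subgroupOf ((P : Subgroup G) ⊔ N))
    ((P : Subgroup G).subgroupOf ((P : Subgroup G) ⊔ N)) (P.2.comap_subtype) hidx hsup
    (by
      intro x hx
      rw [hinf, hcomm, ← Subgroup.subgroupOf_sup (inf_le_left.trans hPH) hcH]
      exact hP x.1 hx)
    (by
      intro x hx
      rw [hinf] at hx
      rw [hcomm]
      exact Subgroup.commutator_mono inf_le_left inf_le_left (hQ x.1 hx))
    hodd'
  intro x hx
  have := key ⟨x, hPH hx⟩ hx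
  rw [hcomm] at this
  exact this

end Cfsg.Agent.S4582
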