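import Mathlib
import Cfsg.Statements.S4586

set_option autoImplicit false
open Cfsg

namespace Cfsg.Agent.S4586

open scoped commutatorElement

theorem hom_aux {Q : Type*} [Group Q] (X a b : Q) (hab : a * b = b * a)
    (h1 : (X * b * X⁻¹) * a = a * (X * b * X⁻¹)) :
    X * (a * b) * X⁻¹ * (a * b)⁻¹ = (X * a * X⁻¹ * a⁻¹) * (X * b * X⁻¹ * b⁻¹) := by
  have hc : Commute (X * b * X⁻¹) a := h1
  have hb : Commute b a := hab.symm
  have e1 : X * (a * b) * X⁻¹ * (a * b)⁻¹ = X * a * X⁻¹ * (X * b * X⁻¹) * (b⁻¹ * a⁻¹) := by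
    group
  have e2 : (X * a * X⁻¹ * a⁻¹) * (X * b * X⁻¹ * b⁻¹)
      = X * a * X⁻¹ * (a⁻¹ * (X * b * X⁻¹)) * b⁻¹ := by
    group
  rw [e1, e2, hb.inv_inv.eq, ← hc.inv_right.eq]
  simp only [mul_assoc]

theorem eq_top_of_le_of_mem {P : Type*} [Group P] (p : ℕ) [Fact p.Prime] (N S : Subgroup P)
    (hN : N.index = p) (hle : N ≤ S) (x : P) (hxS : x ∈ S) (hxN : x ∉ N) : S = ⊤ := by
  have hp : p.Prime := Fact.out
  have hd : S.index ∣ p := hN ▸ Subgroup.index_dvd_of_le hle
  rcases (Nat.dvd_prime hp).1 hd with h | h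
  · exact Subgroup.index_eq_one.1 h
  · exfalso
    have h2 := Subgroup.relIndex_mul_index hle
    rw [h, hN] at h2
    have h3 : N.relIndex S = 1 := by
      have : N.relIndex S * p = 1 * p := by rw [h2, one_mul]
      exact Nat.eq_of_mul_eq_mul_right hp.pos this
    exact hxN (Subgroup.relIndex_eq_one.1 h3 hxS)

theorem key {P : Type*} [Group P] [Finite P] (p : ℕ) [Fact p.Prime] (N : Subgroup P)
    [hNn : N.Normal] (hN : N.index = p) (x : P) (hx : x ∉ N) :
    (commutator P).index * Nat.card (commutator N) =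
      Nat.card {n : N // x * n * x⁻¹ * (n : P)⁻¹ ∈ (commutator N).map N.subtype} * p := by
  have hp : p.Prime := Fact.out
  set K : Subgroup P := (commutator N).map N.subtype with hK
  have hK' : K = ⁅N, N⁆ := by rw [hK, Subgroup.map_subtype_commutator]
  haveI hKn : K.Normal := by rw [hK']; infer_instance
  have hKle : K ≤ commutator P := by
    rw [hK', commutator_def]
    exact Subgroup.commutator_mono le_top le_top
  set π : P →* P ⧸ K := QuotientGroup.mk' K with hπ
  have hπs : Function.Surjective π := QuotientGroup.mk'_surjective K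
  have hπ1 : ∀ g : P, π g = 1 ↔ g ∈ K := fun g => QuotientGroup.eq_one_iff g
  have hcomm : ∀ a b : P, a ∈ N → b ∈ N → π a * π b = π b * π a := by
    intro a b ha hb
    have hmem : a * b * a⁻¹ * b⁻¹ ∈ K := by
      rw [hK', ← commutatorElement_def]
      exact Subgroup.commutator_mem_commutator ha hb
    have h1 := (hπ1 _).2 hmem
    rw [map_mul, map_mul, map_mul, map_inv, map_inv] at h1
    exact mul_inv_eq_iff_eq_mul.1 (mul_inv_eq_one.1 h1)
  let ψ : N →* P ⧸ K :=
    { toFun := fun n => π x * π n * (π x)⁻¹ * (π n)⁻¹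
      map_one' := by simp
      map_mul' := by
        intro a b
        have h1 := hcomm (x * b * x⁻¹) a (hNn.conj_mem b b.2 x) a.2
        rw [map_mul, map_mul, map_inv] at h1
        have h2 := hcomm a b a.2 b.2
        have := hom_aux (π x) (π a) (π b) h2 h1
        simpa [map_mul] using this }
  have hψ : ∀ n : N, ψ n = π x * π n * (π x)⁻¹ * (π n)⁻¹ := fun n => rfl
  have hψ' : ∀ n : N, ψ n = π (x * n * x⁻¹ * (n : P)⁻¹) := by
    intro n
    rw [hψ, map_mul, map_mul, map_mul, map_inv, map_inv]
  have hker : ∀ n : N, n ∈ ψ.ker ↔ x * n * x⁻¹ * (n : P)⁻¹ ∈ K := by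
    intro n
    rw [MonoidHom.mem_ker, hψ', hπ1]
  set B : Subgroup (P ⧸ K) := ψ.range with hB
  have hBN : ∀ q ∈ B, ∃ m ∈ N, π m = q := by
    rintro q ⟨n, rfl⟩
    refine ⟨x * n * x⁻¹ * (n : P)⁻¹, ?_, (hψ' n).symm⟩
    exact N.mul_mem (hNn.conj_mem n n.2 x) (N.inv_mem n.2)
  have htop : ∀ S : Subgroup (P ⧸ K), (∀ n ∈ N, π n ∈ S) → π x ∈ S → S = ⊤ := by
    intro S h1 h2
    have h3 : S.comap π = ⊤ :=
      eq_top_of_le_of_mem p N (S.comap π) hN (fun n hn => h1 n hn) x h2 hx
    rw [Subgroup.eq_top_iff']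
    intro q
    obtain ⟨g, rfl⟩ := hπs q
    have : g ∈ S.comap π := by rw [h3]; exact Subgroup.mem_top g
    exact this
  have hBnorm : B.Normal := by
    rw [← Subgroup.normalizer_eq_top_iff]
    apply htop
    · intro n hn
      rw [Subgroup.mem_normalizer_iff]
      intro h
      constructor
      · intro hh
        obtain ⟨m, hm, rfl⟩ := hBN h hh
        have e : π n * π m * (π n)⁻¹ = π m := by
          rw [hcomm n m hn hm, mul_inv_cancel_right]
        rw [e]; exact hh
      · intro hh
        obtain ⟨m, hm, hme⟩ := hBN _ hh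
        have e : h = π m := by
          have : h = (π n)⁻¹ * π m * π n := by rw [hme]; group
          rw [this, mul_assoc, hcomm m n hm hn, inv_mul_cancel_left]
        rw [e, hme]; exact hh
    · rw [Subgroup.mem_normalizer_iff]
      intro h
      constructor
      · rintro ⟨n, rfl⟩
        refine ⟨⟨x * n * x⁻¹, hNn.conj_mem n n.2 x⟩, ?_⟩
        rw [hψ, hψ]
        simp only [map_mul, map_inv]
        group
      · rintro ⟨n, hn⟩
        refine ⟨⟨x⁻¹ * n * x, by simpa using hNn.conj_mem n n.2 x⁻¹⟩, ?_⟩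
        have e : h = (π x)⁻¹ * ψ n * π x := by rw [hn]; group
        rw [e, hψ, hψ]
        simp only [map_mul, map_inv]
        group
  set ρ : P ⧸ K →* (P ⧸ K) ⧸ B := QuotientGroup.mk' B with hρ
  have hρs : Function.Surjective ρ := QuotientGroup.mk'_surjective B
  have hρ1 : ∀ g : P ⧸ K, ρ g = 1 ↔ g ∈ B := fun g => QuotientGroup.eq_one_iff g
  have hxn : ∀ n ∈ N, ρ (π x) * ρ (π n) = ρ (π n) * ρ (π x) := by
    intro n hn
    have hmem : π x * π n * (π x)⁻¹ * (π n)⁻¹ ∈ B := ⟨⟨n, hn⟩, rfl⟩
    have h1 := (hρ1 _).2 hmem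
    rw [map_mul, map_mul, map_mul, map_inv, map_inv] at h1
    exact mul_inv_eq_iff_eq_mul.1 (mul_inv_eq_one.1 h1)
  have hcen : ∀ q : P ⧸ K, ρ q ∈ Subgroup.center ((P ⧸ K) ⧸ B) := by
    have h1 : (Subgroup.center ((P ⧸ K) ⧸ B)).comap ρ = ⊤ := by
      apply htop
      · intro n hn
        rw [Subgroup.mem_comap, Subgroup.mem_center_iff]
        intro g
        obtain ⟨u, rfl⟩ := hρs g
        have h2 : (Subgroup.centralizer {ρ (π n)}).comap ρ = ⊤ := by
          apply htop
          · intro m hm
            rw [Subgroup.mem_comap, Subgroup.mem_centralizer_singleton_iff]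
            rw [← map_mul ρ (π m), ← map_mul ρ (π n), hcomm m n hm hn]
          · rw [Subgroup.mem_comap, Subgroup.mem_centralizer_singleton_iff]
            exact hxn n hn
        have h3 : u ∈ (Subgroup.centralizer {ρ (π n)}).comap ρ := by
          rw [h2]; exact Subgroup.mem_top u
        rw [Subgroup.mem_comap, Subgroup.mem_centralizer_singleton_iff] at h3
        exact h3
      · rw [Subgroup.mem_comap, Subgroup.mem_center_iff]
        intro g
        obtain ⟨u, rfl⟩ := hρs g
        have h2 : (Subgroup.centralizer {ρ (π x)}).comap ρ = ⊤ := by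
          apply htop
          · intro m hm
            rw [Subgroup.mem_comap, Subgroup.mem_centralizer_singleton_iff]
            exact (hxn m hm).symm
          · rw [Subgroup.mem_comap, Subgroup.mem_centralizer_singleton_iff]
        have h3 : u ∈ (Subgroup.centralizer {ρ (π x)}).comap ρ := by
          rw [h2]; exact Subgroup.mem_top u
        rw [Subgroup.mem_comap, Subgroup.mem_centralizer_singleton_iff] at h3
        exact h3
    intro q
    have : q ∈ (Subgroup.center ((P ⧸ K) ⧸ B)).comap ρ := by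
      rw [h1]; exact Subgroup.mem_top q
    exact this
  have hcomQ : commutator (P ⧸ K) = B := by
    apply le_antisymm
    · rw [commutator_def, Subgroup.commutator_le]
      intro u _ v _
      rw [← hρ1, commutatorElement_def, map_mul, map_mul, map_mul, map_inv, map_inv]
      have := Subgroup.mem_center_iff.1 (hcen v) (ρ u)
      rw [this, mul_assoc (ρ v), mul_inv_cancel, mul_one, mul_inv_cancel]
    · rintro q ⟨n, rfl⟩
      change π x * π n * (π x)⁻¹ * (π n)⁻¹ ∈ commutator (P ⧸ K)
      rw [← commutatorElement_def, commutator_def]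
      exact Subgroup.commutator_mem_commutator (Subgroup.mem_top _) (Subgroup.mem_top _)
  have hcomP : commutator P = (commutator (P ⧸ K)).comap π := by
    have h1 : (commutator P).map π = commutator (P ⧸ K) := by
      rw [commutator_def, Subgroup.map_commutator, Subgroup.map_top_of_surjective π hπs,
        commutator_def]
    rw [← h1, Subgroup.comap_map_eq, hπ, QuotientGroup.ker_mk']
    exact (sup_eq_left.2 hKle).symm
  have hidx : (commutator P).index = B.index := by
    rw [hcomP, Subgroup.index_comap_of_surjective _ hπs, hcomQ]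
  have n1 := Subgroup.card_mul_index B
  have n2 := Subgroup.card_mul_index K
  rw [Subgroup.index_eq_card K] at n2
  have n3 : Nat.card K = Nat.card (commutator N) :=
    Subgroup.card_map_of_injective N.subtype_injective
  have n4 := Subgroup.card_mul_index N
  rw [hN] at n4
  have n5 := Subgroup.card_mul_index ψ.ker
  rw [Subgroup.index_ker ψ] at n5
  have n6 : Nat.card ψ.ker =
      Nat.card {n : N // x * n * x⁻¹ * (n : P)⁻¹ ∈ K} :=
    Nat.card_congr (Equiv.subtypeEquivRight hker)
  have hBpos : 0 < Nat.card B := Nat.card_pos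
  rw [hidx, ← n3, ← n6]
  have e1 : Nat.card B * (B.index * Nat.card K) = Nat.card B * (Nat.card ψ.ker * p) := by
    calc Nat.card B * (B.index * Nat.card K) = Nat.card K * (Nat.card B * B.index) := by ring
      _ = Nat.card K * Nat.card (P ⧸ K) := by rw [n1]
      _ = Nat.card P := n2
      _ = Nat.card N * p := n4.symm
      _ = Nat.card ψ.ker * Nat.card ψ.range * p := by rw [n5]
      _ = Nat.card B * (Nat.card ψ.ker * p) := by rw [hB]; ring
  exact Nat.eq_of_mul_eq_mul_left hBpos e1

theorem result {P : Type*} [Group P] [Finite P] (p : ℕ) [Fact p.Prime] (hP : IsPGroup p P) (N : Subgroup P) [N.Normal] (hN : N.index = p) :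
    ((commutator P).index = p ^ 2 ↔ ∀ x : P, x ∉ N →
        Nat.card {n : N // x * n * x⁻¹ * (n : P)⁻¹ ∈ (commutator N).map N.subtype} = p * Nat.card (commutator N)) ∧
    ((commutator P).index = p ^ 2 ↔ ∃ x : P, x ∉ N ∧
        Nat.card {n : N // x * n * x⁻¹ * (n : P)⁻¹ ∈ (commutator N).map N.subtype} = p * Nat.card (commutator N)) := by
  have hp : p.Prime := Fact.out
  have hcpos : 0 < Nat.card (commutator N) := Nat.card_pos
  have hex : ∃ x : P, x ∉ N := by
    by_contra h
    push Not at h
    have : N = ⊤ := (Subgroup.eq_top_iff' N).2 h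
    rw [this, Subgroup.index_top] at hN
    exact hp.one_lt.ne hN
  have hfw : ∀ x : P, x ∉ N → (commutator P).index = p ^ 2 →
      Nat.card {n : N // x * n * x⁻¹ * (n : P)⁻¹ ∈ (commutator N).map N.subtype} = p * Nat.card (commutator N) := by
    intro x hx h
    have hk := key p N hN x hx
    rw [h] at hk
    have : p * Nat.card (commutator N) * p =
        Nat.card {n : N // x * n * x⁻¹ * (n : P)⁻¹ ∈ (commutator N).map N.subtype} * p := by
      rw [← hk]; ring
    exact (Nat.eq_of_mul_eq_mul_right hp.pos this).symm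
  have hbw : ∀ x : P, x ∉ N →
      Nat.card {n : N // x * n * x⁻¹ * (n : P)⁻¹ ∈ (commutator N).map N.subtype} = p * Nat.card (commutator N) →
      (commutator P).index = p ^ 2 := by
    intro x hx h
    have hk := key p N hN x hx
    rw [h] at hk
    have : (commutator P).index * Nat.card (commutator N) = p ^ 2 * Nat.card (commutator N) := by
      rw [hk]; ring
    exact Nat.eq_of_mul_eq_mul_right hcpos this
  refine ⟨⟨fun h x hx => hfw x hx h, fun h => ?_⟩, ⟨fun h => ?_, fun h => ?_⟩⟩
  · obtain ⟨x, hx⟩ := hex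
    exact hbw x hx (h x hx)
  · obtain ⟨x, hx⟩ := hex
    exact ⟨x, hx, hfw x hx h⟩
  · obtain ⟨x, hx, hc⟩ := h
    exact hbw x hx hc

end Cfsg.Agent.S4586
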