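import Mathlib
import Cfsg.Statements.S4611
import Cfsg.Agent.Lib.Helper6.Fong

set_option autoImplicit false
open Cfsg

namespace Cfsg.Agent.S4611

/-- Let G be a finite solvable group and π a nonempty set of primes, each dividing the order of G; fix for each p in π a maximal ideal M p of the algebraic integers containing p. Then the only irreducible character lying in the principal p-block for every p in π is the principal character if and only if G is generated by the subgroups O_{p'}(G), p in π (the largest normal subgroups of order prime to p). -/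
theorem result {G : Type*} [Group G] [Finite G] [Group.IsSolvable G] (π : Set ℕ) (hπ : ∀ p ∈ π, p.Prime ∧ p ∣ Nat.card G) (hne : π.Nonempty) (M : ℕ → Ideal Cfsg.AlgInt) (hM : ∀ p ∈ π, Cfsg.IsPModular p (M p)) :
    (∀ χ : Cfsg.IrrCharacter G, (∀ p ∈ π, χ ∈ Cfsg.principalBlock (M p) G) → (χ : G → ℂ) = fun _ => 1) ↔
      ⨆ p ∈ π, Cfsg.pPrimeCore p G = ⊤ := by
  classical
  haveI : Fintype G := Fintype.ofFinite G
  obtain ⟨K, hKdef⟩ : ∃ K : Subgroup G, K = ⨆ p ∈ π, Cfsg.pPrimeCore p G := ⟨_, rfl⟩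
  rw [← hKdef]
  haveI hKn : K.Normal := by
    rw [hKdef]
    exact Subgroup.biSup_normal π (fun p => Cfsg.pPrimeCore p G)
      (fun p _ => Cfsg.Agent.Lib.Helper24.SelfCent.core_normal p G)
  have key : ∀ χ : Cfsg.IrrCharacter G, (∀ p ∈ π, χ ∈ Cfsg.principalBlock (M p) G) ↔
      ∀ g ∈ K, (χ : G → ℂ) g = (χ : G → ℂ) 1 := by
    intro χ
    constructor
    · intro h
      let Kχ : Subgroup G :=
        { carrier := {g | (χ : G → ℂ) g = (χ : G → ℂ) 1}
          mul_mem' := fun {a b} ha hb => Cfsg.Agent.Lib.Helper6.irr_ker_mul χ ha hb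
          one_mem' := rfl
          inv_mem' := fun {a} ha => Cfsg.Agent.Lib.Helper6.irr_ker_inv χ ha }
      have hle : K ≤ Kχ := by
        rw [hKdef]
        apply iSup₂_le
        intro p hp g hg
        haveI : Fact p.Prime := ⟨(hπ p hp).1⟩
        exact (Cfsg.Agent.Lib.Helper6.mem_principalBlock_iff_solvable (hM p hp) χ).mp
          (h p hp) g hg
      exact fun g hg => hle hg
    · intro h p hp
      haveI : Fact p.Prime := ⟨(hπ p hp).1⟩
      apply (Cfsg.Agent.Lib.Helper6.mem_principalBlock_iff_solvable (hM p hp) χ).mpr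
      intro g hg
      apply h g
      rw [hKdef]
      exact (le_iSup₂ (f := fun p (_ : p ∈ π) => Cfsg.pPrimeCore p G) p hp) hg
  constructor
  · intro h
    by_contra hK
    have hex : ∃ q : G ⧸ K, q ≠ 1 := by
      obtain ⟨g, hg⟩ : ∃ g : G, g ∉ K := by
        by_contra hall
        push_neg at hall
        exact hK (eq_top_iff.mpr (fun g _ => hall g))
      exact ⟨QuotientGroup.mk g, fun h1 => hg ((QuotientGroup.eq_one_iff g).mp h1)⟩
    haveI : Fintype (G ⧸ K) := Fintype.ofFinite _
    obtain ⟨ψ, hψne⟩ := Cfsg.Agent.Lib.Helper6.exists_irr_ne_one hex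
    have hinf : Cfsg.IsIrrCharacter G ((ψ : G ⧸ K → ℂ) ∘ QuotientGroup.mk) :=
      Cfsg.Agent.Lib.Helper24.CharQuot.irr_inflate (QuotientGroup.mk' K)
        (QuotientGroup.mk'_surjective K) ψ.2
    have h1 := h ⟨_, hinf⟩ ((key ⟨_, hinf⟩).mpr (fun g hg => by
      show (ψ : G ⧸ K → ℂ) (QuotientGroup.mk g) = (ψ : G ⧸ K → ℂ) (QuotientGroup.mk 1)
      rw [(QuotientGroup.eq_one_iff g).mpr hg, QuotientGroup.mk_one]))
    apply hψne
    funext q
    obtain ⟨g, rfl⟩ := QuotientGroup.mk_surjective q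
    exact congrFun h1 g
  · intro hK χ hχ
    have h1 := (key χ).mp hχ
    rw [hK] at h1
    by_contra hne1
    have h2 := Cfsg.Agent.Lib.Helper1.classInner_irr_ne χ.2
      Cfsg.Agent.Lib.Helper1.isIrrCharacter_one hne1
    unfold Cfsg.classInner at h2
    have h3 : ∑ g : G, (χ : G → ℂ) g * (starRingEnd ℂ) ((fun _ : G => (1 : ℂ)) g) =
        (Nat.card G : ℂ) * (χ : G → ℂ) 1 := by
      rw [Finset.sum_congr rfl (fun g _ => by rw [h1 g (Subgroup.mem_top g), map_one, mul_one]),
        Finset.sum_const, Finset.card_univ, nsmul_eq_mul, Nat.card_eq_fintype_card]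
    rw [h3] at h2
    have hG : (Nat.card G : ℂ) ≠ 0 := by exact_mod_cast (Nat.card_pos (α := G)).ne'
    have h4 : (χ : G → ℂ) 1 = 0 := by
      rcases mul_eq_zero.mp h2 with h | h
      · exact absurd h (inv_ne_zero hG)
      · exact (mul_eq_zero.mp h).resolve_left hG
    exact Cfsg.Agent.Lib.Helper6.irr_one_ne_zero χ.2 h4

end Cfsg.Agent.S4611
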