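import Cfsg.Statements.S4619
import Mathlib

set_option autoImplicit false
open Cfsg
open scoped Pointwise

namespace Cfsg.Agent.S4619

theorem key {G : Type*} [Group G] (P Q : Subgroup G)
    (hTI : (∀ g : G, g ∉ Subgroup.normalizer (P : Set G) → P ⊓ (MulAut.conj g • P) = ⊥))
    (hQ : Q ≤ P) (hQ1 : Q ≠ ⊥) (g : G) (hg : MulAut.conj g • Q ≤ P) :
    g ∈ Subgroup.normalizer (P : Set G) := by
  by_contra hn
  have hn' : g⁻¹ ∉ Subgroup.normalizer (P : Set G) := fun h => hn (by simpa using inv_mem h)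
  have h1 := hTI g⁻¹ hn'
  apply hQ1
  rw [eq_bot_iff, ← h1]
  refine le_inf hQ ?_
  intro x hx
  rw [Subgroup.mem_pointwise_smul_iff_inv_smul_mem]
  have : MulAut.conj g • x ∈ MulAut.conj g • Q := Subgroup.smul_mem_pointwise_smul _ _ _ hx
  simpa using hg this

theorem result {G : Type*} [Group G] [Finite G] (p : ℕ) [Fact p.Prime] (P : Sylow p G) (hTI : (∀ g : G, g ∉ Subgroup.normalizer ((P : Subgroup G) : Set G) → (P : Subgroup G) ⊓ (MulAut.conj g • (P : Subgroup G)) = ⊥)) (Q : Subgroup G) (hQ : Q ≤ (P : Subgroup G)) (hQ1 : Q ≠ ⊥) :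
    Subgroup.normalizer (Q : Set G) ≤ Subgroup.normalizer ((P : Subgroup G) : Set G) ∧
      ∀ g : G, MulAut.conj g • Q ≤ (P : Subgroup G) → g ∈ Subgroup.normalizer ((P : Subgroup G) : Set G) := by
  refine ⟨?_, fun g hg => key (P : Subgroup G) Q hTI hQ hQ1 g hg⟩
  intro g hg
  apply key (P : Subgroup G) Q hTI hQ hQ1 g
  intro x hx
  rw [Subgroup.mem_pointwise_smul_iff_inv_smul_mem] at hx
  have h2 := (Subgroup.mem_normalizer_iff''.mp hg x).mpr (by simpa [MulAut.smul_def] using hx)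
  exact hQ h2

end Cfsg.Agent.S4619
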