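import Cfsg.Statements.S4630
import Cfsg.Agent.Lib.Helper1.SylOrI
import Cfsg.Agent.S2620

set_option autoImplicit false
open Cfsg

namespace Cfsg.Agent.S4630

/-- Let F be a finite field of odd order and m ≥ 1 with m even or m ≥ 4. For the commutator subgroup Ω of the isometry group of the plus-type quadratic form Σ_{i<m} x_i y_i in dimension 2m over F, a Sylow 2-subgroup P of Ω has P/P' elementary abelian: the square of every element of P lies in the derived subgroup of P. -/
theorem result {F : Type*} [Field F] [Fintype F] (hF : Odd (Fintype.card F)) (m : ℕ) (hm : 1 ≤ m) (hm' : Even m ∨ 4 ≤ m) (P : Sylow 2 (Cfsg.Omega F (Cfsg.quadFormPlus m F))) : ∀ x : (P : Subgroup (Cfsg.Omega F (Cfsg.quadFormPlus m F))), x ^ 2 ∈ commutator (P : Subgroup (Cfsg.Omega F (Cfsg.quadFormPlus m F))) := by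
  have hq1 : 1 < Fintype.card F := Fintype.one_lt_card
  have hm2 : 2 ≤ m := by
    rcases hm' with h | h
    · obtain ⟨j, rfl⟩ := h; omega
    · omega
  have hc := Cfsg.Agent.S0287.result (F := F) rfl m hm
  have hne : Fintype.card F ^ m - 1 ≠ 0 := by
    have : 1 < Fintype.card F ^ m := Nat.one_lt_pow (by omega) hq1
    omega
  have hv := Cfsg.Agent.Lib.Helper1.SylOr.val_even_order (Fintype.card F) hF hq1 m
    (Fintype.card F ^ m - 1) hne
  refine (Cfsg.Agent.Lib.Helper1.SylSym.good_iff _).1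
    (Cfsg.Agent.Lib.Helper1.SylOr.even_main hF (Cfsg.Agent.Lib.Helper15.StdForms.plusQF m F)
      (Cfsg.Agent.Lib.Helper15.StdForms.plus_nondeg m) (Cfsg.quadFormPlus m F)
      (Cfsg.Agent.Lib.Helper15.StdForms.coe_plusQF m) m hm2
      (by simp only [Fintype.card_sum, Fintype.card_fin]; omega)
      (Even m ∨ Fintype.card F % 4 ≠ 3) ?_ ?_ ?_ ?_ P)
  · intro hX
    push_neg at hX
    rcases hm' with h | h
    · exact absurd h hX.1
    · omega
  · intro N b
    exact (Cfsg.Agent.S2620.result rfl hF hm b).trans (Cfsg.Agent.Lib.Helper15.Gram.even_half hF)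
  · intro hX
    rw [hc, hv, Cfsg.Agent.Lib.Helper1.SylOr.val_fact_succ m hm]
    exact Cfsg.Agent.Lib.Helper1.SylOr.arith_sq _ _ _ _ _ hm
      (Cfsg.Agent.Lib.Helper1.SylOr.val_plus_sq _ hF hq1 m hm hX)
  · intro hX
    rw [hc, hv]
    exact Cfsg.Agent.Lib.Helper1.SylOr.arith_nsq _ _ _ _
      (Cfsg.Agent.Lib.Helper1.SylOr.val_plus_nsq _ m hX)

end Cfsg.Agent.S4630
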