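import Cfsg.Statements.S4631
import Cfsg.Agent.Lib.Helper1.SylOrI
import Cfsg.Agent.S2621

set_option autoImplicit false
open Cfsg

namespace Cfsg.Agent.S4631

/-- Let F be a finite field of odd order, m ≥ 4, and a, b ∈ F with z₁² + a z₁ z₂ + b z₂² anisotropic. For the commutator subgroup Ω of the isometry group of the minus-type quadratic form Σ_{i<m−1} x_i y_i + (z₁² + a z₁ z₂ + b z₂²) in dimension 2m over F, a Sylow 2-subgroup P of Ω has P/P' elementary abelian: the square of every element of P lies in the derived subgroup of P. -/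
theorem result {F : Type*} [Field F] [Fintype F] (hF : Odd (Fintype.card F)) (m : ℕ) (hm : 4 ≤ m) (a b : F) (hab : ∀ z₁ z₂ : F, z₁ ^ 2 + a * z₁ * z₂ + b * z₂ ^ 2 = 0 → z₁ = 0 ∧ z₂ = 0) (P : Sylow 2 (Cfsg.Omega F (Cfsg.quadFormMinus (m - 1) F a b))) : ∀ x : (P : Subgroup (Cfsg.Omega F (Cfsg.quadFormMinus (m - 1) F a b))), x ^ 2 ∈ commutator (P : Subgroup (Cfsg.Omega F (Cfsg.quadFormMinus (m - 1) F a b))) := by
  have hq1 : 1 < Fintype.card F := Fintype.one_lt_card
  have hm1 : 1 ≤ m := by omega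
  have hc := Cfsg.Agent.S0288.result (F := F) rfl m hm1 a b hab
  have hne : Fintype.card F ^ m + 1 ≠ 0 := by omega
  have hv := Cfsg.Agent.Lib.Helper1.SylOr.val_even_order (Fintype.card F) hF hq1 m
    (Fintype.card F ^ m + 1) hne
  refine (Cfsg.Agent.Lib.Helper1.SylSym.good_iff _).1
    (Cfsg.Agent.Lib.Helper1.SylOr.even_main hF
      (Cfsg.Agent.Lib.Helper15.StdForms.minusQF (m - 1) F a b)
      (Cfsg.Agent.Lib.Helper15.StdForms.minus_nondeg (m - 1) a b hab)
      (Cfsg.quadFormMinus (m - 1) F a b)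
      (Cfsg.Agent.Lib.Helper15.StdForms.coe_minusQF (m - 1) a b) m (by omega)
      (by simp only [Fintype.card_sum, Fintype.card_fin]; omega)
      (¬ (Even m ∨ Fintype.card F % 4 ≠ 3)) ?_ ?_ ?_ ?_ P)
  · intro _
    omega
  · intro N b'
    exact (Cfsg.Agent.S2621.result rfl hF hm1 a b hab b').trans
      (not_congr (Cfsg.Agent.Lib.Helper15.Gram.even_half hF))
  · intro hX
    rw [hc, hv, Cfsg.Agent.Lib.Helper1.SylOr.val_fact_succ m hm1]
    exact Cfsg.Agent.Lib.Helper1.SylOr.arith_sq _ _ _ _ _ hm1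
      (Cfsg.Agent.Lib.Helper1.SylOr.val_minus_sq _ hF hq1 m hX)
  · intro hX
    rw [hc, hv]
    exact Cfsg.Agent.Lib.Helper1.SylOr.arith_nsq _ _ _ _
      (Cfsg.Agent.Lib.Helper1.SylOr.val_minus_nsq _ hF m (not_not.1 hX))

end Cfsg.Agent.S4631
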