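import Cfsg.Statements.S4633
import Cfsg.Agent.Lib.Helper24.CycInert
import Cfsg.Agent.Lib.Helper24.ExtFirst
import Cfsg.Agent.S4437
import Cfsg.Agent.Lib.Helper24.DefectGroup

set_option autoImplicit false
open Cfsg

namespace Cfsg.Agent.S4633

theorem result {G : Type*} [Group G] [Finite G] (p : ℕ) [Fact p.Prime] (M : Ideal Cfsg.AlgInt) (hM : Cfsg.IsPModular p M) (B : Set (Cfsg.IrrCharacter G)) (hB : Cfsg.IsPBlock M B) (P : Subgroup G) (hPD : Cfsg.IsDefectGroup p M B P) (hP1 : P ≠ ⊥) (hcyc : IsCyclic P) (c : Set (Cfsg.IrrCharacter (Subgroup.centralizer (P : Set G)))) (hc : Cfsg.IsInducedBlock M (Subgroup.centralizer (P : Set G)) c B) (T : Subgroup G) (hT : ∀ g : G, g ∈ T ↔ (g ∈ Subgroup.normalizer (P : Set G) ∧ Cfsg.StabilizesBlock (Subgroup.centralizer (P : Set G)) c g)) [hn : ((Subgroup.centralizer (P : Set G)).subgroupOf T).Normal] : IsCyclic (T ⧸ (Subgroup.centralizer (P : Set G)).subgroupOf T) ∧ (Subgroup.centralizer (P : Set G)).relIndex T ∣ p - 1 ∧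 ∀ g ∈ T, ∀ x ∈ P, x ≠ 1 → g * x * g⁻¹ = x → g ∈ Subgroup.centralizer (P : Set G) := by
  classical
  have hfinG : Fintype G := Fintype.ofFinite G
  obtain ⟨C, hC⟩ : ∃ C : Subgroup G, C = Subgroup.centralizer (P : Set G) := ⟨_, rfl⟩
  have hcomm : ∀ a b : P, a * b = b * a := by
    intro a b
    letI hcg : CommGroup P := IsCyclic.commGroup
    exact mul_comm a b
  have hPC : P ≤ Subgroup.centralizer (P : Set G) := by
    intro x hx
    rw [Subgroup.mem_centralizer_iff]
    intro y hy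
    exact congrArg Subtype.val (hcomm ⟨y, hy⟩ ⟨x, hx⟩)
  have hPp : IsPGroup p P :=
    IsPGroup.of_card (Cfsg.Agent.Lib.Helper24.DefectGroup.card_defectGroup hM B hB P hPD)
  have hH : Subgroup.centralizer (P : Set G) = P ⊔ Subgroup.centralizer (P : Set G) :=
    (sup_eq_right.mpr hPC).symm
  haveI hfinC : Fintype (Subgroup.centralizer (P : Set G)) := Fintype.ofFinite _
  have hmap : (P.subgroupOf (Subgroup.centralizer (P : Set G))).map
      (Subgroup.centralizer (P : Set G)).subtype = P := Subgroup.map_subgroupOf_eq_of_le hPC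
  have hP' : IsPGroup p (P.subgroupOf (Subgroup.centralizer (P : Set G))) := hPp.comap_subtype
  have hbP : Cfsg.IsDefectGroup p M c (P.subgroupOf (Subgroup.centralizer (P : Set G))) := by
    apply Cfsg.Agent.Lib.Helper24.ExtFirst.defect_of_induced hM (Subgroup.centralizer (P : Set G))
      (P.subgroupOf (Subgroup.centralizer (P : Set G))) hP' ?_ c B hc ?_
    · rw [hmap]
      exact hH
    · rw [hmap]
      exact hPD
  have hT' : ∀ g : G, g ∈ T ↔ (g ∈ Subgroup.normalizer (P : Set G) ∧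
      ∀ θ ∈ c, ∀ θ' : Cfsg.IrrCharacter (Subgroup.centralizer (P : Set G)),
        (∀ h h' : Subgroup.centralizer (P : Set G), (h' : G) = g * h * g⁻¹ →
          (θ' : Subgroup.centralizer (P : Set G) → ℂ) h'
            = (θ : Subgroup.centralizer (P : Set G) → ℂ) h) → θ' ∈ c) := by
    intro g
    rw [hT g]
    constructor
    · rintro ⟨hgN, hst⟩
      refine ⟨hgN, ?_⟩
      intro θ hθ θ' hconj
      obtain ⟨hx, hall⟩ := (Cfsg.Agent.Lib.Helper24.Brauer.stabilizesBlock_iff
        (Subgroup.centralizer (P : Set G)) c g).mp hst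
      have h1 : (θ' : Subgroup.centralizer (P : Set G) → ℂ)
          = (θ : Subgroup.centralizer (P : Set G) → ℂ) ∘
            (Cfsg.Agent.Lib.Helper24.Brauer.conjEquiv (Subgroup.centralizer (P : Set G))
              ⟨g, hx⟩).symm :=
        (Cfsg.Agent.Lib.Helper24.Brauer.isConjCharOf_iff (Subgroup.centralizer (P : Set G))
          ⟨g, hx⟩ θ.1 θ'.1).mp hconj
      have h2 : θ' = Cfsg.Agent.Lib.Helper24.Brauer.cj (Subgroup.centralizer (P : Set G))
          ⟨g, hx⟩ θ := Subtype.ext h1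
      rw [h2]
      exact hall θ hθ
    · rintro ⟨hgN, hform⟩
      refine ⟨hgN, ?_⟩
      have hx : g ∈ Subgroup.normalizer
          ((Subgroup.centralizer (P : Set G) : Subgroup G) : Set G) :=
        Cfsg.Agent.Lib.Helper24.Brauer.mem_normalizer_centralizer hgN
      rw [Cfsg.Agent.Lib.Helper24.Brauer.stabilizesBlock_iff]
      refine ⟨hx, fun χ hχ => hform χ hχ
        (Cfsg.Agent.Lib.Helper24.Brauer.cj (Subgroup.centralizer (P : Set G)) ⟨g, hx⟩ χ) ?_⟩
      exact (Cfsg.Agent.Lib.Helper24.Brauer.isConjCharOf_iff (Subgroup.centralizer (P : Set G))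
        ⟨g, hx⟩ χ.1 (Cfsg.Agent.Lib.Helper24.Brauer.cj (Subgroup.centralizer (P : Set G))
          ⟨g, hx⟩ χ).1).mpr rfl
  have hidx : ¬ p ∣ (Subgroup.centralizer (P : Set G)).relIndex T :=
    (Cfsg.Agent.S4437.result p M hM P hPp (Subgroup.centralizer (P : Set G)) hH c hc.1 hbP B hc
      T hT').mp hPD
  have hTN : T ≤ Subgroup.normalizer (P : Set G) := fun g hg => ((hT g).mp hg).1
  exact Cfsg.Agent.Lib.Helper24.CycInert.cyc_inertial P T hPp hcyc hP1 hTN hidx

end Cfsg.Agent.S4633
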