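import Cfsg.Statements.S4650
import Cfsg.Agent.Lib.Helper24.AbFree
import Cfsg.Agent.Lib.Helper24.ExtFirst
import Cfsg.Agent.S4437
import Cfsg.Agent.Lib.Helper24.DefectGroup

set_option autoImplicit false
open Cfsg

namespace Cfsg.Agent.S4650

theorem result {G : Type*} [Group G] [Finite G] (p : ℕ) [Fact p.Prime] (M : Ideal Cfsg.AlgInt) (hM : Cfsg.IsPModular p M) (B : Set (Cfsg.IrrCharacter G)) (hB : Cfsg.IsPBlock M B) (P : Subgroup G) (hPD : Cfsg.IsDefectGroup p M B P) (hPab : ∀ x ∈ P, ∀ y ∈ P, x * y = y * x) (hP1 : P ≠ ⊥) (c : Set (Cfsg.IrrCharacter (Subgroup.centralizer (P : Set G)))) (hc : Cfsg.IsInducedBlock M (Subgroup.centralizer (P : Set G)) c B) (T : Subgroup G) (hT : ∀ g : G, g ∈ T ↔ (g ∈ Subgroup.normalizer (P : Set G) ∧ Cfsg.StabilizesBlock (Subgroup.centralizer (P : Set G)) c g)) : (∀ g ∈ T, ∀ x ∈ P, x ≠ 1 → g * x * g⁻¹ = x → g ∈ Subgroup.centralizer (P : Set G)) ↔ ∀ Q : Subgroup G, Q ≤ P → Q ≠ ⊥ → ∀ f : Set (Cfsg.IrrCharacter (Subgroup.centralizer (Q : Set G))),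 Cfsg.IsInducedBlockIn M (Subgroup.centralizer (Q : Set G)) (Subgroup.centralizer (P : Set G)) c f → Cfsg.IsNilpotentBlock p M f := by
  classical
  have hfinG : Fintype G := Fintype.ofFinite G
  have hPC : P ≤ Subgroup.centralizer (P : Set G) := by
    intro x hx
    rw [Subgroup.mem_centralizer_iff]
    intro y hy
    exact hPab y hy x hx
  have hPp : IsPGroup p P :=
    IsPGroup.of_card (Cfsg.Agent.Lib.Helper24.DefectGroup.card_defectGroup hM B hB P hPD)
  have hpair : Cfsg.IsBrauerPairOf p M B P c :=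
    (Cfsg.Agent.Lib.Helper24.Brauer.induced_centralizer_iff hM P hPp c B).mp hc
  have hmax := Cfsg.Agent.Lib.Helper24.Brauer.maximal_of_defect hM B P c hpair hPD
  constructor
  · intro hfree Q hQP hQ1 f hf
    exact Cfsg.Agent.Lib.Helper24.AbFree.forward hM B P c hmax hPab T hT hfree Q hQP hQ1 f hf
  · intro hnil
    have hH : Subgroup.centralizer (P : Set G) = P ⊔ Subgroup.centralizer (P : Set G) :=
      (sup_eq_right.mpr hPC).symm
    haveI hfinC : Fintype (Subgroup.centralizer (P : Set G)) := Fintype.ofFinite _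
    have hmap : (P.subgroupOf (Subgroup.centralizer (P : Set G))).map
        (Subgroup.centralizer (P : Set G)).subtype = P := Subgroup.map_subgroupOf_eq_of_le hPC
    have hP' : IsPGroup p (P.subgroupOf (Subgroup.centralizer (P : Set G))) := hPp.comap_subtype
    have hbP : Cfsg.IsDefectGroup p M c (P.subgroupOf (Subgroup.centralizer (P : Set G))) := by
      apply Cfsg.Agent.Lib.Helper24.ExtFirst.defect_of_induced hM (Subgroup.centralizer (P : Set G))
        (P.subgroupOf (Subgroup.centralizer (P : Set G))) hP' ?_ c B hc ?_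
      · rw [hmap]
        exact hH
      · rw [hmap]
        exact hPD
    have hT' : ∀ g : G, g ∈ T ↔ (g ∈ Subgroup.normalizer (P : Set G) ∧
        ∀ θ ∈ c, ∀ θ' : Cfsg.IrrCharacter (Subgroup.centralizer (P : Set G)),
          (∀ h h' : Subgroup.centralizer (P : Set G), (h' : G) = g * h * g⁻¹ →
            (θ' : Subgroup.centralizer (P : Set G) → ℂ) h'
              = (θ : Subgroup.centralizer (P : Set G) → ℂ) h) → θ' ∈ c) := by
      intro g
      rw [hT g]
      constructor
      · rintro ⟨hgN, hst⟩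
        refine ⟨hgN, ?_⟩
        intro θ hθ θ' hconj
        obtain ⟨hx, hall⟩ := (Cfsg.Agent.Lib.Helper24.Brauer.stabilizesBlock_iff
          (Subgroup.centralizer (P : Set G)) c g).mp hst
        have h1 : (θ' : Subgroup.centralizer (P : Set G) → ℂ)
            = (θ : Subgroup.centralizer (P : Set G) → ℂ) ∘
              (Cfsg.Agent.Lib.Helper24.Brauer.conjEquiv (Subgroup.centralizer (P : Set G))
                ⟨g, hx⟩).symm :=
          (Cfsg.Agent.Lib.Helper24.Brauer.isConjCharOf_iff (Subgroup.centralizer (P : Set G))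
            ⟨g, hx⟩ θ.1 θ'.1).mp hconj
        have h2 : θ' = Cfsg.Agent.Lib.Helper24.Brauer.cj (Subgroup.centralizer (P : Set G))
            ⟨g, hx⟩ θ := Subtype.ext h1
        rw [h2]
        exact hall θ hθ
      · rintro ⟨hgN, hform⟩
        refine ⟨hgN, ?_⟩
        have hx : g ∈ Subgroup.normalizer
            ((Subgroup.centralizer (P : Set G) : Subgroup G) : Set G) :=
          Cfsg.Agent.Lib.Helper24.Brauer.mem_normalizer_centralizer hgN
        rw [Cfsg.Agent.Lib.Helper24.Brauer.stabilizesBlock_iff]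
        refine ⟨hx, fun χ hχ => hform χ hχ
          (Cfsg.Agent.Lib.Helper24.Brauer.cj (Subgroup.centralizer (P : Set G)) ⟨g, hx⟩ χ) ?_⟩
        exact (Cfsg.Agent.Lib.Helper24.Brauer.isConjCharOf_iff (Subgroup.centralizer (P : Set G))
          ⟨g, hx⟩ χ.1 (Cfsg.Agent.Lib.Helper24.Brauer.cj (Subgroup.centralizer (P : Set G))
            ⟨g, hx⟩ χ).1).mpr rfl
    have hidx : ¬ p ∣ (Subgroup.centralizer (P : Set G)).relIndex T :=
      (Cfsg.Agent.S4437.result p M hM P hPp (Subgroup.centralizer (P : Set G)) hH c hc.1 hbP B hc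
        T hT').mp hPD
    exact Cfsg.Agent.Lib.Helper24.AbFree.backward hM B P c hpair hPab T hT hidx hnil

end Cfsg.Agent.S4650
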