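import Cfsg.Statements.S4652
import Cfsg.Agent.Lib.Helper24.DefectGroup

set_option autoImplicit false
open Cfsg

namespace Cfsg.Agent.S4652

open scoped Pointwise

theorem result {G : Type*} [Group G] [Fintype G] (p : ℕ) [Fact p.Prime] (M : Ideal Cfsg.AlgInt) (hM : Cfsg.IsPModular p M) (D : Subgroup G) : Cfsg.IsDefectGroup p M (Cfsg.principalBlock M G) D ↔ ∃ S : Sylow p G, (S : Subgroup G) = D := by
  classical
  have hB : IsPBlock M (principalBlock M G) := Cfsg.Agent.Lib.Helper24.DefectGroup.isPBlock_principal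
  have hdef := Cfsg.Agent.Lib.Helper24.DefectGroup.blockDefect_principal (G := G) p hM.2.1
  constructor
  · intro hD
    have hcard := Cfsg.Agent.Lib.Helper24.DefectGroup.card_defectGroup hM _ hB D hD
    rw [hdef] at hcard
    exact ⟨Sylow.ofCard D hcard, rfl⟩
  · rintro ⟨S, rfl⟩
    obtain ⟨g₀, hg₀⟩ := Cfsg.Agent.Lib.Helper6.exists_defectClass hM.2.1 _ hB
    obtain ⟨P₀⟩ : Nonempty (Sylow p (Subgroup.centralizer ({g₀} : Set G))) := inferInstance
    have hD₀ : IsDefectGroup p M (principalBlock M G)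
        ((P₀ : Subgroup (Subgroup.centralizer ({g₀} : Set G))).map
          (Subgroup.centralizer ({g₀} : Set G)).subtype) := ⟨g₀, hg₀, P₀, rfl⟩
    have hcard := Cfsg.Agent.Lib.Helper24.DefectGroup.card_defectGroup hM _ hB _ hD₀
    rw [hdef] at hcard
    obtain ⟨x, hx⟩ := MulAction.exists_smul_eq G (Sylow.ofCard _ hcard) S
    have h2 := Cfsg.Agent.Lib.Helper24.DefectGroup.isDefectGroup_conj hM _ hB _ hD₀ x
    have e : (S : Subgroup G) = MulAut.conj x •
        ((P₀ : Subgroup (Subgroup.centralizer ({g₀} : Set G))).map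
          (Subgroup.centralizer ({g₀} : Set G)).subtype) := by
      rw [← hx, Sylow.coe_subgroup_smul]
      rfl
    rw [e]
    exact h2

end Cfsg.Agent.S4652
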