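import Cfsg.Statements.S4654
import Cfsg.Agent.Lib.Helper24.Brauer8

set_option autoImplicit false
open Cfsg

namespace Cfsg.Agent.S4654

open Cfsg.Agent.Lib.Helper1 Cfsg.Agent.Lib.Helper6 Cfsg.Agent.Lib.Helper24

theorem result {G : Type*} [Group G] [Fintype G] (p : ℕ) [Fact p.Prime] (M : Ideal Cfsg.AlgInt) (hM : Cfsg.IsPModular p M) (P : Subgroup G) [P.Normal] (hP : IsPGroup p P) (B : Set (Cfsg.IrrCharacter G)) (e : Set (Cfsg.IrrCharacter (Subgroup.centralizer (P : Set G)))) (hBe : Cfsg.IsBrauerPairOf p M B P e) (T : Subgroup G) (hT : ∀ x : G, x ∈ T ↔ Cfsg.StabilizesBlock (Subgroup.centralizer (P : Set G)) e x) : (∃ E : Set (Cfsg.IrrCharacter T), Cfsg.IsPBlock M E ∧ ∀ t : T, Cfsg.blockCoeff E t = Cfsg.subgroupBlockCoeff (Subgroup.centralizer (P : Set G)) e (t : G)) ∧ ∀ g : G, Cfsg.blockCoeff B g = (Nat.card T : ℂ)⁻¹ * ∑ x : G, Cfsg.subgroupBlockCoeff (Subgroup.centralizer (P : Set G)) e (x⁻¹ * g * x) := by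
  refine ⟨?_, fun g => Brauer.blockCoeff_eq_trace hM P hP B e hBe T hT g⟩
  apply Brauer.exists_block_of_stable hM P T hP ?_ ?_ ?_ e hBe.1.2 (fun t ht => (hT t).mp ht)
  · intro q hq
    exact (hT q).mpr (Brauer.stabilizes_of_mem_innerOn _ e q
      (Brauer.le_innerOn P (Subgroup.mem_sup_left hq)))
  · intro t _
    rw [Subgroup.normalizer_eq_top]
    exact Subgroup.mem_top t
  · intro c hc
    exact (hT c).mpr (Brauer.stabilizes_of_mem_innerOn _ e c
      (Brauer.le_innerOn P (Subgroup.mem_sup_right hc)))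

end Cfsg.Agent.S4654
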