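import Cfsg.Statements.S4658
import Cfsg.Agent.Lib.Helper24.Brauer2

set_option autoImplicit false
open Cfsg

namespace Cfsg.Agent.S4658

open Cfsg.Agent.Lib.Helper1 Cfsg.Agent.Lib.Helper6 Cfsg.Agent.Lib.Helper24

theorem result {G : Type*} [Group G] [Fintype G] (p : ℕ) [Fact p.Prime] (M : Ideal Cfsg.AlgInt) (hM : Cfsg.IsPModular p M) (P Q : Subgroup G) (e : Set (Cfsg.IrrCharacter (Subgroup.centralizer (P : Set G)))) (f : Set (Cfsg.IrrCharacter (Subgroup.centralizer (Q : Set G)))) (hPe : Cfsg.IsBrauerPair p M P e) (hQf : Cfsg.IsBrauerPair p M Q f) (hle : Cfsg.SubpairLE p M Q f P e) (B : Set (Cfsg.IrrCharacter G)) (hB : Cfsg.IsPBlock M B) : Cfsg.IsBrauerPairOf p M B P e ↔ Cfsg.IsBrauerPairOf p M B Q f := by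
  have hmax := hM.2.1
  obtain ⟨hQP, hfB, hch⟩ := Brauer.chain hM P e hPe.2 Q f hle
  have hS : SVal M (blockCoeff B) := fun g => osima' hmax B hB g
  have hcl := isClassFunction_blockCoeff B
  have hkey := hch _ hS (Brauer.inv_of_isClassFunction hcl _) (Brauer.inv_of_isClassFunction hcl _)
  obtain ⟨ζ₀, hζ₀⟩ := Defect.block_nonempty hmax e hPe.2
  obtain ⟨η₀, hη₀⟩ := Defect.block_nonempty hmax f hQf.2
  constructor
  · rintro ⟨_, _, h⟩
    refine ⟨hQf, hB, fun η hη => ?_⟩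
    have h1 := hkey η hη ζ₀ hζ₀
    have h2 := h ζ₀ hζ₀
    have h3 := MemLocalIdeal.sub hmax h2 h1
    convert h3 using 1
    ring
  · rintro ⟨_, _, h⟩
    refine ⟨hPe, hB, fun ζ hζ => ?_⟩
    have h1 := hkey η₀ hη₀ ζ hζ
    have h2 := h η₀ hη₀
    have h3 := MemLocalIdeal.add hmax h1 h2
    convert h3 using 1
    ring

end Cfsg.Agent.S4658
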