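import Mathlib
import Cfsg.Statements.S4664
import Cfsg.Agent.Lib.Helper24.Defect

set_option autoImplicit false
open Cfsg

namespace Cfsg.Agent.S4664

/-- Fix a prime p and a maximal ideal M of the algebraic integers containing p, and let B be a p-block of the finite group G. Let m be the p'-part of the order of G and η = exp(2πi/m). Then every coefficient of the idempotent of B lies in the cyclotomic field ℚ(η). -/
theorem result {G : Type*} [Group G] [Fintype G] (p : ℕ) [Fact p.Prime] (M : Ideal Cfsg.AlgInt) (hM : Cfsg.IsPModular p M) (B : Set (Cfsg.IrrCharacter G)) (hB : Cfsg.IsPBlock M B) (g : G) : Cfsg.blockCoeff B g ∈ IntermediateField.adjoin ℚ ({Complex.exp (2 * Real.pi * Complex.I / ((Nat.card G / p ^ (Nat.card G).factorization p : ℕ) : ℂ))} : Set ℂ) := by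
  classical
  have hp : p.Prime := Fact.out
  obtain ⟨m, hm⟩ : ∃ m : ℕ, m = Nat.card G / p ^ (Nat.card G).factorization p := ⟨_, rfl⟩
  rw [← hm]
  obtain ⟨η, hη⟩ : ∃ η : ℂ, η = Complex.exp (2 * Real.pi * Complex.I / (m : ℂ)) := ⟨_, rfl⟩
  rw [← hη]
  have hG0 : Nat.card G ≠ 0 := Nat.card_pos.ne'
  have hm0 : m ≠ 0 := by
    rw [hm]
    exact (Nat.div_pos (Nat.le_of_dvd Nat.card_pos (Nat.ordProj_dvd _ _))
      (pow_pos hp.pos _)).ne'
  have hprim : IsPrimitiveRoot η m := by
    rw [hη]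
    exact Complex.isPrimitiveRoot_exp m hm0
  by_cases hg : p ∣ orderOf g
  · rw [Cfsg.Agent.Lib.Helper24.Defect.blockCoeff_eq_zero_of_singular hM B hB g hg]
    exact zero_mem _
  · have hord : orderOf g ∣ m := by
      have h1 : orderOf g ∣ Nat.card G := orderOf_dvd_natCard g
      have h2 : p ^ (Nat.card G).factorization p * m = Nat.card G := by
        rw [hm]
        exact Nat.ordProj_mul_ordCompl_eq_self _ p
      rw [← h2] at h1
      have hc : Nat.Coprime (orderOf g) (p ^ (Nat.card G).factorization p) :=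
        Nat.Coprime.pow_right _ (Nat.Coprime.symm ((Nat.Prime.coprime_iff_not_dvd hp).mpr hg))
      exact hc.dvd_of_dvd_mul_left h1
    have hηK : η ∈ IntermediateField.adjoin ℚ ({η} : Set ℂ) :=
      IntermediateField.mem_adjoin_simple_self ℚ η
    have hnat : ∀ n : ℕ, (n : ℂ) ∈ IntermediateField.adjoin ℚ ({η} : Set ℂ) := by
      intro n
      have h1 := (IntermediateField.adjoin ℚ ({η} : Set ℂ)).algebraMap_mem (n : ℚ)
      simpa using h1
    have hval : ∀ χ : IrrCharacter G,
        (starRingEnd ℂ) ((χ : G → ℂ) g) ∈ IntermediateField.adjoin ℚ ({η} : Set ℂ) := by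
      intro χ
      rw [← Cfsg.Agent.Lib.Helper24.CharBasic.char_inv
        (Cfsg.Agent.Lib.Helper24.CharBasic.isCharacter_of_irr χ.2) g]
      obtain ⟨n, ρ, -, hρ⟩ := χ.2
      rw [← hρ]
      obtain ⟨s, d, h1, -, h3, -, -⟩ := Cfsg.Agent.Lib.Helper1.char_spectral ρ g⁻¹
      have e1 := h3 1
      rw [pow_one] at e1
      rw [e1]
      apply sum_mem
      intro μ hμ
      apply mul_mem (hnat _)
      rw [pow_one]
      have hμm : μ ^ m = 1 := by
        have h4 := h1 μ hμ
        rw [orderOf_inv] at h4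
        obtain ⟨k, hk⟩ := hord
        rw [hk, pow_mul, h4, one_pow]
      haveI : NeZero m := ⟨hm0⟩
      obtain ⟨i, -, hi⟩ := hprim.eq_pow_of_pow_eq_one hμm
      rw [← hi]
      exact pow_mem hηK i
    show (Nat.card G : ℂ)⁻¹ * ∑ᶠ χ ∈ B, (χ : G → ℂ) 1 * (starRingEnd ℂ) ((χ : G → ℂ) g) ∈ _
    apply mul_mem (inv_mem (hnat _))
    haveI : Fintype (IrrCharacter G) := Cfsg.Agent.Lib.Helper1.irrFintype
    rw [finsum_mem_eq_finite_toFinset_sum _ (Set.toFinite B)]
    apply sum_mem
    intro χ _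
    apply mul_mem _ (hval χ)
    rw [Cfsg.Agent.Lib.Helper24.CharBasic.char_one_nat
      (Cfsg.Agent.Lib.Helper24.CharBasic.isCharacter_of_irr χ.2)]
    exact hnat _

end Cfsg.Agent.S4664
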