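import Mathlib
import Cfsg.Statements.S4666
import Cfsg.Agent.Lib.Helper6.RegInner

set_option autoImplicit false
open Cfsg

namespace Cfsg.Agent.S4666

/-- Fix a prime p and a maximal ideal M of the algebraic integers containing p, and a p-block B of the finite group G of defect d. For every integer combination χ of the irreducible characters in B, p^d times the function that agrees with χ on p-regular elements and vanishes elsewhere is again an integer combination of the irreducible characters in B. -/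
theorem result {G : Type*} [Group G] [Fintype G] (p : ℕ) [Fact p.Prime] (M : Ideal Cfsg.AlgInt) (hM : Cfsg.IsPModular p M) (B : Set (Cfsg.IrrCharacter G)) (hB : Cfsg.IsPBlock M B) (χ : G → ℂ) (hχ : (∃ n : Cfsg.IrrCharacter G → ℤ, ∀ g : G, χ g = ∑ᶠ ψ ∈ B, (n ψ : ℂ) * (ψ : G → ℂ) g)) : (∃ n : Cfsg.IrrCharacter G → ℤ, ∀ g : G, (p ^ Cfsg.blockDefect p B : ℂ) * Cfsg.pRegularPart p χ g = ∑ᶠ ψ ∈ B, (n ψ : ℂ) * (ψ : G → ℂ) g) := by
  classical
  haveI : Fintype (Cfsg.IrrCharacter G) := Cfsg.Agent.Lib.Helper1.irrFintype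
  have hp := (Fact.out : p.Prime)
  have hmax := hM.2.1
  obtain ⟨n, hn⟩ := hχ
  obtain ⟨s, hs⟩ : ∃ s, s = sInf ((fun χ : Cfsg.IrrCharacter G =>
    (Cfsg.charDegree (χ : G → ℂ)).factorization p) '' B) := ⟨_, rfl⟩
  obtain ⟨a, ha⟩ : ∃ a, a = (Nat.card G).factorization p := ⟨_, rfl⟩
  have hd : Cfsg.blockDefect p B = a - s := by
    unfold Cfsg.blockDefect
    rw [← hs, ← ha]
  have hsle : ∀ φ ∈ B, s ≤ (Cfsg.charDegree (φ : G → ℂ)).factorization p := by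
    intro φ hφ
    rw [hs]
    exact Nat.sInf_le ⟨φ, hφ, rfl⟩
  obtain ⟨χ₀, hχ₀⟩ := Cfsg.Agent.Lib.Helper24.Defect.block_nonempty hmax B hB
  have hsa : s ≤ a := le_trans (hsle χ₀ hχ₀)
    (by rw [ha]; exact Cfsg.Agent.Lib.Helper24.Defect.degree_factorization_le p χ₀)
  have hdiv : ∀ φ ∈ B, ∀ ψ : Cfsg.IrrCharacter G,
      (p : ℤ) ^ s ∣ Cfsg.Agent.Lib.Helper6.regCoef p φ ψ := fun φ hφ ψ =>
    dvd_trans (pow_dvd_pow _ (hsle φ hφ)) (Cfsg.Agent.Lib.Helper6.pow_dvd_regCoef_left p φ ψ)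
  have hps : ((p : ℂ) ^ s) ≠ 0 := pow_ne_zero _ (by exact_mod_cast hp.ne_zero)
  have key : ∀ φ ∈ B, ∀ g : G,
      ∑ ψ ∈ Finset.univ.filter (fun ψ : Cfsg.IrrCharacter G => ψ ∈ B),
        ((Cfsg.Agent.Lib.Helper6.regCoef p φ ψ / (p : ℤ) ^ s : ℤ) : ℂ) * (ψ : G → ℂ) g =
      (p : ℂ) ^ (a - s) * Cfsg.pRegularPart p (φ : G → ℂ) g := by
    intro φ hφ g
    apply mul_left_cancel₀ hps
    rw [Finset.mul_sum]
    have h1 : ∑ ψ ∈ Finset.univ.filter (fun ψ : Cfsg.IrrCharacter G => ψ ∈ B),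
        (p : ℂ) ^ s * (((Cfsg.Agent.Lib.Helper6.regCoef p φ ψ / (p : ℤ) ^ s : ℤ) : ℂ) *
          (ψ : G → ℂ) g) =
        ∑ ψ : Cfsg.IrrCharacter G,
          (Cfsg.Agent.Lib.Helper6.regCoef p φ ψ : ℂ) * (ψ : G → ℂ) g := by
      rw [Finset.sum_filter]
      apply Finset.sum_congr rfl
      intro ψ _
      split_ifs with hψ
      · have h2 := Int.mul_ediv_cancel' (hdiv φ hφ ψ)
        have h3 : ((p : ℂ) ^ s) * ((Cfsg.Agent.Lib.Helper6.regCoef p φ ψ / (p : ℤ) ^ s : ℤ) : ℂ)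
            = (Cfsg.Agent.Lib.Helper6.regCoef p φ ψ : ℂ) := by exact_mod_cast h2
        rw [← mul_assoc, h3]
      · rw [Cfsg.Agent.Lib.Helper6.regCoef_eq_zero hM φ ψ (fun h => hψ (by
          rw [Cfsg.Agent.Lib.Helper24.Defect.block_eq_blockOf hmax B hB hφ]
          exact h))]
        simp
    rw [h1, ← Cfsg.Agent.Lib.Helper6.regPart_eq_sum p φ g]
    unfold Cfsg.Agent.Lib.Helper6.regPart Cfsg.pRegularPart Cfsg.IsPRegular
    rw [← ha]
    have hpow : ((p ^ a : ℕ) : ℂ) = (p : ℂ) ^ s * (p : ℂ) ^ (a - s) := by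
      rw [← pow_add, Nat.cast_pow]
      congr 1
      omega
    by_cases hg : p ∣ orderOf g
    · simp [hg]
    · have hg' : ¬ p ∣ orderOf g := hg
      rw [if_neg hg, if_pos hg', hpow]
      ring
  refine ⟨fun ψ => ∑ φ ∈ Finset.univ.filter (fun φ : Cfsg.IrrCharacter G => φ ∈ B),
    n φ * (Cfsg.Agent.Lib.Helper6.regCoef p φ ψ / (p : ℤ) ^ s), ?_⟩
  intro g
  rw [Cfsg.Agent.Lib.Helper24.Defect.finsum_block_eq_sum, hd]
  have h3 : ∑ ψ ∈ Finset.univ.filter (fun ψ : Cfsg.IrrCharacter G => ψ ∈ B),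
      ((∑ φ ∈ Finset.univ.filter (fun φ : Cfsg.IrrCharacter G => φ ∈ B),
        n φ * (Cfsg.Agent.Lib.Helper6.regCoef p φ ψ / (p : ℤ) ^ s) : ℤ) : ℂ) * (ψ : G → ℂ) g =
      ∑ φ ∈ Finset.univ.filter (fun φ : Cfsg.IrrCharacter G => φ ∈ B), (n φ : ℂ) *
        ∑ ψ ∈ Finset.univ.filter (fun ψ : Cfsg.IrrCharacter G => ψ ∈ B),
          ((Cfsg.Agent.Lib.Helper6.regCoef p φ ψ / (p : ℤ) ^ s : ℤ) : ℂ) * (ψ : G → ℂ) g := by
    simp only [Int.cast_sum, Finset.sum_mul, Finset.mul_sum]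
    rw [Finset.sum_comm]
    apply Finset.sum_congr rfl
    intro φ _
    apply Finset.sum_congr rfl
    intro ψ _
    push_cast
    ring
  rw [h3]
  have h4 : Cfsg.pRegularPart p χ g =
      ∑ φ ∈ Finset.univ.filter (fun φ : Cfsg.IrrCharacter G => φ ∈ B),
        (n φ : ℂ) * Cfsg.pRegularPart p (φ : G → ℂ) g := by
    unfold Cfsg.pRegularPart
    by_cases hg : Cfsg.IsPRegular p g
    · simp only [if_pos hg]
      rw [hn g, Cfsg.Agent.Lib.Helper24.Defect.finsum_block_eq_sum]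
    · simp only [if_neg hg, mul_zero, Finset.sum_const_zero]
  rw [h4, Finset.mul_sum]
  apply Finset.sum_congr rfl
  intro φ hφ
  rw [key φ (Finset.mem_filter.mp hφ).2 g]
  ring

end Cfsg.Agent.S4666
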