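import Cfsg.Statements.S4668
import Cfsg.Agent.Lib.Helper24.NormalP
import Cfsg.Agent.Lib.Helper9.Coprime

set_option autoImplicit false
open Cfsg

namespace Cfsg.Agent.S4668

theorem result {G : Type*} [Group G] [Fintype G] (p : ℕ) [Fact p.Prime] (M : Ideal Cfsg.AlgInt) (hM : Cfsg.IsPModular p M) (m : ℕ) (Q : Fin (m + 1) → Subgroup G) (hQ : StrictMono Q) (hQp : ∀ i, IsPGroup p (Q i)) (N : Subgroup G) (hN : ∀ g : G, g ∈ N ↔ ∀ i, g ∈ Subgroup.normalizer (Q i : Set G)) (E : Set (Cfsg.IrrCharacter N)) (hE : Cfsg.IsPBlock M E) (n : N) (hn : (n : G) ∉ Subgroup.centralizer (Q (Fin.last m) : Set G)) : Cfsg.blockCoeff E n = 0 := by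
  classical
  have hp : p.Prime := Fact.out
  by_cases hreg : p ∣ orderOf n
  · exact Cfsg.Agent.Lib.Helper24.Defect.blockCoeff_eq_zero_of_singular hM E hE n hreg
  have hRn : ((Q (Fin.last m)).subgroupOf N).Normal := by
    constructor
    intro r hr t
    rw [Subgroup.mem_subgroupOf] at hr ⊢
    have ht := ((hN (t : G)).mp t.2) (Fin.last m)
    exact (Subgroup.mem_normalizer_iff.mp ht (r : G)).mp hr
  have hRp : IsPGroup p ((Q (Fin.last m)).subgroupOf N) := (hQp (Fin.last m)).comap_subtype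
  apply Cfsg.Agent.Lib.Helper24.NormalP.blockCoeff_eq_zero_of_not_centralizing hM
    ((Q (Fin.last m)).subgroupOf N) hRp E hE n
  intro hcen
  apply hn
  have hcomm : ∀ x : G, x ∈ N → x ∈ Q (Fin.last m) → x * (n : G) = (n : G) * x := by
    intro x hxN hxQ
    have h1 := Subgroup.mem_centralizer_iff.mp hcen ⟨x, hxN⟩
      (show (⟨x, hxN⟩ : N) ∈ (Q (Fin.last m)).subgroupOf N from hxQ)
    exact congrArg (fun z : N => (z : G)) h1
  have hcentnorm : ∀ (x : G) (j : Fin (m + 1)), (∀ b ∈ Q j, b * x = x * b) →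
      x ∈ Subgroup.normalizer (Q j : Set G) := by
    intro x j hx
    rw [Subgroup.mem_normalizer_iff]
    intro h
    constructor
    · intro hh
      have e : x * h * x⁻¹ = h := by
        rw [← hx h hh, mul_inv_cancel_right]
      rw [e]
      exact hh
    · intro hh
      have h2 := hx _ hh
      have h3 : x * h * x⁻¹ * x = x * h := by group
      rw [h3] at h2
      have e : h = x * h * x⁻¹ := mul_left_cancel h2
      rw [e]
      exact hh
  have hord : (orderOf (n : G)).Coprime p := by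
    rw [Subgroup.orderOf_coe]
    exact ((Nat.Prime.coprime_iff_not_dvd hp).mpr hreg).symm
  have hnN : ∀ j : Fin (m + 1), (n : G) ∈ Subgroup.normalizer (Q j : Set G) := (hN (n : G)).mp n.2
  have key : ∀ (k : ℕ) (hk : k < m + 1), ∀ x ∈ Q ⟨k, hk⟩, (n : G) * x = x * (n : G) := by
    intro k
    induction k with
    | zero =>
      intro hk x hx
      have hxN : x ∈ N := by
        rw [hN]
        intro j
        have hle : Q ⟨0, hk⟩ ≤ Q j := hQ.monotone (Fin.mk_le_mk.mpr (Nat.zero_le _))
        exact Subgroup.le_normalizer (hle hx)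
      have hxQ : x ∈ Q (Fin.last m) := hQ.monotone (Fin.le_last _) hx
      exact (hcomm x hxN hxQ).symm
    | succ k ih =>
      intro hk x hx
      have hk' : k < m + 1 := by omega
      have hle : Q ⟨k, hk'⟩ ≤ Q ⟨k + 1, hk⟩ := hQ.monotone (Fin.mk_le_mk.mpr (Nat.le_succ k))
      apply Cfsg.Agent.Lib.Helper9.thompson_AxB hord (hQp ⟨k, hk'⟩) (hQp ⟨k + 1, hk⟩)
        (fun b hb => ih hk' b hb) (hnN _) (hle.trans Subgroup.le_normalizer) _ x hx
      intro z hz hzc
      have hzN : z ∈ N := by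
        rw [hN]
        intro j
        by_cases hj : (j : ℕ) ≤ k
        · apply hcentnorm z j
          intro b hb
          have hle2 : Q j ≤ Q ⟨k, hk'⟩ := hQ.monotone (Fin.mk_le_mk.mpr hj)
          exact hzc b (hle2 hb)
        · have hle2 : Q ⟨k + 1, hk⟩ ≤ Q j := hQ.monotone (Fin.mk_le_mk.mpr (by omega))
          exact Subgroup.le_normalizer (hle2 hz)
      have hzQ : z ∈ Q (Fin.last m) := hQ.monotone (Fin.le_last _) hz
      exact (hcomm z hzN hzQ).symm
  rw [Subgroup.mem_centralizer_iff]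
  intro h hh
  exact (key m (Nat.lt_succ_self m) h hh).symm

end Cfsg.Agent.S4668
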