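import Cfsg.Statements.S4670
import Cfsg.Agent.Lib.Helper24.Brauer21

set_option autoImplicit false
open Cfsg

namespace Cfsg.Agent.S4670

open Cfsg.Agent.Lib.Helper1 Cfsg.Agent.Lib.Helper6 Cfsg.Agent.Lib.Helper24

theorem result {G : Type*} [Group G] [Fintype G] (p : ℕ) [Fact p.Prime] (M : Ideal Cfsg.AlgInt) (hM : Cfsg.IsPModular p M) (P H : Subgroup G) (hP : IsPGroup p P) (hH : Subgroup.normalizer (P : Set G) ≤ H) : (∀ B : Set (Cfsg.IrrCharacter G), Cfsg.IsPBlock M B → Cfsg.IsDefectGroup p M B P → ∃! c : Set (Cfsg.IrrCharacter H), Cfsg.IsPBlock M c ∧ Cfsg.IsDefectGroup p M c (P.subgroupOf H) ∧ ∀ x : G, x ∈ Subgroup.centralizer (P : Set G) → Cfsg.MemLocalIdeal M (Cfsg.blockCoeff B x - Cfsg.subgroupBlockCoeff H c x)) ∧ (∀ c : Set (Cfsg.IrrCharacter H), Cfsg.IsPBlock M c → Cfsg.IsDefectGroup p M c (P.subgroupOf H) → ∃! B : Set (Cfsg.IrrCharacter G), Cfsg.IsPBlock M B ∧ Cfsg.IsDefectGroup p M B P ∧ ∀ x : G, x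 ∈ Subgroup.centralizer (P : Set G) → Cfsg.MemLocalIdeal M (Cfsg.blockCoeff B x - Cfsg.subgroupBlockCoeff H c x)) := by
  have hPH : P ≤ H := Subgroup.le_normalizer.trans hH
  obtain ⟨P', hP'⟩ : ∃ P' : Subgroup H, P = P'.map H.subtype :=
    ⟨P.subgroupOf H, (Subgroup.map_subgroupOf_eq_of_le hPH).symm⟩
  subst hP'
  have e1 : (P'.map H.subtype).subgroupOf H = P' :=
    Subgroup.comap_map_eq_self_of_injective H.subtype_injective P'
  rw [e1]
  exact Brauer.brauer_first hM H P'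
    (hP.of_equiv (Subgroup.equivMapOfInjective P' H.subtype H.subtype_injective).symm) hH

end Cfsg.Agent.S4670
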