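import Cfsg.Statements.S4682
import Cfsg.Agent.Lib.Helper24.Brauer16

set_option autoImplicit false
open Cfsg

namespace Cfsg.Agent.S4682

open Cfsg.Agent.Lib.Helper1 Cfsg.Agent.Lib.Helper6 Cfsg.Agent.Lib.Helper24

theorem result {G : Type*} [Group G] [Fintype G] (p : ℕ) [Fact p.Prime] (M : Ideal Cfsg.AlgInt) (hM : Cfsg.IsPModular p M) (B : Set (Cfsg.IrrCharacter G)) (P : Subgroup G) (e : Set (Cfsg.IrrCharacter (Subgroup.centralizer (P : Set G)))) (hmax : Cfsg.IsMaximalBrauerPair p M B P e) (hab : ∀ x ∈ P, ∀ y ∈ P, x * y = y * x) (Q : Subgroup G) (f : Set (Cfsg.IrrCharacter (Subgroup.centralizer (Q : Set G)))) (hQP : Q ≤ P) (hf : Cfsg.IsPBlock M f) (hle : Cfsg.SubpairLE p M Q f P e) (TQ : Subgroup G) (hTQ : ∀ y : G, y ∈ TQ ↔ y ∈ Subgroup.normalizer (Q : Set G) ∧ Cfsg.StabilizesBlock (Subgroup.centralizer (Q : Set G)) f y) (TP : Subgroup G) (hTP : ∀ y : G, y ∈ TP ↔ y ∈ Subgroup.normalizer (P : Set G) ∧ Cfsg.StabilizesBlock (Subgroup.centralizer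 (P : Set G)) e y) : (∀ x ∈ TQ, ∃ y ∈ TP, ∃ c ∈ Subgroup.centralizer (Q : Set G), x = y * c) ∧ ((Subgroup.centralizer (Q : Set G)).subgroupOf TQ).index = ((TP ⊓ Subgroup.centralizer (Q : Set G)).subgroupOf (TP ⊓ Subgroup.normalizer (Q : Set G))).index := by
  have hPe := hmax.1.1
  have part1 : ∀ x ∈ TQ, ∃ y ∈ TP, ∃ c ∈ Subgroup.centralizer (Q : Set G), x = y * c := by
    intro x hx
    obtain ⟨hxN, hxst⟩ := (hTQ x).mp hx
    obtain ⟨t, htN, htst, c, hc, hxe⟩ :=
      Brauer.abelian_control hM B P e hmax hab Q f hle x hxN hxst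
    exact ⟨t, (hTP t).mpr ⟨htN, htst⟩, c, hc, hxe⟩
  refine ⟨part1, ?_⟩
  have hCN : Subgroup.centralizer (Q : Set G) ≤ Subgroup.normalizer (Q : Set G) :=
    Subgroup.centralizer_le_normalizer _
  have hCTQ : Subgroup.centralizer (Q : Set G) ≤ TQ := fun c hc =>
    (hTQ c).mpr ⟨hCN hc,
      Brauer.stabilizes_of_mem_innerOn _ f c (Brauer.le_innerOn Q (Subgroup.mem_sup_right hc))⟩
  have hTQN : TQ ≤ Subgroup.normalizer (Q : Set G) := fun y hy => ((hTQ y).mp hy).1
  have hATQ : TP ⊓ Subgroup.normalizer (Q : Set G) ≤ TQ := by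
    intro y hy
    obtain ⟨hyTP, hyN⟩ := Subgroup.mem_inf.mp hy
    obtain ⟨hyNP, hyst⟩ := (hTP y).mp hyTP
    refine (hTQ y).mpr ⟨hyN, ?_⟩
    have h2 : Relation.ReflTransGen (NormalSubpairRel p M)
        (⟨Q.map (MulAut.conj y).toMonoidHom, conjBlock Q y f⟩ : BrauerPairIdx G)
        ⟨P.map (MulAut.conj y).toMonoidHom, conjBlock P y e⟩ :=
      Brauer.subpairLE_conj Q P y f e hle
    rw [(Brauer.conjPair_eq_iff P e y).mpr ⟨hyNP, hyst⟩] at h2
    have hQy : Q = Q.map (MulAut.conj y).toMonoidHom := by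
      ext k
      rw [Brauer.mem_map_conj]
      have hyN' := Subgroup.mem_normalizer_iff.mp hyN
      have e1 : y * (y⁻¹ * k * y) * y⁻¹ = k := by group
      rw [hyN' (y⁻¹ * k * y), e1]
    exact ((Brauer.conjPair_eq_iff Q f y).mp
      (Brauer.pair_eq_of_le_of_le hM P Q _ e hPe f _ hle h2 hQy)).2
  have hTQeq : TQ.subgroupOf (Subgroup.normalizer (Q : Set G))
      = (TP ⊓ Subgroup.normalizer (Q : Set G)).subgroupOf (Subgroup.normalizer (Q : Set G))
        ⊔ (Subgroup.centralizer (Q : Set G)).subgroupOf (Subgroup.normalizer (Q : Set G)) := by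
    apply le_antisymm
    · intro y hy
      obtain ⟨t, ht, c, hc, hyc⟩ := part1 (y : G) (Subgroup.mem_subgroupOf.mp hy)
      have htN : t ∈ Subgroup.normalizer (Q : Set G) := by
        have e1 : t = (y : G) * c⁻¹ := by
          rw [hyc]
          group
        rw [e1]
        exact Subgroup.mul_mem _ y.2 (Subgroup.inv_mem _ (hCN hc))
      have e2 : y = (⟨t, htN⟩ : Subgroup.normalizer (Q : Set G)) * ⟨c, hCN hc⟩ :=
        Subtype.ext hyc
      rw [e2]
      exact Subgroup.mul_mem_sup (Subgroup.mem_subgroupOf.mpr (Subgroup.mem_inf.mpr ⟨ht, htN⟩))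
        (Subgroup.mem_subgroupOf.mpr hc)
    · apply sup_le
      · intro y hy
        exact Subgroup.mem_subgroupOf.mpr (hATQ (Subgroup.mem_subgroupOf.mp hy))
      · intro y hy
        exact Subgroup.mem_subgroupOf.mpr (hCTQ (Subgroup.mem_subgroupOf.mp hy))
  have hCn : ((Subgroup.centralizer (Q : Set G)).subgroupOf
      (Subgroup.normalizer (Q : Set G))).Normal :=
    Subgroup.normal_subgroupOf_of_le_normalizer
      (fun y hy => Brauer.mem_normalizer_centralizer hy)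
  have e1 : ((Subgroup.centralizer (Q : Set G)).subgroupOf TQ).index
      = (Subgroup.centralizer (Q : Set G)).relIndex TQ := rfl
  have e2 : ((TP ⊓ Subgroup.centralizer (Q : Set G)).subgroupOf
      (TP ⊓ Subgroup.normalizer (Q : Set G))).index
      = (TP ⊓ Subgroup.centralizer (Q : Set G)).relIndex
        (TP ⊓ Subgroup.normalizer (Q : Set G)) := rfl
  have e3 : TP ⊓ Subgroup.centralizer (Q : Set G)
      = Subgroup.centralizer (Q : Set G) ⊓ (TP ⊓ Subgroup.normalizer (Q : Set G)) := by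
    ext z
    simp only [Subgroup.mem_inf]
    constructor
    · rintro ⟨a, b⟩
      exact ⟨b, a, hCN b⟩
    · rintro ⟨a, b, -⟩
      exact ⟨b, a⟩
  rw [e1, e2, e3, Subgroup.inf_relIndex_right, ← Subgroup.relIndex_subgroupOf hTQN,
    ← Subgroup.relIndex_subgroupOf (inf_le_right : TP ⊓ Subgroup.normalizer (Q : Set G)
      ≤ Subgroup.normalizer (Q : Set G)), hTQeq, Subgroup.relIndex_sup_right]

end Cfsg.Agent.S4682
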