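import Cfsg.Statements.S4683
import Cfsg.Agent.Lib.Helper24.Subsec3

set_option autoImplicit false
open Cfsg

namespace Cfsg.Agent.S4683

open Cfsg.Agent.Lib.Helper1 Cfsg.Agent.Lib.Helper6 Cfsg.Agent.Lib.Helper24

theorem result {G : Type*} [Group G] [Fintype G] (p : ℕ) [Fact p.Prime] (M : Ideal Cfsg.AlgInt) (hM : Cfsg.IsPModular p M) (B : Set (Cfsg.IrrCharacter G)) (u : G) (hu : ∃ k : ℕ, orderOf u = p ^ k) (e : Set (Cfsg.IrrCharacter (Subgroup.centralizer (Subgroup.zpowers u : Set G)))) (hBe : Cfsg.IsBrauerPairOf p M B (Subgroup.zpowers u) e) : ∑ᶠ χ ∈ B, ∑ᶠ s : Subgroup.centralizer (Subgroup.zpowers u : Set G), Cfsg.pRegularPart p (Cfsg.blockPart e (fun c : Subgroup.centralizer (Subgroup.zpowers u : Set G) => (χ : G → ℂ) (u * c))) s * Cfsg.blockPart e (fun c : Subgroup.centralizer (Subgroup.zpowers u : Set G) => (χ : G → ℂ) (u⁻¹ * c)) s⁻¹ = (Nat.card (Subgroup.centralizer (Subgroup.zpowers u : Set G)) : ℂ) * (Cfsg.blockRank p e : ℂ) := by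
  have hPp : IsPGroup p (Subgroup.zpowers u) := by
    obtain ⟨k, hk⟩ := hu
    apply IsPGroup.of_card (n := k)
    rw [Nat.card_zpowers, hk]
  have hind := (Brauer.induced_centralizer_iff hM (Subgroup.zpowers u) hPp e B).mpr hBe
  haveI : Fintype (Subgroup.centralizer ((Subgroup.zpowers u : Subgroup G) : Set G)) :=
    Fintype.ofFinite _
  have key := Subsec.subsection_norm hM B u hu _ (Brauer.centralizer_singleton_eq u).symm e hind
  rw [← key]
  apply finsum_mem_congr rfl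
  intro χ _
  rw [finsum_eq_sum_of_fintype]

end Cfsg.Agent.S4683
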