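import Cfsg.Statements.S4686
import Cfsg.Agent.Lib.Helper24.Brauer15

set_option autoImplicit false
open Cfsg

namespace Cfsg.Agent.S4686

open Cfsg.Agent.Lib.Helper1 Cfsg.Agent.Lib.Helper6 Cfsg.Agent.Lib.Helper24

theorem result {G : Type*} [Group G] [Fintype G] (p : ℕ) [Fact p.Prime] (M : Ideal Cfsg.AlgInt) (hM : Cfsg.IsPModular p M) (B : Set (Cfsg.IrrCharacter G)) (P : Subgroup G) (e : Set (Cfsg.IrrCharacter (Subgroup.centralizer (P : Set G)))) (hmax : Cfsg.IsMaximalBrauerPair p M B P e) (F : Cfsg.FusionSystem P) (hF : Cfsg.IsBlockFusionSystemOn p M B P e F) : Cfsg.IsNilpotentBlock p M B ↔ ∀ Q : Subgroup G, F.Hom Q = (Cfsg.innerFusionSystem P).Hom Q := by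
  constructor
  · intro hnil Q
    ext φ
    constructor
    · intro hφ
      obtain ⟨hQP, g, hg, hQg, f, hle, hleg⟩ := (hF.2 Q φ).mp hφ
      obtain ⟨s, hsP, hs⟩ := Brauer.nil_fusion hM B P e hmax hnil (Nat.card P) Q f g
        (Nat.le_add_left _ _) hle hleg
      exact ⟨hQP, s, hsP, fun x => (hg x).trans (hs x x.2)⟩
    · rintro ⟨hQP, s, hsP, hs⟩
      have h1 : φ = conjHom Q s := MonoidHom.ext (fun x => (hs x).trans rfl)
      rw [h1]
      exact F.conj_mem hQP hsP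
  · intro hinner
    apply Brauer.nil_of_control hM B P e hmax
    intro Q f hle y hyN hyst
    have hPe := hmax.1.1
    have hQP : Q ≤ P := (Brauer.chain hM P e hPe.2 Q f hle).1
    have hpe := (Brauer.conjPair_eq_iff Q f y).mpr ⟨hyN, hyst⟩
    have hley : Relation.ReflTransGen (NormalSubpairRel p M)
        (⟨Q.map (MulAut.conj y).toMonoidHom, conjBlock Q y f⟩ : BrauerPairIdx G) ⟨P, e⟩ := by
      rw [hpe]
      exact hle
    have hQy : Q.map (MulAut.conj y).toMonoidHom ≤ P := (Brauer.chain hM P e hPe.2 _ _ hley).1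
    have hmem : conjHom Q y ∈ F.Hom Q :=
      (hF.2 Q (conjHom Q y)).mpr ⟨hQP, y, fun u => rfl, hQy, f, hle, hley⟩
    rw [hinner Q] at hmem
    obtain ⟨-, s, hsP, hs⟩ := hmem
    exact ⟨s, hsP, fun u hu => hs ⟨u, hu⟩⟩

end Cfsg.Agent.S4686
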