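import Cfsg.Statements.S4687
import Cfsg.Agent.Lib.Helper24.Brauer16

set_option autoImplicit false
open Cfsg

namespace Cfsg.Agent.S4687

open Cfsg.Agent.Lib.Helper1 Cfsg.Agent.Lib.Helper6 Cfsg.Agent.Lib.Helper24

theorem result {G : Type*} [Group G] [Fintype G] (p : ℕ) [Fact p.Prime] (M : Ideal Cfsg.AlgInt) (hM : Cfsg.IsPModular p M) (B : Set (Cfsg.IrrCharacter G)) (P : Subgroup G) (e : Set (Cfsg.IrrCharacter (Subgroup.centralizer (P : Set G)))) (hmax : Cfsg.IsMaximalBrauerPair p M B P e) (hab : ∀ x ∈ P, ∀ y ∈ P, x * y = y * x) : Cfsg.IsNilpotentBlock p M B ↔ ∀ x : G, x ∈ Subgroup.normalizer (P : Set G) → Cfsg.StabilizesBlock (Subgroup.centralizer (P : Set G)) e x → x ∈ Subgroup.centralizer (P : Set G) := by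
  constructor
  · intro hnil x hxN hxst
    obtain ⟨s, hsP, hs⟩ := Brauer.nil_base hM B P e hmax hnil x hxN hxst
    rw [Subgroup.mem_centralizer_iff]
    intro u hu
    have h1 := hs u hu
    have h2 : s * u * s⁻¹ = u := by
      rw [hab s hsP u hu]
      group
    rw [h2] at h1
    have e1 : u * x = x * u * x⁻¹ * x := by rw [h1]
    rw [e1]
    group
  · intro hC
    apply Brauer.nil_of_control hM B P e hmax
    intro Q f hle y hyN hyst
    obtain ⟨t, htN, htst, c, hc, hy⟩ :=
      Brauer.abelian_control hM B P e hmax hab Q f hle y hyN hyst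
    have hQP : Q ≤ P := (Brauer.chain hM P e hmax.1.1.2 Q f hle).1
    have htC := hC t htN htst
    refine ⟨1, P.one_mem, fun u hu => ?_⟩
    have h1 := Subgroup.mem_centralizer_iff.mp htC u (hQP hu)
    have h2 := Subgroup.mem_centralizer_iff.mp hc u hu
    rw [hy]
    have e1 : t * c * u * (t * c)⁻¹ = t * (c * u) * c⁻¹ * t⁻¹ := by group
    rw [e1, ← h2]
    have e2 : t * (u * c) * c⁻¹ * t⁻¹ = t * u * t⁻¹ := by group
    rw [e2, ← h1]
    group

end Cfsg.Agent.S4687
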