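import Mathlib
import Cfsg.Statements.S4710
import Cfsg.Agent.Lib.Helper6.BrauerFeit2

set_option autoImplicit false
open Cfsg

namespace Cfsg.Agent.S4710

/-- Let p be a prime, M a maximal ideal of the algebraic integers containing p, and B a p-block of defect d of the finite group G containing k irreducible characters. If B contains a character of positive height then 2k ≤ p^(2d − 2); and every character in B has height 0 when d ≤ 1 and height at most d − 2 when d ≥ 2. -/
theorem result {G : Type*} [Group G] [Finite G] (p : ℕ) [Fact p.Prime] (M : Ideal Cfsg.AlgInt) (hM : Cfsg.IsPModular p M) (B : Set (Cfsg.IrrCharacter G)) (hB : Cfsg.IsPBlock M B) (d : ℕ) (hd : Cfsg.blockDefect p B = d) : ((∃ χ ∈ B, 0 < Cfsg.blockHeight p B (χ : G → ℂ)) → 2 * Nat.card B ≤ p ^ (2 * d - 2)) ∧ ∀ χ ∈ B, (d ≤ 1 → Cfsg.blockHeight p B (χ : G → ℂ) = 0) ∧ (2 ≤ d → Cfsg.blockHeight p B (χ : G → ℂ) ≤ d - 2) := by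
  classical
  haveI : Fintype G := Fintype.ofFinite G
  haveI : Fintype (Cfsg.IrrCharacter G) := Cfsg.Agent.Lib.Helper1.irrFintype
  have hp := (Fact.out : p.Prime)
  subst hd
  constructor
  · rintro ⟨χ, hχ, hpos⟩
    have hpos' : Cfsg.blockHeight p B (χ : G → ℂ) ≠ 0 := by omega
    have h1 := Cfsg.Agent.Lib.Helper6.card_pos_height_le hM B hB
    have h2 := Cfsg.Agent.Lib.Helper6.card_height_zero_le hM B hB hχ hpos'
    have h3 := Cfsg.Agent.Lib.Helper6.height_add_two_le hM B hB hχ hpos'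
    have hcard : Nat.card B =
        (Finset.univ.filter (fun χ : Cfsg.IrrCharacter G =>
          χ ∈ B ∧ Cfsg.blockHeight p B (χ : G → ℂ) ≠ 0)).card +
        (Finset.univ.filter (fun χ : Cfsg.IrrCharacter G =>
          χ ∈ B ∧ Cfsg.blockHeight p B (χ : G → ℂ) = 0)).card := by
      have e1 : Nat.card B = (Finset.univ.filter (fun χ : Cfsg.IrrCharacter G => χ ∈ B)).card := by
        rw [Nat.card_eq_fintype_card, Fintype.card_subtype]
      rw [e1, ← Finset.card_filter_add_card_filter_not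
        (fun χ : Cfsg.IrrCharacter G => Cfsg.blockHeight p B (χ : G → ℂ) ≠ 0),
        Finset.filter_filter, Finset.filter_filter]
      simp only [not_not]
    rw [hcard]
    have hd2 : (p ^ Cfsg.blockDefect p B) ^ 2 = p ^ 2 * p ^ (2 * Cfsg.blockDefect p B - 2) := by
      rw [← pow_mul, ← pow_add]
      congr 1
      omega
    rw [hd2] at h1 h2
    have hp2 : 0 < p ^ 2 := pow_pos hp.pos 2
    have h1' : 4 * (Finset.univ.filter (fun χ : Cfsg.IrrCharacter G =>
        χ ∈ B ∧ Cfsg.blockHeight p B (χ : G → ℂ) ≠ 0)).card ≤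
        p ^ (2 * Cfsg.blockDefect p B - 2) := by
      have h4 : p ^ 2 * (4 * (Finset.univ.filter (fun χ : Cfsg.IrrCharacter G =>
          χ ∈ B ∧ Cfsg.blockHeight p B (χ : G → ℂ) ≠ 0)).card) ≤
          p ^ 2 * p ^ (2 * Cfsg.blockDefect p B - 2) := by linarith
      exact le_of_mul_le_mul_left h4 hp2
    have h2' : 4 * (Finset.univ.filter (fun χ : Cfsg.IrrCharacter G =>
        χ ∈ B ∧ Cfsg.blockHeight p B (χ : G → ℂ) = 0)).card ≤
        p ^ (2 * Cfsg.blockDefect p B - 2) := by
      have h4 : p ^ 2 * (4 * (Finset.univ.filter (fun χ : Cfsg.IrrCharacter G =>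
          χ ∈ B ∧ Cfsg.blockHeight p B (χ : G → ℂ) = 0)).card) ≤
          p ^ 2 * p ^ (2 * Cfsg.blockDefect p B - 2) := by linarith
      exact le_of_mul_le_mul_left h4 hp2
    omega
  · intro χ hχ
    by_cases h0 : Cfsg.blockHeight p B (χ : G → ℂ) = 0
    · exact ⟨fun _ => h0, fun _ => by omega⟩
    · have h3 := Cfsg.Agent.Lib.Helper6.height_add_two_le hM B hB hχ h0
      exact ⟨fun hd1 => by omega, fun _ => by omega⟩

end Cfsg.Agent.S4710
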