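import Cfsg.Statements.S4713
import Cfsg.Agent.Lib.Helper1.CharIto3
import Cfsg.Agent.Lib.Helper12.PSolvable
import Cfsg.Agent.Lib.Helper4.PSolv
open Cfsg.Agent.Lib.Helper1 Representation
open scoped ComplexConjugate

set_option autoImplicit false
open Cfsg

namespace Cfsg.Agent.S4713

/-- Let p be a prime and G a finite p-solvable group. Then G has a normal abelian Sylow p-subgroup if and only if the degree of every irreducible character of G is prime to p. -/
theorem result {G : Type*} [Group G] [Finite G] (p : ℕ) [Fact p.Prime] (hsolv : Cfsg.IsPSolvable p G) (P : Sylow p G) : ((P : Subgroup G).Normal ∧ IsMulCommutative P) ↔ ∀ χ : Cfsg.IrrCharacter G, ¬ p ∣ Cfsg.charDegree (χ : G → ℂ) := by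
  classical
  haveI : Fintype G := Fintype.ofFinite G
  have hp : p.Prime := Fact.out
  constructor
  · rintro ⟨hPn, hPc⟩ χ hdvd
    obtain ⟨n, ρ, hρ, hρχ⟩ := χ.2
    haveI := hρ
    haveI := hPn
    have hPab : ∀ a ∈ (P : Subgroup G), ∀ b ∈ (P : Subgroup G), a * b = b * a := by
      intro a ha b hb
      have h1 := hPc.is_comm.comm (⟨a, ha⟩ : (P : Subgroup G)) ⟨b, hb⟩
      exact congrArg Subtype.val h1
    have h1 := ito ρ (P : Subgroup G) hPab
    have h2 : Cfsg.charDegree (χ : G → ℂ) = Module.finrank ℂ (Fin n → ℂ) := by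
      apply charDegree_eq
      rw [← hρχ, char_one]
    rw [h2] at hdvd
    exact P.not_dvd_index (hdvd.trans h1)
  · intro h
    have hPD : PD p G := by
      intro χ hχ d hd
      have h1 := h ⟨χ, hχ⟩
      rwa [charDegree_eq hd] at h1
    obtain ⟨P₀, hP₀n, hP₀ab, hP₀p, hP₀idx⟩ :=
      ito_converse_generic p hp (fun Y _ => Cfsg.IsPSolvable p Y)
        (fun Y _ _ M _ hY => Cfsg.Agent.Lib.Helper4.PSolv.isPSolvable_of_surjective
          (QuotientGroup.mk' M) (QuotientGroup.mk'_surjective M) hY)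
        (fun Y _ _ K _ hY => Cfsg.Agent.Lib.Helper12.PSolvable.isPSolvable_subgroup hY K)
        (fun Y _ _ _ hY => by
          obtain ⟨D, hDn, -, hD0, hD⟩ :=
            Cfsg.Agent.Lib.Helper12.PSolvable.exists_normal_le hY (⊤ : Subgroup Y) top_ne_bot
          exact ⟨D, hDn, hD0, hD⟩)
        _ G rfl hsolv hPD
    have hSn : ((hP₀p.toSylow hP₀idx : Sylow p G) : Subgroup G).Normal := by
      rw [IsPGroup.toSylow_coe]
      exact hP₀n
    haveI := Sylow.unique_of_normal _ hSn
    have hPeq : P = hP₀p.toSylow hP₀idx := Subsingleton.elim _ _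
    have hPeq' : (P : Subgroup G) = P₀ := by
      rw [hPeq, IsPGroup.toSylow_coe]
    refine ⟨by rw [hPeq']; exact hP₀n, ⟨⟨fun a b => ?_⟩⟩⟩
    apply Subtype.ext
    have ha : (a : G) ∈ P₀ := by rw [← hPeq']; exact a.2
    have hb : (b : G) ∈ P₀ := by rw [← hPeq']; exact b.2
    exact hP₀ab a ha b hb

end Cfsg.Agent.S4713
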