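import Cfsg.Statements.S4714
import Cfsg.Agent.Lib.Helper24.CentProd

set_option autoImplicit false
open Cfsg

namespace Cfsg.Agent.S4714

open Cfsg.Agent.Lib.Helper1 Cfsg.Agent.Lib.Helper6 Cfsg.Agent.Lib.Helper24

theorem result {G : Type*} [Group G] [Finite G] (p : ℕ) [Fact p.Prime] (M : Ideal Cfsg.AlgInt) (hM : Cfsg.IsPModular p M) (D : Subgroup G) (hD : IsPGroup p D) (hG : D ⊔ Subgroup.centralizer (D : Set G) = ⊤) (B : Set (Cfsg.IrrCharacter G)) (hB : Cfsg.IsPBlock M B) (hBD : Cfsg.IsDefectGroup p M B D) (χ : Cfsg.IrrCharacter G) (hχ : χ ∈ B) (hχD : ∀ y ∈ D, (χ : G → ℂ) y = (χ : G → ℂ) 1) : (∀ θ : Cfsg.IrrCharacter G, θ ∈ B ↔ ∃ ζ : Cfsg.IrrCharacter D, (∀ (y : D) (x : G), ¬ p ∣ orderOf x → Commute (y : G) x → (θ : G → ℂ) ((y : G) * x) = (ζ : D → ℂ) y * (χ : G → ℂ) x) ∧ (∀ z : G, (∀ y : G, Cfsg.IsPPart p z y → y ∉ D) → (θ : G → ℂ) z = 0)) ∧ ∀ ζ : Cfsg.IrrCharacter D, ∃ θ ∈ B, (∀ (y : D) (x : G), ¬ p ∣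 orderOf x → Commute (y : G) x → (θ : G → ℂ) ((y : G) * x) = (ζ : D → ℂ) y * (χ : G → ℂ) x) ∧ (∀ z : G, (∀ y : G, Cfsg.IsPPart p z y → y ∉ D) → (θ : G → ℂ) z = 0) := by
  classical
  have hfinG : Fintype G := Fintype.ofFinite G
  have hDn : D.Normal := CentProd.normal_of_sup D hG
  have hmax := hM.2.1
  have hp : p.Prime := Fact.out
  have hs1 : ¬ p ∣ orderOf (1 : G) := by
    rw [orderOf_one]
    exact hp.not_dvd_one
  constructor
  · intro θ
    constructor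
    · intro hθ
      obtain ⟨ζ, ψ, hdec⟩ := CentProd.exists_decomp D hG θ
      exact ⟨ζ, CentProd.conds hM D hD hG B hB hBD χ hχ hχD θ hθ ζ ψ hdec⟩
    · rintro ⟨ζ, h1, -⟩
      have hζ := CharBasic.irr_one_ne_zero ζ.2
      have hsb : SameBlock M (χ : G → ℂ) (θ : G → ℂ) := by
        apply sameBlock_of_regular hM χ θ
        intro g hg
        have e1 := h1 1 g hg (Commute.one_left g)
        have e2 := h1 1 1 hs1 (Commute.one_left 1)
        rw [Subgroup.coe_one, one_mul] at e1 e2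
        have e3 : centralChar (θ : G → ℂ) g = centralChar (χ : G → ℂ) g := by
          show ((Subgroup.centralizer ({g} : Set G)).index : ℂ) * (θ : G → ℂ) g / (θ : G → ℂ) 1
            = ((Subgroup.centralizer ({g} : Set G)).index : ℂ) * (χ : G → ℂ) g / (χ : G → ℂ) 1
          rw [e1, e2]
          have hχ1 := CharBasic.irr_one_ne_zero χ.2
          field_simp
        rw [e3, sub_self]
        exact memLocalIdeal_zero hmax
      rw [Defect.block_eq_blockOf hmax B hB hχ]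
      exact hsb
  · intro ζ
    obtain ⟨θ, hθ, ψ, hdec⟩ := CentProd.exists_mem_decomp hM D hD hG B hB hBD χ hχ hχD ζ
    exact ⟨θ, hθ, CentProd.conds hM D hD hG B hB hBD χ hχ hχD θ hθ ζ ψ hdec⟩

end Cfsg.Agent.S4714
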