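import Mathlib
import Cfsg.Statements.S4718
import Cfsg.Agent.Lib.Helper6.Landau
import Cfsg.Agent.Lib.Helper6.BrauerFeit
import Cfsg.Agent.Lib.Helper24.DefectGroup

set_option autoImplicit false
universe u
open Cfsg

namespace Cfsg.Agent.S4718

/-- Let p be a prime and a a natural number. There is a bound N such that every finite group whose Sylow p-subgroups have order p^a and whose only p-block (relative to a maximal ideal of the algebraic integers containing p) is the principal block has order at most N. -/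
theorem result (p : ℕ) [Fact p.Prime] (a : ℕ) : ∃ N : ℕ, ∀ (G : Type u) [Group G] [Finite G] (M : Ideal Cfsg.AlgInt), Cfsg.IsPModular p M → (Nat.card G).factorization p = a → (∀ B : Set (Cfsg.IrrCharacter G), Cfsg.IsPBlock M B → B = Cfsg.principalBlock M G) → Nat.card G ≤ N := by
  have hp := (Fact.out : p.Prime)
  obtain ⟨N, hN⟩ := Cfsg.Agent.Lib.Helper6.landau.{u} ((p ^ a) ^ 2 / 4 + 1)
  refine ⟨N, ?_⟩
  intro G _ _ M hM ha hone
  classical
  obtain ⟨_⟩ := nonempty_fintype G
  have hfinIrr : Fintype (IrrCharacter G) := Cfsg.Agent.Lib.Helper1.irrFintype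
  apply hN G
  rw [← Cfsg.Agent.Lib.Helper1.card_irr]
  have hmax := hM.2.1
  have hB : IsPBlock M (principalBlock M G) :=
    Cfsg.Agent.Lib.Helper24.DefectGroup.isPBlock_principal
  have hbf := Cfsg.Agent.Lib.Helper6.brauer_feit hM (principalBlock M G) hB
  have hall : ∀ χ : IrrCharacter G, χ ∈ principalBlock M G := by
    intro χ
    have h1 : IsPBlock M (blockOf M (χ : G → ℂ)) := ⟨χ, rfl⟩
    rw [← hone _ h1]
    exact Cfsg.Agent.Lib.Helper6.sameBlock_refl hmax (χ : G → ℂ)
  have hfilter : Finset.univ.filter (fun χ : IrrCharacter G => χ ∈ principalBlock M G)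
      = Finset.univ := Finset.filter_true_of_mem (fun χ _ => hall χ)
  rw [hfilter] at hbf
  have h1 : Fintype.card (IrrCharacter G)
      ≤ ∑ χ : IrrCharacter G, p ^ (2 * blockHeight p (principalBlock M G) (χ : G → ℂ)) := by
    rw [Fintype.card_eq_sum_ones]
    apply Finset.sum_le_sum
    intro χ _
    exact Nat.one_le_pow _ _ hp.pos
  have hd : blockDefect p (principalBlock M G) ≤ a := by
    rw [← ha]
    unfold blockDefect
    exact Nat.sub_le _ _
  have h2 : (p ^ blockDefect p (principalBlock M G)) ^ 2 / 4 + 1 ≤ (p ^ a) ^ 2 / 4 + 1 := by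
    apply Nat.succ_le_succ
    apply Nat.div_le_div_right
    apply Nat.pow_le_pow_left
    exact Nat.pow_le_pow_right hp.pos hd
  rw [Nat.card_eq_fintype_card]
  omega

end Cfsg.Agent.S4718
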