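import Mathlib
import Cfsg.Statements.S4725
import Mathlib
import Cfsg.Agent.Lib.Helper6.IndPart
import Cfsg.Agent.Lib.Helper24.CharBasic

set_option autoImplicit false
open Cfsg

namespace Cfsg.Agent.S4725

/-- Let p be a prime, M a maximal ideal of the algebraic integers containing p, H a subgroup of the finite group G, and b a p-block of H inducing the p-block B of G, with b and B of the same defect. Then for every height-zero ζ ∈ b there is a height-zero χ ∈ B whose multiplicity in the character induced from ζ is not divisible by p. -/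
theorem result {G : Type*} [Group G] [Fintype G] (p : ℕ) [Fact p.Prime] (M : Ideal Cfsg.AlgInt) (hM : Cfsg.IsPModular p M) (H : Subgroup G) (b : Set (Cfsg.IrrCharacter ↥H)) (B : Set (Cfsg.IrrCharacter G)) (hind : Cfsg.IsInducedBlock M H b B) (hdef : Cfsg.blockDefect p b = Cfsg.blockDefect p B) (ζ : Cfsg.IrrCharacter ↥H) (hζ : ζ ∈ b) (hζ0 : Cfsg.blockHeight p b (ζ : ↥H → ℂ) = 0) : ∃ χ ∈ B, Cfsg.blockHeight p B (χ : G → ℂ) = 0 ∧ ∃ a : ℕ, Cfsg.classInner (Cfsg.indFun H (ζ : ↥H → ℂ)) (χ : G → ℂ) = (a : ℂ) ∧ ¬ p ∣ a := by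
  classical
  haveI : Fintype H := Fintype.ofFinite H
  haveI : Fintype (Cfsg.IrrCharacter G) := Cfsg.Agent.Lib.Helper1.irrFintype
  have hp := hM.1
  have hmax := hM.2.1
  have hBblock := hind.2.1
  have hchar : Cfsg.IsCharacter G (Cfsg.indFun H (ζ : H → ℂ)) :=
    Cfsg.Agent.Lib.Helper1.indFun_isCharacter H (Cfsg.Agent.Lib.Helper1.IsIrrCharacter.isCharacter ζ.2)
  have hdeg := Cfsg.Agent.Lib.Helper24.CharBasic.char_one_nat hchar
  have hζdeg := Cfsg.Agent.Lib.Helper24.CharBasic.char_one_nat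
    (Cfsg.Agent.Lib.Helper1.IsIrrCharacter.isCharacter ζ.2)
  obtain ⟨hζdvd, hζpos⟩ := Cfsg.Agent.Lib.Helper24.Defect.charDegree_dvd_card ζ
  have hidx := H.index_ne_zero_of_finite
  -- the degree of the induced character
  have hNeq : Cfsg.charDegree (Cfsg.indFun H (ζ : H → ℂ)) = H.index * Cfsg.charDegree (ζ : H → ℂ) := by
    rw [Cfsg.Agent.Lib.Helper1.indFun_one, hζdeg] at hdeg
    exact_mod_cast hdeg.symm
  have hN : Cfsg.charDegree (Cfsg.indFun H (ζ : H → ℂ)) ≠ 0 := by
    rw [hNeq]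
    exact Nat.mul_ne_zero hidx hζpos.ne'
  have hNfac : (Cfsg.charDegree (Cfsg.indFun H (ζ : H → ℂ))).factorization p
      = H.index.factorization p + (Cfsg.charDegree (ζ : H → ℂ)).factorization p := by
    rw [hNeq, Nat.factorization_mul hidx hζpos.ne']
    rfl
  have hGfac : (Nat.card G).factorization p
      = (Nat.card H).factorization p + H.index.factorization p := by
    rw [← Subgroup.card_mul_index H, Nat.factorization_mul Nat.card_pos.ne' hidx]
    rfl
  -- the minimal valuations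
  obtain ⟨mb, hmb⟩ : ∃ mb, mb = sInf ((fun ψ : Cfsg.IrrCharacter H =>
      (Cfsg.charDegree (ψ : H → ℂ)).factorization p) '' b) := ⟨_, rfl⟩
  obtain ⟨mB, hmB⟩ : ∃ mB, mB = sInf ((fun ψ : Cfsg.IrrCharacter G =>
      (Cfsg.charDegree (ψ : G → ℂ)).factorization p) '' B) := ⟨_, rfl⟩
  have hmb_le : mb ≤ (Cfsg.charDegree (ζ : H → ℂ)).factorization p := by
    rw [hmb]
    exact Nat.sInf_le ⟨ζ, hζ, rfl⟩
  have hζ0' : (Cfsg.charDegree (ζ : H → ℂ)).factorization p - mb = 0 := by
    rw [hmb]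
    exact hζ0
  have hmbeq : mb = (Cfsg.charDegree (ζ : H → ℂ)).factorization p := by omega
  have hζle := Cfsg.Agent.Lib.Helper24.Defect.degree_factorization_le p ζ
  obtain ⟨χ₁, hχ₁⟩ := Cfsg.Agent.Lib.Helper24.Defect.block_nonempty hmax B hBblock
  have hmB_le : ∀ χ ∈ B, mB ≤ (Cfsg.charDegree (χ : G → ℂ)).factorization p := by
    intro χ hχ
    rw [hmB]
    exact Nat.sInf_le ⟨χ, hχ, rfl⟩
  have hmBG : mB ≤ (Nat.card G).factorization p :=
    (hmB_le χ₁ hχ₁).trans (Cfsg.Agent.Lib.Helper24.Defect.degree_factorization_le p χ₁)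
  have hdef' : (Nat.card H).factorization p - mb = (Nat.card G).factorization p - mB := by
    rw [hmb, hmB]
    exact hdef
  have hmBN : mB = (Cfsg.charDegree (Cfsg.indFun H (ζ : H → ℂ))).factorization p := by
    rw [hNfac]
    omega
  -- the multiplicities
  have hex : ∀ χ : Cfsg.IrrCharacter G, ∃ a : ℕ,
      Cfsg.classInner (Cfsg.indFun H (ζ : H → ℂ)) (χ : G → ℂ) = (a : ℂ) := fun χ =>
    Cfsg.Agent.Lib.Helper1.IsCharacter.classInner_nat hchar
      (Cfsg.Agent.Lib.Helper1.IsIrrCharacter.isCharacter χ.2)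
  choose a ha using hex
  have hsum := Cfsg.Agent.Lib.Helper6.blockPart_one_eq_sum B a ha
  have key := Cfsg.Agent.Lib.Helper6.blockPart_ind_one hM H b B hind ζ hζ B hBblock
  rw [if_pos rfl, hsum, hdeg] at key
  obtain ⟨hn0, hnfac⟩ := Cfsg.Agent.Lib.Helper6.ratio_val_eq hM key hN
  by_contra hcon
  push_neg at hcon
  have hdvd : p ^ (mB + 1) ∣ ∑ χ ∈ Finset.univ.filter (fun χ : Cfsg.IrrCharacter G => χ ∈ B),
      a χ * Cfsg.charDegree (χ : G → ℂ) := by
    apply Finset.dvd_sum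
    intro χ hχ
    have hχB : χ ∈ B := (Finset.mem_filter.mp hχ).2
    have hle := hmB_le χ hχB
    have hord : p ^ (Cfsg.charDegree (χ : G → ℂ)).factorization p ∣ Cfsg.charDegree (χ : G → ℂ) :=
      Nat.ordProj_dvd _ p
    by_cases hpa : p ∣ a χ
    · have h1 : p ^ (mB + 1) ∣ p * p ^ (Cfsg.charDegree (χ : G → ℂ)).factorization p := by
        rw [← pow_succ']
        exact pow_dvd_pow p (by omega)
      exact h1.trans (Nat.mul_dvd_mul hpa hord)
    · have hht : Cfsg.blockHeight p B (χ : G → ℂ) ≠ 0 := by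
        intro h0
        exact hpa (hcon χ hχB h0 (a χ) (ha χ))
      have hht' : (Cfsg.charDegree (χ : G → ℂ)).factorization p - mB ≠ 0 := by
        rw [hmB]
        exact hht
      have h1 : p ^ (mB + 1) ∣ p ^ (Cfsg.charDegree (χ : G → ℂ)).factorization p :=
        pow_dvd_pow p (by omega)
      exact Dvd.dvd.mul_left (h1.trans hord) _
  have := (Nat.Prime.pow_dvd_iff_le_factorization hp hn0).mp hdvd
  omega

end Cfsg.Agent.S4725
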