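import Cfsg.Statements.S4726
import Cfsg.Agent.Lib.Helper24.Brauer23

set_option autoImplicit false
open Cfsg

namespace Cfsg.Agent.S4726

open Cfsg.Agent.Lib.Helper1 Cfsg.Agent.Lib.Helper6 Cfsg.Agent.Lib.Helper24

theorem result {G : Type*} [Group G] [Finite G] (p : ℕ) [Fact p.Prime] (M : Ideal Cfsg.AlgInt) (hM : Cfsg.IsPModular p M) (H : Subgroup G) (b : Set (Cfsg.IrrCharacter ↥H)) (hb : Cfsg.IsPBlock M b) (D₀ : Subgroup ↥H) (hD₀ : Cfsg.IsDefectGroup p M b D₀) (hC : Subgroup.centralizer ((D₀.map H.subtype : Subgroup G) : Set G) ≤ H) : Cfsg.InducedBlockDefined M H b ∧ ∀ B : Set (Cfsg.IrrCharacter G), Cfsg.IsInducedBlock M H b B → (∃ D : Subgroup G, Cfsg.IsDefectGroup p M B D ∧ (Subgroup.center ↥D).map D.subtype ≤ ((Subgroup.center ↥D₀).map D₀.subtype).map H.subtype ∧ ((Subgroup.center ↥D₀).map D₀.subtype).map H.subtype ≤ D₀.map H.subtype ∧ D₀.map H.subtype ≤ D) ∧ (∀ D : Subgroup G, Cfsg.IsDefectGroup p M B D → IsMulCommutative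 ↥D → Cfsg.IsDefectGroup p M B (D₀.map H.subtype)) := by
  classical
  have hfinG : Fintype G := Fintype.ofFinite G
  have hmax := hM.2.1
  have hp : p.Prime := hM.1
  obtain ⟨e', hmaxH⟩ := Brauer.exists_maximal_of_defect hM b hb D₀ hD₀
  have hP : IsPGroup p D₀ := hmaxH.1.1.1
  have hpe : IsBrauerPair p M (D₀.map H.subtype)
      (Brauer.upBlock (D₀.map H.subtype) H hC D₀ le_rfl e') :=
    ⟨hP.map _, Brauer.isPBlock_trIrr _ _ hmaxH.1.1.2⟩
  obtain ⟨B₀, hB₀p, -⟩ := Brauer.pair_block_existsUnique hM _ _ hpe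
  refine ⟨⟨B₀, (Brauer.induced_iff_pair hM H D₀ hC b e' hmaxH.1 B₀ hB₀p.2.1).mpr hB₀p⟩, ?_⟩
  intro B hind
  have hB : IsPBlock M B := hind.2.1
  have hBp := (Brauer.induced_iff_pair hM H D₀ hC b e' hmaxH.1 B hB).mp hind
  obtain ⟨P, e, hmaxG, hle⟩ := Brauer.exists_maximal_above hM B _ _ hBp
  have hPD := Brauer.isDefectGroup_of_maximal hM B P e hmaxG
  have hQP : D₀.map H.subtype ≤ P := (Brauer.chain hM P e hmaxG.1.1.2 _ _ hle).1
  have hZP : (Subgroup.center ↥P).map P.subtype ≤ P := Subgroup.map_subtype_le _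
  have hZC : (Subgroup.center ↥P).map P.subtype
      ≤ Subgroup.centralizer ((D₀.map H.subtype : Subgroup G) : Set G) := by
    rintro _ ⟨z, hz, rfl⟩
    rw [Subgroup.mem_centralizer_iff]
    intro q hq
    have h1 := Subgroup.mem_center_iff.mp hz ⟨q, hQP hq⟩
    exact congrArg Subtype.val h1
  have hkey : (Subgroup.center ↥P).map P.subtype ≤ D₀.map H.subtype := by
    obtain ⟨R, hR⟩ : ∃ R : Subgroup G,
        R = D₀.map H.subtype ⊔ (Subgroup.center ↥P).map P.subtype := ⟨_, rfl⟩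
    have hQR : D₀.map H.subtype ≤ R := by
      rw [hR]
      exact le_sup_left
    have hZR : (Subgroup.center ↥P).map P.subtype ≤ R := by
      rw [hR]
      exact le_sup_right
    have hRP : R ≤ P := by
      rw [hR]
      exact sup_le hQP hZP
    have hRN : R ≤ Subgroup.normalizer ((D₀.map H.subtype : Subgroup G) : Set G) := by
      rw [hR]
      exact sup_le Subgroup.le_normalizer (hZC.trans (Subgroup.centralizer_le_normalizer _))
    have hRH : R ≤ H := by
      rw [hR]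
      exact sup_le (Subgroup.map_subtype_le _) (hZC.trans hC)
    obtain ⟨g, hn, -⟩ := Brauer.normal_sub_of_le hM P (D₀.map H.subtype) R e _ hmaxG.1.1 hle
      hQR hRP hRN
    obtain ⟨R', hR'⟩ : ∃ R' : Subgroup H, R = R'.map H.subtype :=
      ⟨R.subgroupOf H, (Subgroup.map_subgroupOf_eq_of_le hRH).symm⟩
    subst hR'
    have h1 := Brauer.down_normal (D₀.map H.subtype) H hC D₀ R' le_rfl hn.2.2.1 e' g hn
    have h2 := Brauer.nmax_of_maximal hM b D₀ e' hmaxH _ _ h1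
    rw [h2] at hZR
    exact hZR
  have hpart : (Subgroup.center ↥P).map P.subtype
      ≤ ((Subgroup.center ↥D₀).map D₀.subtype).map H.subtype := by
    intro z hz
    obtain ⟨d, hd, hdz⟩ := hkey hz
    obtain ⟨z', hz', hz'z⟩ := hz
    refine ⟨d, ⟨⟨d, hd⟩, ?_, rfl⟩, hdz⟩
    apply Subgroup.mem_center_iff.mpr
    intro d'
    have hd'P : ((d' : H) : G) ∈ P := hQP ⟨d', d'.2, rfl⟩
    have h1 := Subgroup.mem_center_iff.mp hz' ⟨_, hd'P⟩
    have h2 : ((d' : H) : G) * z = z * ((d' : H) : G) := by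
      rw [← hz'z]
      exact congrArg Subtype.val h1
    apply Subtype.ext
    apply Subtype.ext
    show ((d' : H) : G) * (d : G) = (d : G) * ((d' : H) : G)
    have e3 : (d : G) = z := hdz
    rw [e3]
    exact h2
  refine ⟨⟨P, hPD, hpart, Subgroup.map_mono (Subgroup.map_subtype_le _), hQP⟩, ?_⟩
  intro D hD hcomm
  obtain ⟨x, hx⟩ := Brauer.defectGroup_conj hM B hB D P hD hPD
  have hPle : P ≤ D₀.map H.subtype := by
    intro a ha
    apply hkey
    refine ⟨⟨a, ha⟩, ?_, rfl⟩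
    apply Subgroup.mem_center_iff.mpr
    intro c
    have ha2 : a ∈ D.map (MulAut.conj x).toMonoidHom := by
      rw [← hx]
      exact ha
    have hc2 : (c : G) ∈ D.map (MulAut.conj x).toMonoidHom := by
      rw [← hx]
      exact c.2
    obtain ⟨a', ha', haa⟩ := ha2
    obtain ⟨c', hc', hcc⟩ := hc2
    apply Subtype.ext
    show (c : G) * a = a * (c : G)
    rw [← haa, ← hcc]
    show x * c' * x⁻¹ * (x * a' * x⁻¹) = x * a' * x⁻¹ * (x * c' * x⁻¹)
    have h3 : (⟨c', hc'⟩ : D) * ⟨a', ha'⟩ = ⟨a', ha'⟩ * ⟨c', hc'⟩ := mul_comm' _ _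
    have h4 : c' * a' = a' * c' := congrArg Subtype.val h3
    calc x * c' * x⁻¹ * (x * a' * x⁻¹) = x * (c' * a') * x⁻¹ := by group
      _ = x * (a' * c') * x⁻¹ := by rw [h4]
      _ = x * a' * x⁻¹ * (x * c' * x⁻¹) := by group
  have hEq : D₀.map H.subtype = P := le_antisymm hQP hPle
  rw [hEq]
  exact hPD

end Cfsg.Agent.S4726
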