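import Mathlib
import Cfsg.Statements.S4730
import Cfsg.Agent.Lib.Helper6.CentVanish

set_option autoImplicit false
open Cfsg

namespace Cfsg.Agent.S4730

/-- Let p be a prime, M a maximal ideal of the algebraic integers containing p, and G a finite group with trivial centre, Sylow p-subgroup P of order p^a and centre Z(P) of order p^b. If χ is a faithful irreducible character of G whose degree is a power of p, then the p-block of χ has defect at most a − b; in particular, if P is abelian then χ lies in a block of defect zero. -/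
theorem result {G : Type*} [Group G] [Finite G] (p : ℕ) [Fact p.Prime] (M : Ideal Cfsg.AlgInt) (hM : Cfsg.IsPModular p M) (hZ : Subgroup.center G = ⊥) (P : Sylow p G) (a b : ℕ) (ha : Nat.card P = p ^ a) (hb : Nat.card (Subgroup.center ↥(P : Subgroup G)) = p ^ b) (χ : Cfsg.IrrCharacter G) (hfaith : ∀ g : G, (χ : G → ℂ) g = (χ : G → ℂ) 1 → g = 1) (n : ℕ) (hdeg : Cfsg.charDegree (χ : G → ℂ) = p ^ n) : Cfsg.blockDefect p (Cfsg.blockOf M (χ : G → ℂ)) ≤ a - b ∧ (IsMulCommutative ↥(P : Subgroup G) → Cfsg.blockDefect p (Cfsg.blockOf M (χ : G → ℂ)) = 0) := by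
  classical
  obtain ⟨_⟩ := nonempty_fintype G
  have hp := (Fact.out : p.Prime)
  have hmax := hM.2.1
  have haa : (Nat.card G).factorization p = a := by
    have h1 := Sylow.card_eq_multiplicity P
    rw [ha] at h1
    exact (Nat.pow_right_injective hp.two_le h1).symm
  obtain ⟨Z, hZ'⟩ : ∃ Z : Subgroup G,
      Z = (Subgroup.center ↥(P : Subgroup G)).map (P : Subgroup G).subtype := ⟨_, rfl⟩
  have hZcard : Nat.card Z = p ^ b := by
    rw [hZ', ← hb]
    exact Subgroup.card_map_of_injective (Subgroup.subtype_injective _)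
  have hcent : ∀ z ∈ Z, (P : Subgroup G) ≤ Subgroup.centralizer ({z} : Set G) := by
    intro z hz x hx
    rw [hZ'] at hz
    obtain ⟨w, hw, rfl⟩ := Subgroup.mem_map.mp hz
    rw [Subgroup.mem_centralizer_iff]
    intro y hy
    rw [Set.mem_singleton_iff.mp hy]
    have h1 := Subgroup.mem_center_iff.mp hw ⟨x, hx⟩
    have h2 := congrArg Subtype.val h1
    exact h2.symm
  have hcl : ∀ z ∈ Z, ¬ p ∣ (Subgroup.centralizer ({z} : Set G)).index := by
    intro z hz hdvd
    exact P.not_dvd_index (dvd_trans hdvd (Subgroup.index_dvd_of_le (hcent z hz)))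
  have hvan : ∀ z ∈ Z, z ≠ 1 → (χ : G → ℂ) z = 0 := by
    intro z hz hz1
    apply Cfsg.Agent.Lib.Helper6.char_eq_zero_of_coprime_faithful χ hZ hfaith z hz1
    rw [hdeg]
    exact Nat.Coprime.pow_left n ((Nat.Prime.coprime_iff_not_dvd hp).mpr (hcl z hz))
  have hge : ∀ ψ ∈ blockOf M (χ : G → ℂ), b ≤ (charDegree (ψ : G → ℂ)).factorization p :=
    fun ψ hψ => Cfsg.Agent.Lib.Helper6.le_degree_factorization_of_vanish hM Z b hZcard χ ψ hψ
      hvan hcl
  have hinf : b ≤ sInf ((fun ψ : IrrCharacter G => (charDegree (ψ : G → ℂ)).factorization p) ''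
      blockOf M (χ : G → ℂ)) := by
    apply le_csInf
    · exact ⟨_, ⟨χ, Cfsg.Agent.Lib.Helper6.sameBlock_refl hmax (χ : G → ℂ), rfl⟩⟩
    · rintro _ ⟨ψ, hψ, rfl⟩
      exact hge ψ hψ
  have hdef : blockDefect p (blockOf M (χ : G → ℂ)) ≤ a - b := by
    unfold blockDefect
    rw [haa]
    omega
  refine ⟨hdef, ?_⟩
  intro hcomm
  have htop : Subgroup.center ↥(P : Subgroup G) = ⊤ := by
    rw [eq_top_iff]
    intro x _
    rw [Subgroup.mem_center_iff]
    intro g
    exact hcomm.is_comm.comm g x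
  rw [htop, Subgroup.card_top, ha] at hb
  have hab := Nat.pow_right_injective hp.two_le hb
  omega

end Cfsg.Agent.S4730
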