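import Cfsg.Statements.S4735
import Cfsg.Agent.Lib.Helper24.PrinQuot

set_option autoImplicit false
open Cfsg

namespace Cfsg.Agent.S4735

open Cfsg.Agent.Lib.Helper1 Cfsg.Agent.Lib.Helper6 Cfsg.Agent.Lib.Helper24

theorem result {G : Type*} [Group G] [Finite G] (p : ℕ) [Fact p.Prime] (M : Ideal Cfsg.AlgInt) (hM : Cfsg.IsPModular p M) (x : G) : (∃ n : ℕ, 0 < n ∧ ∑ᶠ χ ∈ Cfsg.principalBlock M G, Complex.normSq ((χ : G → ℂ) x) = n) ∧ ∑ᶠ χ ∈ Cfsg.principalBlock M G, Complex.normSq ((χ : G → ℂ) x) = ∑ᶠ ψ ∈ Cfsg.principalBlock M (G ⧸ Cfsg.pPrimeCore p G), Complex.normSq ((ψ : G ⧸ Cfsg.pPrimeCore p G → ℂ) (QuotientGroup.mk x)) ∧ ∑ᶠ χ ∈ Cfsg.principalBlock M G, Complex.normSq ((χ : G → ℂ) x) ≤ (Nat.card ↥(Subgroup.centralizer ({(QuotientGroup.mk x : G ⧸ Cfsg.pPrimeCore p G)} : Set (G ⧸ Cfsg.pPrimeCore p G))) : ℝ) ∧ ((∑ᶠ χ ∈ Cfsg.principalBlock M G, Cfsg.charDegree (χ : G → ℂ) ^ 2) = (Cfsg.pPrimeCore p G).index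 ↔ ∀ B : Set (Cfsg.IrrCharacter (G ⧸ Cfsg.pPrimeCore p G)), Cfsg.IsPBlock M B → B = Cfsg.principalBlock M (G ⧸ Cfsg.pPrimeCore p G)) := by
  classical
  have hp : p.Prime := Fact.out
  have hfinG : Fintype G := Fintype.ofFinite G
  have hfinQ : Fintype (G ⧸ Cfsg.pPrimeCore p G) := Fintype.ofFinite _
  have hfinIrrQ : Fintype (IrrCharacter (G ⧸ Cfsg.pPrimeCore p G)) := irrFintype
  have hN : ¬ p ∣ Nat.card (Cfsg.pPrimeCore p G) :=
    (Nat.Prime.coprime_iff_not_dvd hp).mp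
      (Cfsg.Agent.Lib.Lead.Cores.pPrimeCore_card_coprime (G := G) p).symm
  have hb : ∑ᶠ χ ∈ Cfsg.principalBlock M G, Complex.normSq ((χ : G → ℂ) x)
      = ∑ᶠ ψ ∈ Cfsg.principalBlock M (G ⧸ Cfsg.pPrimeCore p G),
          Complex.normSq ((ψ : G ⧸ Cfsg.pPrimeCore p G → ℂ) (QuotientGroup.mk x)) :=
    PrinQuot.finsum_infl hM (Cfsg.pPrimeCore p G) hN
      (fun χ : IrrCharacter G => Complex.normSq ((χ : G → ℂ) x))
  refine ⟨PrinQuot.normSq_sum_nat hM x, hb, ?_, ?_⟩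
  · rw [hb, Subsec.fsR]
    have h1 := col_orth (QuotientGroup.mk x : G ⧸ Cfsg.pPrimeCore p G) (QuotientGroup.mk x)
    rw [if_pos (IsConj.refl _)] at h1
    have h2 : ∑ ψ : IrrCharacter (G ⧸ Cfsg.pPrimeCore p G),
        Complex.normSq ((ψ : G ⧸ Cfsg.pPrimeCore p G → ℂ) (QuotientGroup.mk x))
        = (Nat.card ↥(Subgroup.centralizer
          ({(QuotientGroup.mk x : G ⧸ Cfsg.pPrimeCore p G)} : Set (G ⧸ Cfsg.pPrimeCore p G))) : ℝ) := by
      apply Complex.ofReal_injective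
      rw [Complex.ofReal_sum, Complex.ofReal_natCast, ← h1]
      apply Finset.sum_congr rfl
      intro ψ _
      rw [Complex.mul_conj]
    rw [← h2]
    apply Finset.sum_le_sum
    intro ψ _
    split_ifs
    · exact le_refl _
    · exact Complex.normSq_nonneg _
  · have hd : ∑ᶠ χ ∈ Cfsg.principalBlock M G, Cfsg.charDegree (χ : G → ℂ) ^ 2
        = ∑ᶠ ψ ∈ Cfsg.principalBlock M (G ⧸ Cfsg.pPrimeCore p G),
            Cfsg.charDegree (ψ : G ⧸ Cfsg.pPrimeCore p G → ℂ) ^ 2 :=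
      PrinQuot.finsum_infl hM (Cfsg.pPrimeCore p G) hN
        (fun χ : IrrCharacter G => Cfsg.charDegree (χ : G → ℂ) ^ 2)
    rw [hd, PrinQuot.fsum_filter, Finset.sum_filter]
    have hsum : ∑ ψ : IrrCharacter (G ⧸ Cfsg.pPrimeCore p G),
        Cfsg.charDegree (ψ : G ⧸ Cfsg.pPrimeCore p G → ℂ) ^ 2 = (Cfsg.pPrimeCore p G).index := by
      rw [Subgroup.index_eq_card]
      have h := sum_sq_degrees (G := G ⧸ Cfsg.pPrimeCore p G)
      have h3 : ((∑ ψ : IrrCharacter (G ⧸ Cfsg.pPrimeCore p G),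
          Cfsg.charDegree (ψ : G ⧸ Cfsg.pPrimeCore p G → ℂ) ^ 2 : ℕ) : ℂ)
          = (Nat.card (G ⧸ Cfsg.pPrimeCore p G) : ℂ) := by
        rw [← h]
        push_cast
        apply Finset.sum_congr rfl
        intro ψ _
        rw [CharBasic.char_one_nat (CharBasic.isCharacter_of_irr ψ.2)]
      exact_mod_cast h3
    rw [← hsum]
    constructor
    · intro heq B hB
      have hall : ∀ ψ : IrrCharacter (G ⧸ Cfsg.pPrimeCore p G),
          ψ ∈ Cfsg.principalBlock M (G ⧸ Cfsg.pPrimeCore p G) := by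
        by_contra hcon
        push Not at hcon
        obtain ⟨ψ₀, hψ₀⟩ := hcon
        have hlt : (∑ ψ : IrrCharacter (G ⧸ Cfsg.pPrimeCore p G),
            if ψ ∈ Cfsg.principalBlock M (G ⧸ Cfsg.pPrimeCore p G) then
              Cfsg.charDegree (ψ : G ⧸ Cfsg.pPrimeCore p G → ℂ) ^ 2 else 0)
            < ∑ ψ : IrrCharacter (G ⧸ Cfsg.pPrimeCore p G),
              Cfsg.charDegree (ψ : G ⧸ Cfsg.pPrimeCore p G → ℂ) ^ 2 := by
          apply Finset.sum_lt_sum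
          · intro ψ _
            split_ifs
            · exact le_refl _
            · exact Nat.zero_le _
          · refine ⟨ψ₀, Finset.mem_univ _, ?_⟩
            rw [if_neg hψ₀]
            exact pow_pos (Defect.charDegree_dvd_card ψ₀).2 2
        exact hlt.ne heq
      obtain ⟨ψ, hψ⟩ := Defect.block_nonempty hM.2.1 B hB
      rw [Defect.block_eq_blockOf hM.2.1 B hB hψ]
      exact (Defect.block_eq_blockOf hM.2.1 _ PrinQuot.isPBlock_principal (hall ψ)).symm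
    · intro hall
      apply Finset.sum_congr rfl
      intro ψ _
      have hψ : ψ ∈ Cfsg.principalBlock M (G ⧸ Cfsg.pPrimeCore p G) := by
        have h1 := hall (Cfsg.blockOf M (ψ : G ⧸ Cfsg.pPrimeCore p G → ℂ)) ⟨ψ, rfl⟩
        rw [← h1]
        exact mem_blockOf_self hM.2.1 ψ
      rw [if_pos hψ]

end Cfsg.Agent.S4735
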