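import Cfsg.Statements.S4736
import Cfsg.Agent.Lib.Helper1.CharDL
import Cfsg.Agent.Lib.Helper6.Fong
import Cfsg.Agent.Lib.Helper6.RegRes
import Cfsg.Agent.Lib.Helper24.PrinQuot
import Cfsg.Agent.S4487
open scoped commutatorElement

set_option autoImplicit false
open Cfsg

namespace Cfsg.Agent.S4736

/-- Let p be a prime, M a maximal ideal of the algebraic integers containing p, and G a finite p-solvable group with Sylow p-subgroup P. Then P is abelian if and only if every irreducible character in the principal p-block of G has height zero. -/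
theorem result {G : Type*} [Group G] [Finite G] (p : ℕ) [Fact p.Prime] (M : Ideal Cfsg.AlgInt) (hM : Cfsg.IsPModular p M) (hsolv : Cfsg.IsPSolvable p G) (P : Sylow p G) : IsMulCommutative P ↔ ∀ χ ∈ Cfsg.principalBlock M G, Cfsg.blockHeight p (Cfsg.principalBlock M G) (χ : G → ℂ) = 0 := by
  classical
  haveI := Fintype.ofFinite G
  have hp := (Fact.out : p.Prime)
  haveI hKn : (Cfsg.pPrimeCore p G).Normal := Cfsg.Agent.Lib.Lead.Cores.pPrimeCore_normal p
  haveI := Fintype.ofFinite (G ⧸ Cfsg.pPrimeCore p G)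
  have hKc := Cfsg.Agent.Lib.Helper9.pPrimeCore_coprime p G
  have hpK : ¬ p ∣ Nat.card (Cfsg.pPrimeCore p G) :=
    (Nat.Prime.coprime_iff_not_dvd hp).mp hKc.symm
  have hO := Cfsg.Agent.Lib.Helper9.pPrimeCore_quotient_eq_bot p G
  have hQs := Cfsg.Agent.S3744.isPSolvable_quotient hsolv (Cfsg.pPrimeCore p G)
  have hHH := Cfsg.Agent.Lib.Helper12.PSolvable.hall_higman hQs hO
  have hfong : ∀ χ : Cfsg.IrrCharacter G, χ ∈ Cfsg.principalBlock M G ↔
      ∀ g ∈ Cfsg.pPrimeCore p G, (χ : G → ℂ) g = (χ : G → ℂ) 1 := by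
    intro χ
    constructor
    · intro h
      exact Cfsg.Agent.Lib.Helper6.ker_of_sameBlock hM (Cfsg.pPrimeCore p G) hpK
        ⟨fun _ => 1, Cfsg.Agent.Lib.Helper1.isIrrCharacter_one⟩ χ h (fun g _ => rfl)
    · intro hker
      obtain ⟨χ', hχ', hχ'eq⟩ := Cfsg.Agent.Lib.Helper24.CharQuot.irr_quotient
        (Cfsg.pPrimeCore p G) χ.2 hker
      have h1 := Cfsg.Agent.S4487.result p M hM hO hHH
        ⟨fun _ => 1, Cfsg.Agent.Lib.Helper1.isIrrCharacter_one⟩ ⟨χ', hχ'⟩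
      have h2 := Cfsg.Agent.Lib.Helper6.sameBlock_inflate hM.2.1 (Cfsg.pPrimeCore p G) _ _ h1
      have hfun : χ' ∘ (QuotientGroup.mk : G → G ⧸ Cfsg.pPrimeCore p G) = (χ : G → ℂ) :=
        funext hχ'eq
      show Cfsg.SameBlock M (fun _ : G => (1 : ℂ)) (χ : G → ℂ)
      rw [← hfun]
      exact h2
  have hht : ∀ χ ∈ Cfsg.principalBlock M G,
      (Cfsg.blockHeight p (Cfsg.principalBlock M G) (χ : G → ℂ) = 0 ↔
        ¬ p ∣ Cfsg.charDegree (χ : G → ℂ)) := by
    intro χ hχ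
    rw [Cfsg.Agent.Lib.Helper6.blockHeight_eq_zero_iff p _ hχ]
    obtain ⟨d, hd0, hd⟩ := Cfsg.Agent.Lib.Helper1.IsIrrCharacter.degree_pos χ.2
    have hdeg : Cfsg.charDegree (χ : G → ℂ) = d := Cfsg.Agent.Lib.Helper1.charDegree_eq hd
    constructor
    · intro h hdvd
      have h1 := h (Cfsg.Agent.Lib.Helper24.PrinQuot.triv G)
        (Cfsg.Agent.Lib.Helper24.PrinQuot.triv_mem hM.2.1)
      have h2 : Cfsg.charDegree
          ((Cfsg.Agent.Lib.Helper24.PrinQuot.triv G : Cfsg.IrrCharacter G) : G → ℂ) = 1 :=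
        Cfsg.Agent.Lib.Helper1.charDegree_eq (by simp [Cfsg.Agent.Lib.Helper24.PrinQuot.triv])
      have h2' : (Cfsg.charDegree
          ((Cfsg.Agent.Lib.Helper24.PrinQuot.triv G : Cfsg.IrrCharacter G) : G → ℂ)).factorization p
            = 0 := by
        rw [h2]; simp
      rw [h2', hdeg] at h1
      rw [hdeg] at hdvd
      have := hp.factorization_pos_of_dvd hd0.ne' hdvd
      omega
    · intro h ψ _
      rw [Nat.factorization_eq_zero_of_not_dvd h]; exact Nat.zero_le _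
  constructor
  · intro hPc χ hχ
    rw [hht χ hχ]
    obtain ⟨χ', hχ', hχ'eq⟩ := Cfsg.Agent.Lib.Helper24.CharQuot.irr_quotient
      (Cfsg.pPrimeCore p G) χ.2 ((hfong χ).mp hχ)
    have hdeg : Cfsg.charDegree (χ : G → ℂ) = Cfsg.charDegree χ' := by
      unfold Cfsg.charDegree; rw [← hχ'eq 1]; rfl
    rw [hdeg]
    obtain ⟨Pb, hPb⟩ : ∃ Pb : Sylow p (G ⧸ Cfsg.pPrimeCore p G),
        (Pb : Subgroup (G ⧸ Cfsg.pPrimeCore p G)) =
          (P : Subgroup G).map (QuotientGroup.mk' (Cfsg.pPrimeCore p G)) :=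
      ⟨P.mapSurjective (QuotientGroup.mk'_surjective _), rfl⟩
    haveI hRn : (Cfsg.pCore p (G ⧸ Cfsg.pPrimeCore p G)).Normal :=
      Cfsg.Agent.Lib.Lead.Cores.pCore_normal p
    have hRP := Cfsg.Agent.Lib.Helper12.SylowBasic.normal_pgroup_le_sylow Pb
      (Cfsg.pCore p (G ⧸ Cfsg.pPrimeCore p G)) (Cfsg.Agent.Lib.Helper9.pCore_isPGroup p _)
    have hPbab : ∀ a ∈ (Pb : Subgroup (G ⧸ Cfsg.pPrimeCore p G)),
        ∀ b ∈ (Pb : Subgroup (G ⧸ Cfsg.pPrimeCore p G)), a * b = b * a := by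
      intro a ha b hb
      rw [hPb] at ha hb
      obtain ⟨a', ha', rfl⟩ := Subgroup.mem_map.mp ha
      obtain ⟨b', hb', rfl⟩ := Subgroup.mem_map.mp hb
      have := (isMulCommutative_iff.mp hPc) ⟨a', ha'⟩ ⟨b', hb'⟩
      have h' : a' * b' = b' * a' := congrArg Subtype.val this
      rw [← map_mul, ← map_mul, h']
    have hPR : (Pb : Subgroup (G ⧸ Cfsg.pPrimeCore p G)) ≤
        Cfsg.pCore p (G ⧸ Cfsg.pPrimeCore p G) := by
      intro x hx
      apply hHH
      rw [Subgroup.mem_centralizer_iff]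
      intro r hr
      exact hPbab r (hRP hr) x hx
    have hRab : ∀ a ∈ Cfsg.pCore p (G ⧸ Cfsg.pPrimeCore p G),
        ∀ b ∈ Cfsg.pCore p (G ⧸ Cfsg.pPrimeCore p G), a * b = b * a :=
      fun a ha b hb => hPbab a (hRP ha) b (hRP hb)
    obtain ⟨n, ρ, hρ, rfl⟩ := hχ'
    haveI := hρ
    have hito := Cfsg.Agent.Lib.Helper1.ito ρ (Cfsg.pCore p (G ⧸ Cfsg.pPrimeCore p G)) hRab
    have hdeg2 : Cfsg.charDegree ρ.character = Module.finrank ℂ (Fin n → ℂ) :=
      Cfsg.Agent.Lib.Helper1.charDegree_eq (Representation.char_one ρ)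
    rw [hdeg2]
    intro hdvd
    have h1 : p ∣ (Cfsg.pCore p (G ⧸ Cfsg.pPrimeCore p G)).index := hdvd.trans hito
    have h2 : (Cfsg.pCore p (G ⧸ Cfsg.pPrimeCore p G)).index ∣
        (Pb : Subgroup (G ⧸ Cfsg.pPrimeCore p G)).index := Subgroup.index_dvd_of_le hPR
    exact Pb.not_dvd_index (h1.trans h2)
  · intro hall
    have hnp : Cfsg.Agent.Lib.Helper1.npSing p (G ⧸ Cfsg.pPrimeCore p G) = 0 := by
      unfold Cfsg.Agent.Lib.Helper1.npSing
      rw [Nat.card_eq_zero]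
      left
      constructor
      rintro ⟨χ', hχ'⟩
      obtain ⟨X, hX⟩ : ∃ X : {χ : Cfsg.IrrCharacter G // p ∣ Cfsg.charDegree (χ : G → ℂ)},
          ∀ g : G, (X.1 : G → ℂ) g = (χ' : G ⧸ Cfsg.pPrimeCore p G → ℂ) (g : G ⧸ _) :=
        ⟨Cfsg.Agent.Lib.Helper1.inflMap p (Cfsg.pPrimeCore p G) ⟨χ', hχ'⟩, fun g => rfl⟩
      have hmem : X.1 ∈ Cfsg.principalBlock M G := by
        rw [hfong]
        intro g hg
        rw [hX g, hX 1, (QuotientGroup.eq_one_iff g).mpr hg]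
        rfl
      exact (hht _ hmem).mp (hall _ hmem) X.2
    have h1 := Cfsg.Agent.Lib.Helper1.dl_main p _ (G ⧸ Cfsg.pPrimeCore p G) rfl hQs
      (P.mapSurjective (QuotientGroup.mk'_surjective _))
    rw [hnp] at h1
    have h2 := Cfsg.Agent.Lib.Helper1.derived_mem_of_map_bot (P : Subgroup G)
      (Cfsg.pPrimeCore p G) 1 h1
    rw [isMulCommutative_iff]
    intro a b
    have h3 : ⁅a, b⁆ ∈ derivedSeries ↥(P : Subgroup G) 1 := by
      rw [derivedSeries_one]
      exact Subgroup.commutator_mem_commutator (Subgroup.mem_top _) (Subgroup.mem_top _)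
    have h4 := h2 _ h3
    obtain ⟨j, hj⟩ := P.isPGroup' ⁅a, b⁆
    have hj' : ((⁅a, b⁆ : P) : G) ^ (p ^ j) = 1 := by
      have := congrArg Subtype.val hj
      simpa using this
    have h5 := Cfsg.Agent.Lib.Helper1.eq_one_of_ppow_of_mem_coprime p (Cfsg.pPrimeCore p G) hKc
      _ h4 j hj'
    have h6 : ⁅a, b⁆ = 1 := Subtype.ext h5
    exact commutatorElement_eq_one_iff_mul_comm.mp h6

end Cfsg.Agent.S4736
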