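import Cfsg.Statements.S4755
import Cfsg.Agent.S4754
import Cfsg.Agent.Lib.Helper1.CharReg

set_option autoImplicit false
open Cfsg

namespace Cfsg.Agent.S4755

open scoped ComplexConjugate commutatorElement
open Cfsg.Agent.Lib.Helper24.CharBasic

theorem result {G : Type*} [Group G] [Finite G] (x y : G) (hx : x ≠ 1) (hy : y ≠ 1) (h : ∀ (a b : G) (χ : Cfsg.IrrCharacter G), (χ : G → ℂ) (a * x * a⁻¹ * (b * y * b⁻¹)) = (χ : G → ℂ) (a * x * a⁻¹) * (χ : G → ℂ) (b * y * b⁻¹)) : (∀ z : G, IsConj (x * y) z ↔ ∃ a b : G, z = a * x * a⁻¹ * (b * y * b⁻¹)) ∧ (∀ χ : Cfsg.IrrCharacter G, (χ : G → ℂ) 1 ≠ 1 → (χ : G → ℂ) (x * y) = 0) ∧ (∀ z : G, IsConj (x * y) z ↔ (x * y)⁻¹ * z ∈ commutator G) := by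
  classical
  have hfin : Fintype G := Fintype.ofFinite G
  have hval : ∀ (a b : G) (χ : IrrCharacter G),
      (χ : G → ℂ) (a * x * a⁻¹ * (b * y * b⁻¹)) = (χ : G → ℂ) x * (χ : G → ℂ) y := by
    intro a b χ
    have hχ : IsCharacter G (χ : G → ℂ) := isCharacter_of_irr χ.2
    rw [h a b χ, char_conj_invariant hχ, char_conj_invariant hχ]
  have hG : (Nat.card G : ℂ) ≠ 0 := by exact_mod_cast Nat.card_pos.ne'
  have hzero : ∀ χ : IrrCharacter G, (χ : G → ℂ) 1 ≠ 1 →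
      (χ : G → ℂ) x * (χ : G → ℂ) y = 0 := by
    intro χ hne
    have hcs := Cfsg.Agent.S4754.cs χ.2 x y
    rw [Finset.sum_congr rfl (fun a _ => Finset.sum_congr rfl (fun b _ => hval a b χ))] at hcs
    simp only [Finset.sum_const, Finset.card_univ, nsmul_eq_mul] at hcs
    rw [Nat.card_eq_fintype_card] at hcs hG
    have e : (Fintype.card G : ℂ) ^ 2 * (((χ : G → ℂ) 1 - 1) * ((χ : G → ℂ) x * (χ : G → ℂ) y)) = 0 := by
      have : (Fintype.card G : ℂ) ^ 2 * (((χ : G → ℂ) 1 - 1) * ((χ : G → ℂ) x * (χ : G → ℂ) y))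
          = (χ : G → ℂ) 1 * ((Fintype.card G : ℂ) * ((Fintype.card G : ℂ) *
            ((χ : G → ℂ) x * (χ : G → ℂ) y))) -
            (Fintype.card G : ℂ) ^ 2 * ((χ : G → ℂ) x * (χ : G → ℂ) y) := by ring
      rw [this, hcs, sub_self]
    rcases mul_eq_zero.mp e with h1 | h1
    · exact absurd h1 (pow_ne_zero 2 hG)
    · rcases mul_eq_zero.mp h1 with h2 | h2
      · exact absurd (sub_eq_zero.mp h2) hne
      · exact h2
  have hmain : ∀ (a b : G) (χ : IrrCharacter G),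
      (χ : G → ℂ) 1 * (χ : G → ℂ) (a * x * a⁻¹ * (b * y * b⁻¹)) =
        (χ : G → ℂ) x * (χ : G → ℂ) y := by
    intro a b χ
    rw [hval]
    by_cases h1 : (χ : G → ℂ) 1 = 1
    · rw [h1, one_mul]
    · rw [hzero χ h1, mul_zero]
  have hxy : ∀ χ : IrrCharacter G, (χ : G → ℂ) (x * y) = (χ : G → ℂ) x * (χ : G → ℂ) y := by
    intro χ
    have h1 := hval 1 1 χ
    have e : (1 : G) * x * 1⁻¹ * (1 * y * 1⁻¹) = x * y := by group
    rw [e] at h1
    exact h1
  have hsecond : ∀ χ : IrrCharacter G, (χ : G → ℂ) 1 ≠ 1 → (χ : G → ℂ) (x * y) = 0 := by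
    intro χ hne
    rw [hxy χ]
    exact hzero χ hne
  refine ⟨Cfsg.Agent.S4754.key x y hmain, hsecond, ?_⟩
  intro z
  constructor
  · intro hc
    obtain ⟨c, rfl⟩ := isConj_iff.mp hc
    have e : (x * y)⁻¹ * (c * (x * y) * c⁻¹) = ⁅(x * y)⁻¹, c⁆ := by
      rw [commutatorElement_def]; group
    rw [e, commutator_def]
    exact Subgroup.commutator_mem_commutator (Subgroup.mem_top _) (Subgroup.mem_top _)
  · intro hz
    apply Cfsg.Agent.S4754.sep
    intro χ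
    by_cases h1 : (χ : G → ℂ) 1 = 1
    · obtain ⟨lam, hlam⟩ := Cfsg.Agent.Lib.Helper1.IsIrrCharacter.exists_monoidHom χ.2 h1
      have hk : (x * y)⁻¹ * z ∈ lam.ker := Abelianization.commutator_subset_ker lam hz
      have h2 : lam z = lam (x * y) := by
        have h3 := MonoidHom.mem_ker.mp hk
        rw [map_mul, map_inv, inv_mul_eq_one] at h3
        exact h3.symm
      rw [hlam z, hlam (x * y), h2]
    · rw [hsecond χ h1, zero_mul, zero_mul]

end Cfsg.Agent.S4755
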