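import Cfsg.Statements.S4765
import Mathlib
import Cfsg.Agent.Lib.Helper25.PSL2Deg

set_option autoImplicit false
open Cfsg

namespace Cfsg.Agent.S4765

open Cfsg.Agent.Lib.Helper25.PSL2Deg

/-- Let F be a finite field of characteristic p with at least 4 elements. Then PSL(2,F) has exactly one irreducible complex character of degree divisible by p, and its degree is the order of F. -/
theorem result (p : ℕ) [Fact p.Prime] (F : Type*) [Field F] [Fintype F] [CharP F p] (hF : 4 ≤ Fintype.card F) : Nat.card {χ : Cfsg.IrrCharacter (Matrix.ProjectiveSpecialLinearGroup (Fin 2) F) // p ∣ Cfsg.charDegree (χ : Matrix.ProjectiveSpecialLinearGroup (Fin 2) F → ℂ)} = 1 ∧ ∀ χ : Cfsg.IrrCharacter (Matrix.ProjectiveSpecialLinearGroup (Fin 2) F), p ∣ Cfsg.charDegree (χ : Matrix.ProjectiveSpecialLinearGroup (Fin 2) F → ℂ) → Cfsg.charDegree (χ : Matrix.ProjectiveSpecialLinearGroup (Fin 2) F → ℂ) = Fintype.card F := by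
  have hp : p.Prime := Fact.out
  obtain ⟨n, hn, hn1⟩ := card_field (F := F) p
  have hpq : p ∣ Fintype.card F := by rw [hn]; exact dvd_pow_self p (by omega)
  have hd : ∀ d ∈ charDegrees (Matrix.ProjectiveSpecialLinearGroup (Fin 2) F),
      d = 1 ∨ d = Fintype.card F ∨ d ∣ Fintype.card F + 1 ∨ d ∣ Fintype.card F - 1 := by
    by_cases hp2 : p = 2
    · subst hp2
      intro d hd
      exact sl_hd_even d (charDegrees_quot_subset _ hd)
    · have hodd : Odd (Fintype.card F) := by rw [hn]; exact (hp.odd_of_ne_two hp2).pow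
      exact psl_hd_odd hodd
  have hdeg : ∀ χ : Cfsg.IrrCharacter (Matrix.ProjectiveSpecialLinearGroup (Fin 2) F),
      p ∣ Cfsg.charDegree (χ : Matrix.ProjectiveSpecialLinearGroup (Fin 2) F → ℂ) →
      Cfsg.charDegree (χ : Matrix.ProjectiveSpecialLinearGroup (Fin 2) F → ℂ) = Fintype.card F := by
    intro χ hχ
    rcases hd _ ⟨χ, rfl⟩ with h | h | h | h
    · rw [h] at hχ; exact absurd (Nat.dvd_one.mp hχ) hp.ne_one
    · exact h
    · exfalso
      have h1 : p ∣ Fintype.card F + 1 := hχ.trans h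
      have h2 : p ∣ 1 := (Nat.dvd_add_right hpq).mp h1
      exact hp.ne_one (Nat.dvd_one.mp h2)
    · exfalso
      have h1 : p ∣ Fintype.card F - 1 := hχ.trans h
      have h2 : p ∣ 1 := by
        have h3 := Nat.dvd_sub hpq h1
        have e : Fintype.card F - (Fintype.card F - 1) = 1 := by
          have := Fintype.card_pos (α := F); omega
        rwa [e] at h3
      exact hp.ne_one (Nat.dvd_one.mp h2)
  refine ⟨?_, hdeg⟩
  rw [Nat.card_eq_one_iff_unique]
  constructor
  · constructor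
    intro χ₁ χ₂
    have hcard : Nat.card {χ : Cfsg.IrrCharacter (Matrix.SpecialLinearGroup (Fin 2) F) //
        (χ : Matrix.SpecialLinearGroup (Fin 2) F → ℂ) 1 = (Fintype.card F : ℂ)} = 1 := by
      by_cases hp2 : p = 2
      · subst hp2
        exact ((Cfsg.Agent.S2300.result (F := F)).2 hF).2.1
      · have hodd : Odd (Fintype.card F) := by rw [hn]; exact (hp.odd_of_ne_two hp2).pow
        have h5 : 5 ≤ Fintype.card F := by obtain ⟨k, hk⟩ := hodd; omega
        exact ((Cfsg.Agent.S2299.result hodd).2 h5).2.1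
    have hsub := (Nat.card_eq_one_iff_unique.mp hcard).1
    have e1 : (infl (Subgroup.center (Matrix.SpecialLinearGroup (Fin 2) F)) χ₁.1.1) 1 =
        (Fintype.card F : ℂ) := by
      rw [infl_one, irr_one_eq χ₁.1.2, hdeg χ₁.1 χ₁.2]
    have e2 : (infl (Subgroup.center (Matrix.SpecialLinearGroup (Fin 2) F)) χ₂.1.1) 1 =
        (Fintype.card F : ℂ) := by
      rw [infl_one, irr_one_eq χ₂.1.2, hdeg χ₂.1 χ₂.2]
    have h3 := hsub.elim
      ⟨⟨infl (Subgroup.center (Matrix.SpecialLinearGroup (Fin 2) F)) χ₁.1.1, infl_irr _ χ₁.1.2⟩, e1⟩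
      ⟨⟨infl (Subgroup.center (Matrix.SpecialLinearGroup (Fin 2) F)) χ₂.1.1, infl_irr _ χ₂.1.2⟩, e2⟩
    have h4 : infl (Subgroup.center (Matrix.SpecialLinearGroup (Fin 2) F)) χ₁.1.1 =
        infl (Subgroup.center (Matrix.SpecialLinearGroup (Fin 2) F)) χ₂.1.1 :=
      congrArg (fun x => x.1.1) h3
    exact Subtype.ext (Subtype.ext (infl_inj _ h4))
  · obtain ⟨ψ, hψ⟩ := psl_mem_q (F := F)
    exact ⟨⟨ψ, by rw [hψ]; exact hpq⟩⟩

end Cfsg.Agent.S4765
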