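import Cfsg.Statements.S4774
import Mathlib
import Cfsg.Agent.Lib.Helper25.PSL2Deg

set_option autoImplicit false
open Cfsg

namespace Cfsg.Agent.S4774

open Cfsg.Agent.Lib.Helper25.PSL2Deg

/-- Let F be a finite field of odd characteristic t with q > 5 elements and let S be isomorphic to PSL(2,F) or to SL(2,F). Then the vertices of the character degree graph of S are the primes dividing q(q²−1); the prime t is adjacent to no vertex; two distinct primes dividing q² − 1 are adjacent exactly when one of them is 2, or both divide q + 1, or both divide q − 1. -/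
theorem result (F : Type*) [Field F] [Fintype F] (t : ℕ) [Fact t.Prime] [CharP F t] (ht : t ≠ 2) (q : ℕ) (hq : Fintype.card F = q) (h5 : 5 < q) {S : Type*} [Group S] [Finite S] (hS : Nonempty (S ≃* Matrix.ProjectiveSpecialLinearGroup (Fin 2) F) ∨ Nonempty (S ≃* Matrix.SpecialLinearGroup (Fin 2) F)) : Cfsg.degreePrimes S = {r : ℕ | r.Prime ∧ r ∣ q * (q ^ 2 - 1)} ∧ ∀ r s : ℕ, (Cfsg.degreeGraph S).Adj r s ↔ (r ≠ s ∧ r.Prime ∧ s.Prime ∧ r ∣ q ^ 2 - 1 ∧ s ∣ q ^ 2 - 1 ∧ (r = 2 ∨ s = 2 ∨ (r ∣ q + 1 ∧ s ∣ q + 1) ∨ (r ∣ q - 1 ∧ s ∣ q - 1))) := by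
  subst hq
  obtain ⟨n, hn, hn1⟩ := card_field (F := F) t
  have htp : t.Prime := Fact.out
  have hodd : Odd (Fintype.card F) := by rw [hn]; exact (htp.odd_of_ne_two ht).pow
  have h7 : 7 ≤ Fintype.card F := by obtain ⟨k, hk⟩ := hodd; omega
  have core : degreePrimes S = {r : ℕ | r.Prime ∧ r ∣ Fintype.card F * (Fintype.card F ^ 2 - 1)} ∧
      ∀ r s : ℕ, (degreeGraph S).Adj r s ↔ (r ≠ s ∧ r.Prime ∧ s.Prime ∧
        ((r ∣ Fintype.card F + 1 ∧ s ∣ Fintype.card F + 1) ∨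
          (r ∣ Fintype.card F - 1 ∧ s ∣ Fintype.card F - 1))) := by
    rcases hS with ⟨⟨e⟩⟩ | ⟨⟨e⟩⟩
    · have hdeg := charDegrees_congr e
      obtain ⟨m1, m2, m3⟩ := psl_mem_odd hodd h7
      exact graph_core (Fintype.card F) t htp ⟨n, hn⟩ Fintype.card_pos
        (by rw [hdeg]; exact psl_hd_odd hodd) (by rw [hdeg]; exact m1) (by rw [hdeg]; exact m2)
        (by rw [hdeg]; exact m3)
    · have hdeg := charDegrees_congr e
      obtain ⟨m1, m2, m3⟩ := sl_mem_odd hodd (by omega)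
      exact graph_core (Fintype.card F) t htp ⟨n, hn⟩ Fintype.card_pos
        (by rw [hdeg]; exact sl_hd_odd hodd) (by rw [hdeg]; exact m1) (by rw [hdeg]; exact m2)
        (by rw [hdeg]; exact m3)
  refine ⟨core.1, fun r s => ?_⟩
  rw [core.2]
  constructor
  · rintro ⟨hne, hr, hs, h⟩
    exact ⟨hne, hr, hs, (adj_odd_iff _ hodd r s hr hs).mp h⟩
  · rintro ⟨hne, hr, hs, h⟩
    exact ⟨hne, hr, hs, (adj_odd_iff _ hodd r s hr hs).mpr h⟩

end Cfsg.Agent.S4774
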