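import Cfsg.Statements.S4797
import Cfsg.Agent.Lib.Helper25.Codegree
import Cfsg.Agent.Lib.Helper25.CodegreeGroup

set_option autoImplicit false
open Cfsg

namespace Cfsg.Agent.S4797

open Cfsg.Agent.Lib.Helper1 Cfsg.Agent.Lib.Helper25.Codegree Cfsg.Agent.Lib.Helper25.CodegreeGroup
open scoped ComplexConjugate

/-- The codegree of an irreducible complex character χ of a finite group G is [G : ker χ] / χ(1), where ker χ is the set of elements at which χ takes the value χ(1). A non-trivial finite group is perfect if and only if no irreducible complex character of it has prime codegree. -/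
theorem result {G : Type*} [Group G] [Finite G] [Nontrivial G] : commutator G = ⊤ ↔ ∀ χ : Cfsg.IrrCharacter G, ¬ ((Nat.card G / (Nat.card {g : G // (χ : G → ℂ) g = (χ : G → ℂ) 1} * Cfsg.charDegree (χ : G → ℂ)))).Prime := by
  classical
  have hfG : Fintype G := Fintype.ofFinite G
  have hIG : Fintype (Cfsg.IrrCharacter G) := irrFintype
  constructor
  · intro hperf χ hprime
    obtain ⟨K, hKn, hK⟩ := exists_ker (IsIrrCharacter.isCharacter χ.2)
    have hcod := cod_mul χ.2 K hK
    generalize hp : Nat.card G / (Nat.card {g : G // (χ : G → ℂ) g = (χ : G → ℂ) 1} *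
      Cfsg.charDegree (χ : G → ℂ)) = p at hcod hprime
    have hd := charDegree_pos χ.2
    let χ₀ : Cfsg.IrrCharacter G := ⟨fun _ => (1 : ℂ), isIrrCharacter_one⟩
    have hd0 : Cfsg.charDegree (χ₀ : G → ℂ) = 1 := by
      have h1 := charDegree_cast (IsIrrCharacter.isCharacter χ₀.2)
      have h2 : ((1 : ℕ) : ℂ) = (Cfsg.charDegree (χ₀ : G → ℂ) : ℂ) := by
        rw [← h1]; simp [χ₀]
      exact_mod_cast h2.symm
    have hne : χ₀ ≠ χ := by
      intro h
      have h1 : K = ⊤ := by
        rw [eq_top_iff]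
        intro g _
        rw [hK, ← h]
      rw [h1, Subgroup.index_top, ← h, hd0, mul_one] at hcod
      rw [hcod] at hprime
      exact Nat.not_prime_one hprime
    have hsum := sum_sq_ker_nat (G := G) K
    rw [← Finset.add_sum_erase Finset.univ _ (Finset.mem_univ χ)] at hsum
    have h1 : (if ∀ n ∈ K, (χ : G → ℂ) n = (χ : G → ℂ) 1 then
        Cfsg.charDegree (χ : G → ℂ) ^ 2 else 0) = Cfsg.charDegree (χ : G → ℂ) ^ 2 :=
      if_pos (fun n hn => (hK n).mp hn)
    have h2 : (if ∀ n ∈ K, (χ₀ : G → ℂ) n = (χ₀ : G → ℂ) 1 then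
        Cfsg.charDegree (χ₀ : G → ℂ) ^ 2 else 0) = 1 := by
      rw [if_pos (fun n hn => rfl), hd0, one_pow]
    have h3 : (if ∀ n ∈ K, (χ₀ : G → ℂ) n = (χ₀ : G → ℂ) 1 then
        Cfsg.charDegree (χ₀ : G → ℂ) ^ 2 else 0) ≤
        ∑ χ' ∈ Finset.univ.erase χ, (if ∀ n ∈ K, (χ' : G → ℂ) n = (χ' : G → ℂ) 1 then
          Cfsg.charDegree (χ' : G → ℂ) ^ 2 else 0) :=
      Finset.single_le_sum (f := fun χ' : Cfsg.IrrCharacter G =>
        (if ∀ n ∈ K, (χ' : G → ℂ) n = (χ' : G → ℂ) 1 then
          Cfsg.charDegree (χ' : G → ℂ) ^ 2 else 0)) (fun _ _ => Nat.zero_le _)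
        (Finset.mem_erase.mpr ⟨hne, Finset.mem_univ _⟩)
    rw [h2] at h3
    rw [h1, ← hcod] at hsum
    have hdp : Cfsg.charDegree (χ : G → ℂ) < p := by
      by_contra hcon
      push Not at hcon
      nlinarith
    have hcardH : Nat.card (G ⧸ K) = p * Cfsg.charDegree (χ : G → ℂ) := by
      rw [← Subgroup.index_eq_card, hcod]
    have hperfH : commutator (G ⧸ K) = ⊤ := by
      have h4 := Subgroup.map_commutator (⊤ : Subgroup G) ⊤ (QuotientGroup.mk' K)
      rw [Subgroup.map_top_of_surjective _ (QuotientGroup.mk'_surjective K), ← commutator_def,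
        ← commutator_def, hperf, Subgroup.map_top_of_surjective _ (QuotientGroup.mk'_surjective K)]
        at h4
      exact h4.symm
    exact not_perfect_of_card p _ hprime hd hdp hcardH hperfH
  · intro hall
    by_contra hnp
    obtain ⟨μ, p, hp, hidx⟩ := exists_hom_prime_index hnp
    apply hall ⟨fun g => ((μ g : ℂˣ) : ℂ), isIrrCharacter_of_monoidHom μ⟩
    show (Nat.card G / (Nat.card {g : G // ((μ g : ℂˣ) : ℂ) = ((μ 1 : ℂˣ) : ℂ)} *
      Cfsg.charDegree (fun g => ((μ g : ℂˣ) : ℂ)))).Prime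
    have hdeg : Cfsg.charDegree (fun g => ((μ g : ℂˣ) : ℂ)) = 1 := by
      unfold Cfsg.charDegree
      simp
    have hker : Nat.card {g : G // ((μ g : ℂˣ) : ℂ) = ((μ 1 : ℂˣ) : ℂ)} = Nat.card μ.ker := by
      apply card_kerSet (χ := fun g => ((μ g : ℂˣ) : ℂ)) μ.ker
      intro g
      rw [MonoidHom.mem_ker, map_one, Units.val_one, Units.val_eq_one]
    rw [hdeg, hker, mul_one, ← μ.ker.card_mul_index, Nat.mul_div_cancel_left _ Nat.card_pos, hidx]
    exact hp

end Cfsg.Agent.S4797
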