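import Cfsg.Statements.S4798
import Cfsg.Agent.Lib.Helper25.Codegree
import Cfsg.Agent.Lib.Helper1.CharInd

set_option autoImplicit false
open Cfsg

namespace Cfsg.Agent.S4798

open Cfsg.Agent.Lib.Helper1 Cfsg.Agent.Lib.Helper25.Codegree
open scoped ComplexConjugate

/-- A character containing an irreducible character of the same degree equals it. -/
theorem eq_of_inner_ne_zero_of_degree_eq {G : Type*} [Group G] [Fintype G] {φ χ : G → ℂ}
    (hφ : Cfsg.IsCharacter G φ) (hχ : Cfsg.IsIrrCharacter G χ)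
    (h : Cfsg.classInner φ χ ≠ 0) (hdeg : φ 1 = χ 1) : φ = χ := by
  classical
  have : Fintype (Cfsg.IrrCharacter G) := irrFintype
  obtain ⟨m, hm1, hm2⟩ := IsCharacter.eq_sum_irr hφ
  have hd : ∀ ψ : Cfsg.IrrCharacter G, (ψ : G → ℂ) 1 = (Cfsg.charDegree (ψ : G → ℂ) : ℂ) :=
    fun ψ => charDegree_cast (IsIrrCharacter.isCharacter ψ.2)
  have h1 : ((Cfsg.charDegree χ : ℕ) : ℂ) =
      ((∑ ψ : Cfsg.IrrCharacter G, m ψ * Cfsg.charDegree (ψ : G → ℂ) : ℕ) : ℂ) := by
    rw [← charDegree_cast (IsIrrCharacter.isCharacter hχ), ← hdeg]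
    conv_lhs => rw [hm2]
    rw [Finset.sum_apply]
    push_cast
    refine Finset.sum_congr rfl (fun ψ _ => ?_)
    rw [Pi.smul_apply, smul_eq_mul, hd ψ]
  have h2 : Cfsg.charDegree χ = ∑ ψ : Cfsg.IrrCharacter G, m ψ * Cfsg.charDegree (ψ : G → ℂ) := by
    exact_mod_cast h1
  have h3 : m ⟨χ, hχ⟩ ≠ 0 := by
    intro h0
    apply h
    rw [hm1 ⟨χ, hχ⟩, h0, Nat.cast_zero]
  rw [← Finset.add_sum_erase Finset.univ _ (Finset.mem_univ (⟨χ, hχ⟩ : Cfsg.IrrCharacter G))] at h2
  have hdpos := charDegree_pos hχ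
  have h4 : m ⟨χ, hχ⟩ = 1 ∧ ∑ ψ ∈ Finset.univ.erase (⟨χ, hχ⟩ : Cfsg.IrrCharacter G),
      m ψ * Cfsg.charDegree (ψ : G → ℂ) = 0 := by
    have h5 : 1 ≤ m ⟨χ, hχ⟩ := Nat.one_le_iff_ne_zero.mpr h3
    have h2' : Cfsg.charDegree χ = m ⟨χ, hχ⟩ * Cfsg.charDegree χ +
        ∑ ψ ∈ Finset.univ.erase (⟨χ, hχ⟩ : Cfsg.IrrCharacter G),
          m ψ * Cfsg.charDegree (ψ : G → ℂ) := h2
    generalize m ⟨χ, hχ⟩ = M at h5 h2' ⊢
    generalize ∑ ψ ∈ Finset.univ.erase (⟨χ, hχ⟩ : Cfsg.IrrCharacter G),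
          m ψ * Cfsg.charDegree (ψ : G → ℂ) = R at h2' ⊢
    generalize Cfsg.charDegree χ = D at h2' hdpos
    have h6 : M * D ≤ 1 * D := by omega
    have h7 : M ≤ 1 := Nat.le_of_mul_le_mul_right h6 hdpos
    have h8 : M = 1 := by omega
    subst h8
    refine ⟨rfl, ?_⟩
    omega
  obtain ⟨h5, h6⟩ := h4
  have h7 : ∀ ψ : Cfsg.IrrCharacter G, ψ ≠ ⟨χ, hχ⟩ → m ψ = 0 := by
    intro ψ hψ
    have h8 := (Finset.sum_eq_zero_iff.mp h6) ψ (Finset.mem_erase.mpr ⟨hψ, Finset.mem_univ _⟩)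
    rcases Nat.mul_eq_zero.mp h8 with h9 | h9
    · exact h9
    · exact absurd h9 (charDegree_pos ψ.2).ne'
  rw [hm2, Finset.sum_eq_single (⟨χ, hχ⟩ : Cfsg.IrrCharacter G)]
  · rw [h5]; simp
  · intro ψ _ hψ
    rw [h7 ψ hψ]; simp
  · intro h; exact absurd (Finset.mem_univ _) h

/-- Let p be a prime and χ a faithful irreducible complex character of the finite group G (χ(g) = χ(1) only for g = 1), so that its codegree is #G / χ(1). Then #G / χ(1) is a power of p if and only if χ is induced from a character of a Sylow p-subgroup of G. -/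
theorem result {G : Type*} [Group G] [Fintype G] (p : ℕ) [Fact p.Prime] (χ : Cfsg.IrrCharacter G) (hfaith : ∀ g : G, (χ : G → ℂ) g = (χ : G → ℂ) 1 → g = 1) : (∃ k : ℕ, Nat.card G = p ^ k * Cfsg.charDegree (χ : G → ℂ)) ↔ ∃ (P : Sylow p G) (θ : ↥(P : Subgroup G) → ℂ), Cfsg.IsCharacter ↥(P : Subgroup G) θ ∧ (χ : G → ℂ) = Cfsg.indFun (P : Subgroup G) θ := by
  classical
  have hp : p.Prime := Fact.out
  have hχd := charDegree_cast (IsIrrCharacter.isCharacter χ.2)
  have hdpos := charDegree_pos χ.2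
  constructor
  · rintro ⟨k, hk⟩
    let P : Sylow p G := default
    have hfP : Fintype (P : Subgroup G) := Fintype.ofFinite _
    have hIP : Fintype (Cfsg.IrrCharacter (P : Subgroup G)) := irrFintype
    have hPcard : Nat.card (P : Subgroup G) = p ^ (Nat.card G).factorization p :=
      Sylow.card_eq_multiplicity P
    have hPidx : ¬ p ∣ (P : Subgroup G).index := Sylow.not_dvd_index P
    have hGcard := (P : Subgroup G).card_mul_index
    generalize ha : (Nat.card G).factorization p = a at hPcard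
    generalize hm : (P : Subgroup G).index = m at hPidx hGcard
    rw [hPcard, hk] at hGcard
    have hmpos : 0 < m := by
      rw [← hm]; exact Nat.pos_of_ne_zero Subgroup.index_ne_zero_of_finite
    have hcop : Nat.Coprime (p ^ k) m := Nat.Coprime.pow_left k ((Nat.Prime.coprime_iff_not_dvd hp).mpr hPidx)
    have hka : k ≤ a := by
      have h1 : p ^ k ∣ p ^ a * m := Dvd.intro _ hGcard.symm
      have h2 : p ^ k ∣ p ^ a := hcop.dvd_of_dvd_mul_right h1
      exact (Nat.pow_dvd_pow_iff_le_right hp.one_lt).mp h2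
    have hd : Cfsg.charDegree (χ : G → ℂ) = p ^ (a - k) * m := by
      have h1 : p ^ k * (p ^ (a - k) * m) = p ^ k * Cfsg.charDegree (χ : G → ℂ) := by
        rw [← hGcard, ← mul_assoc, ← pow_add, Nat.add_sub_cancel' hka]
      exact (Nat.eq_of_mul_eq_mul_left (pow_pos hp.pos k) h1).symm
    have hχP : Cfsg.IsCharacter (P : Subgroup G) (fun x : (P : Subgroup G) => (χ : G → ℂ) x) :=
      IsCharacter.restrict (IsIrrCharacter.isCharacter χ.2) _
    obtain ⟨mult, hm1, hm2⟩ := IsCharacter.eq_sum_irr hχP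
    have hθd : ∀ θ : Cfsg.IrrCharacter (P : Subgroup G), (θ : ↥(P : Subgroup G) → ℂ) 1 =
        (Cfsg.charDegree (θ : ↥(P : Subgroup G) → ℂ) : ℂ) :=
      fun θ => charDegree_cast (IsIrrCharacter.isCharacter θ.2)
    have hθpow : ∀ θ : Cfsg.IrrCharacter (P : Subgroup G), ∃ j : ℕ,
        Cfsg.charDegree (θ : ↥(P : Subgroup G) → ℂ) = p ^ j := by
      intro θ
      obtain ⟨n, hn1, hn2, hn3⟩ := IsIrrCharacter.degree_dvd_card θ.2
      rw [hθd θ] at hn1
      have h1 : Cfsg.charDegree (θ : ↥(P : Subgroup G) → ℂ) = n := by exact_mod_cast hn1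
      rw [hPcard] at hn2
      obtain ⟨j, -, hj⟩ := (Nat.dvd_prime_pow hp).mp hn2
      exact ⟨j, h1.trans hj⟩
    -- degree of χ as a sum
    have hsum : Cfsg.charDegree (χ : G → ℂ) =
        ∑ θ : Cfsg.IrrCharacter (P : Subgroup G),
          mult θ * Cfsg.charDegree (θ : ↥(P : Subgroup G) → ℂ) := by
      have h1 : ((Cfsg.charDegree (χ : G → ℂ) : ℕ) : ℂ) =
          ((∑ θ : Cfsg.IrrCharacter (P : Subgroup G),
            mult θ * Cfsg.charDegree (θ : ↥(P : Subgroup G) → ℂ) : ℕ) : ℂ) := by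
        rw [← hχd]
        have h2 := congrFun hm2 1
        simp only [OneMemClass.coe_one] at h2
        rw [h2, Finset.sum_apply]
        push_cast
        refine Finset.sum_congr rfl (fun θ _ => ?_)
        rw [Pi.smul_apply, smul_eq_mul, hθd θ]
      exact_mod_cast h1
    -- Frobenius reciprocity for constituents
    have hfrob : ∀ θ : Cfsg.IrrCharacter (P : Subgroup G), mult θ ≠ 0 →
        Cfsg.classInner (Cfsg.indFun (P : Subgroup G) (θ : ↥(P : Subgroup G) → ℂ)) (χ : G → ℂ) ≠ 0 := by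
      intro θ hθ
      rw [frobenius_reciprocity (P : Subgroup G) _ (IsIrrCharacter.isClassFunction χ.2),
        ← classInner_conj_symm, hm1 θ, Complex.conj_natCast]
      exact_mod_cast hθ
    have hind1 : ∀ θ : Cfsg.IrrCharacter (P : Subgroup G),
        Cfsg.indFun (P : Subgroup G) (θ : ↥(P : Subgroup G) → ℂ) 1 =
          ((m * Cfsg.charDegree (θ : ↥(P : Subgroup G) → ℂ) : ℕ) : ℂ) := by
      intro θ
      rw [indFun_one, hm, hθd θ]
      push_cast
      rfl
    have hle : ∀ θ : Cfsg.IrrCharacter (P : Subgroup G), mult θ ≠ 0 →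
        p ^ (a - k) ∣ Cfsg.charDegree (θ : ↥(P : Subgroup G) → ℂ) := by
      intro θ hθ
      have h1 := degree_le_of_classInner_ne_zero
        (indFun_isCharacter (P : Subgroup G) (IsIrrCharacter.isCharacter θ.2)) χ.2 (hfrob θ hθ)
        hχd (hind1 θ)
      obtain ⟨j, hj⟩ := hθpow θ
      rw [hj] at h1 ⊢
      rw [hd, mul_comm] at h1
      have h2 : p ^ (a - k) ≤ p ^ j := Nat.le_of_mul_le_mul_left h1 hmpos
      exact pow_dvd_pow p ((Nat.pow_le_pow_iff_right hp.one_lt).mp h2)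
    obtain ⟨θ, hθ1, hθ2⟩ : ∃ θ : Cfsg.IrrCharacter (P : Subgroup G), mult θ ≠ 0 ∧
        Cfsg.charDegree (θ : ↥(P : Subgroup G) → ℂ) = p ^ (a - k) := by
      by_contra hcon
      push Not at hcon
      have h1 : p ^ (a - k + 1) ∣ ∑ θ : Cfsg.IrrCharacter (P : Subgroup G),
          mult θ * Cfsg.charDegree (θ : ↥(P : Subgroup G) → ℂ) := by
        apply Finset.dvd_sum
        intro θ _
        by_cases hθ : mult θ = 0
        · rw [hθ, zero_mul]; exact dvd_zero _
        · apply Dvd.dvd.mul_left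
          obtain ⟨j, hj⟩ := hθpow θ
          have h2 := hle θ hθ
          have h3 := hcon θ hθ
          rw [hj] at h2 h3 ⊢
          have h4 : a - k ≤ j := (Nat.pow_dvd_pow_iff_le_right hp.one_lt).mp h2
          have h5 : a - k ≠ j := fun h => h3 (by rw [h])
          exact pow_dvd_pow p (by omega)
      rw [← hsum, hd, pow_succ] at h1
      exact hPidx (Nat.dvd_of_mul_dvd_mul_left (pow_pos hp.pos _) h1)
    refine ⟨P, (θ : ↥(P : Subgroup G) → ℂ), IsIrrCharacter.isCharacter θ.2, ?_⟩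
    symm
    apply eq_of_inner_ne_zero_of_degree_eq
      (indFun_isCharacter (P : Subgroup G) (IsIrrCharacter.isCharacter θ.2)) χ.2 (hfrob θ hθ1)
    rw [hind1 θ, hχd, hθ2, hd, mul_comm]
  · rintro ⟨P, θ, hθ, hχ⟩
    obtain ⟨t, ht⟩ := IsCharacter.degree_nat hθ
    have h1 : (χ : G → ℂ) 1 = (((P : Subgroup G).index * t : ℕ) : ℂ) := by
      rw [hχ, indFun_one, ht]
      push_cast
      rfl
    rw [hχd] at h1
    have h2 : Cfsg.charDegree (χ : G → ℂ) = (P : Subgroup G).index * t := by exact_mod_cast h1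
    obtain ⟨n, hn1, hn2, hn3⟩ := IsIrrCharacter.degree_dvd_card χ.2
    rw [hχd] at hn1
    have h3 : Cfsg.charDegree (χ : G → ℂ) = n := by exact_mod_cast hn1
    rw [← h3, h2, ← (P : Subgroup G).card_mul_index, mul_comm] at hn2
    have hidxpos : 0 < (P : Subgroup G).index := Nat.pos_of_ne_zero Subgroup.index_ne_zero_of_finite
    have h4 : t ∣ Nat.card (P : Subgroup G) := Nat.dvd_of_mul_dvd_mul_right hidxpos hn2
    have hPc := Sylow.card_eq_multiplicity P
    generalize (Nat.card G).factorization p = a at hPc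
    rw [hPc] at h4
    obtain ⟨j, hj1, hj2⟩ := (Nat.dvd_prime_pow hp).mp h4
    refine ⟨a - j, ?_⟩
    rw [h2, hj2, ← (P : Subgroup G).card_mul_index, hPc]
    have h5 : p ^ a = p ^ (a - j) * p ^ j := by
      rw [← pow_add, Nat.sub_add_cancel hj1]
    rw [h5]
    ring

end Cfsg.Agent.S4798
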