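import Cfsg.Statements.S4802
import Cfsg.Agent.Lib.Helper25.Codegree

set_option autoImplicit false
open Cfsg

namespace Cfsg.Agent.S4802

open Cfsg.Agent.Lib.Helper1 Cfsg.Agent.Lib.Helper25.CharConv Cfsg.Agent.Lib.Helper25.Codegree
open scoped ComplexConjugate

/-- Let N < M be normal subgroups of the finite group G and g ∈ M ∖ N. Then the conjugacy class of g is exactly M ∖ N if and only if every irreducible complex character of G whose kernel contains N takes the same value at all elements of M ∖ N, and every irreducible complex character of G whose kernel does not contain N vanishes at g. -/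
theorem result {G : Type*} [Group G] [Finite G] (N M : Subgroup G) [N.Normal] [M.Normal] (hNM : N < M) (g : G) (hgM : g ∈ M) (hgN : g ∉ N) : {h : G | IsConj g h} = (M : Set G) \ (N : Set G) ↔ ((∀ χ : Cfsg.IrrCharacter G, (∀ x ∈ N, (χ : G → ℂ) x = (χ : G → ℂ) 1) → ∀ x ∈ M, x ∉ N → ∀ y ∈ M, y ∉ N → (χ : G → ℂ) x = (χ : G → ℂ) y) ∧ (∀ χ : Cfsg.IrrCharacter G, (∃ x ∈ N, (χ : G → ℂ) x ≠ (χ : G → ℂ) 1) → (χ : G → ℂ) g = 0)) := by
  classical
  have hfG : Fintype G := Fintype.ofFinite G
  have hIG : Fintype (Cfsg.IrrCharacter G) := irrFintype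
  have hNn : N.Normal := inferInstance
  have hMn : M.Normal := inferInstance
  constructor
  · intro hcl
    have hconj : ∀ x : G, x ∈ M → x ∉ N → IsConj g x := by
      intro x hxM hxN
      have h1 : x ∈ (M : Set G) \ (N : Set G) := ⟨hxM, hxN⟩
      rw [← hcl] at h1
      exact h1
    constructor
    · intro χ _ x hxM hxN y hyM hyN
      have hcf := IsIrrCharacter.isClassFunction χ.2
      rw [← IsClassFunction.eq_of_isConj hcf (hconj x hxM hxN),
        ← IsClassFunction.eq_of_isConj hcf (hconj y hyM hyN)]
    · rintro χ ⟨n₀, hn₀, hne⟩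
      have hcf := IsIrrCharacter.isClassFunction χ.2
      have hf : Cfsg.IsClassFunction G (fun x => if x ∈ N then (1 : ℂ) else 0) := by
        intro x k
        have h1 : k * x * k⁻¹ ∈ N ↔ x ∈ N := by
          constructor
          · intro h
            have := hNn.conj_mem _ h k⁻¹
            simpa [mul_assoc] using this
          · intro h
            exact hNn.conj_mem _ h k
        simp only [h1]
      have h1 := gen_orth_cf hf χ.2 g
      have h2 : ∑ x : G, (if x ∈ N then (1 : ℂ) else 0) * (χ : G → ℂ) x = 0 := by
        have h3 := sum_subgroup_eq_zero χ.2 N hn₀ hne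
        have h3' : ∑ x : G, (if x ∈ N then (1 : ℂ) else 0) * (χ : G → ℂ) x =
            ∑ x : G, (if x ∈ N then (χ : G → ℂ) x else 0) := by
          refine Finset.sum_congr rfl (fun x _ => ?_)
          split_ifs <;> simp
        rw [h3', h3]
      rw [h2, zero_mul, zero_div] at h1
      have h4 : ∀ x : G, (if x ∈ N then (1 : ℂ) else 0) * (χ : G → ℂ) (x * g) =
          (if x ∈ N then (χ : G → ℂ) g else 0) := by
        intro x
        split_ifs with hx
        · rw [one_mul]
          have hxgM : x * g ∈ M := M.mul_mem (hNM.le hx) hgM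
          have hxgN : x * g ∉ N := by
            intro hc
            apply hgN
            have := N.mul_mem (N.inv_mem hx) hc
            simpa using this
          exact (IsClassFunction.eq_of_isConj hcf (hconj _ hxgM hxgN)).symm
        · rw [zero_mul]
      rw [Finset.sum_congr rfl (fun x _ => h4 x), ← Finset.sum_filter, Finset.sum_const,
        nsmul_eq_mul] at h1
      rcases mul_eq_zero.mp h1 with h5 | h5
      · exfalso
        have h6 : (Finset.univ.filter (fun x : G => x ∈ N)).card = 0 := by exact_mod_cast h5
        have h7 : (1 : G) ∈ Finset.univ.filter (fun x : G => x ∈ N) := by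
          simp [N.one_mem]
        rw [Finset.card_eq_zero] at h6
        rw [h6] at h7
        exact absurd h7 (Finset.notMem_empty _)
      · exact h5
  · rintro ⟨h1, h2⟩
    ext h
    constructor
    · intro hh
      have hh' : IsConj g h := hh
      obtain ⟨c, hc⟩ := isConj_iff.mp hh'
      refine ⟨?_, ?_⟩
      · rw [← hc]
        exact hMn.conj_mem g hgM c
      · intro hhN
        apply hgN
        have h3 : g = c⁻¹ * h * c⁻¹⁻¹ := by rw [← hc]; group
        rw [h3]
        exact hNn.conj_mem h hhN c⁻¹
    · rintro ⟨hhM, hhN⟩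
      show IsConj g h
      by_contra hcon
      have h3 := col_orth (G := G) g h
      rw [if_neg hcon] at h3
      have h4 := col_orth (G := G) g g
      rw [if_pos (IsConj.refl g)] at h4
      have h5 : ∀ χ : Cfsg.IrrCharacter G, (χ : G → ℂ) g * conj ((χ : G → ℂ) h) =
          (χ : G → ℂ) g * conj ((χ : G → ℂ) g) := by
        intro χ
        by_cases hker : ∀ x ∈ N, (χ : G → ℂ) x = (χ : G → ℂ) 1
        · rw [h1 χ hker h hhM hhN g hgM hgN]
        · push Not at hker
          rw [h2 χ hker, zero_mul, zero_mul]
      rw [Finset.sum_congr rfl (fun χ _ => h5 χ), h4] at h3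
      have h6 : Nat.card (Subgroup.centralizer ({g} : Set G)) = 0 := by exact_mod_cast h3
      exact Nat.card_pos.ne' h6

end Cfsg.Agent.S4802
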