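import Cfsg.Statements.S4808
import Cfsg.Agent.Lib.Helper25.Codegree

set_option autoImplicit false
open Cfsg

namespace Cfsg.Agent.S4808

open Cfsg.Agent.Lib.Helper1 Cfsg.Agent.Lib.Helper25.Codegree
open scoped ComplexConjugate

universe u

theorem aux (p : ℕ) (hp : p.Prime) : ∀ (n : ℕ) (G : Type u) [Group G] [Finite G],
    Nat.card G = n → p ∣ n →
    ∃ χ : Cfsg.IrrCharacter G, p ∣ (Nat.card G / (Nat.card {g : G // (χ : G → ℂ) g = (χ : G → ℂ) 1} *
      Cfsg.charDegree (χ : G → ℂ))) := by
  intro n
  induction n using Nat.strong_induction_on with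
  | _ n ih =>
    intro G _ _ hn hpn
    classical
    have hfG : Fintype G := Fintype.ofFinite G
    have hIG : Fintype (Cfsg.IrrCharacter G) := irrFintype
    by_cases hN : ∃ N : Subgroup G, N.Normal ∧ N ≠ ⊥ ∧ p ∣ N.index
    · obtain ⟨N, hNn, hNbot, hNp⟩ := hN
      have hlt : Nat.card (G ⧸ N) < n := by
        rw [← hn, ← Subgroup.index_eq_card, ← N.card_mul_index]
        have h1 : 1 < Nat.card N := by
          rw [Subgroup.one_lt_card_iff_ne_bot]
          exact hNbot
        have h2 : 0 < N.index := Nat.pos_of_ne_zero Subgroup.index_ne_zero_of_finite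
        nlinarith
      have hpq : p ∣ Nat.card (G ⧸ N) := by
        rw [← Subgroup.index_eq_card]; exact hNp
      obtain ⟨ψ, hψ⟩ := ih (Nat.card (G ⧸ N)) hlt (G ⧸ N) rfl hpq
      refine ⟨⟨fun g : G => (ψ : G ⧸ N → ℂ) (g : G ⧸ N),
        Cfsg.Agent.Lib.Helper24.CharQuot.irr_inflate (QuotientGroup.mk' N)
          (QuotientGroup.mk'_surjective N) ψ.2⟩, ?_⟩
      have h3 := cod_inflate N (ψ : G ⧸ N → ℂ)
      rw [← h3] at hψ
      exact hψ
    · push Not at hN
      by_contra hcon
      push Not at hcon
      have hpG : p ∣ Nat.card G := hn ▸ hpn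
      have : Fact p.Prime := ⟨hp⟩
      obtain ⟨x, hx⟩ := exists_prime_orderOf_dvd_card' p hpG
      have hx1 : x ≠ 1 := by
        intro h
        rw [h, orderOf_one] at hx
        exact hp.one_lt.ne hx
      have hxN : ∀ N : Subgroup G, N.Normal → N ≠ ⊥ → x ∈ N := by
        intro N hNn hNbot
        have h1 := hN N hNn hNbot
        have h2 : ((x : G ⧸ N)) ^ p = 1 := by
          rw [← QuotientGroup.mk_pow, ← hx, pow_orderOf_eq_one]
          rfl
        have h3 := orderOf_dvd_of_pow_eq_one h2
        rcases (Nat.dvd_prime hp).mp h3 with h4 | h4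
        · rw [orderOf_eq_one_iff] at h4
          exact (QuotientGroup.eq_one_iff x).mp h4
        · exfalso
          apply h1
          rw [Subgroup.index_eq_card, ← h4]
          exact orderOf_dvd_natCard _
      have hN₁n : (Subgroup.normalClosure ({x} : Set G)).Normal := Subgroup.normalClosure_normal
      have hN₁bot : Subgroup.normalClosure ({x} : Set G) ≠ ⊥ := by
        intro h
        have h1 : x ∈ Subgroup.normalClosure ({x} : Set G) :=
          Subgroup.subset_normalClosure (Set.mem_singleton x)
        rw [h, Subgroup.mem_bot] at h1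
        exact hx1 h1
      have hN₁p := hN _ hN₁n hN₁bot
      have hkey : ∀ χ : Cfsg.IrrCharacter G,
          (¬ ∀ n ∈ Subgroup.normalClosure ({x} : Set G), (χ : G → ℂ) n = (χ : G → ℂ) 1) →
            p ∣ Cfsg.charDegree (χ : G → ℂ) := by
        intro χ hχ
        obtain ⟨K, hKn, hK⟩ := exists_ker (IsIrrCharacter.isCharacter χ.2)
        have hcod := cod_mul χ.2 K hK
        by_cases hKbot : K = ⊥
        · rw [hKbot, Subgroup.index_bot] at hcod
          rw [← hcod] at hpG
          rcases (Nat.Prime.dvd_mul hp).mp hpG with h | h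
          · exact absurd h (hcon χ)
          · exact h
        · exfalso
          apply hχ
          intro n hn
          have h1 : Subgroup.normalClosure ({x} : Set G) ≤ K := by
            apply Subgroup.normalClosure_le_normal
            intro y hy
            rw [Set.mem_singleton_iff] at hy
            rw [hy]
            exact hxN K hKn hKbot
          exact (hK n).mp (h1 hn)
      have h1 := sum_sq_nat (G := G)
      have h2 := sum_sq_ker_nat (G := G) (Subgroup.normalClosure ({x} : Set G))
      have h3 : ∑ χ : Cfsg.IrrCharacter G, Cfsg.charDegree (χ : G → ℂ) ^ 2 =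
          ∑ χ : Cfsg.IrrCharacter G,
            (if ∀ n ∈ Subgroup.normalClosure ({x} : Set G), (χ : G → ℂ) n = (χ : G → ℂ) 1
              then Cfsg.charDegree (χ : G → ℂ) ^ 2 else 0) +
          ∑ χ : Cfsg.IrrCharacter G,
            (if ∀ n ∈ Subgroup.normalClosure ({x} : Set G), (χ : G → ℂ) n = (χ : G → ℂ) 1
              then 0 else Cfsg.charDegree (χ : G → ℂ) ^ 2) := by
        rw [← Finset.sum_add_distrib]
        refine Finset.sum_congr rfl (fun χ _ => ?_)
        split_ifs <;> simp
      rw [h1, h2] at h3
      have h4 : p ∣ ∑ χ : Cfsg.IrrCharacter G,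
            (if ∀ n ∈ Subgroup.normalClosure ({x} : Set G), (χ : G → ℂ) n = (χ : G → ℂ) 1
              then 0 else Cfsg.charDegree (χ : G → ℂ) ^ 2) := by
        apply Finset.dvd_sum
        intro χ _
        split_ifs with hc
        · exact dvd_zero p
        · exact Dvd.dvd.pow (hkey χ hc) (by norm_num)
      rw [h3] at hpG
      exact hN₁p ((Nat.dvd_add_left h4).mp hpG)

/-- The codegree of an irreducible complex character χ of a finite group G is [G : ker χ] / χ(1), where ker χ is the set of elements at which χ takes the value χ(1). A prime divides the order of G if and only if it divides the codegree of some irreducible complex character of G. -/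
theorem result {G : Type*} [Group G] [Finite G] (p : ℕ) (hp : p.Prime) : p ∣ Nat.card G ↔ ∃ χ : Cfsg.IrrCharacter G, p ∣ (Nat.card G / (Nat.card {g : G // (χ : G → ℂ) g = (χ : G → ℂ) 1} * Cfsg.charDegree (χ : G → ℂ))) := by
  constructor
  · intro h
    exact aux p hp (Nat.card G) G rfl h
  · rintro ⟨χ, hχ⟩
    exact hχ.trans (cod_dvd_card χ.2)

end Cfsg.Agent.S4808
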