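import Cfsg.Statements.S4812
import Mathlib
import Cfsg.Agent.Lib.Helper25.PSL2Deg

set_option autoImplicit false
open Cfsg

namespace Cfsg.Agent.S4812

open Cfsg.Agent.Lib.Helper25.PSL2Deg

/-- Let F be a finite field of characteristic 2 with q ≥ 4 elements and let S be isomorphic to PSL(2,F) or to SL(2,F). Then the vertices of the character degree graph of S are the primes dividing q(q²−1), and two distinct primes are adjacent exactly when both divide q + 1 or both divide q − 1; so the graph has the three connected components {2}, the primes dividing q + 1 and the primes dividing q − 1, each complete. -/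
theorem result (F : Type*) [Field F] [Fintype F] [CharP F 2] (q : ℕ) (hq : Fintype.card F = q) (h4 : 4 ≤ q) {S : Type*} [Group S] [Finite S] (hS : Nonempty (S ≃* Matrix.ProjectiveSpecialLinearGroup (Fin 2) F) ∨ Nonempty (S ≃* Matrix.SpecialLinearGroup (Fin 2) F)) : Cfsg.degreePrimes S = {r : ℕ | r.Prime ∧ r ∣ q * (q ^ 2 - 1)} ∧ ∀ r s : ℕ, (Cfsg.degreeGraph S).Adj r s ↔ (r ≠ s ∧ r.Prime ∧ s.Prime ∧ ((r ∣ q + 1 ∧ s ∣ q + 1) ∨ (r ∣ q - 1 ∧ s ∣ q - 1))) := by
  subst hq
  have hdeg : charDegrees S = charDegrees (Matrix.SpecialLinearGroup (Fin 2) F) := by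
    rcases hS with ⟨⟨e⟩⟩ | ⟨⟨e⟩⟩
    · rw [charDegrees_congr e, charDegrees_psl_char2]
    · exact charDegrees_congr e
  have : Fact (Nat.Prime 2) := ⟨Nat.prime_two⟩
  obtain ⟨n, hn, -⟩ := card_field (F := F) 2
  obtain ⟨m1, m2, m3⟩ := sl_mem_even (F := F) h4
  exact graph_core (Fintype.card F) 2 Nat.prime_two ⟨n, hn⟩ Fintype.card_pos
    (by rw [hdeg]; exact sl_hd_even) (by rw [hdeg]; exact m1) (by rw [hdeg]; exact m2)
    (by rw [hdeg]; exact m3)

end Cfsg.Agent.S4812
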