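import Cfsg.Statements.S4836
import Cfsg.Agent.Lib.Helper25.Gagola

set_option autoImplicit false
open Cfsg

namespace Cfsg.Agent.S4836

open Cfsg.Agent.Lib.Helper1 Cfsg.Agent.Lib.Helper25.Gagola

/-- Let G be a finite group of order greater than 2 with an irreducible character χ that is nonzero on exactly two conjugacy classes. Then χ is faithful (it takes the value χ(1) only at the identity), it is the only faithful irreducible character of G, and it is the only irreducible character of G that is nonzero on exactly two conjugacy classes. -/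
theorem result {G : Type*} [Group G] [Finite G] (hG : 2 < Nat.card G) (χ : Cfsg.IrrCharacter G) (hχ : Nat.card {C : ConjClasses G // ∃ g ∈ C.carrier, (χ : G → ℂ) g ≠ 0} = 2) :
    (∀ g : G, (χ : G → ℂ) g = (χ : G → ℂ) 1 → g = 1) ∧
      (∀ ψ : Cfsg.IrrCharacter G, (∀ g : G, (ψ : G → ℂ) g = (ψ : G → ℂ) 1 → g = 1) → ψ = χ) ∧
      (∀ ψ : Cfsg.IrrCharacter G, Nat.card {C : ConjClasses G // ∃ g ∈ C.carrier, (ψ : G → ℂ) g ≠ 0} = 2 → ψ = χ) := by
  classical
  have hfG : Fintype G := Fintype.ofFinite G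
  have hIG : Fintype (Cfsg.IrrCharacter G) := irrFintype
  obtain ⟨g₀, h⟩ := exists_twoClass χ.2 hχ
  have hb : ∀ ψ : Cfsg.IrrCharacter G,
      (∀ g : G, (ψ : G → ℂ) g = (ψ : G → ℂ) 1 → g = 1) → ψ = χ := by
    intro ψ hψ
    by_contra hne
    have h1 := other_ker hG χ.2 h ψ.2 (fun hc => hne (Subtype.ext hc))
    exact h.1 (hψ g₀ h1)
  refine ⟨faithful hG χ.2 h, hb, ?_⟩
  intro ψ hψ
  obtain ⟨g₁, h'⟩ := exists_twoClass ψ.2 hψ
  exact hb ψ (faithful hG ψ.2 h')

end Cfsg.Agent.S4836
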