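import Cfsg.Statements.S4837
import Cfsg.Agent.Lib.Helper25.Gagola2

set_option autoImplicit false
open Cfsg

namespace Cfsg.Agent.S4837

open Cfsg.Agent.Lib.Helper1 Cfsg.Agent.Lib.Helper25.Gagola

/-- Let G be a finite group of order greater than 2 with an irreducible character χ nonzero on exactly two conjugacy classes, and let N be the set of elements where χ is nonzero, given as a nontrivial normal p-subgroup of G for the prime p. Then for every nonidentity x in N the centralizer C_G(x) is a Sylow p-subgroup of G, and for every irreducible character λ ≠ 1 of N the stabilizer of λ in G (its inertia group) is a Sylow p-subgroup of G. -/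
theorem result {G : Type*} [Group G] [Finite G] (hG : 2 < Nat.card G) (χ : Cfsg.IrrCharacter G) (hχ : Nat.card {C : ConjClasses G // ∃ g ∈ C.carrier, (χ : G → ℂ) g ≠ 0} = 2) (p : ℕ) [Fact p.Prime] (N : Subgroup G) [N.Normal] (hN : ∀ g : G, g ∈ N ↔ (χ : G → ℂ) g ≠ 0) (hNp : IsPGroup p N) (hN1 : N ≠ ⊥) :
    (∀ x ∈ N, x ≠ 1 → ∃ P : Sylow p G, Subgroup.centralizer ({x} : Set G) = P) ∧
      (∀ μ : Cfsg.IrrCharacter N, (μ : N → ℂ) ≠ (fun _ => (1 : ℂ)) → ∃ P : Sylow p G, ∀ g : G, g ∈ (P : Subgroup G) ↔ ∀ n n' : N, (n' : G) = g * n * g⁻¹ → (μ : N → ℂ) n' = (μ : N → ℂ) n) := by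
  classical
  have hfG : Fintype G := Fintype.ofFinite G
  have hIG : Fintype (Cfsg.IrrCharacter G) := irrFintype
  have hp : p.Prime := Fact.out
  obtain ⟨g₀, h⟩ := exists_twoClass χ.2 hχ
  have hNs : N = supp χ := by
    ext g
    rw [hN, mem_supp hG χ h]
  subst hNs
  have hindex : ∀ (K : Subgroup G) (x : G), x ∈ supp χ → x ≠ 1 →
      Nat.card K = Nat.card (Subgroup.centralizer ({x} : Set G)) →
      IsPGroup p K ∧ ¬ p ∣ K.index := by
    intro K x hx hx1 hK
    obtain ⟨⟨k, hk⟩, hpc⟩ := centralizer_pgroup hG χ h p hNp hx hx1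
    refine ⟨IsPGroup.of_card (hK.trans hk), ?_⟩
    have h1 := card_centralizer_mul hG χ h hx hx1
    have h2 := K.card_mul_index
    have h3 : K.index = Nat.card {y : G // IsConj g₀ y} := by
      rw [← h1, ← hK] at h2
      exact Nat.eq_of_mul_eq_mul_left Nat.card_pos h2
    rw [h3]
    exact hpc
  constructor
  · intro x hx hx1
    obtain ⟨hpg, hidx⟩ := hindex (Subgroup.centralizer ({x} : Set G)) x hx hx1 rfl
    exact ⟨hpg.toSylow hidx, (IsPGroup.toSylow_coe hpg hidx).symm⟩
  · intro μ hμ1
    let T : Subgroup G :=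
      { carrier := {g | conjChar (supp χ) (μ : supp χ → ℂ) g = (μ : supp χ → ℂ)}
        one_mem' := conjChar_one (supp χ) (μ : supp χ → ℂ)
        mul_mem' := by
          intro a b ha hb
          have ha' : conjChar (supp χ) (μ : supp χ → ℂ) a = (μ : supp χ → ℂ) := ha
          have hb' : conjChar (supp χ) (μ : supp χ → ℂ) b = (μ : supp χ → ℂ) := hb
          show conjChar (supp χ) (μ : supp χ → ℂ) (a * b) = (μ : supp χ → ℂ)
          rw [← conjChar_mul, ha', hb']
        inv_mem' := by
          intro a ha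
          have ha' : conjChar (supp χ) (μ : supp χ → ℂ) a = (μ : supp χ → ℂ) := ha
          show conjChar (supp χ) (μ : supp χ → ℂ) a⁻¹ = (μ : supp χ → ℂ)
          have h1 := conjChar_mul (supp χ) (μ : supp χ → ℂ) a a⁻¹
          rw [ha', mul_inv_cancel, conjChar_one] at h1
          exact h1 }
    have hT : ∀ g : G, g ∈ T ↔ conjChar (supp χ) (μ : supp χ → ℂ) g = (μ : supp χ → ℂ) :=
      fun g => Iff.rfl
    obtain ⟨p', -, hel⟩ := supp_elementary hG χ h
    have hcard := stabilizer_card hG χ h hel.1 μ hμ1 T hT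
    have hcs := card_supp hG χ h
    have hg₀ := g₀_mem_supp hG χ h
    have hcm := card_centralizer_mul hG χ h hg₀ h.1
    have hTcard : Nat.card T = Nat.card (Subgroup.centralizer ({g₀} : Set G)) := by
      rw [hcs, Nat.add_sub_cancel, ← hcm] at hcard
      have hc0 : 0 < Nat.card {y : G // IsConj g₀ y} := by
        rcases Nat.eq_zero_or_pos (Nat.card {y : G // IsConj g₀ y}) with h0 | h0
        · rw [h0, mul_zero] at hcm
          exact absurd hcm.symm Nat.card_pos.ne'
        · exact h0
      exact Nat.eq_of_mul_eq_mul_right hc0 hcard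
    obtain ⟨hpg, hidx⟩ := hindex T g₀ hg₀ h.1 hTcard
    refine ⟨hpg.toSylow hidx, fun g => ?_⟩
    rw [IsPGroup.toSylow_coe, hT]
    constructor
    · intro hg n n' hn
      have h1 := congrFun hg n
      have h2 : n' = (⟨g * n * g⁻¹,
          (inferInstance : (supp χ).Normal).conj_mem n n.2 g⟩ : supp χ) := Subtype.ext hn
      rw [h2]
      exact h1
    · intro hg
      funext n
      exact hg n ⟨g * n * g⁻¹, _⟩ rfl

end Cfsg.Agent.S4837
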