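import Cfsg.Statements.S4838
import Cfsg.Agent.Lib.Helper25.Gagola3
import Cfsg.Agent.Lib.Helper25.FrobLib

set_option autoImplicit false
open Cfsg

namespace Cfsg.Agent.S4838

open Cfsg.Agent.Lib.Helper1 Cfsg.Agent.Lib.Helper25.Gagola Cfsg.Agent.Lib.Helper25.FrobLib

/-- a normal `p`-subgroup lies in every Sylow `p`-subgroup. -/
theorem normal_le_sylow {G : Type*} [Group G] [Finite G] (p : ℕ) [Fact p.Prime]
    (N : Subgroup G) [hNn : N.Normal] (hNp : IsPGroup p N) (P : Sylow p G) :
    N ≤ (P : Subgroup G) := by
  obtain ⟨Q, hQ⟩ := hNp.exists_le_sylow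
  obtain ⟨g, hg⟩ := MulAction.exists_smul_eq G Q P
  intro x hx
  rw [← hg, Sylow.coe_subgroup_smul, mem_conj_smul]
  apply hQ
  have := hNn.conj_mem x hx g⁻¹
  simpa using this

/-- Let G be a finite group of order greater than 2 with an irreducible character χ nonzero on exactly two conjugacy classes, N the normal p-subgroup of elements where χ is nonzero, and P a Sylow p-subgroup of G. Then (a) for every x outside N the centralizer of x in G has the same order as the centralizer of xN in G/N; (b) the centre of P lies in N, and equals N exactly when P is normal in G; (c) N, viewed inside P, is a term of the upper central series of P. -/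
theorem result {G : Type*} [Group G] [Finite G] (hG : 2 < Nat.card G) (χ : Cfsg.IrrCharacter G) (hχ : Nat.card {C : ConjClasses G // ∃ g ∈ C.carrier, (χ : G → ℂ) g ≠ 0} = 2) (p : ℕ) [Fact p.Prime] (N : Subgroup G) [N.Normal] (hN : ∀ g : G, g ∈ N ↔ (χ : G → ℂ) g ≠ 0) (hNp : IsPGroup p N) (hN1 : N ≠ ⊥) (P : Sylow p G) :
    (∀ x : G, x ∉ N → Nat.card (Subgroup.centralizer ({x} : Set G)) = Nat.card (Subgroup.centralizer ({(x : G ⧸ N)} : Set (G ⧸ N)))) ∧
      ((Subgroup.center ↥(P : Subgroup G)).map (P : Subgroup G).subtype ≤ N ∧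
        ((Subgroup.center ↥(P : Subgroup G)).map (P : Subgroup G).subtype = N ↔ (P : Subgroup G).Normal)) ∧
      (∃ i : ℕ, Subgroup.upperCentralSeries ↥(P : Subgroup G) i = N.subgroupOf (P : Subgroup G)) := by
  classical
  have hfG : Fintype G := Fintype.ofFinite G
  have hIG : Fintype (Cfsg.IrrCharacter G) := irrFintype
  have hp : p.Prime := Fact.out
  obtain ⟨g₀, h⟩ := exists_twoClass χ.2 hχ
  have hNs : N = supp χ := by
    ext g
    rw [hN, mem_supp hG χ h]
  have hquot : ∀ x : G, x ∉ N → Nat.card (Subgroup.centralizer ({x} : Set G)) =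
      Nat.card (Subgroup.centralizer ({(x : G ⧸ N)} : Set (G ⧸ N))) :=
    fun x hx => card_centralizer_quot hG χ h N hNs hx
  have hNP : N ≤ (P : Subgroup G) := normal_le_sylow p N hNp P
  have hNcard1 : 1 < Nat.card N := by
    rw [Subgroup.one_lt_card_iff_ne_bot]; exact hN1
  have hPcard : Nat.card (P : Subgroup G) = p ^ (Nat.card G).factorization p :=
    Sylow.card_eq_multiplicity P
  -- key inequality
  have hkey : ∀ y : (P : Subgroup G), (y : G) ∉ N →
      Nat.card (Subgroup.centralizer ({y} : Set (P : Subgroup G))) * Nat.card N ≤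
        Nat.card (P : Subgroup G) := by
    intro y hy
    obtain ⟨a, ha⟩ := (IsPGroup.iff_card (p := p)).mp hNp
    obtain ⟨e, he⟩ := (IsPGroup.iff_card (p := p)).mp
      (P.2.to_subgroup (Subgroup.centralizer ({y} : Set (P : Subgroup G))))
    have h1 : (Subgroup.centralizer ({y} : Set (P : Subgroup G))).map (P : Subgroup G).subtype ≤
        Subgroup.centralizer ({(y : G)} : Set G) := by
      rintro _ ⟨w, hw, rfl⟩
      rw [Subgroup.mem_centralizer_singleton_iff]
      have h2 := Subgroup.mem_centralizer_singleton_iff.mp hw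
      exact congrArg Subtype.val h2
    have h2 := Subgroup.card_dvd_of_le h1
    rw [Subgroup.card_subtype, hquot (y : G) hy, he] at h2
    have h3 : p ^ e ∣ N.index := by
      rw [Subgroup.index_eq_card]
      exact h2.trans (Subgroup.card_subgroup_dvd_card _)
    have h4 : p ^ a * p ^ e ∣ Nat.card G := by
      rw [← N.card_mul_index, ha]
      exact Nat.mul_dvd_mul_left _ h3
    rw [← pow_add] at h4
    have h5 := (Nat.Prime.pow_dvd_iff_le_factorization hp Nat.card_pos.ne').mp h4
    rw [he, ha, hPcard, ← pow_add]
    exact Nat.pow_le_pow_right hp.pos (by omega)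
  refine ⟨hquot, ?_, ?_⟩
  · -- centre
    have hb1 : (Subgroup.center ↥(P : Subgroup G)).map (P : Subgroup G).subtype ≤ N := by
      rintro _ ⟨w, hw, rfl⟩
      by_contra hwN
      have h1 := hkey w hwN
      have h2 : Subgroup.centralizer ({w} : Set (P : Subgroup G)) = ⊤ := by
        rw [eq_top_iff]
        intro v _
        rw [Subgroup.mem_centralizer_singleton_iff]
        exact Subgroup.mem_center_iff.mp hw v
      rw [h2, Subgroup.card_top] at h1
      have h3 : 0 < Nat.card (P : Subgroup G) := Nat.card_pos
      nlinarith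
    refine ⟨hb1, ?_, ?_⟩
    · intro hZN
      -- P is the centralizer of every nonidentity element of N
      have hcent : ∀ x ∈ N, x ≠ 1 → Subgroup.centralizer ({x} : Set G) = (P : Subgroup G) := by
        intro x hx hx1
        have hxs : x ∈ supp χ := hNs ▸ hx
        have hNps : IsPGroup p (supp χ) := hNs ▸ hNp
        obtain ⟨⟨k, hk⟩, -⟩ := centralizer_pgroup hG χ h p hNps hxs hx1
        apply P.3 (IsPGroup.of_card hk)
        intro v hv
        rw [Subgroup.mem_centralizer_singleton_iff]
        rw [← hZN] at hx
        obtain ⟨w, hw, rfl⟩ := hx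
        have h1 := Subgroup.mem_center_iff.mp hw ⟨v, hv⟩
        exact congrArg Subtype.val h1
      have hg₀N : g₀ ∈ N := hNs ▸ g₀_mem_supp hG χ h
      constructor
      intro v hv g
      rw [← hcent g₀ hg₀N h.1, Subgroup.mem_centralizer_singleton_iff]
      have hx₁N : g⁻¹ * g₀ * g ∈ N := by
        have := (inferInstance : N.Normal).conj_mem g₀ hg₀N g⁻¹
        simpa using this
      have hx₁1 : g⁻¹ * g₀ * g ≠ 1 := by
        intro hc
        apply h.1
        calc g₀ = g * (g⁻¹ * g₀ * g) * g⁻¹ := by group
          _ = 1 := by rw [hc]; group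
      have h1 : v ∈ Subgroup.centralizer ({g⁻¹ * g₀ * g} : Set G) := by
        rw [hcent _ hx₁N hx₁1]; exact hv
      have h2 := Subgroup.mem_centralizer_singleton_iff.mp h1
      calc g * v * g⁻¹ * g₀ = g * (v * (g⁻¹ * g₀ * g)) * g⁻¹ := by group
        _ = g * ((g⁻¹ * g₀ * g) * v) * g⁻¹ := by rw [h2]
        _ = g₀ * (g * v * g⁻¹) := by group
    · intro hPn
      apply le_antisymm hb1
      rw [hNs]
      have hZn : ((Subgroup.center ↥(P : Subgroup G)).map (P : Subgroup G).subtype).Normal :=
        inferInstance
      apply supp_minimal hG χ h _ hZn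
      have hPnt : Nontrivial (P : Subgroup G) := by
        rw [← Finite.one_lt_card_iff_nontrivial]
        exact lt_of_lt_of_le hNcard1 (Nat.le_of_dvd Nat.card_pos (Subgroup.card_dvd_of_le hNP))
      have hcn := P.2.center_nontrivial
      obtain ⟨z, hz⟩ := exists_ne (1 : Subgroup.center ↥(P : Subgroup G))
      intro hbot
      have h1 : ((z : (P : Subgroup G)) : G) ∈
          (Subgroup.center ↥(P : Subgroup G)).map (P : Subgroup G).subtype :=
        ⟨z, z.2, rfl⟩
      rw [hbot, Subgroup.mem_bot] at h1
      apply hz
      apply Subtype.ext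
      exact Subtype.ext h1
  · -- upper central series
    have hNcardeq : Nat.card (N.subgroupOf (P : Subgroup G)) = Nat.card N :=
      Nat.card_congr (Subgroup.subgroupOfEquivOfLe hNP).toEquiv
    have hstep : ∀ i : ℕ, Subgroup.upperCentralSeries ↥(P : Subgroup G) i ≤
        N.subgroupOf (P : Subgroup G) →
        Subgroup.upperCentralSeries ↥(P : Subgroup G) i ≠ N.subgroupOf (P : Subgroup G) →
        Subgroup.upperCentralSeries ↥(P : Subgroup G) (i + 1) ≤ N.subgroupOf (P : Subgroup G) := by
      intro i hle hne y hy
      by_contra hyN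
      have hyN' : (y : G) ∉ N := fun hc => hyN (Subgroup.mem_subgroupOf.mpr hc)
      have hcomm := Subgroup.mem_upperCentralSeries_succ_iff.mp hy
      have hcl : Nat.card {w : (P : Subgroup G) // IsConj w y} ≤
          Nat.card (Subgroup.upperCentralSeries ↥(P : Subgroup G) i) := by
        apply Nat.card_le_card_of_injective
          (fun w : {w : (P : Subgroup G) // IsConj w y} =>
            (⟨w.1 * y⁻¹, by
              obtain ⟨c, hc⟩ := isConj_iff.mp w.2
              have hw : w.1 = c⁻¹ * (c * w.1 * c⁻¹) * c := by group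
              rw [hc] at hw
              have h1 : w.1 * y⁻¹ = (y * c⁻¹ * y⁻¹ * c⁻¹⁻¹)⁻¹ := by
                rw [hw]
                group
              rw [h1]
              exact Subgroup.inv_mem _ (hcomm c⁻¹)⟩ :
              Subgroup.upperCentralSeries ↥(P : Subgroup G) i))
        intro w w' hww
        have h1 : w.1 * y⁻¹ = w'.1 * y⁻¹ := congrArg Subtype.val hww
        exact Subtype.ext (mul_right_cancel h1)
      have h1 := card_conj_mul_card_centralizer y
      have h2 := hkey y hyN'
      have h3 : Nat.card N ≤ Nat.card (Subgroup.upperCentralSeries ↥(P : Subgroup G) i) := by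
        have hPpos : 0 < Nat.card (P : Subgroup G) := Nat.card_pos
        have h4 : Nat.card (P : Subgroup G) * Nat.card N ≤
            Nat.card (Subgroup.upperCentralSeries ↥(P : Subgroup G) i) *
              Nat.card (P : Subgroup G) := by
          calc Nat.card (P : Subgroup G) * Nat.card N
              = Nat.card {w : (P : Subgroup G) // IsConj w y} *
                (Nat.card (Subgroup.centralizer ({y} : Set (P : Subgroup G))) * Nat.card N) := by
                rw [← mul_assoc, h1]
            _ ≤ Nat.card {w : (P : Subgroup G) // IsConj w y} * Nat.card (P : Subgroup G) :=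
                Nat.mul_le_mul_left _ h2
            _ ≤ Nat.card (Subgroup.upperCentralSeries ↥(P : Subgroup G) i) *
                Nat.card (P : Subgroup G) := Nat.mul_le_mul_right _ hcl
        rw [mul_comm] at h4
        exact Nat.le_of_mul_le_mul_right h4 hPpos
      apply hne
      apply Subgroup.eq_of_le_of_card_ge hle
      rw [hNcardeq]
      exact h3
    by_contra hcon
    push Not at hcon
    have hall : ∀ i : ℕ, Subgroup.upperCentralSeries ↥(P : Subgroup G) i ≤
        N.subgroupOf (P : Subgroup G) := by
      intro i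
      induction i with
      | zero =>
        rw [Subgroup.upperCentralSeries_zero]
        exact bot_le
      | succ i ih => exact hstep i ih (hcon i)
    obtain ⟨n, hn⟩ := (P.2.isNilpotent).nilpotent'
    have h1 := hall n
    rw [hn] at h1
    exact hcon n (hn.trans (top_le_iff.mp h1).symm)

end Cfsg.Agent.S4838
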