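import Cfsg.Statements.S4856
import Cfsg.Agent.Lib.Helper1.CharSchur

set_option autoImplicit false
open Cfsg

namespace Cfsg.Agent.S4856

open Cfsg.Agent.Lib.Helper1
open scoped ComplexConjugate

theorem card_conj_fiber {G : Type*} [Group G] [Finite G] (c d : G) [Decidable (IsConj c d)] :
    Nat.card {y : G // y * c * y⁻¹ = d} =
      if IsConj c d then Nat.card (Subgroup.centralizer ({d} : Set G)) else 0 := by
  split_ifs with h
  · obtain ⟨y₀, hy₀⟩ := isConj_iff.mp h
    apply Nat.card_congr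
    refine
      { toFun := fun y => ⟨y.1 * y₀⁻¹, ?_⟩
        invFun := fun k => ⟨k.1 * y₀, ?_⟩
        left_inv := ?_
        right_inv := ?_ }
    · rw [Subgroup.mem_centralizer_singleton_iff]
      have hy := y.2
      have h1 : y₀⁻¹ * d * y₀ = c := by rw [← hy₀]; group
      calc y.1 * y₀⁻¹ * d = y.1 * (y₀⁻¹ * d * y₀) * y₀⁻¹ := by group
        _ = y.1 * c * y₀⁻¹ := by rw [h1]
        _ = (y.1 * c * y.1⁻¹) * (y.1 * y₀⁻¹) := by group
        _ = d * (y.1 * y₀⁻¹) := by rw [hy]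
    · have hk := Subgroup.mem_centralizer_singleton_iff.mp k.2
      calc k.1 * y₀ * c * (k.1 * y₀)⁻¹ = k.1 * (y₀ * c * y₀⁻¹) * k.1⁻¹ := by group
        _ = k.1 * d * k.1⁻¹ := by rw [hy₀]
        _ = d * k.1 * k.1⁻¹ := by rw [hk]
        _ = d := by group
    · intro y
      apply Subtype.ext
      show y.1 * y₀⁻¹ * y₀ = y.1
      group
    · intro k
      apply Subtype.ext
      show k.1 * y₀ * y₀⁻¹ = k.1
      group
  · rw [Nat.card_eq_zero]
    left
    constructor
    rintro ⟨y, hy⟩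
    exact h (isConj_iff.mpr ⟨y, hy⟩)

/-- For an element z of a finite group G, the number of pairs (x, y) of elements with x y x⁻¹ y⁻¹ = z equals the order of G times the sum over the irreducible characters χ of χ(z)/χ(1). -/
theorem result {G : Type*} [Group G] [Finite G] (z : G) : (Nat.card {xy : G × G // xy.1 * xy.2 * xy.1⁻¹ * xy.2⁻¹ = z} : ℂ) = (Nat.card G : ℂ) * ∑ᶠ χ : Cfsg.IrrCharacter G, (χ : G → ℂ) z / (χ : G → ℂ) 1 := by
  classical
  have hG : Fintype G := Fintype.ofFinite G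
  have hI : Fintype (Cfsg.IrrCharacter G) := irrFintype
  rw [finsum_eq_sum_of_fintype]
  -- step 1: fibre over x
  have h1 : Nat.card {xy : G × G // xy.1 * xy.2 * xy.1⁻¹ * xy.2⁻¹ = z} =
      ∑ x : G, Nat.card {y : G // x * y * x⁻¹ * y⁻¹ = z} := by
    rw [← Nat.card_sigma]
    exact Nat.card_congr
      (Equiv.subtypeProdEquivSigmaSubtype (fun (x y : G) => x * y * x⁻¹ * y⁻¹ = z))
  have h2 : ∀ x : G, Nat.card {y : G // x * y * x⁻¹ * y⁻¹ = z} =
      if IsConj x⁻¹ (x⁻¹ * z) then Nat.card (Subgroup.centralizer ({x⁻¹ * z} : Set G)) else 0 := by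
    intro x
    rw [← card_conj_fiber]
    apply Nat.card_congr
    apply Equiv.subtypeEquivRight
    intro y
    constructor
    · intro hy
      rw [← hy]; group
    · intro hy
      calc x * y * x⁻¹ * y⁻¹ = x * (y * x⁻¹ * y⁻¹) := by group
        _ = x * (x⁻¹ * z) := by rw [hy]
        _ = z := by group
  have h3 : ∀ x : G, ((if IsConj x⁻¹ (x⁻¹ * z) then
      Nat.card (Subgroup.centralizer ({x⁻¹ * z} : Set G)) else 0 : ℕ) : ℂ) =
      ∑ χ : Cfsg.IrrCharacter G, (χ : G → ℂ) (x⁻¹ * z) * conj ((χ : G → ℂ) x⁻¹) := by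
    intro x
    rw [col_orth]
    by_cases hx : IsConj x⁻¹ (x⁻¹ * z)
    · rw [if_pos hx, if_pos hx.symm]
    · rw [if_neg hx, if_neg (fun h => hx h.symm)]
      simp
  have h4 : ∀ χ : Cfsg.IrrCharacter G,
      ∑ x : G, (χ : G → ℂ) (x⁻¹ * z) * conj ((χ : G → ℂ) x⁻¹) =
        (Nat.card G : ℂ) * ((χ : G → ℂ) z / (χ : G → ℂ) 1) := by
    intro χ
    have hc := IsIrrCharacter.isCharacter χ.2
    have h5 := IsIrrCharacter.gen_orth χ.2 z
    rw [← mul_div_assoc, ← h5]
    rw [← Equiv.sum_comp (Equiv.inv G)]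
    refine Finset.sum_congr rfl (fun a _ => ?_)
    simp only [Equiv.inv_apply, inv_inv]
    rw [← IsCharacter.inv hc, mul_comm]
  rw [h1]
  push_cast
  simp only [h2]
  simp only [h3]
  rw [Finset.sum_comm, Finset.mul_sum]
  exact Finset.sum_congr rfl (fun χ _ => h4 χ)

end Cfsg.Agent.S4856
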