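import Cfsg.Statements.S4866
import Cfsg.Agent.Lib.Helper1.CharMore
import Cfsg.Agent.Lib.Helper25.RealOrbits

set_option autoImplicit false
open Cfsg

namespace Cfsg.Agent.S4866

open Cfsg.Agent.Lib.Helper1 Cfsg.Agent.Lib.Helper25.RealOrbits
open scoped ComplexConjugate

theorem card_eq_sum_ite {B : Type*} [Fintype B] (P : B → Prop) [DecidablePred P] :
    Nat.card {b : B // P b} = ∑ b : B, if P b then 1 else 0 := by
  rw [Nat.card_eq_fintype_card, Fintype.card_subtype, Finset.card_filter]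

theorem sum_card_comm {A B : Type*} [Fintype A] [Fintype B] (P : A → B → Prop) :
    ∑ a : A, Nat.card {b : B // P a b} = ∑ b : B, Nat.card {a : A // P a b} := by
  classical
  simp only [card_eq_sum_ite]
  exact Finset.sum_comm

/-- the action of `G` on the real-valued irreducible characters of the normal subgroup `K`. -/
noncomputable def act₁ {G : Type*} [Group G] [Fintype G] (K : Subgroup G) [hK : K.Normal] :
    MulAction G {θ : Cfsg.IrrCharacter ↥K // (∀ k : ↥K, ((θ : ↥K → ℂ) k).im = 0)} where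
  smul g θ := ⟨⟨conjChar K (θ.1 : K → ℂ) g⁻¹, conjChar_irr K θ.1.2 g⁻¹⟩, fun k => θ.2 _⟩
  one_smul θ := by
    apply Subtype.ext; apply Subtype.ext
    show conjChar K (θ.1 : K → ℂ) 1⁻¹ = _
    rw [inv_one, conjChar_one]
  mul_smul g h θ := by
    apply Subtype.ext; apply Subtype.ext
    show conjChar K (θ.1 : K → ℂ) (g * h)⁻¹ = conjChar K (conjChar K (θ.1 : K → ℂ) h⁻¹) g⁻¹
    rw [conjChar_mul, mul_inv_rev]

/-- the action of `G` on the real elements of the normal subgroup `K`. -/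
def act₂ {G : Type*} [Group G] (K : Subgroup G) [hK : K.Normal] :
    MulAction G {x : ↥K // IsConj x x⁻¹} where
  smul g x := ⟨conjNormal K g x.1, by
    have h := x.2
    rw [isConj_iff] at h ⊢
    obtain ⟨c, hc⟩ := h
    refine ⟨conjNormal K g c, ?_⟩
    rw [← map_mul, ← map_inv, ← map_mul, hc, map_inv]⟩
  one_smul x := by
    apply Subtype.ext; apply Subtype.ext
    show (1 : G) * (x.1 : G) * (1 : G)⁻¹ = _
    simp
  mul_smul g h x := by
    apply Subtype.ext; apply Subtype.ext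
    show (g * h) * (x.1 : G) * (g * h)⁻¹ = g * (h * (x.1 : G) * h⁻¹) * g⁻¹
    group

/-- Let K be a normal subgroup of odd index in the finite group G. Then G has as many orbits on the real-valued irreducible complex characters of K (acting by conjugation) as it has orbits on the conjugacy classes of K that are real in K; equivalently, the number of G-orbits of real-valued irreducible characters of K equals the number of G-conjugacy classes of elements of K that are conjugate in K to their inverses. -/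
theorem result {G : Type*} [Group G] [Finite G] (K : Subgroup G) [K.Normal] (hodd : Odd K.index) : Nat.card (Quot (fun θ η : {θ : Cfsg.IrrCharacter ↥K // (∀ k : ↥K, ((θ : ↥K → ℂ) k).im = 0)} => ∃ g : G, ∀ k k' : ↥K, (k' : G) = g * (k : G) * g⁻¹ → (η.1 : ↥K → ℂ) k' = (θ.1 : ↥K → ℂ) k)) = Nat.card (Quot (fun x y : {x : ↥K // IsConj x x⁻¹} => ∃ g : G, (y.1 : G) = g * x.1 * g⁻¹)) := by
  classical
  have hfinG : Fintype G := Fintype.ofFinite G
  have hfinK : Fintype K := Fintype.ofFinite K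
  have hirr : Fintype (IrrCharacter K) := irrFintype
  have hKn : K.Normal := inferInstance
  have hpow : ∀ g : G, g ^ K.index ∈ K := fun g => K.pow_index_mem g
  let a₁ := act₁ K
  let a₂ := act₂ K
  -- the two Quot types are orbit spaces
  have e₁ : Nat.card (Quot (fun θ η : {θ : Cfsg.IrrCharacter ↥K // (∀ k : ↥K, ((θ : ↥K → ℂ) k).im = 0)} => ∃ g : G, ∀ k k' : ↥K, (k' : G) = g * (k : G) * g⁻¹ → (η.1 : ↥K → ℂ) k' = (θ.1 : ↥K → ℂ) k)) =
      Nat.card (MulAction.orbitRel.Quotient G {θ : Cfsg.IrrCharacter ↥K // (∀ k : ↥K, ((θ : ↥K → ℂ) k).im = 0)}) := by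
    apply Nat.card_congr
    apply Quot.congrRight
    intro θ η
    show _ ↔ θ ∈ MulAction.orbit G η
    rw [MulAction.mem_orbit_iff]
    constructor
    · rintro ⟨g, hg⟩
      refine ⟨g⁻¹, ?_⟩
      apply Subtype.ext; apply Subtype.ext
      funext k
      show (η.1 : K → ℂ) ⟨g⁻¹⁻¹ * k * g⁻¹⁻¹⁻¹, _⟩ = _
      exact hg k _ (by simp)
    · rintro ⟨g, hg⟩
      refine ⟨g⁻¹, ?_⟩
      intro k k' hk'
      have h1 := congrFun (congrArg (fun z => (z.1 : K → ℂ)) hg) k
      have hk'' : k' = ⟨g⁻¹ * (k : G) * g⁻¹⁻¹, hKn.conj_mem k k.2 g⁻¹⟩ := Subtype.ext hk'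
      rw [hk'', ← h1]
      rfl
  have e₂ : Nat.card (Quot (fun x y : {x : ↥K // IsConj x x⁻¹} => ∃ g : G, (y.1 : G) = g * x.1 * g⁻¹)) =
      Nat.card (MulAction.orbitRel.Quotient G {x : ↥K // IsConj x x⁻¹}) := by
    apply Nat.card_congr
    apply Quot.congrRight
    intro x y
    show _ ↔ x ∈ MulAction.orbit G y
    rw [MulAction.mem_orbit_iff]
    constructor
    · rintro ⟨g, hg⟩
      refine ⟨g⁻¹, ?_⟩
      apply Subtype.ext; apply Subtype.ext
      show g⁻¹ * (y.1 : G) * g⁻¹⁻¹ = _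
      rw [hg]; group
    · rintro ⟨g, hg⟩
      refine ⟨g⁻¹, ?_⟩
      have h1 : g * (y.1 : G) * g⁻¹ = (x.1 : G) := congrArg (fun z => ((z.1 : K) : G)) hg
      rw [← h1]; group
  rw [e₁, e₂]
  have b₁ := burnside_nat (G := G) {θ : Cfsg.IrrCharacter ↥K // (∀ k : ↥K, ((θ : ↥K → ℂ) k).im = 0)}
  have b₂ := burnside_nat (G := G) {x : ↥K // IsConj x x⁻¹}
  have hGpos : 0 < Nat.card G := Nat.card_pos
  suffices hsum : ∑ g : G, Nat.card (MulAction.fixedBy {θ : Cfsg.IrrCharacter ↥K // (∀ k : ↥K, ((θ : ↥K → ℂ) k).im = 0)} g) =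
      ∑ g : G, Nat.card (MulAction.fixedBy {x : ↥K // IsConj x x⁻¹} g) by
    rw [hsum, b₂] at b₁
    exact (Nat.eq_of_mul_eq_mul_right hGpos b₁).symm
  -- fixed points of `g` on real characters
  have hfix₁ : ∀ g : G, Nat.card (MulAction.fixedBy {θ : Cfsg.IrrCharacter ↥K // (∀ k : ↥K, ((θ : ↥K → ℂ) k).im = 0)} g) =
      Nat.card {θ : Cfsg.IrrCharacter K // ∀ k : K, conj ((θ : K → ℂ) (conjNormal K g⁻¹ k)) =
        (θ : K → ℂ) k} := by
    intro g
    have hm : (g⁻¹) ^ K.index ∈ K := hpow g⁻¹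
    apply Nat.card_congr
    refine
      { toFun := fun x => ⟨x.1.1, (twisted_iff K (IsIrrCharacter.isClassFunction x.1.1.2) g⁻¹ hodd hm).mpr
          ⟨x.1.2, fun k => congrFun (congrArg (fun z => (z.1 : K → ℂ)) x.2) k⟩⟩
        invFun := fun θ => ⟨⟨θ.1, ((twisted_iff K (IsIrrCharacter.isClassFunction θ.1.2) g⁻¹ hodd hm).mp θ.2).1⟩, by
          show g • _ = _
          apply Subtype.ext; apply Subtype.ext
          funext k
          exact ((twisted_iff K (IsIrrCharacter.isClassFunction θ.1.2) g⁻¹ hodd hm).mp θ.2).2 k⟩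
        left_inv := fun x => rfl
        right_inv := fun θ => rfl }
  have hfix₂ : ∀ g : G, Nat.card (MulAction.fixedBy {x : ↥K // IsConj x x⁻¹} g) =
      Nat.card {k : K // IsConj k k⁻¹ ∧ g * (k : G) * g⁻¹ = (k : G)} := by
    intro g
    apply Nat.card_congr
    refine
      { toFun := fun x => ⟨x.1.1, x.1.2, congrArg (fun z => ((z.1 : K) : G)) x.2⟩
        invFun := fun k => ⟨⟨k.1, k.2.1⟩, by
          show g • _ = _
          apply Subtype.ext; apply Subtype.ext
          exact k.2.2⟩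
        left_inv := fun x => rfl
        right_inv := fun θ => rfl }
  simp only [hfix₁, hfix₂]
  -- (b): pairs
  have hb : ∀ k : K, ∑ g : G, Nat.card {u : K // u * k * u⁻¹ = (conjNormal K g k)⁻¹} =
      Nat.card K * Nat.card {h : G // h * (k : G) * h⁻¹ = (k : G)⁻¹} := by
    intro k
    have h1 : ∑ g : G, Nat.card {u : K // u * k * u⁻¹ = (conjNormal K g k)⁻¹} =
        Nat.card {p : G × K // p.2 * k * p.2⁻¹ = (conjNormal K p.1 k)⁻¹} := by
      simp only [card_eq_sum_ite]
      rw [← Finset.sum_product', Finset.univ_product_univ]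
    rw [h1, mul_comm, ← Nat.card_prod]
    apply Nat.card_congr
    refine
      { toFun := fun p => (⟨p.1.1⁻¹ * (p.1.2 : G), ?_⟩, p.1.2)
        invFun := fun q => ⟨((q.2 : G) * q.1.1⁻¹, q.2), ?_⟩
        left_inv := ?_
        right_inv := ?_ }
    · have h2 := congrArg (fun z : K => (z : G)) p.2
      simp only [Subgroup.coe_mul, Subgroup.coe_inv, conjNormal_coe] at h2
      have e : p.1.1⁻¹ * (p.1.2 : G) * (k : G) * (p.1.1⁻¹ * (p.1.2 : G))⁻¹ =
          p.1.1⁻¹ * ((p.1.2 : G) * (k : G) * (p.1.2 : G)⁻¹) * p.1.1 := by group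
      rw [e, h2]
      group
    · obtain ⟨⟨h, hh⟩, u⟩ := q
      apply Subtype.ext
      simp only [Subgroup.coe_mul, Subgroup.coe_inv, conjNormal_coe]
      have e : (u : G) * h⁻¹ * (k : G) * ((u : G) * h⁻¹)⁻¹ =
          (u : G) * (h⁻¹ * (k : G) * h) * (u : G)⁻¹ := by group
      have e3 : h⁻¹ * (k : G) * h = (k : G)⁻¹ := by
        have e5 : h⁻¹ * (h * (k : G) * h⁻¹) * h = (k : G) := by group
        rw [hh] at e5
        have e4 : h⁻¹ * (k : G) * h = (h⁻¹ * (k : G)⁻¹ * h)⁻¹ := by group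
        rw [e4, e5]
      rw [e, e3]
      group
    · rintro ⟨⟨g, u⟩, hp⟩
      apply Subtype.ext
      simp
    · rintro ⟨⟨h, hh⟩, u⟩
      simp
  -- (c)
  have hc : ∀ k : K, Nat.card {h : G // h * (k : G) * h⁻¹ = (k : G)⁻¹} =
      if IsConj k k⁻¹ then Nat.card {g : G // g * (k : G) * g⁻¹ = (k : G)} else 0 := by
    intro k
    split_ifs with hr
    · obtain ⟨u, hu⟩ := isConj_iff.mp hr
      have hu' : (u : G) * (k : G) * (u : G)⁻¹ = (k : G)⁻¹ := by
        have := congrArg (fun z : K => (z : G)) hu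
        simpa using this
      have hu'' : (u : G)⁻¹ * (k : G)⁻¹ * (u : G) = (k : G) := by rw [← hu']; group
      apply Nat.card_congr
      refine
        { toFun := fun h => ⟨(u : G)⁻¹ * h.1, ?_⟩
          invFun := fun g => ⟨(u : G) * g.1, ?_⟩
          left_inv := ?_
          right_inv := ?_ }
      · have e : (u : G)⁻¹ * h.1 * (k : G) * ((u : G)⁻¹ * h.1)⁻¹ =
            (u : G)⁻¹ * (h.1 * (k : G) * h.1⁻¹) * (u : G) := by group
        rw [e, h.2, hu'']
      · have e : (u : G) * g.1 * (k : G) * ((u : G) * g.1)⁻¹ =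
            (u : G) * (g.1 * (k : G) * g.1⁻¹) * (u : G)⁻¹ := by group
        rw [e, g.2, hu']
      · intro h; apply Subtype.ext; simp
      · intro g; apply Subtype.ext; simp
    · have : IsEmpty {h : G // h * (k : G) * h⁻¹ = (k : G)⁻¹} := by
        constructor
        rintro ⟨h, hh⟩
        exact hr (real_of_inverted K k h hh hodd (hpow h))
      rw [Nat.card_of_isEmpty]
  -- assemble
  have hKpos : 0 < Nat.card K := Nat.card_pos
  have hT : ∀ g : G, Nat.card K * Nat.card {θ : Cfsg.IrrCharacter K // ∀ k : K, conj ((θ : K → ℂ) (conjNormal K g k)) =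
        (θ : K → ℂ) k} = ∑ k : K, Nat.card {u : K // u * k * u⁻¹ = (conjNormal K g k)⁻¹} := by
    intro g
    have h1 := card_twisted K g
    have hK0 : (Nat.card K : ℂ) ≠ 0 := by exact_mod_cast hKpos.ne'
    have h2 : ((Nat.card K * Nat.card {θ : Cfsg.IrrCharacter K // ∀ k : K, conj ((θ : K → ℂ) (conjNormal K g k)) =
        (θ : K → ℂ) k} : ℕ) : ℂ) = ((∑ k : K, Nat.card {u : K // u * k * u⁻¹ = (conjNormal K g k)⁻¹} : ℕ) : ℂ) := by
      push_cast
      rw [h1]
      field_simp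
    exact_mod_cast h2
  have hA : Nat.card K * ∑ g : G, Nat.card {θ : Cfsg.IrrCharacter K // ∀ k : K, conj ((θ : K → ℂ) (conjNormal K g⁻¹ k)) =
        (θ : K → ℂ) k} = Nat.card K * ∑ g : G, Nat.card {k : K // IsConj k k⁻¹ ∧ g * (k : G) * g⁻¹ = (k : G)} := by
    rw [← Equiv.sum_comp (Equiv.inv G)]
    simp only [Equiv.inv_apply, inv_inv]
    rw [Finset.mul_sum, Finset.sum_congr rfl (fun g _ => hT g), Finset.sum_comm,
      Finset.sum_congr rfl (fun k _ => hb k), ← Finset.mul_sum]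
    congr 1
    rw [sum_card_comm (fun (g : G) (k : K) => IsConj k k⁻¹ ∧ g * (k : G) * g⁻¹ = (k : G))]
    apply Finset.sum_congr rfl
    intro k _
    rw [hc k]
    split_ifs with hr
    · apply Nat.card_congr
      exact Equiv.subtypeEquivRight (fun g => ⟨fun h => ⟨hr, h⟩, fun h => h.2⟩)
    · have : IsEmpty {a : G // IsConj k k⁻¹ ∧ a * (k : G) * a⁻¹ = (k : G)} := by
        constructor
        rintro ⟨a, ha⟩
        exact hr ha.1
      rw [Nat.card_of_isEmpty]
  exact Nat.eq_of_mul_eq_mul_left hKpos hA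

end Cfsg.Agent.S4866
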