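import Cfsg.Statements.S4870
import Cfsg.Agent.S1489
import Cfsg.Agent.Lib.Helper25.CliffordExt

set_option autoImplicit false
open Cfsg

namespace Cfsg.Agent.S4870

open Cfsg.Agent.Lib.Helper1 Cfsg.Agent.Lib.Helper25.Codegree Cfsg.Agent.Lib.Helper25.CliffordExt
open scoped ComplexConjugate

/-- Let N be a nonabelian minimal normal subgroup of G, φ an irreducible character of N with stabilizer I in G, and suppose φ extends to I. Then the number of linear characters of G is at most |G : I| times the number of irreducible characters of G of degree φ(1)|G : I|. -/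
theorem result {G : Type*} [Group G] [Finite G] (N : Subgroup G) (hN : N.Normal) (hN1 : N ≠ ⊥) (hmin : ∀ M : Subgroup G, M.Normal → M ≤ N → M = ⊥ ∨ M = N) (hna : ¬ IsMulCommutative ↥N) (φ : Cfsg.IrrCharacter ↥N) (I : Subgroup G) (hI : ∀ g : G, g ∈ I ↔ ∀ n n' : ↥N, (n' : G) = g * (n : G) * g⁻¹ → (φ : ↥N → ℂ) n' = (φ : ↥N → ℂ) n) (hNI : N ≤ I) (hext : ∃ ψ : Cfsg.IrrCharacter ↥I, ∀ n : ↥N, (ψ : ↥I → ℂ) (Subgroup.inclusion hNI n) = (φ : ↥N → ℂ) n) : Nat.card {χ : Cfsg.IrrCharacter G // Cfsg.charDegree (χ : G → ℂ) = 1} ≤ I.index * Nat.card {χ : Cfsg.IrrCharacter G // Cfsg.charDegree (χ : G → ℂ) = Cfsg.charDegree (φ : ↥N → ℂ) * I.index} := by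
  classical
  have hfinG : Fintype G := Fintype.ofFinite G
  have hfinI : Fintype I := Fintype.ofFinite I
  have hfinN : Fintype N := Fintype.ofFinite N
  have hfinNI : Fintype (N.subgroupOf I) := Fintype.ofFinite _
  have hirr : Fintype (IrrCharacter G) := irrFintype
  have hN' : N.Normal := hN
  obtain ⟨ψ, hψ⟩ := hext
  -- every linear character is trivial on N
  have hperf : ∀ (lam : G →* ℂˣ) (n : G), n ∈ N → lam n = 1 := by
    intro lam n hn
    have hM : (⁅N, N⁆ : Subgroup G).Normal := inferInstance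
    have hle : ⁅N, N⁆ ≤ N := Subgroup.commutator_le_left N N
    rcases hmin _ hM hle with h | h
    · exfalso
      apply hna
      refine ⟨⟨fun a b => ?_⟩⟩
      have h1 := Subgroup.commutator_mem_commutator a.2 b.2
      rw [h, Subgroup.mem_bot] at h1
      apply Subtype.ext
      exact commutatorElement_eq_one_iff_mul_comm.mp h1
    · have hker : ⁅N, N⁆ ≤ lam.ker := by
        rw [Subgroup.commutator_le]
        intro a _ b _
        rw [MonoidHom.mem_ker, commutatorElement_def]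
        simp only [map_mul, map_inv]
        rw [mul_comm (lam a) (lam b)]
        group
      have h2 : n ∈ lam.ker := hker (by rw [h]; exact hn)
      exact h2
  -- the restriction of φ to N.subgroupOf I
  obtain ⟨Θ, hΘ⟩ : ∃ Θ : N.subgroupOf I → ℂ,
      Θ = fun x : N.subgroupOf I => (φ : N → ℂ) ⟨(x : I), Subgroup.mem_subgroupOf.mp x.2⟩ := ⟨_, rfl⟩
  have hΘirr : Cfsg.IsIrrCharacter (N.subgroupOf I) Θ := by
    have h := IsIrrCharacter.comp_mulEquiv φ.2 (Subgroup.subgroupOfEquivOfLe hNI)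
    have e : Θ = (φ : N → ℂ) ∘ (Subgroup.subgroupOfEquivOfLe hNI) := by
      rw [hΘ]
      funext x
      rfl
    rw [e]
    exact h
  have hψΘ : (fun x : N.subgroupOf I => (ψ : I → ℂ) x) = Θ := by
    funext x
    rw [hΘ]
    exact hψ ⟨(x : I), Subgroup.mem_subgroupOf.mp x.2⟩
  -- the twisted extensions
  let Ψ : (G →* ℂˣ) → I → ℂ := fun lam x => (((lam.comp I.subtype) x : ℂˣ) : ℂ) * (ψ : I → ℂ) x
  have hΨirr : ∀ lam : G →* ℂˣ, Cfsg.IsIrrCharacter I (Ψ lam) :=
    fun lam => irr_mul_hom ψ.2 (lam.comp I.subtype)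
  have hΨN : ∀ lam : G →* ℂˣ, (fun x : N.subgroupOf I => Ψ lam x) = Θ := by
    intro lam
    rw [← hψΘ]
    funext x
    have h1 : lam ((x : I) : G) = 1 := hperf lam _ (Subgroup.mem_subgroupOf.mp x.2)
    simp only [Ψ, MonoidHom.comp_apply, Subgroup.subtype_apply, h1, Units.val_one, one_mul]
  have hc : ∀ lam : G →* ℂˣ, Cfsg.classInner (Cfsg.indFun (N.subgroupOf I)
      (fun x => (φ : N → ℂ) ⟨(x : I), Subgroup.mem_subgroupOf.mp x.2⟩)) (Ψ lam) ≠ 0 := by
    intro lam
    rw [← hΘ, frobenius_reciprocity _ _ (IsIrrCharacter.isClassFunction (hΨirr lam)), hΨN,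
      classInner_irr_self hΘirr]
    exact one_ne_zero
  have hT : ∀ g : G, g ∈ I ↔ ∀ h : N, (φ : N → ℂ) ⟨g * h * g⁻¹, hN.conj_mem h h.2 g⟩ = (φ : N → ℂ) h := by
    intro g
    rw [hI]
    constructor
    · intro h1 h
      exact h1 h ⟨g * h * g⁻¹, hN.conj_mem h h.2 g⟩ rfl
    · intro h1 n n' hn'
      have : n' = ⟨g * n * g⁻¹, hN.conj_mem n n.2 g⟩ := Subtype.ext hn'
      rw [this]
      exact h1 n
  have hcliff : ∀ lam lam' : G →* ℂˣ, Cfsg.IsIrrCharacter G (Cfsg.indFun I (Ψ lam)) ∧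
      (Cfsg.indFun I (Ψ lam) = Cfsg.indFun I (Ψ lam') → Ψ lam = Ψ lam') := fun lam lam' =>
    Cfsg.Agent.S1489.result N I (φ : N → ℂ) φ.2 hT hNI (Ψ lam) (Ψ lam') (hΨirr lam) (hΨirr lam')
      (hc lam) (hc lam')
  -- degree of the induced character
  have hdeg : ∀ lam : G →* ℂˣ, Cfsg.charDegree (Cfsg.indFun I (Ψ lam)) =
      Cfsg.charDegree (φ : N → ℂ) * I.index := by
    intro lam
    have h1 := charDegree_cast (IsIrrCharacter.isCharacter (hcliff lam lam).1)
    rw [indFun_one] at h1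
    have h2 : Ψ lam 1 = (Cfsg.charDegree (φ : N → ℂ) : ℂ) := by
      simp only [Ψ, map_one, Units.val_one, one_mul]
      rw [← charDegree_cast (IsIrrCharacter.isCharacter φ.2), ← hψ 1]
      rfl
    rw [h2] at h1
    have h3 : ((I.index * Cfsg.charDegree (φ : N → ℂ) : ℕ) : ℂ) =
        (Cfsg.charDegree (Cfsg.indFun I (Ψ lam)) : ℂ) := by
      rw [← h1]; push_cast; ring
    have h4 := Nat.cast_injective h3
    rw [← h4, mul_comm]
  -- linear characters as homomorphisms
  have hlin : ∀ χ : {χ : Cfsg.IrrCharacter G // Cfsg.charDegree (χ : G → ℂ) = 1},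
      ∃ lam : G →* ℂˣ, ∀ g, (χ.1 : G → ℂ) g = ((lam g : ℂˣ) : ℂ) := by
    intro χ
    apply IsIrrCharacter.exists_monoidHom χ.1.2
    rw [charDegree_cast (IsIrrCharacter.isCharacter χ.1.2), χ.2]
    simp
  choose lam hlam using hlin
  let F : {χ : Cfsg.IrrCharacter G // Cfsg.charDegree (χ : G → ℂ) = 1} →
      {χ : Cfsg.IrrCharacter G // Cfsg.charDegree (χ : G → ℂ) = Cfsg.charDegree (φ : N → ℂ) * I.index} :=
    fun χ => ⟨⟨Cfsg.indFun I (Ψ (lam χ)), (hcliff (lam χ) (lam χ)).1⟩, hdeg (lam χ)⟩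
  have hF : ∀ χ χ', F χ = F χ' → ∀ x ∈ I, lam χ x = lam χ' x := by
    intro χ χ' h x hx
    have h1 : Cfsg.indFun I (Ψ (lam χ)) = Cfsg.indFun I (Ψ (lam χ')) := by
      have := congrArg (fun z => (z.1 : G → ℂ)) h
      exact this
    have h2 := (hcliff (lam χ) (lam χ')).2 h1
    have h3 : (lam χ).comp I.subtype = (lam χ').comp I.subtype := by
      apply hom_eq_of_mul_eq (N.subgroupOf I) ψ.2 (by rw [hψΘ]; exact hΘirr)
      · intro n hn
        simp only [MonoidHom.comp_apply, Subgroup.subtype_apply]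
        rw [hperf (lam χ) _ (Subgroup.mem_subgroupOf.mp hn),
          hperf (lam χ') _ (Subgroup.mem_subgroupOf.mp hn)]
      · intro y
        exact congrFun h2 y
    have h4 := congrArg (fun f => f ⟨x, hx⟩) h3
    exact h4
  have hfinS1 : Fintype {χ : Cfsg.IrrCharacter G // Cfsg.charDegree (χ : G → ℂ) = 1} :=
    Fintype.ofFinite _
  have hfinSd : Fintype {χ : Cfsg.IrrCharacter G // Cfsg.charDegree (χ : G → ℂ) =
      Cfsg.charDegree (φ : N → ℂ) * I.index} := Fintype.ofFinite _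
  rw [Nat.card_eq_fintype_card, Nat.card_eq_fintype_card]
  have hfib : ∀ a ∈ (Finset.univ : Finset {χ : Cfsg.IrrCharacter G //
      Cfsg.charDegree (χ : G → ℂ) = 1}).image F,
      ((Finset.univ : Finset {χ : Cfsg.IrrCharacter G // Cfsg.charDegree (χ : G → ℂ) = 1}).filter
        (fun x => F x = a)).card ≤ I.index := by
    intro a ha
    obtain ⟨χ₀, -, rfl⟩ := Finset.mem_image.mp ha
    let j : {χ : Cfsg.IrrCharacter G // Cfsg.charDegree (χ : G → ℂ) = 1} → Cfsg.IrrCharacter G :=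
      fun χ' => ⟨fun g => (((lam χ' * (lam χ₀)⁻¹) g : ℂˣ) : ℂ),
        isIrrCharacter_of_monoidHom (lam χ' * (lam χ₀)⁻¹)⟩
    have hj : Function.Injective j := by
      intro χ' χ'' h
      apply Subtype.ext
      apply Subtype.ext
      funext g
      have h1 := congrFun (congrArg Subtype.val h) g
      simp only [j, MonoidHom.mul_apply, MonoidHom.inv_apply] at h1
      have h2 : lam χ' g * (lam χ₀ g)⁻¹ = lam χ'' g * (lam χ₀ g)⁻¹ := Units.ext h1
      have h3 : lam χ' g = lam χ'' g := mul_right_cancel h2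
      rw [hlam χ' g, hlam χ'' g, h3]
    have h1 : ((Finset.univ : Finset {χ : Cfsg.IrrCharacter G //
        Cfsg.charDegree (χ : G → ℂ) = 1}).filter (fun x => F x = F χ₀)).card ≤
        (Finset.univ.filter (fun η : Cfsg.IrrCharacter G => ∀ x ∈ I, (η : G → ℂ) x = 1)).card := by
      apply Finset.card_le_card_of_injOn j
      · intro χ' hχ'
        rw [Finset.mem_coe, Finset.mem_filter] at hχ'
        rw [Finset.mem_coe, Finset.mem_filter]
        refine ⟨Finset.mem_univ _, ?_⟩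
        intro x hx
        simp only [j, MonoidHom.mul_apply, MonoidHom.inv_apply]
        rw [hF χ' χ₀ hχ'.2 x hx, mul_inv_cancel, Units.val_one]
      · exact hj.injOn
    have h2 := card_trivial_on_le I
    rw [Nat.card_eq_fintype_card, Fintype.card_subtype] at h2
    exact h1.trans h2
  have h1 := Finset.card_le_mul_card_image (Finset.univ : Finset {χ : Cfsg.IrrCharacter G //
      Cfsg.charDegree (χ : G → ℂ) = 1}) I.index hfib
  have h2 : ((Finset.univ : Finset {χ : Cfsg.IrrCharacter G //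
      Cfsg.charDegree (χ : G → ℂ) = 1}).image F).card ≤ Fintype.card {χ : Cfsg.IrrCharacter G //
      Cfsg.charDegree (χ : G → ℂ) = Cfsg.charDegree (φ : N → ℂ) * I.index} :=
    Finset.card_le_univ _
  rw [Finset.card_univ] at h1
  exact h1.trans (Nat.mul_le_mul_left _ h2)

end Cfsg.Agent.S4870
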