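import Cfsg.Statements.S4955
import Cfsg.Agent.Lib.Helper25.KGV
import Cfsg.Agent.Lib.Helper25.Codegree

set_option autoImplicit false
open Cfsg

namespace Cfsg.Agent.S4955

open Cfsg.Agent.Lib.Helper1 Cfsg.Agent.Lib.Helper25.KGV Cfsg.Agent.Lib.Helper25.Codegree
  Cfsg.Agent.Lib.Helper25.CharZeros
open scoped ComplexConjugate

/-- Let X be a finite group with a normal abelian p-subgroup V of index prime to p and a complement G of V, and let v ∈ V. Then k(X) + |G| ≤ |C_G(v)| |V| + k(G), where k denotes the number of conjugacy classes. -/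
theorem result {X : Type*} [Group X] [Finite X] (p : ℕ) [Fact p.Prime] (V : Subgroup X) [V.Normal] (hVp : IsPGroup p V) (hidx : ¬ p ∣ V.index) (hab : ∀ a ∈ V, ∀ b ∈ V, a * b = b * a) (G : Subgroup X) (hGV : Subgroup.IsComplement' V G) (v : X) (hv : v ∈ V) : Nat.card (ConjClasses X) + Nat.card G ≤ Nat.card ↥(G ⊓ Subgroup.centralizer ({v} : Set X)) * Nat.card V + Nat.card (ConjClasses G) := by
  classical
  have hfinX : Fintype X := Fintype.ofFinite X
  have hfinV : Fintype V := Fintype.ofFinite V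
  have hfinG : Fintype G := Fintype.ofFinite G
  have hirr : Fintype (IrrCharacter X) := irrFintype
  have hpp : p.Prime := Fact.out
  -- the set of generators of ⟨v⟩
  obtain ⟨S, hS⟩ : ∃ S : Finset X, S = Finset.univ.filter
      (fun w => Subgroup.zpowers w = Subgroup.zpowers v) := ⟨_, rfl⟩
  have hmemS : ∀ w : X, w ∈ S ↔ Subgroup.zpowers w = Subgroup.zpowers v := by
    intro w; rw [hS]; simp
  have hvS : v ∈ S := (hmemS v).mpr rfl
  have hSV : ∀ w ∈ S, w ∈ V := by
    intro w hw
    have h1 : w ∈ Subgroup.zpowers v := by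
      rw [← (hmemS w).mp hw]; exact Subgroup.mem_zpowers w
    exact (Subgroup.zpowers_le.mpr hv) h1
  have hc : ∀ a b : X, b ∈ Subgroup.zpowers a →
      Subgroup.centralizer ({a} : Set X) ≤ Subgroup.centralizer ({b} : Set X) := by
    intro a b hb x hx
    rw [Subgroup.mem_centralizer_singleton_iff] at hx ⊢
    obtain ⟨n, rfl⟩ := Subgroup.mem_zpowers_iff.mp hb
    have hcomm : Commute x a := hx
    exact (hcomm.zpow_right n)
  have hScent : ∀ w ∈ S, Subgroup.centralizer ({w} : Set X) =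
      Subgroup.centralizer ({v} : Set X) := by
    intro w hw
    have h1 := (hmemS w).mp hw
    apply le_antisymm
    · apply hc
      rw [h1]; exact Subgroup.mem_zpowers v
    · apply hc
      rw [← h1]; exact Subgroup.mem_zpowers w
  have hSpow : ∀ g ∈ S, ∀ j : ℕ, j.Coprime (Nat.card X) → g ^ j ∈ S := by
    intro g hg j hj
    rw [hmemS] at hg ⊢
    rw [← hg]
    have hcop : j.Coprime (orderOf g) :=
      Nat.Coprime.coprime_dvd_right (orderOf_dvd_natCard g) hj
    obtain ⟨m, hm⟩ := exists_pow_eq_self_of_coprime hcop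
    apply le_antisymm
    · rw [Subgroup.zpowers_le]
      exact pow_mem (Subgroup.mem_zpowers g) j
    · rw [Subgroup.zpowers_le]
      have h := pow_mem (Subgroup.mem_zpowers (g ^ j)) m
      rwa [hm] at h
  -- (A)
  have hA : ∀ w ∈ V, ∑ χ ∈ Finset.univ.filter (fun χ : IrrCharacter X =>
        ¬ ∀ n ∈ V, (χ : X → ℂ) n = (χ : X → ℂ) 1), ‖(χ : X → ℂ) w‖ ^ 2 =
      (Nat.card (Subgroup.centralizer ({w} : Set X)) : ℝ) - (V.index : ℝ) := by
    intro w hw
    have htot : ∑ χ : IrrCharacter X, ‖(χ : X → ℂ) w‖ ^ 2 =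
        (Nat.card (Subgroup.centralizer ({w} : Set X)) : ℝ) := by
      have h1 := col_orth (G := X) w w
      rw [if_pos (IsConj.refl w)] at h1
      have h2 : ∀ χ : IrrCharacter X, (χ : X → ℂ) w * conj ((χ : X → ℂ) w) =
          ((‖(χ : X → ℂ) w‖ ^ 2 : ℝ) : ℂ) := by
        intro χ
        rw [Complex.mul_conj, Complex.normSq_eq_norm_sq]
      rw [Finset.sum_congr rfl (fun χ _ => h2 χ), ← Complex.ofReal_sum] at h1
      exact_mod_cast h1
    have hker : ∑ χ ∈ Finset.univ.filter (fun χ : IrrCharacter X =>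
        ∀ n ∈ V, (χ : X → ℂ) n = (χ : X → ℂ) 1), ‖(χ : X → ℂ) w‖ ^ 2 = (V.index : ℝ) := by
      have h1 := sum_sq_ker_nat (G := X) V
      rw [← h1, Finset.sum_filter]
      push_cast
      apply Finset.sum_congr rfl
      intro χ _
      split_ifs with hP
      · rw [hP w hw, charDegree_cast (IsIrrCharacter.isCharacter χ.2), Complex.norm_natCast]
      · rfl
    have hsplit := Finset.sum_filter_add_sum_filter_not (Finset.univ : Finset (IrrCharacter X))
      (fun χ : IrrCharacter X => ∀ n ∈ V, (χ : X → ℂ) n = (χ : X → ℂ) 1)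
      (fun χ => ‖(χ : X → ℂ) w‖ ^ 2)
    rw [htot, hker] at hsplit
    linarith
  -- (B)
  have hB : ((Finset.univ.filter (fun χ : IrrCharacter X =>
        ¬ ∀ n ∈ V, (χ : X → ℂ) n = (χ : X → ℂ) 1)).card : ℝ) * (S.card : ℝ) ≤
      (S.card : ℝ) * ((Nat.card (Subgroup.centralizer ({v} : Set X)) : ℝ) - (V.index : ℝ)) := by
    have h1 : ∀ χ ∈ Finset.univ.filter (fun χ : IrrCharacter X =>
        ¬ ∀ n ∈ V, (χ : X → ℂ) n = (χ : X → ℂ) 1), (S.card : ℝ) ≤ ∑ g ∈ S, ‖(χ : X → ℂ) g‖ ^ 2 := by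
      intro χ _
      have h2 := card_nonzero_le_sum (IsIrrCharacter.isCharacter χ.2) S hSpow
      have h3 : S.filter (fun g => (χ : X → ℂ) g ≠ 0) = S := by
        apply Finset.filter_true_of_mem
        intro g hg
        exact irr_ne_zero_of_mem hpp V hVp hidx hab χ.2 (hSV g hg)
      rw [h3] at h2
      exact h2
    have h4 := Finset.sum_le_sum h1
    rw [Finset.sum_const, nsmul_eq_mul, Finset.sum_comm] at h4
    have h5 : ∀ g ∈ S, ∑ χ ∈ Finset.univ.filter (fun χ : IrrCharacter X =>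
        ¬ ∀ n ∈ V, (χ : X → ℂ) n = (χ : X → ℂ) 1), ‖(χ : X → ℂ) g‖ ^ 2 =
        (Nat.card (Subgroup.centralizer ({v} : Set X)) : ℝ) - (V.index : ℝ) := by
      intro g hg
      rw [hA g (hSV g hg), hScent g hg]
    rw [Finset.sum_congr rfl h5, Finset.sum_const, nsmul_eq_mul] at h4
    exact h4
  have hSpos : (0 : ℝ) < (S.card : ℝ) := by
    have : 0 < S.card := Finset.card_pos.mpr ⟨v, hvS⟩
    exact_mod_cast this
  have hB' : ((Finset.univ.filter (fun χ : IrrCharacter X =>
        ¬ ∀ n ∈ V, (χ : X → ℂ) n = (χ : X → ℂ) 1)).card : ℝ) ≤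
      (Nat.card (Subgroup.centralizer ({v} : Set X)) : ℝ) - (V.index : ℝ) := by
    rw [mul_comm] at hB
    exact le_of_mul_le_mul_left hB hSpos
  -- (C)
  have hcard : Nat.card V * Nat.card G = Nat.card X := hGV.card_mul_card
  have hindex : V.index = Nat.card G := by
    have h1 : V.index * Nat.card V = Nat.card X := V.index_mul_card
    have hpos : 0 < Nat.card V := Nat.card_pos
    apply Nat.eq_of_mul_eq_mul_right hpos
    rw [h1, ← hcard, mul_comm]
  have hcent := card_centralizer_complement hGV hab hv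
  -- (D)
  have hD := card_ker_le hGV
  rw [Nat.card_eq_fintype_card, Fintype.card_subtype] at hD
  have hk : Nat.card (ConjClasses X) = (Finset.univ.filter (fun χ : IrrCharacter X =>
        ∀ n ∈ V, (χ : X → ℂ) n = (χ : X → ℂ) 1)).card + (Finset.univ.filter (fun χ : IrrCharacter X =>
        ¬ ∀ n ∈ V, (χ : X → ℂ) n = (χ : X → ℂ) 1)).card := by
    rw [← card_irr (G := X), Nat.card_eq_fintype_card, ← Finset.card_univ,
      Finset.card_filter_add_card_filter_not]
  have hB'' : (Finset.univ.filter (fun χ : IrrCharacter X =>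
        ¬ ∀ n ∈ V, (χ : X → ℂ) n = (χ : X → ℂ) 1)).card + V.index ≤
      Nat.card (Subgroup.centralizer ({v} : Set X)) := by
    have : (((Finset.univ.filter (fun χ : IrrCharacter X =>
        ¬ ∀ n ∈ V, (χ : X → ℂ) n = (χ : X → ℂ) 1)).card + V.index : ℕ) : ℝ) ≤
        ((Nat.card (Subgroup.centralizer ({v} : Set X)) : ℕ) : ℝ) := by
      push_cast; linarith
    exact_mod_cast this
  rw [hk, hcent, hindex] at *
  nlinarith [hD, hB'']

end Cfsg.Agent.S4955
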