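import Cfsg.Statements.S4956
import Cfsg.Agent.Lib.Helper25.KGV
import Cfsg.Agent.Lib.Helper25.KGV2

set_option autoImplicit false
open Cfsg

namespace Cfsg.Agent.S4956

open Cfsg.Agent.Lib.Helper25.KGV Cfsg.Agent.Lib.Helper25.KGV2

theorem card_eq_sum_ite {B : Type*} [Fintype B] (P : B → Prop) [DecidablePred P] :
    Nat.card {b : B // P b} = ∑ b : B, if P b then 1 else 0 := by
  rw [Nat.card_eq_fintype_card, Fintype.card_subtype, Finset.card_filter]

/-- commuting of two elements written in the form `a g`, `b h`. -/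
theorem commute_iff {X : Type*} [Group X] {V G : Subgroup X} [hV : V.Normal]
    (hGV : Subgroup.IsComplement' V G) (a b : V) (g h : G) :
    (a : X) * g * ((b : X) * h) = (b : X) * h * ((a : X) * g) ↔
      ((g : X) * h = h * g ∧ (a : X) * (g * (b : X) * (g : X)⁻¹) = (b : X) * (h * (a : X) * (h : X)⁻¹)) := by
  constructor
  · intro hc
    have h1 : ((a : X) * (g * (b : X) * (g : X)⁻¹)) * ((g : X) * h) =
        ((b : X) * (h * (a : X) * (h : X)⁻¹)) * ((h : X) * g) := by
      have e1 : ((a : X) * (g * (b : X) * (g : X)⁻¹)) * ((g : X) * h) = (a : X) * g * ((b : X) * h) := by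
        group
      have e2 : ((b : X) * (h * (a : X) * (h : X)⁻¹)) * ((h : X) * g) = (b : X) * h * ((a : X) * g) := by
        group
      rw [e1, e2, hc]
    have h2 := hGV.1 (a₁ := ((⟨(a : X) * (g * (b : X) * (g : X)⁻¹),
        V.mul_mem a.2 (hV.conj_mem b b.2 g)⟩ : V), (⟨(g : X) * h, G.mul_mem g.2 h.2⟩ : G)))
      (a₂ := ((⟨(b : X) * (h * (a : X) * (h : X)⁻¹),
        V.mul_mem b.2 (hV.conj_mem a a.2 h)⟩ : V), (⟨(h : X) * g, G.mul_mem h.2 g.2⟩ : G))) h1
    rw [Prod.mk.injEq, Subtype.mk.injEq, Subtype.mk.injEq] at h2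
    exact ⟨h2.2, h2.1⟩
  · rintro ⟨e1, e2⟩
    have h1 : (a : X) * g * ((b : X) * h) = ((a : X) * (g * (b : X) * (g : X)⁻¹)) * ((g : X) * h) := by
      group
    have h2 : (b : X) * h * ((a : X) * g) = ((b : X) * (h * (a : X) * (h : X)⁻¹)) * ((h : X) * g) := by
      group
    rw [h1, h2, e1, e2]

open Classical in
/-- Part I: commuting pairs of `X = V G`. -/
theorem comm_pairs_complement {X : Type*} [Group X] [Fintype X] (V G : Subgroup X) [hV : V.Normal]
    [Fintype V] [Fintype G] (hab : ∀ a ∈ V, ∀ b ∈ V, a * b = b * a)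
    (hGV : Subgroup.IsComplement' V G) (hcop : (Nat.card V).Coprime (Nat.card G)) :
    Nat.card {p : X × X // Commute p.1 p.2} =
      Nat.card V * ∑ g : G, ∑ h : G, (if (g : X) * h = h * g then
        Nat.card {v : V // (g : X) * (v : X) * (g : X)⁻¹ = (v : X) ∧
          (h : X) * (v : X) * (h : X)⁻¹ = (v : X)} else 0) := by
  rw [card_eq_sum_ite, Fintype.sum_prod_type, sum_complement hGV]
  have h1 : ∀ (a : V) (g : G), (∑ y : X, if Commute (((a : X) * (g : X)), y).1 (((a : X) * (g : X)), y).2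
      then 1 else 0) = ∑ b : V, ∑ h : G, if ((g : X) * h = h * g ∧
        (a : X) * (g * (b : X) * (g : X)⁻¹) = (b : X) * (h * (a : X) * (h : X)⁻¹)) then 1 else 0 := by
    intro a g
    rw [sum_complement hGV]
    apply Finset.sum_congr rfl
    intro b _
    apply Finset.sum_congr rfl
    intro h _
    have := commute_iff hGV a b g h
    simp only [Commute, SemiconjBy]
    simp only [this]
  simp only [h1]
  -- reorder the sums
  have h2 : ∑ a : V, ∑ g : G, ∑ b : V, ∑ h : G, (if ((g : X) * h = h * g ∧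
        (a : X) * (g * (b : X) * (g : X)⁻¹) = (b : X) * (h * (a : X) * (h : X)⁻¹)) then 1 else 0) =
      ∑ g : G, ∑ h : G, ∑ a : V, ∑ b : V, (if ((g : X) * h = h * g ∧
        (a : X) * (g * (b : X) * (g : X)⁻¹) = (b : X) * (h * (a : X) * (h : X)⁻¹)) then 1 else 0) := by
    rw [Finset.sum_comm]
    apply Finset.sum_congr rfl
    intro g _
    trans ∑ a : V, ∑ h : G, ∑ b : V, (if ((g : X) * h = h * g ∧
        (a : X) * (g * (b : X) * (g : X)⁻¹) = (b : X) * (h * (a : X) * (h : X)⁻¹)) then 1 else 0)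
    · exact Finset.sum_congr rfl (fun a _ => Finset.sum_comm)
    · exact Finset.sum_comm
  rw [h2, Finset.mul_sum]
  apply Finset.sum_congr rfl
  intro g _
  rw [Finset.mul_sum]
  apply Finset.sum_congr rfl
  intro h _
  split_ifs with hgh
  · have hcop' : (orderOf (g : X)).Coprime (Nat.card V) := by
      have h3 : orderOf (g : X) ∣ Nat.card G := by
        rw [Subgroup.orderOf_coe]; exact orderOf_dvd_natCard g
      exact (Nat.Coprime.coprime_dvd_right h3 hcop).symm
    have key := card_twisted_pairs V hab (g : X) (h : X) hgh hcop'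
    rw [card_eq_sum_ite, Fintype.sum_prod_type] at key
    simp only [hgh, true_and]
    rw [key, mul_comm]
  · simp [hgh]

/-- the counting function: commuting pairs of `G` centralizing `x`. -/
noncomputable def cnt {X : Type*} [Group X] (G : Subgroup X) (x : X) : ℕ :=
  Nat.card {p : G × G // (p.1 : X) * p.2 = p.2 * p.1 ∧ (p.1 : X) * x * (p.1 : X)⁻¹ = x ∧
    (p.2 : X) * x * (p.2 : X)⁻¹ = x}

theorem mem_cent_iff {X : Type*} [Group X] (g x : X) :
    g ∈ Subgroup.centralizer ({x} : Set X) ↔ g * x * g⁻¹ = x := by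
  rw [Subgroup.mem_centralizer_iff]
  constructor
  · intro h
    have := h x rfl
    rw [mul_inv_eq_iff_eq_mul]
    exact this.symm
  · intro h y hy
    rw [Set.mem_singleton_iff] at hy
    subst hy
    rw [mul_inv_eq_iff_eq_mul] at h
    exact h.symm

theorem cnt_eq {X : Type*} [Group X] [Finite X] (G : Subgroup X) (x : X) :
    cnt G x = Nat.card (ConjClasses ↥(G ⊓ Subgroup.centralizer ({x} : Set X))) *
      Nat.card ↥(G ⊓ Subgroup.centralizer ({x} : Set X)) := by
  rw [← card_comm_eq_card_conjClasses_mul_card]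
  unfold cnt
  apply Nat.card_congr
  exact {
    toFun := fun p => ⟨(⟨(p.1.1 : X), p.1.1.2, (mem_cent_iff _ _).2 p.2.2.1⟩,
        ⟨(p.1.2 : X), p.1.2.2, (mem_cent_iff _ _).2 p.2.2.2⟩), Subtype.ext p.2.1⟩
    invFun := fun p => ⟨(⟨(p.1.1 : X), p.1.1.2.1⟩, ⟨(p.1.2 : X), p.1.2.2.1⟩),
        congrArg Subtype.val p.2, (mem_cent_iff _ _).1 p.1.1.2.2, (mem_cent_iff _ _).1 p.1.2.2.2⟩
    left_inv := fun p => rfl
    right_inv := fun p => rfl }

theorem cnt_conj {X : Type*} [Group X] (G : Subgroup X) (u : X) (hu : u ∈ G) (x : X) :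
    cnt G (u * x * u⁻¹) = cnt G x := by
  unfold cnt
  apply Nat.card_congr
  refine Equiv.subtypeEquiv (Equiv.prodCongr (MulAut.conj (⟨u, hu⟩ : G)⁻¹).toEquiv
    (MulAut.conj (⟨u, hu⟩ : G)⁻¹).toEquiv) ?_
  rintro ⟨g, h⟩
  have e1 : ∀ g : G, (((MulAut.conj (⟨u, hu⟩ : G)⁻¹).toEquiv g : G) : X) = u⁻¹ * g * u := by
    intro g
    simp
  simp only [Equiv.prodCongr_apply, Prod.map_apply, e1]
  constructor
  · rintro ⟨h1, h2, h3⟩
    refine ⟨?_, ?_, ?_⟩
    · have : u⁻¹ * (g : X) * u * (u⁻¹ * (h : X) * u) = u⁻¹ * ((g : X) * h) * u := by group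
      rw [this, h1]; group
    · have : u⁻¹ * (g : X) * u * x * (u⁻¹ * (g : X) * u)⁻¹ =
          u⁻¹ * ((g : X) * (u * x * u⁻¹) * (g : X)⁻¹) * u := by group
      rw [this, h2]; group
    · have : u⁻¹ * (h : X) * u * x * (u⁻¹ * (h : X) * u)⁻¹ =
          u⁻¹ * ((h : X) * (u * x * u⁻¹) * (h : X)⁻¹) * u := by group
      rw [this, h3]; group
  · rintro ⟨h1, h2, h3⟩
    refine ⟨?_, ?_, ?_⟩
    · have : (g : X) * h = u * (u⁻¹ * (g : X) * u * (u⁻¹ * (h : X) * u)) * u⁻¹ := by group
      rw [this, h1]; group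
    · have : (g : X) * (u * x * u⁻¹) * (g : X)⁻¹ =
          u * (u⁻¹ * (g : X) * u * x * (u⁻¹ * (g : X) * u)⁻¹) * u⁻¹ := by group
      rw [this, h2]
    · have : (h : X) * (u * x * u⁻¹) * (h : X)⁻¹ =
          u * (u⁻¹ * (h : X) * u * x * (u⁻¹ * (h : X) * u)⁻¹) * u⁻¹ := by group
      rw [this, h3]

open Classical in
theorem sum_cnt {X : Type*} [Group X] (V G : Subgroup X) [Fintype V] (S : Finset X)
    (hrep : ∀ v ∈ V, ∃! s, s ∈ S ∧ ∃ g ∈ G, g * v * g⁻¹ = s) :
    ∑ v : V, cnt G (v : X) =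
      ∑ s ∈ S, Nat.card {v : V // ∃ g ∈ G, g * (v : X) * g⁻¹ = s} * cnt G s := by
  have h1 : ∀ v : V, cnt G (v : X) =
      ∑ s ∈ S, if (∃ g ∈ G, g * (v : X) * g⁻¹ = s) then cnt G s else 0 := by
    intro v
    obtain ⟨s₀, ⟨hs₀, g, hg, hgs⟩, huniq⟩ := hrep v v.2
    rw [Finset.sum_eq_single_of_mem s₀ hs₀]
    · rw [if_pos ⟨g, hg, hgs⟩, ← hgs, cnt_conj G g hg]
    · intro s hs hne
      rw [if_neg]
      intro hex
      exact hne (huniq s ⟨hs, hex⟩)
  simp only [h1]
  rw [Finset.sum_comm]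
  apply Finset.sum_congr rfl
  intro s hs
  rw [card_eq_sum_ite, Finset.sum_mul]
  apply Finset.sum_congr rfl
  intro v _
  split_ifs <;> simp

open Classical in
theorem orbit_count {X : Type*} [Group X] (V G : Subgroup X) [hV : V.Normal]
    [Fintype V] [Fintype G] (s : X) (hs : s ∈ V) :
    Nat.card {v : V // ∃ g ∈ G, g * (v : X) * g⁻¹ = s} *
      Nat.card ↥(G ⊓ Subgroup.centralizer ({s} : Set X)) = Nat.card G := by
  have h1 : Nat.card {p : V × G // (p.2 : X) * p.1 * (p.2 : X)⁻¹ = s} = Nat.card G := by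
    apply Nat.card_congr
    exact {
      toFun := fun p => p.1.2
      invFun := fun g => ⟨(⟨(g : X)⁻¹ * s * g, by simpa using hV.conj_mem s hs (g : X)⁻¹⟩, g), by
        simp [mul_assoc]⟩
      left_inv := by
        rintro ⟨⟨v, g⟩, hp⟩
        simp only at hp
        apply Subtype.ext
        apply Prod.ext
        · apply Subtype.ext
          simp only
          rw [← hp]; group
        · rfl
      right_inv := fun g => rfl }
  have h2 : ∀ v : V, Nat.card {g : G // (g : X) * v * (g : X)⁻¹ = s} =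
      if (∃ g ∈ G, g * (v : X) * g⁻¹ = s) then
        Nat.card ↥(G ⊓ Subgroup.centralizer ({s} : Set X)) else 0 := by
    intro v
    split_ifs with hex
    · obtain ⟨g₀, hg₀, hgs⟩ := hex
      apply Nat.card_congr
      exact {
        toFun := fun g => ⟨(g : X) * g₀⁻¹, G.mul_mem g.1.2 (G.inv_mem hg₀), by
          refine (mem_cent_iff _ _).2 ?_
          have h3 : ((g.1 : G) : X) * v * ((g.1 : G) : X)⁻¹ = s := g.2
          have h4 : ((g.1 : G) : X) * g₀⁻¹ * (g₀ * (v : X) * g₀⁻¹) * (((g.1 : G) : X) * g₀⁻¹)⁻¹ =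
            ((g.1 : G) : X) * v * ((g.1 : G) : X)⁻¹ := by group
          rw [hgs] at h4
          rw [h4, h3]⟩
        invFun := fun k => ⟨⟨(k : X) * g₀, G.mul_mem k.2.1 hg₀⟩, by
          have h3 := (mem_cent_iff _ _).1 k.2.2
          have : (k : X) * g₀ * (v : X) * ((k : X) * g₀)⁻¹ =
            (k : X) * (g₀ * (v : X) * g₀⁻¹) * (k : X)⁻¹ := by group
          simp only
          rw [this, hgs, h3]⟩
        left_inv := by
          rintro ⟨g, hg⟩
          apply Subtype.ext
          apply Subtype.ext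
          simp
        right_inv := by
          rintro ⟨k, hk⟩
          apply Subtype.ext
          simp }
    · rw [Nat.card_eq_zero]
      left
      constructor
      rintro ⟨g, hg⟩
      exact hex ⟨g, g.2, hg⟩
  rw [← h1, card_eq_sum_ite (fun p : V × G => (p.2 : X) * p.1 * (p.2 : X)⁻¹ = s),
    Fintype.sum_prod_type, card_eq_sum_ite (fun v : V => ∃ g ∈ G, g * (v : X) * g⁻¹ = s),
    Finset.sum_mul]
  apply Finset.sum_congr rfl
  intro v _
  rw [← card_eq_sum_ite (fun g : G => (g : X) * v * (g : X)⁻¹ = s), h2 v]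
  split_ifs <;> simp

/-- Let X be a finite group, V an abelian normal subgroup of X (any two elements of V commute) and G a complement to V in X whose order is coprime to that of V. Let S be a set of representatives of the orbits of G on V under conjugation: S lies in V and every element of V is conjugate under G to exactly one member of S. Then the number of conjugacy classes of X equals the sum, over s in S, of the number of conjugacy classes of the centralizer of s in G. -/
theorem result {X : Type*} [Group X] [Finite X] (V : Subgroup X) [V.Normal] (hab : ∀ a ∈ V, ∀ b ∈ V, a * b = b * a) (G : Subgroup X) (hGV : Subgroup.IsComplement' V G) (hcop : (Nat.card V).Coprime (Nat.card G)) (S : Finset X) (hSV : ∀ s ∈ S, s ∈ V) (hrep : ∀ v ∈ V, ∃! s, s ∈ S ∧ ∃ g ∈ G, g * v * g⁻¹ = s) : Nat.card (ConjClasses X) = ∑ s ∈ S, Nat.card (ConjClasses ↥(G ⊓ Subgroup.centralizer ({s} : Set X))) := by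
  classical
  let _ : Fintype X := Fintype.ofFinite X
  let _ : Fintype V := Fintype.ofFinite V
  let _ : Fintype G := Fintype.ofFinite G
  have hX : Nat.card X = Nat.card V * Nat.card G := hGV.card_mul_card.symm
  have hXpos : 0 < Nat.card X := Nat.card_pos
  have h1 := comm_pairs_complement V G hab hGV hcop
  rw [card_comm_eq_card_conjClasses_mul_card] at h1
  -- the double sum is the sum of `cnt` over `V`
  have h2 : (∑ g : G, ∑ h : G, (if (g : X) * h = h * g then
        Nat.card {v : V // (g : X) * (v : X) * (g : X)⁻¹ = (v : X) ∧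
          (h : X) * (v : X) * (h : X)⁻¹ = (v : X)} else 0)) = ∑ v : V, cnt G (v : X) := by
    have h3 : ∀ v : V, cnt G (v : X) = ∑ g : G, ∑ h : G,
        if ((g : X) * h = h * g ∧ (g : X) * (v : X) * (g : X)⁻¹ = (v : X) ∧
          (h : X) * (v : X) * (h : X)⁻¹ = (v : X)) then 1 else 0 := by
      intro v
      unfold cnt
      rw [card_eq_sum_ite, Fintype.sum_prod_type]
    simp only [h3]
    have h5 : ∑ v : V, ∑ g : G, ∑ h : G,
        (if ((g : X) * h = h * g ∧ (g : X) * (v : X) * (g : X)⁻¹ = (v : X) ∧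
          (h : X) * (v : X) * (h : X)⁻¹ = (v : X)) then 1 else 0) =
        ∑ g : G, ∑ h : G, ∑ v : V,
        (if ((g : X) * h = h * g ∧ (g : X) * (v : X) * (g : X)⁻¹ = (v : X) ∧
          (h : X) * (v : X) * (h : X)⁻¹ = (v : X)) then 1 else 0) := by
      rw [Finset.sum_comm]
      exact Finset.sum_congr rfl (fun g _ => Finset.sum_comm)
    rw [h5]
    apply Finset.sum_congr rfl
    intro g _
    apply Finset.sum_congr rfl
    intro h _
    split_ifs with hgh
    · rw [card_eq_sum_ite]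
      simp only [hgh, true_and]
    · simp [hgh]
  rw [h2, sum_cnt V G S hrep] at h1
  have h4 : ∑ s ∈ S, Nat.card {v : V // ∃ g ∈ G, g * (v : X) * g⁻¹ = s} * cnt G s =
      Nat.card G * ∑ s ∈ S, Nat.card (ConjClasses ↥(G ⊓ Subgroup.centralizer ({s} : Set X))) := by
    rw [Finset.mul_sum]
    apply Finset.sum_congr rfl
    intro s hs
    rw [cnt_eq, ← orbit_count V G s (hSV s hs)]
    ring
  rw [h4, ← mul_assoc, ← hX, mul_comm] at h1
  exact Nat.eq_of_mul_eq_mul_left hXpos h1

end Cfsg.Agent.S4956
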