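import Cfsg.Statements.S4969
import Cfsg.Agent.Lib.Helper1.CharComplete

set_option autoImplicit false
open Cfsg

namespace Cfsg.Agent.S4969

open Cfsg.Agent.Lib.Helper1
open scoped ComplexConjugate

/-- Let G be a finite group with k conjugacy classes, g ∈ G, and N > 0. Then the sum over the irreducible complex characters χ of G with χ(1) ≥ N of |χ(g)|/χ(1) is at most √(k · #C_G(g)) / N. -/
theorem result {G : Type*} [Group G] [Finite G] (g : G) (N : ℝ) (hN : 0 < N) :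
    ∑ᶠ χ : Cfsg.IrrCharacter G, (if N ≤ ‖(χ : G → ℂ) 1‖ then ‖(χ : G → ℂ) g‖ / ‖(χ : G → ℂ) 1‖ else 0) ≤
      Real.sqrt ((Nat.card (ConjClasses G) : ℝ) * (Nat.card ↥(Subgroup.centralizer ({g} : Set G)) : ℝ)) / N := by
  classical
  have hG : Fintype G := Fintype.ofFinite G
  have hI : Fintype (Cfsg.IrrCharacter G) := irrFintype
  rw [finsum_eq_sum_of_fintype]
  -- termwise bound
  have h1 : ∀ χ : Cfsg.IrrCharacter G,
      (if N ≤ ‖(χ : G → ℂ) 1‖ then ‖(χ : G → ℂ) g‖ / ‖(χ : G → ℂ) 1‖ else 0) ≤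
        ‖(χ : G → ℂ) g‖ / N := by
    intro χ
    split_ifs with hχ
    · exact div_le_div_of_nonneg_left (norm_nonneg _) hN hχ
    · exact div_nonneg (norm_nonneg _) hN.le
  have h2 : ∑ χ : Cfsg.IrrCharacter G, ‖(χ : G → ℂ) g‖ ^ 2 =
      (Nat.card ↥(Subgroup.centralizer ({g} : Set G)) : ℝ) := by
    have h3 := col_orth (G := G) g g
    rw [if_pos (IsConj.refl g)] at h3
    have h4 : ∀ χ : Cfsg.IrrCharacter G, (χ : G → ℂ) g * conj ((χ : G → ℂ) g) =
        ((‖(χ : G → ℂ) g‖ ^ 2 : ℝ) : ℂ) := by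
      intro χ
      rw [Complex.mul_conj, Complex.normSq_eq_norm_sq]
    simp only [h4] at h3
    rw [← Complex.ofReal_sum] at h3
    exact_mod_cast h3
  have h5 : ∑ χ : Cfsg.IrrCharacter G, ‖(χ : G → ℂ) g‖ ≤
      Real.sqrt ((Nat.card (ConjClasses G) : ℝ) *
        (Nat.card ↥(Subgroup.centralizer ({g} : Set G)) : ℝ)) := by
    have h6 := Finset.sum_mul_sq_le_sq_mul_sq (Finset.univ : Finset (Cfsg.IrrCharacter G))
      (fun _ => (1 : ℝ)) (fun χ => ‖(χ : G → ℂ) g‖)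
    simp only [one_mul, one_pow, Finset.sum_const, Finset.card_univ, nsmul_eq_mul, mul_one] at h6
    rw [h2, ← Nat.card_eq_fintype_card, card_irr] at h6
    apply Real.le_sqrt_of_sq_le
    exact h6
  calc ∑ χ : Cfsg.IrrCharacter G,
        (if N ≤ ‖(χ : G → ℂ) 1‖ then ‖(χ : G → ℂ) g‖ / ‖(χ : G → ℂ) 1‖ else 0)
      ≤ ∑ χ : Cfsg.IrrCharacter G, ‖(χ : G → ℂ) g‖ / N :=
        Finset.sum_le_sum (fun χ _ => h1 χ)
    _ = (∑ χ : Cfsg.IrrCharacter G, ‖(χ : G → ℂ) g‖) / N := by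
        rw [Finset.sum_div]
    _ ≤ _ := div_le_div_of_nonneg_right h5 hN.le

end Cfsg.Agent.S4969
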