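import Cfsg.Statements.S4989
import Cfsg.Agent.Lib.Helper25.CharZeros

set_option autoImplicit false
open Cfsg

namespace Cfsg.Agent.S4989

open Cfsg.Agent.Lib.Helper1 Cfsg.Agent.Lib.Helper25.CharZeros
open scoped ComplexConjugate

/-- Let H be a subgroup of the finite group G and χ an irreducible complex character of G. Then the inner product of the restriction of χ to H with itself, (1/#H)·Σ_{h ∈ H} |χ(h)|², is at most 1 + #(Z ∖ H)/#H, where Z is the set of zeros of χ in G. -/
theorem result {G : Type*} [Group G] [Finite G] (H : Subgroup G) (χ : Cfsg.IrrCharacter G) : (Nat.card ↥H : ℝ)⁻¹ * ∑ᶠ h : ↥H, ‖(χ : G → ℂ) h‖ ^ 2 ≤ 1 + (Set.ncard ({x : G | (χ : G → ℂ) x = 0} \ (H : Set G)) : ℝ) / (Nat.card ↥H : ℝ) := by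
  classical
  have hfG : Fintype G := Fintype.ofFinite G
  have hfH : Fintype H := Fintype.ofFinite H
  rw [finsum_eq_sum_of_fintype]
  have hHpos : (0 : ℝ) < (Nat.card H : ℝ) := by
    have := Nat.card_pos (α := H)
    exact_mod_cast this
  -- the complement of H is closed under coprime powers
  have hS : ∀ g ∈ Finset.univ.filter (fun g : G => g ∉ H), ∀ j : ℕ, j.Coprime (Nat.card G) →
      g ^ j ∈ Finset.univ.filter (fun g : G => g ∉ H) := by
    intro g hg j hj
    rw [Finset.mem_filter] at hg ⊢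
    refine ⟨Finset.mem_univ _, fun hgj => hg.2 ?_⟩
    have h1 := (powCoprime hj.symm).symm_apply_apply g
    simp only [powCoprime_apply, powCoprime_symm_apply] at h1
    rw [← h1]
    exact H.zpow_mem hgj _
  have h1 := card_nonzero_le_sum (IsIrrCharacter.isCharacter χ.2)
    (Finset.univ.filter (fun g : G => g ∉ H)) hS
  -- total sum
  have hsum : ∑ g : G, ‖(χ : G → ℂ) g‖ ^ 2 = (Nat.card G : ℝ) := by
    have h3 := classInner_irr_self χ.2
    rw [Cfsg.classInner] at h3
    have hne : (Nat.card G : ℂ) ≠ 0 := by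
      have := Nat.card_pos (α := G)
      exact_mod_cast this.ne'
    have h4 : ∑ g : G, (χ : G → ℂ) g * conj ((χ : G → ℂ) g) = (Nat.card G : ℂ) := by
      field_simp at h3
      exact h3
    have h5 : ∀ g : G, (χ : G → ℂ) g * conj ((χ : G → ℂ) g) =
        ((‖(χ : G → ℂ) g‖ ^ 2 : ℝ) : ℂ) := by
      intro g
      rw [Complex.mul_conj, Complex.normSq_eq_norm_sq]
    simp only [h5] at h4
    exact_mod_cast h4
  have hsplit : ∑ g : G, ‖(χ : G → ℂ) g‖ ^ 2 =
      ∑ h : H, ‖(χ : G → ℂ) h‖ ^ 2 +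
        ∑ g ∈ Finset.univ.filter (fun g : G => g ∉ H), ‖(χ : G → ℂ) g‖ ^ 2 := by
    rw [← Finset.sum_filter_add_sum_filter_not Finset.univ (fun g : G => g ∈ H)]
    congr 1
    exact Finset.sum_subtype (Finset.univ.filter (fun g : G => g ∈ H)) (by simp)
      (fun g => ‖(χ : G → ℂ) g‖ ^ 2)
  -- cardinalities
  have hcardS : ((Finset.univ.filter (fun g : G => g ∉ H)).card : ℝ) =
      (Nat.card G : ℝ) - (Nat.card H : ℝ) := by
    have h2 := Finset.card_filter_add_card_filter_not (s := (Finset.univ : Finset G))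
      (fun g : G => g ∈ H)
    have h3 : (Finset.univ.filter (fun g : G => g ∈ H)).card = Nat.card H := by
      rw [Nat.card_eq_fintype_card, Fintype.card_subtype]
    rw [h3, Finset.card_univ, ← Nat.card_eq_fintype_card] at h2
    have h4 : (Nat.card H : ℝ) + ((Finset.univ.filter (fun g : G => g ∉ H)).card : ℝ) =
        (Nat.card G : ℝ) := by exact_mod_cast h2
    linarith
  have hcardZ : (Set.ncard ({x : G | (χ : G → ℂ) x = 0} \ (H : Set G)) : ℝ) =
      (((Finset.univ.filter (fun g : G => g ∉ H)).filter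
        (fun g => ¬ (χ : G → ℂ) g ≠ 0)).card : ℝ) := by
    congr 1
    rw [← Set.ncard_coe_finset]
    congr 1
    ext x
    simp only [Set.mem_sdiff, Set.mem_ofPred_eq, SetLike.mem_coe, Finset.coe_filter, not_not,
      Finset.mem_filter, Finset.mem_univ, true_and]
    tauto
  have hfilt := Finset.card_filter_add_card_filter_not
    (s := Finset.univ.filter (fun g : G => g ∉ H)) (fun g => (χ : G → ℂ) g ≠ 0)
  have hfilt' : (((Finset.univ.filter (fun g : G => g ∉ H)).filter
      (fun g => (χ : G → ℂ) g ≠ 0)).card : ℝ) +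
      (((Finset.univ.filter (fun g : G => g ∉ H)).filter
        (fun g => ¬ (χ : G → ℂ) g ≠ 0)).card : ℝ) =
      ((Finset.univ.filter (fun g : G => g ∉ H)).card : ℝ) := by exact_mod_cast hfilt
  rw [hcardZ]
  have hmain : ∑ h : H, ‖(χ : G → ℂ) h‖ ^ 2 ≤ (Nat.card H : ℝ) +
      (((Finset.univ.filter (fun g : G => g ∉ H)).filter
        (fun g => ¬ (χ : G → ℂ) g ≠ 0)).card : ℝ) := by
    linarith
  rw [inv_mul_le_iff₀ hHpos]
  calc ∑ h : H, ‖(χ : G → ℂ) h‖ ^ 2 ≤ (Nat.card H : ℝ) +
      (((Finset.univ.filter (fun g : G => g ∉ H)).filter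
        (fun g => ¬ (χ : G → ℂ) g ≠ 0)).card : ℝ) := hmain
    _ = _ := by field_simp

end Cfsg.Agent.S4989
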