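import Cfsg.Statements.S4996
import Mathlib
import Cfsg.Agent.Lib.Helper1.CharGalois
import Cfsg.Agent.Lib.Helper1.CharInd
import Cfsg.Agent.Lib.Helper1.CharReg
import Cfsg.Agent.Lib.Helper13.SL2Irr
import Cfsg.Agent.Lib.Helper24.CharBasic
import Cfsg.Agent.Lib.Helper25.CharConv
import Cfsg.Agent.Lib.Helper25.Codegree

set_option autoImplicit false
open Cfsg

namespace Cfsg.Agent.S4996

open Cfsg.Agent.Lib.Helper1 Cfsg.Agent.Lib.Helper24
open scoped ComplexConjugate

universe u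

variable {G : Type u} [Group G] [Fintype G]

/-- Burnside's argument: a character with non-negative real values of average `1` and degree
greater than `1` vanishes somewhere. -/
theorem exists_zero_of_avg {Ψ : G → ℂ} (hΨ : Cfsg.IsCharacter G Ψ)
    (R : G → ℝ) (hR : ∀ g, Ψ g = (R g : ℂ)) (hpos : ∀ g, 0 ≤ R g)
    (hsum : ∑ g, R g = (Nat.card G : ℝ)) (h1 : 1 < R 1) : ∃ g, R g = 0 := by
  classical
  by_contra hcon
  push Not at hcon
  obtain ⟨d, ρ, hρ⟩ := hΨ
  have hN : NeZero (Nat.card G) := ⟨Nat.card_pos.ne'⟩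
  have hj : ∀ σ : CyclotomicField (Nat.card G) ℚ ≃ₐ[ℚ] CyclotomicField (Nat.card G) ℚ,
      ∃ j : ℕ, j.Coprime (Nat.card G) ∧ σ (cycZeta (Nat.card G)) = cycZeta (Nat.card G) ^ j :=
    fun σ => cyc_aut_zeta (Nat.card G) σ
  choose j hj1 hj2 using hj
  have hge : ∀ g : G, ((Finset.univ : Finset (CyclotomicField (Nat.card G) ℚ ≃ₐ[ℚ]
      CyclotomicField (Nat.card G) ℚ)).card : ℝ) ≤
      ∑ σ : CyclotomicField (Nat.card G) ℚ ≃ₐ[ℚ] CyclotomicField (Nat.card G) ℚ,
        R (g ^ j σ) := by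
    intro g
    obtain ⟨x, hx, hxσ⟩ := exists_cyc_lift (Nat.card G) ρ (fun g => pow_card_eq_one') g
    obtain ⟨m, hm, -⟩ := cyc_norm (Nat.card G) x hx
    have hm' : (m : ℂ) = ∏ σ : CyclotomicField (Nat.card G) ℚ ≃ₐ[ℚ] CyclotomicField (Nat.card G) ℚ,
        ((R (g ^ j σ) : ℝ) : ℂ) := by
      rw [hm]
      exact Finset.prod_congr rfl (fun σ _ => by rw [hxσ σ (j σ) (hj2 σ), hρ, hR])
    have hm0 : m ≠ 0 := by
      intro h0
      rw [h0] at hm'
      have : (∏ σ : CyclotomicField (Nat.card G) ℚ ≃ₐ[ℚ] CyclotomicField (Nat.card G) ℚ,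
          ((R (g ^ j σ) : ℝ) : ℂ)) ≠ 0 :=
        Finset.prod_ne_zero_iff.mpr (fun σ _ => by exact_mod_cast hcon _)
      exact this (by rw [← hm']; simp)
    have h1' : (1 : ℝ) ≤ ‖(m : ℂ)‖ := by
      rw [Complex.norm_intCast]
      have : 1 ≤ |m| := Int.one_le_abs hm0
      exact_mod_cast this
    apply sum_ge_card_of_prod_ge_one
    · intro σ _
      exact lt_of_le_of_ne (hpos _) (Ne.symm (hcon _))
    · have e : ‖(m : ℂ)‖ = ∏ σ : CyclotomicField (Nat.card G) ℚ ≃ₐ[ℚ]
          CyclotomicField (Nat.card G) ℚ, R (g ^ j σ) := by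
        rw [hm', norm_prod]
        exact Finset.prod_congr rfl (fun σ _ => by
          rw [Complex.norm_real, Real.norm_eq_abs, abs_of_nonneg (hpos _)])
      rw [← e]
      exact h1'
  have hswap : ∑ g : G, ∑ σ : CyclotomicField (Nat.card G) ℚ ≃ₐ[ℚ] CyclotomicField (Nat.card G) ℚ,
      R (g ^ j σ) = ((Finset.univ : Finset (CyclotomicField (Nat.card G) ℚ ≃ₐ[ℚ]
      CyclotomicField (Nat.card G) ℚ)).card : ℝ) * (Nat.card G : ℝ) := by
    rw [Finset.sum_comm]
    have : ∀ σ : CyclotomicField (Nat.card G) ℚ ≃ₐ[ℚ] CyclotomicField (Nat.card G) ℚ,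
        ∑ g : G, R (g ^ j σ) = (Nat.card G : ℝ) := by
      intro σ
      rw [← hsum]
      exact Equiv.sum_comp (powCoprime (hj1 σ).symm) (fun h => R h)
    simp only [this]
    rw [Finset.sum_const, nsmul_eq_mul]
  have hlt : ∑ g : G, ((Finset.univ : Finset (CyclotomicField (Nat.card G) ℚ ≃ₐ[ℚ]
      CyclotomicField (Nat.card G) ℚ)).card : ℝ) <
      ∑ g : G, ∑ σ : CyclotomicField (Nat.card G) ℚ ≃ₐ[ℚ] CyclotomicField (Nat.card G) ℚ,
      R (g ^ j σ) := by
    apply Finset.sum_lt_sum (fun g _ => hge g)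
    refine ⟨1, Finset.mem_univ _, ?_⟩
    simp only [one_pow]
    rw [Finset.sum_const, nsmul_eq_mul]
    have hK : (0 : ℝ) < ((Finset.univ : Finset (CyclotomicField (Nat.card G) ℚ ≃ₐ[ℚ]
      CyclotomicField (Nat.card G) ℚ)).card : ℝ) := by
      have : 0 < (Finset.univ : Finset (CyclotomicField (Nat.card G) ℚ ≃ₐ[ℚ]
        CyclotomicField (Nat.card G) ℚ)).card := Finset.card_pos.mpr ⟨1, Finset.mem_univ _⟩
      exact_mod_cast this
    nlinarith
  rw [hswap, Finset.sum_const, nsmul_eq_mul, Finset.card_univ, ← Nat.card_eq_fintype_card] at hlt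
  linarith [mul_comm ((Finset.univ : Finset (CyclotomicField (Nat.card G) ℚ ≃ₐ[ℚ]
      CyclotomicField (Nat.card G) ℚ)).card : ℝ) (Nat.card G : ℝ)]

section coset

variable (N : Subgroup G) [N.Normal] [DecidablePred (· ∈ N)]

omit [Fintype G] [DecidablePred (· ∈ N)] in
theorem conj_mem_iff (g k : G) : k * g * k⁻¹ ∈ N ↔ g ∈ N := by
  constructor
  · intro h
    have := (inferInstance : N.Normal).conj_mem _ h k⁻¹
    simpa [mul_assoc] using this
  · intro h
    exact (inferInstance : N.Normal).conj_mem _ h k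

omit [Fintype G] in
theorem ind_cf : Cfsg.IsClassFunction G (fun g => if g ∈ N then (1 : ℂ) else 0) := by
  intro g k
  simp only [conj_mem_iff N g k]

theorem card_filter_mem : ((Finset.univ.filter (fun g : G => g ∈ N)).card : ℂ) = (Nat.card N : ℂ) := by
  rw [Nat.card_eq_fintype_card, Fintype.card_subtype]

theorem coset_sum {φ : G → ℂ} (hφ : Cfsg.IsIrrCharacter G φ) (y : G) :
    ∑ g : G, (if g ∈ N then φ (g * y) else 0) =
      (∑ g : G, if g ∈ N then φ g else 0) * φ y / φ 1 := by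
  have h := Cfsg.Agent.Lib.Helper25.CharConv.gen_orth_cf (ind_cf N) hφ y
  simp only [ite_mul, one_mul, zero_mul] at h
  exact h

theorem coset_sum_ker {φ : G → ℂ} (hφ : Cfsg.IsIrrCharacter G φ) (hker : ∀ g ∈ N, φ g = φ 1)
    (y : G) : ∑ g : G, (if g ∈ N then φ (g * y) else 0) = (Nat.card N : ℂ) * φ y := by
  rw [coset_sum N hφ y]
  have h1 : ∑ g : G, (if g ∈ N then φ g else 0) = (Nat.card N : ℂ) * φ 1 := by
    have : ∀ g : G, (if g ∈ N then φ g else 0) = if g ∈ N then φ 1 else 0 := by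
      intro g
      by_cases hg : g ∈ N
      · rw [if_pos hg, if_pos hg, hker g hg]
      · rw [if_neg hg, if_neg hg]
    rw [Finset.sum_congr rfl (fun g _ => this g), ← Finset.sum_filter, Finset.sum_const,
      nsmul_eq_mul, card_filter_mem]
  rw [h1]
  have h0 := CharBasic.irr_one_ne_zero hφ
  field_simp

theorem coset_sum_not_ker {φ : G → ℂ} (hφ : Cfsg.IsIrrCharacter G φ)
    (hker : ¬ ∀ g ∈ N, φ g = φ 1) (y : G) :
    ∑ g : G, (if g ∈ N then φ (g * y) else 0) = 0 := by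
  push Not at hker
  obtain ⟨n₀, hn₀, hne⟩ := hker
  rw [coset_sum N hφ y, Cfsg.Agent.Lib.Helper25.Codegree.sum_subgroup_eq_zero hφ N hn₀ hne,
    zero_mul, zero_div]

/-- the average of `|χ|²` over the coset `N x` -/
noncomputable def cosetAvg (χ : G → ℂ) (x : G) : ℝ :=
  (Nat.card N : ℝ)⁻¹ * ∑ g : G, if g ∈ N then ‖χ (g * x)‖ ^ 2 else 0

theorem cosetAvg_cast (χ : G → ℂ) (x : G) : ((cosetAvg N χ x : ℝ) : ℂ) =
    (Nat.card N : ℂ)⁻¹ * ∑ g : G, if g ∈ N then χ (g * x) * conj (χ (g * x)) else 0 := by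
  unfold cosetAvg
  push_cast
  congr 1
  apply Finset.sum_congr rfl
  intro g _
  by_cases hg : g ∈ N
  · rw [if_pos hg, if_pos hg, Complex.mul_conj, Complex.normSq_eq_norm_sq]
  · rw [if_neg hg, if_neg hg]
    simp

theorem cosetAvg_nonneg (χ : G → ℂ) (x : G) : 0 ≤ cosetAvg N χ x := by
  unfold cosetAvg
  apply mul_nonneg (inv_nonneg.mpr (Nat.cast_nonneg _))
  apply Finset.sum_nonneg
  intro g _
  split_ifs
  · positivity
  · exact le_refl _

theorem cosetAvg_eq_zero_iff (χ : G → ℂ) (x : G) :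
    cosetAvg N χ x = 0 ↔ ∀ n : ↥N, χ ((n : G) * x) = 0 := by
  unfold cosetAvg
  have hc : (Nat.card N : ℝ)⁻¹ ≠ 0 := by
    apply inv_ne_zero
    exact_mod_cast (Nat.card_pos (α := N)).ne'
  rw [mul_eq_zero, or_iff_right hc, Finset.sum_eq_zero_iff_of_nonneg (fun g _ => by
    split_ifs
    · positivity
    · exact le_refl _)]
  constructor
  · intro h n
    have h1 := h n.1 (Finset.mem_univ _)
    rw [if_pos n.2] at h1
    exact norm_eq_zero.mp (pow_eq_zero_iff (two_ne_zero)|>.mp h1)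
  · intro h g _
    by_cases hg : g ∈ N
    · rw [if_pos hg, h ⟨g, hg⟩]
      simp
    · rw [if_neg hg]

theorem cosetAvg_conj {χ : G → ℂ} (hχ : Cfsg.IsClassFunction G χ) (x k : G) :
    cosetAvg N χ (k * x * k⁻¹) = cosetAvg N χ x := by
  unfold cosetAvg
  congr 1
  rw [← Equiv.sum_comp (MulAut.conj k).toEquiv
    (fun g => if g ∈ N then ‖χ (g * (k * x * k⁻¹))‖ ^ 2 else 0)]
  apply Finset.sum_congr rfl
  intro g _
  show (if k * g * k⁻¹ ∈ N then ‖χ (k * g * k⁻¹ * (k * x * k⁻¹))‖ ^ 2 else 0) = _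
  have e : k * g * k⁻¹ * (k * x * k⁻¹) = k * (g * x) * k⁻¹ := by group
  rw [e, hχ]
  simp only [conj_mem_iff N g k]

theorem cosetAvg_sum {χ : G → ℂ} (hχ : Cfsg.IsIrrCharacter G χ) :
    ∑ x : G, cosetAvg N χ x = (Nat.card G : ℝ) := by
  have hsum : ∑ h : G, ‖χ h‖ ^ 2 = (Nat.card G : ℝ) := by
    have h3 := classInner_irr_self hχ
    rw [Cfsg.classInner] at h3
    have hne : (Nat.card G : ℂ) ≠ 0 := by
      have := Nat.card_pos (α := G)
      exact_mod_cast this.ne'
    have h4 : ∑ g : G, χ g * conj (χ g) = (Nat.card G : ℂ) := by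
      field_simp at h3
      exact h3
    have h5 : ∀ g : G, χ g * conj (χ g) = ((‖χ g‖ ^ 2 : ℝ) : ℂ) := by
      intro g
      rw [Complex.mul_conj, Complex.normSq_eq_norm_sq]
    simp only [h5] at h4
    exact_mod_cast h4
  unfold cosetAvg
  rw [← Finset.mul_sum, Finset.sum_comm]
  have h1 : ∀ g : G, ∑ x : G, (if g ∈ N then ‖χ (g * x)‖ ^ 2 else 0) =
      if g ∈ N then (Nat.card G : ℝ) else 0 := by
    intro g
    by_cases hg : g ∈ N
    · simp only [if_pos hg]
      rw [← hsum]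
      exact Equiv.sum_comp (Equiv.mulLeft g) (fun y => ‖χ y‖ ^ 2)
    · simp only [if_neg hg, Finset.sum_const_zero]
  rw [Finset.sum_congr rfl (fun g _ => h1 g), ← Finset.sum_filter, Finset.sum_const, nsmul_eq_mul]
  have hc : ((Finset.univ.filter (fun g : G => g ∈ N)).card : ℝ) = (Nat.card N : ℝ) := by
    rw [Nat.card_eq_fintype_card, Fintype.card_subtype]
  rw [hc]
  have hN0 : (Nat.card N : ℝ) ≠ 0 := by
    exact_mod_cast (Nat.card_pos (α := N)).ne'
  field_simp

theorem cosetAvg_inner (χ : G → ℂ) (φ : G → ℂ) :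
    Cfsg.classInner (fun x => ((cosetAvg N χ x : ℝ) : ℂ)) φ =
      (Nat.card G : ℂ)⁻¹ * ((Nat.card N : ℂ)⁻¹ * ∑ y : G, χ y * conj (χ y) *
        conj (∑ g : G, if g ∈ N then φ (g * y) else 0)) := by
  unfold Cfsg.classInner
  congr 1
  simp only [cosetAvg_cast]
  have e0 : ∀ x : G, (Nat.card N : ℂ)⁻¹ * (∑ g : G, if g ∈ N then χ (g * x) * conj (χ (g * x)) else 0) *
      conj (φ x) = (Nat.card N : ℂ)⁻¹ *
        ((∑ g : G, if g ∈ N then χ (g * x) * conj (χ (g * x)) else 0) * conj (φ x)) := by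
    intro x
    ring
  rw [Finset.sum_congr rfl (fun x _ => e0 x), ← Finset.mul_sum]
  congr 1
  calc ∑ x : G, (∑ g : G, if g ∈ N then χ (g * x) * conj (χ (g * x)) else 0) * conj (φ x)
      = ∑ x : G, ∑ g : G, (if g ∈ N then χ (g * x) * conj (χ (g * x)) * conj (φ x) else 0) := by
        apply Finset.sum_congr rfl
        intro x _
        rw [Finset.sum_mul]
        apply Finset.sum_congr rfl
        intro g _
        rw [ite_mul, zero_mul]
    _ = ∑ g : G, ∑ x : G, (if g ∈ N then χ (g * x) * conj (χ (g * x)) * conj (φ x) else 0) :=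
        Finset.sum_comm
    _ = ∑ g : G, ∑ y : G, (if g ∈ N then χ y * conj (χ y) * conj (φ (g⁻¹ * y)) else 0) := by
        apply Finset.sum_congr rfl
        intro g _
        rw [← Equiv.sum_comp (Equiv.mulLeft g)
          (fun y => if g ∈ N then χ y * conj (χ y) * conj (φ (g⁻¹ * y)) else 0)]
        apply Finset.sum_congr rfl
        intro x _
        simp only [Equiv.coe_mulLeft, inv_mul_cancel_left]
    _ = ∑ y : G, ∑ g : G, (if g ∈ N then χ y * conj (χ y) * conj (φ (g⁻¹ * y)) else 0) :=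
        Finset.sum_comm
    _ = ∑ y : G, χ y * conj (χ y) * conj (∑ g : G, if g ∈ N then φ (g * y) else 0) := by
        apply Finset.sum_congr rfl
        intro y _
        rw [map_sum, Finset.mul_sum]
        rw [← Equiv.sum_comp (Equiv.inv G)
          (fun g => χ y * conj (χ y) * conj (if g ∈ N then φ (g * y) else 0))]
        apply Finset.sum_congr rfl
        intro g _
        simp only [Equiv.inv_apply, inv_mem_iff]
        by_cases hg : g ∈ N
        · rw [if_pos hg, if_pos hg]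
        · rw [if_neg hg, if_neg hg, map_zero, mul_zero]

theorem cosetAvg_inner_ker (χ : G → ℂ) {φ : G → ℂ} (hφ : Cfsg.IsIrrCharacter G φ)
    (hker : ∀ g ∈ N, φ g = φ 1) :
    Cfsg.classInner (fun x => ((cosetAvg N χ x : ℝ) : ℂ)) φ =
      Cfsg.classInner (χ * fun g => conj (χ g)) φ := by
  rw [cosetAvg_inner]
  unfold Cfsg.classInner
  congr 1
  have hN0 : (Nat.card N : ℂ) ≠ 0 := by
    exact_mod_cast (Nat.card_pos (α := N)).ne'
  rw [Finset.mul_sum]
  apply Finset.sum_congr rfl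
  intro y _
  rw [coset_sum_ker N hφ hker y, map_mul, Complex.conj_natCast, Pi.mul_apply]
  field_simp

theorem cosetAvg_inner_not_ker (χ : G → ℂ) {φ : G → ℂ} (hφ : Cfsg.IsIrrCharacter G φ)
    (hker : ¬ ∀ g ∈ N, φ g = φ 1) :
    Cfsg.classInner (fun x => ((cosetAvg N χ x : ℝ) : ℂ)) φ = 0 := by
  rw [cosetAvg_inner]
  have : ∀ y : G, χ y * conj (χ y) * conj (∑ g : G, if g ∈ N then φ (g * y) else 0) = 0 := by
    intro y
    rw [coset_sum_not_ker N hφ hker y, map_zero, mul_zero]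
  rw [Finset.sum_congr rfl (fun y _ => this y), Finset.sum_const_zero, mul_zero, mul_zero]

theorem cosetAvg_isCharacter {χ : G → ℂ} (hχ : Cfsg.IsCharacter G χ) :
    Cfsg.IsCharacter G (fun x => ((cosetAvg N χ x : ℝ) : ℂ)) := by
  have : Finite G := Finite.of_fintype G
  apply isCharacter_of_classInner_nat
  · intro x k
    show ((cosetAvg N χ (k * x * k⁻¹) : ℝ) : ℂ) = _
    rw [cosetAvg_conj N (IsCharacter.isClassFunction hχ)]
  · intro φ hφ
    by_cases hker : ∀ g ∈ N, φ g = φ 1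
    · rw [cosetAvg_inner_ker N χ hφ hker]
      exact IsCharacter.classInner_nat (IsCharacter.mul hχ (IsCharacter.conj hχ))
        (IsIrrCharacter.isCharacter hφ)
    · exact ⟨0, by rw [cosetAvg_inner_not_ker N χ hφ hker]; simp⟩

theorem cosetAvg_one (χ : G → ℂ) [Fintype ↥N] : ((cosetAvg N χ 1 : ℝ) : ℂ) =
    Cfsg.classInner (fun n : ↥N => χ n) (fun n : ↥N => χ n) := by
  rw [cosetAvg_cast]
  unfold Cfsg.classInner
  congr 1
  simp only [mul_one]
  rw [← Finset.sum_filter]
  exact Finset.sum_subtype (Finset.univ.filter (fun g : G => g ∈ N)) (by simp)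
    (fun g => χ g * conj (χ g))

end coset

end Cfsg.Agent.S4996

namespace Cfsg.Agent.S4996

open Cfsg.Agent.Lib.Helper1 Cfsg.Agent.Lib.Helper24
open scoped ComplexConjugate

/-- Let N be a normal subgroup of the finite group G and χ an irreducible complex character of G. Then the restriction of χ to N is not irreducible if and only if χ vanishes on some whole coset Nx of N in G. -/
theorem result {G : Type*} [Group G] [Finite G] (N : Subgroup G) [N.Normal] (χ : Cfsg.IrrCharacter G) : ¬ Cfsg.IsIrrCharacter ↥N (fun n : ↥N => (χ : G → ℂ) n) ↔ ∃ x : G, ∀ n : ↥N, (χ : G → ℂ) ((n : G) * x) = 0 := by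
  classical
  let _ : Fintype G := Fintype.ofFinite G
  obtain ⟨χ, hχ⟩ := χ
  have hχc : Cfsg.IsCharacter G χ := IsIrrCharacter.isCharacter hχ
  have hΨ := cosetAvg_isCharacter N hχc
  have hsum := cosetAvg_sum N hχ
  have h1 := cosetAvg_one N χ
  show ¬ Cfsg.IsIrrCharacter ↥N (fun n : ↥N => χ n) ↔ ∃ x : G, ∀ n : ↥N, χ ((n : G) * x) = 0
  constructor
  · intro hnot
    obtain ⟨k, hk⟩ := IsCharacter.classInner_nat (IsCharacter.restrict hχc N)
      (IsCharacter.restrict hχc N)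
    have hk1 : k ≠ 1 := by
      rintro rfl
      exact hnot (IsCharacter.isIrr_of_classInner_self (IsCharacter.restrict hχc N)
        (by rw [hk]; simp))
    have hRk : cosetAvg N χ 1 = (k : ℝ) := by
      have := h1.trans hk
      exact_mod_cast this
    have hk0 : k ≠ 0 := by
      rintro rfl
      have h0 : cosetAvg N χ 1 = 0 := by rw [hRk]; simp
      have h2 := (cosetAvg_eq_zero_iff N χ 1).mp h0 1
      simp only [OneMemClass.coe_one, mul_one] at h2
      exact CharBasic.irr_one_ne_zero hχ h2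
    have hR1 : 1 < cosetAvg N χ 1 := by
      rw [hRk]
      have : 1 < k := by omega
      exact_mod_cast this
    obtain ⟨x, hx⟩ := exists_zero_of_avg hΨ (cosetAvg N χ) (fun g => rfl)
      (cosetAvg_nonneg N χ) hsum hR1
    exact ⟨x, (cosetAvg_eq_zero_iff N χ x).mp hx⟩
  · rintro ⟨x, hx⟩ hirr
    have hR1 : ((cosetAvg N χ 1 : ℝ) : ℂ) = 1 := by
      rw [h1]
      exact classInner_irr_self hirr
    have hΨ1 : Cfsg.classInner (fun x => ((cosetAvg N χ x : ℝ) : ℂ)) (fun _ : G => (1 : ℂ)) = 1 := by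
      rw [cosetAvg_inner_ker N χ isIrrCharacter_one (fun g _ => rfl)]
      have h3 := classInner_irr_self hχ
      unfold Cfsg.classInner at h3 ⊢
      have e : ∀ g : G, (χ * fun g => conj (χ g)) g * conj ((fun _ : G => (1 : ℂ)) g) =
          χ g * conj (χ g) := by
        intro g
        simp
      rw [Finset.sum_congr rfl (fun g _ => e g)]
      exact h3
    have hΨeq : (fun x => ((cosetAvg N χ x : ℝ) : ℂ)) = fun _ : G => (1 : ℂ) :=
      Cfsg.Agent.Lib.Helper13.SL2Irr.eq_of_constituent_deg hΨ isIrrCharacter_one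
        (by rw [hΨ1]; exact one_ne_zero) hR1
    have h4 := congrFun hΨeq x
    have hx0 : cosetAvg N χ x = 0 := (cosetAvg_eq_zero_iff N χ x).mpr hx
    simp only [hx0] at h4
    norm_num at h4

end Cfsg.Agent.S4996
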