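import Cfsg.Statements.S5011

set_option autoImplicit false
open Cfsg

namespace Cfsg.Agent.S5011

theorem result {G : Type*} [Group G] [Finite G] [IsSimpleGroup G]
    (hG : ¬ IsMulCommutative G) {V : Type*} [AddCommGroup V] [Module ℂ V] [FiniteDimensional ℂ V]
    (ρ : Representation ℂ G V)
    (hirr : ∀ W : Submodule ℂ V, (∀ x : G, ∀ v ∈ W, ρ x v ∈ W) → W = ⊥ ∨ W = ⊤)
    (hdim : 1 < Module.finrank ℂ V) (g : G) (hg : g ≠ 1) :
    ∃ W : Submodule ℂ V, W ≠ ⊥ ∧ W ≠ ⊤ ∧ ∀ c ∈ Subgroup.centralizer ({g} : Set G), ∀ v ∈ W, ρ c v ∈ W := by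
  by_contra hcon
  push Not at hcon
  have hnt : Nontrivial V := by
    apply Module.nontrivial_of_finrank_pos (R := ℂ)
    omega
  obtain ⟨μ, hμ⟩ := Module.End.exists_eigenvalue (ρ g)
  set W : Submodule ℂ V := Module.End.eigenspace (ρ g) μ with hW
  have hWne : W ≠ ⊥ := hμ
  have hWinv : ∀ c ∈ Subgroup.centralizer ({g} : Set G), ∀ v ∈ W, ρ c v ∈ W := by
    intro c hc v hv
    rw [hW, Module.End.mem_eigenspace_iff] at hv ⊢
    have hcg : c * g = g * c := by
      rw [Subgroup.mem_centralizer_iff] at hc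
      exact (hc g rfl).symm
    have : ρ g (ρ c v) = ρ c (ρ g v) := by
      rw [← Module.End.mul_apply, ← Module.End.mul_apply, ← map_mul, ← map_mul, hcg]
    rw [this, hv, map_smul]
  have hWtop : W = ⊤ := by
    by_contra hne
    obtain ⟨c, hc, v, hv, hcv⟩ := hcon W hWne hne
    exact hcv (hWinv c hc v hv)
  have hscalar : ∀ v : V, ρ g v = μ • v := by
    intro v
    have : v ∈ W := by rw [hWtop]; trivial
    rwa [hW, Module.End.mem_eigenspace_iff] at this
  have hcomm : ∀ x : G, ρ (g * x * g⁻¹ * x⁻¹) = 1 := by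
    intro x
    have h1 : ρ g * ρ x = ρ x * ρ g := by
      ext v
      simp [hscalar]
    have : ρ (g * x * g⁻¹ * x⁻¹) = ρ g * ρ x * ρ g⁻¹ * ρ x⁻¹ := by simp [map_mul]
    rw [this, h1, mul_assoc (ρ x), ← map_mul, mul_inv_cancel, map_one, mul_one, ← map_mul,
      mul_inv_cancel, map_one]
  have hker := (MonoidHom.normal_ker ρ).eq_bot_or_eq_top
  rcases hker with hbot | htop
  · have hcen : g ∈ Subgroup.center G := by
      rw [Subgroup.mem_center_iff]
      intro x
      have : g * x * g⁻¹ * x⁻¹ ∈ ρ.ker := by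
        rw [MonoidHom.mem_ker]; exact hcomm x
      rw [hbot, Subgroup.mem_bot] at this
      have h2 : g * x * g⁻¹ * x⁻¹ * x * g = x * g := by rw [this, one_mul]
      rw [← h2]; group
    rcases (inferInstance : (Subgroup.center G).Normal).eq_bot_or_eq_top with hcb | hct
    · rw [hcb, Subgroup.mem_bot] at hcen
      exact hg hcen
    · apply hG
      constructor
      constructor
      intro a b
      have : a ∈ Subgroup.center G := by rw [hct]; trivial
      rw [Subgroup.mem_center_iff] at this
      exact (this b).symm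
  · have htriv : ∀ x : G, ρ x = 1 := by
      intro x
      have : x ∈ ρ.ker := by rw [htop]; trivial
      rwa [MonoidHom.mem_ker] at this
    obtain ⟨v, hv⟩ := exists_ne (0 : V)
    have hspan := hirr (Submodule.span ℂ {v}) (by
      intro x w hw
      rw [htriv x]
      simpa using hw)
    rcases hspan with hb | ht
    · rw [Submodule.span_singleton_eq_bot] at hb
      exact hv hb
    · have : Module.finrank ℂ V ≤ 1 := by
        rw [← finrank_top ℂ V, ← ht]
        exact (finrank_span_singleton hv).le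
      omega

end Cfsg.Agent.S5011
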