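import Cfsg.Statements.S5079
import Cfsg.Agent.Lib.Helper26.FusSat

set_option autoImplicit false
open Cfsg

namespace Cfsg.Agent.S5079

open Cfsg.Agent.Lib.Helper26 in
theorem result {Ω : Type*} [Group Ω] {S : Subgroup Ω} [Finite S] (p : ℕ) [Fact p.Prime] (hS : IsPGroup p S) (F : Cfsg.FusionSystem S) (P Q : Subgroup Ω) (h₁ : F.IsFullyAutomized p P) (h₂ : F.IsReceptive P) (hQ : F.IsConj Q P) : ∃ φ ∈ F.Hom (Cfsg.FusionSystem.normalizerIn S Q), (∀ x, φ x ∈ Cfsg.FusionSystem.normalizerIn S P) ∧ (Q.subgroupOf (Cfsg.FusionSystem.normalizerIn S Q)).map φ = P := by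
  obtain ⟨e, φ, he, hφ, hφe⟩ := exists_normalizer_map hS F h₁ h₂ hQ
  have hQS : Q ≤ S := iso_le_left F he
  have hQN : Q ≤ Cfsg.FusionSystem.normalizerIn S Q := le_normalizerIn hQS
  refine ⟨(Cfsg.FusionSystem.normalizerIn S P).subtype.comp φ, hφ, fun x => (φ x).2, ?_⟩
  ext y
  constructor
  · rintro ⟨x, hx, rfl⟩
    have hx' : (x : Ω) ∈ Q := Subgroup.mem_subgroupOf.mp hx
    have h1 := hφe ⟨x, hx'⟩ x.2
    show ((φ x : _) : Ω) ∈ P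
    rw [h1]
    exact (e _).2
  · intro hy
    refine ⟨⟨(e.symm ⟨y, hy⟩ : Q), hQN (e.symm ⟨y, hy⟩).2⟩, Subgroup.mem_subgroupOf.mpr (e.symm ⟨y, hy⟩).2, ?_⟩
    have h1 := hφe (e.symm ⟨y, hy⟩) (hQN (e.symm ⟨y, hy⟩).2)
    show ((φ _ : _) : Ω) = y
    rw [h1]
    simp

end Cfsg.Agent.S5079
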