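import Cfsg.Statements.S5106
import Cfsg.Agent.Lib.Helper26.FusStab2

set_option autoImplicit false
open Cfsg

namespace Cfsg.Agent.S5106

open Cfsg.Agent.Lib.Helper26 Cfsg.FusionSystem

universe u

/-- Automorphisms in `Aut_F(P)` acting on `P ∩ R` as conjugation by an element of `R`. -/
def innOn {Ω : Type u} [Group Ω] {S : Subgroup Ω} (F : FusionSystem S) (P R : Subgroup Ω)
    (hP : P ≤ S) (hR : F.StronglyClosed R) : Subgroup (MulAut P) where
  carrier := {β | β ∈ F.autGroup P ∧ ∃ r ∈ R, ∀ x : P, (x : Ω) ∈ R → ((β x : P) : Ω) = r * x * r⁻¹}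
  mul_mem' := by
    rintro β γ ⟨hβ, r, hr, hβr⟩ ⟨hγ, r', hr', hγr⟩
    refine ⟨mul_mem hβ hγ, r * r', R.mul_mem hr hr', fun x hx => ?_⟩
    have h1 : ((γ x : P) : Ω) ∈ R := stronglyClosed_aut_invariant F hR hP hγ x hx
    rw [MulAut.mul_apply, hβr _ h1, hγr x hx]
    group
  one_mem' := by
    refine ⟨one_mem _, 1, R.one_mem, fun x _ => ?_⟩
    simp
  inv_mem' := by
    rintro β ⟨hβ, r, hr, hβr⟩
    refine ⟨inv_mem hβ, r⁻¹, R.inv_mem hr, fun x hx => ?_⟩
    have h1 : ((β⁻¹ x : P) : Ω) ∈ R := stronglyClosed_aut_invariant F hR hP (inv_mem hβ) x hx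
    have h2 := hβr _ h1
    rw [MulAut.apply_inv_self] at h2
    rw [h2]
    group

/-- In a saturated fusion system over a finite p-group S, a subgroup R ≤ S is normal in the system if and only if every map of the system whose source is a subgroup of R is the restriction of an element of Aut_F(R). -/
theorem result {Ω : Type*} [Group Ω] {S : Subgroup Ω} [Finite S] (p : ℕ) [Fact p.Prime] (hS : IsPGroup p S) (F : Cfsg.FusionSystem S) (hF : F.IsSaturated p) (R : Subgroup Ω) (hRS : R ≤ S) : F.IsNormal R ↔ ∀ (P : Subgroup Ω) (hPR : P ≤ R) (φ : P →* Ω), φ ∈ F.Hom P → ∃ α ∈ F.autGroup R, ∀ x : P, ((α (Subgroup.inclusion hPR x) : R) : Ω) = φ x := by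
  constructor
  · intro hR P hPR φ hφ
    obtain ⟨-, hnk⟩ := (isNormal_iff_le_nk F R).mp hR
    obtain ⟨-, ψ, hψ, hext, κ, -, hκ⟩ := hnk P hφ
    have hκA : κ ∈ F.autGroup R := by
      rw [mem_autGroup_iff F hRS, isoSet_iff]
      have h1 := restrict_mem F hψ (le_sup_right : R ≤ P ⊔ R)
      have h2 : R.subtype.comp (MulEquiv.toMonoidHom κ) =
          ψ.comp (Subgroup.inclusion (le_sup_right : R ≤ P ⊔ R)) := by
        ext x
        exact (hκ x).symm
      rw [h2]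
      exact h1
    refine ⟨κ, hκA, fun x => ?_⟩
    rw [← hκ, ← hext]
    exact congrArg ψ (Subtype.ext rfl)
  · intro h
    have hRsc : F.StronglyClosed R := by
      refine ⟨hRS, fun P hPR φ hφ x => ?_⟩
      obtain ⟨α, -, hα⟩ := h P hPR φ hφ
      rw [← hα]
      exact (α _).2
    apply (Cfsg.Agent.S5086.result p hS F hF R).mpr
    refine ⟨hRsc, fun P hc hr => ?_⟩
    have hP : P ≤ S := hc.1
    refine le_of_chain hS F hc hr hRsc (innOn F P R hP hRsc) (fun β hβ => hβ.1) ?_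
      (fun _ => R) 0 rfl ?_ ?_ ?_ ?_
    · rintro α hα β ⟨hβ, r, hr, hβr⟩
      refine ⟨mul_mem (mul_mem hα hβ) (inv_mem hα), ?_⟩
      have h1 := restrict_mem F (autGroup_hom_mem F hP hα) (inf_le_left : P ⊓ R ≤ P)
      obtain ⟨ρ, -, hρ⟩ := h (P ⊓ R) inf_le_right _ h1
      refine ⟨ρ ⟨r, hr⟩, (ρ ⟨r, hr⟩).2, fun x hx => ?_⟩
      have hy : ((α⁻¹ x : P) : Ω) ∈ R := stronglyClosed_aut_invariant F hRsc hP (inv_mem hα) x hx
      have hby := hβr _ hy
      have hbyR : ((β (α⁻¹ x) : P) : Ω) ∈ R := stronglyClosed_aut_invariant F hRsc hP hβ _ hy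
      have h2 : ((ρ (Subgroup.inclusion (inf_le_right : P ⊓ R ≤ R)
          ⟨(β (α⁻¹ x) : P), ⟨(β (α⁻¹ x)).2, hbyR⟩⟩) : R) : Ω) = ((α (β (α⁻¹ x)) : P) : Ω) :=
        hρ ⟨(β (α⁻¹ x) : P), ⟨(β (α⁻¹ x)).2, hbyR⟩⟩
      have h3 : ((ρ (Subgroup.inclusion (inf_le_right : P ⊓ R ≤ R)
          ⟨(α⁻¹ x : P), ⟨(α⁻¹ x).2, hy⟩⟩) : R) : Ω) = ((α (α⁻¹ x) : P) : Ω) :=
        hρ ⟨(α⁻¹ x : P), ⟨(α⁻¹ x).2, hy⟩⟩
      rw [MulAut.apply_inv_self] at h3
      have h4 : (Subgroup.inclusion (inf_le_right : P ⊓ R ≤ R)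
          ⟨(β (α⁻¹ x) : P), ⟨(β (α⁻¹ x)).2, hbyR⟩⟩ : R) =
          ⟨r, hr⟩ * Subgroup.inclusion (inf_le_right : P ⊓ R ≤ R)
            ⟨(α⁻¹ x : P), ⟨(α⁻¹ x).2, hy⟩⟩ * ⟨r, hr⟩⁻¹ := by
        apply Subtype.ext
        exact hby
      rw [h4, map_mul, map_mul, map_inv, Subgroup.coe_mul, Subgroup.coe_mul, Subgroup.coe_inv, h3] at h2
      exact h2.symm
    · intro i _ α hα x hx
      exact stronglyClosed_aut_invariant F hRsc hP hα x hx
    · intro i hi
      omega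
    · rintro β ⟨hβ, r, hr, hβr⟩
      obtain ⟨k, hk⟩ := isPGroup_pow_eq_one hS (hRS hr)
      refine ⟨k, fun x hx => ?_⟩
      have key : ∀ j : ℕ, ∀ x : P, (x : Ω) ∈ R → (((β ^ j) x : P) : Ω) = r ^ j * x * (r ^ j)⁻¹ := by
        intro j
        induction j with
        | zero =>
          intro x _
          simp
        | succ j ih =>
          intro x hx
          have h1 : (((β ^ j) x : P) : Ω) ∈ R :=
            stronglyClosed_aut_invariant F hRsc hP (pow_mem hβ j) x hx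
          rw [pow_succ', MulAut.mul_apply, hβr _ h1, ih x hx, pow_succ']
          group
      apply Subtype.ext
      rw [key (p ^ k) x hx, hk]
      simp
    · intro g hg hgR
      exact ⟨autInducedBy_le_autGroup F hP (conj_mem_autInducedBy (hRS hgR) hg), g, hgR,
        fun x _ => normalizerMonoidHom_coe _ x⟩

end Cfsg.Agent.S5106
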