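import Cfsg.Statements.S5124
import Cfsg.Agent.Lib.Helper26.FusHyp

set_option autoImplicit false
open Cfsg

namespace Cfsg.Agent.S5124

open Cfsg.Agent.Lib.Helper26 Cfsg.FusionSystem

/-- In a saturated fusion system over a finite p-group S the hyperfocal subgroup is strongly closed in the system. -/
theorem result {Ω : Type*} [Group Ω] {S : Subgroup Ω} [Finite S] (p : ℕ) [Fact p.Prime] (hS : IsPGroup p S) (F : Cfsg.FusionSystem S) (hF : F.IsSaturated p) : F.StronglyClosed (F.hyperfocalSubgroup p) := by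
  have hH := hyperfocal_le F p
  refine ⟨hH, ?_⟩
  have key := alperin_induction hS F hF
    (fun P φ => ∀ x : P, (x : Ω) ∈ F.hyperfocalSubgroup p ↔ φ x ∈ F.hyperfocalSubgroup p)
    ?_ ?_ ?_ ?_
  · intro R hR φ hφ x
    exact (key R φ hφ x).mp (hR x.2)
  · intro P g hP hg x
    rw [conjHom_apply]
    constructor
    · exact hyperfocal_conj_mem F p hg
    · intro h
      have h1 := hyperfocal_conj_mem F p (S.inv_mem hg) h
      have h2 : g⁻¹ * (g * (x : Ω) * g⁻¹) * g⁻¹⁻¹ = x := by group
      rwa [h2] at h1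
  · intro P Q φ ψ hφ hψ hCφ hCψ h x
    exact (hCφ x).trans (hCψ ⟨φ x, h x⟩)
  · intro P φ hφ hCφ ψ hψ hinvψ y
    obtain ⟨y, x, rfl⟩ := y
    rw [hinvψ x]
    exact (hCφ x).symm
  · intro R hR α hα
    have hfa := fullyAutomized_of_alperin hS F hF hR
    have hRS := hfa.1
    have hfwd : ∀ α ∈ F.autGroup R, ∀ x : R, (x : Ω) ∈ F.hyperfocalSubgroup p →
        ((α x : R) : Ω) ∈ F.hyperfocalSubgroup p := by
      intro α hα x hx
      obtain ⟨β, t, s, hβ, hs, hts, hαβ⟩ := autGroup_decomp F hfa α hα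
      rw [hαβ x]
      have e : (((β : MulAut R) (t x) : R) : Ω) = ((t x : R) : Ω) *
          (((t x : R) : Ω)⁻¹ * (((β : MulAut R) (t x) : R) : Ω)) := by group
      rw [e]
      apply Subgroup.mul_mem
      · rw [hts]
        exact hyperfocal_conj_mem F p hs hx
      · exact mem_hyperfocal F p hRS β hβ (t x)
    intro x
    constructor
    · exact hfwd α hα x
    · intro h
      have h1 := hfwd α⁻¹ (inv_mem hα) (α x) h
      rwa [MulAut.inv_apply_self] at h1

end Cfsg.Agent.S5124
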