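import Cfsg.Statements.S5131
import Mathlib

set_option autoImplicit false
open Cfsg

namespace Cfsg.Agent.S5131

theorem result {Ω : Type*} [Group Ω] {S : Subgroup Ω} [Finite S] (p : ℕ) [Fact p.Prime] (hS : IsPGroup p S) (F : Cfsg.FusionSystem S) {Ω' : Type*} [Group Ω'] {S' : Subgroup Ω'} (F' : Cfsg.FusionSystem S') (α : S →* Ω') (hα : F.IsMorphism F' α) : F.StronglyClosed ((α.ker).map S.subtype) := by
  refine ⟨?_, ?_⟩
  · rintro _ ⟨x, -, rfl⟩
    exact x.2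
  · intro R hR φ hφ x
    obtain ⟨φ', -, hP, hφS, hP', hind⟩ := hα.2 R φ hφ
    have hx : (x : Ω) ∈ (α.ker).map S.subtype := hR x.2
    obtain ⟨y, hy, hyx⟩ := hx
    have hy1 : α ⟨x, hP x.2⟩ = 1 := by
      have : y = ⟨x, hP x.2⟩ := Subtype.ext hyx
      rw [← this]
      exact hy
    have h1 := hind x
    have h2 : (⟨α ⟨x, hP x.2⟩, hP' x⟩ : ↥(Cfsg.FusionSystem.imageAlong α R)) = 1 := Subtype.ext hy1
    rw [h2, map_one] at h1
    exact ⟨⟨φ x, hφS x⟩, h1.symm, rfl⟩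

end Cfsg.Agent.S5131
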