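import Cfsg.Statements.S5135
import Cfsg.Agent.Lib.Helper26.FusGrp2

set_option autoImplicit false
open Cfsg

namespace Cfsg.Agent.S5135

open Cfsg.Agent.Lib.Helper26 Cfsg.FusionSystem

/-- Let G be a finite group, S a Sylow p-subgroup and H a normal subgroup of G. Then the fusion system of G/H on the image SH/H of S is the factor system of the fusion system of G on S modulo S ∩ H, read through the quotient map restricted to S: for each subgroup P' of SH/H, the conjugation maps by elements of G/H defined on P' with values in SH/H are exactly the homomorphisms induced by the conjugation maps by elements of G defined on the full preimage of P' in S with values in S. -/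
theorem result {G : Type*} [Group G] [Finite G] (p : ℕ) [Fact p.Prime] (S : Sylow p G) (H : Subgroup G) [H.Normal] : (Cfsg.groupFusionSystem (S : Subgroup G)).IsFactorSystem ((S : Subgroup G) ⊓ H) ((QuotientGroup.mk' H).comp (S : Subgroup G).subtype) (Cfsg.groupFusionSystem ((S : Subgroup G).map (QuotientGroup.mk' H))) := by
  refine ⟨inf_le_left, ?_, ?_, ?_⟩
  · intro s
    show (QuotientGroup.mk (s : G) : G ⧸ H) = 1 ↔ (s : G) ∈ (S : Subgroup G) ⊓ H
    rw [QuotientGroup.eq_one_iff]
    exact ⟨fun h => ⟨s.2, h⟩, fun h => h.2⟩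
  · rw [MonoidHom.range_comp, Subgroup.range_subtype]
  · intro P' φ'
    have hPS : preimageAlong ((QuotientGroup.mk' H).comp (S : Subgroup G).subtype) P' ≤
        (S : Subgroup G) := Subgroup.map_subtype_le _
    have hPmem : ∀ x ∈ preimageAlong ((QuotientGroup.mk' H).comp (S : Subgroup G).subtype) P',
        (QuotientGroup.mk x : G ⧸ H) ∈ P' := by
      rintro _ ⟨s, hs, rfl⟩
      exact hs
    constructor
    · rintro ⟨hP', hφ'S, γ, hγ⟩
      refine ⟨hP', ?_⟩
      obtain ⟨g, hg⟩ := exists_lift_conj S H _ hPS γ (fun x hx => by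
        have h1 := hφ'S ⟨_, hPmem x hx⟩
        rw [hγ] at h1
        exact h1)
      refine ⟨conjHom _ g, ⟨hPS, fun x => (hg x x.2).1, g, fun x => rfl⟩, hPS,
        fun x => (hg x x.2).1, fun x => hPmem x x.2, fun x => ?_⟩
      rw [hγ]
      exact ((hg x x.2).2).symm
    · rintro ⟨hP', φ, ⟨-, -, g, hg⟩, hP, hφ, hP'', hind⟩
      have hsurj : ∀ x' : P', ∃ x : ↥(preimageAlong
          ((QuotientGroup.mk' H).comp (S : Subgroup G).subtype) P'),
          x' = ⟨((QuotientGroup.mk' H).comp (S : Subgroup G).subtype) ⟨x, hP x.2⟩, hP'' x⟩ := by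
        intro x'
        obtain ⟨s, hs, hsx⟩ := hP' x'.2
        have hmem : s ∈ preimageAlong ((QuotientGroup.mk' H).comp (S : Subgroup G).subtype) P' := by
          refine ⟨⟨s, hs⟩, ?_, rfl⟩
          show ((QuotientGroup.mk' H).comp (S : Subgroup G).subtype) ⟨s, hs⟩ ∈ P'
          have h2 : ((QuotientGroup.mk' H).comp (S : Subgroup G).subtype) ⟨s, hs⟩ = (x' : G ⧸ H) :=
            hsx
          rw [h2]
          exact x'.2
        exact ⟨⟨s, hmem⟩, Subtype.ext hsx.symm⟩
      refine ⟨hP', ?_, QuotientGroup.mk g, ?_⟩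
      · intro x'
        obtain ⟨x, rfl⟩ := hsurj x'
        rw [hind x]
        exact ⟨φ x, hφ x, rfl⟩
      · intro x'
        obtain ⟨x, rfl⟩ := hsurj x'
        rw [hind x]
        show (QuotientGroup.mk (φ x) : G ⧸ H) = QuotientGroup.mk g * QuotientGroup.mk (x : G) *
          (QuotientGroup.mk g)⁻¹
        rw [hg, QuotientGroup.mk_mul, QuotientGroup.mk_mul, QuotientGroup.mk_inv]

end Cfsg.Agent.S5135
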