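import Cfsg.Statements.S5136
import Mathlib

set_option autoImplicit false
open Cfsg

namespace Cfsg.Agent.S5136



theorem hom_cast {Ω : Type*} [Group Ω] {S : Subgroup Ω} (F : Cfsg.FusionSystem S)
    {R R' : Subgroup Ω} (h : R = R') {ψ : R →* Ω} (hψ : ψ ∈ F.Hom R) :
    ∃ ψ' ∈ F.Hom R', ∀ (x : Ω) (hx : x ∈ R) (hx' : x ∈ R'), ψ' ⟨x, hx'⟩ = ψ ⟨x, hx⟩ := by
  subst h
  exact ⟨ψ, hψ, fun _ _ _ => rfl⟩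

/-- the direct product of two fusion systems -/
def prodSys {Ω₁ Ω₂ : Type*} [Group Ω₁] [Group Ω₂] {S₁ : Subgroup Ω₁} {S₂ : Subgroup Ω₂}
    (F₁ : Cfsg.FusionSystem S₁) (F₂ : Cfsg.FusionSystem S₂) : Cfsg.FusionSystem (S₁.prod S₂) where
  Hom P := {φ | P ≤ S₁.prod S₂ ∧
      ∃ φ₁ ∈ F₁.Hom (P.map (MonoidHom.fst Ω₁ Ω₂)), ∃ φ₂ ∈ F₂.Hom (P.map (MonoidHom.snd Ω₁ Ω₂)),
        ∀ (x : P) (h₁ : (x : Ω₁ × Ω₂).1 ∈ P.map (MonoidHom.fst Ω₁ Ω₂))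
          (h₂ : (x : Ω₁ × Ω₂).2 ∈ P.map (MonoidHom.snd Ω₁ Ω₂)),
          φ x = (φ₁ ⟨(x : Ω₁ × Ω₂).1, h₁⟩, φ₂ ⟨(x : Ω₁ × Ω₂).2, h₂⟩)}
  le_of_mem := by
    rintro P φ ⟨hP, φ₁, hφ₁, φ₂, hφ₂, h⟩
    refine ⟨hP, fun x => ?_⟩
    have h1 : (x : Ω₁ × Ω₂).1 ∈ P.map (MonoidHom.fst Ω₁ Ω₂) := ⟨x, x.2, rfl⟩
    have h2 : (x : Ω₁ × Ω₂).2 ∈ P.map (MonoidHom.snd Ω₁ Ω₂) := ⟨x, x.2, rfl⟩
    rw [h x h1 h2]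
    exact ⟨(F₁.le_of_mem hφ₁).2 _, (F₂.le_of_mem hφ₂).2 _⟩
  injective_of_mem := by
    rintro P φ ⟨hP, φ₁, hφ₁, φ₂, hφ₂, h⟩ x y hxy
    have hx1 : (x : Ω₁ × Ω₂).1 ∈ P.map (MonoidHom.fst Ω₁ Ω₂) := ⟨x, x.2, rfl⟩
    have hx2 : (x : Ω₁ × Ω₂).2 ∈ P.map (MonoidHom.snd Ω₁ Ω₂) := ⟨x, x.2, rfl⟩
    have hy1 : (y : Ω₁ × Ω₂).1 ∈ P.map (MonoidHom.fst Ω₁ Ω₂) := ⟨y, y.2, rfl⟩
    have hy2 : (y : Ω₁ × Ω₂).2 ∈ P.map (MonoidHom.snd Ω₁ Ω₂) := ⟨y, y.2, rfl⟩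
    rw [h x hx1 hx2, h y hy1 hy2] at hxy
    have e1 := F₁.injective_of_mem hφ₁ (congrArg Prod.fst hxy)
    have e2 := F₂.injective_of_mem hφ₂ (congrArg Prod.snd hxy)
    apply Subtype.ext
    exact Prod.ext (congrArg Subtype.val e1) (congrArg Subtype.val e2)
  conj_mem := by
    intro P g hP hg
    refine ⟨hP, Cfsg.conjHom _ g.1, F₁.conj_mem ?_ hg.1, Cfsg.conjHom _ g.2, F₂.conj_mem ?_ hg.2, ?_⟩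
    · rintro _ ⟨x, hx, rfl⟩; exact (hP hx).1
    · rintro _ ⟨x, hx, rfl⟩; exact (hP hx).2
    · intro x h₁ h₂
      rfl
  comp_mem := by
    rintro P Q φ ψ ⟨hP, φ₁, hφ₁, φ₂, hφ₂, hφ⟩ ⟨hQ, ψ₁, hψ₁, ψ₂, hψ₂, hψ⟩ h
    have hφ1 : ∀ y : P.map (MonoidHom.fst Ω₁ Ω₂), φ₁ y ∈ Q.map (MonoidHom.fst Ω₁ Ω₂) := by
      rintro ⟨_, x, hx, rfl⟩
      have := hφ ⟨x, hx⟩ ⟨x, hx, rfl⟩ ⟨x, hx, rfl⟩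
      refine ⟨φ ⟨x, hx⟩, h _, ?_⟩
      rw [this]; rfl
    have hφ2 : ∀ y : P.map (MonoidHom.snd Ω₁ Ω₂), φ₂ y ∈ Q.map (MonoidHom.snd Ω₁ Ω₂) := by
      rintro ⟨_, x, hx, rfl⟩
      have := hφ ⟨x, hx⟩ ⟨x, hx, rfl⟩ ⟨x, hx, rfl⟩
      refine ⟨φ ⟨x, hx⟩, h _, ?_⟩
      rw [this]; rfl
    refine ⟨hP, ψ₁.comp (φ₁.codRestrict _ hφ1), F₁.comp_mem hφ₁ hψ₁ hφ1,
      ψ₂.comp (φ₂.codRestrict _ hφ2), F₂.comp_mem hφ₂ hψ₂ hφ2, ?_⟩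
    intro x h₁ h₂
    show ψ ⟨φ x, h x⟩ = _
    have e := hφ x h₁ h₂
    have k1 : ((⟨φ x, h x⟩ : Q) : Ω₁ × Ω₂).1 ∈ Q.map (MonoidHom.fst Ω₁ Ω₂) := ⟨_, h x, rfl⟩
    have k2 : ((⟨φ x, h x⟩ : Q) : Ω₁ × Ω₂).2 ∈ Q.map (MonoidHom.snd Ω₁ Ω₂) := ⟨_, h x, rfl⟩
    rw [hψ ⟨φ x, h x⟩ k1 k2]
    refine Prod.ext ?_ ?_
    · show ψ₁ _ = ψ₁ _
      congr 1
      apply Subtype.ext
      show (φ x).1 = φ₁ ⟨_, h₁⟩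
      rw [e]
    · show ψ₂ _ = ψ₂ _
      congr 1
      apply Subtype.ext
      show (φ x).2 = φ₂ ⟨_, h₂⟩
      rw [e]
  inv_mem := by
    rintro P φ ⟨hP, φ₁, hφ₁, φ₂, hφ₂, hφ⟩
    obtain ⟨ψ₁, hψ₁, hψ₁'⟩ := F₁.inv_mem hφ₁
    obtain ⟨ψ₂, hψ₂, hψ₂'⟩ := F₂.inv_mem hφ₂
    have e1 : φ₁.range = φ.range.map (MonoidHom.fst Ω₁ Ω₂) := by
      ext y; constructor
      · rintro ⟨⟨_, x, hx, rfl⟩, rfl⟩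
        refine ⟨φ ⟨x, hx⟩, ⟨⟨x, hx⟩, rfl⟩, ?_⟩
        rw [hφ ⟨x, hx⟩ ⟨x, hx, rfl⟩ ⟨x, hx, rfl⟩]; rfl
      · rintro ⟨_, ⟨x, rfl⟩, rfl⟩
        refine ⟨⟨(x : Ω₁ × Ω₂).1, ⟨x, x.2, rfl⟩⟩, ?_⟩
        rw [hφ x ⟨x, x.2, rfl⟩ ⟨x, x.2, rfl⟩]; rfl
    have e2 : φ₂.range = φ.range.map (MonoidHom.snd Ω₁ Ω₂) := by
      ext y; constructor
      · rintro ⟨⟨_, x, hx, rfl⟩, rfl⟩
        refine ⟨φ ⟨x, hx⟩, ⟨⟨x, hx⟩, rfl⟩, ?_⟩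
        rw [hφ ⟨x, hx⟩ ⟨x, hx, rfl⟩ ⟨x, hx, rfl⟩]; rfl
      · rintro ⟨_, ⟨x, rfl⟩, rfl⟩
        refine ⟨⟨(x : Ω₁ × Ω₂).2, ⟨x, x.2, rfl⟩⟩, ?_⟩
        rw [hφ x ⟨x, x.2, rfl⟩ ⟨x, x.2, rfl⟩]; rfl
    obtain ⟨χ₁, hχ₁, hχ₁'⟩ := hom_cast F₁ e1 hψ₁
    obtain ⟨χ₂, hχ₂, hχ₂'⟩ := hom_cast F₂ e2 hψ₂
    have hR : φ.range ≤ S₁.prod S₂ := by
      rintro _ ⟨x, rfl⟩
      rw [hφ x ⟨x, x.2, rfl⟩ ⟨x, x.2, rfl⟩]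
      exact ⟨(F₁.le_of_mem hφ₁).2 _, (F₂.le_of_mem hφ₂).2 _⟩
    refine ⟨(χ₁.comp (((MonoidHom.fst Ω₁ Ω₂).comp φ.range.subtype).codRestrict _
        (fun z => Subgroup.mem_map_of_mem _ z.2))).prod
      (χ₂.comp (((MonoidHom.snd Ω₁ Ω₂).comp φ.range.subtype).codRestrict _
        (fun z => Subgroup.mem_map_of_mem _ z.2))), ⟨hR, χ₁, hχ₁, χ₂, hχ₂, fun z h₁ h₂ => rfl⟩, ?_⟩
    intro x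
    have h1 : (x : Ω₁ × Ω₂).1 ∈ P.map (MonoidHom.fst Ω₁ Ω₂) := ⟨x, x.2, rfl⟩
    have h2 : (x : Ω₁ × Ω₂).2 ∈ P.map (MonoidHom.snd Ω₁ Ω₂) := ⟨x, x.2, rfl⟩
    have e := hφ x h1 h2
    have m1 : (φ x).1 ∈ φ₁.range := ⟨⟨_, h1⟩, by rw [e]⟩
    have m2 : (φ x).2 ∈ φ₂.range := ⟨⟨_, h2⟩, by rw [e]⟩
    refine Prod.ext ?_ ?_
    · refine (hχ₁' (φ x).1 m1 _).trans ?_
      refine Eq.trans ?_ (hψ₁' ⟨_, h1⟩)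
      congr 1
      apply Subtype.ext
      show (φ x).1 = φ₁ ⟨_, h1⟩
      rw [e]
    · refine (hχ₂' (φ x).2 m2 _).trans ?_
      refine Eq.trans ?_ (hψ₂' ⟨_, h2⟩)
      congr 1
      apply Subtype.ext
      show (φ x).2 = φ₂ ⟨_, h2⟩
      rw [e]

/-- Let F₁ and F₂ be fusion systems over finite p-groups S₁ and S₂ (inside ambient groups Ω₁ and Ω₂). Then their direct product exists: there is a fusion system over S₁ × S₂ inside Ω₁ × Ω₂ whose maps with source P ≤ S₁ × S₂ are exactly the restrictions to P of the homomorphisms (x₁, x₂) ↦ (φ₁ x₁, φ₂ x₂) with φ₁ a map of F₁ on the first projection of P and φ₂ a map of F₂ on the second projection. -/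
theorem result {Ω₁ Ω₂ : Type*} [Group Ω₁] [Group Ω₂] {S₁ : Subgroup Ω₁} {S₂ : Subgroup Ω₂} [Finite S₁] [Finite S₂] (p : ℕ) [Fact p.Prime] (h₁ : IsPGroup p S₁) (h₂ : IsPGroup p S₂) (F₁ : Cfsg.FusionSystem S₁) (F₂ : Cfsg.FusionSystem S₂) : ∃ E : Cfsg.FusionSystem (S₁.prod S₂), Cfsg.FusionSystem.IsProductSystem F₁ F₂ E := by
  exact ⟨prodSys F₁ F₂, fun P φ => Iff.rfl⟩

end Cfsg.Agent.S5136
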