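import Cfsg.Statements.S5137
import Cfsg.Agent.Lib.Helper26.FusProd

set_option autoImplicit false
open Cfsg

namespace Cfsg.Agent.S5137

open Cfsg.Agent.Lib.Helper26 Cfsg.FusionSystem

/-- Let F₁ and F₂ be saturated fusion systems over finite p-groups S₁ and S₂. Then their direct product (the fusion system over S₁ × S₂ whose maps are the restrictions of the product maps (φ₁, φ₂)) is saturated. -/
theorem result {Ω₁ Ω₂ : Type*} [Group Ω₁] [Group Ω₂] {S₁ : Subgroup Ω₁} {S₂ : Subgroup Ω₂} [Finite S₁] [Finite S₂] (p : ℕ) [Fact p.Prime] (h₁ : IsPGroup p S₁) (h₂ : IsPGroup p S₂) (F₁ : Cfsg.FusionSystem S₁) (F₂ : Cfsg.FusionSystem S₂) (hF₁ : F₁.IsSaturated p) (hF₂ : F₂.IsSaturated p) (E : Cfsg.FusionSystem (S₁.prod S₂)) (hE : Cfsg.FusionSystem.IsProductSystem F₁ F₂ E) : E.IsSaturated p := by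
  intro P hP
  obtain ⟨Q₁, hc₁, ha₁, hr₁⟩ := hF₁ (P.map (MonoidHom.fst Ω₁ Ω₂)) (map_fst_le_of_le hP)
  obtain ⟨Q₂, hc₂, ha₂, hr₂⟩ := hF₂ (P.map (MonoidHom.snd Ω₁ Ω₂)) (map_snd_le_of_le hP)
  obtain ⟨φ₁, hφ₁, hrg₁⟩ := hc₁
  obtain ⟨φ₂, hφ₂, hrg₂⟩ := hc₂
  have hφ : pairHom (le_of_eq rfl) (le_of_eq rfl) φ₁ φ₂ ∈ E.Hom P :=
    (prod_hom_iff hE rfl rfl _).mpr ⟨hP, φ₁, hφ₁, φ₂, hφ₂, rfl⟩
  have hP'S : (pairHom (le_of_eq rfl) (le_of_eq rfl) φ₁ φ₂).range ≤ S₁.prod S₂ := by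
    rintro _ ⟨x, rfl⟩
    exact (E.le_of_mem hφ).2 x
  have hq₁ : (pairHom (le_of_eq rfl) (le_of_eq rfl) φ₁ φ₂).range.map (MonoidHom.fst Ω₁ Ω₂) = Q₁ := by
    rw [pairHom_range_fst rfl rfl, hrg₁]
  have hq₂ : (pairHom (le_of_eq rfl) (le_of_eq rfl) φ₁ φ₂).range.map (MonoidHom.snd Ω₁ Ω₂) = Q₂ := by
    rw [pairHom_range_snd rfl rfl, hrg₂]
  obtain ⟨P'', hconj, hq₁', hq₂', hmax⟩ := exists_conj_max hE hP'S hq₁ hq₂ ha₁ ha₂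
  have hP''S := isConj_le_right E hconj
  exact ⟨P'', isConj_trans E ⟨_, hφ, rfl⟩ hconj,
    prod_automized_of_max h₁ h₂ hE hP''S hq₁' hq₂' hmax,
    prod_receptive hE hP''S hq₁' hq₂' hr₁ hr₂⟩

end Cfsg.Agent.S5137
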