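import Cfsg.Statements.S5148
import Cfsg.Agent.Lib.Helper26.FusSolv
import Cfsg.Agent.Lib.Helper26.FusFactor3
import Cfsg.Agent.Lib.Helper27.FusAb

set_option autoImplicit false
open Cfsg

namespace Cfsg.Agent.S5148

open Cfsg.Agent.Lib.Helper26 Cfsg.FusionSystem

/-- A quasisimple fusion system over a finite p-group S (saturated, equal to its p-residual subsystem, with simple — in particular nontrivial — factor system modulo its centre) has S nonabelian. -/
theorem result {Ω : Type*} [Group Ω] {S : Subgroup Ω} [Finite S] (p : ℕ) [Fact p.Prime] (hS : IsPGroup p S) (F : Cfsg.FusionSystem S) (hq : F.Quasisimple p) : ¬ IsMulCommutative S := by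
  intro hab
  obtain ⟨hF, hhyp, hfac⟩ := hq
  have hcomm : ∀ a b : S, a * b = b * a := fun a b => hab.is_comm.comm a b
  have hZc : F.IsCentral F.center := isCentral_center F
  have hZn : F.IsNormal F.center := by
    refine ⟨hZc.1, fun P φ hφ => ?_⟩
    obtain ⟨ψ, hψ, hext, hfix⟩ := hZc.2 P φ hφ
    refine ⟨ψ, hψ, hext, ?_⟩
    ext y
    constructor
    · rintro ⟨w, hw, rfl⟩
      have e : w = Subgroup.inclusion le_sup_right ⟨(w : Ω), Subgroup.mem_subgroupOf.mp hw⟩ :=
        Subtype.ext rfl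
      rw [e, hfix]
      exact Subgroup.mem_subgroupOf.mp hw
    · intro hy
      exact ⟨Subgroup.inclusion le_sup_right ⟨y, hy⟩, Subgroup.mem_subgroupOf.mpr hy, hfix ⟨y, hy⟩⟩
  have hZsc := stronglyClosed_of_isNormal F hZn
  have hker : ∀ s : S, (QuotientGroup.mk' (F.center.subgroupOf S)) s = 1 ↔ (s : Ω) ∈ F.center :=
    fun s => by
      rw [QuotientGroup.mk'_apply, QuotientGroup.eq_one_iff]
      rfl
  have hrange : (QuotientGroup.mk' (F.center.subgroupOf S)).range = ⊤ :=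
    MonoidHom.range_eq_top.mpr (QuotientGroup.mk'_surjective _)
  have hEf := factorSystem_isFactorSystem F hZsc (QuotientGroup.mk' (F.center.subgroupOf S)) hker hrange
  obtain ⟨E, hE⟩ : ∃ E, E = factorSystem F hZsc (QuotientGroup.mk' (F.center.subgroupOf S)) hker hrange :=
    ⟨_, rfl⟩
  rw [← hE] at hEf
  obtain ⟨hEsat, hne, hall⟩ := hfac E hEf
  have hfinq : Finite ↥(⊤ : Subgroup (↥S ⧸ F.center.subgroupOf S)) := inferInstance
  have hqp : IsPGroup p ↥(⊤ : Subgroup (↥S ⧸ F.center.subgroupOf S)) :=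
    (hS.to_quotient (F.center.subgroupOf S)).to_subgroup ⊤
  have habq : ∀ x ∈ (⊤ : Subgroup (↥S ⧸ F.center.subgroupOf S)),
      ∀ y ∈ (⊤ : Subgroup (↥S ⧸ F.center.subgroupOf S)), x * y = y * x := by
    intro x _ y _
    obtain ⟨a, rfl⟩ := QuotientGroup.mk'_surjective _ x
    obtain ⟨b, rfl⟩ := QuotientGroup.mk'_surjective _ y
    rw [← map_mul, ← map_mul, hcomm]
  have hDsat := Cfsg.Agent.Lib.Helper27.inner_saturated (T := (⊤ : Subgroup (↥S ⧸ F.center.subgroupOf S))) p hqp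
  have hDid : ∀ (P : Subgroup (↥S ⧸ F.center.subgroupOf S)) (φ : P →* (↥S ⧸ F.center.subgroupOf S)),
      φ ∈ (innerFusionSystem (⊤ : Subgroup (↥S ⧸ F.center.subgroupOf S))).Hom P → ∀ x : P, φ x = x := by
    rintro P φ ⟨hP, g, hg, h⟩ x
    rw [h, habq g trivial x trivial, mul_inv_cancel_right]
  have hDn : (innerFusionSystem (⊤ : Subgroup (↥S ⧸ F.center.subgroupOf S))).IsNormalIn E p := by
    refine ⟨⟨hDsat, hEsat, inner_le E, ⟨le_rfl, fun R hR φ hφ x => (E.le_of_mem hφ).2 x⟩, ?_, ?_⟩, ?_⟩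
    · intro P hPT φ hφ α hα
      refine ⟨Subgroup.subtype _, id_mem _ le_top, fun x hφx hαx => ?_⟩
      exact congrArg (fun w => ((α w : ↥(⊤ : Subgroup (↥S ⧸ F.center.subgroupOf S))) :
        ↥S ⧸ F.center.subgroupOf S)) (Subtype.ext (hDid P φ hφ x).symm)
    · intro P hP φ hφ
      obtain ⟨α, hα, hαx⟩ := Cfsg.Agent.Lib.Helper27.abelian_extend p hqp E hEsat habq hφ
      refine ⟨α, hα, P.subtype, id_mem _ hP, fun x hx => ?_⟩
      exact (hαx x hx).symm
    · intro α hα
      refine ⟨1, one_mem _, fun x => ?_, fun c hc => ?_⟩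
      · have h1 := hDid ⊤ _ (autGroup_hom_mem _ le_rfl hα) x
        exact h1.symm
      · show (c : ↥S ⧸ F.center.subgroupOf S)⁻¹ * (c : ↥S ⧸ F.center.subgroupOf S) ∈ _
        rw [inv_mul_cancel]
        exact one_mem _
  rcases hall ⊤ _ hDn with h | ⟨-, hDE⟩
  · exact hne h
  have hEid : ∀ (P : Subgroup (↥S ⧸ F.center.subgroupOf S)) (φ : P →* (↥S ⧸ F.center.subgroupOf S)),
      φ ∈ E.Hom P → ∀ x : P, φ x = x := fun P φ hφ => hDid P φ (by rw [hDE P]; exact hφ)
  have hm := isMorphism_of_factor hS F hF hZsc (QuotientGroup.mk' (F.center.subgroupOf S)) E hEf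
  have hpow : ∀ (P : Subgroup Ω), P ≤ S → ∀ α ∈ F.autGroup P, α ^ (Nat.card S) = 1 := by
    intro P hP α hα
    have hφ := autGroup_hom_mem F hP hα
    have hz : ∀ x : P, (x : Ω)⁻¹ * ((α x : P) : Ω) ∈ F.center := by
      intro x
      obtain ⟨φ', hφ', hPS, hφS, hmem, hind⟩ := hm.2 P _ hφ
      have h1 := hind x
      rw [hEid _ φ' hφ'] at h1
      exact mem_of_theta_eq _ hker h1
    have hfixz : ∀ x : P, (x : Ω) ∈ F.center → α x = x := by
      intro x hx
      obtain ⟨ψ, hψ, hext, hfix⟩ := hZc.2 P _ hφ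
      have h1 := hext x
      have e : Subgroup.inclusion (le_sup_left : P ≤ P ⊔ F.center) x =
          Subgroup.inclusion le_sup_right ⟨(x : Ω), hx⟩ := Subtype.ext rfl
      rw [e, hfix] at h1
      exact Subtype.ext h1.symm
    have hk : ∀ (k : ℕ) (x : P), (α ^ k) x = x * (x⁻¹ * α x) ^ k := by
      intro k
      induction k with
      | zero => intro x; simp
      | succ k ih =>
        intro x
        rw [pow_succ' α k, MulAut.mul_apply, ih, map_mul, map_pow, hfixz (x⁻¹ * α x) (hz x),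
          pow_succ' (x⁻¹ * α x) k, ← mul_assoc x, mul_inv_cancel_left]
    ext x
    rw [hk]
    have h1 : (⟨((x⁻¹ * α x : P) : Ω), hP (x⁻¹ * α x).2⟩ : S) ^ Nat.card S = 1 := pow_card_eq_one'
    have h2 : (x⁻¹ * α x) ^ Nat.card S = 1 := by
      apply Subtype.ext
      have h3 : ((x⁻¹ * α x : P) : Ω) ^ Nat.card S = 1 := congrArg (fun w : ↥S => (w : Ω)) h1
      exact h3
    rw [h2, mul_one]
    rfl
  have hres : ∀ (P : Subgroup Ω), P ≤ S → ∀ α : ↥(F.autGroup P),
      α ∈ pResidual p ↥(F.autGroup P) → α = 1 := by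
    intro P hP α hα
    refine Subgroup.closure_induction (p := fun (α : ↥(F.autGroup P)) _ => α = 1) ?_ rfl ?_ ?_ hα
    · intro α hcop
      have hcop' : Nat.Coprime (orderOf α) p := hcop
      have h1 : α ^ Nat.card S = 1 := by
        apply Subtype.ext
        rw [Subgroup.coe_pow]
        exact hpow P hP α α.2
      have h2 : orderOf α ∣ Nat.card S := orderOf_dvd_of_pow_eq_one h1
      obtain ⟨n, hn⟩ := IsPGroup.iff_card.mp hS
      rw [hn] at h2
      have h3 : orderOf α = 1 := Nat.Coprime.eq_one_of_dvd (Nat.Coprime.pow_right n hcop') h2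
      exact orderOf_eq_one_iff.mp h3
    · intro a b _ _ ha hb
      rw [ha, hb, mul_one]
    · intro a _ ha
      rw [ha, inv_one]
  have hhyp' : F.hyperfocalSubgroup p = ⊥ := by
    rw [eq_bot_iff]
    show Subgroup.closure _ ≤ ⊥
    rw [Subgroup.closure_le]
    rintro y ⟨P, α, x, hP, hα, rfl⟩
    rw [hres P hP α hα]
    show (x : Ω)⁻¹ * (x : Ω) ∈ _
    rw [inv_mul_cancel]
    exact Subgroup.one_mem _
  have hSbot : S = ⊥ := hhyp ▸ hhyp'
  apply hne
  rw [eq_bot_iff]
  intro y _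
  obtain ⟨s, rfl⟩ := QuotientGroup.mk'_surjective _ y
  have hs : (s : Ω) ∈ (⊥ : Subgroup Ω) := hSbot.le s.2
  have hs1 : s = 1 := Subtype.ext (Subgroup.mem_bot.mp hs)
  rw [hs1, map_one]
  exact Subgroup.one_mem _

end Cfsg.Agent.S5148
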