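import Cfsg.Statements.S5153
import Cfsg.Agent.Lib.Helper26.FusSub

set_option autoImplicit false
open Cfsg

namespace Cfsg.Agent.S5153

open Cfsg.Agent.Lib.Helper26 Cfsg.FusionSystem

theorem fullyNormalized_of_stronglyClosed {Ω : Type*} [Group Ω] {S : Subgroup Ω} [Finite S] {p : ℕ}
    [Fact p.Prime] (hS : IsPGroup p S) (F : FusionSystem S) (hF : F.IsSaturated p) {U : Subgroup Ω}
    (D : FusionSystem U) (hD : D.IsSubsystemOf F) (hU : F.StronglyClosed U) {P : Subgroup Ω}
    (hPU : P ≤ U) (hP : F.IsFullyNormalized P) : D.IsFullyNormalized P := by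
  refine ⟨hPU, fun Q hQ => ?_⟩
  obtain ⟨φ₀, hφ₀, hr⟩ := hQ
  have hFc : F.IsConj Q P := isConj_symm F ⟨φ₀, hD _ hφ₀, hr⟩
  obtain ⟨hPc, hPa⟩ := fullyNormalized_props hS F hF hP
  have hPr := fullyCentralized_receptive hS F hF hPc
  obtain ⟨e, φ, he, hφ, hφe⟩ := exists_normalizer_map hS F hPa hPr hFc
  have hle : normalizerIn U Q ≤ normalizerIn S Q := inf_le_inf_right _ hU.1
  have hmem : ∀ x : ↥(normalizerIn U Q),
      ((φ (Subgroup.inclusion hle x) : ↥(normalizerIn S P)) : Ω) ∈ normalizerIn U P := by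
    intro x
    refine ⟨?_, (φ (Subgroup.inclusion hle x)).2.2⟩
    have h1 := restrict_mem F hφ hle
    exact hU.2 _ inf_le_left _ h1 x
  have hfin : Finite ↥(normalizerIn U P) :=
    finite_of_le ((inf_le_left : normalizerIn U P ≤ U).trans hU.1)
  refine Nat.card_le_card_of_injective (fun x => (⟨_, hmem x⟩ : ↥(normalizerIn U P))) ?_
  intro a b hab
  have h1 : ((φ (Subgroup.inclusion hle a) : ↥(normalizerIn S P)) : Ω) =
      φ (Subgroup.inclusion hle b) := congrArg (fun z : ↥(normalizerIn U P) => (z : Ω)) hab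
  have h2 := homTo_injective F hφ (Subtype.ext h1)
  exact Subgroup.inclusion_injective hle h2

theorem subnormal_aux {Ω : Type*} [Group Ω] {T : Subgroup Ω} (E : FusionSystem T) {S : Subgroup Ω}
    (F : FusionSystem S) (p : ℕ) (hE : E.IsSubnormalIn F p) :
    T ≤ S ∧ (∀ [Finite S] [Fact p.Prime], IsPGroup p S → F.IsSaturated p →
      ∀ P ≤ T, F.IsFullyNormalized P → E.IsFullyNormalized P) := by
  induction hE with
  | refl F p => exact ⟨le_rfl, fun _ _ _ _ h => h⟩
  | step hED hDF ih =>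
    rename_i T U S E D F p
    obtain ⟨hTU, ih⟩ := ih
    have hUS : U ≤ S := hDF.1.2.2.2.1.1
    refine ⟨hTU.trans hUS, ?_⟩
    intro _ _ hS hF P hPT hP
    have : Finite U := finite_of_le hUS
    exact ih (hS.to_le hUS) hDF.1.1 P hPT
      (fullyNormalized_of_stronglyClosed hS F hF D hDF.1.2.2.1 hDF.1.2.2.2.1 (hPT.trans hTU) hP)

/-- Let F be a saturated fusion system over a finite p-group S and E a subnormal subsystem of F over T. Then every subgroup of T that is fully normalized in F is fully normalized in E. -/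
theorem result {Ω : Type*} [Group Ω] {S : Subgroup Ω} [Finite S] (p : ℕ) [Fact p.Prime] (hS : IsPGroup p S) (F : Cfsg.FusionSystem S) (hF : F.IsSaturated p) {T : Subgroup Ω} (E : Cfsg.FusionSystem T) (hE : E.IsSubnormalIn F p) (P : Subgroup Ω) (hPT : P ≤ T) (hP : F.IsFullyNormalized P) : E.IsFullyNormalized P := by
  exact (subnormal_aux E F p hE).2 hS hF P hPT hP

end Cfsg.Agent.S5153
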