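import Cfsg.Statements.S5198
import Cfsg.Agent.Lib.Helper26.FusSub

set_option autoImplicit false
open Cfsg

namespace Cfsg.Agent.S5198

open Cfsg.Agent.Lib.Helper26 Cfsg.FusionSystem

theorem key_gen {Ω : Type*} [Group Ω] {S : Subgroup Ω} [Finite S] {p : ℕ} [Fact p.Prime]
    (hS : IsPGroup p S) (F : FusionSystem S) (hF : F.IsSaturated p) {T : Subgroup Ω}
    (hT : F.StronglyClosed T) {P : Subgroup Ω} (hP : P ≤ S) (α : ↥(F.autGroup P))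
    (hα : Nat.Coprime (orderOf α) p) (x : P) :
    ∃ μ ∈ ((pResidual p ↥(F.autGroup T)).map (F.autGroup T).subtype ⊔ Inn ↥T :
        Subgroup (MulAut ↥T)),
      ∀ t : ↥T, ((μ t : ↥T) : Ω) = ((x : Ω)⁻¹ * (((α : MulAut P) x : P) : Ω)) * (t : Ω) *
        ((x : Ω)⁻¹ * (((α : MulAut P) x : P) : Ω))⁻¹ := by
  have hTS : T ≤ S := hT.1
  have hPTS : P ⊔ T ≤ S := sup_le hP hTS
  have hfinT : Finite ↥T := finite_of_le hTS
  have hfinP : Finite ↥P := finite_of_le hP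
  have hfinPT : Finite ↥(P ⊔ T) := finite_of_le hPTS
  have hφ := autGroup_hom_mem F hP α.2
  obtain ⟨ψ, hψ, hψφ⟩ := tExt_all hS F hF hT P _ hφ
  have hψT : ∀ t : ↥T, ψ (Subgroup.inclusion le_sup_right t) ∈ T := fun t =>
    hT.2 T le_rfl _ (restrict_mem F hψ le_sup_right) t
  have hψP : ∀ y : ↥P, ψ (Subgroup.inclusion le_sup_left y) ∈ P ⊔ T := by
    intro y
    have h1 : ψ (Subgroup.inclusion le_sup_left y) = (((α : MulAut P) y : P) : Ω) *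
        ((((α : MulAut P) y : P) : Ω)⁻¹ * ψ (Subgroup.inclusion le_sup_left y)) := by group
    rw [h1]
    exact Subgroup.mul_mem_sup (Subtype.property _) (hψφ y)
  have hψPT : ∀ z : ↥(P ⊔ T), ψ z ∈ P ⊔ T :=
    forall_sup_mem ψ hψP (fun t => (le_sup_right : T ≤ P ⊔ T) (hψT t))
  have hr : ψ.range = P ⊔ T := by
    have hle : ψ.range ≤ P ⊔ T := by
      rintro _ ⟨z, rfl⟩
      exact hψPT z
    apply Subgroup.eq_of_le_of_card_ge hle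
    rw [Nat.card_congr (MonoidHom.ofInjective (F.injective_of_mem hψ)).toEquiv]
  obtain ⟨ψh, -, hψh⟩ := exists_iso_of_mem F hψ hr
  have hψ2 := restrict_mem F hψ (le_sup_right : T ≤ P ⊔ T)
  have hr2 : (ψ.comp (Subgroup.inclusion (le_sup_right : T ≤ P ⊔ T))).range = T := by
    have hle : (ψ.comp (Subgroup.inclusion (le_sup_right : T ≤ P ⊔ T))).range ≤ T := by
      rintro _ ⟨z, rfl⟩
      exact hψT z
    apply Subgroup.eq_of_le_of_card_ge hle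
    rw [Nat.card_congr (MonoidHom.ofInjective (F.injective_of_mem hψ2)).toEquiv]
  obtain ⟨β₀, hβ₀, hβ₀ψ⟩ := exists_iso_of_mem F hψ2 hr2
  have hβ₀A : β₀ ∈ F.autGroup T := (mem_autGroup_iff F hTS).mpr hβ₀
  have hres : ∀ t : ↥T, ψh ⟨t, (le_sup_right : T ≤ P ⊔ T) t.2⟩ =
      ⟨(β₀ t : ↥T), (le_sup_right : T ≤ P ⊔ T) (β₀ t).2⟩ := by
    intro t
    apply Subtype.ext
    rw [hψh]
    exact (hβ₀ψ t).symm
  have hpowT : ∀ (j : ℕ) (t : ↥T), (ψh ^ j) ⟨t, (le_sup_right : T ≤ P ⊔ T) t.2⟩ =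
      ⟨((β₀ ^ j) t : ↥T), (le_sup_right : T ≤ P ⊔ T) ((β₀ ^ j) t).2⟩ :=
    fun j t => pow_restrict le_sup_right β₀ ψh hres j t
  have hpowP : ∀ (j : ℕ) (y : ↥P), (((((α : MulAut P) ^ j) y : P) : Ω))⁻¹ *
      (((ψh ^ j) (Subgroup.inclusion le_sup_left y) : ↥(P ⊔ T)) : Ω) ∈ T := by
    intro j
    induction j with
    | zero =>
      intro y
      have h1 : (((((α : MulAut P) ^ 0) y : P) : Ω))⁻¹ *
          (((ψh ^ 0) (Subgroup.inclusion le_sup_left y) : ↥(P ⊔ T)) : Ω) = 1 := by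
        rw [pow_zero, pow_zero]
        show ((y : P) : Ω)⁻¹ * (y : Ω) = 1
        group
      rw [h1]
      exact T.one_mem
    | succ j ih =>
      intro y
      have hτ := hψφ y
      have e1 : ψh (Subgroup.inclusion le_sup_left y) =
          Subgroup.inclusion le_sup_left ((α : MulAut P) y) *
            (⟨_, (le_sup_right : T ≤ P ⊔ T) hτ⟩ : ↥(P ⊔ T)) := by
        apply Subtype.ext
        rw [hψh]
        show ψ (Subgroup.inclusion le_sup_left y) = (((α : MulAut P) y : P) : Ω) *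
          ((((α : MulAut P) y : P) : Ω)⁻¹ * ψ (Subgroup.inclusion le_sup_left y))
        group
      have e2 : (((((α : MulAut P) ^ (j + 1)) y : P) : Ω))⁻¹ *
          (((ψh ^ (j + 1)) (Subgroup.inclusion le_sup_left y) : ↥(P ⊔ T)) : Ω) =
          ((((((α : MulAut P) ^ j) ((α : MulAut P) y) : P) : Ω))⁻¹ *
            (((ψh ^ j) (Subgroup.inclusion le_sup_left ((α : MulAut P) y)) : ↥(P ⊔ T)) : Ω)) *
          ((((β₀ ^ j) ⟨_, hτ⟩ : ↥T)) : Ω) := by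
        rw [pow_succ, pow_succ, MulAut.mul_apply, MulAut.mul_apply, e1, map_mul, hpowT j ⟨_, hτ⟩]
        show _ * (_ * _) = _
        rw [mul_assoc]
      rw [e2]
      exact T.mul_mem (ih _) (Subtype.property _)
  -- the power
  obtain ⟨a, ha⟩ := exists_pow_mem_pResidual' (p := p) (⟨β₀, hβ₀A⟩ : ↥(F.autGroup T))
  have hn0 : 0 < orderOf α := orderOf_pos α
  have hφn : 0 < Nat.totient (orderOf α) := Nat.totient_pos.mpr hn0
  have hmod : (p ^ a) ^ Nat.totient (orderOf α) ≡ 1 [MOD orderOf α] :=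
    Nat.ModEq.pow_totient (Nat.Coprime.pow_left a hα.symm)
  have hαk : α ^ ((p ^ a) ^ Nat.totient (orderOf α)) = α := by
    have h1 := pow_eq_pow_iff_modEq.mpr hmod
    rw [h1, pow_one]
  have hαk' : (α : MulAut P) ^ ((p ^ a) ^ Nat.totient (orderOf α)) = (α : MulAut P) := by
    have h1 := congrArg (fun z : ↥(F.autGroup P) => (z : MulAut P)) hαk
    simpa using h1
  have hβk : (⟨β₀, hβ₀A⟩ : ↥(F.autGroup T)) ^ ((p ^ a) ^ Nat.totient (orderOf α)) ∈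
      pResidual p ↥(F.autGroup T) := by
    have h1 : (p ^ a) ^ Nat.totient (orderOf α) = p ^ a * (p ^ a) ^ (Nat.totient (orderOf α) - 1) := by
      rw [← pow_succ', Nat.sub_add_cancel hφn]
    rw [h1, pow_mul]
    exact Subgroup.pow_mem _ ha _
  obtain ⟨k, hk⟩ : ∃ k : ℕ, k = (p ^ a) ^ Nat.totient (orderOf α) := ⟨_, rfl⟩
  rw [← hk] at hαk' hβk
  have hτ : (((α : MulAut P) x : P) : Ω)⁻¹ *
      (((ψh ^ k) (Subgroup.inclusion le_sup_left x) : ↥(P ⊔ T)) : Ω) ∈ T := by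
    have h1 := hpowP k x
    rwa [hαk'] at h1
  have hxN : (x : Ω) ∈ Subgroup.normalizer (T : Set Ω) := stronglyClosed_le_normalizer F hT (hP x.2)
  have hγA : T.normalizerMonoidHom ⟨x, hxN⟩ ∈ F.autGroup T :=
    autInducedBy_le_autGroup F hTS (conj_mem_autInducedBy (hP x.2) hxN)
  have hnorm := pResidual_normal' ↥(F.autGroup T) p
  have hmem : (⟨T.normalizerMonoidHom ⟨x, hxN⟩, hγA⟩ : ↥(F.autGroup T))⁻¹ *
      (⟨β₀, hβ₀A⟩ : ↥(F.autGroup T)) ^ k * (⟨T.normalizerMonoidHom ⟨x, hxN⟩, hγA⟩ : ↥(F.autGroup T)) *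
      ((⟨β₀, hβ₀A⟩ : ↥(F.autGroup T)) ^ k)⁻¹ ∈ pResidual p ↥(F.autGroup T) := by
    have h1 := hnorm.conj_mem _ hβk (⟨T.normalizerMonoidHom ⟨x, hxN⟩, hγA⟩ : ↥(F.autGroup T))⁻¹
    rw [inv_inv] at h1
    exact Subgroup.mul_mem _ h1 (Subgroup.inv_mem _ hβk)
  refine ⟨(T.normalizerMonoidHom ⟨x, hxN⟩)⁻¹ * β₀ ^ k * T.normalizerMonoidHom ⟨x, hxN⟩ * (β₀ ^ k)⁻¹ *
    MulAut.conj (⟨_, hτ⟩ : ↥T)⁻¹, Subgroup.mul_mem_sup ⟨_, hmem, rfl⟩ ⟨_, rfl⟩, fun t => ?_⟩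
  -- evaluation
  have hγinv : ∀ s : ↥T, ((((T.normalizerMonoidHom ⟨x, hxN⟩)⁻¹ s : ↥T)) : Ω) = (x : Ω)⁻¹ * s * x := by
    intro s
    have h1 : (T.normalizerMonoidHom ⟨x, hxN⟩)⁻¹ = T.normalizerMonoidHom (⟨x, hxN⟩)⁻¹ := (map_inv _ _).symm
    rw [h1, normalizerMonoidHom_coe]
    show (x : Ω)⁻¹ * s * (x : Ω)⁻¹⁻¹ = _
    rw [inv_inv]
  obtain ⟨s, hs⟩ : ∃ s : ↥T, s = (β₀ ^ k)⁻¹ (MulAut.conj (⟨_, hτ⟩ : ↥T)⁻¹ t) := ⟨_, rfl⟩
  have hs1 : (β₀ ^ k) s = MulAut.conj (⟨_, hτ⟩ : ↥T)⁻¹ t := by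
    rw [hs, MulAut.apply_inv_self]
  have hs2 : (((ψh ^ k) ⟨s, (le_sup_right : T ≤ P ⊔ T) s.2⟩ : ↥(P ⊔ T)) : Ω) =
      ((((α : MulAut P) x : P) : Ω)⁻¹ *
      (((ψh ^ k) (Subgroup.inclusion le_sup_left x) : ↥(P ⊔ T)) : Ω))⁻¹ * (t : Ω) *
      ((((α : MulAut P) x : P) : Ω)⁻¹ *
      (((ψh ^ k) (Subgroup.inclusion le_sup_left x) : ↥(P ⊔ T)) : Ω)) := by
    rw [hpowT k s, hs1]
    show ((MulAut.conj (⟨_, hτ⟩ : ↥T)⁻¹ t : ↥T) : Ω) = _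
    rw [MulAut.conj_apply]
    show (_)⁻¹ * (t : Ω) * (_)⁻¹⁻¹ = _
    rw [inv_inv]
  have e3 : (⟨((T.normalizerMonoidHom ⟨x, hxN⟩ s : ↥T) : Ω),
      (le_sup_right : T ≤ P ⊔ T) (T.normalizerMonoidHom ⟨x, hxN⟩ s).2⟩ : ↥(P ⊔ T)) =
      Subgroup.inclusion le_sup_left x * ⟨s, (le_sup_right : T ≤ P ⊔ T) s.2⟩ *
        (Subgroup.inclusion le_sup_left x)⁻¹ := Subtype.ext rfl
  have hmain : ((((T.normalizerMonoidHom ⟨x, hxN⟩)⁻¹ * β₀ ^ k * T.normalizerMonoidHom ⟨x, hxN⟩ *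
      (β₀ ^ k)⁻¹ * MulAut.conj (⟨_, hτ⟩ : ↥T)⁻¹) t : ↥T) : Ω) =
      (x : Ω)⁻¹ * (((ψh ^ k) (Subgroup.inclusion le_sup_left x) : ↥(P ⊔ T)) : Ω) *
        (((ψh ^ k) ⟨s, (le_sup_right : T ≤ P ⊔ T) s.2⟩ : ↥(P ⊔ T)) : Ω) *
        (((ψh ^ k) (Subgroup.inclusion le_sup_left x) : ↥(P ⊔ T)) : Ω)⁻¹ * x := by
    rw [MulAut.mul_apply, MulAut.mul_apply, MulAut.mul_apply, MulAut.mul_apply, ← hs, hγinv]
    have h1 := congrArg (fun z : ↥(P ⊔ T) => (z : Ω)) (hpowT k (T.normalizerMonoidHom ⟨x, hxN⟩ s))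
    have h2 : ((β₀ ^ k) (T.normalizerMonoidHom ⟨x, hxN⟩ s) : Ω) =
        (((ψh ^ k) (Subgroup.inclusion le_sup_left x) : ↥(P ⊔ T)) : Ω) *
        (((ψh ^ k) ⟨s, (le_sup_right : T ≤ P ⊔ T) s.2⟩ : ↥(P ⊔ T)) : Ω) *
        (((ψh ^ k) (Subgroup.inclusion le_sup_left x) : ↥(P ⊔ T)) : Ω)⁻¹ := by
      rw [← h1, e3, map_mul, map_mul, map_inv]
      rfl
    rw [h2]
    group
  rw [hmain, hs2]
  group

/-- Let F be a saturated fusion system over a finite p-group S and T a subgroup of S strongly closed in F (so T is normal in S). Then every element x of the hyperfocal subgroup of F acts on T by conjugation as an element of O^p(Aut_F(T))·Inn(T): there is an automorphism of T in the subgroup generated by the elements of Aut_F(T) of order prime to p together with the inner automorphisms of T that agrees with conjugation by x. -/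
theorem result {Ω : Type*} [Group Ω] {S : Subgroup Ω} [Finite S] (p : ℕ) [Fact p.Prime] (hS : IsPGroup p S) (F : Cfsg.FusionSystem S) (hF : F.IsSaturated p) (T : Subgroup Ω) (hT : F.StronglyClosed T) : ∀ x ∈ F.hyperfocalSubgroup p, ∃ α ∈ ((Cfsg.pResidual p ↥(F.autGroup T)).map (F.autGroup T).subtype ⊔ Cfsg.Inn ↥T : Subgroup (MulAut ↥T)), ∀ t : ↥T, ((α t : ↥T) : Ω) = x * (t : Ω) * x⁻¹ := by
  intro x hx
  refine Subgroup.closure_induction (p := fun y _ => ∃ μ ∈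
    ((pResidual p ↥(F.autGroup T)).map (F.autGroup T).subtype ⊔ Inn ↥T : Subgroup (MulAut ↥T)),
      ∀ t : ↥T, ((μ t : ↥T) : Ω) = y * (t : Ω) * y⁻¹) ?_ ?_ ?_ ?_ hx
  · rintro y ⟨P, α, x, hP, hα, rfl⟩
    have key : ∀ α ∈ pResidual p ↥(F.autGroup P), ∀ x : P, ∃ μ ∈
        ((pResidual p ↥(F.autGroup T)).map (F.autGroup T).subtype ⊔ Inn ↥T : Subgroup (MulAut ↥T)),
        ∀ t : ↥T, ((μ t : ↥T) : Ω) = ((x : Ω)⁻¹ * (((α : MulAut P) x : P) : Ω)) * (t : Ω) *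
          ((x : Ω)⁻¹ * (((α : MulAut P) x : P) : Ω))⁻¹ := by
      intro α hα
      refine Subgroup.closure_induction (p := fun (α : ↥(F.autGroup P)) _ => ∀ x : P, ∃ μ ∈
        ((pResidual p ↥(F.autGroup T)).map (F.autGroup T).subtype ⊔ Inn ↥T : Subgroup (MulAut ↥T)),
        ∀ t : ↥T, ((μ t : ↥T) : Ω) = ((x : Ω)⁻¹ * (((α : MulAut P) x : P) : Ω)) * (t : Ω) *
          ((x : Ω)⁻¹ * (((α : MulAut P) x : P) : Ω))⁻¹) ?_ ?_ ?_ ?_ hα
      · intro α hα x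
        exact key_gen hS F hF hT hP α hα x
      · intro x
        refine ⟨1, one_mem _, fun t => ?_⟩
        show (t : Ω) = ((x : Ω)⁻¹ * (x : Ω)) * (t : Ω) * ((x : Ω)⁻¹ * (x : Ω))⁻¹
        group
      · intro α₁ α₂ _ _ h₁ h₂ x
        obtain ⟨μ₂, hμ₂, h₂'⟩ := h₂ x
        obtain ⟨μ₁, hμ₁, h₁'⟩ := h₁ ((α₂ : MulAut P) x)
        refine ⟨μ₂ * μ₁, mul_mem hμ₂ hμ₁, fun t => ?_⟩
        rw [MulAut.mul_apply, h₂', h₁']
        show _ = ((x : Ω)⁻¹ * ((((α₁ : MulAut P) * (α₂ : MulAut P)) x : P) : Ω)) * (t : Ω) *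
          ((x : Ω)⁻¹ * ((((α₁ : MulAut P) * (α₂ : MulAut P)) x : P) : Ω))⁻¹
        rw [MulAut.mul_apply]
        group
      · intro α _ h x
        obtain ⟨μ, hμ, h'⟩ := h (((α : MulAut P)⁻¹) x)
        refine ⟨μ⁻¹, inv_mem hμ, fun t => ?_⟩
        have h1 := h' (μ⁻¹ t)
        rw [MulAut.apply_inv_self, MulAut.apply_inv_self] at h1
        show _ = ((x : Ω)⁻¹ * ((((α : MulAut P)⁻¹) x : P) : Ω)) * (t : Ω) *
          ((x : Ω)⁻¹ * ((((α : MulAut P)⁻¹) x : P) : Ω))⁻¹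
        rw [h1]
        group
    exact key α hα x
  · refine ⟨1, one_mem _, fun t => ?_⟩
    show (t : Ω) = 1 * (t : Ω) * 1⁻¹
    group
  · rintro y z _ _ ⟨μ₁, hμ₁, h₁⟩ ⟨μ₂, hμ₂, h₂⟩
    refine ⟨μ₁ * μ₂, mul_mem hμ₁ hμ₂, fun t => ?_⟩
    rw [MulAut.mul_apply, h₁, h₂]
    group
  · rintro y _ ⟨μ, hμ, h⟩
    refine ⟨μ⁻¹, inv_mem hμ, fun t => ?_⟩
    have h1 := h (μ⁻¹ t)
    rw [MulAut.apply_inv_self] at h1
    rw [h1]
    group

end Cfsg.Agent.S5198
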