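import Cfsg.Statements.S5199
import Cfsg.Agent.Lib.Helper26.FusHyp

set_option autoImplicit false
open Cfsg

namespace Cfsg.Agent.S5199

open Cfsg.Agent.Lib.Helper26 Cfsg.FusionSystem

/-- Let F be a saturated fusion system over a finite p-group S, E a normal subsystem of F over T, and F₀ a normal subsystem of F over a subgroup U containing both T and the hyperfocal subgroup of F, such that F₀ has p-power index in F. Then E is a subsystem of F₀. -/
theorem result {Ω : Type*} [Group Ω] {S : Subgroup Ω} [Finite S] (p : ℕ) [Fact p.Prime] (hS : IsPGroup p S) (F : Cfsg.FusionSystem S) (hF : F.IsSaturated p) {T U : Subgroup Ω} (E : Cfsg.FusionSystem T) (hE : E.IsNormalIn F p) (F₀ : Cfsg.FusionSystem U) (hF₀ : F₀.IsNormalIn F p) (hU : T ⊔ F.hyperfocalSubgroup p ≤ U) (hidx : F₀.HasPPowerIndexIn F p) : E.IsSubsystemOf F₀ := by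
  have hTS : T ≤ S := hE.1.2.2.2.1.1
  have hTU : T ≤ U := le_sup_left.trans hU
  have hfinT : Finite ↥T := finite_of_le hTS
  have hTp : IsPGroup p ↥T := hS.to_le hTS
  have hEsat : E.IsSaturated p := hE.1.1
  have hEF : E.IsSubsystemOf F := hE.1.2.2.1
  intro P φ hφ
  refine alperin_induction hTp E hEsat (fun P φ => φ ∈ F₀.Hom P) ?_ ?_ ?_ ?_ P φ hφ
  · intro P g hP hg
    exact F₀.conj_mem (hP.trans hTU) (hTU hg)
  · intro P Q φ ψ _ _ h₁ h₂ h
    exact F₀.comp_mem h₁ h₂ h
  · intro P φ _ h₁ ψ _ hψ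
    obtain ⟨ψ', hψ', hψ'φ⟩ := F₀.inv_mem h₁
    have e : ψ = ψ' := by
      ext ⟨y, x, rfl⟩
      rw [hψ, hψ'φ]
    rw [e]
    exact hψ'
  · intro R hR α hα
    have hRT : R ≤ T := by
      rcases hR with h | h
      · exact h.le
      · exact h.1.1
    have hRU : R ≤ U := hRT.trans hTU
    have hfa := fullyAutomized_of_alperin hTp E hEsat hR
    obtain ⟨β, t, s, hβ, hs, ht, hαβ⟩ := autGroup_decomp E hfa α hα
    have hle : E.autGroup R ≤ F.autGroup R := by
      apply Subgroup.closure_mono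
      intro γ hγ
      exact hEF R hγ
    have h1 := pResidual_transport (p := p) (MonoidHom.id (MulAut R)) (fun _ _ h => h)
      (E.autGroup R) (F.autGroup R) (fun a ha => hle ha) β hβ
    have h2 : ((β : ↥(E.autGroup R)) : MulAut R) ∈ F₀.autGroup R :=
      hidx.2.2 R hRU ⟨_, h1, rfl⟩
    have h3 : t ∈ F₀.autGroup R :=
      autInducedBy_le_autGroup F₀ hRU (mem_autInducedBy_iff.mpr ⟨s, hTU hs, ht⟩)
    have h4 : α = ((β : ↥(E.autGroup R)) : MulAut R) * t := by
      ext x
      rw [hαβ, MulAut.mul_apply]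
    rw [h4]
    exact autGroup_hom_mem F₀ hRU (mul_mem h2 h3)

end Cfsg.Agent.S5199
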