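import Cfsg.Statements.S5222
import Cfsg.Agent.Lib.Helper26.FusTate
import Cfsg.Agent.S5096

set_option autoImplicit false
open Cfsg

namespace Cfsg.Agent.S5222

open Cfsg.Agent.Lib.Helper26 Cfsg.FusionSystem

/-- Let F be a saturated fusion system over a finite p-group S whose normalizer fusion system of S is the inner fusion system of S (Aut_F(S) is a p-group). Then for every subgroup Q of S with [S, S] ≤ Q ≤ Φ(S), the normalizer fusion system of Q in F is the inner fusion system of N_S(Q) = S. -/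
theorem result {Ω : Type*} [Group Ω] {S : Subgroup Ω} [Finite S] (p : ℕ) [Fact p.Prime] (hS : IsPGroup p S) (F : Cfsg.FusionSystem S) (hF : F.IsSaturated p) (hN : ∀ N : Cfsg.FusionSystem (Cfsg.FusionSystem.normalizerIn S S), F.IsNormalizerSystem S N → ∀ P : Subgroup Ω, N.Hom P = (Cfsg.innerFusionSystem (Cfsg.FusionSystem.normalizerIn S S)).Hom P) (Q : Subgroup Ω) (h1 : (commutator ↥S).map S.subtype ≤ Q) (h2 : Q ≤ (frattini ↥S).map S.subtype) : ∀ N : Cfsg.FusionSystem (Cfsg.FusionSystem.normalizerIn S Q), F.IsNormalizerSystem Q N → ∀ P : Subgroup Ω, N.Hom P = (Cfsg.innerFusionSystem (Cfsg.FusionSystem.normalizerIn S Q)).Hom P := by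
  intro N hNsys
  have hQS : Q ≤ S := by
    intro q hq
    obtain ⟨x, -, rfl⟩ := h2 hq
    exact x.2
  have hcommS : ∀ x ∈ S, ∀ y ∈ S, x * y * x⁻¹ * y⁻¹ ∈ Q := by
    intro x hx y hy
    apply h1
    have h3 : (⟨x, hx⟩ : S) * ⟨y, hy⟩ * (⟨x, hx⟩ : S)⁻¹ * (⟨y, hy⟩ : S)⁻¹ ∈ commutator ↥S :=
      Subgroup.commutator_mem_commutator (Subgroup.mem_top _) (Subgroup.mem_top _)
    exact ⟨_, h3, rfl⟩
  have hfinQ : Finite Q := finite_of_le hQS
  have hSn : S ≤ Subgroup.normalizer (Q : Set Ω) := by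
    intro s hs
    apply mem_normalizer_of_conj_mem
    intro q hq
    have h3 := hcommS s hs q (hQS hq)
    have h4 : s * q * s⁻¹ = (s * q * s⁻¹ * q⁻¹) * q := by group
    rw [h4]
    exact Q.mul_mem h3 hq
  have hT : normalizerIn S Q = S := le_antisymm (normalizerIn_le S Q) (le_inf le_rfl hSn)
  have hfinT : Finite (normalizerIn S Q) := finite_of_le (normalizerIn_le S Q)
  have hTp : IsPGroup p (normalizerIn S Q) := hS.to_le (normalizerIn_le S Q)
  have hQfn : F.IsFullyNormalized Q := by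
    refine ⟨hQS, fun Q' _ => ?_⟩
    rw [hT]
    exact Subgroup.card_le_of_le (normalizerIn_le S Q')
  have hNsat := normalizerSystem_saturated hS F hF hQfn N hNsys
  have hQn := normalizerSystem_isNormal F hQS N hNsys
  apply tate_fusion hTp N hNsat hQn
  · intro φ hφ
    rw [hNsys] at hφ
    obtain ⟨φ', hφ', hφ'e⟩ := hom_cast F hT hφ.1
    have hrange : φ'.range = S := by
      apply le_antisymm
      · rintro _ ⟨x, rfl⟩
        exact (F.le_of_mem hφ').2 x
      · intro y hy
        have hinj : Function.Injective (fun x : S => (⟨φ' x, (F.le_of_mem hφ').2 x⟩ : S)) :=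
          fun a b hab => F.injective_of_mem hφ' (congrArg Subtype.val hab)
        obtain ⟨x, hx⟩ := (Finite.injective_iff_surjective.mp hinj) ⟨y, hy⟩
        exact ⟨x, congrArg Subtype.val hx⟩
    obtain ⟨e, he, hex⟩ := exists_iso_of_mem F hφ' hrange
    have heA : e ∈ F.autGroup S := (mem_autGroup_iff F le_rfl).mpr he
    obtain ⟨N₀, hN₀⟩ := Cfsg.Agent.S5096.result F S le_rfl
    rw [← normalizerSystem_autGroup F le_rfl N₀ hN₀] at heA
    have h3 := autGroup_hom_mem N₀ (le_normalizerIn le_rfl) heA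
    rw [hN N₀ hN₀ S] at h3
    obtain ⟨-, g, hg, hgx⟩ := h3
    refine ⟨g, ?_, fun x => ?_⟩
    · rw [hT]
      exact normalizerIn_le S S hg
    · have hxS : (x : Ω) ∈ S := normalizerIn_le S Q x.2
      have e1 := hφ'e x x.2 hxS
      have e2 := hgx ⟨x, hxS⟩
      have e3 := hex ⟨x, hxS⟩
      calc φ x = φ' ⟨x, hxS⟩ := e1.symm
        _ = ((e ⟨x, hxS⟩ : S) : Ω) := e3.symm
        _ = g * x * g⁻¹ := e2
  · intro x hx y hy
    exact hcommS x (normalizerIn_le S Q hx) y (normalizerIn_le S Q hy)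
  · intro P₁ hP₁ hsup
    rw [hT] at hsup hP₁ ⊢
    have h5 : P₁.subgroupOf S = ⊤ := by
      apply frattini_nongenerating
      rw [eq_top_iff]
      intro s _
      have h6 : (s : Ω) ∈ ((P₁.subgroupOf S ⊔ frattini ↥S).map S.subtype) := by
        rw [Subgroup.map_sup, Subgroup.map_subgroupOf_eq_of_le hP₁]
        have h7 : (s : Ω) ∈ Q ⊔ P₁ := by
          rw [hsup]
          exact s.2
        exact (sup_le (h2.trans le_sup_right) le_sup_left) h7
      obtain ⟨s', hs', e⟩ := h6
      have e2 : s' = s := Subtype.ext e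
      rw [← e2]
      exact hs'
    apply le_antisymm hP₁
    intro s hs
    have h8 : (⟨s, hs⟩ : S) ∈ P₁.subgroupOf S := by
      rw [h5]
      exact Subgroup.mem_top _
    exact Subgroup.mem_subgroupOf.mp h8

end Cfsg.Agent.S5222
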