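import Cfsg.Statements.S5223
import Cfsg.Agent.Lib.Helper26.FusStab
import Cfsg.Agent.S5083

set_option autoImplicit false
open Cfsg

namespace Cfsg.Agent.S5223

open Cfsg.Agent.Lib.Helper26 Cfsg.FusionSystem

/-- Let F be a saturated fusion system over a finite p-group S. Suppose there are subgroups Q₀ = S, Q₁, …, Qₙ = 1 (not required to be nested) such that for each i < n the focal subgroup of Qᵢ (generated by the elements x⁻¹φ(x), x ∈ Qᵢ, φ a map of F defined on the cyclic group generated by x) lies in Qᵢ₊₁. Then F is the inner fusion system of S. -/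
theorem result {Ω : Type*} [Group Ω] {S : Subgroup Ω} [Finite S] (p : ℕ) [Fact p.Prime] (hS : IsPGroup p S) (F : Cfsg.FusionSystem S) (hF : F.IsSaturated p) (n : ℕ) (Q : Fin (n + 1) → Subgroup Ω) (hQ0 : Q 0 = S) (hQn : Q (Fin.last n) = ⊥) (hstep : ∀ i : Fin n, Subgroup.closure {y : Ω | ∃ x ∈ Q i.castSucc, ∃ φ ∈ F.Hom (Subgroup.zpowers x), y = x⁻¹ * φ ⟨x, Subgroup.mem_zpowers x⟩} ≤ Q i.succ) : ∀ P : Subgroup Ω, F.Hom P = (Cfsg.innerFusionSystem S).Hom P := by
  have key : ∀ P : Subgroup Ω, P ≤ S → IsPGroup p (F.autGroup P) := by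
    intro P hP
    haveI : Finite P := finite_of_le hP
    have hPp : IsPGroup p P := hS.to_le hP
    rintro ⟨α, hα⟩
    have hαF : α ∈ IsoSet F P P := (mem_autGroup_iff F hP).mp hα
    let Q' : ℕ → Subgroup Ω := fun i => if h : i < n + 1 then Q ⟨i, h⟩ else ⊥
    let N : ℕ → Subgroup ↥P := fun i => ⨅ j : ℕ, (Q' i).comap (P.subtype.comp (α ^ j).toMonoidHom)
    have hN : ∀ i (x : P), x ∈ N i ↔ ∀ j : ℕ, (((α ^ j) x : P) : Ω) ∈ Q' i := by
      intro i x
      simp only [N, Subgroup.mem_iInf, Subgroup.mem_comap]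
      rfl
    have hQ'0 : Q' 0 = S := by
      show (if h : 0 < n + 1 then Q ⟨0, h⟩ else ⊥) = S
      rw [dif_pos (Nat.succ_pos n)]
      exact hQ0
    have hQ'n : Q' n = ⊥ := by
      show (if h : n < n + 1 then Q ⟨n, h⟩ else ⊥) = ⊥
      rw [dif_pos (Nat.lt_succ_self n)]
      exact hQn
    have h0 : N 0 = ⊤ := by
      rw [eq_top_iff]
      intro x _
      rw [hN]
      intro j
      rw [hQ'0]
      exact hP (Subtype.property _)
    have hbase : ∃ k : ℕ, ∀ x ∈ N n, (α ^ (p ^ k)) x = x := by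
      refine ⟨0, ?_⟩
      intro x hx
      have h1 := (hN n x).mp hx 0
      rw [hQ'n, pow_zero] at h1
      have h2 : (x : Ω) = 1 := Subgroup.mem_bot.mp h1
      have h3 : x = 1 := Subtype.ext h2
      rw [h3, map_one]
    have hstep' : ∀ i < n, (∀ x ∈ N i, α x ∈ N i) ∧ (∀ x ∈ N i, x⁻¹ * α x ∈ N (i + 1)) := by
      intro i hi
      constructor
      · intro x hx
        rw [hN] at hx ⊢
        intro j
        have h1 := hx (j + 1)
        rwa [pow_succ, MulAut.mul_apply] at h1
      · intro x hx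
        rw [hN] at hx ⊢
        intro j
        have hyQ : ((((α ^ j) x : P)) : Ω) ∈ Q' i := hx j
        have e1 : (α ^ j) (x⁻¹ * α x) = ((α ^ j) x)⁻¹ * α ((α ^ j) x) := by
          rw [map_mul, map_inv]
          congr 1
          rw [← MulAut.mul_apply, ← MulAut.mul_apply, ← pow_succ, ← pow_succ']
        rw [e1]
        generalize (α ^ j) x = y at hyQ
        have hz : Subgroup.zpowers (y : Ω) ≤ P := by
          rw [Subgroup.zpowers_le]
          exact y.2
        have hφ := restrict_mem F hαF hz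
        have hQi : Q' i = Q (Fin.castSucc ⟨i, hi⟩) := by
          show (if h : i < n + 1 then Q ⟨i, h⟩ else ⊥) = _
          rw [dif_pos (Nat.lt_succ_of_lt hi)]
          rfl
        have hQi1 : Q' (i + 1) = Q (Fin.succ ⟨i, hi⟩) := by
          show (if h : i + 1 < n + 1 then Q ⟨i + 1, h⟩ else ⊥) = _
          rw [dif_pos (Nat.succ_lt_succ hi)]
          rfl
        rw [hQi1]
        apply hstep ⟨i, hi⟩
        apply Subgroup.subset_closure
        rw [hQi] at hyQ
        exact ⟨(y : Ω), hyQ, _, hφ, rfl⟩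
    obtain ⟨k, hk⟩ := exists_pow_eq_one_of_chain hPp α N n h0 hbase hstep'
    refine ⟨k, ?_⟩
    apply Subtype.ext
    simpa using hk
  intro P
  rw [Cfsg.Agent.S5083.result p hS F hF key]

end Cfsg.Agent.S5223
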