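import Cfsg.Statements.S5226
import Cfsg.Agent.Lib.Helper26.FusWC
import Cfsg.Agent.S5088

set_option autoImplicit false
open Cfsg

namespace Cfsg.Agent.S5226

open Cfsg.Agent.Lib.Helper26 Cfsg.FusionSystem

universe u

theorem weaklyClosed_of_stronglyClosed {Ω : Type u} [Group Ω] {S : Subgroup Ω} [Finite S]
    (F : FusionSystem S) {W : Subgroup Ω} (hW : F.StronglyClosed W) : F.WeaklyClosed W := by
  refine ⟨hW.1, fun φ hφ => ?_⟩
  have hfin : Finite W := finite_of_le hW.1
  have hle : φ.range ≤ W := by
    rintro _ ⟨x, rfl⟩
    exact hW.2 W le_rfl φ hφ x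
  apply Subgroup.eq_of_le_of_card_ge hle
  rw [Nat.card_congr (MonoidHom.ofInjective (F.injective_of_mem hφ)).toEquiv]

/-- Let F be a saturated fusion system over a finite p-group S and Q a subgroup of S. Then Q is normal in F (F equals the normalizer system of Q) if and only if Q is strongly closed in F and admits a central series 1 = Q₀ ≤ Q₁ ≤ ⋯ ≤ Qₙ = Q ([Qᵢ₊₁, Q] ≤ Qᵢ) all of whose proper terms are weakly closed in F. -/
theorem result {Ω : Type*} [Group Ω] {S : Subgroup Ω} [Finite S] (p : ℕ) [Fact p.Prime] (hS : IsPGroup p S) (F : Cfsg.FusionSystem S) (hF : F.IsSaturated p) (Q : Subgroup Ω) : F.IsNormal Q ↔ F.StronglyClosed Q ∧ ∃ (n : ℕ) (C : Fin (n + 1) → Subgroup Ω), C 0 = ⊥ ∧ C (Fin.last n) = Q ∧ Monotone C ∧ (∀ i : Fin n, ⁅C i.succ, Q⁆ ≤ C i.castSucc) ∧ ∀ i : Fin n, F.WeaklyClosed (C i.castSucc) := by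
  constructor
  · intro hQ
    obtain ⟨n, C, hC0, hCn, hmono, hnorm, hcomm⟩ := exists_central_chain hS F hQ
    exact ⟨stronglyClosed_of_isNormal F hQ, n, fun i => C i, hC0, hCn, fun i j hij => hmono hij,
      fun i => hcomm i,
      fun i => weaklyClosed_of_stronglyClosed F (stronglyClosed_of_isNormal F (hnorm _))⟩
  · rintro ⟨hQsc, n, C, h0, hn, hmono, hcomm, hwc⟩
    have hD : ∀ i (h : i ≤ n), C ⟨min i n, by omega⟩ = C ⟨i, Nat.lt_succ_of_le h⟩ :=
      fun i h => congrArg C (Fin.ext (min_eq_left h))
    have hD0 : C ⟨min 0 n, by omega⟩ = ⊥ := by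
      rw [hD 0 (Nat.zero_le n)]
      exact h0
    have hDn : C ⟨min n n, by omega⟩ = Q := by
      rw [hD n le_rfl]
      exact hn
    have hDmono : ∀ i j : ℕ, i ≤ j → C ⟨min i n, by omega⟩ ≤ C ⟨min j n, by omega⟩ := by
      intro i j hij
      apply hmono
      show min i n ≤ min j n
      omega
    have hDcomm : ∀ i < n, ⁅C ⟨min (i + 1) n, by omega⟩, Q⁆ ≤ C ⟨min i n, by omega⟩ := by
      intro i hi
      rw [hD (i + 1) hi, hD i hi.le]
      exact hcomm ⟨i, hi⟩
    have hDwc : ∀ i < n, F.WeaklyClosed (C ⟨min i n, by omega⟩) := by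
      intro i hi
      rw [hD i hi.le]
      exact hwc ⟨i, hi⟩
    have key : ∀ i : ℕ, i ≤ n → ∀ j ≤ i, F.StronglyClosed (C ⟨min j n, by omega⟩) := by
      intro i
      induction i with
      | zero =>
        intro _ j hj
        have hj0 : j = 0 := by omega
        subst hj0
        rw [hD0]
        exact stronglyClosed_bot F
      | succ i ih =>
        intro hi j hj
        have IH := ih (by omega)
        by_cases hji : j ≤ i
        · exact IH j hji
        · have hj1 : j = i + 1 := by omega
          subst hj1
          by_cases hin : i + 1 = n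
          · have h1 : C ⟨min (i + 1) n, by omega⟩ = Q := by
              rw [← hDn]
              exact congrArg C (Fin.ext (by simp [hin]))
            rw [h1]
            exact hQsc
          · have hlt : i + 1 < n := by omega
            have hRQ : C ⟨min i n, by omega⟩ ≤ Q := by
              rw [← hDn]
              exact hDmono i n (by omega)
            have hR : F.IsNormal (C ⟨min i n, by omega⟩) := by
              apply (Cfsg.Agent.S5088.result p hS F hF _).mpr
              refine ⟨i, fun k => C ⟨min k n, by omega⟩, hD0, rfl,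
                fun a b hab => hDmono a b hab, fun k => ⟨IH (k + 1) (by omega), ?_⟩⟩
              show ⁅C ⟨min i n, _⟩, C ⟨min (k + 1) n, _⟩⁆ ≤ C ⟨min k n, _⟩
              refine le_trans (Subgroup.commutator_mono hRQ le_rfl) ?_
              rw [Subgroup.commutator_comm]
              exact hDcomm k (by omega)
            refine stronglyClosed_of_weaklyClosed_step hS F hF hQsc hR (hDmono i (i + 1) (by omega))
              (by rw [← hDn]; exact hDmono (i + 1) n (by omega)) (hDcomm i (by omega))
              (hDwc (i + 1) hlt) (fun j => C ⟨min (i - j) n, by omega⟩) i rfl ?_ ?_ ?_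
            · rw [← hD0]
              exact congrArg C (Fin.ext (by simp))
            · intro j _
              exact IH (i - j) (by omega)
            · intro j hj
              have h2 := hDcomm (i - (j + 1)) (by omega)
              have h3 : i - (j + 1) + 1 = i - j := by omega
              have h4 : C ⟨min (i - (j + 1) + 1) n, by omega⟩ = C ⟨min (i - j) n, by omega⟩ :=
                congrArg C (Fin.ext (by
                  show min (i - (j + 1) + 1) n = min (i - j) n
                  rw [h3]))
              rw [h4] at h2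
              exact h2
    apply (Cfsg.Agent.S5088.result p hS F hF Q).mpr
    refine ⟨n, C, h0, hn, hmono, fun i => ⟨?_, ?_⟩⟩
    · have h1 := key n le_rfl (i + 1) (by omega)
      rw [hD (i + 1) (by omega)] at h1
      exact h1
    · rw [Subgroup.commutator_comm]
      exact hcomm i

end Cfsg.Agent.S5226
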