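import Cfsg.Statements.S5233
import Cfsg.Agent.Lib.Helper26.GenExC
import Cfsg.Agent.Lib.Helper26.GenExE

set_option autoImplicit false
open Cfsg

namespace Cfsg.Agent.S5233

open Cfsg.Agent.Lib.Helper26 Cfsg.FusionSystem

open scoped commutatorElement

/-- Let F be a saturated fusion system over a finite p-group S and P a subgroup of S strongly closed in F that is generalized extraspecial (its Frattini subgroup equals its commutator subgroup and has order p) and not isomorphic to E × A with A elementary abelian and E dihedral of order 8 (p = 2) or extraspecial of order p³ and exponent p (p odd). Then P is normal in F. -/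
theorem result {Ω : Type*} [Group Ω] {S : Subgroup Ω} [Finite S] (p : ℕ) [Fact p.Prime] (hS : IsPGroup p S) (F : Cfsg.FusionSystem S) (hF : F.IsSaturated p) (P : Subgroup Ω) (hP : F.StronglyClosed P) (hge : frattini ↥P = commutator ↥P ∧ Nat.card ↥(commutator ↥P) = p) (h2 : p = 2 → ¬ ∃ (A : Type) (_ : CommGroup A), (∀ a : A, a ^ 2 = 1) ∧ Nonempty (↥P ≃* DihedralGroup 4 × A)) (hodd : p ≠ 2 → ¬ ∃ (E : Type) (_ : Group E) (A : Type) (_ : CommGroup A), Cfsg.IsExtraspecial p E ∧ Nat.card E = p ^ 3 ∧ Monoid.exponent E = p ∧ (∀ a : A, a ^ p = 1) ∧ Nonempty (↥P ≃* E × A)) : F.IsNormal P := by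
  have hp := (Fact.out : p.Prime)
  have hPS := hP.1
  haveI : Finite P := finite_of_le hPS
  have hPp : IsPGroup p P := hS.to_le hPS
  obtain ⟨Z₀, hZ₀def⟩ : ∃ Z₀ : Subgroup Ω, Z₀ = (commutator ↥P).map P.subtype := ⟨_, rfl⟩
  have hZP : Z₀ ≤ P := by
    rw [hZ₀def]
    exact Subgroup.map_subtype_le _
  have hmemZ : ∀ (g : Ω) (hg : g ∈ P), g ∈ Z₀ → (⟨g, hg⟩ : P) ∈ commutator ↥P := by
    intro g hg h
    rw [hZ₀def] at h
    obtain ⟨y, hy, hyg⟩ := h
    have h1 : y = ⟨g, hg⟩ := Subtype.ext hyg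
    rwa [← h1]
  have hZp : Nat.card Z₀ = p := by
    rw [hZ₀def, Subgroup.card_map_of_injective (Subgroup.subtype_injective _)]
    exact hge.2
  haveI : Finite Z₀ := finite_of_le (hZP.trans hPS)
  have hcommP : ∀ a b : ↥P, a * b * a⁻¹ * b⁻¹ ∈ commutator ↥P := fun a b => by
    have h1 : ⁅a, b⁆ ∈ commutator ↥P := by
      rw [_root_.commutator_def]
      exact Subgroup.commutator_mem_commutator (Subgroup.mem_top a) (Subgroup.mem_top b)
    rwa [commutatorElement_def] at h1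
  have hcomm : ∀ a ∈ P, ∀ b ∈ P, a * b * a⁻¹ * b⁻¹ ∈ Z₀ := by
    intro a ha b hb
    have h1 := hcommP ⟨a, ha⟩ ⟨b, hb⟩
    rw [hZ₀def]
    exact ⟨_, h1, rfl⟩
  have hpowP : ∀ a : ↥P, a ^ p ∈ commutator ↥P := fun a => by
    rw [← hge.1]
    exact pow_mem_frattini hPp a
  have hpow : ∀ a ∈ P, a ^ p ∈ Z₀ := by
    intro a ha
    have h1 := hpowP ⟨a, ha⟩
    rw [hZ₀def]
    exact ⟨_, h1, rfl⟩
  haveI : (commutator ↥P).Normal := inferInstance
  have hZc : commutator ↥P ≤ Subgroup.center ↥P :=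
    le_center_of_card_prime hPp (commutator ↥P) hge.2
  have hcen : ∀ z ∈ Z₀, ∀ g ∈ P, g * z = z * g := by
    intro z hz g hg
    have hzP := hZP hz
    have h1 := Subgroup.mem_center_iff.mp (hZc (hmemZ z hzP hz)) ⟨g, hg⟩
    exact congrArg Subtype.val h1
  have hZn : S ≤ Subgroup.normalizer (Z₀ : Set Ω) := by
    intro s hs
    apply mem_normalizer_of_conj_mem
    intro z hz
    have hchar : (commutator ↥P).Characteristic := inferInstance
    have hsN : s ∈ Subgroup.normalizer (P : Set Ω) := stronglyClosed_le_normalizer F hP hs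
    have hzP := hZP hz
    have h1 : (⟨z, hzP⟩ : P) ∈ (commutator ↥P).comap
        (MulEquiv.toMonoidHom (P.normalizerMonoidHom ⟨s, hsN⟩)) := by
      rw [hchar.fixed]
      exact hmemZ z hzP hz
    rw [hZ₀def]
    exact ⟨_, h1, rfl⟩
  apply isNormal_of_weaklyClosed_center hS F hF hP hZP hZp hcomm hcen
  intro Z₁ hconj
  by_contra hne
  have hel := elemAb_centralizer_of_conj_ne hS F hF hP hZP hZp hZn hcomm hpow hconj hne
  have hZ₁S : Z₁ ≤ S := isConj_le_right F hconj
  haveI : Finite Z₁ := finite_of_le hZ₁S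
  have hZ₁p : Nat.card Z₁ = p := by rw [← isConj_card F hconj, hZp]
  have hZ₁P : Z₁ ≤ P := by
    obtain ⟨φ, hφ, hφr⟩ := hconj
    rw [← hφr]
    rintro _ ⟨y, rfl⟩
    exact hP.2 Z₀ hZP φ hφ y
  have hnab : ∃ a b : ↥P, a * b ≠ b * a := by
    by_contra hcon
    push_neg at hcon
    have hbot : commutator ↥P = ⊥ := by
      rw [eq_bot_iff, _root_.commutator_def, Subgroup.commutator_le]
      intro a _ b _
      rw [Subgroup.mem_bot, commutatorElement_def, hcon a b]
      group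
    have h1 := hge.2
    rw [hbot, Subgroup.card_bot] at h1
    exact hp.one_lt.ne h1
  obtain ⟨x, hxP, hxC⟩ : ∃ x ∈ P, x ∉ Subgroup.centralizer (Z₁ : Set Ω) := by
    by_contra hcon
    push_neg at hcon
    obtain ⟨a, b, hab⟩ := hnab
    exact hab (Subtype.ext (hel a ⟨a.2, hcon a a.2⟩ b ⟨b.2, hcon b b.2⟩).1)
  obtain ⟨z₁, hz₁, hz₁x⟩ : ∃ z₁ ∈ Z₁, z₁ * x ≠ x * z₁ := by
    by_contra hcon
    push_neg at hcon
    exact hxC (Subgroup.mem_centralizer_iff.mpr hcon)
  have hz₁1 : z₁ ≠ 1 := by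
    rintro rfl
    exact hz₁x (by rw [one_mul, mul_one])
  have htri := structure_trichotomy hPp hge.2 hpowP
    ((Subgroup.centralizer (Z₁ : Set Ω)).comap P.subtype)
    (fun a ha b hb => by
      have h := hel (a : Ω) ⟨a.2, ha⟩ (b : Ω) ⟨b.2, hb⟩
      exact ⟨Subtype.ext h.1, Subtype.ext (by rw [Subgroup.coe_pow]; exact h.2)⟩)
    ⟨z₁, hZ₁P hz₁⟩
    (fun g => by
      constructor
      · intro hg
        have h1 : z₁ * (g : Ω) = (g : Ω) * z₁ :=
          Subgroup.mem_centralizer_iff.mp (show (g : Ω) ∈ Subgroup.centralizer (Z₁ : Set Ω) from hg)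
            z₁ hz₁
        exact Subtype.ext h1.symm
      · intro hg
        have h1 : (g : Ω) * z₁ = z₁ * (g : Ω) := congrArg Subtype.val hg
        show (g : Ω) ∈ Subgroup.centralizer (Z₁ : Set Ω)
        rw [Subgroup.mem_centralizer_iff]
        intro w hw
        obtain ⟨k, rfl⟩ := exists_zpow_of_prime_card hZ₁p hz₁ hz₁1 hw
        exact ((show Commute z₁ (g : Ω) from h1.symm).zpow_left k).eq)
    ⟨⟨x, hxP⟩, fun h => hxC h⟩
  rcases htri with ⟨hp2, hex⟩ | ⟨hp2, hex⟩ | ⟨hp2, hall⟩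
  · exact h2 hp2 hex
  · exact hodd hp2 hex
  · exact false_of_pow_ne_one hS F hF hP hZP hZp hZn hcomm hpow hcen hconj hne hp2
      (fun y hy hyC h => hall ⟨y, hy⟩ (fun h' => hyC h')
        (Subtype.ext (by rw [Subgroup.coe_pow]; exact h))) hxP hxC

end Cfsg.Agent.S5233
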