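import Cfsg.Statements.S5236
import Cfsg.Agent.Lib.Helper26.FusOmega

set_option autoImplicit false
open Cfsg

namespace Cfsg.Agent.S5236

open Cfsg.Agent.Lib.Helper26 Cfsg.FusionSystem

/-- Let p be an odd prime, F a saturated fusion system over a finite p-group S and P a subgroup of S strongly closed in F. Then P is normal in F if and only if Ω₁(P) (the subgroup generated by the elements of order p of P) has a chain of subgroups 1 = Q₀ ≤ Q₁ ≤ ⋯ ≤ Qₙ = Ω₁(P), each strongly closed in F, with [Qᵢ₊₁, P] ≤ Qᵢ for all i. -/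
theorem result {Ω : Type*} [Group Ω] {S : Subgroup Ω} [Finite S] (p : ℕ) [Fact p.Prime] (hS : IsPGroup p S) (F : Cfsg.FusionSystem S) (hF : F.IsSaturated p) (hp : p ≠ 2) (P : Subgroup Ω) (hP : F.StronglyClosed P) : F.IsNormal P ↔ ∃ (n : ℕ) (Q : Fin (n + 1) → Subgroup Ω), Q 0 = ⊥ ∧ Q (Fin.last n) = Cfsg.omegaOne p P ∧ Monotone Q ∧ (∀ i : Fin (n + 1), F.StronglyClosed (Q i)) ∧ ∀ i : Fin n, ⁅Q i.succ, P⁆ ≤ Q i.castSucc := by
  constructor
  · intro hN
    obtain ⟨n, C, hC0, hCn, hmono, hnorm, hcomm⟩ := exists_central_chain hS F hN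
    have hΩ : F.IsNormal (omegaOne p P) := omegaOne_isNormal F p hN
    have hΩsc := stronglyClosed_of_isNormal F hΩ
    have hΩn := stronglyClosed_le_normalizer F hΩsc
    refine ⟨n, fun i => C i ⊓ omegaOne p P, ?_, ?_, ?_, ?_, ?_⟩
    · show C 0 ⊓ omegaOne p P = ⊥
      rw [hC0, bot_inf_eq]
    · show C n ⊓ omegaOne p P = omegaOne p P
      rw [hCn]
      exact inf_eq_right.mpr (omegaOne_le p P)
    · intro i j hij
      exact inf_le_inf_right _ (hmono hij)
    · intro i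
      exact stronglyClosed_inf F (stronglyClosed_of_isNormal F (hnorm _)) hΩsc
    · intro i
      show ⁅C (i.val + 1) ⊓ omegaOne p P, P⁆ ≤ C i.val ⊓ omegaOne p P
      refine le_inf (le_trans (Subgroup.commutator_mono inf_le_left le_rfl) (hcomm i)) ?_
      rw [Subgroup.commutator_le]
      intro g₁ hg₁ g₂ hg₂
      have h1 : g₂ ∈ Subgroup.normalizer (omegaOne p P : Set Ω) := hΩn (hP.1 hg₂)
      have h2 := (Subgroup.mem_normalizer_iff.mp h1 g₁⁻¹).mp (inv_mem hg₁.2)
      show g₁ * g₂ * g₁⁻¹ * g₂⁻¹ ∈ omegaOne p P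
      have h3 : g₁ * g₂ * g₁⁻¹ * g₂⁻¹ = g₁ * (g₂ * g₁⁻¹ * g₂⁻¹) := by
        group
      rw [h3]
      exact mul_mem hg₁.2 h2
  · rintro ⟨n, Q, h0, hn, hmono, hsc, hstep⟩
    apply (Cfsg.Agent.S5086.result p hS F hF P).mpr
    refine ⟨hP, fun R hc hr => ?_⟩
    have hR : R ≤ S := hc.1
    have hfinR : Finite R := finite_of_le hR
    let N₂ : ℕ → Subgroup R := fun j =>
      (Q ⟨n - j, Nat.lt_succ_of_le (Nat.sub_le n j)⟩).subgroupOf R
    have hinvA : ∀ α ∈ F.autGroup R, ∀ i ≤ n, ∀ x ∈ N₂ i, α x ∈ N₂ i := by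
      intro α hα i _ x hx
      exact Subgroup.mem_subgroupOf.mpr
        (stronglyClosed_aut_invariant F (hsc _) hR hα x (Subgroup.mem_subgroupOf.mp hx))
    refine le_of_chain hS F hc hr hP (chainStab (F.autGroup R) N₂ n hinvA) (fun β hβ => hβ.1)
      (fun α hα β hβ => chainStab_conj (fun γ hγ => mul_mem (mul_mem hα hγ) (inv_mem hα))
        (hinvA α hα) (hinvA α⁻¹ (inv_mem hα)) hβ)
      (fun _ => P) 0 rfl ?_ ?_ ?_ ?_
    · intro i _ α hα x hx
      exact stronglyClosed_aut_invariant F hP hR hα x hx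
    · intro i hi
      exact absurd hi (Nat.not_lt_zero _)
    · intro β hβ
      have hb0 : ∃ k : ℕ, ∀ x ∈ N₂ n, (β ^ (p ^ k)) x = x := by
        refine ⟨0, fun x hx => ?_⟩
        have h1 : (⟨n - n, Nat.lt_succ_of_le (Nat.sub_le n n)⟩ : Fin (n + 1)) = 0 := by
          apply Fin.ext
          simp
        have hx' : (x : Ω) ∈ Q ⟨n - n, Nat.lt_succ_of_le (Nat.sub_le n n)⟩ := hx
        rw [h1, h0, Subgroup.mem_bot] at hx'
        have h2 : x = 1 := Subtype.ext hx'
        rw [h2, map_one]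
      obtain ⟨k₁, hk₁⟩ := exists_pow_fix_of_chain (hS.to_le hR) β N₂ n hb0
        (fun i hi => ⟨hinvA β hβ.1 i hi.le, hβ.2 i hi⟩)
      · have hW : IsPGroup p (P.subgroupOf R) := (hS.to_le hR).to_subgroup _
        have hγinv : ∀ x ∈ P.subgroupOf R, (β ^ p ^ k₁) x ∈ P.subgroupOf R := by
          apply pow_invariant
          intro x hx
          exact Subgroup.mem_subgroupOf.mpr
            (stronglyClosed_aut_invariant F hP hR hβ.1 x (Subgroup.mem_subgroupOf.mp hx))
        have hfix : ∀ x ∈ P.subgroupOf R, x ^ p = 1 → (β ^ p ^ k₁) x = x := by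
          intro x hx hxp
          apply hk₁
          show (x : Ω) ∈ Q ⟨n - 0, _⟩
          have h1 : (⟨n - 0, Nat.lt_succ_of_le (Nat.sub_le n 0)⟩ : Fin (n + 1)) = Fin.last n := by
            apply Fin.ext
            simp
          rw [h1, hn]
          apply Subgroup.subset_closure
          refine ⟨Subgroup.mem_subgroupOf.mp hx, ?_⟩
          have h2 : ((x ^ p : R) : Ω) = ((1 : R) : Ω) := congrArg (fun z : R => (z : Ω)) hxp
          simpa using h2
        obtain ⟨k₂, hk₂⟩ := exists_pow_fix_of_omega hp (β ^ p ^ k₁) (P.subgroupOf R) hW hγinv hfix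
        refine ⟨k₁ + k₂, fun x hx => ?_⟩
        rw [pow_add, pow_mul]
        exact hk₂ x (Subgroup.mem_subgroupOf.mpr hx)
    · intro g hg hgP
      refine ⟨autInducedBy_le_autGroup F hR (conj_mem_autInducedBy (hP.1 hgP) hg),
        fun i hi x hx => ?_⟩
      have h1 : (⟨n - i, Nat.lt_succ_of_le (Nat.sub_le n i)⟩ : Fin (n + 1)) =
          (⟨n - i - 1, by omega⟩ : Fin n).succ := by
        apply Fin.ext
        simp
        omega
      have h2 : (⟨n - (i + 1), Nat.lt_succ_of_le (Nat.sub_le n (i + 1))⟩ : Fin (n + 1)) =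
          (⟨n - i - 1, by omega⟩ : Fin n).castSucc := by
        apply Fin.ext
        simp
        omega
      apply Subgroup.mem_subgroupOf.mpr
      have h3 : ((x⁻¹ * R.normalizerMonoidHom ⟨g, hg⟩ x : R) : Ω) =
          (x : Ω)⁻¹ * (g * x * g⁻¹) := by
        rw [Subgroup.coe_mul, Subgroup.coe_inv, normalizerMonoidHom_coe]
      rw [h3]
      show _ ∈ Q ⟨n - (i + 1), _⟩
      rw [h2]
      have hx' : (x : Ω) ∈ Q ⟨n - i, Nat.lt_succ_of_le (Nat.sub_le n i)⟩ := hx
      rw [h1] at hx'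
      apply hstep ⟨n - i - 1, by omega⟩
      have h4 : (x : Ω)⁻¹ * (g * x * g⁻¹) = (x : Ω)⁻¹ * g * (x : Ω)⁻¹⁻¹ * g⁻¹ := by
        group
      rw [h4]
      exact Subgroup.commutator_mem_commutator (inv_mem hx') hgP

end Cfsg.Agent.S5236
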