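import Cfsg.Statements.S5234
import Cfsg.Agent.Lib.Helper26.GenExG
import Cfsg.Agent.S5236

set_option autoImplicit false
open Cfsg

namespace Cfsg.Agent.S5234

open Cfsg.Agent.Lib.Helper26 Cfsg.FusionSystem

/-- Let p be an odd prime, F a saturated fusion system over a finite p-group S and P a metacyclic subgroup of S strongly closed in F. Then P is normal in F. -/
theorem result {Ω : Type*} [Group Ω] {S : Subgroup Ω} [Finite S] (p : ℕ) [Fact p.Prime] (hS : IsPGroup p S) (F : Cfsg.FusionSystem S) (hF : F.IsSaturated p) (P : Subgroup Ω) (hP : F.StronglyClosed P) (hp : p ≠ 2) (hm : Cfsg.IsMetacyclic ↥P) : F.IsNormal P := by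
  have hPS := hP.1
  haveI : Finite P := finite_of_le hPS
  have hPp : IsPGroup p P := hS.to_le hPS
  obtain ⟨N, hN, hNc, hQc⟩ := hm
  obtain ⟨hA0, hB0⟩ := metacyclic_omega hPp hp N
  have hA : ∀ x ∈ P, ∀ y ∈ P, x ^ p = 1 → y ^ p = 1 → x * y = y * x ∧ (x * y) ^ p = 1 := by
    intro x hx y hy hxp hyp
    have h := hA0 ⟨x, hx⟩ ⟨y, hy⟩ (Subtype.ext (by rw [Subgroup.coe_pow]; exact hxp))
      (Subtype.ext (by rw [Subgroup.coe_pow]; exact hyp))
    refine ⟨congrArg Subtype.val h.1, ?_⟩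
    have h2 := congrArg Subtype.val h.2
    rwa [Subgroup.coe_pow] at h2
  obtain ⟨V, hVmem⟩ : ∃ V : Subgroup Ω, ∀ x, x ∈ V ↔ (x ∈ P ∧ x ^ p = 1) :=
    ⟨{ carrier := {x | x ∈ P ∧ x ^ p = 1}
       one_mem' := ⟨P.one_mem, one_pow p⟩
       mul_mem' := fun {a b} ha hb => ⟨P.mul_mem ha.1 hb.1, (hA a ha.1 b hb.1 ha.2 hb.2).2⟩
       inv_mem' := fun {a} ha => ⟨P.inv_mem ha.1, by rw [inv_pow, ha.2, inv_one]⟩ },
      fun x => Iff.rfl⟩
  have hVom : Cfsg.omegaOne p P = V := by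
    apply le_antisymm
    · show Subgroup.closure {x : Ω | x ∈ P ∧ x ^ p = 1} ≤ V
      rw [Subgroup.closure_le]
      intro x hx
      exact (hVmem x).mpr hx
    · intro x hx
      exact Subgroup.subset_closure ((hVmem x).mp hx)
  have hVsc : F.StronglyClosed V := by
    refine ⟨fun x hx => hPS ((hVmem x).mp hx).1, ?_⟩
    intro Q hQ φ hφ y
    refine (hVmem _).mpr ⟨hP.2 Q (fun w hw => ((hVmem w).mp (hQ hw)).1) φ hφ y, ?_⟩
    have h1 : y ^ p = 1 :=
      Subtype.ext (by rw [Subgroup.coe_pow]; exact ((hVmem _).mp (hQ y.2)).2)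
    rw [← map_pow, h1, map_one]
  have hbot : F.StronglyClosed (⊥ : Subgroup Ω) := by
    refine ⟨bot_le, ?_⟩
    intro Q hQ φ hφ y
    have h1 : y = 1 := Subtype.ext (Subgroup.mem_bot.mp (hQ y.2))
    rw [h1, map_one]
    exact Subgroup.one_mem _
  apply (Cfsg.Agent.S5236.result p hS F hF hp P hP).mpr
  rcases hB0 with hcen | ⟨z, hz1, hzp, hzc, hZmem, hcomm, hdec⟩
  · refine ⟨1, ![⊥, V], rfl, (by show V = _; exact hVom.symm), ?_, ?_, ?_⟩
    · rw [Fin.monotone_iff_le_succ]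
      intro i
      fin_cases i
      exact bot_le
    · intro i
      fin_cases i
      · exact hbot
      · exact hVsc
    · intro i
      fin_cases i
      show ⁅V, P⁆ ≤ ⊥
      rw [Subgroup.commutator_le]
      intro v hv g hg
      rw [Subgroup.mem_bot]
      have h1 := hcen ⟨v, ((hVmem v).mp hv).1⟩
        (Subtype.ext (by rw [Subgroup.coe_pow]; exact ((hVmem v).mp hv).2)) ⟨g, hg⟩
      have h2 : g * v = v * g := congrArg Subtype.val h1
      show v * g * v⁻¹ * g⁻¹ = 1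
      rw [← h2]
      group
  · have hz' : (z : Ω) ≠ 1 := fun h => hz1 (Subtype.ext h)
    have hzp' : (z : Ω) ^ p = 1 := by
      have h := congrArg Subtype.val hzp
      rwa [Subgroup.coe_pow] at h
    have hzc' : ∀ g ∈ P, g * (z : Ω) = (z : Ω) * g := fun g hg =>
      congrArg Subtype.val (hzc ⟨g, hg⟩)
    have hZmem' : ∀ v ∈ P, v ^ p = 1 → (∀ g ∈ P, g * v = v * g) → ∃ k : ℤ, v = (z : Ω) ^ k := by
      intro v hv hvp hvc
      obtain ⟨k, hk⟩ := hZmem ⟨v, hv⟩ (Subtype.ext (by rw [Subgroup.coe_pow]; exact hvp))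
        (fun g => Subtype.ext (hvc g g.2))
      refine ⟨k, ?_⟩
      have h := congrArg Subtype.val hk
      rwa [Subgroup.coe_zpow] at h
    have hcomm' : ∀ g ∈ P, ∀ v ∈ P, v ^ p = 1 →
        ∃ k : ℤ, g * v * g⁻¹ * v⁻¹ = (z : Ω) ^ k := by
      intro g hg v hv hvp
      obtain ⟨k, hk⟩ := hcomm ⟨g, hg⟩ ⟨v, hv⟩ (Subtype.ext (by rw [Subgroup.coe_pow]; exact hvp))
      refine ⟨k, ?_⟩
      have h := congrArg Subtype.val hk
      rwa [Subgroup.coe_zpow] at h
    have hdec' : ∀ z₁ ∈ P, z₁ ^ p = 1 → (∃ g ∈ P, g * z₁ ≠ z₁ * g) → ∀ v ∈ P, v ^ p = 1 →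
        ∃ i j : ℤ, v = (z : Ω) ^ i * z₁ ^ j := by
      rintro z₁ hz₁ hz₁p ⟨g, hg, hgz⟩ v hv hvp
      obtain ⟨i, j, hij⟩ := hdec ⟨z₁, hz₁⟩ (Subtype.ext (by rw [Subgroup.coe_pow]; exact hz₁p))
        ⟨⟨g, hg⟩, fun h => hgz (congrArg Subtype.val h)⟩ ⟨v, hv⟩
        (Subtype.ext (by rw [Subgroup.coe_pow]; exact hvp))
      refine ⟨i, j, ?_⟩
      have h := congrArg Subtype.val hij
      rwa [Subgroup.coe_mul, Subgroup.coe_zpow, Subgroup.coe_zpow] at h
    have hZsc := stronglyClosed_zpowers_of_omega hS F hF hP hp z.2 hz' hzp' hzc' hA hZmem'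
      hcomm' hdec'
    have hZV : Subgroup.zpowers (z : Ω) ≤ V := by
      rw [Subgroup.zpowers_le]
      exact (hVmem _).mpr ⟨z.2, hzp'⟩
    refine ⟨2, ![⊥, Subgroup.zpowers (z : Ω), V], rfl, (by show V = _; exact hVom.symm),
      ?_, ?_, ?_⟩
    · rw [Fin.monotone_iff_le_succ]
      intro i
      fin_cases i
      · exact bot_le
      · exact hZV
    · intro i
      fin_cases i
      · exact hbot
      · exact hZsc
      · exact hVsc
    · intro i
      fin_cases i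
      · show ⁅Subgroup.zpowers (z : Ω), P⁆ ≤ ⊥
        rw [Subgroup.commutator_le]
        intro w hw g hg
        rw [Subgroup.mem_bot]
        obtain ⟨k, rfl⟩ := Subgroup.mem_zpowers_iff.mp hw
        have h2 : g * (z : Ω) ^ k = (z : Ω) ^ k * g :=
          ((show Commute g (z : Ω) from hzc' g hg).zpow_right k).eq
        show (z : Ω) ^ k * g * ((z : Ω) ^ k)⁻¹ * g⁻¹ = 1
        rw [← h2]
        group
      · show ⁅V, P⁆ ≤ Subgroup.zpowers (z : Ω)
        rw [Subgroup.commutator_le]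
        intro v hv g hg
        obtain ⟨k, hk⟩ := hcomm' g hg v ((hVmem v).mp hv).1 ((hVmem v).mp hv).2
        show v * g * v⁻¹ * g⁻¹ ∈ Subgroup.zpowers (z : Ω)
        have h3 : v * g * v⁻¹ * g⁻¹ = (g * v * g⁻¹ * v⁻¹)⁻¹ := by group
        rw [h3, hk]
        exact Subgroup.inv_mem _ (Subgroup.zpow_mem _ (Subgroup.mem_zpowers _) k)

end Cfsg.Agent.S5234
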