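import Mathlib
import Cfsg.Statements.S5247
import Cfsg.Agent.S5096
import Cfsg.Agent.Lib.Lead.Cores
import Cfsg.Agent.Lib.Helper26.FusSat2

set_option autoImplicit false
open Cfsg

namespace Cfsg.Agent.S5247

open Cfsg.FusionSystem Cfsg.Agent.Lib.Helper26

/-- membership in `O_p(A)` via a witnessing `A`-invariant `p`-subgroup -/
theorem mem_pCore_map {M : Type*} [Group M] (p : ℕ) (A : Subgroup M) (x : M)
    (K : Subgroup M) (hKA : K ≤ A) (hKp : IsPGroup p K)
    (hKn : ∀ a ∈ A, ∀ k ∈ K, a * k * a⁻¹ ∈ K) (hx : x ∈ K) :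
    x ∈ (Cfsg.pCore p A).map A.subtype := by
  have hn : (K.subgroupOf A).Normal := by
    constructor
    intro n hn g
    rw [Subgroup.mem_subgroupOf] at hn ⊢
    exact hKn g g.2 n hn
  have hp' : IsPGroup p (K.subgroupOf A) := hKp.comap_subtype
  have h1 := Cfsg.Agent.Lib.Lead.Cores.le_pCore hn hp'
  exact ⟨⟨x, hKA hx⟩, h1 (Subgroup.mem_subgroupOf.mpr hx), rfl⟩

theorem pCore_map_props {M : Type*} [Group M] (p : ℕ) [Fact p.Prime] (A : Subgroup M) :
    (Cfsg.pCore p A).map A.subtype ≤ A ∧ IsPGroup p ((Cfsg.pCore p A).map A.subtype) ∧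
    ∀ a ∈ A, ∀ k ∈ (Cfsg.pCore p A).map A.subtype, a * k * a⁻¹ ∈ (Cfsg.pCore p A).map A.subtype := by
  refine ⟨Subgroup.map_subtype_le _, (Cfsg.Agent.Lib.Lead.Cores.pCore_isPGroup p).map _, ?_⟩
  rintro a ha _ ⟨c, hc, rfl⟩
  have hn : (Cfsg.pCore p A).Normal := Cfsg.Agent.Lib.Lead.Cores.pCore_normal p
  exact ⟨⟨a, ha⟩ * c * ⟨a, ha⟩⁻¹, hn.conj_mem c hc ⟨a, ha⟩, rfl⟩

theorem quad_fix {Q : Type*} [Group Q] (χ : MulAut Q)
    (hq : ∀ a : Q, (χ a⁻¹) * a * (χ a⁻¹) * (χ (χ a)) = 1) (a : Q) :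
    χ (a⁻¹ * χ a) = a⁻¹ * χ a := by
  have h1 := hq a
  rw [map_inv] at h1
  have h2 : χ (χ a) = ((χ a)⁻¹ * a * (χ a)⁻¹)⁻¹ := eq_inv_of_mul_eq_one_right h1
  rw [map_mul, map_inv, h2]
  group

theorem quad_pow {Q : Type*} [Group Q] (χ : MulAut Q)
    (hq : ∀ a : Q, (χ a⁻¹) * a * (χ a⁻¹) * (χ (χ a)) = 1) (n : ℕ) (a : Q) :
    (χ ^ n) a = a * (a⁻¹ * χ a) ^ n := by
  induction n with
  | zero => rw [pow_zero, pow_zero, mul_one]; rfl
  | succ n ih =>
    rw [pow_succ', MulAut.mul_apply, ih, map_mul, map_pow, quad_fix χ hq a, pow_succ',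
      ← mul_assoc, mul_inv_cancel_left]

theorem quad_order {Q : Type*} [Group Q] [Finite Q] (χ : MulAut Q)
    (hq : ∀ a : Q, (χ a⁻¹) * a * (χ a⁻¹) * (χ (χ a)) = 1) : χ ^ Nat.card Q = 1 := by
  apply MulEquiv.ext
  intro a
  rw [quad_pow χ hq, pow_card_eq_one', mul_one]
  rfl

theorem cyclic_comm {Q : Type*} [Group Q] [IsCyclic Q] (α β : MulAut Q) : α * β = β * α := by
  obtain ⟨m, hm⟩ := MonoidHom.map_cyclic α.toMonoidHom
  obtain ⟨n, hn⟩ := MonoidHom.map_cyclic β.toMonoidHom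
  have hm' : ∀ g : Q, α g = g ^ m := hm
  have hn' : ∀ g : Q, β g = g ^ n := hn
  apply MulEquiv.ext
  intro x
  rw [MulAut.mul_apply, MulAut.mul_apply, hn', hm', hm', hn', ← zpow_mul, ← zpow_mul, mul_comm]

theorem cyclic_case {Q : Type*} [Group Q] [Finite Q] [IsCyclic Q] {p : ℕ} [Fact p.Prime]
    (hQ : IsPGroup p Q) (A : Subgroup (MulAut Q)) (χ : MulAut Q) (hχ : χ ∈ A)
    (hq : ∀ a : Q, (χ a⁻¹) * a * (χ a⁻¹) * (χ (χ a)) = 1) :
    χ ∈ (Cfsg.pCore p A).map A.subtype := by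
  obtain ⟨n, hn⟩ := IsPGroup.iff_card.mp hQ
  have hord := quad_order χ hq
  rw [hn] at hord
  refine mem_pCore_map p A χ (Subgroup.zpowers χ) ((Subgroup.zpowers_le).mpr hχ) ?_ ?_
    (Subgroup.mem_zpowers χ)
  · rintro ⟨g, hg⟩
    obtain ⟨k, rfl⟩ := Subgroup.mem_zpowers_iff.mp hg
    refine ⟨n, Subtype.ext ?_⟩
    show (χ ^ k) ^ (p ^ n) = 1
    rw [← zpow_natCast, ← zpow_mul, mul_comm, zpow_mul, zpow_natCast, hord, one_zpow]
  · intro a _ k hk
    rw [cyclic_comm a k, mul_inv_cancel_right]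
    exact hk

/-- The stability property for fully normalized subgroups gives it for all subgroups. -/
theorem all_of_fn {Ω : Type*} [Group Ω] {S : Subgroup Ω} [Finite S] (p : ℕ) [Fact p.Prime]
    (F : Cfsg.FusionSystem S)
    (h : ∀ Q : Subgroup Ω, F.IsFullyNormalized Q → ∀ χ : MulAut ↥Q, χ ∈ F.autGroup Q → (∀ a : ↥Q, (χ a⁻¹) * a * (χ a⁻¹) * (χ (χ a)) = 1) → χ ∈ ((Cfsg.pCore p ↥(F.autGroup Q)).map (F.autGroup Q).subtype : Subgroup (MulAut ↥Q)))
    (Q : Subgroup Ω) (hQ : Q ≤ S) (χ : MulAut Q) (hχ : χ ∈ F.autGroup Q)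
    (hq : ∀ a : ↥Q, (χ a⁻¹) * a * (χ a⁻¹) * (χ (χ a)) = 1) :
    χ ∈ ((Cfsg.pCore p ↥(F.autGroup Q)).map (F.autGroup Q).subtype : Subgroup (MulAut ↥Q)) := by
  obtain ⟨Q', hconj, hfn⟩ := exists_fullyNormalized_conj F hQ
  obtain ⟨e, he⟩ := (isConj_iff_iso F).mp hconj
  have hQ' : Q' ≤ S := hfn.1
  have hmem : ∀ α : MulAut Q, α ∈ F.autGroup Q → MulAut.congr e α ∈ F.autGroup Q' := by
    intro α hα
    rw [mem_autGroup_iff F hQ] at hα
    rw [mem_autGroup_iff F hQ']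
    exact iso_trans F (iso_symm F he) (iso_trans F hα he)
  have hmem' : ∀ α : MulAut Q, MulAut.congr e α ∈ F.autGroup Q' → α ∈ F.autGroup Q := by
    intro α hα
    rw [mem_autGroup_iff F hQ'] at hα
    rw [mem_autGroup_iff F hQ]
    have h1 := iso_trans F he (iso_trans F hα (iso_symm F he))
    have e1 : e.trans ((MulAut.congr e α).trans e.symm) = α := by
      apply MulEquiv.ext
      intro x
      show e.symm (e (α (e.symm (e x)))) = α x
      rw [MulEquiv.symm_apply_apply, MulEquiv.symm_apply_apply]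
    rw [e1] at h1
    exact h1
  have hq' : ∀ a' : Q', (MulAut.congr e χ) a'⁻¹ * a' * (MulAut.congr e χ) a'⁻¹ *
      (MulAut.congr e χ) ((MulAut.congr e χ) a') = 1 := by
    intro a'
    show e (χ (e.symm a'⁻¹)) * a' * e (χ (e.symm a'⁻¹)) * e (χ (e.symm (e (χ (e.symm a'))))) = 1
    rw [map_inv e.symm, MulEquiv.symm_apply_apply]
    have h1 := congrArg e (hq (e.symm a'))
    rw [map_mul, map_mul, map_mul, MulEquiv.apply_symm_apply, map_one] at h1
    exact h1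
  have h1 := h Q' hfn (MulAut.congr e χ) (hmem χ hχ) hq'
  obtain ⟨hKA, hKp, hKn⟩ := pCore_map_props p (F.autGroup Q')
  refine mem_pCore_map p (F.autGroup Q) χ
    (((Cfsg.pCore p ↥(F.autGroup Q')).map (F.autGroup Q').subtype).comap
      (MulAut.congr e).toMonoidHom) ?_ ?_ ?_ ?_
  · intro α hα
    exact hmem' α (hKA (Subgroup.mem_comap.mp hα))
  · exact hKp.comap_of_injective _ (MulAut.congr e).injective
  · intro a ha k hk
    rw [Subgroup.mem_comap] at hk ⊢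
    rw [map_mul, map_mul, map_inv]
    exact hKn _ (hmem a ha) _ hk
  · exact Subgroup.mem_comap.mpr h1

theorem pCore_congr {M : Type*} [Group M] (p : ℕ) (A B : Subgroup M) (h : A = B) :
    (Cfsg.pCore p A).map A.subtype = (Cfsg.pCore p B).map B.subtype := by
  subst h
  rfl

theorem result {Ω : Type*} [Group Ω] {S : Subgroup Ω} [Finite S] (p : ℕ) [Fact p.Prime] (hS : IsPGroup p S) (F : Cfsg.FusionSystem S) (hF : F.IsSaturated p) (hp : p ≠ 2) : (∀ Q : Subgroup Ω, F.IsFullyNormalized Q → ∀ χ : MulAut ↥Q, χ ∈ F.autGroup Q → (∀ a : ↥Q, (χ a⁻¹) * a * (χ a⁻¹) * (χ (χ a)) = 1) → χ ∈ ((Cfsg.pCore p ↥(F.autGroup Q)).map (F.autGroup Q).subtype : Subgroup (MulAut ↥Q))) ↔ ∀ R : Subgroup Ω, F.IsFullyNormalized R → ¬ IsCyclic ↥R → ∀ N : Cfsg.FusionSystem (Cfsg.FusionSystem.normalizerIn S R), F.IsNormalizerSystem R N → (∀ Q : Subgroup Ω, N.IsFullyNormalized Q → ∀ χ : MulAut ↥Q, χ ∈ N.autGroup Q → (∀ a : ↥Q, (χ a⁻¹) * a * (χ a⁻¹)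 * (χ (χ a)) = 1) → χ ∈ ((Cfsg.pCore p ↥(N.autGroup Q)).map (N.autGroup Q).subtype : Subgroup (MulAut ↥Q))) := by
  constructor
  · intro h R hR hRc N hN Q hQ χ hχ hq
    have hQS : Q ≤ S := hQ.1.trans (normalizerIn_le S R)
    have hfinQ : Finite Q := finite_of_le hQS
    have hle : N.autGroup Q ≤ F.autGroup Q := by
      apply Subgroup.closure_mono
      intro α hα
      have hα' : Q.subtype.comp α.toMonoidHom ∈ N.Hom Q := hα
      rw [hN Q] at hα'
      exact hα'.1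
    have h1 := all_of_fn p F h Q hQS χ (hle hχ) hq
    obtain ⟨hKA, hKp, hKn⟩ := pCore_map_props p (F.autGroup Q)
    refine mem_pCore_map p (N.autGroup Q) χ
      ((Cfsg.pCore p ↥(F.autGroup Q)).map (F.autGroup Q).subtype ⊓ N.autGroup Q)
      inf_le_right (hKp.to_le inf_le_left) ?_ ⟨h1, hχ⟩
    intro a ha k hk
    exact ⟨hKn a (hle ha) k hk.1, Subgroup.mul_mem _ (Subgroup.mul_mem _ ha hk.2)
      (Subgroup.inv_mem _ ha)⟩
  · intro h Q hQ χ hχ hq
    have hQS : Q ≤ S := hQ.1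
    have hfinQ : Finite Q := finite_of_le hQS
    by_cases hc : IsCyclic Q
    · exact cyclic_case (hS.to_le hQS) (F.autGroup Q) χ hχ hq
    · obtain ⟨N, hN⟩ := Cfsg.Agent.S5096.result F Q hQS
      have hle : N.autGroup Q ≤ F.autGroup Q := by
        apply Subgroup.closure_mono
        intro α hα
        have hα' : Q.subtype.comp α.toMonoidHom ∈ N.Hom Q := hα
        rw [hN Q] at hα'
        exact hα'.1
      have hge : F.autGroup Q ≤ N.autGroup Q := by
        apply Subgroup.closure_mono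
        intro α hα
        have hα' : Q.subtype.comp α.toMonoidHom ∈ F.Hom Q := hα
        show Q.subtype.comp α.toMonoidHom ∈ N.Hom Q
        rw [hN Q]
        refine ⟨hα', le_normalizerIn hQS, fun x => le_normalizerIn hQS (α x).2, ?_⟩
        refine ⟨(Q.subtype.comp α.toMonoidHom).comp
          (Subgroup.inclusion (sup_le le_rfl le_rfl : Q ⊔ Q ≤ Q)),
          restrict_mem F hα' _, fun x => rfl, ?_⟩
        ext y
        constructor
        · rintro ⟨x, -, rfl⟩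
          exact (α _).2
        · intro hy
          refine ⟨Subgroup.inclusion le_sup_left (α.symm ⟨y, hy⟩), ?_, ?_⟩
          · show _ ∈ Q.subgroupOf (Q ⊔ Q)
            rw [Subgroup.mem_subgroupOf]
            exact (α.symm ⟨y, hy⟩).2
          · show ((α (α.symm ⟨y, hy⟩) : Q) : Ω) = y
            rw [MulEquiv.apply_symm_apply]
      have heq : N.autGroup Q = F.autGroup Q := le_antisymm hle hge
      have hfnN : N.IsFullyNormalized Q := by
        refine ⟨le_normalizerIn hQS, ?_⟩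
        intro Q' hQ'
        obtain ⟨φ, hφ, hr⟩ := hQ'
        rw [hN Q] at hφ
        obtain ⟨-, -, -, ψ, -, hψ1, hψ2⟩ := hφ
        have hQQ' : Q' = Q := by
          rw [← hr]
          ext y
          constructor
          · rintro ⟨x, rfl⟩
            rw [← hψ1 x]
            refine hψ2.le ⟨_, ?_, rfl⟩
            show _ ∈ Q.subgroupOf (Q ⊔ Q)
            rw [Subgroup.mem_subgroupOf]
            exact x.2
          · intro hy
            have hy' := hψ2.ge hy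
            obtain ⟨z, hz, rfl⟩ := hy'
            have hz' : (z : Ω) ∈ Q := Subgroup.mem_subgroupOf.mp hz
            refine ⟨⟨z, hz'⟩, ?_⟩
            rw [← hψ1]
            rfl
        rw [hQQ']
      have h2 := h Q hQ hc N hN Q hfnN χ (hge hχ) hq
      rw [pCore_congr p _ _ heq] at h2
      exact h2

end Cfsg.Agent.S5247
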