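import Mathlib
import Cfsg.Statements.S5246
import Cfsg.Agent.S5247
import Cfsg.Agent.Lib.Helper26.FusGrp

set_option autoImplicit false
open Cfsg

namespace Cfsg.Agent.S5246

open Cfsg.FusionSystem Cfsg.Agent.Lib.Helper26
open scoped commutatorElement

theorem quad_identity {G : Type*} [Group G] (g a c : G) (hc : c = a⁻¹ * g * a * g⁻¹)
    (hcg : c * g = g * c) :
    (g * a⁻¹ * g⁻¹) * a * (g * a⁻¹ * g⁻¹) * (g * (g * a * g⁻¹) * g⁻¹) = 1 := by
  have h1 : g * a * g⁻¹ = a * c := by rw [hc]; group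
  have h2 : g * c * g⁻¹ = c := by rw [← hcg]; group
  have e1 : g * a⁻¹ * g⁻¹ = (g * a * g⁻¹)⁻¹ := by group
  have e2 : g * (a * c) * g⁻¹ = (g * a * g⁻¹) * (g * c * g⁻¹) := by group
  rw [e1, h1, e2, h1, h2]
  group

/-- the commutator condition gives the quadratic identity -/
theorem comm_quad {Ω : Type*} [Group Ω] (Q : Subgroup Ω) (g : Ω)
    (hg : g ∈ Subgroup.normalizer (Q : Set Ω))
    (hcomm : ⁅⁅Q, Subgroup.zpowers g⁆, Subgroup.zpowers g⁆ = ⊥) (a : Q) :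
    (Q.normalizerMonoidHom ⟨g, hg⟩ a⁻¹) * a * (Q.normalizerMonoidHom ⟨g, hg⟩ a⁻¹) *
      (Q.normalizerMonoidHom ⟨g, hg⟩ (Q.normalizerMonoidHom ⟨g, hg⟩ a)) = 1 := by
  apply Subtype.ext
  show (g * ((a : Ω))⁻¹ * g⁻¹) * (a : Ω) * (g * ((a : Ω))⁻¹ * g⁻¹) *
    (g * (g * (a : Ω) * g⁻¹) * g⁻¹) = 1
  have hmem : ⁅(a : Ω)⁻¹, g⁆ ∈ ⁅Q, Subgroup.zpowers g⁆ :=
    Subgroup.commutator_mem_commutator (Q.inv_mem a.2) (Subgroup.mem_zpowers g)
  have h2 : ⁅⁅(a : Ω)⁻¹, g⁆, g⁆ ∈ ⁅⁅Q, Subgroup.zpowers g⁆, Subgroup.zpowers g⁆ :=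
    Subgroup.commutator_mem_commutator hmem (Subgroup.mem_zpowers g)
  rw [hcomm, Subgroup.mem_bot, commutatorElement_def, commutatorElement_def] at h2
  refine quad_identity g (a : Ω) ((a : Ω)⁻¹ * g * (a : Ω) * g⁻¹) rfl ?_
  have h3 := mul_inv_eq_one.mp h2
  rw [inv_inv] at h3
  calc (a : Ω)⁻¹ * g * (a : Ω) * g⁻¹ * g
      = ((a : Ω)⁻¹ * g * (a : Ω) * g⁻¹ * g * ((a : Ω)⁻¹ * g * (a : Ω) * g⁻¹)⁻¹) *
        ((a : Ω)⁻¹ * g * (a : Ω) * g⁻¹) := by group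
    _ = g * ((a : Ω)⁻¹ * g * (a : Ω) * g⁻¹) := by rw [h3]

/-- the quadratic identity gives the commutator condition -/
theorem quad_comm {Ω : Type*} [Group Ω] [Finite Ω] (Q : Subgroup Ω) (g : Ω)
    (hg : g ∈ Subgroup.normalizer (Q : Set Ω))
    (hq : ∀ a : Q, (Q.normalizerMonoidHom ⟨g, hg⟩ a⁻¹) * a * (Q.normalizerMonoidHom ⟨g, hg⟩ a⁻¹) *
      (Q.normalizerMonoidHom ⟨g, hg⟩ (Q.normalizerMonoidHom ⟨g, hg⟩ a)) = 1) :
    ⁅⁅Q, Subgroup.zpowers g⁆, Subgroup.zpowers g⁆ = ⊥ := by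
  rw [Subgroup.commutator_eq_bot_iff_le_centralizer, Subgroup.commutator_le]
  intro x hx h hh
  rw [← mem_powers_iff_mem_zpowers] at hh
  obtain ⟨n, rfl⟩ := hh
  obtain ⟨χ, hχ⟩ : ∃ χ : MulAut Q, χ = Q.normalizerMonoidHom ⟨g, hg⟩ := ⟨_, rfl⟩
  rw [← hχ] at hq
  obtain ⟨a, ha⟩ : ∃ a : Q, (a : Ω) = x⁻¹ := ⟨⟨x, hx⟩⁻¹, rfl⟩
  have hfix := Cfsg.Agent.S5247.quad_fix χ hq a
  have hpow := Cfsg.Agent.S5247.quad_pow χ hq n a
  have hχn : (((χ ^ n) a : Q) : Ω) = g ^ n * (a : Ω) * (g ^ n)⁻¹ := by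
    rw [hχ, ← map_pow]
    rfl
  have hcg : Commute g ((a⁻¹ * χ a : Q) : Ω) := by
    have h1 := congrArg Subtype.val hfix
    rw [hχ] at h1 ⊢
    have h2 : g * ((a⁻¹ * Q.normalizerMonoidHom ⟨g, hg⟩ a : Q) : Ω) * g⁻¹ =
        ((a⁻¹ * Q.normalizerMonoidHom ⟨g, hg⟩ a : Q) : Ω) := h1
    show g * _ = _ * g
    calc g * ((a⁻¹ * Q.normalizerMonoidHom ⟨g, hg⟩ a : Q) : Ω)
        = (g * ((a⁻¹ * Q.normalizerMonoidHom ⟨g, hg⟩ a : Q) : Ω) * g⁻¹) * g := by group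
      _ = _ := by rw [h2]
  have e : ⁅x, g ^ n⁆ = ((a⁻¹ * χ a : Q) : Ω) ^ n := by
    rw [commutatorElement_def]
    have h3 := congrArg Subtype.val hpow
    rw [hχn, Subgroup.coe_mul, Subgroup.coe_pow, ha] at h3
    calc x * g ^ n * x⁻¹ * (g ^ n)⁻¹ = x * (g ^ n * x⁻¹ * (g ^ n)⁻¹) := by group
      _ = ((a⁻¹ * χ a : Q) : Ω) ^ n := by rw [h3]; group
  rw [e]
  show _ ∈ Subgroup.centralizer _
  rw [Subgroup.mem_centralizer_iff]
  intro z hz
  obtain ⟨m, rfl⟩ := Subgroup.mem_zpowers_iff.mp hz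
  exact ((hcg.zpow_left m).pow_right n).eq

/-- transport of `O_p(Aut_F(Q))`-membership along an isomorphism of the system -/
theorem transport {Ω : Type*} [Group Ω] {S : Subgroup Ω} (p : ℕ) [Fact p.Prime]
    (F : Cfsg.FusionSystem S) {Q Q' : Subgroup Ω} {e : Q ≃* Q'} (he : e ∈ IsoSet F Q Q')
    (χ : MulAut Q)
    (h1 : MulAut.congr e χ ∈ (Cfsg.pCore p (F.autGroup Q')).map (F.autGroup Q').subtype) :
    χ ∈ (Cfsg.pCore p (F.autGroup Q)).map (F.autGroup Q).subtype := by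
  obtain ⟨hKA, hKp, hKn⟩ := Cfsg.Agent.S5247.pCore_map_props p (F.autGroup Q')
  refine Cfsg.Agent.S5247.mem_pCore_map p (F.autGroup Q) χ
    (((Cfsg.pCore p ↥(F.autGroup Q')).map (F.autGroup Q').subtype).comap
      (MulAut.congr e).toMonoidHom) ?_ ?_ ?_ ?_
  · intro α hα
    exact (autGroup_congr F he α).mp (hKA (Subgroup.mem_comap.mp hα))
  · exact hKp.comap_of_injective _ (MulAut.congr e).injective
  · intro a ha k hk
    rw [Subgroup.mem_comap] at hk ⊢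
    rw [map_mul, map_mul, map_inv]
    exact hKn _ ((autGroup_congr F he a).mpr ha) _ hk
  · exact Subgroup.mem_comap.mpr h1

/-- from the quotient `N(Q)/C(Q)` to the automizer -/
theorem mem_pCoreOf_of_mk {Ω : Type*} [Group Ω] [Finite Ω] (p : ℕ) [Fact p.Prime] (Q : Subgroup Ω)
    (n : Subgroup.normalizer (Q : Set Ω))
    (h : (QuotientGroup.mk (s := (Subgroup.centralizer (Q : Set Ω)).subgroupOf
        (Subgroup.normalizer (Q : Set Ω))) n) ∈
      Cfsg.pCore p (↥(Subgroup.normalizer (Q : Set Ω)) ⧸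
        (Subgroup.centralizer (Q : Set Ω)).subgroupOf (Subgroup.normalizer (Q : Set Ω)))) :
    Q.normalizerMonoidHom n ∈
      (Cfsg.pCore p (autInducedBy ⊤ Q)).map (autInducedBy ⊤ Q).subtype := by
  have hker := Subgroup.normalizerMonoidHom_ker (H := Q)
  have hcn : (Cfsg.pCore p (↥(Subgroup.normalizer (Q : Set Ω)) ⧸
        (Subgroup.centralizer (Q : Set Ω)).subgroupOf (Subgroup.normalizer (Q : Set Ω)))).Normal :=
    Cfsg.Agent.Lib.Lead.Cores.pCore_normal p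
  have hcp : IsPGroup p (Cfsg.pCore p (↥(Subgroup.normalizer (Q : Set Ω)) ⧸
        (Subgroup.centralizer (Q : Set Ω)).subgroupOf (Subgroup.normalizer (Q : Set Ω)))) :=
    Cfsg.Agent.Lib.Lead.Cores.pCore_isPGroup p
  refine Cfsg.Agent.S5247.mem_pCore_map p (autInducedBy ⊤ Q) _
    (((Cfsg.pCore p (↥(Subgroup.normalizer (Q : Set Ω)) ⧸
        (Subgroup.centralizer (Q : Set Ω)).subgroupOf (Subgroup.normalizer (Q : Set Ω)))).comap
      (QuotientGroup.mk' ((Subgroup.centralizer (Q : Set Ω)).subgroupOf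
        (Subgroup.normalizer (Q : Set Ω))))).map Q.normalizerMonoidHom) ?_ ?_ ?_ ?_
  · rintro _ ⟨m, -, rfl⟩
    exact conj_mem_autInducedBy (Subgroup.mem_top _) m.2
  · rintro ⟨_, m, hm, rfl⟩
    replace hm : (QuotientGroup.mk' ((Subgroup.centralizer (Q : Set Ω)).subgroupOf
        (Subgroup.normalizer (Q : Set Ω)))) m ∈ Cfsg.pCore p (↥(Subgroup.normalizer (Q : Set Ω)) ⧸
        (Subgroup.centralizer (Q : Set Ω)).subgroupOf (Subgroup.normalizer (Q : Set Ω))) := hm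
    obtain ⟨j, hj⟩ := hcp ⟨_, hm⟩
    have hj' : (QuotientGroup.mk' ((Subgroup.centralizer (Q : Set Ω)).subgroupOf
        (Subgroup.normalizer (Q : Set Ω)))) (m ^ (p ^ j)) = 1 := by
      have := congrArg Subtype.val hj
      rw [map_pow]
      exact this
    rw [← MonoidHom.mem_ker, QuotientGroup.ker_mk', ← hker, MonoidHom.mem_ker, map_pow] at hj'
    exact ⟨j, Subtype.ext hj'⟩
  · intro a ha k hk
    rw [autInducedBy_eq_map] at ha
    obtain ⟨n', -, rfl⟩ := ha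
    obtain ⟨m, hm, rfl⟩ := hk
    refine ⟨n' * m * n'⁻¹, ?_, by rw [map_mul, map_mul, map_inv]⟩
    replace hm : (QuotientGroup.mk' ((Subgroup.centralizer (Q : Set Ω)).subgroupOf
        (Subgroup.normalizer (Q : Set Ω)))) m ∈ Cfsg.pCore p (↥(Subgroup.normalizer (Q : Set Ω)) ⧸
        (Subgroup.centralizer (Q : Set Ω)).subgroupOf (Subgroup.normalizer (Q : Set Ω))) := hm
    show (QuotientGroup.mk' ((Subgroup.centralizer (Q : Set Ω)).subgroupOf
        (Subgroup.normalizer (Q : Set Ω)))) (n' * m * n'⁻¹) ∈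
        Cfsg.pCore p (↥(Subgroup.normalizer (Q : Set Ω)) ⧸
        (Subgroup.centralizer (Q : Set Ω)).subgroupOf (Subgroup.normalizer (Q : Set Ω)))
    rw [map_mul, map_mul, map_inv]
    exact hcn.conj_mem _ hm _
  · exact ⟨n, h, rfl⟩

/-- from the automizer to the quotient `N(Q)/C(Q)` -/
theorem mk_mem_pCore {Ω : Type*} [Group Ω] [Finite Ω] (p : ℕ) [Fact p.Prime] (Q : Subgroup Ω)
    (n : Subgroup.normalizer (Q : Set Ω))
    (h : Q.normalizerMonoidHom n ∈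
      (Cfsg.pCore p (autInducedBy ⊤ Q)).map (autInducedBy ⊤ Q).subtype) :
    (QuotientGroup.mk (s := (Subgroup.centralizer (Q : Set Ω)).subgroupOf
        (Subgroup.normalizer (Q : Set Ω))) n) ∈
      Cfsg.pCore p (↥(Subgroup.normalizer (Q : Set Ω)) ⧸
        (Subgroup.centralizer (Q : Set Ω)).subgroupOf (Subgroup.normalizer (Q : Set Ω))) := by
  have hker := Subgroup.normalizerMonoidHom_ker (H := Q)
  obtain ⟨hKA, hKp, hKn⟩ := Cfsg.Agent.S5247.pCore_map_props p (autInducedBy ⊤ Q)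
  obtain ⟨M, hM⟩ : ∃ M : Subgroup (Subgroup.normalizer (Q : Set Ω)),
      M = ((Cfsg.pCore p (autInducedBy ⊤ Q)).map (autInducedBy ⊤ Q).subtype).comap
        Q.normalizerMonoidHom := ⟨_, rfl⟩
  have hMn : M.Normal := by
    constructor
    intro m hm k
    rw [hM, Subgroup.mem_comap] at hm ⊢
    rw [map_mul, map_mul, map_inv]
    exact hKn _ (conj_mem_autInducedBy (Subgroup.mem_top _) k.2) _ hm
  have hn : (M.map (QuotientGroup.mk' ((Subgroup.centralizer (Q : Set Ω)).subgroupOf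
      (Subgroup.normalizer (Q : Set Ω))))).Normal :=
    hMn.map _ (QuotientGroup.mk'_surjective _)
  have hp : IsPGroup p (M.map (QuotientGroup.mk' ((Subgroup.centralizer (Q : Set Ω)).subgroupOf
      (Subgroup.normalizer (Q : Set Ω))))) := by
    rintro ⟨_, m, hm, rfl⟩
    replace hm : m ∈ M := hm
    rw [hM, Subgroup.mem_comap] at hm
    obtain ⟨j, hj⟩ := hKp ⟨_, hm⟩
    have hj' : Q.normalizerMonoidHom (m ^ (p ^ j)) = 1 := by
      have := congrArg Subtype.val hj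
      rw [map_pow]
      exact this
    rw [← MonoidHom.mem_ker, hker, ← QuotientGroup.ker_mk' ((Subgroup.centralizer (Q : Set Ω)).subgroupOf
      (Subgroup.normalizer (Q : Set Ω))), MonoidHom.mem_ker, map_pow] at hj'
    exact ⟨j, Subtype.ext hj'⟩
  refine Cfsg.Agent.Lib.Lead.Cores.le_pCore hn hp ⟨n, ?_, rfl⟩
  rw [hM]
  exact Subgroup.mem_comap.mpr h

theorem result {Ω : Type*} [Group Ω] [Finite Ω] {p : ℕ} [Fact p.Prime] (hp : p ≠ 2) (P : Sylow p Ω) : Cfsg.IsNormalizerPStable p Ω ↔ (∀ Q : Subgroup Ω, (Cfsg.groupFusionSystem (P : Subgroup Ω)).IsFullyNormalized Q → ∀ χ : MulAut ↥Q, χ ∈ (Cfsg.groupFusionSystem (P : Subgroup Ω)).autGroup Q → (∀ a : ↥Q, (χ a⁻¹) * a * (χ a⁻¹) * (χ (χ a)) = 1) → χ ∈ ((Cfsg.pCore p ↥((Cfsg.groupFusionSystem (P : Subgroup Ω)).autGroup Q)).map ((Cfsg.groupFusionSystem (P : Subgroup Ω)).autGroup Q).subtype : Subgroup (MulAut ↥Q))) := by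
  constructor
  · intro hNS Q hQ χ hχ hq
    have hQP : Q ≤ P := hQ.1
    have hA := groupFusion_autGroup (P : Subgroup Ω) hQP
    rw [Cfsg.Agent.S5247.pCore_congr p _ _ hA]
    rw [hA, mem_autInducedBy_iff] at hχ
    obtain ⟨g, -, hgχ⟩ := hχ
    have hg : g ∈ Subgroup.normalizer (Q : Set Ω) := normalizer_of_autInduced hgχ
    have hχeq : χ = Q.normalizerMonoidHom ⟨g, hg⟩ := by
      apply MulEquiv.ext
      intro x
      apply Subtype.ext
      rw [hgχ x]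
      rfl
    rw [hχeq] at hq ⊢
    have hcomm := quad_comm Q g hg hq
    exact mem_pCoreOf_of_mk p Q ⟨g, hg⟩ (hNS Q (P.isPGroup'.to_le hQP) g hg hcomm)
  · intro hstab Q hQp g hg hcomm
    apply mk_mem_pCore p Q ⟨g, hg⟩
    have hq := comm_quad Q g hg hcomm
    obtain ⟨h, hQ'P, -⟩ := exists_conj_normalizer_sylow P Q hQp
    obtain ⟨Q', hQ'⟩ : ∃ Q' : Subgroup Ω, Q' = Q.map (MulAut.conj h).toMonoidHom := ⟨_, rfl⟩
    rw [← hQ'] at hQ'P
    obtain ⟨e, he⟩ : ∃ e : Q ≃* Q', ∀ x : Q, ((e x : Q') : Ω) = h * x * h⁻¹ := by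
      subst hQ'
      exact ⟨Q.equivMapOfInjective (MulAut.conj h).toMonoidHom (MulAut.conj h).injective,
        fun x => rfl⟩
    have hesymm : ∀ y : Q', ((e.symm y : Q) : Ω) = h⁻¹ * y * h := by
      intro y
      have h1 := he (e.symm y)
      rw [MulEquiv.apply_symm_apply] at h1
      rw [h1]
      group
    have hiso : e ∈ IsoSet (Cfsg.groupFusionSystem (⊤ : Subgroup Ω)) Q Q' :=
      ⟨le_top, fun _ => Subgroup.mem_top _, h, fun x => he x⟩
    obtain ⟨χ, hχ⟩ : ∃ χ : MulAut Q, χ = Q.normalizerMonoidHom ⟨g, hg⟩ := ⟨_, rfl⟩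
    rw [← hχ] at hq ⊢
    have hq' : ∀ a' : Q', (MulAut.congr e χ) a'⁻¹ * a' * (MulAut.congr e χ) a'⁻¹ *
        (MulAut.congr e χ) ((MulAut.congr e χ) a') = 1 := by
      intro a'
      show e (χ (e.symm a'⁻¹)) * a' * e (χ (e.symm a'⁻¹)) * e (χ (e.symm (e (χ (e.symm a'))))) = 1
      rw [map_inv e.symm, MulEquiv.symm_apply_apply]
      have h1 := congrArg e (hq (e.symm a'))
      rw [map_mul, map_mul, map_mul, MulEquiv.apply_symm_apply, map_one] at h1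
      exact h1
    have hA' := groupFusion_autGroup (P : Subgroup Ω) hQ'P
    have hAtop' := groupFusion_autGroup (⊤ : Subgroup Ω) (le_top : Q' ≤ ⊤)
    have hAtop := groupFusion_autGroup (⊤ : Subgroup Ω) (le_top : Q ≤ ⊤)
    have hχ' : MulAut.congr e χ ∈ (Cfsg.groupFusionSystem (P : Subgroup Ω)).autGroup Q' := by
      rw [hA', mem_autInducedBy_iff]
      refine ⟨h * g * h⁻¹, Subgroup.mem_top _, fun x => ?_⟩
      show ((e (χ (e.symm x)) : Q') : Ω) = _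
      rw [he, hχ, normalizerMonoidHom_coe, hesymm]
      group
    have h2 := Cfsg.Agent.S5247.all_of_fn p (Cfsg.groupFusionSystem (P : Subgroup Ω)) hstab Q' hQ'P
      (MulAut.congr e χ) hχ' hq'
    rw [Cfsg.Agent.S5247.pCore_congr p _ _ (hA'.trans hAtop'.symm)] at h2
    have h3 := transport p (Cfsg.groupFusionSystem (⊤ : Subgroup Ω)) hiso χ h2
    rw [Cfsg.Agent.S5247.pCore_congr p _ _ hAtop] at h3
    exact h3

end Cfsg.Agent.S5246
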