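import Cfsg.Statements.S5249
import Cfsg.Agent.Lib.Helper26.QdSolv
import Cfsg.Agent.Lib.Helper26.QdSolv2

set_option autoImplicit false
open Cfsg

namespace Cfsg.Agent.S5249

open Cfsg.Agent.Lib.Helper26 Cfsg.FusionSystem

/-- Let p be an odd prime, G a finite group in which Qd(p) (the natural semidirect product of an elementary abelian group of order p² by SL₂(p)) is not involved, and P a Sylow p-subgroup of G. Then the fusion system of G on P is a solvable fusion system. -/
theorem result {G : Type*} [Group G] [Finite G] {p : ℕ} [Fact p.Prime] (hp : p ≠ 2) (hqd : ¬ Cfsg.Involves ↥(Cfsg.qd p) G) (P : Sylow p G) : (Cfsg.groupFusionSystem (P : Subgroup G)).IsSolvableSystem := by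
  intro R hR hRne _ E hE
  have hel : ∀ g : G, ∀ r ∈ R, g * r * g⁻¹ ∈ (P : Subgroup G) → g * r * g⁻¹ ∈ R := by
    intro g r hr hgr
    have h1 : conjHom (Subgroup.zpowers r) g ∈
        (Cfsg.groupFusionSystem (P : Subgroup G)).Hom (Subgroup.zpowers r) := by
      refine ⟨(Subgroup.zpowers_le.mpr hr).trans hR.1, ?_, g, fun x => rfl⟩
      rintro ⟨x, k, rfl⟩
      show g * r ^ k * g⁻¹ ∈ (P : Subgroup G)
      have h2 : g * r ^ k * g⁻¹ = (g * r * g⁻¹) ^ k := by rw [conj_zpow]
      rw [h2]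
      exact Subgroup.zpow_mem _ hgr k
    exact hR.2 (Subgroup.zpowers r) (Subgroup.zpowers_le.mpr hr) _ h1 ⟨r, Subgroup.mem_zpowers r⟩
  obtain ⟨W, hRW, hWP, hWR, hctl⟩ := qd_free_factor_ctl hp hqd P R hR.1 hRne hel
  exact factor_core_ne_bot (P : Subgroup G) R W hR hRW hWP hWR hctl _ E hE

end Cfsg.Agent.S5249
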