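import Mathlib
import Cfsg.Statements.S5251
import Cfsg.Agent.S5079
import Cfsg.Agent.Lib.Helper26.FusStab
import Cfsg.Agent.Lib.Helper26.FusEmb

set_option autoImplicit false
open Cfsg

namespace Cfsg.Agent.S5251

open Cfsg.FusionSystem Cfsg.Agent.Lib.Helper26
open scoped Pointwise

variable {Ω : Type*} [Group Ω]

theorem sc_apply {S : Subgroup Ω} (F : FusionSystem S) {T : Subgroup Ω} (hT : F.StronglyClosed T)
    {P : Subgroup Ω} {ψ : P →* Ω} (hψ : ψ ∈ F.Hom P) (x : P) (hx : (x : Ω) ∈ T) : ψ x ∈ T := by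
  have h2 := restrict_mem F hψ (inf_le_left : P ⊓ T ≤ P)
  exact hT.2 (P ⊓ T) inf_le_right _ h2 ⟨x, ⟨x.2, hx⟩⟩

/-- An automorphism in `Aut_F(P)` that centralizes `P ∩ T` and `P / (P ∩ T)`, for a strongly
closed subgroup `T`, lies in `O_p(Aut_F(P))`. -/
theorem stab_core {S : Subgroup Ω} [Finite S] (p : ℕ) [Fact p.Prime] (hS : IsPGroup p S)
    (F : FusionSystem S) {T : Subgroup Ω} (hT : F.StronglyClosed T) {P : Subgroup Ω} (hP : P ≤ S)
    (β : MulAut P) (hβA : β ∈ F.autGroup P) (h1 : ∀ y : P, ((y⁻¹ * β y : P) : Ω) ∈ T)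
    (h2 : ∀ y : P, (y : Ω) ∈ T → β y = y) :
    β ∈ ((Cfsg.pCore p ↥(F.autGroup P)).map (F.autGroup P).subtype : Subgroup (MulAut ↥P)) := by
  have hfin : Finite P := finite_of_le hP
  have hPp : IsPGroup p P := hS.to_le hP
  obtain ⟨N, hN⟩ : ∃ N : ℕ → Subgroup P, N = fun i => if i = 0 then ⊤ else
      if i = 1 then T.subgroupOf P else ⊥ := ⟨_, rfl⟩
  have hN0 : N 0 = ⊤ := by rw [hN]; simp
  have hN1 : N 1 = T.subgroupOf P := by rw [hN]; simp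
  have hN2 : N 2 = ⊥ := by rw [hN]; simp
  have hinv : ∀ α ∈ F.autGroup P, ∀ i ≤ 2, ∀ x ∈ N i, α x ∈ N i := by
    intro α hα i hi x hx
    interval_cases i
    · rw [hN0]; exact Subgroup.mem_top _
    · rw [hN1] at hx ⊢
      exact Subgroup.mem_subgroupOf.mpr
        (stronglyClosed_aut_invariant F hT hP hα x (Subgroup.mem_subgroupOf.mp hx))
    · rw [hN2] at hx ⊢
      rw [Subgroup.mem_bot] at hx ⊢
      rw [hx, map_one]
  have hBp : IsPGroup p (chainStab (F.autGroup P) N 2 hinv) := by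
    apply chainStab_isPGroup hPp hN0
    intro γ _
    refine ⟨0, fun x hx => ?_⟩
    rw [hN2, Subgroup.mem_bot] at hx
    rw [hx, map_one]
  have hnorm : ((chainStab (F.autGroup P) N 2 hinv).subgroupOf (F.autGroup P)).Normal := by
    constructor
    intro b hb a
    rw [Subgroup.mem_subgroupOf] at hb ⊢
    exact chainStab_conj (fun γ hγ => Subgroup.mul_mem _ (Subgroup.mul_mem _ a.2 hγ)
      (Subgroup.inv_mem _ a.2)) (hinv a a.2) (hinv _ (Subgroup.inv_mem _ a.2)) hb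
  have hle := Cfsg.Agent.Lib.Lead.Cores.le_pCore hnorm hBp.comap_subtype
  have hβB : β ∈ chainStab (F.autGroup P) N 2 hinv := by
    rw [mem_chainStab_iff]
    refine ⟨hβA, fun i hi x hx => ?_⟩
    interval_cases i
    · show x⁻¹ * β x ∈ N 1
      rw [hN1]
      exact Subgroup.mem_subgroupOf.mpr (h1 x)
    · show x⁻¹ * β x ∈ N 2
      rw [hN1] at hx
      rw [hN2, Subgroup.mem_bot, h2 x (Subgroup.mem_subgroupOf.mp hx), inv_mul_cancel]
  exact ⟨⟨β, hβA⟩, hle (Subgroup.mem_subgroupOf.mpr hβB), rfl⟩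

/-- If `C_T(P ∩ T)` is not inside `P ∩ T`, some element of `T` normalizes `P`, lies outside `P` and
centralizes `P ∩ T`. -/
theorem exists_elt {S : Subgroup Ω} [Finite S] (p : ℕ) [Fact p.Prime] (hS : IsPGroup p S)
    {T : Subgroup Ω} (hTS : T ≤ S) (hTnorm : S ≤ Subgroup.normalizer (T : Set Ω))
    {P : Subgroup Ω} (hP : P ≤ S) (hC : ¬ centralizerIn T (P ⊓ T) ≤ P ⊓ T) :
    ∃ x, x ∈ T ∧ x ∈ Subgroup.normalizer (P : Set Ω) ∧ x ∉ P ∧
      ∀ y ∈ P, y ∈ T → x * y = y * x := by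
  obtain ⟨C, hCdef⟩ : ∃ C : Subgroup Ω, C = centralizerIn T (P ⊓ T) := ⟨_, rfl⟩
  rw [← hCdef] at hC
  have hCT : C ≤ T := hCdef ▸ inf_le_left
  have hCc : ∀ c ∈ C, ∀ y ∈ P, y ∈ T → c * y = y * c := by
    intro c hc y hy hyT
    rw [hCdef] at hc
    exact (Subgroup.mem_centralizer_iff.mp hc.2 y ⟨hy, hyT⟩).symm
  have hCP : ¬ C ≤ P := fun h => hC (le_inf h hCT)
  have hPC : P ⊔ C ≤ S := sup_le hP (hCT.trans hTS)
  have hfinC : Finite C := finite_of_le (hCT.trans hTS)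
  have hfin : Finite ↥(P ⊔ C) := finite_of_le hPC
  have hPnC : P ≤ Subgroup.normalizer (C : Set Ω) := by
    intro u hu
    apply mem_normalizer_of_forall_conj_mem
    intro c hc
    have hTconj : ∀ t ∈ T, u * t * u⁻¹ ∈ T := fun t ht =>
      (Subgroup.mem_normalizer_iff.mp (hTnorm (hP hu)) t).mp ht
    have hTconj' : ∀ t ∈ T, u⁻¹ * t * u ∈ T := fun t ht => by
      have := (Subgroup.mem_normalizer_iff.mp (Subgroup.inv_mem _ (hTnorm (hP hu))) t).mp ht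
      rwa [inv_inv] at this
    rw [hCdef]
    refine ⟨hTconj c (hCT hc), ?_⟩
    show _ ∈ Subgroup.centralizer ((P ⊓ T : Subgroup Ω) : Set Ω)
    rw [Subgroup.mem_centralizer_iff]
    intro y hy
    have hy' : u⁻¹ * y * u ∈ P := P.mul_mem (P.mul_mem (P.inv_mem hu) hy.1) hu
    have h3 := hCc c hc _ hy' (hTconj' y hy.2)
    calc y * (u * c * u⁻¹) = u * ((u⁻¹ * y * u) * c) * u⁻¹ := by group
      _ = u * (c * (u⁻¹ * y * u)) * u⁻¹ := by rw [h3]
      _ = u * c * u⁻¹ * y := by group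
  have hlt : P < P ⊔ C := lt_of_le_of_ne le_sup_left (fun h => hCP (h ▸ le_sup_right))
  obtain ⟨g, hgN, hgP⟩ := SetLike.exists_of_lt (lt_normalizerIn (hS.to_le hPC) hlt)
  have hg := mem_normalizerIn_iff.mp hgN
  have hmul : ((P ⊔ C : Subgroup Ω) : Set Ω) = (P : Set Ω) * (C : Set Ω) :=
    Subgroup.coe_mul_of_left_le_normalizer_right P C hPnC
  have hg' : g ∈ (P : Set Ω) * (C : Set Ω) := hmul ▸ hg.1
  obtain ⟨u, hu, c, hc, rfl⟩ := Set.mem_mul.mp hg'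
  have hcN : c ∈ Subgroup.normalizer (P : Set Ω) := by
    have h1 : c = u⁻¹ * (u * c) := by group
    rw [h1]
    exact Subgroup.mul_mem _ (Subgroup.inv_mem _ (Subgroup.le_normalizer hu)) hg.2
  have hcP : c ∉ P := fun h => hgP (P.mul_mem hu h)
  exact ⟨c, hCT hc, hcN, hcP, hCc c hc⟩

theorem conj_core {S : Subgroup Ω} [Finite S] (p : ℕ) [Fact p.Prime] (hS : IsPGroup p S)
    (F : FusionSystem S) {T : Subgroup Ω} (hT : F.StronglyClosed T) {P : Subgroup Ω} (hP : P ≤ S)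
    {x : Ω} (hxT : x ∈ T) (hxN : x ∈ Subgroup.normalizer (P : Set Ω))
    (hxc : ∀ y ∈ P, y ∈ T → x * y = y * x) :
    P.normalizerMonoidHom ⟨x, hxN⟩ ∈
      ((Cfsg.pCore p ↥(F.autGroup P)).map (F.autGroup P).subtype : Subgroup (MulAut ↥P)) := by
  have hTnorm : S ≤ Subgroup.normalizer (T : Set Ω) := stronglyClosed_le_normalizer F hT
  apply stab_core p hS F hT hP
  · exact autInducedBy_le_autGroup F hP (mem_autInducedBy_iff.mpr
      ⟨x, hT.1 hxT, fun y => normalizerMonoidHom_coe ⟨x, hxN⟩ y⟩)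
  · intro y
    show (y : Ω)⁻¹ * ((P.normalizerMonoidHom ⟨x, hxN⟩ y : P) : Ω) ∈ T
    rw [normalizerMonoidHom_coe]
    have h1 : (y : Ω)⁻¹ * x * ((y : Ω)⁻¹)⁻¹ ∈ T :=
      (Subgroup.mem_normalizer_iff.mp (Subgroup.inv_mem _ (hTnorm (hP y.2))) x).mp hxT
    have e : (y : Ω)⁻¹ * (x * (y : Ω) * x⁻¹) = ((y : Ω)⁻¹ * x * ((y : Ω)⁻¹)⁻¹) * x⁻¹ := by group
    rw [e]
    exact T.mul_mem h1 (T.inv_mem hxT)
  · intro y hy
    apply Subtype.ext
    rw [normalizerMonoidHom_coe]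
    show x * (y : Ω) * x⁻¹ = (y : Ω)
    rw [hxc y y.2 hy]
    group

theorem result {Ω : Type*} [Group Ω] {S : Subgroup Ω} [Finite S] (p : ℕ) [Fact p.Prime] (hS : IsPGroup p S) (F : Cfsg.FusionSystem S) (hF : F.IsSaturated p) {T : Subgroup Ω} (E : Cfsg.FusionSystem T) (hE : E.IsNormalIn F p) (P : Subgroup Ω) (hP : F.IsCentric P) (hPT : ¬ E.IsCentric (P ⊓ T)) : (∃ φ ∈ F.Hom P, ∃ x ∈ S ⊓ Subgroup.normalizer (φ.range : Set Ω), x ∉ φ.range ∧ ∃ α ∈ ((Cfsg.pCore p ↥(F.autGroup φ.range)).map (F.autGroup φ.range).subtype : Subgroup (MulAut ↥φ.range)), ∀ y : ↥φ.range, ((α y : ↥φ.range) : Ω) = x * (y : Ω) * x⁻¹) ∧ ¬ F.IsRadical p P := by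
  obtain ⟨⟨hEsat, -, hsub, hT, -, -⟩, -⟩ := hE
  have hTS : T ≤ S := hT.1
  have hPS : P ≤ S := hP.1
  have hTnorm : S ≤ Subgroup.normalizer (T : Set Ω) := stronglyClosed_le_normalizer F hT
  have hex : ∃ Q', E.IsConj (P ⊓ T) Q' ∧ ¬ centralizerIn T Q' ≤ Q' := by
    by_contra hcon
    push Not at hcon
    exact hPT ⟨inf_le_right, hcon⟩
  obtain ⟨Q', hQ'conj, hQ'c⟩ := hex
  have hQS : P ⊓ T ≤ S := inf_le_left.trans hPS
  obtain ⟨Q₀, hQ₀conj, hQ₀fa, hQ₀rec⟩ := hF (P ⊓ T) hQS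
  have hQ'F : F.IsConj (P ⊓ T) Q' := by
    obtain ⟨ψ, hψ, hr⟩ := hQ'conj
    exact ⟨ψ, hsub _ hψ, hr⟩
  obtain ⟨φ, hφ, hφN, hφmap⟩ := Cfsg.Agent.S5079.result p hS F Q₀ (P ⊓ T) hQ₀fa hQ₀rec hQ₀conj
  obtain ⟨χ, hχ, hχN, hχmap⟩ := Cfsg.Agent.S5079.result p hS F Q₀ Q' hQ₀fa hQ₀rec
    (isConj_trans F (isConj_symm F hQ'F) hQ₀conj)
  have hQ₀c : ¬ centralizerIn T Q₀ ≤ Q₀ := by
    intro hle
    apply hQ'c
    intro y hy
    have hyN : y ∈ normalizerIn S Q' := ⟨hTS hy.1, Subgroup.centralizer_le_normalizer _ hy.2⟩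
    have h1 : χ ⟨y, hyN⟩ ∈ centralizerIn T Q₀ := by
      refine ⟨sc_apply F hT hχ ⟨y, hyN⟩ hy.1, ?_⟩
      show _ ∈ Subgroup.centralizer (Q₀ : Set Ω)
      rw [Subgroup.mem_centralizer_iff]
      intro z hz
      have hz' : z ∈ (Q'.subgroupOf (normalizerIn S Q')).map χ := by rw [hχmap]; exact hz
      obtain ⟨z', hz'', rfl⟩ := hz'
      rw [← map_mul, ← map_mul]
      congr 1
      apply Subtype.ext
      exact Subgroup.mem_centralizer_iff.mp hy.2 (z' : Ω) (Subgroup.mem_subgroupOf.mp hz'')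
    have h2 : χ ⟨y, hyN⟩ ∈ (Q'.subgroupOf (normalizerIn S Q')).map χ := by rw [hχmap]; exact hle h1
    obtain ⟨z', hz', hzy⟩ := h2
    have h3 := F.injective_of_mem hχ hzy
    have h4 : (z' : Ω) = y := congrArg Subtype.val h3
    rw [← h4]
    exact Subgroup.mem_subgroupOf.mp hz'
  have hfinQ : Finite ↥(P ⊓ T) := finite_of_le hQS
  have hPN : P ≤ normalizerIn S (P ⊓ T) := by
    intro u hu
    refine ⟨hPS hu, ?_⟩
    apply mem_normalizer_of_forall_conj_mem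
    intro y hy
    exact ⟨P.mul_mem (P.mul_mem hu hy.1) (P.inv_mem hu),
      (Subgroup.mem_normalizer_iff.mp (hTnorm (hPS hu)) y).mp hy.2⟩
  obtain ⟨φ', hφ'def⟩ : ∃ φ' : P →* Ω, φ' = φ.comp (Subgroup.inclusion hPN) := ⟨_, rfl⟩
  have hφ' : φ' ∈ F.Hom P := hφ'def ▸ restrict_mem F hφ hPN
  have hQ₀eq : Q₀ = φ'.range ⊓ T := by
    apply le_antisymm
    · intro z hz
      have hz' : z ∈ ((P ⊓ T).subgroupOf (normalizerIn S (P ⊓ T))).map φ := by
        rw [hφmap]; exact hz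
      obtain ⟨w, hw, rfl⟩ := hz'
      have hw' := Subgroup.mem_subgroupOf.mp hw
      refine ⟨⟨⟨w, hw'.1⟩, ?_⟩, sc_apply F hT hφ w hw'.2⟩
      rw [hφ'def]
      rfl
    · rintro z ⟨⟨u, rfl⟩, hzT⟩
      obtain ⟨ψ, hψ, hψinv⟩ := F.inv_mem hφ'
      have h1 := sc_apply F hT hψ ⟨φ' u, ⟨u, rfl⟩⟩ hzT
      rw [hψinv u] at h1
      rw [← hφmap]
      refine ⟨Subgroup.inclusion hPN u, Subgroup.mem_subgroupOf.mpr ⟨u.2, h1⟩, ?_⟩
      rw [hφ'def]
      rfl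
  rw [hQ₀eq] at hQ₀c
  have hPsS : φ'.range ≤ S := by
    rintro _ ⟨u, rfl⟩
    exact (F.le_of_mem hφ').2 u
  obtain ⟨x, hxT, hxN, hxP, hxc⟩ := exists_elt p hS hTS hTnorm hPsS hQ₀c
  have hcore := conj_core p hS F hT hPsS hxT hxN hxc
  refine ⟨⟨φ', hφ', x, ⟨hTS hxT, hxN⟩, hxP, _, hcore,
    fun y => normalizerMonoidHom_coe ⟨x, hxN⟩ y⟩, ?_⟩
  intro hrad
  obtain ⟨e, he, hecoe⟩ := exists_iso_of_mem F hφ' rfl
  obtain ⟨α, hαdef⟩ : ∃ α : MulAut ↥φ'.range, α = (φ'.range).normalizerMonoidHom ⟨x, hxN⟩ :=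
    ⟨_, rfl⟩
  have hαx : ∀ y : ↥φ'.range, ((α y : ↥φ'.range) : Ω) = x * (y : Ω) * x⁻¹ := fun y => by
    rw [hαdef]
    exact normalizerMonoidHom_coe ⟨x, hxN⟩ y
  have hαA : α ∈ F.autGroup φ'.range := autInducedBy_le_autGroup F hPsS
    (mem_autInducedBy_iff.mpr ⟨x, hTS hxT, hαx⟩)
  have hα_iso : α ∈ IsoSet F φ'.range φ'.range := (mem_autGroup_iff F hPsS).mp hαA
  obtain ⟨α', hα'def⟩ : ∃ α' : MulAut P, α' = e.trans (α.trans e.symm) := ⟨_, rfl⟩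
  have hα'apply : ∀ y : P, α' y = e.symm (α (e y)) := fun y => by rw [hα'def]; rfl
  have hα'A : α' ∈ F.autGroup P := by
    rw [mem_autGroup_iff F hPS, hα'def]
    exact iso_trans F he (iso_trans F hα_iso (iso_symm F he))
  have hesymm : P.subtype.comp e.symm.toMonoidHom ∈ F.Hom φ'.range := iso_symm F he
  have hα'core := stab_core p hS F hT hPS α' hα'A
    (by
      intro y
      have h1 : (((e y)⁻¹ * α (e y) : ↥φ'.range) : Ω) ∈ T := by
        show ((e y : ↥φ'.range) : Ω)⁻¹ * ((α (e y) : ↥φ'.range) : Ω) ∈ T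
        rw [hαx]
        have hyS : ((e y : ↥φ'.range) : Ω) ∈ S := hPsS (e y).2
        have h2 : ((e y : ↥φ'.range) : Ω)⁻¹ * x * (((e y : ↥φ'.range) : Ω)⁻¹)⁻¹ ∈ T :=
          (Subgroup.mem_normalizer_iff.mp (Subgroup.inv_mem _ (hTnorm hyS)) x).mp hxT
        have e2 : ((e y : ↥φ'.range) : Ω)⁻¹ * (x * ((e y : ↥φ'.range) : Ω) * x⁻¹) =
            (((e y : ↥φ'.range) : Ω)⁻¹ * x * (((e y : ↥φ'.range) : Ω)⁻¹)⁻¹) * x⁻¹ := by group
        rw [e2]
        exact T.mul_mem h2 (T.inv_mem hxT)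
      have h3 := sc_apply F hT hesymm _ h1
      have e3 : (P.subtype.comp e.symm.toMonoidHom) ((e y)⁻¹ * α (e y)) =
          ((y⁻¹ * α' y : P) : Ω) := by
        rw [hα'apply]
        show ((e.symm ((e y)⁻¹ * α (e y)) : P) : Ω) = _
        rw [map_mul, map_inv, MulEquiv.symm_apply_apply]
      rw [e3] at h3
      exact h3)
    (by
      intro y hy
      rw [hα'apply]
      have h1 : ((e y : ↥φ'.range) : Ω) ∈ T := by
        rw [hecoe]
        exact sc_apply F hT hφ' y hy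
      have h2 : α (e y) = e y := by
        apply Subtype.ext
        rw [hαx, hxc _ (e y).2 h1]
        group
      rw [h2, MulEquiv.symm_apply_apply])
  rw [hrad.2] at hα'core
  obtain ⟨u, hu⟩ := hα'core
  have hCs : centralizerIn S φ'.range ≤ φ'.range := hP.2 _ ⟨φ', hφ', rfl⟩
  apply not_mem_inn_of_centralizerIn_le hPsS hCs (hTS hxT) hxP hαx
  refine ⟨e u, ?_⟩
  apply MulEquiv.ext
  intro z
  have h1 : α' (e.symm z) = e.symm (α z) := by
    rw [hα'apply, MulEquiv.apply_symm_apply]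
  rw [← hu] at h1
  have h2 : α z = e (MulAut.conj u (e.symm z)) := by
    rw [h1, MulEquiv.apply_symm_apply]
  rw [h2, MulAut.conj_apply, MulAut.conj_apply, map_mul, map_mul, map_inv,
    MulEquiv.apply_symm_apply]

end Cfsg.Agent.S5251
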