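import Cfsg.Statements.S5283
import Cfsg.Agent.Lib.Helper26.SupC
import Cfsg.Agent.Lib.Helper26.SupD
import Cfsg.Agent.Lib.Helper27.AutSys
import Cfsg.Agent.S5087
import Cfsg.Agent.S5080

set_option autoImplicit false
open Cfsg

namespace Cfsg.Agent.S5283

open Cfsg.Agent.Lib.Helper26 Cfsg.FusionSystem

/-- Call a saturated fusion system F over a finite p-group S supersoluble when S has a chain of subgroups 1 = S_0 ≤ S_1 ≤ … ≤ S_m = S, each strongly closed in F, with each S_{i+1} generated by S_i together with one further element (cyclic steps). Then every saturated fusion system over S is supersoluble if and only if S is normal in every saturated fusion system over S (S is resistant) and every subgroup of Aut(S) of order prime to p is abelian of exponent dividing p − 1. -/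
theorem result {Ω : Type*} [Group Ω] {S : Subgroup Ω} [Finite S] (p : ℕ) [Fact p.Prime] (hS : IsPGroup p ↥S) : (∀ F : Cfsg.FusionSystem S, F.IsSaturated p → (∃ (m : ℕ) (c : Fin (m + 1) → Subgroup Ω), c 0 = ⊥ ∧ c (Fin.last m) = S ∧ (∀ i : Fin (m + 1), F.StronglyClosed (c i)) ∧ ∀ i : Fin m, c i.castSucc ≤ c i.succ ∧ ∃ x ∈ S, c i.succ = c i.castSucc ⊔ Subgroup.zpowers x)) ↔ (∀ F : Cfsg.FusionSystem S, F.IsSaturated p → F.IsNormal S) ∧ ∀ H : Subgroup (MulAut ↥S), (Nat.card ↥H).Coprime p → IsMulCommutative ↥H ∧ ∀ h ∈ H, h ^ (p - 1) = 1 := by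
  constructor
  · intro hsup
    have hconv : ∀ F : Cfsg.FusionSystem S, F.IsSaturated p → ∃ (m : ℕ) (C : ℕ → Subgroup Ω),
        C 0 = ⊥ ∧ C m = S ∧ (∀ k ≤ m, F.StronglyClosed (C k)) ∧
        ∀ k < m, ∃ y ∈ S, C (k + 1) = C k ⊔ Subgroup.zpowers y := by
      intro F hF
      obtain ⟨m, c, hc0, hcl, hsc, hst⟩ := hsup F hF
      refine ⟨m, fun i => c ⟨min i m, by omega⟩, ?_, ?_, fun k _ => hsc _, fun k hk => ?_⟩
      · have e : (⟨min 0 m, by omega⟩ : Fin (m + 1)) = 0 := Fin.ext (Nat.zero_min m)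
        show c ⟨min 0 m, _⟩ = ⊥
        rw [e]
        exact hc0
      · have e : (⟨min m m, by omega⟩ : Fin (m + 1)) = Fin.last m := Fin.ext (Nat.min_self m)
        show c ⟨min m m, _⟩ = S
        rw [e]
        exact hcl
      · obtain ⟨-, y, hy, hyc⟩ := hst ⟨k, hk⟩
        refine ⟨y, hy, ?_⟩
        have e1 : (⟨min (k + 1) m, by omega⟩ : Fin (m + 1)) = (⟨k, hk⟩ : Fin m).succ :=
          Fin.ext (by simp; omega)
        have e2 : (⟨min k m, by omega⟩ : Fin (m + 1)) = (⟨k, hk⟩ : Fin m).castSucc :=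
          Fin.ext (by simp; omega)
        show c ⟨min (k + 1) m, _⟩ = c ⟨min k m, _⟩ ⊔ Subgroup.zpowers y
        rw [e1, e2]
        exact hyc
    constructor
    · intro F hF
      obtain ⟨m, C, hC0, hCm, hCsc, hCst⟩ := hconv F hF
      rw [Cfsg.Agent.S5087.result p hS F hF S]
      intro P hP
      have hSP : S ≤ P := by
        rcases hP with hPe | hess
        · exact hPe.ge
        · exact le_of_essential_chain hS F hess.1 (Cfsg.Agent.S5080.result p hS F hF P hess)
            C m hC0 hCm hCsc hCst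
      have hPS : P ≤ S := by
        rcases hP with hPe | hess
        · exact hPe.le
        · exact hess.1.1
      refine ⟨hSP, fun α _ => ?_⟩
      have h1 : S.subgroupOf P = ⊤ := Subgroup.subgroupOf_eq_top.mpr hPS
      rw [h1]
      exact Subgroup.map_top_of_surjective _ α.surjective
    · intro H hH
      have hsat := Cfsg.Agent.Lib.Helper27.autSys_saturated S hS H hH
      obtain ⟨m, C, hC0, hCm, hCsc, hCst⟩ := hconv _ hsat
      have hCn : ∀ k ≤ m, S ≤ Subgroup.normalizer (C k : Set Ω) := fun k hk =>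
        stronglyClosed_le_normalizer _ (hCsc k hk)
      have hCinv : ∀ k ≤ m, ∀ h ∈ H, ∀ x : S, (x : Ω) ∈ C k → ((h x : S) : Ω) ∈ C k := by
        intro k hk h hh x hx
        have hle := (hCsc k hk).1
        have hmem : (S.subtype.comp h.toMonoidHom).comp (Subgroup.inclusion hle) ∈
            (Cfsg.Agent.Lib.Helper27.autSys S H).Hom (C k) := by
          refine ⟨hle, 1, h, hh, fun y => ?_⟩
          show ((h (Subgroup.inclusion hle y) : S) : Ω) = ((1 * h ⟨y, hle y.2⟩ * 1⁻¹ : S) : Ω)
          rw [one_mul, inv_one, mul_one]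
          rfl
        exact (hCsc k hk).2 (C k) le_rfl _ hmem ⟨x, hx⟩
      obtain ⟨hcomm, hpow⟩ := aut_abelian_of_chain hS H hH C m hC0 hCm hCn hCinv hCst
      exact ⟨IsMulCommutative.of_comm (fun a b => Subtype.ext (hcomm a a.2 b b.2)), hpow⟩
  · rintro ⟨hres, hH⟩ F hF
    have hn := hres F hF
    obtain ⟨hcomm, hpow⟩ := aut_comm_inn hS F hF hH
    have hInn : Cfsg.autInducedBy S S ≤ F.autGroup S := autInducedBy_le_autGroup F le_rfl
    obtain ⟨m, c, hc0, hcl, hci, hcs⟩ := exists_chain_from hS (F.autGroup S) hInn hcomm hpow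
      (Nat.card S - Nat.card (⊥ : Subgroup Ω)) ⊥ bot_le (fun α _ x hx => by
        have h1 : x = 1 := Subtype.ext (Subgroup.mem_bot.mp hx)
        rw [h1, map_one]
        exact Subgroup.one_mem _) le_rfl
    exact ⟨m, c, hc0, hcl, fun i => stronglyClosed_of_aut_invariant F hn (hci i).1 (hci i).2, hcs⟩

end Cfsg.Agent.S5283
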