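import Cfsg.Statements.S5284
import Cfsg.Agent.Lib.Helper26.SupC
import Cfsg.Agent.Lib.Helper26.SupD
import Cfsg.Agent.Lib.Helper26.SupE
import Cfsg.Agent.Lib.Helper26.SupF
import Cfsg.Agent.S5283
import Cfsg.Agent.S5087

set_option autoImplicit false
open Cfsg

namespace Cfsg.Agent.S5284

open Cfsg.Agent.Lib.Helper26 Cfsg.FusionSystem

/-- Let S be a finite abelian p-group. Every saturated fusion system over S is supersoluble (S has a chain of F-strongly closed subgroups from 1 to S with cyclic steps) if and only if the invariants of S are pairwise distinct, that is, S is not isomorphic to a direct product (Z/p^n × Z/p^n) × H with n ≥ 1. -/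
theorem result {Ω : Type*} [Group Ω] {S : Subgroup Ω} [Finite S] (p : ℕ) [Fact p.Prime] (hS : IsPGroup p ↥S) (hab : IsMulCommutative ↥S) : (∀ F : Cfsg.FusionSystem S, F.IsSaturated p → (∃ (m : ℕ) (c : Fin (m + 1) → Subgroup Ω), c 0 = ⊥ ∧ c (Fin.last m) = S ∧ (∀ i : Fin (m + 1), F.StronglyClosed (c i)) ∧ ∀ i : Fin m, c i.castSucc ≤ c i.succ ∧ ∃ x ∈ S, c i.succ = c i.castSucc ⊔ Subgroup.zpowers x)) ↔ ¬ ∃ (n : ℕ) (H : Type) (_ : CommGroup H), 0 < n ∧ Nonempty (↥S ≃* (Multiplicative (ZMod (p ^ n)) × Multiplicative (ZMod (p ^ n))) × H) := by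
  have hbadS : ∀ (n : ℕ) (H : Type) (_ : CommGroup H), 0 < n →
      (↥S ≃* (Multiplicative (ZMod (p ^ n)) × Multiplicative (ZMod (p ^ n))) × H) →
      ∃ K : Subgroup (MulAut ↥S), (Nat.card K).Coprime p ∧
        ¬ ((∀ a ∈ K, ∀ b ∈ K, a * b = b * a) ∧ ∀ h ∈ K, h ^ (p - 1) = 1) := by
    intro n H instH hn ε
    letI instC : CommGroup ↥S :=
      { (inferInstance : Group ↥S) with mul_comm := fun a b => mul_comm' a b }
    exact exists_bad_aut (G := ↥S) p n hn ε
  have hreachS : (¬ ∃ (n : ℕ) (H : Type) (_ : CommGroup H), 0 < n ∧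
      Nonempty (↥S ≃* (Multiplicative (ZMod (p ^ n)) × Multiplicative (ZMod (p ^ n))) × H)) →
      ∃ (m : ℕ) (C : ℕ → Subgroup ↥S), C 0 = ⊥ ∧ C m = ⊤ ∧
        (∀ k ≤ m, ∀ f : ↥S →* ↥S, ∀ x ∈ C k, f x ∈ C k) ∧
        ∀ k < m, ∃ y : ↥S, C (k + 1) = C k ⊔ Subgroup.zpowers y := by
    intro hno
    letI instC : CommGroup ↥S :=
      { (inferInstance : Group ↥S) with mul_comm := fun a b => mul_comm' a b }
    exact reach_top_of_no_repeat (G := ↥S) p hS hno
  have hcommS : ∀ x ∈ S, ∀ s ∈ S, x * s = s * x := by
    intro x hx s hs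
    have h1 := mul_comm' (⟨x, hx⟩ : S) ⟨s, hs⟩
    exact congrArg Subtype.val h1
  rw [Cfsg.Agent.S5283.result p hS]
  constructor
  · rintro ⟨-, hA⟩ ⟨n, H, instH, hn, ⟨ε⟩⟩
    obtain ⟨K, hK, hbad⟩ := hbadS n H instH hn ε
    obtain ⟨hc, hpow⟩ := hA K hK
    refine hbad ⟨fun a ha b hb => ?_, hpow⟩
    have h1 := mul_comm' (⟨a, ha⟩ : K) ⟨b, hb⟩
    exact congrArg Subtype.val h1
  · intro hno
    constructor
    · intro F hF
      rw [Cfsg.Agent.S5087.result p hS F hF S]
      intro P hP
      have hPS : P ≤ S := by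
        rcases hP with hPe | hess
        · exact hPe.le
        · exact hess.1.1
      have hSP : S ≤ P := by
        rcases hP with hPe | hess
        · exact hPe.ge
        · have hcen := hess.1.2 P (isConj_refl F hPS)
          intro s hs
          apply hcen
          refine ⟨hs, ?_⟩
          show s ∈ Subgroup.centralizer (P : Set Ω)
          rw [Subgroup.mem_centralizer_iff]
          intro x hx
          exact hcommS x (hPS hx) s hs
      refine ⟨hSP, fun α _ => ?_⟩
      have h1 : S.subgroupOf P = ⊤ := Subgroup.subgroupOf_eq_top.mpr hPS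
      rw [h1]
      exact Subgroup.map_top_of_surjective _ α.surjective
    · intro H hH
      obtain ⟨m, C, hC0, hCm, hCinv, hCst⟩ := hreachS hno
      have hle : ∀ k, (C k).map S.subtype ≤ S := by
        intro k z hz
        obtain ⟨c, -, rfl⟩ := hz
        exact c.2
      have hconj : ∀ z ∈ S, ∀ s ∈ S, s * z * s⁻¹ = z := by
        intro z hz s hs
        rw [← hcommS z hz s hs, mul_inv_cancel_right]
      obtain ⟨hcomm, hpow⟩ := aut_abelian_of_chain hS H hH (fun k => (C k).map S.subtype) m
        (by
          show (C 0).map S.subtype = ⊥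
          rw [hC0, Subgroup.map_bot])
        (by
          show (C m).map S.subtype = S
          rw [hCm, ← MonoidHom.range_eq_map, Subgroup.range_subtype])
        (by
          intro k hk s hs
          rw [Subgroup.mem_normalizer_iff]
          intro z
          constructor
          · intro hz
            rw [hconj z (hle k hz) s hs]
            exact hz
          · intro hz
            have hzS : z ∈ S := by
              have h1 := hle k hz
              have h2 : z = s⁻¹ * (s * z * s⁻¹) * s := by group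
              rw [h2]
              exact S.mul_mem (S.mul_mem (S.inv_mem hs) h1) hs
            rw [hconj z hzS s hs] at hz
            exact hz)
        (by
          intro k hk h hh x hx
          obtain ⟨c, hc, hcx⟩ := hx
          have hcx' : c = x := Subtype.ext hcx
          subst hcx'
          exact Subgroup.mem_map_of_mem _ (hCinv k hk h.toMonoidHom c hc))
        (by
          intro k hk
          obtain ⟨y, hy⟩ := hCst k hk
          refine ⟨(y : Ω), y.2, ?_⟩
          show (C (k + 1)).map S.subtype = (C k).map S.subtype ⊔ _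
          rw [hy, Subgroup.map_sup, MonoidHom.map_zpowers]
          rfl)
      exact ⟨IsMulCommutative.of_comm (fun a b => Subtype.ext (hcomm a a.2 b b.2)), hpow⟩

end Cfsg.Agent.S5284
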