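import Mathlib
import Cfsg.Statements.S5290
import Cfsg.Agent.Lib.Helper26.FusStab
import Cfsg.Agent.Lib.Helper27.FusAb
import Cfsg.Agent.S5086

set_option autoImplicit false
open Cfsg

namespace Cfsg.Agent.S5290

open Cfsg.FusionSystem Cfsg.Agent.Lib.Helper26 Cfsg.Agent.Lib.Helper27

universe u

variable {Ω : Type u} [Group Ω] {S : Subgroup Ω}

theorem forward [Finite S] (p : ℕ) [Fact p.Prime] (hS : IsPGroup p S)
    (F : Cfsg.FusionSystem S) (hF : F.IsSaturated p)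
    (Q : Subgroup Ω) (hQ : Q ≤ S) (hN : F.IsNormal Q) :
    (Cfsg.innerFusionSystem Q).IsWeaklyNormalIn F p := by
  have hfin : Finite Q := finite_of_le hQ
  refine ⟨inner_saturated p (hS.to_le hQ), hF, ?_, stronglyClosed_of_isNormal F hN, ?_, ?_⟩
  · rintro P φ ⟨hP, g, hg, h⟩
    have e : φ = conjHom P g := by
      ext x
      rw [conjHom_apply]
      exact h x
    rw [e]
    exact F.conj_mem (hP.trans hQ) (hQ hg)
  · rintro P hPT φ ⟨hP, g, hg, h⟩ α hα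
    refine ⟨conjHom _ ((α ⟨g, hg⟩ : Q) : Ω), ⟨?_, _, (α ⟨g, hg⟩).2, fun x => rfl⟩, ?_⟩
    · rintro _ ⟨y, -, rfl⟩
      exact (α y).2
    · intro x hφx hαx
      show ((α ⟨g, hg⟩ : Q) : Ω) * ((α ⟨x, hPT x.2⟩ : Q) : Ω) * ((α ⟨g, hg⟩ : Q) : Ω)⁻¹ = _
      have h1 : (⟨φ x, hφx⟩ : Q) = ⟨g, hg⟩ * ⟨x, hPT x.2⟩ * (⟨g, hg⟩ : Q)⁻¹ := Subtype.ext (h x)
      rw [h1, map_mul, map_mul, map_inv]
      rfl
  · intro P hPQ φ hφ
    obtain ⟨ψ, hψ, hext, hmap⟩ := hN.2 P φ hφ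
    have hψ' := restrict_mem F hψ (le_sup_right : Q ≤ P ⊔ Q)
    have hr : (ψ.comp (Subgroup.inclusion (le_sup_right : Q ≤ P ⊔ Q))).range = Q := by
      apply le_antisymm
      · rintro _ ⟨y, rfl⟩
        have h2 : ψ (Subgroup.inclusion le_sup_right y) ∈ (Q.subgroupOf (P ⊔ Q)).map ψ :=
          Subgroup.mem_map_of_mem _ (Subgroup.mem_subgroupOf.mpr y.2)
        rw [hmap] at h2
        exact h2
      · intro y hy
        rw [← hmap] at hy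
        obtain ⟨z, hz, rfl⟩ := hy
        exact ⟨⟨z, Subgroup.mem_subgroupOf.mp hz⟩, rfl⟩
    obtain ⟨α, hα, hαx⟩ := exists_iso_of_mem F hψ' hr
    refine ⟨α, (mem_autGroup_iff F hQ).mpr hα, Q.subtype.comp (Subgroup.inclusion hPQ),
      ⟨hPQ, 1, Q.one_mem, fun x => by simp⟩, ?_⟩
    intro x hx
    rw [hαx]
    show φ x = ψ (Subgroup.inclusion le_sup_right ⟨(x : Ω), hx⟩)
    rw [← hext x]
    rfl

theorem backward [Finite S] (p : ℕ) [Fact p.Prime] (hS : IsPGroup p S)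
    (F : Cfsg.FusionSystem S) (hF : F.IsSaturated p)
    (Q : Subgroup Ω) (hQ : Q ≤ S)
    (hW : (Cfsg.innerFusionSystem Q).IsWeaklyNormalIn F p) : F.IsNormal Q := by
  obtain ⟨-, -, -, hsc, -, hfr⟩ := hW
  rw [Cfsg.Agent.S5086.result p hS F hF Q]
  refine ⟨hsc, fun P hc hr => ?_⟩
  have hP : P ≤ S := hc.1
  have hinv : ∀ α ∈ F.autGroup P, ∀ x : P, (x : Ω) ∈ Q → ((α x : P) : Ω) ∈ Q :=
    fun α hα x hx => stronglyClosed_aut_invariant F hsc hP hα x hx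
  let A' : Subgroup (MulAut P) :=
    { carrier := {β | β ∈ F.autGroup P ∧
        ∃ q ∈ Q, ∀ x : P, (x : Ω) ∈ Q → ((β x : P) : Ω) = q * x * q⁻¹}
      mul_mem' := by
        rintro β₁ β₂ ⟨h1, q₁, hq₁, e₁⟩ ⟨h2, q₂, hq₂, e₂⟩
        refine ⟨mul_mem h1 h2, q₁ * q₂, Q.mul_mem hq₁ hq₂, fun x hx => ?_⟩
        show ((β₁ (β₂ x) : P) : Ω) = _
        rw [e₁ _ (hinv β₂ h2 x hx), e₂ x hx]
        group
      one_mem' := ⟨one_mem _, 1, Q.one_mem, fun x _ => by simp⟩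
      inv_mem' := by
        rintro β ⟨h1, q, hq, e⟩
        refine ⟨inv_mem h1, q⁻¹, Q.inv_mem hq, fun x hx => ?_⟩
        have hy := hinv β⁻¹ (inv_mem h1) x hx
        have h3 := e _ hy
        have h4 : β (β⁻¹ x) = x := by
          show (β * β⁻¹) x = x
          rw [mul_inv_cancel]; rfl
        rw [h4] at h3
        rw [h3]
        group }
  have hA'mem : ∀ β : MulAut P, β ∈ A' ↔ β ∈ F.autGroup P ∧
        ∃ q ∈ Q, ∀ x : P, (x : Ω) ∈ Q → ((β x : P) : Ω) = q * x * q⁻¹ := fun β => Iff.rfl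
  refine le_of_chain hS F hc hr hsc A' (fun β hβ => hβ.1) ?_ (fun _ => Q) 0 rfl ?_ ?_ ?_ ?_
  · -- normality
    intro α hα β hβ
    obtain ⟨hβA, q, hq, e⟩ := (hA'mem β).mp hβ
    have hαhom := restrict_mem F (autGroup_hom_mem F hP hα) (inf_le_left : P ⊓ Q ≤ P)
    obtain ⟨α', hα', φ₀, ⟨-, r, hr, h₀⟩, hfac⟩ := hfr (P ⊓ Q) inf_le_right _ hαhom
    have hrmem : ∀ y ∈ Q, r * y * r⁻¹ ∈ Q := fun y hy => Q.mul_mem (Q.mul_mem hr hy) (Q.inv_mem hr)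
    have key : ∀ (y : P) (hy : (y : Ω) ∈ Q), ((α y : P) : Ω) = ((α' ⟨r * y * r⁻¹, hrmem _ hy⟩ : Q) : Ω) := by
      intro y hy
      have h5 := hfac ⟨y, ⟨y.2, hy⟩⟩ (by rw [h₀]; exact hrmem _ hy)
      have h6 : ((P.subtype.comp (MulEquiv.toMonoidHom α)).comp (Subgroup.inclusion (inf_le_left : P ⊓ Q ≤ P)))
          ⟨y, ⟨y.2, hy⟩⟩ = ((α y : P) : Ω) := rfl
      rw [h6] at h5
      rw [h5]
      congr 2
      apply Subtype.ext
      exact h₀ _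
    refine (hA'mem _).mpr ⟨mul_mem (mul_mem hα hβA) (inv_mem hα),
      ((α' ⟨r * q * r⁻¹, hrmem _ hq⟩ : Q) : Ω), (α' _).2, fun x hx => ?_⟩
    have hy := hinv α⁻¹ (inv_mem hα) x hx
    have hby := hinv β hβA _ hy
    show ((α (β (α⁻¹ x)) : P) : Ω) = _
    rw [key _ hby]
    have hx' : ((x : P) : Ω) = ((α' ⟨r * ((α⁻¹ x : P) : Ω) * r⁻¹, hrmem _ hy⟩ : Q) : Ω) := by
      rw [← key _ hy]
      have h4 : α (α⁻¹ x) = x := by
        show (α * α⁻¹) x = x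
        rw [mul_inv_cancel]; rfl
      rw [h4]
    rw [hx']
    have h7 : (⟨r * ((β (α⁻¹ x) : P) : Ω) * r⁻¹, hrmem _ hby⟩ : Q) =
        ⟨r * q * r⁻¹, hrmem _ hq⟩ * ⟨r * ((α⁻¹ x : P) : Ω) * r⁻¹, hrmem _ hy⟩ *
          (⟨r * q * r⁻¹, hrmem _ hq⟩ : Q)⁻¹ := by
      apply Subtype.ext
      show r * ((β (α⁻¹ x) : P) : Ω) * r⁻¹ = r * q * r⁻¹ * (r * ((α⁻¹ x : P) : Ω) * r⁻¹) * (r * q * r⁻¹)⁻¹
      rw [e _ hy]
      group
    rw [h7, map_mul, map_mul, map_inv]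
    rfl
  · intro i _ α hα x hx
    exact hinv α hα x hx
  · intro i hi
    exact absurd hi (Nat.not_lt_zero _)
  · intro β hβ
    obtain ⟨hβA, q, hq, e⟩ := (hA'mem β).mp hβ
    have hpow : ∀ n : ℕ, ∀ x : P, (x : Ω) ∈ Q → (((β ^ n) x : P) : Ω) = q ^ n * x * (q ^ n)⁻¹ := by
      intro n
      induction n with
      | zero => intro x _; simp
      | succ n ih =>
        intro x hx
        rw [pow_succ]
        show (((β ^ n) (β x) : P) : Ω) = _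
        rw [ih _ (hinv β hβA x hx), e x hx, pow_succ]
        group
    obtain ⟨k, hk⟩ := hS ⟨q, hQ hq⟩
    have hk' : q ^ (p ^ k) = 1 := by
      have := congrArg (fun z : S => (z : Ω)) hk
      simpa using this
    refine ⟨k, fun x hx => ?_⟩
    apply Subtype.ext
    rw [hpow _ x hx, hk']
    simp
  · intro g hg hgQ
    refine (hA'mem _).mpr ⟨autInducedBy_le_autGroup F hP (mem_autInducedBy_iff.mpr ⟨g, hQ hgQ, fun x => rfl⟩),
      g, hgQ, fun x _ => rfl⟩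

theorem result {Ω : Type*} [Group Ω] {S : Subgroup Ω} [Finite S] (p : ℕ) [Fact p.Prime] (hS : IsPGroup p S)
    (F : Cfsg.FusionSystem S) (hF : F.IsSaturated p)
    (Q : Subgroup Ω) (hQ : Q ≤ S) :
    F.IsNormal Q ↔ (Cfsg.innerFusionSystem Q).IsWeaklyNormalIn F p := by
  exact ⟨forward p hS F hF Q hQ, backward p hS F hF Q hQ⟩

end Cfsg.Agent.S5290
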