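import Mathlib
import Cfsg.Statements.S5291
import Cfsg.Agent.Lib.Helper26.FusStab
import Cfsg.Agent.Lib.Helper26.FusNK2
import Cfsg.Agent.S5088
import Cfsg.Agent.S5085

set_option autoImplicit false
open Cfsg

namespace Cfsg.Agent.S5291

open Cfsg.FusionSystem Cfsg.Agent.Lib.Helper26

/-- Let F be a saturated fusion system over a finite p-group S and E a weakly normal subsystem of F over a subgroup T. Suppose a subgroup R of T is normal in E (E = N_E(R)), and let R* be the subgroup of T generated by the images of R under all maps of F with source R. Then R* is normal in F (F = N_F(R*)). -/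
theorem result {Ω : Type*} [Group Ω] {S : Subgroup Ω} [Finite S] (p : ℕ) [Fact p.Prime] (hS : IsPGroup p S)
    (F : Cfsg.FusionSystem S) (hF : F.IsSaturated p)
    {T : Subgroup Ω} (E : Cfsg.FusionSystem T) (hE : E.IsWeaklyNormalIn F p)
    (R : Subgroup Ω) (hR : E.IsNormal R) :
    F.IsNormal (Subgroup.closure {x : Ω | ∃ φ ∈ F.Hom R, ∃ r : R, x = φ r}) := by
  obtain ⟨hEsat, -, hsub, hsc, hinvar, hfrat⟩ := hE
  have hTS : T ≤ S := hsc.1
  have hfinT : Finite T := finite_of_le hTS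
  have hTp : IsPGroup p T := hS.to_le hTS
  have hRT : R ≤ T := hR.1
  have hRsc : E.StronglyClosed R := stronglyClosed_of_isNormal E hR
  obtain ⟨Rs, hRs⟩ : ∃ Rs : Subgroup Ω,
      Rs = Subgroup.closure {x : Ω | ∃ φ ∈ F.Hom R, ∃ r : R, x = φ r} := ⟨_, rfl⟩
  rw [← hRs]
  have hgen : ∀ φ ∈ F.Hom R, ∀ r : R, φ r ∈ Rs := by
    intro φ hφ r
    rw [hRs]
    exact Subgroup.subset_closure ⟨φ, hφ, r, rfl⟩
  have hRsT : Rs ≤ T := by
    rw [hRs, Subgroup.closure_le]
    rintro _ ⟨φ, hφ, r, rfl⟩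
    exact hsc.2 R hRT φ hφ r
  -- images of strongly closed subgroups of `E` under `Aut_F(T)` are strongly closed in `E`
  have lemA : ∀ (Q : Subgroup Ω), E.StronglyClosed Q → ∀ α ∈ F.autGroup T,
      E.StronglyClosed ((Q.subgroupOf T).map (T.subtype.comp α.toMonoidHom)) := by
    intro Q hQ α hα
    refine ⟨?_, fun A hA φ hφ x => ?_⟩
    · rintro _ ⟨y, -, rfl⟩
      exact (α y).2
    · have hAT : A ≤ T := (E.le_of_mem hφ).1
      have hφT : φ x ∈ T := (E.le_of_mem hφ).2 x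
      obtain ⟨χ, hχ, hχx⟩ := hinvar A hAT φ hφ α⁻¹ (inv_mem hα)
      have hle : (A.subgroupOf T).map (T.subtype.comp (α⁻¹).toMonoidHom) ≤ Q := by
        rintro _ ⟨y, hy, rfl⟩
        obtain ⟨q, hq, hqy⟩ := hA (Subgroup.mem_subgroupOf.mp hy)
        have h3 : α q = y := Subtype.ext hqy
        show ((α⁻¹ y : T) : Ω) ∈ Q
        rw [← h3, MulAut.inv_apply_self]
        exact Subgroup.mem_subgroupOf.mp hq
      have hmem : ((α⁻¹ ⟨x, hAT x.2⟩ : T) : Ω) ∈
          (A.subgroupOf T).map (T.subtype.comp (α⁻¹).toMonoidHom) :=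
        ⟨⟨x, hAT x.2⟩, Subgroup.mem_subgroupOf.mpr x.2, rfl⟩
      have h1 := hχx x hφT hmem
      have h2 := hQ.2 _ hle χ hχ ⟨_, hmem⟩
      rw [h1] at h2
      refine ⟨α⁻¹ ⟨φ x, hφT⟩, Subgroup.mem_subgroupOf.mpr h2, ?_⟩
      show ((α (α⁻¹ ⟨φ x, hφT⟩) : T) : Ω) = φ x
      rw [MulAut.apply_inv_self]
  -- images of `R` under `Aut_F(T)` are normal in `E`
  have step2 : ∀ α ∈ F.autGroup T,
      E.IsNormal ((R.subgroupOf T).map (T.subtype.comp α.toMonoidHom)) := by
    intro α hα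
    obtain ⟨n, Qs, h0, hn, hmono, hstep⟩ := (Cfsg.Agent.S5088.result p hTp E hEsat R).mp hR
    apply (Cfsg.Agent.S5088.result p hTp E hEsat _).mpr
    refine ⟨n, fun i => ((Qs i).subgroupOf T).map (T.subtype.comp α.toMonoidHom), ?_, ?_, ?_, ?_⟩
    · show ((Qs 0).subgroupOf T).map _ = ⊥
      rw [h0, Subgroup.bot_subgroupOf, Subgroup.map_bot]
    · show ((Qs (Fin.last n)).subgroupOf T).map _ = _
      rw [hn]
    · intro i j hij
      exact Subgroup.map_mono (Subgroup.comap_mono (hmono hij))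
    · intro i
      refine ⟨lemA _ (hstep i).1 α hα, ?_⟩
      show ⁅(R.subgroupOf T).map (T.subtype.comp α.toMonoidHom),
        ((Qs i.succ).subgroupOf T).map (T.subtype.comp α.toMonoidHom)⁆ ≤
          ((Qs i.castSucc).subgroupOf T).map (T.subtype.comp α.toMonoidHom)
      rw [← Subgroup.map_commutator]
      apply Subgroup.map_mono
      rw [Subgroup.commutator_le]
      intro a ha b hb
      apply Subgroup.mem_subgroupOf.mpr
      apply (hstep i).2
      exact Subgroup.commutator_mem_commutator (Subgroup.mem_subgroupOf.mp ha)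
        (Subgroup.mem_subgroupOf.mp hb)
  have hαR : ∀ α ∈ F.autGroup T, (R.subgroupOf T).map (T.subtype.comp α.toMonoidHom) ≤ Rs := by
    intro α hα
    rintro _ ⟨y, hy, rfl⟩
    have hαF := restrict_mem F (autGroup_hom_mem F hTS hα) hRT
    exact hgen _ hαF ⟨y, Subgroup.mem_subgroupOf.mp hy⟩
  have hRsE : E.IsNormal Rs := by
    have hmem := sSup_mem_of_sup_closed (S := T) {Q | E.IsNormal Q ∧ Q ≤ Rs} (fun Q hQ => hQ.1.1)
      ⟨⊥, isNormal_bot E, bot_le⟩
      (fun Q₁ h₁ Q₂ h₂ => ⟨isNormal_sup E h₁.1 h₂.1, sup_le h₁.2 h₂.2⟩)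
    have heq : sSup {Q | E.IsNormal Q ∧ Q ≤ Rs} = Rs := by
      apply le_antisymm (sSup_le (fun Q hQ => hQ.2))
      conv_lhs => rw [hRs]
      rw [Subgroup.closure_le]
      rintro _ ⟨φ, hφ, r, rfl⟩
      obtain ⟨α, hα, φ₀, hφ₀, hfac⟩ := hfrat R hRT φ hφ
      have h0 : φ₀ r ∈ R := hRsc.2 R le_rfl φ₀ hφ₀ r
      have h1 := hfac r (hRT h0)
      have h2 : φ r ∈ (R.subgroupOf T).map (T.subtype.comp α.toMonoidHom) :=
        ⟨⟨φ₀ r, hRT h0⟩, Subgroup.mem_subgroupOf.mpr h0, h1.symm⟩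
      exact (le_sSup (show _ ∈ {Q | E.IsNormal Q ∧ Q ≤ Rs} from ⟨step2 α hα, hαR α hα⟩)) h2
    rw [heq] at hmem
    exact hmem.1
  have hRsinv : ∀ α ∈ F.autGroup T, ∀ x : T, (x : Ω) ∈ Rs → ((α x : T) : Ω) ∈ Rs := by
    intro α hα x hx
    have key : ∀ y ∈ Rs, ∀ hy : y ∈ T, ((α ⟨y, hy⟩ : T) : Ω) ∈ Rs := by
      intro y hy
      rw [hRs] at hy
      refine Subgroup.closure_induction
        (p := fun y _ => ∀ hy : y ∈ T, ((α ⟨y, hy⟩ : T) : Ω) ∈ Rs) ?_ ?_ ?_ ?_ hy
      · rintro _ ⟨φ, hφ, r, rfl⟩ hy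
        have hφT : ∀ r : R, φ r ∈ T := fun r => hsc.2 R hRT φ hφ r
        have hcomp := F.comp_mem hφ (autGroup_hom_mem F hTS hα) hφT
        exact hgen _ hcomp r
      · intro hy
        have h1 : (⟨1, hy⟩ : T) = 1 := rfl
        rw [h1, map_one]
        exact Rs.one_mem
      · intro a b ha hb iha ihb hy
        have haT : a ∈ T := hRsT (hRs ▸ ha)
        have hbT : b ∈ T := hRsT (hRs ▸ hb)
        have h1 : (⟨a * b, hy⟩ : T) = ⟨a, haT⟩ * ⟨b, hbT⟩ := rfl
        rw [h1, map_mul]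
        exact Rs.mul_mem (iha haT) (ihb hbT)
      · intro a ha iha hy
        have haT : a ∈ T := hRsT (hRs ▸ ha)
        have h1 : (⟨a⁻¹, hy⟩ : T) = (⟨a, haT⟩ : T)⁻¹ := rfl
        rw [h1, map_inv]
        exact Rs.inv_mem (iha haT)
    exact key x hx x.2
  have lemB : ∀ Q : Subgroup Ω, E.StronglyClosed Q →
      (∀ α ∈ F.autGroup T, ∀ x : T, (x : Ω) ∈ Q → ((α x : T) : Ω) ∈ Q) → F.StronglyClosed Q := by
    intro Q hQ hQinv
    refine ⟨hQ.1.trans hTS, fun A hA φ hφ x => ?_⟩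
    obtain ⟨α, hα, φ₀, hφ₀, hfac⟩ := hfrat A (hA.trans hQ.1) φ hφ
    have h0 : φ₀ x ∈ Q := hQ.2 A hA φ₀ hφ₀ x
    rw [hfac x (hQ.1 h0)]
    exact hQinv α hα _ h0
  have hfinRs : Finite Rs := finite_of_le (hRsT.trans hTS)
  have hnil : Group.IsNilpotent Rs := (hS.to_le (hRsT.trans hTS)).isNilpotent
  apply (Cfsg.Agent.S5088.result p hS F hF Rs).mpr
  refine ⟨Group.nilpotencyClass Rs,
    fun i => (Subgroup.upperCentralSeries Rs i).map Rs.subtype, ?_, ?_, ?_, ?_⟩
  · show (Subgroup.upperCentralSeries Rs ((0 : Fin _) : ℕ)).map Rs.subtype = ⊥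
    rw [Fin.val_zero, Subgroup.upperCentralSeries_zero, Subgroup.map_bot]
  · show (Subgroup.upperCentralSeries Rs ((Fin.last _ : Fin _) : ℕ)).map Rs.subtype = Rs
    rw [Fin.val_last, Subgroup.upperCentralSeries_nilpotencyClass, ← MonoidHom.range_eq_map,
      Subgroup.range_subtype]
  · intro i j hij
    exact Subgroup.map_mono (Subgroup.upperCentralSeries_mono Rs hij)
  · intro i
    constructor
    · apply lemB
      · apply stronglyClosed_of_isNormal
        apply Cfsg.Agent.S5085.result E Rs _ hRsE (Subgroup.map_subtype_le _)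
        have h1 : ((Subgroup.upperCentralSeries ↥Rs (i.succ : ℕ)).map Rs.subtype).subgroupOf Rs =
            Subgroup.upperCentralSeries ↥Rs (i.succ : ℕ) :=
          Subgroup.comap_map_eq_self_of_injective (Subgroup.subtype_injective Rs) _
        rw [h1]
        infer_instance
      · intro α hα x hx
        obtain ⟨κ, hκ⟩ := exists_aut_of_map_le F hTS hRsT hα (fun y => hRsinv α hα _ y.2)
        obtain ⟨z, hz, hzx⟩ := hx
        have hx' : x = Subgroup.inclusion hRsT z := Subtype.ext hzx.symm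
        rw [hx', hκ z]
        refine ⟨κ z, ?_, rfl⟩
        have hchar : (Subgroup.upperCentralSeries ↥Rs (i.succ : ℕ)).Characteristic := inferInstance
        have h2 := Subgroup.characteristic_iff_map_eq.mp hchar κ
        rw [← h2]
        exact Subgroup.mem_map_of_mem _ hz
    · show ⁅Rs, (Subgroup.upperCentralSeries Rs (i.succ : ℕ)).map Rs.subtype⁆ ≤
        (Subgroup.upperCentralSeries Rs (i.castSucc : ℕ)).map Rs.subtype
      rw [Subgroup.commutator_comm, Subgroup.commutator_le]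
      rintro _ ⟨z, hz, rfl⟩ g₂ hg₂
      rw [Fin.val_succ] at hz
      have h1 := Subgroup.mem_upperCentralSeries_succ_iff.mp hz ⟨g₂, hg₂⟩
      exact ⟨_, h1, rfl⟩

end Cfsg.Agent.S5291
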