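import Cfsg.Statements.S5292
import Mathlib
import Cfsg.Agent.Lib.Helper26.FusModel5
import Cfsg.Agent.Lib.Helper26.FusNK2
import Cfsg.Agent.Lib.Helper12.PSolvable
import Cfsg.Agent.Lib.Helper4.PSolv
import Cfsg.Agent.Lib.Lead.PSolvOfSolv
import Cfsg.Agent.Lib.Helper9.Cores

set_option autoImplicit false
universe u
open Cfsg

namespace Cfsg.Agent.S5292

open Cfsg.FusionSystem Cfsg.Agent.Lib.Helper26

/-- In a model `L` of `F`, conjugation on `O_p(L)` gives a surjection of `L` onto `Aut_F(O_p(F))`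
whose kernel lies in `O_p(L)`. -/
theorem exists_core_hom {Ω : Type u} [Group Ω] {S : Subgroup Ω} [Finite S] {p : ℕ} [Fact p.Prime]
    (hS : IsPGroup p S) (F : FusionSystem S) {L : Type u} [Group L] (ι : S →* L)
    (hL : F.IsModel p L ι) :
    ∃ f : L →* F.autGroup F.core, Function.Surjective f ∧ f.ker ≤ Cfsg.pCore p L := by
  classical
  have hcore := model_core_eq_core hS F ι hL
  obtain ⟨hfin, hreal, ⟨T₀, hT₀⟩, hcent⟩ := hL
  haveI : Finite L := hfin
  have hinj := hreal.1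
  have hCS : F.core ≤ S := (isNormal_core F).1
  haveI hOn : (Cfsg.pCore p L).Normal := Cfsg.Agent.Lib.Lead.Cores.pCore_normal p
  let e : ↥F.core ≃* ↥(Cfsg.pCore p L) :=
    ((Subgroup.subgroupOfEquivOfLe hCS).symm.trans
      ((F.core.subgroupOf S).equivMapOfInjective ι hinj)).trans
      (MulEquiv.subgroupCongr hcore.symm)
  have he : ∀ x : F.core, ((e x : Cfsg.pCore p L) : L) = ι ⟨x, hCS x.2⟩ := fun x => rfl
  let f₀ : L →* MulAut ↥F.core := (MulAut.congr e.symm).toMonoidHom.comp MulAut.conjNormal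
  have hP : ∀ (g : L) (x : F.core),
      ι ⟨((f₀ g) x : F.core), hCS ((f₀ g) x).2⟩ = g * ι ⟨x, hCS x.2⟩ * g⁻¹ := by
    intro g x
    have h1 : e ((f₀ g) x) = MulAut.conjNormal g (e x) := by
      simp [f₀, MulAut.congr]
    have h2 := congrArg (fun z : ↥(Cfsg.pCore p L) => (z : L)) h1
    have h3 : ((MulAut.conjNormal g (e x) : ↥(Cfsg.pCore p L)) : L) = g * (e x : L) * g⁻¹ :=
      MulAut.conjNormal_apply g (e x)
    have h4 : ((e ((f₀ g) x) : ↥(Cfsg.pCore p L)) : L) = g * (e x : L) * g⁻¹ := h2.trans h3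
    rw [he, he] at h4
    exact h4
  have hmem : ∀ g : L, f₀ g ∈ F.autGroup F.core := by
    intro g
    apply Subgroup.subset_closure
    show F.core.subtype.comp (f₀ g).toMonoidHom ∈ F.Hom F.core
    have hφS : ∀ x : F.core, (F.core.subtype.comp (f₀ g).toMonoidHom) x ∈ S := fun x =>
      hCS ((f₀ g) x).2
    exact (hreal.2 F.core hCS _ hφS).mpr ⟨g, fun x => hP g x⟩
  refine ⟨f₀.codRestrict (F.autGroup F.core) hmem, ?_, ?_⟩
  · rintro ⟨α, hα⟩
    have hφ := autGroup_hom_mem F hCS hα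
    have hφS : ∀ x : F.core, (F.core.subtype.comp α.toMonoidHom) x ∈ S := fun x =>
      hCS (α x).2
    obtain ⟨g, hg⟩ := (hreal.2 F.core hCS _ hφS).mp hφ
    refine ⟨g, Subtype.ext ?_⟩
    show f₀ g = α
    ext x
    have h1 := hP g x
    rw [← hg x] at h1
    exact congrArg (fun z : S => (z : Ω)) (hinj h1)
  · intro g hg
    apply hcent
    rw [Subgroup.mem_centralizer_iff]
    intro y hy
    rw [hcore] at hy
    obtain ⟨s, hs, rfl⟩ := hy
    have hsC : (s : Ω) ∈ F.core := Subgroup.mem_subgroupOf.mp hs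
    have h1 : f₀ g = 1 := congrArg Subtype.val (MonoidHom.mem_ker.mp hg)
    have h2 := hP g ⟨s, hsC⟩
    rw [h1] at h2
    have h3 : ι s = g * ι s * g⁻¹ := h2
    calc ι s * g = (g * ι s * g⁻¹) * g := by rw [← h3]
      _ = g * ι s := by group

/-- A system with a model is constrained (given saturation). -/
theorem exists_normal_centric_of_model {Ω : Type u} [Group Ω] {S : Subgroup Ω} [Finite S]
    {p : ℕ} [Fact p.Prime] (F : FusionSystem S) {L : Type u} [Group L]
    (ι : S →* L) (hL : F.IsModel p L ι) : ∃ Q : Subgroup Ω, F.IsNormal Q ∧ F.IsCentric Q := by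
  have hQn := model_core_normal F ι hL
  obtain ⟨hfin, hreal, ⟨T₀, hT₀⟩, hcent⟩ := hL
  haveI : Finite L := hfin
  haveI hOn : (Cfsg.pCore p L).Normal := Cfsg.Agent.Lib.Lead.Cores.pCore_normal p
  have hOp : IsPGroup p (Cfsg.pCore p L) := Cfsg.Agent.Lib.Lead.Cores.pCore_isPGroup p
  have hOT : Cfsg.pCore p L ≤ (T₀ : Subgroup L) := normal_pGroup_le_sylow _ hOp T₀
  have hOr : Cfsg.pCore p L ≤ ι.range := hT₀ ▸ hOT
  refine ⟨_, hQn, hQn.1, fun Q' hconj => ?_⟩
  rw [conj_eq_of_isNormal F hQn hconj]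
  intro s hs
  refine (model_core_mem ι p s).mpr ⟨hs.1, ?_⟩
  apply hcent
  rw [Subgroup.mem_centralizer_iff]
  intro y hy
  obtain ⟨t, rfl⟩ := hOr hy
  have htQ : (t : Ω) ∈ ((Cfsg.pCore p L).comap ι).map S.subtype :=
    (model_core_mem ι p t).mpr ⟨t.2, hy⟩
  have h1 : (t : Ω) * s = s * (t : Ω) := Subgroup.mem_centralizer_iff.mp hs.2 _ htQ
  have h2 : t * (⟨s, hs.1⟩ : S) = ⟨s, hs.1⟩ * t := Subtype.ext h1
  rw [← map_mul, ← map_mul, h2]

/-- Passing to the quotient by `O_{p'}(G)`: a `p`-solvable group realizing `F` on a Sylow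
subgroup gives a `p`-solvable model. -/
theorem exists_model_of_psolvable {Ω : Type u} [Group Ω] {S : Subgroup Ω} [Finite S] {p : ℕ}
    [Fact p.Prime] (hS : IsPGroup p S) (F : FusionSystem S) {G : Type u} [Group G] [Finite G]
    (ι : S →* G) (hps : Cfsg.IsPSolvable p G) (hreal : F.IsRealizedBy ι)
    (hsyl : ∃ T : Sylow p G, (T : Subgroup G) = ι.range) :
    ∃ (L : Type u) (_ : Group L) (ι' : S →* L), F.IsModel p L ι' ∧ Cfsg.IsPSolvable p L := by
  classical
  obtain ⟨T, hT⟩ := hsyl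
  haveI hKn : (Cfsg.pPrimeCore p G).Normal := Cfsg.Agent.Lib.Lead.Cores.pPrimeCore_normal p
  have hKc : (Nat.card (Cfsg.pPrimeCore p G)).Coprime p :=
    Cfsg.Agent.Lib.Helper9.pPrimeCore_coprime p G
  have hsurj := QuotientGroup.mk'_surjective (Cfsg.pPrimeCore p G)
  have hps' : Cfsg.IsPSolvable p (G ⧸ Cfsg.pPrimeCore p G) :=
    Cfsg.Agent.Lib.Helper4.PSolv.isPSolvable_of_surjective _ hsurj hps
  have hinj := hreal.1
  have hinj' : Function.Injective ((QuotientGroup.mk' (Cfsg.pPrimeCore p G)).comp ι) := by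
    rw [injective_iff_map_eq_one]
    intro a ha
    have h1 : ι a ∈ Cfsg.pPrimeCore p G := by
      have h2 : (QuotientGroup.mk' (Cfsg.pPrimeCore p G)) (ι a) = 1 := ha
      rwa [QuotientGroup.mk'_apply, QuotientGroup.eq_one_iff] at h2
    obtain ⟨k, hk⟩ := hS a
    have h3 : ι a ^ p ^ k = 1 := by rw [← map_pow, hk, map_one]
    have h4 := eq_one_of_pGroup_of_coprime hKc h1 h3
    exact hinj (h4.trans (map_one ι).symm)
  refine ⟨G ⧸ Cfsg.pPrimeCore p G, inferInstance,
    (QuotientGroup.mk' (Cfsg.pPrimeCore p G)).comp ι, ⟨inferInstance, ⟨hinj', ?_⟩, ?_, ?_⟩, hps'⟩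
  · intro P hP φ hφ
    rw [hreal.2 P hP φ hφ]
    constructor
    · rintro ⟨g, hg⟩
      refine ⟨QuotientGroup.mk' (Cfsg.pPrimeCore p G) g, fun x => ?_⟩
      show QuotientGroup.mk' (Cfsg.pPrimeCore p G) (ι ⟨φ x, hφ x⟩) = _
      rw [hg x, map_mul, map_mul, map_inv]
      rfl
    · rintro ⟨g', hg'⟩
      obtain ⟨g, rfl⟩ := hsurj g'
      haveI : Finite P := finite_of_le hP
      have hPp : IsPGroup p P := hS.to_le hP
      let a : P →* G := (MulAut.conj g).toMonoidHom.comp (ι.comp (Subgroup.inclusion hP))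
      have ha : ∀ x : P, a x = g * ι ⟨x, hP x.2⟩ * g⁻¹ := fun x => rfl
      have hmod : ∀ x : P, QuotientGroup.mk' (Cfsg.pPrimeCore p G) (ι ⟨φ x, hφ x⟩) =
          QuotientGroup.mk' (Cfsg.pPrimeCore p G) (a x) := by
        intro x
        have h1 := hg' x
        rw [ha, map_mul, map_mul, map_inv]
        exact h1
      -- `φ` is injective
      have hφinj : Function.Injective φ := by
        intro x y hxy
        have h1 := hmod x
        have h2 := hmod y
        have e : (⟨φ x, hφ x⟩ : S) = ⟨φ y, hφ y⟩ := Subtype.ext hxy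
        rw [e, h2] at h1
        have h3 : QuotientGroup.mk' (Cfsg.pPrimeCore p G) (ι ⟨x, hP x.2⟩) =
            QuotientGroup.mk' (Cfsg.pPrimeCore p G) (ι ⟨y, hP y.2⟩) := by
          have h4 := h1
          rw [ha, ha, map_mul, map_mul, map_mul, map_mul] at h4
          exact mul_left_cancel (mul_right_cancel h4.symm)
        have h5 := hinj' h3
        exact Subtype.ext (congrArg (fun z : S => (z : Ω)) h5)
      let b : P →* G := ι.comp (φ.codRestrict S hφ)
      have hb : ∀ x : P, b x = ι ⟨φ x, hφ x⟩ := fun x => rfl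
      have hbinj : Function.Injective b := by
        intro x y hxy
        have h1 := hinj hxy
        exact hφinj (congrArg (fun z : S => (z : Ω)) h1)
      have hK : ∀ x : P, (a x)⁻¹ * b x ∈ Cfsg.pPrimeCore p G := by
        intro x
        rw [← QuotientGroup.eq_one_iff, ← QuotientGroup.mk'_apply, map_mul, map_inv, hb,
          hmod x, inv_mul_cancel]
      obtain ⟨k, -, hk⟩ := exists_conj_of_mod_pprime hPp a b hbinj (Cfsg.pPrimeCore p G) hKc hK
      refine ⟨k * g, fun x => ?_⟩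
      rw [← hb, hk x, ha, mul_inv_rev]
      simp only [mul_assoc]
  · refine ⟨T.mapSurjective hsurj, ?_⟩
    rw [Sylow.coe_mapSurjective, hT, MonoidHom.map_range]
  · exact Cfsg.Agent.Lib.Helper12.PSolvable.hall_higman hps'
      (Cfsg.Agent.Lib.Helper9.pPrimeCore_quotient_eq_bot p G)

theorem result {Ω : Type u} [Group Ω] {S : Subgroup Ω} [Finite S] (p : ℕ) [Fact p.Prime] (hS : IsPGroup p S)
    (F : Cfsg.FusionSystem S) (hF : F.IsSaturated p) :
    (∃ (G : Type u) (_ : Group G) (_ : Finite G) (ι : S →* G), Cfsg.IsPSolvable p G ∧ F.IsRealizedBy ι ∧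
        ∃ T : Sylow p G, (T : Subgroup G) = ι.range) ↔
      (F.IsConstrained p ∧ Cfsg.IsPSolvable p ↥(F.autGroup F.core)) := by
  constructor
  · rintro ⟨G, _, _, ι, hps, hreal, hsyl⟩
    obtain ⟨L, _, ι', hL, hpsL⟩ := exists_model_of_psolvable hS F ι hps hreal hsyl
    obtain ⟨f, hsurj, -⟩ := exists_core_hom hS F ι' hL
    exact ⟨⟨hF, exists_normal_centric_of_model F ι' hL⟩,
      Cfsg.Agent.Lib.Helper4.PSolv.isPSolvable_of_surjective f hsurj hpsL⟩
  · rintro ⟨⟨-, Q, hQn, hQc⟩, hps⟩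
    obtain ⟨L, _, ι, hL⟩ := exists_model_of_normal_centric hS F hF hQn hQc
    obtain ⟨f, hsurj, hker⟩ := exists_core_hom hS F ι hL
    haveI : Finite L := hL.1
    have hOp : IsPGroup p (Cfsg.pCore p L) := Cfsg.Agent.Lib.Lead.Cores.pCore_isPGroup p
    have hkp : IsPGroup p f.ker := hOp.to_le hker
    have hcard : ∃ m : ℕ, Nat.card f.ker = p ^ m := IsPGroup.iff_card.mp hkp
    have hq : Cfsg.IsPSolvable p (L ⧸ f.ker) :=
      Cfsg.Agent.Lib.Helper4.PSolv.isPSolvable_of_equiv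
        (QuotientGroup.quotientKerEquivOfSurjective f hsurj).symm hps
    exact ⟨L, inferInstance, hL.1, ι,
      Cfsg.Agent.Lib.Lead.PSolvOfSolv.isPSolvable_extension f.ker (Or.inl hcard) hq,
      hL.2.1, hL.2.2.1⟩

end Cfsg.Agent.S5292
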