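import Mathlib
import Cfsg.Statements.S5294
import Cfsg.Agent.Lib.Helper27.Trace
import Cfsg.Agent.Lib.Helper26.FusStab
import Cfsg.Agent.S5084
import Cfsg.Agent.S5106
import Cfsg.Agent.S5144
import Cfsg.Agent.S5145

set_option autoImplicit false
open Cfsg

namespace Cfsg.Agent.S5294

open Cfsg.FusionSystem Cfsg.Agent.Lib.Helper26 Cfsg.Agent.Lib.Helper27

universe u

theorem aut_center_mem {R : Type*} [Group R] (α : MulAut R) (z : Subgroup.center R) :
    α z ∈ Subgroup.center R := by
  rw [Subgroup.mem_center_iff]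
  intro g
  have h1 := Subgroup.mem_center_iff.mp z.2 (α⁻¹ g)
  have h2 := congrArg α h1
  rw [map_mul, map_mul, MulAut.apply_inv_self] at h2
  exact h2

/-- The action of a group of automorphisms on the centre. -/
def centerRep {R : Type*} [Group R] (A : Subgroup (MulAut R)) : A →* Monoid.End (Subgroup.center R) where
  toFun a := ((a : MulAut R).toMonoidHom.comp (Subgroup.center R).subtype).codRestrict
    (Subgroup.center R) (aut_center_mem (a : MulAut R))
  map_one' := by
    ext z
    rfl
  map_mul' a b := by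
    ext z
    rfl

theorem centerRep_apply {R : Type*} [Group R] (A : Subgroup (MulAut R)) (a : A)
    (z : Subgroup.center R) : ((centerRep A a z : Subgroup.center R) : R) = (a : MulAut R) z := rfl

/-- Let F be a saturated fusion system over a finite p-group S whose centre Z(S) lies in the largest subgroup O_p(F) normal in F. Then the centre Z(F) of F is a direct factor of Z(S): there is a subgroup K of Z(S) with Z(F) ∩ K = 1 and Z(F)K = Z(S). -/
theorem result {Ω : Type u} [Group Ω] {S : Subgroup Ω} [Finite S] (p : ℕ) [Fact p.Prime] (hS : IsPGroup p S)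
    (F : Cfsg.FusionSystem S) (hF : F.IsSaturated p) (hZ : (S ⊓ Subgroup.centralizer (S : Set Ω)) ≤ F.core) :
    ∃ K : Subgroup Ω, K ≤ (S ⊓ Subgroup.centralizer (S : Set Ω)) ∧ F.center ⊓ K = ⊥ ∧ F.center ⊔ K = (S ⊓ Subgroup.centralizer (S : Set Ω)) := by
  have hp : p.Prime := Fact.out
  obtain ⟨R, hRdef⟩ : ∃ R : Subgroup Ω, R = F.core := ⟨_, rfl⟩
  rw [← hRdef] at hZ
  have hRn : F.IsNormal R := hRdef ▸ Cfsg.Agent.S5145.result F
  have hRS : R ≤ S := hRn.1
  have hfinR : Finite R := finite_of_le hRS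
  have : Finite (MulAut R) := inferInstance
  have hNR : S ≤ Subgroup.normalizer (R : Set Ω) :=
    stronglyClosed_le_normalizer F (stronglyClosed_of_isNormal F hRn)
  have hRfn : F.IsFullyNormalized R := by
    refine ⟨hRS, fun Q _ => ?_⟩
    have h1 : normalizerIn S R = S :=
      le_antisymm (normalizerIn_le S R) (fun s hs => ⟨hs, hNR hs⟩)
    rw [h1]
    exact Subgroup.card_le_of_le (normalizerIn_le S Q)
  have hfa := (fullyNormalized_props hS F hF hRfn).2
  obtain ⟨-, Rsyl, hRsyl⟩ := (isFullyAutomized_iff F p R).mp hfa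
  have hcentral := (Cfsg.Agent.S5084.result p hS F hF F.center).mp (Cfsg.Agent.S5144.result F)
  have hnormal := (Cfsg.Agent.S5106.result p hS F hF R hRS).mp hRn
  -- index of the Sylow subgroup
  have hT : (((autInducedBy S R).subgroupOf (F.autGroup R)).index).Coprime p := by
    rw [← hRsyl]
    exact ((Nat.Prime.coprime_iff_not_dvd hp).mpr Rsyl.not_dvd_index).symm
  obtain ⟨k, hk⟩ := IsPGroup.iff_card.mp (hS.to_le hRS)
  have hV : ∀ v : Subgroup.center R, v ^ (p ^ k) = 1 := by
    intro v
    apply Subtype.ext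
    rw [Subgroup.coe_pow, ← hk, pow_card_eq_one']
    rfl
  -- the two subgroups
  obtain ⟨ι, hιdef⟩ : ∃ ι : Subgroup.center R →* Ω, ι = R.subtype.comp (Subgroup.center R).subtype :=
    ⟨_, rfl⟩
  have hιapp : ∀ v : Subgroup.center R, ι v = ((v : R) : Ω) := fun v => by rw [hιdef]; rfl
  have hιinj : Function.Injective ι := by
    intro a b hab
    rw [hιapp, hιapp] at hab
    exact Subtype.ext (Subtype.ext hab)
  have hW : ∀ v : Subgroup.center R, v ∈ (S ⊓ Subgroup.centralizer (S : Set Ω)).comap ι ↔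
      ∀ t ∈ (autInducedBy S R).subgroupOf (F.autGroup R), centerRep (F.autGroup R) t v = v := by
    intro v
    rw [Subgroup.mem_comap, hιapp]
    constructor
    · rintro ⟨-, hvC⟩ t ht
      obtain ⟨g, hg, hgt⟩ := mem_autInducedBy_iff.mp (Subgroup.mem_subgroupOf.mp ht)
      apply Subtype.ext
      apply Subtype.ext
      rw [centerRep_apply, hgt]
      have h1 := Subgroup.mem_centralizer_iff.mp hvC g hg
      rw [h1]
      group
    · intro h
      refine ⟨hRS (v : R).2, ?_⟩
      show ((v : R) : Ω) ∈ Subgroup.centralizer (S : Set Ω)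
      rw [Subgroup.mem_centralizer_iff]
      intro s hs
      have hsN := hNR hs
      have hτ : R.normalizerMonoidHom ⟨s, hsN⟩ ∈ autInducedBy S R := conj_mem_autInducedBy hs hsN
      have h1 := h ⟨_, autInducedBy_le_autGroup F hRS hτ⟩ (Subgroup.mem_subgroupOf.mpr hτ)
      have h2 : s * ((v : R) : Ω) * s⁻¹ = ((v : R) : Ω) := by
        have h3 := congrArg (fun z : Subgroup.center R => ((z : R) : Ω)) h1
        exact h3
      calc s * ((v : R) : Ω) = (s * ((v : R) : Ω) * s⁻¹) * s := by group
        _ = ((v : R) : Ω) * s := by rw [h2]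
  have hU : ∀ v : Subgroup.center R, v ∈ (F.center).comap ι ↔
      ∀ a : F.autGroup R, centerRep (F.autGroup R) a v = v := by
    intro v
    rw [Subgroup.mem_comap, hιapp]
    constructor
    · intro hv a
      apply Subtype.ext
      apply Subtype.ext
      rw [centerRep_apply]
      apply hcentral.2 _ hv
      have hle : Subgroup.zpowers (((v : R) : Ω)) ≤ R := (Subgroup.zpowers_le).mpr (v : R).2
      refine ⟨_, restrict_mem F (autGroup_hom_mem F hRS a.2) hle, ?_⟩
      rfl
    · intro h
      have hcen : F.IsCentral (Subgroup.zpowers (((v : R) : Ω))) := by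
        rw [Cfsg.Agent.S5084.result p hS F hF]
        have hle : Subgroup.zpowers (((v : R) : Ω)) ≤ R := (Subgroup.zpowers_le).mpr (v : R).2
        refine ⟨hle.trans hRS, fun x hx y hxy => ?_⟩
        obtain ⟨φ, hφ, hφx⟩ := hxy
        have hle' : Subgroup.zpowers x ≤ R := ((Subgroup.zpowers_le).mpr hx).trans hle
        obtain ⟨α, hα, hαx⟩ := hnormal _ hle' φ hφ
        rw [← hφx, ← hαx]
        obtain ⟨j, rfl⟩ := Subgroup.mem_zpowers_iff.mp hx
        have h1 := h ⟨α, hα⟩
        have h2 : α (v : R) = (v : R) := by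
          have h3 := congrArg (fun z : Subgroup.center R => (z : R)) h1
          exact h3
        have h4 : Subgroup.inclusion hle' ⟨((v : R) : Ω) ^ j, Subgroup.mem_zpowers _⟩ = (v : R) ^ j :=
          Subtype.ext rfl
        rw [h4, map_zpow, h2]
        rfl
      have h5 : Subgroup.zpowers (((v : R) : Ω)) ≤ F.center := le_sSup hcen
      exact h5 (Subgroup.mem_zpowers _)
  have hcomm : ∀ a b : Subgroup.center R, a * b = b * a := by
    intro a b
    apply Subtype.ext
    exact (Subgroup.mem_center_iff.mp b.2 (a : R))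
  obtain ⟨K', hK'W, hinf, hsup⟩ := fixed_direct_factor hcomm (centerRep (F.autGroup R))
    ((autInducedBy S R).subgroupOf (F.autGroup R)) p k hV hT _ _ hW hU
  have hcenterZ : F.center ≤ S ⊓ Subgroup.centralizer (S : Set Ω) := by
    intro x hx
    refine ⟨hcentral.1 hx, ?_⟩
    show x ∈ Subgroup.centralizer (S : Set Ω)
    rw [Subgroup.mem_centralizer_iff]
    intro s hs
    have hle : Subgroup.zpowers x ≤ S := (Subgroup.zpowers_le).mpr (hcentral.1 hx)
    have h1 := hcentral.2 x hx (s * x * s⁻¹) ⟨conjHom _ s, F.conj_mem hle hs, rfl⟩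
    calc s * x = (s * x * s⁻¹) * s := by group
      _ = x * s := by rw [h1]
  have hKZ : K'.map ι ≤ S ⊓ Subgroup.centralizer (S : Set Ω) := by
    rintro _ ⟨v, hv, rfl⟩
    exact hK'W hv
  refine ⟨K'.map ι, hKZ, ?_, ?_⟩
  · rw [eq_bot_iff]
    rintro x ⟨hx, v, hv, rfl⟩
    have h1 : v ∈ (F.center).comap ι ⊓ K' := ⟨hx, hv⟩
    rw [hinf, Subgroup.mem_bot] at h1
    rw [h1, map_one]
    exact Subgroup.one_mem _
  · apply le_antisymm (sup_le hcenterZ hKZ)
    intro z hz
    have hzR : z ∈ R := hZ hz
    have hzc : (⟨z, hzR⟩ : R) ∈ Subgroup.center R := by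
      rw [Subgroup.mem_center_iff]
      intro g
      apply Subtype.ext
      exact Subgroup.mem_centralizer_iff.mp hz.2 g (hRS g.2)
    have hvW : (⟨⟨z, hzR⟩, hzc⟩ : Subgroup.center R) ∈
        (S ⊓ Subgroup.centralizer (S : Set Ω)).comap ι := by
      rw [Subgroup.mem_comap, hιapp]
      exact hz
    rw [← hsup] at hvW
    have h1 : z ∈ ((F.center).comap ι ⊔ K').map ι := by
      refine ⟨_, hvW, ?_⟩
      rw [hιapp]
    rw [Subgroup.map_sup] at h1
    exact (sup_le_sup_right (Subgroup.map_comap_le ι F.center) (K'.map ι)) h1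

end Cfsg.Agent.S5294
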