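import Cfsg.Statements.S5301
import Mathlib
import Cfsg.Agent.S5087
import Cfsg.Agent.S5080

set_option autoImplicit false
universe u
open Cfsg

namespace Cfsg.Agent.S5301

open Cfsg.Agent.Lib.Helper26 Cfsg.FusionSystem

theorem result {Ω : Type u} [Group Ω] {S : Subgroup Ω} [Finite S] (p : ℕ) [Fact p.Prime] (hS : IsPGroup p S)
    (F : Cfsg.FusionSystem S) (hF : F.IsSaturated p)
    (hcl : ∀ P : Subgroup Ω, F.IsFullyNormalized P → F.IsCentric P → F.IsRadical p P →
      ∃ R : Sylow p ↥(F.autGroup P), (R : Subgroup ↥(F.autGroup P)).Normal) :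
    F.IsNormal S := by
  apply (Cfsg.Agent.S5087.result p hS F hF S).mpr
  rintro P (rfl | hP)
  · refine ⟨le_rfl, fun α _ => ?_⟩
    have h1 : P.subgroupOf P = ⊤ := Subgroup.subgroupOf_self P
    rw [h1]
    exact Subgroup.map_top_of_surjective _ α.surjective
  · exfalso
    have hrad := Cfsg.Agent.S5080.result p hS F hF P hP
    obtain ⟨hc, hn, hN, E, hE⟩ := hP
    have hPS : P ≤ S := hc.1
    have : Finite P := finite_of_le hPS
    have : Finite (MulAut P) := inferInstance
    obtain ⟨R, hR⟩ := hcl P hn hc hrad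
    have h1 : (R : Subgroup (F.autGroup P)) ≤ pCore p (F.autGroup P) :=
      Cfsg.Agent.Lib.Lead.Cores.le_pCore hR R.2
    have h2 : (R : Subgroup (F.autGroup P)) ≤ (Inn P).subgroupOf (F.autGroup P) := by
      intro a ha
      rw [Subgroup.mem_subgroupOf, ← hrad.2]
      exact ⟨a, h1 ha, rfl⟩
    have h3 : ((Inn P).subgroupOf (F.autGroup P)).index ∣ (R : Subgroup (F.autGroup P)).index :=
      Subgroup.index_dvd_of_le h2
    have h4 : ¬ p ∣ (R : Subgroup (F.autGroup P)).index := R.not_dvd_index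
    apply h4
    refine dvd_trans ?_ h3
    have h5 := hE.1
    rw [← Subgroup.index_eq_card] at h5
    exact h5

end Cfsg.Agent.S5301
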