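import Cfsg.Statements.S5330
import Mathlib
import Cfsg.Agent.Lib.Helper27.FusAb
import Cfsg.Agent.Lib.Helper27.Coprime
import Cfsg.Agent.Lib.Helper26.FusExt

set_option autoImplicit false
open Cfsg

namespace Cfsg.Agent.S5330

open Cfsg.Agent.Lib.Helper26 Cfsg.Agent.Lib.Helper27 Cfsg.FusionSystem

theorem result {Ω : Type*} [Group Ω] {S : Subgroup Ω} [Finite S] (p : ℕ) [Fact p.Prime] (hS : IsPGroup p S) (F : Cfsg.FusionSystem S) (hF : F.IsSaturated p) (hab : ∀ x ∈ S, ∀ y ∈ S, x * y = y * x) : F.center ⊓ F.focalSubgroup = ⊥ ∧ F.center ⊔ F.focalSubgroup = S := by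
  have hp : p.Prime := Fact.out
  have hAhom : ∀ α ∈ F.autGroup S, S.subtype.comp α.toMonoidHom ∈ F.Hom S :=
    fun α hα => (mem_autGroup_iff F le_rfl).mp hα
  have hcop : (Nat.card (F.autGroup S)).Coprime (Nat.card S) := by
    obtain ⟨-, R, hR⟩ := isFullyAutomized_self hS F hF
    have htriv : autInducedBy S S = ⊥ := by
      rw [eq_bot_iff]
      intro α hα
      obtain ⟨g, hg, h⟩ := mem_autInducedBy_iff.mp hα
      rw [Subgroup.mem_bot]
      ext x
      rw [h x]
      have := hab g hg x x.2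
      rw [this, mul_assoc, mul_inv_cancel, mul_one]
      rfl
    have hRbot : (R : Subgroup (F.autGroup S)) = ⊥ := by
      rw [hR, htriv]
      exact Subgroup.bot_subgroupOf _
    have hnd : ¬ p ∣ Nat.card (F.autGroup S) := by
      have := R.not_dvd_index
      rw [hRbot, Subgroup.index_bot] at this
      exact this
    obtain ⟨k, hk⟩ := (IsPGroup.iff_card).mp hS
    rw [hk]
    exact Nat.Coprime.pow_right k ((Nat.Prime.coprime_iff_not_dvd hp).mpr hnd).symm
  have hcomm : ∀ a b : S, a * b = b * a := fun a b => Subtype.ext (hab a a.2 b b.2)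
  obtain ⟨hinf, hsup⟩ := coprime_fitting hcomm (F.autGroup S) hcop
  have hcenter : F.center = (fixedSub (F.autGroup S)).map S.subtype := by
    apply le_antisymm
    · apply sSup_le
      rintro Q ⟨hQS, hQ⟩
      intro q hq
      refine ⟨⟨q, hQS hq⟩, ?_, rfl⟩
      intro α hα
      obtain ⟨ψ, hψ, hext, hfix⟩ := hQ S _ (hAhom α hα)
      have h1 := hext ⟨q, hQS hq⟩
      have h2 := hfix ⟨q, hq⟩
      apply Subtype.ext
      have h3 : Subgroup.inclusion (le_sup_left : S ≤ S ⊔ Q) ⟨q, hQS hq⟩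
          = Subgroup.inclusion (le_sup_right : Q ≤ S ⊔ Q) ⟨q, hq⟩ := rfl
      rw [h3, h2] at h1
      exact h1.symm
    · apply le_sSup
      refine ⟨Subgroup.map_subtype_le _, ?_⟩
      intro P φ hφ
      obtain ⟨α, hα, hαx⟩ := abelian_extend p hS F hF hab hφ
      have hPS : P ≤ S := (F.le_of_mem hφ).1
      have hle : P ⊔ (fixedSub (F.autGroup S)).map S.subtype ≤ S :=
        sup_le hPS (Subgroup.map_subtype_le _)
      refine ⟨(S.subtype.comp α.toMonoidHom).comp (Subgroup.inclusion hle),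
        restrict_mem F (hAhom α hα) hle, ?_, ?_⟩
      · intro x
        exact hαx x (hPS x.2)
      · rintro ⟨_, c, hc, rfl⟩
        have h4 := hc α hα
        exact congrArg Subtype.val h4
  have hfocal : F.focalSubgroup = (commSub (F.autGroup S)).map S.subtype := by
    apply le_antisymm
    · unfold FusionSystem.focalSubgroup
      rw [Subgroup.closure_le]
      rintro _ ⟨P, φ, x, hφ, rfl⟩
      obtain ⟨α, hα, hαx⟩ := abelian_extend p hS F hF hab hφ
      have hPS : P ≤ S := (F.le_of_mem hφ).1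
      refine ⟨(⟨x, hPS x.2⟩ : S)⁻¹ * α ⟨x, hPS x.2⟩, Subgroup.subset_closure ⟨_, α, hα, rfl⟩, ?_⟩
      show (x : Ω)⁻¹ * ((α ⟨x, _⟩ : S) : Ω) = (x : Ω)⁻¹ * φ x
      rw [hαx]
    · rw [Subgroup.map_le_iff_le_comap]
      unfold commSub
      rw [Subgroup.closure_le]
      rintro _ ⟨x, α, hα, rfl⟩
      show ((x⁻¹ * α x : S) : Ω) ∈ F.focalSubgroup
      exact Subgroup.subset_closure ⟨S, S.subtype.comp α.toMonoidHom, x, hAhom α hα, rfl⟩
  rw [hcenter, hfocal]
  constructor
  · rw [← Subgroup.map_inf _ _ _ S.subtype_injective, hinf, Subgroup.map_bot]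
  · rw [← Subgroup.map_sup, hsup, ← MonoidHom.range_eq_map, Subgroup.range_subtype]

end Cfsg.Agent.S5330
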