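import Cfsg.Statements.S5331
import Mathlib
import Cfsg.Agent.Lib.Helper27.FusAb
import Cfsg.Agent.Lib.Helper27.OddAut
import Cfsg.Agent.Lib.Helper26.FusExt

set_option autoImplicit false
open Cfsg

namespace Cfsg.Agent.S5331

open Cfsg.Agent.Lib.Helper26 Cfsg.Agent.Lib.Helper27 Cfsg.FusionSystem

theorem result {Ω : Type*} [Group Ω] {S : Subgroup Ω} [Finite S] (n : ℕ) (a : Fin n → ℕ) (ha : StrictMono a) (ha1 : ∀ i, 1 ≤ a i) (e : ↥S ≃* Multiplicative ((i : Fin n) → ZMod (2 ^ a i))) (F : Cfsg.FusionSystem S) (hF : F.IsSaturated 2) (P : Subgroup Ω) : F.Hom P = (Cfsg.innerFusionSystem S).Hom P := by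
  have hp2 : Fact (Nat.Prime 2) := ⟨Nat.prime_two⟩
  have hab : ∀ x ∈ S, ∀ y ∈ S, x * y = y * x := by
    intro x hx y hy
    have h1 : e (⟨x, hx⟩ * ⟨y, hy⟩) = e (⟨y, hy⟩ * ⟨x, hx⟩) := by
      rw [map_mul, map_mul, mul_comm]
    exact congrArg Subtype.val (e.injective h1)
  have hS : IsPGroup 2 S := fun x => ⟨∑ i, a i, pow_two_pow_sum a e x⟩
  have hnd : ¬ 2 ∣ Nat.card (F.autGroup S) := by
    obtain ⟨-, R, hR⟩ := isFullyAutomized_self hS F hF
    have htriv : autInducedBy S S = ⊥ := by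
      rw [eq_bot_iff]
      intro α hα
      obtain ⟨g, hg, h⟩ := mem_autInducedBy_iff.mp hα
      rw [Subgroup.mem_bot]
      ext x
      rw [h x]
      have := hab g hg x x.2
      rw [this, mul_assoc, mul_inv_cancel, mul_one]
      rfl
    have hRbot : (R : Subgroup (F.autGroup S)) = ⊥ := by
      rw [hR, htriv]
      exact Subgroup.bot_subgroupOf _
    have := R.not_dvd_index
    rw [hRbot, Subgroup.index_bot] at this
    exact this
  have htrivial : ∀ α ∈ F.autGroup S, α = 1 := by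
    intro α hα
    have hdvd : orderOf α ∣ Nat.card (F.autGroup S) := Subgroup.orderOf_dvd_natCard _ hα
    have hodd : Odd (orderOf α) := by
      rw [← Nat.not_even_iff_odd, even_iff_two_dvd]
      exact fun h => hnd (h.trans hdvd)
    exact odd_aut_trivial a e ha ha1 α (orderOf α) hodd (pow_orderOf_eq_one α)
  apply Set.Subset.antisymm
  · intro φ hφ
    obtain ⟨α, hα, hαx⟩ := abelian_extend 2 hS F hF hab hφ
    have hPS : P ≤ S := (F.le_of_mem hφ).1
    refine ⟨hPS, 1, S.one_mem, fun x => ?_⟩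
    rw [← hαx x (hPS x.2), htrivial α hα]
    simp
  · exact inner_le F P

end Cfsg.Agent.S5331
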