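import Mathlib
import Cfsg.Statements.S5342
import Cfsg.Agent.S5086
import Cfsg.Agent.S5088
import Cfsg.Agent.Lib.Helper26.FusStab
import Cfsg.Agent.Lib.Helper26.FusNK2

set_option autoImplicit false
open Cfsg

namespace Cfsg.Agent.S5342

open Cfsg.FusionSystem Cfsg.Agent.Lib.Helper26
open scoped commutatorElement Pointwise

variable {Ω : Type*} [Group Ω]

theorem sc_apply {S : Subgroup Ω} (F : FusionSystem S) {T : Subgroup Ω} (hT : F.StronglyClosed T)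
    {P : Subgroup Ω} {ψ : P →* Ω} (hψ : ψ ∈ F.Hom P) (x : P) (hx : (x : Ω) ∈ T) : ψ x ∈ T := by
  have h2 := restrict_mem F hψ (inf_le_left : P ⊓ T ≤ P)
  exact hT.2 (P ⊓ T) inf_le_right _ h2 ⟨x, ⟨x.2, hx⟩⟩

/-- The intersection of a normal subgroup of `F` with the underlying group of an `F`-invariant
saturated subsystem is normal in the subsystem. -/
theorem inter_normal {S : Subgroup Ω} [Finite S] (p : ℕ) [Fact p.Prime] (hS : IsPGroup p S)
    (F : FusionSystem S) {T : Subgroup Ω} (E : FusionSystem T) (hTS : T ≤ S)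
    (hEsat : E.IsSaturated p) (hsub : E.IsSubsystemOf F) (hT : F.StronglyClosed T)
    {R : Subgroup Ω} (hR : F.IsNormal R) : E.IsNormal (R ⊓ T) := by
  have : Finite T := finite_of_le hTS
  have hTp : IsPGroup p T := hS.to_le hTS
  have hRsc := stronglyClosed_of_isNormal F hR
  have hRn : S ≤ Subgroup.normalizer (R : Set Ω) := stronglyClosed_le_normalizer F hRsc
  rw [Cfsg.Agent.S5086.result p hTp E hEsat (R ⊓ T)]
  refine ⟨⟨inf_le_right, fun R' hR' φ hφ x =>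
    ⟨hRsc.2 R' (hR'.trans inf_le_left) φ (hsub R' hφ) x, (E.le_of_mem hφ).2 x⟩⟩, ?_⟩
  intro U hUc hUr
  have hU : U ≤ T := hUc.1
  refine le_of_centric_radical_of_stab hTp E hUc hUr inf_le_right ?_ (autInducedBy (R ⊓ T) U)
    ?_ ?_ ?_ ?_
  · intro t ht
    have key : ∀ t ∈ T, ∀ x ∈ R ⊓ T, t * x * t⁻¹ ∈ R ⊓ T := by
      intro t ht x hx
      exact ⟨(Subgroup.mem_normalizer_iff.mp (hRn (hTS ht)) x).mp hx.1,
        T.mul_mem (T.mul_mem ht hx.2) (T.inv_mem ht)⟩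
    rw [Subgroup.mem_normalizer_iff]
    intro h
    constructor
    · exact key t ht h
    · intro hh
      have h1 := key t⁻¹ (T.inv_mem ht) _ hh
      have h2 : t⁻¹ * (t * h * t⁻¹) * t⁻¹⁻¹ = h := by group
      rwa [h2] at h1
  · intro α hα
    obtain ⟨g, hg, hgα⟩ := mem_autInducedBy_iff.mp hα
    exact autInducedBy_le_autGroup E hU (mem_autInducedBy_iff.mpr ⟨g, hg.2, hgα⟩)
  · rw [autInducedBy_eq_map]
    exact ((hTp.to_le inf_le_right).comap_subtype).map _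
  · intro α hα β hβ
    obtain ⟨g, hg, hgβ⟩ := mem_autInducedBy_iff.mp hβ
    have h1 : U.subtype.comp α.toMonoidHom ∈ F.Hom U := hsub U (autGroup_hom_mem E hU hα)
    obtain ⟨ψ, hψ, hext, hmap⟩ := hR.2 U _ h1
    have hgUR : g ∈ U ⊔ R := (le_sup_right : R ≤ U ⊔ R) hg.1
    have hhR : ψ ⟨g, hgUR⟩ ∈ R := by
      have h2 : ψ ⟨g, hgUR⟩ ∈ (R.subgroupOf (U ⊔ R)).map ψ :=
        Subgroup.mem_map_of_mem _ (Subgroup.mem_subgroupOf.mpr hg.1)
      rwa [hmap] at h2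
    have hhT : ψ ⟨g, hgUR⟩ ∈ T := sc_apply F hT hψ ⟨g, hgUR⟩ hg.2
    rw [mem_autInducedBy_iff]
    refine ⟨ψ ⟨g, hgUR⟩, ⟨hhR, hhT⟩, fun x => ?_⟩
    obtain ⟨y, hy⟩ : ∃ y : U, y = α⁻¹ x := ⟨_, rfl⟩
    have hxy : α y = x := by rw [hy, MulAut.apply_inv_self]
    have e0 : (α * β * α⁻¹) x = α (β y) := by
      rw [MulAut.mul_apply, MulAut.mul_apply, hy]
    have e1 : Subgroup.inclusion (le_sup_left : U ≤ U ⊔ R) (β y) =
        ⟨g, hgUR⟩ * Subgroup.inclusion (le_sup_left : U ≤ U ⊔ R) y * ⟨g, hgUR⟩⁻¹ :=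
      Subtype.ext (hgβ y)
    have e2 := hext (β y)
    have e3 := hext y
    rw [e1, map_mul, map_mul, map_inv, e3] at e2
    rw [e0]
    have e4 : (U.subtype.comp α.toMonoidHom) y = ((α y : U) : Ω) := rfl
    have e5 : (U.subtype.comp α.toMonoidHom) (β y) = ((α (β y) : U) : Ω) := rfl
    rw [e4, e5, hxy] at e2
    exact e2.symm
  · intro g hg hgQ
    exact mem_autInducedBy_iff.mpr ⟨g, hgQ, fun x => normalizerMonoidHom_coe ⟨g, hg⟩ x⟩

theorem lcs_eq_bot {R : Subgroup Ω} [Finite R] {p : ℕ} [Fact p.Prime] (hR : IsPGroup p R) :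
    ∃ c, R.lowerCentralSeries c = ⊥ := by
  have : Group.IsNilpotent R := hR.isNilpotent
  exact (Subgroup.isNilpotent_iff_lowerCentralSeries R).mp this

theorem lcs_hom (R : Subgroup Ω) (ρ : R →* Ω) (hρ : ∀ x : R, ρ x ∈ R) (k : ℕ) (x : R)
    (hx : (x : Ω) ∈ R.lowerCentralSeries k) : ρ x ∈ R.lowerCentralSeries k := by
  rw [← Subgroup.top_subtype_lowerCentralSeries] at hx
  obtain ⟨y, hy, hyx⟩ := hx
  have hyx' : y = x := Subtype.ext hyx
  subst hyx'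
  have h1 : ρ y ∈ ((⊤ : Subgroup R).lowerCentralSeries k).map ρ := Subgroup.mem_map_of_mem _ hy
  rw [Subgroup.map_lowerCentralSeries] at h1
  refine Subgroup.lowerCentralSeries_mono k ?_ h1
  rintro _ ⟨z, -, rfl⟩
  exact hρ z

theorem lcs_comm (R : Subgroup Ω) (k : ℕ) {r z : Ω} (hr : r ∈ R)
    (hz : z ∈ R.lowerCentralSeries k) : ⁅r, z⁆ ∈ R.lowerCentralSeries (k + 1) := by
  have h1 : ⁅z, r⁆ ∈ R.lowerCentralSeries (k + 1) := Subgroup.commutator_mem_commutator hz hr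
  have h2 := Subgroup.inv_mem _ h1
  rwa [commutatorElement_inv] at h2

/-- A normal subsystem of a constrained fusion system is constrained. -/
theorem normal_constrained {S : Subgroup Ω} [Finite S] (p : ℕ) [Fact p.Prime] (hS : IsPGroup p S)
    (F : FusionSystem S) (hF : F.IsConstrained p) {T : Subgroup Ω} (E : FusionSystem T)
    (hE : E.IsNormalIn F p) : E.IsConstrained p := by
  obtain ⟨hFsat, R, hRn, hRc⟩ := hF
  obtain ⟨⟨hEsat, -, hsub, hT, -, -⟩, -⟩ := hE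
  have hTS : T ≤ S := hT.1
  have : Finite T := finite_of_le hTS
  have hTp : IsPGroup p T := hS.to_le hTS
  have hRsc := stronglyClosed_of_isNormal F hRn
  have hRS : R ≤ S := hRn.1
  have hRnorm : S ≤ Subgroup.normalizer (R : Set Ω) := stronglyClosed_le_normalizer F hRsc
  have hTnorm : S ≤ Subgroup.normalizer (T : Set Ω) := stronglyClosed_le_normalizer F hT
  have hCR : centralizerIn S R ≤ R := hRc.2 R (isConj_refl F hRS)
  have hR₀n' : E.IsNormal (R ⊓ T) := inter_normal p hS F E hTS hEsat hsub hT hRn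
  obtain ⟨R₀, hR₀⟩ : ∃ R₀ : Subgroup Ω, R₀ = R ⊓ T := ⟨_, rfl⟩
  rw [← hR₀] at hR₀n'
  have hR₀n : E.IsNormal R₀ := hR₀n'
  obtain ⟨A, hA⟩ : ∃ A : Subgroup Ω, A = centralizerIn T R₀ := ⟨_, rfl⟩
  have hR₀T : R₀ ≤ T := hR₀ ▸ inf_le_right
  have hR₀R : R₀ ≤ R := hR₀ ▸ inf_le_left
  have hAT : A ≤ T := hA ▸ inf_le_left
  have hAc : ∀ a ∈ A, ∀ r ∈ R₀, a * r = r * a := by
    intro a ha r hr
    rw [hA] at ha
    exact (Subgroup.mem_centralizer_iff.mp ha.2 r hr).symm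
  have hAmem : ∀ a ∈ T, (∀ r ∈ R₀, a * r = r * a) → a ∈ A := by
    intro a ha h
    rw [hA]
    refine ⟨ha, ?_⟩
    show a ∈ Subgroup.centralizer (R₀ : Set Ω)
    rw [Subgroup.mem_centralizer_iff]
    intro r hr
    exact (h r hr).symm
  have hR₀conj : ∀ t ∈ T, ∀ r ∈ R₀, t * r * t⁻¹ ∈ R₀ := by
    intro t ht r hr
    rw [hR₀] at hr ⊢
    exact ⟨(Subgroup.mem_normalizer_iff.mp (hRnorm (hTS ht)) r).mp hr.1,
      T.mul_mem (T.mul_mem ht hr.2) (T.inv_mem ht)⟩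
  have hR₀norm : T ≤ Subgroup.normalizer (R₀ : Set Ω) := by
    intro t ht
    rw [Subgroup.mem_normalizer_iff]
    intro h
    constructor
    · exact hR₀conj t ht h
    · intro hh
      have h1 := hR₀conj t⁻¹ (T.inv_mem ht) _ hh
      have h2 : t⁻¹ * (t * h * t⁻¹) * t⁻¹⁻¹ = h := by group
      rwa [h2] at h1
  have hdecomp : ∀ g ∈ R₀ ⊔ A, ∃ r ∈ R₀, ∃ a ∈ A, g = r * a := by
    intro g hg
    have hmul : ((R₀ ⊔ A : Subgroup Ω) : Set Ω) = (R₀ : Set Ω) * (A : Set Ω) :=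
      Subgroup.coe_mul_of_right_le_normalizer_left R₀ A (hAT.trans hR₀norm)
    have hg' : g ∈ (R₀ : Set Ω) * (A : Set Ω) := hmul ▸ hg
    obtain ⟨r, hr, a, ha, rfl⟩ := Set.mem_mul.mp hg'
    exact ⟨r, hr, a, ha, rfl⟩
  -- commutators of `A` lie in `R₀`
  have hAR : ⁅A, R⁆ ≤ R₀ := by
    rw [Subgroup.commutator_le]
    intro a ha r hr
    rw [hR₀, commutatorElement_def]
    constructor
    · have h1 : a * r * a⁻¹ ∈ R := (Subgroup.mem_normalizer_iff.mp (hRnorm (hTS (hAT ha))) r).mp hr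
      exact R.mul_mem h1 (R.inv_mem hr)
    · have h1 : r * a⁻¹ * r⁻¹ ∈ T :=
        (Subgroup.mem_normalizer_iff.mp (hTnorm (hRS hr)) a⁻¹).mp (T.inv_mem (hAT ha))
      have e : a * r * a⁻¹ * r⁻¹ = a * (r * a⁻¹ * r⁻¹) := by group
      rw [e]
      exact T.mul_mem (hAT ha) h1
  have h2 : ⁅⁅A, R⁆, A⁆ = ⊥ := by
    rw [Subgroup.commutator_eq_bot_iff_le_centralizer]
    intro x hx
    rw [Subgroup.mem_centralizer_iff]
    intro a ha
    exact hAc a ha x (hAR hx)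
  have h3 : ⁅⁅R, A⁆, A⁆ = ⊥ := by
    rw [Subgroup.commutator_comm R A]
    exact h2
  have h4 : ⁅⁅A, A⁆, R⁆ = ⊥ := Subgroup.commutator_commutator_eq_bot_of_rotate h2 h3
  have hAA : ∀ a ∈ A, ∀ a' ∈ A, ⁅a, a'⁆ ∈ R₀ := by
    intro a ha a' ha'
    have h5 : ⁅a, a'⁆ ∈ ⁅A, A⁆ := Subgroup.commutator_mem_commutator ha ha'
    have h6 : ⁅a, a'⁆ ∈ Subgroup.centralizer (R : Set Ω) :=
      (Subgroup.commutator_eq_bot_iff_le_centralizer.mp h4) h5
    have h7 : ⁅a, a'⁆ ∈ T := by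
      rw [commutatorElement_def]
      exact T.mul_mem (T.mul_mem (T.mul_mem (hAT ha) (hAT ha')) (T.inv_mem (hAT ha)))
        (T.inv_mem (hAT ha'))
    rw [hR₀]
    exact ⟨hCR ⟨hTS h7, h6⟩, h7⟩
  -- images under extensions
  have hext_mem : ∀ {P : Subgroup Ω} {ψ : ↥(P ⊔ R₀) →* Ω},
      (R₀.subgroupOf (P ⊔ R₀)).map ψ = R₀ → ∀ y : ↥(P ⊔ R₀), (y : Ω) ∈ R₀ → ψ y ∈ R₀ := by
    intro P ψ hmap y hy
    have h5 : ψ y ∈ (R₀.subgroupOf (P ⊔ R₀)).map ψ :=
      Subgroup.mem_map_of_mem _ (Subgroup.mem_subgroupOf.mpr hy)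
    rwa [hmap] at h5
  -- strongly closed terms
  have hLsc : ∀ k, E.StronglyClosed (R₀.lowerCentralSeries k) := by
    intro k
    refine ⟨(Subgroup.lowerCentralSeries_le_self R₀ k).trans hR₀T, fun P hP φ hφ x => ?_⟩
    obtain ⟨ψ, hψ, hext, hmap⟩ := hR₀n.2 P φ hφ
    have h5 := lcs_hom R₀ (ψ.comp (Subgroup.inclusion (le_sup_right : R₀ ≤ P ⊔ R₀)))
      (fun y => hext_mem hmap _ y.2) k ⟨x, Subgroup.lowerCentralSeries_le_self R₀ k (hP x.2)⟩ (hP x.2)
    rw [← hext x]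
    exact h5
  have hQsc : E.StronglyClosed (R₀ ⊔ A) := by
    refine ⟨sup_le hR₀T hAT, fun P hP φ hφ x => ?_⟩
    obtain ⟨ψ, hψ, hext, hmap⟩ := hR₀n.2 P φ hφ
    obtain ⟨r, hr, a, ha, hxra⟩ := hdecomp x (hP x.2)
    have hrPR : r ∈ P ⊔ R₀ := (le_sup_right : R₀ ≤ P ⊔ R₀) hr
    have hxPR : (x : Ω) ∈ P ⊔ R₀ := (le_sup_left : P ≤ P ⊔ R₀) x.2
    have haPR : a ∈ P ⊔ R₀ := by
      have e : a = r⁻¹ * x := by rw [hxra]; group
      rw [e]
      exact Subgroup.mul_mem _ (Subgroup.inv_mem _ hrPR) hxPR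
    have e1 : Subgroup.inclusion (le_sup_left : P ≤ P ⊔ R₀) x = ⟨r, hrPR⟩ * ⟨a, haPR⟩ :=
      Subtype.ext hxra
    rw [← hext x, e1, map_mul]
    have h5 : ψ ⟨r, hrPR⟩ ∈ R₀ := hext_mem hmap _ hr
    have h6 : ψ ⟨a, haPR⟩ ∈ A := by
      apply hAmem _ ((E.le_of_mem hψ).2 _)
      intro y hy
      rw [← hmap] at hy
      obtain ⟨y', hy', rfl⟩ := hy
      rw [← map_mul, ← map_mul]
      congr 1
      apply Subtype.ext
      exact hAc a ha (y' : Ω) (Subgroup.mem_subgroupOf.mp hy')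
    exact Subgroup.mul_mem_sup h5 h6
  -- commutator conditions
  have hcomm1 : ∀ k, ⁅R₀ ⊔ A, R₀.lowerCentralSeries k⁆ ≤ R₀.lowerCentralSeries (k + 1) := by
    intro k
    rw [Subgroup.commutator_le]
    intro g hg z hz
    obtain ⟨r, hr, a, ha, rfl⟩ := hdecomp g hg
    have hza : a * z = z * a := hAc a ha z (Subgroup.lowerCentralSeries_le_self R₀ k hz)
    have e : ⁅r * a, z⁆ = ⁅r, z⁆ := by
      rw [commutatorElement_def, commutatorElement_def]
      calc r * a * z * (r * a)⁻¹ * z⁻¹ = r * (a * z) * a⁻¹ * r⁻¹ * z⁻¹ := by group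
        _ = r * (z * a) * a⁻¹ * r⁻¹ * z⁻¹ := by rw [hza]
        _ = r * z * r⁻¹ * z⁻¹ := by group
    rw [e]
    exact lcs_comm R₀ k hr hz
  have hcomm2 : ⁅R₀ ⊔ A, R₀ ⊔ A⁆ ≤ R₀ := by
    rw [Subgroup.commutator_le]
    intro g hg h hh
    obtain ⟨r, hr, a, ha, rfl⟩ := hdecomp g hg
    obtain ⟨r', hr', a', ha', rfl⟩ := hdecomp h hh
    have e : ⁅r * a, r' * a'⁆ = r * (a * r' * a⁻¹) * ⁅a, a'⁆ * (a' * r⁻¹ * a'⁻¹) * r'⁻¹ := by
      rw [commutatorElement_def, commutatorElement_def]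
      group
    rw [e]
    exact R₀.mul_mem (R₀.mul_mem (R₀.mul_mem (R₀.mul_mem hr (hR₀conj a (hAT ha) r' hr'))
      (hAA a ha a' ha')) (hR₀conj a' (hAT ha') _ (R₀.inv_mem hr))) (R₀.inv_mem hr')
  -- the chain
  have hR₀p : IsPGroup p R₀ := hTp.to_le hR₀T
  have : Finite R₀ := finite_of_le (hR₀T.trans hTS)
  obtain ⟨c, hc⟩ := lcs_eq_bot hR₀p
  have hnormal : E.IsNormal (R₀ ⊔ A) := by
    rw [Cfsg.Agent.S5088.result p hTp E hEsat (R₀ ⊔ A)]
    refine ⟨c + 1, fun j => if (j : ℕ) ≤ c then R₀.lowerCentralSeries (c - j) else R₀ ⊔ A, ?_, ?_, ?_, ?_⟩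
    · simp [hc]
    · simp
    · intro i j hij
      have hij' : (i : ℕ) ≤ (j : ℕ) := hij
      by_cases hj : (j : ℕ) ≤ c
      · have hi : (i : ℕ) ≤ c := hij'.trans hj
        simp only [hi, hj, if_true]
        exact R₀.lowerCentralSeries_antitone (by omega)
      · by_cases hi : (i : ℕ) ≤ c
        · simp only [hi, hj, if_true, if_false]
          exact (Subgroup.lowerCentralSeries_le_self R₀ _).trans le_sup_left
        · simp only [hi, hj, if_false]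
          exact le_rfl
    · intro i
      have hi : (i : ℕ) < c + 1 := i.2
      by_cases h : (i : ℕ) + 1 ≤ c
      · have h' : (i : ℕ) ≤ c := by omega
        have e : c - (i : ℕ) = (c - ((i : ℕ) + 1)) + 1 := by omega
        simp only [Fin.val_succ, Fin.val_castSucc, h, h', if_true]
        rw [e]
        exact ⟨hLsc _, hcomm1 _⟩
      · have h' : (i : ℕ) = c := by omega
        have h'' : (i : ℕ) ≤ c := by omega
        simp only [Fin.val_succ, Fin.val_castSucc, h, h'', if_true, if_false]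
        rw [h', Nat.sub_self, Subgroup.lowerCentralSeries_zero]
        exact ⟨hQsc, hcomm2⟩
  have hcentric : E.IsCentric (R₀ ⊔ A) := by
    refine ⟨sup_le hR₀T hAT, fun Q' hQ' => ?_⟩
    have hle : Q' ≤ R₀ ⊔ A := by
      obtain ⟨φ, hφ, hrange⟩ := hQ'
      intro y hy
      rw [← hrange] at hy
      obtain ⟨x, rfl⟩ := hy
      exact hQsc.2 (R₀ ⊔ A) le_rfl φ hφ x
    have : Finite ↥(R₀ ⊔ A) := finite_of_le ((sup_le hR₀T hAT).trans hTS)
    have hcard := isConj_card E hQ'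
    have heq : Q' = R₀ ⊔ A := Subgroup.eq_of_le_of_card_ge hle (le_of_eq hcard)
    rw [heq]
    intro x hx
    apply le_sup_right (a := R₀)
    apply hAmem x hx.1
    intro r hr
    exact (Subgroup.mem_centralizer_iff.mp hx.2 r (le_sup_left (b := A) hr)).symm
  exact ⟨hEsat, R₀ ⊔ A, hnormal, hcentric⟩

theorem subnormal_constrained {T : Subgroup Ω} (E : FusionSystem T) {S : Subgroup Ω}
    (F : FusionSystem S) (p : ℕ) (h : E.IsSubnormalIn F p) :
    Fact p.Prime → Finite S → IsPGroup p S → F.IsConstrained p → E.IsConstrained p := by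
  induction h with
  | refl F p =>
    intro _ _ _ hF
    exact hF
  | step hED hDF ih =>
    intro hp hfin hS hF
    rename_i U S' E' D F' p'
    have hUS : U ≤ S' := hDF.1.2.2.2.1.1
    exact ih hp (finite_of_le hUS) (hS.to_le hUS) (normal_constrained p' hS F' hF D hDF)

theorem result {Ω : Type*} [Group Ω] {S : Subgroup Ω} [Finite S] (p : ℕ) [Fact p.Prime] (hS : IsPGroup p S) (F : Cfsg.FusionSystem S) (hF : F.IsConstrained p) {T : Subgroup Ω} (E : Cfsg.FusionSystem T) (hE : E.IsSubnormalIn F p) : E.IsConstrained p :=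
  subnormal_constrained E F p hE inferInstance inferInstance hS hF

end Cfsg.Agent.S5342
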