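import Cfsg.Statements.S5521
import Mathlib
import Cfsg.Agent.Lib.Helper28.M24Trans

set_option autoImplicit false
open Cfsg

namespace Cfsg.Agent.S5521

open Cfsg.Agent.Lib.Helper3.Golay Cfsg.Agent.Lib.Helper28.M24Trans

def D : List ℕ := [0, 0, 0, 0, 976531636853126291160407323722221600, 979121071158219704299181131031480352, 970452748381697609285226999098476576, 966039336168793943308839874394687520, 981515887986994088769278604842469408, 963515095949177277443875056653535264, 980504394422866046962412236452235296, 967738580936480664927891663448279072, 975754295934893126319599781779965984, 961409415667826064667231448532617248, 979121071158219704299181131031480352, 983141956895601025126892051911247904, 972679049849814778609582601333213216, 979121071158219704299181131031480352, 968918221426309407724683958819063840, 979037747421335847153138073498388512, 965225113279737155758354497310656544, 971828115858035635643548061566863392, 984559288045672395699075860841728032, 0]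

def KD : List ℕ := [0, 0, 0, 0, 3445191788354718938862874488544416044232633496712829132703442414011895013398497204, 5139417865016993149305064454698141557250025742835682414449294977444938223668605836, 55907468750012908200445900753970218844860431248908200316117768382671114074597609661, 39578287400540406229475517991178946138112243876510411677397591628425039372615816819, 19950007239849790849433112186954868496808003849209239290425565137560408308102878000, 36613134033382421079565279366709275018191164798302221709693278985406594519508496762, 56828884095104024791839164257977825857198276082911183410316027034680413540972562356, 2584559351695322588491530621566428507273197757186236216512328194265300329597866173, 17017514973773146261261013772486697841109522307498665416141126147581078268872238707, 24813565105958504910580070382347844094980982361661607455066200832721984335001191934, 5139417865016993149305064454698141557250025742835682414449294977444938223668605836, 59820315154879707054388844163151990953345730361443807652163478241615108466457117431, 8898470741750092717179675469700280943058380016733266557403371796902254867323110135,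 5139417865016993149305064454698141557250025742835682414449294977444938223668605836, 8039821103104789674986723285822459400445751531342944957829629828333960497784939577, 33648857112611092394224067378799593331352971568419890732283857361965223947385987888, 42068280613032523556034859557892964436348156620467469639090199736390801543840314878, 58844593348091709270514737147878774947750335097664403065612938735328368080767525945, 29228196552564771585821414895748995520052017405123050455672774576007360034899132794, 0]

def Mv : List ℕ := [0, 0, 0, 0, 5, 4, 4, 4, 4, 4, 4, 4, 4, 4, 4, 4, 4, 4, 4, 4, 4, 4, 4, 0]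

theorem Dchk : ∀ i < 23, 4 ≤ i → (lvlB D KD [3, 2, 1, 0, 23] i i &&
    Nat.blt (Mv.getD i 0) 24 && !(Nat.beq (dig (D.getD i 0) (Mv.getD i 0)) (Mv.getD i 0))) = true := by
  decide +kernel

theorem list6 (l : List GolayPt) (h : l.length = 6) :
    ∃ a b c d e f, l = [a, b, c, d, e, f] := by
  match l, h with
  | [a, b, c, d, e, f], _ => exact ⟨a, b, c, d, e, f, rfl⟩

theorem fix6 (y : GolayPt) (h4 : 4 ≤ idx y) (h23 : idx y < 23) :
    ∃ g ∈ M24, g ≠ 1 ∧ g (pt 23) = pt 23 ∧ g (pt 0) = pt 0 ∧ g (pt 1) = pt 1 ∧ g (pt 2) = pt 2 ∧
      g (pt 3) = pt 3 ∧ g y = y := by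
  have h := Dchk (idx y) h23 h4
  simp only [Bool.and_eq_true, Nat.blt_eq, Bool.not_eq_true'] at h
  obtain ⟨⟨h1, h2⟩, h3⟩ := h
  have hv : vldB (D.getD (idx y) 0) = true := by
    unfold lvlB at h1
    simp only [Bool.and_eq_true] at h1
    exact h1.1.1.1.1
  obtain ⟨m1, m2, m3⟩ := lvl_sound h1
  refine ⟨_, m1, ?_, m2 23 (by simp), m2 0 (by simp), m2 1 (by simp), m2 2 (by simp),
    m2 3 (by simp), ?_⟩
  · intro e
    have h5 := P_pt hv _ h2
    rw [e] at h5
    have h6 := pt_injOn h2 (vld_spec hv _ h2).2.2.1 h5
    rw [← h6] at h3
    have h7 : Nat.beq (Mv.getD (idx y) 0) (Mv.getD (idx y) 0) = true := Nat.beq_refl _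
    rw [h7] at h3
    exact Bool.noConfusion h3
  · rw [pt_idx] at m3
    exact m3

/-- The Mathieu group M₂₄ in its natural action on the 24 coordinate positions of the binary Golay code has minimal base size exactly 7: every set of at most 6 positions is fixed pointwise by some non-identity element of M₂₄, while some set of 7 positions is fixed pointwise only by the identity. -/
theorem result :
    (∀ B : Finset Cfsg.GolayPt, B.card ≤ 6 → ∃ g ∈ Cfsg.M24, g ≠ 1 ∧ ∀ b ∈ B, g b = b) ∧
    (∃ B : Finset Cfsg.GolayPt, B.card = 7 ∧ ∀ g ∈ Cfsg.M24, (∀ b ∈ B, g b = b) → g = 1) := by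
  constructor
  · intro B hB
    obtain ⟨B', hBB', hB'⟩ := Finset.exists_superset_card_eq hB
      (show 6 ≤ Fintype.card GolayPt by decide)
    obtain ⟨x₁, x₂, x₃, x₄, x₅, x₆, hl⟩ := list6 B'.toList (by rw [Finset.length_toList, hB'])
    have hnd : [x₁, x₂, x₃, x₄, x₅, x₆].Nodup := hl ▸ B'.nodup_toList
    have hmem : ∀ b ∈ B', b ∈ [x₁, x₂, x₃, x₄, x₅, x₆] := by
      intro b hb
      rw [← hl]
      exact Finset.mem_toList.mpr hb
    have hnd5 : [x₁, x₂, x₃, x₄, x₅].Nodup := by
      have := hnd
      simp only [List.nodup_cons, List.mem_cons, List.not_mem_nil, or_false, not_or,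
        List.nodup_nil, and_true, not_false_eq_true] at this ⊢
      tauto
    obtain ⟨h, hh, e1, e2, e3, e4, e5⟩ := trans5 x₁ x₂ x₃ x₄ x₅ hnd5
    have key : ∀ (a : GolayPt) (i : ℕ), a ≠ x₆ → h a = pt i → idx (h x₆) ≠ i := by
      intro a i hab e
      apply idx_ne
      rw [← e]
      exact fun hh' => hab (h.injective hh').symm
    simp only [List.nodup_cons, List.mem_cons, List.not_mem_nil, or_false, not_or,
        List.nodup_nil, and_true, not_false_eq_true] at hnd
    have n1 := key x₁ 23 hnd.1.2.2.2.2 e1
    have n2 := key x₂ 0 hnd.2.1.2.2.2 e2
    have n3 := key x₃ 1 hnd.2.2.1.2.2 e3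
    have n4 := key x₄ 2 hnd.2.2.2.1.2 e4
    have n5 := key x₅ 3 hnd.2.2.2.2 e5
    have n6 := idx_lt (h x₆)
    obtain ⟨g, hg, hne, f1, f2, f3, f4, f5, f6⟩ := fix6 (h x₆) (by omega) (by omega)
    refine ⟨h⁻¹ * g * h, M24.mul_mem (M24.mul_mem (M24.inv_mem hh) hg) hh, ?_, ?_⟩
    · intro e
      apply hne
      have : g = h * (h⁻¹ * g * h) * h⁻¹ := by group
      rw [this, e]
      group
    · intro b hb
      have hb' := hmem b (hBB' hb)
      simp only [List.mem_cons, List.not_mem_nil, or_false] at hb'
      rw [Equiv.Perm.mul_apply, Equiv.Perm.mul_apply, Equiv.Perm.inv_eq_iff_eq]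
      rcases hb' with rfl | rfl | rfl | rfl | rfl | rfl
      · rw [e1, f1]
      · rw [e2, f2]
      · rw [e3, f3]
      · rw [e4, f4]
      · rw [e5, f5]
      · rw [f6]
  · refine ⟨{pt 23, pt 0, pt 1, pt 2, pt 3, pt 5, pt 4}, by decide, ?_⟩
    intro g hg hfix
    apply rigid
    refine ⟨hg, ?_⟩
    intro f hf
    apply hfix
    revert f
    decide


end Cfsg.Agent.S5521
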