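import Cfsg.Statements.S5562
import Mathlib

set_option autoImplicit false
open Cfsg

namespace Cfsg.Agent.S5562

theorem conj_pow_aux {G : Type*} [Group G] (e r : G) (he : e * e = 1) (her : e * r * e = r⁻¹) (k : ℕ) :
    r ^ k * e * (r ^ k)⁻¹ = r ^ (2 * k) * e := by
  have h1 : ∀ k : ℕ, e * r ^ k * e = (r ^ k)⁻¹ := by
    intro k
    induction k with
    | zero => simpa using he
    | succ k ih =>
      have : e * r ^ (k + 1) * e = (e * r ^ k * e) * (e * r * e) := by
        rw [pow_succ]
        calc e * (r ^ k * r) * e = e * r ^ k * 1 * r * e := by group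
          _ = e * r ^ k * (e * e) * r * e := by rw [he]
          _ = (e * r ^ k * e) * (e * r * e) := by group
      rw [this, ih, her, pow_succ, mul_inv_rev]
      have hc : Commute (r ^ k)⁻¹ r⁻¹ := ((Commute.refl r).pow_left k).inv_inv
      exact hc.eq
  have h2 : e * (r ^ k)⁻¹ = r ^ k * e := by
    have h3 := h1 k
    have : e * (r ^ k)⁻¹ = e * (e * r ^ k * e) := by rw [h3]
    rw [this]
    calc e * (e * r ^ k * e) = (e * e) * r ^ k * e := by group
      _ = r ^ k * e := by rw [he, one_mul]
  calc r ^ k * e * (r ^ k)⁻¹ = r ^ k * (e * (r ^ k)⁻¹) := by group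
    _ = r ^ k * (r ^ k * e) := by rw [h2]
    _ = r ^ (2 * k) * e := by rw [two_mul, pow_add]; group

/-- Let G be a finite group, d an involution of G whose conjugates pairwise have products of odd order, and x any involution of G. Then the conjugacy class of d is the disjoint union, over the conjugates a of d commuting with x, of the sets of conjugates of d commuting with ax: every conjugate of d commutes with ax for exactly one conjugate a of d that commutes with x. -/
theorem result {G : Type*} [Group G] [Finite G] (d : G) (hd : orderOf d = 2)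
    (hodd : ∀ a ∈ conjugatesOf d, ∀ b ∈ conjugatesOf d, Odd (orderOf (a * b)))
    (x : G) (hx : orderOf x = 2) :
    ∀ e ∈ conjugatesOf d,
      ∃! a : G, a ∈ conjugatesOf d ∧ Commute a x ∧ Commute e (a * x) := by
  intro e he
  have hxx : x * x = 1 := by
    have := pow_orderOf_eq_one x
    rw [hx, pow_two] at this
    exact this
  have hconj_sq : ∀ a ∈ conjugatesOf d, a * a = 1 := by
    intro a ha
    have ha' : IsConj d a := ha
    rw [isConj_iff] at ha'
    obtain ⟨c, rfl⟩ := ha'
    have hdd : d * d = 1 := by
      have := pow_orderOf_eq_one d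
      rw [hd, pow_two] at this
      exact this
    calc c * d * c⁻¹ * (c * d * c⁻¹) = c * (d * d) * c⁻¹ := by group
      _ = 1 := by rw [hdd]; group
  have hee : e * e = 1 := hconj_sq e he
  have hconj_trans : ∀ g : G, g * e * g⁻¹ ∈ conjugatesOf d := by
    intro g
    have he' : IsConj d e := he
    exact he'.trans (isConj_iff.mpr ⟨g, rfl⟩)
  set r := e * x with hr
  have her : e * r * e = r⁻¹ := by
    rw [hr, mul_inv_rev]
    have hxi : x⁻¹ = x := by rw [inv_eq_iff_mul_eq_one]; exact hxx
    have hei : e⁻¹ = e := by rw [inv_eq_iff_mul_eq_one]; exact hee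
    rw [hxi, hei]
    calc e * (e * x) * e = (e * e) * x * e := by group
      _ = x * e := by rw [hee, one_mul]
  have hxr : x = r⁻¹ * e := by
    rw [hr, mul_inv_rev]
    have hxi : x⁻¹ = x := by rw [inv_eq_iff_mul_eq_one]; exact hxx
    have hei : e⁻¹ = e := by rw [inv_eq_iff_mul_eq_one]; exact hee
    rw [hxi, hei, mul_assoc, hee, mul_one]
  have hcp := conj_pow_aux e r hee her
  have huniq : ∀ a : G, a ∈ conjugatesOf d → Commute a x → Commute e (a * x) →
      ∃ k : ℕ, Odd k ∧ a * x = r ^ k ∧ r ^ (2 * k) = 1 := by
    intro a ha hax heu
    set u := a * x with hu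
    have huu : u * u = 1 := by
      rw [hu]
      calc a * x * (a * x) = a * (x * a) * x := by group
        _ = a * (a * x) * x := by rw [hax.eq]
        _ = (a * a) * (x * x) := by group
        _ = 1 := by rw [hconj_sq a ha, hxx, one_mul]
    have hux : Commute u x := by
      rw [hu]
      exact hax.mul_left (Commute.refl x)
    have hur : Commute u r := by
      rw [hr]
      exact heu.symm.mul_right hux
    have hea : e * a = u * r := by
      have : a = u * x := by rw [hu, mul_assoc, hxx, mul_one]
      rw [hr]
      calc e * a = e * (u * x) := by rw [← this]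
        _ = (e * u) * x := by group
        _ = (u * e) * x := by rw [heu.eq]
        _ = u * (e * x) := by group
    have hk := hodd e he a ha
    rw [hea] at hk
    set k := orderOf (u * r) with hkdef
    have h1 : (u * r) ^ k = 1 := pow_orderOf_eq_one _
    rw [hur.mul_pow] at h1
    have huk : u ^ k = u := by
      obtain ⟨j, hj⟩ := hk
      rw [hj, pow_succ, pow_mul, pow_two, huu, one_pow, one_mul]
    rw [huk] at h1
    have hrk : r ^ k = u := by
      have : r ^ k = u⁻¹ := by
        rw [eq_inv_iff_mul_eq_one, ← h1]
        exact (hur.pow_right k).eq.symm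
      rw [this, inv_eq_iff_mul_eq_one]; exact huu
    refine ⟨k, hk, hrk.symm, ?_⟩
    rw [mul_comm, pow_mul, hrk, pow_two, huu]
  rcases Nat.even_or_odd (orderOf r) with hn | hn
  · -- even case
    obtain ⟨m, hm⟩ := hn
    have hm2 : orderOf r = 2 * m := by omega
    have hmpos : 0 < m := by
      have := orderOf_pos r
      omega
    set z := r ^ m with hz
    have hzz : z * z = 1 := by
      rw [hz, ← pow_add, ← two_mul, ← hm2]; exact pow_orderOf_eq_one r
    have hz1 : z ≠ 1 := by
      intro h
      have := orderOf_dvd_of_pow_eq_one h
      rw [hm2] at this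
      have := Nat.le_of_dvd hmpos this
      omega
    have hzi : z⁻¹ = z := by rw [inv_eq_iff_mul_eq_one]; exact hzz
    have hze : Commute z e := by
      have h1 := hcp m
      rw [← hm2, pow_orderOf_eq_one, one_mul] at h1
      have : z * e * z⁻¹ = e := h1
      have h2 : z * e = e * z := by
        calc z * e = z * e * z⁻¹ * z := by group
          _ = e * z := by rw [this]
      exact h2
    have hzr : Commute z r := (Commute.refl r).pow_left m
    have hzx : Commute z x := by
      rw [hxr]
      exact hzr.inv_right.mul_right hze
    rcases Nat.even_or_odd m with hme | hmo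
    · exfalso
      obtain ⟨j, hj⟩ := hme
      have h1 := hcp j
      rw [← two_mul] at hj
      rw [← hj] at h1
      have hmem : z * e ∈ conjugatesOf d := by
        have := hconj_trans (r ^ j)
        rw [h1] at this
        exact this
      have h2 := hodd e he (z * e) hmem
      have h3 : e * (z * e) = z := by
        calc e * (z * e) = e * (e * z) := by rw [hze.eq]
          _ = (e * e) * z := by group
          _ = z := by rw [hee, one_mul]
      rw [h3] at h2
      have h4 : orderOf z = 2 := by
        apply orderOf_eq_prime
        · rw [pow_two]; exact hzz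
        · exact hz1
      rw [h4] at h2
      exact absurd h2 (by decide)
    · obtain ⟨j, hj⟩ := hmo
      have h1 := hcp j
      have hmem : x * z ∈ conjugatesOf d := by
        have h2 := hconj_trans (r ^ j)
        rw [h1] at h2
        have : x * z = r ^ (2 * j) * e := by
          rw [hxr, hz]
          calc r⁻¹ * e * r ^ m = r⁻¹ * (e * z) := by rw [hz]; group
            _ = r⁻¹ * (z * e) := by rw [hze.eq]
            _ = r⁻¹ * r ^ (2 * j + 1) * e := by rw [hz, hj]; group
            _ = r ^ (2 * j) * e := by rw [pow_succ]; group
        rw [this]; exact h2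
      refine ⟨x * z, ⟨hmem, ?_, ?_⟩, ?_⟩
      · exact (Commute.refl x).mul_left hzx
      · have : x * z * x = z := by
          calc x * z * x = x * (z * x) := by group
            _ = x * (x * z) := by rw [hzx.eq]
            _ = (x * x) * z := by group
            _ = z := by rw [hxx, one_mul]
        rw [this]; exact hze.symm
      · rintro a ⟨ha, hax, heu⟩
        obtain ⟨k, hk, hak, hrk⟩ := huniq a ha hax heu
        have hdvd : 2 * m ∣ 2 * k := by
          rw [← hm2]; exact orderOf_dvd_of_pow_eq_one hrk
        have hmk : m ∣ k := (Nat.mul_dvd_mul_iff_left (by norm_num)).mp hdvd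
        obtain ⟨c, hc⟩ := hmk
        have hcodd : Odd c := by
          rcases Nat.even_or_odd c with hce | hco
          · exfalso
            have : Even k := by rw [hc]; exact hce.mul_left m
            exact (Nat.not_even_iff_odd.mpr hk) this
          · exact hco
        have hu : a * x = z := by
          rw [hak, hc, pow_mul]
          obtain ⟨i, hi⟩ := hcodd
          change z ^ c = z
          rw [hi, pow_succ, pow_mul, pow_two, hzz, one_pow, one_mul]
        have : a = z * x := by
          calc a = a * x * x := by rw [mul_assoc, hxx, mul_one]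
            _ = z * x := by rw [hu]
        rw [this]; exact hzx.eq
  · -- odd case
    obtain ⟨j, hj⟩ := hn
    have h1 := hcp j
    have hxmem : x ∈ conjugatesOf d := by
      have h2 := hconj_trans (r ^ j)
      rw [h1] at h2
      have : x = r ^ (2 * j) * e := by
        rw [hxr]
        have : r⁻¹ = r ^ (2 * j) := by
          rw [inv_eq_iff_mul_eq_one, ← pow_succ', ← hj]; exact pow_orderOf_eq_one r
        rw [this]
      rw [this]; exact h2
    refine ⟨x, ⟨hxmem, Commute.refl x, ?_⟩, ?_⟩
    · rw [hxx]; exact Commute.one_right e
    · rintro a ⟨ha, hax, heu⟩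
      obtain ⟨k, hk, hak, hrk⟩ := huniq a ha hax heu
      have hdvd : orderOf r ∣ 2 * k := orderOf_dvd_of_pow_eq_one hrk
      have hcop : Nat.Coprime (orderOf r) 2 := by
        rw [Nat.coprime_two_right]; exact ⟨j, hj⟩
      have hdk : orderOf r ∣ k := hcop.dvd_of_dvd_mul_left hdvd
      have hrk1 : r ^ k = 1 := orderOf_dvd_iff_pow_eq_one.mp hdk
      rw [hrk1] at hak
      calc a = a * x * x := by rw [mul_assoc, hxx, mul_one]
        _ = x := by rw [hak, one_mul]


end Cfsg.Agent.S5562
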