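import Mathlib
import Cfsg.Statements.S5713
import Cfsg.Agent.Lib.Helper23.MinDeg3

set_option autoImplicit false
open Cfsg

namespace Cfsg.Agent.S5713

open Cfsg.Agent.Lib.Helper23

/-- A classification-free minimal-degree bound. Let G be a finite group acting faithfully and primitively on a finite set Ω with n elements, and suppose that the image of G in the symmetric group on Ω does not contain the alternating group on Ω. Then every non-identity element of G moves at least (√n − 1)/2 points of Ω, that is, it fixes at most n − (√n − 1)/2 points. -/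
theorem result {G Ω : Type*} [Group G] [Finite G] [MulAction G Ω] [FaithfulSMul G Ω] [Fintype Ω] [DecidableEq Ω]
    (hprim : MulAction.IsPreprimitive G Ω)
    (hA : ¬ alternatingGroup Ω ≤ (MulAction.toPermHom G Ω).range)
    (g : G) (hg : g ≠ 1) :
    (Real.sqrt (Fintype.card Ω) - 1) / 2 ≤ (Fintype.card Ω : ℝ) - Nat.card (MulAction.fixedBy Ω g) := by
  have := hprim
  obtain ⟨x₀, hx₀⟩ : ∃ z : Ω, g • z ≠ z := by
    by_contra hcon
    apply hg
    apply FaithfulSMul.eq_of_smul_eq_smul (α := Ω)
    intro z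
    rw [one_smul]
    by_contra h
    exact hcon ⟨z, h⟩
  obtain ⟨Γ, hΓ⟩ : ∃ Γ : Finset Ω, ∀ z, z ∈ Γ ↔ g • z ≠ z :=
    ⟨Finset.univ.filter (fun z => g • z ≠ z), fun z => by simp⟩
  have hfix : Nat.card (MulAction.fixedBy Ω g) + Γ.card = Fintype.card Ω := by
    have h1 : Nat.card (MulAction.fixedBy Ω g)
        = (Finset.univ.filter (fun z : Ω => g • z = z)).card := by
      rw [_root_.Nat.card_coe_set_eq, Set.ncard_eq_toFinset_card']
      congr 1
      ext z
      simp [MulAction.mem_fixedBy]
    have h2 : Γ = Finset.univ.filter (fun z : Ω => ¬ g • z = z) := by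
      ext z
      rw [hΓ]
      simp
    rw [h1, h2, Finset.card_filter_add_card_filter_not, Finset.card_univ]
  have key : Fintype.card Ω ≤ (2 * Γ.card + 1) ^ 2 := by
    by_cases h2 : MinDeg.TwoTr G Ω
    · have h3 := MinDeg.twotr_bound h2 hA g Γ hΓ ((hΓ x₀).mpr hx₀)
      have h4 : (Γ.card - 1) * (Γ.card - 1) ≤ Γ.card * Γ.card :=
        Nat.mul_le_mul (Nat.sub_le _ _) (Nat.sub_le _ _)
      nlinarith
    · have hex : ∃ d, ∃ a b : Ω, a ≠ b ∧ (MinDeg.Dst G a b).card = d :=
        ⟨_, x₀, g • x₀, Ne.symm hx₀, rfl⟩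
      classical
      obtain ⟨x, y, hxy, hd⟩ := Nat.find_spec hex
      have hmin : ∀ a b : Ω, a ≠ b → (MinDeg.Dst G x y).card ≤ (MinDeg.Dst G a b).card := by
        intro a b hab
        rw [hd]
        exact Nat.find_min' hex ⟨a, b, hab, rfl⟩
      have h1 := MinDeg.uniprim hxy h2 hmin
      have h3 : (MinDeg.Dst G x y).card ≤ Γ.card := by
        refine (hmin x₀ (g • x₀) (Ne.symm hx₀)).trans (Finset.card_le_card ?_)
        intro z hz
        rw [MinDeg.mem_Dst] at hz
        rw [hΓ]
        exact fun h => hz ⟨g, h, rfl⟩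
      have h4 : 2 * (MinDeg.Dst G x y).card + 1 ≤ 2 * Γ.card + 1 := by omega
      exact h1.trans (Nat.pow_le_pow_left h4 2)
  have h1 : (Fintype.card Ω : ℝ) - Nat.card (MulAction.fixedBy Ω g) = Γ.card := by
    rw [← hfix]
    push_cast
    ring
  have h2 : Real.sqrt (Fintype.card Ω) ≤ 2 * (Γ.card : ℝ) + 1 := by
    rw [Real.sqrt_le_left (by positivity)]
    exact_mod_cast key
  rw [h1]
  linarith

end Cfsg.Agent.S5713
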