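import Cfsg.Statements.S5729
import Mathlib

set_option autoImplicit false
open Cfsg

namespace Cfsg.Agent.S5729


/-- Let a finite group G act faithfully and transitively on a set with n ≥ 3 points. Then either G is a Frobenius permutation group (Frobenius as a permutation group: transitive, some non-identity element fixes a point, and no non-identity element fixes two points) of order n(n − 1) and exactly |G|/n of its elements are derangements (fix no point), or the number of derangements is greater than |G|/n. -/
theorem result {G Ω : Type*} [Group G] [Finite G] [MulAction G Ω] [FaithfulSMul G Ω] [Fintype Ω] (htr : MulAction.IsPretransitive G Ω) (hn : 3 ≤ Fintype.card Ω) :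
    ((MulAction.IsPretransitive G Ω ∧ (∃ g : G, g ≠ 1 ∧ ∃ ω : Ω, g • ω = ω) ∧ ∀ g : G, g ≠ 1 → Nat.card (MulAction.fixedBy Ω g) ≤ 1) ∧ Nat.card G = Fintype.card Ω * (Fintype.card Ω - 1) ∧ Fintype.card Ω * Nat.card {g : G // ∀ ω : Ω, g • ω ≠ ω} = Nat.card G) ∨
    Nat.card G < Fintype.card Ω * Nat.card {g : G // ∀ ω : Ω, g • ω ≠ ω} := by
  classical
  have : Fintype G := Fintype.ofFinite G
  set n := Fintype.card Ω with hn_def
  set N := Fintype.card G with hN_def
  have hNpos : 0 < N := Fintype.card_pos
  let χ : G → ℕ := fun g => Fintype.card (MulAction.fixedBy Ω g)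
  have hχle : ∀ g, χ g ≤ n := fun g => Fintype.card_subtype_le _
  obtain ⟨a, b, hab⟩ : ∃ a b : Ω, a ≠ b := by
    have : 1 < Fintype.card Ω := by omega
    exact Fintype.exists_pair_of_one_lt_card this
  have hB1 : ∑ g : G, χ g = N := by
    have h0 := MulAction.sum_card_fixedBy_eq_card_orbits_mul_card_group G Ω
    have h1 : Fintype.card (MulAction.orbitRel.Quotient G Ω) = 1 := by
      have hs : Subsingleton (MulAction.orbitRel.Quotient G Ω) :=
        (MulAction.pretransitive_iff_subsingleton_quotient G Ω).mp htr
      have hne : Nonempty (MulAction.orbitRel.Quotient G Ω) := ⟨Quotient.mk'' a⟩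
      exact le_antisymm (Fintype.card_le_one_iff_subsingleton.mpr hs) Fintype.card_pos
    rw [h1, one_mul] at h0
    exact h0
  have hB2 : 2 * N ≤ ∑ g : G, χ g ^ 2 := by
    have h0 := MulAction.sum_card_fixedBy_eq_card_orbits_mul_card_group G (Ω × Ω)
    have h1 : ∀ g : G, Fintype.card (MulAction.fixedBy (Ω × Ω) g) = χ g ^ 2 := by
      intro g
      have e : MulAction.fixedBy (Ω × Ω) g ≃ MulAction.fixedBy Ω g × MulAction.fixedBy Ω g :=
        { toFun := fun x => (⟨x.1.1, (Prod.ext_iff.mp x.2).1⟩, ⟨x.1.2, (Prod.ext_iff.mp x.2).2⟩)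
          invFun := fun y => ⟨(y.1.1, y.2.1), Prod.ext y.1.2 y.2.2⟩
          left_inv := fun x => rfl
          right_inv := fun y => rfl }
      rw [Fintype.card_congr e, Fintype.card_prod, pow_two]
    have h2 : 2 ≤ Fintype.card (MulAction.orbitRel.Quotient G (Ω × Ω)) := by
      have hne : (Quotient.mk'' (a, a) : MulAction.orbitRel.Quotient G (Ω × Ω)) ≠ Quotient.mk'' (a, b) := by
        intro h
        rw [Quotient.eq''] at h
        obtain ⟨g, hg⟩ := h
        have h3 := Prod.ext_iff.mp hg
        simp only [Prod.smul_mk] at h3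
        have h4 : g • a = g • b := by rw [h3.1, h3.2]
        exact hab (MulAction.injective g h4)
      exact Fintype.one_lt_card_iff.mpr ⟨_, _, hne⟩
    simp_rw [h1] at h0
    rw [h0]
    exact Nat.mul_le_mul_right _ h2
  have hpt : ∀ g : G, χ g ^ 2 + n ≤ (n + 1) * χ g + (if χ g = 0 then n else 0) := by
    intro g
    by_cases h0 : χ g = 0
    · simp [h0]
    · simp only [h0, if_false, add_zero]
      have h1 : 1 ≤ χ g := Nat.one_le_iff_ne_zero.mpr h0
      have h2 := hχle g
      obtain ⟨c, hc⟩ : ∃ c, χ g = c + 1 := ⟨χ g - 1, by omega⟩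
      obtain ⟨e, he⟩ : ∃ e, n = c + 1 + e := ⟨n - (c + 1), by omega⟩
      rw [hc, he]
      nlinarith [Nat.zero_le (e * c)]
  set D := (Finset.univ.filter fun g : G => χ g = 0).card with hD_def
  have hDcard : Nat.card {g : G // ∀ ω : Ω, g • ω ≠ ω} = D := by
    rw [Nat.card_eq_fintype_card, Fintype.card_subtype, hD_def]
    congr 1
    ext g
    simp only [Finset.mem_filter, Finset.mem_univ, true_and]
    constructor
    · intro h
      change Fintype.card (MulAction.fixedBy Ω g) = 0
      rw [Fintype.card_eq_zero_iff]
      exact ⟨fun x => h x.1 x.2⟩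
    · intro h ω hω
      have h' : Fintype.card (MulAction.fixedBy Ω g) = 0 := h
      rw [Fintype.card_eq_zero_iff] at h'
      exact h'.false ⟨ω, hω⟩
  have hsumL : ∑ g : G, (χ g ^ 2 + n) = ∑ g : G, χ g ^ 2 + n * N := by
    rw [Finset.sum_add_distrib, Finset.sum_const, Finset.card_univ, smul_eq_mul, mul_comm]
  have hsumR : ∑ g : G, ((n + 1) * χ g + (if χ g = 0 then n else 0)) = (n + 1) * N + n * D := by
    rw [Finset.sum_add_distrib, ← Finset.mul_sum, hB1, ← Finset.sum_filter, Finset.sum_const,
      smul_eq_mul, mul_comm D n]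
  have hmain : ∑ g : G, (χ g ^ 2 + n) ≤ ∑ g : G, ((n + 1) * χ g + (if χ g = 0 then n else 0)) :=
    Finset.sum_le_sum fun g _ => hpt g
  have hineq : N ≤ n * D := by
    rw [hsumL, hsumR] at hmain
    nlinarith
  rw [hDcard, Nat.card_eq_fintype_card]
  rcases Nat.lt_or_ge N (n * D) with hlt | hge
  · right
    exact hlt
  · left
    have heq : n * D = N := le_antisymm hge hineq
    have hsumeq : ∑ g : G, (χ g ^ 2 + n) = ∑ g : G, ((n + 1) * χ g + (if χ g = 0 then n else 0)) := by
      apply le_antisymm hmain
      rw [hsumL, hsumR]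
      nlinarith
    have hpteq := (Finset.sum_eq_sum_iff_of_le (fun g _ => hpt g)).mp hsumeq
    have hfix1 : ∀ g : G, g ≠ 1 → χ g ≤ 1 := by
      intro g hg
      by_contra hcon
      push Not at hcon
      have h0 : χ g ≠ 0 := by omega
      have h1 := hpteq g (Finset.mem_univ g)
      simp only [h0, if_false, add_zero] at h1
      have h2 := hχle g
      have h3 : χ g = n := by
        obtain ⟨c, hc⟩ : ∃ c, χ g = c + 2 := ⟨χ g - 2, by omega⟩
        obtain ⟨e, he⟩ : ∃ e, n = c + 2 + e := ⟨n - (c + 2), by omega⟩
        rw [hc, he] at h1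
        have : e = 0 := by
          by_contra he0
          have : 1 ≤ e := Nat.one_le_iff_ne_zero.mpr he0
          nlinarith [Nat.zero_le (e * c)]
        omega
      apply hg
      apply FaithfulSMul.eq_of_smul_eq_smul (α := Ω)
      intro ω
      rw [one_smul]
      have h4 : (Finset.univ.filter fun ω : Ω => ω ∈ MulAction.fixedBy Ω g) = Finset.univ := by
        apply Finset.eq_univ_of_card
        rw [← Fintype.card_subtype]
        exact h3
      have h5 : ω ∈ Finset.univ.filter fun ω : Ω => ω ∈ MulAction.fixedBy Ω g := by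
        rw [h4]; exact Finset.mem_univ ω
      exact (Finset.mem_filter.mp h5).2
    have hχ1 : χ 1 = n := by
      change Fintype.card (MulAction.fixedBy Ω (1 : G)) = n
      rw [hn_def]
      apply Fintype.card_of_subtype Finset.univ
      intro x; simp
    have hcount : ∑ g : G, (χ g + (if χ g = 0 then 1 else 0)) = n + (N - 1) := by
      rw [← Finset.add_sum_erase Finset.univ _ (Finset.mem_univ (1 : G))]
      have h1 : χ 1 ≠ 0 := by rw [hχ1]; omega
      rw [if_neg h1, add_zero, hχ1]
      congr 1
      have h2 : ∀ g ∈ Finset.univ.erase (1 : G), (χ g + (if χ g = 0 then 1 else 0)) = 1 := by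
        intro g hg
        have h3 := hfix1 g (Finset.ne_of_mem_erase hg)
        by_cases h0 : χ g = 0
        · simp [h0]
        · simp only [h0, if_false, add_zero]; omega
      rw [Finset.sum_congr rfl h2, Finset.sum_const, smul_eq_mul, mul_one,
        Finset.card_erase_of_mem (Finset.mem_univ _), Finset.card_univ]
    have hcount2 : ∑ g : G, (χ g + (if χ g = 0 then 1 else 0)) = N + D := by
      rw [Finset.sum_add_distrib, hB1, ← Finset.sum_filter, Finset.sum_const, smul_eq_mul, mul_one]
    have hD : D + 1 = n := by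
      have := hcount.symm.trans hcount2
      omega
    have hNn : N = n * (n - 1) := by
      rw [← heq, ← hD]; simp
    refine ⟨⟨htr, ?_, ?_⟩, hNn, heq⟩
    · by_contra hcon
      push Not at hcon
      have hall : ∀ g : G, g ≠ 1 → χ g = 0 := by
        intro g hg
        change Fintype.card (MulAction.fixedBy Ω g) = 0
        rw [Fintype.card_eq_zero_iff]
        exact ⟨fun x => hcon g hg x.1 x.2⟩
      have hDN : N - 1 ≤ D := by
        rw [hD_def]
        have : (Finset.univ.erase (1 : G)) ⊆ Finset.univ.filter fun g : G => χ g = 0 := by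
          intro g hg
          simp only [Finset.mem_filter, Finset.mem_univ, true_and]
          exact hall g (Finset.ne_of_mem_erase hg)
        have h2 := Finset.card_le_card this
        rw [Finset.card_erase_of_mem (Finset.mem_univ _), Finset.card_univ] at h2
        exact h2
      have h3 : n * (n - 1) ≤ n := by
        rw [← hNn]; omega
      have h4 : n - 1 ≤ 1 := by
        have : n * (n - 1) ≤ n * 1 := by omega
        exact Nat.le_of_mul_le_mul_left this (by omega)
      omega
    · intro g hg
      rw [Nat.card_eq_fintype_card]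
      exact hfix1 g hg


end Cfsg.Agent.S5729
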