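import Cfsg.Statements.S5738
import Mathlib

set_option autoImplicit false
open Cfsg

namespace Cfsg.Agent.S5738

section
variable {F K : Type*} [Field F] [Field K] [Algebra F K]

def Lm : Kˣ →* (Module.End F K)ˣ :=
  Units.map ((Algebra.lmul F K : K →ₐ[F] Module.End F K) : K →* Module.End F K)

theorem Lm_apply (x : Kˣ) (y : K) : ((Lm x : (Module.End F K)ˣ) : Module.End F K) y = x * y := by
  simp [Lm]

def toU (σ : K ≃ₐ[F] K) : (Module.End F K)ˣ :=
  ⟨σ.toLinearMap, σ.symm.toLinearMap, by ext; simp, by ext; simp⟩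

theorem toU_apply (σ : K ≃ₐ[F] K) (y : K) : ((toU σ : (Module.End F K)ˣ) : Module.End F K) y = σ y := rfl

theorem toU_inv (σ : K ≃ₐ[F] K) : (toU σ)⁻¹ = toU (F := F) σ.symm := by
  apply Units.ext
  rfl

theorem unit_apply_inv (g : (Module.End F K)ˣ) (y : K) :
    (g : Module.End F K) (((g⁻¹ : (Module.End F K)ˣ) : Module.End F K) y) = y := by
  have h : (g : Module.End F K) * ((g⁻¹ : (Module.End F K)ˣ) : Module.End F K) = 1 := by
    rw [← Units.val_mul, mul_inv_cancel, Units.val_one]
  exact LinearMap.congr_fun h y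

theorem unit_inv_apply (g : (Module.End F K)ˣ) (y : K) :
    ((g⁻¹ : (Module.End F K)ˣ) : Module.End F K) ((g : Module.End F K) y) = y := by
  have h : ((g⁻¹ : (Module.End F K)ˣ) : Module.End F K) * (g : Module.End F K) = 1 := by
    rw [← Units.val_mul, inv_mul_cancel, Units.val_one]
  exact LinearMap.congr_fun h y

theorem conj_toU (σ : K ≃ₐ[F] K) (x : Kˣ) :
    toU σ * Lm x * (toU σ)⁻¹ = Lm (F := F) (Units.map (σ : K →* K) x) := by
  apply Units.ext
  apply LinearMap.ext
  intro y
  rw [toU_inv]
  simp only [Units.val_mul, Module.End.mul_apply, toU_apply, Lm_apply, map_mul, AlgEquiv.apply_symm_apply]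
  simp

theorem conj_mem (σ : K ≃ₐ[F] K) (m : (Module.End F K)ˣ) (hm : m ∈ (Lm (F := F) (K := K)).range) :
    toU σ * m * (toU σ)⁻¹ ∈ (Lm (F := F) (K := K)).range := by
  obtain ⟨x, rfl⟩ := hm
  rw [conj_toU]
  exact ⟨_, rfl⟩

theorem toU_mem_normalizer (σ : K ≃ₐ[F] K) :
    toU σ ∈ Subgroup.normalizer (((Lm (F := F) (K := K)).range : Subgroup (Module.End F K)ˣ) : Set (Module.End F K)ˣ) := by
  rw [Subgroup.mem_normalizer_iff]
  intro m
  constructor
  · exact conj_mem σ m
  · intro h
    have h2 := conj_mem σ.symm _ h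
    rw [← toU_inv] at h2
    simpa [mul_assoc] using h2

theorem mul_rel (g : (Module.End F K)ˣ)
    (hg : g ∈ Subgroup.normalizer (((Lm (F := F) (K := K)).range : Subgroup (Module.End F K)ˣ) : Set (Module.End F K)ˣ))
    (x z : K) : (g : Module.End F K) (x * z) * (g : Module.End F K) 1 = (g : Module.End F K) x * (g : Module.End F K) z := by
  by_cases hx : x = 0
  · subst hx; simp
  · rw [Subgroup.mem_normalizer_iff] at hg
    obtain ⟨y, hy⟩ := (hg (Lm (Units.mk0 x hx))).mp ⟨_, rfl⟩
    have h1 : Lm y * g = g * Lm (F := F) (Units.mk0 x hx) := by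
      rw [hy]; group
    have h2 : ∀ w : K, (y : K) * (g : Module.End F K) w = (g : Module.End F K) (x * w) := by
      intro w
      have := congrArg (fun f : (Module.End F K)ˣ => (f : Module.End F K) w) h1
      simpa [Units.val_mul, Module.End.mul_apply, Lm_apply] using this
    have h3 := h2 1
    rw [mul_one] at h3
    rw [← h2 z, ← h3]
    ring

end

/-- Let F ⊆ K be finite fields with |F| = q and [K : F] = n ≥ 2, so |K| = q^n. Regard K as an n-dimensional F-vector space; the multiplications by non-zero elements of K form a cyclic subgroup of GL_F(K) of order q^n − 1 acting regularly on the non-zero vectors (a Singer group). Its normaliser in GL_F(K) has order n·(q^n − 1). -/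
theorem result {F K : Type*} [Field F] [Fintype F] [Field K] [Fintype K] [Algebra F K] (n : ℕ) (hn : 2 ≤ n) (hdim : Module.finrank F K = n) :
    Nat.card (Subgroup.normalizer (((Units.map ((Algebra.lmul F K : K →ₐ[F] Module.End F K) : K →* Module.End F K)).range : Subgroup (Module.End F K)ˣ) : Set (Module.End F K)ˣ)) = n * (Fintype.card K - 1) := by
  classical
  change Nat.card (Subgroup.normalizer (((Lm (F := F) (K := K)).range : Subgroup (Module.End F K)ˣ) : Set (Module.End F K)ˣ)) = n * (Fintype.card K - 1)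
  set N := Subgroup.normalizer (((Lm (F := F) (K := K)).range : Subgroup (Module.End F K)ˣ) : Set (Module.End F K)ˣ) with hN
  let Ψ : Kˣ × (K ≃ₐ[F] K) → N := fun p =>
    ⟨Lm p.1 * toU p.2, N.mul_mem (Subgroup.le_normalizer ⟨p.1, rfl⟩) (toU_mem_normalizer p.2)⟩
  have hinj : Function.Injective Ψ := by
    rintro ⟨c, σ⟩ ⟨c', σ'⟩ h
    have h1 : Lm (F := F) c * toU σ = Lm c' * toU σ' := congrArg Subtype.val h
    have h2 := congrArg (fun f : (Module.End F K)ˣ => (f : Module.End F K) 1) h1
    simp only [Units.val_mul, Module.End.mul_apply, toU_apply, Lm_apply, map_one, mul_one] at h2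
    have hc : c = c' := Units.ext h2
    subst hc
    have h3 : toU (F := F) σ = toU σ' := mul_left_cancel h1
    have h4 : σ = σ' := by
      ext y
      have := congrArg (fun f : (Module.End F K)ˣ => (f : Module.End F K) y) h3
      simpa [toU_apply] using this
    rw [h4]
  have hsurj : Function.Surjective Ψ := by
    rintro ⟨g, hg⟩
    set u : K := (g : Module.End F K) 1 with hu
    have hu0 : u ≠ 0 := by
      intro h0
      have := unit_inv_apply g (1 : K)
      rw [← hu, h0, map_zero] at this
      exact zero_ne_one this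
    have hrel := mul_rel g hg
    let σl : K →ₗ[F] K := (LinearMap.mulLeft F u⁻¹) ∘ₗ (g : Module.End F K)
    have hσl : ∀ x, σl x = u⁻¹ * (g : Module.End F K) x := fun x => rfl
    let σh : K →ₐ[F] K := AlgHom.ofLinearMap σl
      (by rw [hσl, ← hu, inv_mul_cancel₀ hu0])
      (by
        intro x y
        rw [hσl, hσl, hσl]
        have := hrel x y
        rw [← hu] at this
        field_simp
        rw [← this]; ring)
    let σ : K ≃ₐ[F] K := AlgEquiv.ofBijective σh (AlgHom.bijective σh)
    refine ⟨(Units.mk0 u hu0, σ), ?_⟩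
    apply Subtype.ext
    apply Units.ext
    apply LinearMap.ext
    intro y
    change ((Lm (Units.mk0 u hu0) * toU σ : (Module.End F K)ˣ) : Module.End F K) y = (g : Module.End F K) y
    rw [Units.val_mul, Module.End.mul_apply, toU_apply, Lm_apply]
    change u * (u⁻¹ * (g : Module.End F K) y) = (g : Module.End F K) y
    rw [← mul_assoc, mul_inv_cancel₀ hu0, one_mul]
  have hcard := Nat.card_congr (Equiv.ofBijective Ψ ⟨hinj, hsurj⟩)
  rw [← hcard, Nat.card_prod, Nat.card_units, IsGalois.card_aut_eq_finrank, hdim, Nat.card_eq_fintype_card, mul_comm]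


end Cfsg.Agent.S5738
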