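import Cfsg.Statements.S5739
import Mathlib

set_option autoImplicit false
open Cfsg

namespace Cfsg.Agent.S5739

section
variable {F K : Type*} [Field F] [Field K] [Algebra F K]

def Lm : Kˣ →* (Module.End F K)ˣ :=
  Units.map ((Algebra.lmul F K : K →ₐ[F] Module.End F K) : K →* Module.End F K)

theorem Lm_apply (x : Kˣ) (y : K) : ((Lm x : (Module.End F K)ˣ) : Module.End F K) y = x * y := by
  simp [Lm]

theorem Lm_val (x : Kˣ) : ((Lm x : (Module.End F K)ˣ) : Module.End F K) = Algebra.lmul F K (x : K) := rfl

def Asub (g : (Module.End F K)ˣ) : Subalgebra F K where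
  carrier := {a | ∃ b : K, Algebra.lmul F K a =
    (g : Module.End F K) * Algebra.lmul F K b * ((g⁻¹ : (Module.End F K)ˣ) : Module.End F K)}
  mul_mem' := by
    rintro a a' ⟨b, hb⟩ ⟨b', hb'⟩
    refine ⟨b * b', ?_⟩
    rw [map_mul, map_mul, hb, hb']
    have h1 : ((g⁻¹ : (Module.End F K)ˣ) : Module.End F K) * (g : Module.End F K) = 1 := by
      rw [← Units.val_mul, inv_mul_cancel, Units.val_one]
    calc (g : Module.End F K) * Algebra.lmul F K b * ((g⁻¹ : (Module.End F K)ˣ) : Module.End F K) *
          ((g : Module.End F K) * Algebra.lmul F K b' * ((g⁻¹ : (Module.End F K)ˣ) : Module.End F K))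
        = (g : Module.End F K) * Algebra.lmul F K b * (((g⁻¹ : (Module.End F K)ˣ) : Module.End F K) *
          (g : Module.End F K)) * Algebra.lmul F K b' * ((g⁻¹ : (Module.End F K)ˣ) : Module.End F K) := by
          simp only [mul_assoc]
      _ = (g : Module.End F K) * (Algebra.lmul F K b * Algebra.lmul F K b') *
          ((g⁻¹ : (Module.End F K)ˣ) : Module.End F K) := by
          rw [h1, mul_one]; simp only [mul_assoc]
  one_mem' := by
    refine ⟨1, ?_⟩
    rw [map_one, mul_one, ← Units.val_mul, mul_inv_cancel, Units.val_one]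
  add_mem' := by
    rintro a a' ⟨b, hb⟩ ⟨b', hb'⟩
    refine ⟨b + b', ?_⟩
    rw [map_add, map_add, hb, hb', mul_add, add_mul]
  zero_mem' := by
    refine ⟨0, ?_⟩
    rw [map_zero, mul_zero, zero_mul]
  algebraMap_mem' := by
    intro c
    refine ⟨algebraMap F K c, ?_⟩
    rw [AlgHom.commutes, ← Algebra.commutes c (g : Module.End F K), mul_assoc, ← Units.val_mul,
      mul_inv_cancel, Units.val_one, mul_one]

end

/-- Let F ⊆ K be finite fields with |F| = q and [K : F] = n ≥ 2, and let M ≤ GL_F(K) be the Singer group of multiplications by non-zero elements of K. If g ∈ GL_F(K) does not normalise M, then the order of M ∩ gMg⁻¹ divides q^r − 1 for some proper divisor r of n. In particular, when n is prime, that order divides q − 1. -/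
theorem result {F K : Type*} [Field F] [Fintype F] [Field K] [Fintype K] [Algebra F K] (n : ℕ) (hn : 2 ≤ n) (hdim : Module.finrank F K = n)
    (g : (Module.End F K)ˣ) (hg : ((Units.map ((Algebra.lmul F K : K →ₐ[F] Module.End F K) : K →* Module.End F K)).range).map (MulAut.conj g).toMonoidHom ≠ (Units.map ((Algebra.lmul F K : K →ₐ[F] Module.End F K) : K →* Module.End F K)).range) :
    ∃ r : ℕ, 1 ≤ r ∧ r ∣ n ∧ r < n ∧ Nat.card ↥(((Units.map ((Algebra.lmul F K : K →ₐ[F] Module.End F K) : K →* Module.End F K)).range).map (MulAut.conj g).toMonoidHom ⊓ (Units.map ((Algebra.lmul F K : K →ₐ[F] Module.End F K) : K →* Module.End F K)).range) ∣ Fintype.card F ^ r - 1 := by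
  classical
  change ∃ r : ℕ, 1 ≤ r ∧ r ∣ n ∧ r < n ∧ Nat.card ↥(((Lm (F := F) (K := K)).range).map (MulAut.conj g).toMonoidHom ⊓ (Lm (F := F) (K := K)).range) ∣ Fintype.card F ^ r - 1
  change ((Lm (F := F) (K := K)).range).map (MulAut.conj g).toMonoidHom ≠ (Lm (F := F) (K := K)).range at hg
  set M := (Lm (F := F) (K := K)).range with hM
  set Mg := M.map (MulAut.conj g).toMonoidHom with hMg
  set S' : Subgroup Kˣ := Mg.comap Lm with hS'
  have hLinj : Function.Injective (Lm (F := F) (K := K)) := by
    intro x y h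
    apply Units.ext
    have := congrArg (fun f : (Module.End F K)ˣ => (f : Module.End F K) 1) h
    simpa [Lm_apply] using this
  have hS : Mg ⊓ M = S'.map Lm := by
    ext m
    constructor
    · rintro ⟨h1, ⟨x, rfl⟩⟩
      exact ⟨x, h1, rfl⟩
    · rintro ⟨x, hx, rfl⟩
      exact ⟨hx, ⟨x, rfl⟩⟩
  have hcardS : Nat.card ↥(Mg ⊓ M) = Nat.card S' := by
    rw [hS, Subgroup.card_map_of_injective hLinj]
  set T : Set K := (fun x : Kˣ => (x : K)) '' (S' : Set Kˣ) with hT
  set E : IntermediateField F K := IntermediateField.adjoin F T with hE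
  set r := Module.finrank F E with hr
  have hr1 : 1 ≤ r := Module.finrank_pos
  have hrn : r ∣ n := ⟨Module.finrank E K, by rw [← hdim, hr, Module.finrank_mul_finrank]⟩
  have hTE : ∀ x ∈ S', (x : K) ∈ E := fun x hx => IntermediateField.subset_adjoin F T ⟨x, hx, rfl⟩
  let φ : S' →* Eˣ :=
    { toFun := fun x => Units.mk0 ⟨((x : Kˣ) : K), hTE x x.2⟩ (by
        intro h
        have := congrArg Subtype.val h
        exact (x : Kˣ).ne_zero this)
      map_one' := by
        apply Units.ext
        rfl
      map_mul' := by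
        intro x y
        apply Units.ext
        rfl }
  have hφinj : Function.Injective φ := by
    intro x y h
    apply Subtype.ext
    apply Units.ext
    have h1 := congrArg (fun u : Eˣ => ((u : E) : K)) h
    exact h1
  have hdvd : Nat.card S' ∣ Nat.card Eˣ := Subgroup.card_dvd_of_injective φ hφinj
  have hcardE : Nat.card Eˣ = Fintype.card F ^ r - 1 := by
    rw [Nat.card_units, Module.natCard_eq_pow_finrank (K := F) (V := E), Nat.card_eq_fintype_card]
  refine ⟨r, hr1, hrn, ?_, by rw [hcardS, ← hcardE]; exact hdvd⟩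
  by_contra hlt
  have hrn' : r = n := le_antisymm (Nat.le_of_dvd (by omega) hrn) (not_lt.mp hlt)
  have hEtop : E = ⊤ := by
    apply IntermediateField.eq_of_le_of_finrank_eq le_top
    rw [IntermediateField.finrank_top', hdim, ← hrn']
  have hle : E.toSubalgebra ≤ Asub g := by
    rw [hE, IntermediateField.adjoin_toSubalgebra_of_isAlgebraic (fun x _ => Algebra.IsAlgebraic.isAlgebraic x)]
    apply Algebra.adjoin_le
    rintro _ ⟨x, hx, rfl⟩
    obtain ⟨m, ⟨y, rfl⟩, hm⟩ := hx
    refine ⟨(y : K), ?_⟩
    have h1 := congrArg Units.val hm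
    simp only [MulEquiv.coe_toMonoidHom, MulAut.conj_apply, Units.val_mul, Lm_val] at h1
    exact h1.symm
  have hall : ∀ a : K, a ∈ Asub g := fun a => hle (by rw [hEtop]; trivial)
  have hMle : M ≤ Mg := by
    rintro _ ⟨x, rfl⟩
    obtain ⟨b, hb⟩ := hall (x : K)
    have hb0 : b ≠ 0 := by
      rintro rfl
      rw [map_zero, mul_zero, zero_mul] at hb
      have := LinearMap.congr_fun hb 1
      simp at this
    refine ⟨Lm (Units.mk0 b hb0), ⟨_, rfl⟩, ?_⟩
    apply Units.ext
    simp only [MulEquiv.coe_toMonoidHom, MulAut.conj_apply, Units.val_mul, Lm_val]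
    exact hb.symm
  have hfinEnd : Finite (Module.End F K) :=
    Finite.of_injective (fun f : Module.End F K => (f : K → K)) DFunLike.coe_injective
  have hfinU : Finite (Module.End F K)ˣ := inferInstance
  have hMeq : M = Mg := by
    apply Subgroup.eq_of_le_of_card_ge hMle
    rw [hMg, Subgroup.card_map_of_injective (MulAut.conj g).injective]
  exact hg hMeq.symm


end Cfsg.Agent.S5739
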