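import Cfsg.Statements.S5747
import Mathlib

set_option autoImplicit false
open Cfsg

namespace Cfsg.Agent.S5747

section
variable {G Ω : Type*} [Group G] [MulAction G Ω]

def Moved (S : Subgroup G) (x : Ω) : Prop := ∃ g ∈ S, g • x ≠ x

def Irr : Subgroup G → List Ω → Prop
  | _, [] => True
  | S, x :: l => Moved S x ∧ Irr (S ⊓ MulAction.stabilizer G x) l

def IsBaseL (S : Subgroup G) (l : List Ω) : Prop := ∀ g ∈ S, (∀ y ∈ l, g • y = y) → g = 1

def IBL (S : Subgroup G) (l : List Ω) : Prop := Irr S l ∧ IsBaseL S l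

def stabL : Subgroup G → List Ω → Subgroup G
  | S, [] => S
  | S, x :: l => stabL (S ⊓ MulAction.stabilizer G x) l

theorem mem_stabL (S : Subgroup G) (l : List Ω) (g : G) :
    g ∈ stabL S l ↔ g ∈ S ∧ ∀ y ∈ l, g • y = y := by
  induction l generalizing S with
  | nil => simp [stabL]
  | cons x l ih =>
    rw [stabL, ih]
    simp [Subgroup.mem_inf, MulAction.mem_stabilizer_iff, and_assoc]

theorem irr_append (S : Subgroup G) (l₁ l₂ : List Ω) :
    Irr S (l₁ ++ l₂) ↔ Irr S l₁ ∧ Irr (stabL S l₁) l₂ := by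
  induction l₁ generalizing S with
  | nil => simp [Irr, stabL]
  | cons x l ih => simp [Irr, stabL, ih, and_assoc]

theorem isBaseL_cons (S : Subgroup G) (x : Ω) (l : List Ω) :
    IsBaseL S (x :: l) ↔ IsBaseL (S ⊓ MulAction.stabilizer G x) l := by
  unfold IsBaseL
  constructor
  · intro h g hg hl
    refine h g hg.1 ?_
    intro y hy
    rcases List.mem_cons.mp hy with rfl | hy
    · exact hg.2
    · exact hl y hy
  · intro h g hg hl
    exact h g ⟨hg, hl x List.mem_cons_self⟩ (fun y hy => hl y (List.mem_cons_of_mem _ hy))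

theorem ibl_cons (S : Subgroup G) (x : Ω) (l : List Ω) :
    IBL S (x :: l) ↔ Moved S x ∧ IBL (S ⊓ MulAction.stabilizer G x) l := by
  unfold IBL
  rw [isBaseL_cons]
  simp [Irr, and_assoc]

theorem isBaseL_perm {S : Subgroup G} {l l' : List Ω} (h : l.Perm l') (hb : IsBaseL S l) :
    IsBaseL S l' := by
  intro g hg hl
  exact hb g hg (fun y hy => hl y (h.mem_iff.mp hy))

open Classical in
noncomputable def prune : Subgroup G → List Ω → List Ω
  | _, [] => []
  | S, x :: l => if Moved S x then x :: prune (S ⊓ MulAction.stabilizer G x) l else prune S l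

theorem prune_sublist (S : Subgroup G) (l : List Ω) : (prune S l).Sublist l := by
  induction l generalizing S with
  | nil => simp [prune]
  | cons x l ih =>
    rw [prune]
    split_ifs
    · exact (ih _).cons_cons x
    · exact (ih _).cons x

theorem prune_irr (S : Subgroup G) (l : List Ω) : Irr S (prune S l) := by
  induction l generalizing S with
  | nil => simp [prune, Irr]
  | cons x l ih =>
    rw [prune]
    split_ifs with h
    · exact ⟨h, ih _⟩
    · exact ih _

theorem prune_base (S : Subgroup G) (l : List Ω) (hb : IsBaseL S l) : IsBaseL S (prune S l) := by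
  induction l generalizing S with
  | nil => simpa [prune] using hb
  | cons x l ih =>
    rw [prune]
    split_ifs with h
    · rw [isBaseL_cons] at hb ⊢
      exact ih _ hb
    · apply ih
      intro g hg hl
      apply hb g hg
      intro y hy
      rcases List.mem_cons.mp hy with rfl | hy
      · by_contra hne
        exact h ⟨g, hg, hne⟩
      · exact hl y hy

variable (Ω) in
def RL (S : Subgroup G) : Prop := ∀ l l' : List Ω, l.Perm l' → IBL S l → IBL S l'

variable (Ω) in
def PL (S : Subgroup G) : Prop := ∀ l l' : List Ω, IBL S l → IBL S l' → l.length = l'.length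

theorem RL_inherit (S : Subgroup G) (x : Ω) (h : RL Ω S) (hx : Moved S x) :
    RL Ω (S ⊓ MulAction.stabilizer G x) := by
  intro l l' hp hl
  have h1 : IBL S (x :: l) := (ibl_cons S x l).mpr ⟨hx, hl⟩
  exact ((ibl_cons S x l').mp (h _ _ (hp.cons x) h1)).2

theorem card_lt [Finite G] (S : Subgroup G) (x : Ω) (hx : Moved S x) :
    Nat.card (S ⊓ MulAction.stabilizer G x : Subgroup G) < Nat.card S := by
  by_contra hcon
  push Not at hcon
  have h1 : S ⊓ MulAction.stabilizer G x = S := Subgroup.eq_of_le_of_card_ge inf_le_left hcon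
  obtain ⟨g, hg, hgx⟩ := hx
  rw [← h1] at hg
  exact hgx hg.2

theorem PL_to_RL (S : Subgroup G) (hP : PL Ω S) : RL Ω S := by
  intro l l' hp hl
  have hb' : IsBaseL S l' := isBaseL_perm hp hl.2
  have h1 : IBL S (prune S l') := ⟨prune_irr S l', prune_base S l' hb'⟩
  have h2 := hP _ _ hl h1
  have h3 : prune S l' = l' := (prune_sublist S l').eq_of_length (by rw [← h2, hp.length_eq])
  rw [← h3]
  exact h1

theorem claim (S : Subgroup G) (hR : RL Ω S) (a : List Ω) (ha : IBL S a)
    (hmin : ∀ c : List Ω, IBL S c → a.length ≤ c.length) (x : Ω) (hx : Moved S x) :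
    ∃ c : List Ω, IBL S c ∧ c.length = a.length ∧ x ∈ c := by
  classical
  have hne : a ≠ [] := by
    rintro rfl
    obtain ⟨g, hg, hgx⟩ := hx
    have : g = 1 := ha.2 g hg (by simp)
    subst this
    exact hgx (one_smul _ _)
  obtain ⟨a₀, z, haz⟩ := (List.eq_nil_or_concat a).resolve_left hne
  rw [List.concat_eq_append] at haz
  subst haz
  set H := stabL S a₀ with hH
  have hIrr := (irr_append S a₀ [z]).mp ha.1
  have hbaseH : ∀ g ∈ H, g • z = z → g = 1 := by
    intro g hg hgz
    rw [hH, mem_stabL] at hg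
    apply ha.2 g hg.1
    intro y hy
    rcases List.mem_append.mp hy with hy | hy
    · exact hg.2 y hy
    · rw [List.mem_singleton.mp hy]; exact hgz
  by_cases hxH : Moved H x
  · refine ⟨a₀ ++ [x], ⟨(irr_append S a₀ [x]).mpr ⟨hIrr.1, ⟨hxH, trivial⟩⟩, ?_⟩, by simp, by simp⟩
    intro g hg hfix
    by_contra hg1
    have hgH : g ∈ H := by
      rw [hH, mem_stabL]
      exact ⟨hg, fun y hy => hfix y (List.mem_append_left _ hy)⟩
    have hgx : g • x = x := hfix x (by simp)
    have hgz : g • z ≠ z := fun h => hg1 (hbaseH g hgH h)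
    have h1 : IBL S (a₀ ++ [x, z]) := by
      refine ⟨(irr_append S a₀ [x, z]).mpr ⟨hIrr.1, ⟨hxH, ⟨⟨g, ⟨hgH, hgx⟩, hgz⟩, trivial⟩⟩⟩, ?_⟩
      intro k hk hfixk
      apply ha.2 k hk
      intro y hy
      apply hfixk
      rcases List.mem_append.mp hy with hy | hy
      · exact List.mem_append_left _ hy
      · apply List.mem_append_right
        rw [List.mem_singleton.mp hy]
        simp
    have h2 : IBL S (a₀ ++ [z, x]) :=
      hR _ _ (List.Perm.append_left a₀ (List.Perm.swap z x [])) h1
    have h3 := ((irr_append S a₀ [z, x]).mp h2.1).2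
    obtain ⟨k, ⟨hkH, hkz⟩, hkx⟩ := h3.2.1
    have hk1 : k = 1 := hbaseH k hkH hkz
    subst hk1
    exact hkx (one_smul _ _)
  · set a' := prune (S ⊓ MulAction.stabilizer G x) (a₀ ++ [z]) with ha'
    have hprune : prune S (x :: (a₀ ++ [z])) = x :: a' := by
      rw [prune, if_pos hx]
    have hIB : IBL S (x :: a') := by
      rw [← hprune]
      refine ⟨prune_irr _ _, prune_base _ _ ?_⟩
      intro g hg hfix
      exact ha.2 g hg (fun y hy => hfix y (List.mem_cons_of_mem _ hy))
    have hsub : a'.Sublist (a₀ ++ [z]) := prune_sublist _ _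
    have hlen1 : a'.length ≤ (a₀ ++ [z]).length := hsub.length_le
    have hlen2 : (a₀ ++ [z]).length ≤ (x :: a').length := hmin _ hIB
    by_cases heq : a'.length = (a₀ ++ [z]).length
    · exfalso
      have h1 : a' = a₀ ++ [z] := hsub.eq_of_length heq
      rw [h1] at hIB
      have hperm : (x :: (a₀ ++ [z])).Perm (a₀ ++ [x, z]) := (List.perm_middle).symm
      have h2 : IBL S (a₀ ++ [x, z]) := hR _ _ hperm hIB
      have h3 := ((irr_append S a₀ [x, z]).mp h2.1).2
      exact hxH h3.1
    · refine ⟨x :: a', hIB, ?_, by simp⟩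
      simp only [List.length_cons, List.length_append, List.length_nil] at hlen1 hlen2 heq ⊢
      omega

theorem main [Finite G] : ∀ (n : ℕ) (S : Subgroup G), Nat.card S = n → RL Ω S → PL Ω S := by
  classical
  intro n
  induction n using Nat.strong_induction_on with
  | _ n ih =>
    intro S hn hR
    have key : ∀ a b : List Ω, IBL S a → (∀ c : List Ω, IBL S c → a.length ≤ c.length) → IBL S b →
        a.length = b.length := by
      intro a b ha hmin hb
      cases b with
      | nil => exact Nat.le_zero.mp (hmin [] hb)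
      | cons x b' =>
        obtain ⟨hx, hb'⟩ := (ibl_cons S x b').mp hb
        obtain ⟨c, hc, hclen, hxc⟩ := claim S hR a ha hmin x hx
        have hc' : IBL S (x :: c.erase x) := hR _ _ (List.perm_cons_erase hxc) hc
        obtain ⟨_, hc''⟩ := (ibl_cons S x _).mp hc'
        have hlt : Nat.card (S ⊓ MulAction.stabilizer G x : Subgroup G) < n := hn ▸ card_lt S x hx
        have h1 := ih _ hlt (S ⊓ MulAction.stabilizer G x) rfl (RL_inherit S x hR hx) _ _ hc'' hb'
        rw [List.length_erase_of_mem hxc] at h1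
        have hcpos : 0 < c.length := List.length_pos_of_mem hxc
        rw [List.length_cons]
        omega
    intro l l' hl hl'
    obtain ⟨a, ha, hmin⟩ : ∃ a : List Ω, IBL S a ∧ ∀ c : List Ω, IBL S c → a.length ≤ c.length := by
      have hex : ∃ k, ∃ c : List Ω, IBL S c ∧ c.length = k := ⟨l.length, l, hl, rfl⟩
      obtain ⟨a, ha, hak⟩ := Nat.find_spec hex
      refine ⟨a, ha, fun c hc => ?_⟩
      rw [hak]
      exact Nat.find_min' hex ⟨c, hc, rfl⟩
    rw [← key a l ha hmin hl, ← key a l' ha hmin hl']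

theorem irr_ofFn : ∀ (t : ℕ) (S : Subgroup G) (f : Fin t → Ω), Irr S (List.ofFn f) ↔
    ∀ i : Fin t, ∃ g ∈ S, (∀ j : Fin t, j < i → g • f j = f j) ∧ g • f i ≠ f i := by
  intro t
  induction t with
  | zero =>
    intro S f
    simp [Irr]
  | succ t ih =>
    intro S f
    rw [List.ofFn_succ, Irr, ih, Fin.forall_fin_succ]
    apply and_congr
    · unfold Moved
      constructor
      · rintro ⟨g, hg, hgx⟩
        exact ⟨g, hg, fun j hj => absurd hj (Fin.not_lt_zero j), hgx⟩
      · rintro ⟨g, hg, -, hgx⟩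
        exact ⟨g, hg, hgx⟩
    · apply forall_congr'
      intro i
      constructor
      · rintro ⟨g, ⟨hgS, hg0⟩, hj, hi⟩
        refine ⟨g, hgS, ?_, hi⟩
        intro j hj'
        cases j using Fin.cases with
        | zero => exact hg0
        | succ j' => exact hj j' (Fin.succ_lt_succ_iff.mp hj')
      · rintro ⟨g, hgS, hj, hi⟩
        exact ⟨g, ⟨hgS, hj 0 (Fin.succ_pos i)⟩, fun j hj' => hj j.succ (Fin.succ_lt_succ_iff.mpr hj'), hi⟩

theorem ib_bridge (t : ℕ) (f : Fin t → Ω) :
    ((∀ g : G, (∀ i : Fin t, g • f i = f i) → g = 1) ∧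
      ∀ i : Fin t, ∃ g : G, (∀ j : Fin t, j < i → g • f j = f j) ∧ g • f i ≠ f i) ↔
    IBL (⊤ : Subgroup G) (List.ofFn f) := by
  unfold IBL
  rw [irr_ofFn, and_comm]
  apply and_congr
  · simp
  · unfold IsBaseL
    simp

theorem perm_sigma {l l' : List Ω} (h : l.Perm l') :
    ∃ (n : ℕ) (f : Fin n → Ω) (σ : Equiv.Perm (Fin n)), l = List.ofFn f ∧ l' = List.ofFn (f ∘ σ) := by
  induction h with
  | nil => exact ⟨0, Fin.elim0, 1, by simp, by simp⟩
  | cons x _ ih =>
    obtain ⟨n, f, σ, rfl, rfl⟩ := ih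
    refine ⟨n + 1, Fin.cons x f, Equiv.Perm.decomposeFin.symm (0, σ), by simp [List.ofFn_succ], ?_⟩
    rw [List.ofFn_succ]
    simp
    rfl
  | swap x y l =>
    refine ⟨l.length + 2, Fin.cons y (Fin.cons x l.get), Equiv.swap 0 1, ?_, ?_⟩
    · simp [List.ofFn_succ]
    · rw [List.ofFn_succ, List.ofFn_succ]
      have h1 : ∀ i : Fin l.length, (Equiv.swap (0 : Fin (l.length + 2)) 1) i.succ.succ = i.succ.succ := by
        intro i
        apply Equiv.swap_apply_of_ne_of_ne
        · exact Fin.succ_ne_zero _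
        · intro h
          have h2 : i.succ = 0 := Fin.succ_injective _ h
          exact Fin.succ_ne_zero _ h2
      have h3 : (Equiv.swap (0 : Fin (l.length + 2)) 1) 0 = 1 := Equiv.swap_apply_left _ _
      have h4 : (Equiv.swap (0 : Fin (l.length + 2)) 1) (Fin.succ 0) = 0 := Equiv.swap_apply_right _ _
      simp only [Function.comp_apply, h1, h3, h4]
      have h5 : (1 : Fin (l.length + 2)) = Fin.succ 0 := rfl
      rw [h5]
      simp only [Fin.cons_succ, Fin.cons_zero, List.ofFn_get]
  | trans _ _ ih₁ ih₂ =>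
    obtain ⟨n, f, σ, rfl, h2⟩ := ih₁
    obtain ⟨n', f', σ', h3, rfl⟩ := ih₂
    rw [h2] at h3
    have h4 := List.ofFn_inj'.mp h3
    obtain ⟨rfl, h5⟩ := Sigma.mk.inj_iff.mp h4
    have h6 : f ∘ σ = f' := eq_of_heq h5
    refine ⟨n, f, σ * σ', rfl, ?_⟩
    rw [← h6]
    rfl

end

/-- Let a finite group G act on a finite set Ω. An irredundant base is a sequence of points ω₁, …, ω_t whose pointwise stabiliser is trivial and in which each ω_i is moved by some element fixing ω₁, …, ω_{i−1}. Then all irredundant bases have the same length if and only if every reordering of an irredundant base is again an irredundant base. -/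
theorem result {G Ω : Type*} [Group G] [Finite G] [MulAction G Ω] [Fintype Ω] :
    (∀ (t t' : ℕ) (f : Fin t → Ω) (f' : Fin t' → Ω), ((∀ g : G, (∀ i : Fin t, g • f i = f i) → g = 1) ∧ ∀ i : Fin t, ∃ g : G, (∀ j : Fin t, j < i → g • f j = f j) ∧ g • f i ≠ f i) → ((∀ g : G, (∀ i : Fin t', g • f' i = f' i) → g = 1) ∧ ∀ i : Fin t', ∃ g : G, (∀ j : Fin t', j < i → g • f' j = f' j) ∧ g • f' i ≠ f' i) → t = t') ↔
    (∀ (t : ℕ) (f : Fin t → Ω) (σ : Equiv.Perm (Fin t)), ((∀ g : G, (∀ i : Fin t, g • f i = f i) → g = 1) ∧ ∀ i : Fin t, ∃ g : G, (∀ j : Fin t, j < i → g • f j = f j) ∧ g • f i ≠ f i) → ((∀ g : G, (∀ i : Fin t, g • (f ∘ σ) i = (f ∘ σ) i) → g = 1) ∧ ∀ i : Fin t, ∃ g : G, (∀ j : Fin t, j < i → g • (f ∘ σ) j = (f ∘ σ) j) ∧ g • (f ∘ σ) i ≠ (f ∘ σ) i)) := by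
  constructor
  · intro hP t f σ hf
    have hPL : PL Ω (⊤ : Subgroup G) := by
      intro l l' hl hl'
      have h1 := (ib_bridge (G := G) l.length l.get).mpr (by rw [List.ofFn_get]; exact hl)
      have h2 := (ib_bridge (G := G) l'.length l'.get).mpr (by rw [List.ofFn_get]; exact hl')
      exact hP _ _ _ _ h1 h2
    have hRL := PL_to_RL _ hPL
    rw [ib_bridge] at hf ⊢
    exact hRL _ _ (Equiv.Perm.ofFn_comp_perm σ f).symm hf
  · intro hR t t' f f' hf hf'
    have hRL : RL Ω (⊤ : Subgroup G) := by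
      intro l l' hp hl
      obtain ⟨n, f, σ, rfl, rfl⟩ := perm_sigma hp
      rw [← ib_bridge] at hl ⊢
      exact hR n f σ hl
    have hPL := main (Nat.card (⊤ : Subgroup G)) ⊤ rfl hRL
    rw [ib_bridge] at hf hf'
    have := hPL _ _ hf hf'
    simpa using this


end Cfsg.Agent.S5747
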