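import Cfsg.Statements.S5754

set_option autoImplicit false
open Cfsg

namespace Cfsg.Agent.S5754

open QuadraticMap

variable {F V : Type*} [Field F] [AddCommGroup V] [Module F V]

noncomputable def reflFun (Q : QuadraticForm F V) (v : V) (x : V) : V :=
  x - ((Q v)⁻¹ * polar Q x v) • v

theorem reflFun_add (Q : QuadraticForm F V) (v x y : V) :
    reflFun Q v (x + y) = reflFun Q v x + reflFun Q v y := by
  unfold reflFun
  rw [polar_add_left]
  module

theorem reflFun_smul (Q : QuadraticForm F V) (v : V) (a : F) (x : V) :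
    reflFun Q v (a • x) = a • reflFun Q v x := by
  unfold reflFun
  rw [polar_smul_left, smul_eq_mul]
  module

theorem map_sub_smul (Q : QuadraticForm F V) (x v : V) (c : F) :
    Q (x - c • v) = Q x + c * c * Q v - c * polar Q x v := by
  have h := QuadraticMap.map_add Q x ((-c) • v)
  rw [polar_smul_right, QuadraticMap.map_smul, smul_eq_mul, smul_eq_mul] at h
  have e : x - c • v = x + (-c) • v := by module
  rw [e, h]
  ring

theorem reflFun_map (Q : QuadraticForm F V) (v : V) (hv : Q v ≠ 0) (x : V) :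
    Q (reflFun Q v x) = Q x := by
  unfold reflFun
  rw [map_sub_smul]
  field_simp
  ring

theorem reflFun_invol (Q : QuadraticForm F V) (v : V) (hv : Q v ≠ 0) (x : V) :
    reflFun Q v (reflFun Q v x) = x := by
  unfold reflFun
  rw [polar_sub_left, polar_smul_left, polar_self, smul_eq_mul]
  have h2 : (2 : ℕ) • Q v = 2 * Q v := by simp
  rw [h2]
  have : ((Q v)⁻¹ * polar Q x v) + ((Q v)⁻¹ * (polar Q x v - (Q v)⁻¹ * polar Q x v * (2 * Q v))) = 0 := by
    field_simp
    ring
  have e : x - ((Q v)⁻¹ * polar Q x v) • v - ((Q v)⁻¹ * (polar Q x v - (Q v)⁻¹ * polar Q x v * (2 * Q v))) • v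
      = x - (((Q v)⁻¹ * polar Q x v) + ((Q v)⁻¹ * (polar Q x v - (Q v)⁻¹ * polar Q x v * (2 * Q v)))) • v := by
    module
  rw [e, this, zero_smul, sub_zero]

noncomputable def reflLin (Q : QuadraticForm F V) (v : V) : V →ₗ[F] V where
  toFun := reflFun Q v
  map_add' := reflFun_add Q v
  map_smul' := reflFun_smul Q v

noncomputable def reflIso (Q : QuadraticForm F V) (v : V) (hv : Q v ≠ 0) : Q.IsometryEquiv Q where
  toLinearEquiv := LinearEquiv.ofInvolutive (reflLin Q v) (reflFun_invol Q v hv)
  map_app' := reflFun_map Q v hv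

theorem reflIso_apply (Q : QuadraticForm F V) (v : V) (hv : Q v ≠ 0) (x : V) :
    reflIso Q v hv x = x - ((Q v)⁻¹ * polar Q x v) • v := rfl

theorem polar_eq (Q : QuadraticForm F V) (a b : V) : polar Q a b = Q a + Q b - Q (a - b) := by
  have h := map_sub_smul Q a b 1
  rw [one_smul] at h
  rw [h]
  ring

theorem key (Q : QuadraticForm F V) (hQ : Q.Anisotropic) {ι : Type*} (x y : ι → V)
    (hxy : ∀ i j, Q (x i - x j) = Q (y i - y j)) (h0 : ∀ i, Q (x i) = Q (y i)) (S : Finset ι) :
    ∃ φ : Q.IsometryEquiv Q, ∀ i ∈ S, φ (x i) = y i := by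
  classical
  induction S using Finset.induction_on with
  | empty => exact ⟨QuadraticMap.IsometryEquiv.refl Q, by simp⟩
  | insert k S hk ih =>
    obtain ⟨φ, hφ⟩ := ih
    by_cases hkk : φ (x k) = y k
    · refine ⟨φ, fun i hi => ?_⟩
      rcases Finset.mem_insert.mp hi with rfl | hi
      · exact hkk
      · exact hφ i hi
    · have hv : Q (y k - φ (x k)) ≠ 0 := by
        intro h
        exact hkk (sub_eq_zero.mp (hQ _ h)).symm
      have hφQ : ∀ z, Q (φ z) = Q z := fun z => φ.map_app z
      have hpol : ∀ i j, polar Q (φ (x i)) (φ (x j)) = polar Q (y i) (y j) := by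
        intro i j
        rw [polar_eq, polar_eq, hφQ, hφQ, ← map_sub, hφQ, hxy, h0, h0]
      refine ⟨φ.trans (reflIso Q _ hv), fun i hi => ?_⟩
      show reflIso Q _ hv (φ (x i)) = y i
      rw [reflIso_apply]
      rcases Finset.mem_insert.mp hi with rfl | hi
      · have h1 : polar Q (φ (x i)) (y i - φ (x i)) = - Q (y i - φ (x i)) := by
          rw [polar_sub_right, polar_self, polar_eq Q (φ (x i)) (y i), hφQ, h0]
          have h2 : (2 : ℕ) • Q (y i) = 2 * Q (y i) := by simp
          rw [h2, QuadraticMap.map_sub Q (y i) (φ (x i))]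
          ring
        rw [h1]
        have : (Q (y i - φ (x i)))⁻¹ * -Q (y i - φ (x i)) = -1 := by
          field_simp
        rw [this]
        module
      · have h1 : polar Q (φ (x i)) (y k - φ (x k)) = 0 := by
          rw [polar_sub_right, hpol, ← hφ i hi, sub_self]
        rw [h1, mul_zero, zero_smul, sub_zero, hφ i hi]

theorem result {F V : Type*} [Field F] [Finite F] [AddCommGroup V] [Module F V] [Module.Finite F V]
    (Q : QuadraticForm F V) (hQ : Q.Anisotropic) (n : ℕ) (hn : 2 ≤ n) (u u' : Fin n → V)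
    (h2 : ∀ i j : Fin n, i ≠ j → ∃ (φ : Q.IsometryEquiv Q) (c : V), φ (u i) + c = u' i ∧ φ (u j) + c = u' j) :
    ∃ (φ : Q.IsometryEquiv Q) (c : V), ∀ i, φ (u i) + c = u' i := by
  have hd : ∀ i j : Fin n, Q (u i - u j) = Q (u' i - u' j) := by
    intro i j
    by_cases hij : i = j
    · subst hij
      simp
    · obtain ⟨φ, c, h1, h2'⟩ := h2 i j hij
      rw [← h1, ← h2']
      have : φ (u i) + c - (φ (u j) + c) = φ (u i - u j) := by
        rw [map_sub]
        abel
      rw [this, φ.map_app]
  let i0 : Fin n := ⟨0, by omega⟩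
  obtain ⟨φ, hφ⟩ := key Q hQ (fun i => u i - u i0) (fun i => u' i - u' i0)
    (fun i j => by simpa using hd i j) (fun i => hd i i0) Finset.univ
  refine ⟨φ, u' i0 - φ (u i0), fun i => ?_⟩
  have h := hφ i (Finset.mem_univ i)
  simp only [map_sub] at h
  rw [← sub_eq_zero]
  have e : φ (u i) + (u' i0 - φ (u i0)) - u' i = (φ (u i) - φ (u i0)) - (u' i - u' i0) := by abel
  rw [e, h, sub_self]

end Cfsg.Agent.S5754
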