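import Cfsg.Statements.S5763

set_option autoImplicit false
open Cfsg

namespace Cfsg.Agent.S5763

def W : List (Equiv.Perm (Fin 8)) :=
  [Equiv.swap (6 : Fin 8) 7,
   Equiv.swap (0 : Fin 8) 1,
   Equiv.swap (0 : Fin 8) 1 * Equiv.swap (2 : Fin 8) 3 * Equiv.swap (4 : Fin 8) 5 * Equiv.swap (6 : Fin 8) 7,
   Equiv.swap (2 : Fin 8) 3,
   Equiv.swap (4 : Fin 8) 5,
   Equiv.swap (0 : Fin 8) 5 * Equiv.swap (1 : Fin 8) 4 * Equiv.swap (2 : Fin 8) 7 * Equiv.swap (3 : Fin 8) 6,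
   Equiv.swap (0 : Fin 8) 7 * Equiv.swap (1 : Fin 8) 6 * Equiv.swap (2 : Fin 8) 4 * Equiv.swap (3 : Fin 8) 5,
   Equiv.swap (0 : Fin 8) 2 * Equiv.swap (1 : Fin 8) 3 * Equiv.swap (4 : Fin 8) 7 * Equiv.swap (5 : Fin 8) 6,
   Equiv.swap (0 : Fin 8) 4 * Equiv.swap (1 : Fin 8) 5 * Equiv.swap (2 : Fin 8) 6 * Equiv.swap (3 : Fin 8) 7,
   Equiv.swap (0 : Fin 8) 6 * Equiv.swap (1 : Fin 8) 7 * Equiv.swap (2 : Fin 8) 4 * Equiv.swap (3 : Fin 8) 5,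
   Equiv.swap (0 : Fin 8) 6 * Equiv.swap (1 : Fin 8) 7 * Equiv.swap (2 : Fin 8) 5 * Equiv.swap (3 : Fin 8) 4,
   Equiv.swap (0 : Fin 8) 3 * Equiv.swap (1 : Fin 8) 2 * Equiv.swap (4 : Fin 8) 7 * Equiv.swap (5 : Fin 8) 6,
   Equiv.swap (0 : Fin 8) 7 * Equiv.swap (1 : Fin 8) 6 * Equiv.swap (2 : Fin 8) 5 * Equiv.swap (3 : Fin 8) 4,
   Equiv.swap (0 : Fin 8) 4 * Equiv.swap (1 : Fin 8) 5 * Equiv.swap (2 : Fin 8) 7 * Equiv.swap (3 : Fin 8) 6,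
   Equiv.swap (0 : Fin 8) 3 * Equiv.swap (1 : Fin 8) 2 * Equiv.swap (4 : Fin 8) 6 * Equiv.swap (5 : Fin 8) 7,
   Equiv.swap (0 : Fin 8) 5 * Equiv.swap (1 : Fin 8) 4 * Equiv.swap (2 : Fin 8) 6 * Equiv.swap (3 : Fin 8) 7,
   Equiv.swap (0 : Fin 8) 2 * Equiv.swap (1 : Fin 8) 3 * Equiv.swap (4 : Fin 8) 6 * Equiv.swap (5 : Fin 8) 7]

def t0 : Equiv.Perm (Fin 8) :=
  Equiv.swap (0 : Fin 8) 1 * Equiv.swap (2 : Fin 8) 3 * Equiv.swap (4 : Fin 8) 5 * Equiv.swap (6 : Fin 8) 7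

def vec (b0 b1 b2 b3 b4 b5 b6 b7 : Fin 8) : Fin 8 → Fin 8 := ![b0, b1, b2, b3, b4, b5, b6, b7]

def RF (a : Equiv.Perm (Fin 8)) (f : Fin 8 → Fin 8) : Prop :=
  (∀ x, a (f x) = f (a x)) ∧ ((∀ x, a x = x ∨ a x = f x) ∨ (∀ x, a x ≠ x ∧ a x ≠ f x))

instance (a : Equiv.Perm (Fin 8)) (f : Fin 8 → Fin 8) : Decidable (RF a f) := by
  unfold RF; infer_instance

def K7 (b0 b1 b2 b3 b4 b5 b6 : Fin 8) : Prop :=
  ∀ b7 : Fin 8, ¬ (b7 ≠ 7 ∧ b7 ≠ b0 ∧ b7 ≠ b1 ∧ b7 ≠ b2 ∧ b7 ≠ b3 ∧ b7 ≠ b4 ∧ b7 ≠ b5 ∧ b7 ≠ b6 ∧ (b0 = 7 ↔ b7 = 0) ∧ (b1 = 7 ↔ b7 = 1) ∧ (b2 = 7 ↔ b7 = 2) ∧ (b3 = 7 ↔ b7 = 3) ∧ (b4 = 7 ↔ b7 = 4) ∧ (b5 = 7 ↔ b7 = 5) ∧ (b6 = 7 ↔ b7 = 6)) ∨ ∃ a ∈ W, RF a (vec b0 b1 b2 b3 b4 b5 b6 b7)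
instance (b0 b1 b2 b3 b4 b5 b6 : Fin 8) : Decidable (K7 b0 b1 b2 b3 b4 b5 b6) := by
  unfold K7; infer_instance
def K6 (b0 b1 b2 b3 b4 b5 : Fin 8) : Prop :=
  ∀ b6 : Fin 8, ¬ (b6 ≠ 6 ∧ b6 ≠ b0 ∧ b6 ≠ b1 ∧ b6 ≠ b2 ∧ b6 ≠ b3 ∧ b6 ≠ b4 ∧ b6 ≠ b5 ∧ (b0 = 6 ↔ b6 = 0) ∧ (b1 = 6 ↔ b6 = 1) ∧ (b2 = 6 ↔ b6 = 2) ∧ (b3 = 6 ↔ b6 = 3) ∧ (b4 = 6 ↔ b6 = 4) ∧ (b5 = 6 ↔ b6 = 5)) ∨ K7 b0 b1 b2 b3 b4 b5 b6
instance (b0 b1 b2 b3 b4 b5 : Fin 8) : Decidable (K6 b0 b1 b2 b3 b4 b5) := by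
  unfold K6; infer_instance
def K5 (b0 b1 b2 b3 b4 : Fin 8) : Prop :=
  ∀ b5 : Fin 8, ¬ (b5 ≠ 5 ∧ b5 ≠ b0 ∧ b5 ≠ b1 ∧ b5 ≠ b2 ∧ b5 ≠ b3 ∧ b5 ≠ b4 ∧ (b0 = 5 ↔ b5 = 0) ∧ (b1 = 5 ↔ b5 = 1) ∧ (b2 = 5 ↔ b5 = 2) ∧ (b3 = 5 ↔ b5 = 3) ∧ (b4 = 5 ↔ b5 = 4)) ∨ K6 b0 b1 b2 b3 b4 b5
instance (b0 b1 b2 b3 b4 : Fin 8) : Decidable (K5 b0 b1 b2 b3 b4) := by
  unfold K5; infer_instance
def K4 (b0 b1 b2 b3 : Fin 8) : Prop :=
  ∀ b4 : Fin 8, ¬ (b4 ≠ 4 ∧ b4 ≠ b0 ∧ b4 ≠ b1 ∧ b4 ≠ b2 ∧ b4 ≠ b3 ∧ (b0 = 4 ↔ b4 = 0) ∧ (b1 = 4 ↔ b4 = 1) ∧ (b2 = 4 ↔ b4 = 2) ∧ (b3 = 4 ↔ b4 = 3)) ∨ K5 b0 b1 b2 b3 b4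
instance (b0 b1 b2 b3 : Fin 8) : Decidable (K4 b0 b1 b2 b3) := by
  unfold K4; infer_instance
def K3 (b0 b1 b2 : Fin 8) : Prop :=
  ∀ b3 : Fin 8, ¬ (b3 ≠ 3 ∧ b3 ≠ b0 ∧ b3 ≠ b1 ∧ b3 ≠ b2 ∧ (b0 = 3 ↔ b3 = 0) ∧ (b1 = 3 ↔ b3 = 1) ∧ (b2 = 3 ↔ b3 = 2)) ∨ K4 b0 b1 b2 b3
instance (b0 b1 b2 : Fin 8) : Decidable (K3 b0 b1 b2) := by
  unfold K3; infer_instance
def K2 (b0 b1 : Fin 8) : Prop :=
  ∀ b2 : Fin 8, ¬ (b2 ≠ 2 ∧ b2 ≠ b0 ∧ b2 ≠ b1 ∧ (b0 = 2 ↔ b2 = 0) ∧ (b1 = 2 ↔ b2 = 1)) ∨ K3 b0 b1 b2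
instance (b0 b1 : Fin 8) : Decidable (K2 b0 b1) := by
  unfold K2; infer_instance
def K1 (b0 : Fin 8) : Prop :=
  ∀ b1 : Fin 8, ¬ (b1 ≠ 1 ∧ b1 ≠ b0 ∧ (b0 = 1 ↔ b1 = 0)) ∨ K2 b0 b1
instance (b0 : Fin 8) : Decidable (K1 b0) := by
  unfold K1; infer_instance
def K0 : Prop :=
  ∀ b0 : Fin 8, ¬ (b0 ≠ 0) ∨ K1  b0
instance : Decidable K0 := by
  unfold K0; infer_instance

set_option maxRecDepth 100000 in
theorem big : K0 := by
  decide +kernel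

theorem Wprop : ∀ a ∈ W, (∃ x, a x ≠ x) ∧ (∀ x, a (a x) = x) ∧ RF a t0 :=
  @of_decide_eq_true _ (List.decidableBAll _ W) (by decide +kernel)

theorem lemC (t : Equiv.Perm (Fin 8)) (htt : ∀ x, t (t x) = x) (hfpf : ∀ x, t x ≠ x) :
    ∃ a ∈ W, RF a t := by
  have hinv : ∀ i j, t i = j ↔ t j = i := by
    intro i j
    constructor
    · rintro rfl; exact htt _
    · rintro rfl; exact htt _
  have h0 := big
  have h1 := (h0 (t 0)).resolve_left (not_not.mpr (hfpf 0))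
  have h2 := (h1 (t 1)).resolve_left (not_not.mpr ⟨hfpf 1, t.injective.ne (by decide), hinv 0 1⟩)
  have h3 := (h2 (t 2)).resolve_left (not_not.mpr ⟨hfpf 2, t.injective.ne (by decide), t.injective.ne (by decide), hinv 0 2, hinv 1 2⟩)
  have h4 := (h3 (t 3)).resolve_left (not_not.mpr ⟨hfpf 3, t.injective.ne (by decide), t.injective.ne (by decide), t.injective.ne (by decide), hinv 0 3, hinv 1 3, hinv 2 3⟩)
  have h5 := (h4 (t 4)).resolve_left (not_not.mpr ⟨hfpf 4, t.injective.ne (by decide), t.injective.ne (by decide), t.injective.ne (by decide), t.injective.ne (by decide), hinv 0 4, hinv 1 4, hinv 2 4, hinv 3 4⟩)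
  have h6 := (h5 (t 5)).resolve_left (not_not.mpr ⟨hfpf 5, t.injective.ne (by decide), t.injective.ne (by decide), t.injective.ne (by decide), t.injective.ne (by decide), t.injective.ne (by decide), hinv 0 5, hinv 1 5, hinv 2 5, hinv 3 5, hinv 4 5⟩)
  have h7 := (h6 (t 6)).resolve_left (not_not.mpr ⟨hfpf 6, t.injective.ne (by decide), t.injective.ne (by decide), t.injective.ne (by decide), t.injective.ne (by decide), t.injective.ne (by decide), t.injective.ne (by decide), hinv 0 6, hinv 1 6, hinv 2 6, hinv 3 6, hinv 4 6, hinv 5 6⟩)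
  have h8 := (h7 (t 7)).resolve_left (not_not.mpr ⟨hfpf 7, t.injective.ne (by decide), t.injective.ne (by decide), t.injective.ne (by decide), t.injective.ne (by decide), t.injective.ne (by decide), t.injective.ne (by decide), t.injective.ne (by decide), hinv 0 7, hinv 1 7, hinv 2 7, hinv 3 7, hinv 4 7, hinv 5 7, hinv 6 7⟩)
  have hv : vec (t 0) (t 1) (t 2) (t 3) (t 4) (t 5) (t 6) (t 7) = t := by
    funext i
    fin_cases i <;> rfl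
  rw [hv] at h8
  exact h8


def P0 : Subgroup (Equiv.Perm (Fin 8)) where
  carrier := {σ | ∀ i j : Fin 8, (i.val / 2 = j.val / 2 ↔ (σ i).val / 2 = (σ j).val / 2) ∧
      (i.val / 4 = j.val / 4 ↔ (σ i).val / 4 = (σ j).val / 4)}
  mul_mem' := by
    intro a b ha hb i j
    exact ⟨(hb i j).1.trans (ha (b i) (b j)).1, (hb i j).2.trans (ha (b i) (b j)).2⟩
  one_mem' := fun i j => ⟨Iff.rfl, Iff.rfl⟩
  inv_mem' := by
    intro a ha i j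
    have h := ha (a⁻¹ i) (a⁻¹ j)
    simp only [Equiv.Perm.coe_inv, Equiv.apply_symm_apply] at h
    exact ⟨h.1.symm, h.2.symm⟩

theorem quad_fix (σ : Equiv.Perm (Fin 8)) (hσ : σ ∈ P0) (i : Fin 8) :
    ((σ * σ) i).val / 4 = i.val / 4 := by
  have h1 : i.val / 4 = 0 ↔ (σ i).val / 4 = (σ 0).val / 4 := (hσ i 0).2
  have h2 : i.val / 4 = 1 ↔ (σ i).val / 4 = (σ 4).val / 4 := (hσ i 4).2
  have h3 : 0 = 1 ↔ (σ 0).val / 4 = (σ 4).val / 4 := (hσ 0 4).2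
  have h4 : (σ i).val / 4 = 0 ↔ (σ (σ i)).val / 4 = (σ 0).val / 4 := (hσ (σ i) 0).2
  have h5 : (σ i).val / 4 = 1 ↔ (σ (σ i)).val / 4 = (σ 4).val / 4 := (hσ (σ i) 4).2
  have b1 := (σ i).isLt
  have b2 := (σ (σ i)).isLt
  have b3 := (σ 0).isLt
  have b4 := (σ 4).isLt
  have b5 := i.isLt
  show (σ (σ i)).val / 4 = i.val / 4
  omega

theorem pair_fix (τ : Equiv.Perm (Fin 8)) (hτ : τ ∈ P0) (hq : ∀ i : Fin 8, (τ i).val / 4 = i.val / 4)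
    (i : Fin 8) : ((τ * τ) i).val / 2 = i.val / 2 := by
  have h0 : i.val / 2 = 0 ↔ (τ i).val / 2 = (τ 0).val / 2 := (hτ i 0).1
  have h2 : i.val / 2 = 1 ↔ (τ i).val / 2 = (τ 2).val / 2 := (hτ i 2).1
  have h4 : i.val / 2 = 2 ↔ (τ i).val / 2 = (τ 4).val / 2 := (hτ i 4).1
  have h6 : i.val / 2 = 3 ↔ (τ i).val / 2 = (τ 6).val / 2 := (hτ i 6).1
  have k0 : (τ i).val / 2 = 0 ↔ (τ (τ i)).val / 2 = (τ 0).val / 2 := (hτ (τ i) 0).1
  have k2 : (τ i).val / 2 = 1 ↔ (τ (τ i)).val / 2 = (τ 2).val / 2 := (hτ (τ i) 2).1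
  have k4 : (τ i).val / 2 = 2 ↔ (τ (τ i)).val / 2 = (τ 4).val / 2 := (hτ (τ i) 4).1
  have k6 : (τ i).val / 2 = 3 ↔ (τ (τ i)).val / 2 = (τ 6).val / 2 := (hτ (τ i) 6).1
  have d02 : 0 = 1 ↔ (τ 0).val / 2 = (τ 2).val / 2 := (hτ 0 2).1
  have d46 : 2 = 3 ↔ (τ 4).val / 2 = (τ 6).val / 2 := (hτ 4 6).1
  have q0 : (τ 0).val / 4 = 0 := hq 0
  have q2 : (τ 2).val / 4 = 0 := hq 2
  have q4 : (τ 4).val / 4 = 1 := hq 4
  have q6 : (τ 6).val / 4 = 1 := hq 6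
  have qi := hq i
  have qi' := hq (τ i)
  have b1 := (τ i).isLt
  have b2 := (τ (τ i)).isLt
  have b5 := i.isLt
  show (τ (τ i)).val / 2 = i.val / 2
  omega

theorem order2 (ρ : Equiv.Perm (Fin 8)) (hp : ∀ i : Fin 8, (ρ i).val / 2 = i.val / 2) (i : Fin 8) :
    ρ (ρ i) = i := by
  have h1 := hp i
  have h2 := hp (ρ i)
  have hinj : (ρ (ρ i)).val = (ρ i).val → (ρ i).val = i.val := by
    intro h
    exact congrArg Fin.val (ρ.injective (Fin.ext h))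
  have hcong : (ρ i).val = i.val → (ρ (ρ i)).val = (ρ i).val := by
    intro h
    exact congrArg (fun z => (ρ z).val) (Fin.ext h)
  apply Fin.ext
  omega

theorem pow8 (σ : Equiv.Perm (Fin 8)) (hσ : σ ∈ P0) : σ ^ 8 = 1 := by
  have hτ : σ * σ ∈ P0 := P0.mul_mem hσ hσ
  have h1 := quad_fix σ hσ
  have h2 := pair_fix (σ * σ) hτ h1
  have h3 := order2 ((σ * σ) * (σ * σ)) h2
  have : σ ^ 8 = ((σ * σ) * (σ * σ)) * ((σ * σ) * (σ * σ)) := by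
    simp only [pow_succ, pow_zero, one_mul, mul_assoc]
  rw [this]
  ext i
  exact congrArg Fin.val (h3 i)

theorem P0_pgroup : IsPGroup 2 P0 := by
  intro g
  refine ⟨3, ?_⟩
  apply Subtype.ext
  have := pow8 g.1 g.2
  simpa using this

theorem t0_pair : ∀ x : Fin 8, (t0 x).val / 2 = x.val / 2 := by decide
theorem t0_or : ∀ x y : Fin 8, x.val / 2 = y.val / 2 → y = x ∨ y = t0 x := by decide
theorem t0_invol : ∀ x : Fin 8, t0 (t0 x) = x := by decide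
theorem t0_fpf : ∀ x : Fin 8, t0 x ≠ x := by decide

theorem lemX (b : Equiv.Perm (Fin 8)) (bb : ∀ x, b (b x) = x) (hc : ∀ x, b (t0 x) = t0 (b x))
    (hd : (∀ x, b x = x ∨ b x = t0 x) ∨ (∀ x, b x ≠ x ∧ b x ≠ t0 x)) : b ∈ P0 := by
  have hp : ∀ x y : Fin 8, x.val / 2 = y.val / 2 → (b x).val / 2 = (b y).val / 2 := by
    intro x y h
    rcases t0_or x y h with rfl | rfl
    · rfl
    · rw [hc, t0_pair]
  have hq : ∀ x y : Fin 8, x.val / 4 = y.val / 4 → (b x).val / 4 = (b y).val / 4 := by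
    rcases hd with hd | hd
    · have h1 : ∀ x : Fin 8, (b x).val / 2 = x.val / 2 := by
        intro x
        rcases hd x with h | h
        · rw [h]
        · rw [h, t0_pair]
      intro x y h
      have := h1 x
      have := h1 y
      omega
    · have hne : ∀ x : Fin 8, (b x).val / 2 ≠ x.val / 2 := by
        intro x h
        rcases t0_or x (b x) h.symm with h' | h'
        · exact (hd x).1 h'
        · exact (hd x).2 h'
      intro x y h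
      have f1 : (b 0).val / 2 ≠ 0 := hne 0
      have f2 : (b 2).val / 2 ≠ 1 := hne 2
      have f3 : (b 4).val / 2 ≠ 2 := hne 4
      have f4 : (b 6).val / 2 ≠ 3 := hne 6
      have g1 : (b 0).val / 2 = 1 → 0 = (b 2).val / 2 := by
        intro h'
        have := hp (b 0) 2 h'
        rw [bb] at this
        exact this
      have g2 : (b 2).val / 2 = 0 → 1 = (b 0).val / 2 := by
        intro h'
        have := hp (b 2) 0 h'
        rw [bb] at this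
        exact this
      have g3 : (b 4).val / 2 = 3 → 2 = (b 6).val / 2 := by
        intro h'
        have := hp (b 4) 6 h'
        rw [bb] at this
        exact this
      have g4 : (b 6).val / 2 = 2 → 3 = (b 4).val / 2 := by
        intro h'
        have := hp (b 6) 4 h'
        rw [bb] at this
        exact this
      have g5 : (b 0).val / 2 ≠ (b 2).val / 2 := by
        intro h'
        have := hp (b 0) (b 2) h'
        rw [bb, bb] at this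
        exact absurd this (by decide)
      have g6 : (b 4).val / 2 ≠ (b 6).val / 2 := by
        intro h'
        have := hp (b 4) (b 6) h'
        rw [bb, bb] at this
        exact absurd this (by decide)
      have x0 : x.val / 2 = 0 → (b x).val / 2 = (b 0).val / 2 := hp x 0
      have x2 : x.val / 2 = 1 → (b x).val / 2 = (b 2).val / 2 := hp x 2
      have x4 : x.val / 2 = 2 → (b x).val / 2 = (b 4).val / 2 := hp x 4
      have x6 : x.val / 2 = 3 → (b x).val / 2 = (b 6).val / 2 := hp x 6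
      have y0 : y.val / 2 = 0 → (b y).val / 2 = (b 0).val / 2 := hp y 0
      have y2 : y.val / 2 = 1 → (b y).val / 2 = (b 2).val / 2 := hp y 2
      have y4 : y.val / 2 = 2 → (b y).val / 2 = (b 4).val / 2 := hp y 4
      have y6 : y.val / 2 = 3 → (b y).val / 2 = (b 6).val / 2 := hp y 6
      have c1 := (b 0).isLt
      have c2 := (b 2).isLt
      have c3 := (b 4).isLt
      have c4 := (b 6).isLt
      have c5 := (b x).isLt
      have c6 := (b y).isLt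
      have c7 := x.isLt
      have c8 := y.isLt
      omega
  intro i j
  refine ⟨⟨hp i j, ?_⟩, ⟨hq i j, ?_⟩⟩
  · intro h
    have := hp (b i) (b j) h
    rwa [bb, bb] at this
  · intro h
    have := hq (b i) (b j) h
    rwa [bb, bb] at this

theorem lemB (y a : Equiv.Perm (Fin 8)) (haa : ∀ x, a (a x) = x)
    (h : RF a ((y * t0 * y⁻¹ : Equiv.Perm (Fin 8)) : Fin 8 → Fin 8)) : y⁻¹ * a * y ∈ P0 := by
  obtain ⟨hc, hd⟩ := h
  apply lemX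
  · intro x
    simp only [Equiv.Perm.mul_apply, Equiv.Perm.coe_inv, Equiv.apply_symm_apply, haa,
      Equiv.symm_apply_apply]
  · intro x
    have := hc (y x)
    simp only [Equiv.Perm.mul_apply, Equiv.Perm.coe_inv, Equiv.symm_apply_apply] at this ⊢
    rw [this, Equiv.symm_apply_apply]
  · rcases hd with hd | hd
    · left
      intro x
      have := hd (y x)
      simp only [Equiv.Perm.mul_apply, Equiv.Perm.coe_inv, Equiv.symm_apply_apply] at this ⊢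
      rcases this with h | h
      · left; rw [h, Equiv.symm_apply_apply]
      · right; rw [h, Equiv.symm_apply_apply]
    · right
      intro x
      have := hd (y x)
      simp only [Equiv.Perm.mul_apply, Equiv.Perm.coe_inv, Equiv.symm_apply_apply] at this ⊢
      constructor
      · intro h; exact this.1 ((Equiv.symm_apply_eq y).mp h)
      · intro h; exact this.2 ((Equiv.symm_apply_eq y).mp h)

theorem key (y : Equiv.Perm (Fin 8)) :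
    ∃ a : Equiv.Perm (Fin 8), a ≠ 1 ∧ a ∈ P0 ∧ y⁻¹ * a * y ∈ P0 := by
  have htt : ∀ x, (y * t0 * y⁻¹) ((y * t0 * y⁻¹) x) = x := by
    intro x
    simp only [Equiv.Perm.mul_apply, Equiv.Perm.coe_inv, Equiv.symm_apply_apply, t0_invol,
      Equiv.apply_symm_apply]
  have hfpf : ∀ x, (y * t0 * y⁻¹) x ≠ x := by
    intro x h
    simp only [Equiv.Perm.mul_apply, Equiv.Perm.coe_inv] at h
    have h' : t0 (y.symm x) = y.symm x := by
      rw [Equiv.eq_symm_apply]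
      exact h
    exact t0_fpf _ h'
  obtain ⟨a, haW, hRF⟩ := lemC _ htt hfpf
  obtain ⟨⟨x, hx⟩, haa, hR0⟩ := Wprop a haW
  refine ⟨a, ?_, lemX a haa hR0.1 hR0.2, lemB y a haa hRF⟩
  rintro rfl
  exact hx rfl

theorem result (H : Sylow 2 (Equiv.Perm (Fin 8))) (x : Equiv.Perm (Fin 8)) :
    (H : Subgroup (Equiv.Perm (Fin 8))) ⊓ (H : Subgroup (Equiv.Perm (Fin 8))).map (MulAut.conj x).toMonoidHom ≠ ⊥ := by
  have : Fact (Nat.Prime 2) := ⟨Nat.prime_two⟩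
  obtain ⟨Q, hQ⟩ := P0_pgroup.exists_le_sylow
  obtain ⟨g, hg⟩ := MulAction.exists_smul_eq (Equiv.Perm (Fin 8)) H Q
  have hmem : ∀ p ∈ P0, g⁻¹ * p * g ∈ (H : Subgroup (Equiv.Perm (Fin 8))) := by
    intro p hp
    have h1 : p ∈ (Q : Subgroup (Equiv.Perm (Fin 8))) := hQ hp
    rw [← hg, Sylow.coe_subgroup_smul, Subgroup.mem_pointwise_smul_iff_inv_smul_mem] at h1
    simpa [MulAut.smul_def, MulAut.conj_inv_apply] using h1
  obtain ⟨a, ha1, haP, hayP⟩ := key (g * x * g⁻¹)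
  intro hbot
  have hin : g⁻¹ * a * g ∈ (H : Subgroup (Equiv.Perm (Fin 8))) ⊓
      (H : Subgroup (Equiv.Perm (Fin 8))).map (MulAut.conj x).toMonoidHom := by
    refine ⟨hmem a haP, ?_⟩
    refine ⟨x⁻¹ * (g⁻¹ * a * g) * x, ?_, ?_⟩
    · have := hmem _ hayP
      have e : x⁻¹ * (g⁻¹ * a * g) * x =
          g⁻¹ * ((g * x * g⁻¹)⁻¹ * a * (g * x * g⁻¹)) * g := by group
      rw [e]
      exact this
    · simp only [MulEquiv.toMonoidHom_eq_coe, MonoidHom.coe_coe, MulAut.conj_apply]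
      group
  rw [hbot, Subgroup.mem_bot] at hin
  apply ha1
  have : a = g * (g⁻¹ * a * g) * g⁻¹ := by group
  rw [this, hin]
  group

end Cfsg.Agent.S5763
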