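import Cfsg.Statements.S5885

set_option autoImplicit false
open Cfsg

namespace Cfsg.Agent.S5885

open scoped Pointwise
open MulAction

theorem result {G : Type*} [Group G]
    [Finite G] (n : ℕ) (hodd : Odd n)
    (hA : ∀ P : Subgroup (Equiv.Perm (Fin n)), MulAction.IsPreprimitive P (Fin n) → alternatingGroup (Fin n) ≤ P)
    (M : Subgroup G) (hM : IsCoatom M) (hn : M.index = n) (H : Subgroup G) (hHM : H ≤ M)
    (hmax : IsCoatom (H.subgroupOf M)) (K : Subgroup G) (hK : IsCoatom K) (hHK : H ≤ K) :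
    IsCoatom (H.subgroupOf K) := by
  classical
  by_cases hKM : K = M
  · subst hKM; exact hmax
  have hKMH : K ⊓ M = H := by
    by_cases h : H.subgroupOf M = (K ⊓ M).subgroupOf M
    · rw [Subgroup.subgroupOf_inj] at h
      have h1 : H ⊓ M = H := inf_eq_left.mpr hHM
      have h2 : K ⊓ M ⊓ M = K ⊓ M := by rw [inf_assoc, inf_idem]
      rw [h1, h2] at h
      exact h.symm
    · have hle : H.subgroupOf M ≤ (K ⊓ M).subgroupOf M := by
        intro x hx
        rw [Subgroup.mem_subgroupOf] at hx ⊢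
        exact ⟨hHK hx, x.2⟩
      have htop := hmax.2 _ (lt_of_le_of_ne hle h)
      rw [Subgroup.subgroupOf_eq_top] at htop
      have hMK : M ≤ K := fun x hx => (htop hx).1
      exfalso
      rcases eq_or_lt_of_le hMK with h3 | h3
      · exact hKM h3.symm
      · exact hK.1 (hM.2 K h3)
  let Ω := G ⧸ M
  let α : Ω := ((1 : G) : G ⧸ M)
  have hstab : ∀ g : G, g • α = α ↔ g ∈ M := by
    intro g
    rw [← MulAction.mem_stabilizer_iff, MulAction.stabilizer_quotient]
  have hcard : Nat.card Ω = n := hn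
  have : Fintype Ω := Fintype.ofFinite Ω
  have : Nontrivial Ω := by
    obtain ⟨g, -, hg⟩ := SetLike.exists_of_lt hM.lt_top
    exact nontrivial_of_ne (g • α) α (fun h => hg ((hstab g).mp h))
  have : IsPreprimitive G Ω := by
    rw [← isCoatom_stabilizer_iff_preprimitive G α, MulAction.stabilizer_quotient]
    exact hM
  let e : Ω ≃ Fin n := Finite.equivFinOfCardEq hcard
  let ψ : G →* Equiv.Perm (Fin n) := (e.permCongrHom.toMonoidHom).comp (MulAction.toPermHom G Ω)
  have hprim : IsPreprimitive ψ.range (Fin n) := by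
    let f : Ω →ₑ[ψ.rangeRestrict] Fin n := ⟨e, by
      intro g x
      show e (g • x) = (ψ g) (e x)
      simp [ψ]⟩
    exact IsPreprimitive.of_surjective (f := f) e.surjective
  have halt := hA ψ.range hprim
  have tool : ∀ σ : Equiv.Perm Ω, Equiv.Perm.sign σ = 1 → ∃ g : G, ∀ x : Ω, g • x = σ x := by
    intro σ hσ
    have : e.permCongr σ ∈ alternatingGroup (Fin n) := by
      rw [Equiv.Perm.mem_alternatingGroup, Equiv.Perm.sign_permCongr]; exact hσ
    obtain ⟨g, hg⟩ := halt this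
    refine ⟨g, fun x => ?_⟩
    have h2 : e.permCongr (MulAction.toPerm g) = e.permCongr σ := hg
    have h3 := e.permCongr.injective h2
    rw [← h3]; rfl
  have tool3 : ∀ a b c : Ω, a ≠ b → a ≠ c → b ≠ c → ∃ g : G, g • a = c ∧ g • c = b ∧ g • b = a ∧
      ∀ x, x ≠ a → x ≠ b → x ≠ c → g • x = x := by
    intro a b c hab hac hbc
    obtain ⟨g, hg⟩ := tool (Equiv.swap a b * Equiv.swap a c) (by
      rw [map_mul, Equiv.Perm.sign_swap hab, Equiv.Perm.sign_swap hac]; rfl)
    refine ⟨g, ?_, ?_, ?_, ?_⟩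
    · rw [hg, Equiv.Perm.mul_apply, Equiv.swap_apply_left, Equiv.swap_apply_of_ne_of_ne hac.symm hbc.symm]
    · rw [hg, Equiv.Perm.mul_apply, Equiv.swap_apply_right, Equiv.swap_apply_left]
    · rw [hg, Equiv.Perm.mul_apply, Equiv.swap_apply_of_ne_of_ne hab.symm hbc, Equiv.swap_apply_right]
    · intro x hxa hxb hxc
      rw [hg, Equiv.Perm.mul_apply, Equiv.swap_apply_of_ne_of_ne hxa hxc, Equiv.swap_apply_of_ne_of_ne hxa hxb]
  refine ⟨?_, ?_⟩
  · rw [Ne, Subgroup.subgroupOf_eq_top]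
    intro hKH
    have hKM' : K ≤ M := hKH.trans hHM
    rcases eq_or_lt_of_le hKM' with h3 | h3
    · exact hKM h3
    · exact hM.1 (hK.2 M h3)
  · intro L' hL'
    by_contra hLtop
    set L : Subgroup G := L'.map K.subtype with hLdef
    have hLK : L ≤ K := by
      rintro x ⟨y, -, rfl⟩
      exact y.2
    have hHL : H ≤ L := by
      intro h hh
      have : (⟨h, hHK hh⟩ : K) ∈ H.subgroupOf K := by rw [Subgroup.mem_subgroupOf]; exact hh
      exact ⟨⟨h, hHK hh⟩, hL'.le this, rfl⟩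
    obtain ⟨l₀, hl₀L, hl₀H⟩ : ∃ l₀, l₀ ∈ L ∧ l₀ ∉ H := by
      obtain ⟨x, hxL, hxH⟩ := SetLike.exists_of_lt hL'
      refine ⟨x, ⟨x, hxL, rfl⟩, ?_⟩
      rwa [Subgroup.mem_subgroupOf] at hxH
    obtain ⟨k₀, hk₀K, hk₀L⟩ : ∃ k₀, k₀ ∈ K ∧ k₀ ∉ L := by
      have : ∃ x : K, x ∉ L' := by
        by_contra hcon
        push Not at hcon
        exact hLtop (by rw [eq_top_iff]; intro x _; exact hcon x)
      obtain ⟨x, hx⟩ := this
      refine ⟨x, x.2, ?_⟩
      rintro ⟨y, hy, hyx⟩
      have : y = x := Subtype.ext hyx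
      exact hx (this ▸ hy)
    set B : Set Ω := {x | ∃ l ∈ L, l • α = x} with hB
    have hBfin : B.Finite := Set.toFinite B
    have hαB : α ∈ B := ⟨1, L.one_mem, one_smul _ _⟩
    have hc : ∀ k ∈ K, ∀ x ∈ B, k • x ∈ B → k ∈ L := by
      rintro k hk x ⟨l, hl, rfl⟩ ⟨l', hl', hll'⟩
      have h1 : (l'⁻¹ * k * l) • α = α := by
        rw [mul_smul, mul_smul, ← hll', inv_smul_smul]
      have h2 : l'⁻¹ * k * l ∈ M := (hstab _).mp h1
      have h3 : l'⁻¹ * k * l ∈ K := K.mul_mem (K.mul_mem (K.inv_mem (hLK hl')) hk) (hLK hl)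
      have h4 : l'⁻¹ * k * l ∈ L := hHL (hKMH ▸ ⟨h3, h2⟩)
      have h5 : k = l' * (l'⁻¹ * k * l) * l⁻¹ := by group
      rw [h5]
      exact L.mul_mem (L.mul_mem hl' h4) (L.inv_mem hl)
    have hLB : ∀ l ∈ L, ∀ x ∈ B, l • x ∈ B := by
      rintro l hl x ⟨l', hl', rfl⟩
      exact ⟨l * l', L.mul_mem hl hl', mul_smul _ _ _⟩
    set β : Ω := l₀ • α with hβ
    have hβB : β ∈ B := ⟨l₀, hl₀L, rfl⟩
    have hβα : β ≠ α := by
      intro h
      have h2 : l₀ ∈ M := (hstab _).mp h
      exact hl₀H (hKMH ▸ ⟨hLK hl₀L, h2⟩)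
    set γ : Ω := k₀ • α with hγ
    set γ' : Ω := k₀ • β with hγ'
    have hk₀B : ∀ x ∈ B, k₀ • x ∉ B := fun x hx h => hk₀L (hc k₀ hk₀K x hx h)
    have hγB : γ ∉ B := hk₀B α hαB
    have hγ'B : γ' ∉ B := hk₀B β hβB
    have hγγ' : γ ≠ γ' := by
      intro h
      exact hβα (MulAction.injective k₀ h).symm
    have hT : ∀ g ∈ M, (∀ x ∈ B, g • x ∈ B) → g ∈ H := by
      set T : Subgroup G := M ⊓ stabilizer G B with hTdef
      have hHT : H ≤ T := by
        intro h hh
        have hst : h ∈ stabilizer G B := by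
          rw [mem_stabilizer_set' hBfin]
          intro x hx
          exact hLB h (hHL hh) x hx
        exact ⟨hHM hh, hst⟩
      have hTM : T ≤ M := inf_le_left
      have hTH : T = H := by
        by_cases h : H.subgroupOf M = T.subgroupOf M
        · rw [Subgroup.subgroupOf_inj] at h
          rw [inf_eq_left.mpr hHM, inf_eq_left.mpr hTM] at h
          exact h.symm
        · exfalso
          have hle : H.subgroupOf M ≤ T.subgroupOf M := by
            intro x hx
            rw [Subgroup.mem_subgroupOf] at hx ⊢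
            exact hHT hx
          have htop := hmax.2 _ (lt_of_le_of_ne hle h)
          rw [Subgroup.subgroupOf_eq_top] at htop
          have hβγ' : β ≠ γ' := by rintro h; exact hγ'B (h ▸ hβB)
          have hβγ : β ≠ γ := by rintro h; exact hγB (h ▸ hβB)
          have hαγ' : α ≠ γ' := by rintro h; exact hγ'B (h ▸ hαB)
          have hαγ : α ≠ γ := by rintro h; exact hγB (h ▸ hαB)
          obtain ⟨g, hg1, hg2, hg3, hg4⟩ := tool3 β γ' γ hβγ' hβγ hγγ'.symm
          have hgM : g ∈ M := (hstab g).mp (hg4 α hβα.symm hαγ' hαγ)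
          have hgT := htop hgM
          have := (mem_stabilizer_set' hBfin).mp hgT.2 hβB
          rw [hg1] at this
          exact hγB this
      intro g hgM hgB
      rw [← hTH]
      exact ⟨hgM, (mem_stabilizer_set' hBfin).mpr (fun x hx => hgB x hx)⟩
    obtain ⟨ε, hεB, hεB'⟩ : ∃ ε : Ω, ε ∉ B ∧ k₀⁻¹ • ε ∉ B := by
      by_contra hcon
      push Not at hcon
      set B' : Set Ω := (fun x => k₀ • x) '' B with hB'
      have hdisj : Disjoint B B' := by
        rw [Set.disjoint_left]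
        rintro x hx ⟨y, hy, rfl⟩
        exact hk₀B y hy hx
      have hun : B ∪ B' = Set.univ := by
        ext x
        simp only [Set.mem_union, Set.mem_univ, iff_true]
        by_cases hx : x ∈ B
        · exact Or.inl hx
        · exact Or.inr ⟨k₀⁻¹ • x, hcon x hx, smul_inv_smul k₀ x⟩
      have h1 : B'.ncard = B.ncard := Set.ncard_image_of_injective B (MulAction.injective k₀)
      have h2 := Set.ncard_union_eq hdisj
      rw [hun, Set.ncard_univ, hcard, h1] at h2
      obtain ⟨m, hm⟩ := hodd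
      omega
    have hγε : γ ≠ ε := by
      rintro rfl
      exact hεB' (by rw [hγ, inv_smul_smul]; exact hαB)
    have hγ'ε : γ' ≠ ε := by
      rintro rfl
      exact hεB' (by rw [hγ', inv_smul_smul]; exact hβB)
    obtain ⟨g, hg1, hg2, hg3, hg4⟩ := tool3 γ ε γ' hγε hγγ' hγ'ε.symm
    have hgfix : ∀ x ∈ B, g • x = x := by
      intro x hx
      apply hg4
      · rintro rfl; exact hγB hx
      · rintro rfl; exact hεB hx
      · rintro rfl; exact hγ'B hx
    have hgM : g ∈ M := (hstab g).mp (hgfix α hαB)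
    have hgH : g ∈ H := hT g hgM (fun x hx => by rw [hgfix x hx]; exact hx)
    have hk'K : k₀⁻¹ * g * k₀ ∈ K := K.mul_mem (K.mul_mem (K.inv_mem hk₀K) (hHK hgH)) hk₀K
    have h1 : (k₀⁻¹ * g * k₀) • α = β := by
      rw [mul_smul, mul_smul]
      show k₀⁻¹ • g • γ = β
      rw [hg1, hγ', inv_smul_smul]
    have hk'L : k₀⁻¹ * g * k₀ ∈ L := hc _ hk'K α hαB (h1 ▸ hβB)
    have h2 : (k₀⁻¹ * g * k₀) • β = k₀⁻¹ • ε := by
      rw [mul_smul, mul_smul]
      show k₀⁻¹ • g • γ' = _
      rw [hg2]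
    have := hLB _ hk'L β hβB
    rw [h2] at this
    exact hεB' this

end Cfsg.Agent.S5885
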