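import Cfsg.Statements.S5887
import Mathlib

set_option autoImplicit false
set_option maxHeartbeats 400000
open Cfsg

namespace Cfsg.Agent.S5887

open Polynomial Module

section prelim

variable {F : Type*} [Field F] {n : ℕ}

theorem conj_pow (g h : Matrix (Fin n) (Fin n) F) (hgh : h * g = 1)
    (a : Matrix (Fin n) (Fin n) F) (m : ℕ) : (g * a * h) ^ m = g * a ^ m * h := by
  induction m with
  | zero =>
    rw [pow_zero, pow_zero, mul_one]
    exact (mul_eq_one_comm.mp hgh).symm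
  | succ m ih =>
    rw [pow_succ, ih, pow_succ]
    calc g * a ^ m * h * (g * a * h) = g * a ^ m * (h * g) * a * h := by simp only [mul_assoc]
      _ = g * (a ^ m * a) * h := by rw [hgh, mul_one, mul_assoc g]

theorem mat_ext (A B : Matrix (Fin n) (Fin n) F)
    (h : ∀ y, Matrix.mulVec A y = Matrix.mulVec B y) : A = B := by
  apply Matrix.toLin'.injective
  apply LinearMap.ext
  intro y
  rw [Matrix.toLin'_apply, Matrix.toLin'_apply, h]

/-- an element of a field-like subalgebra with a nontrivial kernel vector vanishes -/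
theorem eq_zero_of_ker (K : Subalgebra F (Matrix (Fin n) (Fin n) F))
    (hinv : ∀ x ∈ K, x ≠ 0 → ∃ y ∈ K, x * y = 1) (M : Matrix (Fin n) (Fin n) F) (hM : M ∈ K)
    (w : Fin n → F) (hw : w ≠ 0) (hMw : Matrix.mulVec M w = 0) : M = 0 := by
  by_contra hne
  obtain ⟨y, -, hy⟩ := hinv M hM hne
  have hy' : y * M = 1 := mul_eq_one_comm.mp hy
  apply hw
  have h1 : Matrix.mulVec (y * M) w = w := by rw [hy', Matrix.one_mulVec]
  rw [← h1, ← Matrix.mulVec_mulVec, hMw, Matrix.mulVec_zero]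

/-- if `g a - a g` kills a nonzero vector and `g a g⁻¹ ∈ K`, then `g` commutes with `a` -/
theorem comm_of_ker (K : Subalgebra F (Matrix (Fin n) (Fin n) F))
    (hinv : ∀ x ∈ K, x ≠ 0 → ∃ y ∈ K, x * y = 1) (g ginv a : Matrix (Fin n) (Fin n) F)
    (hg1 : ginv * g = 1) (ha : a ∈ K) (hconj : g * a * ginv ∈ K)
    (w : Fin n → F) (hw : w ≠ 0) (hker : Matrix.mulVec (g * a - a * g) w = 0) :
    g * a = a * g := by
  have hg2 : g * ginv = 1 := mul_eq_one_comm.mp hg1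
  have hM : g * a * ginv - a ∈ K := K.sub_mem hconj ha
  have hgw : Matrix.mulVec g w ≠ 0 := by
    intro h
    apply hw
    have h1 : Matrix.mulVec (ginv * g) w = w := by rw [hg1, Matrix.one_mulVec]
    rw [← h1, ← Matrix.mulVec_mulVec, h, Matrix.mulVec_zero]
  have hMw : Matrix.mulVec (g * a * ginv - a) (Matrix.mulVec g w) = 0 := by
    rw [Matrix.mulVec_mulVec]
    have h1 : (g * a * ginv - a) * g = g * a - a * g := by
      rw [sub_mul, mul_assoc (g * a), hg1, mul_one]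
    rw [h1, hker]
  have h0 := eq_zero_of_ker K hinv _ hM _ hgw hMw
  have h2 : g * a * ginv = a := sub_eq_zero.mp h0
  calc g * a = g * a * (ginv * g) := by rw [hg1, mul_one]
    _ = (g * a * ginv) * g := by simp only [mul_assoc]
    _ = a * g := by rw [h2]

end prelim

section elts

variable {F : Type*} [Field F] [Fintype F]

theorem exists_elts (n r : ℕ) [NeZero n] (K : Subalgebra F (Matrix (Fin n) (Fin n) F))
    (hK : Cfsg.Geo.IsFieldSubalgebra r K) (r₀ : ℕ) (hr₀ : 2 ≤ r₀) (hr₀r : r₀ ∣ r) (hlt : r₀ < r) :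
    ∃ θ γ γinv : Matrix (Fin n) (Fin n) F, θ ∈ K ∧ γ ∈ K ∧ γinv ∈ K ∧ γ * γinv = 1 ∧
      θ ^ (Fintype.card F ^ r₀ - 1) = 1 ∧
      (∀ a ∈ K, a ^ (Fintype.card F ^ r₀ - 1) = 1 → ∃ i : ℕ, a = θ ^ i) ∧
      γ ^ (Fintype.card F ^ r₀ - 1) ≠ 1 ∧ (∀ c : F, θ ≠ c • 1) := by
  classical
  have hne01 : (0 : Matrix (Fin n) (Fin n) F) ≠ 1 := zero_ne_one
  have hfield : IsField ↥K :=
    { exists_pair_ne := ⟨0, 1, fun h => hne01 (congrArg Subtype.val h)⟩
      mul_comm := fun a b => Subtype.ext (hK.comm a.1 a.2 b.1 b.2)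
      mul_inv_cancel := fun {a} ha => by
        obtain ⟨y, hy, hay⟩ := hK.inv a.1 a.2 (fun h => ha (Subtype.ext h))
        exact ⟨⟨y, hy⟩, Subtype.ext hay⟩ }
  letI : Field ↥K := hfield.toField
  haveI : Fintype ↥K := Fintype.ofFinite _
  have hcardK : Fintype.card ↥K = Fintype.card F ^ r := by
    rw [Module.card_eq_pow_finrank (K := F) (V := ↥K), hK.finrank_eq]
  have hq2 : 2 ≤ Fintype.card F := Fintype.one_lt_card
  obtain ⟨q, hq⟩ : ∃ q, q = Fintype.card F := ⟨_, rfl⟩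
  rw [← hq] at hcardK hq2 ⊢
  have hcardU : Nat.card (↥K)ˣ = q ^ r - 1 := by
    rw [Nat.card_eq_fintype_card, Fintype.card_units, hcardK]
  obtain ⟨γu, hγu⟩ := IsCyclic.exists_generator (α := (↥K)ˣ)
  have hordγ : orderOf γu = q ^ r - 1 := by
    rw [orderOf_eq_card_of_forall_mem_zpowers hγu, hcardU]
  obtain ⟨s, hs⟩ := hr₀r
  have hdvd : q ^ r₀ - 1 ∣ q ^ r - 1 := by
    rw [hs, pow_mul]
    simpa using Nat.sub_dvd_pow_sub_pow (q ^ r₀) 1 s
  have hqq : q * q ≤ q ^ r₀ := by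
    calc q * q = q ^ 2 := (sq q).symm
      _ ≤ q ^ r₀ := Nat.pow_le_pow_right (by omega) hr₀
  have hqq2 : 2 * q ≤ q * q := Nat.mul_le_mul_right q hq2
  have hQlt' : q ^ r₀ < q ^ r := Nat.pow_lt_pow_right (by omega) hlt
  obtain ⟨m, hm⟩ := hdvd
  have hm0 : m ≠ 0 := by
    rintro rfl
    rw [Nat.mul_zero] at hm
    omega
  obtain ⟨θu, hθu⟩ : ∃ θu : (↥K)ˣ, θu = γu ^ m := ⟨_, rfl⟩
  have hordθ : orderOf θu = q ^ r₀ - 1 := by
    rw [hθu, orderOf_pow_of_dvd hm0 (by rw [hordγ, hm]; exact dvd_mul_left _ _), hordγ, hm,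
      Nat.mul_div_cancel _ (Nat.pos_of_ne_zero hm0)]
  refine ⟨((θu : ↥K) : Matrix (Fin n) (Fin n) F), ((γu : ↥K) : Matrix (Fin n) (Fin n) F),
    (((γu⁻¹ : (↥K)ˣ) : ↥K) : Matrix (Fin n) (Fin n) F), (θu : ↥K).2, (γu : ↥K).2,
    ((γu⁻¹ : (↥K)ˣ) : ↥K).2, ?_, ?_, ?_, ?_, ?_⟩
  · exact congrArg Subtype.val (Units.mul_inv γu)
  · have h1 : (θu : ↥K) ^ (q ^ r₀ - 1) = 1 := by
      rw [← Units.val_pow_eq_pow_val, ← hordθ, pow_orderOf_eq_one]; rfl
    exact congrArg Subtype.val h1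
  · intro a ha hpow
    have hprim : IsPrimitiveRoot (θu : ↥K) (q ^ r₀ - 1) := by
      rw [IsPrimitiveRoot.iff_orderOf, orderOf_units, hordθ]
    haveI : NeZero (q ^ r₀ - 1) := ⟨by omega⟩
    have hpow' : (⟨a, ha⟩ : ↥K) ^ (q ^ r₀ - 1) = 1 := Subtype.ext hpow
    obtain ⟨i, -, hi⟩ := hprim.eq_pow_of_pow_eq_one hpow'
    exact ⟨i, (congrArg Subtype.val hi).symm⟩
  · intro h
    have h1 : γu ^ (q ^ r₀ - 1) = 1 := by
      apply Units.ext
      apply Subtype.ext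
      exact h
    have h2 := orderOf_dvd_of_pow_eq_one h1
    rw [hordγ] at h2
    have h3 := Nat.le_of_dvd (by omega) h2
    omega
  · intro c hc
    have hc0 : c ≠ 0 := by
      rintro rfl
      rw [zero_smul] at hc
      have h1 : (θu : ↥K) = 0 := Subtype.ext hc
      exact θu.ne_zero h1
    have h1 : θu ^ (q - 1) = 1 := by
      apply Units.ext
      apply Subtype.ext
      show ((θu : ↥K) : Matrix (Fin n) (Fin n) F) ^ (q - 1) = 1
      rw [hc, _root_.smul_pow, one_pow, hq, FiniteField.pow_card_sub_one_eq_one c hc0, one_smul]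
    have h2 := orderOf_dvd_of_pow_eq_one h1
    rw [hordθ] at h2
    have h3 := Nat.le_of_dvd (by omega) h2
    omega

end elts


section more

variable {F : Type*} [Field F] {n : ℕ}

theorem conj_cancel (g h : Matrix (Fin n) (Fin n) F) (hgh : h * g = 1)
    (a b : Matrix (Fin n) (Fin n) F) (hab : g * a * h = g * b * h) : a = b := by
  have key : ∀ c : Matrix (Fin n) (Fin n) F, h * (g * c * h) * g = c := by
    intro c
    calc h * (g * c * h) * g = (h * g) * c * (h * g) := by simp only [mul_assoc]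
      _ = c := by rw [hgh, one_mul, mul_one]
  rw [← key a, hab, key b]

theorem toM_mulVec (f : (Fin n → F) →ₗ[F] (Fin n → F)) (x : Fin n → F) :
    Matrix.mulVec (LinearMap.toMatrix' f) x = f x := by
  rw [← Matrix.toLin'_apply, Matrix.toLin'_toMatrix']

theorem mem_normalizer_of_comm (K₀ : Subalgebra F (Matrix (Fin n) (Fin n) F)) (g : GL (Fin n) F)
    (hc : ∀ a ∈ K₀, (g : Matrix (Fin n) (Fin n) F) * a = a * (g : Matrix (Fin n) (Fin n) F)) :
    g ∈ Cfsg.Geo.subalgebraNormalizer K₀ := by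
  show ∀ k : Matrix (Fin n) (Fin n) F, k ∈ K₀ ↔
    (g : Matrix (Fin n) (Fin n) F) * k * ((g⁻¹ : GL (Fin n) F) : Matrix (Fin n) (Fin n) F) ∈ K₀
  intro k
  have hgg : (g : Matrix (Fin n) (Fin n) F) * ((g⁻¹ : GL (Fin n) F) : Matrix (Fin n) (Fin n) F) = 1 := by
    rw [← Units.val_mul, mul_inv_cancel, Units.val_one]
  have hgg' : ((g⁻¹ : GL (Fin n) F) : Matrix (Fin n) (Fin n) F) * (g : Matrix (Fin n) (Fin n) F) = 1 := by
    rw [← Units.val_mul, inv_mul_cancel, Units.val_one]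
  constructor
  · intro hk
    rw [hc k hk, mul_assoc, hgg, mul_one]
    exact hk
  · intro hk
    have h1 := hc _ hk
    have h2 : (g : Matrix (Fin n) (Fin n) F) * k *
        ((g⁻¹ : GL (Fin n) F) : Matrix (Fin n) (Fin n) F) = k := by
      calc (g : Matrix (Fin n) (Fin n) F) * k * ((g⁻¹ : GL (Fin n) F) : Matrix (Fin n) (Fin n) F)
          = ((g⁻¹ : GL (Fin n) F) : Matrix (Fin n) (Fin n) F) * ((g : Matrix (Fin n) (Fin n) F) *
            ((g : Matrix (Fin n) (Fin n) F) * k *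
              ((g⁻¹ : GL (Fin n) F) : Matrix (Fin n) (Fin n) F))) := by
            rw [← mul_assoc, hgg', one_mul]
        _ = ((g⁻¹ : GL (Fin n) F) : Matrix (Fin n) (Fin n) F) * ((g : Matrix (Fin n) (Fin n) F) * k *
              ((g⁻¹ : GL (Fin n) F) : Matrix (Fin n) (Fin n) F) * (g : Matrix (Fin n) (Fin n) F)) := by
            rw [h1]
        _ = (((g⁻¹ : GL (Fin n) F) : Matrix (Fin n) (Fin n) F) * (g : Matrix (Fin n) (Fin n) F)) * k *
              (((g⁻¹ : GL (Fin n) F) : Matrix (Fin n) (Fin n) F) * (g : Matrix (Fin n) (Fin n) F)) := by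
            simp only [mul_assoc]
        _ = k := by rw [hgg', one_mul, mul_one]
    rw [h2] at hk
    exact hk

theorem exists_ker2 {V U : Type*} [AddCommGroup V] [Module F V] [AddCommGroup U] [Module F U]
    [FiniteDimensional F V] [FiniteDimensional F U] (φ₁ φ₂ : V →ₗ[F] U)
    (h : 2 * Module.finrank F U < Module.finrank F V) :
    ∃ w : V, w ≠ 0 ∧ φ₁ w = 0 ∧ φ₂ w = 0 := by
  have h1 : LinearMap.ker (φ₁.prod φ₂) ≠ ⊥ := by
    apply LinearMap.ker_ne_bot_of_finrank_lt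
    rw [Module.finrank_prod]
    omega
  obtain ⟨w, hw, hw0⟩ := (Submodule.ne_bot_iff _).mp h1
  have h2 : (φ₁.prod φ₂) w = 0 := hw
  rw [LinearMap.prod_apply, Prod.mk_eq_zero] at h2
  exact ⟨w, hw0, h2.1, h2.2⟩

theorem exists_proj {V : Type*} [AddCommGroup V] [Module F V] (f : V →ₗ[F] V)
    (hf : Module.End.IsSemisimple f) (A₁ A₂ : Submodule F V) (h₁ : ∀ x ∈ A₁, f x ∈ A₁)
    (h₂ : ∀ x ∈ A₂, f x ∈ A₂) (hd : Disjoint A₁ A₂) :
    ∃ P : V →ₗ[F] V, (∀ x, P x ∈ A₂) ∧ (∀ x ∈ A₂, P x = x) ∧ (∀ x ∈ A₁, P x = 0) ∧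
      (∀ x, P (f x) = f (P x)) := by
  have hsup : A₂ ⊔ A₁ ∈ Module.End.invtSubmodule f := by
    rw [Module.End.mem_invtSubmodule_iff_forall_mem_of_mem]
    intro x hx
    obtain ⟨a, ha, b, hb, rfl⟩ := Submodule.mem_sup.mp hx
    rw [map_add]
    exact Submodule.add_mem _ (Submodule.mem_sup_left (h₂ a ha)) (Submodule.mem_sup_right (h₁ b hb))
  obtain ⟨W, hW, hc⟩ := (Module.End.isSemisimple_iff.mp hf) _ hsup
  rw [Module.End.mem_invtSubmodule_iff_forall_mem_of_mem] at hW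
  have hc2 : IsCompl A₂ (A₁ ⊔ W) := hd.symm.isCompl_sup_right_of_isCompl_sup_left hc
  have hB : ∀ x ∈ A₁ ⊔ W, f x ∈ A₁ ⊔ W := by
    intro x hx
    obtain ⟨a, ha, b, hb, rfl⟩ := Submodule.mem_sup.mp hx
    rw [map_add]
    exact Submodule.add_mem _ (Submodule.mem_sup_left (h₁ a ha)) (Submodule.mem_sup_right (hW b hb))
  refine ⟨A₂.projection (A₁ ⊔ W) hc2, fun x => Submodule.projection_apply_mem hc2 x,
    fun x hx => Submodule.projection_apply_of_mem_left hc2 hx,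
    fun x hx => (Submodule.projection_apply_eq_zero_iff hc2).mpr (Submodule.mem_sup_left hx), ?_⟩
  intro x
  have h3 : f x = f (A₂.projection (A₁ ⊔ W) hc2 x) + f (x - A₂.projection (A₁ ⊔ W) hc2 x) := by
    rw [← map_add, add_sub_cancel]
  rw [h3, map_add,
    Submodule.projection_apply_of_mem_left hc2 (h₂ _ (Submodule.projection_apply_mem hc2 x)),
    (Submodule.projection_apply_eq_zero_iff hc2).mpr (hB _ (Submodule.sub_projection_mem hc2 x)),
    add_zero]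

theorem exists_orbit (K₀ : Subalgebra F (Matrix (Fin n) (Fin n) F)) (u : Fin n → F) :
    ∃ A : Submodule F (Fin n → F), (∀ x, x ∈ A ↔ ∃ k ∈ K₀, Matrix.mulVec k u = x) ∧
      Module.finrank F A ≤ Module.finrank F K₀ := by
  let ev : Matrix (Fin n) (Fin n) F →ₗ[F] (Fin n → F) :=
    { toFun := fun k => Matrix.mulVec k u
      map_add' := fun a b => Matrix.add_mulVec a b u
      map_smul' := fun c a => Matrix.smul_mulVec c a u }
  refine ⟨Submodule.map ev (Subalgebra.toSubmodule K₀), ?_, ?_⟩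
  · intro x
    rw [Submodule.mem_map]
    constructor
    · rintro ⟨k, hk, rfl⟩
      exact ⟨k, hk, rfl⟩
    · rintro ⟨k, hk, rfl⟩
      exact ⟨k, hk, rfl⟩
  · have h1 := Submodule.finrank_map_le ev (Subalgebra.toSubmodule K₀)
    rw [Subalgebra.finrank_toSubmodule] at h1
    exact h1

end more

section fin

variable {F : Type*} [Field F] [Fintype F]

theorem exists_K₀ (n : ℕ) [NeZero n] (r : ℕ) (K : Subalgebra F (Matrix (Fin n) (Fin n) F))
    (hK : Cfsg.Geo.IsFieldSubalgebra r K) (r₀ : ℕ) (hr₀ : r₀ ≠ 0) :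
    ∃ K₀ : Subalgebra F (Matrix (Fin n) (Fin n) F),
      ∀ a, a ∈ K₀ ↔ a ∈ K ∧ a ^ (Fintype.card F ^ r₀) = a := by
  classical
  obtain ⟨p, hp⟩ := CharP.exists F
  obtain ⟨e, hpp, hcard⟩ := FiniteField.card F p
  haveI : Fact p.Prime := ⟨hpp⟩
  have hQ : Fintype.card F ^ r₀ = p ^ ((e : ℕ) * r₀) := by rw [hcard, pow_mul]
  have hQ0 : Fintype.card F ^ r₀ ≠ 0 := pow_ne_zero _ Fintype.card_ne_zero
  refine ⟨{ carrier := {a | a ∈ K ∧ a ^ (Fintype.card F ^ r₀) = a}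
            mul_mem' := ?_
            one_mem' := ⟨K.one_mem, one_pow _⟩
            add_mem' := ?_
            zero_mem' := ⟨K.zero_mem, zero_pow hQ0⟩
            algebraMap_mem' := ?_ }, fun a => Iff.rfl⟩
  · intro a b ha hb
    have hcomm : Commute a b := hK.comm a ha.1 b hb.1
    exact ⟨K.mul_mem ha.1 hb.1, by rw [hcomm.mul_pow, ha.2, hb.2]⟩
  · intro a b ha hb
    have hcomm : Commute a b := hK.comm a ha.1 b hb.1
    refine ⟨K.add_mem ha.1 hb.1, ?_⟩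
    have h1 := ha.2
    have h2 := hb.2
    rw [hQ] at h1 h2 ⊢
    rw [add_pow_char_pow_of_commute p _ hcomm, h1, h2]
  · intro c
    exact ⟨K.algebraMap_mem c, by rw [← map_pow, FiniteField.pow_card_pow]⟩

theorem exists_transv (n : ℕ) (hn : 3 ≤ n) (K₀ : Subalgebra F (Matrix (Fin n) (Fin n) F))
    (hinv : ∀ x ∈ K₀, x ≠ 0 → ∃ y ∈ K₀, x * y = 1) (θ : Matrix (Fin n) (Fin n) F) (hθ : θ ∈ K₀)
    (hθs : ∀ c : F, θ ≠ c • 1) :
    ∃ U : GL (Fin n) F, U ∈ Cfsg.Geo.specialLinear (Fin n) F ∧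
      U ∉ Cfsg.Geo.subalgebraNormalizer K₀ := by
  classical
  by_contra hcon
  push Not at hcon
  have hall : ∀ t : Matrix.TransvectionStruct (Fin n) F, Commute t.toMatrix θ := by
    intro t
    obtain ⟨U, hU⟩ : ∃ U : GL (Fin n) F, U = ⟨t.toMatrix, t.inv.toMatrix, t.mul_inv, t.inv_mul⟩ :=
      ⟨_, rfl⟩
    have hUsl : U ∈ Cfsg.Geo.specialLinear (Fin n) F := by
      show Matrix.GeneralLinearGroup.det U = 1
      apply Units.ext
      rw [hU]
      exact t.det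
    have hS : ∀ k : Matrix (Fin n) (Fin n) F, k ∈ K₀ ↔
        (U : Matrix (Fin n) (Fin n) F) * k * ((U⁻¹ : GL (Fin n) F) : Matrix (Fin n) (Fin n) F) ∈ K₀ :=
      hcon U hUsl
    have hconj : t.toMatrix * θ * t.inv.toMatrix ∈ K₀ := by
      have := (hS θ).mp hθ
      rw [hU] at this
      exact this
    obtain ⟨w, hw, hw1, hw2⟩ := exists_ker2 (LinearMap.proj (R := F) (φ := fun _ : Fin n => F) t.j)
      ((LinearMap.proj (R := F) (φ := fun _ : Fin n => F) t.j).comp (Matrix.toLin' θ))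
      (by rw [Module.finrank_self, Module.finrank_fin_fun]; omega)
    have hw1' : w t.j = 0 := hw1
    have hw2' : Matrix.mulVec θ w t.j = 0 := hw2
    apply comm_of_ker K₀ hinv t.toMatrix t.inv.toMatrix θ t.inv_mul hθ hconj w hw
    have h1 : t.toMatrix * θ - θ * t.toMatrix =
        Matrix.single t.i t.j t.c * θ - θ * Matrix.single t.i t.j t.c := by
      show (1 + Matrix.single t.i t.j t.c) * θ - θ * (1 + Matrix.single t.i t.j t.c) = _
      rw [add_mul, mul_add, one_mul, mul_one]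
      abel
    rw [h1, Matrix.sub_mulVec, ← Matrix.mulVec_mulVec, ← Matrix.mulVec_mulVec,
      Matrix.single_mulVec, Matrix.single_mulVec, hw1', hw2', mul_zero]
    have hz : Function.update (0 : Fin n → F) t.i (0 : F) = 0 :=
      Function.update_eq_self t.i (0 : Fin n → F)
    rw [hz, Matrix.mulVec_zero, sub_zero]
  obtain ⟨c, hc⟩ := Matrix.mem_range_scalar_of_commute_transvectionStruct hall
  apply hθs c
  rw [← hc, Matrix.scalar_apply, Matrix.smul_one_eq_diagonal]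

theorem exists_g (n : ℕ) [NeZero n] (r : ℕ) (K K₀ : Subalgebra F (Matrix (Fin n) (Fin n) F))
    (hK : Cfsg.Geo.IsFieldSubalgebra r K) (hK₀K : ∀ a ∈ K₀, a ∈ K)
    (hinv₀ : ∀ x ∈ K₀, x ≠ 0 → ∃ y ∈ K₀, x * y = 1)
    (θ γ γinv : Matrix (Fin n) (Fin n) F) (hθ : θ ∈ K₀) (hγ : γ ∈ K) (hγinv : γinv ∈ K)
    (hγγ : γ * γinv = 1) (hγ₀ : γ ∉ K₀) (N : ℕ) (hN : ((N : ℕ) : F) ≠ 0) (hθN : θ ^ N = 1)
    (hgen : ∀ a ∈ K₀, a ≠ 0 → ∃ i : ℕ, a = θ ^ i)
    (hdim : 2 * Module.finrank F K₀ < n) :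
    ∃ g : GL (Fin n) F, g ∈ Cfsg.Geo.specialLinear (Fin n) F ∧
      g ∈ Cfsg.Geo.subalgebraNormalizer K₀ ∧ g ∉ Cfsg.Geo.subalgebraNormalizer K := by
  classical
  obtain ⟨v, hv⟩ : ∃ v : Fin n → F, v ≠ 0 := ⟨fun _ => 1, fun h => one_ne_zero (congrFun h 0)⟩
  obtain ⟨A₁, hA₁, -⟩ := exists_orbit K₀ v
  obtain ⟨A₂, hA₂, hA₂dim⟩ := exists_orbit K₀ (Matrix.mulVec γ v)
  have hγγ' : γinv * γ = 1 := mul_eq_one_comm.mp hγγ
  have hθK : θ ∈ K := hK₀K θ hθ
  have hdisj : Disjoint A₁ A₂ := by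
    rw [Submodule.disjoint_def]
    intro x hx1 hx2
    obtain ⟨k₁, hk₁, rfl⟩ := (hA₁ x).mp hx1
    obtain ⟨k₂, hk₂, hk₂x⟩ := (hA₂ _).mp hx2
    by_cases h0 : k₂ = 0
    · rw [← hk₂x, h0, Matrix.zero_mulVec]
    · exfalso
      obtain ⟨y, hy, hy1⟩ := hinv₀ k₂ hk₂ h0
      have hy2 : y * k₂ = 1 := mul_eq_one_comm.mp hy1
      have hz : y * k₁ - γ = 0 := by
        apply eq_zero_of_ker K hK.inv _
          (K.sub_mem (K.mul_mem (hK₀K y hy) (hK₀K k₁ hk₁)) hγ) v hv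
        have h1 : Matrix.mulVec (y * k₁) v = Matrix.mulVec γ v := by
          rw [← Matrix.mulVec_mulVec, ← hk₂x, Matrix.mulVec_mulVec (Matrix.mulVec γ v) y k₂, hy2,
            Matrix.one_mulVec]
        rw [Matrix.sub_mulVec, h1, sub_self]
      apply hγ₀
      rw [← sub_eq_zero.mp hz]
      exact K₀.mul_mem hy hk₁
  have hinv1 : ∀ x ∈ A₁, Matrix.toLin' θ x ∈ A₁ := by
    intro x hx
    obtain ⟨k, hk, rfl⟩ := (hA₁ x).mp hx
    rw [Matrix.toLin'_apply, Matrix.mulVec_mulVec]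
    exact (hA₁ _).mpr ⟨θ * k, K₀.mul_mem hθ hk, rfl⟩
  have hinv2 : ∀ x ∈ A₂, Matrix.toLin' θ x ∈ A₂ := by
    intro x hx
    obtain ⟨k, hk, rfl⟩ := (hA₂ x).mp hx
    rw [Matrix.toLin'_apply, Matrix.mulVec_mulVec]
    exact (hA₂ _).mpr ⟨θ * k, K₀.mul_mem hθ hk, rfl⟩
  have hss : Module.End.IsSemisimple (Matrix.toLin' θ) := by
    apply Module.End.isSemisimple_of_squarefree_aeval_eq_zero (p := (X ^ N - C 1 : F[X]))
    · exact (separable_X_pow_sub_C 1 hN one_ne_zero).squarefree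
    · rw [map_sub, map_pow, aeval_X, aeval_C, ← Matrix.toLin'_pow, hθN, Matrix.toLin'_one, map_one]
      exact sub_self _
  obtain ⟨P, hPmem, hPid, hPzero, hPf⟩ := exists_proj (Matrix.toLin' θ) hss A₁ A₂ hinv1 hinv2 hdisj
  have hv1 : v ∈ A₁ := (hA₁ v).mpr ⟨1, K₀.one_mem, Matrix.one_mulVec v⟩
  have hv2 : Matrix.mulVec γ v ∈ A₂ := (hA₂ _).mpr ⟨1, K₀.one_mem, Matrix.one_mulVec _⟩
  obtain ⟨Nm, hNm⟩ : ∃ Nm : Matrix (Fin n) (Fin n) F,
      Nm = LinearMap.toMatrix' ((Matrix.toLin' γinv).comp P) := ⟨_, rfl⟩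
  obtain ⟨Pm, hPm⟩ : ∃ Pm : Matrix (Fin n) (Fin n) F, Pm = LinearMap.toMatrix' P := ⟨_, rfl⟩
  have hN1 : ∀ x, Matrix.mulVec Nm x = Matrix.mulVec γinv (P x) := by
    intro x
    rw [hNm, toM_mulVec, LinearMap.comp_apply, Matrix.toLin'_apply]
  have hP1 : ∀ x, Matrix.mulVec Pm x = P x := by
    intro x
    rw [hPm, toM_mulVec]
  have hN2 : ∀ x, P (Matrix.mulVec γinv (P x)) = 0 := by
    intro x
    obtain ⟨k, hk, hkx⟩ := (hA₂ _).mp (hPmem x)
    apply hPzero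
    refine (hA₁ _).mpr ⟨k, hk, ?_⟩
    rw [← hkx, Matrix.mulVec_mulVec, Matrix.mulVec_mulVec, hK.comm γinv hγinv k (hK₀K k hk),
      mul_assoc, hγγ', mul_one]
  have hN3 : Nm * Nm = 0 := by
    apply mat_ext
    intro x
    rw [← Matrix.mulVec_mulVec, hN1, hN1, hN2, Matrix.mulVec_zero, Matrix.zero_mulVec]
  have hN4 : Nm * θ = θ * Nm := by
    apply mat_ext
    intro x
    have h1 : P (Matrix.mulVec θ x) = Matrix.mulVec θ (P x) := by
      have := hPf x
      rw [Matrix.toLin'_apply, Matrix.toLin'_apply] at this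
      exact this
    rw [← Matrix.mulVec_mulVec, ← Matrix.mulVec_mulVec, hN1, hN1, h1, Matrix.mulVec_mulVec,
      Matrix.mulVec_mulVec, hK.comm γinv hγinv θ hθK]
  have hN5 : Pm * Nm = 0 := by
    apply mat_ext
    intro x
    rw [← Matrix.mulVec_mulVec, hP1, hN1, hN2, Matrix.zero_mulVec]
  have hN6 : Nm * Pm = Nm := by
    apply mat_ext
    intro x
    rw [← Matrix.mulVec_mulVec, hP1, hN1, hN1, hPid _ (hPmem x)]
  have hg1 : (1 + Nm) * (1 - Nm) = 1 := by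
    have : (1 + Nm) * (1 - Nm) = 1 - Nm * Nm := by noncomm_ring
    rw [this, hN3, sub_zero]
  have hg2 : (1 - Nm) * (1 + Nm) = 1 := by
    have : (1 - Nm) * (1 + Nm) = 1 - Nm * Nm := by noncomm_ring
    rw [this, hN3, sub_zero]
  obtain ⟨g, hg⟩ : ∃ g : GL (Fin n) F, g = ⟨1 + Nm, 1 - Nm, hg1, hg2⟩ := ⟨_, rfl⟩
  have hgval : (g : Matrix (Fin n) (Fin n) F) = 1 + Nm := by rw [hg]
  have hginv : ((g⁻¹ : GL (Fin n) F) : Matrix (Fin n) (Fin n) F) = 1 - Nm := by rw [hg]; rfl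
  refine ⟨g, ?_, ?_, ?_⟩
  · show Matrix.GeneralLinearGroup.det g = 1
    apply Units.ext
    show (g : Matrix (Fin n) (Fin n) F).det = 1
    rw [hgval]
    calc (1 + Nm).det = (1 + Nm * Pm).det := by rw [hN6]
      _ = (1 + Pm * Nm).det := Matrix.det_one_add_mul_comm Nm Pm
      _ = 1 := by rw [hN5, add_zero, Matrix.det_one]
  · apply mem_normalizer_of_comm
    intro a ha
    rw [hgval]
    by_cases ha0 : a = 0
    · rw [ha0, mul_zero, zero_mul]
    · obtain ⟨i, rfl⟩ := hgen a ha ha0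
      have hc : Commute Nm (θ ^ i) := Commute.pow_right hN4 i
      rw [add_mul, mul_add, one_mul, mul_one, hc.eq]
  · intro hgK
    have hgK' : ∀ k : Matrix (Fin n) (Fin n) F, k ∈ K ↔
        (g : Matrix (Fin n) (Fin n) F) * k * ((g⁻¹ : GL (Fin n) F) : Matrix (Fin n) (Fin n) F) ∈ K :=
      hgK
    have hconj : (1 + Nm) * γ * (1 - Nm) ∈ K := by
      have := (hgK' γ).mp hγ
      rw [hgval, hginv] at this
      exact this
    obtain ⟨w, hw, hw1, hw2⟩ := exists_ker2 (P.codRestrict A₂ hPmem)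
      ((P.codRestrict A₂ hPmem).comp (Matrix.toLin' γ))
      (by rw [Module.finrank_fin_fun]; omega)
    have hw1' : P w = 0 := congrArg Subtype.val hw1
    have hw2' : P (Matrix.mulVec γ w) = 0 := by
      have := congrArg Subtype.val hw2
      rw [LinearMap.comp_apply, Matrix.toLin'_apply] at this
      exact this
    have hcomm : (1 + Nm) * γ = γ * (1 + Nm) := by
      apply comm_of_ker K hK.inv (1 + Nm) (1 - Nm) γ hg2 hγ hconj w hw
      have h1 : (1 + Nm) * γ - γ * (1 + Nm) = Nm * γ - γ * Nm := by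
        rw [add_mul, mul_add, one_mul, mul_one]
        abel
      rw [h1, Matrix.sub_mulVec, ← Matrix.mulVec_mulVec, ← Matrix.mulVec_mulVec, hN1, hN1, hw1',
        hw2', Matrix.mulVec_zero, Matrix.mulVec_zero, sub_zero]
    have hcomm' : Nm * γ = γ * Nm := by
      rw [add_mul, mul_add, one_mul, mul_one] at hcomm
      exact add_left_cancel hcomm
    apply hv
    have h1 : Matrix.mulVec (Nm * γ) v = v := by
      rw [← Matrix.mulVec_mulVec, hN1, hPid _ hv2, Matrix.mulVec_mulVec, hγγ', Matrix.one_mulVec]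
    have h2 : Matrix.mulVec (γ * Nm) v = 0 := by
      rw [← Matrix.mulVec_mulVec, hN1, hPzero _ hv1, Matrix.mulVec_zero, Matrix.mulVec_zero]
    rw [← h1, hcomm', h2]

end fin

/-- Let F be a finite field, n a positive integer and r a composite number (r > 1, not prime) that divides n with r < n. Let K be a subalgebra of the algebra of n × n matrices over F which is a field of degree r over F (commutative, every non-zero element invertible, of dimension r over F). Then the normaliser N of K in GL_n(F) (a group of type ΓL_{n/r}(F_{q^r})) is not a maximal subgroup of GL_n(F), and N ∩ SL_n(F) is not a maximal subgroup of SL_n(F): both lie properly inside the normaliser of an intermediate subfield of prime degree over F. -/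
theorem result {F : Type*} [Field F]
    [Fintype F] (n r : ℕ) (hr1 : 1 < r) (hrp : ¬ r.Prime) (hrn : r ∣ n) (hlt : r < n)
    (K : Subalgebra F (Matrix (Fin n) (Fin n) F)) (hK : Cfsg.Geo.IsFieldSubalgebra r K) :
    ¬ IsCoatom (Cfsg.Geo.subalgebraNormalizer K) ∧
      ¬ Cfsg.Geo.IsMaximalIn (Cfsg.Geo.specialLinear (Fin n) F)
        (Cfsg.Geo.subalgebraNormalizer K ⊓ Cfsg.Geo.specialLinear (Fin n) F) := by
  classical
  have hr₀p : r.minFac.Prime := Nat.minFac_prime (by omega)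
  have hr₀lt : r.minFac < r := (Nat.not_prime_iff_minFac_lt (by omega)).mp hrp
  have hr₀d : r.minFac ∣ r := Nat.minFac_dvd r
  obtain ⟨r₀, hr₀⟩ : ∃ r₀, r₀ = r.minFac := ⟨_, rfl⟩
  rw [← hr₀] at hr₀p hr₀lt hr₀d
  have h2r₀ : 2 ≤ r₀ := hr₀p.two_le
  haveI : NeZero n := ⟨by omega⟩
  obtain ⟨θ, γ, γinv, hθK, hγK, hγinvK, hγγ, hθQ, hgen, hγQ, hθs⟩ :=
    exists_elts n r K hK r₀ h2r₀ hr₀d hr₀lt
  obtain ⟨K₀, hK₀⟩ := exists_K₀ n r K hK r₀ (by omega)
  have hq2 : 2 ≤ Fintype.card F := Fintype.one_lt_card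
  obtain ⟨Q, hQ⟩ : ∃ Q, Q = Fintype.card F ^ r₀ := ⟨_, rfl⟩
  have hQ2 : 2 ≤ Q := by
    rw [hQ]
    calc 2 ≤ Fintype.card F := hq2
      _ = Fintype.card F ^ 1 := (pow_one _).symm
      _ ≤ Fintype.card F ^ r₀ := Nat.pow_le_pow_right (by omega) (by omega)
  have hN : ((Q - 1 : ℕ) : F) ≠ 0 := by
    rw [Nat.cast_sub (by omega), hQ, Nat.cast_pow, FiniteField.cast_card_eq_zero, zero_pow (by omega),
      Nat.cast_one, zero_sub]
    exact neg_ne_zero.mpr one_ne_zero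
  rw [← hQ] at hθQ hgen hγQ hK₀
  have hθ₀ : θ ∈ K₀ := (hK₀ θ).mpr ⟨hθK, by
    calc θ ^ Q = θ ^ (Q - 1 + 1) := by rw [Nat.sub_add_cancel (by omega)]
      _ = θ := by rw [pow_succ, hθQ, one_mul]⟩
  have hγ₀ : γ ∉ K₀ := by
    intro h
    have h1 := ((hK₀ γ).mp h).2
    apply hγQ
    calc γ ^ (Q - 1) = γ ^ (Q - 1) * (γ * γinv) := by rw [hγγ, mul_one]
      _ = γ ^ (Q - 1 + 1) * γinv := by rw [pow_succ, mul_assoc]
      _ = γ ^ Q * γinv := by rw [Nat.sub_add_cancel (by omega)]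
      _ = 1 := by rw [h1, hγγ]
  have hpow₀ : ∀ a ∈ K₀, a ≠ 0 → a ^ (Q - 1) = 1 := by
    intro a ha ha0
    obtain ⟨haK, haQ⟩ := (hK₀ a).mp ha
    obtain ⟨y, hy, hay⟩ := hK.inv a haK ha0
    calc a ^ (Q - 1) = a ^ (Q - 1) * (a * y) := by rw [hay, mul_one]
      _ = a ^ (Q - 1 + 1) * y := by rw [pow_succ, mul_assoc]
      _ = a ^ Q * y := by rw [Nat.sub_add_cancel (by omega)]
      _ = 1 := by rw [haQ, hay]
  have hgen₀ : ∀ a ∈ K₀, a ≠ 0 → ∃ i : ℕ, a = θ ^ i := fun a ha ha0 =>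
    hgen a ((hK₀ a).mp ha).1 (hpow₀ a ha ha0)
  have hinv₀ : ∀ x ∈ K₀, x ≠ 0 → ∃ y ∈ K₀, x * y = 1 := by
    intro x hx hx0
    refine ⟨x ^ (Q - 2), K₀.pow_mem hx _, ?_⟩
    rw [← pow_succ', ← hpow₀ x hx hx0]
    congr 1
    omega
  have hlt₀ : Subalgebra.toSubmodule K₀ < Subalgebra.toSubmodule K := by
    refine lt_of_le_of_ne (fun a ha => ((hK₀ a).mp ha).1) (fun h => hγ₀ ?_)
    have h1 : γ ∈ Subalgebra.toSubmodule K₀ := by rw [h]; exact hγK
    exact h1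
  have hdim₀ : Module.finrank F K₀ < r := by
    have h1 := Submodule.finrank_lt_finrank_of_lt hlt₀
    rw [Subalgebra.finrank_toSubmodule, Subalgebra.finrank_toSubmodule, hK.finrank_eq] at h1
    exact h1
  have hn2r : 2 * r ≤ n := by
    obtain ⟨k, rfl⟩ := hrn
    have hk : 2 ≤ k := by
      by_contra hk
      have hk1 : k ≤ 1 := by omega
      have : r * k ≤ r * 1 := Nat.mul_le_mul_left r hk1
      omega
    calc 2 * r = r * 2 := Nat.mul_comm 2 r
      _ ≤ r * k := Nat.mul_le_mul_left r hk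
  obtain ⟨U, hUsl, hUS⟩ := exists_transv n (by omega) K₀ hinv₀ θ hθ₀ hθs
  obtain ⟨g, hgsl, hgS, hgN⟩ := exists_g n r K K₀ hK (fun a ha => ((hK₀ a).mp ha).1) hinv₀ θ γ γinv
    hθ₀ hγK hγinvK hγγ hγ₀ (Q - 1) hN hθQ hgen₀ (by omega)
  have hle : Cfsg.Geo.subalgebraNormalizer K ≤ Cfsg.Geo.subalgebraNormalizer K₀ := by
    intro x hx
    have hx' : ∀ k : Matrix (Fin n) (Fin n) F, k ∈ K ↔
        (x : Matrix (Fin n) (Fin n) F) * k * ((x⁻¹ : GL (Fin n) F) : Matrix (Fin n) (Fin n) F) ∈ K :=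
      hx
    show ∀ k : Matrix (Fin n) (Fin n) F, k ∈ K₀ ↔
      (x : Matrix (Fin n) (Fin n) F) * k * ((x⁻¹ : GL (Fin n) F) : Matrix (Fin n) (Fin n) F) ∈ K₀
    intro k
    have hxx : ((x⁻¹ : GL (Fin n) F) : Matrix (Fin n) (Fin n) F) * (x : Matrix (Fin n) (Fin n) F) = 1 := by
      rw [← Units.val_mul, inv_mul_cancel, Units.val_one]
    constructor
    · intro hk
      obtain ⟨hkK, hkQ⟩ := (hK₀ k).mp hk
      exact (hK₀ _).mpr ⟨(hx' k).mp hkK, by rw [conj_pow _ _ hxx, hkQ]⟩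
    · intro hk
      obtain ⟨hkK, hkQ⟩ := (hK₀ _).mp hk
      refine (hK₀ k).mpr ⟨(hx' k).mpr hkK, ?_⟩
      rw [conj_pow _ _ hxx] at hkQ
      exact conj_cancel _ _ hxx _ _ hkQ
  constructor
  · intro hco
    have hlt' : Cfsg.Geo.subalgebraNormalizer K < Cfsg.Geo.subalgebraNormalizer K₀ :=
      lt_of_le_of_ne hle (fun h => hgN (h ▸ hgS))
    have htop := hco.2 _ hlt'
    apply hUS
    rw [htop]
    exact Subgroup.mem_top U
  · intro hmax
    rcases hmax.2 (Cfsg.Geo.subalgebraNormalizer K₀ ⊓ Cfsg.Geo.specialLinear (Fin n) F)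
      (inf_le_inf_right _ hle) inf_le_right with h | h
    · have h1 : g ∈ Cfsg.Geo.subalgebraNormalizer K₀ ⊓ Cfsg.Geo.specialLinear (Fin n) F :=
        ⟨hgS, hgsl⟩
      rw [h] at h1
      exact hgN h1.1
    · have h1 : U ∈ Cfsg.Geo.subalgebraNormalizer K₀ ⊓ Cfsg.Geo.specialLinear (Fin n) F := by
        rw [h]
        exact hUsl
      exact hUS h1.1


end Cfsg.Agent.S5887
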