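import Cfsg.Statements.S5895

set_option autoImplicit false
open Cfsg

namespace Cfsg.Agent.S5895

open Projectivization
open scoped LinearAlgebra.Projectivization

abbrev VV (p d : ℕ) : Type := Fin d → ZMod p

abbrev GG (p d : ℕ) : Type := VV p d ≃ᵃ[ZMod p] VV p d

abbrev LL (p d : ℕ) : Type := VV p d ≃ₗ[ZMod p] VV p d

theorem apply_eq (p d : ℕ) (g : GG p d) (x : VV p d) : g x = g.linear x + g 0 := by
  have h := g.map_vadd (0 : VV p d) x
  simpa using h

def MM (p d : ℕ) : Subgroup (GG p d) where
  carrier := {g | g 0 = 0}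
  mul_mem' := by
    intro a b ha hb
    show a (b 0) = 0
    rw [hb, ha]
  one_mem' := rfl
  inv_mem' := by
    intro a ha
    show a.symm 0 = 0
    rw [AffineEquiv.symm_apply_eq]
    exact ha.symm

def lin (p d : ℕ) (q : LL p d) : GG p d := q.toAffineEquiv

theorem lin_mem (p d : ℕ) (q : LL p d) : lin p d q ∈ MM p d := by
  show q 0 = 0
  exact map_zero q

def tr (p d : ℕ) (v : VV p d) : GG p d := AffineEquiv.constVAdd (ZMod p) (VV p d) v

theorem tr_apply (p d : ℕ) (v x : VV p d) : tr p d v x = v + x := rfl

theorem decomp (p d : ℕ) (g : GG p d) : g = tr p d (g 0) * lin p d g.linear := by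
  ext x : 1
  show g x = g 0 + g.linear x
  rw [apply_eq, add_comm]

theorem conj_tr (p d : ℕ) (q : LL p d) (v : VV p d) :
    lin p d q * tr p d v * (lin p d q)⁻¹ = tr p d (q v) := by
  ext x : 1
  show q (v + q.symm x) = q v + x
  rw [map_add, LinearEquiv.apply_symm_apply]

theorem tr_nsmul (p d : ℕ) (n : ℕ) (v : VV p d) : tr p d (n • v) = tr p d v ^ n :=
  AffineEquiv.constVAdd_nsmul (ZMod p) (VV p d) n v

theorem result (p d : ℕ) (hp : p.Prime)
    (hd : 2 ≤ d) :
    ∃ (G : Type) (_ : Group G) (_ : Finite G) (M H K : Subgroup G), IsCoatom M ∧ M.index = p ^ d ∧ H ≤ M ∧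
      IsCoatom (H.subgroupOf M) ∧ IsCoatom K ∧ H ≤ K ∧ ¬ IsCoatom (H.subgroupOf K) := by
  classical
  have : Fact p.Prime := ⟨hp⟩
  have : NeZero p := ⟨hp.ne_zero⟩
  have hfin : Finite (GG p d) :=
    Finite.of_injective (fun g : GG p d => (g : VV p d → VV p d)) DFunLike.coe_injective
  set i0 : Fin d := ⟨0, by omega⟩ with hi0
  set i1 : Fin d := ⟨1, by omega⟩ with hi1
  have hi01 : i0 ≠ i1 := by simp [hi0, hi1]
  set e0 : VV p d := Pi.single i0 1 with he0
  set e1 : VV p d := Pi.single i1 1 with he1
  have he0ne : e0 ≠ 0 := by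
    intro h
    have := congrFun h i0
    simp [he0] at this
  have he1ne : e1 ≠ 0 := by
    intro h
    have := congrFun h i1
    simp [he1] at this
  set f : GG p d →* LL p d := AffineEquiv.linearHom with hf
  have hfsurj : Function.Surjective f := fun q => ⟨lin p d q, rfl⟩
  set ℓ : ℙ (ZMod p) (VV p d) := Projectivization.mk (ZMod p) e0 he0ne with hℓ
  have hℓ1 : Projectivization.mk (ZMod p) e1 he1ne ≠ ℓ := by
    intro h
    rw [hℓ, Projectivization.mk_eq_mk_iff] at h
    obtain ⟨a, ha⟩ := h
    have := congrFun ha i1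
    simp [he0, he1, hi01.symm, Units.smul_def] at this
  have hnt : Nontrivial (ℙ (ZMod p) (VV p d)) := nontrivial_of_ne _ _ hℓ1
  have hprim : MulAction.IsPreprimitive (LL p d) (ℙ (ZMod p) (VV p d)) :=
    MulAction.isPreprimitive_of_is_two_pretransitive
      (Projectivization.linearEquiv_is_two_pretransitive (ZMod p) (VV p d))
  set Y : Subgroup (LL p d) := MulAction.stabilizer (LL p d) ℓ with hY
  have hYco : IsCoatom Y := MulAction.IsPreprimitive.isCoatom_stabilizer_of_isPreprimitive (LL p d) ℓ
  have hYmem : ∀ q : LL p d, q ∈ Y ↔ ∃ a : (ZMod p)ˣ, a • e0 = q e0 := by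
    intro q
    rw [hY, MulAction.mem_stabilizer_iff, hℓ, Projectivization.smul_mk, Projectivization.mk_eq_mk_iff]
    rfl
  set K : Subgroup (GG p d) := Y.comap f with hK
  set M : Subgroup (GG p d) := MM p d with hM
  refine ⟨GG p d, inferInstance, hfin, M, M ⊓ K, K, ?_, ?_, inf_le_left, ?_, ?_, inf_le_right, ?_⟩
  · refine ⟨?_, ?_⟩
    · intro htop
      have hmem : tr p d e0 ∈ M := htop ▸ Subgroup.mem_top _
      have h0 : tr p d e0 0 = 0 := hmem
      rw [tr_apply, add_zero] at h0
      exact he0ne h0
    · intro X hX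
      obtain ⟨g, hgX, hgM⟩ := SetLike.exists_of_lt hX
      have hv : g 0 ≠ 0 := hgM
      have hlinX : ∀ q : LL p d, lin p d q ∈ X := fun q => hX.le (lin_mem p d q)
      have htv : tr p d (g 0) ∈ X := by
        have h1 := decomp p d g
        have h2 : tr p d (g 0) = g * (lin p d g.linear)⁻¹ := by
          rw [eq_mul_inv_iff_mul_eq]
          exact h1.symm
        rw [h2]
        exact X.mul_mem hgX (X.inv_mem (hlinX _))
      have htr : ∀ w : VV p d, tr p d w ∈ X := by
        intro w
        by_cases hw : w = 0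
        · subst hw
          have h1 : tr p d 0 = 1 := by
            ext x : 1
            show (0 : VV p d) + x = x
            rw [zero_add]
          rw [h1]
          exact X.one_mem
        · have hpt := hprim.toIsPretransitive
          obtain ⟨q, hq⟩ := MulAction.exists_smul_eq (LL p d)
            (Projectivization.mk (ZMod p) (g 0) hv) (Projectivization.mk (ZMod p) w hw)
          rw [Projectivization.smul_mk, Projectivization.mk_eq_mk_iff] at hq
          obtain ⟨a, ha⟩ := hq
          have ha' : q (g 0) = a • w := ha.symm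
          have hqv : tr p d (q (g 0)) ∈ X := by
            rw [← conj_tr]
            exact X.mul_mem (X.mul_mem (hlinX q) htv) (X.inv_mem (hlinX q))
          have hw' : w = ((a⁻¹ : (ZMod p)ˣ) : ZMod p).val • (q (g 0)) := by
            rw [ha', ← Nat.cast_smul_eq_nsmul (ZMod p), ZMod.natCast_zmod_val, Units.smul_def,
              smul_smul, Units.inv_mul, one_smul]
          rw [hw', tr_nsmul]
          exact X.pow_mem hqv _
      rw [eq_top_iff]
      intro g' _
      rw [decomp p d g']
      exact X.mul_mem (htr _) (hlinX _)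
  · letI act : MulAction (GG p d) (VV p d) :=
      { smul := fun g v => g v
        one_smul := fun _ => rfl
        mul_smul := fun _ _ _ => rfl }
    have htrans : MulAction.IsPretransitive (GG p d) (VV p d) := by
      refine ⟨fun x y => ⟨tr p d (y - x), ?_⟩⟩
      show (y - x) + x = y
      exact sub_add_cancel y x
    have hstab : MulAction.stabilizer (GG p d) (0 : VV p d) = M := by
      ext g
      rfl
    rw [← hstab, MulAction.index_stabilizer_of_transitive]
    simp [VV]
  · have hsurj : Function.Surjective (f.comp M.subtype) :=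
      fun q => ⟨⟨lin p d q, lin_mem p d q⟩, rfl⟩
    have hco := Subgroup.isCoatom_comap_of_surjective hsurj hYco
    have heq : (M ⊓ K).subgroupOf M = Y.comap (f.comp M.subtype) := by
      ext x
      simp only [Subgroup.mem_subgroupOf, Subgroup.mem_inf, Subgroup.mem_comap]
      constructor
      · rintro ⟨_, h⟩
        exact h
      · intro h
        exact ⟨x.2, h⟩
    rw [heq]
    exact hco
  · exact Subgroup.isCoatom_comap_of_surjective hfsurj hYco
  · set W : Submodule (ZMod p) (VV p d) := Submodule.span (ZMod p) {e0} with hW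
    have hYW : ∀ q ∈ Y, ∀ w ∈ W, q w ∈ W := by
      intro q hq w hw
      obtain ⟨a, ha⟩ := (hYmem q).mp hq
      rw [hW, Submodule.mem_span_singleton] at hw ⊢
      obtain ⟨c, rfl⟩ := hw
      refine ⟨c * a, ?_⟩
      rw [map_smul, ← ha, Units.smul_def, smul_smul]
    let X : Subgroup (GG p d) :=
      { carrier := {g | f g ∈ Y ∧ g 0 ∈ W}
        mul_mem' := by
          intro a b ha hb
          refine ⟨?_, ?_⟩
          · rw [map_mul]
            exact Y.mul_mem ha.1 hb.1
          · show a (b 0) ∈ W
            rw [apply_eq]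
            exact W.add_mem (hYW _ ha.1 _ hb.2) ha.2
        one_mem' := ⟨by rw [map_one]; exact Y.one_mem, W.zero_mem⟩
        inv_mem' := by
          intro a ha
          refine ⟨by rw [map_inv]; exact Y.inv_mem ha.1, ?_⟩
          have h1 : a (a⁻¹ 0) = 0 := a.apply_symm_apply 0
          rw [apply_eq] at h1
          have h3 : (f a) (a⁻¹ 0) = -(a 0) := eq_neg_of_add_eq_zero_left h1
          have h2 : a⁻¹ 0 = (f a)⁻¹ (-(a 0)) := by
            rw [← h3]
            exact ((f a).symm_apply_apply _).symm
          show a⁻¹ 0 ∈ W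
          rw [h2]
          exact hYW _ (Y.inv_mem ha.1) _ (W.neg_mem ha.2) }
    intro hco
    have hle : (M ⊓ K).subgroupOf K ≤ X.subgroupOf K := by
      intro x hx
      rw [Subgroup.mem_subgroupOf] at hx ⊢
      refine ⟨hx.2, ?_⟩
      have h0 : (x : GG p d) 0 = 0 := hx.1
      show (x : GG p d) 0 ∈ W
      rw [h0]
      exact W.zero_mem
    have hf1 : ∀ v : VV p d, f (tr p d v) = 1 := fun v => rfl
    rcases eq_or_lt_of_le hle with heq | hlt
    · rw [Subgroup.subgroupOf_inj] at heq
      have hmemX : tr p d e0 ∈ X := by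
        refine ⟨?_, ?_⟩
        · rw [hf1]
          exact Y.one_mem
        · show tr p d e0 0 ∈ W
          rw [tr_apply, add_zero]
          exact Submodule.mem_span_singleton_self e0
      have hmemK : tr p d e0 ∈ K := by
        show f (tr p d e0) ∈ Y
        rw [hf1]
        exact Y.one_mem
      have hmem : tr p d e0 ∈ X ⊓ K := ⟨hmemX, hmemK⟩
      rw [← heq] at hmem
      have h0 : tr p d e0 0 = 0 := hmem.1.1
      rw [tr_apply, add_zero] at h0
      exact he0ne h0
    · have htop := hco.2 _ hlt
      rw [Subgroup.subgroupOf_eq_top] at htop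
      have hmem : tr p d e1 ∈ K := by
        show f (tr p d e1) ∈ Y
        rw [hf1]
        exact Y.one_mem
      have h2 : tr p d e1 0 ∈ W := (htop hmem).2
      rw [tr_apply, add_zero, hW, Submodule.mem_span_singleton] at h2
      obtain ⟨c, hc⟩ := h2
      have h3 := congrFun hc i1
      simp [he0, he1, hi01.symm] at h3

end Cfsg.Agent.S5895
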