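import Mathlib
import Cfsg.Statements.S5896

set_option autoImplicit false
open Cfsg

namespace Cfsg.Agent.S5896

open RegularWreathProduct

def baseHom (D Q : Type*) [Group D] [Group Q] : (Q → D) →* D ≀ᵣ Q where
  toFun f := ⟨f, 1⟩
  map_one' := rfl
  map_mul' f g := by ext <;> simp

theorem ker_rightHom_le (D Q : Type*) [Group D] [Group Q] :
    (rightHom : D ≀ᵣ Q →* Q).ker ≤ (baseHom D Q).range := by
  intro w hw
  refine ⟨w.left, ?_⟩
  ext
  · rfl
  · exact (MonoidHom.mem_ker.1 hw).symm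

theorem pi_solvable (ι S : Type*) [Group S] [hS : Group.IsSolvable S] : Group.IsSolvable (ι → S) := by
  obtain ⟨n, hn⟩ := (Group.isSolvable_def S).1 hS
  refine ⟨⟨n, ?_⟩⟩
  rw [eq_bot_iff]
  intro f hf
  rw [Subgroup.mem_bot]
  funext i
  have h1 : Pi.evalMonoidHom (fun _ : ι => S) i f ∈ derivedSeries S n :=
    map_derivedSeries_le_derivedSeries (Pi.evalMonoidHom (fun _ : ι => S) i) n
      (Subgroup.mem_map_of_mem _ hf)
  rw [hn] at h1
  exact Subgroup.mem_bot.1 h1

theorem derived_inj {A B : Type*} [Group A] [Group B] (j : A →* B) (hj : Function.Injective j)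
    (k : ℕ) (h : derivedSeries A k ≠ ⊥) : derivedSeries B k ≠ ⊥ := by
  intro hB
  apply h
  have h1 : (derivedSeries A k).map j ≤ derivedSeries B k := map_derivedSeries_le_derivedSeries j k
  rw [hB] at h1
  rw [eq_bot_iff]
  intro x hx
  have h2 := h1 (Subgroup.mem_map_of_mem _ hx)
  rw [Subgroup.mem_bot] at h2 ⊢
  exact hj (h2.trans (map_one j).symm)

theorem derived_ne_bot {D Q : Type*} [Group D] [Group Q] (q : Q) (hq : q ≠ 1)
    (K : Subgroup (D ≀ᵣ Q))
    (hK : ∀ f : Q → D, baseHom D Q f * inl q * (baseHom D Q f)⁻¹ * (inl q)⁻¹ ∈ K)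
    (k : ℕ) (hD : derivedSeries D k ≠ ⊥) : derivedSeries K k ≠ ⊥ := by
  classical
  let K₀ : Subgroup (D ≀ᵣ Q) := K ⊓ (rightHom : D ≀ᵣ Q →* Q).ker
  let π : K₀ →* D :=
    { toFun := fun w => (w : D ≀ᵣ Q).left 1
      map_one' := rfl
      map_mul' := by
        rintro ⟨a, ha⟩ ⟨b, hb⟩
        have h1 : a.right = 1 := ha.2
        simp [h1] }
  have hπ : Function.Surjective π := by
    intro s
    refine ⟨⟨baseHom D Q (Pi.mulSingle 1 s) * inl q * (baseHom D Q (Pi.mulSingle 1 s))⁻¹ * (inl q)⁻¹,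
      hK _, ?_⟩, ?_⟩
    · simp [baseHom]
    · simp [π, baseHom, hq]
  have h0 : derivedSeries K₀ k ≠ ⊥ := by
    intro h
    apply hD
    rw [← map_derivedSeries_eq hπ k, h, Subgroup.map_bot]
  exact derived_inj (Subgroup.inclusion (inf_le_left : K₀ ≤ K)) (Subgroup.inclusion_injective _) k h0

theorem derived_sub {G : Type*} [Group G] (K : Subgroup G) (hK : K ≤ derivedSeries G 1) (d : ℕ) :
    (derivedSeries K d).map K.subtype ≤ derivedSeries G (d + 1) := by
  induction d with
  | zero =>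
    rw [derivedSeries_zero, ← MonoidHom.range_eq_map, Subgroup.range_subtype]
    exact hK
  | succ d ih =>
    rw [derivedSeries_succ, Subgroup.map_commutator, derivedSeries_succ]
    exact Subgroup.commutator_mono ih ih

theorem wreath_solvable (S Q : Type*) [Group S] [Group Q] [Group.IsSolvable S] [Group.IsSolvable Q] :
    Group.IsSolvable (S ≀ᵣ Q) := by
  haveI : Group.IsSolvable (Q → S) := pi_solvable Q S
  exact Group.isSolvable_of_ker_le_range (baseHom S Q) rightHom (ker_rightHom_le S Q)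

theorem exists_solvable (d : ℕ) :
    ∃ (S : Type) (_ : Group S) (_ : Finite S), Group.IsSolvable S ∧ derivedSeries S d ≠ ⊥ := by
  induction d with
  | zero =>
    refine ⟨Multiplicative (ZMod 2), inferInstance, inferInstance, inferInstance, ?_⟩
    rw [derivedSeries_zero]
    exact top_ne_bot
  | succ d ih =>
    obtain ⟨S, _, _, hS, hd⟩ := ih
    refine ⟨S ≀ᵣ Multiplicative (ZMod 2), inferInstance, inferInstance, wreath_solvable _ _, ?_⟩
    obtain ⟨q, hq⟩ : ∃ q : Multiplicative (ZMod 2), q ≠ 1 := exists_ne 1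
    have h1 := derived_ne_bot q hq (commutator (S ≀ᵣ Multiplicative (ZMod 2)))
      (fun f => Subgroup.commutator_mem_commutator (Subgroup.mem_top _) (Subgroup.mem_top _)) d hd
    intro h
    apply h1
    have h2 := derived_sub (commutator (S ≀ᵣ Multiplicative (ZMod 2)))
      (by rw [derivedSeries_one]) d
    rw [h] at h2
    rw [eq_bot_iff]
    intro x hx
    have h3 := h2 (Subgroup.mem_map_of_mem _ hx)
    rw [Subgroup.mem_bot] at h3 ⊢
    exact Subtype.ext h3

theorem exists_min_nonsolvable : ∃ (L : Type) (_ : Group L) (_ : Finite L), ¬ Group.IsSolvable L ∧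
    ∀ (L' : Type) [Group L'] [Finite L'], Nat.card L' < Nat.card L → Group.IsSolvable L' := by
  classical
  have hex : ∃ n : ℕ, ∃ (L : Type) (_ : Group L) (_ : Finite L),
      ¬ Group.IsSolvable L ∧ Nat.card L = n :=
    ⟨_, Equiv.Perm (Fin 5), inferInstance, inferInstance, Equiv.Perm.not_isSolvable_fin_5, rfl⟩
  obtain ⟨L, hG, hF, hns, hcard⟩ := Nat.find_spec hex
  refine ⟨L, hG, hF, hns, ?_⟩
  intro L' _ _ hlt
  by_contra hns'
  exact Nat.find_min hex (hcard ▸ hlt) ⟨L', inferInstance, inferInstance, hns', rfl⟩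

theorem exists_stable (W : Type*) [Group W] [Finite W] :
    ∃ n, derivedSeries W (n + 1) = derivedSeries W n := by
  by_contra h
  push Not at h
  have key : ∀ n, Nat.card (derivedSeries W n) + n ≤ Nat.card W := by
    intro n
    induction n with
    | zero => simp [derivedSeries_zero]
    | succ n ih =>
      have hle : derivedSeries W (n + 1) ≤ derivedSeries W n := derivedSeries_antitone W (Nat.le_succ n)
      have hlt : Nat.card (derivedSeries W (n + 1)) < Nat.card (derivedSeries W n) := by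
        by_contra hc
        push Not at hc
        exact h n (Subgroup.eq_of_le_of_card_ge hle hc)
      omega
  have := key (Nat.card W + 1)
  omega

theorem perfect_le {W : Type*} [Group W] (R : Subgroup W) (hR : ⁅R, R⁆ = R) (n : ℕ) :
    R ≤ derivedSeries W n := by
  induction n with
  | zero => rw [derivedSeries_zero]; exact le_top
  | succ n ih =>
    rw [derivedSeries_succ, ← hR]
    exact Subgroup.commutator_mono ih ih

theorem result (d : ℕ) :
    ∃ (G : Type) (_ : Group G) (_ : Finite G) (H : Subgroup G), commutator G = ⊤ ∧ IsCoatom H ∧ Group.IsSolvable H ∧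
      derivedSeries H d ≠ ⊥ := by
  classical
  obtain ⟨L, _, _, hLns, hLmin⟩ := exists_min_nonsolvable
  obtain ⟨S, _, _, hS, hSd⟩ := exists_solvable d
  have hsub : ∀ M : Subgroup L, M ≠ ⊤ → Group.IsSolvable M := by
    intro M hM
    apply hLmin
    by_contra hc
    push Not at hc
    exact hM (Subgroup.eq_top_of_le_card M hc)
  have hLperf : commutator L = ⊤ := by
    by_contra hc
    haveI := hsub (commutator L) hc
    exact hLns (Group.isSolvable_of_ker_le_range (commutator L).subtype (Abelianization.of)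
      (by rw [Abelianization.ker_of, Subgroup.range_subtype]))
  haveI : Nontrivial L := by
    by_contra hc
    rw [not_nontrivial_iff_subsingleton] at hc
    exact hLns inferInstance
  obtain ⟨M, hM⟩ : ∃ M : Subgroup L, IsCoatom M := by
    rcases eq_top_or_exists_le_coatom (⊥ : Subgroup L) with h | ⟨M, hM, -⟩
    · exact absurd h bot_ne_top
    · exact ⟨M, hM⟩
  obtain ⟨q, hq⟩ : ∃ q : L, q ≠ 1 := exists_ne 1
  obtain ⟨n₀, hn₀⟩ := exists_stable (S ≀ᵣ L)
  have hPP : ⁅derivedSeries (S ≀ᵣ L) n₀, derivedSeries (S ≀ᵣ L) n₀⁆ = derivedSeries (S ≀ᵣ L) n₀ := by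
    rw [← derivedSeries_succ]; exact hn₀
  have hPn : (derivedSeries (S ≀ᵣ L) n₀).Normal := derivedSeries_normal _ _
  have hinl : (inl : L →* S ≀ᵣ L).range ≤ derivedSeries (S ≀ᵣ L) n₀ := by
    apply perfect_le
    rw [MonoidHom.range_eq_map, ← Subgroup.map_commutator]
    have : ⁅(⊤ : Subgroup L), ⊤⁆ = ⊤ := hLperf
    rw [this]
  have hφ : Function.Surjective
      ((rightHom : S ≀ᵣ L →* L).comp (derivedSeries (S ≀ᵣ L) n₀).subtype) :=
    fun l => ⟨⟨inl l, hinl ⟨l, rfl⟩⟩, rfl⟩
  refine ⟨derivedSeries (S ≀ᵣ L) n₀, inferInstance, inferInstance,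
    M.comap ((rightHom : S ≀ᵣ L →* L).comp (derivedSeries (S ≀ᵣ L) n₀).subtype), ?_, ?_, ?_, ?_⟩
  · exact Group.isPerfect_def.1 (Subgroup.isPerfect_iff.2 hPP)
  · exact Subgroup.isCoatom_comap_of_surjective hφ hM
  · haveI : Group.IsSolvable (L → S) := pi_solvable L S
    haveI : Group.IsSolvable M := hsub M hM.1
    have hT : Group.IsSolvable (M.comap (rightHom : S ≀ᵣ L →* L)) := by
      refine Group.isSolvable_of_ker_le_range
        ((baseHom S L).codRestrict (M.comap (rightHom : S ≀ᵣ L →* L)) (fun f => ?_))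
        (((rightHom : S ≀ᵣ L →* L).comp (M.comap (rightHom : S ≀ᵣ L →* L)).subtype).codRestrict M
          (fun x => x.2)) ?_
      · rw [Subgroup.mem_comap]
        have : (rightHom : S ≀ᵣ L →* L) (baseHom S L f) = 1 := rfl
        rw [this]; exact M.one_mem
      · intro x hx
        rw [MonoidHom.mem_ker] at hx
        have hx1 : (rightHom : S ≀ᵣ L →* L) (x : S ≀ᵣ L) = 1 := congrArg Subtype.val hx
        obtain ⟨f, hf⟩ := ker_rightHom_le S L (MonoidHom.mem_ker.2 hx1)
        exact ⟨f, Subtype.ext hf⟩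
    exact Group.isSolvable_of_isSolvable_injective
      (f := ((derivedSeries (S ≀ᵣ L) n₀).subtype.comp
        (M.comap ((rightHom : S ≀ᵣ L →* L).comp (derivedSeries (S ≀ᵣ L) n₀).subtype)).subtype).codRestrict
          (M.comap (rightHom : S ≀ᵣ L →* L)) (fun x => x.2))
      (by
        intro x y hxy
        have := congrArg Subtype.val hxy
        exact Subtype.ext (Subtype.ext this))
  · have h1 := derived_ne_bot q hq
      (derivedSeries (S ≀ᵣ L) n₀ ⊓ M.comap (rightHom : S ≀ᵣ L →* L)) (fun f => ?_) d hSd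
    · refine derived_inj (A := ↥(derivedSeries (S ≀ᵣ L) n₀ ⊓ M.comap (rightHom : S ≀ᵣ L →* L)))
        { toFun := fun w => ⟨⟨w.1, w.2.1⟩, w.2.2⟩
          map_one' := rfl
          map_mul' := fun _ _ => rfl } ?_ d h1
      intro x y hxy
      have := congrArg (fun z : ↥(M.comap ((rightHom : S ≀ᵣ L →* L).comp
        (derivedSeries (S ≀ᵣ L) n₀).subtype)) => (z.1.1 : S ≀ᵣ L)) hxy
      exact Subtype.ext this
    · have hq1 : (inl q : S ≀ᵣ L) ∈ derivedSeries (S ≀ᵣ L) n₀ := hinl ⟨q, rfl⟩
      refine Subgroup.mem_inf.2 ⟨Subgroup.mul_mem _ (hPn.conj_mem _ hq1 _) (Subgroup.inv_mem _ hq1), ?_⟩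
      rw [Subgroup.mem_comap]
      have : (rightHom : S ≀ᵣ L →* L) (baseHom S L f * inl q * (baseHom S L f)⁻¹ * (inl q)⁻¹) = 1 := by
        simp [baseHom]
      rw [this]; exact M.one_mem

end Cfsg.Agent.S5896
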