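import Cfsg.Statements.S5902
import Cfsg.Agent.S5901

set_option autoImplicit false
open Cfsg

namespace Cfsg.Agent.S5902

theorem interval_compl {G : Type*} [Group G] (X : Subgroup G)
    (hK : ComplementedLattice (Subgroup X)) (Y : Subgroup G) (hY : Y ≤ X) :
    ∃ C : Subgroup G, ⊥ ≤ C ∧ C ≤ X ∧ Y ⊔ C = X ∧ Y ⊓ C = ⊥ := by
  obtain ⟨C', hC'⟩ := hK.exists_isCompl (Y.subgroupOf X)
  refine ⟨C'.map X.subtype, bot_le, ?_, ?_, ?_⟩
  · exact (Subgroup.map_le_range _ _).trans (by simp)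
  · have h := congrArg (Subgroup.map X.subtype) hC'.sup_eq_top
    rw [Subgroup.map_sup, Subgroup.map_subgroupOf_eq_of_le hY, ← MonoidHom.range_eq_map,
      Subgroup.range_subtype] at h
    exact h
  · have h := congrArg (Subgroup.map X.subtype) hC'.inf_eq_bot
    rw [Subgroup.map_inf _ _ _ X.subtype_injective, Subgroup.map_subgroupOf_eq_of_le hY,
      Subgroup.map_bot] at h
    exact h

theorem part1 {G : Type*} [Group G] [Finite G] (X M : Subgroup G)
    (hK : ComplementedLattice (Subgroup X))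
    (hM : IsCoatom M) (hXM : X ≤ M) (huniq : ∀ M' : Subgroup G, IsCoatom M' → X ≤ M' → M' = M)
    (H : Subgroup G) (hH : ¬ H ≤ M.normalCore) : ∃ C : Subgroup G, H ⊔ C = ⊤ ∧ H ⊓ C = ⊥ := by
  have hex : ∃ h ∈ H, ∃ b : G, b * h * b⁻¹ ∉ M := by
    by_contra hcon
    push Not at hcon
    exact hH (fun h hh b => hcon h hh b)
  obtain ⟨h, hh, b, hb⟩ := hex
  have hX : X ≠ ⊤ := by
    intro hX
    rw [hX, top_le_iff] at hXM
    exact hM.1 hXM
  have hH' : ¬ H.map (MulAut.conj b).toMonoidHom ≤ M := by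
    intro hle
    exact hb (hle ⟨h, hh, rfl⟩)
  obtain ⟨C, hC1, hC2⟩ := Cfsg.Agent.S5901.result (⊥ : Subgroup G) X M bot_le hX
    (fun Y _ hYX => by simpa using interval_compl X hK Y hYX) hM hXM huniq
    (H.map (MulAut.conj b).toMonoidHom) hH' (by simp)
  have hinj : Function.Injective (MulAut.conj b⁻¹).toMonoidHom := (MulAut.conj b⁻¹).injective
  have hsurj : Function.Surjective (MulAut.conj b⁻¹).toMonoidHom := (MulAut.conj b⁻¹).surjective
  have hback : (H.map (MulAut.conj b).toMonoidHom).map (MulAut.conj b⁻¹).toMonoidHom = H := by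
    rw [Subgroup.map_map]
    have : (MulAut.conj b⁻¹).toMonoidHom.comp (MulAut.conj b).toMonoidHom = MonoidHom.id G := by
      ext x
      simp [mul_assoc]
    rw [this, Subgroup.map_id]
  refine ⟨C.map (MulAut.conj b⁻¹).toMonoidHom, ?_, ?_⟩
  · have := congrArg (Subgroup.map (MulAut.conj b⁻¹).toMonoidHom) hC1
    rw [Subgroup.map_sup, hback, Subgroup.map_top_of_surjective _ hsurj] at this
    exact this
  · have := congrArg (Subgroup.map (MulAut.conj b⁻¹).toMonoidHom) hC2
    rw [Subgroup.map_inf _ _ _ hinj, hback, Subgroup.map_bot] at this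
    exact this

theorem result {G : Type*} [Group G] [Finite G] (X M : Subgroup G)
    (hK : ComplementedLattice (Subgroup X))
    (hM : IsCoatom M) (hXM : X ≤ M) (huniq : ∀ M' : Subgroup G, IsCoatom M' → X ≤ M' → M' = M) :
    (∀ H : Subgroup G, ¬ H ≤ M.normalCore → ∃ C : Subgroup G, H ⊔ C = ⊤ ∧ H ⊓ C = ⊥) ∧
    ComplementedLattice (Subgroup (G ⧸ M.normalCore)) := by
  refine ⟨part1 X M hK hM hXM huniq, ⟨fun Hbar => ?_⟩⟩
  have hsurj : Function.Surjective (QuotientGroup.mk' M.normalCore) := QuotientGroup.mk'_surjective _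
  by_cases hle : Hbar.comap (QuotientGroup.mk' M.normalCore) ≤ M.normalCore
  · have hbot : Hbar = ⊥ := by
      rw [← Subgroup.map_comap_eq_self_of_surjective hsurj Hbar, eq_bot_iff]
      rintro _ ⟨x, hx, rfl⟩
      rw [Subgroup.mem_bot]
      exact (QuotientGroup.eq_one_iff x).mpr (hle hx)
    rw [hbot]
    exact ⟨⊤, isCompl_bot_top⟩
  · obtain ⟨C, hC1, hC2⟩ := part1 X M hK hM hXM huniq _ hle
    refine ⟨C.map (QuotientGroup.mk' M.normalCore), IsCompl.of_eq ?_ ?_⟩
    · rw [eq_bot_iff]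
      rintro x ⟨hx1, ⟨c, hc, rfl⟩⟩
      have : c ∈ Hbar.comap (QuotientGroup.mk' M.normalCore) ⊓ C := ⟨hx1, hc⟩
      rw [hC2, Subgroup.mem_bot] at this
      rw [this]
      simp
    · have := congrArg (Subgroup.map (QuotientGroup.mk' M.normalCore)) hC1
      rw [Subgroup.map_sup, Subgroup.map_comap_eq_self_of_surjective hsurj,
        Subgroup.map_top_of_surjective _ hsurj] at this
      exact this

end Cfsg.Agent.S5902
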