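import Cfsg.Statements.S5903
import Cfsg.Agent.S5901

set_option autoImplicit false
open Cfsg

namespace Cfsg.Agent.S5903

theorem compl_of_conj {G : Type*} [Group G] (H : Subgroup G) (b : G)
    (h : ∃ C : Subgroup G, H.map (MulAut.conj b).toMonoidHom ⊔ C = ⊤ ∧ H.map (MulAut.conj b).toMonoidHom ⊓ C = ⊥) :
    ∃ C : Subgroup G, H ⊔ C = ⊤ ∧ H ⊓ C = ⊥ := by
  obtain ⟨C, hC1, hC2⟩ := h
  have hinj : Function.Injective (MulAut.conj b⁻¹).toMonoidHom := (MulAut.conj b⁻¹).injective
  have hsurj : Function.Surjective (MulAut.conj b⁻¹).toMonoidHom := (MulAut.conj b⁻¹).surjective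
  have hback : (H.map (MulAut.conj b).toMonoidHom).map (MulAut.conj b⁻¹).toMonoidHom = H := by
    rw [Subgroup.map_map]
    have : (MulAut.conj b⁻¹).toMonoidHom.comp (MulAut.conj b).toMonoidHom = MonoidHom.id G := by
      ext x
      simp [mul_assoc]
    rw [this, Subgroup.map_id]
  refine ⟨C.map (MulAut.conj b⁻¹).toMonoidHom, ?_, ?_⟩
  · have := congrArg (Subgroup.map (MulAut.conj b⁻¹).toMonoidHom) hC1
    rw [Subgroup.map_sup, hback, Subgroup.map_top_of_surjective _ hsurj] at this
    exact this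
  · have := congrArg (Subgroup.map (MulAut.conj b⁻¹).toMonoidHom) hC2
    rw [Subgroup.map_inf _ _ _ hinj, hback, Subgroup.map_bot] at this
    exact this

theorem interval_compl {G : Type*} [Group G] (X N : Subgroup G) (hNX : N ≤ X)
    [(N.subgroupOf X).Normal] (hK : ComplementedLattice (Subgroup (X ⧸ N.subgroupOf X)))
    (Y : Subgroup G) (hNY : N ≤ Y) (hY : Y ≤ X) :
    ∃ C : Subgroup G, N ≤ C ∧ C ≤ X ∧ Y ⊔ C = X ∧ Y ⊓ C = N := by
  set π := QuotientGroup.mk' (N.subgroupOf X) with hπ
  have hsurj : Function.Surjective π := QuotientGroup.mk'_surjective _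
  have hker : π.ker = N.subgroupOf X := QuotientGroup.ker_mk' _
  obtain ⟨C', hC'⟩ := hK.exists_isCompl ((Y.subgroupOf X).map π)
  have hYc : ((Y.subgroupOf X).map π).comap π = Y.subgroupOf X := by
    rw [Subgroup.comap_map_eq, hker]
    exact sup_eq_left.mpr (fun x hx => hNY hx)
  have hkerle : N.subgroupOf X ≤ C'.comap π := by
    intro x hx
    show π x ∈ C'
    have : π x = 1 := (QuotientGroup.eq_one_iff x).mpr hx
    rw [this]
    exact C'.one_mem
  refine ⟨(C'.comap π).map X.subtype, ?_, ?_, ?_, ?_⟩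
  · calc N = (N.subgroupOf X).map X.subtype := (Subgroup.map_subgroupOf_eq_of_le hNX).symm
      _ ≤ _ := Subgroup.map_mono hkerle
  · exact (Subgroup.map_le_range _ _).trans (by simp)
  · have h1 : Y.subgroupOf X ⊔ C'.comap π = ⊤ := by
      rw [← hYc, Subgroup.comap_sup_eq _ _ _ hsurj, hC'.sup_eq_top, Subgroup.comap_top]
    have h := congrArg (Subgroup.map X.subtype) h1
    rw [Subgroup.map_sup, Subgroup.map_subgroupOf_eq_of_le hY, ← MonoidHom.range_eq_map,
      Subgroup.range_subtype] at h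
    exact h
  · have h1 : Y.subgroupOf X ⊓ C'.comap π = N.subgroupOf X := by
      rw [← hYc, ← Subgroup.comap_inf, hC'.inf_eq_bot, MonoidHom.comap_bot, hker]
    have h := congrArg (Subgroup.map X.subtype) h1
    rw [Subgroup.map_inf _ _ _ X.subtype_injective, Subgroup.map_subgroupOf_eq_of_le hY,
      Subgroup.map_subgroupOf_eq_of_le hNX] at h
    exact h

theorem mem_normalizer_of_commute {G : Type*} [Group G] (K H : Subgroup G) (hKH : K ≤ H) (g : G)
    (hcomm : ∀ k ∈ H, g * k = k * g) : g ∈ Subgroup.normalizer (K : Set G) := by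
  rw [Subgroup.mem_normalizer_iff]
  intro k
  constructor
  · intro hk
    rw [hcomm k (hKH hk), mul_inv_cancel_right]
    exact hk
  · intro hk
    have h1 := hcomm _ (hKH hk)
    rw [inv_mul_cancel_right] at h1
    have h2 : g * k * g⁻¹ = k := mul_left_cancel h1
    rw [← h2]
    exact hk

theorem exists_good_conj {G : Type*} [Group G] [Finite G] [IsSimpleGroup G] (M N : Subgroup G)
    (hM : IsCoatom M) (hNM : N ≤ M) (hN : (Nat.card N).Prime) (hcen : ∀ n ∈ N, ∀ m ∈ M, m * n = n * m)
    (H : Subgroup G) (hbot : H ≠ ⊥) (htop : H ≠ ⊤) :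
    ∃ b : G, ¬ H.map (MulAut.conj b).toMonoidHom ≤ M ∧ H.map (MulAut.conj b).toMonoidHom ⊓ N = ⊥ := by
  by_contra hcon
  push Not at hcon
  have : Fact (Nat.card N).Prime := ⟨hN⟩
  have hNne : ∃ n ∈ N, n ≠ 1 := by
    by_contra hall
    push Not at hall
    have : N = ⊥ := by
      rw [eq_bot_iff]
      intro x hx
      exact hall x hx
    rw [this] at hN
    simp at hN
    exact Nat.not_prime_one hN
  obtain ⟨n0, hn0, hn01⟩ := hNne
  have hdich : ∀ c : G, (∀ h ∈ H, c⁻¹ * h * c ∈ M) ∨ (∀ n ∈ N, c * n * c⁻¹ ∈ H) := by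
    intro c
    by_cases h1 : H.map (MulAut.conj c⁻¹).toMonoidHom ≤ M
    · left
      intro h hh
      have := h1 ⟨h, hh, rfl⟩
      simpa using this
    · right
      have h2 := hcon c⁻¹ h1
      have h3 : (H.map (MulAut.conj c⁻¹).toMonoidHom).subgroupOf N = ⊤ := by
        rcases Subgroup.eq_bot_or_eq_top_of_prime_card ((H.map (MulAut.conj c⁻¹).toMonoidHom).subgroupOf N) with h | h
        · exfalso
          rw [Subgroup.subgroupOf_eq_bot, disjoint_iff] at h
          exact h2 h
        · exact h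
      rw [Subgroup.subgroupOf_eq_top] at h3
      intro n hn
      obtain ⟨h, hh, hhn⟩ := h3 hn
      have : c * n * c⁻¹ = h := by
        rw [← hhn]
        simp [mul_assoc]
      rw [this]
      exact hh
  set K : Subgroup G := Subgroup.closure {x | ∃ c n, n ∈ N ∧ (∀ n' ∈ N, c * n' * c⁻¹ ∈ H) ∧ x = c * n * c⁻¹} with hKdef
  have hKH : K ≤ H := by
    rw [hKdef, Subgroup.closure_le]
    rintro x ⟨c, n, hn, hc, rfl⟩
    exact hc n hn
  have hnorm : ∀ c : G, ∀ n ∈ N, c * n * c⁻¹ ∈ Subgroup.normalizer (K : Set G) := by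
    intro c n hn
    rcases hdich c with h | h
    · have hcomm : ∀ k ∈ H, (c * n * c⁻¹) * k = k * (c * n * c⁻¹) := by
        intro k hk
        have := hcen n hn _ (h k hk)
        have e1 : (c * n * c⁻¹) * k = c * (n * (c⁻¹ * k * c)) * c⁻¹ := by group
        have e2 : k * (c * n * c⁻¹) = c * ((c⁻¹ * k * c) * n) * c⁻¹ := by group
        rw [e1, e2, this]
      exact mem_normalizer_of_commute K H hKH _ hcomm
    · exact Subgroup.le_normalizer (Subgroup.subset_closure ⟨c, n, hn, h, rfl⟩)
  have hncl : Subgroup.normalClosure (N : Set G) = ⊤ := by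
    rcases (Subgroup.normalClosure_normal (s := (N : Set G))).eq_bot_or_eq_top with h | h
    · exfalso
      have : n0 ∈ Subgroup.normalClosure (N : Set G) := Subgroup.subset_normalClosure hn0
      rw [h, Subgroup.mem_bot] at this
      exact hn01 this
    · exact h
  have hKnormal : K.Normal := by
    rw [← Subgroup.normalizer_eq_top_iff, eq_top_iff, ← hncl, Subgroup.normalClosure, Subgroup.closure_le]
    intro x hx
    rw [Group.mem_conjugatesOfSet_iff] at hx
    obtain ⟨n, hn, hconj⟩ := hx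
    rw [isConj_iff] at hconj
    obtain ⟨c, rfl⟩ := hconj
    exact hnorm c n hn
  rcases hKnormal.eq_bot_or_eq_top with h | h
  · have hall : ∀ c : G, ∀ h ∈ H, c⁻¹ * h * c ∈ M := by
      intro c
      rcases hdich c with h' | h'
      · exact h'
      · exfalso
        have : c * n0 * c⁻¹ ∈ K := Subgroup.subset_closure ⟨c, n0, hn0, h', rfl⟩
        rw [h, Subgroup.mem_bot] at this
        apply hn01
        have e : n0 = c⁻¹ * (c * n0 * c⁻¹) * c := by group
        rw [e, this]
        group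
    have hcore : H ≤ M.normalCore := by
      intro x hx b
      have := hall b⁻¹ x hx
      simpa using this
    rcases (Subgroup.normalCore_normal M).eq_bot_or_eq_top with h' | h'
    · rw [h'] at hcore
      exact hbot (eq_bot_iff.mpr hcore)
    · have := M.normalCore_le
      rw [h', top_le_iff] at this
      exact hM.1 this
  · rw [h, top_le_iff] at hKH
    exact htop hKH

theorem result {G : Type*} [Group G] [Finite G] [IsSimpleGroup G] (X M N : Subgroup G)
    (hM : IsCoatom M) (hXM : X ≤ M) (huniq : ∀ M' : Subgroup G, IsCoatom M' → X ≤ M' → M' = M)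
    (hNX : N ≤ X) (hN : (Nat.card N).Prime) (hcen : ∀ n ∈ N, ∀ m ∈ M, m * n = n * m)
    [(N.subgroupOf X).Normal] (hK : ComplementedLattice (Subgroup (X ⧸ N.subgroupOf X))) :
    ComplementedLattice (Subgroup G) := by
  refine ⟨fun H => ?_⟩
  by_cases hbot : H = ⊥
  · rw [hbot]
    exact ⟨⊤, isCompl_bot_top⟩
  by_cases htop : H = ⊤
  · rw [htop]
    exact ⟨⊥, isCompl_top_bot⟩
  obtain ⟨b, hb1, hb2⟩ := exists_good_conj M N hM (hNX.trans hXM) hN hcen H hbot htop
  have hX : X ≠ ⊤ := by
    intro hX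
    rw [hX, top_le_iff] at hXM
    exact hM.1 hXM
  have := Cfsg.Agent.S5901.result N X M hNX hX
    (fun Y hNY hYX => interval_compl X N hNX hK Y hNY hYX) hM hXM huniq
    (H.map (MulAut.conj b).toMonoidHom) hb1 hb2
  obtain ⟨C, hC1, hC2⟩ := compl_of_conj H b this
  exact ⟨C, IsCompl.of_eq hC2 hC1⟩

end Cfsg.Agent.S5903
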