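import Cfsg.Statements.S5905

set_option autoImplicit false
open Cfsg

namespace Cfsg.Agent.S5905

open scoped Pointwise
open MulAction

variable {Ω : Type*} [Fintype Ω] [DecidableEq Ω] {a b : ℕ}

set_option linter.unusedSectionVars false

def W (f : Ω → Fin b) : Subgroup (Equiv.Perm Ω) where
  carrier := {g | ∀ x y : Ω, f x = f y ↔ f (g x) = f (g y)}
  mul_mem' := by
    intro g h hg hh x y
    rw [hh x y, hg (h x) (h y)]
    rfl
  one_mem' := by
    intro x y
    rfl
  inv_mem' := by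
    intro g hg x y
    have := hg (g⁻¹ x) (g⁻¹ y)
    have e1 : g (g⁻¹ x) = x := by simp
    have e2 : g (g⁻¹ y) = y := by simp
    rw [e1, e2] at this
    exact this.symm

theorem mem_W (f : Ω → Fin b) (g : Equiv.Perm Ω) :
    g ∈ W f ↔ ∀ x y : Ω, f x = f y ↔ f (g x) = f (g y) := Iff.rfl

theorem swap_mem (f : Ω → Fin b) {x y : Ω} (h : f x = f y) : Equiv.swap x y ∈ W f := by
  have key : ∀ u, f (Equiv.swap x y u) = f u := by
    intro u
    by_cases hux : u = x
    · subst hux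
      simp [h]
    · by_cases huy : u = y
      · subst huy
        simp [h]
      · rw [Equiv.swap_apply_of_ne_of_ne hux huy]
  intro u v
  rw [key, key]

theorem exists_coord (f : Ω → Fin b) (hf : ∀ i : Fin b, Nat.card {x : Ω // f x = i} = a) :
    ∃ φ : Ω ≃ Fin b × Fin a, ∀ x, (φ x).1 = f x := by
  have e : ∀ i : Fin b, {x : Ω // f x = i} ≃ Fin a := fun i => Finite.equivFinOfCardEq (hf i)
  exact ⟨(Equiv.sigmaFiberEquiv f).symm.trans ((Equiv.sigmaCongrRight e).trans (Equiv.sigmaEquivProd _ _)),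
    fun x => rfl⟩

def lift (φ : Ω ≃ Fin b × Fin a) (σ : Equiv.Perm (Fin b)) : Equiv.Perm Ω :=
  φ.trans ((Equiv.prodCongr σ (Equiv.refl _)).trans φ.symm)

theorem f_lift {f : Ω → Fin b} {φ : Ω ≃ Fin b × Fin a} (hφ : ∀ x, (φ x).1 = f x)
    (σ : Equiv.Perm (Fin b)) (x : Ω) : f (lift φ σ x) = σ (f x) := by
  rw [← hφ, ← hφ]
  simp [lift]

theorem lift_mem {f : Ω → Fin b} {φ : Ω ≃ Fin b × Fin a} (hφ : ∀ x, (φ x).1 = f x)
    (σ : Equiv.Perm (Fin b)) : lift φ σ ∈ W f := by
  intro x y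
  rw [f_lift hφ, f_lift hφ]
  exact σ.injective.eq_iff.symm

theorem lift_fix {f : Ω → Fin b} {φ : Ω ≃ Fin b × Fin a} (hφ : ∀ x, (φ x).1 = f x)
    (σ : Equiv.Perm (Fin b)) (x : Ω) (h : σ (f x) = f x) : lift φ σ x = x := by
  rw [← hφ] at h
  apply φ.injective
  simp [lift, Prod.ext_iff, h]

theorem exists_W_map {f : Ω → Fin b} {φ : Ω ≃ Fin b × Fin a} (hφ : ∀ x, (φ x).1 = f x)
    (x y : Ω) : ∃ w ∈ W f, w x = y := by
  refine ⟨Equiv.swap (lift φ (Equiv.swap (f x) (f y)) x) y * lift φ (Equiv.swap (f x) (f y)),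
    (W f).mul_mem (swap_mem f ?_) (lift_mem hφ _), ?_⟩
  · rw [f_lift hφ]
    simp
  · simp

theorem block_aux {f : Ω → Fin b} {φ : Ω ≃ Fin b × Fin a} (hφ : ∀ x, (φ x).1 = f x)
    (G : Subgroup (Equiv.Perm Ω)) (hWG : W f ≤ G) (B : Set Ω) (hB : IsBlock G B)
    (x y : Ω) (hx : x ∈ B) (hy : y ∈ B) (hxy : f x ≠ f y) (z : Ω) (hz : f z ≠ f x) : z ∈ B := by
  set g := lift φ (Equiv.swap (f y) (f z)) with hg
  have hgx : g x = x := by
    apply lift_fix hφ
    rw [Equiv.swap_apply_of_ne_of_ne hxy hz.symm]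
  have hgy : f (g y) = f z := by
    rw [hg, f_lift hφ]
    simp
  set t := Equiv.swap (g y) z with ht
  have htW : t ∈ W f := swap_mem f hgy
  have htx : t x = x := by
    apply Equiv.swap_apply_of_ne_of_ne
    · intro h
      rw [h] at hz
      exact hz hgy.symm
    · intro h
      rw [h] at hz
      exact hz rfl
  have hmem : t * g ∈ G := hWG ((W f).mul_mem htW (lift_mem hφ _))
  have h1 : (⟨t * g, hmem⟩ : G) • x ∈ B := by
    show (t * g) x ∈ B
    rw [Equiv.Perm.mul_apply, hgx, htx]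
    exact hx
  have h2 := hB.smul_eq_of_mem hx h1
  rw [← h2]
  refine ⟨y, hy, ?_⟩
  show (t * g) y = z
  rw [Equiv.Perm.mul_apply, ht, Equiv.swap_apply_left]

theorem block_univ {f : Ω → Fin b} {φ : Ω ≃ Fin b × Fin a} (hφ : ∀ x, (φ x).1 = f x)
    (G : Subgroup (Equiv.Perm Ω)) (hWG : W f ≤ G) (B : Set Ω) (hB : IsBlock G B)
    (x y : Ω) (hx : x ∈ B) (hy : y ∈ B) (hxy : f x ≠ f y) : B = Set.univ := by
  rw [Set.eq_univ_iff_forall]
  intro z
  by_cases hz : f z = f x
  · exact block_aux hφ G hWG B hB y x hy hx hxy.symm z (by rw [hz]; exact hxy)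
  · exact block_aux hφ G hWG B hB x y hx hy hxy z hz

theorem block_fibre {f : Ω → Fin b}
    (G : Subgroup (Equiv.Perm Ω)) (hWG : W f ≤ G) (B : Set Ω) (hB : IsBlock G B)
    (x y : Ω) (hx : x ∈ B) (hy : y ∈ B) (hxy : x ≠ y) (hsame : ∀ u ∈ B, ∀ v ∈ B, f u = f v) :
    B = {z | f z = f x} := by
  ext z
  constructor
  · intro hz
    exact hsame z hz x hx
  · intro hz
    by_cases hzx : z = x
    · rw [hzx]
      exact hx
    · by_cases hzy : z = y
      · rw [hzy]
        exact hy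
      · have hmem : Equiv.swap y z ∈ G := hWG (swap_mem f (by rw [hsame y hy x hx]; exact hz.symm))
        have h1 : (⟨Equiv.swap y z, hmem⟩ : G) • x ∈ B := by
          show Equiv.swap y z x ∈ B
          rw [Equiv.swap_apply_of_ne_of_ne hxy (Ne.symm hzx)]
          exact hx
        have h2 := hB.smul_eq_of_mem hx h1
        rw [← h2]
        refine ⟨y, hy, ?_⟩
        show Equiv.swap y z y = z
        simp

theorem result {Ω : Type*} [Fintype Ω] [DecidableEq Ω] (a b : ℕ) (ha : 2 ≤ a) (hb : 2 ≤ b)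
    (f : Ω → Fin b) (hf : ∀ i : Fin b, Nat.card {x : Ω // f x = i} = a) :
    IsCoatom (Subgroup.closure {g : Equiv.Perm Ω | ∀ x y : Ω, f x = f y ↔ f (g x) = f (g y)}) := by
  have hcl : Subgroup.closure {g : Equiv.Perm Ω | ∀ x y : Ω, f x = f y ↔ f (g x) = f (g y)} = W f :=
    Subgroup.closure_eq (W f)
  rw [hcl]
  obtain ⟨φ, hφ⟩ := exists_coord f hf
  set p : Ω := φ.symm (⟨0, by omega⟩, ⟨0, by omega⟩) with hp
  set p' : Ω := φ.symm (⟨0, by omega⟩, ⟨1, by omega⟩) with hp'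
  set r : Ω := φ.symm (⟨1, by omega⟩, ⟨0, by omega⟩) with hr
  have hfp : f p = ⟨0, by omega⟩ := by rw [← hφ, hp]; simp
  have hfp' : f p' = ⟨0, by omega⟩ := by rw [← hφ, hp']; simp
  have hfr : f r = ⟨1, by omega⟩ := by rw [← hφ, hr]; simp
  have hpp' : p ≠ p' := by
    intro h
    have := φ.symm.injective h
    simp at this
  have hpr : f p ≠ f r := by
    rw [hfp, hfr]
    simp
  refine ⟨?_, fun G hG => ?_⟩
  · intro htop
    have hmem : Equiv.swap p r ∈ W f := htop ▸ Subgroup.mem_top _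
    have h1 := (hmem p p').mp (by rw [hfp, hfp'])
    have hp'r : p' ≠ r := by
      intro h
      rw [h] at hfp'
      rw [hfp'] at hfr
      simp at hfr
    rw [Equiv.swap_apply_left, Equiv.swap_apply_of_ne_of_ne hpp'.symm hp'r, hfp'] at h1
    rw [hfr] at h1
    simp at h1
  · have hWG : W f ≤ G := hG.le
    have hswap : Equiv.swap p p' ∈ G := hWG (swap_mem f (by rw [hfp, hfp']))
    apply Equiv.Perm.subgroup_eq_top_of_isPreprimitive_of_isSwap_mem _ (Equiv.swap p p') ⟨p, p', hpp', rfl⟩ hswap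
    have : IsPretransitive G Ω := by
      refine ⟨fun x y => ?_⟩
      obtain ⟨w, hw, hwx⟩ := exists_W_map hφ x y
      exact ⟨⟨w, hWG hw⟩, hwx⟩
    refine ⟨fun {B} hB => ?_⟩
    by_contra hnt
    unfold IsTrivialBlock at hnt
    push Not at hnt
    obtain ⟨hns, hnu⟩ := hnt
    obtain ⟨x, hx, y, hy, hxy⟩ := hns
    have hsame : ∀ u ∈ B, ∀ v ∈ B, f u = f v := by
      intro u hu v hv
      by_contra hne
      exact hnu (block_univ hφ G hWG B hB u v hu hv hne)
    have hBf := block_fibre G hWG B hB x y hx hy hxy hsame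
    have hstar : ∀ g ∈ G, ∀ u v : Ω, f u = f v → f (g u) = f (g v) := by
      intro g hg u v huv
      by_contra hne
      obtain ⟨w, hw, hwx⟩ := exists_W_map hφ x u
      have hgw : g * w ∈ G := G.mul_mem hg (hWG hw)
      have hB2 : IsBlock G ((⟨g * w, hgw⟩ : G) • B) := hB.translate _
      have hu2 : g u ∈ (⟨g * w, hgw⟩ : G) • B := by
        refine ⟨x, hx, ?_⟩
        show (g * w) x = g u
        rw [Equiv.Perm.mul_apply, hwx]
      have hv2 : g v ∈ (⟨g * w, hgw⟩ : G) • B := by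
        refine ⟨w⁻¹ v, ?_, ?_⟩
        · rw [hBf]
          show f (w⁻¹ v) = f x
          rw [hw (w⁻¹ v) x]
          simp [hwx, huv]
        · show (g * w) (w⁻¹ v) = g v
          simp
      have huniv := block_univ hφ G hWG _ hB2 (g u) (g v) hu2 hv2 hne
      apply hnu
      rw [Set.eq_univ_iff_forall] at huniv ⊢
      intro z
      obtain ⟨z', hz', hz'z⟩ := huniv ((g * w) z)
      have : (g * w) z' = (g * w) z := hz'z
      rw [(g * w).injective this] at hz'
      exact hz'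
    apply not_le_of_gt hG
    intro g hg u v
    constructor
    · exact hstar g hg u v
    · intro h
      have := hstar g⁻¹ (G.inv_mem hg) (g u) (g v) h
      simpa using this

end Cfsg.Agent.S5905
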