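import Cfsg.Statements.S5908
import Cfsg.Agent.S0282

set_option autoImplicit false
open Cfsg

namespace Cfsg.Agent.S5908

open Cfsg.Agent.Lib.Helper2.Unitary

theorem complemented_quotient {G : Type*} [Group G] (N : Subgroup G) [N.Normal]
    (h : ComplementedLattice (Subgroup G)) : ComplementedLattice (Subgroup (G ⧸ N)) := by
  refine ⟨fun H => ?_⟩
  obtain ⟨X, hX⟩ := h.exists_isCompl (H.comap (QuotientGroup.mk' N))
  refine ⟨X.map (QuotientGroup.mk' N), ?_⟩
  rw [isCompl_iff]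
  constructor
  · rw [disjoint_iff, eq_bot_iff]
    intro y hy
    obtain ⟨hy1, hy2⟩ := Subgroup.mem_inf.mp hy
    obtain ⟨x, hx, rfl⟩ := Subgroup.mem_map.mp hy2
    have hx' : x ∈ H.comap (QuotientGroup.mk' N) ⊓ X := Subgroup.mem_inf.mpr ⟨hy1, hx⟩
    rw [hX.inf_eq_bot, Subgroup.mem_bot] at hx'
    rw [hx', map_one]
    exact Subgroup.one_mem _
  · rw [codisjoint_iff]
    have := congrArg (Subgroup.map (QuotientGroup.mk' N)) hX.sup_eq_top
    rw [Subgroup.map_sup, Subgroup.map_comap_eq_self_of_surjective (QuotientGroup.mk'_surjective N),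
      Subgroup.map_top_of_surjective _ (QuotientGroup.mk'_surjective N)] at this
    exact this

def kleinSub {G : Type*} [Group G] (u c : G) (huu : u * u = 1) (hcc : c * c = 1)
    (huc : u * c = c * u) : Subgroup G where
  carrier := {x | x = 1 ∨ x = u ∨ x = c ∨ x = u * c}
  mul_mem' := by
    have e1 : ∀ x : G, u * (u * x) = x := fun x => by rw [← mul_assoc, huu, one_mul]
    have e2 : ∀ x : G, c * (c * x) = x := fun x => by rw [← mul_assoc, hcc, one_mul]
    have e3 : ∀ x : G, c * (u * x) = u * (c * x) := fun x => by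
      rw [← mul_assoc, ← huc, mul_assoc]
    have e4 : c * u = u * c := huc.symm
    rintro _ _ (rfl | rfl | rfl | rfl) (rfl | rfl | rfl | rfl) <;>
      simp [mul_assoc, huu, hcc, e1, e2, e3, e4]
  one_mem' := Or.inl rfl
  inv_mem' := by
    rintro _ (rfl | rfl | rfl | rfl)
    · left; simp
    · right; left; exact inv_eq_of_mul_eq_one_left huu
    · right; right; left; exact inv_eq_of_mul_eq_one_left hcc
    · right; right; right
      apply inv_eq_of_mul_eq_one_left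
      calc u * c * (u * c) = u * (c * u) * c := by simp only [mul_assoc]
        _ = u * (u * c) * c := by rw [huc]
        _ = (u * u) * (c * c) := by simp only [mul_assoc]
        _ = 1 := by rw [huu, hcc, one_mul]

theorem kleinSub_isPGroup {G : Type*} [Group G] (u c : G) (huu : u * u = 1) (hcc : c * c = 1)
    (huc : u * c = c * u) : IsPGroup 2 (kleinSub u c huu hcc huc) := by
  rintro ⟨x, hx⟩
  refine ⟨1, Subtype.ext ?_⟩
  show x ^ 2 ^ 1 = 1
  rw [pow_one, pow_two]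
  rcases hx with rfl | rfl | rfl | rfl
  · simp
  · exact huu
  · exact hcc
  · calc u * c * (u * c) = u * (c * u) * c := by simp only [mul_assoc]
      _ = u * (u * c) * c := by rw [huc]
      _ = (u * u) * (c * c) := by simp only [mul_assoc]
      _ = 1 := by rw [huu, hcc, one_mul]

theorem comm_invol_eq {G : Type*} [Group G] [Finite G] (hcard : Nat.card G = 72) (T : Subgroup G)
    (hT : Nat.card T = 8) (z : G) (huniq : ∀ x ∈ T, x * x = 1 → x = 1 ∨ x = z)
    {u c : G} (hu1 : u ≠ 1) (huu : u * u = 1) (hc1 : c ≠ 1) (hcc : c * c = 1) (huc : u * c = c * u) :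
    u = c := by
  haveI : Fact (Nat.Prime 2) := ⟨Nat.prime_two⟩
  obtain ⟨P, hEP⟩ := (kleinSub_isPGroup u c huu hcc huc).exists_le_sylow
  have hTp : IsPGroup 2 T := IsPGroup.of_card (n := 3) (by rw [hT]; norm_num)
  obtain ⟨P', hTP'⟩ := hTp.exists_le_sylow
  have hP'T : (P' : Subgroup G) = T := by
    symm
    apply Subgroup.eq_of_le_of_card_ge hTP'
    obtain ⟨n, hn⟩ := (IsPGroup.iff_card (p := 2)).mp P'.isPGroup'
    have hdvd : Nat.card (P' : Subgroup G) ∣ 72 := by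
      rw [← hcard]; exact Subgroup.card_subgroup_dvd_card _
    rw [hn] at hdvd
    have hn3 : n ≤ 3 := by
      by_contra hcon
      have h16 : 2 ^ 4 ∣ 2 ^ n := pow_dvd_pow 2 (by omega)
      have := h16.trans hdvd
      norm_num at this
    rw [hT, hn]
    calc 2 ^ n ≤ 2 ^ 3 := Nat.pow_le_pow_right (by norm_num) hn3
      _ = 8 := by norm_num
  obtain ⟨g, hg⟩ := MulAction.exists_smul_eq G P P'
  have hconj : ∀ x ∈ kleinSub u c huu hcc huc, g * x * g⁻¹ ∈ T := by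
    intro x hx
    rw [← hP'T, ← hg, Sylow.coe_subgroup_smul]
    have := Subgroup.smul_mem_pointwise_smul x (MulAut.conj g) (P : Subgroup G) (hEP hx)
    rwa [MulAut.smul_def, MulAut.conj_apply] at this
  have hu' := hconj u (Or.inr (Or.inl rfl))
  have hc' := hconj c (Or.inr (Or.inr (Or.inl rfl)))
  have e1 : g * u * g⁻¹ = z := by
    rcases huniq _ hu' (by
      calc g * u * g⁻¹ * (g * u * g⁻¹) = g * (u * u) * g⁻¹ := by group
        _ = 1 := by rw [huu]; group) with h | h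
    · exfalso
      apply hu1
      calc u = g⁻¹ * (g * u * g⁻¹) * g := by group
        _ = 1 := by rw [h]; group
    · exact h
  have e2 : g * c * g⁻¹ = z := by
    rcases huniq _ hc' (by
      calc g * c * g⁻¹ * (g * c * g⁻¹) = g * (c * c) * g⁻¹ := by group
        _ = 1 := by rw [hcc]; group) with h | h
    · exfalso
      apply hc1
      calc c = g⁻¹ * (g * c * g⁻¹) * g := by group
        _ = 1 := by rw [h]; group
    · exact h
  calc u = g⁻¹ * (g * u * g⁻¹) * g := by group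
    _ = g⁻¹ * (g * c * g⁻¹) * g := by rw [e1, e2]
    _ = c := by group

theorem lift_invol {G : Type*} [Group G] [Finite G] (N : Subgroup G) [N.Normal]
    (hNodd : Odd (Nat.card N)) (u : G ⧸ N) (huu : u * u = 1) :
    ∃ u₀ : G, u₀ * u₀ = 1 ∧ (u₀ : G ⧸ N) = u := by
  obtain ⟨g, rfl⟩ := QuotientGroup.mk_surjective u
  have hgN : g * g ∈ N := by
    rw [← QuotientGroup.eq_one_iff, QuotientGroup.mk_mul]
    exact huu
  have hodd : Odd (orderOf (g * g)) := Odd.of_dvd_nat hNodd (Subgroup.orderOf_dvd_natCard N hgN)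
  refine ⟨g ^ orderOf (g * g), ?_, ?_⟩
  · rw [← (Commute.refl g).mul_pow, pow_orderOf_eq_one]
  · obtain ⟨j, hj⟩ := hodd
    rw [QuotientGroup.mk_pow, hj, pow_succ, pow_mul, pow_two, huu, one_pow, one_mul]

theorem comm_invol_eq_quot {G : Type*} [Group G] [Finite G] (hcard : Nat.card G = 72) (T : Subgroup G)
    (hT : Nat.card T = 8) (z : G) (huniq : ∀ x ∈ T, x * x = 1 → x = 1 ∨ x = z)
    (N : Subgroup G) [N.Normal] (hNodd : Odd (Nat.card N))
    {u c : G ⧸ N} (hu1 : u ≠ 1) (huu : u * u = 1) (hc1 : c ≠ 1) (hcc : c * c = 1)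
    (huc : u * c = c * u) : u = c := by
  by_contra hne
  obtain ⟨u₀, hu₀, rfl⟩ := lift_invol N hNodd u huu
  obtain ⟨w₀, hw₀, rfl⟩ := lift_invol N hNodd c hcc
  have hx2 : ((u₀ * w₀ : G) : G ⧸ N) * ((u₀ * w₀ : G) : G ⧸ N) = 1 := by
    rw [QuotientGroup.mk_mul]
    calc (u₀ : G ⧸ N) * w₀ * (u₀ * w₀) = u₀ * (w₀ * u₀) * w₀ := by simp only [mul_assoc]
      _ = u₀ * (u₀ * w₀) * w₀ := by rw [huc]
      _ = (u₀ * u₀) * (w₀ * w₀) := by simp only [mul_assoc]
      _ = 1 := by rw [huu, hcc, one_mul]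
  have hxN : (u₀ * w₀) * (u₀ * w₀) ∈ N := by
    rw [← QuotientGroup.eq_one_iff, QuotientGroup.mk_mul]
    exact hx2
  have hodd : Odd (orderOf ((u₀ * w₀) * (u₀ * w₀))) :=
    Odd.of_dvd_nat hNodd (Subgroup.orderOf_dvd_natCard N hxN)
  obtain ⟨j, hj⟩ := hodd
  have hcc₀ : (u₀ * w₀) ^ orderOf ((u₀ * w₀) * (u₀ * w₀)) * (u₀ * w₀) ^ orderOf ((u₀ * w₀) * (u₀ * w₀)) = 1 := by
    rw [← (Commute.refl (u₀ * w₀)).mul_pow, pow_orderOf_eq_one]
  have hcq : (((u₀ * w₀) ^ orderOf ((u₀ * w₀) * (u₀ * w₀)) : G) : G ⧸ N) = (u₀ : G ⧸ N) * w₀ := by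
    rw [QuotientGroup.mk_pow, hj, pow_succ, pow_mul, pow_two, hx2, one_pow, one_mul, QuotientGroup.mk_mul]
  have hc₀1 : (u₀ * w₀) ^ orderOf ((u₀ * w₀) * (u₀ * w₀)) ≠ 1 := by
    intro h
    rw [h] at hcq
    apply hne
    have h1 : (u₀ : G ⧸ N) * w₀ = 1 := hcq.symm
    calc (u₀ : G ⧸ N) = u₀ * (w₀ * w₀) := by rw [hcc, mul_one]
      _ = (u₀ * w₀) * w₀ := by rw [mul_assoc]
      _ = w₀ := by rw [h1, one_mul]
  have hu₀1 : u₀ ≠ 1 := by
    intro h
    apply hu1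
    rw [h]; rfl
  have hinv : u₀⁻¹ = u₀ := inv_eq_of_mul_eq_one_left hu₀
  have hwinv : w₀⁻¹ = w₀ := inv_eq_of_mul_eq_one_left hw₀
  have hconj : u₀ * (u₀ * w₀) * u₀⁻¹ = (u₀ * w₀)⁻¹ := by
    rw [mul_inv_rev, hinv, hwinv]
    calc u₀ * (u₀ * w₀) * u₀ = (u₀ * u₀) * w₀ * u₀ := by simp only [mul_assoc]
      _ = w₀ * u₀ := by rw [hu₀, one_mul]
  have hcomm : u₀ * (u₀ * w₀) ^ orderOf ((u₀ * w₀) * (u₀ * w₀))
      = (u₀ * w₀) ^ orderOf ((u₀ * w₀) * (u₀ * w₀)) * u₀ := by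
    have h1 : u₀ * (u₀ * w₀) ^ orderOf ((u₀ * w₀) * (u₀ * w₀)) * u₀⁻¹
        = ((u₀ * w₀) ^ orderOf ((u₀ * w₀) * (u₀ * w₀)))⁻¹ := by
      rw [← conj_pow, hconj, inv_pow]
    have h2 : ((u₀ * w₀) ^ orderOf ((u₀ * w₀) * (u₀ * w₀)))⁻¹
        = (u₀ * w₀) ^ orderOf ((u₀ * w₀) * (u₀ * w₀)) := inv_eq_of_mul_eq_one_left hcc₀
    rw [h2] at h1
    calc u₀ * (u₀ * w₀) ^ orderOf ((u₀ * w₀) * (u₀ * w₀))
        = (u₀ * (u₀ * w₀) ^ orderOf ((u₀ * w₀) * (u₀ * w₀)) * u₀⁻¹) * u₀ := by group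
      _ = (u₀ * w₀) ^ orderOf ((u₀ * w₀) * (u₀ * w₀)) * u₀ := by rw [h1]
  have heq := comm_invol_eq hcard T hT z huniq hu₀1 hu₀ hc₀1 hcc₀ hcomm
  apply hc1
  have h3 : (u₀ : G ⧸ N) = (u₀ : G ⧸ N) * w₀ := by
    rw [← hcq, ← heq]
  calc (w₀ : G ⧸ N) = (u₀ * u₀) * w₀ := by rw [huu, one_mul]
    _ = u₀ * (u₀ * w₀) := by rw [mul_assoc]
    _ = u₀ * u₀ := by rw [← h3]
    _ = 1 := huu

theorem not_complemented {G : Type*} [Group G] [Finite G] (hsol : Group.IsSolvable G)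
    (hcard : Nat.card G = 72) (T : Subgroup G) (hT : Nat.card T = 8) (z : G)
    (huniq : ∀ x ∈ T, x * x = 1 → x = 1 ∨ x = z) : ¬ ComplementedLattice (Subgroup G) := by
  classical
  intro hcomp
  haveI := hsol
  haveI : Fact (Nat.Prime 2) := ⟨Nat.prime_two⟩
  obtain ⟨N, ⟨hNn, hNodd⟩, hNmax⟩ := Set.exists_max_image
    {N : Subgroup G | N.Normal ∧ Odd (Nat.card N)} (fun N => Nat.card N) (Set.toFinite _)
    ⟨⊥, inferInstance, by simp⟩
  haveI := hNn
  have hcompQ := complemented_quotient N hcomp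
  have hGN : Nat.card G = Nat.card (G ⧸ N) * Nat.card N :=
    Subgroup.card_eq_card_quotient_mul_card_subgroup N
  have h8 : 8 ∣ Nat.card (G ⧸ N) := by
    have h : 2 ^ 3 ∣ Nat.card (G ⧸ N) * Nat.card N := by rw [← hGN, hcard]; norm_num
    have hco : Nat.Coprime (2 ^ 3) (Nat.card N) :=
      Nat.Coprime.pow_left 3 (Nat.coprime_two_left.mpr hNodd)
    exact hco.dvd_of_dvd_mul_right h
  have hsolQ : Group.IsSolvable (G ⧸ N) := inferInstance
  have hex : ∃ n, derivedSeries (G ⧸ N) n = ⊥ := hsolQ.solvable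
  have hm : derivedSeries (G ⧸ N) (Nat.find hex) = ⊥ := Nat.find_spec hex
  have hm0 : Nat.find hex ≠ 0 := by
    intro h0
    rw [h0, derivedSeries_zero] at hm
    have h1 : Nat.card (G ⧸ N) = 1 := by
      rw [← Subgroup.card_top (G := G ⧸ N), hm, Subgroup.card_bot]
    rw [h1] at h8
    norm_num at h8
  obtain ⟨k, hk⟩ := Nat.exists_eq_succ_of_ne_zero hm0
  have hDne : derivedSeries (G ⧸ N) k ≠ ⊥ := Nat.find_min hex (by omega)
  have hDab : ∀ x ∈ derivedSeries (G ⧸ N) k, ∀ y ∈ derivedSeries (G ⧸ N) k, x * y = y * x := by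
    rw [hk, derivedSeries_succ, Subgroup.commutator_eq_bot_iff_le_centralizer] at hm
    intro x hx y hy
    exact (Subgroup.mem_centralizer_iff.mp (hm hx) y hy).symm
  haveI hDn : (derivedSeries (G ⧸ N) k).Normal := derivedSeries_normal _ k
  have hDeven : Even (Nat.card (derivedSeries (G ⧸ N) k)) := by
    by_contra hodd
    rw [Nat.not_even_iff_odd] at hodd
    have hMn : ((derivedSeries (G ⧸ N) k).comap (QuotientGroup.mk' N)).Normal := inferInstance
    have hidx : ((derivedSeries (G ⧸ N) k).comap (QuotientGroup.mk' N)).index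
        = (derivedSeries (G ⧸ N) k).index :=
      Subgroup.index_comap_of_surjective _ (QuotientGroup.mk'_surjective N)
    have h1 := Subgroup.card_mul_index ((derivedSeries (G ⧸ N) k).comap (QuotientGroup.mk' N))
    have h2 := Subgroup.card_mul_index (derivedSeries (G ⧸ N) k)
    rw [hidx] at h1
    have hpos : 0 < (derivedSeries (G ⧸ N) k).index := Nat.pos_of_ne_zero Subgroup.index_ne_zero_of_finite
    have h3 : Nat.card ((derivedSeries (G ⧸ N) k).comap (QuotientGroup.mk' N))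
        = Nat.card (derivedSeries (G ⧸ N) k) * Nat.card N := by
      apply Nat.eq_of_mul_eq_mul_right hpos
      rw [h1, hGN, ← h2]
      ring
    have hMo : Odd (Nat.card ((derivedSeries (G ⧸ N) k).comap (QuotientGroup.mk' N))) := by
      rw [h3]; exact hodd.mul hNodd
    have hle : Nat.card ((derivedSeries (G ⧸ N) k).comap (QuotientGroup.mk' N)) ≤ Nat.card N :=
      hNmax _ ⟨hMn, hMo⟩
    rw [h3] at hle
    have hNpos : 0 < Nat.card N := Nat.card_pos
    have hD1 : Nat.card (derivedSeries (G ⧸ N) k) ≤ 1 := by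
      by_contra hcon
      have : 2 * Nat.card N ≤ Nat.card (derivedSeries (G ⧸ N) k) * Nat.card N :=
        Nat.mul_le_mul_right _ (by omega)
      omega
    have hDpos : 0 < Nat.card (derivedSeries (G ⧸ N) k) := Nat.card_pos
    exact hDne (Subgroup.eq_bot_of_card_eq _ (by omega))
  obtain ⟨zb, hzb⟩ := exists_prime_orderOf_dvd_card' (G := derivedSeries (G ⧸ N) k) 2
    (even_iff_two_dvd.mp hDeven)
  have hz2 : orderOf (zb : G ⧸ N) = 2 := by rw [Subgroup.orderOf_coe]; exact hzb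
  have hz1 : (zb : G ⧸ N) ≠ 1 := by
    intro h
    rw [h, orderOf_one] at hz2
    omega
  have hzz : (zb : G ⧸ N) * (zb : G ⧸ N) = 1 := by
    have := pow_orderOf_eq_one (zb : G ⧸ N)
    rw [hz2, pow_two] at this
    exact this
  have hCI : ∀ u c : G ⧸ N, u ≠ 1 → u * u = 1 → c ≠ 1 → c * c = 1 → u * c = c * u → u = c :=
    fun u c hu1 huu hc1 hcc huc => comm_invol_eq_quot hcard T hT z huniq N hNodd hu1 huu hc1 hcc huc
  have hcentral : ∀ g : G ⧸ N, g * (zb : G ⧸ N) * g⁻¹ = zb := by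
    intro g
    have hmem : g * (zb : G ⧸ N) * g⁻¹ ∈ derivedSeries (G ⧸ N) k := hDn.conj_mem _ zb.2 g
    have hne : g * (zb : G ⧸ N) * g⁻¹ ≠ 1 := by
      intro h
      apply hz1
      calc (zb : G ⧸ N) = g⁻¹ * (g * (zb : G ⧸ N) * g⁻¹) * g := by group
        _ = 1 := by rw [h]; group
    have hsq : g * (zb : G ⧸ N) * g⁻¹ * (g * (zb : G ⧸ N) * g⁻¹) = 1 := by
      calc g * (zb : G ⧸ N) * g⁻¹ * (g * (zb : G ⧸ N) * g⁻¹)
          = g * ((zb : G ⧸ N) * (zb : G ⧸ N)) * g⁻¹ := by group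
        _ = 1 := by rw [hzz]; group
    exact hCI _ _ hne hsq hz1 hzz (hDab _ hmem _ zb.2)
  have hcomm : ∀ g : G ⧸ N, g * (zb : G ⧸ N) = (zb : G ⧸ N) * g := by
    intro g
    calc g * (zb : G ⧸ N) = (g * (zb : G ⧸ N) * g⁻¹) * g := by group
      _ = (zb : G ⧸ N) * g := by rw [hcentral]
  have hall : ∀ u : G ⧸ N, u ≠ 1 → u * u = 1 → u = zb :=
    fun u hu1 huu => hCI u zb hu1 huu hz1 hzz (hcomm u)
  haveI hZn : (Subgroup.zpowers (zb : G ⧸ N)).Normal := by
    refine ⟨fun x hx g => ?_⟩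
    obtain ⟨i, rfl⟩ := Subgroup.mem_zpowers_iff.mp hx
    rw [← conj_zpow, hcentral]
    exact Subgroup.zpow_mem_zpowers _ i
  obtain ⟨X, hX⟩ := hcompQ.exists_isCompl (Subgroup.zpowers (zb : G ⧸ N))
  have hXodd : Odd (Nat.card X) := by
    by_contra hev
    rw [Nat.not_odd_iff_even] at hev
    obtain ⟨x, hx⟩ := exists_prime_orderOf_dvd_card' (G := X) 2 (even_iff_two_dvd.mp hev)
    have hx2 : orderOf (x : G ⧸ N) = 2 := by rw [Subgroup.orderOf_coe]; exact hx
    have hx1 : (x : G ⧸ N) ≠ 1 := by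
      intro h
      rw [h, orderOf_one] at hx2
      omega
    have hxx : (x : G ⧸ N) * (x : G ⧸ N) = 1 := by
      have := pow_orderOf_eq_one (x : G ⧸ N)
      rw [hx2, pow_two] at this
      exact this
    have hxz := hall _ hx1 hxx
    have hmem : (zb : G ⧸ N) ∈ Subgroup.zpowers (zb : G ⧸ N) ⊓ X :=
      Subgroup.mem_inf.mpr ⟨Subgroup.mem_zpowers _, by rw [← hxz]; exact x.2⟩
    rw [hX.inf_eq_bot, Subgroup.mem_bot] at hmem
    exact hz1 hmem
  have hmap : X.map (QuotientGroup.mk' (Subgroup.zpowers (zb : G ⧸ N))) = ⊤ := by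
    have := congrArg (Subgroup.map (QuotientGroup.mk' (Subgroup.zpowers (zb : G ⧸ N)))) hX.sup_eq_top
    rw [Subgroup.map_sup, Subgroup.map_top_of_surjective _ (QuotientGroup.mk'_surjective _)] at this
    have hbot : (Subgroup.zpowers (zb : G ⧸ N)).map (QuotientGroup.mk' (Subgroup.zpowers (zb : G ⧸ N))) = ⊥ := by
      rw [eq_bot_iff]
      rintro _ ⟨y, hy, rfl⟩
      rw [Subgroup.mem_bot]
      exact (QuotientGroup.eq_one_iff y).mpr hy
    rw [hbot, bot_sup_eq] at this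
    exact this
  have hqodd : Odd (Nat.card ((G ⧸ N) ⧸ Subgroup.zpowers (zb : G ⧸ N))) := by
    have h1 := Subgroup.card_map_dvd (H := X) (QuotientGroup.mk' (Subgroup.zpowers (zb : G ⧸ N)))
    rw [hmap, Subgroup.card_top] at h1
    exact Odd.of_dvd_nat hXodd h1
  have hfin : Nat.card (G ⧸ N) = Nat.card ((G ⧸ N) ⧸ Subgroup.zpowers (zb : G ⧸ N)) * 2 := by
    rw [Subgroup.card_eq_card_quotient_mul_card_subgroup (Subgroup.zpowers (zb : G ⧸ N)),
      Nat.card_zpowers, hz2]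
  obtain ⟨j, hj⟩ := hqodd
  rw [hfin, hj] at h8
  omega

theorem quat_sub {G : Type*} [Group G] [Finite G] (hcard : Nat.card G = 72) (a b : G)
    (ha2 : a * a ≠ 1) (ha4 : a * a * (a * a) = 1) (hb : b * b = a * a) (hab : a * b * a = b) :
    ∃ T : Subgroup G, Nat.card T = 8 ∧ ∀ x ∈ T, x * x = 1 → x = 1 ∨ x = a * a := by
  haveI : Fact (Nat.Prime 2) := ⟨Nat.prime_two⟩
  have h4 : a ^ 4 = 1 := by
    rw [show (4 : ℕ) = 2 + 2 from rfl, pow_add, pow_two]; exact ha4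
  have hba : b * a = a ^ 3 * b := by
    have e : a⁻¹ = a ^ 3 := by
      apply inv_eq_of_mul_eq_one_right
      rw [← pow_succ']; exact h4
    calc b * a = a⁻¹ * (a * b * a) := by group
      _ = a⁻¹ * b := by rw [hab]
      _ = a ^ 3 * b := by rw [e]
  have hbak : ∀ k : ℕ, b * a ^ k = a ^ (3 * k) * b := by
    intro k
    induction k with
    | zero => simp
    | succ k ih =>
      calc b * a ^ (k + 1) = (b * a ^ k) * a := by rw [pow_succ, mul_assoc]
        _ = a ^ (3 * k) * (b * a) := by rw [ih, mul_assoc]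
        _ = a ^ (3 * k) * (a ^ 3 * b) := by rw [hba]
        _ = a ^ (3 * (k + 1)) * b := by
          rw [← mul_assoc, ← pow_add, show 3 * k + 3 = 3 * (k + 1) by ring]
  have hprod : ∀ i k : ℕ, a ^ i * b * (a ^ k * b) = a ^ (i + 3 * k + 2) := by
    intro i k
    calc a ^ i * b * (a ^ k * b) = a ^ i * (b * a ^ k) * b := by simp only [mul_assoc]
      _ = a ^ i * (a ^ (3 * k) * b) * b := by rw [hbak]
      _ = a ^ (i + 3 * k) * (b * b) := by rw [pow_add]; simp only [mul_assoc]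
      _ = a ^ (i + 3 * k + 2) := by rw [hb, ← pow_two, ← pow_add]
  have hpow4k : ∀ k : ℕ, a ^ (4 * k) = 1 := fun k => by rw [pow_mul, h4, one_pow]
  let T : Subgroup G :=
    { carrier := {x | ∃ i : ℕ, x = a ^ i ∨ x = a ^ i * b}
      mul_mem' := by
        rintro x y ⟨i, hx | hx⟩ ⟨k, hy | hy⟩
        · exact ⟨i + k, Or.inl (by rw [hx, hy, pow_add])⟩
        · exact ⟨i + k, Or.inr (by rw [hx, hy, pow_add, mul_assoc])⟩
        · refine ⟨i + 3 * k, Or.inr ?_⟩
          rw [hx, hy, mul_assoc, hbak, ← mul_assoc, ← pow_add]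
        · exact ⟨i + 3 * k + 2, Or.inl (by rw [hx, hy, hprod])⟩
      one_mem' := ⟨0, Or.inl (by simp)⟩
      inv_mem' := by
        rintro x ⟨i, hx | hx⟩
        · refine ⟨3 * i, Or.inl ?_⟩
          rw [hx]
          apply inv_eq_of_mul_eq_one_right
          rw [← pow_add, show i + 3 * i = 4 * i by ring, hpow4k]
        · refine ⟨i + 2, Or.inr ?_⟩
          rw [hx]
          apply inv_eq_of_mul_eq_one_right
          rw [hprod, show i + 3 * (i + 2) + 2 = 4 * (i + 2) by ring, hpow4k] }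
  have hmemT : ∀ x : G, x ∈ T ↔ ∃ i : ℕ, x = a ^ i ∨ x = a ^ i * b := fun x => Iff.rfl
  have haT : a ∈ T := (hmemT a).mpr ⟨1, Or.inl (pow_one a).symm⟩
  have hbT : b ∈ T := (hmemT b).mpr ⟨0, Or.inr (by simp)⟩
  have hsqb : ∀ i : ℕ, a ^ i * b * (a ^ i * b) = a * a := by
    intro i
    rw [hprod, show i + 3 * i + 2 = 4 * i + 2 by ring, pow_add, hpow4k, one_mul, pow_two]
  have hpow4 : ∀ x ∈ T, x ^ 4 = 1 := by
    intro x hx
    obtain ⟨i, hx | hx⟩ := (hmemT x).mp hx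
    · rw [hx, ← pow_mul, mul_comm, hpow4k]
    · rw [hx, show (4 : ℕ) = 2 + 2 from rfl, pow_add, pow_two, hsqb, ha4]
  have hp : IsPGroup 2 T := by
    rintro ⟨x, hx⟩
    refine ⟨2, Subtype.ext ?_⟩
    show x ^ 2 ^ 2 = 1
    exact hpow4 x hx
  have huniq : ∀ x ∈ T, x * x = 1 → x = 1 ∨ x = a * a := by
    intro x hx hxx
    obtain ⟨i, hx | hx⟩ := (hmemT x).mp hx
    · rw [pow_eq_pow_mod i h4] at hx
      have hlt : i % 4 < 4 := Nat.mod_lt _ (by norm_num)
      interval_cases hi : i % 4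
      · left; rw [hx, pow_zero]
      · exfalso; rw [hx, pow_one] at hxx; exact ha2 hxx
      · right; rw [hx, pow_two]
      · exfalso
        rw [hx, ← pow_add, show 3 + 3 = 4 + 2 from rfl, pow_add, h4, one_mul, pow_two] at hxx
        exact ha2 hxx
    · exfalso
      rw [hx, hsqb] at hxx
      exact ha2 hxx
  refine ⟨T, ?_, huniq⟩
  obtain ⟨n, hn⟩ := (IsPGroup.iff_card (p := 2)).mp hp
  have hdvd : Nat.card T ∣ 72 := by
    rw [← hcard]; exact Subgroup.card_subgroup_dvd_card _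
  have hn3 : n ≤ 3 := by
    by_contra hcon
    have h16 : 2 ^ 4 ∣ 2 ^ n := pow_dvd_pow 2 (by omega)
    rw [hn] at hdvd
    have := h16.trans hdvd
    norm_num at this
  have hord : orderOf a = 4 := by
    have := orderOf_eq_prime_pow (x := a) (p := 2) (n := 1) (by rw [pow_one, pow_two]; exact ha2)
      (by rw [show 2 ^ (1 + 1) = 4 from rfl]; exact h4)
    rw [this]; norm_num
  have h4dvd : 4 ∣ Nat.card T := by
    rw [← hord]; exact Subgroup.orderOf_dvd_natCard T haT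
  have hne4 : Nat.card T ≠ 4 := by
    intro h
    have hle : Subgroup.zpowers a ≤ T := Subgroup.zpowers_le.mpr haT
    have heq : Subgroup.zpowers a = T := by
      apply Subgroup.eq_of_le_of_card_ge hle
      rw [Nat.card_zpowers, hord, h]
    have hbz : b ∈ Subgroup.zpowers a := by rw [heq]; exact hbT
    obtain ⟨j, hj⟩ := Subgroup.mem_zpowers_iff.mp hbz
    have hcomm : a * b = b * a := by
      rw [← hj]
      exact ((Commute.refl a).zpow_right j).eq
    apply ha2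
    have h1 : b * (a * a) = b := by
      calc b * (a * a) = (b * a) * a := by rw [mul_assoc]
        _ = a * b * a := by rw [hcomm]
        _ = b := hab
    calc a * a = b⁻¹ * (b * (a * a)) := by group
      _ = 1 := by rw [h1]; group
  rw [hn] at h4dvd hne4 ⊢
  interval_cases n
  · norm_num at h4dvd
  · norm_num at h4dvd
  · exact absurd rfl hne4
  · rfl

theorem two_eq_zero_of_card {F : Type*} [Field F] [Fintype F] (hF : Fintype.card F = 4) :
    (2 : F) = 0 := by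
  have h := Nat.cast_card_eq_zero F
  rw [hF] at h
  have h4 : (2 : F) * 2 = 0 := by
    have : ((4 : ℕ) : F) = 2 * 2 := by norm_num
    rw [← this]; exact h
  rcases mul_eq_zero.mp h4 with h | h <;> exact h

theorem exists_omega {F : Type*} [Field F] [Fintype F] (hF : Fintype.card F = 4) :
    ∃ ω : F, ω ^ 2 + ω + 1 = 0 := by
  obtain ⟨x, hx0, hx1⟩ : ∃ x : F, x ≠ 0 ∧ x ≠ 1 := by
    by_contra hne
    push Not at hne
    have : Fintype.card F ≤ 2 := by
      classical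
      have hsub : (Finset.univ : Finset F) ⊆ {0, 1} := by
        intro x _
        by_cases hx : x = 0
        · simp [hx]
        · simp [hne x hx]
      calc Fintype.card F = (Finset.univ : Finset F).card := rfl
        _ ≤ ({0, 1} : Finset F).card := Finset.card_le_card hsub
        _ ≤ 2 := Finset.card_le_two
    omega
  refine ⟨x, ?_⟩
  have h3 : x ^ 3 = 1 := by
    have := FiniteField.pow_card_sub_one_eq_one x hx0
    rw [hF] at this
    exact this
  have h4 : (x - 1) * (x ^ 2 + x + 1) = 0 := by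
    linear_combination h3
  rcases mul_eq_zero.mp h4 with h | h
  · exact absurd (sub_eq_zero.mp h) hx1
  · exact h

theorem exists_quat {F : Type*} [Field F] [Fintype F] (hF : Fintype.card F = 4) :
    ∃ a b : Cfsg.PSU 3 F 2, a * a ≠ 1 ∧ a * a * (a * a) = 1 ∧ b * b = a * a ∧ a * b * a = b := by
  have h2 := two_eq_zero_of_card hF
  obtain ⟨ω, hω⟩ := exists_omega hF
  have hF' : Fintype.card F = 2 ^ 2 := by rw [hF]; norm_num
  have hAdet : (!![1,1,1; 1,ω,ω+1; 1,ω+1,ω] : Matrix (Fin 3) (Fin 3) F).det = 1 := by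
    rw [Matrix.det_fin_three]
    simp
    grind
  have hBdet : (!![1,ω+1,ω+1; ω,ω,ω+1; ω,ω+1,ω] : Matrix (Fin 3) (Fin 3) F).det = 1 := by
    rw [Matrix.det_fin_three]
    simp
    grind
  have hAU : IsU 3 2 (!![1,1,1; 1,ω,ω+1; 1,ω+1,ω] : Matrix (Fin 3) (Fin 3) F) := by
    intro u v
    simp [Cfsg.hermForm, Matrix.mulVec, dotProduct, Fin.sum_univ_three]
    grind
  have hBU : IsU 3 2 (!![1,ω+1,ω+1; ω,ω,ω+1; ω,ω+1,ω] : Matrix (Fin 3) (Fin 3) F) := by
    intro u v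
    simp [Cfsg.hermForm, Matrix.mulVec, dotProduct, Fin.sum_univ_three]
    grind
  have hAA : (!![1,1,1; 1,ω,ω+1; 1,ω+1,ω] : Matrix (Fin 3) (Fin 3) F) * !![1,1,1; 1,ω,ω+1; 1,ω+1,ω]
      = !![1,0,0; 0,0,1; 0,1,0] := by
    ext i j
    fin_cases i <;> fin_cases j <;> simp [Matrix.mul_apply, Fin.sum_univ_three] <;> grind
  have hBB : (!![1,ω+1,ω+1; ω,ω,ω+1; ω,ω+1,ω] : Matrix (Fin 3) (Fin 3) F) * !![1,ω+1,ω+1; ω,ω,ω+1; ω,ω+1,ω]
      = !![1,0,0; 0,0,1; 0,1,0] := by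
    ext i j
    fin_cases i <;> fin_cases j <;> simp [Matrix.mul_apply, Fin.sum_univ_three] <;> grind
  have hPP : (!![1,0,0; 0,0,1; 0,1,0] : Matrix (Fin 3) (Fin 3) F) * !![1,0,0; 0,0,1; 0,1,0] = 1 := by
    ext i j
    fin_cases i <;> fin_cases j <;> simp [Matrix.mul_apply, Fin.sum_univ_three]
  have hABA : (!![1,1,1; 1,ω,ω+1; 1,ω+1,ω] : Matrix (Fin 3) (Fin 3) F) * !![1,ω+1,ω+1; ω,ω,ω+1; ω,ω+1,ω]
      * !![1,1,1; 1,ω,ω+1; 1,ω+1,ω] = !![1,ω+1,ω+1; ω,ω,ω+1; ω,ω+1,ω] := by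
    ext i j
    fin_cases i <;> fin_cases j <;> simp [Matrix.mul_apply, Fin.sum_univ_three] <;> grind
  let a : ↥(Cfsg.SU 3 F 2) := ⟨⟨!![1,1,1; 1,ω,ω+1; 1,ω+1,ω], hAdet⟩, hAU⟩
  let b : ↥(Cfsg.SU 3 F 2) := ⟨⟨!![1,ω+1,ω+1; ω,ω,ω+1; ω,ω+1,ω], hBdet⟩, hBU⟩
  have haa : ((a * a : ↥(Cfsg.SU 3 F 2)).1.1 : Matrix (Fin 3) (Fin 3) F) = !![1,0,0; 0,0,1; 0,1,0] := hAA
  have e1 : a * a * (a * a) = 1 := by
    apply Subtype.ext
    apply Subtype.ext
    show (!![1,1,1; 1,ω,ω+1; 1,ω+1,ω] : Matrix (Fin 3) (Fin 3) F) * !![1,1,1; 1,ω,ω+1; 1,ω+1,ω]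
      * (!![1,1,1; 1,ω,ω+1; 1,ω+1,ω] * !![1,1,1; 1,ω,ω+1; 1,ω+1,ω]) = 1
    rw [hAA, hPP]
  have e2 : b * b = a * a := by
    apply Subtype.ext
    apply Subtype.ext
    show (!![1,ω+1,ω+1; ω,ω,ω+1; ω,ω+1,ω] : Matrix (Fin 3) (Fin 3) F) * !![1,ω+1,ω+1; ω,ω,ω+1; ω,ω+1,ω]
      = !![1,1,1; 1,ω,ω+1; 1,ω+1,ω] * !![1,1,1; 1,ω,ω+1; 1,ω+1,ω]
    rw [hAA, hBB]
  have e3 : a * b * a = b := by
    apply Subtype.ext
    apply Subtype.ext
    exact hABA
  refine ⟨QuotientGroup.mk a, QuotientGroup.mk b, ?_, ?_, ?_, ?_⟩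
  · intro h
    rw [← QuotientGroup.mk_mul, QuotientGroup.eq_one_iff] at h
    have hsc := (center_SU_facts hF' 3 0 ⟨a * a, h⟩).1
    have e := congrFun (congrFun hsc 1) 2
    rw [show ((⟨a * a, h⟩ : ↥(Subgroup.center ↥(Cfsg.SU 3 F 2))).1.1.1 : Matrix (Fin 3) (Fin 3) F)
      = !![1,0,0; 0,0,1; 0,1,0] from haa] at e
    simp at e
  · rw [← QuotientGroup.mk_mul, ← QuotientGroup.mk_mul, e1]
    rfl
  · rw [← QuotientGroup.mk_mul, ← QuotientGroup.mk_mul, e2]
  · rw [← QuotientGroup.mk_mul, ← QuotientGroup.mk_mul, e3]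

/-- The subgroup lattice of PSU₃(2) (the solvable group of order 72, realised over the field with 4 elements) is not complemented: some subgroup H has no subgroup X with H ⊔ X = ⊤ and H ⊓ X = ⊥. -/
theorem result {F : Type*} [Field F] [Fintype F] (hF : Fintype.card F = 4) :
    ¬ ComplementedLattice (Subgroup (Cfsg.PSU 3 F 2)) := by
  obtain ⟨hcard, hsol⟩ := Cfsg.Agent.S0282.result hF
  haveI : Finite (Cfsg.PSU 3 F 2) := Nat.finite_of_card_ne_zero (by rw [hcard]; norm_num)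
  obtain ⟨a, b, h1, h2, h3, h4⟩ := exists_quat hF
  obtain ⟨T, hT, huniq⟩ := quat_sub hcard a b h1 h2 h3 h4
  exact not_complemented hsol hcard T hT (a * a) huniq

end Cfsg.Agent.S5908
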