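import Cfsg.Statements.S5909
import Mathlib

set_option autoImplicit false
open Cfsg

namespace Cfsg.Agent.S5909

open Equiv Equiv.Perm MulAction
open scoped Pointwise

theorem ais {Ω : Type*} (f : Perm Ω) (x : Ω) : f (f⁻¹ x) = x := by simp

theorem ias {Ω : Type*} (f : Perm Ω) (x : Ω) : f⁻¹ (f x) = x := by simp

/-- Partition-preserving permutations. -/
def PP {Ω : Type*} {b : ℕ} (f : Ω → Fin b) (g : Perm Ω) : Prop :=
  ∀ x y : Ω, f x = f y ↔ f (g x) = f (g y)

theorem PP.one' {Ω : Type*} {b : ℕ} (f : Ω → Fin b) : PP f 1 := fun _ _ => Iff.rfl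

theorem PP.mul' {Ω : Type*} {b : ℕ} {f : Ω → Fin b} {g h : Perm Ω} (hg : PP f g) (hh : PP f h) :
    PP f (g * h) := fun x y => (hh x y).trans (hg (h x) (h y))

theorem PP.inv' {Ω : Type*} {b : ℕ} {f : Ω → Fin b} {g : Perm Ω} (hg : PP f g) : PP f g⁻¹ :=
  fun x y => by
    have := hg (g⁻¹ x) (g⁻¹ y)
    simp only [ais] at this
    exact this.symm

theorem pp_of_closure {Ω : Type*} {b : ℕ} {f : Ω → Fin b} {g : Perm Ω}
    (hg : g ∈ Subgroup.closure {g : Perm Ω | ∀ x y : Ω, f x = f y ↔ f (g x) = f (g y)}) :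
    PP f g := by
  induction hg using Subgroup.closure_induction with
  | mem x hx => exact hx
  | one => exact PP.one' f
  | mul x y _ _ hx hy => exact hx.mul' hy
  | inv x _ hx => exact hx.inv'

/-- The even partition-preserving permutations. -/
def H0 {Ω : Type*} [Fintype Ω] [DecidableEq Ω] {b : ℕ} (f : Ω → Fin b) : Subgroup (Perm Ω) :=
  Subgroup.closure {g : Perm Ω | ∀ x y : Ω, f x = f y ↔ f (g x) = f (g y)} ⊓ alternatingGroup Ω

theorem mem_H0 {Ω : Type*} [Fintype Ω] [DecidableEq Ω] {b : ℕ} {f : Ω → Fin b} {g : Perm Ω}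
    (hg : PP f g) (hs : Perm.sign g = 1) : g ∈ H0 f :=
  ⟨Subgroup.subset_closure hg, Perm.mem_alternatingGroup.mpr hs⟩

theorem pp_of_mem_H0 {Ω : Type*} [Fintype Ω] [DecidableEq Ω] {b : ℕ} {f : Ω → Fin b} {g : Perm Ω}
    (hg : g ∈ H0 f) : PP f g := pp_of_closure hg.1

theorem f_swap {Ω : Type*} [DecidableEq Ω] {b : ℕ} (f : Ω → Fin b) {x y : Ω} (h : f x = f y)
    (w : Ω) : f (swap x y w) = f w := by
  by_cases h1 : w = x
  · subst h1; rw [swap_apply_left]; exact h.symm
  · by_cases h2 : w = y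
    · subst h2; rw [swap_apply_right]; exact h
    · rw [swap_apply_of_ne_of_ne h1 h2]

theorem pp_of_fix {Ω : Type*} {b : ℕ} {f : Ω → Fin b} {g : Perm Ω} (h : ∀ w, f (g w) = f w) :
    PP f g := fun x y => by rw [h x, h y]

theorem pp_swap {Ω : Type*} [DecidableEq Ω] {b : ℕ} (f : Ω → Fin b) {x y : Ω} (h : f x = f y) :
    PP f (swap x y) := pp_of_fix (f_swap f h)

theorem dbl_mem {Ω : Type*} [Fintype Ω] [DecidableEq Ω] {b : ℕ} {f : Ω → Fin b} {x x' y y' : Ω}
    (hx : x ≠ x') (hfx : f x = f x') (hy : y ≠ y') (hfy : f y = f y') :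
    swap x x' * swap y y' ∈ H0 f :=
  mem_H0 ((pp_swap f hfx).mul' (pp_swap f hfy))
    (by rw [Perm.sign_mul, Perm.sign_swap hx, Perm.sign_swap hy]; rfl)

theorem conj_swap {Ω : Type*} [DecidableEq Ω] (g : Perm Ω) (a c : Ω) :
    g * swap a c * g⁻¹ = swap (g a) (g c) := by
  ext w
  rw [Perm.mul_apply, Perm.mul_apply]
  by_cases h1 : w = g a
  · subst h1; simp
  · by_cases h2 : w = g c
    · subst h2; simp
    · rw [swap_apply_of_ne_of_ne h1 h2, swap_apply_of_ne_of_ne, ais]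
      · intro e; apply h1; rw [← e, ais]
      · intro e; apply h2; rw [← e, ais]

theorem conj_dbl {Ω : Type*} [DecidableEq Ω] (g : Perm Ω) (a c a' c' : Ω) :
    g * (swap a c * swap a' c') * g⁻¹ = swap (g a) (g c) * swap (g a') (g c') := by
  rw [← conj_swap, ← conj_swap]; group

section fibers

variable {Ω : Type*} [Fintype Ω] [DecidableEq Ω] {a b : ℕ} {f : Ω → Fin b}

theorem fiber_card (hf : ∀ i : Fin b, Nat.card {x : Ω // f x = i} = a) (i : Fin b) :
    (Finset.univ.filter (fun x => f x = i)).card = a := by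
  rw [← hf i, Nat.card_eq_fintype_card, Fintype.card_subtype]

theorem fiber_two (hf : ∀ i : Fin b, Nat.card {x : Ω // f x = i} = a) (ha : 2 ≤ a) (x : Ω) :
    ∃ x', x' ≠ x ∧ f x' = f x := by
  have hc := fiber_card hf (f x)
  obtain ⟨x', hx', hne⟩ :=
    Finset.exists_mem_ne (s := Finset.univ.filter (fun y => f y = f x)) (by omega) x
  exact ⟨x', hne, (Finset.mem_filter.mp hx').2⟩

theorem fiber_three (hf : ∀ i : Fin b, Nat.card {x : Ω // f x = i} = a) (ha : 3 ≤ a) (x : Ω) :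
    ∃ x' x'', x' ≠ x ∧ x'' ≠ x ∧ x' ≠ x'' ∧ f x' = f x ∧ f x'' = f x := by
  have hc := fiber_card hf (f x)
  have hx : x ∈ Finset.univ.filter (fun y => f y = f x) := by simp
  have h2 : 1 < ((Finset.univ.filter (fun y => f y = f x)).erase x).card := by
    rw [Finset.card_erase_of_mem hx]; omega
  obtain ⟨p, hp, q, hq, hpq⟩ := Finset.one_lt_card.mp h2
  rw [Finset.mem_erase, Finset.mem_filter] at hp hq
  exact ⟨p, q, hp.1, hq.1, hpq, hp.2.2, hq.2.2⟩

theorem fiber_pair (hf : ∀ i : Fin b, Nat.card {x : Ω // f x = i} = 2) {x x' : Ω}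
    (hne : x' ≠ x) (hfx : f x' = f x) (z : Ω) (hz : f z = f x) : z = x ∨ z = x' := by
  have hc := fiber_card hf (f x)
  have hsub : ({x, x'} : Finset Ω) ⊆ Finset.univ.filter (fun y => f y = f x) := by
    intro w hw
    rw [Finset.mem_insert, Finset.mem_singleton] at hw
    rcases hw with rfl | rfl <;> simp [hfx]
  have hcard : (Finset.univ.filter (fun y => f y = f x)).card ≤ ({x, x'} : Finset Ω).card := by
    rw [hc, Finset.card_pair hne.symm]
  have h := Finset.eq_of_subset_of_card_le hsub hcard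
  have hz' : z ∈ ({x, x'} : Finset Ω) := by rw [h]; simp [hz]
  simpa using hz'

theorem fiber_nonempty (hf : ∀ i : Fin b, Nat.card {x : Ω // f x = i} = a) (ha : 2 ≤ a)
    (i : Fin b) : ∃ x, f x = i := by
  have hc := fiber_card hf i
  have hpos : 0 < (Finset.univ.filter (fun x => f x = i)).card := by omega
  obtain ⟨x, hx⟩ := Finset.card_pos.mp hpos
  exact ⟨x, (Finset.mem_filter.mp hx).2⟩

theorem card_omega (hf : ∀ i : Fin b, Nat.card {x : Ω // f x = i} = a) :
    Fintype.card Ω = b * a := by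
  have h := Finset.card_eq_sum_card_fiberwise (f := f) (s := Finset.univ) (t := Finset.univ)
    (fun x _ => Finset.mem_univ _)
  rw [Finset.card_univ] at h
  rw [h, Finset.sum_congr rfl (fun i _ => fiber_card hf i), Finset.sum_const, Finset.card_univ,
    Fintype.card_fin, smul_eq_mul]

theorem exists_avoid {b : ℕ} (s : Finset (Fin b)) (hs : s.card < b) : ∃ m : Fin b, m ∉ s := by
  by_contra hcon
  push Not at hcon
  have h : s = Finset.univ := Finset.eq_univ_iff_forall.mpr hcon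
  rw [h, Finset.card_univ, Fintype.card_fin] at hs
  exact lt_irrefl _ hs

theorem exists_third {b : ℕ} (h3 : 3 ≤ b) (i j : Fin b) : ∃ m : Fin b, m ≠ i ∧ m ≠ j := by
  obtain ⟨m, hm⟩ := exists_avoid ({i, j} : Finset (Fin b))
    (lt_of_le_of_lt Finset.card_le_two (by omega))
  rw [Finset.mem_insert, Finset.mem_singleton, not_or] at hm
  exact ⟨m, hm.1, hm.2⟩

theorem exists_fswap (hf : ∀ i : Fin b, Nat.card {x : Ω // f x = i} = a) (i j : Fin b)
    (hij : i ≠ j) :
    ∃ τ : Perm Ω, (∀ p, f (τ p) = swap i j (f p)) ∧ (∀ p, f p ≠ i → f p ≠ j → τ p = p) := by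
  have hc : Fintype.card {x : Ω // f x = i} = Fintype.card {x : Ω // f x = j} := by
    rw [← Nat.card_eq_fintype_card, ← Nat.card_eq_fintype_card, hf i, hf j]
  obtain ⟨e⟩ := Fintype.card_eq.mp hc
  let τ₀ : Ω → Ω := fun p =>
    if h : f p = i then (e ⟨p, h⟩ : Ω) else if h' : f p = j then (e.symm ⟨p, h'⟩ : Ω) else p
  have hτi : ∀ p (h : f p = i), τ₀ p = (e ⟨p, h⟩ : Ω) := fun p h => by
    simp only [τ₀, dif_pos h]
  have hτj : ∀ p (h : f p = j), τ₀ p = (e.symm ⟨p, h⟩ : Ω) := fun p h => by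
    have hni : ¬ f p = i := by rw [h]; exact fun h' => hij h'.symm
    simp only [τ₀, dif_neg hni, dif_pos h]
  have hτo : ∀ p, f p ≠ i → f p ≠ j → τ₀ p = p := fun p h1 h2 => by
    simp only [τ₀, dif_neg h1, dif_neg h2]
  have hinv : Function.Involutive τ₀ := by
    intro p
    by_cases h : f p = i
    · rw [hτi p h, hτj _ (e ⟨p, h⟩).2]
      simp
    · by_cases h' : f p = j
      · rw [hτj p h', hτi _ (e.symm ⟨p, h'⟩).2]
        simp
      · rw [hτo p h h', hτo p h h']
  refine ⟨Function.Involutive.toPerm τ₀ hinv, ?_, ?_⟩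
  · intro p
    show f (τ₀ p) = _
    by_cases h : f p = i
    · rw [hτi p h, h, swap_apply_left]; exact (e ⟨p, h⟩).2
    · by_cases h' : f p = j
      · rw [hτj p h', h', swap_apply_right]; exact (e.symm ⟨p, h'⟩).2
      · rw [hτo p h h', swap_apply_of_ne_of_ne h h']
  · intro p h1 h2
    exact hτo p h1 h2

theorem exists_pp_map (hf : ∀ i : Fin b, Nat.card {x : Ω // f x = i} = a) (x w : Ω) :
    ∃ τ : Perm Ω, PP f τ ∧ τ x = w ∧ ∀ p, f p ≠ f x → f p ≠ f w → τ p = p := by
  by_cases h : f x = f w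
  · refine ⟨swap x w, pp_swap f h, swap_apply_left x w, ?_⟩
    intro p h1 h2
    exact swap_apply_of_ne_of_ne (fun hh => h1 (by rw [hh])) (fun hh => h2 (by rw [hh]))
  · obtain ⟨τ, hτ, hτo⟩ := exists_fswap hf (f x) (f w) h
    have h1 : f (τ x) = f w := by rw [hτ x, swap_apply_left]
    refine ⟨swap (τ x) w * τ, (pp_swap f h1).mul' ?_, ?_, ?_⟩
    · intro p q
      rw [hτ p, hτ q]
      exact ((swap (f x) (f w)).injective.eq_iff).symm
    · rw [Perm.mul_apply, swap_apply_left]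
    · intro p hp1 hp2
      rw [Perm.mul_apply, hτo p hp1 hp2]
      exact swap_apply_of_ne_of_ne (fun hh => hp2 (by rw [hh, h1])) (fun hh => hp2 (by rw [hh]))

theorem exists_H0_map (hf : ∀ i : Fin b, Nat.card {x : Ω // f x = i} = a) (x w u u' : Ω)
    (huu : u ≠ u') (hfu : f u = f u') (hxu : x ≠ u) (hxu' : x ≠ u') :
    ∃ h ∈ H0 f, h x = w ∧ ∀ p, p ≠ u → p ≠ u' → f p ≠ f x → f p ≠ f w → h p = p := by
  obtain ⟨τ, hτ, hτx, hτo⟩ := exists_pp_map hf x w
  rcases Int.units_eq_one_or (Perm.sign τ) with hs | hs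
  · exact ⟨τ, mem_H0 hτ hs, hτx, fun p _ _ h1 h2 => hτo p h1 h2⟩
  · refine ⟨τ * swap u u', mem_H0 (hτ.mul' (pp_swap f hfu)) ?_, ?_, ?_⟩
    · rw [Perm.sign_mul, hs, Perm.sign_swap huu]; rfl
    · rw [Perm.mul_apply, swap_apply_of_ne_of_ne hxu hxu', hτx]
    · intro p h1 h2 h3 h4
      rw [Perm.mul_apply, swap_apply_of_ne_of_ne h1 h2, hτo p h3 h4]

theorem trans_H0 (hf : ∀ i : Fin b, Nat.card {x : Ω // f x = i} = a) (ha : 2 ≤ a) (hb : 2 ≤ b)
    (x w : Ω) : ∃ h ∈ H0 f, h x = w := by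
  haveI : Nontrivial (Fin b) := Fin.nontrivial_iff_two_le.mpr hb
  obtain ⟨j, hj⟩ := exists_ne (f x)
  obtain ⟨u, hu⟩ := fiber_nonempty hf ha j
  obtain ⟨u', hu', hfu'⟩ := fiber_two hf ha u
  obtain ⟨h, hh, hx, -⟩ := exists_H0_map hf x w u u' hu'.symm hfu'.symm
    (fun e => hj (by rw [← hu, e])) (fun e => hj (by rw [← hu, ← hfu', e]))
  exact ⟨h, hh, hx⟩

theorem blk {K : Subgroup (Perm Ω)} {B : Set Ω} (hB : IsBlock K B) {g : Perm Ω} (hg : g ∈ K)
    {p : Ω} (hp : p ∈ B) (hgp : g p ∈ B) (c : Ω) : g c ∈ B ↔ c ∈ B := by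
  have h1 : (⟨g, hg⟩ : K) • B = B := hB.smul_eq_of_mem (g := ⟨g, hg⟩) hp hgp
  constructor
  · intro hc
    have h2 : (⟨g, hg⟩ : K) • c ∈ (⟨g, hg⟩ : K) • B := by rw [h1]; exact hc
    exact (Set.smul_mem_smul_set_iff).mp h2
  · intro hc
    have h2 : (⟨g, hg⟩ : K) • c ∈ (⟨g, hg⟩ : K) • B := Set.smul_mem_smul_set hc
    rw [h1] at h2
    exact h2

theorem exists_fix_move (hf : ∀ i : Fin b, Nat.card {x : Ω // f x = i} = a) (ha : 2 ≤ a)
    (hab : 3 ≤ a ∨ 3 ≤ b) (x y : Ω) (hxy : f x ≠ f y) :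
    ∃ h ∈ H0 f, h x = x ∧ h y ≠ y ∧ f (h y) = f y := by
  have hx1 : x ≠ y := fun e => hxy (by rw [e])
  rcases hab with h3 | h3
  · obtain ⟨y', y'', h1, h2, h12, hf1, hf2⟩ := fiber_three hf h3 y
    have hx2 : x ≠ y' := fun e => hxy (by rw [e, hf1])
    have hx3 : x ≠ y'' := fun e => hxy (by rw [e, hf2])
    refine ⟨swap y y' * swap y y'', dbl_mem h1.symm hf1.symm h2.symm hf2.symm, ?_, ?_, ?_⟩
    · rw [Perm.mul_apply, swap_apply_of_ne_of_ne hx1 hx3, swap_apply_of_ne_of_ne hx1 hx2]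
    · rw [Perm.mul_apply, swap_apply_left, swap_apply_of_ne_of_ne h2 h12.symm]
      exact h2
    · rw [Perm.mul_apply, swap_apply_left, swap_apply_of_ne_of_ne h2 h12.symm]
      exact hf2
  · obtain ⟨y', h1, hf1⟩ := fiber_two hf ha y
    have hx2 : x ≠ y' := fun e => hxy (by rw [e, hf1])
    obtain ⟨m, hm1, hm2⟩ := exists_third h3 (f x) (f y)
    obtain ⟨u, hu⟩ := fiber_nonempty hf ha m
    obtain ⟨u', hu', hfu'⟩ := fiber_two hf ha u
    have hx3 : x ≠ u := fun e => hm1 (by rw [← hu, e])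
    have hx4 : x ≠ u' := fun e => hm1 (by rw [← hu, ← hfu', e])
    have hy3 : y ≠ u := fun e => hm2 (by rw [← hu, e])
    have hy4 : y ≠ u' := fun e => hm2 (by rw [← hu, ← hfu', e])
    refine ⟨swap y y' * swap u u', dbl_mem h1.symm hf1.symm hu'.symm hfu'.symm, ?_, ?_, ?_⟩
    · rw [Perm.mul_apply, swap_apply_of_ne_of_ne hx3 hx4, swap_apply_of_ne_of_ne hx1 hx2]
    · rw [Perm.mul_apply, swap_apply_of_ne_of_ne hy3 hy4, swap_apply_left]
      exact h1
    · rw [Perm.mul_apply, swap_apply_of_ne_of_ne hy3 hy4, swap_apply_left]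
      exact hf1

theorem prim (hf : ∀ i : Fin b, Nat.card {x : Ω // f x = i} = a) (ha : 2 ≤ a) (hb : 2 ≤ b)
    (hab : 3 ≤ a ∨ 3 ≤ b) (K : Subgroup (Perm Ω)) (hHK : H0 f ≤ K)
    (g : Perm Ω) (hg : g ∈ K) (hgW : ¬ PP f g) : IsPreprimitive K Ω := by
  haveI : IsPretransitive K Ω := ⟨fun x w => by
    obtain ⟨h, hh, hx⟩ := trans_H0 hf ha hb x w
    exact ⟨⟨h, hHK hh⟩, hx⟩⟩
  refine ⟨fun {B} hB => ?_⟩
  by_contra htriv
  rw [IsTrivialBlock, not_or] at htriv
  obtain ⟨hns, hnu⟩ := htriv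
  rw [Set.not_subsingleton_iff] at hns
  obtain ⟨x₀, hx₀, y₀, hy₀, hxy₀⟩ := hns
  obtain ⟨v, hv⟩ := (Set.ne_univ_iff_exists_notMem B).mp hnu
  have step2 : ∀ x ∈ B, ∀ y ∈ B, x ≠ y → f x = f y → ∀ z, f z = f x → z ∈ B := by
    intro x hx y hy hxy hfxy z hz
    by_cases hzx : z = x
    · rw [hzx]; exact hx
    by_cases hzy : z = y
    · rw [hzy]; exact hy
    have hmem : swap x y * swap x z ∈ K := hHK (dbl_mem hxy hfxy (Ne.symm hzx) hz.symm)
    have h1 : (swap x y * swap x z) y = x := by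
      rw [Perm.mul_apply, swap_apply_of_ne_of_ne (Ne.symm hxy) (Ne.symm hzy), swap_apply_right]
    have h2 : (swap x y * swap x z) x = z := by
      rw [Perm.mul_apply, swap_apply_left, swap_apply_of_ne_of_ne hzx hzy]
    have h3 := (blk hB hmem hy (by rw [h1]; exact hx) x).mpr hx
    rwa [h2] at h3
  have step1 : ∃ x ∈ B, ∃ y ∈ B, x ≠ y ∧ f x = f y := by
    by_contra hno
    push Not at hno
    have hne := hno x₀ hx₀ y₀ hy₀ hxy₀
    obtain ⟨h, hh, h1, h2, h3⟩ := exists_fix_move hf ha hab x₀ y₀ hne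
    have hmem : h y₀ ∈ B := (blk hB (hHK hh) hx₀ (by rw [h1]; exact hx₀) y₀).mpr hy₀
    exact hno (h y₀) hmem y₀ hy₀ h2 h3
  obtain ⟨x, hx, y, hy, hxy, hfxy⟩ := step1
  have step3 : ∀ w ∈ B, ∀ z, f z = f w → z ∈ B := by
    intro w hw z hz
    obtain ⟨h, hh, hxw⟩ := trans_H0 hf ha hb x w
    have hyB : h y ∈ B := (blk hB (hHK hh) hx (by rw [hxw]; exact hw) y).mpr hy
    have hne : w ≠ h y := by rw [← hxw]; exact fun e => hxy (h.injective e)
    have hfe : f w = f (h y) := by rw [← hxw]; exact (pp_of_mem_H0 hh x y).mp hfxy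
    exact step2 w hw (h y) hyB hne hfe z hz
  have step4 : ∀ w ∈ B, f w = f x := by
    intro w hw
    by_contra hwx
    have hvx : f v ≠ f x := fun e => hv (step3 x hx v e)
    have hvw : f v ≠ f w := fun e => hv (step3 w hw v e)
    obtain ⟨v', hv', hfv'⟩ := fiber_two hf ha v
    obtain ⟨h, hh, h1, h2⟩ := exists_H0_map hf w v v v' hv'.symm hfv'.symm
      (fun e => hvw (by rw [e])) (fun e => hvw (by rw [e, hfv']))
    have hxx : h x = x := h2 x (fun e => hvx (by rw [e])) (fun e => hvx (by rw [← hfv', e]))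
      (fun e => hwx e.symm) (fun e => hvx e.symm)
    have h3 := (blk hB (hHK hh) hx (by rw [hxx]; exact hx) w).mpr hw
    rw [h1] at h3
    exact hv h3
  apply hgW
  intro p q
  obtain ⟨h₁, hh₁, e₁⟩ := trans_H0 hf ha hb x p
  obtain ⟨h₂, hh₂, e₂⟩ := trans_H0 hf ha hb x (g p)
  have hk : h₂⁻¹ * g * h₁ ∈ K := K.mul_mem (K.mul_mem (K.inv_mem (hHK hh₂)) hg) (hHK hh₁)
  have hkx : (h₂⁻¹ * g * h₁) x = x := by
    rw [Perm.mul_apply, Perm.mul_apply, e₁, ← e₂, ias]
  have hB' : ∀ c, c ∈ B ↔ f c = f x := fun c => ⟨step4 c, fun e => step3 x hx c e⟩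
  have key := blk hB hk hx (by rw [hkx]; exact hx) (h₁⁻¹ q)
  rw [hB', hB'] at key
  have e3 : (h₂⁻¹ * g * h₁) (h₁⁻¹ q) = h₂⁻¹ (g q) := by
    rw [Perm.mul_apply, Perm.mul_apply, ais]
  rw [e3] at key
  have pp1 := (pp_of_mem_H0 hh₁).inv' p q
  have pp2 := (pp_of_mem_H0 hh₂).inv' (g p) (g q)
  have e4 : h₁⁻¹ p = x := by rw [← e₁, ias]
  have e5 : h₂⁻¹ (g p) = x := by rw [← e₂, ias]
  rw [e4] at pp1
  rw [e5] at pp2
  rw [pp1, pp2]
  constructor
  · intro hh; exact (key.mpr hh.symm).symm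
  · intro hh; exact (key.mp hh.symm).symm

end fibers

section two

variable {Ω : Type*} [Fintype Ω] [DecidableEq Ω] {b : ℕ} {f : Ω → Fin b}

theorem blockswap_mem (hf : ∀ i : Fin b, Nat.card {x : Ω // f x = i} = 2) {y y' z z' : Ω}
    (hy : y' ≠ y) (hfy : f y' = f y) (hz : z' ≠ z) (hfz : f z' = f z) (hyz : f y ≠ f z) :
    swap y z * swap y' z' ∈ H0 f := by
  have hyz1 : y ≠ z := fun e => hyz (by rw [e])
  have hy'z : y' ≠ z := fun e => hyz (by rw [← hfy, e])
  have hy'z' : y' ≠ z' := fun e => hyz (by rw [← hfy, e, hfz])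
  have hyz' : y ≠ z' := fun e => hyz (by rw [e, hfz])
  have key : ∀ w, f ((swap y z * swap y' z') w) = swap (f y) (f z) (f w) := by
    intro w
    rw [Perm.mul_apply]
    by_cases h1 : f w = f y
    · rcases fiber_pair hf hy hfy w h1 with h | h
      · rw [h, swap_apply_of_ne_of_ne hy.symm hyz', swap_apply_left, swap_apply_left]
      · rw [h, swap_apply_left, swap_apply_of_ne_of_ne hyz'.symm hz, hfz, hfy, swap_apply_left]
    · by_cases h2 : f w = f z
      · rcases fiber_pair hf hz hfz w h2 with h | h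
        · rw [h, swap_apply_of_ne_of_ne hy'z.symm hz.symm, swap_apply_right, swap_apply_right]
        · rw [h, swap_apply_right, swap_apply_of_ne_of_ne hy hy'z, hfy, hfz, swap_apply_right]
      · have w1 : w ≠ y := fun e => h1 (by rw [e])
        have w2 : w ≠ y' := fun e => h1 (by rw [e, hfy])
        have w3 : w ≠ z := fun e => h2 (by rw [e])
        have w4 : w ≠ z' := fun e => h2 (by rw [e, hfz])
        rw [swap_apply_of_ne_of_ne w2 w4, swap_apply_of_ne_of_ne w1 w3,
          swap_apply_of_ne_of_ne h1 h2]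
  refine mem_H0 ?_ ?_
  · intro p q
    rw [key p, key q]
    exact ((swap (f y) (f z)).injective.eq_iff).symm
  · rw [Perm.sign_mul, Perm.sign_swap hyz1, Perm.sign_swap hy'z']; rfl

theorem four_le {b : ℕ} (i1 i2 i3 i4 : Fin b) (h12 : i1 ≠ i2) (h13 : i1 ≠ i3) (h14 : i1 ≠ i4)
    (h23 : i2 ≠ i3) (h24 : i2 ≠ i4) (h34 : i3 ≠ i4) : 4 ≤ b := by
  have h := Finset.card_le_univ ({i1, i2, i3, i4} : Finset (Fin b))
  rw [Fintype.card_fin] at h
  have hc : ({i1, i2, i3, i4} : Finset (Fin b)).card = 4 := by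
    rw [Finset.card_insert_of_notMem, Finset.card_insert_of_notMem, Finset.card_pair h34]
    · simp [h23, h24]
    · simp [h12, h13, h14]
  omega

theorem cancel_mid {G : Type*} [Group G] (A B C : G) (hB : B * B = 1) :
    A * B * (B * C) = A * C := by
  rw [mul_assoc, ← mul_assoc B, hB, one_mul]

theorem three_cycle_two (hf : ∀ i : Fin b, Nat.card {x : Ω // f x = i} = 2) (hb : 3 ≤ b)
    (h8 : Fintype.card Ω ≠ 8) (K : Subgroup (Perm Ω)) (hHK : H0 f ≤ K) (g : Perm Ω) (hg : g ∈ K)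
    (hgW : ¬ PP f g) : ∃ c ∈ K, c.IsThreeCycle := by
  have hpt : ∀ x : Ω, ∃ x', x' ≠ x ∧ f x' = f x := fun x => fiber_two hf le_rfl x
  choose pt hpt1 hpt2 using hpt
  have hpt3 : ∀ x z, f z = f x → z = x ∨ z = pt x :=
    fun x z hz => fiber_pair hf (hpt1 x) (hpt2 x) z hz
  have hconj : ∀ (u u' v v' : Ω), u ≠ u' → f u = f u' → v ≠ v' → f v = f v' →
      swap (g u) (g u') * swap (g v) (g v') ∈ K := by
    intro u u' v v' h1 h2 h3 h4
    rw [← conj_dbl]
    exact K.mul_mem (K.mul_mem hg (hHK (dbl_mem h1 h2 h3 h4))) (K.inv_mem hg)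
  obtain ⟨x, hx⟩ : ∃ x, f (g x) ≠ f (g (pt x)) := by
    by_contra hno
    push Not at hno
    apply hgW
    intro p q
    constructor
    · intro hpq
      rcases hpt3 p q hpq.symm with h | h
      · rw [h]
      · rw [h]; exact hno p
    · intro hpq
      by_contra hne
      have h1 : g q = g p ∨ g q = pt (g p) := hpt3 (g p) (g q) hpq.symm
      have h2 : g (pt p) = g p ∨ g (pt p) = pt (g p) := hpt3 (g p) (g (pt p)) (hno p).symm
      have h3 : g (pt p) ≠ g p := fun e => hpt1 p (g.injective e)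
      have h4 : g q ≠ g p := fun e => hne (by rw [g.injective e])
      have h5 : g q = g (pt p) := by
        rcases h1 with h1 | h1
        · exact absurd h1 h4
        · rcases h2 with h2 | h2
          · exact absurd h2 h3
          · rw [h1, h2]
      have h6 : q = pt p := g.injective h5
      exact hne (by rw [h6, hpt2 p])
  obtain ⟨x', hx'⟩ : ∃ x', pt x = x' := ⟨_, rfl⟩
  obtain ⟨y, hy⟩ : ∃ y, g x = y := ⟨_, rfl⟩
  obtain ⟨z, hz⟩ : ∃ z, g x' = z := ⟨_, rfl⟩
  have hxx' : x' ≠ x := by rw [← hx']; exact hpt1 x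
  have hfx' : f x' = f x := by rw [← hx']; exact hpt2 x
  have hyz : f y ≠ f z := by rw [← hy, ← hz, ← hx']; exact hx
  obtain ⟨y', hy'⟩ : ∃ y', pt y = y' := ⟨_, rfl⟩
  obtain ⟨z', hz'⟩ : ∃ z', pt z = z' := ⟨_, rfl⟩
  have hy'y : y' ≠ y := by rw [← hy']; exact hpt1 y
  have hfy' : f y' = f y := by rw [← hy']; exact hpt2 y
  have hz'z : z' ≠ z := by rw [← hz']; exact hpt1 z
  have hfz' : f z' = f z := by rw [← hz']; exact hpt2 z
  have hyz1 : y ≠ z := fun e => hyz (by rw [e])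
  have hy'z : y' ≠ z := fun e => hyz (by rw [← hfy', e])
  have hy'z' : y' ≠ z' := fun e => hyz (by rw [← hfy', e, hfz'])
  have hyz' : y ≠ z' := fun e => hyz (by rw [e, hfz'])
  obtain ⟨p, hp⟩ : ∃ p, g p = y' := ⟨g⁻¹ y', ais g y'⟩
  have hpx : p ≠ x := fun e => hy'y (by rw [← hp, e, hy])
  have hpx' : p ≠ x' := fun e => hy'z (by rw [← hp, e, hz])
  have hfp : f p ≠ f x := by
    intro e
    rcases hpt3 x p e with h | h
    · exact hpx h
    · exact hpx' (by rw [h, hx'])
  obtain ⟨p', hp'⟩ : ∃ p', pt p = p' := ⟨_, rfl⟩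
  have hp'p : p' ≠ p := by rw [← hp']; exact hpt1 p
  have hfp' : f p' = f p := by rw [← hp']; exact hpt2 p
  have hp'x : p' ≠ x := fun e => hfp (by rw [← hfp', e])
  have hp'x' : p' ≠ x' := fun e => hfp (by rw [← hfp', e, hfx'])
  obtain ⟨t, ht⟩ : ∃ t, g p' = t := ⟨_, rfl⟩
  have hty' : t ≠ y' := by rw [← ht, ← hp]; exact fun e => hp'p (g.injective e)
  have hty : t ≠ y := by rw [← ht, ← hy]; exact fun e => hp'x (g.injective e)
  have htz : t ≠ z := by rw [← ht, ← hz]; exact fun e => hp'x' (g.injective e)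
  have he1 : swap y' t * swap y z ∈ K := by
    have := hconj p p' x x' hp'p.symm hfp'.symm hxx'.symm hfx'.symm
    rwa [hp, ht, hy, hz] at this
  by_cases htz' : t = z'
  · -- third fibre
    obtain ⟨m, hm1, hm2⟩ := exists_third hb (f x) (f p)
    obtain ⟨q, hq⟩ := fiber_nonempty hf le_rfl m
    obtain ⟨q', hq'⟩ : ∃ q', pt q = q' := ⟨_, rfl⟩
    have hq'q : q' ≠ q := by rw [← hq']; exact hpt1 q
    have hfq' : f q' = f q := by rw [← hq']; exact hpt2 q
    have hqx : q ≠ x := fun e => hm1 (by rw [← hq, e])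
    have hqx' : q ≠ x' := fun e => hm1 (by rw [← hq, e, hfx'])
    have hqp : q ≠ p := fun e => hm2 (by rw [← hq, e])
    have hqp' : q ≠ p' := fun e => hm2 (by rw [← hq, e, hfp'])
    have hq'x : q' ≠ x := fun e => hm1 (by rw [← hq, ← hfq', e])
    have hq'x' : q' ≠ x' := fun e => hm1 (by rw [← hq, ← hfq', e, hfx'])
    have hq'p : q' ≠ p := fun e => hm2 (by rw [← hq, ← hfq', e])
    have hq'p' : q' ≠ p' := fun e => hm2 (by rw [← hq, ← hfq', e, hfp'])
    obtain ⟨c, hc⟩ : ∃ c, g q = c := ⟨_, rfl⟩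
    obtain ⟨d, hd⟩ : ∃ d, g q' = d := ⟨_, rfl⟩
    have hcd : c ≠ d := by rw [← hc, ← hd]; exact fun e => hq'q (g.injective e).symm
    have hcy : c ≠ y := by rw [← hc, ← hy]; exact fun e => hqx (g.injective e)
    have hcz : c ≠ z := by rw [← hc, ← hz]; exact fun e => hqx' (g.injective e)
    have hcy' : c ≠ y' := by rw [← hc, ← hp]; exact fun e => hqp (g.injective e)
    have hcz' : c ≠ z' := by rw [← hc, ← htz', ← ht]; exact fun e => hqp' (g.injective e)
    have hdy : d ≠ y := by rw [← hd, ← hy]; exact fun e => hq'x (g.injective e)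
    have hdz : d ≠ z := by rw [← hd, ← hz]; exact fun e => hq'x' (g.injective e)
    have hdy' : d ≠ y' := by rw [← hd, ← hp]; exact fun e => hq'p (g.injective e)
    have hdz' : d ≠ z' := by rw [← hd, ← htz', ← ht]; exact fun e => hq'p' (g.injective e)
    have he2 : swap y z * swap c d ∈ K := by
      have := hconj x x' q q' hxx'.symm hfx'.symm hq'q.symm hfq'.symm
      rwa [hy, hz, hc, hd] at this
    by_cases hfcd : f c = f d
    · have hs : swap c d * swap y y' ∈ K := hHK (dbl_mem hcd hfcd hy'y.symm hfy'.symm)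
      refine ⟨swap y z * swap y y', ?_, isThreeCycle_swap_mul_swap_same hyz1 hy'y.symm hy'z.symm⟩
      rw [← cancel_mid (swap y z) (swap c d) (swap y y') (swap_mul_self c d)]
      exact K.mul_mem he2 hs
    · have hfcy : f c ≠ f y := by
        intro e
        rcases hpt3 y c e with h | h
        · exact hcy h
        · exact hcy' (by rw [h, hy'])
      have hfcz : f c ≠ f z := by
        intro e
        rcases hpt3 z c e with h | h
        · exact hcz h
        · exact hcz' (by rw [h, hz'])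
      have hfdy : f d ≠ f y := by
        intro e
        rcases hpt3 y d e with h | h
        · exact hdy h
        · exact hdy' (by rw [h, hy'])
      have hfdz : f d ≠ f z := by
        intro e
        rcases hpt3 z d e with h | h
        · exact hdz h
        · exact hdz' (by rw [h, hz'])
      have hb4 : 4 ≤ b := four_le (f y) (f z) (f c) (f d) hyz (Ne.symm hfcy) (Ne.symm hfdy)
        (Ne.symm hfcz) (Ne.symm hfdz) hfcd
      have hcard := card_omega hf
      have hb5 : 4 < b := by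
        rcases Nat.lt_or_ge 4 b with h | h
        · exact h
        · exfalso
          have : b = 4 := le_antisymm h hb4
          rw [this] at hcard
          exact h8 hcard
      obtain ⟨m2, hm2'⟩ := exists_avoid ({f y, f z, f c, f d} : Finset (Fin b))
        (lt_of_le_of_lt Finset.card_le_four hb5)
      simp only [Finset.mem_insert, Finset.mem_singleton, not_or] at hm2'
      obtain ⟨hmy, hmz, hmc, hmd⟩ := hm2'
      obtain ⟨w, hw⟩ := fiber_nonempty hf le_rfl m2
      obtain ⟨w', hw'⟩ : ∃ w', pt w = w' := ⟨_, rfl⟩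
      have hw'w : w' ≠ w := by rw [← hw']; exact hpt1 w
      have hfw' : f w' = f w := by rw [← hw']; exact hpt2 w
      have hwy : w ≠ y := fun e => hmy (by rw [← hw, e])
      have hwz : w ≠ z := fun e => hmz (by rw [← hw, e])
      have hwc : w ≠ c := fun e => hmc (by rw [← hw, e])
      have hwd : w ≠ d := fun e => hmd (by rw [← hw, e])
      have hw'y : w' ≠ y := fun e => hmy (by rw [← hw, ← hfw', e])
      have hw'z : w' ≠ z := fun e => hmz (by rw [← hw, ← hfw', e])
      have hw'c : w' ≠ c := fun e => hmc (by rw [← hw, ← hfw', e])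
      have hw'd : w' ≠ d := fun e => hmd (by rw [← hw, ← hfw', e])
      have hs1 : swap y y' * swap w w' ∈ K := hHK (dbl_mem hy'y.symm hfy'.symm hw'w.symm hfw'.symm)
      have hs2 : swap w w' * swap y y' ∈ K := hHK (dbl_mem hw'w.symm hfw'.symm hy'y.symm hfy'.symm)
      have hE : (swap y z * swap c d) * (swap y y' * swap w w') * (swap y z * swap c d)⁻¹
          = swap z y' * swap w w' := by
        rw [conj_dbl]
        have a1 : (swap y z * swap c d) y = z := by
          rw [Perm.mul_apply, swap_apply_of_ne_of_ne hcy.symm hdy.symm, swap_apply_left]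
        have a2 : (swap y z * swap c d) y' = y' := by
          rw [Perm.mul_apply, swap_apply_of_ne_of_ne hcy'.symm hdy'.symm,
            swap_apply_of_ne_of_ne hy'y hy'z]
        have a3 : (swap y z * swap c d) w = w := by
          rw [Perm.mul_apply, swap_apply_of_ne_of_ne hwc hwd, swap_apply_of_ne_of_ne hwy hwz]
        have a4 : (swap y z * swap c d) w' = w' := by
          rw [Perm.mul_apply, swap_apply_of_ne_of_ne hw'c hw'd, swap_apply_of_ne_of_ne hw'y hw'z]
        rw [a1, a2, a3, a4]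
      have hmem : swap z y' * swap w w' * (swap w w' * swap y y') ∈ K := by
        rw [← hE]
        exact K.mul_mem (K.mul_mem (K.mul_mem he2 hs1) (K.inv_mem he2)) hs2
      rw [cancel_mid _ _ _ (swap_mul_self w w'), swap_comm z y', swap_comm y y'] at hmem
      exact ⟨_, hmem, isThreeCycle_swap_mul_swap_same hy'z hy'y hyz1.symm⟩
  · have hr : swap y z * swap y' z' ∈ K := hHK (blockswap_mem hf hy'y hfy' hz'z hfz' hyz)
    refine ⟨swap y' t * swap y' z', ?_, isThreeCycle_swap_mul_swap_same hty'.symm hy'z' htz'⟩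
    rw [← cancel_mid (swap y' t) (swap y z) (swap y' z') (swap_mul_self y z)]
    exact K.mul_mem he1 hr

theorem case_four (hf : ∀ i : Fin b, Nat.card {x : Ω // f x = i} = 2) (hb : b = 2)
    (K : Subgroup (Perm Ω)) (hHK : H0 f ≤ K) (hKA : K ≤ alternatingGroup Ω) (g : Perm Ω)
    (hg : g ∈ K) (hgW : ¬ PP f g) : alternatingGroup Ω ≤ K := by
  have hcard : Fintype.card Ω = 4 := by rw [card_omega hf, hb]
  haveI : Nontrivial Ω := Fintype.one_lt_card_iff_nontrivial.mp (by omega)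
  have hA : Nat.card (alternatingGroup Ω) = 12 := by
    have h1 := two_mul_nat_card_alternatingGroup (α := Ω)
    rw [Nat.card_perm, Nat.card_eq_fintype_card (α := Ω), hcard] at h1
    have h2 : Nat.factorial 4 = 24 := rfl
    omega
  haveI : IsPretransitive (H0 f) Ω := ⟨fun x w => by
    obtain ⟨h, hh, hx⟩ := trans_H0 hf le_rfl (by omega) x w
    exact ⟨⟨h, hh⟩, hx⟩⟩
  obtain ⟨x⟩ : Nonempty Ω := inferInstance
  have h4 : 4 ∣ Nat.card (H0 f) := by
    have h1 := MulAction.index_stabilizer_of_transitive (G := H0 f) (x := x)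
    rw [Nat.card_eq_fintype_card, hcard] at h1
    rw [← h1]
    exact Subgroup.index_dvd_card _
  have hd1 : Nat.card (H0 f) ∣ Nat.card K := Subgroup.card_dvd_of_le hHK
  have hd2 : Nat.card K ∣ 12 := by rw [← hA]; exact Subgroup.card_dvd_of_le hKA
  have hlt : Nat.card (H0 f) < Nat.card K := by
    by_contra hle
    push Not at hle
    have heq : H0 f = K := Subgroup.eq_of_le_of_card_ge hHK hle
    exact hgW (pp_of_mem_H0 (heq ▸ hg))
  have hpos : 0 < Nat.card (H0 f) := Nat.card_pos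
  have hk : Nat.card K = 12 := by
    have h4k : 4 ∣ Nat.card K := dvd_trans h4 hd1
    have hle : Nat.card K ≤ 12 := Nat.le_of_dvd (by norm_num) hd2
    have h4h : 4 ≤ Nat.card (H0 f) := Nat.le_of_dvd hpos h4
    have h5 : 5 ≤ Nat.card K := by omega
    generalize Nat.card K = k at h4k hle h5 hd2
    interval_cases k <;> omega
  exact (Subgroup.eq_of_le_of_card_ge hKA (by rw [hA, hk])).ge

theorem main {a : ℕ} (h8 : Fintype.card Ω ≠ 8) (ha : 2 ≤ a) (hb : 2 ≤ b)
    (hf : ∀ i : Fin b, Nat.card {x : Ω // f x = i} = a) (K : Subgroup (Perm Ω))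
    (hHK : H0 f ≤ K) (hKA : K ≤ alternatingGroup Ω) (g : Perm Ω) (hg : g ∈ K)
    (hgW : ¬ PP f g) : alternatingGroup Ω ≤ K := by
  by_cases h3 : 3 ≤ a
  · have hp := prim hf ha hb (Or.inl h3) K hHK g hg hgW
    obtain ⟨x, -⟩ := fiber_nonempty hf ha ⟨0, by omega⟩
    obtain ⟨x', x'', h1, h2, h12, hf1, hf2⟩ := fiber_three hf h3 x
    exact alternatingGroup_le_of_isPreprimitive_of_isThreeCycle_mem hp
      (isThreeCycle_swap_mul_swap_same h1.symm h2.symm h12)
      (hHK (dbl_mem h1.symm hf1.symm h2.symm hf2.symm))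
  · have ha2 : a = 2 := by omega
    subst ha2
    by_cases hb3 : 3 ≤ b
    · have hp := prim hf ha hb (Or.inr hb3) K hHK g hg hgW
      obtain ⟨c, hc, hc3⟩ := three_cycle_two hf hb3 h8 K hHK g hg hgW
      exact alternatingGroup_le_of_isPreprimitive_of_isThreeCycle_mem hp hc3 hc
    · exact case_four hf (by omega) K hHK hKA g hg hgW

end two

/-- Let Ω be a finite set whose size is not 8, and f : Ω → Fin b a labelling with b ≥ 2 whose fibres all have the same size a ≥ 2 (a partition into b blocks of size a). Then the even permutations preserving the partition — the intersection of the imprimitive wreath product S_a ≀ S_b with the alternating group — form a maximal subgroup of the alternating group on Ω. -/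
theorem result {Ω : Type*} [Fintype Ω] [DecidableEq Ω] (h8 : Fintype.card Ω ≠ 8) (a b : ℕ) (ha : 2 ≤ a) (hb : 2 ≤ b)
    (f : Ω → Fin b) (hf : ∀ i : Fin b, Nat.card {x : Ω // f x = i} = a) :
    IsCoatom ((Subgroup.closure {g : Equiv.Perm Ω | ∀ x y : Ω, f x = f y ↔ f (g x) = f (g y)} ⊓ alternatingGroup Ω).subgroupOf (alternatingGroup Ω)) := by
  have hH0 : Subgroup.closure {g : Equiv.Perm Ω | ∀ x y : Ω, f x = f y ↔ f (g x) = f (g y)} ⊓
      alternatingGroup Ω = H0 f := rfl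
  rw [hH0]
  constructor
  · intro htop
    obtain ⟨x, -⟩ := fiber_nonempty hf ha ⟨0, by omega⟩
    obtain ⟨x', hx', hfx'⟩ := fiber_two hf ha x
    haveI : Nontrivial (Fin b) := Fin.nontrivial_iff_two_le.mpr hb
    obtain ⟨j, hj⟩ := exists_ne (f x)
    obtain ⟨z, hz⟩ := fiber_nonempty hf ha j
    have hzx : z ≠ x := fun e => hj (by rw [← hz, e])
    have hzx' : z ≠ x' := fun e => hj (by rw [← hz, e, hfx'])
    have h3 : Equiv.Perm.IsThreeCycle (Equiv.swap x x' * Equiv.swap x z) :=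
      Equiv.Perm.isThreeCycle_swap_mul_swap_same hx'.symm hzx.symm hzx'.symm
    have hmem : (⟨Equiv.swap x x' * Equiv.swap x z, h3.mem_alternatingGroup⟩ :
        alternatingGroup Ω) ∈ (H0 f).subgroupOf (alternatingGroup Ω) := by
      rw [htop]; exact Subgroup.mem_top _
    rw [Subgroup.mem_subgroupOf] at hmem
    have hpp := pp_of_mem_H0 hmem x x'
    have e1 : (Equiv.swap x x' * Equiv.swap x z) x = z := by
      rw [Equiv.Perm.mul_apply, Equiv.swap_apply_left, Equiv.swap_apply_of_ne_of_ne hzx hzx']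
    have e2 : (Equiv.swap x x' * Equiv.swap x z) x' = x := by
      rw [Equiv.Perm.mul_apply, Equiv.swap_apply_of_ne_of_ne hx' hzx'.symm,
        Equiv.swap_apply_right]
    simp only [e1, e2] at hpp
    exact hj (by rw [← hz]; exact hpp.mp hfx'.symm)
  · intro K hK
    rw [eq_top_iff]
    intro k _
    have hle : H0 f ≤ K.map (alternatingGroup Ω).subtype := by
      intro h hh
      have hA : h ∈ alternatingGroup Ω := hh.2
      exact ⟨⟨h, hA⟩, hK.le (Subgroup.mem_subgroupOf.mpr hh), rfl⟩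
    obtain ⟨k₀, hk₀, hk₀'⟩ := SetLike.exists_of_lt hK
    have hnpp : ¬ PP f (k₀ : Equiv.Perm Ω) := by
      intro hpp
      apply hk₀'
      rw [Subgroup.mem_subgroupOf]
      exact ⟨Subgroup.subset_closure hpp, k₀.2⟩
    have hmain := main h8 ha hb hf (K.map (alternatingGroup Ω).subtype) hle
      (Subgroup.map_subtype_le K) k₀.1 ⟨k₀, hk₀, rfl⟩ hnpp
    obtain ⟨k₁, hk₁, e⟩ := hmain k.2
    have hkk : k₁ = k := Subtype.ext e
    rw [← hkk]; exact hk₁

end Cfsg.Agent.S5909
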