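import Cfsg.Statements.S5910

set_option autoImplicit false
open Cfsg

namespace Cfsg.Agent.S5910

def vec (b0 b1 b2 b3 b4 b5 b6 b7 : Fin 8) : Fin 8 → Fin 8 := ![b0, b1, b2, b3, b4, b5, b6, b7]

def Aff (v : Fin 8 → Fin 8) : Prop := ∀ i j k : Fin 8, v (i ^^^ j ^^^ k) = v i ^^^ v j ^^^ v k

instance (v : Fin 8 → Fin 8) : Decidable (Aff v) := by
  unfold Aff; infer_instance

def sgn (v : Fin 8 → Fin 8) : ℤˣ := ∏ j, ∏ i ∈ Finset.Iio j, (if v i < v j then 1 else -1)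

def Leaf (v : Fin 8 → Fin 8) : Prop := sgn v = 1 → Aff v

instance (v : Fin 8 → Fin 8) : Decidable (Leaf v) := by
  unfold Leaf; infer_instance

def K7 (b0 b1 b2 b3 b4 b5 b6 : Fin 8) : Prop :=
  ∀ b7 : Fin 8, ¬ (b7 ≠ b0 ∧ b7 ≠ b1 ∧ b7 ≠ b2 ∧ b7 ≠ b3 ∧ b7 ≠ b4 ∧ b7 ≠ b5 ∧ b7 ≠ b6 ∧ ((0/2 : ℕ) = 7/2 ↔ b0.val / 2 = b7.val / 2) ∧ ((1/2 : ℕ) = 7/2 ↔ b1.val / 2 = b7.val / 2) ∧ ((2/2 : ℕ) = 7/2 ↔ b2.val / 2 = b7.val / 2) ∧ ((3/2 : ℕ) = 7/2 ↔ b3.val / 2 = b7.val / 2) ∧ ((4/2 : ℕ) = 7/2 ↔ b4.val / 2 = b7.val / 2) ∧ ((5/2 : ℕ) = 7/2 ↔ b5.val / 2 = b7.val / 2) ∧ ((6/2 : ℕ) = 7/2 ↔ b6.val / 2 = b7.val / 2)) ∨ Leaf (vec b0 b1 b2 b3 b4 b5 b6 b7)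
instance (b0 b1 b2 b3 b4 b5 b6 : Fin 8) : Decidable (K7 b0 b1 b2 b3 b4 b5 b6) := by
  unfold K7; infer_instance
def K6 (b0 b1 b2 b3 b4 b5 : Fin 8) : Prop :=
  ∀ b6 : Fin 8, ¬ (b6 ≠ b0 ∧ b6 ≠ b1 ∧ b6 ≠ b2 ∧ b6 ≠ b3 ∧ b6 ≠ b4 ∧ b6 ≠ b5 ∧ ((0/2 : ℕ) = 6/2 ↔ b0.val / 2 = b6.val / 2) ∧ ((1/2 : ℕ) = 6/2 ↔ b1.val / 2 = b6.val / 2) ∧ ((2/2 : ℕ) = 6/2 ↔ b2.val / 2 = b6.val / 2) ∧ ((3/2 : ℕ) = 6/2 ↔ b3.val / 2 = b6.val / 2) ∧ ((4/2 : ℕ) = 6/2 ↔ b4.val / 2 = b6.val / 2) ∧ ((5/2 : ℕ) = 6/2 ↔ b5.val / 2 = b6.val / 2)) ∨ K7 b0 b1 b2 b3 b4 b5 b6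
instance (b0 b1 b2 b3 b4 b5 : Fin 8) : Decidable (K6 b0 b1 b2 b3 b4 b5) := by
  unfold K6; infer_instance
def K5 (b0 b1 b2 b3 b4 : Fin 8) : Prop :=
  ∀ b5 : Fin 8, ¬ (b5 ≠ b0 ∧ b5 ≠ b1 ∧ b5 ≠ b2 ∧ b5 ≠ b3 ∧ b5 ≠ b4 ∧ ((0/2 : ℕ) = 5/2 ↔ b0.val / 2 = b5.val / 2) ∧ ((1/2 : ℕ) = 5/2 ↔ b1.val / 2 = b5.val / 2) ∧ ((2/2 : ℕ) = 5/2 ↔ b2.val / 2 = b5.val / 2) ∧ ((3/2 : ℕ) = 5/2 ↔ b3.val / 2 = b5.val / 2) ∧ ((4/2 : ℕ) = 5/2 ↔ b4.val / 2 = b5.val / 2)) ∨ K6 b0 b1 b2 b3 b4 b5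
instance (b0 b1 b2 b3 b4 : Fin 8) : Decidable (K5 b0 b1 b2 b3 b4) := by
  unfold K5; infer_instance
def K4 (b0 b1 b2 b3 : Fin 8) : Prop :=
  ∀ b4 : Fin 8, ¬ (b4 ≠ b0 ∧ b4 ≠ b1 ∧ b4 ≠ b2 ∧ b4 ≠ b3 ∧ ((0/2 : ℕ) = 4/2 ↔ b0.val / 2 = b4.val / 2) ∧ ((1/2 : ℕ) = 4/2 ↔ b1.val / 2 = b4.val / 2) ∧ ((2/2 : ℕ) = 4/2 ↔ b2.val / 2 = b4.val / 2) ∧ ((3/2 : ℕ) = 4/2 ↔ b3.val / 2 = b4.val / 2)) ∨ K5 b0 b1 b2 b3 b4
instance (b0 b1 b2 b3 : Fin 8) : Decidable (K4 b0 b1 b2 b3) := by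
  unfold K4; infer_instance
def K3 (b0 b1 b2 : Fin 8) : Prop :=
  ∀ b3 : Fin 8, ¬ (b3 ≠ b0 ∧ b3 ≠ b1 ∧ b3 ≠ b2 ∧ ((0/2 : ℕ) = 3/2 ↔ b0.val / 2 = b3.val / 2) ∧ ((1/2 : ℕ) = 3/2 ↔ b1.val / 2 = b3.val / 2) ∧ ((2/2 : ℕ) = 3/2 ↔ b2.val / 2 = b3.val / 2)) ∨ K4 b0 b1 b2 b3
instance (b0 b1 b2 : Fin 8) : Decidable (K3 b0 b1 b2) := by
  unfold K3; infer_instance
def K2 (b0 b1 : Fin 8) : Prop :=
  ∀ b2 : Fin 8, ¬ (b2 ≠ b0 ∧ b2 ≠ b1 ∧ ((0/2 : ℕ) = 2/2 ↔ b0.val / 2 = b2.val / 2) ∧ ((1/2 : ℕ) = 2/2 ↔ b1.val / 2 = b2.val / 2)) ∨ K3 b0 b1 b2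
instance (b0 b1 : Fin 8) : Decidable (K2 b0 b1) := by
  unfold K2; infer_instance
def K1 (b0 : Fin 8) : Prop :=
  ∀ b1 : Fin 8, ¬ (b1 ≠ b0 ∧ ((0/2 : ℕ) = 1/2 ↔ b0.val / 2 = b1.val / 2)) ∨ K2 b0 b1
instance (b0 : Fin 8) : Decidable (K1 b0) := by
  unfold K1; infer_instance
def K0 : Prop :=
  ∀ b0 : Fin 8, K1  b0
instance : Decidable K0 := by
  unfold K0; infer_instance

set_option maxRecDepth 100000 in
theorem big : K0 := by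
  decide +kernel

theorem c1 (σ : Equiv.Perm (Fin 8))
    (hσ : ∀ x y : Fin 8, x.val / 2 = y.val / 2 ↔ (σ x).val / 2 = (σ y).val / 2)
    (hs : Equiv.Perm.sign σ = 1) : Aff σ := by
  have h1 := big (σ 0)
  have h2 := (h1 (σ 1)).resolve_left (not_not.mpr ⟨σ.injective.ne (by decide), hσ 0 1⟩)
  have h3 := (h2 (σ 2)).resolve_left (not_not.mpr ⟨σ.injective.ne (by decide), σ.injective.ne (by decide), hσ 0 2, hσ 1 2⟩)
  have h4 := (h3 (σ 3)).resolve_left (not_not.mpr ⟨σ.injective.ne (by decide), σ.injective.ne (by decide), σ.injective.ne (by decide), hσ 0 3, hσ 1 3, hσ 2 3⟩)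
  have h5 := (h4 (σ 4)).resolve_left (not_not.mpr ⟨σ.injective.ne (by decide), σ.injective.ne (by decide), σ.injective.ne (by decide), σ.injective.ne (by decide), hσ 0 4, hσ 1 4, hσ 2 4, hσ 3 4⟩)
  have h6 := (h5 (σ 5)).resolve_left (not_not.mpr ⟨σ.injective.ne (by decide), σ.injective.ne (by decide), σ.injective.ne (by decide), σ.injective.ne (by decide), σ.injective.ne (by decide), hσ 0 5, hσ 1 5, hσ 2 5, hσ 3 5, hσ 4 5⟩)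
  have h7 := (h6 (σ 6)).resolve_left (not_not.mpr ⟨σ.injective.ne (by decide), σ.injective.ne (by decide), σ.injective.ne (by decide), σ.injective.ne (by decide), σ.injective.ne (by decide), σ.injective.ne (by decide), hσ 0 6, hσ 1 6, hσ 2 6, hσ 3 6, hσ 4 6, hσ 5 6⟩)
  have h8 := (h7 (σ 7)).resolve_left (not_not.mpr ⟨σ.injective.ne (by decide), σ.injective.ne (by decide), σ.injective.ne (by decide), σ.injective.ne (by decide), σ.injective.ne (by decide), σ.injective.ne (by decide), σ.injective.ne (by decide), hσ 0 7, hσ 1 7, hσ 2 7, hσ 3 7, hσ 4 7, hσ 5 7, hσ 6 7⟩)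
  have hv : vec (σ 0) (σ 1) (σ 2) (σ 3) (σ 4) (σ 5) (σ 6) (σ 7) = σ := by
    funext i
    fin_cases i <;> rfl
  rw [hv] at h8
  apply h8
  rw [← hs, Equiv.Perm.sign_eq_prod_prod_Iio]
  rfl


def Kaff : Subgroup (Equiv.Perm (Fin 8)) where
  carrier := {σ | Aff σ}
  mul_mem' := by
    intro a b ha hb i j k
    show a (b (i ^^^ j ^^^ k)) = a (b i) ^^^ a (b j) ^^^ a (b k)
    rw [hb i j k, ha]
  one_mem' := fun i j k => rfl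
  inv_mem' := by
    intro a ha i j k
    have h := ha (a⁻¹ i) (a⁻¹ j) (a⁻¹ k)
    simp only [Equiv.Perm.coe_inv, Equiv.apply_symm_apply] at h
    show a⁻¹ (i ^^^ j ^^^ k) = a⁻¹ i ^^^ a⁻¹ j ^^^ a⁻¹ k
    rw [← h]
    simp only [Equiv.Perm.coe_inv, Equiv.symm_apply_apply]

def c3 : Equiv.Perm (Fin 8) := Equiv.swap (0 : Fin 8) 1 * Equiv.swap (1 : Fin 8) 2

def c2 : Equiv.Perm (Fin 8) := Equiv.swap (1 : Fin 8) 2 * Equiv.swap (5 : Fin 8) 6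

theorem c3_sign : Equiv.Perm.sign c3 = 1 := by
  unfold c3
  rw [map_mul, Equiv.Perm.sign_swap (by decide), Equiv.Perm.sign_swap (by decide)]
  rfl

theorem c2_sign : Equiv.Perm.sign c2 = 1 := by
  unfold c2
  rw [map_mul, Equiv.Perm.sign_swap (by decide), Equiv.Perm.sign_swap (by decide)]
  rfl

theorem c3_not_aff : ¬ Aff c3 := by decide +kernel

theorem c2_aff : Aff c2 := by decide +kernel

theorem c2_not_part : ¬ ∀ x y : Fin 8, x.val / 2 = y.val / 2 ↔ (c2 x).val / 2 = (c2 y).val / 2 := by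
  decide +kernel

theorem result {Ω : Type*} [Fintype Ω] [DecidableEq Ω] (h8 : Fintype.card Ω = 8)
    (f : Ω → Fin 4) (hf : ∀ i : Fin 4, Nat.card {x : Ω // f x = i} = 2) :
    ¬ IsCoatom ((Subgroup.closure {g : Equiv.Perm Ω | ∀ x y : Ω, f x = f y ↔ f (g x) = f (g y)} ⊓ alternatingGroup Ω).subgroupOf (alternatingGroup Ω)) := by
  classical
  obtain ⟨e, he⟩ : ∃ e : Ω ≃ Fin 8, ∀ x, (e x).val / 2 = (f x).val := by
    have c : ∀ i : Fin 4, {x : Ω // f x = i} ≃ Fin 2 := fun i => Finite.equivFinOfCardEq (hf i)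
    let e1 : Ω ≃ Σ i : Fin 4, {x : Ω // f x = i} := (Equiv.sigmaFiberEquiv f).symm
    let e2 : (Σ i : Fin 4, {x : Ω // f x = i}) ≃ Σ _i : Fin 4, Fin 2 := Equiv.sigmaCongrRight c
    let e3 : (Σ _i : Fin 4, Fin 2) ≃ Fin 4 × Fin 2 := Equiv.sigmaEquivProd _ _
    let e4 : Fin 4 × Fin 2 ≃ Fin 8 := finProdFinEquiv
    refine ⟨e1.trans (e2.trans (e3.trans e4)), fun x => ?_⟩
    have hval : ((e1.trans (e2.trans (e3.trans e4))) x).val =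
        (c (f x) ⟨x, rfl⟩).val + 2 * (f x).val := rfl
    rw [hval]
    have := (c (f x) ⟨x, rfl⟩).isLt
    omega
  have hfe : ∀ x y : Ω, f x = f y ↔ (e x).val / 2 = (e y).val / 2 := by
    intro x y
    rw [he, he, Fin.ext_iff]
  set Φ : Equiv.Perm Ω ≃* Equiv.Perm (Fin 8) := e.permCongrHom with hΦ
  have hΦapp : ∀ (g : Equiv.Perm Ω) (x : Ω), Φ g (e x) = e (g x) := by
    intro g x
    simp [hΦ]
  have hΦsign : ∀ g : Equiv.Perm Ω, Equiv.Perm.sign (Φ g) = Equiv.Perm.sign g := by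
    intro g
    exact Equiv.Perm.sign_permCongr e g
  have hpart : ∀ g : Equiv.Perm Ω, (∀ x y : Ω, f x = f y ↔ f (g x) = f (g y)) ↔
      ∀ u v : Fin 8, u.val / 2 = v.val / 2 ↔ (Φ g u).val / 2 = (Φ g v).val / 2 := by
    intro g
    constructor
    · intro h u v
      have := h (e.symm u) (e.symm v)
      rw [hfe, hfe, ← hΦapp, ← hΦapp, Equiv.apply_symm_apply, Equiv.apply_symm_apply] at this
      exact this
    · intro h x y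
      have := h (e x) (e y)
      rw [hΦapp, hΦapp, ← hfe, ← hfe] at this
      exact this
  let WΩ : Subgroup (Equiv.Perm Ω) :=
    { carrier := {g : Equiv.Perm Ω | ∀ x y : Ω, f x = f y ↔ f (g x) = f (g y)}
      mul_mem' := by
        intro a b ha hb x y
        exact (hb x y).trans (ha (b x) (b y))
      one_mem' := fun x y => Iff.rfl
      inv_mem' := by
        intro a ha x y
        have h := ha (a⁻¹ x) (a⁻¹ y)
        simp only [Equiv.Perm.coe_inv, Equiv.apply_symm_apply] at h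
        exact h.symm }
  set C : Subgroup (Equiv.Perm Ω) :=
    Subgroup.closure {g : Equiv.Perm Ω | ∀ x y : Ω, f x = f y ↔ f (g x) = f (g y)} with hC
  have hCW : C ≤ WΩ := (Subgroup.closure_le WΩ).mpr (fun g hg => hg)
  set A : Subgroup (Equiv.Perm Ω) := alternatingGroup Ω with hA
  set L : Subgroup (Equiv.Perm Ω) := Kaff.comap Φ.toMonoidHom with hL
  have hBL : C ⊓ A ≤ L := by
    rintro g ⟨hgC, hgA⟩
    have h1 : ∀ x y : Ω, f x = f y ↔ f (g x) = f (g y) := hCW hgC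
    have h2 : Equiv.Perm.sign g = 1 := Equiv.Perm.mem_alternatingGroup.mp hgA
    show Aff (Φ g)
    exact c1 (Φ g) ((hpart g).mp h1) (by rw [hΦsign, h2])
  intro hco
  have hle : (C ⊓ A).subgroupOf A ≤ (L ⊓ A).subgroupOf A := by
    intro x hx
    rw [Subgroup.mem_subgroupOf] at hx ⊢
    exact ⟨hBL hx, x.2⟩
  rcases eq_or_lt_of_le hle with heq | hlt
  · rw [Subgroup.subgroupOf_inj] at heq
    have hc2A : Φ.symm c2 ∈ A := by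
      rw [hA, Equiv.Perm.mem_alternatingGroup, ← hΦsign, MulEquiv.apply_symm_apply]
      exact c2_sign
    have hc2L : Φ.symm c2 ∈ L := by
      show Aff (Φ (Φ.symm c2))
      rw [MulEquiv.apply_symm_apply]
      exact c2_aff
    have hmem : Φ.symm c2 ∈ L ⊓ A ⊓ A := ⟨⟨hc2L, hc2A⟩, hc2A⟩
    rw [← heq] at hmem
    have h1 : ∀ x y : Ω, f x = f y ↔ f ((Φ.symm c2) x) = f ((Φ.symm c2) y) := hCW hmem.1.1
    have h2 := (hpart _).mp h1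
    rw [MulEquiv.apply_symm_apply] at h2
    exact c2_not_part h2
  · have htop := hco.2 _ hlt
    rw [Subgroup.subgroupOf_eq_top] at htop
    have hmem : Φ.symm c3 ∈ A := by
      rw [hA, Equiv.Perm.mem_alternatingGroup, ← hΦsign, MulEquiv.apply_symm_apply]
      exact c3_sign
    have h1 : Aff (Φ (Φ.symm c3)) := (htop hmem).1
    rw [MulEquiv.apply_symm_apply] at h1
    exact c3_not_aff h1

end Cfsg.Agent.S5910
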