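import Cfsg.Statements.S5911

set_option autoImplicit false
open Cfsg

namespace Cfsg.Agent.S5911


open Nat in
theorem pow_fact_lt (j : ℕ) : 2 ^ (j + 3) * (j + 4)! < (2 * j + 6)! := by
  induction j with
  | zero => decide
  | succ j ih =>
    have e1 : 2 ^ (j + 1 + 3) * (j + 1 + 4)! = (2 * (j + 5)) * (2 ^ (j + 3) * (j + 4)!) := by
      rw [show j + 1 + 4 = (j + 4) + 1 from rfl, Nat.factorial_succ]
      ring
    have e2 : (2 * (j + 1) + 6)! = (2 * j + 8) * ((2 * j + 7) * (2 * j + 6)!) := by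
      rw [show 2 * (j + 1) + 6 = (2 * j + 7) + 1 from by ring, Nat.factorial_succ,
        show 2 * j + 7 = (2 * j + 6) + 1 from rfl, Nat.factorial_succ]
    rw [e1, e2]
    have h1 : (2 * (j + 5)) * (2 ^ (j + 3) * (j + 4)!) < (2 * (j + 5)) * (2 * j + 6)! :=
      Nat.mul_lt_mul_of_pos_left ih (by omega)
    have h2 : (2 * (j + 5)) * (2 * j + 6)! ≤ (2 * j + 8) * ((2 * j + 7) * (2 * j + 6)!) := by
      have hp : 0 < (2 * j + 6)! := Nat.factorial_pos _
      nlinarith
    omega

open Nat in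
theorem arith (n k : ℕ) (hn6 : n ≠ 6) (hk : 1 ≤ k) (h2k : 2 * k ≤ n)
    (h : (n - 2 * k)! * 2 ^ k * k ! = (n - 2)! * 2) : k = 1 := by
  by_contra hk1
  obtain ⟨m, rfl⟩ : ∃ m, n = m + 2 * k := ⟨n - 2 * k, by omega⟩
  have hm : m + 2 * k - 2 * k = m := by omega
  rw [hm] at h
  have hmpos : 0 < m ! := Nat.factorial_pos _
  rcases (show k = 2 ∨ k = 3 ∨ 4 ≤ k by omega) with rfl | rfl | hk4
  · have e : (m + 2 * 2 - 2)! = (m + 2) * ((m + 1) * m !) := by
      rw [show m + 2 * 2 - 2 = (m + 1) + 1 from by omega, Nat.factorial_succ, Nat.factorial_succ]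
    rw [e] at h
    have h' : m ! * 8 = m ! * ((m + 2) * (m + 1) * 2) := by
      have : (2 : ℕ) ! = 2 := rfl
      rw [this] at h
      nlinarith
    have h'' := Nat.eq_of_mul_eq_mul_left hmpos h'
    rcases Nat.eq_zero_or_pos m with rfl | hm0
    · omega
    · nlinarith
  · have e : (m + 2 * 3 - 2)! = (m + 4) * ((m + 3) * ((m + 2) * ((m + 1) * m !))) := by
      rw [show m + 2 * 3 - 2 = (((m + 1) + 1) + 1) + 1 from by omega, Nat.factorial_succ,
        Nat.factorial_succ, Nat.factorial_succ, Nat.factorial_succ]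
    rw [e] at h
    have h' : m ! * 48 = m ! * ((m + 4) * (m + 3) * (m + 2) * (m + 1) * 2) := by
      have : (3 : ℕ) ! = 6 := rfl
      rw [this] at h
      nlinarith
    have h'' := Nat.eq_of_mul_eq_mul_left hmpos h'
    rcases Nat.eq_zero_or_pos m with rfl | hm0
    · omega
    · have : 5 * 4 * 3 * 2 ≤ (m + 4) * (m + 3) * (m + 2) * (m + 1) :=
        Nat.mul_le_mul (Nat.mul_le_mul (Nat.mul_le_mul (by omega) (by omega)) (by omega)) (by omega)
      omega
  · obtain ⟨j, rfl⟩ : ∃ j, k = j + 4 := ⟨k - 4, by omega⟩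
    have h1 := pow_fact_lt j
    have h2 : m ! * (2 * j + 6)! ≤ (m + 2 * (j + 4) - 2)! := by
      rw [show m + 2 * (j + 4) - 2 = m + (2 * j + 6) from by omega]
      exact Nat.le_of_dvd (Nat.factorial_pos _) (Nat.factorial_mul_factorial_dvd_factorial_add _ _)
    have h3 : m ! * 2 ^ (j + 4) * (j + 4)! = m ! * (2 ^ (j + 3) * (j + 4)!) * 2 := by
      rw [pow_succ]; ring
    rw [h3] at h
    have h4 := Nat.eq_of_mul_eq_mul_right (by norm_num : 0 < 2) h
    have h5 : m ! * (2 ^ (j + 3) * (j + 4)!) < m ! * (2 * j + 6)! :=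
      Nat.mul_lt_mul_of_pos_left h1 hmpos
    omega



open Nat in
theorem card_cent {α : Type*} [Fintype α] [DecidableEq α] (σ : Equiv.Perm α) (k : ℕ)
    (hσ : σ.cycleType = Multiset.replicate (k + 1) 2) :
    Nat.card (Subgroup.centralizer {σ}) =
      (Fintype.card α - 2 * (k + 1))! * 2 ^ (k + 1) * (k + 1)! := by
  rw [Equiv.Perm.nat_card_centralizer, hσ, Multiset.sum_replicate, Multiset.prod_replicate,
    Multiset.toFinset_replicate]
  simp [mul_comm]

theorem card_cent_map {α β : Type*} [Fintype α] [DecidableEq α] [Fintype β] [DecidableEq β]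
    (ψ : Equiv.Perm α ≃* Equiv.Perm β) (g : Equiv.Perm α) :
    Nat.card (Subgroup.centralizer {ψ g}) = Nat.card (Subgroup.centralizer {g}) := by
  have e : (Subgroup.centralizer {g}).map ψ.toMonoidHom = Subgroup.centralizer {ψ g} := by
    ext y
    simp only [Subgroup.mem_map, Subgroup.mem_centralizer_iff, Set.mem_singleton_iff, forall_eq,
      MulEquiv.coe_toMonoidHom]
    constructor
    · rintro ⟨x, hx, rfl⟩
      rw [← map_mul, ← map_mul, hx]
    · intro hy
      refine ⟨ψ.symm y, ?_, by simp⟩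
      apply ψ.injective
      simp [hy]
  rw [← e]
  exact (Nat.card_congr (ψ.subgroupMap (Subgroup.centralizer {g})).toEquiv).symm

theorem swap_map {α β : Type*} [Fintype α] [DecidableEq α] [Fintype β] [DecidableEq β]
    (ψ : Equiv.Perm α ≃* Equiv.Perm β) (hc : Fintype.card α = Fintype.card β)
    (h6 : Fintype.card α ≠ 6) (g : Equiv.Perm α) (hg : g.IsSwap) : (ψ g).IsSwap := by
  have ho : orderOf (ψ g) = 2 := by rw [MulEquiv.orderOf_eq, Equiv.Perm.IsSwap.orderOf hg]
  obtain ⟨k, hk⟩ := Equiv.Perm.cycleType_prime_order (σ := ψ g) (by rw [ho]; exact Nat.prime_two)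
  rw [ho] at hk
  have h1 := card_cent (ψ g) k hk
  have h2 := card_cent g 0 (by rw [Equiv.Perm.isSwap_iff_cycleType.mp hg]; rfl)
  rw [card_cent_map ψ g, h2, ← hc] at h1
  have hle : 2 * (k + 1) ≤ Fintype.card α := by
    have := Equiv.Perm.sum_cycleType_le (ψ g)
    rw [hk, Multiset.sum_replicate, smul_eq_mul, ← hc] at this
    omega
  have hk1 : k + 1 = 1 := by
    apply arith (Fintype.card α) (k + 1) h6 (by omega) hle
    rw [← h1]
    simp
  rw [← Equiv.Perm.card_support_eq_two, ← Equiv.Perm.sum_cycleType, hk, hk1]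
  rfl



theorem swap_of_moves {α : Type*} [DecidableEq α] (s : Equiv.Perm α) (hs : s.IsSwap) (x z : α)
    (hxz : x ≠ z) (hx : s x ≠ x) (hz : s z ≠ z) : s = Equiv.swap x z := by
  obtain ⟨c, d, hcd, rfl⟩ := hs
  have h1 : x = c ∨ x = d := by
    by_contra hcon
    push Not at hcon
    exact hx (Equiv.swap_apply_of_ne_of_ne hcon.1 hcon.2)
  have h2 : z = c ∨ z = d := by
    by_contra hcon
    push Not at hcon
    exact hz (Equiv.swap_apply_of_ne_of_ne hcon.1 hcon.2)
  rcases h1 with rfl | rfl <;> rcases h2 with rfl | rfl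
  · exact absurd rfl hxz
  · rfl
  · exact Equiv.swap_comm _ _
  · exact absurd rfl hxz

theorem swap_fix_comm {α : Type*} [DecidableEq α] (s : Equiv.Perm α) (x u : α)
    (hx : s x = x) (hu : s u = u) : s * Equiv.swap x u = Equiv.swap x u * s := by
  have h := Equiv.swap_apply_apply s x u
  rw [hx, hu] at h
  exact mul_inv_eq_iff_eq_mul.mp h.symm

theorem moves_of_not_comm {α : Type*} [DecidableEq α] (s : Equiv.Perm α) (x u : α)
    (hx : s x = x) (hc : s * Equiv.swap x u ≠ Equiv.swap x u * s) : s u ≠ u :=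
  fun hu => hc (swap_fix_comm s x u hx hu)

theorem no_fourth {α : Type*} [DecidableEq α] (s : Equiv.Perm α) (hs : s.IsSwap) (x u v : α)
    (hxu : x ≠ u) (hxv : x ≠ v) (huv : u ≠ v)
    (h1 : s * Equiv.swap x u ≠ Equiv.swap x u * s)
    (h2 : s * Equiv.swap x v ≠ Equiv.swap x v * s)
    (h3 : s * Equiv.swap u v ≠ Equiv.swap u v * s) : False := by
  by_cases hx : s x = x
  · have hu := moves_of_not_comm s x u hx h1
    have hv := moves_of_not_comm s x v hx h2
    exact h3 (by rw [swap_of_moves s hs u v huv hu hv])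
  · by_cases hu : s u = u
    · have hv := moves_of_not_comm s u v hu h3
      exact h2 (by rw [swap_of_moves s hs x v hxv hx hv])
    · exact h1 (by rw [swap_of_moves s hs x u hxu hx hu])

theorem star {Ω X : Type*} [DecidableEq Ω] [Fintype X] [DecidableEq X] (pt : X)
    (hX : 5 ≤ Fintype.card X) (t : X → Equiv.Perm Ω)
    (ht : ∀ y, y ≠ pt → (t y).IsSwap)
    (hnc : ∀ y y', y ≠ pt → y' ≠ pt → y ≠ y' → t y * t y' ≠ t y' * t y) :
    ∃ x : Ω, ∀ y, y ≠ pt → t y x ≠ x := by
  have pick : ∀ s : Finset X, s.card ≤ 4 → ∃ z, z ∉ s := by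
    intro s hs
    by_contra hcon
    push Not at hcon
    have : s = Finset.univ := Finset.eq_univ_iff_forall.mpr hcon
    rw [this, Finset.card_univ] at hs
    omega
  obtain ⟨y1, hy1⟩ := pick {pt} (by simp)
  obtain ⟨y2, hy2⟩ := pick {pt, y1} (le_trans (Finset.card_insert_le _ _) (by simp))
  simp only [Finset.mem_singleton, Finset.mem_insert, not_or] at hy1 hy2
  obtain ⟨a, b, hab, h1⟩ := ht y1 hy1
  have hnc12 := hnc y2 y1 hy2.1 hy1 hy2.2
  rw [h1] at hnc12
  have key : ∃ x u, x ≠ u ∧ t y1 = Equiv.swap x u ∧ t y2 x ≠ x := by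
    by_cases ha : t y2 a = a
    · exact ⟨b, a, hab.symm, by rw [h1, Equiv.swap_comm], moves_of_not_comm _ a b ha hnc12⟩
    · exact ⟨a, b, hab, h1, ha⟩
  obtain ⟨x, u, hxu, h1', h2x⟩ := key
  obtain ⟨v, hxv, h2'⟩ : ∃ v, x ≠ v ∧ t y2 = Equiv.swap x v := by
    obtain ⟨c, d, hcd, h2⟩ := ht y2 hy2.1
    have hx : x = c ∨ x = d := by
      by_contra hcon
      push Not at hcon
      rw [h2] at h2x
      exact h2x (Equiv.swap_apply_of_ne_of_ne hcon.1 hcon.2)
    rcases hx with rfl | rfl
    · exact ⟨d, hcd, h2⟩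
    · exact ⟨c, hcd.symm, by rw [h2, Equiv.swap_comm]⟩
  have huv : u ≠ v := by
    rintro rfl
    exact hnc y1 y2 hy1 hy2.1 (Ne.symm hy2.2) (by rw [h1', h2'])
  refine ⟨x, fun y hy hyx => ?_⟩
  have hyy1 : y ≠ y1 := by
    rintro rfl
    rw [h1', Equiv.swap_apply_left] at hyx
    exact hxu hyx.symm
  have hyy2 : y ≠ y2 := by
    rintro rfl
    exact h2x hyx
  have c1 := hnc y y1 hy hy1 hyy1
  have c2 := hnc y y2 hy hy2.1 hyy2
  rw [h1'] at c1
  rw [h2'] at c2
  have hu := moves_of_not_comm _ x u hyx c1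
  have hv := moves_of_not_comm _ x v hyx c2
  have hy' := swap_of_moves _ (ht y hy) u v huv hu hv
  obtain ⟨y4, hy4⟩ := pick {pt, y1, y2, y}
    (le_trans (Finset.card_insert_le _ _) (Nat.succ_le_succ
      (le_trans (Finset.card_insert_le _ _) (Nat.succ_le_succ
        (le_trans (Finset.card_insert_le _ _) (by simp))))))
  simp only [Finset.mem_singleton, Finset.mem_insert, not_or] at hy4
  have d1 := hnc y4 y1 hy4.1 hy1 hy4.2.1
  have d2 := hnc y4 y2 hy4.1 hy2.1 hy4.2.2.1
  have d3 := hnc y4 y hy4.1 hy hy4.2.2.2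
  rw [h1'] at d1
  rw [h2'] at d2
  rw [hy'] at d3
  exact no_fourth _ (ht y4 hy4.1) x u v hxu hxv huv d1 d2 d3

theorem main5 {Ω : Type*} [Fintype Ω] [DecidableEq Ω] (h6 : Fintype.card Ω ≠ 6)
    (h5 : 5 ≤ Fintype.card Ω)
    (H : Subgroup (Equiv.Perm Ω)) (hH : H.index = Fintype.card Ω) :
    ∃ x : Ω, H ≤ MulAction.stabilizer (Equiv.Perm Ω) x := by
  classical
  let _ : Fintype (Equiv.Perm Ω ⧸ H) := Fintype.ofFinite _
  have hX : Fintype.card (Equiv.Perm Ω ⧸ H) = Fintype.card Ω := by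
    rw [← hH, Subgroup.index, Nat.card_eq_fintype_card]
  have hntΩ : Nontrivial Ω := Fintype.one_lt_card_iff_nontrivial.mp (by omega)
  set φ : Equiv.Perm Ω →* Equiv.Perm (Equiv.Perm Ω ⧸ H) :=
    MulAction.toPermHom (Equiv.Perm Ω) _ with hφ
  have hinj : Function.Injective φ := by
    rw [← MonoidHom.ker_eq_bot_iff]
    by_contra hne
    have hker : φ.ker = H.normalCore := (Subgroup.normalCore_eq_ker H).symm
    have hnt : Nontrivial φ.ker := (Subgroup.nontrivial_iff_ne_bot _).mpr hne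
    have hA := Equiv.Perm.alternatingGroup_le_of_normal
      (by rw [Nat.card_eq_fintype_card]; exact h5) (N := φ.ker) hnt
    have hle : alternatingGroup Ω ≤ H := hA.trans (hker ▸ Subgroup.normalCore_le H)
    have hd := Subgroup.index_dvd_of_le hle
    rw [alternatingGroup.index_eq_two, hH] at hd
    have := Nat.le_of_dvd (by norm_num) hd
    omega
  have hbij : Function.Bijective φ := by
    rw [Fintype.bijective_iff_injective_and_card]
    refine ⟨hinj, ?_⟩
    rw [Fintype.card_perm, Fintype.card_perm, hX]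
  let ψ : Equiv.Perm Ω ≃* Equiv.Perm (Equiv.Perm Ω ⧸ H) := MulEquiv.ofBijective φ hbij
  set pt : Equiv.Perm Ω ⧸ H := ((1 : Equiv.Perm Ω) : Equiv.Perm Ω ⧸ H) with hpt
  have hHpt : ∀ g, g ∈ H → ψ g pt = pt := by
    intro g hg
    have : g ∈ MulAction.stabilizer (Equiv.Perm Ω) pt := by
      rw [MulAction.stabilizer_quotient]; exact hg
    exact this
  let t : (Equiv.Perm Ω ⧸ H) → Equiv.Perm Ω := fun y => ψ.symm (Equiv.swap pt y)
  have ht : ∀ y, y ≠ pt → (t y).IsSwap := fun y hy =>
    swap_map ψ.symm hX (by rw [hX]; exact h6) _ ⟨pt, y, hy.symm, rfl⟩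
  have hnc : ∀ y y', y ≠ pt → y' ≠ pt → y ≠ y' → t y * t y' ≠ t y' * t y := by
    intro y y' hy hy' hyy' heq
    have h2 : Equiv.swap pt y * Equiv.swap pt y' = Equiv.swap pt y' * Equiv.swap pt y := by
      apply ψ.symm.injective
      rw [map_mul, map_mul]
      exact heq
    have h3 := congrArg (fun f => f y) h2
    simp only [Equiv.Perm.mul_apply] at h3
    rw [Equiv.swap_apply_of_ne_of_ne hy hyy', Equiv.swap_apply_right,
      Equiv.swap_apply_left] at h3
    exact hy' h3.symm
  obtain ⟨x, hx⟩ := star pt (by rw [hX]; exact h5) t ht hnc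
  refine ⟨x, fun g hg => ?_⟩
  rw [MulAction.mem_stabilizer_iff]
  by_contra hgx
  have hgx' : g⁻¹ x ≠ x := by
    intro h
    apply hgx
    have := congrArg g h
    simpa using this.symm
  have hconj : ∀ y, y ≠ pt → g * t y * g⁻¹ = t (ψ g y) ∧ ψ g y ≠ pt := by
    intro y hy
    have hgy : ψ g y ≠ pt := by
      intro h
      rw [← hHpt g hg] at h
      exact hy ((ψ g).injective h)
    refine ⟨?_, hgy⟩
    apply ψ.injective
    simp only [t, map_mul, map_inv, MulEquiv.apply_symm_apply]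
    rw [← Equiv.swap_apply_apply, hHpt g hg]
  have hmoves : ∀ y, y ≠ pt → t y = Equiv.swap x (g⁻¹ x) := by
    intro y hy
    obtain ⟨hc, hne⟩ := hconj y hy
    have h1 := hx y hy
    have h2 := hx _ hne
    rw [← hc] at h2
    apply swap_of_moves _ (ht y hy) x (g⁻¹ x) (Ne.symm hgx') h1
    intro h
    apply h2
    simp only [Equiv.Perm.mul_apply]
    rw [h]
    simp
  have pick : ∀ s : Finset (Equiv.Perm Ω ⧸ H), s.card ≤ 4 → ∃ z, z ∉ s := by
    intro s hs
    by_contra hcon
    push Not at hcon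
    have : s = Finset.univ := Finset.eq_univ_iff_forall.mpr hcon
    rw [this, Finset.card_univ] at hs
    omega
  obtain ⟨y1, hy1⟩ := pick {pt} (by simp)
  obtain ⟨y2, hy2⟩ := pick {pt, y1} (le_trans (Finset.card_insert_le _ _) (by simp))
  simp only [Finset.mem_singleton, Finset.mem_insert, not_or] at hy1 hy2
  exact hnc y1 y2 hy1 hy2.1 (Ne.symm hy2.2) (by rw [hmoves y1 hy1, hmoves y2 hy2.1])

theorem fix_of_normal {Ω : Type*} [Fintype Ω] [DecidableEq Ω] (H : Subgroup (Equiv.Perm Ω))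
    (c : Equiv.Perm Ω) (hc : c.support.card + 1 = Fintype.card Ω)
    (hn : ∀ h ∈ H, h * c * h⁻¹ ∈ Subgroup.zpowers c) :
    ∃ x : Ω, H ≤ MulAction.stabilizer (Equiv.Perm Ω) x := by
  have hcompl : (c.supportᶜ).card = 1 := by
    rw [Finset.card_compl]; omega
  obtain ⟨x, hx⟩ := Finset.card_eq_one.mp hcompl
  refine ⟨x, fun h hh => ?_⟩
  rw [MulAction.mem_stabilizer_iff]
  obtain ⟨k, hk⟩ := Subgroup.mem_zpowers_iff.mp (hn h hh)
  have hsub : c.support.map h.toEmbedding ⊆ c.support := by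
    rw [← Equiv.Perm.support_conj, ← hk]
    exact Equiv.Perm.support_zpow_le c k
  have heq : c.support.map h.toEmbedding = c.support :=
    Finset.eq_of_subset_of_card_le hsub (by rw [Finset.card_map])
  have hxs : x ∉ c.support := by
    have : x ∈ c.supportᶜ := by rw [hx]; exact Finset.mem_singleton_self x
    exact Finset.mem_compl.mp this
  have hhx : h x ∉ c.support := by
    rw [← heq]
    intro hmem
    rw [Finset.mem_map] at hmem
    obtain ⟨z, hz, hzx⟩ := hmem
    have : z = x := h.injective hzx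
    exact hxs (this ▸ hz)
  have : h x ∈ c.supportᶜ := Finset.mem_compl.mpr hhx
  rw [hx, Finset.mem_singleton] at this
  exact this

theorem prime_elt {Ω : Type*} [Fintype Ω] [DecidableEq Ω] (H : Subgroup (Equiv.Perm Ω))
    (p : ℕ) (hp : p.Prime) (hpn : p + 1 = Fintype.card Ω) (h2p : Fintype.card Ω < 2 * p)
    (hdvd : p ∣ Nat.card H) :
    ∃ c ∈ H, orderOf c = p ∧ c.support.card + 1 = Fintype.card Ω := by
  have hfact : Fact p.Prime := ⟨hp⟩
  obtain ⟨c, hc⟩ := exists_prime_orderOf_dvd_card' (G := H) p hdvd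
  refine ⟨c, c.2, by rw [Subgroup.orderOf_coe]; exact hc, ?_⟩
  have ho : orderOf (c : Equiv.Perm Ω) = p := by rw [Subgroup.orderOf_coe]; exact hc
  obtain ⟨k, hk⟩ := Equiv.Perm.cycleType_prime_order (σ := (c : Equiv.Perm Ω))
    (by rw [ho]; exact hp)
  rw [ho] at hk
  have hle := Equiv.Perm.sum_cycleType_le (c : Equiv.Perm Ω)
  rw [hk, Multiset.sum_replicate, smul_eq_mul] at hle
  have hk0 : k = 0 := by
    by_contra hk0
    have : 2 * p ≤ (k + 1) * p := Nat.mul_le_mul_right p (by omega)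
    omega
  rw [← Equiv.Perm.sum_cycleType, hk, hk0]
  simp [hpn]


theorem result {Ω : Type*} [Fintype Ω] [DecidableEq Ω] (h6 : Fintype.card Ω ≠ 6)
    (H : Subgroup (Equiv.Perm Ω)) (hH : H.index = Fintype.card Ω) :
    ∃ x : Ω, H = MulAction.stabilizer (Equiv.Perm Ω) x := by
  classical
  have hstab : ∀ x : Ω, (MulAction.stabilizer (Equiv.Perm Ω) x).index = Fintype.card Ω := by
    intro x
    rw [MulAction.index_stabilizer_of_transitive (Equiv.Perm Ω) x, Nat.card_eq_fintype_card]
  have hfin : ∀ x : Ω, H ≤ MulAction.stabilizer (Equiv.Perm Ω) x →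
      H = MulAction.stabilizer (Equiv.Perm Ω) x := by
    intro x hle
    have h1 := Subgroup.relIndex_mul_index hle
    rw [hstab x, hH] at h1
    have hpos : 0 < Fintype.card Ω := Fintype.card_pos_iff.mpr ⟨x⟩
    have h2 : H.relIndex (MulAction.stabilizer (Equiv.Perm Ω) x) = 1 :=
      Nat.eq_of_mul_eq_mul_right hpos (by rw [h1, one_mul])
    exact le_antisymm hle (Subgroup.relIndex_eq_one.mp h2)
  suffices hs : ∃ x : Ω, H ≤ MulAction.stabilizer (Equiv.Perm Ω) x by
    obtain ⟨x, hx⟩ := hs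
    exact ⟨x, hfin x hx⟩
  have hcard : Nat.card H * Fintype.card Ω = (Fintype.card Ω).factorial := by
    have hci := Subgroup.card_mul_index H
    rw [hH, Nat.card_eq_fintype_card (α := Equiv.Perm Ω), Fintype.card_perm] at hci
    exact hci
  rcases lt_or_ge (Fintype.card Ω) 5 with hlt | h5
  · have hn0 : Fintype.card Ω ≠ 0 := by
      rw [← hH]
      exact Subgroup.index_ne_zero_of_finite
    obtain ⟨x0⟩ : Nonempty Ω := Fintype.card_pos_iff.mp (by omega)
    rcases (show Fintype.card Ω = 1 ∨ Fintype.card Ω = 2 ∨ Fintype.card Ω = 3 ∨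
      Fintype.card Ω = 4 by omega) with h | h | h | h
    · have hsub : Subsingleton Ω := Fintype.card_le_one_iff_subsingleton.mp (by omega)
      exact ⟨x0, fun g _ => MulAction.mem_stabilizer_iff.mpr (Subsingleton.elim _ _)⟩
    · rw [h] at hcard
      have h1 : Nat.card H = 1 := by
        have : (2 : ℕ).factorial = 2 := rfl
        omega
      rw [Subgroup.card_eq_one] at h1
      exact ⟨x0, h1 ▸ bot_le⟩
    · rw [h] at hcard
      have h1 : Nat.card H = 2 := by
        have : (3 : ℕ).factorial = 6 := rfl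
        omega
      obtain ⟨c, hcH, hco, hcs⟩ := prime_elt H 2 Nat.prime_two (by omega) (by omega)
        (by rw [h1])
      have hz : Subgroup.zpowers c = H := by
        apply Subgroup.eq_of_le_of_card_ge (Subgroup.zpowers_le.mpr hcH)
        rw [Nat.card_zpowers, hco, h1]
      apply fix_of_normal H c hcs
      intro g hg
      rw [hz]
      exact H.mul_mem (H.mul_mem hg hcH) (H.inv_mem hg)
    · rw [h] at hcard
      have h1 : Nat.card H = 6 := by
        have : (4 : ℕ).factorial = 24 := rfl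
        omega
      obtain ⟨c, hcH, hco, hcs⟩ := prime_elt H 3 Nat.prime_three (by omega) (by omega)
        (by rw [h1]; decide)
      have hle : Subgroup.zpowers c ≤ H := Subgroup.zpowers_le.mpr hcH
      have hri : (Subgroup.zpowers c).relIndex H = 2 := by
        have h3 := Subgroup.relIndex_mul_index hle
        have h4 := Subgroup.card_mul_index (Subgroup.zpowers c)
        have h5 := Subgroup.card_mul_index H
        rw [Nat.card_zpowers, hco] at h4
        rw [h1] at h5
        rw [← h5, ← h3] at h4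
        have hpos : 0 < H.index := by rw [hH]; omega
        have : 3 * (Subgroup.zpowers c).relIndex H * H.index = 6 * H.index := by
          rw [← h4]; ring
        have := Nat.eq_of_mul_eq_mul_right hpos this
        omega
      have hnorm : ((Subgroup.zpowers c).subgroupOf H).Normal :=
        Subgroup.normal_of_index_eq_two hri
      apply fix_of_normal H c hcs
      intro g hg
      have := hnorm.conj_mem ⟨c, hcH⟩ (by
        rw [Subgroup.mem_subgroupOf]
        exact Subgroup.mem_zpowers c) ⟨g, hg⟩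
      rw [Subgroup.mem_subgroupOf] at this
      exact this
  · exact main5 h6 h5 H hH

end Cfsg.Agent.S5911
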