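import Mathlib
import Cfsg.Statements.S5912
import Cfsg.Agent.S5911

set_option autoImplicit false
open Cfsg

namespace Cfsg.Agent.S5912

universe u

theorem fix_of_swaps {Ω X : Type*} [Fintype Ω] [DecidableEq Ω] [Fintype X] [DecidableEq X]
    (hX : 5 ≤ Fintype.card X) (ψ : Equiv.Perm Ω ≃* Equiv.Perm X) (pt : X)
    (hsw : ∀ y, y ≠ pt → (ψ.symm (Equiv.swap pt y)).IsSwap) :
    ∃ x : Ω, ∀ g, ψ g pt = pt → g x = x := by
  classical
  let t : X → Equiv.Perm Ω := fun y => ψ.symm (Equiv.swap pt y)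
  have hnc : ∀ y y', y ≠ pt → y' ≠ pt → y ≠ y' → t y * t y' ≠ t y' * t y := by
    intro y y' hy hy' hyy' heq
    have h2 : Equiv.swap pt y * Equiv.swap pt y' = Equiv.swap pt y' * Equiv.swap pt y := by
      apply ψ.symm.injective
      rw [map_mul, map_mul]
      exact heq
    have h3 := congrArg (fun f => f y) h2
    simp only [Equiv.Perm.mul_apply] at h3
    rw [Equiv.swap_apply_of_ne_of_ne hy hyy', Equiv.swap_apply_right,
      Equiv.swap_apply_left] at h3
    exact hy' h3.symm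
  obtain ⟨x, hx⟩ := Cfsg.Agent.S5911.star pt hX t hsw hnc
  refine ⟨x, fun g hg => ?_⟩
  by_contra hgx
  have hgx' : g⁻¹ x ≠ x := by
    intro h
    apply hgx
    have := congrArg g h
    simpa using this.symm
  have hconj : ∀ y, y ≠ pt → g * t y * g⁻¹ = t (ψ g y) ∧ ψ g y ≠ pt := by
    intro y hy
    have hgy : ψ g y ≠ pt := by
      intro h
      rw [← hg] at h
      exact hy ((ψ g).injective h)
    refine ⟨?_, hgy⟩
    apply ψ.injective
    simp only [t, map_mul, map_inv, MulEquiv.apply_symm_apply]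
    rw [← Equiv.swap_apply_apply, hg]
  have hmoves : ∀ y, y ≠ pt → t y = Equiv.swap x (g⁻¹ x) := by
    intro y hy
    obtain ⟨hc, hne⟩ := hconj y hy
    have h1 := hx y hy
    have h2 := hx _ hne
    rw [← hc] at h2
    apply Cfsg.Agent.S5911.swap_of_moves _ (hsw y hy) x (g⁻¹ x) (Ne.symm hgx') h1
    intro h
    apply h2
    simp only [Equiv.Perm.mul_apply]
    rw [h]
    simp
  have pick : ∀ s : Finset X, s.card ≤ 4 → ∃ z, z ∉ s := by
    intro s hs
    by_contra hcon
    push Not at hcon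
    have : s = Finset.univ := Finset.eq_univ_iff_forall.mpr hcon
    rw [this, Finset.card_univ] at hs
    omega
  obtain ⟨y1, hy1⟩ := pick {pt} (by simp)
  obtain ⟨y2, hy2⟩ := pick {pt, y1} (le_trans (Finset.card_insert_le _ _) (by simp))
  simp only [Finset.mem_singleton, Finset.mem_insert, not_or] at hy1 hy2
  exact hnc y1 y2 hy1 hy2.1 (Ne.symm hy2.2) (by rw [hmoves y1 hy1, hmoves y2 hy2.1])

theorem coset_iso {Ω : Type u} [Fintype Ω] [DecidableEq Ω] (h5 : 5 ≤ Fintype.card Ω)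
    (H : Subgroup (Equiv.Perm Ω)) (hH : H.index = Fintype.card Ω) :
    ∃ (X : Type u) (_ : Fintype X) (_ : DecidableEq X) (ψ : Equiv.Perm Ω ≃* Equiv.Perm X)
      (pt : X), Fintype.card X = Fintype.card Ω ∧ ∀ g, g ∈ H ↔ ψ g pt = pt := by
  classical
  let hfin : Fintype (Equiv.Perm Ω ⧸ H) := Fintype.ofFinite _
  have hX : Fintype.card (Equiv.Perm Ω ⧸ H) = Fintype.card Ω := by
    rw [← hH, Subgroup.index, Nat.card_eq_fintype_card]
  have hntΩ : Nontrivial Ω := Fintype.one_lt_card_iff_nontrivial.mp (by omega)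
  set φ : Equiv.Perm Ω →* Equiv.Perm (Equiv.Perm Ω ⧸ H) :=
    MulAction.toPermHom (Equiv.Perm Ω) _ with hφ
  have hinj : Function.Injective φ := by
    rw [← MonoidHom.ker_eq_bot_iff]
    by_contra hne
    have hker : φ.ker = H.normalCore := (Subgroup.normalCore_eq_ker H).symm
    have hnt : Nontrivial φ.ker := (Subgroup.nontrivial_iff_ne_bot _).mpr hne
    have hA := Equiv.Perm.alternatingGroup_le_of_normal
      (by rw [Nat.card_eq_fintype_card]; exact h5) (N := φ.ker) hnt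
    have hle : alternatingGroup Ω ≤ H := hA.trans (hker ▸ Subgroup.normalCore_le H)
    have hd := Subgroup.index_dvd_of_le hle
    rw [alternatingGroup.index_eq_two, hH] at hd
    have := Nat.le_of_dvd (by norm_num) hd
    omega
  have hbij : Function.Bijective φ := by
    rw [Fintype.bijective_iff_injective_and_card]
    refine ⟨hinj, ?_⟩
    rw [Fintype.card_perm, Fintype.card_perm, hX]
  refine ⟨Equiv.Perm Ω ⧸ H, hfin, inferInstance, MulEquiv.ofBijective φ hbij,
    ((1 : Equiv.Perm Ω) : Equiv.Perm Ω ⧸ H), hX, fun g => ?_⟩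
  have h1 : g ∈ MulAction.stabilizer (Equiv.Perm Ω) ((1 : Equiv.Perm Ω) : Equiv.Perm Ω ⧸ H) ↔
      g ∈ H := by rw [MulAction.stabilizer_quotient]
  rw [← h1]
  rfl

theorem swap_or_triple {α β : Type*} [Fintype α] [DecidableEq α] [Fintype β] [DecidableEq β]
    (ψ : Equiv.Perm α ≃* Equiv.Perm β) (hα : Fintype.card α = 6) (hβ : Fintype.card β = 6)
    (g : Equiv.Perm α) (hg : g.IsSwap) : (ψ g).IsSwap ∨ (ψ g).cycleType = {2, 2, 2} := by
  have ho : orderOf (ψ g) = 2 := by rw [MulEquiv.orderOf_eq, Equiv.Perm.IsSwap.orderOf hg]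
  obtain ⟨k, hk⟩ := Equiv.Perm.cycleType_prime_order (σ := ψ g) (by rw [ho]; exact Nat.prime_two)
  rw [ho] at hk
  have h1 := Cfsg.Agent.S5911.card_cent (ψ g) k hk
  have h2 := Cfsg.Agent.S5911.card_cent g 0 (by rw [Equiv.Perm.isSwap_iff_cycleType.mp hg]; rfl)
  rw [Cfsg.Agent.S5911.card_cent_map ψ g, h2, hα, hβ] at h1
  have hle : 2 * (k + 1) ≤ 6 := by
    have := Equiv.Perm.sum_cycleType_le (ψ g)
    rw [hk, Multiset.sum_replicate, smul_eq_mul, hβ] at this
    omega
  have hk3 : k = 0 ∨ k = 1 ∨ k = 2 := by omega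
  rcases hk3 with rfl | rfl | rfl
  · left
    rw [Equiv.Perm.isSwap_iff_cycleType, hk]
    rfl
  · exfalso
    norm_num [Nat.factorial] at h1
  · right
    rw [hk]
    rfl

theorem eq_of_le_of_index {G : Type*} [Group G] [Finite G] (H K : Subgroup G) (hle : H ≤ K)
    (hi : H.index = K.index) : H = K := by
  have h1 := Subgroup.relIndex_mul_index hle
  rw [hi] at h1
  have hpos : 0 < K.index := Nat.pos_of_ne_zero Subgroup.index_ne_zero_of_finite
  have h2 : H.relIndex K = 1 := Nat.eq_of_mul_eq_mul_right hpos (by rw [h1, one_mul])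
  exact le_antisymm hle (Subgroup.relIndex_eq_one.mp h2)

theorem index_stab {Ω : Type*} [Fintype Ω] [DecidableEq Ω] (x : Ω) :
    (MulAction.stabilizer (Equiv.Perm Ω) x).index = Fintype.card Ω := by
  rw [MulAction.index_stabilizer_of_transitive (Equiv.Perm Ω) x, Nat.card_eq_fintype_card]

theorem conj_swap {α : Type*} [Fintype α] [DecidableEq α] (s c : Equiv.Perm α) (hs : s.IsSwap) :
    (c * s * c⁻¹).IsSwap := by
  rw [Equiv.Perm.isSwap_iff_cycleType, Equiv.Perm.cycleType_conj]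
  exact Equiv.Perm.isSwap_iff_cycleType.mp hs

theorem stab_of_swap {Ω X : Type*} [Fintype Ω] [DecidableEq Ω] [Fintype X] [DecidableEq X]
    (hΩ : Fintype.card Ω = 6) (hX : Fintype.card X = 6)
    (H : Subgroup (Equiv.Perm Ω)) (hH : H.index = 6)
    (ψ : Equiv.Perm Ω ≃* Equiv.Perm X) (pt : X) (hψ : ∀ g, g ∈ H ↔ ψ g pt = pt)
    (y : X) (hy : y ≠ pt) (hsw : (ψ.symm (Equiv.swap pt y)).IsSwap) :
    ∃ x : Ω, H = MulAction.stabilizer (Equiv.Perm Ω) x := by
  have hall : ∀ y', y' ≠ pt → (ψ.symm (Equiv.swap pt y')).IsSwap := by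
    intro y' hy'
    have hc : IsConj (Equiv.swap pt y) (Equiv.swap pt y') := by
      rw [Equiv.Perm.isConj_iff_cycleType_eq,
        Equiv.Perm.isSwap_iff_cycleType.mp ⟨pt, y, hy.symm, rfl⟩,
        Equiv.Perm.isSwap_iff_cycleType.mp ⟨pt, y', hy'.symm, rfl⟩]
    obtain ⟨c, hc⟩ := isConj_iff.mp hc
    rw [← hc, map_mul, map_mul, map_inv]
    exact conj_swap _ _ hsw
  obtain ⟨x, hx⟩ := fix_of_swaps (by omega) ψ pt hall
  refine ⟨x, eq_of_le_of_index _ _ (fun g hg => ?_) (by rw [hH, index_stab, hΩ])⟩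
  exact MulAction.mem_stabilizer_iff.mpr (hx g ((hψ g).mp hg))

theorem conj_of_exotic {Ω : Type u} [Fintype Ω] [DecidableEq Ω] (hΩ : Fintype.card Ω = 6)
    (H E : Subgroup (Equiv.Perm Ω)) (hH : H.index = 6) (hE : E.index = 6)
    (hHex : ∀ x : Ω, H ≠ MulAction.stabilizer (Equiv.Perm Ω) x)
    (hEex : ∀ x : Ω, E ≠ MulAction.stabilizer (Equiv.Perm Ω) x) :
    ∃ c : Equiv.Perm Ω, E.map (MulAut.conj c).toMonoidHom = H := by
  obtain ⟨XH, hfH, hdH, ψH, ptH, hXH, hψH⟩ := coset_iso (by omega) H (by rw [hH, hΩ])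
  obtain ⟨XE, hfE, hdE, ψE, ptE, hXE, hψE⟩ := coset_iso (by omega) E (by rw [hE, hΩ])
  rw [hΩ] at hXH hXE
  have htypeH : ∀ y, y ≠ ptH → (ψH.symm (Equiv.swap ptH y)).cycleType = {2, 2, 2} := by
    intro y hy
    rcases swap_or_triple ψH.symm hXH hΩ (Equiv.swap ptH y) ⟨ptH, y, hy.symm, rfl⟩ with h | h
    · obtain ⟨x, hx⟩ := stab_of_swap hΩ hXH H hH ψH ptH hψH y hy h
      exact absurd hx (hHex x)
    · exact h
  have htypeE : ∀ y, y ≠ ptE → (ψE.symm (Equiv.swap ptE y)).cycleType = {2, 2, 2} := by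
    intro y hy
    rcases swap_or_triple ψE.symm hXE hΩ (Equiv.swap ptE y) ⟨ptE, y, hy.symm, rfl⟩ with h | h
    · obtain ⟨x, hx⟩ := stab_of_swap hΩ hXE E hE ψE ptE hψE y hy h
      exact absurd hx (hEex x)
    · exact h
  obtain ⟨y0, hy0⟩ : ∃ y0 : XE, y0 ≠ ptE := by
    have : Nontrivial XE := Fintype.one_lt_card_iff_nontrivial.mp (by omega)
    exact exists_ne ptE
  have hsw : ∀ y, y ≠ ptH → ((ψE.symm.trans ψH).symm (Equiv.swap ptH y)).IsSwap := by
    intro y hy
    have hc : IsConj (ψE.symm (Equiv.swap ptE y0)) (ψH.symm (Equiv.swap ptH y)) := by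
      rw [Equiv.Perm.isConj_iff_cycleType_eq, htypeH y hy, htypeE y0 hy0]
    obtain ⟨c, hc⟩ := isConj_iff.mp hc
    show (ψE (ψH.symm (Equiv.swap ptH y))).IsSwap
    rw [← hc, map_mul, map_mul, map_inv, MulEquiv.apply_symm_apply]
    exact conj_swap _ _ ⟨ptE, y0, hy0.symm, rfl⟩
  obtain ⟨x', hx'⟩ := fix_of_swaps (by omega) (ψE.symm.trans ψH) ptH hsw
  have hfix : ∀ g, g ∈ H → ψE g x' = x' := by
    intro g hg
    apply hx'
    show ψH (ψE.symm (ψE g)) ptH = ptH
    rw [MulEquiv.symm_apply_apply]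
    exact (hψH g).mp hg
  refine ⟨ψE.symm (Equiv.swap ptE x'), ?_⟩
  symm
  apply eq_of_le_of_index
  · intro g hg
    rw [Subgroup.mem_map]
    refine ⟨(ψE.symm (Equiv.swap ptE x'))⁻¹ * g * ψE.symm (Equiv.swap ptE x'), ?_, ?_⟩
    · rw [hψE, map_mul, map_mul, map_inv, MulEquiv.apply_symm_apply]
      simp only [Equiv.Perm.mul_apply, Equiv.swap_inv, Equiv.swap_apply_left]
      rw [hfix g hg, Equiv.swap_apply_right]
    · simp [MulAut.conj_apply, mul_assoc]
  · rw [hH]
    have h1 : Nat.card (E.map (MulAut.conj (ψE.symm (Equiv.swap ptE x'))).toMonoidHom) = Nat.card E :=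
      Subgroup.card_map_of_injective (MulAut.conj _).injective
    have h2 := Subgroup.card_mul_index (E.map (MulAut.conj (ψE.symm (Equiv.swap ptE x'))).toMonoidHom)
    have h3 := Subgroup.card_mul_index E
    rw [h1] at h2
    rw [hE] at h3
    have hpos : 0 < Nat.card E := Nat.card_pos
    have h4 : Nat.card E * (E.map (MulAut.conj (ψE.symm (Equiv.swap ptE x'))).toMonoidHom).index =
        Nat.card E * 6 := by rw [h2, h3]
    exact (Nat.eq_of_mul_eq_mul_left hpos h4).symm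

theorem sylow5_card : Nat.card (Sylow 5 (Equiv.Perm (Fin 5))) = 6 := by
  have hfact : Fact (Nat.Prime 5) := ⟨by norm_num⟩
  obtain ⟨P⟩ : Nonempty (Sylow 5 (Equiv.Perm (Fin 5))) := inferInstance
  have hG : Nat.card (Equiv.Perm (Fin 5)) = 120 := by
    rw [Nat.card_eq_fintype_card, Fintype.card_perm, Fintype.card_fin]
    rfl
  obtain ⟨k, hk⟩ := P.2.exists_card_eq
  have hmul := (P : Subgroup (Equiv.Perm (Fin 5))).card_mul_index
  rw [hk, hG] at hmul
  have hnd := P.not_dvd_index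
  have hidx : (P : Subgroup (Equiv.Perm (Fin 5))).index = 24 := by
    rcases Nat.lt_or_ge k 2 with hk2 | hk2
    · have hk01 : k = 0 ∨ k = 1 := by omega
      rcases hk01 with rfl | rfl
      · exfalso
        apply hnd
        have : (P : Subgroup (Equiv.Perm (Fin 5))).index = 120 := by simpa using hmul
        rw [this]
        norm_num
      · omega
    · exfalso
      have h1 : 5 ^ 2 ∣ 5 ^ k := pow_dvd_pow 5 hk2
      have h2 : 5 ^ 2 ∣ 120 := hmul ▸ Dvd.dvd.mul_right h1 _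
      norm_num at h2
  have hdvd : Nat.card (Sylow 5 (Equiv.Perm (Fin 5))) ∣ 24 := hidx ▸ Sylow.card_dvd_index P
  have hmod : Nat.card (Sylow 5 (Equiv.Perm (Fin 5))) ≡ 1 [MOD 5] := card_sylow_modEq_one 5 _
  have hle : Nat.card (Sylow 5 (Equiv.Perm (Fin 5))) ≤ 24 := Nat.le_of_dvd (by norm_num) hdvd
  have h16 : Nat.card (Sylow 5 (Equiv.Perm (Fin 5))) = 1 ∨
      Nat.card (Sylow 5 (Equiv.Perm (Fin 5))) = 6 := by
    have hm : Nat.card (Sylow 5 (Equiv.Perm (Fin 5))) % 5 = 1 := hmod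
    generalize Nat.card (Sylow 5 (Equiv.Perm (Fin 5))) = m at hdvd hle hm
    interval_cases m <;> omega
  rcases h16 with h1 | h6
  · exfalso
    have hsub : Subsingleton (Sylow 5 (Equiv.Perm (Fin 5))) := (Nat.card_eq_one_iff_unique.mp h1).1
    have hnorm : (P : Subgroup (Equiv.Perm (Fin 5))).Normal := Sylow.normal_of_subsingleton P
    have hnt : Nontrivial (P : Subgroup (Equiv.Perm (Fin 5))) := by
      rw [← Finite.one_lt_card_iff_nontrivial, hk]
      have : k = 1 := by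
        have : 5 ^ k * 24 = 120 := hidx ▸ hmul
        rcases Nat.lt_or_ge k 2 with hk2 | hk2
        · have hk01 : k = 0 ∨ k = 1 := by omega
          rcases hk01 with rfl | rfl
          · omega
          · rfl
        · have h1 : 5 ^ 2 ≤ 5 ^ k := Nat.pow_le_pow_right (by norm_num) hk2
          omega
      rw [this]
      norm_num
    have hA := Equiv.Perm.alternatingGroup_le_of_normal (α := Fin 5)
      (by rw [Nat.card_eq_fintype_card, Fintype.card_fin]) (N := (P : Subgroup (Equiv.Perm (Fin 5)))) hnt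
    have hd := Subgroup.index_dvd_of_le hA
    rw [alternatingGroup.index_eq_two, hidx] at hd
    norm_num at hd
  · exact h6

theorem exists_exotic {Ω : Type u} [Fintype Ω] [DecidableEq Ω] (hΩ : Fintype.card Ω = 6) :
    ∃ E : Subgroup (Equiv.Perm Ω), E.index = 6 ∧
      ∀ x : Ω, E ≠ MulAction.stabilizer (Equiv.Perm Ω) x := by
  classical
  have hfact : Fact (Nat.Prime 5) := ⟨by norm_num⟩
  have hfinX : Fintype (Sylow 5 (Equiv.Perm (Fin 5))) := Fintype.ofFinite _
  have hcardX : Fintype.card (Sylow 5 (Equiv.Perm (Fin 5))) = 6 := by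
    rw [← Nat.card_eq_fintype_card]
    exact sylow5_card
  obtain ⟨P⟩ : Nonempty (Sylow 5 (Equiv.Perm (Fin 5))) := inferInstance
  have hφinj : Function.Injective
      (MulAction.toPermHom (Equiv.Perm (Fin 5)) (Sylow 5 (Equiv.Perm (Fin 5)))) := by
    rw [← MonoidHom.ker_eq_bot_iff]
    by_contra hne
    have hnt : Nontrivial (MulAction.toPermHom (Equiv.Perm (Fin 5))
        (Sylow 5 (Equiv.Perm (Fin 5)))).ker := (Subgroup.nontrivial_iff_ne_bot _).mpr hne
    have hA := Equiv.Perm.alternatingGroup_le_of_normal (α := Fin 5)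
      (by rw [Nat.card_eq_fintype_card, Fintype.card_fin])
      (N := (MulAction.toPermHom (Equiv.Perm (Fin 5)) (Sylow 5 (Equiv.Perm (Fin 5)))).ker) hnt
    have hle : alternatingGroup (Fin 5) ≤ MulAction.stabilizer (Equiv.Perm (Fin 5)) P := by
      intro g hg
      have h1 := hA hg
      rw [MonoidHom.mem_ker] at h1
      rw [MulAction.mem_stabilizer_iff]
      have h2 := congrArg (fun f : Equiv.Perm (Sylow 5 (Equiv.Perm (Fin 5))) => f P) h1
      exact h2
    have hd := Subgroup.index_dvd_of_le hle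
    rw [alternatingGroup.index_eq_two,
      MulAction.index_stabilizer_of_transitive (Equiv.Perm (Fin 5)) P, sylow5_card] at hd
    norm_num at hd
  let e : Sylow 5 (Equiv.Perm (Fin 5)) ≃ Ω := Fintype.equivOfCardEq (by rw [hcardX, hΩ])
  let φ' : Equiv.Perm (Fin 5) →* Equiv.Perm Ω :=
    (e.permCongrHom.toMonoidHom).comp
      (MulAction.toPermHom (Equiv.Perm (Fin 5)) (Sylow 5 (Equiv.Perm (Fin 5))))
  have hφ'inj : Function.Injective φ' := e.permCongrHom.injective.comp hφinj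
  have hφ'apply : ∀ (g : Equiv.Perm (Fin 5)) (x : Ω), φ' g x = e (g • e.symm x) := fun g x => rfl
  refine ⟨φ'.range, ?_, ?_⟩
  · have h1 : Nat.card φ'.range = 120 := by
      rw [← Nat.card_congr (MonoidHom.ofInjective hφ'inj).toEquiv, Nat.card_eq_fintype_card,
        Fintype.card_perm, Fintype.card_fin]
      rfl
    have h2 := Subgroup.card_mul_index φ'.range
    rw [h1, Nat.card_eq_fintype_card, Fintype.card_perm, hΩ] at h2
    have h3 : (6 : ℕ).factorial = 720 := rfl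
    omega
  · intro x hx
    have hnt : Nontrivial Ω := Fintype.one_lt_card_iff_nontrivial.mp (by omega)
    obtain ⟨y, hy⟩ := exists_ne x
    obtain ⟨g, hg⟩ := MulAction.exists_smul_eq (Equiv.Perm (Fin 5)) (e.symm x) (e.symm y)
    have hmem : φ' g ∈ MulAction.stabilizer (Equiv.Perm Ω) x := by
      rw [← hx]
      exact ⟨g, rfl⟩
    rw [MulAction.mem_stabilizer_iff] at hmem
    have h1 : φ' g x = y := by rw [hφ'apply, hg, Equiv.apply_symm_apply]
    exact hy (h1.symm.trans hmem)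

theorem result {Ω : Type*} [Fintype Ω] [DecidableEq Ω] (h6 : Fintype.card Ω = 6) :
    ∃ H₁ H₂ : Subgroup (Equiv.Perm Ω), H₁.index = 6 ∧ H₂.index = 6 ∧
      (¬ ∃ g : Equiv.Perm Ω, Subgroup.map (MulAut.conj g).toMonoidHom H₁ = H₂) ∧
      ∀ H : Subgroup (Equiv.Perm Ω), H.index = 6 →
        ∃ g : Equiv.Perm Ω, Subgroup.map (MulAut.conj g).toMonoidHom H₁ = H ∨ Subgroup.map (MulAut.conj g).toMonoidHom H₂ = H := by
  classical
  obtain ⟨E, hE, hEex⟩ := exists_exotic h6
  obtain ⟨x0⟩ : Nonempty Ω := Fintype.card_pos_iff.mp (by omega)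
  refine ⟨MulAction.stabilizer (Equiv.Perm Ω) x0, E, by rw [index_stab, h6], hE, ?_, ?_⟩
  · rintro ⟨g, hg⟩
    rw [← MulAction.stabilizer_smul_eq_stabilizer_map_conj] at hg
    exact hEex _ hg.symm
  · intro H hH
    by_cases hex : ∃ x : Ω, H = MulAction.stabilizer (Equiv.Perm Ω) x
    · obtain ⟨x, hx⟩ := hex
      obtain ⟨g, hg⟩ := MulAction.exists_smul_eq (Equiv.Perm Ω) x0 x
      refine ⟨g, Or.inl ?_⟩
      rw [← MulAction.stabilizer_smul_eq_stabilizer_map_conj, hg, hx]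
    · push Not at hex
      obtain ⟨c, hc⟩ := conj_of_exotic h6 H E hH hE hex hEex
      exact ⟨c, Or.inr hc⟩

end Cfsg.Agent.S5912
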