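import Cfsg.Statements.S5913

set_option autoImplicit false
open Cfsg

namespace Cfsg.Agent.S5913

theorem center_eq_bot {S : Type*} [Group S] [IsSimpleGroup S] (hS : ¬ IsMulCommutative S) :
    Subgroup.center S = ⊥ := by
  rcases (inferInstance : (Subgroup.center S).Normal).eq_bot_or_eq_top with h | h
  · exact h
  · exfalso
    apply hS
    rw [isMulCommutative_iff]
    intro a b
    have hb : b ∈ Subgroup.center S := h ▸ Subgroup.mem_top b
    exact (Subgroup.mem_center_iff.mp hb) a

theorem single_mem {S : Type*} [Group S] [IsSimpleGroup S] (hS : ¬ IsMulCommutative S) (n : ℕ)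
    (N : Subgroup (Fin n → S)) [N.Normal] (i : Fin n) (y : Fin n → S) (hy : y ∈ N) (hyi : y i ≠ 1)
    (s : S) : Pi.mulSingle i s ∈ N := by
  have hnormal : (N.comap (MonoidHom.mulSingle (fun _ : Fin n => S) i)).Normal := inferInstance
  rcases hnormal.eq_bot_or_eq_top with h | h
  · exfalso
    have hnc : y i ∉ Subgroup.center S := by
      rw [center_eq_bot hS, Subgroup.mem_bot]
      exact hyi
    rw [Subgroup.mem_center_iff] at hnc
    push Not at hnc
    obtain ⟨t, ht⟩ := hnc
    have hc : y * Pi.mulSingle i t * y⁻¹ * (Pi.mulSingle i t)⁻¹ ∈ N := by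
      have h1 : Pi.mulSingle i t * y⁻¹ * (Pi.mulSingle i t)⁻¹ ∈ N :=
        ‹N.Normal›.conj_mem _ (N.inv_mem hy) _
      have h2 := N.mul_mem hy h1
      simpa [mul_assoc] using h2
    have heq : y * Pi.mulSingle i t * y⁻¹ * (Pi.mulSingle i t)⁻¹
        = Pi.mulSingle i (y i * t * (y i)⁻¹ * t⁻¹) := by
      funext j
      by_cases hj : j = i
      · subst hj
        simp
      · simp [Pi.mulSingle_eq_of_ne hj]
    rw [heq] at hc
    have hmem : y i * t * (y i)⁻¹ * t⁻¹ ∈ N.comap (MonoidHom.mulSingle (fun _ : Fin n => S) i) := hc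
    rw [h, Subgroup.mem_bot] at hmem
    apply ht
    have : y i * t = t * y i := by
      have h3 : y i * t * (y i)⁻¹ * t⁻¹ * t * y i = 1 * t * y i := by rw [hmem]
      simpa [mul_assoc] using h3
    exact this.symm
  · have : s ∈ N.comap (MonoidHom.mulSingle (fun _ : Fin n => S) i) := h ▸ Subgroup.mem_top s
    exact this

theorem result {S : Type*} [Group S] [IsSimpleGroup S] (hS : ¬ IsMulCommutative S) (n : ℕ)
    (N : Subgroup (Fin n → S)) [N.Normal] :
    ∃ T : Finset (Fin n), ∀ x : Fin n → S, x ∈ N ↔ ∀ i, i ∉ T → x i = 1 := by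
  classical
  refine ⟨Finset.univ.filter (fun i => ∃ y ∈ N, y i ≠ 1), fun x => ⟨?_, ?_⟩⟩
  · intro hx i hi
    by_contra hne
    exact hi (by simpa using ⟨x, hx, hne⟩)
  · intro hx
    rw [← Finset.noncommProd_mulSingle x]
    apply Subgroup.noncommProd_mem
    intro i _
    by_cases hi : i ∈ Finset.univ.filter (fun i => ∃ y ∈ N, y i ≠ 1)
    · obtain ⟨y, hy, hyi⟩ := (Finset.mem_filter.mp hi).2
      exact single_mem hS n N i y hy hyi (x i)
    · rw [hx i hi]
      simp

end Cfsg.Agent.S5913
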