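import Cfsg.Statements.S5914
import Cfsg.Agent.S5913

set_option autoImplicit false
open Cfsg

namespace Cfsg.Agent.S5914

theorem all_single {S : Type*} [Group S] (n : ℕ) (H : Subgroup (Fin n → S))
    (h : ∀ (i : Fin n) (s : S), Pi.mulSingle i s ∈ H) : H = ⊤ := by
  rw [eq_top_iff]
  intro x _
  rw [← Finset.noncommProd_mulSingle x]
  apply Subgroup.noncommProd_mem
  intro i _
  exact h i (x i)

theorem exists_ne_one {S : Type*} [Group S] (n : ℕ) (H : Subgroup (Fin n → S)) (hb : H ≠ ⊥) :
    ∃ y ∈ H, ∃ i : Fin n, y i ≠ 1 := by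
  obtain ⟨y, hy, hy1⟩ : ∃ y ∈ H, y ≠ 1 := by
    by_contra hcon
    push Not at hcon
    exact hb ((Subgroup.eq_bot_iff_forall H).mpr hcon)
  refine ⟨y, hy, ?_⟩
  by_contra hcon
  push Not at hcon
  exact hy1 (funext hcon)

theorem pi_char_nonabelian {S : Type*} [Group S] [IsSimpleGroup S] (hS : ¬ IsMulCommutative S) (n : ℕ)
    (H : Subgroup (Fin n → S)) (hH : ∀ (φ : (Fin n → S) ≃* (Fin n → S)), ∀ x ∈ H, φ x ∈ H) :
    H = ⊥ ∨ H = ⊤ := by
  classical
  by_cases hb : H = ⊥
  · exact Or.inl hb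
  right
  have hN : H.Normal := ⟨fun x hx g => by simpa using hH (MulAut.conj g) x hx⟩
  obtain ⟨y, hy, i0, hi0⟩ := exists_ne_one n H hb
  apply all_single
  intro i s
  have h1 := Cfsg.Agent.S5913.single_mem hS n H i0 y hy hi0 s
  have h2 := hH (MulEquiv.arrowCongr (Equiv.swap i0 i) (MulEquiv.refl S)) _ h1
  have h3 : (MulEquiv.arrowCongr (Equiv.swap i0 i) (MulEquiv.refl S)) (Pi.mulSingle i0 s) =
      Pi.mulSingle i s := by
    ext j
    simp only [MulEquiv.arrowCongr_apply, MulEquiv.refl_apply, Equiv.symm_swap, Pi.mulSingle_apply]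
    by_cases hj : j = i
    · subst hj
      simp
    · rw [if_neg hj, if_neg]
      intro h
      apply hj
      have h' := congrArg (Equiv.swap i0 i) h
      rw [Equiv.swap_apply_self, Equiv.swap_apply_left] at h'
      exact h'
  rw [← h3]
  exact h2

theorem shear {S : Type*} [CommGroup S] (n : ℕ) (j i0 : Fin n) (hj : j ≠ i0) (k : ℤ) :
    ∃ Ψ : (Fin n → S) ≃* (Fin n → S), ∀ f, Ψ f = f * Pi.mulSingle j ((f i0) ^ k) := by
  classical
  let ψ : ℤ → ((Fin n → S) →* (Fin n → S)) := fun k =>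
    MonoidHom.id _ * ((MonoidHom.mulSingle (fun _ : Fin n => S) j).comp
      ((zpowGroupHom k).comp (Pi.evalMonoidHom (fun _ : Fin n => S) i0)))
  have hψ : ∀ k f, ψ k f = f * Pi.mulSingle j ((f i0) ^ k) := fun k f => rfl
  have hinv : ∀ k, (ψ (-k)).comp (ψ k) = MonoidHom.id _ := by
    intro k
    ext f i
    simp only [MonoidHom.comp_apply, hψ, MonoidHom.id_apply, Pi.mul_apply]
    rw [Pi.mulSingle_eq_of_ne hj.symm, mul_one, mul_assoc, ← Pi.mul_apply (Pi.mulSingle j _),
      ← Pi.mulSingle_mul, zpow_neg, mul_inv_cancel, Pi.mulSingle_one, Pi.one_apply, mul_one]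
  refine ⟨MonoidHom.toMulEquiv (ψ k) (ψ (-k)) (hinv k) (by simpa using hinv (-k)), fun f => rfl⟩

theorem pi_char_abelian {S : Type*} [CommGroup S] [IsSimpleGroup S] (n : ℕ)
    (H : Subgroup (Fin n → S)) (hH : ∀ (φ : (Fin n → S) ≃* (Fin n → S)), ∀ x ∈ H, φ x ∈ H) :
    H = ⊥ ∨ H = ⊤ := by
  classical
  by_cases hb : H = ⊥
  · exact Or.inl hb
  right
  obtain ⟨y, hy, i0, hi0⟩ := exists_ne_one n H hb
  have hgen : ∀ s : S, ∃ k : ℤ, (y i0) ^ k = s := by
    have hn : (Subgroup.zpowers (y i0)).Normal := inferInstance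
    rcases hn.eq_bot_or_eq_top with h | h
    · exfalso
      apply hi0
      have hmem : y i0 ∈ Subgroup.zpowers (y i0) := Subgroup.mem_zpowers (y i0)
      rw [h, Subgroup.mem_bot] at hmem
      exact hmem
    · intro s
      have hmem : s ∈ Subgroup.zpowers (y i0) := h ▸ Subgroup.mem_top s
      exact Subgroup.mem_zpowers_iff.mp hmem
  have hshear : ∀ j : Fin n, j ≠ i0 → ∀ s : S, Pi.mulSingle j s ∈ H := by
    intro j hj s
    obtain ⟨k, rfl⟩ := hgen s
    obtain ⟨Ψ, hΨ⟩ := shear (S := S) n j i0 hj k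
    have h1 := hH Ψ y hy
    rw [hΨ] at h1
    have h2 : Pi.mulSingle j ((y i0) ^ k) = y⁻¹ * (y * Pi.mulSingle j ((y i0) ^ k)) := by
      rw [inv_mul_cancel_left]
    rw [h2]
    exact H.mul_mem (H.inv_mem hy) h1
  have hz : y * (Pi.mulSingle i0 (y i0) : Fin n → S)⁻¹ ∈ H := by
    rw [← Finset.noncommProd_mulSingle (y * (Pi.mulSingle i0 (y i0) : Fin n → S)⁻¹)]
    apply Subgroup.noncommProd_mem
    intro j _
    by_cases hj : j = i0
    · subst hj
      simp
    · exact hshear j hj _
  have hi0mem : (Pi.mulSingle i0 (y i0) : Fin n → S) ∈ H := by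
    have h2 : (Pi.mulSingle i0 (y i0) : Fin n → S) =
        (y * (Pi.mulSingle i0 (y i0) : Fin n → S)⁻¹)⁻¹ * y := by
      rw [mul_inv_rev, inv_inv, inv_mul_cancel_right]
    rw [h2]
    exact H.mul_mem (H.inv_mem hz) hy
  apply all_single
  intro i s
  by_cases hi : i = i0
  · subst hi
    obtain ⟨k, rfl⟩ := hgen s
    have h3 : (Pi.mulSingle i (y i ^ k) : Fin n → S) = (Pi.mulSingle i (y i) : Fin n → S) ^ k :=
      (MonoidHom.mulSingle (fun _ : Fin n => S) i).map_zpow (y i) k
    rw [h3]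
    exact H.zpow_mem hi0mem k
  · exact hshear i hi s

theorem forward {G : Type*} [Group G] [Finite G] [Nontrivial G]
    (hchar : ∀ H : Subgroup G, H.Characteristic → H = ⊥ ∨ H = ⊤) :
    ∃ (N : Subgroup G) (k : ℕ), IsSimpleGroup N ∧ 1 ≤ k ∧ Nonempty (G ≃* (Fin k → N)) := by
  classical
  have hex : ∃ m, ∃ N : Subgroup G, N.Normal ∧ N ≠ ⊥ ∧ Nat.card N = m :=
    ⟨_, ⊤, inferInstance, top_ne_bot, rfl⟩
  obtain ⟨N, hNn, hNb, hNc⟩ := Nat.find_spec hex
  have hmin : ∀ N' : Subgroup G, N'.Normal → N' ≠ ⊥ → Nat.card N ≤ Nat.card N' := by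
    intro N' h1 h2
    rw [hNc]
    exact Nat.find_min' hex ⟨N', h1, h2, rfl⟩
  have hJ : ∀ M' : Subgroup G, M' ≠ ⊤ → ∃ φ : G ≃* G, ¬ (N.map φ.toMonoidHom ≤ M') := by
    intro M' hM'
    by_contra hcon
    push Not at hcon
    set J : Subgroup G := ⨆ φ : G ≃* G, N.map φ.toMonoidHom with hJdef
    have hJc : J.Characteristic := by
      rw [Subgroup.characteristic_iff_map_le]
      intro ψ
      rw [hJdef, Subgroup.map_iSup]
      apply iSup_le
      intro φ
      rw [Subgroup.map_map]
      exact le_iSup (fun φ : G ≃* G => N.map φ.toMonoidHom) (φ.trans ψ)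
    rcases hchar J hJc with h | h
    · apply hNb
      rw [eq_bot_iff, ← h]
      have hle := le_iSup (fun φ : G ≃* G => N.map φ.toMonoidHom) (MulEquiv.refl G)
      intro x hx
      exact hle ⟨x, hx, rfl⟩
    · apply hM'
      rw [eq_top_iff, ← h]
      exact iSup_le hcon
  have hext : ∀ (k : ℕ) (θ : (Fin k → N) →* G), Function.Injective θ → θ.range.Normal →
      θ.range ≠ ⊤ → ∃ θ' : (Fin (k + 1) → N) →* G, Function.Injective θ' ∧ θ'.range.Normal := by
    intro k θ hinj hnorm hne
    obtain ⟨φ, hφ⟩ := hJ θ.range hne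
    set A : Subgroup G := N.map φ.toMonoidHom with hA
    have hAn : A.Normal := hNn.map φ.toMonoidHom φ.surjective
    have hAcard : Nat.card A = Nat.card N := Subgroup.card_map_of_injective φ.injective
    have hdisj : Disjoint θ.range A := by
      rw [disjoint_iff]
      by_contra hcon
      have hn2 : (θ.range ⊓ A).Normal := inferInstance
      have h1 := hmin _ hn2 hcon
      have h2 : θ.range ⊓ A = A := by
        apply Subgroup.eq_of_le_of_card_ge inf_le_right
        rw [hAcard]
        exact h1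
      exact hφ (h2 ▸ inf_le_left)
    let α : N →* G := φ.toMonoidHom.comp N.subtype
    have hα : α.range = A := by
      rw [MonoidHom.range_comp, Subgroup.range_subtype]
    have hαinj : Function.Injective α := φ.injective.comp Subtype.val_injective
    have comm : ∀ (x : N) (m : Fin k → N), Commute (α x) (θ m) := by
      intro x m
      exact (Subgroup.commute_of_normal_of_disjoint _ _ hnorm hAn hdisj _ _ ⟨m, rfl⟩
        (hα ▸ ⟨x, rfl⟩)).symm
    let E : (Fin (k + 1) → N) ≃* N × (Fin k → N) :=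
      { (Fin.consEquiv (fun _ : Fin (k + 1) => N)).symm with map_mul' := fun _ _ => rfl }
    refine ⟨(MonoidHom.noncommCoprod α θ comm).comp E.toMonoidHom, ?_, ?_⟩
    · have hc : Function.Injective (MonoidHom.noncommCoprod α θ comm) := by
        rw [MonoidHom.noncommCoprod_injective]
        exact ⟨hαinj, hinj, by rw [hα]; exact hdisj.symm⟩
      exact hc.comp E.injective
    · have hr : ((MonoidHom.noncommCoprod α θ comm).comp E.toMonoidHom).range = A ⊔ θ.range := by
        rw [MonoidHom.range_comp, MonoidHom.range_eq_top.mpr E.surjective, ← MonoidHom.range_eq_map,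
          MonoidHom.noncommCoprod_range, hα]
      rw [hr]
      infer_instance
  have hstep : ∀ k : ℕ, (∃ (j : ℕ) (θ : (Fin j → N) →* G), Function.Bijective θ) ∨
      (∃ θ : (Fin k → N) →* G, Function.Injective θ ∧ θ.range.Normal) := by
    intro k
    induction k with
    | zero =>
      right
      refine ⟨1, ?_, ?_⟩
      · intro a b _
        exact Subsingleton.elim a b
      · rw [MonoidHom.range_one]
        infer_instance
    | succ k ih =>
      rcases ih with h | ⟨θ, hinj, hnorm⟩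
      · exact Or.inl h
      · by_cases htop : θ.range = ⊤
        · exact Or.inl ⟨k, θ, hinj, MonoidHom.range_eq_top.mp htop⟩
        · exact Or.inr (hext k θ hinj hnorm htop)
  have hNnt : Nontrivial N := (Subgroup.nontrivial_iff_ne_bot N).mpr hNb
  have hN2 : 2 ≤ Nat.card N := by
    have := Finite.one_lt_card_iff_nontrivial.mpr hNnt
    omega
  obtain ⟨j, θ, hθ⟩ : ∃ (j : ℕ) (θ : (Fin j → N) →* G), Function.Bijective θ := by
    rcases hstep (Nat.card G) with h | ⟨θ, hinj, _⟩
    · exact h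
    · exfalso
      have h1 : Nat.card (Fin (Nat.card G) → N) ≤ Nat.card G := Nat.card_le_card_of_injective θ hinj
      rw [Nat.card_fun, Nat.card_fin] at h1
      have h2 : Nat.card G < 2 ^ Nat.card G := Nat.lt_two_pow_self
      have h3 : 2 ^ Nat.card G ≤ Nat.card N ^ Nat.card G := Nat.pow_le_pow_left hN2 _
      omega
  have hj : 0 < j := by
    rcases Nat.eq_zero_or_pos j with h | h
    · exfalso
      subst h
      obtain ⟨a, b, hab⟩ := exists_pair_ne G
      obtain ⟨a', rfl⟩ := hθ.surjective a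
      obtain ⟨b', rfl⟩ := hθ.surjective b
      exact hab (congrArg θ (Subsingleton.elim a' b'))
    · exact h
  have hsimple : IsSimpleGroup N := by
    refine ⟨fun B hB => ?_⟩
    by_cases hB0 : B = ⊥
    · exact Or.inl hB0
    right
    let i : Fin j := ⟨0, hj⟩
    let Bhat : Subgroup (Fin j → N) :=
      { carrier := {f | f i ∈ B ∧ ∀ i', i' ≠ i → f i' = 1}
        mul_mem' := by
          intro f g hf hg
          refine ⟨B.mul_mem hf.1 hg.1, fun i' hi' => ?_⟩
          rw [Pi.mul_apply, hf.2 i' hi', hg.2 i' hi', mul_one]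
        one_mem' := ⟨B.one_mem, fun _ _ => rfl⟩
        inv_mem' := by
          intro f hf
          refine ⟨B.inv_mem hf.1, fun i' hi' => ?_⟩
          rw [Pi.inv_apply, hf.2 i' hi', inv_one] }
    have hBn : Bhat.Normal := by
      refine ⟨fun f hf g => ⟨?_, fun i' hi' => ?_⟩⟩
      · exact hB.conj_mem _ hf.1 (g i)
      · show g i' * f i' * (g i')⁻¹ = 1
        rw [hf.2 i' hi', mul_one, mul_inv_cancel]
    have hBt : (Bhat.map θ).Normal := hBn.map θ hθ.surjective
    have hne : Bhat.map θ ≠ ⊥ := by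
      obtain ⟨b, hb, hb1⟩ : ∃ b ∈ B, b ≠ 1 := by
        by_contra hcon
        push Not at hcon
        exact hB0 ((Subgroup.eq_bot_iff_forall B).mpr hcon)
      intro h
      have hmem : θ (Pi.mulSingle i b : Fin j → N) ∈ Bhat.map θ :=
        ⟨_, ⟨by simpa using hb, fun i' hi' => by rw [Pi.mulSingle_apply, if_neg hi']⟩, rfl⟩
      rw [h, Subgroup.mem_bot] at hmem
      have h2 := hθ.injective (hmem.trans (map_one θ).symm)
      have h3 := congrFun h2 i
      simp at h3
      exact hb1 h3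
    have h1 := hmin _ hBt hne
    have h2 : Nat.card (Bhat.map θ) = Nat.card Bhat := Subgroup.card_map_of_injective hθ.injective
    have h3 : Nat.card Bhat ≤ Nat.card B := by
      apply Nat.card_le_card_of_injective (fun f : Bhat => (⟨f.1 i, f.2.1⟩ : B))
      intro f g hfg
      apply Subtype.ext
      funext i'
      by_cases hi' : i' = i
      · subst hi'
        exact congrArg Subtype.val hfg
      · rw [f.2.2 i' hi', g.2.2 i' hi']
    have h4 : Nat.card B ≤ Nat.card N := Subgroup.card_le_card_group B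
    exact Subgroup.eq_top_of_card_eq B (by omega)
  exact ⟨N, j, hsimple, hj, ⟨(MulEquiv.ofBijective θ hθ).symm⟩⟩

theorem result {G : Type*} [Group G] [Finite G] [Nontrivial G] :
    (∀ H : Subgroup G, H.Characteristic → H = ⊥ ∨ H = ⊤) ↔
    ∃ (S : Type) (_ : Group S) (_ : IsSimpleGroup S) (n : ℕ), 1 ≤ n ∧ Nonempty (G ≃* (Fin n → S)) := by
  classical
  constructor
  · intro hchar
    obtain ⟨N, k, hs, hk, ⟨e⟩⟩ := forward hchar
    have E0 : Shrink.{0} N ≃* N := Shrink.mulEquiv
    have hsS : IsSimpleGroup (Shrink.{0} N) := E0.isSimpleGroup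
    exact ⟨Shrink.{0} N, inferInstance, hsS, k, hk,
      ⟨e.trans (MulEquiv.piCongrRight fun _ => E0.symm)⟩⟩
  · rintro ⟨S, instS, hS, n, -, ⟨e⟩⟩ H hH
    have hinv : ∀ (φ : (Fin n → S) ≃* (Fin n → S)), ∀ x ∈ H.map e.toMonoidHom,
        φ x ∈ H.map e.toMonoidHom := by
      rintro φ _ ⟨x, hx, rfl⟩
      refine ⟨(e.trans (φ.trans e.symm)) x, ?_, by simp⟩
      exact (Subgroup.characteristic_iff_le_comap.mp hH) (e.trans (φ.trans e.symm)) hx
    have hcases : H.map e.toMonoidHom = ⊥ ∨ H.map e.toMonoidHom = ⊤ := by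
      by_cases hc : IsMulCommutative S
      · let _ : CommGroup S := { instS with mul_comm := (isMulCommutative_iff.mp hc) }
        exact pi_char_abelian (S := S) n _ hinv
      · exact pi_char_nonabelian hc n _ hinv
    rcases hcases with h | h
    · left
      exact (Subgroup.map_eq_bot_iff_of_injective H e.injective).mp h
    · right
      rw [eq_top_iff]
      intro g _
      obtain ⟨x, hx, hxe⟩ : e g ∈ H.map e.toMonoidHom := h ▸ Subgroup.mem_top _
      have := e.injective hxe
      exact this ▸ hx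

end Cfsg.Agent.S5914
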