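import Cfsg.Statements.S5939
import Cfsg.Agent.Lib.Helper16.Max6
import Cfsg.Agent.Lib.Helper2.Subfield2
import Cfsg.Agent.S0804

set_option autoImplicit false
open Cfsg

namespace Cfsg.Agent.S5939

/-- Let p be a prime and F a finite field of characteristic p such that either F has p elements and p ≡ ±1 (mod 10), or F has p² elements and p ≡ ±3 (mod 10). Then PSL_2(F) has a maximal subgroup isomorphic to the alternating group A_5. -/
theorem result {F : Type*} [Field F] [Fintype F] (p : ℕ) [Fact p.Prime] [CharP F p] (h : (Fintype.card F = p ∧ (p % 10 = 1 ∨ p % 10 = 9)) ∨ (Fintype.card F = p ^ 2 ∧ (p % 10 = 3 ∨ p % 10 = 7))) : ∃ H : Subgroup (Matrix.ProjectiveSpecialLinearGroup (Fin 2) F), IsCoatom H ∧ Nonempty (H ≃* alternatingGroup (Fin 5)) := by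
  have hp := (Fact.out : p.Prime)
  haveI := Cfsg.Agent.Lib.Helper16.PSL2A4.finite_psl (F := F)
  have hcard60 : ∀ (H : Subgroup (Matrix.ProjectiveSpecialLinearGroup (Fin 2) F))
      (e : H ≃* alternatingGroup (Fin 5)), Nat.card H = 60 := by
    intro H e
    rw [Nat.card_congr e.toEquiv, Nat.card_eq_fintype_card]
    have h := two_mul_card_alternatingGroup (α := Fin 5)
    rw [Fintype.card_perm, Fintype.card_fin] at h
    have h4 : Nat.factorial 5 = 120 := by decide
    omega
  obtain ⟨a₀, b₀, x₀, y₀, f1, f2, f3, f4, f5, f6, f7, f8, f9⟩ :=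
    Cfsg.Agent.Lib.Helper16.Max.a5_elts
  obtain ⟨z₀, fz1, fz2⟩ := Cfsg.Agent.Lib.Helper16.Max.a5_elt5
  rcases h with ⟨hF, h10⟩ | ⟨hF, h10⟩
  · have hodd : Fintype.card F % 2 = 1 := by rw [hF]; omega
    have h2 : (2 : F) ≠ 0 := Cfsg.Agent.Lib.Helper14.SL2Odd.two_ne_zero_of_odd hodd
    have h51 : p ^ 2 % 5 = 1 := by
      rw [Nat.pow_mod]
      rcases (show p % 5 = 1 ∨ p % 5 = 4 by omega) with hh | hh <;> rw [hh]
    have hdvd : 5 ∣ p * (p ^ 2 - 1) :=
      Dvd.dvd.mul_left (Nat.dvd_of_mod_eq_zero (by omega)) p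
    obtain ⟨H, ⟨e⟩⟩ := (Cfsg.Agent.S0804.result (F := F) hF).mpr hdvd
    have hcH := hcard60 H e
    have hG : 2 * Nat.card (Matrix.ProjectiveSpecialLinearGroup (Fin 2) F) = p * (p ^ 2 - 1) := by
      have h := Cfsg.Agent.Lib.Helper2.Subfield2.card_psl2 (F := F) (Nat.odd_iff.mpr hodd)
      rw [hF] at h
      exact h
    have h11 : 11 ≤ p := by
      have h1 : p ≠ 1 := hp.ne_one
      have h9 : p ≠ 9 := by
        rintro rfl
        exact absurd hp (by norm_num)
      have h0 : p ≠ 0 := hp.ne_zero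
      omega
    obtain ⟨m, hm⟩ : ∃ m, m + 1 = p ^ 2 :=
      ⟨p ^ 2 - 1, Nat.sub_add_cancel (Nat.one_le_pow _ _ hp.pos)⟩
    have hm' : p ^ 2 - 1 = m := by omega
    rw [hm'] at hG
    have hbig : 1320 ≤ p * m := by
      have h6 : 11 ^ 2 ≤ p ^ 2 := Nat.pow_le_pow_left h11 2
      have h7 : 120 ≤ m := by omega
      calc 1320 = 11 * 120 := by norm_num
        _ ≤ p * m := Nat.mul_le_mul h11 h7
    refine ⟨H, ⟨?_, ?_⟩, ⟨e⟩⟩
    · intro htop
      rw [htop, Subgroup.card_top] at hcH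
      omega
    · intro K hHK
      obtain ⟨a, b, x, y, ha, hb, hx, hy, g1, g2, g3, g4, g5, g6, g7, g8, g9⟩ :=
        Cfsg.Agent.Lib.Helper16.Max.elts_of_equiv H e a₀ b₀ x₀ y₀ f1 f2 f3 f4 f5 f6 f7 f8 f9
      rcases Cfsg.Agent.Lib.Helper16.Max.max_psl hp hF h2 K a b x y (hHK.le ha) (hHK.le hb)
        (hHK.le hx) (hHK.le hy) g1 g2 g3 g4 g5 g6 g7 g8 g9 with h | h | h | h
      · exact h
      · exfalso
        have h6 := Subgroup.eq_of_le_of_card_ge hHK.le (by omega)
        exact (ne_of_lt hHK) h6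
      · exfalso
        have h6 := Subgroup.eq_of_le_of_card_ge hHK.le (by omega)
        exact (ne_of_lt hHK) h6
      · exfalso
        have h6 := Subgroup.eq_of_le_of_card_ge hHK.le (by omega)
        exact (ne_of_lt hHK) h6
  · have hp2 : p % 2 = 1 := by omega
    have hodd : Fintype.card F % 2 = 1 := by
      rw [hF, Nat.pow_mod, hp2]
    have h2 : (2 : F) ≠ 0 := Cfsg.Agent.Lib.Helper14.SL2Odd.two_ne_zero_of_odd hodd
    have h54 : p ^ 2 % 5 = 4 := by
      rw [Nat.pow_mod]
      rcases (show p % 5 = 2 ∨ p % 5 = 3 by omega) with hh | hh <;> rw [hh]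
    have h51 : (p ^ 2) ^ 2 % 5 = 1 := by
      rw [Nat.pow_mod, h54]
    have hdvd : 5 ∣ p ^ 2 * ((p ^ 2) ^ 2 - 1) :=
      Dvd.dvd.mul_left (Nat.dvd_of_mod_eq_zero (by omega)) (p ^ 2)
    obtain ⟨H, ⟨e⟩⟩ := (Cfsg.Agent.S0804.result (F := F) hF).mpr hdvd
    have hcH := hcard60 H e
    have hG : 2 * Nat.card (Matrix.ProjectiveSpecialLinearGroup (Fin 2) F) =
        p ^ 2 * ((p ^ 2) ^ 2 - 1) := by
      have h := Cfsg.Agent.Lib.Helper2.Subfield2.card_psl2 (F := F) (Nat.odd_iff.mpr hodd)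
      rw [hF] at h
      exact h
    have h3p : 3 ≤ p := by
      have h1 := hp.two_le
      omega
    have h9 : 9 ≤ p ^ 2 := by
      have h6 : 3 ^ 2 ≤ p ^ 2 := Nat.pow_le_pow_left h3p 2
      omega
    obtain ⟨m, hm⟩ : ∃ m, m + 1 = (p ^ 2) ^ 2 :=
      ⟨(p ^ 2) ^ 2 - 1, Nat.sub_add_cancel (Nat.one_le_pow _ _ (pow_pos hp.pos 2))⟩
    have hm' : (p ^ 2) ^ 2 - 1 = m := by omega
    rw [hm'] at hG
    have hm80 : 80 ≤ m := by
      have h6 : 9 ^ 2 ≤ (p ^ 2) ^ 2 := Nat.pow_le_pow_left h9 2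
      omega
    have hbig : 720 ≤ p ^ 2 * m := by
      calc 720 = 9 * 80 := by norm_num
        _ ≤ p ^ 2 * m := Nat.mul_le_mul h9 hm80
    refine ⟨H, ⟨?_, ?_⟩, ⟨e⟩⟩
    · intro htop
      rw [htop, Subgroup.card_top] at hcH
      omega
    · intro K hHK
      by_cases hp3 : p = 3
      · subst hp3
        have hF4 : 4 ≤ Nat.card F := by
          rw [Nat.card_eq_fintype_card, hF]
          norm_num
        haveI : IsSimpleGroup (Matrix.ProjectiveSpecialLinearGroup (Fin 2) F) :=
          Matrix.ProjectiveSpecialLinearGroup.rank_two_simple hF4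
        have hm80' : m = 80 := by
          norm_num at hm
          omega
        rw [hm80'] at hG
        have hG360 : Nat.card (Matrix.ProjectiveSpecialLinearGroup (Fin 2) F) = 360 := by
          norm_num at hG
          omega
        have hd := Subgroup.card_dvd_of_le hHK.le
        rw [hcH] at hd
        have hgt : 60 < Nat.card K := by
          by_contra hle
          have h6 := Subgroup.eq_of_le_of_card_ge hHK.le (by omega)
          exact (ne_of_lt hHK) h6
        have h120 : 120 ≤ Nat.card K := by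
          obtain ⟨j, hj⟩ := hd
          omega
        have hidx := Subgroup.index_mul_card K
        rw [hG360] at hidx
        apply Cfsg.Agent.Lib.Helper16.Max.top_of_small_index K
        · by_contra h4
          have h5 : 4 * 120 ≤ K.index * Nat.card K := Nat.mul_le_mul (by omega) h120
          omega
        · omega
      · have h3 : (3 : F) ≠ 0 := by
          intro h0
          have h1 : ((3 : ℕ) : F) = 0 := by exact_mod_cast h0
          exact hp3 ((Nat.prime_dvd_prime_iff_eq hp Nat.prime_three).mp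
            ((CharP.cast_eq_zero_iff F p 3).mp h1))
        obtain ⟨a, b, x, y, ha, hb, hx, hy, g1, g2, g3, g4, g5, g6, g7, g8, g9⟩ :=
          Cfsg.Agent.Lib.Helper16.Max.elts_of_equiv H e a₀ b₀ x₀ y₀ f1 f2 f3 f4 f5 f6 f7 f8 f9
        obtain ⟨z, hz, gz1, gz2⟩ := Cfsg.Agent.Lib.Helper16.Max.elt5_of_equiv H e z₀ fz1 fz2
        rcases Cfsg.Agent.Lib.Helper16.Max.max_psl2 hF h2 h3 (by omega) (by omega) K a b x y z
          (hHK.le ha) (hHK.le hb) (hHK.le hx) (hHK.le hy) (hHK.le hz)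
          g1 g2 g3 g4 g5 g6 g7 g8 g9 gz1 gz2 with h | h | h | h
        · exact h
        · exfalso
          have h6 := Subgroup.eq_of_le_of_card_ge hHK.le (by omega)
          exact (ne_of_lt hHK) h6
        · exfalso
          have h6 := Subgroup.eq_of_le_of_card_ge hHK.le (by omega)
          exact (ne_of_lt hHK) h6
        · exfalso
          have h6 := Subgroup.eq_of_le_of_card_ge hHK.le (by omega)
          exact (ne_of_lt hHK) h6

end Cfsg.Agent.S5939
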