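import Mathlib
import Cfsg.Statements.S5945
import Cfsg.Agent.S5912

set_option autoImplicit false
open Cfsg

namespace Cfsg.Agent.S5945

open Cfsg.Agent.S5912

theorem stab_inj {X : Type*} [Fintype X] [DecidableEq X] (hX : 3 ≤ Fintype.card X) (x y : X)
    (h : MulAction.stabilizer (Equiv.Perm X) x = MulAction.stabilizer (Equiv.Perm X) y) :
    x = y := by
  by_contra hxy
  obtain ⟨z, hz⟩ : ∃ z, z ∉ ({x, y} : Finset X) := by
    by_contra hcon
    push Not at hcon
    have h1 : ({x, y} : Finset X) = Finset.univ := Finset.eq_univ_iff_forall.mpr hcon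
    have h2 : ({x, y} : Finset X).card ≤ 2 := Finset.card_insert_le _ _
    rw [h1, Finset.card_univ] at h2
    omega
  simp only [Finset.mem_insert, Finset.mem_singleton, not_or] at hz
  have h1 : Equiv.swap y z ∈ MulAction.stabilizer (Equiv.Perm X) x := by
    rw [MulAction.mem_stabilizer_iff]
    exact Equiv.swap_apply_of_ne_of_ne hxy (Ne.symm hz.1)
  rw [h, MulAction.mem_stabilizer_iff] at h1
  have h2 : Equiv.swap y z y = z := Equiv.swap_apply_left y z
  exact hz.2 (h2.symm.trans h1)

theorem iso_S5 {Ω X : Type*} [Fintype Ω] [DecidableEq Ω] [Fintype X] [DecidableEq X]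
    (hΩ : Fintype.card Ω = 6) (hX : Fintype.card X = 6)
    (H : Subgroup (Equiv.Perm Ω)) (hH : H.index = 6)
    (ψ : Equiv.Perm Ω ≃* Equiv.Perm X) (pt : X) (hψ : ∀ g, g ∈ H ↔ ψ g pt = pt) :
    Nonempty (H ≃* Equiv.Perm (Fin 5)) := by
  classical
  have hcardS : Fintype.card {y : X // y ≠ pt} = Fintype.card (Fin 5) := by
    rw [Fintype.card_subtype_compl, Fintype.card_subtype_eq, hX, Fintype.card_fin]
  let eS : {y : X // y ≠ pt} ≃ Fin 5 := Fintype.equivOfCardEq hcardS
  let θ : Equiv.Perm {y : X // y ≠ pt} →* Equiv.Perm Ω :=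
    ψ.symm.toMonoidHom.comp Equiv.Perm.ofSubtype
  have hθinj : Function.Injective θ := ψ.symm.injective.comp Equiv.Perm.ofSubtype_injective
  have hle : θ.range ≤ H := by
    rintro _ ⟨σ, rfl⟩
    rw [hψ]
    show ψ (ψ.symm (Equiv.Perm.ofSubtype σ)) pt = pt
    rw [MulEquiv.apply_symm_apply]
    exact Equiv.Perm.ofSubtype_apply_of_not_mem σ (by simp)
  have hcardR : Nat.card θ.range = 120 := by
    rw [← Nat.card_congr (MonoidHom.ofInjective hθinj).toEquiv, Nat.card_eq_fintype_card,
      Fintype.card_perm, hcardS, Fintype.card_fin]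
    rfl
  have hcardH : Nat.card H = 120 := by
    have h2 := Subgroup.card_mul_index H
    rw [hH, Nat.card_eq_fintype_card (α := Equiv.Perm Ω), Fintype.card_perm, hΩ] at h2
    have h3 : (6 : ℕ).factorial = 720 := rfl
    omega
  have heq : θ.range = H := Subgroup.eq_of_le_of_card_ge hle (by rw [hcardR, hcardH])
  exact ⟨(MulEquiv.subgroupCongr heq.symm).trans
    ((MonoidHom.ofInjective hθinj).symm.trans eS.permCongrHom)⟩

theorem result : Nat.card {H : Subgroup (Equiv.Perm (Fin 6)) // H.index = 6} = 12 ∧ (∀ H : Subgroup (Equiv.Perm (Fin 6)), H.index = 6 → Nonempty (H ≃* Equiv.Perm (Fin 5))) ∧ ∃ H : Subgroup (Equiv.Perm (Fin 6)), H.index = 6 ∧ ∀ a : Fin 6, H ≠ MulAction.stabilizer (Equiv.Perm (Fin 6)) a := by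
  classical
  have h6 : Fintype.card (Fin 6) = 6 := Fintype.card_fin 6
  obtain ⟨E, hE, hEex⟩ := exists_exotic h6
  refine ⟨?_, ?_, ⟨E, hE, hEex⟩⟩
  · obtain ⟨XE, hfE, hdE, ψE, ptE, hXE, hψE⟩ := coset_iso (by omega) E (by rw [hE, h6])
    rw [h6] at hXE
    have hb : ∀ c : Equiv.Perm (Fin 6),
        (MulAction.stabilizer (Equiv.Perm XE) (ψE c ptE)).comap ψE.toMonoidHom =
          E.map (MulAut.conj c).toMonoidHom := by
      intro c
      ext g
      rw [Subgroup.mem_comap, MulAction.mem_stabilizer_iff, Subgroup.mem_map_equiv,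
        MulAut.conj_symm_apply, hψE, map_mul, map_mul, map_inv]
      show ψE g (ψE c ptE) = ψE c ptE ↔ (ψE c)⁻¹ (ψE g (ψE c ptE)) = ptE
      rw [Equiv.Perm.inv_eq_iff_eq]
    have hconjex : ∀ (c : Equiv.Perm (Fin 6)) (x : Fin 6),
        E.map (MulAut.conj c).toMonoidHom ≠ MulAction.stabilizer (Equiv.Perm (Fin 6)) x := by
      intro c x hcx
      apply hEex (c⁻¹ x)
      apply eq_of_le_of_index
      · intro g hg
        have h1 : c * g * c⁻¹ ∈ E.map (MulAut.conj c).toMonoidHom := ⟨g, hg, rfl⟩
        rw [hcx, MulAction.mem_stabilizer_iff] at h1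
        rw [MulAction.mem_stabilizer_iff]
        have h2 : c (g (c⁻¹ x)) = x := h1
        show g (c⁻¹ x) = c⁻¹ x
        apply c.injective
        rw [h2]
        simp
      · rw [hE, index_stab, h6]
    have hbidx : ∀ x' : XE,
        ((MulAction.stabilizer (Equiv.Perm XE) x').comap ψE.toMonoidHom).index = 6 := by
      intro x'
      rw [Subgroup.index_comap_of_surjective _ ψE.surjective, index_stab, hXE]
    let f : Fin 6 ⊕ XE → {H : Subgroup (Equiv.Perm (Fin 6)) // H.index = 6} := fun s =>
      match s with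
      | Sum.inl x => ⟨MulAction.stabilizer (Equiv.Perm (Fin 6)) x, by rw [index_stab, h6]⟩
      | Sum.inr x' => ⟨(MulAction.stabilizer (Equiv.Perm XE) x').comap ψE.toMonoidHom, hbidx x'⟩
    have hpt : ∀ x' : XE, ψE (ψE.symm (Equiv.swap ptE x')) ptE = x' := by
      intro x'
      rw [MulEquiv.apply_symm_apply, Equiv.swap_apply_left]
    have hfinj : Function.Injective f := by
      rintro (x | x') (y | y') hxy
      · have h1 : MulAction.stabilizer (Equiv.Perm (Fin 6)) x =
            MulAction.stabilizer (Equiv.Perm (Fin 6)) y := congrArg Subtype.val hxy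
        rw [stab_inj (by omega) x y h1]
      · exfalso
        have h1 : MulAction.stabilizer (Equiv.Perm (Fin 6)) x =
            (MulAction.stabilizer (Equiv.Perm XE) y').comap ψE.toMonoidHom :=
          congrArg Subtype.val hxy
        rw [← hpt y', hb] at h1
        exact hconjex _ x h1.symm
      · exfalso
        have h1 : (MulAction.stabilizer (Equiv.Perm XE) x').comap ψE.toMonoidHom =
            MulAction.stabilizer (Equiv.Perm (Fin 6)) y := congrArg Subtype.val hxy
        rw [← hpt x', hb] at h1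
        exact hconjex _ y h1
      · have h1 : (MulAction.stabilizer (Equiv.Perm XE) x').comap ψE.toMonoidHom =
            (MulAction.stabilizer (Equiv.Perm XE) y').comap ψE.toMonoidHom :=
          congrArg Subtype.val hxy
        have h2 := Subgroup.comap_injective (f := ψE.toMonoidHom) ψE.surjective h1
        rw [stab_inj (by omega) x' y' h2]
    have hfsurj : Function.Surjective f := by
      rintro ⟨H, hH⟩
      by_cases hex : ∃ x : Fin 6, H = MulAction.stabilizer (Equiv.Perm (Fin 6)) x
      · obtain ⟨x, hx⟩ := hex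
        exact ⟨Sum.inl x, Subtype.ext hx.symm⟩
      · push Not at hex
        obtain ⟨c, hc⟩ := conj_of_exotic h6 H E hH hE hex hEex
        refine ⟨Sum.inr (ψE c ptE), Subtype.ext ?_⟩
        show (MulAction.stabilizer (Equiv.Perm XE) (ψE c ptE)).comap ψE.toMonoidHom = H
        rw [hb, hc]
    rw [← Nat.card_congr (Equiv.ofBijective f ⟨hfinj, hfsurj⟩), Nat.card_eq_fintype_card,
      Fintype.card_sum, Fintype.card_fin, hXE]
  · intro H hH
    obtain ⟨X, hf, hd, ψ, pt, hX, hψ⟩ := coset_iso (by omega) H (by rw [hH, h6])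
    rw [h6] at hX
    exact iso_S5 h6 hX H hH ψ pt hψ

end Cfsg.Agent.S5945
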