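import Cfsg.Statements.S5983
import Mathlib
import Cfsg.Agent.Lib.Helper13.SpO4
import Cfsg.Agent.Lib.Helper15.GeoBridge

set_option autoImplicit false
open Cfsg

namespace Cfsg.Agent.S5983

open Matrix
open Cfsg.Agent.Lib.Helper28.Herm (Isom)
open Cfsg.Agent.Lib.Helper13.SpO3
open Cfsg.Agent.Lib.Helper13.SpO4

theorem result {F : Type*} [Field F] [Fintype F] {p : ℕ} [Fact p.Prime] [CharP F p] {q : ℕ} (hq : Fintype.card F = q)
    (hp : p = 2) (d : ℕ) (hd : 2 ≤ d) (hT : (d, q) ≠ (2, 2)) (Q : (Fin d ⊕ Fin d → F) → F) (hQ : Cfsg.Geo.IsNondegenerateQuadraticForm Q)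
    (hQf : ∀ u v, QuadraticMap.polar Q u v = Cfsg.sympForm d F u v)
    (r : ℕ) [Fact r.Prime]
    (hΩ : r ∣ (Cfsg.Geo.quadSimilarityGroup Q).relIndex (Cfsg.spGL d F)) :
    (∀ x ∈ Cfsg.spGL d F, (∃ z : F, ((x ^ r : GL (Fin d ⊕ Fin d) F) : Matrix (Fin d ⊕ Fin d) (Fin d ⊕ Fin d) F) = z • (1 : Matrix (Fin d ⊕ Fin d) (Fin d ⊕ Fin d) F)) →
      (∀ z : F, (x : Matrix (Fin d ⊕ Fin d) (Fin d ⊕ Fin d) F) ≠ z • (1 : Matrix (Fin d ⊕ Fin d) (Fin d ⊕ Fin d) F)) →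
      ∃ g ∈ Cfsg.spGL d F, g⁻¹ * x * g ∈ Cfsg.Geo.quadSimilarityGroup Q) ↔
    (r = 2 ∧ (Cfsg.Geo.IsPlusTypeOn Q ⊤ ∨ Odd d)) := by
  subst hp
  have hr : r.Prime := Fact.out
  obtain ⟨Q', hQ'⟩ : ∃ Q' : QuadraticForm F (Fin d ⊕ Fin d → F), ⇑Q' = Q :=
    ⟨Cfsg.Agent.Lib.Helper15.GeoBridge.toQF Q hQ, rfl⟩
  subst hQ'
  have hnd : ∀ x, (∀ y, QuadraticMap.polar Q' x y = 0) → x = 0 := by
    intro x hx
    by_contra hne
    obtain ⟨-, ⟨y, hy⟩⟩ := hQ.nondegenerate x hne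
    exact hy (hx y)
  have hne : ∃ u v, Cfsg.sympForm d F u v ≠ 0 := by
    have h1 : (Pi.single (Sum.inl (⟨0, by omega⟩ : Fin d)) (1 : F) : Fin d ⊕ Fin d → F) ≠ 0 := by
      intro h
      have := congrFun h (Sum.inl ⟨0, by omega⟩)
      rw [Pi.single_eq_same] at this
      exact one_ne_zero this
    obtain ⟨-, ⟨y, hy⟩⟩ := hQ.nondegenerate _ h1
    exact ⟨_, y, by rw [← hQf]; exact hy⟩
  constructor
  · intro hall
    have hr2 : r = 2 := by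
      by_contra hr2
      exact odd_contra hq (by omega) Q' hnd hQf hne r hr hr2 hΩ hall
    subst hr2
    refine ⟨rfl, ?_⟩
    by_contra hcon
    rw [not_or] at hcon
    have hEven : Even d := Nat.not_odd_iff_even.mp hcon.2
    exact hcon.1 (plus_of_ad (by omega) Q' hQf hne hEven hall)
  · rintro ⟨rfl, htype⟩ x hx ⟨z, hz⟩ _
    exact conj_into (by omega) Q' hnd hQf hne htype x ((mem_sp x).mp hx) z hz

end Cfsg.Agent.S5983
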