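import Cfsg.Statements.S5985
import Mathlib
import Cfsg.Agent.Lib.Helper13.NsPoint

set_option autoImplicit false
open Cfsg

namespace Cfsg.Agent.S5985

open Matrix
open Cfsg.Agent.Lib.Helper15.StdForms (plusQF plus_nondeg)
open Cfsg.Agent.Lib.Helper13.OmegaCount (rk alt Qx fix_ns mkO index_two)
open Cfsg.Agent.Lib.Helper13.OrthCent4 (q_ge N1_plus)
open Cfsg.Agent.Lib.Helper13.OrthCent2 (centA)
open Cfsg.Agent.Lib.Helper13.NsPoint
open Cfsg.Agent.Lib.Helper15.RankParity (mem_commutator_iff_rank)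
open Cfsg.Agent.Lib.Helper15.CD2 (act act_apply)

theorem result {F : Type*} [Field F] [Fintype F] {p : ℕ} [Fact p.Prime] [CharP F p] {q : ℕ} (hq : Fintype.card F = q)
    (hp : p = 2) (d : ℕ) (hd : 4 ≤ d) (r : ℕ) [Fact r.Prime]
    (hrΩ : r ∣ Nat.card {W : Submodule F (Fin d ⊕ Fin d → F) // Module.finrank F ↥W = 1 ∧ ∃ v ∈ W, Cfsg.quadFormPlus d F v ≠ 0}) :
    (∀ x : GL (Fin d ⊕ Fin d) F, x ∈ Cfsg.Geo.omegaGL (Cfsg.quadFormPlus d F) →
      (∃ z : F, ((x ^ r : GL (Fin d ⊕ Fin d) F) : Matrix (Fin d ⊕ Fin d) (Fin d ⊕ Fin d) F) = z • (1 : Matrix (Fin d ⊕ Fin d) (Fin d ⊕ Fin d) F)) →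
      (∀ z : F, (x : Matrix (Fin d ⊕ Fin d) (Fin d ⊕ Fin d) F) ≠ z • (1 : Matrix (Fin d ⊕ Fin d) (Fin d ⊕ Fin d) F)) →
      ∃ W : Submodule F (Fin d ⊕ Fin d → F), (Module.finrank F ↥W = 1 ∧ ∃ v ∈ W, Cfsg.quadFormPlus d F v ≠ 0) ∧ W.map (Matrix.toLin' (x : Matrix (Fin d ⊕ Fin d) (Fin d ⊕ Fin d) F)) ≤ W) ↔ (r = 2 ∧ Odd d) := by
  subst hp
  have hcard : Fintype.card (Fin d ⊕ Fin d) = 2 * d := by
    rw [Fintype.card_sum, Fintype.card_fin]
    omega
  have hc : Fintype.card F ≠ 2 ∨ Fintype.card (Fin d ⊕ Fin d) ≠ 4 := Or.inr (by rw [hcard]; omega)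
  have hq2 : 2 ≤ q := q_ge hq
  have hN : Nat.card {W : Submodule F (Fin d ⊕ Fin d → F) // Module.finrank F ↥W = 1 ∧
      ∃ v ∈ W, Cfsg.quadFormPlus d F v ≠ 0} = q ^ (d - 1) * (q ^ d - 1) := by
    rw [← N1_plus hq d (by omega)]
    exact ns_points_card (plusQF d F)
  have hpos : 0 < q ^ (d - 1) * (q ^ d - 1) := by
    apply Nat.mul_pos (Nat.pow_pos (by omega))
    have : 2 ^ d ≤ q ^ d := Nat.pow_le_pow_left hq2 _
    have h2 : 2 ≤ 2 ^ d := by
      calc 2 = 2 ^ 1 := by norm_num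
        _ ≤ 2 ^ d := Nat.pow_le_pow_right (by norm_num) (by omega)
    omega
  obtain ⟨v0, hv0⟩ : ∃ v : Fin d ⊕ Fin d → F, plusQF d F v = 1 := by
    have h1 := N1_plus hq d (by omega)
    have h2 : 0 < Nat.card {v : Fin d ⊕ Fin d → F // plusQF d F v = 1} := by rw [h1]; exact hpos
    obtain ⟨⟨v, hv⟩⟩ := (Nat.card_pos_iff.mp h2).1
    exact ⟨v, hv⟩
  have hv0' : plusQF d F v0 ≠ 0 := by rw [hv0]; exact one_ne_zero
  constructor
  · intro hall
    by_cases hr2 : r = 2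
    · refine ⟨hr2, ?_⟩
      by_contra hodd
      rw [Nat.not_odd_iff_even] at hodd
      obtain ⟨c, hc'⟩ := hodd
      obtain ⟨M, hM, hMM, hrk, hal⟩ := Cfsg.Agent.S2595.ex_A (F := F) (m := d) c (by omega)
      have hyΩ : mkO (plusQF d F) M hM ∈ commutator ↥(Cfsg.isometryGroup F ⇑(plusQF d F)) :=
        (mem_commutator_iff_rank (plusQF d F) (plus_nondeg d) hc (mkO (plusQF d F) M hM)).2 (by
          show Even ((M : Matrix (Fin d ⊕ Fin d) (Fin d ⊕ Fin d) F) - 1).rank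
          rw [hrk]
          exact ⟨c, rfl⟩)
      have hyy : mkO (plusQF d F) M hM * mkO (plusQF d F) M hM = 1 := Subtype.ext hMM
      have hnofix : ∀ w : Fin d ⊕ Fin d → F,
          (M : Matrix (Fin d ⊕ Fin d) (Fin d ⊕ Fin d) F) *ᵥ w = w → plusQF d F w = 0 :=
        fun w hw => no_fix_of_alt_max (plusQF d F) d hcard (mkO (plusQF d F) M hM) hyy (by
          show ((M : Matrix (Fin d ⊕ Fin d) (Fin d ⊕ Fin d) F) - 1).rank = d
          rw [hrk]
          omega) (hal.2 trivial) w hw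
      have hne : ∀ z : F, (M : Matrix (Fin d ⊕ Fin d) (Fin d ⊕ Fin d) F) ≠
          z • (1 : Matrix (Fin d ⊕ Fin d) (Fin d ⊕ Fin d) F) := by
        intro z hz
        have h1 : (M : Matrix (Fin d ⊕ Fin d) (Fin d ⊕ Fin d) F) *ᵥ v0 = z • v0 := by
          rw [hz, Matrix.smul_mulVec, Matrix.one_mulVec]
        have h2 : z = 1 := smul_fix (plusQF d F) v0 hv0' z (by rw [← h1, hM])
        rw [h2, one_smul] at h1
        exact hv0' (hnofix v0 h1)
      obtain ⟨W, hW, hmap⟩ := hall M ⟨mkO (plusQF d F) M hM, hyΩ, rfl⟩ ⟨1, by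
        rw [hr2, pow_two, hMM, one_smul]
        rfl⟩ hne
      obtain ⟨w, hw, hfix⟩ := (fix_point_iff (plusQF d F) _ hM).1 ⟨W, hW, hmap⟩
      exact hw (hnofix w hfix)
    · exfalso
      have hr : r.Prime := Fact.out
      have hrd : r ∣ Fintype.card F ^ d - 1 := by
        rw [hN] at hrΩ
        rw [hq]
        rcases (Nat.Prime.dvd_mul hr).1 hrΩ with h1 | h1
        · exfalso
          have h2 := hr.dvd_of_dvd_pow h1
          obtain ⟨n, _, hn⟩ := FiniteField.card F 2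
          rw [← hq, hn] at h2
          have h3 := hr.dvd_of_dvd_pow h2
          exact hr2 ((Nat.prime_dvd_prime_iff_eq hr Nat.prime_two).1 h3)
        · exact h1
      obtain ⟨g, hg, hgfix⟩ := exists_ff F 2 d (by omega) r hr hrd
      obtain ⟨X, hX, hXr, hXfix⟩ := block_elem r hr.pos g hg hgfix
      have hX' : ∀ v, plusQF d F ((X : Matrix (Fin d ⊕ Fin d) (Fin d ⊕ Fin d) F) *ᵥ v) =
          plusQF d F v := hX
      have hXfix' : ∀ w : Fin d ⊕ Fin d → F,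
          (X : Matrix (Fin d ⊕ Fin d) (Fin d ⊕ Fin d) F) *ᵥ w = w → plusQF d F w = 0 := hXfix
      have hyr : mkO (plusQF d F) X hX' ^ r = 1 := Subtype.ext hXr
      have hyΩ : mkO (plusQF d F) X hX' ∈ commutator ↥(Cfsg.isometryGroup F ⇑(plusQF d F)) := by
        by_contra hno
        have h1 := index_two (plusQF d F) (plus_nondeg d) hc _ _ hno hno
        obtain ⟨k, hk⟩ := hr.eq_two_or_odd'.resolve_left hr2
        have h2 : mkO (plusQF d F) X hX' * (mkO (plusQF d F) X hX' * mkO (plusQF d F) X hX') ^ k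
            = 1 := by
          rw [← pow_two, ← pow_mul, ← pow_succ', ← hk, hyr]
        have h3 : mkO (plusQF d F) X hX' =
            ((mkO (plusQF d F) X hX' * mkO (plusQF d F) X hX') ^ k)⁻¹ :=
          eq_inv_of_mul_eq_one_left h2
        apply hno
        rw [h3]
        exact Subgroup.inv_mem _ (Subgroup.pow_mem _ h1 k)
      have hne : ∀ z : F, (X : Matrix (Fin d ⊕ Fin d) (Fin d ⊕ Fin d) F) ≠
          z • (1 : Matrix (Fin d ⊕ Fin d) (Fin d ⊕ Fin d) F) := by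
        intro z hz
        have h1 : (X : Matrix (Fin d ⊕ Fin d) (Fin d ⊕ Fin d) F) *ᵥ v0 = z • v0 := by
          rw [hz, Matrix.smul_mulVec, Matrix.one_mulVec]
        have h2 : z = 1 := smul_fix (plusQF d F) v0 hv0' z (by rw [← h1, hX'])
        rw [h2, one_smul] at h1
        exact hv0' (hXfix' v0 h1)
      obtain ⟨W, hW, hmap⟩ := hall X ⟨mkO (plusQF d F) X hX', hyΩ, rfl⟩ ⟨1, by
        rw [hXr, one_smul]
        rfl⟩ hne
      obtain ⟨w, hw, hfix⟩ := (fix_point_iff (plusQF d F) _ hX').1 ⟨W, hW, hmap⟩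
      exact hw (hXfix' w hfix)
  · rintro ⟨hr2, hodd⟩ x hxΩ ⟨z, hz⟩ hns
    obtain ⟨y, hyΩ, rfl⟩ := hxΩ
    have hyy : y * y = 1 := invol_of_sq_scalar (plusQF d F) y v0 hv0' z (by
      rw [← hr2]
      exact hz)
    have hnot : ¬ (rk (plusQF d F) y = d ∧ alt (plusQF d F) y) := by
      rintro ⟨h1, h2⟩
      obtain ⟨r', hr', _⟩ := centA (plusQF d F) (plus_nondeg d) hq y hyy h2
      rw [h1] at hr'
      obtain ⟨c, hc⟩ := hodd
      omega
    obtain ⟨w, hw, hxw⟩ := fix_ns (plusQF d F) (plus_nondeg d) d hcard y hyy hnot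
    have hxw' : ((y : GL (Fin d ⊕ Fin d) F) : Matrix (Fin d ⊕ Fin d) (Fin d ⊕ Fin d) F) *ᵥ w = w := hxw
    have hgoal := (fix_point_iff (plusQF d F)
      ((y : GL (Fin d ⊕ Fin d) F) : Matrix (Fin d ⊕ Fin d) (Fin d ⊕ Fin d) F)
      (Qx (plusQF d F) y)).2 ⟨w, hw, hxw'⟩
    exact hgoal

end Cfsg.Agent.S5985
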